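import Cfsg.Statements.S3816
import Cfsg.Agent.H84.Flav3
import Mathlib.GroupTheory.SemidirectProduct

set_option autoImplicit false
set_option linter.style.haveILetI false
open Cfsg

namespace Cfsg.Agent.S3816
open Subgroup SemidirectProduct Cfsg.Agent.H49 Cfsg.Agent.H84.Fl
open scoped commutatorElement


/-- Let p be an odd prime, H a finite solvable group of order prime to p, and x an automorphism of H of order p (so P = ⟨x⟩ has prime order p > 2 and acts coprimely on H). For h ∈ H let [h, P] be the subgroup generated by the commutators h⁻¹·xⁱ(h), and let [H, P] be the subgroup generated by all of these. Then the fixed points of x in [H, P] are generated by the fixed points of x in the subgroups [h, P], h ∈ H. -/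
theorem result {H : Type*} [Group H] [Finite H]
    [Group.IsSolvable H] {p : ℕ} [Fact p.Prime] (hp : p ≠ 2) (hcop : (Nat.card H).Coprime p)
    (x : MulAut H) (hx : orderOf x = p) :
    Subgroup.closure {c : H | ∃ h : H, ∃ i : ℕ, c = h⁻¹ * (x ^ i) h} ⊓ (x : H →* H).eqLocus (MonoidHom.id H) =
      ⨆ h : H, Subgroup.closure {c : H | ∃ i : ℕ, c = h⁻¹ * (x ^ i) h} ⊓ (x : H →* H).eqLocus (MonoidHom.id H) := by
  refine le_antisymm ?_ (iSup_le fun h => inf_le_inf_right _
    (closure_mono fun c ⟨i, e⟩ => ⟨h, i, e⟩))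
  let G := H ⋊[MonoidHom.id (MulAut H)] MulAut H
  have : Finite G := Finite.of_equiv _ SemidirectProduct.equivProd.symm
  let ι : H →* G := inl
  let y : G := inr x
  have hι : Function.Injective ι := inl_injective
  have e0 : ∀ (i : ℕ) (h : H), y ^ i * ι h * (y ^ i)⁻¹ = ι ((x ^ i) h) := fun i h => by
    have := inl_aut (φ := MonoidHom.id (MulAut H)) (x ^ i) h
    rw [map_inv, map_pow inr] at this
    exact this.symm
  have e1 : ∀ h : H, y * ι h * y⁻¹ = ι (x h) := fun h => by simpa using e0 1 h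
  have hN : zpowers y ≤ 𝒩(ι.range) := zpowers_le.2 (mem_norm_of_cj_le (by
    intro g hg
    obtain ⟨_, ⟨h, rfl⟩, rfl⟩ := mem_cj'.1 hg
    exact ⟨_, (e1 h).symm⟩))
  have hcard : Nat.card ι.range = Nat.card H :=
    (Nat.card_congr (MonoidHom.ofInjective hι).toEquiv).symm
  have key := main (Fact.out : p.Prime) hp _ G ι.range y rfl
    (by rw [← map_pow, ← hx, pow_orderOf_eq_one, map_one])
    (Group.isSolvable_of_surjective ι.rangeRestrict_surjective) hN (hcard ▸ hcop)
  have eC : ∀ h : H, ι h ∈ 𝒞(zpowers y) ↔ x h = h := fun h => by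
    rw [cent_zpowers, mem_cent1, eq_comm, ← mul_inv_eq_iff_eq_mul, e1, hι.eq_iff]
  have eK : ∀ h : H, Kh y (ι h) = (closure {c : H | ∃ i : ℕ, c = h⁻¹ * (x ^ i) h}).map ι := by
    intro h
    rw [MonoidHom.map_closure, Kh]
    congr 1
    ext c
    constructor
    · rintro ⟨i, rfl⟩
      exact ⟨_, ⟨i, rfl⟩, by rw [e0, map_mul, map_inv]⟩
    · rintro ⟨_, ⟨i, rfl⟩, rfl⟩
      exact ⟨i, by rw [e0, map_mul, map_inv]⟩
  rintro c ⟨hc1, hc2⟩
  have h1 : ι c ∈ ⁅ι.range, zpowers y⁆ := by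
    refine (closure_le (⁅ι.range, zpowers y⁆.comap ι)).2 ?_ hc1
    rintro _ ⟨h, i, rfl⟩
    have := commutator_mem_commutator (show ι h⁻¹ ∈ ι.range from ⟨_, rfl⟩)
      (pow_mem (mem_zpowers y) i)
    rw [commutatorElement_def, map_inv, inv_inv, mul_assoc, mul_assoc, ← mul_assoc (y ^ i), e0,
      ← map_inv, ← map_mul] at this
    exact this
  have h2 : Dx y ι.range ≤ (⨆ h : H, closure {c : H | ∃ i : ℕ, c = h⁻¹ * (x ^ i) h} ⊓
      (x : H →* H).eqLocus (MonoidHom.id H)).map ι := by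
    refine iSup_le ?_
    rintro ⟨_, h, rfl⟩ g ⟨g1, g2⟩
    obtain ⟨k, hk, rfl⟩ := (eK h).le g1
    exact mem_map_of_mem ι (mem_iSup_of_mem h (mem_inf.2 ⟨hk, (eC k).1 g2⟩))
  obtain ⟨d, hd, e⟩ := h2 (key (mem_inf.2 ⟨h1, (eC c).2 hc2⟩))
  exact hι e ▸ hd

end Cfsg.Agent.S3816
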