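import Cfsg.Statements.S0708
import Mathlib.Tactic

set_option autoImplicit false
open Cfsg

namespace Cfsg.Agent.S0708

/-- the embedding given by four distinct points -/
def emb4 {Ω : Type*} {a b c d : Ω} (h : [a, b, c, d].Nodup) : Fin 4 ↪ Ω :=
  ⟨![a, b, c, d], by
    intro i j hij
    fin_cases i <;> fin_cases j <;> simp_all⟩

theorem ex4 {G : Type*} [Group G] {Ω : Type*} [MulAction G Ω]
    (h4 : MulAction.IsMultiplyPretransitive G Ω 4) {a b c d a' b' c' d' : Ω}
    (h : [a, b, c, d].Nodup) (h' : [a', b', c', d'].Nodup) :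
    ∃ g : G, g • a = a' ∧ g • b = b' ∧ g • c = c' ∧ g • d = d' := by
  obtain ⟨g, hg⟩ := MulAction.exists_smul_eq G (emb4 h) (emb4 h')
  exact ⟨g, DFunLike.congr_fun hg 0, DFunLike.congr_fun hg 1, DFunLike.congr_fun hg 2,
    DFunLike.congr_fun hg 3⟩

theorem uniq4 {G : Type*} [Group G] {Ω : Type*} [MulAction G Ω]
    (hsharp : ∀ x : Fin 4 ↪ Ω, MulAction.stabilizer G x = ⊥) {a b c d : Ω}
    (h : [a, b, c, d].Nodup) {g k : G} (ha : g • a = k • a) (hb : g • b = k • b)
    (hc : g • c = k • c) (hd : g • d = k • d) : g = k := by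
  have : k⁻¹ * g ∈ MulAction.stabilizer G (emb4 h) := by
    rw [MulAction.mem_stabilizer_iff, mul_smul, inv_smul_eq_iff]
    ext i
    fin_cases i
    · exact ha
    · exact hb
    · exact hc
    · exact hd
  rw [hsharp, Subgroup.mem_bot] at this
  exact (inv_mul_eq_one.mp this).symm

/-- Tits' argument: a sharply 4-transitive group (no finiteness assumed) has finite degree at most 11, and at most 6 when the degree is even. -/
theorem result {G : Type*} [Group G] {Ω : Type*} [MulAction G Ω] (h4 : MulAction.IsMultiplyPretransitive G Ω 4) (hsharp : ∀ x : Fin 4 ↪ Ω, MulAction.stabilizer G x = ⊥) (hne : Nonempty (Fin 4 ↪ Ω)) : Finite Ω ∧ Nat.card Ω ≤ 11 ∧ (Even (Nat.card Ω) → Nat.card Ω ≤ 6) := by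
  classical
  obtain ⟨x⟩ := hne
  obtain ⟨a, b, c, d, hn⟩ : ∃ a b c d : Ω, [a, b, c, d].Nodup :=
    ⟨x 0, x 1, x 2, x 3, by simp⟩
  have hn' := hn
  simp only [List.nodup_cons, List.mem_cons, List.not_mem_nil, or_false, not_or,
    not_false_eq_true, List.nodup_nil, and_true] at hn'
  obtain ⟨⟨hab, hac, had⟩, ⟨hbc, hbd⟩, hcd⟩ := hn'
  obtain ⟨t, ta, tb, tc, td⟩ := ex4 h4 hn (a' := b) (b' := a) (c' := c) (d' := d)
    (by simp [*, Ne.symm hab])
  have htt : t * t = 1 := uniq4 hsharp hn (by simp [mul_smul, *]) (by simp [mul_smul, *])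
    (by simp [mul_smul, *]) (by simp [mul_smul, *])
  have htt' : ∀ y : Ω, t • t • y = y := fun y => by rw [← mul_smul, htt, one_smul]
  have ht1 : t ≠ 1 := by rintro rfl; exact hab (by simpa using ta)
  set F : Set Ω := {y | t • y = y} with hF
  set M : Set Ω := {y | t • y ≠ y ∧ y ≠ a ∧ y ≠ b} with hM
  have hF4 : ∀ s : Finset Ω, (s : Set Ω) ⊆ F → s.card ≤ 3 := by
    intro s hs
    by_contra h
    obtain ⟨u, hu, hu4⟩ := Finset.exists_subset_card_eq (s := s) (n := 4) (by omega)
    obtain ⟨p, q, r, w, h1, h2, h3, h4, h5, h6, rfl⟩ := Finset.card_eq_four.mp hu4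
    apply ht1
    apply uniq4 hsharp (a := p) (b := q) (c := r) (d := w) (by simp [*])
    all_goals
      rw [one_smul]
      exact hs (hu (by simp))
  have hFfin : F.Finite := by
    by_contra h
    obtain ⟨s, hs, hs4⟩ := Set.Infinite.exists_subset_card_eq h 4
    have := hF4 s hs
    omega
  set S : Finset Ω := hFfin.toFinset with hS
  have hmemS : ∀ y, y ∈ S ↔ t • y = y := by intro y; simp [hS, hF]
  have hS3 : S.card ≤ 3 := hF4 S (by simp [hS])
  have hS2 : 2 ≤ S.card := by
    rw [← Finset.card_pair hcd]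
    apply Finset.card_le_card
    intro y hy
    simp only [Finset.mem_insert, Finset.mem_singleton] at hy
    rcases hy with rfl | rfl <;> rwa [hmemS]
  have haS : ∀ y ∈ S, a ≠ y ∧ b ≠ y := by
    intro y hy
    rw [hmemS] at hy
    constructor
    · rintro rfl; exact hab (hy.symm.trans ta)
    · rintro rfl; exact hab (tb.symm.trans hy)
  have hMn : ∀ y ∈ M, [a, b, y, t • y].Nodup := by
    rintro y ⟨h1, h2, h3⟩
    have h4 : a ≠ t • y := fun h => h3 (by rw [← ta, h, htt'])
    have h5 : b ≠ t • y := fun h => h2 (by rw [← tb, h, htt'])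
    simp [hab, h4, h5, h1.symm, h2.symm, h3.symm]
  have hMc : M.Finite ∧ (M.ncard = 0 ∨ M.ncard = S.card * S.card - S.card) := by
    rcases M.eq_empty_or_nonempty with h | ⟨e, he⟩
    · simp [h]
    let D := {g : G // g • a = a ∧ g • b = b ∧ g * t = t * g}
    have hD : ∀ (g : D) (y : Ω), g.1 • t • y = t • g.1 • y := fun g y => by
      rw [← mul_smul, g.2.2.2, mul_smul]
    let φ : D → M := fun g => ⟨g.1 • e, by
      refine ⟨?_, ?_, ?_⟩
      · rw [← hD]; exact fun h => he.1 (MulAction.injective _ h)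
      · exact fun h => he.2.1 (MulAction.injective g.1 (h.trans g.2.1.symm))
      · exact fun h => he.2.2 (MulAction.injective g.1 (h.trans g.2.2.1.symm))⟩
    let ψ : D → S.offDiag := fun g => ⟨(g.1 • c, g.1 • d), by
      rw [Finset.mem_offDiag]
      refine ⟨?_, ?_, fun h => hcd (MulAction.injective _ h)⟩
      · rw [hmemS, ← hD, tc]
      · rw [hmemS, ← hD, td]⟩
    have hφ : Function.Bijective φ := by
      constructor
      · intro g h hgh
        have h1 : g.1 • e = h.1 • e := congrArg Subtype.val hgh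
        exact Subtype.ext (uniq4 hsharp (hMn e he) (g.2.1.trans h.2.1.symm)
          (g.2.2.1.trans h.2.2.1.symm) h1 (by rw [hD, hD, h1]))
      · rintro ⟨y, hy⟩
        obtain ⟨g, g1, g2, g3, g4⟩ := ex4 h4 (hMn e he) (hMn y hy)
        refine ⟨⟨g, g1, g2, uniq4 hsharp (hMn e he) ?_ ?_ ?_ ?_⟩, Subtype.ext g3⟩ <;>
          simp only [mul_smul, *]
    have hψ : Function.Bijective ψ := by
      constructor
      · intro g h hgh
        have h1 := Prod.ext_iff.mp (congrArg Subtype.val hgh)
        exact Subtype.ext (uniq4 hsharp hn (g.2.1.trans h.2.1.symm)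
          (g.2.2.1.trans h.2.2.1.symm) h1.1 h1.2)
      · rintro ⟨⟨u, v⟩, huv⟩
        obtain ⟨hu, hv, huv'⟩ := Finset.mem_offDiag.mp huv
        obtain ⟨g, g1, g2, g3, g4⟩ := ex4 h4 hn (a' := a) (b' := b) (c' := u) (d' := v)
          (by simpa [hab, haS u hu, haS v hv] using huv')
        have hu' := (hmemS u).mp hu
        have hv' := (hmemS v).mp hv
        refine ⟨⟨g, g1, g2, uniq4 hsharp hn ?_ ?_ ?_ ?_⟩, Subtype.ext (Prod.ext g3 g4)⟩ <;>
          simp only [mul_smul, *]
    have : Finite D := Finite.of_injective ψ hψ.1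
    have : Finite M := Finite.of_surjective φ hφ.2
    refine ⟨Set.toFinite M, Or.inr ?_⟩
    rw [← Nat.card_coe_set_eq, ← Nat.card_eq_of_bijective φ hφ, Nat.card_eq_of_bijective ψ hψ,
      Nat.card_eq_fintype_card, Fintype.card_coe, Finset.offDiag_card]
  have huniv : (Set.univ : Set Ω) = (insert a (insert b (S : Set Ω))) ∪ M := by
    ext y
    simp only [Set.mem_univ, Set.mem_union, Set.mem_insert_iff, Finset.mem_coe, hmemS, hM,
      Set.mem_setOf_eq, true_iff]
    tauto
  have hfin : Finite Ω := by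
    rw [← Set.finite_univ_iff, huniv]
    exact ((S.finite_toSet.insert b).insert a).union hMc.1
  have hcard : Nat.card Ω = S.card + 1 + 1 + M.ncard := by
    rw [← Set.ncard_univ, huniv, Set.ncard_union_eq, Set.ncard_insert_of_notMem,
      Set.ncard_insert_of_notMem, Set.ncard_coe_finset]
    · exact fun h => (haS b h).2 rfl
    · rintro (h | h)
      · exact hab h
      · exact (haS a h).1 rfl
    · rw [Set.disjoint_right]
      rintro y ⟨h1, h2, h3⟩ (h | h | h)
      · exact h2 h
      · exact h3 h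
      · exact h1 ((hmemS y).mp h)
  refine ⟨hfin, ?_⟩
  rw [hcard]
  obtain ⟨-, h⟩ := hMc
  generalize S.card = f at *
  interval_cases f <;> rcases h with h | h <;> rw [h] <;> decide

end Cfsg.Agent.S0708
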