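import Cfsg.Statements.S3430
import Cfsg.Agent.H52.Zsig
-- import your own Cfsg.Agent.* helpers here

set_option autoImplicit false
open Cfsg

namespace Cfsg.Agent.S3430

/-- Let q, n ≥ 2 be integers. Unless (n = 2 and q + 1 = 2^s·3^t for some s ≥ 0 and t ≤ 1), or (q = 2 and n ∈ {4, 6, 10, 12, 18}), or (q = 3 and n ∈ {4, 6}), or (q, n) = (5, 6), there is a prime p dividing q^n − 1 but no q^i − 1 with 1 ≤ i < n (a primitive prime divisor), such that p > n + 1 or p² divides q^n − 1. -/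
theorem result (q n : ℕ) (hq : 2 ≤ q) (hn : 2 ≤ n)
    (h1 : ¬ (n = 2 ∧ ∃ s t : ℕ, t ≤ 1 ∧ q + 1 = 2 ^ s * 3 ^ t))
    (h2 : ¬ (q = 2 ∧ (n = 4 ∨ n = 6 ∨ n = 10 ∨ n = 12 ∨ n = 18)))
    (h3 : ¬ (q = 3 ∧ (n = 4 ∨ n = 6))) (h4 : ¬ (q = 5 ∧ n = 6)) :
    ∃ p : ℕ, p.Prime ∧ p ∣ q ^ n - 1 ∧ (∀ i : ℕ, 1 ≤ i → i < n → ¬ p ∣ q ^ i - 1) ∧ (n + 1 < p ∨ p ^ 2 ∣ q ^ n - 1) := by
  rcases Nat.lt_or_ge n 3 with h3' | h3'
  · obtain rfl : n = 2 := by omega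
    have h : ¬ ∃ s t : ℕ, t ≤ 1 ∧ q + 1 = 2 ^ s * 3 ^ t := fun h => h1 ⟨rfl, h⟩
    have hsq : q ^ 2 - 1 = (q + 1) * (q - 1) := by rw [← Nat.sq_sub_sq]
    have prim : ∀ r : ℕ, r.Prime → r ∣ q + 1 → r ≠ 2 → ∀ i : ℕ, 1 ≤ i → i < 2 → ¬ r ∣ q ^ i - 1 := by
      intro r hr hra hr2 k hk hk2 hd
      obtain rfl : k = 1 := by omega
      rw [pow_one] at hd
      have h1 : r ∣ 2 := by
        have := Nat.dvd_sub hra hd
        rwa [show q + 1 - (q - 1) = 2 by omega] at this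
      exact hr2 ((Nat.prime_dvd_prime_iff_eq hr Nat.prime_two).1 h1)
    obtain ⟨s, u, hu, hsu⟩ := Nat.exists_eq_pow_mul_and_not_dvd (n := q + 1) (by omega) 2 (by norm_num)
    obtain ⟨t, v, hv, htv⟩ := Nat.exists_eq_pow_mul_and_not_dvd (n := u)
      (by rintro rfl; simp at hu) 3 (by norm_num)
    by_cases hv1 : v = 1
    · subst hv1
      have ht : 2 ≤ t := by
        by_contra hc
        exact h ⟨s, t, by omega, by rw [hsu, htv, mul_one]⟩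
      have h9 : 3 ^ 2 ∣ q + 1 := by
        rw [hsu, htv, mul_one]
        exact Dvd.dvd.mul_left (pow_dvd_pow 3 ht) _
      have h3d : 3 ∣ q + 1 := (by norm_num : 3 ∣ 3 ^ 2).trans h9
      exact ⟨3, Nat.prime_three, hsq ▸ h3d.mul_right _, prim 3 Nat.prime_three h3d (by norm_num),
        Or.inr (hsq ▸ h9.mul_right _)⟩
    · obtain ⟨r, hr, hrv⟩ := Nat.exists_prime_and_dvd hv1
      have hru : r ∣ u := htv ▸ hrv.mul_left _
      have hrq : r ∣ q + 1 := hsu ▸ hru.mul_left _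
      have hr2 : r ≠ 2 := by rintro rfl; exact hu hru
      have hr3 : r ≠ 3 := by rintro rfl; exact hv hrv
      exact ⟨r, hr, hsq ▸ hrq.mul_right _, prim r hr hrq hr2, Or.inl (by have := hr.two_le; omega)⟩
  · obtain ⟨m, hm, hlt⟩ : ∃ m, H52.Zsig.IsPrimDiv q n m ∧ n + 1 < m := by
      by_cases h : (q, n) ∈ H52.Zsig.exc
      · obtain ⟨-, -, h5, -, h6⟩ := H52.Zsig.primPart_exc _ h
        refine ⟨_, H52.Zsig.isPrimDiv_primPart h5, h6 ?_⟩
        simp only [H52.Zsig.exc, List.mem_cons, Prod.mk.injEq, List.not_mem_nil, or_false] at h ⊢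
        omega
      · obtain ⟨m, hm, h5⟩ := H52.Zsig.exists_primDiv hq h3' h
        exact ⟨m, hm, by omega⟩
    by_contra hc
    push Not at hc
    have key : ∀ r : ℕ, r.Prime → r ∣ m → r = n + 1 ∧ ¬ r ^ 2 ∣ m := by
      intro r hr hrm
      have hp : ∀ i : ℕ, 1 ≤ i → i < n → ¬ r ∣ q ^ i - 1 := fun i hi hin => hm.not_dvd hr hrm hi hin
      obtain ⟨h5, h6⟩ := hc r hr (hrm.trans hm.1) hp
      have h7 := H52.Zsig.dvd_sub_one_of_primitive hq (by omega) hr (hrm.trans hm.1) hp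
      have h8 := Nat.le_of_dvd (by have := hr.two_le; omega) h7
      have := hr.two_le
      exact ⟨by omega, fun h => h6 (h.trans hm.1)⟩
    obtain ⟨r, hr, k, hk⟩ := Nat.exists_prime_and_dvd (n := m) (by omega)
    obtain ⟨h5, h6⟩ := key r hr ⟨k, hk⟩
    have hk1 : k ≠ 1 := by rintro rfl; omega
    obtain ⟨r', hr', hk'⟩ := Nat.exists_prime_and_dvd hk1
    obtain ⟨h7, -⟩ := key r' hr' (hk ▸ hk'.mul_left _)
    apply h6
    rw [hk, sq]
    exact Nat.mul_dvd_mul_left _ (by rw [h5, ← h7]; exact hk')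

end Cfsg.Agent.S3430
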