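import Cfsg.Statements.S4211
import Cfsg.Agent.H3.ClassTwo
import Cfsg.Agent.H82.Basic
import Cfsg.Agent.H42.Index2

set_option autoImplicit false
open Cfsg

namespace Cfsg.Agent.S4211

open Subgroup
open scoped commutatorElement

theorem choose_aux {p n : ℕ} (hp : p.Prime) (h : ¬ p ∣ (p ^ n).choose 2) : p = 2 ∧ n = 1 := by
  have e : 2 * (p ^ n).choose 2 = p ^ n * (p ^ n - 1) := by
    rw [Nat.choose_two_right, Nat.mul_div_cancel' (Nat.even_mul_pred_self _).two_dvd]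
  rcases n with _ | n
  · simp at h
  obtain rfl : p = 2 := by
    by_contra h2
    exact h (((Nat.coprime_primes hp Nat.prime_two).2 h2).dvd_of_dvd_mul_left
      (e ▸ (dvd_pow_self p n.succ_ne_zero).mul_right _))
  rcases n with _ | n
  · exact ⟨rfl, rfl⟩
  refine (h (Nat.dvd_of_mul_dvd_mul_left two_pos (e ▸ Dvd.dvd.mul_right ?_ _))).elim
  exact ⟨2 ^ n, by ring⟩

section

variable {G : Type*} [Group G] [Finite G]

theorem eq_sq {x c : G} (hx : orderOf x = 4) (hc : c ∈ zpowers x) (h : c * c = 1) :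
    c = 1 ∨ c = x ^ 2 :=
  (H42.mem_zpowers_of_mul_self (by rw [← pow_add, ← pow_orderOf_eq_one x, hx])).1
    (H42.mem_zpowers_pow_of_pow_eq_one two_ne_zero (d := 2) hx hc (by rwa [pow_two]))

omit [Finite G] in
theorem four_cases {a b : G} (ha : a ^ 4 = 1) (hb : b ∈ zpowers a) :
    b = 1 ∨ b = a ∨ b = a ^ 2 ∨ b = a⁻¹ := by
  obtain ⟨i, rfl⟩ := mem_zpowers_iff.1 hb
  rw [zpow_eq_zpow_emod' i ha]
  have : i % (4 : ℕ) = 0 ∨ i % (4 : ℕ) = 1 ∨ i % (4 : ℕ) = 2 ∨ i % (4 : ℕ) = 3 := by omega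
  rcases this with h | h | h | h <;> rw [h]
  · exact Or.inl (zpow_zero a)
  · exact Or.inr (Or.inl (zpow_one a))
  · exact Or.inr (Or.inr (Or.inl (zpow_ofNat a 2)))
  · exact Or.inr (Or.inr (Or.inr (by rw [eq_inv_iff_mul_eq_one, zpow_ofNat, ← pow_succ, ha])))

variable (hn : ∀ H : Subgroup G, H.Normal)
include hn

omit [Finite G] in
theorem comm_mem (x y : G) : ⁅y, x⁆ ∈ zpowers x ∧ ⁅y, x⁆ ∈ zpowers y := by
  refine ⟨mul_mem ((hn _).conj_mem _ (mem_zpowers x) y) (inv_mem (mem_zpowers x)), ?_⟩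
  have := mul_mem (mem_zpowers y) ((hn _).conj_mem _ (inv_mem (mem_zpowers y)) x)
  rwa [← mul_assoc, ← mul_assoc] at this

theorem core (H : Subgroup G) (h : ∃ x ∈ H, ∃ y ∈ H, ⁅y, x⁆ ≠ 1) :
    ∃ x ∈ H, ∃ y ∈ H, orderOf x = 4 ∧ y * y = x ^ 2 ∧ ⁅y, x⁆ = x ^ 2 := by
  obtain ⟨⟨x, y⟩, ⟨hx, hy, hc⟩, hmin⟩ := (measure fun a : G × G => orderOf a.1 + orderOf a.2).wf.has_min
    {a | a.1 ∈ H ∧ a.2 ∈ H ∧ ⁅a.2, a.1⁆ ≠ 1} (let ⟨x, hx, y, hy, h⟩ := h; ⟨(x, y), hx, hy, h⟩)
  replace hmin : ∀ a ∈ H, ∀ b ∈ H, orderOf a + orderOf b < orderOf x + orderOf y → ⁅b, a⁆ = 1 :=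
    fun a ha b hb hab => by_contra fun h => hmin (a, b) ⟨ha, hb, h⟩ hab
  dsimp only at hx hy hc
  clear h
  wlog hle : orderOf y ≤ orderOf x generalizing x y
  · exact this y x hy hx (by rw [← commutatorElement_inv]; exact inv_ne_one.2 hc)
      (by rwa [add_comm (orderOf y)]) (le_of_not_ge hle)
  obtain ⟨c1, c2⟩ := comm_mem hn x y
  have d1 : Commute x ⁅y, x⁆ := H82.commute_of_mem_zpowers (mem_zpowers x) c1
  have d2 : Commute y ⁅y, x⁆ := H82.commute_of_mem_zpowers (mem_zpowers y) c2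
  have hlt : ∀ (a : G) (q : ℕ), q.Prime → q ∣ orderOf a → orderOf (a ^ q) < orderOf a :=
    fun a q hq h => by
      rw [orderOf_pow_of_dvd hq.ne_zero h]
      exact Nat.div_lt_self (orderOf_pos a) hq.one_lt
  have h1 : ∀ q : ℕ, q.Prime → q ∣ orderOf x → q = orderOf ⁅y, x⁆ := fun q hq h => by
    haveI := Fact.mk hq
    refine (orderOf_eq_prime ?_ hc).symm
    rw [← H3.commutator_pow_right_of_commute d1]
    exact hmin _ (pow_mem hx q) _ hy (Nat.add_lt_add_right (hlt x q hq h) _)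
  have h2 : ∀ q : ℕ, q.Prime → q ∣ orderOf y → q = orderOf ⁅y, x⁆ := fun q hq h => by
    haveI := Fact.mk hq
    refine (orderOf_eq_prime ?_ hc).symm
    rw [← H3.commutator_pow_left_of_commute d2]
    exact hmin _ hx _ (pow_mem hy q) (Nat.add_lt_add_left (hlt y q hq h) _)
  have hy1 : orderOf y ≠ 1 := fun e => hc (by rw [orderOf_eq_one_iff.1 e]; simp)
  obtain ⟨p, hp, hpy⟩ := Nat.exists_prime_and_dvd hy1
  have hpc := (h2 p hp hpy).symm
  rw [hpc] at h1 h2
  obtain ⟨m, hm⟩ := H82.eq_prime_pow_of_forall (orderOf_pos x).ne' h1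
  obtain ⟨n, hn'⟩ := H82.eq_prime_pow_of_forall (orderOf_pos y).ne' h2
  obtain ⟨n, rfl⟩ := Nat.exists_eq_succ_of_ne_zero (n := n) (by rintro rfl; exact hy1 hn')
  obtain ⟨d, rfl⟩ := Nat.exists_eq_add_of_le
    ((Nat.pow_le_pow_iff_right hp.one_lt).1 (hn' ▸ hm ▸ hle))
  have e1 : y ^ p ^ n ∈ zpowers ⁅y, x⁆ := H82.mem_zpowers_of_orderOf_dvd
    (pow_mem (mem_zpowers y) _) c2 (by
      rw [hpc, H42.orderOf_pow_of_eq_mul (pow_pos hp.pos n).ne' (hn'.trans (pow_succ p n))])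
  have e2 : ⁅y, x⁆ ∈ zpowers (x ^ p ^ (d + n)) := H42.mem_zpowers_pow_of_pow_eq_one hp.ne_zero
    (by rw [hm]; simp only [Nat.succ_eq_add_one]; ring) c1 (hpc ▸ pow_orderOf_eq_one _)
  obtain ⟨k, hk⟩ := mem_powers_iff_mem_zpowers.2 (inv_mem (zpowers_le.2 e2 e1))
  have e3 : ⁅y, x ^ (p ^ d * k)⁆ = ⁅y, x⁆ ^ (p ^ d * k) := H3.commutator_pow_right_of_commute d1 _
  have e4 : (x ^ (p ^ d * k) * y) ^ p ^ n = ⁅y, x⁆ ^ (p ^ d * k * (p ^ n).choose 2) := by
    rw [H3.mul_pow_of_commute_commutator (e3 ▸ (d1.pow_pow _ _)) (e3 ▸ d2.pow_right _), e3,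
      ← pow_mul, ← pow_mul, show p ^ d * k * p ^ n = p ^ (d + n) * k by ring, pow_mul x]
    rw [show (x ^ p ^ (d + n)) ^ k = _ from hk, inv_mul_cancel, mul_one]
  have e5 : ¬ p ∣ p ^ d * k * (p ^ n).choose 2 := fun h => by
    rw [← hpc, orderOf_dvd_iff_pow_eq_one, hpc, ← e4] at h
    have := hmin _ hx _ (mul_mem (pow_mem hx (p ^ d * k)) hy) (Nat.add_lt_add_left
      ((orderOf_le_of_pow_eq_one (pow_pos hp.pos n) h).trans_lt
        (hn' ▸ Nat.pow_lt_pow_right hp.one_lt n.lt_succ_self)) _)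
    rw [H3.commutator_mul_left_of_commute (d1.pow_left _), commutatorElement_eq_one_iff_commute.2
      ((Commute.refl x).pow_left _), mul_one] at this
    exact hc this
  obtain ⟨rfl, rfl⟩ := choose_aux hp fun h => e5 (h.mul_left _)
  obtain rfl : d = 0 := by
    by_contra h
    exact e5 (((dvd_pow_self 2 h).mul_right _).mul_right _)
  have e6 : ⁅y, x⁆ * ⁅y, x⁆ = 1 := by rw [← pow_two, ← hpc, pow_orderOf_eq_one]
  have e7 := (eq_sq hm c1 e6).resolve_left hc
  exact ⟨x, hx, y, hy, hm, by rw [← e7, (eq_sq hn' c2 e6).resolve_left hc, pow_two], e7⟩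

theorem odd_central {v : G} (hv : Odd (orderOf v)) (w : G) : ⁅w, v⁆ = 1 := by
  by_contra h
  haveI := hn (zpowers v)
  obtain ⟨x, hx, y, hy, h1, -, h2⟩ := core hn ((zpowers (w : G ⧸ zpowers v)).comap
    (QuotientGroup.mk' _)) ⟨v, by
      rw [mem_comap, QuotientGroup.mk'_apply, (QuotientGroup.eq_one_iff _).2 (mem_zpowers v)]
      exact one_mem _, w, mem_zpowers _, h⟩
  have h3 : ⁅y, x⁆ ∈ zpowers v := (QuotientGroup.eq_one_iff _).1
    (commutatorElement_eq_one_iff_commute.2 (H82.commute_of_mem_zpowers hy hx))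
  have h4 := orderOf_dvd_of_mem_zpowers h3
  rw [h2, H42.orderOf_pow_of_eq_mul two_ne_zero (e := 2) h1] at h4
  exact (Nat.not_even_iff_odd.2 hv) (even_iff_two_dvd.2 h4)

omit [Finite G] in
theorem inv_central {v : G} (hv : v * v = 1) (w : G) : w * v = v * w := by
  rcases (H42.mem_zpowers_of_mul_self hv).1 ((hn _).conj_mem _ (mem_zpowers v) w) with h | h
  · rw [conj_eq_one_iff.1 h, one_mul, mul_one]
  · exact mul_inv_eq_iff_eq_mul.1 h

omit [Finite G] in
theorem conj_cases {x : G} (hx : orderOf x = 4) (g : G) :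
    g * x * g⁻¹ = x ∨ g * x * g⁻¹ = x⁻¹ := by
  have h4 : x ^ 4 = 1 := hx ▸ pow_orderOf_eq_one x
  have h1 : (g * x * g⁻¹) ^ 2 ≠ 1 := pow_ne_one_of_lt_orderOf two_ne_zero (by
    rw [show orderOf (g * x * g⁻¹) = orderOf x from (MulAut.conj g).orderOf_eq x]; omega)
  rcases four_cases h4 ((hn _).conj_mem _ (mem_zpowers x) g) with h | h | h | h
  · exact (h1 (by rw [h, one_pow])).elim
  · exact Or.inl h
  · exact (h1 (by rw [h, ← pow_mul, h4])).elim
  · exact Or.inr h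

end

/-- A finite non-abelian group in which every subgroup is normal is the internal direct product of a subgroup isomorphic to the quaternion group of order `8`, an elementary abelian `2`-subgroup and an abelian subgroup of odd order. -/
theorem result {G : Type*} [Group G] [Finite G] (hna : ¬ IsMulCommutative G) (hn : ∀ H : Subgroup G, H.Normal) : ∃ Q E A : Subgroup G, Nonempty (Q ≃* QuaternionGroup 2) ∧ Cfsg.IsElementaryAbelian 2 E ∧ IsMulCommutative A ∧ Odd (Nat.card A) ∧ E ⊓ A = ⊥ ∧ Q ⊓ (E ⊔ A) = ⊥ ∧ Q ⊔ (E ⊔ A) = ⊤ := by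
  obtain ⟨x, -, y, -, hx, hy, hc⟩ := core hn ⊤ (by
    by_contra h
    push Not at h
    exact hna ⟨⟨fun a b => commutatorElement_eq_one_iff_mul_comm.1 (h b trivial a trivial)⟩⟩)
  have hx4 : x ^ 4 = 1 := hx ▸ pow_orderOf_eq_one x
  have hc1 : x ^ 2 ≠ 1 := pow_ne_one_of_lt_orderOf two_ne_zero (by omega)
  have hcc : x ^ 2 * x ^ 2 = 1 := by rw [← pow_add, hx4]
  have hyx : y * x * y⁻¹ = x⁻¹ := by
    rw [commutatorElement_def, mul_inv_eq_iff_eq_mul] at hc
    rw [hc, eq_inv_iff_mul_eq_one, ← pow_succ, ← pow_succ, hx4]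
  have hy4 : orderOf y = 4 := orderOf_eq_prime_pow (p := 2) (n := 1) (by rwa [pow_one, pow_two, hy])
    (by rw [pow_two, pow_mul, pow_two y, hy, pow_two, hcc])
  have hxy : x * y * x⁻¹ = y⁻¹ := (conj_cases hn hy4 x).resolve_left fun h => hc1 (by
    rw [← hc, commutatorElement_eq_one_iff_mul_comm, mul_inv_eq_iff_eq_mul.1 h])
  have hyx' : y ∉ zpowers x := fun h => hc1 (hc ▸ commutatorElement_eq_one_iff_commute.2
    (H82.commute_of_mem_zpowers h (mem_zpowers x)))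
  let W : Subgroup G :=
    { carrier := {g | g * g = 1}
      one_mem' := one_mul 1
      mul_mem' := fun {a b} ha hb => by
        show a * b * (a * b) = 1
        rw [mul_assoc, ← mul_assoc b, inv_central hn ha b, mul_assoc, hb, mul_one, ha]
      inv_mem' := fun {a} ha => by
        show a⁻¹ * a⁻¹ = 1
        rw [← mul_inv_rev, ha, inv_one] }
  have hA : ∀ {a : G}, Odd (orderOf a) → ∀ b, Commute b a := fun ha b =>
    commutatorElement_eq_one_iff_commute.1 (odd_central hn ha b)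
  let A : Subgroup G :=
    { carrier := {g | Odd (orderOf g)}
      one_mem' := by simp
      mul_mem' := fun {a b} ha hb => (Odd.mul ha hb).of_dvd_nat (hA hb a).orderOf_mul_dvd_mul_orderOf
      inv_mem' := fun {a} ha => by simpa using ha }
  have hA1 : ∀ a ∈ A, a ^ 4 = 1 → a = 1 := fun a ha h => H82.eq_one_of_pow_coprime
    ((Nat.coprime_two_left.2 ha).pow_left 2) h (pow_orderOf_eq_one a)
  obtain ⟨E, ⟨hEW, hcE⟩, hmax⟩ := (wellFounded_gt (α := Subgroup G)).has_min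
    {E | E ≤ W ∧ x ^ 2 ∉ E} ⟨⊥, bot_le, hc1⟩
  have hW : W ≤ zpowers x ⊔ E := fun g hg => by
    by_cases hgE : g ∈ E
    · exact mem_sup_right hgE
    have h1 : x ^ 2 ∈ E ⊔ zpowers g := by
      by_contra h
      exact hmax _ ⟨sup_le hEW (zpowers_le.2 hg), h⟩ (lt_of_le_of_ne le_sup_left
        fun e => hgE (e ▸ mem_sup_right (mem_zpowers g)))
    have h2 := ((H42.mem_sup_zpowers (by haveI := hn E; rw [normalizer_eq_top]; trivial)
      (hg ▸ E.one_mem)).1 h1).resolve_left hcE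
    have := mul_mem (inv_mem (mem_sup_right (S := zpowers x) h2))
      (mem_sup_left (pow_mem (mem_zpowers x) 2))
    rwa [mul_inv_rev, inv_inv, inv_mul_cancel_right] at this
  have h4 : ∀ u : G, Commute u x → Commute u y → u ^ 4 = 1 → u * u = 1 := fun u h1 h2 h3 => by
    have h5 : (u * x) ^ 4 = 1 := by rw [h1.mul_pow, h3, hx4, one_mul]
    have h6 : y * (u * x) * y⁻¹ = u * x⁻¹ := by rw [← mul_assoc, ← h2.eq, mul_assoc u, mul_assoc u, hyx]
    have h7 := mul_mem (inv_mem ((hn _).conj_mem _ (mem_zpowers (u * x)) y)) (mem_zpowers (u * x))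
    rw [h6, mul_inv_rev, inv_inv, mul_assoc, inv_mul_cancel_left, ← pow_two] at h7
    have h8 : ¬ Commute (u * x) y := fun h => hc1 (by
      rw [← h.eq, mul_inv_cancel_right, mul_right_inj] at h6
      rw [pow_two, mul_eq_one_iff_eq_inv, ← h6])
    have h9 : Commute (x ^ 2) y := (inv_central hn hcc y).symm
    rcases four_cases h5 h7 with h | h | h | h
    · exact (hc1 h).elim
    · exact (h8 (h ▸ h9)).elim
    · rw [h1.mul_pow, eq_comm, mul_eq_right, pow_two] at h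
      exact h
    · exact (h8 (Commute.inv_left_iff.1 (h ▸ h9))).elim
  have h5 : ∀ (k : ℕ) (u : G), Commute u x → Commute u y → u ^ 2 ^ k = 1 → u * u = 1 := by
    intro k
    induction k with
    | zero => exact fun u _ _ h => by rw [pow_zero, pow_one] at h; rw [h, one_mul]
    | succ k ih =>
      refine fun u h1 h2 h => h4 u h1 h2 ?_
      have := ih (u ^ 2) (h1.pow_left 2) (h2.pow_left 2) (by rwa [← pow_mul, ← pow_succ'])
      rwa [← pow_add] at this
  refine ⟨zpowers x ⊔ zpowers y, E, A, H42.quaternion_recog two_ne_zero hx hy hyx hyx',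
    ⟨⟨⟨fun a b => Subtype.ext (inv_central hn (hEW b.2) a)⟩⟩, fun a ha => (pow_two a).trans (hEW ha)⟩,
    ⟨⟨fun a b => Subtype.ext (hA b.2 a)⟩⟩, ?_, le_bot_iff.1 fun a ha => hA1 a ha.2 (by
      rw [show 4 = 2 * 2 from rfl, pow_mul, pow_two a, hEW ha.1, one_pow]),
    le_bot_iff.1 fun q hq => ?_, top_le_iff.1 fun g _ => ?_⟩
  · by_contra h
    obtain ⟨a, ha⟩ := exists_prime_orderOf_dvd_card' 2 (Nat.not_odd_iff_even.1 h).two_dvd
    have : Odd (orderOf (a : G)) := a.2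
    rw [Subgroup.orderOf_coe, ha] at this
    exact absurd this (by decide)
  · haveI := hn A
    obtain ⟨e, he, a, ha, rfl⟩ := mem_sup_of_normal_right.1 hq.2
    have h6 := (H42.mem_sup_zpowers (H42.mem_normalizer_zpowers_of_inverts hyx)
      (hy ▸ pow_mem (mem_zpowers x) 2)).1 hq.1
    have h7 : Commute (e * a) x := Commute.mul_left (inv_central hn (hEW he) x).symm (hA ha x).symm
    replace h6 := h6.resolve_right fun h => hc1 (by
      have h8 := h7.symm.inv_right.mul_right (H82.commute_of_mem_zpowers (mem_zpowers x) h)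
      rw [← mul_assoc, inv_mul_cancel, one_mul, Commute.inv_right_iff] at h8
      rw [← hc, commutatorElement_eq_one_iff_commute.2 h8.symm])
    have h8 : (e * a) ^ 4 = 1 := orderOf_dvd_iff_pow_eq_one.1 (hx ▸ orderOf_dvd_of_mem_zpowers h6)
    rw [(hA ha e).mul_pow, show 4 = 2 * 2 from rfl, pow_mul, pow_two e, hEW he, one_pow,
      one_mul] at h8
    rw [hA1 a ha h8, mul_one] at h6 ⊢
    exact (eq_sq hx h6 (hEW he)).resolve_right fun h => hcE (h ▸ he)
  · have key : ∀ w, w * x * w⁻¹ = x → w * y * w⁻¹ = y → w ∈ zpowers x ⊔ zpowers y ⊔ (E ⊔ A) :=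
      fun w h1 h2 => by
        obtain ⟨u, v, hu, -, rfl, ⟨k, hk⟩, hv⟩ := H82.exists_p_parts Nat.prime_two w
        obtain ⟨i, hi⟩ := mem_zpowers_iff.1 hu
        have h3 := hW (h5 k u (hi ▸ Commute.zpow_left (mul_inv_eq_iff_eq_mul.1 h1) i)
          (hi ▸ Commute.zpow_left (mul_inv_eq_iff_eq_mul.1 h2) i) (hk ▸ pow_orderOf_eq_one u))
        exact mul_mem (SetLike.le_def.1 (sup_le_sup le_sup_left le_sup_left) h3)
          (mem_sup_right (mem_sup_right (Nat.coprime_two_right.1 hv)))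
    have hxm : x ∈ zpowers x ⊔ zpowers y ⊔ (E ⊔ A) := mem_sup_left (mem_sup_left (mem_zpowers x))
    have hym : y ∈ zpowers x ⊔ zpowers y ⊔ (E ⊔ A) := mem_sup_left (mem_sup_right (mem_zpowers y))
    have key2 : ∀ w, w * x * w⁻¹ = x → w ∈ zpowers x ⊔ zpowers y ⊔ (E ⊔ A) := fun w h1 => by
      rcases conj_cases hn hy4 w with h2 | h2
      · exact key w h1 h2
      · refine (mul_mem_cancel_left hxm).1 (key _ ?_ ?_)
        · rw [mul_inv_rev, ← mul_assoc, mul_assoc x, mul_assoc x, h1, mul_inv_cancel_right]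
        · rw [mul_inv_rev, ← mul_assoc, mul_assoc x, mul_assoc x, h2, ← conj_inv, hxy, inv_inv]
    rcases conj_cases hn hx g with h1 | h1
    · exact key2 g h1
    · refine (mul_mem_cancel_left hym).1 (key2 _ ?_)
      rw [mul_inv_rev, ← mul_assoc, mul_assoc y, mul_assoc y, h1, ← conj_inv, hyx, inv_inv]

end Cfsg.Agent.S4211
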