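import Cfsg.Statements.S3818
import Cfsg.Agent.H50.FixDim3
import Cfsg.Agent.H49.Hall
import Cfsg.Agent.H2.MinNormal
import Cfsg.Agent.H5.Basic

set_option autoImplicit false
open Cfsg

namespace Cfsg.Agent.S3818

open Subgroup Cfsg.Agent.H49 Cfsg.Agent.H50

open Cfsg.Agent.H79 in
theorem ker_le {k V : Type*} [Field k] [AddCommGroup V] [Module k V] [FiniteDimensional k V]
    (K : Type*) [Field K] [Algebra k K] (f : Module.End k V) :
    Module.finrank k (LinearMap.ker f) ≤ Module.finrank K (LinearMap.ker (f.baseChange K)) := by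
  have h1 : Function.Injective ((LinearMap.ker f).subtype.baseChange K) := by
    rw [LinearMap.baseChange_eq_ltensor]
    exact Module.Flat.lTensor_preserves_injective_linearMap _ (Submodule.injective_subtype _)
  have h2 : LinearMap.range ((LinearMap.ker f).subtype.baseChange K) ≤
      LinearMap.ker (f.baseChange K) := by
    rw [LinearMap.range_le_ker_iff, ← LinearMap.baseChange_comp, LinearMap.comp_ker_subtype,
      LinearMap.baseChange_zero]
  have h3 := Submodule.finrank_mono h2
  rwa [LinearMap.finrank_range_of_inj h1, Module.finrank_baseChange] at h3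


/-- Let G be a finite solvable group and P a subgroup of G of prime order p > 3 whose conjugates generate G. Let V be a faithful irreducible representation of G over a field of positive characteristic, finite-dimensional. Then the subspace of V fixed by P has dimension less than half the dimension of V. -/
theorem result {G : Type*} [Group G] [Finite G] [Group.IsSolvable G]
    {p : ℕ} [Fact p.Prime] (hp : 3 < p) (P : Subgroup G) (hP : Nat.card P = p) (hgen : Subgroup.normalClosure (P : Set G) = ⊤)
    {k : Type*} [Field k] (ℓ : ℕ) [Fact ℓ.Prime] [CharP k ℓ]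
    {V : Type*} [AddCommGroup V] [Module k V] [FiniteDimensional k V]
    (ρ : Representation k G V) [ρ.IsIrreducible] (hfaith : Function.Injective ρ) :
    2 * Module.finrank k ↥(⨅ g : ↥P, LinearMap.ker (ρ (g : G) - LinearMap.id)) < Module.finrank k V := by
  classical
  have hpp : p.Prime := Fact.out
  haveI : Nontrivial V := H5.nontrivial_of_isIrreducible ρ
  have hi : H79.Irr (K := k) ρ := fun W hW => by
    rcases eq_bot_or_eq_top (⟨W, fun g v hv => hW g v hv⟩ : Subrepresentation ρ) with h | h
    · exact Or.inl (congrArg Subrepresentation.toSubmodule h)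
    · exact Or.inr (congrArg Subrepresentation.toSubmodule h)
  haveI : Nontrivial P := Finite.one_lt_card_iff_nontrivial.1 (hP ▸ hpp.one_lt)
  obtain ⟨x, hx1⟩ := exists_ne (1 : P)
  have hxp : (x : G) ^ p = 1 := by
    rw [← hP]; exact congrArg Subtype.val (pow_card_eq_one' (x := x))
  have hgen' : normalClosure {(x : G)} = ⊤ := by
    rw [eq_top_iff, ← hgen]
    refine normalClosure_le_normal fun y hy => ?_
    obtain ⟨i, hi⟩ := mem_zpowers_of_prime_card hP hx1 (g' := ⟨y, hy⟩)
    have : (x : G) ^ i = y := congrArg Subtype.val hi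
    rw [← this]
    exact zpow_mem (subset_normalClosure (s := {(x : G)}) rfl) i
  haveI : Nontrivial G := ⟨⟨x, 1, fun h => hx1 (Subtype.ext h)⟩⟩
  obtain ⟨N, r, hr, hNn, hN1, -, hNr, -⟩ := H2.exists_minimal_normal_of_solvable (G := G)
  haveI := Fintype.ofFinite N
  have hne : ¬ ∀ g ∈ N, ρ g = 1 := fun h =>
    hN1 (eq_bot_iff.2 fun g hg => hfaith (by rw [h g hg, map_one]))
  have hrl : r ≠ ℓ := by
    rintro rfl
    exact hne (fd_eq_one_of_pgroup hi hNr)
  have h0 : ∑ n : N, ρ n = 0 := by
    rw [← LinearMap.range_eq_bot]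
    refine (hi _ ?_).resolve_right fun h => hne fun g hg => LinearMap.ext fun v => ?_
    · rintro g _ ⟨v, rfl⟩
      refine ⟨ρ g v, ?_⟩
      simp only [LinearMap.sum_apply, map_sum]
      refine (Fintype.sum_equiv (MulAut.conjNormal g : MulAut N).toEquiv _ _ fun n => ?_).symm
      exact LinearMap.congr_fun (fd_rep_conj ρ g n) v
    · obtain ⟨w, rfl⟩ : v ∈ LinearMap.range (∑ n : N, ρ n) := h ▸ Submodule.mem_top
      simp only [LinearMap.sum_apply, map_sum, Module.End.one_apply]
      refine Fintype.sum_equiv (Equiv.mulLeft (⟨g, hg⟩ : N)) _ _ fun n => ?_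
      exact (H79.rep_mul_apply ρ g n w).symm
  let K := AlgebraicClosure k
  let Ψ := Module.End.baseChangeHom k K V
  haveI := Fact.mk hr
  have hK : (Fintype.card N : K) ≠ 0 := by
    obtain ⟨j, hj⟩ := IsPGroup.iff_card.1 hNr
    rw [← Nat.card_eq_fintype_card, hj, Nat.cast_pow]
    refine pow_ne_zero _ fun h => ?_
    rw [CharP.cast_eq_zero_iff K ℓ, Nat.prime_dvd_prime_iff_eq Fact.out hr] at h
    exact hrl h.symm
  let σ : G →* Module.End K (TensorProduct k K V) := Ψ.toRingHom.toMonoidHom.comp ρ
  have hd : Module.finrank K (TensorProduct k K V) = Module.finrank k V := Module.finrank_baseChange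
  haveI : Nontrivial (TensorProduct k K V) :=
    Module.nontrivial_of_finrank_pos (R := K) (hd ▸ Module.finrank_pos)
  have h1 := fd_closed (K := K) (ℓ := ℓ) hgen' hpp
    (by have : p ≠ 4 := by rintro rfl; exact absurd hpp (by decide)
        omega) hxp hK _ σ rfl (by
      change ∑ n : N, Ψ (ρ n) = 0
      rw [← map_sum, h0, map_zero])
  have h2 := ker_le K (ρ x - 1)
  have h3 : (ρ x - 1).baseChange K = σ x - 1 := by
    change Ψ (ρ x - 1) = Ψ (ρ x) - 1
    rw [map_sub, map_one]
  have h4 : Module.finrank k ↥(⨅ g : ↥P, LinearMap.ker (ρ (g : G) - LinearMap.id)) ≤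
      Module.finrank k (LinearMap.ker (ρ x - 1)) := Submodule.finrank_mono (iInf_le _ x)
  rw [h3] at h2
  omega

end Cfsg.Agent.S3818
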