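import Cfsg.Statements.S4160
import Cfsg.Agent.H8.ClsSz

set_option autoImplicit false
open Cfsg

namespace Cfsg.Agent.S4160

open Subgroup Cfsg.Agent.H83

theorem ncard_le {G : Type*} [Group G] [Finite G] (C N : Subgroup G) (h : N ≤ normalizer (C : Set G)) :
    Set.ncard {x : G | x ≠ 1 ∧ ∃ g : G, g * x * g⁻¹ ∈ C} + N.index ≤ N.index * Nat.card C := by
  have h1 : Set.ncard {x : G | x ≠ 1 ∧ ∃ g : G, g * x * g⁻¹ ∈ C}
      ≤ Nat.card ((G ⧸ N) × {c : C // c ≠ 1}) := by
    rw [← Set.ncard_univ]
    refine le_trans (Set.ncard_le_ncard ?_) (Set.ncard_image_le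
      (f := fun t : (G ⧸ N) × {c : C // c ≠ 1} => t.1.out * t.2.1 * t.1.out⁻¹))
    rintro x ⟨hx, g, hg⟩
    obtain ⟨n, hn⟩ := QuotientGroup.mk_out_eq_mul N g⁻¹
    refine ⟨⟨(g⁻¹ : G), ⟨(n : G)⁻¹ * (g * x * g⁻¹) * n, H21.conj_mem_of_mem_normalizer' (h n.2) hg⟩, ?_⟩,
      trivial, ?_⟩
    · intro h1
      apply hx
      have h2 : (n : G)⁻¹ * (g * x * g⁻¹) * n = 1 := congrArg Subtype.val h1
      calc x = g⁻¹ * n * ((n : G)⁻¹ * (g * x * g⁻¹) * n) * (n : G)⁻¹ * g := by group
        _ = 1 := by rw [h2]; group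
    · simp only [hn]
      group
  have h2 : Nat.card {c : C // c ≠ 1} + 1 = Nat.card C := by
    classical
    have := Fintype.ofFinite C
    rw [Nat.card_eq_fintype_card, Nat.card_eq_fintype_card, Fintype.card_subtype_compl,
      Fintype.card_subtype_eq]
    have := Fintype.card_pos (α := C)
    omega
  rw [Nat.card_prod, ← index_eq_card] at h1
  rw [← h2]
  nlinarith

theorem two_mul_le {G : Type*} [Group G] [Finite G] {p : ℕ} [Fact p.Prime] (P : Sylow p G)
    (h : ¬ HasNormalPComplement p G) :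
    2 * Set.ncard {x : G | x ≠ 1 ∧ ∃ g : G, g * x * g⁻¹ ∈ centralizer ((P : Subgroup G) : Set G)} + 2
      ≤ Nat.card G := by
  have h1 := ncard_le (centralizer ((P : Subgroup G) : Set G)) (normalizer ((P : Subgroup G) : Set G))
    (H21.normalizer_le_normalizer_centralizer _)
  have hle : centralizer ((P : Subgroup G) : Set G) ≤ normalizer ((P : Subgroup G) : Set G) :=
    centralizer_le_normalizer _
  have h2 : (centralizer ((P : Subgroup G) : Set G)).relIndex (normalizer ((P : Subgroup G) : Set G)) ≠ 1 := by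
    rw [Ne, relIndex_eq_one]
    exact fun h' => h (H3.hasNormalPComplement_of_normalizer_le_centralizer P h')
  have h3 := H21.relIndex_ne_zero' (centralizer ((P : Subgroup G) : Set G))
    (normalizer ((P : Subgroup G) : Set G))
  have h4 := H21.card_mul_relIndex_of_le hle
  have h5 := (normalizer ((P : Subgroup G) : Set G)).card_mul_index
  have h6 : (normalizer ((P : Subgroup G) : Set G)).index ≠ 0 := index_ne_zero_of_finite
  set a := (centralizer ((P : Subgroup G) : Set G)).relIndex (normalizer ((P : Subgroup G) : Set G))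
  set b := (normalizer ((P : Subgroup G) : Set G)).index
  set c := Nat.card (centralizer ((P : Subgroup G) : Set G))
  rw [← h5, ← h4]
  have : 2 ≤ a := by omega
  have h7 : 2 * (b * c) ≤ c * a * b := by nlinarith [Nat.zero_le (b * c)]
  omega

/-- Let G be a finite group and p ≠ q primes each dividing the size of some conjugacy class of G, such that no conjugacy class size is divisible by pq. Then G has a normal p-complement or a normal q-complement. -/
theorem result {G : Type*} [Group G] [Finite G] (p q : ℕ) (hp : p.Prime) (hq : q.Prime) (hpq : p ≠ q)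
    (hp' : ∃ x : G, p ∣ (Subgroup.centralizer ({x} : Set G)).index) (hq' : ∃ x : G, q ∣ (Subgroup.centralizer ({x} : Set G)).index) (h : ∀ x : G, ¬ p * q ∣ (Subgroup.centralizer ({x} : Set G)).index) :
    Cfsg.HasNormalPComplement p G ∨ Cfsg.HasNormalPComplement q G := by
  have := Fact.mk hp
  have := Fact.mk hq
  by_contra hc
  rw [not_or] at hc
  obtain ⟨P⟩ : Nonempty (Sylow p G) := inferInstance
  obtain ⟨Q⟩ : Nonempty (Sylow q G) := inferInstance
  have h1 := two_mul_le P hc.1
  have h2 := two_mul_le Q hc.2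
  have h3 : (Set.univ : Set G) ⊆ insert 1
      ({x : G | x ≠ 1 ∧ ∃ g : G, g * x * g⁻¹ ∈ centralizer ((P : Subgroup G) : Set G)} ∪
      {x : G | x ≠ 1 ∧ ∃ g : G, g * x * g⁻¹ ∈ centralizer ((Q : Subgroup G) : Set G)}) := by
    intro x _
    by_cases hx : x = 1
    · exact Or.inl hx
    · right
      by_cases hd : p ∣ cs(x)
      · exact Or.inr ⟨hx, H8.exists_conj_mem_cent_sylow Q fun hd' =>
          h x (Nat.Coprime.mul_dvd_of_dvd_of_dvd ((Nat.coprime_primes hp hq).2 hpq) hd hd')⟩
      · exact Or.inl ⟨hx, H8.exists_conj_mem_cent_sylow P hd⟩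
  have h4 := (Set.ncard_le_ncard h3).trans
    ((Set.ncard_insert_le _ _).trans (Nat.add_le_add_right (Set.ncard_union_le _ _) 1))
  rw [Set.ncard_univ] at h4
  omega

end Cfsg.Agent.S4160
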