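import Cfsg.Statements.S4709
import Cfsg.Agent.H34.AbMain

set_option autoImplicit false
open Cfsg

namespace Cfsg.Agent.S4709

open H34 H86

/-- Let p be a prime, M a maximal ideal of the algebraic integers containing p, and G a finite group with a nontrivial abelian Sylow p-subgroup P; put N = N_G(P), C = C_G(P). Suppose N/C is cyclic of order m with 1 < m < #P − 1 (C has index m in N and N is generated by C and one element), and C_G(y) ∩ N = C for every non-identity y ∈ P. Put r = (#P − 1)/m. Then there is s ≤ m such that the principal p-block is the disjoint union of a set X of s characters containing the principal character and a set Y of r characters, with integers a_χ ≠ 0 (χ ∈ X), d and a sign δ = ±1, such that: every χ ∈ X takes the value a_χ at every element whose p-part is a non-identity element of P; there is a map ζ from the non-principal linear characters ψ of P onto Y,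 constant on N-conjugacy classes, with ζ_ψ(z) = d + δ·Σ ψ'(y) for every z whose p-part y is a non-identity element of P, the sum running over the N-conjugates ψ' of ψ; (d − δ)^2 + (r − 1) d^2 + Σ_{χ ∈ X} a_χ^2 = m + 1; all members of Y agree on p-regular elements; and (r d − δ) η(g) + Σ_{χ ∈ X} a_χ χ(g) = 0 for every η ∈ Y and every p-regular g. -/
theorem result {G : Type*} [Group G] [Finite G] (p : ℕ) [Fact p.Prime] (M : Ideal Cfsg.AlgInt) (hM : Cfsg.IsPModular p M) (P : Sylow p G) (hab : IsMulCommutative P) (hP1 : Nat.card P ≠ 1) (m : ℕ) (hm1 : 1 < m) (hm2 : m + 1 < Nat.card P) (hCN : (Subgroup.centralizer ((P : Subgroup G) : Set G)).relIndex (Subgroup.normalizer ((P : Subgroup G) : Set G)) = m) (hcyc : ∃ g : G, g ∈ Subgroup.normalizer ((P : Subgroup G) : Set G) ∧ Subgroup.centralizer ((P : Subgroup G) : Set G) ⊔ Subgroup.zpowers g = Subgroup.normalizer ((P : Subgroup G) : Set G))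 (hfrob : ∀ y : G, y ∈ (P : Subgroup G) → y ≠ 1 → Subgroup.centralizer ({y} : Set G) ⊓ Subgroup.normalizer ((P : Subgroup G) : Set G) = Subgroup.centralizer ((P : Subgroup G) : Set G)) : ∃ (s : ℕ) (X Y : Set (Cfsg.IrrCharacter G)), s ≤ m ∧ Cfsg.principalBlock M G = X ∪ Y ∧ Disjoint X Y ∧ Nat.card X = s ∧ Nat.card Y = (Nat.card P - 1) / m ∧ (∃ χ₁ ∈ X, (χ₁ : G → ℂ) = fun _ => 1) ∧ ∃ (a : Cfsg.IrrCharacter G → ℤ) (d δ : ℤ) (ζ : (↥(P : Subgroup G) →* ℂˣ) → Cfsg.IrrCharacter G), (δ = 1 ∨ δ = -1) ∧ (∀ χ ∈ X, a χ ≠ 0 ∧ ∀ z y : G, Cfsg.IsPPart p z y → y ∈ (P : Subgroup G) → y ≠ 1 → (χ : G → ℂ) z = (a χ : ℂ)) ∧ (∀ ψ : ↥(P : Subgroup G) →* ℂˣ, ψ ≠ 1 → ζ ψ ∈ Y) ∧ (∀ η ∈ Y, ∃ ψ : ↥(P : Subgroup G) →* ℂˣ, ψ ≠ 1 ∧ ζ ψ = η) ∧ (∀ ψ ψ' : ↥(P : Subgroup G) →* ℂˣ, ψ ≠ 1 → (∃ n : G, n ∈ Subgroup.normalizer ((P : Subgroup G) : Set G) ∧ ∀ w w' : ↥(P : Subgroup G), (w' : G) = n * w * n⁻¹ → ψ' w' = ψ w) → ζ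 ψ' = ζ ψ) ∧ (∀ ψ : ↥(P : Subgroup G) →* ℂˣ, ψ ≠ 1 → ∀ (z : G) (y : ↥(P : Subgroup G)), Cfsg.IsPPart p z (y : G) → (y : G) ≠ 1 → (ζ ψ : G → ℂ) z = (d : ℂ) + (δ : ℂ) * ∑ᶠ ψ' ∈ {ψ' : ↥(P : Subgroup G) →* ℂˣ | ∃ n : G, n ∈ Subgroup.normalizer ((P : Subgroup G) : Set G) ∧ ∀ w w' : ↥(P : Subgroup G), (w' : G) = n * w * n⁻¹ → ψ' w' = ψ w}, ((ψ' y : ℂˣ) : ℂ)) ∧ ((d - δ) ^ 2 + ((Nat.card P - 1) / m - 1 : ℤ) * d ^ 2 + ∑ᶠ χ ∈ X, a χ ^ 2 = (m : ℤ) + 1) ∧ (∀ η ∈ Y, ∀ η' ∈ Y, ∀ g : G, ¬ p ∣ orderOf g → (η : G → ℂ) g = (η' : G → ℂ) g) ∧ (∀ η ∈ Y, ∀ g : G, ¬ p ∣ orderOf g → ((((Nat.card P - 1) / m : ℕ) : ℂ) * d - δ) * (η : G → ℂ) g + ∑ᶠ χ ∈ X, (a χ : ℂ) * (χ : G → ℂ) g = 0) := by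
  classical
  have := hM.2.1
  have := Fintype.ofFinite (P : Subgroup G)
  have := Fintype.ofFinite ((P : Subgroup G) →* ℂˣ)
  have h : AbF P := ⟨fun a b => hab.is_comm.comm a b, hfrob⟩
  have hm : Nat.card (autz (P : Subgroup G)) = m := (card_autz _).trans hCN
  obtain ⟨δ, ζ, B0⟩ := h.exists_abBlk hM (by rwa [hm])
  obtain ⟨d, a, B⟩ := B0.exists_abData h hM (by rwa [hm])
  have hY := B0.card_excY h
  rw [hm] at hY
  have hY1 : (Nat.card P - 1) / m = (excY ζ).card := by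
    rw [← hY, Nat.add_sub_cancel, Nat.mul_div_cancel _ (by omega)]
  have hY2 : ((Nat.card P : ℤ) - 1) / m = (excY ζ).card := by
    rw [← hY]
    push_cast
    rw [add_sub_cancel_right, Int.mul_ediv_cancel _ (by omega)]
  refine ⟨(excX M ζ).card, excX M ζ, excY ζ, hm ▸ B.card_excX_le h hM, ?_,
    Finset.disjoint_coe.mpr (disjoint_excX ζ), by simp, by rw [hY1]; simp,
    ⟨_, B.one_mem h, rfl⟩, a, d, δ, ζ, B.sign, ?_, fun ψ hψ => mem_excY.mpr ⟨ψ, hψ, rfl⟩,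
    fun η hη => mem_excY.mp hη, ?_, ?_, ?_, ?_, ?_⟩
  · rw [← Finset.coe_union, excX, Finset.sdiff_union_of_subset B0.excY_subset]
    ext χ
    simp [mem_fs]
  · intro χ hχ
    refine ⟨B.a_ne_zero h hM hχ, fun z y hz hy hy1 => ?_⟩
    rw [h.apply_eq hM (mem_excX.mp hχ).1 hz hy hy1]
    exact B.valX h hχ (y := ⟨y, hy⟩) fun e => hy1 (congrArg Subtype.val e)
  · intro ψ ψ' hψ hr
    have h1 := cR_autz_iff.mpr hr
    exact ((B.eq_iff ψ hψ ψ' fun e => hψ (h1.eq_one_iff.mp e)).mpr h1).symm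
  · intro ψ hψ z y hz hy1
    rw [h.apply_eq hM (B.mem ψ hψ) hz y.2 hy1, B.valY h hψ fun e => hy1 (congrArg Subtype.val e),
      finsum_mem_eq_sum_of_inter_support_eq _ (t := Finset.univ.filter fun φ =>
        cR (autz (P : Subgroup G)) ψ φ), Finset.sum_filter]
    · rfl
    · congr 1
      ext φ
      simp [cR_autz_iff]
  · rw [finsum_mem_coe_finset, hY2, ← hm]
    exact B.norm_eq h hM
  · intro η hη η' hη' g hg
    obtain ⟨φ, hφ, rfl⟩ := mem_excY.mp hη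
    obtain ⟨φ', hφ', rfl⟩ := mem_excY.mp hη'
    exact B0.eq_on_regular hM hφ hφ' hg
  · intro η hη g hg
    obtain ⟨φ, hφ, rfl⟩ := mem_excY.mp hη
    rw [finsum_mem_coe_finset, hY1]
    exact B.regular_rel hM hφ hg

end Cfsg.Agent.S4709
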