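import Cfsg.Statements.S0019
import Cfsg.Agent.H2.Basic
import Cfsg.Agent.H2.MinNormal
import Cfsg.Agent.H1.Glauberman

set_option autoImplicit false
open Cfsg

namespace Cfsg.Agent.S0019

theorem exists_normal {G : Type*} [Group G] [Finite G] (H₁ H₂ : Subgroup G)
    (h12 : ∀ g : G, ∃ x ∈ H₁, ∃ y ∈ H₂, g = x * y) {p : ℕ} [Fact p.Prime] (N : Subgroup G)
    (hN : IsPGroup p N) (hn : H₁ ≤ Subgroup.normalizer (N : Set G)) (hp : ¬ p ∣ H₂.index) :
    Subgroup.normalClosure (N : Set G) ≤ H₂ := by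
  obtain ⟨P⟩ : Nonempty (Sylow p H₂) := inferInstance
  have hQ : IsPGroup p ((P : Subgroup H₂).map H₂.subtype) := P.2.map _
  let Q : Sylow p G := hQ.toSylow (by
    rw [Subgroup.index_map_subtype]
    exact fun h => ((Fact.out : p.Prime).dvd_mul.mp h).elim P.not_dvd_index hp)
  obtain ⟨R, hR⟩ := hN.exists_le_sylow
  obtain ⟨g, rfl⟩ := MulAction.exists_smul_eq G Q R
  obtain ⟨x, hx, y, hy, rfl⟩ := h12 g
  have h1 : N ≤ H₂ := fun n hn' => by
    have h2 := hR ((Subgroup.mem_normalizer_iff.mp (hn hx) n).mp hn')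
    rw [Sylow.coe_subgroup_smul, Cfsg.Agent.H2.mem_conj_smul] at h2
    have h3 := H₂.mul_mem (H₂.mul_mem hy (Subgroup.map_subtype_le _ h2)) (H₂.inv_mem hy)
    convert h3 using 1
    group
  rw [Subgroup.normalClosure, Subgroup.closure_le]
  intro z hz
  obtain ⟨n, hn', hz⟩ := Group.mem_conjugatesOfSet_iff.mp hz
  obtain ⟨c, rfl⟩ := isConj_iff.mp hz
  obtain ⟨a, ha, b, hb, hab⟩ := h12 c⁻¹
  have h2 := h1 ((Subgroup.mem_normalizer_iff''.mp (hn ha) n).mp hn')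
  have h3 := H₂.mul_mem (H₂.mul_mem (H₂.inv_mem hb) h2) hb
  rw [← inv_inv c, hab, SetLike.mem_coe]
  convert h3 using 1
  group

/-- A finite group that factorises as H₁H₂ and as H₁H₃ with all three subgroups solvable and the indices of H₂ and H₃ coprime is solvable. -/
theorem result {G : Type*} [Group G] [Finite G] (H₁ H₂ H₃ : Subgroup G)
    (h₁ : Group.IsSolvable H₁) (h₂ : Group.IsSolvable H₂) (h₃ : Group.IsSolvable H₃)
    (h12 : ∀ g : G, ∃ x ∈ H₁, ∃ y ∈ H₂, g = x * y) (h13 : ∀ g : G, ∃ x ∈ H₁, ∃ y ∈ H₃, g = x * y)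
    (hcop : H₂.index.Coprime H₃.index) : Group.IsSolvable G := by
  revert H₁ H₂ H₃
  refine Cfsg.Agent.H2.card_induction (P := fun G _ _ => ∀ H₁ H₂ H₃ : Subgroup G,
    Group.IsSolvable H₁ → Group.IsSolvable H₂ → Group.IsSolvable H₃ →
    (∀ g : G, ∃ x ∈ H₁, ∃ y ∈ H₂, g = x * y) → (∀ g : G, ∃ x ∈ H₁, ∃ y ∈ H₃, g = x * y) →
    H₂.index.Coprime H₃.index → Group.IsSolvable G) G ?_
  intro G _ _ ih H₁ H₂ H₃ h₁ h₂ h₃ h12 h13 hcop
  by_cases hb : H₁ = ⊥
  · refine Group.isSolvable_of_surjective (f := H₂.subtype) fun g => ?_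
    obtain ⟨x, hx, y, hy, rfl⟩ := h12 g
    rw [hb, Subgroup.mem_bot] at hx
    exact ⟨⟨y, hy⟩, by simp [hx]⟩
  have : Nontrivial H₁ := (Subgroup.nontrivial_iff_ne_bot H₁).mpr hb
  obtain ⟨M, p, hp, hMn, hM, -, hMp, -⟩ := Cfsg.Agent.H2.exists_minimal_normal_of_solvable (G := H₁)
  have := Fact.mk hp
  have hn : H₁ ≤ Subgroup.normalizer ((M.map H₁.subtype : Subgroup G) : Set G) := by
    rw [Subgroup.le_normalizer_iff]
    rintro a ha _ ⟨b, hb, rfl⟩
    exact ⟨_, hMn.conj_mem b hb ⟨a, ha⟩, rfl⟩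
  set K := Subgroup.normalClosure ((M.map H₁.subtype : Subgroup G) : Set G) with hK
  have hKs : Group.IsSolvable K := by
    by_cases h : p ∣ H₂.index
    · exact Cfsg.Agent.H1.solvable_of_le (exists_normal H₁ H₃ h13 _ (hMp.map _) hn
        fun h' => hp.one_lt.ne' (Nat.eq_one_of_dvd_coprimes hcop h h')) h₃
    · exact Cfsg.Agent.H1.solvable_of_le (exists_normal H₁ H₂ h12 _ (hMp.map _) hn h) h₂
  have hK0 : K ≠ ⊥ := fun h => hM (by
    rw [← Subgroup.map_eq_bot_iff_of_injective _ H₁.subtype_injective, eq_bot_iff, ← h]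
    exact Subgroup.le_normalClosure)
  have hs := QuotientGroup.mk'_surjective K
  have hmap : ∀ H : Subgroup G, Group.IsSolvable H →
      Group.IsSolvable (H.map (QuotientGroup.mk' K)) := fun H _ =>
    Group.isSolvable_of_surjective ((QuotientGroup.mk' K).subgroupMap_surjective H)
  have hfac : ∀ A B : Subgroup G, (∀ g : G, ∃ x ∈ A, ∃ y ∈ B, g = x * y) →
      ∀ g : G ⧸ K, ∃ x ∈ A.map (QuotientGroup.mk' K), ∃ y ∈ B.map (QuotientGroup.mk' K),
        g = x * y := fun A B h g => by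
    obtain ⟨g, rfl⟩ := hs g
    obtain ⟨x, hx, y, hy, rfl⟩ := h g
    exact ⟨_, ⟨x, hx, rfl⟩, _, ⟨y, hy, rfl⟩, map_mul _ _ _⟩
  have hQ := ih (G ⧸ K) (Cfsg.Agent.H2.card_quotient_lt K hK0) _ _ _ (hmap _ h₁) (hmap _ h₂)
    (hmap _ h₃) (hfac _ _ h12) (hfac _ _ h13)
    ((hcop.coprime_dvd_left (H₂.index_map_dvd hs)).coprime_dvd_right (H₃.index_map_dvd hs))
  exact (Group.isSolvable_iff_subgroup_quotient K).mpr ⟨hKs, hQ⟩

end Cfsg.Agent.S0019
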