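import Cfsg.Statements.S0006
import Cfsg.Agent.S0019
import Cfsg.Agent.S0144
import Cfsg.Agent.H1.Product

set_option autoImplicit false
open Cfsg

namespace Cfsg.Agent.S0006

/-- Converse of Hall's Theorem: if for every prime p a finite group has a subgroup of index equal to the p-part of the group order (a Hall p-complement), then the group is solvable. -/
theorem result {G : Type*} [Group G] [Finite G]
    (h : ∀ p : ℕ, p.Prime → ∃ H : Subgroup G, H.index = p ^ (Nat.card G).factorization p) :
    Group.IsSolvable G := by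
  revert h
  refine Cfsg.Agent.H2.card_induction (P := fun G _ _ =>
    (∀ p : ℕ, p.Prime → ∃ H : Subgroup G, H.index = p ^ (Nat.card G).factorization p) →
      Group.IsSolvable G) G ?_
  intro G _ _ ih h
  choose! H hH using h
  have h0 : Nat.card G ≠ 0 := Nat.card_pos.ne'
  have hcop : ∀ p q : ℕ, p.Prime → q.Prime → p ≠ q → (H p).index.Coprime (H q).index := by
    intro p q hp hq hne
    rw [hH p hp, hH q hq]
    exact Nat.Coprime.pow _ _ ((Nat.coprime_primes hp hq).mpr hne)
  have hsol : ∀ p : ℕ, p.Prime → p ∣ Nat.card G → Group.IsSolvable (H p) := by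
    intro p hp hd
    have hne : H p ≠ ⊤ := fun h1 => by
      have h2 := hH p hp
      rw [h1, Subgroup.index_top, eq_comm, Nat.pow_eq_one] at h2
      rcases h2 with h2 | h2
      · exact hp.one_lt.ne' h2
      · exact (hp.factorization_pos_of_dvd h0 hd).ne' h2
    refine ih (H p) (Cfsg.Agent.H2.card_lt_of_ne_top hne) fun q hq => ?_
    have hf : (Nat.card G).factorization q =
        (Nat.card (H p)).factorization q + (p ^ (Nat.card G).factorization p).factorization q := by
      conv_lhs => rw [← (H p).card_mul_index, hH p hp,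
        Nat.factorization_mul Nat.card_pos.ne' (pow_ne_zero _ hp.ne_zero)]
      rfl
    rw [hp.factorization_pow] at hf
    by_cases hpq : p = q
    · subst hpq
      rw [Finsupp.single_eq_same] at hf
      refine ⟨⊤, ?_⟩
      rw [Subgroup.index_top, show (Nat.card (H p)).factorization p = 0 by omega, pow_zero]
    · rw [Finsupp.single_eq_of_ne (Ne.symm hpq), add_zero] at hf
      refine ⟨(H q).subgroupOf (H p), ?_⟩
      rw [← hf, ← hH q hq]
      exact (Cfsg.Agent.H1.mul_eq_iff_relIndex_eq _ _).mp
        (Cfsg.Agent.H1.mul_eq_of_coprime _ _ (hcop p q hp hq hpq))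
  by_cases h3 : 2 < (Nat.card G).primeFactors.card
  · obtain ⟨p, q, r, hp, hq, hr, hpq, hpr, hqr⟩ := Finset.two_lt_card_iff.mp h3
    rw [Nat.mem_primeFactors] at hp hq hr
    exact Cfsg.Agent.S0019.result (H p) (H q) (H r) (hsol p hp.1 hp.2.1) (hsol q hq.1 hq.2.1)
      (hsol r hr.1 hr.2.1) (Cfsg.Agent.H1.mul_eq_of_coprime _ _ (hcop p q hp.1 hq.1 hpq))
      (Cfsg.Agent.H1.mul_eq_of_coprime _ _ (hcop p r hp.1 hr.1 hpr)) (hcop q r hq.1 hr.1 hqr)
  · obtain ⟨p, q, hp, hq, hpq, hsub⟩ : ∃ p q : ℕ, p.Prime ∧ q.Prime ∧ p ≠ q ∧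
        (Nat.card G).primeFactors ⊆ {p, q} := by
      have hinf : ∀ p : ℕ, ∃ q : ℕ, q.Prime ∧ p ≠ q := fun p => by
        obtain ⟨q, h1, h2⟩ := Nat.exists_infinite_primes (p + 1)
        exact ⟨q, h2, by omega⟩
      have h4 : (Nat.card G).primeFactors.card = 0 ∨ (Nat.card G).primeFactors.card = 1 ∨
        (Nat.card G).primeFactors.card = 2 := by omega
      rcases h4 with h4 | h4 | h4
      · rw [Finset.card_eq_zero] at h4
        exact ⟨2, 3, Nat.prime_two, Nat.prime_three, by norm_num, by simp [h4]⟩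
      · obtain ⟨p, h4⟩ := Finset.card_eq_one.mp h4
        obtain ⟨q, hq, hpq⟩ := hinf p
        exact ⟨p, q, Nat.prime_of_mem_primeFactors (h4 ▸ Finset.mem_singleton_self p), hq, hpq,
          by simp [h4]⟩
      · obtain ⟨p, q, hpq, h4⟩ := Finset.card_eq_two.mp h4
        exact ⟨p, q, Nat.prime_of_mem_primeFactors (n := Nat.card G) (by simp [h4]),
          Nat.prime_of_mem_primeFactors (n := Nat.card G) (by simp [h4]), hpq, h4.le⟩
    refine Cfsg.Agent.S0144.result p q ((Nat.card G).factorization p)
      ((Nat.card G).factorization q) hp hq ?_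
    conv_lhs => rw [← Nat.factorization_prod_pow_eq_self h0]
    rw [Finsupp.prod_of_support_subset _ (s := {p, q}) (by simpa using hsub) _ (by simp),
      Finset.prod_pair hpq]

end Cfsg.Agent.S0006
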