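import Cfsg.Statements.S4726
import Cfsg.Agent.H33.Triv

set_option autoImplicit false
open Cfsg

namespace Cfsg.Agent.S4726

open H87 in
theorem aux {G : Type*} [Group G] {D E : Subgroup G} (hED : E ≤ D) (h : D ⊓ Ce E ≤ E) :
    (Subgroup.center D).map D.subtype ≤ E ⊓ Ce E := by
  rintro _ ⟨x, hx, rfl⟩
  have : (x : G) ∈ Ce E := mem_Ce.2 fun q hq =>
    congrArg Subtype.val (Subgroup.mem_center_iff.1 hx ⟨q, hED hq⟩)
  exact ⟨h ⟨x.2, this⟩, this⟩

/-- Let p be a prime, M a maximal ideal of the algebraic integers containing p, H a subgroup of the finite group G and b a p-block of H with defect group D₀ such that C_G(D₀) ≤ H. Then b induces a block of G, and for every block B of G induced by b there is a defect group D of B with Z(D) ≤ Z(D₀) ≤ D₀ ≤ D (as subgroups of G). In particular, if the defect groups of B are abelian then D₀ is a defect group of B. -/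
theorem result {G : Type*} [Group G] [Finite G] (p : ℕ) [Fact p.Prime] (M : Ideal Cfsg.AlgInt) (hM : Cfsg.IsPModular p M) (H : Subgroup G) (b : Set (Cfsg.IrrCharacter ↥H)) (hb : Cfsg.IsPBlock M b) (D₀ : Subgroup ↥H) (hD₀ : Cfsg.IsDefectGroup p M b D₀) (hC : Subgroup.centralizer ((D₀.map H.subtype : Subgroup G) : Set G) ≤ H) : Cfsg.InducedBlockDefined M H b ∧ ∀ B : Set (Cfsg.IrrCharacter G), Cfsg.IsInducedBlock M H b B → (∃ D : Subgroup G, Cfsg.IsDefectGroup p M B D ∧ (Subgroup.center ↥D).map D.subtype ≤ ((Subgroup.center ↥D₀).map D₀.subtype).map H.subtype ∧ ((Subgroup.center ↥D₀).map D₀.subtype).map H.subtype ≤ D₀.map H.subtype ∧ D₀.map H.subtype ≤ D) ∧ (∀ D : Subgroup G, Cfsg.IsDefectGroup p M B D → IsMulCommutative ↥D → Cfsg.IsDefectGroup p M B (D₀.map H.subtype)) := by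
  have := hM.2.1
  have := H32.res_charP hM
  have hD := ((H87.emb_subtype H).isDefectGroup_iff hM hb).1 hD₀
  have hblk := (H87.emb_subtype H).blk_idm hb
  refine ⟨?_, fun B hB => ?_⟩
  · obtain ⟨B, hB, h⟩ := H87.exists_ind hM (H87.emb_subtype H) H87.emb_id le_top hD.pgp le_top
      (inf_le_right.trans hC) (H87.inv_of_le_fix hD.le) hb hD.ne
    exact ⟨B, H87.isInducedBlock_iff.2 ⟨hb, hB, h⟩⟩
  obtain ⟨f, hf⟩ := hD.exists_maxPair le_rfl Subgroup.le_normalizer hblk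
  obtain ⟨P, e, he, hs⟩ := (H33.bpair_of_induced hM hB hC hf.bpair).exists_maxPair
  have hP := he.isDef le_rfl H87.top_le_No_top (H87.blk_eB hB.2.1)
  have h1 := H33.inf_Ce_le_of_maxPair hblk hf hC he.bpair.pair hs
  refine ⟨⟨P, (H87.isDefectGroup_iff_isDef hM hB.2.1).2 hP, (aux hs.le h1).trans ?_,
    Subgroup.map_mono (Subgroup.map_subtype_le _), hs.le⟩, fun D hD' hc => ?_⟩
  · rintro _ ⟨⟨x, hx, rfl⟩, h⟩
    exact ⟨x, ⟨⟨x, hx⟩, Subgroup.mem_center_iff.2 fun y => Subtype.ext (Subtype.ext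
      (H87.mem_Ce.1 h _ ⟨y, y.2, rfl⟩)), rfl⟩, rfl⟩
  · obtain ⟨t, -, rfl⟩ := (H87.isDef_of_isDefectGroup hM hB.2.1 hD').conj le_rfl
      (H87.blk_eB hB.2.1) hP
    have h2 : D ≤ H87.Ce D := fun x hx => H87.mem_Ce.2 fun y hy =>
      congrArg Subtype.val (hc.is_comm.comm (⟨y, hy⟩ : D) ⟨x, hx⟩)
    have h3 := H87.cjS_mono t h2
    rw [H87.cjS_Ce] at h3
    rw [le_antisymm hs.le ((le_inf le_rfl (h3.trans (H87.Ce_anti hs.le))).trans h1)]
    exact (H87.isDefectGroup_iff_isDef hM hB.2.1).2 hP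

end Cfsg.Agent.S4726
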