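import Cfsg.Statements.S0840
import Cfsg.Agent.H5.Complete

set_option autoImplicit false
open scoped ComplexConjugate
open Cfsg

namespace Cfsg.Agent.S0840

open Classical in
lemma sum_class {G : Type*} [Group G] [Fintype G] {χ : G → ℂ} (hχ : IsIrrCharacter G χ)
    (a h : G) : ∑ x ∈ Finset.univ.filter (IsConj a), χ (x * h) =
      ((Finset.univ.filter (IsConj a)).card : ℂ) * χ a / χ 1 * χ h := by
  have hf : IsClassFunction G (fun x => if IsConj a x then (1 : ℂ) else 0) := by
    intro g h
    have : IsConj a (h * g * h⁻¹) ↔ IsConj a g :=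
      ⟨fun h1 => h1.trans (isConj_iff.mpr ⟨h, rfl⟩).symm, fun h1 => h1.trans (isConj_iff.mpr ⟨h, rfl⟩)⟩
    simp only [this]
  have := H5.sum_mul_irr_mul hχ hf h
  simp only [ite_mul, one_mul, zero_mul, ← Finset.sum_filter] at this
  rw [this, Finset.sum_congr rfl (g := fun _ => χ a) fun x hx =>
    (H5.isClassFunction_apply_of_isConj (H5.isClassFunction_of_isIrr hχ)
      (Finset.mem_filter.mp hx).2).symm]
  simp

/-- Class multiplication coefficients from the character table: for elements a, b, c of a finite group G, the number of ordered pairs (x, y) with x conjugate to a, y conjugate to b and x * y = c equals the product of the sizes of the conjugacy classes of a and b, divided by the order of G, times the sum over the irreducible characters χ of χ a * χ b * conj (χ c) / χ 1. -/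
theorem result {G : Type*} [Group G] [Finite G] (a b c : G) : (Nat.card {p : G × G // IsConj a p.1 ∧ IsConj b p.2 ∧ p.1 * p.2 = c} : ℂ) = (Nat.card {x : G // IsConj a x} : ℂ) * (Nat.card {x : G // IsConj b x} : ℂ) / (Nat.card G : ℂ) * ∑ᶠ χ : Cfsg.IrrCharacter G, (χ : G → ℂ) a * (χ : G → ℂ) b * conj ((χ : G → ℂ) c) / (χ : G → ℂ) 1 := by
  classical
  have := Fintype.ofFinite G
  set A := Finset.univ.filter (IsConj a) with hA
  set B := Finset.univ.filter (IsConj b) with hB
  have hcA : Nat.card {x : G // IsConj a x} = A.card := by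
    rw [Nat.card_eq_fintype_card, Fintype.card_subtype]
  have hcB : Nat.card {x : G // IsConj b x} = B.card := by
    rw [Nat.card_eq_fintype_card, Fintype.card_subtype]
  have h1 : (Nat.card {p : G × G // IsConj a p.1 ∧ IsConj b p.2 ∧ p.1 * p.2 = c} : ℂ) =
      ∑ x ∈ A, ∑ y ∈ B, if x * y * c⁻¹ = 1 then 1 else 0 := by
    rw [Nat.card_eq_fintype_card, Fintype.card_subtype, ← Finset.sum_product', Finset.sum_boole]
    congr 2
    ext p
    simp [hA, hB, mul_inv_eq_one, and_assoc]
  have h2 : ∀ g : G, (if g = 1 then (1 : ℂ) else 0) = (Nat.card G : ℂ)⁻¹ *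
      ∑ χ : IrrCharacter G, (χ : G → ℂ) 1 * (χ : G → ℂ) g := by
    intro g
    rw [H5.sum_degree_mul_irr]
    split_ifs
    · rw [inv_mul_cancel₀ H5.natCard_ne_zero]
    · rw [mul_zero]
  have h3 : ∀ χ : IrrCharacter G, ∑ x ∈ A, ∑ y ∈ B, (χ : G → ℂ) 1 * (χ : G → ℂ) (x * y * c⁻¹) =
      (A.card : ℂ) * B.card *
        ((χ : G → ℂ) a * (χ : G → ℂ) b * conj ((χ : G → ℂ) c) / (χ : G → ℂ) 1) := by
    intro χ
    have hne := H5.degree_ne_zero χ.2
    simp only [← Finset.mul_sum]
    rw [Finset.sum_comm]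
    simp only [mul_assoc _ _ c⁻¹]
    simp only [hA, sum_class χ.2, ← Finset.mul_sum]
    simp only [hB, sum_class χ.2, H5.isIrr_apply_inv χ.2]
    field_simp
  rw [h1, hcA, hcB, finsum_eq_sum_of_fintype]
  simp only [h2, ← Finset.mul_sum]
  rw [Finset.sum_congr rfl fun x _ => Finset.sum_comm, Finset.sum_comm]
  simp only [h3]
  simp only [← Finset.mul_sum]
  ring

end Cfsg.Agent.S0840
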