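import Cfsg.Statements.S0918
import Cfsg.Agent.H32.FirstMain

set_option autoImplicit false
open Cfsg

namespace Cfsg.Agent.S0918

/-- Let P be a p-subgroup of the finite group G and H a subgroup with P·C_G(P) ≤ H ≤ N_G(P); let b be a block of H and B a block of G relative to a maximal ideal M of the algebraic integers containing p. Then b induces B if and only if, for every g ∈ G, every ξ ∈ b and every χ ∈ B, the central character of χ at g is congruent modulo the local ideal at M to the sum of ξ h / ξ 1 over the elements h of H conjugate in G to g and centralizing P. -/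
theorem result {G : Type*} [Group G] [Finite G] (p : ℕ) [Fact p.Prime] (M : Ideal Cfsg.AlgInt) (hM : Cfsg.IsPModular p M) (P H : Subgroup G) (hP : IsPGroup p P) (hPH : P ≤ H) (hCH : Subgroup.centralizer (P : Set G) ≤ H) (hHN : H ≤ Subgroup.normalizer (P : Set G)) (b : Set (Cfsg.IrrCharacter H)) (hb : Cfsg.IsPBlock M b) (B : Set (Cfsg.IrrCharacter G)) (hB : Cfsg.IsPBlock M B) : Cfsg.IsInducedBlock M H b B ↔ ∀ ξ ∈ b, ∀ χ ∈ B, ∀ g : G, Cfsg.MemLocalIdeal M (Cfsg.brauerCentralChar P H (ξ : H → ℂ) g - Cfsg.centralChar (χ : G → ℂ) g) := by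
  have := hM.2.1
  have key : ∀ (ξ : IrrCharacter H) (g : G), brauerCentralChar P H (ξ : H → ℂ) g -
      inducedCentralChar H (ξ : H → ℂ) g ∈ H32.locMax M := by
    intro ξ g
    have hi := H32.inv_of_mem_Zc (H32.classSum_mem_Zc (k := ℂ) g) H
    have h1 := H32.lam_resH_Br hM hP hPH hHN ξ (H32.inv_redG (M := M) hi)
    have hZ := H32.resH_Br_mem_Zc hHN hi
    have hR := H32.resH_mem_RG H (H32.Br_mem_RG P (H32.classSum_mem_RG (M := M) g))
    have hZ' := H32.resH_mem_Zc_of_inv hi
    have hR' := H32.resH_mem_RG H (H32.classSum_mem_RG (M := M) g)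
    rwa [← H32.redG_Br, ← H32.redG_resH, ← H32.redG_resH, H32.lam_redG ξ.2 hZ hR,
      H32.lam_redG ξ.2 hZ' hR', H32.redC_eq_iff (H32.omega_mem_locRing ξ.2 hZ hR)
        (H32.omega_mem_locRing ξ.2 hZ' hR'), ← H32.brauerCentralChar_eq,
      ← H32.inducedCentralChar_eq] at h1
  constructor
  · intro h ξ hξ χ hχ g
    exact H32.sub_mem_locMax_trans (key ξ g) (h.2.2 ξ hξ χ hχ g)
  · intro h
    exact ⟨hb, hB, fun ξ hξ χ hχ g =>
      H32.sub_mem_locMax_trans (H32.sub_mem_locMax_comm (key ξ g)) (h ξ hξ χ hχ g)⟩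

end Cfsg.Agent.S0918
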