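import Cfsg.Statements.S0929
import Cfsg.Agent.H33.DefConj
import Cfsg.Agent.S0924
import Cfsg.Agent.S0918
import Cfsg.Agent.S0920

set_option autoImplicit false
open Cfsg

namespace Cfsg.Agent.S0929

/-- Let B be a block of the finite group G with defect group P (relative to a maximal ideal M of the algebraic integers containing p), and let g be an element at which the central character of some member of B is not in the local ideal at M. Then some conjugate x of g centralizes P and has its p-part in the centre of P. -/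
theorem result {G : Type*} [Group G] [Finite G] (p : ℕ) [Fact p.Prime] (M : Ideal Cfsg.AlgInt) (hM : Cfsg.IsPModular p M) (B : Set (Cfsg.IrrCharacter G)) (hB : Cfsg.IsPBlock M B) (P : Subgroup G) (hP : Cfsg.IsDefectGroup p M B P) (g : G) (hg : ∃ χ ∈ B, ¬ Cfsg.MemLocalIdeal M (Cfsg.centralChar (χ : G → ℂ) g)) : ∃ x : G, IsConj g x ∧ x ∈ Subgroup.centralizer (P : Set G) ∧ ∀ z : G, Cfsg.IsPPart p x z → z ∈ P ∧ ∀ w ∈ P, z * w = w * z := by
  classical
  have := hM.2.1
  obtain ⟨χ, hχ, hg⟩ := hg
  have hPp := H34.IsDefectGroup.isPGroup hP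
  set N := Subgroup.normalizer (P : Set G) with hN
  have := Fintype.ofFinite N
  obtain ⟨b, ⟨hb, hbP, hind⟩, -⟩ := (S0920.result p M hM P hPp).2 B hB hP
  obtain ⟨ξ, hξ⟩ := H33.block_nonempty hb
  have h1 := (S0918.result p M hM P N hPp Subgroup.le_normalizer
    (Subgroup.centralizer_le_normalizer _) le_rfl b hb B hB).mp hind ξ hξ χ hχ g
  have h2 := (H32.mem_locMax_iff_of_sub_mem h1).not.mpr hg
  let f : N → ℂ := fun h =>
    if IsConj g (h : G) ∧ (h : G) ∈ Subgroup.centralizer (P : Set G) then 1 else 0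
  have hf : IsClassFunction N f := by
    intro h k
    have hnorm : ((Subgroup.centralizer (P : Set G)).subgroupOf N).Normal :=
      Subgroup.normal_subgroupOf_centralizer_normalizer _
    have e1 : IsConj g ((k * h * k⁻¹ : N) : G) ↔ IsConj g (h : G) :=
      ⟨fun hc => hc.trans (isConj_iff.mpr ⟨(k : G), rfl⟩).symm,
        fun hc => hc.trans (isConj_iff.mpr ⟨(k : G), rfl⟩)⟩
    have e2 : ((k * h * k⁻¹ : N) : G) ∈ Subgroup.centralizer (P : Set G) ↔
        (h : G) ∈ Subgroup.centralizer (P : Set G) :=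
      ⟨fun hc => by
        simpa [mul_assoc, Subgroup.mem_subgroupOf] using hnorm.conj_mem (k * h * k⁻¹) hc k⁻¹,
        fun hc => hnorm.conj_mem h hc k⟩
    simp only [f, e1, e2]
  have h3 : brauerCentralChar P N (ξ : N → ℂ) g = H33.om (ξ : N → ℂ) f := by
    rw [brauerCentralChar, finsum_mem_eq_finite_toFinset_sum _ (Set.toFinite _), H33.om_eq_sum]
    simp only [f, ite_mul, one_mul, zero_mul, ← Finset.sum_filter]
    congr 1; ext; simp
  rw [h3] at h2
  obtain ⟨h, hfh, hξh⟩ := H33.exists_class_of_om_notMem ξ hf (fun h => by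
    simp only [f]; split_ifs
    · exact one_mem _
    · exact zero_mem _) h2
  have h4 : IsConj g (h : G) ∧ (h : G) ∈ Subgroup.centralizer (P : Set G) := by
    by_contra hn
    exact hfh (by simp only [f, if_neg hn]; exact zero_mem _)
  refine ⟨h, h4.1, h4.2, fun z hz => ⟨?_, fun w hw => ?_⟩⟩
  · have hzN : z ∈ N := H33.IsPPart.mem_of_mem hM.1 hz N h.2
    have hz' : IsPPart p h ⟨z, hzN⟩ := H33.isPPart_coe_iff.mp hz
    by_contra hzP
    have h5 := S0924.result p M hM ξ h ⟨z, hzN⟩ hz' fun D hD hzD => by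
      rw [← H33.block_eq_blockOf hb hξ] at hD
      rw [H33.defectGroup_eq_of_normal hM hb hbP hD] at hzD
      exact hzP hzD
    exact hξh (by rw [centralChar, h5, mul_zero, zero_div]; exact zero_mem _)
  · exact (H33.IsPPart.commute_of_commute hM.1 hz
      (Subgroup.mem_centralizer_iff.mp h4.2 w hw)).symm.eq

end Cfsg.Agent.S0929
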