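import Cfsg.Statements.S1302
import Cfsg.Agent.H44.ThBender
import Cfsg.Agent.H59.LBal
import Cfsg.Agent.H22.PConstrained

set_option autoImplicit false
open Cfsg

namespace Cfsg.Agent.S1302

open Cfsg.Agent.H44
open scoped commutatorElement

/-- Let X be a finite p-constrained group, p an odd prime, and A an abelian p-subgroup of X containing every element of order p of C_X(A). Then every subgroup of X of order prime to p that is normalized by A lies in O_{p'}(X). -/
theorem result {X : Type*} [Group X] [Finite X] (p : ℕ) [Fact p.Prime] (hp : p ≠ 2) (hX : Cfsg.IsPConstrained p X) (A : Subgroup X) (hA : IsMulCommutative ↥A) (hAp : IsPGroup p ↥A) (hΩ : ∀ x ∈ Subgroup.centralizer (A : Set X), orderOf x = p → x ∈ A) (Q : Subgroup X) (hQ : ¬ p ∣ Nat.card ↥Q) (hAQ : A ≤ Subgroup.normalizer (Q : Set X)) : Q ≤ Cfsg.pPrimeCore p X := by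
  set f := QuotientGroup.mk' (pPrimeCore p X) with hf
  have hC := H22.isPConstrained_iff.1 hX
  unfold H22.IsCharP at hC
  have hQ' : ¬ p ∣ Nat.card (Q.map f) := fun h => hQ (h.trans (Subgroup.card_map_dvd _ _))
  have hAQ' : A.map f ≤ Subgroup.normalizer (Q.map f : Set _) :=
    (Subgroup.map_mono hAQ).trans (Subgroup.le_normalizer_map f)
  have h1 := thompson_bender hp (hAp.map f) hQ' hAQ' pCore_isPGroup
    Subgroup.le_normalizer_of_normal Subgroup.le_normalizer_of_normal fun y hy hyp => by
      have hyA : y ∈ A.map f := by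
        obtain ⟨x, hx, rfl⟩ := (H59.map_centralizer_mk hAp).ge hy.2
        have h0 : orderOf x ≠ 0 := (orderOf_pos x).ne'
        obtain ⟨k, m, hm, hkm⟩ := Nat.exists_eq_pow_mul_and_not_dvd h0 p
          (Fact.out : p.Prime).ne_one
        have h2 : (x ^ m) ^ p = 1 := by
          have h3 : (x ^ m) ^ p ∈ pPrimeCore p X := by
            rw [← QuotientGroup.eq_one_iff, ← pow_mul, mul_comm, pow_mul]
            change f _ = 1
            rw [map_pow, map_pow, hyp, one_pow]
          have h4 : orderOf ((x ^ m) ^ p) ∣ p ^ k := orderOf_dvd_of_pow_eq_one (by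
            rw [← pow_mul, ← pow_mul, mul_left_comm, mul_comm m, ← hkm, mul_comm, pow_mul,
              pow_orderOf_eq_one, one_pow])
          exact orderOf_eq_one_iff.1 (Nat.Coprime.eq_one_of_dvd
            ((coprime_orderOf_of_mem pPrimeCore_coprime h3).pow_right k) h4)
        have h5 : x ^ m ∈ A := by
          by_cases h6 : x ^ m = 1
          · rw [h6]; exact A.one_mem
          · exact hΩ _ (Subgroup.pow_mem _ hx m) (orderOf_eq_prime h2 h6)
        refine mem_of_pow_mem_of_coprime (n := m) ⟨_, h5, map_pow f x m⟩ ?_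
        exact Nat.Coprime.coprime_dvd_left (orderOf_dvd_of_pow_eq_one hyp)
          (((Fact.out : p.Prime).coprime_iff_not_dvd).2 hm)
      intro k hk
      have h1 : ⁅k, y⁆ ∈ pCore p (X ⧸ pPrimeCore p X) ⊓ Q.map f :=
        ⟨commutator_le_right_of_le_normalizer Subgroup.le_normalizer_of_normal
          (Subgroup.commutator_mem_commutator hk hy.1), commutator_le_left_of_le_normalizer hAQ'
          (Subgroup.commutator_mem_commutator hk hyA)⟩
      rw [eq_bot_of_isPGroup_of_coprime (pCore_isPGroup.to_le inf_le_left)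
        (coprime_of_le inf_le_right (coprime_iff_not_dvd.2 hQ')),
        Subgroup.mem_bot, commutatorElement_eq_one_iff_mul_comm] at h1
      exact h1
  have h2 := eq_bot_of_isPGroup_of_coprime (pCore_isPGroup.to_le (h1.trans hC))
    (coprime_iff_not_dvd.2 hQ')
  rw [Subgroup.map_eq_bot_iff, QuotientGroup.ker_mk'] at h2
  exact h2

end Cfsg.Agent.S1302
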