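import Cfsg.Statements.S2619

set_option autoImplicit false
open Cfsg

namespace Cfsg.Agent.S2619


/-- Over a finite field of characteristic two, given an alternating bilinear form B on a finite-dimensional space, a basis (v_i) and scalars (λ_i), there is exactly one quadratic form whose polar form is B and whose value at each v_i is λ_i. -/
theorem result {F V ι : Type*} [Field F] [Finite F] [CharP F 2] [AddCommGroup V] [Module F V] [Fintype ι] (b : Module.Basis ι F V) (B : LinearMap.BilinForm F V) (hB : B.IsAlt) (c : ι → F) : ∃! Q : QuadraticForm F V, QuadraticMap.polarBilin Q = B ∧ ∀ i, Q (b i) = c i := by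
  obtain ⟨inst⟩ : Nonempty (LinearOrder ι) :=
    ⟨LinearOrder.lift' (Fintype.equivFin ι) (Fintype.equivFin ι).injective⟩
  have hsymm : ∀ x y, B x y = B y x := by
    intro x y
    rw [← hB.neg_eq x y, CharTwo.neg_eq]
  obtain ⟨B', hB'⟩ : ∃ B' : LinearMap.BilinMap F V F,
      ∀ i j, B' (b i) (b j) = if i = j then c i else if i < j then B (b i) (b j) else 0 := by
    refine ⟨b.constr (S := F) fun i => b.constr (S := F) fun j =>
      if i = j then c i else if i < j then B (b i) (b j) else 0, ?_⟩
    intro i j
    rw [Module.Basis.constr_basis, Module.Basis.constr_basis]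
  refine ⟨B'.toQuadraticMap, ⟨?_, ?_⟩, ?_⟩
  · rw [LinearMap.BilinMap.polarBilin_toQuadraticMap]
    refine b.ext fun i => b.ext fun j => ?_
    simp only [LinearMap.add_apply, LinearMap.flip_apply, hB']
    obtain h | rfl | h := lt_trichotomy i j
    · simp [h.ne, h.ne', h, h.not_gt]
    · simp [CharTwo.add_self_eq_zero, hB.self_eq_zero]
    · simp [h.ne, h.ne', h, h.not_gt, hsymm]
  · intro i
    simp [hB']
  · rintro Q ⟨h1, h2⟩
    have : Q.toBilin b = B' := by
      refine b.ext fun i => b.ext fun j => ?_
      rw [QuadraticMap.toBilin_apply, hB', h2, ← h1]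
      rfl
    rw [← this, QuadraticMap.toQuadraticMap_toBilin Q b]

end Cfsg.Agent.S2619
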