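import Cfsg.Statements.S4966
import Mathlib.RepresentationTheory.Maschke
import Mathlib.LinearAlgebra.Matrix.BilinearForm

set_option autoImplicit false
open Cfsg

namespace Cfsg.Agent.S4966

set_option linter.style.haveILetI false

section
variable {F : Type*} [Field F] {G : Type*} [Group G] {V : Type*} [AddCommGroup V] [Module F V]
  (ρ : Representation F G V)

/-- invariant subspace -/
def Inv (U : Submodule F V) : Prop := ∀ g : G, ∀ u ∈ U, ρ g u ∈ U

/-- form invariant on a subspace -/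
def FInv (U : Submodule F V) (A : LinearMap.BilinForm F V) : Prop :=
  ∀ g : G, ∀ x ∈ U, ∀ y ∈ U, A (ρ g x) (ρ g y) = A x y

/-- invariant subspace with an invariant nondegenerate form -/
structure Good (U : Submodule F V) (A : LinearMap.BilinForm F V) : Prop where
  inv : Inv ρ U
  finv : FInv ρ U A
  nd : ∀ x ∈ U, (∀ y ∈ U, A x y = 0) → x = 0

variable {ρ}

theorem Inv.sup {U W : Submodule F V} (hU : Inv ρ U) (hW : Inv ρ W) : Inv ρ (U ⊔ W) :=
  fun g u hu => by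
    obtain ⟨a, ha, b, hb, rfl⟩ := Submodule.mem_sup.1 hu
    rw [map_add]
    exact Submodule.add_mem_sup (hU g a ha) (hW g b hb)

theorem exists_proj {U W : Submodule F V} (h : Disjoint U W) :
    ∃ π : V →ₗ[F] V, (∀ u ∈ U, π u = u) ∧ ∀ w ∈ W, π w = 0 := by
  obtain ⟨W', h1, h2⟩ := h.symm.exists_isCompl
  exact ⟨U.projection W' h2.symm, fun u hu => Submodule.projection_apply_of_mem_left _ hu,
    fun w hw => (Submodule.projection_apply_eq_zero_iff _).2 (h1 hw)⟩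

theorem Good.sup {U W : Submodule F V} {A S : LinearMap.BilinForm F V} (hU : Good ρ U A)
    (hW : Good ρ W S) (h : Disjoint U W) : ∃ π τ : V →ₗ[F] V,
      Good ρ (U ⊔ W) (A.comp π π + S.comp τ τ) := by
  obtain ⟨π, h1, h2⟩ := exists_proj h
  obtain ⟨τ, h3, h4⟩ := exists_proj h.symm
  have key : ∀ a ∈ U, ∀ b ∈ W, ∀ c ∈ U, ∀ d ∈ W,
      (A.comp π π + S.comp τ τ) (a + b) (c + d) = A a c + S b d := fun a ha b hb c hc d hd => by
    simp only [LinearMap.add_apply, LinearMap.BilinForm.comp_apply]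
    rw [π.map_add, π.map_add, τ.map_add, τ.map_add, h1 a ha, h1 c hc, h2 b hb, h2 d hd, h3 b hb,
      h3 d hd, h4 a ha, h4 c hc, add_zero, add_zero, zero_add, zero_add]
  refine ⟨π, τ, hU.inv.sup hW.inv, fun g x hx y hy => ?_, fun x hx hx0 => ?_⟩
  · obtain ⟨a, ha, b, hb, rfl⟩ := Submodule.mem_sup.1 hx
    obtain ⟨c, hc, d, hd, rfl⟩ := Submodule.mem_sup.1 hy
    rw [(ρ g).map_add, (ρ g).map_add, key _ (hU.inv g a ha) _ (hW.inv g b hb) _ (hU.inv g c hc) _
      (hW.inv g d hd), key _ ha _ hb _ hc _ hd, hU.finv g a ha c hc, hW.finv g b hb d hd]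
  · obtain ⟨a, ha, b, hb, rfl⟩ := Submodule.mem_sup.1 hx
    have e1 : a = 0 := hU.nd a ha fun y hy => by
      have := hx0 _ (Submodule.add_mem_sup hy W.zero_mem)
      rwa [key _ ha _ hb _ hy _ W.zero_mem, map_zero, add_zero] at this
    have e2 : b = 0 := hW.nd b hb fun y hy => by
      have := hx0 _ (Submodule.add_mem_sup U.zero_mem hy)
      rwa [key _ ha _ hb _ U.zero_mem _ hy, map_zero, zero_add] at this
    rw [e1, e2, add_zero]

theorem Inv.exists_isCompl [Finite G] [NeZero (Nat.card G : F)] {U : Submodule F V}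
    (hU : Inv ρ U) : ∃ W, Inv ρ W ∧ IsCompl U W := by
  obtain ⟨W, hW⟩ := ComplementedLattice.exists_isCompl (α := Subrepresentation ρ)
    ⟨U, fun g v hv => hU g v hv⟩
  exact ⟨W.toSubmodule, fun g u hu => W.apply_mem_toSubmodule g hu,
    isCompl_iff.2 ⟨disjoint_iff.2 (congrArg Subrepresentation.toSubmodule hW.inf_eq_bot),
      codisjoint_iff.2 (congrArg Subrepresentation.toSubmodule hW.sup_eq_top)⟩⟩

theorem Inv.exists_rel [Finite G] [NeZero (Nat.card G : F)] {R Y : Submodule F V}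
    (hR : Inv ρ R) (hY : Inv ρ Y) (h : R ≤ Y) (hne : R ≠ Y) :
    ∃ W, Inv ρ W ∧ W ≤ Y ∧ W ≠ ⊥ ∧ (∀ x ∈ W, x ∈ R → x = 0) ∧
      ∀ y ∈ Y, ∃ r ∈ R, ∃ w ∈ W, r + w = y := by
  obtain ⟨W, h1, h2⟩ := hR.exists_isCompl
  have h3 : ∀ y ∈ Y, ∃ r ∈ R, ∃ w ∈ W ⊓ Y, r + w = y := fun y hy => by
    obtain ⟨r, hr, w, hw, e⟩ := Submodule.mem_sup.1 (h2.sup_eq_top.ge (Submodule.mem_top (x := y)))
    exact ⟨r, hr, w, ⟨hw, by rw [← add_sub_cancel_left r w, e]; exact sub_mem hy (h hr)⟩, e⟩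
  refine ⟨W ⊓ Y, fun g u hu => ⟨h1 g u hu.1, hY g u hu.2⟩, inf_le_right, fun h0 => hne
    (h.antisymm fun y hy => ?_), fun x hx hx' => Submodule.disjoint_def.1 h2.disjoint x hx' hx.1, h3⟩
  obtain ⟨r, hr, w, hw, rfl⟩ := h3 y hy
  rw [h0] at hw
  rw [(Submodule.mem_bot F).1 hw, add_zero]
  exact hr

/-- a nonzero reflexive invariant form is nondegenerate on a nonzero invariant subspace -/
theorem exists_good [Finite G] [NeZero (Nat.card G : F)] {Y : Submodule F V} (hY : Inv ρ Y)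
    {A : LinearMap.BilinForm F V} (hA : FInv ρ Y A) (hr : ∀ x y, A x y = 0 → A y x = 0)
    (h0 : ∃ x ∈ Y, ∃ y ∈ Y, A x y ≠ 0) : ∃ W, W ≤ Y ∧ W ≠ ⊥ ∧ Good ρ W A := by
  let R : Submodule F V :=
    { carrier := {x | x ∈ Y ∧ ∀ y ∈ Y, A x y = 0}
      add_mem' := fun ha hb => ⟨add_mem ha.1 hb.1, fun y hy => by
        rw [map_add, LinearMap.add_apply, ha.2 y hy, hb.2 y hy, add_zero]⟩
      zero_mem' := ⟨zero_mem _, fun y _ => by simp⟩
      smul_mem' := fun c x hx => ⟨Y.smul_mem c hx.1, fun y hy => by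
        rw [map_smul, LinearMap.smul_apply, hx.2 y hy, smul_zero]⟩ }
  have hR : Inv ρ R := fun g u hu => ⟨hY g u hu.1, fun y hy => by
    rw [← hu.2 _ (hY g⁻¹ y hy), ← hA g u hu.1 _ (hY g⁻¹ y hy), ← Module.End.mul_apply, ← map_mul,
      mul_inv_cancel, map_one, Module.End.one_apply]⟩
  obtain ⟨W, h1, h2, h3, h4, h5⟩ := hR.exists_rel hY (fun x hx => hx.1) fun e => by
    obtain ⟨x, hx, y, hy, h⟩ := h0
    exact h ((e.ge hx).2 y hy)
  refine ⟨W, h2, h3, h1, fun g x hx y hy => hA g x (h2 hx) y (h2 hy), fun x hx hx0 =>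
    h4 x hx ⟨h2 hx, fun y hy => ?_⟩⟩
  obtain ⟨r, hr', w, hw, rfl⟩ := h5 y hy
  rw [map_add, hx0 w hw, hr r x (hr'.2 x (h2 hx)), add_zero]

/-- cancellation: a complement of a self-dual subspace carries a nonzero invariant form -/
theorem exists_form [FiniteDimensional F V] {B C : LinearMap.BilinForm F V} (hB : B.Nondegenerate)
    (hBi : ∀ g : G, ∀ x y : V, B (ρ g x) (ρ g y) = B x y) {Z Y : Submodule F V} (hZ : Good ρ Z C)
    (h : IsCompl Z Y) (h0 : Y ≠ ⊥) :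
    ∃ A : LinearMap.BilinForm F V, FInv ρ Y A ∧ ∃ x ∈ Y, ∃ y ∈ Y, A x y ≠ 0 := by
  have nd : (C.restrict Z).Nondegenerate := .ofSeparatingLeft fun x hx =>
    Subtype.ext (hZ.nd x x.2 fun y hy => hx ⟨y, hy⟩)
  let T : V →ₗ[F] V := Z.subtype ∘ₗ ((C.restrict Z).toDual nd).symm.toLinearMap ∘ₗ
    Z.dualRestrict ∘ₗ B
  have hT1 : ∀ v, T v ∈ Z := fun v => Subtype.property _
  have hT2 : ∀ v, ∀ z ∈ Z, C (T v) z = B v z := fun v z hz =>
    LinearMap.BilinForm.apply_toDual_symm_apply (B := C.restrict Z) (hB := nd) _ ⟨z, hz⟩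
  have hc : ∀ g z, ρ g (ρ g⁻¹ z) = z := fun g z => by
    rw [← Module.End.mul_apply, ← map_mul, mul_inv_cancel, map_one, Module.End.one_apply]
  have hT3 : ∀ g v, T (ρ g v) = ρ g (T v) := fun g v => by
    rw [← sub_eq_zero]
    refine hZ.nd _ (sub_mem (hT1 _) (hZ.inv g _ (hT1 _))) fun z hz => ?_
    rw [map_sub, LinearMap.sub_apply, hT2 _ z hz, ← hc g z,
      hZ.finv g _ (hT1 _) _ (hZ.inv _ z hz), hT2 _ _ (hZ.inv _ z hz), hBi, sub_self]
  have hT4 : ∀ (k : ℕ) g v, (T ^ k) (ρ g v) = ρ g ((T ^ k) v) := fun k => by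
    induction k with
    | zero => exact fun _ _ => rfl
    | succ k ih => exact fun g v => by rw [pow_succ, Module.End.mul_apply, hT3, ih]; rfl
  by_contra! hn
  let Y' : Submodule F V :=
    { carrier := {x | ∀ k : ℕ, ∀ y ∈ Y, B ((T ^ k) x) y = 0}
      add_mem' := fun ha hb k y hy => by
        rw [map_add, map_add, LinearMap.add_apply, ha k y hy, hb k y hy, add_zero]
      zero_mem' := fun k y _ => by simp
      smul_mem' := fun c x hx k y hy => by
        rw [map_smul, map_smul, LinearMap.smul_apply, hx k y hy, smul_zero] }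
  have h1 : Y ≤ Y' := fun x hx k y hy =>
    hn (B.compLeft (T ^ k)) (fun g a _ b _ => by
      simp only [LinearMap.BilinForm.compLeft_apply, hT4, hBi]) x hx y hy
  have h2 : ∀ x ∈ Y', T x ∈ Y' := fun x hx k y hy => by
    rw [← Module.End.mul_apply, ← pow_succ]; exact hx _ y hy
  have h3 : Function.Injective (T.restrict h2) := (injective_iff_map_eq_zero _).2 fun x hx => by
    refine Subtype.ext (hB.1 _ fun v => ?_)
    obtain ⟨z, hz, y, hy, rfl⟩ := Submodule.mem_sup.1 (h.sup_eq_top.ge (Submodule.mem_top (x := v)))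
    have h4 : T x = 0 := congrArg Subtype.val hx
    have h5 : B x y = 0 := x.2 0 y hy
    rw [map_add, ← hT2 _ z hz, h4, h5]; simp
  refine h0 ((Submodule.eq_bot_iff _).2 fun y hy => ?_)
  obtain ⟨x, hx⟩ := LinearMap.injective_iff_surjective.1 h3 ⟨y, h1 hy⟩
  have h4 : T x = y := congrArg Subtype.val hx
  exact Submodule.disjoint_def.1 h.disjoint y (h4 ▸ hT1 _) hy

end


/-- Let F be a finite field of characteristic p, G a finite group of order prime to p, and V a finite-dimensional representation of G over F carrying a nondegenerate G-invariant bilinear form (equivalently, V is self-dual). Then V is the direct sum of two G-invariant subspaces U and W such that U carries a G-invariant alternating bilinear form that is nondegenerate on U and W carries a G-invariant symmetric bilinear form that is nondegenerate on W; moreover when p = 2 the decomposition can be chosen with G acting trivially on W. -/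
theorem result {F : Type*} [Field F] [Fintype F] (p : ℕ) [Fact p.Prime] [CharP F p] {G : Type*} [Group G] [Finite G] (hcop : ¬ p ∣ Nat.card G) {V : Type*} [AddCommGroup V] [Module F V] [FiniteDimensional F V] (ρ : Representation F G V) (B : LinearMap.BilinForm F V) (hB : B.Nondegenerate) (hBinv : ∀ g : G, ∀ x y : V, B (ρ g x) (ρ g y) = B x y) : ∃ U W : Submodule F V, IsCompl U W ∧ (∀ g : G, ∀ u ∈ U, ρ g u ∈ U) ∧ (∀ g : G, ∀ w ∈ W, ρ g w ∈ W) ∧ (∃ A : LinearMap.BilinForm F V, (∀ x : V, A x x = 0) ∧ (∀ g : G, ∀ x ∈ U, ∀ y ∈ U, A (ρ g x) (ρ g y) = A x y) ∧ (∀ x ∈ U, (∀ y ∈ U, A x y = 0) → x = 0)) ∧ (∃ S : LinearMap.BilinForm F V, (∀ x y : V, S x y = S y x) ∧ (∀ g : G, ∀ x ∈ W, ∀ y ∈ W, S (ρ g x) (ρ g y) = S x y) ∧ (∀ x ∈ W, (∀ y ∈ W, S x y = 0) → x = 0)) ∧ (p = 2 → ∀ g : G, ∀ w ∈ W, ρ g w = w) := by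
  haveI : NeZero (Nat.card G : F) := ⟨fun h => hcop ((CharP.cast_eq_zero_iff F p _).1 h)⟩
  let P : Submodule F V × Submodule F V → Prop := fun x => Disjoint x.1 x.2 ∧
    (∃ A, Good ρ x.1 A ∧ ∀ v, A v v = 0) ∧ (∃ S, Good ρ x.2 S ∧ ∀ v w, S v w = S w v) ∧
    (p = 2 → ∀ g : G, ∀ w ∈ x.2, ρ g w = w)
  have gb : Good ρ ⊥ 0 := ⟨fun g u hu => by simp_all, fun _ _ _ _ _ => rfl, fun x hx _ => hx⟩
  obtain ⟨⟨U, W⟩, ⟨hd, ⟨A, hA, hA'⟩, ⟨S, hS, hS'⟩, h2⟩, hmax⟩ :=
    (wellFounded_gt.onFun (f := fun x : Submodule F V × Submodule F V => x.1 ⊔ x.2)).has_min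
      {x | P x} ⟨(⊥, ⊥), disjoint_bot_left, ⟨0, gb, fun _ => rfl⟩, ⟨0, gb, fun _ _ => rfl⟩,
        fun _ g w hw => by simp_all⟩
  simp only at hd hA hS h2
  obtain ⟨π, τ, hZ⟩ := hA.sup hS hd
  obtain ⟨Y, hY, hc⟩ := hZ.inv.exists_isCompl
  by_cases h0 : Y = ⊥
  · refine ⟨U, W, ⟨hd, codisjoint_iff.2 ?_⟩, hA.inv, hS.inv, ⟨A, hA', hA.finv, hA.nd⟩,
      ⟨S, hS', hS.finv, hS.nd⟩, h2⟩
    simpa [h0] using hc.sup_eq_top
  exfalso
  have hlt : ∀ X ≤ Y, X ≠ ⊥ → U ⊔ W < U ⊔ W ⊔ X := fun X h1 h3 =>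
    left_lt_sup.2 fun h => h3 ((hc.disjoint.mono_right h1).eq_bot_of_ge h)
  have alt : ∀ X ≤ Y, X ≠ ⊥ → ∀ C, Good ρ X C → (∀ v, C v v = 0) → False :=
    fun X h1 h3 C hC hC' => by
      have hX := hc.disjoint.mono_right h1
      obtain ⟨a, b, h⟩ := hA.sup hC (hX.mono_left le_sup_left)
      refine hmax (U ⊔ X, W) ⟨?_, ⟨_, h, fun v => by simp [hA', hC']⟩, ⟨S, hS, hS'⟩, h2⟩
        ((hlt X h1 h3).trans_eq (sup_right_comm ..))
      exact (hd.symm.disjoint_sup_right_of_disjoint_sup_left (by rwa [sup_comm])).symm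
  have sym : ∀ X ≤ Y, X ≠ ⊥ → ∀ C, Good ρ X C → (∀ v w, C v w = C w v) →
      (p = 2 → ∀ g : G, ∀ w ∈ X, ρ g w = w) → False :=
    fun X h1 h3 C hC hC' h4 => by
      have hX := hc.disjoint.mono_right h1
      obtain ⟨a, b, h⟩ := hS.sup hC (hX.mono_left le_sup_right)
      refine hmax (U, W ⊔ X) ⟨hd.disjoint_sup_right_of_disjoint_sup_left hX, ⟨A, hA, hA'⟩,
        ⟨_, h, fun v w => ?_⟩, fun hp g w hw => ?_⟩ ((hlt X h1 h3).trans_eq (sup_assoc ..))
      · simp only [LinearMap.add_apply, LinearMap.BilinForm.comp_apply]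
        rw [hS', hC']
      · obtain ⟨a, ha, b, hb, rfl⟩ := Submodule.mem_sup.1 hw
        rw [map_add, h2 hp g a ha, h4 hp g b hb]
  obtain ⟨β, hβ, x, hx, y, hy, hxy⟩ := exists_form hB hBinv hZ hc h0
  by_cases hs : ∃ x ∈ Y, ∃ y ∈ Y, (β - β.flip) x y ≠ 0
  · obtain ⟨X, h1, h3, h4⟩ := exists_good hY (A := β - β.flip) (fun g a ha b hb => by
      simp only [LinearMap.sub_apply, LinearMap.BilinForm.flip_apply, hβ g a ha b hb,
        hβ g b hb a ha]) (fun a b h => by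
      simp only [LinearMap.sub_apply, LinearMap.BilinForm.flip_apply] at h ⊢
      rw [← neg_sub, h, neg_zero]) hs
    exact alt X h1 h3 _ h4 fun v => by simp
  push Not at hs
  obtain ⟨σ, hσ, -⟩ := exists_proj hc.disjoint.symm
  obtain ⟨σ', hσ1, hσ2⟩ : ∃ σ' : V →ₗ[F] V, (∀ u ∈ Y, σ' u = u) ∧ ∀ v, σ' v ∈ Y :=
    ⟨Y.projection _ hc.symm, fun u hu => Submodule.projection_apply_of_mem_left _ hu,
      Submodule.projection_apply_mem _⟩
  set γ := β.comp σ' σ' with hγ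
  have hγs : ∀ v w, γ v w = γ w v := fun v w => sub_eq_zero.1 (hs _ (hσ2 v) _ (hσ2 w))
  have hγe : ∀ v ∈ Y, ∀ w ∈ Y, γ v w = β v w := fun v hv w hw => by
    simp only [hγ, LinearMap.BilinForm.comp_apply, hσ1 v hv, hσ1 w hw]
  have hγi : FInv ρ Y γ := fun g a ha b hb => by
    rw [hγe _ (hY g a ha) _ (hY g b hb), hγe a ha b hb, hβ g a ha b hb]
  obtain ⟨X, h1, h3, h4⟩ := exists_good hY hγi (fun a b h => (hγs b a).trans h)
    ⟨x, hx, y, hy, by rwa [hγe x hx y hy]⟩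
  by_cases hp : p = 2
  swap
  · exact sym X h1 h3 _ h4 hγs fun h => absurd h hp
  subst hp
  have two : ∀ a : F, a + a = 0 := fun a => CharTwo.add_self_eq_zero a
  let R : Submodule F V :=
    { carrier := {v | v ∈ Y ∧ γ v v = 0}
      add_mem' := fun {a b} ha hb => ⟨add_mem ha.1 hb.1, by
        simp only [map_add, LinearMap.add_apply, ha.2, hb.2, hγs b a, zero_add, add_zero, two]⟩
      zero_mem' := ⟨zero_mem _, by simp⟩
      smul_mem' := fun c v hv => ⟨Y.smul_mem c hv.1, by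
        simp only [map_smul, LinearMap.smul_apply, hv.2, smul_zero]⟩ }
  by_cases hR : R = Y
  · refine alt X h1 h3 _ h4 fun v => ?_
    have := (hR.ge (hσ2 v)).2
    rwa [hγe _ (hσ2 v) _ (hσ2 v)] at this
  have hRi : Inv ρ R := fun g u hu => ⟨hY g u hu.1, (hγi g u hu.1 u hu.1).trans hu.2⟩
  obtain ⟨X', k1, k2, k3, k4, -⟩ := hRi.exists_rel hY (fun _ h => h.1) hR
  refine sym X' k2 k3 γ ⟨k1, fun g a ha b hb => hγi g a (k2 ha) b (k2 hb), fun a ha h =>
    k4 a ha ⟨k2 ha, h a ha⟩⟩ hγs fun _ g w hw => ?_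
  rw [← sub_eq_zero]
  refine k4 _ (sub_mem (k1 g w hw) hw) ⟨k2 (sub_mem (k1 g w hw) hw), ?_⟩
  simp only [map_sub, LinearMap.sub_apply, hγi g w (k2 hw) w (k2 hw), hγs w (ρ g w)]
  linear_combination two (γ w w) - two (γ (ρ g w) w)

end Cfsg.Agent.S4966
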