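import Cfsg.Statements.S0712
import Mathlib.GroupTheory.GroupAction.Jordan

set_option autoImplicit false
open Cfsg

namespace Cfsg.Agent.S0712

open MulAction

/-- If `G` is `m`-transitive and the pointwise stabiliser of an `m`-set is `j`-transitive on the
complement, then `G` is `(m + j)`-transitive. -/
theorem trans_add {G α : Type*} [Group G] [MulAction G α] {m j : ℕ} (s : Set α) [Finite s]
    (hs : s.ncard = m) (hG : IsMultiplyPretransitive G α m)
    (h : IsMultiplyPretransitive (fixingSubgroup G s) (SubMulAction.ofFixingSubgroup G s) j) :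
    IsMultiplyPretransitive G α (m + j) := by
  subst hs
  obtain ⟨e⟩ : Nonempty (Fin (s.ncard) ≃ s) :=
    Finite.card_eq.mp (by simp [Nat.card_coe_set_eq])
  let e' : Fin s.ncard ↪ α := e.toEmbedding.trans (Function.Embedding.subtype _)
  have key : ∀ x : Fin (s.ncard + j) ↪ α, ∃ (g : G)
      (y : Fin j ↪ SubMulAction.ofFixingSubgroup G s),
      (∀ i, g • x (Fin.castAdd j i) = e i) ∧ ∀ i, g • x (Fin.natAdd _ i) = y i := by
    intro x
    obtain ⟨g, hg⟩ := exists_smul_eq G ((Fin.castAddEmb j).trans x) e'
    have hg' : ∀ i, g • x (Fin.castAdd j i) = e i := fun i => DFunLike.congr_fun hg i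
    refine ⟨g, ⟨fun i => ⟨g • x (Fin.natAdd _ i), fun hi => ?_⟩, fun i i' h => ?_⟩, hg',
      fun _ => rfl⟩
    · have h1 := hg' (e.symm ⟨_, hi⟩)
      rw [Equiv.apply_symm_apply] at h1
      have h2 := congrArg Fin.val (x.injective (MulAction.injective g h1))
      have h3 := (e.symm ⟨_, hi⟩).2
      simp only [Fin.val_castAdd, Fin.val_natAdd] at h2
      omega
    · have h1 := x.injective (MulAction.injective g (congrArg Subtype.val h))
      exact Fin.natAdd_injective _ _ h1
  refine ⟨fun x x' => ?_⟩
  obtain ⟨g, y, hg, hy⟩ := key x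
  obtain ⟨g', y', hg', hy'⟩ := key x'
  obtain ⟨k, hk⟩ := exists_smul_eq (fixingSubgroup G s) y y'
  refine ⟨g'⁻¹ * k * g, ?_⟩
  ext i
  change (g'⁻¹ * k * g) • x i = x' i
  rw [mul_smul, mul_smul, inv_smul_eq_iff]
  induction i using Fin.addCases with
  | left i =>
    rw [hg, hg']
    exact k.2 (e i)
  | right i =>
    rw [hy, hy', ← hk]
    rfl

/-- Jordan: a primitive group in which the pointwise stabiliser of a set `s` is doubly transitive on the complement of `s` (which has at least 2 points) is `(|s| + 2)`-transitive. -/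
theorem result {α : Type*} [Fintype α] [DecidableEq α] (G : Subgroup (Equiv.Perm α)) (hG : MulAction.IsPreprimitive G α) (s : Set α) {m : ℕ} (hsm : s.ncard = m) (hm : m + 2 ≤ Fintype.card α) (h2 : MulAction.IsMultiplyPretransitive (fixingSubgroup G s) (SubMulAction.ofFixingSubgroup G s) 2) : MulAction.IsMultiplyPretransitive G α (m + 2) := by
  apply trans_add s hsm _ h2
  rcases m with _ | n
  · exact is_zero_pretransitive
  · have h1 : IsMultiplyPreprimitive G α (n + 2) :=
      hG.isMultiplyPreprimitive hsm (by rw [Nat.card_eq_fintype_card]; omega)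
        (isPreprimitive_of_is_two_pretransitive h2)
    exact isMultiplyPretransitive_of_le (n := n + 2) (by omega)
      (by rw [Nat.card_eq_fintype_card]; omega)

end Cfsg.Agent.S0712
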