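import Cfsg.Statements.S3784
import Mathlib

set_option autoImplicit false
open Cfsg

namespace Cfsg.Agent.S3784


theorem sq_case {p b : ℕ} (m : ℕ) (hb : 1 ≤ b) (h : m ^ 2 = 2 ^ b + 1) : m = 3 ∧ b = 3 := by
  have hm : 1 < m := by
    by_contra hc
    have : m = 0 ∨ m = 1 := by omega
    have h0 := Nat.one_le_two_pow (n := b)
    rcases this with rfl | rfl <;> omega
  obtain ⟨k, rfl⟩ : ∃ k, m = k + 1 := ⟨m - 1, by omega⟩
  have h2 : k * (k + 2) = 2 ^ b := by nlinarith
  have hk : k ∣ 2 ^ b := ⟨_, h2.symm⟩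
  have hk2 : k + 2 ∣ 2 ^ b := ⟨k, by rw [← h2]; ring⟩
  obtain ⟨i, -, hi⟩ := (Nat.dvd_prime_pow Nat.prime_two).1 hk
  obtain ⟨j, -, hj⟩ := (Nat.dvd_prime_pow Nat.prime_two).1 hk2
  have hk2 : k = 2 := by
    rcases i with _ | _ | i
    · rcases j with _ | j
      · omega
      · rw [pow_succ] at hj; omega
    · omega
    · rcases j with _ | _ | j
      · omega
      · have := Nat.one_le_two_pow (n := i + 1 + 1); omega
      · rw [pow_succ, pow_succ] at hi hj; omega
  subst hk2
  refine ⟨rfl, ?_⟩
  have : 2 ^ b = 2 ^ 3 := by omega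
  exact Nat.pow_right_injective le_rfl this

/-- Let p, q be primes and a, b positive integers with p^a = q^b + 1. Then either p = 2, b = 1, a is prime and q = 2^a − 1; or q = 2, a = 1, b is a power of 2 and p = 2^b + 1; or p^a = 9 and q^b = 8. -/
theorem result (p q a b : ℕ) (hp : p.Prime) (hq : q.Prime) (ha : 1 ≤ a) (hb : 1 ≤ b) (h : p ^ a = q ^ b + 1) : (p = 2 ∧ b = 1 ∧ a.Prime ∧ q + 1 = 2 ^ a) ∨ (q = 2 ∧ a = 1 ∧ (∃ m : ℕ, b = 2 ^ m) ∧ p = 2 ^ b + 1) ∨ (p ^ a = 9 ∧ q ^ b = 8) := by
  by_cases hq2 : q = 2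
  · subst hq2
    right
    have hp2 : p ≠ 2 := by
      rintro rfl
      obtain ⟨a, rfl⟩ : ∃ k, a = k + 1 := ⟨a - 1, by omega⟩
      obtain ⟨b, rfl⟩ : ∃ k, b = k + 1 := ⟨b - 1, by omega⟩
      rw [pow_succ, pow_succ] at h; omega
    have hpo : Odd p := hp.odd_of_ne_two hp2
    rcases Nat.even_or_odd a with ⟨c, hc⟩ | hao
    · right
      obtain ⟨h1, h2⟩ := sq_case (p := p) (p ^ c) hb (by rw [← h, hc]; ring)
      subst h2
      exact ⟨by omega, by norm_num⟩
    · left
      have ha1 : a = 1 := by
        by_contra hne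
        have h1 := Nat.geomSum_eq hp.two_le a
        have h2 : (p - 1) * (∑ k ∈ Finset.range a, p ^ k) = 2 ^ b := by
          have := geom_sum_mul_add (p - 1) a
          rw [Nat.sub_add_cancel hp.one_lt.le] at this
          rw [mul_comm]; omega
        have h3 : Odd (∑ k ∈ Finset.range a, p ^ k) := by
          rw [Finset.odd_sum_iff_odd_card_odd, Finset.filter_true_of_mem (fun k _ => hpo.pow)]
          simpa using hao
        obtain ⟨i, -, hi⟩ := (Nat.dvd_prime_pow Nat.prime_two).1
          (show (∑ k ∈ Finset.range a, p ^ k) ∣ 2 ^ b from ⟨_, by rw [← h2, mul_comm]⟩)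
        rcases i with _ | i
        · obtain ⟨a, rfl⟩ : ∃ k, a = k + 2 := ⟨a - 2, by omega⟩
          rw [Finset.sum_range_succ', Finset.sum_range_succ'] at hi
          have := hp.pos
          simp at hi; omega
        · rw [hi, pow_succ] at h3
          exact (Nat.not_odd_iff_even.2 (by simp)) h3
      subst ha1
      rw [pow_one] at h
      refine ⟨rfl, rfl, ?_, h⟩
      exact Nat.pow_of_pow_add_prime (a := 2) (by norm_num) (by omega) (h ▸ hp)
  · left
    have hqo : Odd q := hq.odd_of_ne_two hq2
    have hp2 : p = 2 := by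
      by_contra hp2
      have hpo : Odd p := hp.odd_of_ne_two hp2
      have h1 : Odd (p ^ a) := hpo.pow
      have h2 : Odd (q ^ b) := hqo.pow
      rw [h] at h1
      exact (Nat.not_odd_iff_even.2 h2.add_one) h1
    subst hp2
    have hq3 : 3 ≤ q := by have := hq.two_le; omega
    have hb1 : b = 1 := by
      rcases Nat.even_or_odd b with ⟨c, hc⟩ | hbo
      · exfalso
        obtain ⟨k, hk⟩ : Odd (q ^ c) := hqo.pow
        have h4 : q ^ b = 4 * (k * k + k) + 1 := by rw [hc, pow_add, hk]; ring
        have hqb : 3 ≤ q ^ b := le_trans hq3 (Nat.le_self_pow (by omega) q)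
        rcases a with _ | _ | a
        · omega
        · omega
        · rw [pow_succ, pow_succ] at h; omega
      · by_contra hne
        have h1 : q + 1 ∣ q ^ b + 1 := by simpa using Odd.nat_add_dvd_pow_add_pow q 1 hbo
        obtain ⟨c, hc⟩ := h1
        have hcd : c ∣ 2 ^ a := ⟨q + 1, by rw [h, hc, mul_comm]⟩
        obtain ⟨i, -, hi⟩ := (Nat.dvd_prime_pow Nat.prime_two).1 hcd
        have hco : Odd c := by
          have e := Odd.add_dvd_pow_add_pow (q : ℤ) 1 hbo
          have e2 : (∑ i ∈ Finset.range b, (-(q : ℤ)) ^ i) * ((q : ℤ) + 1) = q ^ b + 1 := by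
            have := geom_sum_mul (-(q : ℤ)) b
            rw [hbo.neg_pow] at this
            linarith
          have e3 : (c : ℤ) = ∑ i ∈ Finset.range b, (-(q : ℤ)) ^ i := by
            have : ((q : ℤ) + 1) * c = q ^ b + 1 := by exact_mod_cast hc.symm
            have hq1 : (q : ℤ) + 1 ≠ 0 := by positivity
            apply mul_left_cancel₀ hq1
            rw [this, ← e2, mul_comm]
          have : Odd (c : ℤ) := by
            rw [e3]
            have hq' : Odd (-(q : ℤ)) := Odd.neg (by exact_mod_cast hqo)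
            have : ∀ n : ℕ, (Odd (∑ i ∈ Finset.range n, (-(q : ℤ)) ^ i) ↔ Odd n) := by
              intro n
              induction n with
              | zero => simp
              | succ n ih =>
                rw [Finset.sum_range_succ, Int.odd_add', Nat.odd_add_one, ← ih]
                have := hq'.pow (n := n)
                simp [this, Int.not_odd_iff_even]
            exact (this b).2 hbo
          exact_mod_cast this
        rcases i with _ | i
        · rw [hi] at hc
          have : q ^ b = q ^ 1 := by simpa using hc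
          exact hne (Nat.pow_right_injective hq.two_le this)
        · rw [hi, pow_succ] at hco
          exact (Nat.not_odd_iff_even.2 (by simp)) hco
    subst hb1
    rw [pow_one] at h
    refine ⟨rfl, rfl, ?_, h.symm⟩
    have ha1 : a ≠ 1 := by rintro rfl; omega
    exact (Nat.prime_of_pow_sub_one_prime ha1 (by rw [h]; simpa using hq)).2

end Cfsg.Agent.S3784
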