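import Cfsg.Statements.S0743
import Cfsg.Agent.H26.Basic

set_option autoImplicit false
open Cfsg

namespace Cfsg.Agent.S0743

open MulAction Cfsg.Agent.H26

/-- Gleason's lemma for an arbitrary action. -/
theorem gleason {G α : Type*} [Group G] [MulAction G α] [Fintype α] {p k : ℕ} (hp : p.Prime)
    (hk : 1 ≤ k) (hkn : k < Fintype.card α)
    (h : ∀ s : Finset α, s.card = k →
      ∃ P : Subgroup G, IsPGroup p P ∧ fixedPoints P α = (s : Set α)) :
    IsMultiplyPretransitive G α k := by
  classical
  have := Fact.mk hp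
  obtain ⟨k, rfl⟩ : ∃ j, k = j + 1 := ⟨k - 1, by omega⟩
  apply mt_succ_of_forall_fix_trans (by omega)
  intro s hs a ha b hb
  by_contra hcon
  push Not at hcon
  -- the orbit of `a` under the pointwise stabiliser of `s`
  let O : Set α := {x | ∃ g : G, (∀ x ∈ s, g • x = x) ∧ g • a = x}
  have hOs : ∀ x ∈ O, x ∉ s := by
    rintro _ ⟨g, hg, rfl⟩ hx
    have := hg _ hx
    have h2 : g • a = a := MulAction.injective g this
    exact ha (h2 ▸ hx)
  have count : ∀ c ∉ s, Nat.card O ≡ Nat.card (O ∩ {c} : Set α) [MOD p] := by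
    intro c hc
    obtain ⟨P, hP, hfix⟩ := h (insert c s) (by rw [Finset.card_insert_of_notMem hc, hs])
    have hPs : ∀ u : P, ∀ x ∈ s, (u : G) • x = x := by
      intro u x hx
      have : x ∈ fixedPoints P α := by rw [hfix]; simp [hx]
      exact this u
    let O' : SubMulAction P α :=
      { carrier := O
        smul_mem' := by
          rintro u _ ⟨g, hg, rfl⟩
          exact ⟨u * g, fun x hx => by rw [mul_smul, hg x hx, hPs u x hx], mul_smul _ _ _⟩ }
    have h1 := hP.card_modEq_card_fixedPoints O'
    have e : fixedPoints P O' ≃ (O ∩ {c} : Set α) :=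
      { toFun := fun x => ⟨x.1.1, x.1.2, by
          have h2 : (x.1.1 : α) ∈ fixedPoints P α := fun u => congrArg Subtype.val (x.2 u)
          rw [hfix] at h2
          rcases Finset.mem_insert.1 h2 with h3 | h3
          · exact h3
          · exact absurd h3 (hOs _ x.1.2)⟩
        invFun := fun x => ⟨⟨x.1, x.2.1⟩, fun u => Subtype.ext (by
          have h2 : (x.1 : α) ∈ fixedPoints P α := by
            rw [hfix, show (x.1 : α) = c from x.2.2]; simp
          exact h2 u)⟩
        left_inv := fun x => rfl
        right_inv := fun x => rfl }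
    rw [Nat.card_congr e] at h1
    exact h1
  have h1 := count a ha
  have h2 := count b hb
  have e1 : (O ∩ {a} : Set α) = {a} :=
    Set.inter_eq_right.2 (Set.singleton_subset_iff.2 ⟨1, fun x _ => one_smul _ _, one_smul _ _⟩)
  have e2 : (O ∩ {b} : Set α) = ∅ := by
    rw [Set.inter_singleton_eq_empty]
    rintro ⟨g, hg, hab⟩
    exact hcon g hg hab
  rw [e1] at h1
  rw [e2] at h2
  have h3 := h1.symm.trans h2
  simp only [Nat.card_unique, Nat.card_eq_fintype_card, Fintype.card_ofIsEmpty] at h3
  have := (Nat.modEq_zero_iff_dvd.1 h3)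
  exact hp.one_lt.ne' (Nat.dvd_one.1 this)

/-- Gleason's Lemma: let `p` be a prime and `1 ≤ k < n`; if every `k`-subset of the `n` points is exactly the fixed-point set of some `p`-subgroup of `G`, then `G` is `k`-transitive. -/
theorem result {α : Type*} [Fintype α] [DecidableEq α] (G : Subgroup (Equiv.Perm α)) {p k : ℕ} (hp : p.Prime) (hk : 1 ≤ k) (hkn : k < Fintype.card α) (h : ∀ s : Finset α, s.card = k → ∃ P : Subgroup G, IsPGroup p P ∧ MulAction.fixedPoints P α = (s : Set α)) : MulAction.IsMultiplyPretransitive G α k :=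
  gleason hp hk hkn h

end Cfsg.Agent.S0743
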