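import Cfsg.Statements.S5089
import Cfsg.Agent.H91.Normal

set_option autoImplicit false
open Cfsg

namespace Cfsg.Agent.S5089

open Cfsg.FusionSystem Cfsg.Agent.H91

/-- A saturated fusion system over a finite p-group has a nontrivial subgroup that is normal in the system (O_p(F) ≠ 1) if and only if some nontrivial abelian subgroup is strongly closed in the system. -/
theorem result {Ω : Type*} [Group Ω] {S : Subgroup Ω} [Finite S] (p : ℕ) [Fact p.Prime] (hS : IsPGroup p S) (F : Cfsg.FusionSystem S) (hF : F.IsSaturated p) : F.core ≠ ⊥ ↔ ∃ Q : Subgroup Ω, Q ≠ ⊥ ∧ IsMulCommutative Q ∧ F.StronglyClosed Q := by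
  refine ⟨fun h => ?_, ?_⟩
  · have := finite_of_le (core_le F)
    have : Nontrivial F.core := (Subgroup.nontrivial_iff_ne_bot _).2 h
    refine ⟨_, ?_, ?_, stronglyClosed_char_of_normal (core_normal F) (Subgroup.center _)⟩
    · rw [Ne, Subgroup.map_eq_bot_iff_of_injective _ (Subgroup.subtype_injective _)]
      exact (isPGroup_of_le hS (core_le F)).bot_lt_center.ne'
    · infer_instance
  · rintro ⟨Q, h1, h2, h3⟩ e
    refine h1 (le_bot_iff.1 (e ▸ le_core (normal_of_stronglyClosed_comm hS hF h3 ?_)))
    rw [Subgroup.commutator_le]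
    intro a ha b hb
    rw [Subgroup.mem_bot, commutatorElement_eq_one_iff_mul_comm]
    exact setLike_mul_comm ha hb

end Cfsg.Agent.S5089
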