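import Cfsg.Statements.S2369
import Cfsg.Agent.H65.Cent

set_option autoImplicit false
open Cfsg

namespace Cfsg.Agent.S2369

open Cfsg.Lie Cfsg.Agent.H37 Cfsg.Agent.H38 Cfsg.Agent.H40 Cfsg.Agent.H65

/-- tables of the elements of the twisted Weyl group -/
def Ps : List ℕ :=
   [51796440500484901143153696487818818013477200723449952044001235951360553534019470061818296545992278144,
    50711356955113024484237680051719050044808239729493018790595698762783605174185518059214929039512862721,
    51762131216995872393076301198161157574193764592906257260708103723152900813574193675171430098402345600,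
    50565242145441051681982880452685067348411951172529988993765924386340128669577056509613360609275136129,
    46336719887424823934312505319093404391860294444489680710357382162515170689203767549816466195796262917,
    33203933168733518753924112624504996206377081177335310510998833049814532043213362462739001769654993041,
    46079133279173915756639305208114123780271809412113581194708430065664085076456792471940367402651733765,
    32853030586460203807039047872154127477736830320197242736248517500623940920386299096755659327687496977,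
    18952088942258692795421477318159298246533513365840418750119340641747229328367423557231172455661683358,
    5725986249544980845821219982199301943998534273924080291659428076707085172296930182046464380697446570,
    18601186359985377848536412565808429517893262508702350975369025092556638205540360191247830013694187294,
    5468399641294072668148019871220021332410049241547980776010475979855999559549955104170365587552917418,
    1239877383277844920477644737628358375858392513507672492601933756031041579176666144373471174074044206,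
    42988311723024209384223992152268150076579093131404225659754419218269435179528978815401684946834735,
    1093762573605872118222845138594375679462103956544642695772159379587565074568204594771902743836317614,
    8679028233995459306828702494607710793142962587709442366622191010616714734252592168535237356902191]

theorem Ps_one : ∃ π ∈ Ps, ∀ r < 48, r = dec π r := by decide +kernel

theorem Ps_step : ∀ π ∈ Ps, ∀ j < 2, ∃ π' ∈ Ps, ∀ r < 48, dec π (dec (GsF4 j) r) = dec π' r := by
  decide +kernel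

theorem Ps_39 : ∀ π ∈ Ps, 39 ≤ dec π 39 → (∀ r < 48, dec π r = r) ∨ ∀ r < 48, dec π r = dec (GsF4 0) r := by
  decide +kernel

theorem Ps_44 : ∀ π ∈ Ps, 44 ≤ dec π 44 → (∀ r < 48, dec π r = r) ∨ ∀ r < 48, dec π r = dec (GsF4 1) r := by
  decide +kernel

theorem run39 : run F4.tab (fun k => (R4.gxm.map Prod.fst).getD k []) (fun k => R4.gn.getD k []) [39, 45]
    [(3, 0), (3, 1), (0, 0)] [32, 37] = true := by
  decide +kernel

variable {K : Type*} [Field K] {e : ℕ} (θ : Th K 2 e)

theorem w_n (j : Fin 2) (r : Fin chevF4.nroots) : ((TF θ).mt.w ((TF θ).mt.n j) r : ℕ) = dec (GsF4 j) r := by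
  rw [(TF θ).mt_w_n, tabF4 j r r.2]

theorem exists_tab {m : GL chevF4.Idx K} (hm : m ∈ (TF θ).mt.N) (hf : m ∈ (TF θ).mt.Fix) :
    ∃ π ∈ Ps, ∀ r : Fin chevF4.nroots, ((TF θ).mt.w m r : ℕ) = dec π r := by
  refine (TF θ).mt.N_fix_ind (p := fun m => ∃ π ∈ Ps, ∀ r : Fin chevF4.nroots, ((TF θ).mt.w m r : ℕ) = dec π r)
    (fun h hh _ => ?_) (fun m hm _ ⟨π, hπ, h⟩ j _ => ?_) hm hf
  · obtain ⟨π, hπ, h⟩ := Ps_one
    exact ⟨π, hπ, fun r => by rw [(TF θ).mt.w_H hh]; exact h r r.2⟩
  · obtain ⟨π', hπ', h'⟩ := Ps_step π hπ j j.2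
    exact ⟨π', hπ', fun r => by rw [(TF θ).mt.w_mul_n hm, h, w_n, h' r r.2]⟩

theorem hW {r : ℕ} (hr : r < chevF4.nroots) {j : Fin 2}
    (h : ∀ π ∈ Ps, r ≤ dec π r → (∀ r < 48, dec π r = r) ∨ ∀ r < 48, dec π r = dec (GsF4 j) r) :
    ∀ m ∈ (TF θ).mt.N, m ∈ (TF θ).mt.Fix → r ≤ (TF θ).mt.w m ⟨r, hr⟩ →
      (TF θ).mt.w m = 1 ∨ (TF θ).mt.w m = (TF θ).mt.w ((TF θ).mt.n j) := by
  intro m hm hf hle
  obtain ⟨π, hπ, e⟩ := exists_tab θ hm hf
  rw [e] at hle
  exact (h π hπ hle).imp (fun h => Equiv.ext fun r => Fin.ext (by rw [e, h r r.2]; rfl))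
    fun h => Equiv.ext fun r => Fin.ext (by rw [e, h r r.2, w_n])

theorem exists_par [Fintype K] [CharP K 2] {a b : GL chevF4.Idx K} (ha : a ∈ (TF θ).mt.Fix) (hb : b ∈ (TF θ).mt.Fix)
    (h2 : orderOf a = 2) (hab : b * a = a * b) : ∃ j g, g * b * g⁻¹ ∈ Par (TF θ).mt j := by
  obtain ⟨y, hy, g, hg, e⟩ := R4.hcov θ a ha h2
  have key : ∀ g ∈ (TF θ).mt.Fix, ∀ y, g * a * g⁻¹ = y → g * b * g⁻¹ ∈ (TF θ).mt.Fix ∧
      g * b * g⁻¹ * y = y * (g * b * g⁻¹) := by
    rintro g hg _ rfl
    refine ⟨mul_mem (mul_mem hg hb) (inv_mem hg), ?_⟩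
    calc _ = g * (b * a) * g⁻¹ := by group
      _ = _ := by rw [hab]; group
  simp only [R4.Ys, List.mem_cons, List.not_mem_nil, or_false] at hy
  rcases hy with rfl | rfl
  · obtain ⟨h1, h3⟩ := key g hg _ e
    exact ⟨1, g, cent_le_Par (TF θ) (by decide) (by decide) (by decide) (hW θ _ Ps_44) h1 h3⟩
  · obtain ⟨g', hg', e'⟩ := run_sound (matRel isChev_F4 K) F4.checked.agree (gx_fix (TF θ) F4.checked.agree R4.hgx)
      (gn_fix (TF θ) R4.hgn) _ _ (by unfold Val; decide) run39
    obtain ⟨h1, h3⟩ := key (g' * g) (mul_mem hg' hg) (xw (matRel isChev_F4 K) [39, 45])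
      (by rw [← e', ← e]; group)
    exact ⟨0, g' * g, cent_le_Par (TF θ) (by decide) (by decide) (by decide) (hW θ _ Ps_39) h1 h3⟩

theorem card_par [Finite K] (j : Fin 2) : Nat.card (Par (TF θ).mt j) =
    Nat.card K ^ 12 * (Nat.card K - 1) ^ 2 * (Nat.card K ^ ((j : ℕ) + 1) + 1) := by
  rw [card_Par, card_XJ_F4, (TF θ).mt_U', (TF θ).mt_H', Fix_F4, card_U1_F4 θ, card_H1_F4 θ]

theorem arith {q : ℕ} (hq : 1 ≤ q) (j : Fin 2) :
    q ^ 12 * (q - 1) ^ 2 * (q ^ ((j : ℕ) + 1) + 1) ∣ (q * (q ^ 4 - 1)) ^ 12 := by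
  obtain ⟨k, rfl⟩ : ∃ k, q = k + 1 := ⟨q - 1, by omega⟩
  have e : (k + 1) ^ 4 - 1 = k * (((k + 1) ^ 1 + 1) * ((k + 1) ^ 2 + 1)) := by
    rw [Nat.sub_eq_iff_eq_add (Nat.one_le_pow _ _ (by omega))]; ring
  rw [e, Nat.add_sub_cancel, mul_pow, mul_pow, mul_assoc]
  refine mul_dvd_mul_left _ (mul_dvd_mul (pow_dvd_pow _ (by norm_num)) (dvd_pow ?_ (by norm_num)))
  fin_cases j
  exacts [dvd_mul_right _ _, dvd_mul_left _ _]

/-- Let q = 2^(2m+1) with m ≥ 1 and let a, b be commuting elements of the large Ree group ²F₄(q) with a an involution. Then every prime divisor of the order of b divides q(q⁴ − 1). -/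
theorem result {K : Type*} [Field K] [Fintype K] (m : ℕ) (hm : 1 ≤ m) (hK : Fintype.card K = 2 ^ (2 * m + 1))
    (a b : ↥(Cfsg.Lie.twistedF4 K (2 ^ m))) (ha : orderOf a = 2) (hab : Commute a b) :
    (orderOf b).primeFactors ⊆ (2 ^ (2 * m + 1) * ((2 ^ (2 * m + 1)) ^ 4 - 1)).primeFactors := by
  haveI : CharP K 2 := (H40.mkTh Nat.prime_two hK).char
  have hF := Fix_F4 (mkTh Nat.prime_two hK)
  obtain ⟨j, g, h⟩ := exists_par (mkTh Nat.prime_two hK) (a := a) (b := b) (hF.ge a.2) (hF.ge b.2)
    (by rw [Subgroup.orderOf_coe, ha]) (congrArg Subtype.val hab.eq.symm)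
  have h1 := (Par _ j).orderOf_dvd_natCard h
  rw [card_par, Nat.card_eq_fintype_card, hK, ← MulAut.conj_apply, MulEquiv.orderOf_eq, Subgroup.orderOf_coe] at h1
  have h0 : 1 < (2 ^ (2 * m + 1)) ^ 4 := Nat.one_lt_pow (by norm_num) (Nat.one_lt_pow (by omega) (by norm_num))
  have h2 : 2 ^ (2 * m + 1) * ((2 ^ (2 * m + 1)) ^ 4 - 1) ≠ 0 := mul_ne_zero (by positivity) (by omega)
  rw [← Nat.primeFactors_pow (2 ^ (2 * m + 1) * _) (show 12 ≠ 0 by norm_num)]
  exact Nat.primeFactors_mono (h1.trans (arith Nat.one_le_two_pow j)) (pow_ne_zero _ h2)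

end Cfsg.Agent.S2369
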