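import Cfsg.Statements.S0048
import Cfsg.Agent.H2.MinNormal
import Cfsg.Agent.H2.Basic

set_option autoImplicit false
open Cfsg

namespace Cfsg.Agent.S0048

/-- In a finite solvable group every maximal subgroup has index a prime power. -/
theorem result {G : Type*} [Group G] [Finite G] [Group.IsSolvable G]
    (M : Subgroup G) (hM : IsCoatom M) : IsPrimePow M.index := by
  revert M
  revert ‹Group.IsSolvable G›
  refine H2.card_induction (P := fun G _ _ => ∀ [Group.IsSolvable G] (M : Subgroup G),
    IsCoatom M → IsPrimePow M.index) G ?_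
  intro G _ _ ih _ M hM
  have hnt : Nontrivial G := by
    by_contra h
    rw [not_nontrivial_iff_subsingleton] at h
    exact hM.1 (Subsingleton.elim _ _)
  obtain ⟨N, p, hp, hN, hN0, -, hNp, -, -⟩ := H2.exists_minimal_normal_of_solvable (G := G)
  have := Fact.mk hp
  by_cases hNM : N ≤ M
  · have hker : (QuotientGroup.mk' N).ker ≤ M := by simpa using hNM
    have h1 := ih (G ⧸ N) (H2.card_quotient_lt N hN0) (M.map (QuotientGroup.mk' N))
      (H2.isCoatom_map_of_surjective (QuotientGroup.mk'_surjective N) hM hker)
    rwa [Subgroup.index_map_eq _ (QuotientGroup.mk'_surjective N) hker] at h1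
  · have hsup : M ⊔ N = ⊤ := hM.2 _ (lt_of_le_of_ne le_sup_left (fun h => hNM (h ▸ le_sup_right)))
    have h1 := H2.index_eq_relIndex_of_sup_eq_top M N hsup
    obtain ⟨k, hk⟩ := hNp.index (M.subgroupOf N)
    have hk' : M.index = p ^ k := h1.trans hk
    have hk0 : k ≠ 0 := by
      rintro rfl
      rw [pow_zero, Subgroup.index_eq_one] at hk'
      exact hM.1 hk'
    rw [hk']
    exact hp.isPrimePow.pow hk0

end Cfsg.Agent.S0048
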