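import Cfsg.Statements.S0068
import Cfsg.Agent.H2.Basic
import Cfsg.Agent.H2.MinNormal
import Mathlib.GroupTheory.FixedPointFree

set_option autoImplicit false
open Cfsg

namespace Cfsg.Agent.S0068

theorem inverts {G : Type*} [Group G] [Finite G] (K : Subgroup G) [K.Normal] {s : G}
    (hs : orderOf s = 2) (hf : K ⊓ Subgroup.centralizer {s} = ⊥) :
    (∀ k ∈ K, s * k * s⁻¹ = k⁻¹) ∧ IsMulCommutative K := by
  have hfp : MonoidHom.FixedPointFree (MulAut.conjNormal s : MulAut K) := by
    intro k hk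
    have h1 : s * k * s⁻¹ = k := congrArg Subtype.val hk
    have h2 : (k : G) ∈ K ⊓ Subgroup.centralizer {s} := by
      refine Subgroup.mem_inf.mpr ⟨k.2, ?_⟩
      rw [H2.mem_centralizer_singleton]
      exact (mul_inv_eq_iff_eq_mul.mp h1).symm
    rw [hf, Subgroup.mem_bot] at h2
    exact Subtype.ext h2
  have hss : s * s = 1 := by rw [← sq, ← hs, pow_orderOf_eq_one]
  have hinv : Function.Involutive (MulAut.conjNormal s : MulAut K) := by
    intro k
    rw [← MulAut.mul_apply, ← map_mul, hss, map_one, MulAut.one_apply]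
  refine ⟨fun k hk => ?_, ⟨⟨fun a b => hfp.commute_all_of_involutive hinv a b⟩⟩⟩
  exact congrArg Subtype.val (congrFun (hfp.coe_eq_inv_of_involutive hinv) ⟨k, hk⟩)

/-- Frobenius complements of even order: if H complements a nontrivial normal subgroup K, each nonidentity element of H has trivial centraliser in K, and H has even order, then H contains a unique involution s, K is abelian, and s inverts every element of K. -/
theorem result {G : Type*} [Group G] [Finite G] (K H : Subgroup G) [K.Normal]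
    (hc : Subgroup.IsComplement' K H) (hK : K ≠ ⊥) (hfpf : ∀ h ∈ H, h ≠ 1 → K ⊓ Subgroup.centralizer {h} = ⊥)
    (heven : 2 ∣ Nat.card H) :
    (∃ s ∈ H, orderOf s = 2 ∧ (∀ t ∈ H, orderOf t = 2 → t = s) ∧ ∀ k ∈ K, s * k * s⁻¹ = k⁻¹) ∧ IsMulCommutative K := by
  have := Fact.mk Nat.prime_two
  obtain ⟨s, hs⟩ := exists_prime_orderOf_dvd_card' 2 heven
  have hs' : orderOf (s : G) = 2 := by rw [Subgroup.orderOf_coe, hs]
  have hne : ∀ t : G, orderOf t = 2 → t ≠ 1 := by
    rintro t ht rfl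
    simp at ht
  obtain ⟨h1, h2⟩ := inverts K hs' (hfpf s s.2 (hne s hs'))
  refine ⟨⟨s, s.2, hs', fun t ht ht2 => ?_, h1⟩, h2⟩
  obtain ⟨h3, -⟩ := inverts K ht2 (hfpf t ht (hne t ht2))
  by_contra hts
  have h4 : (s : G)⁻¹ * t ≠ 1 := fun h => hts (inv_mul_eq_one.mp h).symm
  apply hK
  rw [← hfpf _ (H.mul_mem (H.inv_mem s.2) ht) h4, eq_comm, inf_eq_left]
  intro k hk
  rw [H2.mem_centralizer_singleton]
  have e1 := h1 k hk
  have e2 := h3 k hk
  rw [← e2] at e1
  calc k * ((s : G)⁻¹ * t) = (s : G)⁻¹ * (s * k * (s : G)⁻¹) * t := by group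
    _ = _ := by rw [e1]; group

end Cfsg.Agent.S0068
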