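import Cfsg.Statements.S0275
import Cfsg.Agent.H28.SL2Prime
import Cfsg.Agent.S0016
import Cfsg.Agent.S0261
import Cfsg.Agent.H66.SL2Core

set_option autoImplicit false
open Cfsg

namespace Cfsg.Agent.S0275

open Subgroup

theorem quaternion_not_comm {k : ℕ} (hk : 1 ≤ k)
    (h : ∀ a b : QuaternionGroup (2 ^ k), a * b = b * a) : False := by
  have h1 := h (.a 1) (.xa 0)
  simp only [QuaternionGroup.a_mul_xa, QuaternionGroup.xa_mul_a, QuaternionGroup.xa.injEq,
    zero_sub, zero_add] at h1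
  have h2 : ((2 : ℕ) : ZMod (2 * 2 ^ k)) = 0 := by
    push_cast
    linear_combination -h1
  rw [ZMod.natCast_eq_zero_iff] at h2
  have := Nat.le_of_dvd (by norm_num) h2
  have : 2 ^ 1 ≤ 2 ^ k := Nat.pow_le_pow_right (by norm_num) hk
  omega

theorem cyclic_quaternion_one (a : QuaternionGroup (2 ^ 0)) (b : QuaternionGroup (2 ^ 0)) :
    a * b = b * a := by
  revert a b
  decide

/-- If p is odd and H is a subgroup of SL_2(q), q a power of p, with more than one Sylow p-subgroup, then the Sylow 2-subgroups of H are generalised quaternion. -/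
theorem result {F : Type*} [Field F] [Fintype F] (p : ℕ) [Fact p.Prime] [CharP F p] (hp : p ≠ 2) (H : Subgroup (Matrix.SpecialLinearGroup (Fin 2) F)) (hH : 1 < Nat.card (Sylow p H)) (S : Sylow 2 H) : ∃ k : ℕ, 1 ≤ k ∧ Nonempty ((S : Subgroup H) ≃* QuaternionGroup (2 ^ k)) := by
  have h2 : (2 : F) ≠ 0 := fun e => hp ((Nat.prime_dvd_prime_iff_eq Fact.out Nat.prime_two).1
    ((CharP.cast_eq_zero_iff F p 2).1 (by exact_mod_cast e)))
  obtain ⟨φ, hφ, hle⟩ := H28.exists_hom_sl_prime p hp H hH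
  have hodd : Odd (Fintype.card (ZMod p)) := by
    rw [ZMod.card]; exact (Fact.out : p.Prime).odd_of_ne_two hp
  obtain ⟨T⟩ : Nonempty (Sylow 2 (Matrix.SpecialLinearGroup (Fin 2) (ZMod p))) := inferInstance
  obtain ⟨k, hk, ⟨e⟩⟩ := S0261.result hodd T
  have hnc : ¬ ∀ a b : (S : Subgroup H), a * b = b * a := fun hc => by
    let ψ : Matrix.SpecialLinearGroup (Fin 2) (ZMod p) →* H :=
      φ.codRestrict H fun x => hle ⟨x, rfl⟩
    have hψ : Function.Injective ψ := fun a b h => hφ (congrArg Subtype.val h)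
    obtain ⟨S', hS'⟩ := (T.isPGroup'.map ψ).exists_le_sylow
    have hc' : ∀ a b : (S' : Subgroup H), a * b = b * a := fun a b =>
      (Sylow.equiv S' S).injective (by rw [map_mul, map_mul, hc])
    refine quaternion_not_comm hk fun a b => e.symm.injective (Subtype.ext (hψ ?_))
    have := hc' ⟨ψ (e.symm a), hS' (mem_map_of_mem _ (e.symm a).2)⟩
      ⟨ψ (e.symm b), hS' (mem_map_of_mem _ (e.symm b).2)⟩
    simpa using congrArg Subtype.val this
  have key : ∀ A : Subgroup (S : Subgroup H), Nat.card A = 2 → ∀ x, x ∈ A ↔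
      (((x : H) : Matrix.SpecialLinearGroup (Fin 2) F) = 1 ∨
        ((x : H) : Matrix.SpecialLinearGroup (Fin 2) F) = -1) := by
    intro A hA x
    have hsq : ∀ y ∈ A, ((y : H) : Matrix.SpecialLinearGroup (Fin 2) F) = 1 ∨
        ((y : H) : Matrix.SpecialLinearGroup (Fin 2) F) = -1 := fun y hy => by
      have := pow_card_eq_one' (x := (⟨y, hy⟩ : A))
      rw [hA, sq] at this
      exact (H66.mul_self_eq_one_iff _ h2).1
        (congrArg (fun z : A => ((z.1 : H) : Matrix.SpecialLinearGroup (Fin 2) F)) this)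
    refine ⟨hsq x, ?_⟩
    rintro (h | h)
    · rw [show x = 1 from Subtype.ext (Subtype.ext h)]; exact A.one_mem
    · obtain ⟨⟨y, hy⟩, hy1⟩ := ne_bot_iff_exists_ne_one.1 ((one_lt_card_iff_ne_bot A).1 (by omega))
      have := (hsq y hy).resolve_left fun e => hy1 (Subtype.ext (Subtype.ext (Subtype.ext e)))
      rwa [show x = y from Subtype.ext (Subtype.ext (h.trans this.symm))]
  rcases S0016.result 2 S.isPGroup' (fun A B hA hB => Subgroup.ext fun x => by
    rw [key A hA, key B hB]) with h | ⟨-, n, ⟨f⟩⟩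
  · exact absurd (fun a b => (IsCyclic.isMulCommutative).is_comm.comm a b) hnc
  · refine ⟨n, ?_, ⟨f⟩⟩
    rcases n with _ | n
    · exact absurd (fun a b => f.injective (by rw [map_mul, map_mul, cyclic_quaternion_one])) hnc
    · omega

end Cfsg.Agent.S0275
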