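import Cfsg.Statements.S0413
import Cfsg.Agent.H16.WittExt

set_option autoImplicit false
open Cfsg

namespace Cfsg.Agent.S0413

/-- Aut of an S(4, 7, 23) is simple of order 10200960 and 4-transitive. -/
theorem result {α : Type*} [Fintype α] [DecidableEq α] (hα : Fintype.card α = 23) {B : Set (Finset α)} (hB : Cfsg.IsSteinerSystem 4 7 B) : Cfsg.IsM23 (Cfsg.setSystemAut B) ∧ MulAction.IsMultiplyPretransitive (Cfsg.setSystemAut B) α 4 := by
  obtain ⟨f, p, h⟩ := H16.witt23 hα hB
  have hc := h.card_aut (by simp)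
  simp only [Finset.card_singleton, Nat.choose_one_right] at hc
  have hc' : Nat.card (Cfsg.setSystemAut B) = 10200960 := by omega
  have := MulAction.is_one_pretransitive_iff.1 (h.trans (k := 1) (by simp))
  exact ⟨⟨H16.simple_degree_23 (α := α) (by simp [hα]) hc', hc'⟩, h.trans (by simp)⟩

end Cfsg.Agent.S0413
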