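import Cfsg.Statements.S0437
import Cfsg.Agent.S0436

set_option autoImplicit false
open Cfsg

namespace Cfsg.Agent.S0437


/-- For three distinct, pairwise commuting members a, b, c of a set of 3-transpositions E, a member e of E centralises a * b * c if and only if it centralises each of a, b and c. -/
theorem result {G : Type*} [Group G] {E : Set G} (hE : Cfsg.IsThreeTranspositionSet E) {a b c e : G} (ha : a ∈ E) (hb : b ∈ E) (hc : c ∈ E) (he : e ∈ E) (hab : a ≠ b) (hac : a ≠ c) (hbc : b ≠ c) (h₁ : Commute a b) (h₂ : Commute a c) (h₃ : Commute b c) : Commute e (a * b * c) ↔ (Commute e a ∧ Commute e b ∧ Commute e c) := by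
  refine ⟨fun h => ?_, fun h => (h.1.mul_right h.2.1).mul_right h.2.2⟩
  have haa := H17.tt_sq hE ha
  have hbb := H17.tt_sq hE hb
  have hcc := H17.tt_sq hE hc
  have hee := H17.tt_sq hE he
  by_cases hec : Commute e c
  · have : Commute e (a * b) := by
      have : a * b = a * b * c * c := by rw [mul_assoc _ c, hcc, mul_one]
      rw [this]; exact h.mul_right hec
    have := (S0436.result hE ha hb he hab h₁).1 this
    exact ⟨this.1, this.2, hec⟩
  by_cases heb : Commute e b
  · have : Commute e (a * c) := by
      have : a * c = a * b * c * b := by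
        rw [mul_assoc a b c, h₃.eq, mul_assoc, mul_assoc, hbb, mul_one]
      rw [this]; exact h.mul_right heb
    have := (S0436.result hE ha hc he hac h₂).1 this
    exact absurd this.2 hec
  by_cases hea : Commute e a
  · have : Commute e (b * c) := by
      have : b * c = a * (a * b * c) := by
        rw [← mul_assoc, ← mul_assoc, haa, one_mul]
      rw [this]; exact hea.mul_right h
    have := (S0436.result hE hb hc he hbc h₃).1 this
    exact absurd this.2 hec
  exfalso
  have b1 := H17.tt_braid hE he ha hea
  have b2 := H17.tt_braid hE he hb heb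
  have c3 := H17.tt_cube hE he hc hec
  set z := a * b * c with hz
  have hza : Commute a z := ((Commute.refl a).mul_right h₁).mul_right h₂
  have hzb : Commute b z := (h₁.symm.mul_right (Commute.refl b)).mul_right h₃
  have hzz : z * z = 1 := by
    have : z ^ 2 = 1 := by
      rw [hz, (h₂.mul_left h₃).mul_pow, h₁.mul_pow, pow_two, pow_two, pow_two, haa, hbb, hcc]
      simp
    rwa [pow_two] at this
  have hc' : c = a * b * z := by
    rw [hz, ← mul_assoc, mul_assoc a b, ← mul_assoc b a b, ← h₁.eq, mul_assoc a b b, hbb, mul_one,
      haa, one_mul]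
  have hw : Commute (e * (a * b)) z := h.mul_left (hza.mul_left hzb)
  have h3 : (e * (a * b)) ^ 3 * z = 1 := by
    have : e * c = e * (a * b) * z := by rw [hc']; simp only [mul_assoc]
    rw [this, hw.mul_pow, pow_succ z 2, pow_two, hzz, one_mul] at c3
    exact c3
  have h4 : (e * (a * b)) ^ 2 = a * b * e * (a * b) * e := by
    calc (e * (a * b)) ^ 2 = e * (a * b) * e * a * b := by simp only [pow_two, mul_assoc]
      _ = e * (b * a) * e * a * b := by rw [h₁.eq]
      _ = e * b * (a * e * a) * b := by simp only [mul_assoc]
      _ = (e * b * e) * a * e * b := by rw [← b1]; simp only [mul_assoc]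
      _ = b * e * (b * a) * e * b := by rw [b2]; simp only [mul_assoc]
      _ = b * e * a * (b * e * b) := by rw [← h₁.eq]; simp only [mul_assoc]
      _ = b * (e * a * e) * b * e := by rw [← b2]; simp only [mul_assoc]
      _ = (b * a) * e * (a * b) * e := by rw [b1]; simp only [mul_assoc]
      _ = _ := by rw [← h₁.eq]
  have hab2 : a * b * (a * b) = 1 := by
    rw [mul_assoc, ← mul_assoc b a b, ← h₁.eq, mul_assoc a b b, hbb, mul_one, haa]
  have h5 : (e * (a * b)) ^ 4 = 1 := by
    rw [show 4 = 2 + 2 from rfl, pow_add]
    nth_rewrite 1 [h4]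
    rw [pow_two]
    calc a * b * e * (a * b) * e * (e * (a * b) * (e * (a * b)))
        = a * b * e * (a * b) * (e * e) * (a * b) * e * (a * b) := by simp only [mul_assoc]
      _ = a * b * e * (a * b * (a * b)) * e * (a * b) := by rw [hee]; simp only [mul_assoc, one_mul]
      _ = a * b * (e * e) * (a * b) := by rw [hab2]; simp only [mul_assoc, one_mul]
      _ = 1 := by rw [hee, mul_one, hab2]
  have h6 : e * (a * b) = z := by
    have h7 : (e * (a * b)) ^ 3 * (e * (a * b)) = (e * (a * b)) ^ 3 * z := by
      rw [h3, ← pow_succ, h5]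
    exact mul_left_cancel h7
  apply hec
  have : e = c := by
    have h8 : e * (a * b) = c * (a * b) := by
      rw [h6, hz, (h₂.mul_left h₃).eq]
    exact mul_right_cancel h8
  rw [this]

end Cfsg.Agent.S0437
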