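import Cfsg.Statements.S0473
import Cfsg.Agent.H58.Fi24H
import Cfsg.Agent.H96.T24

set_option autoImplicit false
open Cfsg

namespace Cfsg.Agent.S0473

/-- The largest Fischer 3-transposition group: a group of order 2 · 1255205709190661721292800 generated by a conjugacy class of 306936 3-transpositions, in which a transposition centraliser has order 2 · 4089470473293004800 and contains a simple subgroup of order 4089470473293004800; its subgroup of index 2 is simple and contains simple subgroups of orders 4089470473293004800 and 4030387200. -/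
theorem result : ∃ (G : Type) (_ : Group G) (_ : Finite G), Nat.card G = 2 * 1255205709190661721292800 ∧ ∃ D : Set G, Cfsg.IsThreeTranspositionClass D ∧ Nat.card D = 306936 ∧ (∀ d ∈ D, Nat.card (Subgroup.centralizer ({d} : Set G)) = 2 * 4089470473293004800 ∧ ∃ K : Subgroup G, K ≤ Subgroup.centralizer ({d} : Set G) ∧ Cfsg.IsFi23 K) ∧ ∃ H : Subgroup G, H.index = 2 ∧ Cfsg.IsFi24' H ∧ (∃ K : Subgroup H, Cfsg.IsFi23 K) ∧ (∃ K : Subgroup H, Cfsg.IsHe K) := by
  have := H58.Fi23P.simple
  have := H58.HeP.simple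
  obtain ⟨K1, ⟨e1⟩⟩ := H58.Fi24P.exists_sub _ H58.Fi24P.f23Hom_inj (by rw [H58.Fi23P.card_eq]; norm_num)
  obtain ⟨K2, ⟨e2⟩⟩ := H58.Fi24P.exists_sub _ H58.Fi24P.heHom_inj (by rw [H58.HeP.card_eq]; norm_num)
  refine ⟨Spor.Fi24, inferInstance, H58.Fi24P.finite, H58.Fi24P.card_eq, H96.D24, H96.class24,
    H96.ncard24, fun d hd => ?_, commutator _, H58.Fi24P.index_commutator,
    ⟨H58.Fi24P.simple_commutator, H58.Fi24P.card_commutator⟩,
    ⟨K1, e1.isSimpleGroup, (Nat.card_congr e1.toEquiv).trans H58.Fi23P.card_eq⟩,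
    K2, e2.isSimpleGroup, (Nat.card_congr e2.toEquiv).trans H58.HeP.card_eq⟩
  obtain ⟨g, rfl⟩ := isConj_iff.1 ((H96.T24.hD d).1 hd)
  have h1 : Subgroup.centralizer {g * H96.T24.t * g⁻¹} = H58.Fi24P.H.map (MulAut.conj g).toMonoidHom := by
    rw [← H96.cent24_eq_H]
    ext x
    rw [Subgroup.mem_map_equiv, Subgroup.mem_centralizer_singleton_iff,
      Subgroup.mem_centralizer_singleton_iff, MulAut.conj_symm_apply, H96.T24_t]
    constructor
    · intro h
      calc _ = g⁻¹ * (x * (g * H96.l24 * g⁻¹)) * g := by group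
        _ = _ := by rw [h]; group
    · intro h
      calc _ = g * (g⁻¹ * x * g * H96.l24) * g⁻¹ := by group
        _ = _ := by rw [h]; group
  let e := ((MulAut.conj g).subgroupMap H58.Fi24P.f23Hom.range).symm.trans
    (MonoidHom.ofInjective H58.Fi24P.f23Hom_inj).symm
  rw [h1]
  exact ⟨(Subgroup.card_map_of_injective (MulAut.conj g).injective).trans H58.Fi24P.card_H, _,
    Subgroup.map_mono H58.Fi24P.f23Hom_le, e.isSimpleGroup,
    (Nat.card_congr e.toEquiv).trans H58.Fi23P.card_eq⟩

end Cfsg.Agent.S0473
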