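import Cfsg.Statements.S0505
import Cfsg.Agent.S0017
import Cfsg.Agent.H71.CharP

set_option autoImplicit false
open Cfsg

namespace Cfsg.Agent.S0505

/-- Let G be a finite group of even order in which the centralizer of every involution is solvable and has trivial
core (no nontrivial normal subgroup of odd order). Then G is of characteristic 2 type. -/
theorem result {G : Type*} [Group G] [Finite G]
    (h2 : Even (Nat.card G))
    (hs : ∀ t : G, orderOf t = 2 → Group.IsSolvable (Subgroup.centralizer ({t} : Set G)))
    (hc : ∀ t : G, orderOf t = 2 → Cfsg.oddCore (Subgroup.centralizer ({t} : Set G)) = ⊥) :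
    Cfsg.IsCharacteristicTwoType G := by
  refine ⟨h2, fun T hT hne => ?_⟩
  haveI : Fact (Nat.Prime 2) := ⟨Nat.prime_two⟩
  haveI : Nontrivial T := (Subgroup.nontrivial_iff_ne_bot T).mpr hne
  haveI := hT.center_nontrivial
  have hZ : IsPGroup 2 (Subgroup.center T) := hT.to_subgroup _
  have hdvd : 2 ∣ Nat.card (Subgroup.center T) := by
    obtain ⟨k, hk⟩ := IsPGroup.iff_card.mp hZ
    rw [hk]
    apply dvd_pow_self
    rintro rfl
    have := Finite.one_lt_card (α := Subgroup.center T)
    omega
  obtain ⟨z, hz⟩ := exists_prime_orderOf_dvd_card' 2 hdvd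
  have hz' : orderOf ((z : T) : G) = 2 := by
    rw [Subgroup.orderOf_coe, Subgroup.orderOf_coe, hz]
  have hc1 : Subgroup.centralizer (Subgroup.zpowers ((z : T) : G) : Set G) =
      Subgroup.centralizer ({((z : T) : G)} : Set G) := by
    rw [Subgroup.zpowers_eq_closure, Subgroup.centralizer_closure]
  haveI := hs _ hz'
  have h1 : H72.CharPIn 2 (Subgroup.centralizer (Subgroup.zpowers ((z : T) : G) : Set G)) := by
    rw [hc1, H72.charPIn_iff]
    exact S0017.result 2 (hc _ hz')
  have h3 := H71.charPIn_centralizer_of_le hT (Subgroup.zpowers_le.mpr (z : T).2) (by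
    rw [hc1]
    intro x hx
    rw [Subgroup.mem_centralizer_singleton_iff]
    exact congrArg Subtype.val (Subgroup.mem_center_iff.mp z.2 ⟨x, hx⟩)) h1
  exact (H72.charPIn_iff _).mp (H71.charPIn_normalizer_of_centralizer' hT h3)

end Cfsg.Agent.S0505
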