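import Cfsg.Statements.S0519
import Cfsg.Agent.H31.NoFour
import Cfsg.Agent.H18.SmallCent
import Cfsg.Agent.S0126

set_option autoImplicit false
open Cfsg

open Subgroup Cfsg.Agent.H31

namespace Cfsg.Agent.S0519

theorem result {P : Type*} [Group P] [Finite P] (p : ℕ) [Fact p.Prime]
    (hP : IsPGroup p P) (hn : ∀ A : Subgroup P, A.Normal → IsMulCommutative A → IsCyclic A)
    (hm : ∃ B : Subgroup P, IsMulCommutative B ∧ ¬ IsCyclic B) :
    p = 2 ∧ ((∃ n : ℕ, Nonempty (P ≃* QuaternionGroup n)) ∨ (∃ n : ℕ, 8 ≤ n ∧ Nonempty (P ≃* DihedralGroup n)) ∨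
      Cfsg.IsQuasiDihedral P) := by
  obtain ⟨B, -, hB⟩ := hm
  have hnc : ¬ IsCyclic P := fun h => hB inferInstance
  have hpp : p.Prime := Fact.out
  have key : ∀ A : Subgroup P, A.Normal → Cfsg.IsElementaryAbelian p A → Nat.card A ≠ p ^ 2 := by
    intro A h1 h2 h3
    obtain ⟨g, hg⟩ := (hn A h1 h2.1).exists_ofOrder_eq_natCard
    have h4 := Nat.le_of_dvd hpp.pos (h3 ▸ hg ▸ orderOf_dvd_of_pow_eq_one
      (Subtype.ext (h2.2 g g.2) : g ^ p = 1))
    have := hpp.two_le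
    nlinarith
  obtain rfl : p = 2 := by
    by_contra h
    obtain ⟨A, h1, h2, h3⟩ := S0126.result h hP hnc
    exact key A h1 h2 h3
  obtain ⟨w, hw⟩ := (cyclic_or_small_cent hP hn).resolve_left hnc
  rcases H18.two_group_cases hP w hw with h | ⟨n, h2, ⟨e⟩⟩ | ⟨n, h⟩ | h
  · exact absurd h hnc
  · refine ⟨rfl, Or.inr (Or.inl ⟨n, ?_, ⟨e⟩⟩)⟩
    obtain ⟨k, hk⟩ := hP.exists_card_eq
    rw [Nat.card_congr e.toEquiv, DihedralGroup.nat_card] at hk
    by_contra hlt
    have h3 : k < 4 := (Nat.pow_lt_pow_iff_right one_lt_two).1 (by omega)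
    have h4 : n = 2 ∨ n = 4 := by interval_cases k <;> omega
    have h5 : ∀ A : Subgroup (DihedralGroup n), A.Normal → (∀ a ∈ A, ∀ b ∈ A, a * b = b * a) →
        (∀ a ∈ A, a ^ 2 = 1) → Nat.card A ≠ 2 ^ 2 := fun A k1 k2 k3 k4 =>
      key (A.comap e.toMonoidHom) (k1.comap _) ⟨⟨⟨fun a b => Subtype.ext (e.injective (by
        rw [coe_mul, coe_mul, map_mul, map_mul]; exact k2 _ a.2 _ b.2))⟩⟩, fun a ha => e.injective (by simpa using k3 _ ha)⟩
        (by rw [← k4]; exact Nat.card_congr (e.subtypeEquiv fun _ => Iff.rfl))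
    rcases h4 with rfl | rfl
    · exact h5 ⊤ inferInstance (by simp only [mem_top]; decide) (by simp only [mem_top]; decide)
        (by rw [card_top, DihedralGroup.nat_card]; rfl)
    · let A : Subgroup (DihedralGroup 4) :=
        { carrier := {x | x = 1 ∨ x = .r 2 ∨ x = .sr 0 ∨ x = .sr 2}
          one_mem' := Or.inl rfl
          mul_mem' := by simp only [Set.mem_ofPred_eq]; decide
          inv_mem' := by simp only [Set.mem_ofPred_eq]; decide }
      have hA : ∀ x, x ∈ A ↔ x = 1 ∨ x = .r 2 ∨ x = .sr 0 ∨ x = .sr 2 := fun _ => Iff.rfl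
      refine h5 A ⟨by simp only [hA]; decide⟩ (by simp only [hA]; decide)
        (by simp only [hA]; decide) ?_
      rw [Nat.card_congr (Equiv.subtypeEquivRight hA), Nat.card_eq_fintype_card]
      decide
  · exact ⟨rfl, Or.inl ⟨_, h⟩⟩
  · exact ⟨rfl, Or.inr (Or.inr h)⟩

end Cfsg.Agent.S0519
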