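import Cfsg.Statements.S0547
import Cfsg.Agent.H19.Basic

set_option autoImplicit false
open Cfsg

namespace Cfsg.Agent.S0547

/-- A nontrivial normal subgroup of a faithful primitive group is transitive. -/
theorem pretransitive_of_normal {G : Type*} [Group G] {Ω : Type*} [MulAction G Ω]
    [FaithfulSMul G Ω] (hprim : MulAction.IsPreprimitive G Ω) (M : Subgroup G) [M.Normal]
    (hM : M ≠ ⊥) : MulAction.IsPretransitive M Ω := by
  apply MulAction.IsQuasiPreprimitive.isPretransitive_of_normal
  intro h
  apply hM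
  rw [eq_bot_iff]
  intro g hg
  rw [Subgroup.mem_bot]
  apply FaithfulSMul.eq_of_smul_eq_smul (α := Ω)
  intro a
  have : a ∈ MulAction.fixedPoints M Ω := h ▸ Set.mem_univ a
  rw [one_smul]
  exact this ⟨g, hg⟩

/-- An element fixing a point and centralising a transitive subgroup of a faithful group is
trivial. -/
theorem eq_one_of_centralizes {G : Type*} [Group G] {Ω : Type*} [MulAction G Ω]
    [FaithfulSMul G Ω] (M : Subgroup G) [MulAction.IsPretransitive M Ω] (ω : Ω) (g : G)
    (hg : g • ω = ω) (hc : ∀ m ∈ M, m * g = g * m) : g = 1 := by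
  apply FaithfulSMul.eq_of_smul_eq_smul (α := Ω)
  intro a
  obtain ⟨m, rfl⟩ := MulAction.exists_smul_eq M ω a
  rw [one_smul, Subgroup.smul_def, ← mul_smul, ← hc m m.2, mul_smul, hg]

/-- Let a finite solvable group G act faithfully and primitively on a set, and let M be a minimal normal subgroup of G. Then M is transitive with trivial point stabilizers, and the number of points equals the order of M, which is a prime power p ^ d with d ≥ 1. -/
theorem result {G : Type*} [Group G] [Finite G] [Group.IsSolvable G] {Ω : Type*} [Nonempty Ω] [MulAction G Ω] [FaithfulSMul G Ω] (hprim : MulAction.IsPreprimitive G Ω) (M : Subgroup G) [M.Normal] (hM : M ≠ ⊥) (hmin : ∀ K : Subgroup G, K.Normal → K ≤ M → K = ⊥ ∨ K = M) : MulAction.IsPretransitive M Ω ∧ (∀ ω : Ω, MulAction.stabilizer M ω = ⊥) ∧ ∃ p d : ℕ, p.Prime ∧ 0 < d ∧ Nat.card Ω = p ^ d ∧ Nat.card M = p ^ d := by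
  have htr := pretransitive_of_normal hprim M hM
  obtain ⟨hc, p, hp, hpd, -, hpg⟩ := H19.minimal_normal_of_solvable M hM hmin
  have hst : ∀ ω : Ω, MulAction.stabilizer M ω = ⊥ := by
    intro ω
    rw [eq_bot_iff]
    intro g hg
    rw [Subgroup.mem_bot]
    exact Subtype.ext (eq_one_of_centralizes M ω g hg fun m hm => setLike_mul_comm hm g.2)
  refine ⟨htr, hst, ?_⟩
  have := Fact.mk hp
  obtain ⟨d, hd⟩ := hpg.exists_card_eq
  obtain ⟨ω⟩ := ‹Nonempty Ω›
  refine ⟨p, d, hp, ?_, ?_, hd⟩
  · rcases Nat.eq_zero_or_pos d with rfl | h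
    · rw [hd, pow_zero] at hpd
      exact absurd hpd hp.not_dvd_one
    · exact h
  · rw [← MulAction.index_stabilizer_of_transitive M ω, hst, Subgroup.index_bot, hd]

end Cfsg.Agent.S0547
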