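import Cfsg.Statements.S0548
import Cfsg.Agent.S0547

set_option autoImplicit false
open Cfsg

namespace Cfsg.Agent.S0548

/-- Let a finite solvable group G act faithfully and primitively on a set, let M be a minimal normal subgroup and H the stabilizer of a point. Then H is a complement to M, no non-identity element of H centralizes M, and the only subgroups of M normalized by H are the trivial subgroup and M. -/
theorem result {G : Type*} [Group G] [Finite G] [Group.IsSolvable G] {Ω : Type*} [MulAction G Ω] [FaithfulSMul G Ω] (hprim : MulAction.IsPreprimitive G Ω) (M : Subgroup G) [M.Normal] (hM : M ≠ ⊥) (hmin : ∀ K : Subgroup G, K.Normal → K ≤ M → K = ⊥ ∨ K = M) (ω : Ω) : Subgroup.IsComplement' M (MulAction.stabilizer G ω) ∧ MulAction.stabilizer G ω ⊓ Subgroup.centralizer (M : Set G) = ⊥ ∧ ∀ K : Subgroup G, K ≤ M → MulAction.stabilizer G ω ≤ Subgroup.normalizer (K : Set G) → K = ⊥ ∨ K = M := by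
  have htr := S0547.pretransitive_of_normal hprim M hM
  obtain ⟨hc, -⟩ := H19.minimal_normal_of_solvable M hM hmin
  have hcomp : Subgroup.IsComplement' M (MulAction.stabilizer G ω) := by
    apply Subgroup.isComplement'_stabilizer
    · intro g hg
      exact Subtype.ext (S0547.eq_one_of_centralizes M ω g hg fun m hm => setLike_mul_comm hm g.2)
    · intro g
      exact MulAction.exists_smul_eq M (g • ω) ω
  refine ⟨hcomp, ?_, ?_⟩
  · rw [eq_bot_iff]
    rintro g ⟨hg, hgc⟩
    rw [Subgroup.mem_bot]
    exact S0547.eq_one_of_centralizes M ω g hg hgc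
  · intro K hKM hK
    apply hmin K _ hKM
    rw [← Subgroup.normalizer_eq_top_iff, eq_top_iff, ← hcomp.sup_eq_top]
    refine sup_le ?_ hK
    intro m hm
    apply Subgroup.mem_normalizer_fintype
    intro k hk
    rw [setLike_mul_comm hm (hKM hk), mul_inv_cancel_right]
    exact hk

end Cfsg.Agent.S0548
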