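import Cfsg.Statements.S0563
import Cfsg.Agent.H19.KW

set_option autoImplicit false
open Pointwise
open Cfsg

namespace Cfsg.Agent.S0563

open Subgroup Cfsg.Agent.H49

/-- If a finite group G is the product AB of two nilpotent subgroups of coprime orders, then G is solvable, and for every Sylow p-subgroup P of A and Sylow q-subgroup Q of B the product set PQ is a subgroup. -/
theorem result {G : Type*} [Group G] [Finite G] (A B : Subgroup G) (hA : Group.IsNilpotent A) (hB : Group.IsNilpotent B) (hcop : (Nat.card A).Coprime (Nat.card B)) (hAB : ∀ g : G, ∃ a ∈ A, ∃ b ∈ B, g = a * b) : Group.IsSolvable G ∧ ∀ (p q : ℕ) [Fact p.Prime] [Fact q.Prime] (P : Sylow p A) (Q : Sylow q B), ∃ S : Subgroup G, (S : Set G) = (((P : Subgroup A).map A.subtype : Subgroup G) : Set G) * (((Q : Subgroup B).map B.subtype : Subgroup G) : Set G) := by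
  have hp := H20.isProd_top_iff.2 hAB
  have hs := H19.kegel_wielandt hA hB hp
  refine ⟨hs, fun p q _ _ P Q => ?_⟩
  have key : ∀ {A B : Subgroup G} (_ : (Nat.card A).Coprime (Nat.card B)) (_ : IsProd A B ⊤)
      (p : ℕ) [Fact p.Prime] (P : Sylow p A),
      IsPiHallOf ({p} ∩ primesOf A) ((P : Subgroup A).map A.subtype) ⊤ := by
    intro A B hcop hp p _ P
    have h1 : IsPi (primesOf A)ᶜ B := fun r hr hd hm =>
      hr.one_lt.ne' (Nat.eq_one_of_dvd_coprimes hcop hm.2 hd)
    exact ((sylowOf_map Fact.out P).congr (ρ := {p} ∩ primesOf A) fun r hr hd =>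
      ⟨fun h => ⟨h, hr, hd⟩, fun h => h.1⟩).trans
      (Cfsg.IsPiHallOf.of_isProd (isPi_primesOf A) h1 hp) Set.inter_subset_right
  exact ⟨_, H20.IsProd_coe_eq (H20.isProd_of_hall_normal inferInstance hp
    (sylowOf_normal_of_nilpotent hA (sylowOf_map Fact.out P))
    (sylowOf_normal_of_nilpotent hB (sylowOf_map Fact.out Q)) (key hcop hp p P)
    (key hcop.symm hp.symm q Q))⟩

end Cfsg.Agent.S0563
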