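import Cfsg.Statements.S0620
import Cfsg.Agent.H21.FF5

set_option autoImplicit false
open Cfsg

namespace Cfsg.Agent.S0620

/-- Under coprime action of an elementary abelian q-group X on a p-separable group K with trivial p'-core, K is generated by the normalizer of J(S), the centralizer of Ω₁(Z(S)) and the fixed points of X. -/
theorem result {G : Type*} [Group G] [Finite G] {p : ℕ} [Fact p.Prime] {q : ℕ} [Fact q.Prime] (K X : Subgroup G) (hXK : X ≤ Subgroup.normalizer (K : Set G)) (hX : Cfsg.IsElementaryAbelian q X) (hq : ¬ q ∣ Nat.card K) (hsep : Cfsg.IsPSolvable p ↥K) (hO : Cfsg.pPrimeCore p ↥K = ⊥) (S : Sylow p ↥K) : (Subgroup.normalizer (Cfsg.thompsonSubgroupOf p (S : Subgroup ↥K) : Set ↥K) ⊔ Subgroup.centralizer (Cfsg.omegaOne p ((S : Subgroup ↥K) ⊓ Subgroup.centralizer ((S : Subgroup ↥K) : Set ↥K)) : Set ↥K) ⊔ (Subgroup.centralizer (X : Set G)).subgroupOf K) = ⊤ := by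
  have := H21.omegaZClosure_normal (G := K) p
  obtain ⟨hV, hO'⟩ := H21.omegaZClosure_facts hsep hO
  obtain ⟨h1, h2, h3⟩ := H21.thompson_setup (p := p) hXK
  rw [eq_top_iff, ← H21.normalizer_thompson_sup_eq_top S (Cfsg.thompsonSubgroup p K)
    (H21.thompsonSubgroupOf_sylow_le S)]
  refine sup_le (le_sup_of_le_left le_sup_left) ?_
  have hC := (H21.centralizer_anti (H21.omegaOne_center_le_omegaZClosure S)).trans
    (le_sup_of_le_left (b := (Subgroup.centralizer (X : Set G)).subgroupOf K) (le_sup_right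
      (a := Subgroup.normalizer (Cfsg.thompsonSubgroupOf p (S : Subgroup ↥K) : Set ↥K))))
  refine H21.ff_structure_thompson hV hO' hsep hC fun hp E hE => ?_
  obtain ⟨P, hP⟩ := S0542.result p E ((H44.SN.of_le_normalizer hE.le hE.norm).isSubnormal
    (Subgroup.Normal.isSubnormal inferInstance)) S
  refine hE.le_of_sylow Subgroup.le_normalizer_of_normal P ?_ (inf_le_right.trans hC) fun e he => ?_
  · rw [hP, Subgroup.subgroupOf_map_subtype]
    exact inf_le_left.trans (le_sup_of_le_left (le_sup_of_le_left (Subgroup.le_normalizer.trans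
      (H21.normalizer_le_normalizer_thompsonSubgroupOf p _))))
  · obtain ⟨_, ⟨⟨d, hd, rfl⟩, hdX⟩, h4⟩ := (hE.map K.subtype_injective).exists_fixed
      (H21.isElementaryAbelian_map hV _) h3 hp hX
      (H46.not_dvd_card_of_le hq (Subgroup.map_subtype_le _)) h1 h2 (Subgroup.mem_map_of_mem _ he)
    refine ⟨d, ⟨hd, Subgroup.mem_sup_right hdX⟩, fun w hw => Subtype.ext (h4 w ?_)⟩
    rw [← Subgroup.map_commutator]
    exact Subgroup.mem_map_of_mem _ hw

end Cfsg.Agent.S0620
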