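import Cfsg.Statements.S0666
import Cfsg.Agent.H2.AbelianCoprime
import Cfsg.Agent.H1.FrobCount
import Cfsg.Agent.S0035

set_option autoImplicit false
open Cfsg

namespace Cfsg.Agent.S0666

open scoped IsMulCommutative

theorem key {F V : Type*} [Group F] [Finite F] [CommGroup V] [MulDistribMulAction F V]
    (H K : Subgroup F) (hH : IsFrobeniusComplement H) (hK : (K : Set F) = frobeniusKernel H)
    (hc : K.IsComplement' H) (hCK : ∀ v : V, (∀ k ∈ K, k • v = v) → v = 1)
    (hCH : ∀ v : V, (∀ h ∈ H, h • v = v) → v = 1) (v : V) : v ^ Nat.card K = 1 := by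
  classical
  have := Fintype.ofFinite F
  have h1 : ∏ g : F, g • v = 1 := by
    rw [← H2.normHom_apply]
    exact hCK _ fun k _ => H2.smul_normHom k v
  have h2 : ∏ k : K, (k : F) • v = 1 := by
    have := H2.normHom_apply (A := K) v
    exact this.symm.trans (hCK _ fun k hk => H2.smul_normHom (⟨k, hk⟩ : K) v)
  have h3 : ∀ x : F, ∏ h : H, (x * h * x⁻¹) • v = 1 := fun x => by
    have h4 := H2.normHom_apply (A := H) (x⁻¹ • v)
    have h5 : H2.normHom H V (x⁻¹ • v) = 1 := hCH _ fun k hk => H2.smul_normHom (⟨k, hk⟩ : H) _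
    rw [h5] at h4
    have h6 := congrArg (x • ·) h4
    simp only [smul_one, Finset.smul_prod'] at h6
    rw [h6]
    refine Finset.prod_congr rfl fun h _ => ?_
    rw [mul_smul, mul_smul]
    rfl
  have h4 : ∀ x : F, ∏ h ∈ (Finset.univ : Finset H).erase 1, (x * h * x⁻¹) • v = v⁻¹ := fun x => by
    have := h3 x
    rw [← Finset.mul_prod_erase _ _ (Finset.mem_univ 1)] at this
    simp only [OneMemClass.coe_one, mul_one, mul_inv_cancel, one_smul] at this
    exact eq_inv_of_mul_eq_one_right this
  have h5 : ∏ g ∈ Finset.univ.filter (· ∉ K), g • v =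
      ∏ z ∈ (Finset.univ : Finset K) ×ˢ (Finset.univ : Finset H).erase 1,
        ((z.1 : F) * z.2 * (z.1 : F)⁻¹) • v := by
    symm
    refine Finset.prod_bij (fun z _ => (z.1 : F) * z.2 * (z.1 : F)⁻¹) ?_ ?_ ?_ (fun _ _ => rfl)
    · rintro ⟨x, h⟩ hz
      simp only [Finset.mem_product, Finset.mem_univ, Finset.mem_erase, true_and, and_true] at hz
      simp only [Finset.mem_filter, Finset.mem_univ, true_and]
      intro hm
      have : (h : F) ∈ K := by
        have := mul_mem (mul_mem (inv_mem x.2) hm) x.2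
        simpa [mul_assoc] using this
      exact hz (Subtype.ext (Subgroup.mem_bot.1 (hc.disjoint.eq_bot ▸ Subgroup.mem_inf.2 ⟨this, h.2⟩)))
    · rintro ⟨x, h⟩ hz ⟨y, h'⟩ - e
      simp only [Finset.mem_product, Finset.mem_univ, Finset.mem_erase, true_and, and_true] at hz
      simp only at e
      have e1 : ((y : F)⁻¹ * x) * h * ((y : F)⁻¹ * x)⁻¹ = h' := by
        calc ((y : F)⁻¹ * x) * h * ((y : F)⁻¹ * x)⁻¹ = (y : F)⁻¹ * (x * h * (x : F)⁻¹) * y := by group
          _ = h' := by rw [e]; group
      have e2 : (y : F)⁻¹ * x ∈ H := by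
        by_contra hn
        exact hz (Subtype.ext (H1.frob_eq_one' hH hn h.2 (e1 ▸ h'.2)))
      have e3 : (y : F)⁻¹ * x = 1 :=
        Subgroup.mem_bot.1 (hc.disjoint.eq_bot ▸ Subgroup.mem_inf.2 ⟨mul_mem (inv_mem y.2) x.2, e2⟩)
      rw [e3] at e1
      refine Prod.ext (Subtype.ext (inv_mul_eq_one.1 e3).symm) (Subtype.ext (by simpa using e1))
    · intro g hg
      simp only [Finset.mem_filter, Finset.mem_univ, true_and] at hg
      rw [← SetLike.mem_coe, hK, H1.mem_frobeniusKernel, not_or, not_forall] at hg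
      obtain ⟨hg1, t, ht⟩ := hg
      rw [not_not] at ht
      obtain ⟨⟨x, h⟩, rfl⟩ := hc.2 t
      have h6 : (x : F)⁻¹ * g * x ∈ H := by
        have := mul_mem (mul_mem h.2 ht) (inv_mem h.2)
        simpa [mul_assoc] using this
      refine ⟨(x, ⟨_, h6⟩), ?_, by simp [mul_assoc]⟩
      simp only [Finset.mem_product, Finset.mem_univ, Finset.mem_erase, true_and, and_true]
      intro e
      apply hg1
      have := congrArg Subtype.val e
      simp only [OneMemClass.coe_one] at this
      calc g = x * ((x : F)⁻¹ * g * x) * (x : F)⁻¹ := by group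
        _ = 1 := by rw [this]; group
  rw [← Finset.prod_filter_mul_prod_filter_not Finset.univ (· ∈ K), h5, Finset.prod_product,
    Finset.prod_subtype (p := (· ∈ K)) (Finset.univ.filter (· ∈ K)) (by simp), h2, one_mul] at h1
  simp only [h4, Finset.prod_const, Finset.card_univ, inv_pow, inv_eq_one] at h1
  rwa [Nat.card_eq_fintype_card]

/-- A Frobenius group acting on a nontrivial abelian group of order prime to that of its kernel, with the kernel acting without nontrivial fixed points, has a complement with a nontrivial fixed point. -/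
theorem result {G : Type*} [Group G] [Finite G] (V F : Subgroup G) (hVab : IsMulCommutative V) (hV1 : V ≠ ⊥) (hFV : F ≤ Subgroup.normalizer (V : Set G)) (H : Subgroup ↥F) (hH : Cfsg.IsFrobeniusComplement H) (hcop : (Nat.card V).Coprime (Nat.card (Cfsg.frobeniusKernel H))) (hCK : V ⊓ Subgroup.centralizer (Subtype.val '' Cfsg.frobeniusKernel H : Set G) = ⊥) : V ⊓ Subgroup.centralizer ((H.map F.subtype : Subgroup G) : Set G) ≠ ⊥ := by
  intro hbot
  let := H2.conjAction F V hFV
  obtain ⟨K, hK, -, hc⟩ := S0035.result H hH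
  apply hV1
  rw [eq_bot_iff]
  intro v hv
  have h1 := key (V := V) H K hH hK hc (fun w hw => by
    have : (w : G) ∈ V ⊓ Subgroup.centralizer (Subtype.val '' Cfsg.frobeniusKernel H : Set G) := by
      refine ⟨w.2, ?_⟩
      rintro _ ⟨k, hk, rfl⟩
      have := congrArg Subtype.val (hw k (by rwa [← hK] at hk))
      rw [H2.conjAction_smul_coe] at this
      exact mul_inv_eq_iff_eq_mul.1 this
    rw [hCK] at this
    exact Subtype.ext this) (fun w hw => by
    have : (w : G) ∈ V ⊓ Subgroup.centralizer ((H.map F.subtype : Subgroup G) : Set G) := by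
      refine ⟨w.2, ?_⟩
      rintro _ ⟨k, hk, rfl⟩
      have := congrArg Subtype.val (hw k hk)
      rw [H2.conjAction_smul_coe] at this
      exact mul_inv_eq_iff_eq_mul.1 this
    rw [hbot] at this
    exact Subtype.ext this) ⟨v, hv⟩
  have h2 : (Nat.card K).Coprime (orderOf (⟨v, hv⟩ : V)) := by
    rw [← hK] at hcop
    exact (hcop.symm.coprime_dvd_right (orderOf_dvd_natCard _))
  exact congrArg Subtype.val (H2.eq_one_of_pow_eq_one_of_coprime h2 h1)

end Cfsg.Agent.S0666
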