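import Cfsg.Statements.S0737
import Cfsg.Agent.H26.OddSemilin
import Cfsg.Agent.H26.Singer
import Cfsg.Agent.S0735
import Cfsg.Agent.H54.FT
import Cfsg.Agent.H52.Zsig
import Cfsg.Agent.H25.NormalMT
import Cfsg.Agent.H2.MinNormal

set_option autoImplicit false
open Cfsg

namespace Cfsg.Agent.S0737

open Cfsg.Agent.H26 MulAction Subgroup

/-- A non-trivial 2-homogeneous permutation group that is not doubly transitive has odd order and degree `p^f ≡ 3 (mod 4)`, and is permutation-isomorphic to a group of semi-affine transformations `x ↦ a φ(x) + b` of the field with `p^f` elements containing all translations. -/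
theorem result {α : Type*} [Fintype α] [DecidableEq α] (G : Subgroup (Equiv.Perm α)) (hne : G ≠ ⊥) (h2 : MulAction.IsPretransitive G (Set.powersetCard α 2)) (hn2 : ¬ MulAction.IsMultiplyPretransitive G α 2) : Odd (Nat.card G) ∧ ∃ (p f : ℕ) (_ : Fact p.Prime), p ≠ 2 ∧ Fintype.card α = p ^ f ∧ p ^ f % 4 = 3 ∧ ∃ e : α ≃ GaloisField p f, (∀ g : G, e.symm.trans (((g : Equiv.Perm α)).trans e) ∈ Cfsg.semiaffineGroup (GaloisField p f)) ∧ ∀ b : GaloisField p f, ∃ g : G, ∀ x : α, e ((g : Equiv.Perm α) x) = e x + b := by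
  obtain ⟨⟨g₀, hg₀⟩, hg1⟩ := ne_bot_iff_exists_ne_one.1 hne
  obtain ⟨a, ha⟩ : ∃ a, g₀ a ≠ a := by
    by_contra e
    push Not at e
    exact hg1 (Subtype.ext (Equiv.ext e))
  have h3 : 3 ≤ Fintype.card α := by
    by_contra e
    refine hn2 (S0735.two_trans_of_swap h2 ha.symm ⟨g₀, hg₀⟩ rfl ?_)
    by_contra e'
    exact e (Fintype.two_lt_card_iff.2 ⟨a, g₀ a, g₀ (g₀ a), ha.symm, Ne.symm e',
      (g₀.injective.ne ha).symm⟩)
  have hodd : Odd (Nat.card G) := Nat.not_even_iff_odd.1 fun e => hn2 ((S0735.result G h2 h3).1 e)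
  refine ⟨hodd, ?_⟩
  have := S0735.prim h2 h3
  have hsol := H54.odd_order_solvable hodd
  have := (nontrivial_iff_ne_bot G).2 hne
  obtain ⟨N, p, hp, hN, hN1, hNc, hNp, hNe, -⟩ := H2.exists_minimal_normal_of_solvable (G := G)
  have := Fact.mk hp
  have htr : IsPretransitive N α := H25.normal_pretransitive N hN1
  have hcomm : ∀ x ∈ N, ∀ y ∈ N, x * y = y * x := fun x hx y hy =>
    congrArg Subtype.val (hNc.is_comm.comm (⟨x, hx⟩ : N) ⟨y, hy⟩)
  have hfaith : ∀ g : G, g • a = a → (∀ y ∈ N, y * g = g * y) → g = 1 := by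
    intro g h1 h4
    refine eq_of_smul_eq_smul (α := α) fun c => ?_
    obtain ⟨y, rfl⟩ := htr.exists_smul_eq a c
    change g • (y : G) • a = _
    rw [← mul_smul, ← h4 y y.2, mul_smul, h1, one_smul]
    rfl
  have huniq : ∀ x ∈ N, ∀ y ∈ N, x • a = y • a → x = y := fun x hx y hy e =>
    (inv_mul_eq_one.1 (hfaith (y⁻¹ * x) (by rw [mul_smul, e, inv_smul_smul]) fun z hz =>
      hcomm z hz _ (N.mul_mem (N.inv_mem hy) hx))).symm
  have hcard : Nat.card N = Nat.card α := Nat.card_congr (Equiv.ofBijective (fun x => (x : G) • a)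
    ⟨fun x y h => Subtype.ext (huniq _ x.2 _ y.2 h), fun c => htr.exists_smul_eq a c⟩)
  obtain ⟨f, hf⟩ := hNp.exists_card_eq
  rw [← Nat.card_eq_fintype_card] at h3 ⊢
  have hn : Nat.card α = p ^ f := hcard.symm.trans hf
  have hf0 : f ≠ 0 := by
    rintro rfl
    rw [pow_zero] at hn
    omega
  have hno : Odd (p ^ f) := hodd.of_dvd_nat (hf ▸ card_subgroup_dvd_card N)
  obtain ⟨d, hd⟩ := id hno
  have hch : p ^ f * d ∣ Nat.card G := by
    have h4 := index_stabilizer_of_transitive G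
      (⟨{g₀ a, a}, Finset.card_pair ha⟩ : Set.powersetCard α 2)
    rw [Set.powersetCard.card, hn, Nat.choose_two_right, show p ^ f - 1 = d * 2 by omega,
      ← mul_assoc, Nat.mul_div_cancel _ two_pos] at h4
    exact h4 ▸ index_dvd_card _
  have hdo : Odd d := hodd.of_dvd_nat ((Dvd.intro_left _ rfl).trans hch)
  have h4 : p ^ f % 4 = 3 := by
    obtain ⟨c, rfl⟩ := hdo
    omega
  have hp2 : p ≠ 2 := by
    rintro rfl
    exact Nat.not_even_iff_odd.2 hno (Nat.even_pow.2 ⟨even_two, hf0⟩)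
  refine ⟨p, f, inferInstance, hp2, hn, h4, ?_⟩
  obtain ⟨A, hA1, hA2, hA3, hA4⟩ : ∃ A ≤ stabilizer G a, stabilizer G a ≤ normalizer (A : Set G) ∧
      A ≤ centralizer (A : Set G) ∧ ∀ U ≤ N, A ≤ normalizer (U : Set G) → U = ⊥ ∨ U = N := by
    rcases Nat.lt_or_ge f 3 with e | e
    · obtain rfl | rfl : f = 1 ∨ f = 2 := by omega
      · refine ⟨⊥, bot_le, le_normalizer_of_normal, bot_le, fun U hU _ => ?_⟩
        rw [pow_one] at hf
        rcases (Nat.dvd_prime hp).1 (hf ▸ card_dvd_of_le hU) with e | e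
        · exact Or.inl (eq_bot_of_card_eq _ e)
        · exact Or.inr (eq_of_le_of_card_ge hU (by rw [e, hf]))
      · exfalso
        obtain ⟨c, rfl⟩ := hp.odd_of_ne_two hp2
        rw [show (2 * c + 1) ^ 2 = 1 + 4 * (c * c + c) by ring] at h4
        omega
    obtain ⟨r, hr, r1, r2⟩ := H52.Zsig.zsigmondy hp.two_le e fun e => hp2 e.1
    have hr2 : r ≠ 2 := by
      rintro rfl
      obtain ⟨c, hc⟩ := hp.odd_of_ne_two hp2
      exact r2 1 le_rfl (by omega) ⟨c, by rw [pow_one]; omega⟩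
    refine exists_abelian_irred hp hr ⟨hNc, hNe⟩ hf hf0 r1 r2 inferInstance
      (hodd.of_dvd_nat (card_subgroup_dvd_card _)) le_normalizer_of_normal
      (eq_bot_iff.2 fun g hg => hfaith g hg.1 hg.2) ?_
    have h5 := (stabilizer G a).index_mul_card
    rw [index_stabilizer_of_transitive, hn] at h5
    rw [← h5] at hch
    refine dvd_trans ?_ (Nat.dvd_of_mul_dvd_mul_left (pow_pos hp.pos f) hch)
    rw [show p ^ f - 1 = 2 * d by omega] at r1
    exact ((Nat.coprime_primes hr Nat.prime_two).2 hr2).dvd_of_dvd_mul_left r1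
  obtain ⟨⟨u₀, hu₀⟩, hu1⟩ := ne_bot_iff_exists_ne_one.1 hN1
  obtain ⟨K, _, _, φ, hφi, hφr, hφa, -, hφ⟩ := exists_field_of_normalizes N hcomm (A : Set G)
    (fun x hx y hy u _ => by rw [hA3 hy x hx]) (fun h _ u hu => hN.conj_mem u hu h)
    (fun U hU hinv => hA4 U hU fun x hx => mem_normalizer_fintype fun u hu => hinv x hx u hu) hu₀
    (fun e => hu1 (Subtype.ext e))
  have hφm : ∀ x, φ x ∈ N := fun x => (hφr _).2 ⟨x, rfl⟩
  have hb : Function.Bijective (fun x => φ x • a) := by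
    refine ⟨fun x y e => hφi (huniq _ (hφm x) _ (hφm y) e), fun y => ?_⟩
    obtain ⟨⟨u, hu⟩, e⟩ := htr.exists_smul_eq a y
    obtain ⟨x, rfl⟩ := (hφr u).1 hu
    exact ⟨x, e⟩
  let ε := Equiv.ofBijective _ hb
  have := Fintype.ofFinite (GaloisField p f)
  let ρ : K ≃+* GaloisField p f := FiniteField.ringEquivOfCardEq (by
    rw [← Nat.card_eq_fintype_card, ← Nat.card_eq_fintype_card, Nat.card_congr ε, hn,
      GaloisField.card p f hf0])
  refine ⟨ε.symm.trans ρ.toEquiv, fun g => ?_, fun b => ⟨φ (ρ.symm b), fun x => ?_⟩⟩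
  · obtain ⟨t, ht⟩ := hb.2 (g • a)
    have h1 : ((φ t)⁻¹ * g) • a = a := by rw [mul_smul, inv_smul_eq_iff]; exact ht.symm
    obtain ⟨c, hc, θ, h5, -⟩ := hφ _ (fun u hu => hN.conj_mem u hu _)
      fun u hu => (mem_normalizer_iff.1 (hA2 h1) u).1 hu
    have h6 : ∀ x, (g : Equiv.Perm α) (ε x) = ε (c * θ x + t) := fun x => by
      change g • φ x • a = φ (c * θ x + t) • a
      rw [add_comm, hφa, mul_smul, ← h5, mul_smul, inv_smul_eq_iff.2 h1.symm, mul_smul, mul_smul,
        smul_inv_smul]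
    refine ⟨Units.mk0 (ρ c) (by simpa using hc), ρ t, (ρ.symm.trans θ).trans ρ, fun x => ?_⟩
    simp [h6]
  · obtain ⟨y, rfl⟩ := ε.surjective x
    have : ((φ (ρ.symm b) : G) : Equiv.Perm α) (ε y) = ε (y + ρ.symm b) := by
      change φ _ • φ y • a = φ _ • a
      rw [add_comm, hφa, mul_smul]
    simp [this]

end Cfsg.Agent.S0737
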