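import Cfsg.Statements.S0799
import Cfsg.Agent.H28.PslList

set_option autoImplicit false
open Cfsg

namespace Cfsg.Agent.S0799

open Cfsg.Agent.H28

/-- Dickson's classification of the subgroups of PSL_2(q), q a power of the prime p, d = gcd(2, q − 1): every subgroup H is (a) cyclic or dihedral with k dividing (q+1)/d or (q−1)/d (cyclic of order k, or dihedral of order 2k), (b) isomorphic to a subgroup of the normaliser of a Sylow p-subgroup, (c) isomorphic to A_4, S_4 or A_5, or (d) isomorphic to PSL_2(K) or PGL_2(K) for a finite field K with |K|^m = q. -/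
theorem result {F : Type*} [Field F] [Fintype F] {q : ℕ} (hF : Fintype.card F = q) (p : ℕ) [Fact p.Prime] [CharP F p] (H : Subgroup (Matrix.ProjectiveSpecialLinearGroup (Fin 2) F)) : (∃ k : ℕ, (k ∣ (q + 1) / Nat.gcd 2 (q - 1) ∨ k ∣ (q - 1) / Nat.gcd 2 (q - 1)) ∧ ((IsCyclic H ∧ Nat.card H = k) ∨ Nonempty (H ≃* DihedralGroup k))) ∨ (∃ (P : Sylow p (Matrix.ProjectiveSpecialLinearGroup (Fin 2) F)) (K : Subgroup (Matrix.ProjectiveSpecialLinearGroup (Fin 2) F)), K ≤ Subgroup.normalizer ((P : Subgroup (Matrix.ProjectiveSpecialLinearGroup (Fin 2) F)) : Set (Matrix.ProjectiveSpecialLinearGroup (Fin 2) F)) ∧ Nonempty (H ≃* K)) ∨ Nonempty (H ≃* alternatingGroup (Fin 4)) ∨ Nonempty (H ≃* Equiv.Perm (Fin 4)) ∨ Nonempty (H ≃* alternatingGroup (Fin 5)) ∨ (∃ (K : Type) (_ : Field K) (_ : Fintype K) (m : ℕ), Fintype.card K ^ m = q ∧ (Nonempty (H ≃* Matrix.ProjectiveSpecialLinearGroup (Fin 2) K) ∨ Nonempty (H ≃* Matrix.ProjGenLinGroup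 (Fin 2) K))) := by
  classical
  subst hF
  have hρ : Function.Injective ((pslInc F).comp H.subtype) :=
    pslInc_injective.comp Subtype.val_injective
  rcases pgl2_dickson' p _ hρ with ⟨x, hx⟩ | ⟨hc, hp⟩ | ⟨c, hc, -, e⟩ | ⟨-, e | e | e⟩ | ⟨-, e⟩ |
    ⟨t, K, -, e⟩
  · obtain ⟨P, hP⟩ := exists_sylow_normalizer_psl p x
    exact Or.inr (Or.inl ⟨P, H, fun g hg => hP g (hx ⟨g, hg⟩), ⟨MulEquiv.refl _⟩⟩)
  · obtain ⟨c, hc'⟩ := IsCyclic.exists_ofOrder_eq_natCard (α := H)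
    rw [← hc', ← Subgroup.orderOf_coe] at hp
    exact Or.inl ⟨_, orderOf_psl_dvd_of_tame p hp, Or.inl ⟨hc, by
      rw [← hc', Subgroup.orderOf_coe]⟩⟩
  · rw [← Subgroup.orderOf_coe] at hc e
    exact Or.inl ⟨_, orderOf_psl_dvd_of_tame p hc, Or.inr e⟩
  · exact Or.inr (Or.inr (Or.inl e))
  · exact Or.inr (Or.inr (Or.inr (Or.inl e)))
  · exact Or.inr (Or.inr (Or.inr (Or.inr (Or.inl e))))
  · exact Or.inr (Or.inr (Or.inr (Or.inr (Or.inl e))))
  · obtain ⟨K', i1, i2, ⟨φ⟩⟩ := exists_small_field K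
    refine Or.inr (Or.inr (Or.inr (Or.inr (Or.inr ⟨K', i1, i2, Module.finrank K F, ?_, ?_⟩))))
    · rw [← Nat.card_eq_fintype_card, ← Nat.card_eq_fintype_card, card_eq_pow_subfield K,
        Nat.card_congr φ.toEquiv]
    · rcases e with e | e
      · exact Or.inr ⟨(equiv_of_range_eq_subPGL hρ e).some.trans (pglMapEquiv φ)⟩
      · exact Or.inl ⟨(equiv_of_range_eq_subPSL hρ e.2).some.trans (H9.pslMapEquiv φ)⟩

end Cfsg.Agent.S0799
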