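import Cfsg.Statements.S0805
import Cfsg.Agent.H93.L2Ex

set_option autoImplicit false
open Cfsg

namespace Cfsg.Agent.S0805

open Cfsg.Agent.H28 Cfsg.Agent.H93.L2

/-- Subfield subgroups: let F be a finite field of odd order q and K a finite field with |K|^m = q, m ≥ 1. Then PSL_2(F) has a subgroup isomorphic to PSL_2(K), and has a subgroup isomorphic to PGL_2(K) if and only if m is even. -/
theorem result {F K : Type*} [Field F] [Fintype F] [Field K] [Fintype K] {q : ℕ} (hF : Fintype.card F = q) (hodd : Odd q) (m : ℕ) (hm : 1 ≤ m) (hK : Fintype.card K ^ m = q) : (∃ H : Subgroup (Matrix.ProjectiveSpecialLinearGroup (Fin 2) F), Nonempty (H ≃* Matrix.ProjectiveSpecialLinearGroup (Fin 2) K)) ∧ ((∃ H : Subgroup (Matrix.ProjectiveSpecialLinearGroup (Fin 2) F), Nonempty (H ≃* Matrix.ProjGenLinGroup (Fin 2) K)) ↔ Even m) := by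
  rw [exists_sub_iff pslInc_injective, exists_sub_iff pslInc_injective, range_pslInc]
  rw [← Nat.card_eq_fintype_card] at hF hK
  subst hF
  obtain ⟨K', ⟨e⟩⟩ := exists_subfield_equiv K hK.symm
  have hc := Nat.card_congr e.toEquiv
  refine ⟨⟨(subPSL K').subtype.comp ((H9.pslMapEquiv e).trans (subPSLEquiv K')).toMonoidHom,
    Subtype.val_injective.comp (MulEquiv.injective _), ?_⟩, fun ⟨φ, hφ, h⟩ => ?_, fun h =>
    ⟨(subPGL K').subtype.comp ((pglMapEquiv e).trans (subPGLEquiv K')).toMonoidHom,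
      Subtype.val_injective.comp (MulEquiv.injective _), ?_⟩⟩
  · rintro _ ⟨x, rfl⟩
    exact subPSL_le_pslIn K' (Subtype.prop _)
  · have h1 := Subgroup.card_dvd_of_le h
    rw [card_range_of_injective hφ, card_pgl_two] at h1
    have h2 := gcd_mul_card_pslIn F
    rw [((gcd_cases (Finite.one_lt_card (α := F)).le).resolve_right
      fun e => by rw [Nat.odd_iff] at hodd; omega).2, ← hK] at h2
    exact even_of_dvd ((Nat.odd_pow_iff (by omega)).1 (hK ▸ hodd)) Finite.one_lt_card h2 h1
  · rintro _ ⟨x, rfl⟩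
    exact subPGL_le_pslIn (fun y hy => isSquare_of_even (hc ▸ hK.symm) h hy) (Subtype.prop _)

end Cfsg.Agent.S0805
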