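import Cfsg.Statements.S0808
import Cfsg.Agent.H93.L2Four

set_option autoImplicit false
open Cfsg

namespace Cfsg.Agent.S0808

open Cfsg.Agent.H28 Cfsg.Agent.H93.L2

/-- Conjugacy classes of four-groups in PSL_2(q), q odd: if q ≡ 3 or 5 (mod 8) all Klein four-subgroups are conjugate; if q ≡ 1 or 7 (mod 8) there are two Klein four-subgroups which are not conjugate, and every Klein four-subgroup is conjugate to one of them. -/
theorem result {F : Type*} [Field F] [Fintype F] {q : ℕ} (hF : Fintype.card F = q) (hodd : Odd q) : ((q % 8 = 3 ∨ q % 8 = 5) → ∀ V W : Subgroup (Matrix.ProjectiveSpecialLinearGroup (Fin 2) F), IsKleinFour V → IsKleinFour W → ∃ g : Matrix.ProjectiveSpecialLinearGroup (Fin 2) F, W = V.map (MulAut.conj g).toMonoidHom) ∧ ((q % 8 = 1 ∨ q % 8 = 7) → ∃ V₁ V₂ : Subgroup (Matrix.ProjectiveSpecialLinearGroup (Fin 2) F), IsKleinFour V₁ ∧ IsKleinFour V₂ ∧ (¬ ∃ g : Matrix.ProjectiveSpecialLinearGroup (Fin 2) F, V₂ = V₁.map (MulAut.conj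 g).toMonoidHom) ∧ ∀ W : Subgroup (Matrix.ProjectiveSpecialLinearGroup (Fin 2) F), IsKleinFour W → (∃ g : Matrix.ProjectiveSpecialLinearGroup (Fin 2) F, W = V₁.map (MulAut.conj g).toMonoidHom) ∨ (∃ g : Matrix.ProjectiveSpecialLinearGroup (Fin 2) F, W = V₂.map (MulAut.conj g).toMonoidHom)) := by
  rw [← Nat.card_eq_fintype_card] at hF
  subst hF
  have h2 := two_ne_zero_iff.2 hodd
  have hs := isSquare_two_iff hodd
  refine ⟨fun h V W hV hW => conj_iff.2 ?_, fun h => ?_⟩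
  · obtain ⟨a, b⟩ := four_map hV
    obtain ⟨w, hw⟩ := exists_conj_four h2 a b (four_map hW).1 (four_map hW).2
    by_cases hw' : w ∈ pslIn F
    · exact ⟨w, hw', hw⟩
    obtain ⟨n, hn, hn'⟩ := SetLike.not_le_iff_exists.1 fun e => by
      have := hs.1 ((normalizer_four h2 a b).2.1 e)
      omega
    exact ⟨w * n, mul_mem_pslIn hw' hn', by rw [hw, ← cj_cj, cj_eq_self_iff.2 hn]⟩
  · obtain ⟨V, hV, hL⟩ := exists_four h2
    have hN := (normalizer_four h2 hV hL).2.2 (hs.2 h)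
    obtain ⟨g, -, hg⟩ := SetLike.not_le_iff_exists.1 (show ¬ ⊤ ≤ pslIn F from fun e => by
      have h3 := gcd_mul_card_pslIn F
      rw [((gcd_cases (Finite.one_lt_card (α := F)).le).resolve_right
        fun e => by omega).2, ← card_pgl_two, top_le_iff.1 e, Subgroup.card_top] at h3
      have := Nat.card_pos (α := Matrix.ProjGenLinGroup (Fin 2) F)
      omega)
    obtain ⟨V₁, a1, e1⟩ := exists_four_map hV hL
    obtain ⟨V₂, a2, e2⟩ := exists_four_map (four_cj hV g) (cj_le_pslIn.2 hL)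
    refine ⟨V₁, V₂, a1, a2, fun e => ?_, fun W hW => ?_⟩
    · obtain ⟨w, hw, e⟩ := conj_iff.1 e
      rw [e1, e2, eq_comm, cj_eq_cj_iff] at e
      exact hg (((pslIn F).mul_mem_cancel_left (inv_mem hw)).1 (hN e))
    · obtain ⟨w, hw⟩ := exists_conj_four h2 hV hL (four_map hW).1 (four_map hW).2
      by_cases hw' : w ∈ pslIn F
      · exact Or.inl (conj_iff.2 ⟨w, hw', e1 ▸ hw⟩)
      · exact Or.inr (conj_iff.2 ⟨w * g⁻¹, mul_mem_pslIn hw' (by simpa using hg), by
          rw [e2, cj_cj, hw]; simp⟩)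

end Cfsg.Agent.S0808
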