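import Cfsg.Statements.S0817
import Cfsg.Agent.H29.Triality4
import Cfsg.Agent.S2607
import Cfsg.Agent.S2608
import Cfsg.Agent.S0818

set_option autoImplicit false
open Cfsg

namespace Cfsg.Agent.S0817

/-- |Aut(PΩ⁺_2m(q))| for q = p^f, m ≥ 4: |PΩ⁺_2m(q)| times f, times 3 when m = 4, times 2 if p = 2, and times 8 or 4 if p is odd according as m(q−1)/2 is even or odd. -/
theorem result {F : Type*} [Field F] [Fintype F] (p f : ℕ) [Fact p.Prime] (hf : 1 ≤ f) (hF : Fintype.card F = p ^ f) (m : ℕ) (hm : 4 ≤ m) : Nat.card (MulAut (Cfsg.POmega F (Cfsg.quadFormPlus m F))) = (if m = 4 then 3 else 1) * (if p = 2 then 2 else (if Even (m * (p ^ f - 1) / 2) then 8 else 4)) * f * Nat.card (Cfsg.POmega F (Cfsg.quadFormPlus m F)) := by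
----
  haveI : NeZero f := ⟨by omega⟩
  refine (H29.card_aut_po (H28.qPlus_nondeg m) (by simp; omega)).trans ?_
  congr 1
  by_cases hp : p = 2
  · subst hp
    have h := S2607.result hf hF hm
    rw [if_pos rfl]
    split_ifs at h ⊢ <;> obtain ⟨e⟩ := h <;> refine (Nat.card_congr e.toEquiv).trans ?_
    · rw [Nat.card_prod, Nat.card_congr Multiplicative.toAdd, Nat.card_zmod, Nat.card_perm,
        Nat.card_fin]
      rfl
    · rw [Nat.card_congr Multiplicative.toAdd, Nat.card_prod, Nat.card_zmod, Nat.card_zmod]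
  have h := S2608.result hf hF hp hm
  have k := S0818.even_iff (m := m) (q := p ^ f) ((Fact.out : p.Prime).odd_of_ne_two hp).pow
  rw [if_neg hp]
  by_cases h0 : m = 4
  · rw [if_pos h0] at h ⊢
    obtain ⟨e⟩ := h
    rw [if_pos (k.2 fun h => absurd (h0 ▸ h.2) (by decide))]
    refine (Nat.card_congr e.toEquiv).trans ?_
    rw [Nat.card_prod, Nat.card_congr Multiplicative.toAdd, Nat.card_zmod, Nat.card_perm,
      Nat.card_fin]
    rfl
  rw [if_neg h0] at h ⊢
  by_cases h1 : p ^ f % 4 = 3 ∧ Odd m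
  · rw [if_pos h1] at h
    obtain ⟨e⟩ := h
    rw [if_neg (k.not_left.2 h1)]
    refine (Nat.card_congr e.toEquiv).trans ?_
    rw [Nat.card_congr Multiplicative.toAdd, Nat.card_prod, Nat.card_prod, Nat.card_zmod,
      Nat.card_zmod]
    ring
  · rw [if_neg h1] at h
    obtain ⟨e⟩ := h
    rw [if_pos (k.2 h1)]
    refine (Nat.card_congr e.toEquiv).trans ?_
    rw [Nat.card_prod, Nat.card_congr Multiplicative.toAdd, Nat.card_zmod, DihedralGroup.nat_card]

end Cfsg.Agent.S0817
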