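import Cfsg.Statements.S0827
import Cfsg.Agent.H99.U32

set_option autoImplicit false
open Cfsg

namespace Cfsg.Agent.S0827

/-- U_3(2) ≅ 3².Q_8: PSU_3(2) (form over the field with 4 elements) has a normal subgroup N which is elementary abelian of order 9 such that the quotient by N is isomorphic to the quaternion group of order 8. -/
theorem result {F : Type*} [Field F] [Fintype F] (hF : Fintype.card F = 4) : ∃ (N : Subgroup (Cfsg.PSU 3 F 2)) (_ : N.Normal), Nat.card N = 9 ∧ (∀ x ∈ N, x ^ 3 = 1) ∧ Nonempty (Cfsg.PSU 3 F 2 ⧸ N ≃* QuaternionGroup 2) := by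

  obtain ⟨e⟩ := H99.U32.equiv hF
  obtain ⟨φ, hφ⟩ := H99.U32.exists_surj
  let ψ : Cfsg.PSU 3 F 2 →* QuaternionGroup 2 := φ.comp e.toMonoidHom
  have hψ : Function.Surjective ψ := hφ.comp e.surjective
  have hc : Nat.card (Cfsg.PSU 3 F 2) = 72 := (Nat.card_congr e.toEquiv).trans H99.U32.card
  have hq := QuotientGroup.quotientKerEquivOfSurjective ψ hψ
  have h8 : ψ.ker.index = 8 := by
    rw [Subgroup.index, Nat.card_congr hq.toEquiv, Nat.card_eq_fintype_card, QuaternionGroup.card]
  have h9 : Nat.card ψ.ker = 9 := by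
    have := ψ.ker.card_mul_index
    rw [h8, hc] at this
    omega
  refine ⟨ψ.ker, inferInstance, h9, fun x hx => ?_, ⟨hq⟩⟩
  have h1 : x ^ 9 = 1 := by
    have := pow_card_eq_one' (x := (⟨x, hx⟩ : ψ.ker))
    rw [h9] at this
    exact congrArg Subtype.val this
  have h2 : x ^ 12 = 1 := e.injective (by rw [map_pow, H99.U32.pow_twelve, map_one])
  calc x ^ 3 = x ^ 3 * x ^ 9 := by rw [h1, mul_one]
    _ = 1 := by rw [← pow_add]; exact h2

end Cfsg.Agent.S0827
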