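import Cfsg.Statements.S0848
import Cfsg.Agent.S3035

set_option autoImplicit false
open Cfsg

namespace Cfsg.Agent.S0848

open Subgroup


/-- If a finite group equals its own commutator subgroup and contains an involution whose centralizer is isomorphic to the dihedral group of order 8, then the group has order 168 or 360. -/
theorem result {G : Type*} [Group G] [Finite G] (hperf : commutator G = ⊤) (t : G) (ht : orderOf t = 2) (e : Subgroup.centralizer ({t} : Set G) ≃* DihedralGroup 4) : Nat.card G = 168 ∨ Nat.card G = 360 := by
  have hsym : ∀ n : ℕ, ¬ Nonempty (G ≃* Equiv.Perm (Fin (n + 2))) := fun n ⟨f⟩ => by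
    have h1 : commutator G ≤ (Equiv.Perm.sign.comp f.toMonoidHom).ker :=
      Abelianization.commutator_subset_ker _
    have h2 := h1 (hperf ▸ mem_top (f.symm (Equiv.swap 0 1)))
    rw [MonoidHom.mem_ker] at h2
    simp only [MulEquiv.toMonoidHom_eq_coe, MonoidHom.coe_comp, MonoidHom.coe_coe,
      Function.comp_apply, MulEquiv.apply_symm_apply] at h2
    rw [Equiv.Perm.sign_swap (by simp)] at h2
    exact absurd h2 (by decide)
  rcases S3035.result t ht ⟨e⟩ with h | h | h | ⟨⟨f⟩⟩ | ⟨⟨f⟩⟩
  · exfalso
    have h8 : Nat.card (centralizer ({t} : Set G)) = 2 ^ 3 := by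
      rw [Nat.card_congr e.toEquiv, DihedralGroup.nat_card]; rfl
    have hc : (oddCore G).Characteristic := H22.pPrimeCore_characteristic
    have hp : IsPGroup 2 (G ⧸ oddCore G) := by
      have h1 := (IsPGroup.of_card h8).map (QuotientGroup.mk' (oddCore G))
      have h2 : (centralizer ({t} : Set G)).map (QuotientGroup.mk' (oddCore G)) = ⊤ := by
        have h3 := congrArg (Subgroup.map (QuotientGroup.mk' (oddCore G))) h
        rwa [Subgroup.map_sup, QuotientGroup.map_mk'_self, sup_bot_eq,
          map_top_of_surjective _ (QuotientGroup.mk'_surjective _)] at h3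
      rw [h2] at h1
      exact h1.of_equiv topEquiv
    have hne : Nontrivial (G ⧸ oddCore G) := by
      rw [← Finite.one_lt_card_iff_nontrivial]
      refine lt_of_le_of_ne Nat.card_pos fun h1 => ?_
      have h2 : (Nat.card (oddCore G)).Coprime 2 := H22.coprime_card_pPrimeCore
      rw [index_eq_one.1 h1.symm, card_top] at h2
      exact absurd (Nat.Coprime.coprime_dvd_left (ht ▸ orderOf_dvd_natCard t) h2) (by norm_num)
    have hnil := hp.isNilpotent
    have h1 : commutator (G ⧸ oddCore G) = ⊤ := by
      have h2 := congrArg (Subgroup.map (QuotientGroup.mk' (oddCore G))) hperf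
      rwa [map_top_of_surjective _ (QuotientGroup.mk'_surjective _), commutator_def,
        Subgroup.map_commutator, map_top_of_surjective _ (QuotientGroup.mk'_surjective _)] at h2
    exact (Group.IsSolvable.commutator_lt_top_of_nontrivial (G ⧸ oddCore G)).ne h1
  · exact absurd h (hsym 2)
  · exact absurd h (hsym 3)
  · left
    rw [Nat.card_congr f.toEquiv]
    have h := H9.card_units_mul_card_sl (ι := Fin 3) (R := ZMod 2)
    rw [Matrix.card_GL_field, Nat.card_units] at h
    simpa [Fin.prod_univ_three] using h
  · right
    rw [Nat.card_congr f.toEquiv, nat_card_alternatingGroup]; simp; rfl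

end Cfsg.Agent.S0848
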