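import Cfsg.Statements.S0974
import Cfsg.Agent.H35.SmallOrd

set_option autoImplicit false
open Cfsg

namespace Cfsg.Agent.S0974

/-- No finite simple group has order 3648 = 2^6 * 3 * 19. -/
theorem result {G : Type*} [Group G] [Finite G] [IsSimpleGroup G] : Nat.card G ≠ 3648 := by
  classical
  intro h
  have : Fact (Nat.Prime 19) := ⟨by norm_num⟩
  obtain ⟨S, B, φ, hB, hφ, hG, hZ, h1, h2, h3, h4, h5⟩ :=
    H35.simple_setup 19 192 h (by norm_num) (by norm_num)
  have h6 := (Nat.mem_divisors (m := 192)).mpr ⟨Dvd.intro_left _ h5, by norm_num⟩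
  simp only [Nat.divisors_ofNat, Finset.mem_insert, Finset.mem_singleton] at h6
  have hn : Nat.card (Sylow 19 G) = 96 := by omega
  rw [hn] at h5
  have he : S.V.index = 2 := ((Nat.dvd_prime Nat.prime_two).mp
    (Dvd.intro_left (Nat.card S.V) (by omega))).resolve_left h3
  obtain ⟨χ, hχ⟩ := Finset.card_eq_one.mp ((B.card_erase hB).trans (by rw [he]))
  have h7 := B.degree_eq' hB hφ
  obtain ⟨a1, a2, a3, a4⟩ := B.numX hG (hχ ▸ Finset.mem_singleton_self χ)
  obtain ⟨b1, b2, b3, b4⟩ := B.numY hB hG hφ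
  rw [hχ, Finset.sum_singleton] at h7
  rw [he, hn] at a2 b2
  have a5 := (Nat.mem_divisors (m := 192)).mpr ⟨a2, by norm_num⟩
  simp only [Nat.divisors_ofNat, Finset.mem_insert, Finset.mem_singleton] at a5
  have b5 := (Nat.mem_divisors (m := 192)).mpr ⟨b2, by norm_num⟩
  simp only [Nat.divisors_ofNat, Finset.mem_insert, Finset.mem_singleton] at b5
  rcases a3 with a3 | a3 <;> rcases b3 with b3 | b3 <;> rw [a3, b3] at h7 <;> omega

end Cfsg.Agent.S0974
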