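import Cfsg.Statements.S0999
import Cfsg.Agent.H35.B43

set_option autoImplicit false
open Cfsg

namespace Cfsg.Agent.S0999

/-- Let G be a non-cyclic finite simple group and p a prime divisor of its order with p^3 > |G|. Then p > 3 and G is isomorphic to the projective special linear group of dimension 2 over the field with p elements, or p - 1 is a power of 2 and G is isomorphic to that group over the field with p - 1 elements. -/
theorem result {G : Type*} [Group G] [Finite G] [IsSimpleGroup G] (hG : ¬ IsCyclic G) (p : ℕ) (hp : p.Prime) (hdvd : p ∣ Nat.card G) (hbig : Nat.card G < p ^ 3) : (∃ (F : Type) (_ : Field F) (_ : Fintype F), Fintype.card F = p ∧ 3 < p ∧ Nonempty (G ≃* Matrix.ProjectiveSpecialLinearGroup (Fin 2) F)) ∨ (∃ (m : ℕ) (F : Type) (_ : Field F) (_ : Fintype F), Fintype.card F = 2 ^ m ∧ p = 2 ^ m + 1 ∧ 3 < p ∧ Nonempty (G ≃* Matrix.ProjectiveSpecialLinearGroup (Fin 2) F)) := by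
  have := Fact.mk hp
  have h1 : ¬ (Nat.card G).Prime := fun h => hG (have := Fact.mk h; isCyclic_of_prime_card rfl)
  obtain ⟨P⟩ : Nonempty (Sylow p G) := inferInstance
  have h2 : Nat.card P ≠ Nat.card G := fun h => by
    have h3 : IsPGroup p G := P.isPGroup'.of_surjective (P : Subgroup G).subtype fun g =>
      ⟨⟨g, Subgroup.eq_top_of_card_eq _ h ▸ Subgroup.mem_top g⟩, rfl⟩
    have := h3.center_nontrivial
    rw [(H35.simple_perfect h1).2] at this
    exact false_of_nontrivial_of_subsingleton (⊥ : Subgroup G)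
  have hsq : ¬ p ^ 2 ∣ Nat.card G := H35.not_sq_dvd_of_lt_cube hbig (H35.card_sylow_ne_one P hdvd h2)
  obtain ⟨x, hx⟩ := exists_prime_orderOf_dvd_card' p hdvd
  obtain ⟨S, -⟩ := H35.exists_setup hx hsq
  have hperf := (H35.simple_perfect h1).1
  have hO : pPrimeCore p G = ⊥ := (Subgroup.Normal.eq_bot_or_eq_top inferInstance).resolve_right
    fun e => H35.Setup.not_dvd_core (by rwa [e, Subgroup.card_top])
  obtain ⟨h3, ⟨-, h⟩ | ⟨-, m, F, _, _, hF, hm, h⟩⟩ :=
    S.brauer43_core hperf hO (S.not_bForm_of_lt_cube hperf hbig)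
  · exact Or.inl ⟨ZMod p, inferInstance, inferInstance, ZMod.card p, h3, h⟩
  · exact Or.inr ⟨m, F, _, _, hF, hm, h3, h⟩

end Cfsg.Agent.S0999
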