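import Cfsg.Statements.S1008
import Cfsg.Agent.H36.G168c

set_option autoImplicit false
open Cfsg

namespace Cfsg.Agent.S1008

open MulAction Subgroup H36 H36.G168

section
variable {G : Type*} [Group G] [Finite G] [IsSimpleGroup G]

theorem eq_norm_seven [Fact (Nat.Prime 7)] (h : Nat.card G = 168) {M : Subgroup G}
    (hM : IsCoatom M) (h7 : 7 ∣ Nat.card M) : ∃ P : Sylow 7 G, M = normalizer (P : Set G) := by
  have h1 := M.card_mul_index
  obtain ⟨P, hP⟩ := exists_sylow_le_of_not_dvd_index (p := 7) M fun h2 => by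
    have := Nat.mul_dvd_mul h7 h2
    rw [h1, h] at this
    norm_num at this
  obtain ⟨a, ha, h2⟩ := exists_card_eq_mul_card_inf_normalizer P hP
  have h3 := card_dvd_of_le (le_inf hP (le_normalizer : (P : Subgroup G) ≤ _))
  rw [card_seven h, P.coe_coe] at h3
  have h4 := Nat.le_of_dvd Nat.card_pos h3
  have h5 := card_le h hM.1
  have h6 : a = 1 := by
    by_contra h6
    have : 8 ≤ a := by omega
    nlinarith
  rw [h6, one_mul] at h2
  have h7 : M ≤ normalizer (P : Set G) :=
    inf_eq_left.1 (eq_of_le_of_card_ge inf_le_left h2.ge)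
  refine ⟨P, ((hM.le_iff.1 h7).resolve_left fun h8 => ?_).symm⟩
  have := norm_seven h P
  rw [h8, card_top, h] at this
  omega

theorem exists_klein_le (h : Nat.card G = 168) (T : Sylow 2 G) :
    ∃ U : Subgroup G, U ≤ T ∧ IsKleinFour U := by
  obtain ⟨⟨U, hU⟩⟩ := (Nat.card_ne_zero.1 (count_klein h T ▸ two_ne_zero)).1
  exact ⟨U, hU⟩

theorem norm_klein_ne_top (h : Nat.card G = 168) {U : Subgroup G} (hU : IsKleinFour U) :
    normalizer (U : Set G) ≠ ⊤ := fun h1 => by
  have := card_norm_klein h hU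
  rw [h1, card_top, h] at this
  omega

theorem norm_three_le (h : Nat.card G = 168) (P : Sylow 3 G) :
    ∃ U : Subgroup G, IsKleinFour U ∧ normalizer (P : Set G) ≤ normalizer (U : Set G) := by
  obtain ⟨T⟩ : Nonempty (Sylow 2 G) := inferInstance
  obtain ⟨U, -, hU⟩ := exists_klein_le h T
  have h1 := (normalizer (U : Set G)).card_mul_index
  rw [card_norm_klein h hU, h] at h1
  obtain ⟨Q, hQ⟩ := exists_sylow_le_of_not_dvd_index (p := 3) (normalizer (U : Set G)) (by omega)
  obtain ⟨a, ha, h2⟩ := exists_card_eq_mul_card_inf_normalizer Q hQ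
  have h3 := card_dvd_of_le
    (inf_le_right : normalizer (U : Set G) ⊓ normalizer (Q : Set G) ≤ _)
  have h4 : normalizer (Q : Set G) ≤ normalizer (U : Set G) := by
    refine inf_eq_right.1 (eq_of_le_of_card_ge inf_le_right ?_)
    rw [norm_three h] at h3 ⊢
    rw [card_norm_klein h hU] at h2
    have h5 := Nat.le_of_dvd (by norm_num) h3
    generalize Nat.card (normalizer (U : Set G) ⊓ normalizer (Q : Set G) : Subgroup G) = n at *
    interval_cases n <;> omega
  obtain ⟨g, rfl⟩ := exists_smul_eq G Q P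
  refine ⟨_, isKleinFour_map_conj hU g, ?_⟩
  rw [← Sylow.coe_coe, H4.coe_sylow_smul, H4.normalizer_map_conj, H4.normalizer_map_conj]
  exact map_mono h4

theorem card_eq_of_not_seven (h : Nat.card G = 168) {M : Subgroup G}
    (hM : IsCoatom M) (h7 : ¬ 7 ∣ Nat.card M) : Nat.card M = 24 := by
  have hK : ∀ U : Subgroup G, IsKleinFour U → M ≤ normalizer (U : Set G) → Nat.card M = 24 :=
    fun U hU hle => by
      rw [← (hM.le_iff.1 hle).resolve_left (norm_klein_ne_top h hU), card_norm_klein h hU]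
  have h1 := M.card_mul_index
  have h0 : Nat.card M ∣ 168 := h ▸ card_subgroup_dvd_card M
  by_cases h3 : 3 ∣ Nat.card M
  swap
  · obtain ⟨k, -, hk⟩ := (Nat.dvd_prime_pow (m := 3) Nat.prime_two).1 (dvd_eight h0 h3 h7)
    obtain ⟨T, hT⟩ := (IsPGroup.of_card hk).exists_le_sylow
    obtain ⟨U, hUT, hU⟩ := exists_klein_le h T
    exact hK U hU (hT.trans (sylow_le_norm h T hU hUT))
  obtain ⟨P, hP⟩ := exists_sylow_le_of_not_dvd_index (p := 3) M fun h2 => by
    have := Nat.mul_dvd_mul h3 h2
    rw [h1, h] at this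
    norm_num at this
  have h2 := card_sylow_subgroup P hP
  have ha := card_sylow_mod (p := 3) (G := M)
  by_cases h4 : Nat.card (Sylow 3 M) = 1
  · rw [h4, one_mul] at h2
    obtain ⟨U, hU, hle⟩ := norm_three_le h P
    exact hK U hU ((inf_eq_left.1 (eq_of_le_of_card_ge inf_le_left h2.ge)).trans hle)
  have h5 := card_dvd_of_le (le_inf hP (le_normalizer : (P : Subgroup G) ≤ _))
  rw [card_three h, P.coe_coe] at h5
  have h6 := Nat.le_of_dvd Nat.card_pos h5
  have h8 := card_le h hM.1
  have h9 : 12 ≤ Nat.card M := by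
    have : 4 ≤ Nat.card (Sylow 3 M) := by omega
    nlinarith
  have h12 : Nat.card M ≠ 12 := fun h12 => by
    have a1 : Nat.card (Sylow 3 M) = 4 := by
      have : 4 ≤ Nat.card (Sylow 3 M) := by omega
      nlinarith
    have a2 := card_orderOf_eq_prime (P.subtype hP)
      (card_sylow_eq_prime _ (m := 4) h12 (by norm_num))
    have a3 := card_subtype_add_compl (fun g : M => orderOf g = 3)
    rw [a2, a1, h12] at a3
    obtain ⟨S, hS, hS4⟩ := exists_subgroup_le_card M 2 2 Nat.prime_two (by rw [h12]; norm_num)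
    have a4 : ∀ g ∈ S, orderOf g ≠ 3 := fun g hg a => by
      have := Subgroup.orderOf_dvd_natCard _ hg
      rw [a, hS4] at this
      norm_num at this
    have a5 := of_card_subtype_le (p := fun g : M => g ∈ S.subgroupOf M)
      (q := fun g : M => ¬ orderOf g = 3) (fun g hg => orderOf_coe g ▸ a4 g hg) (by
        change _ ≤ Nat.card (S.subgroupOf M)
        rw [Nat.card_congr (subgroupOfEquivOfLe hS).toEquiv, hS4]
        omega)
    have a6 : M ≤ normalizer (S : Set G) := fun m hm =>
      H4.mem_normalizer_of_conj_mem fun x hx =>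
        a5 ⟨m * x * m⁻¹, mul_mem (mul_mem hm (hS hx)) (inv_mem hm)⟩ (by
          rw [← orderOf_coe, orderOf_conj']
          exact a4 x hx)
    have a7 := (hM.le_iff.1 a6).resolve_left
      (normalizer_ne_top h (by rw [hS4]; norm_num) (by rw [hS4]; norm_num))
    obtain ⟨T, hT⟩ := (IsPGroup.of_card hS4).exists_le_sylow
    have a8 := card_dvd_of_le (le_normalizer_of_relIndex_two hT
      (relIndex_eq_two hT (by rw [card_two h, hS4]; norm_num)))
    rw [a7, h12, card_two h] at a8
    norm_num at a8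
  generalize Nat.card M = n at *
  interval_cases n <;> simp_all

theorem exists_normal_klein {M : Type*} [Group M] (e : M ≃* Equiv.Perm (Fin 4)) :
    ∃ V : Subgroup M, V.Normal ∧ IsKleinFour V := by
  have h4 : Nat.card (Fin 4) = 4 := by simp
  have h1 := alternatingGroup.characteristic_kleinFour h4
  have h2 := alternatingGroup.kleinFour_isKleinFour h4
  have h3 : ((alternatingGroup.kleinFour (Fin 4)).map (alternatingGroup (Fin 4)).subtype).Normal :=
    inferInstance
  refine ⟨_, h3.comap e.toMonoidHom, H42.isKleinFour_of_card ?_ fun g hg => ?_⟩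
  · rw [comap_equiv_eq_map_symm', card_map_of_injective e.symm.injective,
      card_map_of_injective (subtype_injective _), h2.card_four]
  · obtain ⟨x, hx, hg⟩ := hg
    apply e.injective
    rw [map_mul, map_one]
    change e.toMonoidHom g * e.toMonoidHom g = 1
    rw [← hg, ← map_mul, H42.klein_mul_self h2 hx, map_one]

theorem eq_norm_klein (h : Nat.card G = 168) {M : Subgroup G} (e : M ≃* Equiv.Perm (Fin 4)) :
    ∃ V : Subgroup G, IsKleinFour V ∧ M = normalizer (V : Set G) := by
  obtain ⟨V, hV, hK⟩ := exists_normal_klein e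
  have h1 : IsKleinFour (V.map M.subtype) := by
    refine H42.isKleinFour_of_card ?_ ?_
    · rw [card_map_of_injective (subtype_injective _), hK.card_four]
    · rintro _ ⟨x, hx, rfl⟩
      rw [← map_mul, H42.klein_mul_self hK hx, map_one]
  refine ⟨_, h1, eq_of_le_of_card_ge (fun m hm => H4.mem_normalizer_of_conj_mem ?_) ?_⟩
  · rintro _ ⟨x, hx, rfl⟩
    exact ⟨_, hV.conj_mem x hx ⟨m, hm⟩, rfl⟩
  · rw [card_norm_klein h h1, Nat.card_congr e.toEquiv, Nat.card_perm]
    simp [Nat.factorial]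

theorem isCoatom_norm_klein (h : Nat.card G = 168) {U : Subgroup G} (hU : IsKleinFour U) :
    IsCoatom (normalizer (U : Set G)) :=
  ⟨norm_klein_ne_top h hU, fun K hK => by
    by_contra h1
    exact hK.ne (eq_of_le_of_card_ge hK.le (card_norm_klein h hU ▸ card_le h h1))⟩

end


/-- In a simple group of order 168 every maximal subgroup is either isomorphic to the symmetric group of degree 4 or non-abelian of order 21; the maximal subgroups of order 21 form one conjugacy class and those isomorphic to the symmetric group of degree 4 form exactly two conjugacy classes. -/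
theorem result {G : Type*} [Group G] [Finite G] [IsSimpleGroup G] (h : Nat.card G = 168) : (∀ M : Subgroup G, IsCoatom M → Nonempty (↥M ≃* Equiv.Perm (Fin 4)) ∨ (Nat.card ↥M = 21 ∧ ¬ IsMulCommutative ↥M)) ∧ (∀ M M' : Subgroup G, IsCoatom M → IsCoatom M' → Nat.card ↥M = 21 → Nat.card ↥M' = 21 → ∃ g : G, M' = M.map (MulAut.conj g).toMonoidHom) ∧ ∃ M₁ M₂ : Subgroup G, IsCoatom M₁ ∧ IsCoatom M₂ ∧ Nonempty (↥M₁ ≃* Equiv.Perm (Fin 4)) ∧ Nonempty (↥M₂ ≃* Equiv.Perm (Fin 4)) ∧ (∀ g : G, M₂ ≠ M₁.map (MulAut.conj g).toMonoidHom) ∧ ∀ M : Subgroup G, IsCoatom M → Nonempty (↥M ≃* Equiv.Perm (Fin 4)) → ∃ g : G, M = M₁.map (MulAut.conj g).toMonoidHom ∨ M = M₂.map (MulAut.conj g).toMonoidHom := by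
  have : Fact (Nat.Prime 7) := ⟨by norm_num⟩
  refine ⟨fun M hM => ?_, fun M M' hM hM' h1 h2 => ?_, ?_⟩
  · by_cases h7 : 7 ∣ Nat.card M
    · obtain ⟨P, rfl⟩ := eq_norm_seven h hM h7
      refine .inr ⟨norm_seven h P, fun hc => not_normalizer_le_centralizer (perf h) P
        (by rw [card_seven h]; norm_num) fun a ha b hb => ?_⟩
      exact congrArg Subtype.val (hc.is_comm.comm
        (⟨b, (le_normalizer : (P : Subgroup G) ≤ _) hb⟩ : normalizer (P : Set G)) ⟨a, ha⟩)
    · exact .inl (symm_of_card h (card_eq_of_not_seven h hM h7))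
  · obtain ⟨P, rfl⟩ := eq_norm_seven h hM (by rw [h1]; norm_num)
    obtain ⟨Q, rfl⟩ := eq_norm_seven h hM' (by rw [h2]; norm_num)
    obtain ⟨g, rfl⟩ := exists_smul_eq G P Q
    exact ⟨g, by rw [← Sylow.coe_coe, H4.coe_sylow_smul, H4.normalizer_map_conj, Sylow.coe_coe]⟩
  obtain ⟨T⟩ : Nonempty (Sylow 2 G) := inferInstance
  obtain ⟨⟨U, hUT, hU⟩, ⟨W, hWT, hW⟩, hne, huniv⟩ := Nat.card_eq_two_iff.1 (count_klein h T)
  refine ⟨normalizer (U : Set G), normalizer (W : Set G), isCoatom_norm_klein h hU,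
    isCoatom_norm_klein h hW, symm_of_card h (card_norm_klein h hU),
    symm_of_card h (card_norm_klein h hW), fun g hg => hne (Subtype.ext ?_), fun M _ ⟨e⟩ => ?_⟩
  · rw [← H4.normalizer_map_conj] at hg
    exact klein_eq_of_conj h T hUT hWT hU hW
      (klein_eq_of_norm_eq h hW (isKleinFour_map_conj hU g) hg).symm
  obtain ⟨V, hV, rfl⟩ := eq_norm_klein h e
  obtain ⟨g, hg⟩ := H4.exists_conj_mem_sylow (IsPGroup.of_card (n := 2) hV.card_four) T
  have h1 : V.map (MulAut.conj g).toMonoidHom ≤ T := by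
    rintro _ ⟨x, hx, rfl⟩
    exact hg x hx
  have h2 : V = (V.map (MulAut.conj g).toMonoidHom).map (MulAut.conj g⁻¹).toMonoidHom := by
    rw [H4.map_conj_map_conj, inv_mul_cancel, H4.map_conj_one]
  refine ⟨g⁻¹, ?_⟩
  rw [← H4.normalizer_map_conj, ← H4.normalizer_map_conj]
  rcases Set.eq_univ_iff_forall.1 huniv ⟨_, h1, isKleinFour_map_conj hV g⟩ with h3 | h3
  · exact .inl (by rw [h2, Subtype.mk.inj h3])
  · exact .inr (by rw [h2, Subtype.mk.inj h3])

end Cfsg.Agent.S1008
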