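import Cfsg.Statements.S1138
import Cfsg.Agent.H41.Higman

set_option autoImplicit false
open Cfsg

namespace Cfsg.Agent.S1138

/-- Let `P` be a Suzuki 2-group with `|Z(P)| = q`. Then every square lies in `Z(P)` and `P/Z(P)` is abelian (so elementary abelian), `|P| = q²` or `|P| = q³`, and `P` has exponent 4. -/
theorem result {P : Type*} [Group P] (hP : Cfsg.IsSuzukiTwoGroup P) :
    (∀ x : P, x * x ∈ Subgroup.center P) ∧ (∀ x y : P, x⁻¹ * y⁻¹ * x * y ∈ Subgroup.center P) ∧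
      (Nat.card P = Nat.card (Subgroup.center P) ^ 2 ∨ Nat.card P = Nat.card (Subgroup.center P) ^ 3) ∧
      Monoid.exponent P = 4 := by
  obtain ⟨ξ, n, h⟩ := H41.exists_hig_of_suzuki hP
  obtain ⟨_, -, hna, -⟩ := hP
  have h4 := h.sq_mem_Z hna
  rw [h.center_eq hna, h.card_Z]
  refine ⟨h4, fun x y => ?_, h.card_eq_or hna, ?_⟩
  · have := h.kap_mem_Z (h4 x) (h4 y⁻¹) (h4 _)
    rwa [H41.kap, inv_inv] at this
  · have h1 : Monoid.exponent P ∣ 2 ^ 2 := Monoid.exponent_dvd_of_forall_pow_eq_one (fun x => by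
      have := h.mem_Z.1 (h4 x)
      rwa [← pow_two, ← pow_two, ← pow_mul] at this)
    obtain ⟨j, hj, e⟩ := (Nat.dvd_prime_pow Nat.prime_two).1 h1
    have h2 : ¬ Monoid.exponent P ∣ 2 := fun hd => by
      obtain ⟨x, y, hxy⟩ := hna
      exact hxy (h.central x (by
        rw [← pow_two]; exact Monoid.exponent_dvd_iff_forall_pow_eq_one.1 hd x) y)
    rw [e] at h2 ⊢
    interval_cases j <;> simp at h2 ⊢

end Cfsg.Agent.S1138
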