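import Cfsg.Statements.S1141
import Cfsg.Agent.H20.U3Syl
import Cfsg.Agent.H9.Transport

set_option autoImplicit false
open Cfsg

namespace Cfsg.Agent.S1141

/-- Let `q = 2^n ≥ 4` and `|F| = q²`. A Sylow 2-subgroup `S` of `PSU₃(q)` has order `q³`, its centre has order `q`, and `S` is a Suzuki 2-group. -/
theorem result {F : Type*} [Field F] [Fintype F] {n : ℕ} (hn : 2 ≤ n)
    (hF : Fintype.card F = (2 ^ n) ^ 2) (S : Sylow 2 (Cfsg.PSU 3 F (2 ^ n))) :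
    Nat.card S = (2 ^ n) ^ 3 ∧ Nat.card (Subgroup.center ↥(S : Subgroup (Cfsg.PSU 3 F (2 ^ n)))) = 2 ^ n ∧
      Cfsg.IsSuzukiTwoGroup ↥(S : Subgroup (Cfsg.PSU 3 F (2 ^ n))) := by
  have : Fact (Fintype.card F = (2 ^ n) ^ 2) := ⟨hF⟩
  have := H20.charP_two_of_card_pow (hF.trans (pow_mul 2 n 2).symm)
  obtain ⟨e⟩ := H20.sylow_equiv_UM_even rfl S
  have h4 : 2 ^ 2 ≤ 2 ^ n := Nat.pow_le_pow_right two_pos hn
  refine ⟨by rw [← Nat.card_congr e.toEquiv, H42.UM.card], ?_,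
    H20.isSuzukiTwoGroup_of_equiv e (H20.isSuzukiTwoGroup_UM (by omega))⟩
  rw [← H9.map_center_eq e, Subgroup.card_map_of_injective e.injective, H20.card_center_UM]

end Cfsg.Agent.S1141
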