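import Cfsg.Statements.S1153
import Cfsg.Agent.H40.Ree4
-- import your own Cfsg.Agent.* helpers here

set_option autoImplicit false
open Cfsg

namespace Cfsg.Agent.S1153

open H40

/-- In the small Ree group ²G₂(q), q = 3^(2m+1), realised as G¹ inside the Chevalley group G₂ over the field with q elements, with `B¹ = G¹ ∩ B`: in the action of `G¹` on the cosets of `B¹`, the joint stabiliser of any three distinct cosets has order at most 2, and for some three distinct cosets it has order exactly 2. -/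
theorem result {K : Type*} [Field K] [Fintype K] {m : ℕ} (hK : Fintype.card K = 3 ^ (2 * m + 1)) :
    (∀ x y z : ↥(Cfsg.Lie.twistedG2 K (3 ^ m)) ⧸ ((Cfsg.Lie.chevG2.borelSubgroup K ⊓ Cfsg.Lie.twistedG2 K (3 ^ m))).subgroupOf (Cfsg.Lie.twistedG2 K (3 ^ m)), x ≠ y → x ≠ z → y ≠ z →
        Nat.card ↥(MulAction.stabilizer ↥(Cfsg.Lie.twistedG2 K (3 ^ m)) x ⊓ MulAction.stabilizer ↥(Cfsg.Lie.twistedG2 K (3 ^ m)) y ⊓ MulAction.stabilizer ↥(Cfsg.Lie.twistedG2 K (3 ^ m)) z) ≤ 2) ∧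
      ∃ x y z : ↥(Cfsg.Lie.twistedG2 K (3 ^ m)) ⧸ ((Cfsg.Lie.chevG2.borelSubgroup K ⊓ Cfsg.Lie.twistedG2 K (3 ^ m))).subgroupOf (Cfsg.Lie.twistedG2 K (3 ^ m)), x ≠ y ∧ x ≠ z ∧ y ≠ z ∧
        Nat.card ↥(MulAction.stabilizer ↥(Cfsg.Lie.twistedG2 K (3 ^ m)) x ⊓ MulAction.stabilizer ↥(Cfsg.Lie.twistedG2 K (3 ^ m)) y ⊓ MulAction.stabilizer ↥(Cfsg.Lie.twistedG2 K (3 ^ m)) z) = 2 := by
  let θ := mkTh Nat.prime_three hK
  constructor
  · intro x y z hxy hxz hyz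
    obtain ⟨s, hs⟩ := three_fix θ hK hxy hxz hyz
    refine le_trans ?_ ((Set.ncard_insert_le 1 {s}).trans_eq (by rw [Set.ncard_singleton]))
    rw [← SetLike.coe_sort_coe, Nat.card_coe_set_eq]
    exact Set.ncard_le_ncard fun g hg => hs g hg.1.1 hg.1.2 hg.2
  · have h1 := (rpt_ne_one θ hK 0 0 0).symm
    have h2 := (rpt_ne_one θ hK 0 1 0).symm
    have h3 : rpt θ 0 0 0 ≠ rpt θ 0 1 0 := fun h => zero_ne_one (ru_inj θ (rpt_inj θ hK h)).2.1
    refine ⟨_, _, _, h1, h2, h3, ?_⟩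
    obtain ⟨s, hs⟩ := three_fix θ hK h1 h2 h3
    have h4 : rhG θ hK (-1) ≠ 1 := fun h => by
      have h5 := congrArg Units.val (rh_injective θ ((congrArg Subtype.val h).trans (map_one _).symm))
      have h6 := three_eq_zero θ
      exact one_ne_zero (by simp only [Units.val_neg, Units.val_one] at h5; linear_combination h5 + h6 : (1 : K) = 0)
    have h5 := smul_one_iff.2 (rhG_mem θ hK (-1))
    have h6 : rhG θ hK (-1) • rpt θ 0 0 0 = rpt θ 0 0 0 := by simp [rhG_smul]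
    have h7 : rhG θ hK (-1) • rpt θ 0 1 0 = rpt θ 0 1 0 := by simp [rhG_smul]
    obtain rfl := (hs _ h5 h6 h7).resolve_left h4
    rw [← SetLike.coe_sort_coe, Nat.card_coe_set_eq, ← Set.ncard_pair h4.symm]
    congr 1
    refine Set.Subset.antisymm (fun g hg => hs g hg.1.1 hg.1.2 hg.2) ?_
    rintro _ (rfl | rfl)
    exacts [one_mem _, ⟨⟨h5, h6⟩, h7⟩]

end Cfsg.Agent.S1153
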