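import Cfsg.Statements.S1227
import Cfsg.Agent.H43.Elem

set_option autoImplicit false
open Cfsg

namespace Cfsg.Agent.S1227

open Cfsg.Agent.H43
open scoped Pointwise

/-- Let G be a finite group with a Sylow 2-subgroup T that is neither cyclic nor normal, such that the centralizer of every involution is an elementary abelian 2-group; put H = N_G(T), let u be an involution outside H and D = H ∩ uHu⁻¹. Then u inverts every element of D, |H| = |T|·(|T| − 1), and D is a complement to T in H. -/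
theorem result {G : Type*} [Group G] [Finite G] (T : Sylow 2 G) (hnc : ¬ IsCyclic (T : Subgroup G)) (hnn : ¬ (T : Subgroup G).Normal) (hC : ∀ t : G, orderOf t = 2 → IsMulCommutative (Subgroup.centralizer ({t} : Set G)) ∧ ∀ c ∈ Subgroup.centralizer ({t} : Set G), c ^ 2 = 1) (u : G) (hu : orderOf u = 2) (huH : u ∉ Subgroup.normalizer ((T : Subgroup G) : Set G)) : (∀ d ∈ Subgroup.normalizer ((T : Subgroup G) : Set G) ⊓ (Subgroup.normalizer ((T : Subgroup G) : Set G)).map (MulAut.conj u).toMonoidHom, u * d * u⁻¹ = d⁻¹) ∧ Nat.card (Subgroup.normalizer ((T : Subgroup G) : Set G)) = Nat.card T * (Nat.card T - 1) ∧ Subgroup.IsComplement' ((Subgroup.normalizer ((T : Subgroup G) : Set G) ⊓ (Subgroup.normalizer ((T : Subgroup G) : Set G)).map (MulAut.conj u).toMonoidHom).subgroupOf (Subgroup.normalizer ((T : Subgroup G) : Set G))) ((T : Subgroup G).subgroupOf (Subgroup.normalizer ((T : Subgroup G) : Set G))) := by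
  have hE := elem_set T hnc hC hnn
  set H := Subgroup.normalizer ((T : Subgroup G) : Set G) with hH
  set D := H ⊓ H.map (MulAut.conj u).toMonoidHom with hD
  have hTH : (T : Subgroup G) ≤ H := Subgroup.le_normalizer
  have hxy := one_ne_mk huH
  obtain ⟨s, hsT, -, -, hs1, -⟩ := elem_two T hnc hC
  obtain ⟨hCs, hs⟩ := elem_centralizer_eq T hnc hC hsT hs1
  have hdisj : ∀ d ∈ D, d ∈ (T : Subgroup G) → d = 1 := by
    intro d hd hdT
    by_contra h
    have h2 := (elem_centralizer_eq T hnc hC hdT h).2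
    exact hxy (hE.uniq d h2 _ _ (mem_inf_conj_iff.1 hd).1 (mem_inf_conj_iff.1 hd).2)
  have htr : ∀ t ∈ (T : Subgroup G), t ≠ 1 → ∃ d ∈ D, d * s * d⁻¹ = t := by
    intro t ht ht1
    obtain ⟨d, h1, h2, h3⟩ := hE.uniq.exists_conj_two_point hs
      (elem_centralizer_eq T hnc hC ht ht1).2 (mul_self_of_orderOf hu) hxy
      (smul_one_eq_iff.2 (hTH hsT)) (smul_one_eq_iff.2 (hTH ht)) (smul_one_eq_mk u)
    exact ⟨d, mem_inf_conj_iff.2 ⟨h1, h2⟩, h3⟩
  have hcomp : Subgroup.IsComplement' (D.subgroupOf H) ((T : Subgroup G).subgroupOf H) := by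
    apply Subgroup.isComplement'_of_disjoint_and_mul_eq_univ
    · rw [Subgroup.disjoint_def]
      intro x h1 h2
      exact Subtype.ext (hdisj x h1 h2)
    · rw [Set.eq_univ_iff_forall]
      rintro ⟨h, hh⟩
      obtain ⟨d, hd, h1⟩ := htr (h * s * h⁻¹) (conj_mem_of_mem_normalizer hh hsT)
        (by simpa using hs1)
      have h2 : d⁻¹ * h ∈ (T : Subgroup G) := by
        rw [← hCs, mem_centralizer_singleton]
        calc s * (d⁻¹ * h) = d⁻¹ * (d * s * d⁻¹) * h := by group
          _ = _ := by rw [h1]; group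
      exact ⟨⟨d, hd.1⟩, hd, ⟨d⁻¹ * h, hTH h2⟩, h2, Subtype.ext (by simp)⟩
  refine ⟨fun d hd => ?_, ?_, hcomp⟩
  · rw [inv_eq_of_orderOf hu]
    exact hE.inverts hxy (mul_self_of_orderOf hu) (smul_one_eq_mk u) (mem_inf_conj_iff.1 hd).1
      (mem_inf_conj_iff.1 hd).2
  · have h1 := hcomp.card_mul_card
    rw [Nat.card_congr (Subgroup.subgroupOfEquivOfLe (inf_le_left : D ≤ H)).toEquiv,
      Nat.card_congr (Subgroup.subgroupOfEquivOfLe hTH).toEquiv] at h1
    have h2 : Nat.card D = Nat.card {t : (T : Subgroup G) // t ≠ 1} := by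
      refine Nat.card_eq_of_bijective (fun d => ⟨⟨d.1 * s * d.1⁻¹,
        conj_mem_of_mem_normalizer d.2.1 hsT⟩, fun h => hs1 (by
          simpa using congrArg Subtype.val h)⟩) ⟨?_, ?_⟩
      · rintro ⟨d, hd⟩ ⟨e, he⟩ h
        have h3 : d * s * d⁻¹ = e * s * e⁻¹ := congrArg (fun x => x.1.1) h
        have h4 : e⁻¹ * d ∈ (T : Subgroup G) := by
          rw [← hCs, mem_centralizer_singleton]
          calc s * (e⁻¹ * d) = e⁻¹ * (e * s * e⁻¹) * d := by group
            _ = _ := by rw [← h3]; group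
        have := hdisj _ (D.mul_mem (D.inv_mem he) hd) h4
        exact Subtype.ext (inv_mul_eq_one.1 this).symm
      · rintro ⟨⟨t, ht⟩, ht1⟩
        obtain ⟨d, hd, h⟩ := htr t ht (fun h => ht1 (Subtype.ext h))
        exact ⟨⟨d, hd⟩, Subtype.ext (Subtype.ext h)⟩
    have h3 : Nat.card {t : (T : Subgroup G) // t ≠ 1} = Nat.card (T : Subgroup G) - 1 := by
      classical
      have := Fintype.ofFinite (T : Subgroup G)
      simp [Nat.card_eq_fintype_card]
    rw [← h1, h2, h3, mul_comm]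

end Cfsg.Agent.S1227
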