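import Cfsg.Statements.S1313
import Cfsg.Agent.H44.Components

set_option autoImplicit false
open Cfsg

namespace Cfsg.Agent.S1313

open Cfsg.Agent.H44

/-- For a finite group H, |H| ≤ |F*(H)|!. -/
theorem result {H : Type*} [Group H] [Finite H] : Nat.card H ≤ Nat.factorial (Nat.card ↥(Cfsg.generalizedFittingSubgroup H)) := by
  classical
  set F := Cfsg.generalizedFittingSubgroup H with hF
  have hC : Subgroup.centralizer (F : Set H) ≤ F := centralizer_gfitting_le
  haveI : Fintype F := Fintype.ofFinite F
  let f : H →* MulAut F := MulAut.conjNormal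
  have hker : f.ker = Subgroup.centralizer (F : Set H) := by
    ext g
    rw [MonoidHom.mem_ker, Subgroup.mem_centralizer_iff]
    constructor
    · intro h x hx
      have := congrArg (fun e : MulAut F => ((e ⟨x, hx⟩ : F) : H)) h
      simp only [f, MulAut.conjNormal_apply, MulAut.one_apply] at this
      rw [← this, inv_mul_cancel_right, this]
    · intro h
      ext x
      simp only [f, MulAut.conjNormal_apply, MulAut.one_apply]
      rw [← h x x.2, mul_inv_cancel_right]
  -- automorphisms embed in the permutations of the non-identity elements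
  let φ : MulAut F → Equiv.Perm {x : F // x ≠ 1} := fun e =>
    Equiv.Perm.subtypePerm e.toEquiv (fun x => by simp)
  have hφ : Function.Injective φ := by
    intro a b hab
    ext x
    by_cases hx : x = 1
    · simp [hx]
    · have := congrArg (fun e : Equiv.Perm {x : F // x ≠ 1} => ((e ⟨x, hx⟩ : {x : F // x ≠ 1}) : F)) hab
      exact congrArg Subtype.val this
  have h1 : Nat.card (MulAut F) ≤ (Nat.card F - 1).factorial := by
    have := Nat.card_le_card_of_injective φ hφ
    rw [Nat.card_eq_fintype_card (α := Equiv.Perm _), Fintype.card_perm] at this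
    rwa [Fintype.card_subtype_compl, Fintype.card_subtype_eq, ← Nat.card_eq_fintype_card] at this
  have h2 : Nat.card H = Nat.card f.range * Nat.card f.ker := by
    rw [← Subgroup.index_ker, Subgroup.index_mul_card]
  have h3 : Nat.card f.ker ≤ Nat.card F := by
    rw [hker]; exact Subgroup.card_le_of_le hC
  have h4 : Nat.card f.range ≤ Nat.card (MulAut F) := Subgroup.card_le_card_group _
  have h5 : 0 < Nat.card F := Nat.card_pos
  calc Nat.card H ≤ (Nat.card F - 1).factorial * Nat.card F := by
        rw [h2]; exact Nat.mul_le_mul (h4.trans h1) h3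
    _ = (Nat.card F).factorial := by rw [mul_comm, Nat.mul_factorial_pred h5.ne']

end Cfsg.Agent.S1313
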