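import Cfsg.Statements.S1329
import Cfsg.Agent.H46.CoGen
import Cfsg.Agent.H46.OddQS

set_option autoImplicit false
open Cfsg

namespace Cfsg.Agent.S1329

/-- Let A be an abelian 2-subgroup of the finite group G, B ≤ A, and Y a subgroup of odd order normalized by A with ⁅Y, A⁆ = Y. Then Y ∩ C_G(B) is generated by the subgroups Y ∩ C_G(B) ∩ ⁅Y ∩ C_G(B₀), A⁆, B₀ ranging over the subgroups of B with B / B₀ cyclic. -/
theorem result {G : Type*} [Group G] [Finite G] (A B Y : Subgroup G) (hA2 : IsPGroup 2 ↥A) (hAc : IsMulCommutative ↥A) (hB : B ≤ A) (hYodd : Odd (Nat.card ↥Y)) (hAY : A ≤ Subgroup.normalizer (Y : Set G)) (hYA : ⁅Y, A⁆ = Y) : Y ⊓ Subgroup.centralizer (B : Set G) = ⨆ B₀ : {B₀ : Subgroup G // B₀ ≤ B ∧ ∀ [(B₀.subgroupOf B).Normal], IsCyclic (↥B ⧸ B₀.subgroupOf B)}, Y ⊓ Subgroup.centralizer (B : Set G) ⊓ ⁅Y ⊓ Subgroup.centralizer ((B₀ : Subgroup G) : Set G), A⁆ :=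 by
  have : Fact (Nat.Prime 2) := ⟨Nat.prime_two⟩
  refine le_antisymm ?_ (iSup_le fun B₀ => inf_le_left)
  refine H46.cent_le_of_forall_cycQ hA2 hAc hB hYodd.not_two_dvd_nat
    (H46.isSolvable_of_coprime_two (Nat.coprime_two_right.2 hYodd)) hAY hYA fun B₀ h0 => ?_
  refine le_trans ?_ (le_iSup _ ⟨B₀, h0.1, ?_⟩)
  · refine fun x hx => ⟨⟨?_, hx.1⟩, hx.2⟩
    exact (H49.commutator_le_left_of_norm (H49.norm_inf hAY (H49.norm_of_le
      (H49.le_cent_of_abelian hAc le_rfl (h0.1.trans hB)))) hx.2).1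
  · intro _
    obtain ⟨-, b, hb, h⟩ := h0
    refine ⟨⟨QuotientGroup.mk ⟨b, hb⟩, fun y => ?_⟩⟩
    obtain ⟨x, rfl⟩ := QuotientGroup.mk_surjective y
    obtain ⟨n, hn⟩ := h x⁻¹ (inv_mem x.2)
    refine ⟨n, ?_⟩
    show (QuotientGroup.mk ⟨b, hb⟩ : B ⧸ B₀.subgroupOf B) ^ n = _
    rw [← QuotientGroup.mk_zpow, eq_comm, QuotientGroup.eq]
    exact hn

end Cfsg.Agent.S1329
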