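import Cfsg.Statements.S1330
import Cfsg.Agent.H46.ModCore
import Cfsg.Agent.H46.OddQS

set_option autoImplicit false
open Cfsg

namespace Cfsg.Agent.S1330

open Subgroup Cfsg.Agent.H44 Cfsg.Agent.H46
open Cfsg.Agent.H49 hiding cj commutator_eq_bot_iff
open scoped commutatorElement

set_option linter.unusedSectionVars false

section
variable {G : Type*} [Group G] [Finite G]

/-- one factor of the functor -/
abbrev th (a : G) (A : Subgroup G) : Subgroup G :=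
  ⁅Oppof 2 𝒞[a], A⁆ ⊔ (Oppof 2 𝒞[a] ⊓ Oppof 2 𝒞(A))

theorem th_le {a : G} {A : Subgroup G} (h : A ≤ 𝒞[a]) : th a A ≤ Oppof 2 𝒞[a] :=
  sup_le (commutator_le_left_of_norm (h.trans (le_normalizer_pPrimeCoreOf _))) inf_le_left

theorem norm_th {a : G} {A B : Subgroup G} (h : B ≤ 𝒞[a]) (hB : B ≤ 𝒞(A)) : B ≤ 𝒩(th a A) :=
  norm_sup (norm_commutator (h.trans (le_normalizer_pPrimeCoreOf _)) (norm_of_cent hB))
    (norm_inf (h.trans (le_normalizer_pPrimeCoreOf _)) (hB.trans (le_normalizer_pPrimeCoreOf _)))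

theorem ndvd {X : Subgroup G} (h : (Nat.card X).Coprime 2) : ¬ 2 ∣ Nat.card X :=
  (Nat.Prime.coprime_iff_not_dvd Nat.prime_two).1 h.symm

theorem Oppof_inf_le {a b : G} : Oppof 2 𝒞[a] ⊓ 𝒞[b] ≤ Oppof 2 (𝒞[b] ⊓ 𝒞(zpowers a)) := by
  rw [cent_zpowers]
  exact (le_inf inf_le_left (le_inf inf_le_right (inf_le_left.trans (Oppof_le _)))).trans
    (pPrimeCoreOf_inf_le_pPrimeCoreOf inf_le_right)

theorem key {A A₁ A₂ : Subgroup G} (hA : IsElementaryAbelian 2 A) (h1 : A₁ ≤ A) (h2 : A₂ ≤ A)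
    (h12 : A ≤ A₁ ⊔ A₂) (hc : Nat.card A₁ = 4)
    (hs : ∀ c ∈ A, c ≠ 1 → ∀ K, PComp 2 𝒞[c] K →
      ⁅K, A₁⁆ ≤ Oppof 2 𝒞[c] ∨ ⁅K, A₂⁆ ≤ Oppof 2 𝒞[c])
    {a b : G} (ha : a ∈ A) (hb : b ∈ A) {L : Subgroup G} (hL : PComp 2 𝒞[b] L)
    (hL1 : ⁅L, A₁⁆ ≤ Oppof 2 𝒞[b]) (hLa : ¬ ⁅L, zpowers a⁆ ≤ Oppof 2 𝒞[b]) :
    ⁅L, th a A₁ ⊓ 𝒞[b]⁆ ≤ Oppof 2 𝒞[b] := by
  have : Fact (Nat.Prime 2) := ⟨Nat.prime_two⟩
  have hAp := isPGroup_of_isElementaryAbelian hA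
  have hcm : ∀ {B C : Subgroup G}, B ≤ A → C ≤ A → B ≤ 𝒞(C) := fun h h' =>
    le_cent_of_abelian hA.1 h h'
  have hc1 : ∀ {c : G}, c ∈ A → A ≤ 𝒞[c] := fun {c} hc =>
    (hcm le_rfl (zpowers_le.2 hc)).trans (cent_zpowers c).le
  have hH := le_normalizer_pPrimeCoreOf (p := 2) 𝒞[b]
  have hAb := hc1 hb
  have hn1 : A₁ ≤ 𝒩(𝒞[b]) := norm_of_le (h1.trans hAb)
  obtain ⟨hL₀, hLL⟩ := pcomp_inf_centralizer hL (hAp.to_le h1)
    (hL.le_normalizer_of_commutator_le hn1 hL1) (hL.commutator_le_Oppof hn1 hL1)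
  set L₀ := pGen 2 (L ⊓ 𝒞(A₁)) with hL₀def
  have hL0 : L₀ ≤ L ⊓ 𝒞(A₁) := pGen_le _
  have hT : ∀ U ≤ 𝒞[b], (Nat.card ↥⁅L₀, U⁆).Coprime 2 → ⁅L, U⁆ ≤ Oppof 2 𝒞[b] := fun U hU h =>
    comm_le_Oppof_of_coprime hL (hL0.trans inf_le_left)
      (hLL.trans (sup_le_sup_left (Oppof_le_Oppof_of_sn hL.sn) _)) hU h
  have hLN := hL.le.trans hH
  -- the centraliser of `L` modulo the core
  set S := quoPre (Oppof 2 𝒞[b]) 𝒞(quo L (Oppof 2 𝒞[b])) with hS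
  have hA1S : A₁ ≤ S := H45.le_quoPre_cent hLN ((h1.trans hAb).trans hH) hL1
  have hA2 : ¬ ⁅L, A₂⁆ ≤ Oppof 2 𝒞[b] := fun h => hLa (H45.comm_le_of_le hLN
    (((zpowers_le.2 ha).trans hAb).trans hH) (((zpowers_le.2 ha).trans h12).trans
      (sup_le hA1S (H45.le_quoPre_cent hLN ((h2.trans hAb).trans hH) h))))
  set Y := th a A₁ ⊓ 𝒞[b] with hY
  have hYa : Y ≤ Oppof 2 𝒞[a] ⊓ 𝒞[b] := inf_le_inf_right _ (th_le (h1.trans (hc1 ha)))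
  have hOa := ndvd (pPrimeCoreOf_coprime 𝒞[a])
  have hYn : A₁ ≤ 𝒩(Y) := norm_inf (norm_th (h1.trans (hc1 ha)) (hcm h1 h1)) hn1
  have hYL : Y ≤ 𝒩(L) := (hYa.trans Oppof_inf_le).trans (Oppof_inf_cent_le_norm
    (hAp.to_le (zpowers_le.2 ha)) (norm_of_le ((zpowers_le.2 ha).trans hAb)) hL)
  refine H45.comm_le_of_le hLN (inf_le_right.trans hH) ?_
  rw [← commutator_sup_centralizer (hAp.to_le h1)
    (not_dvd_card_of_le hOa (hYa.trans inf_le_left)) hYn]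
  refine sup_le ((commutator_mono le_rfl hA1S).trans (commutator_le_right_of_norm
    (norm_quoPre (inf_le_right.trans hH) (norm_cent (quo_norm _ hYL))))) ?_
  refine H45.le_quoPre_cent hLN ((inf_le_left.trans inf_le_right).trans hH)
    (hT _ (inf_le_left.trans inf_le_right) (coprime_of_le ?_ (pPrimeCoreOf_coprime 𝒞(A₁))))
  have hD := le_normalizer_pPrimeCoreOf (p := 2) 𝒞(A₁)
  have hL0N := (hL0.trans inf_le_right).trans hD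
  refine H45.comm_le_of_le hL0N (inf_le_right.trans hD) ?_
  set S₁ := quoPre (Oppof 2 𝒞(A₁)) 𝒞(quo L₀ (Oppof 2 𝒞(A₁))) with hS₁
  set W := ⁅Oppof 2 𝒞[a], A₁⁆ with hW
  have hOn : A₁ ≤ 𝒩(Oppof 2 𝒞[a]) := (h1.trans (hc1 ha)).trans (le_normalizer_pPrimeCoreOf _)
  have hWle : W ≤ Oppof 2 𝒞[a] := commutator_le_left_of_norm hOn
  have hW1 : W ⊓ 𝒞(A₁) ≤ S₁ := by
    refine cent_le_of_forall_cycQ (hAp.to_le h1) (abelian_of_le hA.1 h1) le_rfl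
      (not_dvd_card_of_le hOa hWle) (isSolvable_of_coprime_two
        (coprime_of_le hWle (pPrimeCoreOf_coprime _))) (normalizer_commutator_ge_right _ _)
      (commutator_commutator_eq (hAp.to_le h1) hOa hOn) fun B₀ h0 => ?_
    obtain ⟨c, hcB, hc0⟩ : ∃ c ∈ B₀, c ≠ 1 := by
      by_contra hne
      push Not at hne
      obtain ⟨-, d, hd, h3⟩ := h0
      have h4 : A₁ ≤ zpowers d := fun x hx => by
        obtain ⟨n, hn⟩ := h3 x hx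
        exact ⟨-n, by simp [← eq_inv_of_mul_eq_one_left (hne _ hn)]⟩
      have h5 := card_le_of_le h4
      rw [hc, Nat.card_zpowers] at h5
      have := Nat.le_of_dvd two_pos (orderOf_dvd_of_pow_eq_one (hA.2 d (h1 hd)))
      omega
    have hcA := h0.1 hcB
    have hAc := hc1 (h1 hcA)
    have hTA : A₁ ⊔ zpowers b ≤ A := sup_le h1 (zpowers_le.2 hb)
    have hL₀' : PComp 2 (𝒞[c] ⊓ 𝒞(A₁ ⊔ zpowers b)) L₀ := by
      rwa [cent_sup, cent_zpowers, inf_eq_right.2 (inf_le_left.trans (cent_le_cent1 hcA)), inf_comm]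
    rcases pcomp_comm_le_of_separated (Z := Oppof 2 𝒞[a] ⊓ 𝒞[c]) (hAp.to_le hTA)
      (norm_of_le (hTA.trans hAc)) (norm_of_cent (hcm hTA h1)) (norm_of_cent (hcm hTA h2))
      (norm_of_le (h1.trans hAc)) (norm_of_le (h2.trans hAc)) (hs c (h1 hcA) hc0) hL₀'
      (norm_of_le inf_le_right) (fun K hK => Oppof_inf_le.trans (Oppof_inf_cent_le_norm
        (hAp.to_le (zpowers_le.2 ha)) (norm_of_le ((zpowers_le.2 ha).trans hAc)) hK)) with h | h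
    · refine H45.le_quoPre_cent hL0N (inf_le_left.trans hD) (le_trans (le_inf ?_ ?_)
        (pPrimeCoreOf_inf_le_pPrimeCoreOf (cent_le_cent1 hcA)))
      · exact (commutator_mono le_rfl (inf_le_right.trans (commutator_mono
          (inf_le_inf hWle (cent_le_cent1 hcB)) le_rfl))).trans h
      · exact (commutator_mono (hL0.trans inf_le_right) inf_le_left).trans der_le
    · exact absurd (hT _ (h2.trans hAb) (coprime_of_le h (pPrimeCoreOf_coprime _))) hA2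
  intro y hy
  obtain ⟨w, hw, v, hv, rfl⟩ := (mem_sup_of_norm_left (inf_le_left.trans
    (normalizer_commutator_ge_left _ _))).1 hy.1.1
  refine mul_mem (hW1 (mem_inf.2 ⟨hw, ?_⟩)) (le_quoPre _ hv.2)
  exact (mul_mem_cancel_right (Oppof_le _ (mem_inf.1 hv).2)).1 (mem_inf.1 hy).2

theorem le_core {A₁ A₂ : Subgroup G} (hA : IsElementaryAbelian 2 (A₁ ⊔ A₂)) (hc₁ : Nat.card A₁ = 4)
    (hc₂ : Nat.card A₂ = 4) (hs : ∀ c ∈ A₁ ⊔ A₂, c ≠ 1 → ∀ K, PComp 2 𝒞[c] K →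
      ⁅K, A₁⁆ ≤ Oppof 2 𝒞[c] ∨ ⁅K, A₂⁆ ≤ Oppof 2 𝒞[c]) {a b : G} (ha : a ∈ A₁ ⊔ A₂) (ha1 : a ≠ 1)
    (hb : b ∈ A₁ ⊔ A₂) (hb1 : b ≠ 1) : th a A₁ ⊓ th a A₂ ⊓ 𝒞[b] ≤ Oppof 2 𝒞[b] := by
  have : Fact (Nat.Prime 2) := ⟨Nat.prime_two⟩
  have hc1 : ∀ {c : G}, c ∈ A₁ ⊔ A₂ → A₁ ⊔ A₂ ≤ 𝒞[c] := fun {c} hc =>
    (le_cent_of_abelian hA.1 le_rfl (zpowers_le.2 hc)).trans (cent_zpowers c).le
  by_contra hne
  obtain ⟨L, hL, h1, h2⟩ := exists_pcomp_unbalanced (orderOf_eq_prime (hA.2 a ha) ha1)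
    (le_normalizer (hc1 hb ha)) (((inf_le_inf_right _ (inf_le_left.trans
      (th_le (le_sup_left.trans (hc1 ha))))).trans Oppof_inf_le).trans (cent_zpowers a ▸ le_rfl)) hne
  rcases hs b hb hb1 L hL with h | h
  · exact h2 ((commutator_mono le_rfl (inf_le_inf_right _ inf_le_left)).trans
      (key hA le_sup_left le_sup_right le_rfl hc₁ hs ha hb hL h h1))
  · exact h2 ((commutator_mono le_rfl (inf_le_inf_right _ inf_le_right)).trans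
      (key hA le_sup_right le_sup_left (sup_comm A₁ A₂).le hc₂
        (fun c h3 h4 K hK => (hs c h3 h4 K hK).symm) ha hb hL h h1))

theorem le_th {A B Y : Subgroup G} {b : G} (hB : IsPGroup 2 B) (hc : Nat.card B = 4)
    (hn : B ≤ 𝒩(Y)) (hY : Y ≤ Oppof 2 𝒞[b]) (hBA : B ≤ A)
    (h : ∀ c ∈ A, c ≠ 1 → Y ⊓ 𝒞[c] ≤ Oppof 2 𝒞[c]) : Y ≤ th b B := by
  have : Fact (Nat.Prime 2) := ⟨Nat.prime_two⟩
  obtain ⟨c, hcB, hc1⟩ : ∃ c ∈ B, c ≠ 1 := by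
    by_contra hne
    push Not at hne
    rw [(eq_bot_iff_forall B).2 hne, card_bot] at hc
    omega
  rw [← commutator_sup_centralizer hB (ndvd (coprime_of_le hY (pPrimeCoreOf_coprime _))) hn]
  refine sup_le_sup (commutator_mono hY le_rfl) (le_inf (inf_le_left.trans hY) ?_)
  exact (le_inf ((inf_le_inf_left _ (cent_le_cent1 hcB)).trans (h c (hBA hcB) hc1))
    inf_le_right).trans (pPrimeCoreOf_inf_le_pPrimeCoreOf (cent_le_cent1 hcB))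

end


/-- Let A₁, A₂ be core-separated four-subgroups of the finite group G and A = A₁A₂. For a ∈ G put O_a = O(C_G(a)) and θ a = ⋂_{i=1,2} ( ⁅O_a, A_i⁆ · (O_a ∩ O(C_G(A_i))) ). Then θ is an A-signalizer functor for the prime 2. -/
theorem result {G : Type*} [Group G] [Finite G] (A₁ A₂ : Subgroup G) (hcs : Cfsg.IsCoreSeparated A₁ A₂) : Cfsg.IsSignalizerFunctor 2 (A₁ ⊔ A₂) (fun a => (⁅Cfsg.centralizerPPrimeCore 2 a, A₁⁆ ⊔ (Cfsg.centralizerPPrimeCore 2 a ⊓ ((Cfsg.oddCore ↥(Subgroup.centralizer ((A₁ : Subgroup G) : Set G))).map (Subgroup.centralizer ((A₁ : Subgroup G) : Set G)).subtype))) ⊓ (⁅Cfsg.centralizerPPrimeCore 2 a, A₂⁆ ⊔ (Cfsg.centralizerPPrimeCore 2 a ⊓ ((Cfsg.oddCore ↥(Subgroup.centralizer ((A₂ : Subgroup G) : Set G))).map (Subgroup.centralizer ((A₂ : Subgroup G) : Set G)).subtype)))) := by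
  have : Fact (Nat.Prime 2) := ⟨Nat.prime_two⟩
  obtain ⟨e1, e2, c1, c2, -, -, hcm, hs⟩ := hcs
  have h12 : A₁ ≤ 𝒞(A₂) := le_cent_iff.2 fun x hx y hy => (hcm x hx y hy).symm
  have hab := abelian_sup e1.1 e2.1 h12
  have hA : IsElementaryAbelian 2 (A₁ ⊔ A₂) := ⟨hab, fun x hx => by
    obtain ⟨y, hy, z, hz, rfl⟩ := (mem_sup_of_norm_right (norm_of_cent h12)).1 hx
    rw [Commute.mul_pow (hcm y hy z hz), e1.2 y hy, e2.2 z hz, one_mul]⟩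
  have hs' : ∀ c ∈ A₁ ⊔ A₂, c ≠ 1 → ∀ K, PComp 2 𝒞[c] K →
      ⁅K, A₁⁆ ≤ Oppof 2 𝒞[c] ∨ ⁅K, A₂⁆ ≤ Oppof 2 𝒞[c] := fun c hc hc1 K hK => by
    have := hs c hc hc1 _ (pcomp_iff.1 hK).2
    rwa [map_subtype_subgroupOf hK.le] at this
  have hc1 : ∀ {c : G}, c ∈ A₁ ⊔ A₂ → A₁ ⊔ A₂ ≤ 𝒞[c] := fun {c} hc =>
    (le_cent_of_abelian hab le_rfl (zpowers_le.2 hc)).trans (cent_zpowers c).le
  have hle : ∀ a ∈ A₁ ⊔ A₂, th a A₁ ⊓ th a A₂ ≤ Oppof 2 𝒞[a] := fun a ha =>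
    inf_le_left.trans (th_le (le_sup_left.trans (hc1 ha)))
  have hn : ∀ a ∈ A₁ ⊔ A₂, A₁ ⊔ A₂ ≤ 𝒩(th a A₁ ⊓ th a A₂) := fun a ha =>
    norm_inf (norm_th (hc1 ha) (le_cent_of_abelian hab le_rfl le_sup_left))
      (norm_th (hc1 ha) (le_cent_of_abelian hab le_rfl le_sup_right))
  refine ⟨fun a ha _ => (hle a ha).trans (Oppof_le _),
    fun a ha _ => ndvd (coprime_of_le (hle a ha) (pPrimeCoreOf_coprime _)),
    fun a ha _ b hb x hx => conj_mem_of_norm (hn a ha) hb hx, fun a ha ha1 b hb hb1 => ?_⟩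
  have h1 := norm_inf (hn a ha) (norm_of_le (hc1 hb))
  have h2 : ∀ c ∈ A₁ ⊔ A₂, c ≠ 1 → th a A₁ ⊓ th a A₂ ⊓ 𝒞[b] ⊓ 𝒞[c] ≤ Oppof 2 𝒞[c] :=
    fun c hc hc' => (inf_le_inf_right _ inf_le_left).trans (le_core hA c1 c2 hs' ha ha1 hc hc')
  exact le_inf (le_th (isPGroup_of_isElementaryAbelian e1) c1 (le_sup_left.trans h1)
      (le_core hA c1 c2 hs' ha ha1 hb hb1) le_sup_left h2)
    (le_th (isPGroup_of_isElementaryAbelian e2) c2 (le_sup_right.trans h1)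
      (le_core hA c1 c2 hs' ha ha1 hb hb1) le_sup_right h2)

end Cfsg.Agent.S1330
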