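import Cfsg.Statements.S1371
import Cfsg.Agent.H78.TypeA

set_option autoImplicit false
open Cfsg

namespace Cfsg.Agent.S1371

/-- Let G be a minimal simple group of odd order, M a maximal subgroup with standard factorisation M = K U M_σ, K ≠ 1, K* = M_σ ∩ C_G(K), and Ẑ the set of elements of K K* outside K ∪ K*. Then the union of the M-conjugates of Ẑ equals A₀(M) with A(M) removed, and it is a TI-subset of G. -/
theorem result {G : Type*} [Group G] [Finite G] (hG : Cfsg.IsMinSimpleOddOrder G)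
    (M : Subgroup G) (hM : IsCoatom M) (K U : Subgroup G) (hKU : Cfsg.IsSigmaDecomposition M K U) (hK1 : K ≠ ⊥) :
    {a : G | ∃ m ∈ M, ∃ z ∈ ((↑(K ⊔ (Cfsg.sigmaCore M ⊓ Subgroup.centralizer (K : Set G))) : Set G) \ ((K : Set G) ∪ ↑(Cfsg.sigmaCore M ⊓ Subgroup.centralizer (K : Set G)))), a = m * z * m⁻¹} = Cfsg.sigmaA0 M K \ Cfsg.sigmaA M U ∧
      Cfsg.IsTISubset (Cfsg.sigmaA0 M K \ Cfsg.sigmaA M U) := by
  have hK := (BG.isSigmaDecomposition_iff hG hM).1 hKU
  have hP := (BG.typeP_iff_kappa hG hM hK.1).1 hK1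
  have h := H78.clSupp_zHat hG hP hK
  refine ⟨h, ?_⟩
  rw [← h]
  exact H78.isTISubset_of (fun m hm x hx => H78.clSupp_conj hm hx)
    (fun g x hx hx' => H78.ti_clSupp_zHat hG hP hK.1 hx hx')

end Cfsg.Agent.S1371
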