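import Cfsg.Statements.S1389
import Cfsg.Agent.BG.T16_P

set_option autoImplicit false
open Cfsg

namespace Cfsg.Agent.S1389

open _root_.Cfsg.Agent.H49

/-- Let G be a minimal simple group of odd order and M a maximal subgroup, and let M_s be M' if M is of Type III or IV and M_F otherwise. Then N_G(P) ≤ M for every nontrivial Sylow subgroup P of M_s, and both M_F and M_s have order coprime to their index in G. -/
theorem result {G : Type*} [Group G] [Finite G] (hG : Cfsg.IsMinSimpleOddOrder G)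
    (M : Subgroup G) (hM : IsCoatom M) :
    (∀ (p : ℕ), p.Prime → ∀ (P : Sylow p ↥(Cfsg.typeCore M)), (P : Subgroup ↥(Cfsg.typeCore M)) ≠ ⊥ →
        Subgroup.normalizer ((((P : Subgroup ↥(Cfsg.typeCore M)).map (Cfsg.typeCore M).subtype : Subgroup G)) : Set G) ≤ M) ∧
      (Nat.card (Cfsg.fittingHallOf M)).Coprime (Cfsg.fittingHallOf M).index ∧
      (Nat.card (Cfsg.typeCore M)).Coprime (Cfsg.typeCore M).index := by
  have hs := BG.Msigma_Hall_G hG hM
  have h1 : H49.IsHallOf (Cfsg.fittingHallOf M) ⊤ := H78.IsHallOf.trans'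
    (H78.IsHallOf.sub' (BG.Fcore_Hall M) (BG.Fcore_sub_Msigma hG hM) (BG.sigmaCore_le M))
    hs.isHallOf
  rw [BG.typeCore_eq hG hM]
  refine ⟨fun p hp P hP => ?_, by simpa using h1.2, by simpa using hs.coprime⟩
  have h2 := H49.sylowOf_map hp P
  have h3 : p ∈ Cfsg.sigma M := h2.pi.mem_of_ne_bot
    (fun h => hP ((Subgroup.map_eq_bot_iff_of_injective _ (Subgroup.subtype_injective _)).1 h))
    ((BG.sigmaCore_isPi M).of_le h2.le)
  exact BG.norm_sigma_Sylow h3 (h2.trans_sylow (BG.Msigma_Hall hG hM) h3)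

end Cfsg.Agent.S1389
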