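import Cfsg.Statements.S1480
import Cfsg.Agent.H51.Transit

set_option autoImplicit false
open Cfsg

namespace Cfsg.Agent.S1480

/-- Let G be a finite group and p a prime such that the normalizer of every nontrivial p-subgroup of G is p-constrained; if p = 2 assume also that the Sylow 2-subgroups of G have nilpotency class at most 2. Let E be an abelian p-subgroup containing an elementary abelian subgroup of order p ^ 3 and containing every element of p-power order of C_G(E). Then for every prime q ≠ p, any two maximal E-invariant q-subgroups of G are conjugate by an element of O_{p'}(C_G(E)). -/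
theorem result {G : Type*} [Group G] [Finite G] (p : ℕ) [Fact p.Prime]
    (hloc : ∀ T : Subgroup G, IsPGroup p T → T ≠ ⊥ → Cfsg.IsPConstrained p ↥(Subgroup.normalizer (T : Set G)))
    (h2 : p = 2 → ∀ S : Sylow p G, Group.IsNilpotent (S : Subgroup G) ∧ Group.nilpotencyClass (S : Subgroup G) ≤ 2)
    (E : Subgroup G) (hEp : IsPGroup p E) (hEc : IsMulCommutative E) (hE3 : ¬ Cfsg.PRankLE p 2 E)
    (hEfull : ∀ x ∈ Subgroup.centralizer (E : Set G), IsPGroup p (Subgroup.zpowers x) → x ∈ E)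
    (q : ℕ) [Fact q.Prime] (hqp : q ≠ p) :
    ∀ Q₁ ∈ Cfsg.maxInvSubgroups ⊤ E {q}, ∀ Q₂ ∈ Cfsg.maxInvSubgroups ⊤ E {q},
        ∃ k ∈ Cfsg.piCoreOf (Cfsg.primesNotDvd p) (Subgroup.centralizer (E : Set G)), Q₂ = Q₁.map (MulAut.conj k).toMonoidHom := by
  intro Q₁ h₁ Q₂ h₂
  have hp : p.Prime := Fact.out
  unfold Cfsg.PRankLE at hE3
  push Not at hE3
  obtain ⟨A, hAc, hAp, hA3⟩ := hE3
  have hA : Cfsg.IsElementaryAbelian p (A.map E.subtype) := by
    refine ⟨inferInstance, ?_⟩
    rintro _ ⟨a, ha, rfl⟩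
    rw [← map_pow, hAp a ha, map_one]
  have h := H51.transit hloc (fun h => H51.clTwo_of_sylow (h2 h)) hEp (H49.abelian_iff.1 hEc)
    (fun T hT hTp x hx => hEfull x (hT hx) (hTp.to_le (Subgroup.zpowers_le.2 hx)))
    (Subgroup.map_subtype_le A) hA (by rwa [Subgroup.card_map_of_injective E.subtype_injective])
    hqp ⊥ Q₁ h₁ Q₂ h₂ bot_le bot_le
  rwa [H48.pcore_congr (π := {p}ᶜ) (ρ := Cfsg.primesNotDvd p) fun r hr =>
    ⟨fun h1 => ⟨hr, fun h3 => h1 ((Nat.prime_dvd_prime_iff_eq hr hp).1 h3)⟩,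
      fun h1 h3 => h1.2 (by rw [Set.mem_singleton_iff.1 h3])⟩] at h

end Cfsg.Agent.S1480
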