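import Cfsg.Statements.S1534
import Cfsg.Agent.H53.TICoh

set_option autoImplicit false
open Cfsg

namespace Cfsg.Agent.S1534

/-- Let G be a finite group and K a nontrivial nilpotent subgroup whose underlying set is a TI-subset of G, properly contained in its set normaliser N, with C_G(k) ≤ K for every non-identity k ∈ K; let e be the index of K in N and S the set of irreducible characters χ of N with χ k ≠ χ 1 for some k ∈ K. Then one of: S has exactly one member, Nat.card K = e + 1 and K is an elementary abelian p-group for some prime p; or K is a Sylow 2-subgroup of G (Nat.card K is the largest power of 2 dividing Nat.card G) and [K : [K,K]] < 4e²; or (S, N minus 1, induction to G) is coherent. -/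
theorem result {G : Type*} [Group G] [Fintype G] (K : Subgroup G) (hK1 : K ≠ ⊥) (hnil : Group.IsNilpotent K) (hTI : Cfsg.IsTISubset (K : Set G)) (hlt : K < Subgroup.normalizer (K : Set G)) (hC : ∀ k ∈ K, k ≠ 1 → Subgroup.centralizer ({k} : Set G) ≤ K) [Fintype ↥(Subgroup.normalizer (K : Set G))] : (Nat.card {χ : ↥(Subgroup.normalizer (K : Set G)) → ℂ // Cfsg.IsIrrCharacter ↥(Subgroup.normalizer (K : Set G)) χ ∧ ∃ k : ↥(Subgroup.normalizer (K : Set G)), (k : G) ∈ K ∧ χ k ≠ χ 1} = 1 ∧ Nat.card K = (K.subgroupOf (Subgroup.normalizer (K : Set G))).index + 1 ∧ ∃ p : ℕ, p.Prime ∧ Cfsg.IsElementaryAbelian p K) ∨ (Nat.card K = 2 ^ (Nat.card G).factorization 2 ∧ (⁅K, K⁆.subgroupOf K).index < 4 * (K.subgroupOf (Subgroup.normalizer (K : Set G))).index ^ 2) ∨ Cfsg.IsCoherent {χ : ↥(Subgroup.normalizer (K : Set G)) → ℂ | Cfsg.IsIrrCharacter ↥(Subgroup.normalizer (K : Set G)) χ ∧ ∃ k : ↥(Subgroup.normalizer (K : Set G)), (k : G) ∈ K ∧ χ k ≠ χ 1} {1}ᶜ (fun α => Cfsg.indFun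 (Subgroup.normalizer (K : Set G)) α) := by
  have h := H53.frobKer_of_cent hK1 hlt hC
  have h' := H53.frobKer_subgroupOf h
  have e : {χ : ↥(Subgroup.normalizer (K : Set G)) → ℂ |
      Cfsg.IsIrrCharacter ↥(Subgroup.normalizer (K : Set G)) χ ∧
        ∃ k : ↥(Subgroup.normalizer (K : Set G)), (k : G) ∈ K ∧ χ k ≠ χ 1} = _ :=
    H53.frob_set_eq h'
  rcases H53.feit_sibley h hnil hTI with he | ⟨⟨m, hm⟩, -, hb⟩ | hc
  · have hc : Nat.card (K.subgroupOf (Subgroup.normalizer (K : Set G))) = Nat.card K :=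
      H49.card_subgroupOf_of_le hlt.le
    refine Or.inl ⟨?_, he, ?_⟩
    · change Nat.card {χ : ↥(Subgroup.normalizer (K : Set G)) → ℂ |
        Cfsg.IsIrrCharacter ↥(Subgroup.normalizer (K : Set G)) χ ∧
          ∃ k : ↥(Subgroup.normalizer (K : Set G)), (k : G) ∈ K ∧ χ k ≠ χ 1} = 1
      rw [e, Finset.coe_sort_coe, Nat.card_eq_finsetCard, H53.frob_card_eq_one h' (hc.trans he)]
    · obtain ⟨p, hp, h1, h2⟩ := H53.frob_elem_of_card h' (H49.solvable_of_nilpotent
        (Group.nilpotent_of_mulEquiv (Subgroup.subgroupOfEquivOfLe hlt.le).symm)) (hc.trans he)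
      exact ⟨p, hp, (H53.abelian_subgroupOf_iff hlt.le).1 h1,
        fun a ha => congrArg Subtype.val (h2 ⟨a, hlt.le ha⟩ ha)⟩
  · exact Or.inr (Or.inl ⟨H53.card_eq_sylow_of_cent Nat.prime_two hK1 hm hC, hb⟩)
  · exact Or.inr (Or.inr (e ▸ hc))

end Cfsg.Agent.S1534
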