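import Cfsg.Statements.S1612
import Cfsg.Agent.H95.Simple

set_option autoImplicit false
open Cfsg

namespace Cfsg.Agent.S1612

/-- In a 3-transposition group (no solvable normal subgroup, perfect derived group), the normaliser of a commuting set of transpositions of maximum size contains a Sylow 2-subgroup and is doubly transitive on the set. -/
theorem result {G : Type*} [Group G] [Finite G] (hsol : ∀ N : Subgroup G, N.Normal → Group.IsSolvable ↥N → N = ⊥) (hperf : ⁅commutator G, commutator G⁆ = commutator G) {D : Set G} (hD : Cfsg.IsThreeTranspositionClass D) {E : Set G} (hE : E ⊆ D) (hc : ∀ a ∈ E, ∀ b ∈ E, Commute a b) (hmax : ∀ E' : Set G, E' ⊆ D → (∀ a ∈ E', ∀ b ∈ E', Commute a b) → E'.ncard ≤ E.ncard) : (∃ P : Sylow 2 G, (P : Subgroup G) ≤ Subgroup.normalizer E) ∧ ∀ a ∈ E, ∀ b ∈ E, ∀ c ∈ E, ∀ d ∈ E, a ≠ b → c ≠ d → ∃ g ∈ Subgroup.normalizer E, g * a * g⁻¹ = c ∧ g * b * g⁻¹ = d := by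
  have hcl := (H95.group_of_class hD).2.1
  have hB : H95.IsBase D E := by
    refine ⟨hE, hc, fun x hx h => ?_⟩
    by_contra hxE
    have := hmax (insert x E) (Set.insert_subset hx hE) (by
      rintro a (rfl | ha) b (rfl | hb)
      · exact Commute.refl _
      · exact h b hb
      · exact (h a ha).symm
      · exact hc a ha b hb)
    rw [Set.ncard_insert_of_notMem hxE] at this
    omega
  constructor
  · obtain ⟨P, hP⟩ := (H95.isPGroup_closure_of_commute hD.1 hE hc).exists_le_sylow
    refine ⟨P, fun g hg x => ?_⟩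
    rw [hB.eq_inter hD.1 P.isPGroup' (Subgroup.subset_closure.trans hP)]
    constructor
    · intro hx
      exact ⟨hcl g x hx.1, H95.cj_mem hg hx.2⟩
    · intro hx
      have h1 := hcl g⁻¹ _ hx.1
      have h2 := H95.cj_mem (inv_mem hg) hx.2
      rw [← H95.cj_def, ← H95.cj_def, H95.cj_inv_cj] at h1
      rw [← H95.cj_def, H95.cj_inv_cj] at h2
      exact ⟨h1, h2⟩
  · intro a ha b hb c hc' d hd hab hcd
    have h : ∀ p : ℕ, p.Prime → Cfsg.pCore p G ≤ Subgroup.center G := by
      intro p hp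
      have : Fact p.Prime := ⟨hp⟩
      rw [hsol (Cfsg.pCore p G) inferInstance (H95.isSolvable_pCore p)]
      exact bot_le
    have hI := (H95.irred_iff hD ⟨a, hE ha, b, hE hb, hab⟩).2 ⟨h 2 Nat.prime_two, h 3 Nat.prime_three⟩
    obtain ⟨g, hg⟩ := H95.exists_conj_of_class hD (hE ha) (hE hc')
    have h1 := H95.cj_mem_Dd hcl g (d := a) ⟨hE hb, hab.symm, hc a ha b hb⟩
    rw [← H95.cj_def] at hg
    rw [hg] at h1
    obtain ⟨g', hg', h2⟩ := hI.exists_conj_Dd hD (hE hc') h1 ⟨hE hd, hcd.symm, hc c hc' d hd⟩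
    have h3 : H95.cj (g' * g) a = c := by
      rw [H95.cj_mul, hg, H95.cj_of_commute (H95.commute_of_mem_closure_Dd hg')]
    rw [← H95.cj_mul] at h2
    have hB' := hB.image_cj hcl (g' * g)
    obtain ⟨k, hk, h4⟩ := hB'.exists_conj hD.1 hcl hB (Subgroup.centralizer {c, d})
      (fun x hx => by
        rintro y (rfl | rfl)
        · exact (hB'.2.1 _ ⟨a, ha, h3⟩ x hx).eq
        · exact (hB'.2.1 _ ⟨b, hb, h2⟩ x hx).eq)
      (fun x hx => by
        rintro y (rfl | rfl)
        · exact (hc _ hc' x hx).eq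
        · exact (hc _ hd x hx).eq)
    refine ⟨k * (g' * g), H95.mem_normalizer_of_image_cj ?_, ?_, ?_⟩
    · rw [Set.image_image] at h4
      simpa only [H95.cj_mul k] using h4
    · rw [← H95.cj_def, H95.cj_mul, h3]
      exact H95.cj_of_commute (hk c (by simp)).symm
    · rw [← H95.cj_def, H95.cj_mul, h2]
      exact H95.cj_of_commute (hk d (by simp)).symm

end Cfsg.Agent.S1612
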