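import Cfsg.Statements.S1614
import Cfsg.Agent.H95.Pack2
import Cfsg.Agent.S0247

set_option autoImplicit false
open Cfsg

namespace Cfsg.Agent.S1614

/-- If the commuting transpositions of one transposition generate a solvable group, a Fischer 3-transposition group is S5, S6, PSU(4, 2) or PSU(5, 2). -/
theorem result {G : Type*} [Group G] [Finite G] (hsol : ∀ N : Subgroup G, N.Normal → Group.IsSolvable ↥N → N = ⊥) (hperf : ⁅commutator G, commutator G⁆ = commutator G) {D : Set G} (hD : Cfsg.IsThreeTranspositionClass D) (x : G) (hx : x ∈ D) (hs : Group.IsSolvable ↥(Subgroup.closure {y : G | y ∈ D ∧ y ≠ x ∧ Commute x y})) : Nonempty (G ≃* Equiv.Perm (Fin 5)) ∨ Nonempty (G ≃* Equiv.Perm (Fin 6)) ∨ ∃ (F : Type) (_ : Field F) (_ : Fintype F), Fintype.card F = 4 ∧ (Nonempty (G ≃* Cfsg.PSU 4 F 2) ∨ Nonempty (G ≃* Cfsg.PSU 5 F 2)) := by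
  obtain ⟨hD2, hI0, hZ⟩ := H95.irred_of_hsol hsol hD
  have hI := H95.irr_of_class hD hD2 hI0
  have hc := H95.cconn_of_perfect hD hperf
  rcases hI.local_cases hx with h | h | ⟨y, y', h⟩
  · exact (h.not_solvable hs).elim
  · rcases hI.polar_cases hc h with ⟨n, hF⟩ | ⟨n, hF⟩
    · obtain ⟨m, hm, hZ', β, hβ⟩ := hF.chart_sp hI
      obtain ⟨e, -⟩ := hβ.top' hI.toSp hD.2.2 hZ hZ'
      obtain ⟨f, v, E, hf⟩ := hF
      have h4 := E.four_le hI rfl
      have h6 : ¬ 6 ≤ _ := fun h6 => E.not_solvable hf hI rfl (H95.HF.hyp_of_alt E.alt) h6 hx hs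
      simp only [Module.finrank_fin_fun] at h4 h6
      obtain rfl : m = 2 := by omega
      obtain ⟨e'⟩ := S0247.result (F := ZMod 2) rfl
      exact .inr (.inl ⟨e.trans e'⟩)
    · obtain ⟨β, hβ⟩ := hF.chart_u hI
      obtain ⟨e, -⟩ := hβ.top hI.toSp hD.2.2 hZ
      obtain ⟨f, v, E, hf⟩ := hF
      have h4 := E.four_le hI rfl
      have h6 : ¬ 6 ≤ _ := fun h6 => E.not_solvable hf hI rfl f.hyp_f4 h6 hx hs
      simp only [Module.finrank_fin_fun] at h4 h6
      refine .inr (.inr ⟨H29.F4, inferInstance, inferInstance, rfl, ?_⟩)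
      obtain rfl | rfl : n = 4 ∨ n = 5 := by omega
      exacts [.inl ⟨e⟩, .inr ⟨e⟩]
  · obtain ⟨φ, -⟩ := hI0.perm5_of_WW hD hc h
    exact .inl ⟨φ.symm⟩

end Cfsg.Agent.S1614
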