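import Cfsg.Statements.S1616
import Cfsg.Agent.H95.Pack

set_option autoImplicit false
open Cfsg

namespace Cfsg.Agent.S1616

/-- If O₂(⟨D_x⟩) is not central in ⟨D_x⟩ for some transposition x, the 3-transposition group is some Sp(2n, 2) or PSU(n, 2). -/
theorem result {G : Type*} [Group G] [Finite G] (hsol : ∀ N : Subgroup G, N.Normal → Group.IsSolvable ↥N → N = ⊥) (hperf : ⁅commutator G, commutator G⁆ = commutator G) {D : Set G} (hD : Cfsg.IsThreeTranspositionClass D) (x : G) (hx : x ∈ D) (h : ¬ Cfsg.pCore 2 ↥(Subgroup.closure {y : G | y ∈ D ∧ y ≠ x ∧ Commute x y}) ≤ Subgroup.center ↥(Subgroup.closure {y : G | y ∈ D ∧ y ≠ x ∧ Commute x y})) : (∃ n : ℕ, Nonempty (G ≃* Matrix.symplecticGroup (Fin n) (ZMod 2))) ∨ ∃ (F : Type) (_ : Field F) (_ : Fintype F) (n : ℕ), Fintype.card F = 4 ∧ Nonempty (G ≃* Cfsg.PSU n F 2) := by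
  obtain ⟨hD2, hI, hZ⟩ := H95.irred_of_hsol hsol hD
  have hI := H95.irr_of_class hD hD2 hI
  rcases hI.polar_cases (H95.cconn_of_perfect hD hperf) (hI.pol_of_pCore hx h) with
    ⟨n, hF⟩ | ⟨n, hF⟩
  · obtain ⟨m, -, hZ', β, hβ⟩ := hF.chart_sp hI
    obtain ⟨e, -⟩ := hβ.top' hI.toSp hD.2.2 hZ hZ'
    exact .inl ⟨m, ⟨e⟩⟩
  · obtain ⟨β, hβ⟩ := hF.chart_u hI
    obtain ⟨e, -⟩ := hβ.top hI.toSp hD.2.2 hZ
    exact .inr ⟨H29.F4, inferInstance, inferInstance, n, rfl, ⟨e⟩⟩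

end Cfsg.Agent.S1616
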