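import Cfsg.Statements.S1774
import Cfsg.Agent.H59.Symp
import Cfsg.Agent.S5595
import Cfsg.Agent.H18.Four
-- import your own Cfsg.Agent.* helpers here

set_option autoImplicit false
open Cfsg

namespace Cfsg.Agent.S1774

open Subgroup H69 H59

section
variable {G : Type*} [Group G]

/-- The case in which no element of `P` moves `z` to `t z` and `Z(Q)` has order four. -/
theorem caseB {Q P : Subgroup G} {z t i : G} (hQ : SX Q z) (hP : SX P t) (ht : t ∈ Q) (htz : t ≠ z)
    (hB : ∀ p ∈ P, p * z * p⁻¹ ≠ t * z) (hi : i ∈ Q) (hit : i * t = t * i) (hii : i * i = z) :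
    z ∈ P := by
  by_contra hzP
  have hzt : z * t = t * z := (hQ.cen t ht).symm
  have hzi : z⁻¹ = z := inv_eq_of_mul_eq_one_right hQ.sq
  obtain ⟨q, hq, hqt⟩ := hQ.exists_conj ht hP.ne htz hP.sq
  have hcent : ∀ d ∈ Q, (∀ r ∈ Q, r * t = t * r → r * d = d * r) → q * d * q⁻¹ = d →
      ∀ a ∈ Q, d * a = a * d := by
    intro d _ h1 h2 a ha
    rcases hQ.comm a ha t ht with e | e
    · exact (h1 a ha (mul_inv_eq_iff_eq_mul.1 e)).symm
    · have h3 := h1 (q⁻¹ * a) (Q.mul_mem (Q.inv_mem hq) ha) (by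
        calc q⁻¹ * a * t = q⁻¹ * (a * t * a⁻¹) * a := by group
          _ = t * (q⁻¹ * a) := by rw [e, ← hqt]; group)
      calc d * a = (q * d * q⁻¹) * a := by rw [h2]
        _ = q * (d * (q⁻¹ * a)) := by group
        _ = a * d := by rw [← h3]; group
  have hD : ∀ d ∈ P, d ∈ Q → d = 1 ∨ d = t := by
    intro d hdP hdQ
    have h1 : ∀ r ∈ Q, r * t = t * r → r * d = d * r := fun r hr hrt => by
      rcases hQ.comm r hr d hdQ with e | e
      · exact mul_inv_eq_iff_eq_mul.mp e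
      · exfalso
        have := hP.norm r hrt d hdP
        rw [e] at this
        exact hzP (by simpa using P.mul_mem this (P.inv_mem hdP))
    have h2 : d * d = 1 := (hQ.sqr d hdQ).resolve_right fun e => hzP (e ▸ P.mul_mem hdP hdP)
    rcases hQ.comm q hq d hdQ with e | e
    · exact Or.inl ((hQ.center d hdQ (hcent d hdQ h1 e) h2).resolve_right fun e => hzP (e ▸ hdP))
    · have h3 := hQ.center (d * t) (Q.mul_mem hdQ ht) (hcent _ (Q.mul_mem hdQ ht) (fun r hr hrt => by
        rw [← mul_assoc, h1 r hr hrt, mul_assoc, hrt, mul_assoc]) (by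
          calc q * (d * t) * q⁻¹ = (q * d * q⁻¹) * (q * t * q⁻¹) := by group
            _ = z * (d * z) * t := by rw [e, hqt]; group
            _ = d * t := by rw [hQ.cen d hdQ, ← mul_assoc, hQ.sq, one_mul])) (by
        calc d * t * (d * t) = d * (t * d) * t := by group
          _ = d * (d * t) * t := by rw [hP.cen d hdP]
          _ = (d * d) * (t * t) := by group
          _ = 1 := by rw [h2, hP.sq, one_mul])
      rcases h3 with e | e
      · right; rw [eq_inv_of_mul_eq_one_left e, inv_eq_of_mul_eq_one_right hP.sq]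
      · exact absurd (e ▸ P.mul_mem hdP hP.mem) hzP
  have hRS : ∀ r ∈ Q, r * t = t * r → ∀ s ∈ P, s * z = z * s →
      r * s * r⁻¹ = s ∨ r * s * r⁻¹ = t * s := by
    intro r hr hrt s hs hsz
    have h1 : r * s * r⁻¹ * s⁻¹ ∈ P := P.mul_mem (hP.norm r hrt s hs) (P.inv_mem hs)
    have h2 : r * s * r⁻¹ * s⁻¹ ∈ Q := by
      have := Q.mul_mem hr (hQ.norm s hsz _ (Q.inv_mem hr))
      simpa [mul_assoc] using this
    rcases hD _ h1 h2 with e | e
    · left; exact mul_inv_eq_one.mp e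
    · right; exact mul_inv_eq_iff_eq_mul.mp e
  have hWS : ∀ p ∈ P, z * p * z⁻¹ = p ∨ z * p * z⁻¹ = t * p → p * z = z * p := by
    rintro p hp (e | e)
    · exact (mul_inv_eq_iff_eq_mul.mp e).symm
    · exfalso
      apply hB p⁻¹ (P.inv_mem hp)
      calc p⁻¹ * z * p⁻¹⁻¹ = p⁻¹ * (z * p * z⁻¹) * z := by group
        _ = p⁻¹ * (p * t) * z := by rw [e, hP.cen p hp]
        _ = t * z := by group
  have hinv : ∀ r, r * t = t * r → ∀ a ∈ P, ∀ b ∈ P,
      (r * a * r⁻¹) * (r * b * r⁻¹) * (r * a * r⁻¹)⁻¹ * (r * b * r⁻¹)⁻¹ = a * b * a⁻¹ * b⁻¹ := by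
    intro r hr a ha b hb
    have e0 : (r * a * r⁻¹) * (r * b * r⁻¹) * (r * a * r⁻¹)⁻¹ * (r * b * r⁻¹)⁻¹ =
      r * (a * b * a⁻¹ * b⁻¹) * r⁻¹ := by group
    rw [e0]
    rcases hP.comm a ha b hb with e | e
    · rw [e]; group
    · rw [e, mul_inv_cancel_right, hr, mul_inv_cancel_right]
  have hc1 : ∀ p ∈ P, (p⁻¹ * (z * p * z⁻¹)) * z = z * (p⁻¹ * (z * p * z⁻¹)) := by
    intro p hp
    have hcP : p⁻¹ * (z * p * z⁻¹) ∈ P := P.mul_mem (P.inv_mem hp) (hP.norm z hzt p hp)
    apply hWS _ hcP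
    have e : z * (p⁻¹ * (z * p * z⁻¹)) * z⁻¹ = (p⁻¹ * (z * p * z⁻¹))⁻¹ := by
      calc z * (p⁻¹ * (z * p * z⁻¹)) * z⁻¹ = z * p⁻¹ * z * p * (z * z)⁻¹ := by group
        _ = z * p⁻¹ * z⁻¹ * p := by rw [hQ.sq, hzi]; group
        _ = _ := by group
    rw [e]
    rcases hP.sqr _ hcP with h | h
    · left; exact inv_eq_of_mul_eq_one_right h
    · right
      apply inv_eq_of_mul_eq_one_right
      rw [← hP.cen _ hcP, ← mul_assoc, h, hP.sq]
  have hperp : ∀ v ∈ P, (∀ s ∈ P, s * z = z * s → v * s = s * v) → v * z = z * v := by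
    intro v hv h
    have hv' := hP.norm z hzt v hv
    apply hWS v hv
    have hcen : ∀ p ∈ P, (v⁻¹ * (z * v * z⁻¹)) * p = p * (v⁻¹ * (z * v * z⁻¹)) := fun p hp => by
      have hp' := hP.norm z⁻¹ (by rw [hzi, hzt]) p hp
      set p' := z⁻¹ * p * z⁻¹⁻¹ with hp'def
      have hpp : p = z * p' * z⁻¹ := by rw [hp'def]; group
      have e1 := hinv z hzt v hv p' hp'
      have e2 := h _ (P.mul_mem (P.inv_mem hp') (hP.norm z hzt p' hp')) (hc1 p' hp')
      rw [← hpp] at e1 e2
      have e3 : v * p' * v⁻¹ * p'⁻¹ = v * p * v⁻¹ * p⁻¹ := by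
        rcases hP.comm v hv p' hp' with e | e
        · have : v * p * v⁻¹ = p := by
            calc v * p * v⁻¹ = (v * p' * v⁻¹) * (v * (p'⁻¹ * p) * v⁻¹) := by group
              _ = p := by rw [e, e2]; group
          rw [e, this]; group
        · have : v * p * v⁻¹ = t * p := by
            calc v * p * v⁻¹ = (v * p' * v⁻¹) * (v * (p'⁻¹ * p) * v⁻¹) := by group
              _ = t * p := by rw [e, e2]; group
          rw [e, this]; group
      rw [e3] at e1
      have e5 : (z * v * z⁻¹) * p * (z * v * z⁻¹)⁻¹ = v * p * v⁻¹ := mul_right_cancel e1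
      calc v⁻¹ * (z * v * z⁻¹) * p
          = v⁻¹ * ((z * v * z⁻¹) * p * (z * v * z⁻¹)⁻¹) * (z * v * z⁻¹) := by group
        _ = p * (v⁻¹ * (z * v * z⁻¹)) := by rw [e5]; group
    have := hP.center _ (P.mul_mem (P.inv_mem hv) hv') hcen (by
      have e1 : z * (v * v) * z⁻¹ = v * v := by
        rcases hP.sqr v hv with e | e <;> rw [e]
        · group
        · rw [hzt]; group
      have e2 := hcen v hv
      set c := v⁻¹ * (z * v * z⁻¹) with hc
      have e0 : z * v * z⁻¹ = v * c := by rw [hc]; group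
      have e3 : v * v * (c * c) = v * v := by
        calc v * v * (c * c) = v * (v * c) * c := by group
          _ = v * (c * v) * c := by rw [e2]
          _ = (v * c) * (v * c) := by group
          _ = v * v := by rw [← e0, conj_mul, e1]
      exact mul_eq_left.1 e3)
    rcases this with e | e
    · left; exact (inv_mul_eq_one.mp e).symm
    · right; rw [inv_mul_eq_iff_eq_mul.mp e, hP.cen v hv]
  have hcr : ∀ p ∈ P, (p⁻¹ * (i * p * i⁻¹)) * z = z * (p⁻¹ * (i * p * i⁻¹)) := by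
    intro p hp
    apply hperp _ (P.mul_mem (P.inv_mem hp) (hP.norm i hit p hp))
    intro s hs hsz
    have e1 := hinv i hit p hp s hs
    have hp' := hP.norm i hit p hp
    have e2 : (i * p * i⁻¹) * s * (i * p * i⁻¹)⁻¹ = p * s * p⁻¹ := by
      rcases hRS i hi hit s hs hsz with e | e
      · rw [e] at e1; exact mul_right_cancel e1
      · rw [e] at e1
        apply mul_right_cancel (b := s⁻¹)
        rw [← e1, ← hP.cen s hs]
        calc i * p * i⁻¹ * s * (i * p * i⁻¹)⁻¹ * s⁻¹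
            = i * p * i⁻¹ * s * ((i * p * i⁻¹)⁻¹ * t) * t⁻¹ * s⁻¹ := by group
          _ = _ := by rw [hP.cen _ (P.inv_mem hp')]; group
    calc p⁻¹ * (i * p * i⁻¹) * s
        = p⁻¹ * ((i * p * i⁻¹) * s * (i * p * i⁻¹)⁻¹) * (i * p * i⁻¹) := by group
      _ = s * (p⁻¹ * (i * p * i⁻¹)) := by rw [e2]; group
  refine hzP (hP.inner z hzt fun p hp => ?_)
  have k := hcr p hp
  set c := p⁻¹ * (i * p * i⁻¹) with hc
  have hcP : c ∈ P := P.mul_mem (P.inv_mem hp) (hP.norm i hit p hp)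
  have f1 : i * p * i⁻¹ = p * c := by rw [hc]; group
  have f2 : z * p * z⁻¹ = p * c * (i * c * i⁻¹) := by
    rw [← hii]
    calc i * i * p * (i * i)⁻¹ = i * (i * p * i⁻¹) * i⁻¹ := by group
      _ = (i * p * i⁻¹) * (i * c * i⁻¹) := by conv_lhs => rw [f1]
                                              group
      _ = _ := by rw [f1]
  have f3 : c * (t * c) = t * (c * c) := by rw [← mul_assoc, hP.cen c hcP, mul_assoc]
  rw [f2, mul_assoc p]
  rcases hRS i hi hit c hcP k with e | e <;> rcases hP.sqr c hcP with e' | e' <;>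
    simp [e, e', f3, hP.sq, hP.cen p hp]

end


/-- Let G be a finite group and let z be an involution of G such that Q, the generalized Fitting subgroup of the centralizer C of z, is a 2-group of symplectic type (every characteristic abelian subgroup of Q is cyclic); suppose every element of Q has order dividing 4. Let g ∈ G with z' = g z g⁻¹ ≠ z and z' ∈ Q. Then z lies in the conjugate g Q g⁻¹, and the subgroup X generated by Q and g Q g⁻¹ induces every automorphism of the four-group generated by z and z': for any two distinct non-identity elements u, v of that four-group there is x ∈ X with x z x⁻¹ = u and x z' x⁻¹ = v. -/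
theorem result {G : Type*} [Group G] [Finite G] (z : G) (hz : orderOf z = 2) (hQ : Cfsg.IsOfSymplecticType ↥(Cfsg.generalizedFittingSubgroup ↥(Subgroup.centralizer ({z} : Set G))))
    (h4 : ∀ q ∈ (Cfsg.generalizedFittingSubgroup ↥(Subgroup.centralizer ({z} : Set G))).map (Subgroup.centralizer ({z} : Set G)).subtype, q ^ 4 = 1) (g : G) (hne : g * z * g⁻¹ ≠ z) (hin : g * z * g⁻¹ ∈ (Cfsg.generalizedFittingSubgroup ↥(Subgroup.centralizer ({z} : Set G))).map (Subgroup.centralizer ({z} : Set G)).subtype) :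
    z ∈ ((Cfsg.generalizedFittingSubgroup ↥(Subgroup.centralizer ({z} : Set G))).map (Subgroup.centralizer ({z} : Set G)).subtype).map (MulAut.conj g).toMonoidHom ∧
      ∀ u ∈ Subgroup.closure ({z, g * z * g⁻¹} : Set G), ∀ v ∈ Subgroup.closure ({z, g * z * g⁻¹} : Set G),
        u ≠ 1 → v ≠ 1 → u ≠ v →
          ∃ x ∈ (Cfsg.generalizedFittingSubgroup ↥(Subgroup.centralizer ({z} : Set G))).map (Subgroup.centralizer ({z} : Set G)).subtype ⊔ ((Cfsg.generalizedFittingSubgroup ↥(Subgroup.centralizer ({z} : Set G))).map (Subgroup.centralizer ({z} : Set G)).subtype).map (MulAut.conj g).toMonoidHom, x * z * x⁻¹ = u ∧ x * (g * z * g⁻¹) * x⁻¹ = v := by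
  haveI : Fact (Nat.Prime 2) := ⟨Nat.prime_two⟩
  have hS : SX (QZ z) z := sx_QZ hz hQ h4
  have hP : SX (cj g (QZ z)) (g * z * g⁻¹) := hS.cj g
  change z ∈ cj g (QZ z) ∧ ∀ u ∈ _, ∀ v ∈ _, u ≠ 1 → v ≠ 1 → u ≠ v → ∃ x ∈ QZ z ⊔ cj g (QZ z), _
  have hin' : g * z * g⁻¹ ∈ QZ z := hin
  set t := g * z * g⁻¹ with ht
  obtain ⟨q, hq, hqt⟩ := hS.exists_conj hin' hP.ne hne hP.sq
  have hzt : z * t = t * z := (hS.cen t hin').symm
  have hqz : q * z * q⁻¹ = z := by rw [hS.cen q hq]; group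
  have hswap : ∀ p ∈ cj g (QZ z), p * z * p⁻¹ = t * z → (p * q * p) * z * (p * q * p)⁻¹ = t ∧
      (p * q * p) * t * (p * q * p)⁻¹ = z := by
    intro p hp hpz
    have hpt : p * t * p⁻¹ = t := by rw [hP.cen p hp]; group
    constructor
    · calc (p * q * p) * z * (p * q * p)⁻¹ = p * (q * (p * z * p⁻¹) * q⁻¹) * p⁻¹ := by group
        _ = p * ((q * t * q⁻¹) * (q * z * q⁻¹)) * p⁻¹ := by rw [hpz]; group
        _ = t := by rw [hqt, hqz, hzt, mul_assoc t, hS.sq, mul_one, hpt]
    · calc (p * q * p) * t * (p * q * p)⁻¹ = p * (q * (p * t * p⁻¹) * q⁻¹) * p⁻¹ := by group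
        _ = (p * z * p⁻¹) * (p * t * p⁻¹) := by
          conv_lhs => rw [hpt, hqt]
          group
        _ = z := by rw [hpz, hpt, ← hzt, mul_assoc, hP.sq, mul_one]
  have hzP : z ∈ cj g (QZ z) := by
    by_cases hA : ∃ p ∈ cj g (QZ z), p * z * p⁻¹ = t * z
    · obtain ⟨p, hp, hpz⟩ := hA
      obtain ⟨h1, h2⟩ := hswap p hp hpz
      have h3 := hS.norm (g⁻¹ * (p * q * p)) (by
        calc g⁻¹ * (p * q * p) * z = g⁻¹ * ((p * q * p) * z * (p * q * p)⁻¹) * (p * q * p) := by group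
          _ = z * (g⁻¹ * (p * q * p)) := by rw [h1, ht]; group) t hin'
      rw [show g⁻¹ * (p * q * p) * t * (g⁻¹ * (p * q * p))⁻¹ =
        g⁻¹ * ((p * q * p) * t * (p * q * p)⁻¹) * g by group, h2] at h3
      exact mem_cj.2 h3
    push Not at hA
    by_cases hi : ∃ i ∈ QZ z, i * t = t * i ∧ i * i = z
    · obtain ⟨i, hi, hit, hii⟩ := hi
      exact caseB hS hP hin' hne hA hi hit hii
    push Not at hi
    have hEX : H15.EX (QZ z) z := ⟨hS.mem, hS.ne, hS.sq, hS.cen, hS.comm, hS.sqr, fun a ha h =>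
      hS.center a ha h ((hS.sqr a ha).resolve_right (hi a ha (h t hin')))⟩
    have hE := hEX.isExtraspecial (by
      have := card_le_of_le (H18.four_le (ha := hS.sq) (hb := hP.sq) (hab := hzt) hS.mem hin')
      rw [H18.card_four _ _ _ hS.ne hP.ne hne.symm] at this
      omega)
    have e : QZ z = (Cfsg.pCore 2 ↥(centralizer ({z} : Set G))).map (centralizer ({z} : Set G)).subtype := by
      rw [← gfitting_eq_pCore hQ.1]
    have := S5595.result (fun x : G =>
      (Cfsg.pCore 2 ↥(centralizer ({x} : Set G))).map (centralizer ({x} : Set G)).subtype) (fun _ => rfl)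
      z hz (e ▸ hE) (e ▸ centralizer_QZ_le z) g (e ▸ hin')
    rw [mem_cj, e]
    exact (H97.mem_Q_conj_iff (fun _ => rfl) g).1 this
  refine ⟨hzP, fun u hu v hv hu1 hv1 huv => ?_⟩
  obtain ⟨p, hp, hpz⟩ := hP.exists_conj hzP hS.ne hne.symm hS.sq
  have hpt : p * t * p⁻¹ = t := by rw [hP.cen p hp]; group
  have hle : closure ({z, t} : Set G) ≤ H18.four z t hS.sq hP.sq hzt := by
    rw [closure_le]
    rintro _ (rfl | rfl)
    exacts [H18.left_mem_four, H18.right_mem_four]
  have hq' : q ∈ QZ z ⊔ cj g (QZ z) := mem_sup_left hq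
  have hp' : p ∈ QZ z ⊔ cj g (QZ z) := mem_sup_right hp
  have c1 : ∀ a b x : G, a * b * x * (a * b)⁻¹ = a * (b * x * b⁻¹) * a⁻¹ := fun a b x => by group
  have c2 : ∀ a x y : G, a * (x * y) * a⁻¹ = (a * x * a⁻¹) * (a * y * a⁻¹) := fun a x y => by group
  rcases H18.mem_four.1 (hle hu) with rfl | rfl | rfl | rfl
  · exact absurd rfl hu1
  · rcases H18.mem_four.1 (hle hv) with rfl | rfl | rfl | rfl
    · exact absurd rfl hv1
    · exact absurd rfl huv
    · exact ⟨1, one_mem _, by group, by group⟩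
    · exact ⟨q, hq', hqz, hqt⟩
  · rcases H18.mem_four.1 (hle hv) with e | e | e | e
    · exact absurd e hv1
    · exact ⟨p * q * p, mul_mem (mul_mem hp' hq') hp', e ▸ hswap p hp hpz⟩
    · exact absurd e.symm huv
    · refine ⟨q * p, mul_mem hq' hp', ?_, by rw [c1, hpt, hqt, e]⟩
      rw [c1, hpz, c2, hqt, hqz, hzt, mul_assoc, hS.sq, mul_one]
  · rcases H18.mem_four.1 (hle hv) with e | e | e | e
    · exact absurd e hv1
    · refine ⟨p * q, mul_mem hp' hq', by rw [c1, hqz, hpz, hzt], ?_⟩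
      rw [c1, hqt, c2, hpz, hpt, ← hzt, mul_assoc, hP.sq, mul_one, e]
    · exact ⟨p, hp', by rw [hpz, hzt], by rw [hpt, e]⟩
    · exact absurd e.symm huv

end Cfsg.Agent.S1774
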