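import Cfsg.Statements.S1892
import Cfsg.Agent.H22.PSolvable
import Cfsg.Agent.H21.Basic
import Cfsg.Agent.S0027
-- import your own Cfsg.Agent.* helpers here

set_option autoImplicit false
open Cfsg

namespace Cfsg.Agent.S1892

open scoped commutatorElement

open Subgroup in
/-- If `A` centralizes `P` modulo `U`, so does `[A, Q]` when `Q` normalizes `P` and `U`. -/
theorem comm_le {G : Type*} [Group G] {P U A Q : Subgroup G}
    (hAU : A ≤ normalizer (U : Set G)) (hQU : Q ≤ normalizer (U : Set G))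
    (hQP : Q ≤ normalizer (P : Set G)) (h : ⁅A, P⁆ ≤ U) : ⁅⁅A, Q⁆, P⁆ ≤ U := by
  have h1 : A ≤ H21.commStab P U := H21.le_commStab.mpr ⟨hAU, h⟩
  refine (H21.le_commStab.mp (commutator_le.mpr fun a ha q hq => ?_)).2
  have h2 : (A.map (MulAut.conj q).toMonoidHom) ≤ H21.commStab P U := by
    refine H21.le_commStab.mpr ⟨?_, commutator_le.mpr ?_⟩
    · rintro _ ⟨b, hb, rfl⟩
      exact mul_mem (mul_mem (hQU hq) (hAU hb)) (inv_mem (hQU hq))
    · rintro _ ⟨b, hb, rfl⟩ x hx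
      have h3 : ⁅b, q⁻¹ * x * q⁆ ∈ U :=
        h (commutator_mem_commutator hb (H21.conj_mem_of_mem_normalizer' (hQP hq) hx))
      have h4 := H21.conj_mem_of_mem_normalizer (hQU hq) h3
      convert h4 using 1
      simp only [MulEquiv.toMonoidHom_eq_coe, MonoidHom.coe_coe, MulAut.conj_apply,
        commutatorElement_def]
      group
  have h5 : ⁅a, q⁆ = a * (q * a⁻¹ * q⁻¹) := by rw [commutatorElement_def]; group
  rw [h5]
  exact mul_mem (h1 ha) (h2 ⟨a⁻¹, inv_mem ha, rfl⟩)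

/-- Let S be a finite p-solvable group with no nontrivial normal subgroup of order prime to p, A a p-subgroup of S, and Q a nontrivial A-invariant subgroup of order prime to p with [A, Q] = Q. Then the commutator [O_p(S), A, Q] is nontrivial. -/
theorem result {S : Type*} [Group S] [Finite S] {p : ℕ} [Fact p.Prime]
    (hS : Cfsg.IsPSolvable p S) (hred : Cfsg.pPrimeCore p S = ⊥)
    (A Q : Subgroup S) (hA : IsPGroup p A) (hQ : ¬ p ∣ Nat.card Q) (hQ1 : Q ≠ ⊥)
    (hinv : ∀ a ∈ A, ∀ x ∈ Q, a * x * a⁻¹ ∈ Q) (hAQ : ⁅A, Q⁆ = Q) :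
    ⁅⁅Cfsg.pCore p S, A⁆, Q⁆ ≠ ⊥ := by
  intro h
  have hc : (Nat.card Q).Coprime p :=
    ((Nat.Prime.coprime_iff_not_dvd Fact.out).mpr hQ).symm
  have hn : ∀ H : Subgroup S, H ≤ Subgroup.normalizer (Cfsg.pCore p S : Set S) :=
    fun H => Subgroup.le_normalizer_of_normal
  have h1 : Q ≤ Subgroup.centralizer ((⁅Cfsg.pCore p S, A⁆ : Subgroup S) : Set S) :=
    H21.commutator_eq_bot_iff'.mp h
  have h2 := comm_le (P := Cfsg.pCore p S) (U := ⁅Cfsg.pCore p S, A⁆) (A := A) (Q := Q)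
    (H21.le_normalizer_commutator (hn A) Subgroup.le_normalizer)
    (H21.le_normalizer_of_le_centralizer h1) (hn Q) (Subgroup.commutator_comm _ _).le
  rw [hAQ, Subgroup.commutator_comm] at h2
  obtain ⟨k, hk⟩ := IsPGroup.iff_card.mp (H22.isPGroup_pCore (p := p) (G := S))
  have h3 := S0027.result Q (Cfsg.pCore p S) (hn Q) (by rw [hk]; exact hc.pow_right k)
    (Or.inr (haveI := (H22.isPGroup_pCore (p := p) (G := S)).isNilpotent; inferInstance))
  have h4 : ⁅Cfsg.pCore p S, Q⁆ = ⊥ := by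
    rw [← h3]
    exact le_bot_iff.mp (h ▸ Subgroup.commutator_mono h2 le_rfl)
  have h5 : Q ≤ Cfsg.pCore p S :=
    (H21.commutator_eq_bot_iff'.mp h4).trans (H22.IsPSolvable.centralizer_pCore_le hS hred)
  exact hQ1 (H22.eq_bot_of_pgroup_coprime (H22.isPGroup_pCore.to_le h5) hc)

end Cfsg.Agent.S1892
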