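import Cfsg.Statements.S1893
import Cfsg.Agent.H59.Fit
import Cfsg.Agent.H59.PTerm
import Cfsg.Agent.H21.PStab2
import Cfsg.Agent.H1.Hall
import Cfsg.Agent.S0028
import Cfsg.Agent.H4.CoprimeAut
import Cfsg.Agent.H22.CoprimeQuot
-- import your own Cfsg.Agent.* helpers here

set_option autoImplicit false
open Cfsg

namespace Cfsg.Agent.S1893
open Subgroup H44 H59
open scoped commutatorElement

universe u

variable {S : Type u} [Group S] [Finite S] [Group.IsSolvable S]

theorem centralizer_fitting_le : centralizer (fittingSubgroup S : Set S) ≤ fittingSubgroup S := by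
  have := inf_centralizer_Fof_le_of_Eof_eq_bot (X := (⊤ : Subgroup S))
    (Eof_eq_bot_of_solvable inferInstance)
  rwa [Fof_top, top_inf_eq] at this

theorem mem_fitting {q : ℕ} [Fact q.Prime] (hq : 5 ≤ q ∨ pCore q S = ⊥) {x : S}
    (h1 : x ∈ centralizer ((fittingSubgroup S ⊓ pPrimeCore q S : Subgroup S) : Set S))
    (h2 : ⁅⁅pCore q S, zpowers x⁆, zpowers x⁆ = ⊥) : x ∈ fittingSubgroup S := by
  set f := QuotientGroup.mk' (centralizer (pCore q S : Set S))
  have h3 : f x ∈ pCore q _ := by
    rcases hq with hq | hq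
    · exact (H21.quadStable_of_isPSolvable (by omega) H22.isPSolvable_of_isSolvable
        (fun h => by omega)).isPStableOn_of_isPGroup _ pCore_isPGroup x h2
    · rw [show f x = 1 from (QuotientGroup.eq_one_iff x).mpr fun y hy => by
        rw [mem_bot.mp (hq.le hy), one_mul, mul_one]]
      exact one_mem _
  set Y := (pCore q _).comap f ⊓
    centralizer ((fittingSubgroup S ⊓ pPrimeCore q S : Subgroup S) : Set S)
  refine le_fitting (N := Y) inferInstance (Group.of_quotient_center_nilpotent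
    (IsPGroup.isNilpotent (p := q) fun y => ?_)) ⟨h3, h1⟩
  obtain ⟨y, rfl⟩ := QuotientGroup.mk_surjective y
  obtain ⟨n, hn⟩ := H21.exists_pow_orderOf_coprime (p := q) y
  refine ⟨n, (QuotientGroup.eq_one_iff (y ^ q ^ n)).mpr ?_⟩
  generalize y ^ q ^ n = z at hn
  rw [← orderOf_coe] at hn
  have h4 : (z : S) ∈ centralizer (pCore q S : Set S) := by
    obtain ⟨k, hk⟩ := IsPGroup.iff_orderOf.mp pCore_isPGroup ⟨_, z.2.1⟩
    rw [← orderOf_coe] at hk
    have h5 := ((H4.coprime_orderOf_map f hn).pow_right k)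
    rw [← hk, Nat.coprime_self, orderOf_eq_one_iff] at h5
    exact (QuotientGroup.eq_one_iff _).mp h5
  have h5 : (z : S) ∈ fittingSubgroup S := by
    refine centralizer_fitting_le (H21.centralizer_anti (Fof_top (G := S) ▸ Fof_le_Op_sup (p := q) ⊤) ?_)
    rw [H21.centralizer_sup, Op, Opp, pCoreOf_top, pPrimeCoreOf_top]
    exact ⟨h4, z.2.2⟩
  have h6 : (z : S) ∈ pPrimeCore q S := by
    have := le_Opp_of_sn (p := q) (sn_of_le_Fof (H := ⊤) (Fof_top (G := S) ▸ zpowers_le.mpr h5))
      (by rwa [Nat.card_zpowers])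
    rw [Opp, pPrimeCoreOf_top] at this
    exact zpowers_le.mp this
  exact mem_center_iff.mpr fun g => Subtype.ext (g.2.2 z ⟨h5, h6⟩).symm

theorem centralizer_le (h5 : ∀ q : ℕ, q.Prime → 5 ≤ q ∨ pCore q S = ⊥) {N A : Subgroup S}
    (hN : Group.IsNilpotent N) (hF : fittingSubgroup S ≤ N) (hAN : A ≤ N)
    (hn : N ≤ normalizer (A : Set S)) (hc : N ⊓ centralizer (A : Set S) = A) :
    centralizer (A : Set S) ≤ A := by
  refine le_of_sylow_le fun q _ _ => ⟨default, ?_⟩
  rintro _ ⟨x, hx, rfl⟩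
  obtain ⟨k, hk⟩ := IsPGroup.iff_orderOf.mp (default : Sylow q _).isPGroup' ⟨x, hx⟩
  rw [← orderOf_coe, ← orderOf_coe] at hk
  obtain ⟨x, hxA⟩ := x
  change orderOf x = _ at hk
  change x ∈ A
  have hAx : A ≤ centralizer (zpowers x : Set S) := le_centralizer_iff.mp (zpowers_le.mpr hxA)
  have h1 : ∀ (p : ℕ) [Fact p.Prime], p ≠ q → zpowers x ≤ centralizer (pCore p S : Set S) := by
    intro p _ hpq
    have hp : pCore p S ≤ N := pCore_le_fitting.trans hF
    refine S0028.result p (Opof p A) (zpowers x) (pCore p S) (pCoreOf_isPGroup _) (by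
      rw [Nat.card_zpowers, hk]
      exact Nat.Coprime.pow_left k ((Nat.coprime_primes Fact.out Fact.out).mpr hpq.symm))
      pCore_isPGroup ((Opof_le A).trans hAx) le_normalizer_of_normal le_normalizer_of_normal
      (le_trans ?_ (hc.le.trans hAx))
    refine le_inf (inf_le_left.trans hp) (le_trans ?_ (H21.centralizer_anti
      ((le_fittingOf le_rfl le_normalizer (fclass_NilC.of_le hAN hN)).trans
        (Fof_le_Opof_sup_Oppof (p := p) A))))
    rw [H21.centralizer_sup]
    refine le_inf inf_le_right (inf_le_left.trans (commutator_eq_bot_iff_le_centralizer.mp ?_))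
    exact commutator_eq_bot_mono (commutator_Opof_Oppof (p := p) N)
      (le_pCoreOf hp le_normalizer_of_normal pCore_isPGroup)
      (Oppof_le_Oppof_of_sn (SN.of_le_normalizer hAN hn))
  have hq : pCore q S ≤ N := pCore_le_fitting.trans hF
  refine hc.le ⟨hF (mem_fitting (h5 q Fact.out) (le_C1.mp (le_of_le_Fof (H := ⊤)
    (Fof_top (G := S) ▸ inf_le_left) fun p _ => ?_)) ?_), hxA⟩
  · rw [Op, pCoreOf_top]
    by_cases hpq : p = q
    · subst hpq
      rw [eq_bot_of_le_of_le' pCore_isPGroup pPrimeCore_coprime inf_le_right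
        (inf_le_left.trans inf_le_right)]
      exact bot_le
    · exact inf_le_right.trans (le_C1.mpr (zpowers_le.mp (h1 p hpq)))
  · refine commutator_eq_bot_mono (commutator_eq_bot_iff_le_centralizer.mpr hAx) (le_trans
      (le_inf ((commutator_le_left _ _).trans hq) ?_) hc.le) le_rfl
    exact (commutator_mono le_rfl (zpowers_le.mpr hxA)).trans (commutator_le_right_of_le_normalizer
      (H21.le_normalizer_centralizer (hq.trans hn)))


/-- Let S be a finite solvable group, π a set of primes containing neither 2 nor 3, H a Hall π-subgroup of S, and A a self-centralizing normal subgroup of the Fitting subgroup F(H). Then C_S(A) = A × D for a normal subgroup D of C_S(A) whose order has no prime divisor in π. -/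
theorem result {S : Type*} [Group S] [Finite S] [Group.IsSolvable S]
    (π : Set ℕ) (h2 : 2 ∉ π) (h3 : 3 ∉ π) (H : Subgroup S) (hH : Cfsg.IsPiHall π H)
    (A : Subgroup S) (hA : Cfsg.IsSCN ((Cfsg.fittingSubgroup H).map H.subtype) A) :
    ∃ D : Subgroup S, D ≤ Subgroup.centralizer (A : Set S) ∧
      (∀ c ∈ Subgroup.centralizer (A : Set S), ∀ d ∈ D, c * d * c⁻¹ ∈ D) ∧
      A ⊓ D = ⊥ ∧ A ⊔ D = Subgroup.centralizer (A : Set S) ∧
      ∀ q : ℕ, q.Prime → q ∣ Nat.card D → q ∉ π := by
  obtain ⟨hAF, hn, hc⟩ := hA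
  have hO : ∀ q : ℕ, q.Prime → q ∣ Nat.card (rad (PiC πᶜ) S) → q ∉ π :=
    (eclass_PiC πᶜ).fclass.rad_mem
  set O := rad (PiC πᶜ) S
  set f := QuotientGroup.mk' O
  have hf : Function.Surjective f := QuotientGroup.mk'_surjective O
  have hHO : ∀ x ∈ H, f x = 1 → x = 1 := fun x hx h => by
    by_contra h1
    obtain ⟨q, hq, hd⟩ := Nat.exists_prime_and_dvd (mt orderOf_eq_one_iff.mp h1)
    exact hO q hq (hd.trans (Subgroup.orderOf_dvd_natCard _ ((QuotientGroup.eq_one_iff x).mp h)))
      (hH.1 q hq (hd.trans (Subgroup.orderOf_dvd_natCard _ hx)))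
  have hq : ∀ q : ℕ, q.Prime → q ∉ π → pCore q (S ⧸ O) = ⊥ := fun q hq h => by
    haveI := Fact.mk hq
    rw [eq_bot_iff, ← (eclass_PiC πᶜ).rad_quotient_rad]
    exact le_rad inferInstance (H1.piNum_of_isPGroup hq h pCore_isPGroup)
  have hAH : A ≤ H := hAF.trans (map_subtype_le _)
  have hF : fittingSubgroup (S ⧸ O) ≤ (Fof H).map f := by
    have h1 : fittingSubgroup (S ⧸ O) ≤ H.map f := by
      rw [← Fof_top]
      refine Fof_le fun p hp => ?_
      rw [Op, pCoreOf_top]
      by_cases h : p ∈ π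
      · exact (H1.Hall.map ⟨hH.1, fun r hr hd h => hH.2 r hr h hd⟩ f hf).le_of_normal
          (H1.piNum_of_isPGroup hp.out h pCore_isPGroup)
      · rw [hq p hp.out h]; exact bot_le
    have h2 : (fittingSubgroup (S ⧸ O)).comap f ⊓ H ≤ Fof H := by
      refine le_fittingOf inf_le_right (H21.le_normalizer_inf le_normalizer_of_normal le_normalizer) ?_
      refine fclass_NilC.inj ((f.comp (Subgroup.subtype _)).codRestrict (fittingSubgroup (S ⧸ O))
        fun x => x.2.1) ((injective_iff_map_eq_one _).mpr fun x hx => ?_) fitting_isNilpotent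
      exact Subtype.ext (hHO _ x.2.2 (congrArg Subtype.val hx))
    intro y hy
    obtain ⟨x, hx, rfl⟩ := h1 hy
    exact ⟨x, h2 ⟨hy, hx⟩, rfl⟩
  have key : centralizer (A.map f : Set (S ⧸ O)) ≤ A.map f := by
    haveI := Fof_isNilpotent H
    refine centralizer_le (fun q hq' => ?_)
      (Group.nilpotent_of_surjective _ (f.subgroupMap_surjective (Fof H))) hF (map_mono hAF)
      ((map_mono hn).trans (le_normalizer_map f)) (le_antisymm ?_ (le_inf (map_mono hAF) ?_))
    · by_cases h : q ∈ π
      · left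
        have := hq'.two_le
        have h4 : q ≠ 4 := by rintro rfl; norm_num at hq'
        have h2' : q ≠ 2 := by rintro rfl; exact h2 h
        have h3' : q ≠ 3 := by rintro rfl; exact h3 h
        omega
      · exact Or.inr (hq q hq' h)
    · rintro _ ⟨⟨x, hx, rfl⟩, h⟩
      refine ⟨x, hc.le ⟨hx, fun a ha => ?_⟩, rfl⟩
      rw [← commutatorElement_eq_one_iff_mul_comm]
      refine hHO _ (H21.commutatorElement_mem_left (le_normalizer (map_subtype_le _ hx)) (hAH ha)) ?_
      rw [map_commutatorElement, commutatorElement_eq_one_iff_mul_comm]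
      exact h _ ⟨a, ha, rfl⟩
    · exact (map_mono (hc.ge.trans inf_le_right)).trans (H22.map_centralizer_le f A)
  have hAc : A ≤ centralizer (A : Set S) := hc.ge.trans inf_le_right
  refine ⟨centralizer (A : Set S) ⊓ O, inf_le_left, fun c hc d hd => mem_inf.mpr ⟨mul_mem (mul_mem hc hd.1)
    (inv_mem hc), Normal.conj_mem inferInstance d hd.2 c⟩, eq_bot_iff.mpr fun x hx =>
      hHO x (hAH hx.1) ((QuotientGroup.eq_one_iff x).mpr hx.2.2),
    le_antisymm (sup_le hAc inf_le_left) fun c hc => ?_,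
    fun q hq hd => hO q hq (hd.trans (card_dvd_of_le inf_le_right))⟩
  obtain ⟨a, ha, e⟩ := key (H22.map_centralizer_le f A ⟨c, hc, rfl⟩)
  rw [← mul_inv_cancel_left a c]
  exact mul_mem (mem_sup_left ha) (mem_sup_right (mem_inf.mpr ⟨mul_mem (inv_mem (hAc ha)) hc,
    QuotientGroup.eq.mp e⟩))


end Cfsg.Agent.S1893
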