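import Cfsg.Statements.S1894
import Mathlib

set_option autoImplicit false
open Cfsg

namespace Cfsg.Agent.S1894

/-- In a finite `p`-group, if `C < D` are normal, some `x ∈ D \ C` is central modulo `C`. -/
theorem exists_central_mod {P : Type*} [Group P] [Finite P] {p : ℕ} [Fact p.Prime]
    (hP : IsPGroup p P) (C D : Subgroup P) [C.Normal] [D.Normal] (h : ¬ D ≤ C) :
    ∃ x ∈ D, x ∉ C ∧ ∀ g : P, g * x * g⁻¹ * x⁻¹ ∈ C := by
  have hQ : IsPGroup p (P ⧸ C) := hP.to_quotient C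
  set D' := D.map (QuotientGroup.mk' C) with hD'
  have hD'n : D'.Normal := Subgroup.Normal.map inferInstance _ (QuotientGroup.mk'_surjective C)
  have hne : D' ≠ ⊥ := by
    intro h0
    apply h
    rw [hD', Subgroup.map_eq_bot_iff, QuotientGroup.ker_mk'] at h0
    exact h0
  have : Nontrivial D' := (Subgroup.nontrivial_iff_ne_bot D').mpr hne
  have hQ' : IsPGroup p (ConjAct (P ⧸ C)) := hQ.of_equiv ConjAct.toConjAct
  have h1 : (1 : D') ∈ MulAction.fixedPoints (ConjAct (P ⧸ C)) D' := by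
    intro g; exact smul_one g
  have hdvd : p ∣ Nat.card D' := by
    obtain ⟨n, hn0, hn⟩ := (IsPGroup.nontrivial_iff_card (hQ.to_subgroup D')).mp inferInstance
    exact hn.symm ▸ dvd_pow_self _ (ne_of_gt hn0)
  obtain ⟨y, hy, hy1⟩ := hQ'.exists_fixed_point_of_prime_dvd_card_of_fixed_point (α := D') hdvd h1
  obtain ⟨x, hx, hxy⟩ := y.2
  refine ⟨x, hx, ?_, fun g => ?_⟩
  · intro hxC
    apply hy1
    apply Subtype.ext
    rw [← hxy]
    exact ((QuotientGroup.eq_one_iff x).mpr hxC).symm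
  · have := congrArg Subtype.val (hy (ConjAct.toConjAct (QuotientGroup.mk g : P ⧸ C)))
    rw [← QuotientGroup.eq_one_iff]
    have h2 : (QuotientGroup.mk g : P ⧸ C) * (y : P ⧸ C) * (QuotientGroup.mk g : P ⧸ C)⁻¹ = y := this
    rw [← hxy] at h2
    simp only [QuotientGroup.mk'_apply] at h2
    simp only [QuotientGroup.mk_mul, QuotientGroup.mk_inv, h2, mul_inv_cancel]

theorem result {P : Type*} [Group P] [Finite P] {p : ℕ} [Fact p.Prime] (hP : IsPGroup p P)
    (A : Subgroup P) [A.Normal] (B : Subgroup P) [B.Normal] (hBA : B ≤ A) (hB : IsMulCommutative B) :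
    ∃ C : Subgroup P, C.Normal ∧ B ≤ C ∧ Cfsg.IsSCN A C := by
  have hB' : B ≤ Subgroup.centralizer (B : Set P) := Subgroup.le_centralizer B
  obtain ⟨C, ⟨hCn, hBC, hCA, hCc⟩, hmax⟩ := Set.Finite.exists_maximal
    (Set.toFinite {C : Subgroup P | C.Normal ∧ B ≤ C ∧ C ≤ A ∧ C ≤ Subgroup.centralizer (C : Set P)})
    ⟨B, inferInstance, le_rfl, hBA, hB'⟩
  refine ⟨C, hCn, hBC, hCA, Subgroup.le_normalizer_of_normal, le_antisymm ?_ (le_inf hCA hCc)⟩
  by_contra hne
  obtain ⟨x, hx, hxC, hxc⟩ := exists_central_mod hP C (A ⊓ Subgroup.centralizer (C : Set P)) hne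
  have hmem : ∀ y, y ∈ C ⊔ Subgroup.zpowers x ↔ ∃ c ∈ C, ∃ k : ℤ, y = c * x ^ k := by
    intro y
    rw [← SetLike.mem_coe, Subgroup.normal_mul]
    constructor
    · rintro ⟨c, hc, _, ⟨k, rfl⟩, rfl⟩
      exact ⟨c, hc, k, rfl⟩
    · rintro ⟨c, hc, k, rfl⟩
      exact ⟨c, hc, _, ⟨k, rfl⟩, rfl⟩
  have hn : (C ⊔ Subgroup.zpowers x).Normal := by
    refine ⟨fun y hy g => ?_⟩
    have : (C ⊔ Subgroup.zpowers x) ≤ (C ⊔ Subgroup.zpowers x).comap (MulAut.conj g).toMonoidHom := by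
      refine sup_le (fun c hc => Subgroup.mem_sup_left (hCn.conj_mem c hc g)) ?_
      rw [Subgroup.zpowers_le]
      have : g * x * g⁻¹ = (g * x * g⁻¹ * x⁻¹) * x := by group
      show g * x * g⁻¹ ∈ C ⊔ Subgroup.zpowers x
      rw [this]
      exact Subgroup.mul_mem_sup (hxc g) (Subgroup.mem_zpowers x)
    exact this hy
  have hc : C ⊔ Subgroup.zpowers x ≤ Subgroup.centralizer ((C ⊔ Subgroup.zpowers x : Subgroup P) : Set P) := by
    have hxc' : ∀ c ∈ C, Commute c x := fun c hc => Subgroup.mem_centralizer_iff.mp hx.2 c hc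
    intro y hy
    rw [Subgroup.mem_centralizer_iff]
    intro z hz
    obtain ⟨c, hc, k, rfl⟩ := (hmem y).mp hy
    obtain ⟨d, hd, l, rfl⟩ := (hmem z).mp hz
    have h1 : Commute d c := Subgroup.mem_centralizer_iff.mp (hCc hc) d hd
    exact (Commute.mul_left (h1.mul_right ((hxc' d hd).zpow_right k))
      (Commute.mul_right ((hxc' c hc).zpow_right l).symm ((Commute.refl x).zpow_zpow l k)))
  have := hmax ⟨hn, hBC.trans le_sup_left, sup_le hCA ((Subgroup.zpowers_le).mpr hx.1), hc⟩ le_sup_left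
  exact hxC (this (Subgroup.mem_sup_right (Subgroup.mem_zpowers x)))

end Cfsg.Agent.S1894
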