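import Cfsg.Statements.S1895
import Cfsg.Agent.H59.Term
import Cfsg.Agent.H4.Omega
import Cfsg.Agent.H4.CoprimeAut
import Cfsg.Agent.H21.Quad
import Cfsg.Agent.H22.PGroupMisc
import Cfsg.Agent.H22.PConstrained
import Cfsg.Agent.H22.CoprimeQuot
-- import your own Cfsg.Agent.* helpers here

set_option autoImplicit false
open Cfsg

namespace Cfsg.Agent.S1895
open Subgroup
open scoped commutatorElement

universe u

variable {p : ℕ} [hp : Fact p.Prime]

theorem card_sup_zpowers {X : Type*} [Group X] [Finite X] {A : Subgroup X} {x : X} (hx : x ^ p = 1)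
    (hc : x ∈ centralizer (A : Set X)) (h : x ∉ A) :
    p * Nat.card A ≤ Nat.card ↥(A ⊔ zpowers x) :=
  (Nat.mul_le_mul_right _ (H59.le_relIndex_of_not_le (H21.IsElementaryAbelian.isPGroup
    (H21.isElementaryAbelian_zpowers hx)) fun h2 => h (zpowers_le.mp h2))).trans
    (H59.mul_card_le_card_sup (zpowers_le.mpr hc) le_rfl)

theorem not_dvd_card_mulAut {X : Type*} [Group X] [Finite X] (hX : IsPGroup p X)
    (h : Nat.card X ≤ p ^ 2) : ¬ p ^ 3 ∣ Nat.card (MulAut X) := by
  intro hd
  obtain ⟨P, hP⟩ := Sylow.exists_subgroup_card_pow_prime p hd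
  have h1 : ∃ x : X, ∀ φ : P, (φ : MulAut X) x = x → φ = 1 := by
    rcases subsingleton_or_nontrivial X with h0 | h0
    · exact ⟨1, fun φ _ => Subtype.ext (MulEquiv.ext fun y => Subsingleton.elim _ _)⟩
    obtain ⟨z, hz, hz1⟩ := (IsPGroup.of_card hP).exists_fixed_point_of_prime_dvd_card_of_fixed_point
      X (hX.card_eq_or_dvd.resolve_left Finite.one_lt_card.ne') (a := 1) fun φ => smul_one φ
    have key : ∀ x : X, zpowers z ⊔ zpowers x = ⊤ → ∀ φ : P, (φ : MulAut X) x = x → φ = 1 :=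
      fun x hx φ hφ => by
        have : (⊤ : Subgroup X) ≤ H4.fixedBy φ := hx ▸ sup_le
          (zpowers_le.mpr (H4.mem_fixedBy.mpr (hz φ))) (zpowers_le.mpr (H4.mem_fixedBy.mpr hφ))
        exact Subtype.ext (MulEquiv.ext fun y => H4.mem_fixedBy.mp (this (mem_top y)))
    by_cases h2 : zpowers z = ⊤
    · exact ⟨1, key 1 (by rw [h2, top_sup_eq])⟩
    obtain ⟨x, -, hx⟩ := SetLike.exists_of_lt (lt_top_iff_ne_top.mpr h2)
    refine ⟨x, key x (eq_top_of_le_card _ (h.trans ?_))⟩
    have h3 : p ^ 0 < Nat.card (zpowers z) := by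
      rw [pow_zero, one_lt_card_iff_ne_bot, Ne, zpowers_eq_bot]; exact hz1.symm
    refine H22.pow_succ_le_card_of_lt (hX.to_subgroup _)
      ((H22.pow_succ_le_card_of_lt (hX.to_subgroup _) h3).trans_lt (H21.card_lt_of_lt
        (lt_of_le_of_ne le_sup_left fun e => hx (e ▸ mem_sup_right (mem_zpowers x)))))
  obtain ⟨x, hx⟩ := h1
  have h2 := Nat.card_le_card_of_injective (fun φ : P => (φ : MulAut X) x) fun φ ψ e => by
    have := hx (ψ⁻¹ * φ) (by simp only at e; simp [e])
    exact (inv_mul_eq_one.mp this).symm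
  have := Nat.pow_lt_pow_right hp.out.one_lt (show 2 < 3 by norm_num)
  omega

theorem commutator_pow {X : Type*} [Group X] [Finite X] (hp2 : p ≠ 2) (hX : IsPGroup p X)
    (hc : ∀ x : X, x ^ p = 1 → x ∈ center X) {x : X} (hx : x ^ p ∈ center X) (g : X) :
    ⁅x, g⁆ ^ p = 1 := by
  haveI := hX.isNilpotent
  obtain ⟨n, hn⟩ := Group.IsNilpotent.nilpotent (G := X)
  have key : ∀ k, ∀ g ∈ Subgroup.upperCentralSeries X k, ⁅x, g⁆ ^ p = 1 := by
    intro k
    induction k with
    | zero => intro g hg; rw [mem_bot.mp hg]; simp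
    | succ k ih =>
      intro g hg
      have h1 := ih _ (Subgroup.mem_upperCentralSeries_succ_iff.mp hg x)
      have h2 := mem_center_iff.mp (hc _ h1)
      have h3 := H3.mul_pow_of_odd_of_commute_commutator (h2 _) (h2 _) (hp.out.odd_of_ne_two hp2) h1
      rw [show ⁅g, x⁆ * x = g * x * g⁻¹ by rw [commutatorElement_def]; group, conj_pow,
        mem_center_iff.mp hx g, mul_inv_cancel_right, right_eq_mul] at h3
      rw [← commutatorElement_inv, inv_pow, h3, inv_one]
  exact key n g (hn ▸ mem_top g)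

theorem exists_char_of_central (hp2 : p ≠ 2) (X : Type u) [Group X] [Finite X] :
    IsPGroup p X → Nontrivial X → (∀ x : X, x ^ p = 1 → x ∈ center X) →
      (∀ W : Subgroup X, (∀ x ∈ W, x ^ p = 1) → Nat.card W ≤ p ^ 2) →
      ∃ M : Subgroup X, M.Characteristic ∧ M ≠ ⊤ ∧ M.index ≤ p ^ 2 := by
  refine H2.card_induction (P := fun X _ _ => IsPGroup p X → Nontrivial X →
    (∀ x : X, x ^ p = 1 → x ∈ center X) →
      (∀ W : Subgroup X, (∀ x ∈ W, x ^ p = 1) → Nat.card W ≤ p ^ 2) →
      ∃ M : Subgroup X, M.Characteristic ∧ M ≠ ⊤ ∧ M.index ≤ p ^ 2) X fun X _ _ ih => ?_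
  intro hX hnt hc hb
  let E : Subgroup X := H4.omegaOf ⊤ p fun x _ y _ hx hy => by
    rw [Commute.mul_pow (mem_center_iff.mp (hc y hy) x), hx, hy, one_mul]
  have hE : ∀ {x}, x ∈ E ↔ x ^ p = 1 := H4.mem_omegaOf.trans (and_iff_right (mem_top _))
  haveI hEc : E.Characteristic := characteristic_iff_le_comap.mpr fun φ x hx =>
    hE.mpr (by rw [← map_pow, hE.mp hx, map_one])
  have hEb := hb E fun x => hE.mp
  by_cases h : E = ⊤
  · exact ⟨⊥, inferInstance, bot_ne_top, by rwa [index_bot, ← card_top, ← h]⟩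
  have hE1 : E ≠ ⊥ := by
    obtain ⟨z, -, -, hz⟩ := H3.exists_mem_center_orderOf_eq hX ⊤ top_ne_bot
    exact H59.ne_bot_of_orderOf hz (hE.mpr (hz ▸ pow_orderOf_eq_one z))
  have hq : ∀ x : X, (x : X ⧸ E) ^ p = 1 → x ^ p ∈ E := fun x hx =>
    (QuotientGroup.eq_one_iff _).mp (by rw [QuotientGroup.mk_pow, hx])
  obtain ⟨M, h1, h2, h3⟩ := ih (X ⧸ E) (H2.card_quotient_lt E hE1) (hX.to_quotient E)
    (QuotientGroup.nontrivial_iff.mpr h) (fun x hx => by
      obtain ⟨x, rfl⟩ := QuotientGroup.mk_surjective x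
      refine mem_center_iff.mpr fun g => ?_
      obtain ⟨g, rfl⟩ := QuotientGroup.mk_surjective g
      rw [eq_comm, ← commutatorElement_eq_one_iff_mul_comm]
      exact (QuotientGroup.eq_one_iff ⁅x, g⁆).mpr
        (hE.mpr (commutator_pow hp2 hX hc (hc _ (hE.mp (hq x hx))) g)))
    fun W hW => by
      have h1 : ∀ x ∈ W.comap (QuotientGroup.mk' E), x ^ p ∈ E := fun x hx => hq x (hW _ hx)
      have h2 := H4.card_le_card_omega_mul (W.comap (QuotientGroup.mk' E)) p (fun x _ y hy => by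
        have h3 := commutator_pow hp2 hX hc (hc _ (hE.mp (h1 y hy))) x
        have h4 := mem_center_iff.mp (hc _ h3)
        exact H3.mul_pow_of_odd_of_commute_commutator (h4 _) (h4 _) (hp.out.odd_of_ne_two hp2) h3)
        E h1 E fun x _ => hE.mpr
      rw [← H21.card_mul_relIndex_of_le (QuotientGroup.le_comap_mk' E W)] at h2
      have h3 := Nat.le_of_mul_le_mul_left h2 (H21.card_pos' E)
      nth_rewrite 1 [← QuotientGroup.ker_mk' E] at h3
      rw [relIndex_ker, map_comap_eq_self_of_surjective (QuotientGroup.mk'_surjective E)] at h3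
      exact h3.trans hEb
  refine ⟨M.comap (QuotientGroup.mk' E), Characteristic.comap_quotient_mk h1, fun e => h2 ?_, by
    rwa [index_comap_of_surjective _ (QuotientGroup.mk'_surjective E)]⟩
  rw [← map_comap_eq_self_of_surjective (QuotientGroup.mk'_surjective E) M, e,
    map_top_of_surjective _ (QuotientGroup.mk'_surjective E)]

theorem exists_char (hp2 : p ≠ 2) {X : Type u} [Group X] [Finite X] (hX : IsPGroup p X)
    (hnt : Nontrivial X) (hr : PRankLE p 2 X) :
    ∃ M : Subgroup X, M.Characteristic ∧ M ≠ ⊤ ∧ M.index ≤ p ^ 2 := by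
  have hodd := hp.out.odd_of_ne_two hp2
  have hz : ∀ x ∈ Subgroup.upperCentralSeries X 2, ∀ g, ⁅x, g⁆ ∈ center X := fun x hx g =>
    Subgroup.upperCentralSeries_one X ▸ Subgroup.mem_upperCentralSeries_succ_iff.mp hx g
  have hpow : ∀ x ∈ Subgroup.upperCentralSeries X 2, x ^ p = 1 → ∀ g : X, ⁅x, g⁆ ^ p = 1 :=
      fun x hx h g => by
    rw [← H3.commutator_pow_left_of_commute (mem_center_iff.mp (hz x hx g) x), h,
      commutatorElement_one_left]
  let D : Subgroup X := H4.omegaOf (Subgroup.upperCentralSeries X 2) p fun x _ y hy h1 h2 => by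
    have h4 := mem_center_iff.mp (hz y hy x)
    rw [H3.mul_pow_of_odd_of_commute_commutator (h4 _) (h4 _) hodd (hpow y hy h2 x), h1, h2, one_mul]
  have hD : ∀ {x}, x ∈ D ↔ x ∈ Subgroup.upperCentralSeries X 2 ∧ x ^ p = 1 := H4.mem_omegaOf
  haveI hDc : D.Characteristic := characteristic_iff_le_comap.mpr fun φ x hx =>
    hD.mpr ⟨characteristic_iff_le_comap.mp inferInstance φ (hD.mp hx).1,
      by rw [← map_pow, show x ^ p = 1 from (hD.mp hx).2, map_one]⟩
  have hel : ∀ A : Subgroup X, IsElementaryAbelian p A → p ^ 2 ≤ Nat.card A → ∀ x, x ^ p = 1 →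
      x ∈ centralizer (A : Set X) → x ∈ A := fun A hA h x hx hc => by
    by_contra hn
    have h1 := card_sup_zpowers hx hc hn
    have h2 := H21.isElementaryAbelian_sup hA (H21.isElementaryAbelian_zpowers hx)
      (le_centralizer_iff.mp (zpowers_le.mpr hc))
    have h3 := hr _ h2.1 h2.2
    have := hp.out.two_le
    have := H21.card_pos' A
    nlinarith
  by_cases h : D ≤ center X
  · have hc : ∀ x : X, x ^ p = 1 → x ∈ center X := fun x hx => by
      by_cases hcy : IsCyclic (⊤ : Subgroup X)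
      · haveI := topEquiv.isCyclic.mp hcy
        exact mem_center_iff.mpr fun g => mul_comm' g x
      obtain ⟨A, -, h1, h2, h3⟩ := H4.exists_normal_rank_two hp2 X hX ⊤ inferInstance hcy
      have h4 : A ≤ center X := fun a ha =>
        h (hD.mpr ⟨H22.le_upperCentralSeries_of_normal hX 2 A h3 ha, h2.2 a ha⟩)
      exact h4 (hel A h2 h3.ge x hx fun a ha => (mem_center_iff.mp (h4 ha) x).symm)
    exact exists_char_of_central hp2 X hX hnt hc fun W hW => hr W
      ⟨⟨fun a b => Subtype.ext (mem_center_iff.mp (hc _ (hW _ b.2)) a)⟩⟩ hW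
  obtain ⟨d, hd, hdz⟩ := SetLike.not_le_iff_exists.mp h
  have hZ : IsElementaryAbelian p (D ⊓ center X) :=
    ⟨⟨⟨fun a b => Subtype.ext (mem_center_iff.mp b.2.2 a)⟩⟩, fun a ha => (hD.mp ha.1).2⟩
  have hcz : ∀ x, x ∈ centralizer ((D ⊓ center X : Subgroup X) : Set X) := fun x a ha =>
    (mem_center_iff.mp ha.2 x).symm
  have hA := H21.isElementaryAbelian_sup hZ (H21.isElementaryAbelian_zpowers (hD.mp hd).2)
    (le_centralizer_iff.mp (zpowers_le.mpr (hcz d)))
  have h1 := card_sup_zpowers (hD.mp hd).2 (hcz d) fun h => hdz h.2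
  have h2 : Nat.card ↥(D ⊓ center X) ≤ p :=
    Nat.le_of_mul_le_mul_left ((h1.trans (hr _ hA.1 hA.2)).trans_eq (sq p)) hp.out.pos
  have hi : ∀ x ∈ D, (H59.C1 x).index ≤ Nat.card ↥(D ⊓ center X) := fun x hx => by
    let φ : X →* X := MonoidHom.mk' (fun g => ⁅x, g⁆) fun a b =>
      H3.commutator_mul_right_of_commute (mem_center_iff.mp (hz x (hD.mp hx).1 b) a)
    have e : H59.C1 x = φ.ker := by
      ext g
      rw [H59.mem_C1, eq_comm, ← commutatorElement_eq_one_iff_mul_comm]
      rfl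
    rw [e, index_ker]
    refine card_le_of_le ?_
    rintro _ ⟨g, rfl⟩
    exact ⟨H21.commutatorElement_mem_left (le_normalizer_of_normal (mem_top g)) hx,
      hz x (hD.mp hx).1 g⟩
  have h3 : p ≤ Nat.card ↥(D ⊓ center X) := by
    refine le_trans ?_ (hi d hd)
    rw [← relIndex_top_right]
    exact H59.le_relIndex_of_not_le (hX.to_subgroup ⊤) fun h => hdz
      (mem_center_iff.mpr fun g => H59.mem_C1.mp (h (mem_top g)))
  set A := D ⊓ center X ⊔ zpowers d
  have hAD : A ≤ D := sup_le inf_le_left (zpowers_le.mpr hd)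
  have hCA : H59.C1 d ≤ centralizer (A : Set X) := by
    rw [H21.centralizer_sup, H21.centralizer_zpowers]
    exact le_inf (fun x _ => hcz x) le_rfl
  have h4 : Nat.card D ≤ p * Nat.card A := by
    rw [← H21.card_inf_mul_relIndex (H59.C1 d) D, mul_comm]
    refine Nat.mul_le_mul ?_ (card_le_of_le fun x hx => hel A hA
      ((sq p).le.trans ((Nat.mul_le_mul_left p h3).trans h1)) x (hD.mp hx.2).2 (hCA hx.1))
    refine le_trans ?_ ((hi d hd).trans h2)
    rw [← relIndex_top_right]
    exact relIndex_le_of_le_right le_top (H21.relIndex_ne_zero' _ _)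
  obtain ⟨e, he, h5⟩ : ∃ e ∈ D, H59.C1 d ⊓ H59.C1 e ≤ centralizer (D : Set X) := by
    by_cases h5 : D ≤ A
    · exact ⟨d, hd, inf_le_left.trans (hCA.trans (H21.centralizer_anti h5))⟩
    obtain ⟨e, he, heA⟩ := SetLike.not_le_iff_exists.mp h5
    refine ⟨e, he, ?_⟩
    have h6 : A ⊔ zpowers e = D := H21.eq_of_le_of_card_le (sup_le hAD (zpowers_le.mpr he))
      (h4.trans ?_)
    · rw [← h6, H21.centralizer_sup, H21.centralizer_zpowers]
      exact inf_le_inf_right _ hCA
    rw [H44.card_eq_relIndex_mul (le_sup_left : A ≤ A ⊔ zpowers e)]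
    exact Nat.mul_le_mul_right _ (H59.le_relIndex_of_not_le (hX.to_subgroup _)
      fun h => heA (h (mem_sup_right (mem_zpowers e))))
  refine ⟨centralizer (D : Set X), inferInstance, fun e => hdz (mem_center_iff.mpr fun g =>
    ((e ▸ mem_top g : g ∈ centralizer (D : Set X)) d hd).symm), ?_⟩
  refine (index_antitone h5).trans (index_inf_le.trans ?_)
  rw [sq]
  exact Nat.mul_le_mul ((hi d hd).trans h2) ((hi e he).trans h2)

variable {G : Type u} [Group G]

/-- Normal series whose factors have orders not divisible by `p ^ 3`. -/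
inductive Ch (p : ℕ) (A : Subgroup G) : Subgroup G → Prop
  | refl : Ch p A A
  | step {U V : Subgroup G} : Ch p A U → U.Normal → U ≤ V → ¬ p ^ 3 ∣ U.relIndex V → Ch p A V

omit hp in
theorem Ch.trans {A B C : Subgroup G} (h1 : Ch p A B) (h2 : Ch p B C) : Ch p A C := by
  induction h2 with
  | refl => exact h1
  | step _ h3 h4 h5 ih => exact ih.step h3 h4 h5

omit hp in
theorem Ch.comap {G' : Type u} [Group G'] (f : G →* G') (hf : Function.Surjective f)
    {A B : Subgroup G'} (h : Ch p A B) : Ch p (A.comap f) (B.comap f) := by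
  induction h with
  | refl => exact .refl
  | step _ h3 h4 h5 ih =>
    exact ih.step (h3.comap f) (comap_mono h4) (by
      rwa [relIndex_comap, map_comap_eq_self_of_surjective hf])

theorem Ch.not_dvd [Finite G] {U : Subgroup G} (h : Ch p ⊥ U) {H K : Subgroup G} [H.Normal]
    [K.Normal] (hKH : K ≤ H) (hc : ∀ L : Subgroup G, L.Normal → K ≤ L → L ≤ H → L = K ∨ L = H)
    (hle : H ≤ U ⊔ K) : ¬ p ^ 3 ∣ K.relIndex H := by
  induction h with
  | refl =>
    rw [bot_sup_eq] at hle
    rw [relIndex_eq_one.mpr hle, Nat.dvd_one]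
    exact (Nat.one_lt_pow (by norm_num) hp.out.one_lt).ne'
  | @step U V _ h3 h4 h5 ih =>
    rcases hc ((U ⊔ K) ⊓ H) inferInstance (le_inf le_sup_right hKH) inf_le_right with e | e
    · refine fun h => h5 (h.trans ?_)
      rw [← e, inf_relIndex_right]
      have h6 : H ≤ V ⊔ (U ⊔ K) := hle.trans (sup_le_sup_left le_sup_right _)
      have h7 : (U ⊔ K).relIndex H ∣ (U ⊔ K).relIndex (V ⊔ (U ⊔ K)) := by
        rw [← QuotientGroup.ker_mk' (U ⊔ K), relIndex_ker, relIndex_ker, QuotientGroup.ker_mk']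
        exact card_dvd_of_le (map_mono h6)
      refine h7.trans ?_
      rw [relIndex_sup_right]
      exact relIndex_dvd_of_le_left V le_sup_left
    · exact ih (inf_eq_right.mp e)

theorem exists_ch [Finite G] (hp2 : p ≠ 2) (hr : PRankLE p 2 G) (U : Subgroup G) :
    U.Normal → IsPGroup p U → Ch p ⊥ U ∧ ∃ C : Subgroup G, C.Normal ∧ Ch p C ⊤ ∧
      ∀ g ∈ C, (orderOf g).Coprime p → g ∈ centralizer (U : Set G) := by
  induction U using WellFoundedLT.induction with
  | _ U ih =>
  intro hU hUp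
  rcases U.bot_or_nontrivial with rfl | hnt
  · exact ⟨.refl, ⊤, inferInstance, .refl, fun g _ _ => H21.centralizer_bot'.ge (mem_top g)⟩
  obtain ⟨M, h1, h2, h3⟩ := exists_char hp2 hUp hnt fun A hA h => by
    rw [← card_subtype]
    exact hr _ inferInstance (by rintro _ ⟨a, ha, rfl⟩; rw [← map_pow, h a ha, map_one])
  have hlt : M.map U.subtype < U := lt_of_le_of_ne (map_subtype_le M) fun e => h2
    (map_injective U.subtype_injective (by rw [e, ← MonoidHom.range_eq_map, range_subtype]))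
  have hi : (M.map U.subtype).relIndex U ≤ p ^ 2 := by
    rwa [relIndex, subgroupOf, comap_map_eq_self_of_injective U.subtype_injective]
  set W := M.map U.subtype
  haveI hW : W.Normal := inferInstance
  obtain ⟨g1, C, g2, g3, g4⟩ := ih W hlt hW (hUp.to_le hlt.le)
  let φ : G →* MulAut (U.map (QuotientGroup.mk' W)) :=
    MulAut.conjNormal.comp (QuotientGroup.mk' W)
  refine ⟨g1.step hW hlt.le fun h => ?_, φ.ker ⊓ C, inferInstance,
    (Ch.refl.step inferInstance inf_le_right fun h => ?_).trans g3, fun g hg hc => ?_⟩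
  · have := Nat.le_of_dvd (Nat.pos_of_ne_zero (H21.relIndex_ne_zero' _ _)) h
    have := Nat.pow_lt_pow_right hp.out.one_lt (show 2 < 3 by norm_num)
    omega
  · rw [inf_relIndex_right, relIndex_ker] at h
    refine not_dvd_card_mulAut (hUp.map _) ?_ (h.trans (card_subgroup_dvd_card _))
    rwa [← relIndex_ker, QuotientGroup.ker_mk']
  · refine H4.mem_centralizer_of_stabilizes (hUp.to_le hlt.le) hc (g4 g hg.2 hc) fun x hx => ?_
    have := congrArg Subtype.val (DFunLike.congr_fun (MonoidHom.mem_ker.mp hg.1) ⟨_, x, hx, rfl⟩)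
    exact QuotientGroup.eq.mp this.symm


/-- Let p be an odd prime and G a finite p-solvable group with no elementary abelian subgroup of order p³. Then every chief factor H/K of G (H, K normal in G with no normal subgroup of G strictly between them) whose order is a power of p has order p or p². -/
theorem result {G : Type*} [Group G] [Finite G] {p : ℕ} [Fact p.Prime] (hp : p ≠ 2)
    (hG : Cfsg.IsPSolvable p G) (hr : Cfsg.PRankLE p 2 G)
    (H K : Subgroup G) [H.Normal] [K.Normal] (hKH : K < H) (hpow : ∃ n : ℕ, K.relIndex H = p ^ n)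
    (hchief : ∀ L : Subgroup G, L.Normal → K ≤ L → L ≤ H → L = K ∨ L = H) :
    K.relIndex H = p ∨ K.relIndex H = p ^ 2 := by
  have hf := QuotientGroup.mk'_surjective (pPrimeCore p G)
  have hk := H22.coprime_ker_mk' (p := p) (G := G)
  set f := QuotientGroup.mk' (pPrimeCore p G) with hfd
  have hr' : PRankLE p 2 (G ⧸ pPrimeCore p G) := fun A hA h => by
    obtain ⟨P, -, h1, rfl⟩ := H22.exists_isPGroup_map_eq f (H := ⊤)
      (H21.IsElementaryAbelian.isPGroup ⟨hA, h⟩) (by rw [map_top_of_surjective _ hf]; exact le_top)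
    have h2 : ∀ x ∈ P, f x = 1 → x = 1 := fun x hx h =>
      mem_bot.mp (H44.eq_bot_of_isPGroup_of_coprime h1.to_inf_left
        (H44.coprime_of_le inf_le_right hk) ▸ (⟨hx, h⟩ : x ∈ P ⊓ f.ker))
    refine (Nat.le_of_dvd Nat.card_pos (card_map_dvd P f)).trans (hr P ⟨⟨fun a b => Subtype.ext ?_⟩⟩
      fun a ha => h2 _ (pow_mem ha p) (by rw [map_pow]; exact h _ ⟨a, ha, rfl⟩))
    rw [coe_mul, coe_mul, ← commutatorElement_eq_one_iff_mul_comm]
    refine h2 _ (H21.commutatorElement_mem_left (le_normalizer b.2) a.2) ?_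
    rw [map_commutatorElement, commutatorElement_eq_one_iff_mul_comm]
    exact H21.mul_comm_of_mem (V := P.map f) ⟨a, a.2, rfl⟩ ⟨b, b.2, rfl⟩
  obtain ⟨-, C, h1, h2, h3⟩ := exists_ch hp hr' (pCore p _) inferInstance H44.pCore_isPGroup
  have hC : IsPGroup p C := fun g => by
    refine ⟨(orderOf (g : G ⧸ pPrimeCore p G)).factorization p, Subtype.ext ?_⟩
    have h4 : (orderOf ((g : G ⧸ pPrimeCore p G) ^ p ^ (orderOf (g : G ⧸ pPrimeCore p G)).factorization p)).Coprime p := by
      rw [orderOf_pow_of_dvd (pow_ne_zero _ (Fact.out : p.Prime).ne_zero) (Nat.ordProj_dvd _ _)]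
      exact (Nat.coprime_ordCompl Fact.out (orderOf_pos _).ne').symm
    have h5 := H22.IsPSolvable.isCharP_quotient hG (h3 _ (pow_mem g.2 _) h4)
    obtain ⟨k, hk⟩ := IsPGroup.iff_orderOf.mp H44.pCore_isPGroup ⟨_, h5⟩
    rw [← orderOf_coe] at hk
    rw [coe_pow, coe_one, ← orderOf_eq_one_iff]
    have h6 := h4.pow_right k
    rwa [← hk, Nat.coprime_self] at h6
  have h4 := ((exists_ch hp hr' C h1 hC).1.trans h2).comap f hf
  rw [MonoidHom.comap_bot, comap_top] at h4
  have h5 := ((Ch.refl.step inferInstance bot_le fun h => H44.coprime_iff_not_dvd.mp hk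
    ((dvd_pow_self p three_ne_zero).trans (by rwa [relIndex_bot_left] at h))).trans h4).not_dvd
    hKH.le hchief (le_top.trans le_sup_left)
  obtain ⟨n, hn⟩ := hpow
  rw [hn] at h5 ⊢
  have h6 : n < 3 := by
    by_contra! h
    exact h5 (pow_dvd_pow p h)
  have h7 : n ≠ 0 := by
    rintro rfl
    exact hKH.not_ge (relIndex_eq_one.mp hn)
  interval_cases n <;> simp at h7 ⊢


end Cfsg.Agent.S1895
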