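import Cfsg.Statements.S1898
import Mathlib.Tactic.Group
import Mathlib.Tactic.Ring

set_option autoImplicit false
open Cfsg

namespace Cfsg.Agent.S1898

theorem pow_four_mul {X : Type*} [Group X]
    (hel : Cfsg.IsElementaryAbelian 2 (commutator X)) (hcen : commutator X ≤ Subgroup.center X) (x y : X) :
    (x * y) ^ 4 = x ^ 4 * y ^ 4 := by
  set c := y * x * y⁻¹ * x⁻¹ with hc
  have hcm : c ∈ commutator X := by
    have := Subgroup.commutator_mem_commutator (Subgroup.mem_top y) (Subgroup.mem_top x)
    rw [commutatorElement_def] at this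
    exact this
  have hc2 : c * c = 1 := by
    have := hel.2 c hcm
    rwa [pow_two] at this
  have hcc : ∀ g : X, g * c = c * g := fun g => Subgroup.mem_center_iff.mp (hcen hcm) g
  have hyx : y * x = c * (x * y) := by rw [hc]; group
  have h1 : y * (x * x) = (x * x) * y := by
    calc y * (x * x) = (y * x) * x := by group
      _ = c * (x * y) * x := by rw [hyx]
      _ = c * x * (y * x) := by group
      _ = c * x * (c * (x * y)) := by rw [hyx]
      _ = c * (x * c) * (x * y) := by group
      _ = c * (c * x) * (x * y) := by rw [hcc x]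
      _ = (c * c) * (x * x * y) := by group
      _ = (x * x) * y := by rw [hc2]; group
  have h2 : (x * y) * (x * y) = c * ((x * x) * (y * y)) := by
    calc (x * y) * (x * y) = x * (y * x) * y := by group
      _ = x * (c * (x * y)) * y := by rw [hyx]
      _ = (x * c) * (x * y) * y := by group
      _ = (c * x) * (x * y) * y := by rw [hcc x]
      _ = c * ((x * x) * (y * y)) := by group
  have h3 : (y * y) * (x * x) = (x * x) * (y * y) := by
    calc (y * y) * (x * x) = y * (y * (x * x)) := by group
      _ = y * ((x * x) * y) := by rw [h1]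
      _ = (y * (x * x)) * y := by group
      _ = (x * x) * (y * y) := by rw [h1]; group
  calc (x * y) ^ 4 = ((x * y) * (x * y)) * ((x * y) * (x * y)) := by
        simp only [pow_succ, pow_zero, one_mul, mul_assoc]
    _ = (c * ((x * x) * (y * y))) * (c * ((x * x) * (y * y))) := by rw [h2]
    _ = c * (((x * x) * (y * y)) * c) * ((x * x) * (y * y)) := by simp only [mul_assoc]
    _ = c * (c * ((x * x) * (y * y))) * ((x * x) * (y * y)) := by rw [hcc]
    _ = (c * c) * ((x * x) * ((y * y) * (x * x)) * (y * y)) := by simp only [mul_assoc]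
    _ = (x * x) * ((x * x) * (y * y)) * (y * y) := by rw [hc2, h3, one_mul]
    _ = x ^ 4 * y ^ 4 := by simp only [pow_succ, pow_zero, one_mul, mul_assoc]

/-- Let X be a finite 2-group whose derived subgroup is elementary abelian and central. Then the subgroup generated by the elements of order dividing 4 has exponent dividing 4, and every automorphism of X fixing each element of order dividing 4 has 2-power order. -/
theorem result {X : Type*} [Group X] [Finite X] (hX : IsPGroup 2 X)
    (hel : Cfsg.IsElementaryAbelian 2 (commutator X)) (hcen : commutator X ≤ Subgroup.center X) :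
    (∀ x ∈ Subgroup.closure {g : X | g ^ 4 = 1}, x ^ 4 = 1) ∧
      ∀ φ : MulAut X, (∀ g : X, g ^ 4 = 1 → φ g = g) → ∃ k : ℕ, φ ^ (2 ^ k) = 1 := by
  have hmul := pow_four_mul hel hcen
  constructor
  · intro x hx
    induction hx using Subgroup.closure_induction with
    | mem x hx => exact hx
    | one => simp
    | mul x y _ _ hx hy => rw [hmul, hx, hy, one_mul]
    | inv x _ hx => rw [inv_pow, hx, inv_one]
  · intro φ hφ
    have hφn : ∀ (n : ℕ) (g : X), g ^ 4 = 1 → (φ ^ n) g = g := by
      intro n g hg
      induction n with
      | zero => rfl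
      | succ n ih => rw [pow_succ, MulAut.mul_apply, hφ g hg, ih]
    have key : ∀ k : ℕ, ∀ x : X, x ^ (4 ^ k) = 1 → (φ ^ (4 ^ k)) x = x := by
      intro k
      induction k with
      | zero => intro x hx; simp at hx; simp [hx]
      | succ k ih =>
        intro x hx
        set ψ := φ ^ (4 ^ k) with hψ
        have h1 : ψ (x ^ 4) = x ^ 4 := ih _ (by rw [← pow_mul, ← pow_succ']; exact hx)
        set y := x⁻¹ * ψ x with hy
        have hy4 : y ^ 4 = 1 := by
          rw [hy, hmul, ← map_pow, h1, inv_pow, inv_mul_cancel]
        have hψy : ψ y = y := hφn _ _ hy4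
        have hψx : ψ x = x * y := by rw [hy]; group
        have hn : ∀ n : ℕ, (ψ ^ n) x = x * y ^ n := by
          intro n
          induction n with
          | zero => simp
          | succ n ihn =>
            rw [pow_succ', MulAut.mul_apply, ihn, map_mul, map_pow, hψy, hψx, pow_succ', mul_assoc]
        rw [pow_succ, pow_mul, ← hψ, hn, hy4, mul_one]
    obtain ⟨k, hk⟩ := IsPGroup.iff_card.mp hX
    refine ⟨2 * k, ?_⟩
    ext x
    rw [pow_mul]
    have : x ^ (4 ^ k) = 1 := by
      have h4 : (4 : ℕ) ^ k = 2 ^ k * 2 ^ k := by rw [← mul_pow]; rfl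
      have h5 : x ^ (2 ^ k) = 1 := by rw [← hk]; exact pow_card_eq_one'
      rw [h4, pow_mul, h5, one_pow]
    exact key k x this

end Cfsg.Agent.S1898
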