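import Cfsg.Statements.S1899
import Mathlib.Tactic.Group
import Mathlib.Tactic.Ring

set_option autoImplicit false
open Cfsg

namespace Cfsg.Agent.S1899

/-- Let a dihedral group of order 2n, n odd and n > 1, act on a finite abelian 2-group A through automorphisms d and t with d^n = 1, t² = 1 and t d t⁻¹ = d⁻¹, and suppose that d fixes only the identity. Then A is the internal direct product of C_A(t) and its image under d. -/
theorem result {A : Type*} [CommGroup A] [Finite A] (hA : IsPGroup 2 A)
    {n : ℕ} (hn : Odd n) (hn1 : 1 < n) (d t : MulAut A) (hd : d ^ n = 1) (ht : t ^ 2 = 1) (hdt : t * d * t⁻¹ = d⁻¹)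
    (hfix : ∀ a : A, d a = a → a = 1) :
    (MulEquiv.toMonoidHom t).eqLocus (MonoidHom.id A) ⊓ ((MulEquiv.toMonoidHom t).eqLocus (MonoidHom.id A)).map d.toMonoidHom = ⊥ ∧
      (MulEquiv.toMonoidHom t).eqLocus (MonoidHom.id A) ⊔ ((MulEquiv.toMonoidHom t).eqLocus (MonoidHom.id A)).map d.toMonoidHom = ⊤ := by
  set C := (MulEquiv.toMonoidHom t).eqLocus (MonoidHom.id A) with hC
  have hmemC : ∀ a : A, a ∈ C ↔ t a = a := fun a => Iff.rfl
  have htt : ∀ a : A, t (t a) = a := fun a => by
    have := congrArg (fun f : MulAut A => f a) ht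
    simpa [pow_two] using this
  have htd : ∀ a : A, d (t (d a)) = t a := fun a => by
    have h1 : t * d = d⁻¹ * t := by rw [← hdt]; group
    have h2 : d * (t * d) = t := by rw [h1]; group
    exact congrArg (fun f : MulAut A => f a) h2
  have hfix2 : ∀ a : A, d (d a) = a → a = 1 := by
    intro a ha
    apply hfix
    obtain ⟨m, hm⟩ := hn
    have h2 : ∀ k : ℕ, (d ^ (2 * k)) a = a := by
      intro k
      induction k with
      | zero => rfl
      | succ k ih =>
        rw [show 2 * (k + 1) = 2 * k + 1 + 1 by ring, pow_succ, pow_succ, MulAut.mul_apply, MulAut.mul_apply, ha, ih]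
    have h3 : (d ^ n) a = a := by rw [hd]; rfl
    rw [hm, pow_succ', MulAut.mul_apply, h2] at h3
    exact h3
  constructor
  · rw [eq_bot_iff]
    rintro a ⟨ha, c, hc, rfl⟩
    have ha' : t (d c) = d c := ha
    have hc' : t c = c := hc
    have h1 := htd c
    rw [ha', hc'] at h1
    have := hfix2 c h1
    subst this
    simp
  · rw [eq_top_iff]
    intro a _
    -- the map b ↦ b / d (d b) is injective hence surjective
    let f : A →* A := (MonoidHom.id A) / ((d * d : MulAut A) : A ≃* A).toMonoidHom
    have hf : ∀ b, f b = b / d (d b) := fun b => rfl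
    have hinj : Function.Injective f := by
      rw [injective_iff_map_eq_one]
      intro b hb
      rw [hf, div_eq_one] at hb
      exact hfix2 b hb.symm
    obtain ⟨b, rfl⟩ := (Finite.injective_iff_surjective.mp hinj) a
    rw [hf]
    have h1 : t b * b ∈ C := by
      rw [hmemC, map_mul, htt, mul_comm]
    have h2 : t b * d (d b) ∈ C.map d.toMonoidHom := by
      refine ⟨t (d b) * d b, ?_, ?_⟩
      · change t (t (d b) * d b) = t (d b) * d b
        rw [map_mul, htt, mul_comm]
      · change d (t (d b) * d b) = _
        rw [map_mul, htd]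
    have h3 : b / d (d b) = (t b * b) * (t b * d (d b))⁻¹ := by
      rw [mul_inv, div_eq_mul_inv, mul_comm (t b) b, mul_assoc, mul_inv_cancel_left]
    rw [h3]
    exact Subgroup.mul_mem _ (Subgroup.mem_sup_left h1) (Subgroup.inv_mem _ (Subgroup.mem_sup_right h2))

end Cfsg.Agent.S1899
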