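import Cfsg.Statements.S1900
import Cfsg.Agent.H46.Generation
import Cfsg.Agent.H72.Conj
import Cfsg.Agent.H1.NilComm
import Cfsg.Agent.H2.Basic
-- import your own Cfsg.Agent.* helpers here

set_option autoImplicit false
open Cfsg

namespace Cfsg.Agent.S1900

open Subgroup
open scoped commutatorElement

theorem commutator_le_iff {G : Type*} [Group G] (M : Subgroup G) [M.Normal] {D X : Subgroup G} :
    ⁅D, X⁆ ≤ M ↔ ⁅D.map (QuotientGroup.mk' M), X.map (QuotientGroup.mk' M)⁆ = ⊥ := by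
  rw [← map_commutator, Subgroup.map_eq_bot_iff, QuotientGroup.ker_mk']

theorem commutator_le_of_le_sup {G : Type*} [Group G] (M : Subgroup G) [M.Normal] {D X Y : Subgroup G}
    (hY : Y ≤ centralizer (X : Set G)) (h : D ≤ M ⊔ Y) : ⁅D, X⁆ ≤ M := by
  rw [commutator_le_iff, commutator_eq_bot_iff_le_centralizer]
  refine (map_mono h).trans ?_
  rw [Subgroup.map_sup, (Subgroup.map_eq_bot_iff M).mpr (QuotientGroup.ker_mk' M).ge, bot_sup_eq,
    ← commutator_eq_bot_iff_le_centralizer, ← map_commutator,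
    commutator_eq_bot_iff_le_centralizer.mpr hY, Subgroup.map_bot]

theorem step {G : Type*} [Group G] (M : Subgroup G) [M.Normal] {A B X : Subgroup G}
    (hA : A ≤ centralizer (X : Set G)) (hB : ⁅B, X⁆ = B) (h : ⁅⁅A, B⁆, X⁆ ≤ M) : ⁅A, B⁆ ≤ M := by
  rw [← hB, commutator_comm A, commutator_le_iff, map_commutator]
  rw [commutator_le_iff, map_commutator] at h
  refine commutator_commutator_eq_bot_of_rotate ?_ h
  rw [← map_commutator, commutator_comm X A, commutator_eq_bot_iff_le_centralizer.mpr hA,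
    Subgroup.map_bot, commutator_bot_left]

/-- Let S = PQ be a finite group with P a normal Sylow p-subgroup and Q elementary abelian of order q², q a prime different from p. If exactly two subgroups X₁, X₂ of order q in Q have a nontrivial centralizer in P, then P is the internal direct product of C_P(X₁) and C_P(X₂): they commute elementwise, meet trivially and generate P. -/
theorem result {S : Type*} [Group S] [Finite S] {p q : ℕ} [Fact p.Prime] [Fact q.Prime] (hpq : p ≠ q)
    (P : Sylow p S) [(P : Subgroup S).Normal] (Q : Subgroup S) (hQ : Cfsg.IsElementaryAbelian q Q) (hQc : Nat.card Q = q ^ 2)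
    (hS : (P : Subgroup S) ⊔ Q = ⊤)
    (X₁ X₂ : Subgroup S) (h₁ : X₁ ≤ Q) (h₂ : X₂ ≤ Q) (h₁₂ : X₁ ≠ X₂) (hc₁ : Nat.card X₁ = q) (hc₂ : Nat.card X₂ = q)
    (hf₁ : (P : Subgroup S) ⊓ Subgroup.centralizer (X₁ : Set S) ≠ ⊥)
    (hf₂ : (P : Subgroup S) ⊓ Subgroup.centralizer (X₂ : Set S) ≠ ⊥)
    (honly : ∀ X : Subgroup S, X ≤ Q → Nat.card X = q →
      (P : Subgroup S) ⊓ Subgroup.centralizer (X : Set S) ≠ ⊥ → X = X₁ ∨ X = X₂) :
    ⁅(P : Subgroup S) ⊓ Subgroup.centralizer (X₁ : Set S), (P : Subgroup S) ⊓ Subgroup.centralizer (X₂ : Set S)⁆ = ⊥ ∧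
      ((P : Subgroup S) ⊓ Subgroup.centralizer (X₁ : Set S)) ⊓ ((P : Subgroup S) ⊓ Subgroup.centralizer (X₂ : Set S)) = ⊥ ∧
      ((P : Subgroup S) ⊓ Subgroup.centralizer (X₁ : Set S)) ⊔ ((P : Subgroup S) ⊓ Subgroup.centralizer (X₂ : Set S)) = P := by
  have hq : q.Prime := Fact.out
  have hnd : ∀ R ≤ (P : Subgroup S), ¬ q ∣ Nat.card R := fun R hR h => by
    obtain ⟨k, hk⟩ := (P.isPGroup'.to_le hR).exists_card_eq
    rw [hk] at h
    exact hpq ((Nat.prime_dvd_prime_iff_eq hq Fact.out).mp (hq.dvd_of_dvd_pow h)).symm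
  have hQC : Q ≤ centralizer (Q : Set S) := fun a ha => mem_centralizer_iff.mpr fun b hb =>
    congrArg Subtype.val (hQ.1.1.comm (⟨b, hb⟩ : Q) ⟨a, ha⟩)
  have hN : ∀ X ≤ Q, Q ≤ normalizer ((centralizer (X : Set S) : Subgroup S) : Set S) := fun X hX =>
    H72.le_normalizer_centralizer ((hQC.trans (centralizer_le hX)).trans (centralizer_le_normalizer _))
  have hPn : ∀ Y : Subgroup S, Y ≤ normalizer ((P : Subgroup S) : Set S) := fun Y => by
    rw [normalizer_eq_top]; exact le_top
  have hgen : ∀ D ≤ (P : Subgroup S), Q ≤ normalizer (D : Set S) →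
      D ≤ D ⊓ centralizer (X₁ : Set S) ⊔ D ⊓ centralizer (X₂ : Set S) := fun D hD hQD => by
    refine H46.le_of_forall_hyperplane hQ (by
      rintro rfl
      rw [card_bot] at hQc
      exact (Nat.one_lt_pow two_ne_zero hq.one_lt).ne hQc) (hnd D hD) hQD fun B hB hi => ?_
    have h3 := H2.card_mul_relIndex_of_le hB
    rw [hi, hQc, pow_two] at h3
    by_cases h0 : (P : Subgroup S) ⊓ centralizer (B : Set S) = ⊥
    · exact (inf_le_inf_right _ hD).trans (h0.le.trans bot_le)
    · rcases honly B hB (Nat.eq_of_mul_eq_mul_right hq.pos h3) h0 with rfl | rfl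
      exacts [le_sup_left, le_sup_right]
  obtain ⟨X₃, h₃, h₃0⟩ : ∃ X₃ ≤ X₁ ⊔ X₂, (P : Subgroup S) ⊓ centralizer (X₃ : Set S) = ⊥ := by
    have hne : ∀ X Y : Subgroup S, Nat.card X = q → Nat.card Y = q → X ≠ Y → ∀ x ∈ X, x ∈ Y → x = 1 :=
      fun X Y hX hY hXY x hx hy => by
        by_contra h
        have key : ∀ Z : Subgroup S, Nat.card Z = q → x ∈ Z → zpowers x = Z := fun Z hZ hz =>
          eq_of_le_of_card_ge (zpowers_le.mpr hz) (by
            rw [hZ, Nat.card_zpowers, orderOf_eq_prime (p := q)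
              (orderOf_dvd_iff_pow_eq_one.mp (hZ ▸ orderOf_dvd_natCard _ hz)) h])
        exact hXY ((key X hX hx).symm.trans (key Y hY hy))
    have hex : ∀ X : Subgroup S, Nat.card X = q → ∃ x ∈ X, x ≠ 1 := fun X hX =>
      (bot_or_exists_ne_one X).resolve_left (by
        rintro rfl
        rw [card_bot] at hX
        exact hq.one_lt.ne hX)
    obtain ⟨x₁, a1, b1⟩ := hex X₁ hc₁
    obtain ⟨x₂, a2, b2⟩ := hex X₂ hc₂
    have c1 : x₁ * x₂ ∉ X₁ := fun h => b2 (hne X₂ X₁ hc₂ hc₁ h₁₂.symm x₂ a2 (by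
      simpa using mul_mem (inv_mem a1) h))
    have c2 : x₁ * x₂ ∉ X₂ := fun h => b1 (hne X₁ X₂ hc₁ hc₂ h₁₂ x₁ a1 (by
      simpa using mul_mem h (inv_mem a2)))
    refine ⟨zpowers (x₁ * x₂), zpowers_le.mpr (mul_mem_sup a1 a2), ?_⟩
    by_contra h0
    have hm := mul_mem (h₁ a1) (h₂ a2)
    rcases honly _ (zpowers_le.mpr hm) (by
      rw [Nat.card_zpowers, orderOf_eq_prime (hQ.2 _ hm) fun h => c1 (h ▸ one_mem _)]) h0 with h | h
    · exact c1 (h ▸ mem_zpowers _)
    · exact c2 (h ▸ mem_zpowers _)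
  set A := (P : Subgroup S) ⊓ centralizer (X₁ : Set S) with hA
  set B := (P : Subgroup S) ⊓ centralizer (X₂ : Set S) with hB
  have hAB : A ⊓ B = ⊥ := by
    rw [eq_bot_iff, ← h₃0]
    refine le_inf (inf_le_left.trans inf_le_left) (le_trans ?_ (centralizer_le h₃))
    rw [H72.centralizer_sup]
    exact inf_le_inf inf_le_right inf_le_right
  have hsup : A ⊔ B = P := le_antisymm (sup_le inf_le_left inf_le_left) (hgen _ le_rfl (hPn _))
  refine ⟨?_, hAB, hsup⟩
  have hQA : Q ≤ normalizer (A : Set S) := H72.le_normalizer_inf (hPn _) (hN _ h₁)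
  have hQB : Q ≤ normalizer (B : Set S) := H72.le_normalizer_inf (hPn _) (hN _ h₂)
  have hQp := H46.isPGroup_of_isElementaryAbelian hQ
  have hB1 : ⁅B, X₁⁆ = B := by
    have := H46.commutator_sup_centralizer (hQp.to_le h₁) (hnd B inf_le_left) (h₁.trans hQB)
    rwa [show B ⊓ centralizer (X₁ : Set S) = ⊥ from eq_bot_iff.mpr (hAB ▸ le_inf
      (inf_le_inf_right _ inf_le_left) inf_le_left), sup_bot_eq] at this
  have hA2 : ⁅A, X₂⁆ = A := by
    have := H46.commutator_sup_centralizer (hQp.to_le h₂) (hnd A inf_le_left) (h₂.trans hQA)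
    rwa [show A ⊓ centralizer (X₂ : Set S) = ⊥ from eq_bot_iff.mpr (hAB ▸ le_inf inf_le_left
      (inf_le_inf_right _ inf_le_left)), sup_bot_eq] at this
  set D := ⁅A, B⁆ with hD
  have hDP : D ≤ P := (commutator_mono inf_le_left inf_le_left).trans (commutator_le_left _ _)
  haveI hDn : D.Normal := by
    rw [← normalizer_eq_top_iff, eq_top_iff, ← hS, ← hsup]
    exact sup_le (sup_le (normalizer_commutator_ge_left A B) (normalizer_commutator_ge_right A B))
      (H72.le_normalizer_commutator hQA hQB)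
  have hQD : Q ≤ normalizer (D : Set S) := by rw [normalizer_eq_top]; exact le_top
  set N := ⁅D, (P : Subgroup S)⁆ with hN'
  have hNn : ∀ X ≤ Q, (N ⊔ D ⊓ centralizer (X : Set S)).Normal := fun X hX => by
    rw [← normalizer_eq_top_iff, eq_top_iff, ← hS]
    refine sup_le ?_ (H72.le_normalizer_sup (by rw [normalizer_eq_top]; exact le_top)
      (H72.le_normalizer_inf hQD (hN X hX)))
    rw [le_normalizer_iff_commutator_le_left]
    exact (commutator_mono (sup_le (commutator_le_left _ _) inf_le_left) le_rfl).trans le_sup_left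
  have hg := hgen D hDP hQD
  have e2 : D ≤ N ⊔ D ⊓ centralizer (X₂ : Set S) := by
    haveI := hNn X₂ h₂
    exact step _ inf_le_right hB1 (commutator_le_of_le_sup _ inf_le_right
      (hg.trans (sup_le le_sup_right (le_sup_right.trans le_sup_left))))
  have e1 : D ≤ N ⊔ D ⊓ centralizer (X₁ : Set S) := by
    haveI := hNn X₁ h₁
    conv_lhs => rw [hD, commutator_comm]
    refine step _ inf_le_right hA2 ?_
    rw [commutator_comm B A]
    exact commutator_le_of_le_sup _ inf_le_right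
      (hg.trans (sup_le (le_sup_right.trans le_sup_left) le_sup_right))
  have e3 : ⁅D, X₃⁆ ≤ N := by
    have f1 := commutator_le_of_le_sup N inf_le_right e1
    have f2 := commutator_le_of_le_sup N inf_le_right e2
    rw [commutator_le_iff, commutator_comm, commutator_eq_bot_iff_le_centralizer] at f1 f2 ⊢
    exact (map_mono h₃).trans (by rw [Subgroup.map_sup]; exact sup_le f1 f2)
  have hND : N ≤ D := commutator_le_left _ _
  have e4 := H46.le_sup_centralizer_of_commutator_le (hQp.to_le (h₃.trans (sup_le h₁ h₂)))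
    (hnd N (hND.trans hDP)) (by rw [normalizer_eq_top]; exact le_top) hND e3
  rw [show D ⊓ centralizer (X₃ : Set S) = ⊥ from eq_bot_iff.mpr (h₃0 ▸ inf_le_inf_right _ hDP),
    sup_bot_eq] at e4
  exact H1.eq_bot_of_le_commutator_of_nilpotent P.isPGroup'.isNilpotent hDP e4

end Cfsg.Agent.S1900
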