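import Cfsg.Statements.S1901
import Cfsg.Agent.H22.CoprimeQuot
import Cfsg.Agent.H72.SylowIn
import Cfsg.Agent.H4.CoprimeAut
-- import your own Cfsg.Agent.* helpers here

set_option autoImplicit false
open Cfsg

namespace Cfsg.Agent.S1901

open Subgroup in
theorem le_centralizer_of_sylow {G : Type*} [Group G] [Finite G] {p : ℕ} [Fact p.Prime]
    (P : Sylow p G) {R X : Subgroup G} (hP : (P : Subgroup G) ≤ centralizer (R : Set G))
    (hX : IsPGroup p X) (hXN : X ≤ normalizer (R : Set G)) : X ≤ centralizer (R : Set G) := by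
  obtain ⟨g, hg, h⟩ := (H72.isSylowIn_sylow P
    (hP.trans (centralizer_le_normalizer _))).exists_cj_le hX hXN
  rw [← H72.cj_eq_of_mem_normalizer (H72.normalizer_le_normalizer_centralizer R hg)] at hP
  exact (H72.cj_le_cj_iff g).mp (h.trans hP)

open Subgroup in
/-- Let G be a finite p-solvable group and Q a subgroup of order prime to p such that p divides the index of C_G(Q) in N_G(Q). Then Q normalizes no Sylow p-subgroup of G. -/
theorem result {G : Type*} [Group G] [Finite G] {p : ℕ} [Fact p.Prime]
    (hG : Cfsg.IsPSolvable p G) (Q : Subgroup G) (hQ : ¬ p ∣ Nat.card Q)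
    (hA : p ∣ (Subgroup.centralizer (Q : Set G)).relIndex (Subgroup.normalizer (Q : Set G)))
    (P : Sylow p G) : ¬ Q ≤ Subgroup.normalizer ((P : Subgroup G) : Set G) := by
  intro hQP
  obtain ⟨S, hS⟩ := H72.exists_isSylowIn p (normalizer (Q : Set G))
  refine hS.not_dvd_relIndex (hA.trans (relIndex_dvd_of_le_left _ fun x hx => ?_))
  have hQc : (Nat.card Q).Coprime p := ((Nat.Prime.coprime_iff_not_dvd Fact.out).mpr hQ).symm
  obtain ⟨n, H, h0, hl, hmono, hnorm, hstep⟩ := hG
  have hxQ : ∀ q ∈ Q, q⁻¹ * (x * q * x⁻¹) ∈ Q := fun q hq =>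
    mul_mem (inv_mem hq) (H72.conj_mem_of_mem_normalizer (hS.le hx) hq)
  have key : ∀ i, ∀ q ∈ Q, q⁻¹ * (x * q * x⁻¹) ∈ H i := by
    intro i
    induction i using Fin.reverseInduction with
    | last => intro q _; rw [hl]; trivial
    | cast i ih =>
      haveI := hnorm i.castSucc
      haveI := hnorm i.succ
      set π := QuotientGroup.mk' (H i.castSucc) with hπ
      have hπs : Function.Surjective π := QuotientGroup.mk'_surjective _
      have hcard : Nat.card ((H i.succ).map π) = (H i.castSucc).relIndex (H i.succ) := by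
        rw [← relIndex_ker, QuotientGroup.ker_mk']
      have hQ' := H22.coprime_card_map π hQc
      intro q hq
      rw [← QuotientGroup.eq_one_iff]
      change π _ = 1
      rcases hstep i with ⟨m, hm⟩ | hc
      · rw [← mem_bot, ← H22.inf_eq_bot_of_pgroup_coprime (IsPGroup.of_card (hcard.trans hm)) hQ']
        exact ⟨mem_map_of_mem π (ih q hq), mem_map_of_mem π (hxQ q hq)⟩
      · haveI : ((H i.succ).map π).Normal := Normal.map inferInstance π hπs
        have h1 : ((P.mapSurjective hπs : Sylow p _) : Subgroup _) ≤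
            centralizer (((Q ⊓ H i.succ).map π : Subgroup _) : Set (G ⧸ H i.castSucc)) := by
          rintro _ ⟨u, hu, rfl⟩
          rw [mem_centralizer_iff]
          rintro _ ⟨r, hr, rfl⟩
          rw [← mul_inv_eq_iff_eq_mul, ← mul_inv_eq_one, ← mem_bot,
            ← H22.inf_eq_bot_of_pgroup_coprime (P.isPGroup'.map π) (hcard ▸ hc)]
          simp only [← map_mul, ← map_inv]
          refine ⟨mem_map_of_mem π (mul_mem (H72.conj_mem_of_mem_normalizer (hQP hr.1) hu)
            (inv_mem hu)), mem_map_of_mem π ?_⟩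
          have := mul_mem hr.2 ((hnorm i.succ).conj_mem _ (inv_mem hr.2) u)
          simpa [mul_assoc] using this
        have h2 := le_centralizer_of_sylow _ h1 (hS.isPGroup.map π)
          ((map_mono (H72.le_normalizer_inf hS.le
            (by rw [normalizer_eq_top]; exact le_top))).trans (le_normalizer_map π))
        have h3 := mem_centralizer_iff.mp (h2 (mem_map_of_mem π hx)) _
          (mem_map_of_mem π (⟨hxQ q hq, ih q hq⟩ : _ ∈ Q ⊓ H i.succ))
        simp only [map_mul, map_inv] at h3 ⊢
        have h4 := H4.mulAut_apply_eq_of_fixed (MulAut.conj (π x)) (x := π q) (by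
          simp only [MulAut.conj_apply]
          rw [← h3]; group) (by
          obtain ⟨k, hk⟩ := IsPGroup.iff_orderOf.mp hS.isPGroup ⟨x, hx⟩
          rw [orderOf_mk] at hk
          refine Nat.Coprime.coprime_dvd_left ((orderOf_map_dvd _ _).trans
            ((orderOf_map_dvd _ _).trans hk.dvd)) (Nat.Coprime.pow_left _ ?_)
          refine Nat.Coprime.coprime_dvd_right ?_ hQ'.symm
          refine orderOf_dvd_natCard _ ?_
          simpa using mem_map_of_mem π (hxQ q hq))
        rw [MulAut.conj_apply] at h4
        rw [h4, inv_mul_cancel]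
  refine mem_centralizer_iff.mpr fun q hq => ?_
  have := key 0 q hq
  rw [h0, mem_bot, inv_mul_eq_one, eq_mul_inv_iff_mul_eq] at this
  exact this

end Cfsg.Agent.S1901
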