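import Cfsg.Statements.S1902
import Cfsg.Agent.H44.ThBender
import Cfsg.Agent.H22.PConstrained
import Cfsg.Agent.H72.SylowIn
import Cfsg.Agent.H46.Generation
-- import your own Cfsg.Agent.* helpers here

set_option autoImplicit false
open Cfsg

namespace Cfsg.Agent.S1902

open Subgroup in
/-- Let p be an odd prime, G a finite p-solvable group, and B an elementary abelian subgroup of order p² such that B is the subgroup generated by the elements of order p of some Sylow p-subgroup of C_G(b₀), for some nontrivial b₀ ∈ B. Then every B-invariant subgroup of G of order prime to p lies in O_{p'}(G). -/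
theorem result {G : Type*} [Group G] [Finite G] {p : ℕ} [Fact p.Prime] (hp : p ≠ 2)
    (hG : Cfsg.IsPSolvable p G) (B : Subgroup G) (hB : Cfsg.IsElementaryAbelian p B) (hBc : Nat.card B = p ^ 2)
    (b₀ : G) (hb₀ : b₀ ∈ B) (hb₁ : b₀ ≠ 1) (P : Sylow p ↥(Subgroup.centralizer ({b₀} : Set G)))
    (hBP : B = Subgroup.closure {x : G | x ∈ ((P : Subgroup ↥(Subgroup.centralizer ({b₀} : Set G))).map
      (Subgroup.centralizer ({b₀} : Set G)).subtype : Subgroup G) ∧ orderOf x = p})
    (Q : Subgroup G) (hQ : ¬ p ∣ Nat.card Q) (hinv : ∀ b ∈ B, ∀ x ∈ Q, b * x * b⁻¹ ∈ Q) :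
    Q ≤ Cfsg.pPrimeCore p G := by
  set π := QuotientGroup.mk' (pPrimeCore p G) with hπ
  have hπs : Function.Surjective π := QuotientGroup.mk'_surjective _
  have hk : (Nat.card π.ker).Coprime p := H22.coprime_ker_mk'
  have hBp := H46.isPGroup_of_isElementaryAbelian hB
  have hQ' : (Nat.card (Q.map π)).Coprime p :=
    H22.coprime_card_map π ((Nat.Prime.coprime_iff_not_dvd Fact.out).mpr hQ).symm
  have hBQ : B.map π ≤ normalizer ((Q.map π : Subgroup _) : Set (G ⧸ pPrimeCore p G)) :=
    (map_mono fun b hb => H72.mem_normalizer_of_conj_mem (hinv b hb)).trans (le_normalizer_map π)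
  set V := pCore p (G ⧸ pPrimeCore p G) with hV
  have hVn : ∀ X : Subgroup (G ⧸ pPrimeCore p G), X ≤ normalizer (V : Set (G ⧸ pPrimeCore p G)) :=
    fun X => by rw [normalizer_eq_top]; exact le_top
  have hbot := H22.inf_eq_bot_of_pgroup_coprime (H22.isPGroup_pCore (p := p)) hQ'
  have hP := H72.isSylowIn_map _ P
  generalize (P : Subgroup ↥(centralizer ({b₀} : Set G))).map (centralizer ({b₀} : Set G)).subtype
    = P₀ at hP hBP
  have hP' := hP.map π
  rw [← H72.centralizer_zpowers, H22.map_centralizer_of_ker_coprime π hπs hk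
    (hBp.to_le (zpowers_le.mpr hb₀))] at hP'
  have key := H44.thompson_bender hp (hBp.map π) ((Nat.Prime.coprime_iff_not_dvd Fact.out).mp hQ'.symm)
    hBQ H22.isPGroup_pCore (hVn _) (hVn _) (fun x hx hxp => by
      obtain ⟨y, hy, rfl⟩ := hP'.le_of_normalizes (Q := V ⊓ centralizer _)
        (H22.isPGroup_pCore.to_le inf_le_left) inf_le_right
        (H72.le_normalizer_inf (hVn _) (hP'.le.trans le_normalizer))
        (mem_inf.mpr ⟨hx.1, centralizer_le (map_mono (zpowers_le.mpr hb₀)) hx.2⟩)
      have h1 : y ^ p = 1 := by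
        rw [← mem_bot, ← H22.inf_eq_bot_of_pgroup_coprime hP.isPGroup hk]
        exact mem_inf.mpr ⟨pow_mem hy p, by rw [MonoidHom.mem_ker, map_pow, hxp]⟩
      have h2 : y ∈ B := by
        by_cases h : y = 1
        · rw [h]; exact one_mem _
        · rw [hBP]; exact subset_closure ⟨hy, orderOf_eq_prime h1 h⟩
      refine mem_centralizer_iff.mpr fun q hq => ?_
      rw [← mul_inv_eq_iff_eq_mul, ← mul_inv_eq_one, ← mem_bot, ← hbot]
      refine mem_inf.mpr ⟨mul_mem ((inferInstance : V.Normal).conj_mem _ hx.1 q) (inv_mem (mem_inf.mp hx).1), ?_⟩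
      have := mul_mem hq (H72.conj_mem_of_mem_normalizer (hBQ (mem_map_of_mem π h2)) (inv_mem hq))
      simpa [mul_assoc] using this)
  have h3 : Q.map π = ⊥ := eq_bot_iff.mpr
    (hbot ▸ le_inf (key.trans (H22.IsPSolvable.isCharP_quotient hG)) le_rfl)
  rwa [Subgroup.map_eq_bot_iff, hπ, QuotientGroup.ker_mk'] at h3

end Cfsg.Agent.S1902
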