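import Cfsg.Statements.S1906
import Mathlib.RepresentationTheory.Basic
import Mathlib.LinearAlgebra.Matrix.ToLin
import Mathlib.LinearAlgebra.Matrix.Determinant.Basic
import Mathlib.FieldTheory.Finite.Basic
import Cfsg.Agent.H3.PGroup
import Cfsg.Agent.H3.ClassTwo
import Cfsg.Agent.H43.Basic
import Cfsg.Agent.H61.WeakCl
import Cfsg.Agent.H75.Syl2
-- import your own Cfsg.Agent.* helpers here

set_option autoImplicit false
open Cfsg

namespace Cfsg.Agent.S1906

section LA
open Module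

variable {X : Type*} [Group X] {F : Type*} [Field F]

theorem split_of_compl {V : Type*} [AddCommGroup V] [Module F V] [FiniteDimensional F V]
    (ρ : Representation F X V) (hρ : Function.Injective ρ) {W₁ W₂ : Submodule F V}
    (h₁ : ∀ g, W₁ ≤ W₁.comap (ρ g)) (h₂ : ∀ g, W₂ ≤ W₂.comap (ρ g)) (hc : W₁ ⊔ W₂ = ⊤)
    (d₁ : finrank F W₁ = 1) (d₂ : finrank F W₂ = 2) :
    ∃ (l : X →* F) (r : X →* Matrix (Fin 2) (Fin 2) F), ∀ x, l x = 1 → r x = 1 → x = 1 := by
  let b₁ := finBasisOfFinrankEq F W₁ d₁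
  let b₂ := finBasisOfFinrankEq F W₂ d₂
  let r₁ : X →* Matrix (Fin 1) (Fin 1) F :=
    (LinearMap.toMatrixAlgEquiv b₁).toMonoidHom.comp (ρ.subrepresentation W₁ h₁)
  let r₂ : X →* Matrix (Fin 2) (Fin 2) F :=
    (LinearMap.toMatrixAlgEquiv b₂).toMonoidHom.comp (ρ.subrepresentation W₂ h₂)
  refine ⟨Matrix.detMonoidHom.comp r₁, r₂, fun x hx1 hx2 => hρ ?_⟩
  have e1 : r₁ x = 1 := by
    ext i j
    have : (r₁ x).det = 1 := hx1
    rw [Matrix.det_fin_one] at this
    rw [Subsingleton.elim i 0, Subsingleton.elim j 0, this, Matrix.one_apply_eq]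
  have f1 : ρ.subrepresentation W₁ h₁ x = 1 :=
    (LinearMap.toMatrixAlgEquiv b₁).injective (by rw [map_one]; exact e1)
  have f2 : ρ.subrepresentation W₂ h₂ x = 1 :=
    (LinearMap.toMatrixAlgEquiv b₂).injective (by rw [map_one]; exact hx2)
  rw [map_one]
  ext1 v
  obtain ⟨a, ha, b, hb, rfl⟩ := Submodule.mem_sup.mp (hc ▸ Submodule.mem_top : v ∈ W₁ ⊔ W₂)
  have g1 : ρ x a = a := congrArg Subtype.val (LinearMap.congr_fun f1 ⟨a, ha⟩)
  have g2 : ρ x b = b := congrArg Subtype.val (LinearMap.congr_fun f2 ⟨b, hb⟩)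
  rw [map_add, g1, g2]; rfl

theorem split_of_center (h2 : (2 : F) ≠ 0) {V : Type*} [AddCommGroup V] [Module F V]
    [FiniteDimensional F V] (hV : finrank F V = 3)
    (ρ : Representation F X V) (hρ : Function.Injective ρ) {z : X} (hz : ∀ g, g * z = z * g)
    (hz2 : z * z = 1) (hz1 : z ≠ 1) (hzm : ρ z ≠ -1) :
    ∃ (l : X →* F) (r : X →* Matrix (Fin 2) (Fin 2) F), ∀ x, l x = 1 → r x = 1 → x = 1 := by
  have hinv : ∀ (c : F) (g : X), LinearMap.ker (ρ z - c • 1) ≤
      (LinearMap.ker (ρ z - c • 1)).comap (ρ g) := fun c g v hv => by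
    simp only [Submodule.mem_comap, LinearMap.mem_ker, LinearMap.sub_apply, LinearMap.smul_apply,
      End.one_apply, sub_eq_zero] at hv ⊢
    rw [← End.mul_apply, ← map_mul, ← hz, map_mul, End.mul_apply, hv, map_smul]
  set W₁ := LinearMap.ker (ρ z - (1 : F) • 1)
  set W₂ := LinearMap.ker (ρ z - (-1 : F) • 1)
  have hzz : ∀ v, ρ z (ρ z v) = v := fun v => by
    rw [← End.mul_apply, ← map_mul, hz2, map_one, End.one_apply]
  have hsup : W₁ ⊔ W₂ = ⊤ := by
    refine eq_top_iff.mpr fun v _ => Submodule.mem_sup.mpr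
      ⟨(2 : F)⁻¹ • (v + ρ z v), ?_, (2 : F)⁻¹ • (v - ρ z v), ?_, ?_⟩
    · refine Submodule.smul_mem _ _ ?_
      simp [W₁, hzz, add_comm]
    · refine Submodule.smul_mem _ _ ?_
      simp [W₂, hzz]
    · rw [← smul_add, add_add_sub_cancel, ← two_smul F, smul_smul, inv_mul_cancel₀ h2, one_smul]
  have hinf : W₁ ⊓ W₂ = ⊥ := by
    refine eq_bot_iff.mpr fun v hv => ?_
    have a1 := hv.1
    have a2 := hv.2
    simp only [W₁, W₂, SetLike.mem_coe, LinearMap.mem_ker, LinearMap.sub_apply,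
      LinearMap.smul_apply, End.one_apply, sub_eq_zero, one_smul, neg_smul,
      LinearMap.neg_apply] at a1 a2
    rw [a1, eq_neg_iff_add_eq_zero, ← two_smul F] at a2
    exact (smul_eq_zero.mp a2).resolve_left h2
  have hd := Submodule.finrank_sup_add_finrank_inf_eq W₁ W₂
  rw [hsup, hinf, finrank_top, finrank_bot, hV] at hd
  have n1 : finrank F W₁ ≠ 3 := fun h => hz1 (hρ (by
    have := Submodule.eq_top_of_finrank_eq (h.trans hV.symm)
    rw [LinearMap.ker_eq_top, sub_eq_zero, one_smul] at this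
    rw [this, map_one]))
  have n2 : finrank F W₂ ≠ 3 := fun h => hzm (by
    have := Submodule.eq_top_of_finrank_eq (h.trans hV.symm)
    rw [LinearMap.ker_eq_top, sub_eq_zero, neg_smul, one_smul] at this
    exact this)
  by_cases h : finrank F W₁ = 1
  · have h' : finrank F W₂ = 2 := by omega
    exact split_of_compl ρ hρ (hinv 1) (hinv (-1)) hsup h h'
  · have h' : finrank F W₂ = 1 := by omega
    have h'' : finrank F W₁ = 2 := by omega
    exact split_of_compl ρ hρ (hinv (-1)) (hinv 1) (by rw [sup_comm, hsup]) h' h''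

/-- An involutory `2 × 2` matrix of determinant `1` is `± 1`. -/
theorem mat_pm (h2 : (2 : F) ≠ 0) {M : Matrix (Fin 2) (Fin 2) F} (h : M * M = 1)
    (hd : M.det = 1) : M = 1 ∨ M = -1 := by
  rw [Matrix.det_fin_two] at hd
  have e := fun i j => congrFun (congrFun h i) j
  have e00 := e 0 0
  have e01 := e 0 1
  have e10 := e 1 0
  have e11 := e 1 1
  simp [Matrix.mul_apply, Fin.sum_univ_two] at e00 e01 e10 e11
  have ht : M 0 0 + M 1 1 ≠ 0 := fun ht => h2 (by
    linear_combination (-1 : F) * e00 - hd + M 0 0 * ht)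
  have b0 : M 0 1 = 0 := (mul_eq_zero.mp (show M 0 1 * (M 0 0 + M 1 1) = 0 by
    linear_combination e01)).resolve_right ht
  have c0 : M 1 0 = 0 := (mul_eq_zero.mp (show M 1 0 * (M 0 0 + M 1 1) = 0 by
    linear_combination e10)).resolve_right ht
  have ad : M 1 1 = M 0 0 := by
    rw [b0] at e00 hd
    linear_combination M 0 0 * hd - M 1 1 * e00
  rcases mul_self_eq_one_iff.mp (show M 0 0 * M 0 0 = 1 by rw [b0] at e00; linear_combination e00)
    with h1 | h1
  · left; ext i j; fin_cases i <;> fin_cases j <;> simp [b0, c0, ad, h1]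
  · right; ext i j; fin_cases i <;> fin_cases j <;> simp [b0, c0, ad, h1]

theorem par {a1 a2 a3 b1 b2 u1 u2 u3 : F} (h : u1 = 0 → u2 = 0 → u3 = 0 → False)
    (a12 : a1 * u2 = u1 * a2) (a13 : a1 * u3 = u1 * a3) (a23 : a2 * u3 = u2 * a3)
    (b12 : b1 * u2 = u1 * b2) : a1 * b2 = b1 * a2 := by
  by_contra hc
  have hc' := sub_ne_zero.mpr hc
  exact h ((mul_eq_zero.mp (by linear_combination b1 * a12 - a1 * b12)).resolve_right hc')
    ((mul_eq_zero.mp (by linear_combination b2 * a12 - a2 * b12)).resolve_right hc')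
    ((mul_eq_zero.mp (by linear_combination b2 * a13 - a3 * b12 - b1 * a23)).resolve_right hc')

/-- Two `2 × 2` matrices commuting with `U` commute, unless `U` is central. -/
theorem mat_comm {U M N : Matrix (Fin 2) (Fin 2) F} (hM : M * U = U * M) (hN : N * U = U * N) :
    M * N = N * M ∨ ∀ P : Matrix (Fin 2) (Fin 2) F, P * U = U * P := by
  by_cases hU : U 0 1 = 0 ∧ U 1 0 = 0 ∧ U 1 1 = U 0 0
  · right
    intro P
    ext i j; fin_cases i <;> fin_cases j <;>
      simp [Matrix.mul_apply, Fin.sum_univ_two, hU.1, hU.2.1, hU.2.2, mul_comm]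
  left
  have m := fun i j => congrFun (congrFun hM i) j
  have n := fun i j => congrFun (congrFun hN i) j
  have m00 := m 0 0
  have m01 := m 0 1
  have m10 := m 1 0
  have n00 := n 0 0
  have n01 := n 0 1
  have n10 := n 1 0
  simp only [Matrix.mul_apply, Fin.sum_univ_two] at m00 m01 m10 n00 n01 n10
  have k1 : M 0 1 * N 1 0 = N 0 1 * M 1 0 := par (a3 := M 1 1 - M 0 0)
    (u1 := U 0 1) (u2 := U 1 0) (u3 := U 1 1 - U 0 0)
    (fun a b c => hU ⟨a, b, sub_eq_zero.mp c⟩) (by linear_combination m00)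
    (by linear_combination m01) (by linear_combination -m10) (by linear_combination n00)
  have k2 : M 0 1 * (N 1 1 - N 0 0) = N 0 1 * (M 1 1 - M 0 0) := par (a3 := M 1 0)
    (u1 := U 0 1) (u3 := U 1 0) (u2 := U 1 1 - U 0 0)
    (fun a c b => hU ⟨a, b, sub_eq_zero.mp c⟩) (by linear_combination m01)
    (by linear_combination m00) (by linear_combination m10) (by linear_combination n01)
  have k3 : M 1 0 * (N 1 1 - N 0 0) = N 1 0 * (M 1 1 - M 0 0) := par (a3 := M 0 1)
    (u3 := U 0 1) (u1 := U 1 0) (u2 := U 1 1 - U 0 0)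
    (fun b c a => hU ⟨a, b, sub_eq_zero.mp c⟩) (by linear_combination -m10)
    (by linear_combination -m00) (by linear_combination -m01) (by linear_combination -n10)
  ext i j; fin_cases i <;> fin_cases j <;> simp only [Matrix.mul_apply, Fin.sum_univ_two,
    Fin.zero_eta, Fin.mk_one, Fin.isValue]
  · linear_combination k1
  · linear_combination k2
  · linear_combination -k3
  · linear_combination -k1

end LA

section Grp
open Subgroup
open scoped commutatorElement

theorem card_le_two {H : Type*} [Group H] (S : Subgroup H) (a : H)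
    (h : ∀ x ∈ S, x = 1 ∨ x = a) : Nat.card S ≤ 2 := by
  have h1 : (S : Set H) ⊆ {1, a} := fun x hx => h x hx
  exact (Set.ncard_le_ncard h1 (Set.toFinite _)).trans
    ((Set.ncard_insert_le _ _).trans (by simp))

/-- The structure of a nonabelian `2`-subgroup of `GL₃` of rank three. -/
structure Data (P F : Type*) [Group P] [Field F] where
  l : P →* Fˣ
  d : P →* Fˣ
  m : P
  z : P
  A : Subgroup P
  m_comm : ∀ g, g * m = m * g
  z_comm : ∀ g, g * z = z * g
  m_sq : m * m = 1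
  z_sq : z * z = 1
  z_ne : z ≠ 1
  l_m : l m = -1
  d_m : d m = 1
  l_z : l z = 1
  d_z : d z = 1
  z_mem : ∃ a b : P, z = ⁅a, b⁆
  uniq : ∀ t, t * t = 1 → l t = 1 → d t = 1 → t = 1 ∨ t = z
  cent : ∀ t, t * t = 1 → (∀ g, g * t = t * g) → d t = 1
  A_comm : ∀ a ∈ A, ∀ b ∈ A, a * b = b * a
  A_mul : ∀ a ∉ A, ∀ b ∉ A, a * b ∈ A
  A_out : ∀ a ∉ A, ∃ u, u * a * u⁻¹ = a * z
  A_ne : ∃ a, a ∉ A

theorem exists_data {P F : Type*} [Group P] [Finite P] [Field F] (h2 : (2 : F) ≠ 0)
    (hP : IsPGroup 2 P) (hc : ¬ IsMulCommutative P) (l : P →* F)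
    (r : P →* Matrix (Fin 2) (Fin 2) F) (h : ∀ x, l x = 1 → r x = 1 → x = 1)
    (E : Subgroup P) (hE : ∀ e ∈ E, e * e = 1) (hE8 : Nat.card E = 8) : Nonempty (Data P F) := by
  have inj : ∀ a b, l a = l b → r a = r b → a = b := fun a b h1 h2 =>
    mul_inv_eq_one.mp (h _ (by rw [map_mul, h1, ← map_mul, mul_inv_cancel, map_one])
      (by rw [map_mul, h2, ← map_mul, mul_inv_cancel, map_one]))
  have comm : ∀ a b, r a * r b = r b * r a → a * b = b * a := fun a b h1 =>
    inj _ _ (by rw [map_mul, map_mul, mul_comm]) (by rw [map_mul, map_mul, h1])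
  set l' := l.toHomUnits
  set d' := (Matrix.detMonoidHom.comp r).toHomUnits
  have hl : ∀ x, l' x = 1 → l x = 1 := fun x hx => congrArg Units.val hx
  have hd : ∀ x, d' x = 1 ↔ (r x).det = 1 := fun x => Units.ext_iff
  have hpm : ∀ t, t * t = 1 → d' t = 1 → r t = 1 ∨ r t = -1 := fun t ht h1 =>
    mat_pm h2 (by rw [← map_mul, ht, map_one]) ((hd t).mp h1)
  obtain ⟨u, -, hu, hu2, huc⟩ := H3.exists_mem_central_mod hP (center P) ⊤ (fun h => hc
    ⟨⟨fun a b => (mem_center_iff.mp (h (mem_top b)) a)⟩⟩)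
  have hsq : ∀ g : P, ⁅u, g⁆ * ⁅u, g⁆ = 1 := fun g => by
    rw [← pow_two, ← H3.commutator_pow_left_of_commute (mem_center_iff.mp (huc g) u),
      commutatorElement_eq_one_iff_mul_comm, mem_center_iff.mp hu2 g]
  have hcl : ∀ (φ : P →* Fˣ) (a b : P), φ ⁅a, b⁆ = 1 := fun φ a b => by
    rw [map_commutatorElement, commutatorElement_eq_one_iff_mul_comm, mul_comm]
  obtain ⟨g₀, hg₀⟩ : ∃ g : P, ⁅u, g⁆ ≠ 1 := by
    by_contra hh
    push Not at hh
    exact hu (mem_center_iff.mpr fun g => (commutatorElement_eq_one_iff_mul_comm.mp (hh g)).symm)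
  set z := ⁅u, g₀⁆ with hz
  have hrz : r z = -1 := (hpm z (hsq g₀) (hcl _ _ _)).resolve_left fun h1 =>
    hg₀ (h _ (hl _ (hcl _ _ _)) h1)
  have uniq : ∀ t, t * t = 1 → l' t = 1 → d' t = 1 → t = 1 ∨ t = z := fun t ht h1 h3 =>
    (hpm t ht h3).imp (h t (hl t h1)) fun h4 =>
      inj _ _ ((hl t h1).trans (hl _ (hcl _ _ _)).symm) (h4.trans hrz.symm)
  have pm : ∀ (φ : P →* Fˣ) (t : P), t * t = 1 → φ t = 1 ∨ φ t = -1 := fun φ t ht => by
    have : (φ t : F) * φ t = 1 := by rw [← Units.val_mul, ← map_mul, ht, map_one, Units.val_one]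
    exact (mul_self_eq_one_iff.mp this).imp Units.ext Units.ext
  obtain ⟨m, hmE, hm1, hm2⟩ : ∃ m ∈ E, l' m = -1 ∧ d' m = 1 := by
    by_contra hh
    push Not at hh
    have e1 := card_le_two ((d'.comp E.subtype).ker.map E.subtype) z (by
      rintro _ ⟨e, he, rfl⟩
      exact uniq e (hE e e.2) ((pm l' e (hE e e.2)).resolve_right fun h1 => hh e e.2 h1 he) he)
    have e2 := card_le_two (d'.comp E.subtype).range (-1) (by
      rintro _ ⟨e, rfl⟩
      exact pm d' e (hE e e.2))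
    rw [card_subtype] at e1
    have e3 := (d'.comp E.subtype).ker.card_mul_index
    rw [index_ker, hE8] at e3
    nlinarith
  have scal : ∀ t, (r t = 1 ∨ r t = -1) → ∀ g, g * t = t * g := fun t ht g => comm _ _ (by
    rcases ht with ht | ht <;> simp [ht])
  have hout : ∀ a, a ∉ centralizer ({u} : Set P) → u * a * u⁻¹ = a * z := fun a ha => by
    have h1 : ⁅u, a⁆ = z := (uniq _ (hsq a) (hcl _ _ _) (hcl _ _ _)).resolve_left fun h1 =>
      ha (mem_centralizer_singleton_iff.mpr (commutatorElement_eq_one_iff_mul_comm.mp h1).symm)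
    rw [mem_center_iff.mp (huc g₀) a, ← hz, ← h1, commutatorElement_def]; group
  refine ⟨⟨l', d', m, z, centralizer {u}, scal m (hpm m (hE m hmE) hm2),
    mem_center_iff.mp (huc g₀), hE m hmE, hsq g₀, hg₀, hm1, hm2, hcl _ _ _, hcl _ _ _,
    ⟨u, g₀, rfl⟩, uniq, fun t ht htc => ?_, fun a ha b hb => ?_, fun a ha b hb => ?_,
    fun a ha => ⟨u, hout a ha⟩, ⟨g₀, fun h1 => hg₀ (commutatorElement_eq_one_iff_mul_comm.mpr
      (mem_centralizer_singleton_iff.mp h1).symm)⟩⟩⟩
  · rcases mat_comm (U := r t) (M := r u) (N := r g₀) (by rw [← map_mul, htc, map_mul])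
      (by rw [← map_mul, htc, map_mul]) with h1 | h1
    · exact absurd (commutatorElement_eq_one_iff_mul_comm.mpr (comm _ _ h1)) hg₀
    · have e1 := congrFun (congrFun (h1 !![0, 1; 0, 0]) 0) 1
      have e2 := congrFun (congrFun (h1 !![0, 1; 0, 0]) 0) 0
      have e3 := congrFun (congrFun (show r t * r t = 1 by rw [← map_mul, ht, map_one]) 0) 0
      simp [Matrix.mul_apply, Fin.sum_univ_two] at e1 e2 e3
      rw [hd, Matrix.det_fin_two, e1]
      rw [e2] at e3 ⊢
      linear_combination e3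
  · rcases mat_comm (U := r u) (M := r a) (N := r b)
      (by rw [← map_mul, mem_centralizer_singleton_iff.mp ha, map_mul])
      (by rw [← map_mul, mem_centralizer_singleton_iff.mp hb, map_mul]) with h1 | h1
    · exact comm _ _ h1
    · exact absurd (mem_center_iff.mpr fun g => comm _ _ (h1 _)) hu
  · rw [mem_centralizer_singleton_iff]
    have h1 : u * (a * b) * u⁻¹ = a * b := by
      calc u * (a * b) * u⁻¹ = (u * a * u⁻¹) * (u * b * u⁻¹) := by group
        _ = a * (z * b) * z := by rw [hout a ha, hout b hb]; group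
        _ = a * b * (z * z) := by
          rw [← mem_center_iff.mp (huc g₀) b, ← hz]; simp only [mul_assoc]
        _ = _ := by rw [hsq g₀, mul_one]
    exact (mul_inv_eq_iff_eq_mul.mp h1).symm

namespace Data

variable {P F : Type*} [Group P] [Field F] (D : Data P F)

theorem pm (φ : P →* Fˣ) {t : P} (ht : t * t = 1) : φ t = 1 ∨ φ t = -1 := by
  have : (φ t : F) * φ t = 1 := by rw [← Units.val_mul, ← map_mul, ht, map_one, Units.val_one]
  exact (mul_self_eq_one_iff.mp this).imp Units.ext Units.ext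

theorem mul_sq {a b : P} (ha : a * a = 1) (hb : b * b = 1) (h : a * b = b * a) :
    a * b * (a * b) = 1 := by
  calc a * b * (a * b) = a * (b * a) * b := by group
    _ = (a * a) * (b * b) := by rw [← h]; group
    _ = 1 := by rw [ha, hb, mul_one]

theorem conj_z {s : P} (hs : s * s = 1) (hc : ¬ ∀ g, g * s = s * g) : IsConj s (s * D.z) := by
  by_cases hA : s ∈ D.A
  · obtain ⟨x, hx⟩ := D.A_ne
    have h1 : x * s * x⁻¹ ∈ D.A := by
      have h2 : x * s ∉ D.A := fun h => hx (by simpa using D.A.mul_mem h (D.A.inv_mem hA))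
      exact D.A_mul _ h2 _ fun h => hx (by simpa using D.A.inv_mem h)
    have h3 : x * s * x⁻¹ * (x * s * x⁻¹) = 1 := by
      calc _ = x * (s * s) * x⁻¹ := by group
        _ = 1 := by rw [hs]; group
    have hφ : ∀ φ : P →* Fˣ, φ (s * (x * s * x⁻¹)) = 1 := fun φ => by
      rw [map_mul, map_mul, map_mul, map_inv, mul_inv_cancel_comm, ← map_mul, hs, map_one]
    rcases D.uniq _ (mul_sq hs h3 (D.A_comm _ hA _ h1)) (hφ _) (hφ _) with h | h
    · exfalso
      have h4 : x * s = s * x := mul_inv_eq_iff_eq_mul.mp (mul_left_cancel (h.trans hs.symm))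
      refine hc fun g => ?_
      by_cases hg : g ∈ D.A
      · exact D.A_comm _ hg _ hA
      · have h5 := D.A_comm _ (D.A_mul _ hx _ hg) _ hA
        rw [← mul_assoc, ← h4, mul_assoc, mul_assoc] at h5
        exact mul_left_cancel h5
    · exact isConj_iff.mpr ⟨x, by rw [← h, ← mul_assoc s, hs, one_mul]⟩
  · obtain ⟨u, hu⟩ := D.A_out s hA
    exact isConj_iff.mpr ⟨u, hu⟩

theorem d_eq (h2 : (-1 : Fˣ) ≠ 1) {s : P} (hs : s * s = 1) : D.d s = -1 ↔ ¬ ∀ g, g * s = s * g := by
  refine ⟨fun h hc => h2 (h ▸ D.cent s hs hc), fun hc => (pm D.d hs).resolve_left fun h => hc ?_⟩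
  have key : ∀ t, t * t = 1 → D.l t = 1 → D.d t = 1 → ∀ g, g * t = t * g := fun t a b c g => by
    rcases D.uniq t a b c with rfl | rfl
    · simp
    · exact D.z_comm g
  rcases pm D.l hs with h1 | h1
  · exact key s hs h1 h
  · intro g
    have := key (s * D.m) (mul_sq hs D.m_sq (D.m_comm s)) (by simp [h1, D.l_m]) (by simp [h, D.d_m]) g
    rw [mul_assoc, ← D.m_comm g, ← mul_assoc, ← mul_assoc] at this
    exact mul_right_cancel this

/-- reflections -/
def Rf (r : P) : Prop := r * r = 1 ∧ D.l r = 1 ∧ D.d r = -1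

theorem two_in (h2 : (-1 : Fˣ) ≠ 1) {a b : P} (ha : D.Rf a) (hb : D.Rf b) (haA : a ∈ D.A)
    (hbA : b ∈ D.A) : IsConj a b := by
  rcases D.uniq (a * b) (mul_sq ha.1 hb.1 (D.A_comm _ haA _ hbA)) (by simp [ha.2.1, hb.2.1])
    (by simp [ha.2.2, hb.2.2]) with h | h
  · rw [mul_left_cancel (h.trans ha.1.symm)]
  · have : b = a * D.z := by rw [← h, ← mul_assoc, ha.1, one_mul]
    rw [this]
    exact D.conj_z ha.1 ((D.d_eq h2 ha.1).mp ha.2.2)

theorem three_out [Finite P] {a b c : P} (ha : D.Rf a) (hb : D.Rf b) (hc : D.Rf c)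
    (haA : a ∉ D.A) (hbA : b ∉ D.A) (hcA : c ∉ D.A) : IsConj a b ∨ IsConj a c ∨ IsConj b c := by
  let U : Subgroup P :=
    { carrier := {x | x ∈ D.A ∧ D.l x = 1 ∧ D.d x = 1 ∧ a * x * a⁻¹ = x⁻¹}
      one_mem' := ⟨one_mem _, map_one _, map_one _, by simp⟩
      mul_mem' := fun {x y} hx hy => ⟨mul_mem hx.1 hy.1, by simp [hx.2.1, hy.2.1],
        by simp [hx.2.2.1, hy.2.2.1], by
          rw [D.A_comm _ hx.1 _ hy.1, mul_inv_rev, D.A_comm _ (inv_mem hx.1) _ (inv_mem hy.1),
            ← hx.2.2.2, ← hy.2.2.2]; group⟩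
      inv_mem' := fun {x} hx => ⟨inv_mem hx.1, by simp [hx.2.1], by simp [hx.2.2.1], by
          rw [← conj_inv, hx.2.2.2]⟩ }
  have hmem : ∀ {b}, D.Rf b → b ∉ D.A → a * b ∈ U := fun {b} hb hbA =>
    ⟨D.A_mul _ haA _ hbA, by simp [ha.2.1, hb.2.1], by simp [ha.2.2, hb.2.2], by
      rw [← mul_assoc, ha.1, one_mul, mul_inv_rev, inv_eq_of_mul_eq_one_right hb.1]⟩
  have : IsMulCommutative U := ⟨⟨fun x y => Subtype.ext (D.A_comm _ x.2.1 _ y.2.1)⟩⟩
  let sq : U →* U :=
    { toFun := fun x => x * x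
      map_one' := mul_one _
      map_mul' := fun x y => by
        rw [mul_assoc, ← mul_assoc y, this.1.1 y x]; simp only [mul_assoc] }
  have h1 := card_le_two (sq.ker.map U.subtype) D.z (by
    rintro _ ⟨x, hx, rfl⟩
    exact D.uniq x (congrArg Subtype.val (MonoidHom.mem_ker.mp hx)) x.2.2.1 x.2.2.2.1)
  rw [card_subtype] at h1
  have h3 : sq.range.index ≤ 2 := by
    have e1 := sq.ker.card_mul_index
    rw [index_ker, ← sq.range.card_mul_index, mul_comm] at e1
    rw [← Nat.eq_of_mul_eq_mul_left Nat.card_pos e1]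
    exact h1
  have key : ∀ {b c : P}, (∀ x ∈ U, b * x * b⁻¹ = x⁻¹) → ∀ x ∈ U, c = b * (x * x) → IsConj b c :=
    fun {b c} hb x hx e => isConj_iff.mpr ⟨x⁻¹, by
      rw [e, inv_inv, ← mul_assoc b, ← mul_inv_eq_iff_eq_mul.mp (hb x hx)]⟩
  have ha' : ∀ x ∈ U, a * x * a⁻¹ = x⁻¹ := fun x hx => hx.2.2.2
  by_cases e1 : (⟨_, hmem hb hbA⟩ : U) ∈ sq.range
  · obtain ⟨x, hx⟩ := e1
    exact Or.inl (key ha' x x.2 (by
      rw [show (x : P) * x = a * b from congrArg Subtype.val hx, ← mul_assoc, ha.1, one_mul]))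
  by_cases e2 : (⟨_, hmem hc hcA⟩ : U) ∈ sq.range
  · obtain ⟨x, hx⟩ := e2
    exact Or.inr (Or.inl (key ha' x x.2 (by
      rw [show (x : P) * x = a * c from congrArg Subtype.val hx, ← mul_assoc, ha.1, one_mul])))
  have h4 : sq.range.index = 2 := by
    have e3 : sq.range.index ≠ 1 := fun h => e1 (index_eq_one.mp h ▸ mem_top _)
    have e4 := sq.range.index_ne_zero_of_finite
    omega
  obtain ⟨x, hx⟩ := (mul_mem_iff_of_index_two h4).mpr
    (iff_of_false (fun h => e1 (inv_mem_iff.mp h)) e2)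
  refine Or.inr (Or.inr (key (fun y hy => ?_) x x.2 ?_))
  · have e3 : b = a * (a * b) := by rw [← mul_assoc, ha.1, one_mul]
    have e4 := D.A_comm _ (hmem hb hbA).1 _ hy.1
    calc b * y * b⁻¹ = a * (a * b * y) * (a * b)⁻¹ * a⁻¹ := by
          conv_lhs => rw [e3]
          group
      _ = a * y * a⁻¹ := by rw [e4]; group
      _ = _ := ha' y hy
  · rw [show (x : P) * x = (a * b)⁻¹ * (a * c) from congrArg Subtype.val hx]
    group

theorem four [Finite P] (h2 : (-1 : Fˣ) ≠ 1) {a b c d : P} (ha : D.Rf a) (hb : D.Rf b)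
    (hc : D.Rf c) (hd : D.Rf d) (ab : ¬ IsConj a b) (ac : ¬ IsConj a c) (ad : ¬ IsConj a d)
    (bc : ¬ IsConj b c) (bd : ¬ IsConj b d) (cd : ¬ IsConj c d) : False := by
  by_cases a1 : a ∈ D.A
  · exact (D.three_out hb hc hd (fun h => ab (D.two_in h2 ha hb a1 h))
      (fun h => ac (D.two_in h2 ha hc a1 h)) (fun h => ad (D.two_in h2 ha hd a1 h))).elim bc
      fun h => h.elim bd cd
  by_cases b1 : b ∈ D.A
  · exact (D.three_out ha hc hd a1 (fun h => bc (D.two_in h2 hb hc b1 h))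
      (fun h => bd (D.two_in h2 hb hd b1 h))).elim ac fun h => h.elim ad cd
  by_cases c1 : c ∈ D.A
  · exact (D.three_out ha hb hd a1 b1 (fun h => cd (D.two_in h2 hc hd c1 h))).elim ab
      fun h => h.elim ad bd
  · exact (D.three_out ha hb hc a1 b1 c1).elim ab fun h => h.elim ac bc

end Data

end Grp

section Fusion
open Subgroup
open scoped commutatorElement

variable {G : Type*} [Group G] [Finite G] {X : Sylow 2 G} {F : Type*} [Field F]

theorem thompson (hG : ∀ H : Subgroup G, H.index ≠ 2) (h2 : (-1 : Fˣ) ≠ 1)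
    (φ : (X : Subgroup G) →* Fˣ) {t : (X : Subgroup G)} (ht : t * t = 1) (hφ : φ t = -1) :
    ∃ s : (X : Subgroup G), IsConj (t : G) s ∧ φ s = 1 := by
  by_contra hh
  push Not at hh
  have ht' : (t : G) * t = 1 := congrArg Subtype.val ht
  have h1 := H43.transfer_eq_pow' φ.rangeRestrict (t : G) t.2 (fun k a h => Subtype.ext (by
    change φ _ = φ t ^ k
    rcases Nat.even_or_odd' k with ⟨j, rfl | rfl⟩
    · have e : (t : G) ^ (2 * j) = 1 := by rw [pow_mul, pow_two, ht', one_pow]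
      rw [hφ, pow_mul (-1 : Fˣ), neg_one_sq, one_pow, ← map_one φ]
      congr 1
      exact Subtype.ext (by simp [e])
    · have e : (t : G) ^ (2 * j + 1) = t := by
        rw [pow_succ, pow_mul, pow_two, ht', one_pow, one_mul]
      rw [hφ, pow_succ (-1 : Fˣ), pow_mul (-1 : Fˣ), neg_one_sq, one_pow, one_mul]
      refine (Data.pm φ (Subtype.ext ?_)).resolve_left (hh _ (isConj_iff.mpr ⟨a⁻¹, by simp [e]⟩))
      change a⁻¹ * _ * a * (a⁻¹ * _ * a) = 1
      rw [e]
      calc _ = a⁻¹ * ((t : G) * t) * a := by group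
        _ = 1 := by rw [ht']; group))
  have h3 : pResidual 2 G = ⊤ := by
    by_contra hne
    obtain ⟨M, -, hM⟩ := H3.pResidual_ne_top_iff.mp hne
    exact hG M hM
  rw [H3.eq_one_of_pResidual_eq_top h3 _ (X.isPGroup'.of_surjective _ φ.rangeRestrict_surjective)]
    at h1
  have h4 : φ t ^ (X : Subgroup G).index = 1 := congrArg Subtype.val h1.symm
  rw [hφ, (Nat.odd_iff.mpr (Nat.two_dvd_ne_zero.mp X.not_dvd_index)).neg_one_pow] at h4
  exact h2 h4

omit [Finite G] in
theorem mem_cent {t : (X : Subgroup G)} (h : ∀ g, g * t = t * g) :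
    (t : G) ∈ centralizer ((X : Subgroup G) : Set G) :=
  fun g hg => congrArg Subtype.val (h ⟨g, hg⟩)

theorem burnside {s t : (X : Subgroup G)} (hs : ∀ g, g * s = s * g) (ht : ∀ g, g * t = t * g)
    (h : IsConj (s : G) t) : ∃ n ∈ normalizer ((X : Subgroup G) : Set G), n * s * n⁻¹ = t := by
  obtain ⟨g, hg⟩ := isConj_iff.mp h
  obtain ⟨n, hn, e⟩ := H61.burnside_conj (H72.isSylowIn_top X) (mem_top g) (mem_cent hs)
    (hg ▸ mem_cent ht)
  exact ⟨n, hn.2, e.trans hg⟩

variable (D : Data (X : Subgroup G) F)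

omit [Finite G] in
theorem norm_z {n : G} (hn : n ∈ normalizer ((X : Subgroup G) : Set G)) :
    n * D.z * n⁻¹ = D.z := by
  let α := (X : Subgroup G).normalizerMonoidHom ⟨n, hn⟩
  have h1 : ∀ φ : (X : Subgroup G) →* Fˣ, φ (α D.z) = 1 := fun φ => by
    obtain ⟨a, b, h⟩ := D.z_mem
    rw [h, map_commutatorElement, map_commutatorElement, commutatorElement_eq_one_iff_mul_comm,
      mul_comm]
  rcases D.uniq (α D.z) (by rw [← map_mul, D.z_sq, map_one]) (h1 _) (h1 _) with h | h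
  · exact absurd (α.injective (h.trans (map_one α).symm)) D.z_ne
  · exact congrArg Subtype.val h

theorem eq_z {t : (X : Subgroup G)} (ht : ∀ g, g * t = t * g) (h : IsConj (D.z : G) t) :
    t = D.z := by
  obtain ⟨n, hn, e⟩ := burnside D.z_comm ht h
  exact Subtype.ext (e.symm.trans (norm_z D hn))

theorem not_conj_mul {t : (X : Subgroup G)} (ht : ∀ g, g * t = t * g) :
    ¬ IsConj (t : G) (t * D.z : (X : Subgroup G)) := by
  intro h
  obtain ⟨n, hn, e⟩ := burnside ht (fun g => by rw [← mul_assoc, ht, mul_assoc, D.z_comm g,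
    mul_assoc t]) h
  have hz := norm_z D hn
  have hzz : (D.z : G) * D.z = 1 := congrArg Subtype.val D.z_sq
  have h2 : n ^ 2 ∈ centralizer {(t : G)} := by
    rw [mem_centralizer_singleton_iff, ← mul_inv_eq_iff_eq_mul]
    calc n ^ 2 * t * (n ^ 2)⁻¹ = n * (n * t * n⁻¹) * n⁻¹ := by rw [pow_two]; group
      _ = (n * t * n⁻¹) * (n * D.z * n⁻¹) := by
          conv_lhs => rw [e]
          simp [mul_assoc]
      _ = t := by rw [e, hz]; simp [mul_assoc, hzz]
  have h3 := pow_index_mem (H := (X : Subgroup G).subgroupOf (normalizer ((X : Subgroup G) : Set G)))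
    ⟨n, hn⟩
  have h4 : Odd ((X : Subgroup G).subgroupOf (normalizer ((X : Subgroup G) : Set G))).index :=
    Odd.of_dvd_nat (Nat.odd_iff.mpr (Nat.two_dvd_ne_zero.mp X.not_dvd_index))
      (relIndex_dvd_index_of_le le_normalizer)
  obtain ⟨j, hj⟩ := h4
  rw [hj] at h3
  have h5 : n ^ (2 * j + 1) ∈ centralizer {(t : G)} :=
    mem_centralizer_singleton_iff.mpr (mem_cent ht _ h3)
  rw [pow_succ, pow_mul] at h5
  have h6 := mem_centralizer_singleton_iff.mp ((mul_mem_cancel_left (pow_mem h2 j)).mp h5)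
  rw [h6, mul_inv_cancel_right] at e
  exact D.z_ne (Subtype.ext (left_eq_mul.mp e))

/-- The key fusion step in an `E₈`. -/
theorem conj_mul (h2 : (-1 : Fˣ) ≠ 1) {s t : (X : Subgroup G)} (ht : ∀ g, g * t = t * g)
    (htl : D.l t = -1) (hs : s * s = 1) (hsd : D.d s = -1) (h : IsConj (t : G) s) :
    IsConj (D.z : G) (s * D.m : (X : Subgroup G)) := by
  have hsc := (D.d_eq h2 hs).mp hsd
  have cv : ∀ {a b : (X : Subgroup G)}, IsConj a b → IsConj (a : G) b := fun h =>
    (X : Subgroup G).subtype.map_isConj h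
  let Q : Subgroup G := (center (X : Subgroup G)).map (X : Subgroup G).subtype
  obtain ⟨g, hg, hQ⟩ := H75.exists_extremal_conj (p := 2) h.symm (T := X) (Q := Q)
    ((H4.isSylowIn_top X).mono (fun x hx => mem_centralizer_singleton_iff.mpr
      (mem_cent ht x hx)) le_top) (X.isPGroup'.to_le (map_subtype_le _)) (by
      rintro _ ⟨x, hx, rfl⟩
      exact mem_centralizer_singleton_iff.mpr (congrArg Subtype.val
        (mem_center_iff.mp hx s).symm))
  let ψ := MulAut.conj g
  have hz : ψ D.z ∈ (X : Subgroup G) := hQ _ ⟨_, mem_center_iff.mpr D.z_comm, rfl⟩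
  have hm : ψ D.m ∈ (X : Subgroup G) := hQ _ ⟨_, mem_center_iff.mpr D.m_comm, rfl⟩
  have hψ : ∀ x : G, IsConj x (ψ x) := fun x => isConj_iff.mpr ⟨g, rfl⟩
  have hst : ψ s = t := hg
  set z' : (X : Subgroup G) := ⟨_, hz⟩
  set m' : (X : Subgroup G) := ⟨_, hm⟩
  have sq : ∀ {a b : (X : Subgroup G)}, ψ a = b → a * a = 1 → b * b = 1 := fun {a b} e ha =>
    Subtype.ext (by rw [coe_mul, ← e, ← map_mul, ← coe_mul, ha]; simp)
  have hz' : D.d z' = -1 := (D.d_eq h2 (sq rfl D.z_sq)).mpr fun hc => by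
    have e := eq_z D hc (hψ _)
    refine not_conj_mul D ht (h.trans ((cv (D.conj_z hs hsc)).trans ?_))
    have := hψ (s * D.z : (X : Subgroup G))
    rwa [coe_mul, map_mul, hst, show ψ D.z = D.z from congrArg Subtype.val e] at this
  have htd : D.d t = 1 := D.cent t (sq hst hs) ht
  have key : ∀ a b : (X : Subgroup G), ψ a = b → a * a = 1 → a ≠ 1 → D.l b = 1 → D.d b = 1 →
      IsConj (D.z : G) a := fun a b e ha ha1 h3 h4 => by
    rcases D.uniq b (sq e ha) h3 h4 with h5 | h5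
    · exact absurd (Subtype.ext (ψ.injective (by rw [e, h5]; simp))) ha1
    · exact (h5 ▸ e ▸ hψ a : IsConj (a : G) D.z).symm
  have hsm : s * D.m * (s * D.m) = 1 := Data.mul_sq hs D.m_sq (D.m_comm s)
  have hsm' : D.d (s * D.m) = -1 := by simp [hsd, D.d_m]
  have hmz : D.m * D.z * (D.m * D.z) = 1 := Data.mul_sq D.m_sq D.z_sq (D.z_comm _)
  have n1 : ∀ a : (X : Subgroup G), D.l a = -1 → a ≠ 1 := fun a ha e => h2 (by
    rw [← ha, e, map_one])
  have n2 : ∀ a : (X : Subgroup G), D.d a = -1 → a ≠ 1 := fun a ha e => h2 (by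
    rw [← ha, e, map_one])
  have n3 : ∀ a : (X : Subgroup G), D.l a = -1 → (∀ g, g * a = a * g) → ¬ IsConj (D.z : G) a :=
    fun a ha hc e => h2 (by rw [← ha, eq_z D hc e, D.l_z])
  rcases Data.pm D.d (sq (a := D.m) (b := m') rfl D.m_sq) with e1 | e1
  · rcases Data.pm D.l (sq (a := D.m) (b := m') rfl D.m_sq) with e2 | e2
    · exact absurd (key D.m m' rfl D.m_sq (n1 _ D.l_m) e2 e1) (n3 _ D.l_m D.m_comm)
    · exact key _ (t * m') (by rw [coe_mul, map_mul, hst]; rfl) hsm (n2 _ hsm')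
        (by simp [htl, e2]) (by simp [htd, e1])
  · rcases Data.pm D.l (sq (a := D.m * D.z) (b := m' * z') (map_mul ψ _ _) hmz) with e2 | e2
    · exact absurd (key _ (m' * z') (map_mul ψ _ _) hmz (n1 _ (by simp [D.l_m, D.l_z])) e2
        (by simp [e1, hz'])) (n3 _ (by simp [D.l_m, D.l_z]) fun g => by
          rw [← mul_assoc, D.m_comm, mul_assoc, D.z_comm g, mul_assoc])
    · refine (key (s * D.m * D.z) (t * (m' * z')) (by
        rw [mul_assoc, coe_mul, map_mul, hst, coe_mul _ D.m, map_mul]; rfl)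
        (Data.mul_sq hsm D.z_sq (D.z_comm _)) (n2 _ (by rw [map_mul, hsm', D.d_z, mul_one]))
        (by rw [map_mul, htl, e2]; simp) (by simp [htd, e1, hz'])).trans ?_
      exact (cv (D.conj_z hsm ((D.d_eq h2 hsm).mp hsm'))).symm

theorem two_refl (hG : ∀ H : Subgroup G, H.index ≠ 2) (h2 : (-1 : Fˣ) ≠ 1) {t : (X : Subgroup G)}
    (ht : ∀ g, g * t = t * g) (ht2 : t * t = 1) (htl : D.l t = -1) :
    ∃ a b, D.Rf a ∧ D.Rf b ∧ IsConj (t : G) a ∧ IsConj (D.z : G) b ∧
      IsConj (t : G) (b * D.m : (X : Subgroup G)) := by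
  have sq : ∀ s : (X : Subgroup G), IsConj (t : G) s → s * s = 1 := fun s h => Subtype.ext (by
    obtain ⟨g, hg⟩ := isConj_iff.mp h
    rw [coe_mul, ← hg]
    calc _ = g * ((t * t : (X : Subgroup G)) : G) * g⁻¹ := by rw [coe_mul]; group
      _ = _ := by rw [ht2]; simp)
  have nz : ∀ s : (X : Subgroup G), IsConj (t : G) s → D.l s = 1 → D.d s = 1 → False :=
    fun s h h3 h4 => by
      rcases D.uniq s (sq s h) h3 h4 with rfl | rfl
      · rw [coe_one, isConj_one_left] at h
        exact h2 (by rw [← htl, show t = 1 from Subtype.ext h, map_one])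
      · exact h2 (by rw [← htl, eq_z D ht h.symm, D.l_z])
  obtain ⟨a, ha, ha1⟩ := thompson hG h2 D.l ht2 htl
  obtain ⟨b, hb, hb1⟩ := thompson hG h2 (D.l * D.d) ht2 (by simp [htl, D.cent t ht2 ht])
  have hbd : D.d b = -1 := (Data.pm D.d (sq b hb)).resolve_left fun h =>
    nz b hb (by simpa [h] using hb1) h
  have hbl : D.l b = -1 := (Data.pm D.l (sq b hb)).resolve_left fun h =>
    nz b hb h (by simpa [h] using hb1)
  exact ⟨a, b * D.m, ⟨sq a ha, ha1, (Data.pm D.d (sq a ha)).resolve_left (nz a ha ha1)⟩,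
    ⟨Data.mul_sq (sq b hb) D.m_sq (D.m_comm b), by simp [hbl, D.l_m], by simp [hbd, D.d_m]⟩, ha,
    conj_mul D h2 ht htl (sq b hb) hbd hb, by rwa [mul_assoc, D.m_sq, mul_one]⟩

include D in
theorem Data.false (hG : ∀ H : Subgroup G, H.index ≠ 2) (h2 : (-1 : Fˣ) ≠ 1) : False := by
  have cv : ∀ {a b : (X : Subgroup G)}, IsConj a b → IsConj (a : G) b := fun h =>
    (X : Subgroup G).subtype.map_isConj h
  have hn : ∀ g, g * (D.m * D.z) = D.m * D.z * g := fun g => by
    rw [← mul_assoc, D.m_comm, mul_assoc, D.z_comm g, mul_assoc]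
  have hl : D.l (D.m * D.z) = -1 := by simp [D.l_m, D.l_z]
  obtain ⟨a, b, ha, hb, a1, b1, b2⟩ := two_refl D hG h2 D.m_comm D.m_sq D.l_m
  obtain ⟨c, d, hc, hd, c1, d1, d2⟩ := two_refl D hG h2 hn
    (Data.mul_sq D.m_sq D.z_sq (D.z_comm _)) hl
  have n1 := not_conj_mul D D.m_comm
  have n2 : ¬ IsConj (D.z : G) D.m := fun e => h2 (by rw [← D.l_m, eq_z D D.m_comm e, D.l_z])
  have n3 : ¬ IsConj (D.z : G) (D.m * D.z : (X : Subgroup G)) := fun e =>
    h2 (by rw [← hl, eq_z D hn e, D.l_z])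
  refine D.four h2 ha hb hc hd (fun h => n2 (b1.trans ((cv h).symm.trans a1.symm)))
    (fun h => n1 (a1.trans ((cv h).trans c1.symm)))
    (fun h => n2 (d1.trans ((cv h).symm.trans a1.symm)))
    (fun h => n3 (b1.trans ((cv h).trans c1.symm))) (fun h => ?_)
    (fun h => n3 (d1.trans ((cv h).symm.trans c1.symm)))
  obtain ⟨x, hx⟩ := isConj_iff.mp h
  refine n1 (b2.trans ((cv (isConj_iff.mpr ⟨x, ?_⟩)).trans d2.symm))
  rw [← hx, mul_assoc _ x⁻¹, D.m_comm x⁻¹]
  simp only [mul_assoc]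

end Fusion

/-- Let G be a finite group with no subgroup of index 2 whose Sylow 2-subgroup X embeds in GL₃(F) for a finite field F of odd order. If X contains an elementary abelian subgroup of order 8, then X is abelian. -/
theorem result {G : Type*} [Group G] [Finite G] (hG : ∀ H : Subgroup G, H.index ≠ 2) (X : Sylow 2 G)
    {F : Type*} [Field F] [Fintype F] (hF : Odd (Fintype.card F))
    (f : ↥(X : Subgroup G) →* GL (Fin 3) F) (hf : Function.Injective f)
    (E : Subgroup G) (hE : E ≤ (X : Subgroup G)) (hEa : Cfsg.IsElementaryAbelian 2 E) (hE8 : Nat.card E = 8) :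
    IsMulCommutative (X : Subgroup G) := by
  by_contra hc
  have h2 : (2 : F) ≠ 0 := Ring.two_ne_zero fun hc => by
    have := FiniteField.even_card_of_char_two hc
    have := Nat.odd_iff.mp hF
    omega
  have h2' : (-1 : Fˣ) ≠ 1 := fun h => h2 (by
    have : (-1 : F) = 1 := congrArg Units.val h
    linear_combination -this)
  let E' := E.subgroupOf (X : Subgroup G)
  have hE' : ∀ e ∈ E', e * e = 1 := fun e he => Subtype.ext (by
    rw [Subgroup.coe_mul, ← pow_two]; exact hEa.2 _ he)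
  have hE8' : Nat.card E' = 8 := (Nat.card_congr (Subgroup.subgroupOfEquivOfLe hE).toEquiv).trans hE8
  let δ : (X : Subgroup G) →* Fˣ := Matrix.GeneralLinearGroup.det.comp f
  have hk : δ.ker ≠ ⊥ := fun h => by
    have e2 := card_le_two (E'.map δ) (-1) (by
      rintro _ ⟨e, he, rfl⟩
      exact Data.pm δ (hE' e he))
    rw [Subgroup.card_map_of_injective ((MonoidHom.ker_eq_bot_iff δ).mp h)] at e2
    omega
  obtain ⟨z, hz, hzc, hz2⟩ := H3.exists_mem_center_orderOf_eq X.isPGroup' δ.ker hk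
  let ρ : Representation F (X : Subgroup G) (Fin 3 → F) :=
    (Matrix.toLinAlgEquiv' (R := F) (n := Fin 3)).toMonoidHom.comp ((Units.coeHom _).comp f)
  have hρ : Function.Injective ρ := Matrix.toLinAlgEquiv'.injective.comp (Units.val_injective.comp hf)
  obtain ⟨l, r, h⟩ := split_of_center h2 (by simp) ρ hρ (Subgroup.mem_center_iff.mp hzc)
    (by have := pow_orderOf_eq_one z; rwa [hz2, pow_two] at this) (by rintro rfl; simp at hz2) (fun h => by
      have h1 : ((f z : GL (Fin 3) F) : Matrix (Fin 3) (Fin 3) F) = -1 :=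
        Matrix.toLinAlgEquiv'.injective (by rw [map_neg, map_one]; exact h)
      have h3 : ((f z : GL (Fin 3) F) : Matrix (Fin 3) (Fin 3) F).det = 1 :=
        congrArg Units.val (MonoidHom.mem_ker.mp hz)
      rw [h1, Matrix.det_neg] at h3
      exact h2 (by simp at h3; linear_combination -h3))
  obtain ⟨D⟩ := exists_data h2 X.isPGroup' hc l r h E' hE' hE8'
  exact D.false hG h2'

end Cfsg.Agent.S1906
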