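import Cfsg.Statements.S1924
import Cfsg.Agent.H60.OddPerm
import Cfsg.Agent.H72.SylowIn
import Cfsg.Agent.H2.Basic
import Cfsg.Agent.H42.Isolated
import Mathlib.GroupTheory.SpecificGroups.Dihedral
-- import your own Cfsg.Agent.* helpers here

set_option autoImplicit false
open Cfsg

namespace Cfsg.Agent.S1924

open Subgroup

theorem card_mul_card_le {G : Type*} [Group G] [Finite G] {T D U : Subgroup G} (h : D ⊓ T = ⊥)
    (hT : T ≤ U) (hD : D ≤ U) : ∃ f : T × D → U, Function.Injective f ∧ ∀ x, (f x : G) = x.1 * x.2 := by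
  refine ⟨fun x => ⟨x.1 * x.2, mul_mem (hT x.1.2) (hD x.2.2)⟩, fun a b hab => ?_, fun _ => rfl⟩
  have h1 : (a.1 : G) * a.2 = b.1 * b.2 := congrArg Subtype.val hab
  have h2 : (b.1 : G)⁻¹ * a.1 = b.2 * (a.2 : G)⁻¹ := by
    rw [inv_mul_eq_iff_eq_mul, ← mul_assoc, ← h1, mul_inv_cancel_right]
  have h3 : (b.1 : G)⁻¹ * a.1 ∈ D ⊓ T :=
    mem_inf.mpr ⟨h2 ▸ mul_mem b.2.2 (inv_mem a.2.2), mul_mem (inv_mem b.1.2) a.1.2⟩
  rw [h, mem_bot] at h3
  rw [h3, eq_comm, mul_inv_eq_one] at h2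
  exact Prod.ext (Subtype.ext (inv_mul_eq_one.mp h3).symm) (Subtype.ext h2.symm)

theorem orderOf_eq_two {n : ℕ} (hn : 2 ≤ n) (C : Subgroup (DihedralGroup n)) (hC : IsCyclic C)
    (hi : C.index = 2) {y : DihedralGroup n} (hy : y ∉ C) : orderOf y = 2 := by
  haveI : NeZero n := ⟨by omega⟩
  rcases y with i | i
  swap
  · exact DihedralGroup.orderOf_sr i
  obtain ⟨c, rfl⟩ := (Subgroup.isCyclic_iff_exists_zpowers_eq_top C).mp hC
  have h1 := (zpowers c).card_mul_index
  rw [hi, DihedralGroup.nat_card, Nat.card_zpowers] at h1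
  have h2 : orderOf c = n := by omega
  rcases c with j | j
  · exfalso
    have h3 : ∀ k : ZMod n, DihedralGroup.r k ∈ zpowers (DihedralGroup.r (1 : ZMod n)) := fun k =>
      ⟨(k.val : ℤ), by simp⟩
    have h4 : zpowers (DihedralGroup.r j) = zpowers (DihedralGroup.r (1 : ZMod n)) :=
      eq_of_le_of_card_ge (zpowers_le.mpr (h3 j)) (by
        rw [Nat.card_zpowers, Nat.card_zpowers, h2, DihedralGroup.orderOf_r_one])
    exact hy (h4 ▸ h3 i)
  · rw [DihedralGroup.orderOf_sr] at h2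
    subst h2
    haveI : Fact (Nat.Prime 2) := ⟨Nat.prime_two⟩
    refine orderOf_eq_prime ?_ (by rintro h; exact hy (h ▸ one_mem _))
    clear hy; revert i; decide

/-- A consequence of Thompson's transfer lemma. Let G be a finite group, L a subgroup with O²(L) = L, T a Sylow 2-subgroup of L and S a Sylow 2-subgroup of G containing T. Suppose D ≤ S is a dihedral subgroup of order at least 4 (the four-group counts) with D ∩ T = 1 and S = TD as a set of products (so |S| = |T|·|D|), and C ≤ D is cyclic of index 2 in D. If no involution of D outside C is G-conjugate to an involution of the subgroup generated by T and C, and the involution of C is not G-conjugate to any involution of T, then G has a normal subgroup K, containing every Sylow 2-subgroup of L as a Sylow 2-subgroup, with G = KD. -/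
theorem result {G : Type*} [Group G] [Finite G] (L T S D C : Subgroup G) (hL : Cfsg.pResidual 2 ↥L = ⊤)
    (hTL : T ≤ L) (hT2 : IsPGroup 2 T) (hTsyl : ¬ 2 ∣ T.relIndex L)
    (hS2 : IsPGroup 2 S) (hSsyl : ¬ 2 ∣ S.index) (hTS : T ≤ S)
    (hDS : D ≤ S) (hDih : ∃ n : ℕ, 2 ≤ n ∧ Nonempty (↥D ≃* DihedralGroup n)) (hDT : D ⊓ T = ⊥) (hTD : T ⊔ D = S) (hTDc : Nat.card T * Nat.card D = Nat.card S)
    (hCD : C ≤ D) (hC : IsCyclic ↥C) (hCi : C.relIndex D = 2)
    (h1 : ∀ x ∈ D, x ∉ C → orderOf x = 2 → ∀ g : G, g * x * g⁻¹ ∈ T ⊔ C → False)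
    (h2 : ∀ c ∈ C, orderOf c = 2 → ∀ g : G, g * c * g⁻¹ ∈ T → False) :
    ∃ K : Subgroup G, K.Normal ∧ K ⊔ D = ⊤ ∧
      ∀ T' : Subgroup G, T' ≤ L → IsPGroup 2 T' → ¬ 2 ∣ T'.relIndex L → T' ≤ K ∧ ¬ 2 ∣ T'.relIndex K := by
  haveI : Fact (Nat.Prime 2) := ⟨Nat.prime_two⟩
  set K := pResidual 2 G with hK
  have hLK : L ≤ K := by
    have := H3.map_subtype_pResidual_le (p := 2) L
    rwa [hL, ← MonoidHom.range_eq_map, range_subtype] at this
  have hTK := hTL.trans hLK
  have hcard : ∀ U : Subgroup G, T ≤ U → U ≤ S → Nat.card U = Nat.card T * Nat.card ↥(D ⊓ U) := by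
    intro U h3 h4
    obtain ⟨f, hf, hf'⟩ := card_mul_card_le hDT hTS hDS
    have hb := hf.bijective_of_nat_card_le (by rw [Nat.card_prod, hTDc])
    obtain ⟨g, hg, hg'⟩ := card_mul_card_le (D := D ⊓ U) (T := T) (U := U)
      (eq_bot_iff.mpr (hDT ▸ inf_le_inf_right _ inf_le_left)) h3 inf_le_right
    rw [← Nat.card_prod]
    refine (Nat.card_eq_of_bijective g ⟨hg, fun u => ?_⟩).symm
    obtain ⟨⟨t, d⟩, h5⟩ := hb.2 ⟨u, h4 u.2⟩
    have h6 : (t : G) * d = u := (hf' _).symm.trans (congrArg Subtype.val h5)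
    refine ⟨(t, ⟨d, mem_inf.mpr ⟨d.2, ?_⟩⟩), Subtype.ext ((hg' _).trans h6)⟩
    have := mul_mem (inv_mem (h3 t.2)) u.2
    rwa [← h6, inv_mul_cancel_left] at this
  have hinv : ∀ y ∈ D, y ∉ C → orderOf y = 2 := fun y hy hyC => by
    obtain ⟨n, hn, ⟨e⟩⟩ := hDih
    rw [← orderOf_mk (ha := hy), ← e.orderOf_eq]
    refine orderOf_eq_two hn ((C.subgroupOf D).map e.toMonoidHom) ?_ ?_ ?_
    · exact isCyclic_of_surjective ((e.subgroupMap (C.subgroupOf D)).toMonoidHom.comp
        (subgroupOfEquivOfLe hCD).symm.toMonoidHom)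
        ((e.subgroupMap _).surjective.comp (subgroupOfEquivOfLe hCD).symm.surjective)
    · rw [index_map_of_bijective e.bijective]; exact hCi
    · rintro ⟨z, hz, h⟩
      obtain rfl : z = ⟨y, hy⟩ := e.injective h
      exact hyC hz
  have hodd : Odd S.index := Nat.not_even_iff_odd.mp fun h => hSsyl h.two_dvd
  have hDK : D ⊓ K ≤ C := fun y hy => by
    by_contra hyC
    have hy2 := hinv y hy.1 hyC
    have hUS : T ⊔ C ≤ S := sup_le hTS (hCD.trans hDS)
    have h3 : D ⊓ (T ⊔ C) = C := le_antisymm (fun x hx => by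
      by_contra h
      exact h1 x hx.1 h (hinv x hx.1 h) 1 (by simpa using hx.2)) (le_inf hCD le_sup_right)
    have h4 := hcard _ le_sup_left hUS
    have h5 := H2.card_mul_relIndex_of_le hCD
    have h6 := H2.card_mul_relIndex_of_le hUS
    rw [h3] at h4
    rw [← hTDc, ← h5, hCi, h4, mul_assoc] at h6
    have h7 := Nat.eq_of_mul_eq_mul_left Nat.card_pos (Nat.eq_of_mul_eq_mul_left Nat.card_pos h6)
    refine H60.notMem_pResidual_two (T ⊔ C) (by rw [hy2]; decide) hodd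
      (by rw [hy2, ← h7, relIndex_mul_index hUS]) (fun k g hg => ?_) hy.2
    rw [← pow_mod_orderOf, hy2] at hg ⊢
    rcases Nat.mod_two_eq_zero_or_one k with h | h <;> rw [h] at hg ⊢
    · exact pow_zero _
    · exact (h1 y hy.1 hyC hy2 g (by rwa [pow_one] at hg)).elim
  obtain ⟨S', rfl⟩ := (H72.isSylowIn_of_not_dvd_relIndex hS2 le_top
    (by rwa [relIndex_top_right])).exists_sylow_top
  have hSK := (H72.isSylowIn_top S').inf_normal (N := K) le_top (by rw [normalizer_eq_top])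
  have hc := hcard _ (le_inf hTS hTK) inf_le_left
  rw [← inf_assoc, inf_of_le_left hDS] at hc
  have hDK0 : D ⊓ K = ⊥ := by
    haveI := hC
    obtain ⟨c, hc0⟩ := (Subgroup.isCyclic_iff_exists_zpowers_eq_top _).mp (isCyclic_of_le hDK)
    have hcD : c ∈ D ⊓ K := hc0 ▸ mem_zpowers c
    have hev : ∀ x ∈ D, x ≠ 1 → Even (orderOf x) := fun x hx hx1 => by
      obtain ⟨k, hk⟩ := IsPGroup.iff_orderOf.mp hS2 ⟨x, hDS hx⟩
      rw [orderOf_mk] at hk
      rw [hk, Nat.even_pow]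
      refine ⟨by decide, ?_⟩
      rintro rfl
      exact hx1 (orderOf_eq_one_iff.mp hk)
    by_contra h0
    refine H60.notMem_pResidual_two (T.subgroupOf K) (c := ⟨c, hcD.2⟩)
      (r := ((S' : Subgroup G) ⊓ K).relIndex K) ?_
      (Nat.not_even_iff_odd.mp fun h => hSK.not_dvd_relIndex h.two_dvd) ?_ (fun k g hg => ?_)
      (by rw [H3.pResidual_pResidual]; trivial)
    · rw [orderOf_mk]
      exact hev c hcD.1 (by rintro rfl; exact h0 (by rw [← hc0, zpowers_one_eq_bot]))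
    · have h3 := H2.card_mul_relIndex_of_le (le_inf hTS hTK)
      rw [hc, ← hc0, Nat.card_zpowers] at h3
      rw [orderOf_mk, ← Nat.eq_of_mul_eq_mul_left Nat.card_pos h3,
        relIndex_mul_relIndex _ _ _ (le_inf hTS hTK) inf_le_right]
      rfl
    · by_contra h
      have h3 : c ^ k ≠ 1 := fun h' => h (Subtype.ext h')
      obtain ⟨m, hm⟩ := hev _ (pow_mem hcD.1 k) h3
      have h4 : orderOf ((c ^ k) ^ m) = 2 := by
        have hm0 : m ≠ 0 := by rintro rfl; exact (orderOf_pos _).ne' hm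
        rw [orderOf_pow' _ hm0, hm, ← two_mul, Nat.gcd_mul_left_left, Nat.mul_div_cancel _ (by omega)]
      refine h2 _ (hDK (pow_mem (pow_mem hcD k) m)) h4 g ?_
      rw [← conj_pow]
      exact pow_mem (mem_subgroupOf.mp hg) m
  rw [hDK0, card_bot, mul_one] at hc
  refine ⟨K, inferInstance, ?_, fun T' h3 h4 h5 => ⟨h3.trans hLK, ?_⟩⟩
  · rw [eq_top_iff, ← H3.sylow_sup_pResidual S', ← hTD]
    exact sup_le (sup_le (hTK.trans le_sup_left) le_sup_right) le_sup_left
  · refine (hSK.of_card_le h4 (h3.trans hLK) ?_).not_dvd_relIndex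
    rw [hc, (H72.isSylowIn_of_not_dvd_relIndex hT2 hTL hTsyl).card_eq
      (H72.isSylowIn_of_not_dvd_relIndex h4 h3 h5)]

end Cfsg.Agent.S1924
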