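import Cfsg.Statements.S1935
import Cfsg.Agent.H67.OffGrp
import Cfsg.Agent.H21.ElemMod
import Cfsg.Agent.S0599

set_option autoImplicit false
open Cfsg

namespace Cfsg.Agent.S1935

open Subgroup Module Cfsg.Agent.H21 Cfsg.Agent.H21.EA Cfsg.Agent.H67Off
open scoped commutatorElement

section
variable {Ω : Type*} [Group Ω] [Finite Ω] {p : ℕ} [Fact p.Prime] {V G : Subgroup Ω} {hV : IsElementaryAbelian p V}
  {hGV : G ≤ normalizer (V : Set Ω)} {Y : Submodule (ZMod p) (Module.End (ZMod p) (EA V hV))}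

theorem mem_fix (q : Qd (MonoidHom.mrange (rep hV hGV)) Y) {x : EA V hV} :
    x ∈ sub hV (V ⊓ centralizer (q.grp.map G.subtype : Set Ω)) ↔ ∀ α ∈ Y, α x = 0 := by
  rw [mem_sub]
  constructor
  · rintro ⟨-, h⟩ α ha
    obtain ⟨g, hg, rfl⟩ := q.ex ha
    rw [LinearMap.sub_apply, (rep_apply_eq_self_iff hGV g x).2 (h _ ⟨g, hg, rfl⟩), Module.End.one_apply, _root_.sub_self]
  · refine fun h => ⟨val_mem x, ?_⟩
    rintro _ ⟨g, hg, rfl⟩
    exact (rep_apply_eq_self_iff hGV g x).1 (sub_eq_zero.1 (h _ hg))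

theorem finrank_ann (q : Qd (MonoidHom.mrange (rep hV hGV)) Y) :
    finrank (ZMod p) (ann Y) = finrank (ZMod p) (EA V hV) *
      finrank (ZMod p) (sub hV (V ⊓ centralizer (q.grp.map G.subtype : Set Ω))) := by
  have hK := fun x => mem_fix q (x := x)
  generalize sub hV (V ⊓ centralizer (q.grp.map G.subtype : Set Ω)) = K at hK
  have e : LinearMap.range (LinearMap.compRight (M := EA V hV) (ZMod p) K.subtype) = ann Y := by
    ext φ
    constructor
    · rintro ⟨ψ, rfl⟩ α ha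
      exact LinearMap.ext fun x => (hK _).1 (ψ x).2 α ha
    · intro h
      exact ⟨φ.codRestrict K fun x => (hK _).2 fun α ha => LinearMap.congr_fun (h α ha) x, rfl⟩
  rw [← e, LinearMap.finrank_range_of_inj, Module.finrank_linearMap]
  intro a b h
  exact LinearMap.ext fun x => Subtype.ext (LinearMap.congr_fun h x)

theorem card_grp (q : Qd (MonoidHom.mrange (rep hV hGV)) Y) (hf : G ⊓ centralizer (V : Set Ω) = ⊥) :
    Nat.card (q.grp.map G.subtype) = p ^ finrank (ZMod p) Y := by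
  rw [card_map_of_injective G.subtype_injective, q.card_grp (rep_injective hGV hf),
    Module.natCard_eq_pow_finrank (K := ZMod p), Nat.card_zmod]

theorem exists_qd {B : Subgroup Ω} (hB : B ≤ G) (h : ⁅⁅V, B⁆, B⁆ = ⊥) (hf : G ⊓ centralizer (V : Set Ω) = ⊥) :
    ∃ (Y : Submodule (ZMod p) (Module.End (ZMod p) (EA V hV))) (q : Qd (MonoidHom.mrange (rep hV hGV)) Y),
      q.grp.map G.subtype = B := by
  have sq := fun (a b : G) (ha : (a : Ω) ∈ B) (hb : (b : Ω) ∈ B) => rep_sub_one_mul_eq_zero (hV := hV) hGV h ha hb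
  refine ⟨AddSubgroup.toZModSubmodule p
    { carrier := {α | ∃ b : G, (b : Ω) ∈ B ∧ α = rep hV hGV b - 1}
      zero_mem' := ⟨1, one_mem _, by simp⟩
      add_mem' := ?_
      neg_mem' := ?_ }, ⟨?_, ?_⟩, ?_⟩
  · rintro _ _ ⟨a, ha, rfl⟩ ⟨b, hb, rfl⟩
    refine ⟨a * b, mul_mem ha hb, ?_⟩
    rw [← add_zero (_ + _), ← sq b a hb ha, map_mul]; noncomm_ring
  · rintro _ ⟨a, ha, rfl⟩
    exact ⟨a⁻¹, inv_mem ha, by rw [rho_inv (sq a a ha ha), sub_sub_cancel_left]⟩
  · rintro _ ⟨a, ha, rfl⟩ _ ⟨b, hb, rfl⟩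
    exact sq b a hb ha
  · rintro _ ⟨a, -, rfl⟩
    exact ⟨a, by rw [add_sub_cancel]⟩
  · ext x
    constructor
    · rintro ⟨a, ⟨b, hb, e⟩, rfl⟩
      rwa [rep_injective hGV hf (sub_left_injective e)]
    · exact fun hx => ⟨⟨x, hB hx⟩, ⟨_, hx, rfl⟩, rfl⟩

theorem exists_filt (hG : IsPGroup p G) : ∃ (Fl : ℕ → Submodule (ZMod p) (Module.End (ZMod p) (EA V hV))) (N : ℕ),
    Antitone Fl ∧ Fl N = ⊥ ∧ (∀ g, rep hV hGV g - 1 ∈ Fl 0) ∧
      ∀ g i, ∀ φ ∈ Fl i, (rep hV hGV g - 1) * φ ∈ Fl (i + 1) ∧ φ * (rep hV hGV g - 1) ∈ Fl (i + 1) := by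
  have hP := (H46.isPGroup_of_isElementaryAbelian hV).to_sup_of_normal_left' hG hGV
  obtain ⟨N, hN⟩ := (isNilpotent_iff_lowerCentralSeries _).1 hP.isNilpotent
  have an := Subgroup.lowerCentralSeries_antitone (V ⊔ G)
  have st : ∀ (g : G) j x, x ∈ sub hV ((V ⊔ G).lowerCentralSeries j) →
      (rep hV hGV g - 1) x ∈ sub hV ((V ⊔ G).lowerCentralSeries (j + 1)) := fun g j x hx => by
    rw [mem_sub, val_rep_sub_one, Subgroup.lowerCentralSeries_succ, commutator_comm]
    exact commutator_mem_commutator (mem_sup_right g.2) hx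
  refine ⟨fun i =>
    { carrier := {φ | ∀ j x, x ∈ sub hV ((V ⊔ G).lowerCentralSeries j) →
        φ x ∈ sub hV ((V ⊔ G).lowerCentralSeries (j + i))}
      zero_mem' := fun j x _ => zero_mem _
      add_mem' := fun ha hb j x hx => add_mem (ha j x hx) (hb j x hx)
      smul_mem' := fun r φ h j x hx => Submodule.smul_mem _ r (h j x hx) }, N,
    fun i i' hi φ h j x hx => sub_mono (an (by omega)) (h j x hx), ?_,
    fun g j x hx => sub_mono (an (by omega)) (st g j x hx),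
    fun g i φ h => ⟨fun j x hx => st g _ _ (h j x hx), fun j x hx => ?_⟩⟩
  · refine (Submodule.eq_bot_iff _).2 fun φ h => LinearMap.ext fun x => ?_
    have := h 0 x (mem_sup_left (val_mem x))
    rwa [zero_add, hN, sub_bot] at this
  · have := h _ _ (st g j x hx)
    rwa [add_assoc, add_comm 1 i] at this

end

/-- Let p ≥ 5 be a prime and, inside an ambient finite group, let G be a p-subgroup acting faithfully by conjugation on an elementary abelian p-subgroup V that it normalizes (only the identity of G centralizes V). Suppose V is an F-module for G: some nontrivial elementary abelian subgroup E of G satisfies #E · #C_V(E) ≥ #V. Then G contains such an offender A that moreover acts quadratically on V ([V, A, A] = 1) and is normal in its normal closure in G. -/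
theorem result {Ω : Type*} [Group Ω] [Finite Ω] (p : ℕ) [Fact p.Prime] (hp : 5 ≤ p) (V G : Subgroup Ω) (hV : Cfsg.IsElementaryAbelian p V) (hG : IsPGroup p ↥G) (hGV : G ≤ Subgroup.normalizer (V : Set Ω)) (hfaith : G ⊓ Subgroup.centralizer (V : Set Ω) = ⊥) (hF : ∃ E : Subgroup Ω, E ≤ G ∧ E ≠ ⊥ ∧ Cfsg.IsElementaryAbelian p E ∧ Nat.card ↥V ≤ Nat.card ↥E * Nat.card ↥(V ⊓ Subgroup.centralizer (E : Set Ω))) : ∃ A : Subgroup Ω, A ≤ G ∧ A ≠ ⊥ ∧ Cfsg.IsElementaryAbelian p A ∧ Nat.card ↥V ≤ Nat.card ↥A * Nat.card ↥(V ⊓ Subgroup.centralizer (A : Set Ω)) ∧ ⁅⁅V, A⁆, A⁆ = ⊥ ∧ ∀ g ∈ Subgroup.closure {x : Ω | ∃ h ∈ G, ∃ a ∈ A, x = h * a * h⁻¹}, ∀ a ∈ A, g * a * g⁻¹ ∈ A := by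
  obtain ⟨E, hEG, hE1, hE, hEV⟩ := hF
  have hp1 : 1 < p := by omega
  have nt : ∀ {A : Subgroup Ω}, A ≤ G → ⁅V, A⁆ = ⊥ → A = ⊥ := fun hA h =>
    eq_bot_iff.2 (hfaith ▸ le_inf hA (le_centralizer_iff.1 (commutator_eq_bot_iff_le_centralizer.1 h)))
  obtain ⟨A, ⟨hA1, hA2⟩, hmax⟩ := Set.exists_max_image {A : Subgroup Ω | A ≤ E ∧ A ≠ ⊥}
    (fun A => Nat.card A * Nat.card ↥(V ⊓ centralizer (A : Set Ω))) (Set.toFinite _) ⟨E, le_rfl, hE1⟩
  have hAV := hEV.trans (hmax E ⟨le_rfl, hE1⟩)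
  have hb : Nat.card (⊥ : Subgroup Ω) * Nat.card ↥(V ⊓ centralizer ((⊥ : Subgroup Ω) : Set Ω)) = Nat.card V := by
    rw [card_bot, one_mul, inf_eq_left.2]
    intro v _ x hx
    rw [mem_bot.1 hx, one_mul, mul_one]
  have best : IsBestOffenderOn p V A := by
    refine ⟨fun B hB => ?_, ?_, fun a ha => by rw [hE.2 a (hA1 ha)]; exact one_mem _⟩
    · by_cases h : B = ⊥
      · rw [h, hb]
        exact hAV
      · exact hmax B ⟨hB.trans hA1, h⟩
    · rw [commutator_eq_bot_iff_le_centralizer.2]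
      · exact bot_le
      · have := hE.1
        exact fun a ha b hb => mul_comm_of_mem_isMulCommutative E (hA1 hb) (hA1 ha)
  obtain ⟨t1, -, t3⟩ := S0599.result V A hV ((hA1.trans hEG).trans hGV) best V le_rfl
  have t4 := t3 fun h => hA2 (nt (hA1.trans hEG) h)
  have t5 : ⁅⁅V, A ⊓ centralizer ((⁅V, A⁆ : Subgroup Ω) : Set Ω)⁆, A ⊓ centralizer ((⁅V, A⁆ : Subgroup Ω) : Set Ω)⁆ = ⊥ :=
    commutator_eq_bot_iff_le_centralizer.2 ((commutator_mono le_rfl inf_le_left).trans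
      (le_centralizer_iff.1 inf_le_right))
  have t6 := t1.1 ⊥ bot_le
  rw [hb] at t6
  obtain ⟨Y, q, hq⟩ := exists_qd (hV := hV) (hGV := hGV) (inf_le_left.trans (hA1.trans hEG)) t5 hfaith
  rw [← hq] at t4 t6
  obtain ⟨Fl, N, f1, f2, f3, f4⟩ := exists_filt (hV := hV) (hGV := hGV) hG
  have h2 : (2 : ZMod p) ≠ 0 := fun e => by
    have := Nat.le_of_dvd (by norm_num) ((ZMod.natCast_eq_zero_iff 2 p).1 (by exact_mod_cast e))
    omega
  obtain ⟨Z, z, z1, z2, z3⟩ := q.exists_norm hG h2 f1 f2 f3 f4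
  have inj := rep_injective (hV := hV) hGV hfaith
  refine ⟨z.grp.map G.subtype, map_subtype_le _, fun e => t4 ?_, ⟨⟨⟨?_⟩⟩, ?_⟩, ?_, ?_, ?_⟩
  · have e1 := card_grp z hfaith
    have e2 := card_grp q hfaith
    rw [e, card_bot, eq_comm, Nat.pow_eq_one] at e1
    rw [show finrank (ZMod p) Y = 0 by omega, pow_zero, card_eq_one] at e2
    rw [e2, commutator_bot_right]
  · rintro ⟨_, a, ha, rfl⟩ ⟨_, b, hb, rfl⟩
    refine Subtype.ext (congrArg G.subtype (inj ?_) : G.subtype (a * b) = G.subtype (b * a))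
    have : ∀ x y : Module.End (ZMod p) (EA V hV), x * y = (x - 1) * (y - 1) + x + y - 1 := fun x y => by
      noncomm_ring
    rw [map_mul, map_mul, this, this (rep hV hGV b), z.sq _ ha _ hb, z.sq _ hb _ ha, add_right_comm]
  · rintro _ ⟨a, ha, rfl⟩
    rw [← map_pow, ← map_one G.subtype]
    refine congrArg _ (inj ?_)
    have : ∀ m : ℕ, rep hV hGV a ^ m = 1 + (m : ZMod p) • (rep hV hGV a - 1) := by
      intro m
      induction m with
      | zero => simp
      | succ m ih =>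
        have e : rep hV hGV a = 1 + (rep hV hGV a - 1) := (add_sub_cancel _ _).symm
        rw [pow_succ, ih]
        generalize rep hV hGV a - 1 = α, z.sq _ ha _ ha = s at e
        rw [e, mul_add, mul_one, add_mul, one_mul, smul_mul_assoc, s, smul_zero, add_zero, Nat.cast_succ, add_smul,
          one_smul, add_assoc]
    rw [map_pow, this, ZMod.natCast_self, zero_smul, add_zero, map_one]
  · rw [finrank_ann q, finrank_ann z] at z2
    rw [card_grp _ hfaith, card_eq_pow_finrank_sub (hV := hV) inf_le_left] at t6 ⊢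
    rcases Nat.eq_zero_or_pos (finrank (ZMod p) (EA V hV)) with h0 | h0
    · rw [card_eq_pow_finrank (hV := hV), h0, pow_zero]
      exact Nat.succ_le_of_lt (by positivity)
    · exact t6.trans (Nat.mul_le_mul (Nat.pow_le_pow_right hp1.le z1)
        (Nat.pow_le_pow_right hp1.le (Nat.le_of_mul_le_mul_left z2 h0)))
  · rw [commutator_eq_bot_iff_le_centralizer, commutator_comm, commutator_le]
    rintro _ ⟨a, ha, rfl⟩ v hv
    have := (mem_fix z (x := (rep hV hGV a - 1) (mk hV v hv))).2 fun α h =>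
      LinearMap.congr_fun (z.sq α h _ ha) _
    rw [mem_sub, val_rep_sub_one] at this
    exact this.2
  · intro g hg
    have : Subgroup.closure {x : Ω | ∃ h ∈ G, ∃ a ∈ z.grp.map G.subtype, x = h * a * h⁻¹} ≤
        normalizer (z.grp.map G.subtype : Set Ω) := by
      refine (closure_le _).2 ?_
      rintro _ ⟨h, hh, _, ⟨a, ha, rfl⟩, rfl⟩
      exact le_normalizer_map G.subtype ⟨_, z3 (Subgroup.subset_closure ⟨⟨h, hh⟩, a, ha, rfl⟩), rfl⟩
    exact fun a ha => (mem_normalizer_iff.1 (this hg) a).1 ha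

end Cfsg.Agent.S1935
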