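import Cfsg.Statements.S1939
import Mathlib.Tactic.Group

set_option autoImplicit false
open Cfsg
open scoped Pointwise

namespace Cfsg.Agent.S1939

/-- Let S be a Sylow p-subgroup of the finite group G and a an element of S that is the only G-conjugate of a lying in S. Then every power of a has the same property: for every n, the only G-conjugate of a^n lying in S is a^n. -/
theorem result {G : Type*} [Group G] [Finite G] {p : ℕ} [Fact p.Prime] (S : Sylow p G) (a : G)
    (haS : a ∈ (S : Subgroup G)) (hwc : ∀ g : G, g * a * g⁻¹ ∈ (S : Subgroup G) → g * a * g⁻¹ = a) (n : ℕ) :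
    ∀ g : G, g * a ^ n * g⁻¹ ∈ (S : Subgroup G) → g * a ^ n * g⁻¹ = a ^ n := by
  classical
  intro g hg
  set c := g * a ^ n * g⁻¹ with hc
  -- a is central in S
  have hcen : ∀ s ∈ (S : Subgroup G), s * a * s⁻¹ = a := fun s hs =>
    hwc s (S.1.mul_mem (S.1.mul_mem hs haS) (S.1.inv_mem hs))
  have hcomm : ∀ s ∈ (S : Subgroup G), s * a = a * s := fun s hs => by
    have := hcen s hs
    calc s * a = (s * a * s⁻¹) * s := by group
      _ = a * s := by rw [this]
  let C : Subgroup G := Subgroup.centralizer ({c} : Set G)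
  have haC : a ∈ C := by
    rw [Subgroup.mem_centralizer_iff]
    intro y hy
    rw [Set.mem_singleton_iff] at hy
    subst hy
    exact hcomm _ hg
  -- the conjugate Sylow
  let T : Sylow p G := g • S
  have hmemT : ∀ x : G, x ∈ (T : Subgroup G) ↔ g⁻¹ * x * g ∈ (S : Subgroup G) := by
    intro x
    change x ∈ (MulAut.conj g • (S : Subgroup G)) ↔ _
    rw [Subgroup.mem_pointwise_smul_iff_inv_smul_mem]
    simp [MulAut.smul_def]
  have hTC : (T : Subgroup G) ≤ C := by
    intro x hx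
    rw [hmemT] at hx
    rw [Subgroup.mem_centralizer_iff]
    intro y hy
    rw [Set.mem_singleton_iff] at hy
    subst hy
    have h1 : Commute (g⁻¹ * x * g) a := hcomm _ hx
    have h2 : Commute (g⁻¹ * x * g) (a ^ n) := h1.pow_right n
    have h3 : (g⁻¹ * x * g) * a ^ n = a ^ n * (g⁻¹ * x * g) := h2
    rw [hc]
    calc g * a ^ n * g⁻¹ * x = g * (a ^ n * (g⁻¹ * x * g)) * g⁻¹ := by group
      _ = g * ((g⁻¹ * x * g) * a ^ n) * g⁻¹ := by rw [h3]
      _ = x * (g * a ^ n * g⁻¹) := by group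
  let T' : Sylow p C := T.subtype hTC
  have hA : IsPGroup p (Subgroup.zpowers (⟨a, haC⟩ : C)) := by
    have hS := S.2
    intro y
    obtain ⟨y, k, rfl⟩ := y
    obtain ⟨m, hm⟩ := hS ⟨a ^ k, S.1.zpow_mem haS k⟩
    refine ⟨m, ?_⟩
    ext
    have := congrArg Subtype.val hm
    simpa using this
  obtain ⟨U, hU⟩ := hA.exists_le_sylow
  obtain ⟨x, hx⟩ := MulAction.exists_smul_eq C U T'
  have haU : (⟨a, haC⟩ : C) ∈ (U : Subgroup C) := hU (Subgroup.mem_zpowers _)
  have h1 : x * ⟨a, haC⟩ * x⁻¹ ∈ (T' : Subgroup C) := by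
    rw [← hx]
    change _ ∈ (MulAut.conj x • (U : Subgroup C))
    exact Subgroup.smul_mem_pointwise_smul _ (MulAut.conj x) _ haU
  have h2 : (x : G) * a * (x : G)⁻¹ ∈ (T : Subgroup G) := h1
  rw [hmemT] at h2
  have h3 := hwc (g⁻¹ * x) (by
    have : g⁻¹ * x * a * (g⁻¹ * x)⁻¹ = g⁻¹ * (x * a * (x : G)⁻¹) * g := by group
    rw [this]; exact h2)
  have h4 : (g⁻¹ * x) * a ^ n * (g⁻¹ * x)⁻¹ = a ^ n := by
    rw [← conj_pow, h3]
  have hxc : c * x = x * c := by
    have := x.2
    rw [Subgroup.mem_centralizer_iff] at this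
    exact this c rfl
  have h5 : (x : G) * a ^ n * (x : G)⁻¹ = c := by
    rw [hc]
    calc (x : G) * a ^ n * (x : G)⁻¹ = g * ((g⁻¹ * x) * a ^ n * (g⁻¹ * x)⁻¹) * g⁻¹ := by group
      _ = g * a ^ n * g⁻¹ := by rw [h4]
  calc c = (x : G)⁻¹ * (x * c) := by group
    _ = (x : G)⁻¹ * (c * x) := by rw [hxc]
    _ = (x : G)⁻¹ * ((x : G) * a ^ n * (x : G)⁻¹ * x) := by rw [h5]
    _ = a ^ n := by group

end Cfsg.Agent.S1939
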