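import Cfsg.Statements.S1940
import Mathlib

set_option autoImplicit false
open Cfsg

namespace Cfsg.Agent.S1940

/-- Let the finite group L act by automorphisms on the finite abelian group M, and let N be an L-invariant subgroup of M such that M/N is a p-group on which L acts trivially (every l • m lies in the coset mN). If every element of M is a product of an element of N and an element fixed by a Sylow p-subgroup T of L, then every element of M is a product of an element of N and an element fixed by all of L. -/
theorem result {L : Type*} [Group L] [Finite L] {M : Type*} [CommGroup M] [Finite M] [MulDistribMulAction L M]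
    {p : ℕ} [Fact p.Prime] (N : Subgroup M) (hN : ∀ (l : L) (m : M), m ∈ N → l • m ∈ N)
    (hquot : IsPGroup p (M ⧸ N)) (htriv : ∀ (l : L) (m : M), (l • m) * m⁻¹ ∈ N) (T : Sylow p L)
    (hT : ∀ m : M, ∃ n ∈ N, ∃ c : M, (∀ t ∈ (T : Subgroup L), t • c = c) ∧ m = n * c) :
    ∀ m : M, ∃ n ∈ N, ∃ c : M, (∀ l : L, l • c = c) ∧ m = n * c := by
  classical
  intro m
  obtain ⟨n, hn, c, hc, rfl⟩ := hT m
  haveI : Fintype (L ⧸ (T : Subgroup L)) := Fintype.ofFinite _
  -- the function on cosets
  let f : L ⧸ (T : Subgroup L) → M := fun q => Quotient.liftOn' q (fun l => l • c) (by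
    intro a b hab
    rw [QuotientGroup.leftRel_apply] at hab
    have := hc _ hab
    calc a • c = a • ((a⁻¹ * b) • c) := by rw [this]
      _ = b • c := by rw [← mul_smul, mul_inv_cancel_left])
  have hf : ∀ l : L, f (l : L ⧸ (T : Subgroup L)) = l • c := fun l => rfl
  have hfl : ∀ (l : L) (q : L ⧸ (T : Subgroup L)), l • f q = f (l • q) := by
    intro l q
    induction q using QuotientGroup.induction_on with
    | H x =>
      rw [hf, MulAction.Quotient.smul_coe, hf, smul_eq_mul, mul_smul]
  let c' : M := ∏ q, f q
  have hc' : ∀ l : L, l • c' = c' := by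
    intro l
    simp only [c']
    rw [Finset.smul_prod']
    simp_rw [hfl]
    exact Fintype.prod_equiv (MulAction.toPerm l) _ _ (fun q => rfl)
  have hmk : ∀ q, (QuotientGroup.mk' N) (f q) = QuotientGroup.mk' N c := by
    intro q
    induction q using QuotientGroup.induction_on with
    | H x =>
      rw [hf]
      have := htriv x c
      rw [← QuotientGroup.ker_mk' N, MonoidHom.mem_ker, map_mul, map_inv, mul_inv_eq_one] at this
      exact this
  have hmk' : (QuotientGroup.mk' N) c' = (QuotientGroup.mk' N c) ^ (T : Subgroup L).index := by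
    simp only [c']
    rw [map_prod]
    simp_rw [hmk]
    rw [Finset.prod_const, Finset.card_univ, Subgroup.index, Nat.card_eq_fintype_card]
  have hcop : Nat.Coprime (orderOf (QuotientGroup.mk' N c)) (T : Subgroup L).index := by
    obtain ⟨k, hk⟩ := (IsPGroup.iff_orderOf.mp hquot) (QuotientGroup.mk' N c)
    rw [hk]
    exact Nat.Coprime.pow_left _ ((Nat.Prime.coprime_iff_not_dvd Fact.out).mpr T.not_dvd_index)
  obtain ⟨j, hj⟩ := exists_pow_eq_self_of_coprime hcop.symm
  refine ⟨n * (c * (c' ^ j)⁻¹), N.mul_mem hn ?_, c' ^ j, ?_, by group⟩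
  · rw [← QuotientGroup.ker_mk' N, MonoidHom.mem_ker, map_mul, map_inv, mul_inv_eq_one, map_pow, hmk', hj]
  · intro l
    rw [smul_pow', hc']

end Cfsg.Agent.S1940
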