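import Cfsg.Statements.S1941
import Cfsg.Agent.H44.Components
-- import your own Cfsg.Agent.* helpers here

set_option autoImplicit false
open Cfsg

namespace Cfsg.Agent.S1941

/-- Let G be a finite group with no nontrivial normal subgroup of order prime to p, T a Sylow p-subgroup of G and E(G) the layer of G (the subgroup generated by its components). An automorphism of G of p-power order that fixes T and E(G) elementwise is inner. -/
theorem result {G : Type*} [Group G] [Finite G] {p : ℕ} [Fact p.Prime] (hcore : Cfsg.pPrimeCore p G = ⊥)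
    (T : Sylow p G) (α : MulAut G) (hα : ∃ j : ℕ, orderOf α = p ^ j) (hfixT : ∀ x ∈ (T : Subgroup G), α x = x)
    (hfixE : ∀ x ∈ Cfsg.layer G, α x = x) : ∃ g : G, ∀ x : G, α x = g * x * g⁻¹ := by
  classical
  set Z := Subgroup.centralizer (generalizedFittingSubgroup G : Set G) with hZ
  have hF := H44.fitting_eq_pCore_of_pPrimeCore_eq_bot hcore
  have hZp : IsPGroup p Z := H44.isPGroup_of_le_pCore (hF ▸ H44.centralizer_gfitting_le_fitting)
  have hfix : ∀ x ∈ generalizedFittingSubgroup G, α x = x := by
    have : generalizedFittingSubgroup G ≤ α.toMonoidHom.eqLocus (MonoidHom.id G) :=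
      sup_le hfixE (by
        rw [hF]
        intro x hx
        exact hfixT x (IsPGroup.le_sylow_of_normal H44.pCore_isPGroup T hx))
    exact this
  have hη : ∀ g : G, α g * g⁻¹ ∈ Z := fun g => Subgroup.mem_centralizer_iff.mpr fun x hx => by
    have h1 := hfix _ (H44.gfitting_normal.conj_mem x hx g⁻¹)
    simp only [map_mul, map_inv, inv_inv, hfix x hx] at h1
    calc x * (α g * g⁻¹) = α g * ((α g)⁻¹ * x * α g) * g⁻¹ := by group
      _ = _ := by rw [h1]; group
  letI : CommGroup Z := { (inferInstance : Group Z) with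
    mul_comm := fun a b => Subtype.ext
      (Subgroup.mem_centralizer_iff.mp b.2 a (H44.centralizer_gfitting_le a.2)) }
  haveI : Fintype (G ⧸ (T : Subgroup G)) := Fintype.ofFinite _
  let η : G ⧸ (T : Subgroup G) → Z := fun q => Quotient.liftOn' q (fun g => ⟨_, hη g⟩) (by
    intro a b hab
    rw [QuotientGroup.leftRel_apply] at hab
    have := hfixT _ hab
    rw [map_mul, map_inv] at this
    apply Subtype.ext
    calc α a * a⁻¹ = α a * (a⁻¹ * b) * b⁻¹ := by group
      _ = α b * b⁻¹ := by rw [← this]; group)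
  have hηs : ∀ (h : G) (q : G ⧸ (T : Subgroup G)),
      η (h • q) = ⟨_, hη h⟩ * MulAut.conjNormal h (η q) := by
    intro h q
    induction q using QuotientGroup.induction_on with
    | H g =>
      apply Subtype.ext
      change α (h * g) * (h * g)⁻¹ = α h * h⁻¹ * (h * (α g * g⁻¹) * h⁻¹)
      rw [map_mul]; group
  set w : Z := ∏ q, η q with hw
  set m := (T : Subgroup G).index with hm
  have hcop : m.Coprime (Nat.card Z) := by
    obtain ⟨k, hk⟩ := hZp.exists_card_eq
    rw [hk]
    exact (((Nat.Prime.coprime_iff_not_dvd Fact.out).mpr T.not_dvd_index).symm).pow_right k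
  obtain ⟨z, hz⟩ := (Nat.Coprime.pow_left_bijective hcop.symm).2 w
  refine ⟨z, fun h => ?_⟩
  have h1 : w = ⟨_, hη h⟩ ^ m * MulAut.conjNormal h w := by
    conv_lhs => rw [hw, ← Fintype.prod_equiv (MulAction.toPerm h) (fun q => η (h • q)) η fun q => rfl]
    simp_rw [hηs]
    rw [Finset.prod_mul_distrib, Finset.prod_const, Finset.card_univ, hw, map_prod, hm,
      Subgroup.index, Nat.card_eq_fintype_card]
  have h2 : z = ⟨_, hη h⟩ * MulAut.conjNormal h z := by
    apply (Nat.Coprime.pow_left_bijective hcop.symm).1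
    simp only at hz ⊢
    rw [mul_pow, ← map_pow, hz, ← h1]
  have h3 : (z : G) = α h * h⁻¹ * (h * z * h⁻¹) := congrArg Subtype.val h2
  calc α h = α h * h⁻¹ * (h * z * h⁻¹) * h * (z : G)⁻¹ := by group
    _ = _ := by rw [← h3]

end Cfsg.Agent.S1941
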