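import Cfsg.Statements.S1944
import Cfsg.Agent.H22.PConstrained
import Cfsg.Agent.H72.Core

set_option autoImplicit false
open Cfsg

namespace Cfsg.Agent.S1944

open Subgroup H72

theorem exists_norm {G V : Type*} [Group G] [Finite G] [CommGroup V] (φ : G →* MulAut V)
    (S : Subgroup G) : ∃ ν : V →* V, (∀ v, (∀ s ∈ S, φ s v = v) → ∀ g, φ g (ν v) = ν v) ∧
      ∀ v, (∀ g, φ g v = v) → ν v = v ^ S.index := by
  classical
  have := Fintype.ofFinite (G ⧸ S)
  refine ⟨MonoidHom.mk' (fun v => ∏ q : G ⧸ S, φ q.out v) (fun a b => by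
    simp only [map_mul, Finset.prod_mul_distrib]), fun v hv g => ?_, fun v hv => ?_⟩
  · change φ g (∏ q : G ⧸ S, φ q.out v) = ∏ q : G ⧸ S, φ q.out v
    rw [map_prod, ← Equiv.prod_comp (MulAction.toPerm g) (fun q : G ⧸ S => φ q.out v)]
    refine Finset.prod_congr rfl fun q _ => ?_
    obtain ⟨s, hs⟩ := QuotientGroup.mk_out_eq_mul S (g * q.out)
    have : (MulAction.toPerm g q : G ⧸ S) = (g * q.out : G) := by
      rw [MulAction.toPerm_apply]
      exact (MulAction.Quotient.mk_smul_out S g q).symm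
    rw [this, hs, map_mul, map_mul, MulAut.mul_apply, MulAut.mul_apply, hv s s.2]
  · change ∏ q : G ⧸ S, φ q.out v = _
    simp only [hv, Finset.prod_const, Finset.card_univ, index_eq_card, Nat.card_eq_fintype_card]

theorem split_of_le_pCore {G : Type*} [Group G] [Finite G] {p : ℕ} [Fact p.Prime] (S : Sylow p G)
    (hZ : (S : Subgroup G) ⊓ centralizer ((S : Subgroup G) : Set G) ≤ pCore p G) :
    ∃ K : Subgroup G, K ≤ (S : Subgroup G) ⊓ centralizer ((S : Subgroup G) : Set G) ∧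
      (S : Subgroup G) ⊓ center G ⊓ K = ⊥ ∧
      (S : Subgroup G) ⊓ centralizer ((S : Subgroup G) : Set G) ≤ (S : Subgroup G) ⊓ center G ⊔ K := by
  set V := pCore p G ⊓ centralizer (pCore p G : Set G) with hV
  have hVn : V.Normal := inferInstance
  have hVc : IsMulCommutative V :=
    le_centralizer_iff_isMulCommutative.1 (inf_le_right.trans (centralizer_le inf_le_left))
  have hVS : V ≤ S := inf_le_left.trans (pCore_le_sylow S)
  have hZV : (S : Subgroup G) ⊓ centralizer ((S : Subgroup G) : Set G) ≤ V :=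
    le_inf hZ (inf_le_right.trans (centralizer_le (pCore_le_sylow S)))
  have hVp : IsPGroup p V := S.isPGroup'.to_le hVS
  let _ : CommGroup V := IsMulCommutative.instCommGroup
  obtain ⟨ν, h1, h2⟩ := exists_norm (MulAut.conjNormal : G →* MulAut V) S
  have hfix : ∀ (v : V) (g : G), MulAut.conjNormal g v = v ↔ g * v = v * g := fun v g => by
    rw [Subtype.ext_iff, MulAut.conjNormal_apply, mul_inv_eq_iff_eq_mul]
  have hcop : (S : Subgroup G).index.Coprime p :=
    ((Nat.Prime.coprime_iff_not_dvd Fact.out).2 S.not_dvd_index).symm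
  have hinj := (hVp.powEquiv hcop.symm).injective
  refine ⟨(S : Subgroup G) ⊓ centralizer ((S : Subgroup G) : Set G) ⊓ ν.ker.map V.subtype,
    inf_le_left, eq_bot_iff.2 ?_, fun x hx => ?_⟩
  · rintro _ ⟨⟨-, hc⟩, -, v, hv, rfl⟩
    have h3 := h2 v fun g => (hfix v g).2 (mem_center_iff.1 hc g)
    rw [MonoidHom.mem_ker.1 hv] at h3
    have : v = 1 := hinj (by simpa using h3.symm)
    simp [this]
  · obtain ⟨w, hw⟩ := (hVp.powEquiv hcop.symm).surjective (ν ⟨x, hZV hx⟩)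
    have hw' : w ^ (S : Subgroup G).index = ν ⟨x, hZV hx⟩ := hw
    have h3 := h1 ⟨x, hZV hx⟩ fun s hs => (hfix _ s).2 (hx.2 s hs)
    have h4 : ∀ g, MulAut.conjNormal g w = w := fun g => hinj (by
      change (MulAut.conjNormal g w) ^ (S : Subgroup G).index = w ^ (S : Subgroup G).index
      rw [← map_pow, hw', h3])
    have h5 : (w : G) ∈ center G := mem_center_iff.2 fun g => (hfix w g).1 (h4 g)
    rw [show x = (w : G) * ((w : G)⁻¹ * x) by group]
    refine mul_mem (mem_sup_left ⟨hVS w.2, h5⟩) (mem_sup_right (mem_inf.2 ⟨mul_mem (inv_mem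
      (mem_inf.2 ⟨hVS w.2, center_le_centralizer _ h5⟩)) hx, w⁻¹ * ⟨x, hZV hx⟩, ?_, rfl⟩))
    rw [SetLike.mem_coe, MonoidHom.mem_ker, map_mul, map_inv, h2 w h4, hw', inv_mul_cancel]

/-- Let S be a Sylow p-subgroup of the finite group G and suppose that the centre Z(S) lies in O_{p',p}(G). The elements of S each of which is its only G-conjugate in S form a subgroup W of Z(S); W is then a direct factor of Z(S): there is a subgroup K of Z(S) with W ∩ K = 1 and WK = Z(S). -/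
theorem result {G : Type*} [Group G] [Finite G] {p : ℕ} [Fact p.Prime] (S : Sylow p G)
    (hZ : ((S : Subgroup G) ⊓ Subgroup.centralizer ((S : Subgroup G) : Set G)) ≤ Cfsg.pPrimePCore p G) :
    ∃ W K : Subgroup G, (∀ x : G, x ∈ W ↔ (x ∈ (S : Subgroup G) ∧ ∀ g : G, g * x * g⁻¹ ∈ (S : Subgroup G) → g * x * g⁻¹ = x)) ∧
      K ≤ ((S : Subgroup G) ⊓ Subgroup.centralizer ((S : Subgroup G) : Set G)) ∧ W ⊓ K = ⊥ ∧ W ⊔ K = ((S : Subgroup G) ⊓ Subgroup.centralizer ((S : Subgroup G) : Set G)) := by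
  set π := QuotientGroup.mk' (pPrimeCore p G) with hπ
  have hsurj : Function.Surjective π := QuotientGroup.mk'_surjective _
  have hinj : ∀ x ∈ (S : Subgroup G), ∀ y ∈ (S : Subgroup G), π x = π y → x = y := by
    intro x hx y hy h
    have h1 : x⁻¹ * y ∈ (S : Subgroup G) ⊓ pPrimeCore p G :=
      mem_inf.2 ⟨mul_mem (inv_mem hx) hy, QuotientGroup.eq.1 h⟩
    rwa [H22.inf_eq_bot_of_pgroup_coprime S.isPGroup' H22.coprime_card_pPrimeCore, mem_bot,
      inv_mul_eq_one] at h1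
  have hZ' : ∀ x ∈ (S : Subgroup G), x ∈ centralizer ((S : Subgroup G) : Set G) ↔
      π x ∈ centralizer (((S.mapSurjective hsurj : Sylow p _) : Subgroup (G ⧸ pPrimeCore p G)) :
        Set (G ⧸ pPrimeCore p G)) := by
    refine fun x hx => ⟨?_, fun h s hs => hinj _ (mul_mem hs hx) _ (mul_mem hx hs) ?_⟩
    · rintro h _ ⟨s, hs, rfl⟩
      rw [← map_mul, ← map_mul, h s hs]
    · rw [map_mul, map_mul]
      exact h _ ⟨s, hs, rfl⟩
  obtain ⟨K, hK, hK1, hK2⟩ := split_of_le_pCore (S.mapSurjective hsurj) (by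
    rintro _ ⟨⟨x, hx, rfl⟩, hc⟩
    exact hZ ⟨hx, (hZ' x hx).2 hc⟩)
  have hP := H92.sylow_inf_normal S (pPrimePCore p G)
  refine ⟨S ⊓ (center _).comap π, S ⊓ K.comap π, fun x => ⟨fun hx => ⟨hx.1, fun g hg => ?_⟩,
    fun hx => ⟨hx.1, ?_⟩⟩, fun x hx => ⟨hx.1, (hZ' x hx.1).2 (hK hx.2).2⟩, eq_bot_iff.2 ?_,
    le_antisymm (sup_le (fun x hx => ⟨hx.1, (hZ' x hx.1).2 (center_le_centralizer _ hx.2)⟩)
      fun x hx => ⟨hx.1, (hZ' x hx.1).2 (hK hx.2).2⟩) fun x hx => ?_⟩
  · refine hinj _ hg _ hx.1 ?_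
    rw [map_mul, map_mul, map_inv, mem_center_iff.1 hx.2, mul_inv_cancel_right]
  · refine mem_center_iff.2 fun gb => ?_
    obtain ⟨g, rfl⟩ := hsurj gb
    have h1 : x ∈ pPrimePCore p G :=
      hZ ⟨hx.1, fun s hs => mul_inv_eq_iff_eq_mul.1 (hx.2 s (mul_mem (mul_mem hs hx.1) (inv_mem hs)))⟩
    have h2 : g * x * g⁻¹ ∈ pPrimePCore p G := Normal.conj_mem inferInstance x h1 g
    have h3 : π (g * x * g⁻¹) ∈ ((S : Subgroup G) ⊓ pPrimePCore p G).map π := by
      rw [H22.map_sylow_pPrimePCore hP]; exact h2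
    obtain ⟨y, hy, hy'⟩ := h3
    have h4 : IsPGroup p (zpowers (g * x * g⁻¹)) := by
      rw [← cj_zpowers]; exact IsPGroup_cj g (S.isPGroup'.to_le (zpowers_le.2 hx.1))
    have h5 : zpowers (g * x * g⁻¹) ≤ zpowers y ⊔ pPrimeCore p G := by
      rw [zpowers_le, show g * x * g⁻¹ = y * (y⁻¹ * (g * x * g⁻¹)) by group]
      exact mul_mem (mem_sup_left (mem_zpowers y)) (mem_sup_right (QuotientGroup.eq.1 hy'))
    obtain ⟨h, hh, hh'⟩ := (H22.sylIn_sup_of_coprime (S.isPGroup'.to_le (zpowers_le.2 hy.1))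
      H22.coprime_card_pPrimeCore).exists_conj h5 h4
    have h6 := hh' _ (mem_zpowers _)
    have h7 : h * g * x * (h * g)⁻¹ = h * (g * x * g⁻¹) * h⁻¹ := by group
    have h8 := hx.2 (h * g) (h7 ▸ zpowers_le.2 hy.1 h6)
    have h9 : π h * π y = π y * π h := by
      have : zpowers y ⊔ pPrimeCore p G ≤ (centralizer {π y}).comap π := by
        refine sup_le (zpowers_le.2 (mem_centralizer_singleton_iff.2 rfl)) fun k hk => ?_
        rw [mem_comap, show π k = 1 from (QuotientGroup.eq_one_iff k).2 hk]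
        exact one_mem _
      exact mem_centralizer_singleton_iff.1 (this hh)
    have h10 : π (g * x * g⁻¹) = π x := by
      conv_rhs => rw [← h8, h7, map_mul, map_mul, ← hy', h9, map_inv, mul_inv_cancel_right, hy']
    rwa [map_mul, map_mul, map_inv, mul_inv_eq_iff_eq_mul] at h10
  · rintro x ⟨⟨hx, h1⟩, -, h2⟩
    have : π x ∈ ((S.mapSurjective hsurj : Sylow p _) : Subgroup _) ⊓ center _ ⊓ K :=
      ⟨⟨⟨x, hx, rfl⟩, h1⟩, h2⟩
    rw [hK1, mem_bot] at this
    exact hinj x hx 1 (one_mem _) (this.trans (map_one π).symm)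
  · obtain ⟨_, ⟨⟨w, hw, rfl⟩, hw'⟩, k, hk, he⟩ := mem_sup_of_normalizes
      (inf_le_right.trans ((center_le_centralizer _).trans (centralizer_le_normalizer _)))
      (hK2 ⟨⟨x, hx.1, rfl⟩, (hZ' x hx.1).1 hx.2⟩)
    rw [show x = w * (w⁻¹ * x) by group]
    refine mul_mem (mem_sup_left ⟨hw, hw'⟩) (mem_sup_right (mem_inf.2 ⟨mul_mem (inv_mem hw) hx.1, ?_⟩))
    rw [mem_comap, map_mul, map_inv, ← he, inv_mul_cancel_left]
    exact hk

end Cfsg.Agent.S1944
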