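import Cfsg.Statements.S1946
import Cfsg.Agent.H61.Small
import Cfsg.Agent.H3.Frobenius

set_option autoImplicit false
open Cfsg

namespace Cfsg.Agent.S1946

open scoped commutatorElement

/-- Let P be a Sylow p-subgroup of the finite group G. Then G has a normal p-complement if and only if P controls the fusion of its elements of order dividing p (dividing 4 when p = 2): whenever such an element a of P has a G-conjugate g a g⁻¹ in P, that conjugate is already x a x⁻¹ for some x in P. -/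
theorem result {G : Type*} [Group G] [Finite G] {p : ℕ} [Fact p.Prime] (P : Sylow p G) :
    Cfsg.HasNormalPComplement p G ↔
      ∀ a ∈ (P : Subgroup G), (a ^ p = 1 ∨ (p = 2 ∧ a ^ 4 = 1)) → ∀ g : G, g * a * g⁻¹ ∈ (P : Subgroup G) →
        ∃ x ∈ (P : Subgroup G), g * a * g⁻¹ = x * a * x⁻¹ := by
  refine ⟨fun h a ha _ g hg => ?_, fun h => ?_⟩
  · obtain ⟨v, hv, he⟩ := (H3.hasNormalPComplement_iff_sylow_controls_fusion P).1 h a ha g hg
    exact ⟨v, hv, he.symm⟩
  rw [H3.hasNormalPComplement_iff_frobenius_sylow P]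
  intro Q hQP g hg hgp
  have hQ : IsPGroup p Q := P.isPGroup'.to_le hQP
  obtain ⟨D, hD, h1, h2, -, h3⟩ := H61.exists_small_critical_ambient hQ
  have := P.isPGroup'.isNilpotent
  obtain ⟨n, hn⟩ := Group.IsNilpotent.nilpotent P
  refine h3 g hg hgp fun x hx => (H61.commute_of_chain (hQ.to_le hD) hgp (h1 hg)
    (fun n x => x ∈ (Subgroup.upperCentralSeries P n).map (P : Subgroup G).subtype)
    (fun x _ h => by simpa using h) (fun n x hx hZ => ?_) n x hx
    ⟨⟨x, hQP (hD hx)⟩, hn ▸ Subgroup.mem_top _, rfl⟩).symm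
  obtain ⟨v, hv, he⟩ := h x (hQP (hD hx)) (H61.sm_iff.2 (h2 x hx)) g
    (hQP ((Subgroup.mem_normalizer_iff.1 hg x).1 (hD hx)))
  obtain ⟨y, hy, rfl⟩ := hZ
  refine ⟨_, Subgroup.mem_upperCentralSeries_succ_iff.1 (inv_mem hy) ⟨v, hv⟩, ?_⟩
  rw [he]
  simp [commutatorElement_def, mul_assoc]

end Cfsg.Agent.S1946
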