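import Cfsg.Statements.S1948
import Cfsg.Agent.H22.PConstrained
import Cfsg.Agent.H72.SylowIn

set_option autoImplicit false
open Cfsg

namespace Cfsg.Agent.S1948

open Subgroup

/-- Let S be a Sylow p-subgroup of the finite group G. Then G = N_G(S)·O_{p'}(G) if and only if G is p-constrained and N_G(S) controls fusion in S, in the sense that whenever a subgroup Q of S has a conjugate g Q g⁻¹ inside S, the element g is a product n c with n normalizing S and c centralizing Q. -/
theorem result {G : Type*} [Group G] [Finite G] {p : ℕ} [Fact p.Prime] (S : Sylow p G) :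
    Subgroup.normalizer ((S : Subgroup G) : Set G) ⊔ Cfsg.pPrimeCore p G = ⊤ ↔
      (Cfsg.IsPConstrained p G ∧
        ∀ Q : Subgroup G, Q ≤ (S : Subgroup G) → ∀ g : G, Q.map (MulAut.conj g).toMonoidHom ≤ (S : Subgroup G) →
          ∃ n ∈ Subgroup.normalizer ((S : Subgroup G) : Set G), ∃ c ∈ Subgroup.centralizer (Q : Set G), g = n * c) := by
  set K := pPrimeCore p G with hK
  set π := QuotientGroup.mk' K with hπ
  have hsurj : Function.Surjective π := QuotientGroup.mk'_surjective K
  have hdec : normalizer ((S : Subgroup G) : Set G) ⊔ K = ⊤ → ∀ g : G,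
      ∃ n ∈ normalizer ((S : Subgroup G) : Set G), ∃ k ∈ K, g = n * k := by
    intro h g
    have : g ∈ normalizer ((S : Subgroup G) : Set G) ⊔ K := h ▸ mem_top g
    rw [← SetLike.mem_coe, mul_normal] at this
    obtain ⟨u, hu, w, hw, rfl⟩ := this
    exact ⟨u, hu, w, hw, rfl⟩
  constructor
  · intro h
    refine ⟨H22.isPConstrained_iff.2 ?_, fun Q hQ g hg => ?_⟩
    · have hn : ((S : Subgroup G).map π).Normal := by
        rw [← normalizer_eq_top_iff, eq_top_iff, ← map_top_of_surjective π hsurj, ← h, Subgroup.map_sup]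
        refine sup_le (le_normalizer_map π) ?_
        rw [(Subgroup.map_eq_bot_iff _).2 (by rw [hπ, QuotientGroup.ker_mk'])]
        exact bot_le
      refine H22.IsPSolvable.centralizer_pCore_le
        (H22.isPSolvable_of_normal_of_quotient ((S : Subgroup G).map π)
          (H22.isPSolvable_of_isPGroup (S.isPGroup'.map π)) (H22.isPSolvable_of_coprime ?_))
        H22.pPrimeCore_quotient_pPrimeCore
      exact Nat.Coprime.of_dvd_left (index_map_dvd _ hsurj)
        ((Nat.Prime.coprime_iff_not_dvd Fact.out).2 S.not_dvd_index).symm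
    · obtain ⟨n, hn, k, hk, rfl⟩ := hdec h g
      refine ⟨n, hn, k, fun q hq => ?_, rfl⟩
      have h1 : n * k * q * (n * k)⁻¹ ∈ (S : Subgroup G) := hg ⟨q, hq, rfl⟩
      have h2 : k * q * k⁻¹ ∈ (S : Subgroup G) := by
        have := H72.conj_mem_of_mem_normalizer' hn h1
        rwa [show n⁻¹ * (n * k * q * (n * k)⁻¹) * n = k * q * k⁻¹ by group] at this
      have h3 : k * q * k⁻¹ * q⁻¹ ∈ (S : Subgroup G) ⊓ K := by
        refine mem_inf.2 ⟨mul_mem h2 (inv_mem (hQ hq)), ?_⟩
        rw [show k * q * k⁻¹ * q⁻¹ = k * (q * k⁻¹ * q⁻¹) by group]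
        exact K.mul_mem hk (Normal.conj_mem inferInstance _ (K.inv_mem hk) q)
      rw [H22.inf_eq_bot_of_pgroup_coprime S.isPGroup' H22.coprime_card_pPrimeCore, mem_bot] at h3
      calc q * k = (k * q * k⁻¹ * q⁻¹) * q * k := by rw [h3, one_mul]
        _ = k * q := by group
  · rintro ⟨hc, hf⟩
    have hP := H92.sylow_inf_normal S (pPrimePCore p G)
    have h1 := (H22.centralizer_le_pPrimePCore_iff hP).2 (H22.isPConstrained_iff.1 hc)
    have h2 : pPrimePCore p G ≤ normalizer ((S : Subgroup G) : Set G) ⊔ K := by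
      rw [pPrimePCore, ← H22.map_sylow_pPrimePCore hP, comap_map_eq, QuotientGroup.ker_mk']
      exact sup_le_sup_right (inf_le_left.trans le_normalizer) _
    rw [eq_top_iff]
    intro g _
    obtain ⟨m, hm, hmg⟩ := hP.frattini (g := g) (by rw [normalizer_eq_top]; trivial)
    obtain ⟨n, hn, c, hc', he⟩ := hf _ inf_le_left (m * g)
      ((H72.cj_eq_of_mem_normalizer hmg).le.trans inf_le_left)
    rw [show g = m⁻¹ * (n * c) by rw [← he]; group]
    exact mul_mem (inv_mem (h2 hm)) (mul_mem (mem_sup_left hn) (h2 (h1 hc')))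

end Cfsg.Agent.S1948
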