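import Cfsg.Statements.S1952
import Cfsg.Agent.H93.WreathQ
import Cfsg.Agent.H3.PGroup

set_option autoImplicit false
open Cfsg

namespace Cfsg.Agent.S1952

/-- Let P be a finite p-group with a normal elementary abelian subgroup A of index p, and let x ∈ A and y ∈ P with y outside A. If the product of the p conjugates y^(-i) x y^i (i = 0, …, p−1) is not the identity, then the wreath product Z_p ≀ Z_p, realised as a Sylow p-subgroup of the symmetric group of degree p², is a homomorphic image of P. -/
theorem result {P : Type*} [Group P] [Finite P] {p : ℕ} [Fact p.Prime] (hP : IsPGroup p P) (A : Subgroup P) [A.Normal]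
    (hA : Cfsg.IsElementaryAbelian p A) (hidx : A.index = p) (x y : P) (hx : x ∈ A) (hy : y ∉ A)
    (hprod : ((List.range p).map (fun i => (y ^ i)⁻¹ * x * y ^ i)).prod ≠ 1) :
    ∃ (Q : Sylow p (Equiv.Perm (Fin (p ^ 2)))) (f : P →* ↥(Q : Subgroup (Equiv.Perm (Fin (p ^ 2))))), Function.Surjective f := by
  obtain ⟨hc, hpow⟩ := hA
  letI : CommGroup A := { (inferInstance : Group A) with mul_comm := hc.is_comm.comm }
  let v : A := ∏ i ∈ Finset.range p,
    (⟨(y ^ i)⁻¹ * x * y ^ i, Subgroup.Normal.conj_mem' inferInstance _ hx _⟩ : A)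
  have hv : v ∉ (⊥ : Subgroup A) := fun h => hprod (by
    have h1 := congrArg A.subtype (Subgroup.mem_bot.1 h)
    rw [map_one] at h1
    rw [← h1]
    show _ = A.subtype (((List.range p).map _).prod)
    rw [map_list_prod, List.map_map]
    rfl)
  obtain ⟨M, -, hn, hi, -, hvM⟩ := H3.exists_isCoatom_of_elementary_quotient (G := A) (p := p) (N := ⊥)
    (by rw [commutator_def, Subgroup.commutator_le]
        intro a _ b _
        rw [Subgroup.mem_bot, commutatorElement_eq_one_iff_mul_comm, mul_comm])
    (fun a => Subgroup.mem_bot.2 (Subtype.ext (hpow a a.2))) hv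
  refine H93.wreath_of_norm hP (C := A ⧸ M) hi A inferInstance (QuotientGroup.mk' M) ⟨x, hx⟩ y hidx
    fun h => hvM ((QuotientGroup.eq_one_iff _).1 ?_)
  rw [← map_prod] at h
  exact h

end Cfsg.Agent.S1952
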