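import Cfsg.Statements.S1954
import Cfsg.Agent.H61.Control
import Cfsg.Agent.H92.GroupFS
import Cfsg.Agent.H91.Normal

set_option autoImplicit false
open Cfsg

namespace Cfsg.Agent.S1954

open Subgroup H72 H61

/-- `V` is normal in the fusion system of `H` on `T`. -/
def Nrm {G : Type*} [Group G] (H T V : Subgroup G) : Prop :=
  V ≤ T ∧ ∀ A ≤ T, ∀ n ∈ H, cj n A ≤ T → ∃ h ∈ H, cj h V = V ∧ Same A h n

theorem Nrm.sup {G : Type*} [Group G] {H T V₁ V₂ : Subgroup G} (h₁ : Nrm H T V₁) (h₂ : Nrm H T V₂) :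
    Nrm H T (V₁ ⊔ V₂) := by
  refine ⟨sup_le h₁.1 h₂.1, fun A hA n hn hnA => ?_⟩
  obtain ⟨a, ha, ha1, ha2⟩ := h₁.2 A hA n hn hnA
  obtain ⟨b, hb, hb1, hb2⟩ := h₂.2 (A ⊔ V₁) (sup_le hA h₁.1) a ha
    (by rw [cj_sup, ha1, ha2.cj_eq]; exact sup_le hnA h₁.1)
  exact ⟨b, hb, by rw [cj_sup, hb1, (hb2.restrict le_sup_right).cj_eq, ha1],
    (hb2.restrict le_sup_left).trans ha2⟩

theorem Nrm.conj {G : Type*} [Group G] {H T V : Subgroup G} (h : Nrm H T V) {x : G}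
    (hH : cj x H = H) (hT : cj x T = T) : Nrm H T (cj x V) := by
  have hH' : cj x⁻¹ H = H := by conv_lhs => rw [← hH, cj_inv_cj]
  have hT' : cj x⁻¹ T = T := by conv_lhs => rw [← hT, cj_inv_cj]
  refine ⟨hT ▸ cj_mono x h.1, fun A hA n hn hnA => ?_⟩
  obtain ⟨a, ha, ha1, ha2⟩ := h.2 (cj x⁻¹ A) (hT' ▸ cj_mono _ hA) (x⁻¹ * n * x⁻¹⁻¹)
    (hH' ▸ conj_mem_cj hn) (by
      rw [← cj_mul, show x⁻¹ * n * x⁻¹⁻¹ * x⁻¹ = x⁻¹ * n by group, cj_mul, ← hT']
      exact cj_mono _ hnA)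
  refine ⟨x * a * x⁻¹, hH ▸ conj_mem_cj ha, by rw [← cj_mul, inv_mul_cancel_right, cj_mul, ha1], ?_⟩
  have := ha2.conj x
  rwa [cj_cj_inv, show x * (x⁻¹ * n * x⁻¹⁻¹) * x⁻¹ = n by group] at this

/-- Let N be a normal subgroup of the finite group G, P a Sylow p-subgroup of G, and V a subgroup of P ∩ N normal in P ∩ N such that N_N(V) controls strong fusion in P ∩ N with respect to N (whenever a subgroup A of P ∩ N has n A n⁻¹ ≤ P ∩ N for some n in N, then n = h c with h in N_N(V) and c in C_N(A)). Let W be the subgroup generated by the conjugates of V under N_G(P ∩ N). Then N_G(W) controls strong fusion in P with respect to G. -/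
theorem result {G : Type*} [Group G] [Finite G] {p : ℕ} [Fact p.Prime] (N : Subgroup G) [N.Normal] (P : Sylow p G) (V : Subgroup G)
    (hV : V ≤ (P : Subgroup G) ⊓ N) (hVn : ∀ x ∈ (P : Subgroup G) ⊓ N, V.map (MulAut.conj x).toMonoidHom = V)
    (hctrl : ∀ A : Subgroup G, A ≤ (P : Subgroup G) ⊓ N → ∀ n ∈ N, A.map (MulAut.conj n).toMonoidHom ≤ (P : Subgroup G) ⊓ N →
      ∃ h ∈ N ⊓ Subgroup.normalizer (V : Set G), ∃ c ∈ N ⊓ Subgroup.centralizer (A : Set G), n = h * c)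
    (W : Subgroup G) (hW : W = Subgroup.closure (⋃ x ∈ Subgroup.normalizer (((P : Subgroup G) ⊓ N : Subgroup G) : Set G),
      ((V.map (MulAut.conj x).toMonoidHom : Subgroup G) : Set G))) :
    ∀ A : Subgroup G, A ≤ (P : Subgroup G) → ∀ g : G, A.map (MulAut.conj g).toMonoidHom ≤ (P : Subgroup G) →
        ∃ h ∈ Subgroup.normalizer (W : Set G), ∃ c ∈ Subgroup.centralizer (A : Set G), g = h * c := by
  set T := (P : Subgroup G) ⊓ N with hT
  have hT' : IsSylowIn p T N := (isSylowIn_top P).inf_normal le_top (by rw [normalizer_eq_top])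
  have hW' : W = ⨆ x ∈ normalizer (T : Set G), cj x V := by
    rw [hW]
    simp only [Subgroup.closure_iUnion, Subgroup.closure_eq]
  have hV' : Nrm N T V := ⟨hV, fun A hA n hn hnA => by
    obtain ⟨h, hh, c, hc, rfl⟩ := hctrl A hA n hn hnA
    exact ⟨h, hh.1, cj_eq_of_mem_normalizer hh.2, same_iff.2 (by simpa using hc.2)⟩⟩
  have hWn : Nrm N T W := by
    obtain ⟨U, hU, hmax⟩ := (inferInstance : WellFoundedGT (Subgroup G)).wf.has_min
      {U | Nrm N T U ∧ U ≤ W} ⟨⊥, ⟨bot_le, fun A _ n hn _ => ⟨n, hn, cj_bot n, Same.refl _ _⟩⟩, bot_le⟩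
    suffices h : W ≤ U from le_antisymm hU.2 h ▸ hU.1
    conv_lhs => rw [hW']
    refine iSup₂_le fun x hx => ?_
    by_contra hne
    exact hmax (U ⊔ cj x V) ⟨hU.1.sup (hV'.conj (cj_eq_of_normal x N) (cj_eq_of_mem_normalizer hx)),
      sup_le hU.2 (hW' ▸ le_iSup₂_of_le x hx le_rfl)⟩ (left_lt_sup.2 hne)
  have hNW : normalizer (T : Set G) ≤ normalizer (W : Set G) := by
    refine le_normalizer_of_cj_le fun y hy => ?_
    rw [hW', cj_le_iff]
    refine iSup₂_le fun x hx => ?_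
    rw [← cj_le_iff, ← cj_mul]
    exact le_iSup₂_of_le (y * x) (mul_mem hy hx) le_rfl
  have hD : ∀ i, ∀ g ∈ normalizer (W : Set G), ∀ a ∈ H91.ucs W i, g * a * g⁻¹ ∈ H91.ucs W i := by
    rintro i g hg _ ⟨a, ha, rfl⟩
    exact ⟨_, characteristic_iff_le_comap.1 inferInstance (W.normalizerMonoidHom ⟨g, hg⟩) ha, rfl⟩
  have hWp : IsPGroup p W := hT'.isPGroup.to_le hWn.1
  obtain ⟨m, hm⟩ := H91.exists_ucs_eq hWp
  have hn : (groupFusionSystem (P : Subgroup G)).IsNormal W := by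
    refine H91.normal_of_chain P.isPGroup' (H92.saturated_group P) (H91.ucs W) m (fun i _ => ?_)
      (H91.ucs_zero W) hm fun i _ => H91.commutator_ucs_le W i
    refine H92.stronglyClosed_group_iff.2 ⟨(H91.ucs_le W i).trans (hWn.1.trans inf_le_left),
      fun a ha g hg => ?_⟩
    have haT : a ∈ T := hWn.1 (H91.ucs_le W i ha)
    obtain ⟨n, hn, x, hx, rfl⟩ := hT'.frattini (H := ⊤) (by rw [normalizer_eq_top]) (mem_top g)
    have h1 := hD i x (hNW hx) a ha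
    have h2 : n * x * a * (n * x)⁻¹ = n * (x * a * x⁻¹) * n⁻¹ := by group
    obtain ⟨h, -, hh1, hh2⟩ := hWn.2 (zpowers (x * a * x⁻¹))
      (zpowers_le.2 (hWn.1 (H91.ucs_le W i h1))) n hn (by
        rw [cj_zpowers, zpowers_le, ← h2]
        exact ⟨hg, Normal.conj_mem inferInstance a haT.2 _⟩)
    rw [h2, ← hh2 _ (mem_zpowers _)]
    exact hD i h (cj_eq_iff.1 hh1) _ h1
  intro A hA g hg
  obtain ⟨f, hf, hf1, hf2⟩ := H91.normal_extend hn
    (H92.M_group_conj hA (g := g) fun x hx => hg ⟨x, hx, rfl⟩)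
  obtain ⟨-, -, h, hh⟩ := H91.M_group_iff.1 hf
  rw [H91.im_congr fun x hx => hh x (mem_sup_right hx), H91.im_conj] at hf2
  refine ⟨h, cj_eq_iff.1 hf2, h⁻¹ * g, same_iff.1 fun a ha => ?_, by group⟩
  rw [← hh a (mem_sup_left ha), hf1 a ha]

end Cfsg.Agent.S1954
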