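import Cfsg.Statements.S2007
import Cfsg.Agent.H62.FC
import Cfsg.Agent.H3.PComplement

set_option autoImplicit false
open Cfsg

namespace Cfsg.Agent.S2007

open Subgroup Cfsg.Agent.H62 Cfsg.Agent.H72
open scoped Cfsg.Agent.H49

/-- Let p be a prime, G a finite group with Sylow p-subgroup S, and T a normal subgroup of S containing C_S(T). If N_G(T)/C_G(T) is a p-group (every element of N_G(T) of order prime to p centralizes T), then N_G(T) has a normal p-complement. -/
theorem result {G : Type*} [Group G] [Finite G] {p : ℕ} [Fact p.Prime] (S : Sylow p G) (T : Subgroup G) (hTS : T ≤ (S : Subgroup G)) (hTn : (S : Subgroup G) ≤ Subgroup.normalizer ((T : Subgroup G) : Set G)) (hC : (S : Subgroup G) ⊓ Subgroup.centralizer ((T : Subgroup G) : Set G) ≤ T) (hN : ∀ g ∈ Subgroup.normalizer ((T : Subgroup G) : Set G), (orderOf g).Coprime p → g ∈ Subgroup.centralizer ((T : Subgroup G) : Set G)) : Cfsg.HasNormalPComplement p ↥(Subgroup.normalizer ((T : Subgroup G) : Set G)) := by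
  have hCN : 𝒞(T) ≤ 𝒩(T) := H49.cent_le_norm T
  refine H3.hasNormalPComplement_of_pResidual_le (K := (𝒞(T)).subgroupOf (𝒩(T)))
    (H3.pResidual_le_iff.2 fun g hg => hN g g.2 (by rwa [orderOf_coe])) ?_
  rw [H3.hasNormalPComplement_subgroupOf_iff hCN]
  obtain ⟨P, hP⟩ := ((isSylowIn_sylow S hTn).inf_normal hCN
    (normalizer_le_normalizer_centralizer T)).exists_sylow
  refine H3.hasNormalPComplement_of_normalizer_le_centralizer P fun g _ x hx => ?_
  have hx' : x ∈ (P : Subgroup (𝒞(T))) := hx
  rw [hP] at hx'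
  exact Subtype.ext (g.2 _ (hC hx'))

end Cfsg.Agent.S2007
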