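import Cfsg.Statements.S1988
import Cfsg.Agent.H62.NPC2
import Cfsg.Agent.S2007
import Cfsg.Agent.S1982
import Cfsg.Agent.S1978
import Cfsg.Agent.H61.KMap

set_option autoImplicit false
universe u
open Cfsg

namespace Cfsg.Agent.S1988

open Subgroup Cfsg.Agent.H62
open scoped Cfsg.Agent.H49

/-- Let p be an odd prime, G a finite group with Sylow p-subgroup S and K the lower K-infinity subgroup of S. If N_G(K) has a normal p-complement, or if N_G(K)/C_G(K) is a p-group (every element of N_G(K) of order prime to p centralizes K), then G has a normal p-complement. -/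
theorem result {G : Type u} [Group G] [Finite G] {p : ℕ} [Fact p.Prime] (hp : p ≠ 2) (S : Sylow p G) (h : Cfsg.HasNormalPComplement p ↥(Subgroup.normalizer ((Cfsg.inducedFunctor Cfsg.kInfLower (S : Subgroup G) : Subgroup G) : Set G)) ∨ ∀ g ∈ Subgroup.normalizer ((Cfsg.inducedFunctor Cfsg.kInfLower (S : Subgroup G) : Subgroup G) : Set G), (orderOf g).Coprime p → g ∈ Subgroup.centralizer ((Cfsg.inducedFunctor Cfsg.kInfLower (S : Subgroup G) : Subgroup G) : Set G)) : Cfsg.HasNormalPComplement p G := by
  have hW := H61.isCharPFunctor_kInfLower.{u} p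
  have h2 : 2 ≤ p - 1 := by
    have := (Fact.out : p.Prime).two_le
    omega
  refine npc_of_minConfig hW (fun X _ _ P L _ hm _ => ?_) S (h.elim id fun h => ?_)
  · by_contra hn
    obtain ⟨A, hAT, hAc, hA1, hA2, hA3, hA4, hA5⟩ :=
      exists_critical (pCore p X) (H22.isPGroup_pCore (p := p))
    obtain ⟨g, hg1, -, -, -, hg5⟩ := S1982.result P A hAT hAc hA1 hA2 hA3 hA4 hA5 (Or.inl hn)
    obtain ⟨U, V, hUV, hU, h3, h4⟩ := hg5 hm.cent
    have := hUV.2.1
    exact h4 (comm_le_of_minConfig hm hUV (hU.trans hAT) hg1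
      ((iterC_anti (le_norm_of_normal _ U) h2).trans h3))
  · refine S2007.result S _ (ind_le _ _) (le_norm_ind hW S.2) ?_ h
    have h3 := map_inf_cent_of_inj (S : Subgroup G).subtype (subtype_injective _) ⊤
      (kInfLower (S : Subgroup G))
    rw [top_inf_eq, ← MonoidHom.range_eq_map, range_subtype] at h3
    exact h3.ge.trans (map_mono (S1978.result S.2).1)

end Cfsg.Agent.S1988
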