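import Cfsg.Statements.S2001
import Cfsg.Agent.H61.Transfer

set_option autoImplicit false
open Cfsg

namespace Cfsg.Agent.S2001

open Subgroup H72 H61

/-- Let p be a prime dividing the order of the finite group G, P a Sylow p-subgroup, W a conjugacy functor for p on G with Z(H) ≤ W(H) for every nontrivial p-subgroup H, and V a central functor: a conjugacy functor with V(H) ≤ Z(H), and V(H) ≤ V(K) whenever Z(H) ≤ Z(K), for nontrivial p-subgroups H, K. Say that W with V controls transfer in a subgroup L when some Sylow p-subgroup Q of L satisfies Q ∩ L' = (Q ∩ (N_L(W(Q)))')·(Q ∩ (C_L(V(Q)))') as a product of two subgroups. If W with V controls transfer in N_G(H) for every subgroup H with Z(P) ≤ H ≤ P, then W with V controls transfer in G. -/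
theorem result {G : Type*} [Group G] [Finite G] {p : ℕ} [Fact p.Prime] (hdiv : p ∣ Nat.card G) (P : Sylow p G) (W V : Subgroup G → Subgroup G) (hW : Cfsg.IsConjugacyFunctor p W) (hV : Cfsg.IsConjugacyFunctor p V) (hWZ : ∀ H : Subgroup G, IsPGroup p ↥H → H ⊓ Subgroup.centralizer ((H : Subgroup G) : Set G) ≤ W H) (hVZ : ∀ H : Subgroup G, IsPGroup p ↥H → V H ≤ H ⊓ Subgroup.centralizer ((H : Subgroup G) : Set G)) (hVmono : ∀ H K : Subgroup G, IsPGroup p ↥H → IsPGroup p ↥K → H ≠ ⊥ → K ≠ ⊥ → H ⊓ Subgroup.centralizer ((H : Subgroup G) : Set G) ≤ K ⊓ Subgroup.centralizer ((K : Subgroup G) : Set G) → V H ≤ V K) (hloc : ∀ H : Subgroup G, (P : Subgroup G) ⊓ Subgroup.centralizer (((P : Subgroup G) : Subgroup G) : Set G) ≤ H → H ≤ (P : Subgroup G) → ∃ Q : Subgroup G, Q ≤ Subgroup.normalizer ((H : Subgroup G) : Set G) ∧ IsPGroup p ↥Q ∧ ¬ p ∣ (Q).relIndex (Subgroup.normalizer ((H : Subgroup G) : Set G)) ∧ ∀ x : G, x ∈ Q ⊓ ⁅Subgroup.normalizer ((H : Subgroup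 G) : Set G), Subgroup.normalizer ((H : Subgroup G) : Set G)⁆ ↔ ∃ a ∈ Q ⊓ ⁅Subgroup.normalizer ((H : Subgroup G) : Set G) ⊓ Subgroup.normalizer ((W Q : Subgroup G) : Set G), Subgroup.normalizer ((H : Subgroup G) : Set G) ⊓ Subgroup.normalizer ((W Q : Subgroup G) : Set G)⁆, ∃ b ∈ Q ⊓ ⁅Subgroup.normalizer ((H : Subgroup G) : Set G) ⊓ Subgroup.centralizer ((V Q : Subgroup G) : Set G), Subgroup.normalizer ((H : Subgroup G) : Set G) ⊓ Subgroup.centralizer ((V Q : Subgroup G) : Set G)⁆, x = a * b) : ∃ Q : Subgroup G, IsPGroup p ↥Q ∧ ¬ p ∣ Q.index ∧ ∀ x : G, x ∈ Q ⊓ commutator G ↔ ∃ a ∈ Q ⊓ ⁅Subgroup.normalizer ((W Q : Subgroup G) : Set G), Subgroup.normalizer ((W Q : Subgroup G) : Set G)⁆, ∃ b ∈ Q ⊓ ⁅Subgroup.centralizer ((V Q : Subgroup G) : Set G), Subgroup.centralizer ((V Q : Subgroup G) : Set G)⁆, x = a * b := by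
  have hS := isSylowIn_top P
  have hP1 : (P : Subgroup G) ≠ ⊥ := P.ne_bot_of_dvd_card hdiv
  set X := (P : Subgroup G) ⊓ ⁅normalizer (W P : Set G), normalizer (W P : Set G)⁆ with hX
  set Y := (P : Subgroup G) ⊓ ⁅centralizer (V P : Set G), centralizer (V P : Set G)⁆ with hY
  have hloc' : ∀ T Q : Subgroup G, (P : Subgroup G) ⊓ centralizer ((P : Subgroup G) : Set G) ≤ T →
      T ≤ P → IsSylowIn p Q (normalizer (T : Set G)) →
      Q ⊓ ⁅normalizer (T : Set G), normalizer (T : Set G)⁆ ≤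
        Q ⊓ ⁅normalizer (W Q : Set G), normalizer (W Q : Set G)⁆ ⊔
          Q ⊓ ⁅centralizer (V Q : Set G), centralizer (V Q : Set G)⁆ := by
    intro T Q h1 h2 hQ
    obtain ⟨Q', h3, h4, h5, h6⟩ := hloc T h1 h2
    obtain ⟨k, hk, rfl⟩ := (isSylowIn_of_not_dvd_relIndex h4 h3 h5).exists_cj_eq hQ
    have h7 : Q' ⊓ ⁅normalizer (T : Set G), normalizer (T : Set G)⁆ ≤
        Q' ⊓ ⁅normalizer (W Q' : Set G), normalizer (W Q' : Set G)⁆ ⊔
          Q' ⊓ ⁅centralizer (V Q' : Set G), centralizer (V Q' : Set G)⁆ := fun x hx => by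
      obtain ⟨a, ha, b, hb, rfl⟩ := (h6 x).1 hx
      exact mul_mem (mem_sup_left ⟨ha.1, commutator_mono inf_le_right inf_le_right ha.2⟩)
        (mem_sup_right ⟨hb.1, commutator_mono inf_le_right inf_le_right hb.2⟩)
    have h8 := cj_mono k h7
    rwa [cj_sup, cj_inf, cj_inf, cj_inf, cj_commutator, cj_commutator, cj_commutator,
      cj_eq_of_mem hk, cj_normalizer, cj_centralizer, ← cf_cj hW h4, ← cf_cj hV h4] at h8
  have hZ : ∀ T : Subgroup G, (P : Subgroup G) ⊓ centralizer ((P : Subgroup G) : Set G) ≤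
      ((P : Subgroup G) ⊓ normalizer (T : Set G)) ⊓
        centralizer (((P : Subgroup G) ⊓ normalizer (T : Set G) : Subgroup G) : Set G) ∨
      ¬ ((P : Subgroup G) ⊓ centralizer ((P : Subgroup G) : Set G) ≤ T) := fun T => by
    by_cases h : (P : Subgroup G) ⊓ centralizer ((P : Subgroup G) : Set G) ≤ T
    · exact Or.inl (le_inf (le_inf inf_le_left (h.trans le_normalizer))
        (inf_le_right.trans (centralizer_le inf_le_left)))
    · exact Or.inr h
  have hZ1 : (P : Subgroup G) ⊓ centralizer ((P : Subgroup G) : Set G) ≠ ⊥ := fun h =>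
    cf_ne_bot hV P.isPGroup' hP1 (le_bot_iff.1 (h ▸ hVZ P P.isPGroup'))
  have key : ∀ T : Subgroup G, WP p W ⊤ P T →
      (P : Subgroup G) ⊓ centralizer ((P : Subgroup G) : Set G) ≤ T →
      ((P : Subgroup G) ⊓ normalizer (T : Set G)) ⊓
        ⁅normalizer (T : Set G), normalizer (T : Set G)⁆ ≤ X ⊔ Y := by
    refine wp_induction hW hS (fun T hT h hZT => ?_) (fun T hT h hT' ih hZT => ?_)
    · have := hloc' T _ hZT hT.le (by have := hT.fn; rwa [FN, top_inf_eq] at this)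
      rw [h] at this ⊢
      exact this
    · have h1 := (hZ T).resolve_right (not_not.2 hZT)
      refine (hloc' T _ hZT hT.le (by have := hT.fn; rwa [FN, top_inf_eq] at this)).trans
        (sup_le (le_trans (inf_le_inf_right _ h) (ih (h1.trans (hWZ _ P.isPGroup'.to_inf_left))))
          (le_sup_of_le_right ?_))
      have h2 := centralizer_anti (hVmono P _ P.isPGroup' P.isPGroup'.to_inf_left hP1
        (fun h => hZ1 (le_bot_iff.1 (h ▸ h1.trans inf_le_left))) h1)
      exact inf_le_inf inf_le_left (commutator_mono h2 h2)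
  have main : (P : Subgroup G) ⊓ ⁅(⊤ : Subgroup G), (⊤ : Subgroup G)⁆ ≤ X ⊔ Y := by
    refine focal_le_of_foc hS fun A hA g hg hgA => ?_
    refine alperin_centric hS (𝓕 := {T | WP p W ⊤ P T}) (fun U hU => ⟨hU.le, hU.fn⟩)
      (fun T hT => exists_WP hW hS T hT) (E := Foc (X ⊔ Y)) (fun A c _ hc => Foc.cent _ hc)
      (fun _ _ _ => Foc.comp) (fun _ _ _ h1 h2 => h2.restrict h1) (fun T hT hC g _ hgT => ?_)
      A hA g hg hgA
    have h5 : T ≤ (P : Subgroup G) ⊓ normalizer (T : Set G) := le_inf hT.le le_normalizer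
    exact foc_of_le h5 inf_le_right (key T hT ((inf_le_inf_left _ (centralizer_le hT.le)).trans hC))
      hgT ((cj_eq_of_mem_normalizer hgT).le.trans h5)
  refine ⟨P, P.isPGroup', P.not_dvd_index, fun x => ⟨fun hx => ?_, ?_⟩⟩
  · obtain ⟨a, ha, b, hb, rfl⟩ := mem_sup_of_normalizes (inf_le_left.trans
      (H72.le_normalizer_inf le_normalizer (H72.le_normalizer_commutator
        ((le_centralizer_iff.1 ((hVZ P P.isPGroup').trans inf_le_right)).trans le_normalizer)
        ((le_centralizer_iff.1 ((hVZ P P.isPGroup').trans inf_le_right)).trans le_normalizer))))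
      (main hx)
    exact ⟨a, ha, b, hb, rfl⟩
  · rintro ⟨a, ha, b, hb, rfl⟩
    exact mul_mem (mem_inf.2 ⟨ha.1, commutator_mono le_top le_top ha.2⟩)
      (mem_inf.2 ⟨hb.1, commutator_mono le_top le_top hb.2⟩)

end Cfsg.Agent.S2001
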