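import Cfsg.Statements.S2002
import Cfsg.Agent.H61.Transfer

set_option autoImplicit false
open Cfsg

namespace Cfsg.Agent.S2002

open Subgroup H72 H61

theorem ctl_of_list {G : Type*} [Group G] {N : G → Prop} {Q A : Subgroup G} {c : G}
    (hc : c ∈ centralizer (A : Set G)) (l : List G) (hl : ∀ x ∈ l, N x⁻¹)
    (h : ∀ k : ℕ, k ≤ l.length → (fun x => ((l.take k).prod)⁻¹ * x * (l.take k).prod) ''
      ((fun x => c⁻¹ * x * c) '' (A : Set G)) ⊆ Q) : Ctl N Q A (c * l.prod)⁻¹ := by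
  have h1 : ∀ k : ℕ, k ≤ l.length → cj ((l.take k).prod)⁻¹ A ≤ Q := by
    rintro k hk _ ⟨a, ha, rfl⟩
    have := h k hk ⟨_, ⟨a, ha, rfl⟩, rfl⟩
    simp only [mul_assoc c⁻¹, hc a ha, inv_mul_cancel_left] at this
    simpa using this
  have h2 : ∀ k : ℕ, k ≤ l.length → Chain (nStep N Q) A ((l.take k).prod)⁻¹ := by
    intro k
    induction k with
    | zero => intro _; simpa using Chain.one
    | succ k ih =>
      intro hk
      have h3 := h1 (k + 1) hk
      rw [List.prod_take_succ l k hk, mul_inv_rev] at h3 ⊢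
      exact (ih (by omega)).step ⟨hl _ (List.getElem_mem _), h1 k (by omega), by rwa [← cj_mul]⟩
  refine ⟨_, h2 l.length le_rfl, same_iff.2 ?_⟩
  simpa using hc

theorem list_of_ctl {G : Type*} [Group G] {N : G → Prop} {Q : Subgroup G} {X : Set G} {a : G}
    (ha : (fun x => a⁻¹ * x * a) '' X ⊆ Q) (h : Ctl N Q (closure X) a⁻¹) :
    ∃ c ∈ centralizer X, ∃ (n : ℕ) (b : Fin n → G), (∀ i, N (b i)⁻¹) ∧ a = c * (List.ofFn b).prod ∧
      ∀ k : ℕ, k ≤ n → (fun x => (((List.ofFn b).take k).prod)⁻¹ * x * ((List.ofFn b).take k).prod) ''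
        ((fun x => c⁻¹ * x * c) '' X) ⊆ Q := by
  obtain ⟨d, hd, hd'⟩ := h
  obtain ⟨l, h1, h2⟩ := hd.exists_list
  have hc : a * d ∈ centralizer X := by
    have := inv_mem (same_iff.1 hd')
    rw [centralizer_closure] at this
    simpa using this
  refine ⟨a * d, hc, l.length, l.get, fun i => (h2 i i.2).1, by simp [h1], fun k hk => ?_⟩
  rw [List.ofFn_get]
  have h3 : cj ((l.take k).prod)⁻¹ (closure X) ≤ Q := by
    rcases hk.eq_or_lt with rfl | hk
    · rw [List.take_length, h1, inv_inv, hd'.cj_eq, cj_closure_le_iff]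
      simpa using ha
    · exact (h2 k hk).2.1
  rintro _ ⟨_, ⟨x, hx, rfl⟩, rfl⟩
  have := h3 (conj_mem_cj (subset_closure hx))
  simp only [mul_assoc (a * d)⁻¹, hc x hx, inv_mul_cancel_left]
  simpa using this

/-- Let p be a prime dividing the order of the finite group G, P a Sylow p-subgroup, W a conjugacy functor for p on G with Z(H) ≤ W(H) for every nontrivial p-subgroup H, and V a central functor (a conjugacy functor with V(H) ≤ Z(H), and V(H) ≤ V(K) whenever Z(H) ≤ Z(K)). Say that W with V controls strong fusion in a subgroup L when some Sylow p-subgroup Q of L has the property: whenever X ⊆ Q and a ∈ L with a⁻¹Xa ⊆ Q, then a = c b with c ∈ C_L(X) and b = b₁ ⋯ bₙ a product of elements each in N_L(W(Q)) or in C_L(V(Q)) such that every partial conjugate (b₁ ⋯ bₖ)⁻¹ X (b₁ ⋯ bₖ) lies in Q. If W with V controls strong fusion in N_G(H) for every subgroup H with Z(P) ≤ H ≤ P, then W with V controls strong fusion in G. -/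
theorem result {G : Type*} [Group G] [Finite G] {p : ℕ} [Fact p.Prime] (hdiv : p ∣ Nat.card G) (P : Sylow p G) (W V : Subgroup G → Subgroup G) (hW : Cfsg.IsConjugacyFunctor p W) (hV : Cfsg.IsConjugacyFunctor p V) (hWZ : ∀ H : Subgroup G, IsPGroup p ↥H → H ⊓ Subgroup.centralizer ((H : Subgroup G) : Set G) ≤ W H) (hVZ : ∀ H : Subgroup G, IsPGroup p ↥H → V H ≤ H ⊓ Subgroup.centralizer ((H : Subgroup G) : Set G)) (hVmono : ∀ H K : Subgroup G, IsPGroup p ↥H → IsPGroup p ↥K → H ≠ ⊥ → K ≠ ⊥ → H ⊓ Subgroup.centralizer ((H : Subgroup G) : Set G) ≤ K ⊓ Subgroup.centralizer ((K : Subgroup G) : Set G) → V H ≤ V K) (hloc : ∀ H : Subgroup G, (P : Subgroup G) ⊓ Subgroup.centralizer (((P : Subgroup G) : Subgroup G) : Set G) ≤ H → H ≤ (P : Subgroup G) → ∃ Q : Subgroup G, Q ≤ Subgroup.normalizer ((H : Subgroup G) : Set G) ∧ IsPGroup p ↥Q ∧ ¬ p ∣ (Q).relIndex (Subgroup.normalizer ((H : Subgroup G) : Set G)) ∧ ∀ (X : Set G) (a : G), X ⊆ Q → a ∈ Subgroup.normalizer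 ((H : Subgroup G) : Set G) → (fun x => a⁻¹ * x * a) '' X ⊆ Q → ∃ c ∈ Subgroup.normalizer ((H : Subgroup G) : Set G) ⊓ Subgroup.centralizer X, ∃ (n : ℕ) (b : Fin n → G), (∀ i, b i ∈ Subgroup.normalizer ((H : Subgroup G) : Set G) ⊓ Subgroup.normalizer ((W Q : Subgroup G) : Set G) ∨ b i ∈ Subgroup.normalizer ((H : Subgroup G) : Set G) ⊓ Subgroup.centralizer ((V Q : Subgroup G) : Set G)) ∧ a = c * (List.ofFn b).prod ∧ ∀ k : ℕ, k ≤ n → (fun x => (((List.ofFn b).take k).prod)⁻¹ * x * ((List.ofFn b).take k).prod) '' ((fun x => c⁻¹ * x * c) '' X) ⊆ Q) : ∃ Q : Subgroup G, IsPGroup p ↥Q ∧ ¬ p ∣ Q.index ∧ ∀ (X : Set G) (a : G), X ⊆ Q → (fun x => a⁻¹ * x * a) '' X ⊆ Q → ∃ c ∈ Subgroup.centralizer X, ∃ (n : ℕ) (b : Fin n → G), (∀ i, b i ∈ ⊤ ⊓ Subgroup.normalizer ((W Q : Subgroup G) : Set G) ∨ b i ∈ ⊤ ⊓ Subgroup.centralizer ((V Q : Subgroup G) : Set G)) ∧ a = c * (List.ofFn b).prod ∧ ∀ k : ℕ, k ≤ n → (fun x => (((List.ofFn b).take k).prod)⁻¹ *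 x * ((List.ofFn b).take k).prod) '' ((fun x => c⁻¹ * x * c) '' X) ⊆ Q := by
  have hS := isSylowIn_top P
  have hP1 : (P : Subgroup G) ≠ ⊥ := P.ne_bot_of_dvd_card hdiv
  let N : Subgroup G → G → Prop := fun Q x =>
    x ∈ normalizer (W Q : Set G) ∨ x ∈ centralizer (V Q : Set G)
  have hloc' : ∀ T Q : Subgroup G, (P : Subgroup G) ⊓ centralizer ((P : Subgroup G) : Set G) ≤ T →
      T ≤ P → IsSylowIn p Q (normalizer (T : Set G)) → ∀ A ≤ Q, ∀ g ∈ normalizer (T : Set G),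
      cj g A ≤ Q → Ctl (N Q) Q A g := by
    intro T Q h1 h2 hQ
    obtain ⟨Q', h3, h4, h5, h6⟩ := hloc T h1 h2
    obtain ⟨k, hk, rfl⟩ := (isSylowIn_of_not_dvd_relIndex h4 h3 h5).exists_cj_eq hQ
    have h7 : ∀ A ≤ Q', ∀ g ∈ normalizer (T : Set G), cj g A ≤ Q' → Ctl (N Q') Q' A g := by
      intro A hA g hg hgA
      obtain ⟨c, hc, n, b, hb, he, hb'⟩ := h6 A g⁻¹ hA (inv_mem hg) (by
        rintro _ ⟨x, hx, rfl⟩
        simpa using hgA (conj_mem_cj hx))
      have := ctl_of_list (N := N Q') hc.2 (List.ofFn b) (fun x hx => by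
        obtain ⟨i, rfl⟩ := List.mem_ofFn.1 hx
        exact (hb i).imp (fun h => inv_mem (mem_inf.1 h).2) fun h => inv_mem (mem_inf.1 h).2)
        (by simpa using hb')
      rwa [← he, inv_inv] at this
    intro A hA g hg hgA
    have h8 := h7 (cj k⁻¹ A) ((le_cj_iff k).1 hA) (k⁻¹ * g * k)
      (mul_mem (mul_mem (inv_mem hk) hg) hk)
      (by rw [← cj_mul, mul_inv_cancel_right, cj_mul]; exact (le_cj_iff k).1 hgA)
    have h9 := h8.conj (N' := N (cj k Q')) k (by
      intro x hx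
      simp only [N, cf_cj hW h4, cf_cj hV h4, ← cj_normalizer, ← cj_centralizer]
      exact hx.imp conj_mem_cj conj_mem_cj)
    rwa [cj_cj_inv, show k * (k⁻¹ * g * k) * k⁻¹ = g by group] at h9
  have hZ1 : (P : Subgroup G) ⊓ centralizer ((P : Subgroup G) : Set G) ≠ ⊥ := fun h =>
    cf_ne_bot hV P.isPGroup' hP1 (le_bot_iff.1 (h ▸ hVZ P P.isPGroup'))
  have key : ∀ T : Subgroup G, WP p W ⊤ P T →
      (P : Subgroup G) ⊓ centralizer ((P : Subgroup G) : Set G) ≤ T →
      ∀ A ≤ (P : Subgroup G) ⊓ normalizer (T : Set G), ∀ g ∈ normalizer (T : Set G),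
      cj g A ≤ (P : Subgroup G) ⊓ normalizer (T : Set G) → Ctl (N P) P A g := by
    refine wp_induction hW hS (fun T hT h hZT => ?_) (fun T hT h hT' ih hZT A hA g hg hgA => ?_)
    · have := hloc' T _ hZT hT.le (by have := hT.fn; rwa [FN, top_inf_eq] at this)
      rw [h] at this ⊢
      exact this
    · have h1 : (P : Subgroup G) ⊓ centralizer ((P : Subgroup G) : Set G) ≤
          ((P : Subgroup G) ⊓ normalizer (T : Set G)) ⊓
            centralizer (((P : Subgroup G) ⊓ normalizer (T : Set G) : Subgroup G) : Set G) :=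
        le_inf (le_inf inf_le_left (hZT.trans le_normalizer))
          (inf_le_right.trans (centralizer_le inf_le_left))
      refine (hloc' T _ hZT hT.le (by have := hT.fn; rwa [FN, top_inf_eq] at this)
        A hA g hg hgA).trans_of_steps fun B x hx hB hxB => ?_
      rcases hx with hx | hx
      · exact ih (h1.trans (hWZ _ P.isPGroup'.to_inf_left)) B (hB.trans h) x hx (hxB.trans h)
      · exact Ctl.single (Or.inr (centralizer_anti (hVmono P _ P.isPGroup' P.isPGroup'.to_inf_left hP1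
          (fun h => hZ1 (le_bot_iff.1 (h ▸ h1.trans inf_le_left))) h1) hx))
          (hB.trans inf_le_left) (hxB.trans inf_le_left)
  have main : ∀ A ≤ (P : Subgroup G), ∀ g ∈ (⊤ : Subgroup G), cj g A ≤ P → Ctl (N P) P A g := by
    refine alperin_centric hS (𝓕 := {T | WP p W ⊤ P T}) (fun U hU => ⟨hU.le, hU.fn⟩)
      (fun T hT => exists_WP hW hS T hT) (E := Ctl (N P) P) (fun A c _ hc => Ctl.cent _ _ hc)
      (fun _ _ _ => Ctl.comp) (fun _ _ _ h1 h2 => h2.restrict h1) (fun T hT hC g _ hgT => ?_)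
    have h5 : T ≤ (P : Subgroup G) ⊓ normalizer (T : Set G) := le_inf hT.le le_normalizer
    exact key T hT ((inf_le_inf_left _ (centralizer_le hT.le)).trans hC) T h5 g hgT
      ((cj_eq_of_mem_normalizer hgT).le.trans h5)
  refine ⟨P, P.isPGroup', P.not_dvd_index, fun X a hX ha => ?_⟩
  obtain ⟨c, hc, n, b, hb, he⟩ := list_of_ctl ha (main (closure X) ((closure_le _).2 hX) a⁻¹
    (mem_top _) (cj_closure_le_iff.2 (by simpa using ha)))
  refine ⟨c, hc, n, b, fun i => ?_, he⟩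
  simpa [N] using hb i

end Cfsg.Agent.S2002
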