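import Cfsg.Statements.S2004
import Cfsg.Agent.H62.FC
import Cfsg.Agent.H62.Stable
import Cfsg.Agent.H21.PStabDickson

set_option autoImplicit false
open Cfsg

namespace Cfsg.Agent.S2004

open Subgroup Cfsg.Agent.H72 Cfsg.Agent.H62
open scoped Cfsg.Agent.H49

/-- The normalizer of a nontrivial `p`-subgroup of a section is involved in a `p`-local subgroup. -/
theorem inv_local {G X : Type*} [Group G] [Group X] [Finite G] {p : ℕ} [Fact p.Prime]
    (hX : Involves X G) {Q : Subgroup X} (hQ : IsPGroup p Q) (hQ1 : Q ≠ ⊥) :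
    ∃ P : Subgroup G, IsPGroup p P ∧ P ≠ ⊥ ∧ Involves (𝒩(Q)) (𝒩(P)) := by
  obtain ⟨K, f, hf⟩ := H94.involves_iff.1 hX
  have : Finite X := Finite.of_surjective f hf
  obtain ⟨P, hP⟩ := exists_isSylowIn p (Q.comap f)
  have h1 : P.map f = Q := by
    have := hP.map f
    rw [map_comap_eq_self_of_surjective hf] at this
    exact this.eq_of_isPGroup hQ
  refine ⟨P.map K.subtype, hP.isPGroup.map _, fun h => hQ1 ?_, ?_⟩
  · rw [Subgroup.map_eq_bot_iff_of_injective _ K.subtype_injective] at h
    rw [← h1, h, Subgroup.map_bot]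
  · have h2 : 𝒩(P) ≤ (𝒩(Q)).comap f := by
      rw [← map_le_iff_le_comap, ← h1]; exact le_normalizer_map f
    have h3 : 𝒩(P) ≤ (𝒩(P.map K.subtype)).comap K.subtype := by
      rw [← map_le_iff_le_comap]; exact le_normalizer_map _
    refine H94.involves_of_inj_surj (P := 𝒩(P))
      ((K.subtype.subgroupComap _).comp (inclusion h3)) ?_
      ((f.subgroupComap _).comp (inclusion h2)) ?_
    · intro a b hab
      exact Subtype.ext (Subtype.ext (congrArg (fun z : 𝒩(P.map K.subtype) => (z : G)) hab))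
    · rintro ⟨y, hy⟩
      obtain ⟨x, rfl⟩ := hf y
      obtain ⟨n, hn, m, hm, rfl⟩ := hP.frattini (H := 𝒩(Q.comap f)) le_rfl
        (g := x) (by rw [norm_comap_of_surj f hf]; exact hy)
      rw [← h1] at hn
      obtain ⟨u, hu, hun⟩ := hn
      exact ⟨⟨u * m, mul_mem (le_normalizer hu) hm⟩, Subtype.ext (by
        change f (u * m) = f (n * m)
        rw [map_mul, map_mul, hun])⟩


/-- Let p be an odd prime and G a finite group such that SL₂(p) is not involved in N_G(P) for any nonidentity p-subgroup P of G. Then every section of G is p-stable in the normalizer form: in each section, whenever an element of the normalizer of a p-subgroup Q acts quadratically on Q, its image in N(Q)/C(Q) lies in O_p(N(Q)/C(Q)). -/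
theorem result {G : Type*} [Group G] [Finite G] {p : ℕ} [Fact p.Prime] (hp : p ≠ 2) (h : ∀ P : Subgroup G, IsPGroup p ↥P → P ≠ ⊥ → ¬ Cfsg.Involves (Matrix.SpecialLinearGroup (Fin 2) (ZMod p)) ↥(Subgroup.normalizer ((P : Subgroup G) : Set G))) : ∀ (K R : Subgroup G) [hR : (R.subgroupOf K).Normal], Cfsg.IsNormalizerPStable p (↥K ⧸ R.subgroupOf K) := by
  intro K R _ Q hQ g hg hq
  by_cases hQ1 : Q = ⊥
  · subst hQ1
    rw [(QuotientGroup.eq_one_iff _).2 (mem_subgroupOf.2 (by rw [H49.cent_bot]; exact mem_top _))]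
    exact one_mem _
  · obtain ⟨P, hP, hP1, hinv⟩ := inv_local (inv_sec K R) hQ hQ1
    exact H21.mem_pCore_automizer (H21.quadStable_of_not_involves hp
      fun h' => h P hP hP1 (inv_trans h' hinv)) hQ (a := ⟨g, hg⟩) hq

end Cfsg.Agent.S2004
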