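import Cfsg.Statements.S2015
import Cfsg.Agent.H62.KTransfer
import Cfsg.Agent.H61.KChief
import Cfsg.Agent.H61.KMain
import Cfsg.Agent.S1978

set_option autoImplicit false
universe u
open Cfsg

namespace Cfsg.Agent.S2015

open Subgroup Cfsg.Agent.H49 Cfsg.Agent.H62

/-- For p ≥ 5, every finite p-group P has a characteristic subgroup K containing Z(P), depending only on P, whose normalizer controls transfer wherever P is a Sylow subgroup: for every finite group G and every embedding ι of P onto a Sylow p-subgroup of G, the intersection of ι(P) with the derived subgroup of G equals its intersection with the derived subgroup of N_G(ι(K)). -/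
theorem result (p : ℕ) [Fact p.Prime] (hp : 5 ≤ p) (P : Type u) [Group P] [Finite P] (hP : IsPGroup p P) : ∃ K : Subgroup P, K.Characteristic ∧ Subgroup.center P ≤ K ∧ ∀ (G : Type u) [Group G] [Finite G] (ι : P →* G), Function.Injective ι → (∃ T : Sylow p G, (T : Subgroup G) = ι.range) → ι.range ⊓ commutator G = ι.range ⊓ (commutator ↥(Subgroup.normalizer ((K.map ι : Subgroup G) : Set G))).map (Subgroup.normalizer ((K.map ι : Subgroup G) : Set G)).subtype := by
  have hW := H61.isCharPFunctor_kInfLower.{u} p
  refine ⟨kInfLower P, ⟨fun φ => ?_⟩, H61.center_le_kInfLower, fun G _ _ ι hι ⟨T, hT⟩ => ?_⟩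
  · have := hW.2 P P hP φ
    conv_lhs => rw [← this]
    exact comap_map_eq_self_of_injective φ.injective _
  · have h1 := (tc_kInfLower hp G).sylow T
    have h2 : inducedFunctor kInfLower (T : Subgroup G) = (kInfLower P).map ι := by
      rw [hT, MonoidHom.range_eq_map, ind_map_inj hW ι hι (hP.to_subgroup ⊤)]
      congr 1
      exact hW.2 _ _ (hP.to_subgroup ⊤) topEquiv
    rw [h2, hT] at h1
    rw [h1, _root_.commutator_def, map_commutator, ← MonoidHom.range_eq_map, range_subtype]

end Cfsg.Agent.S2015
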