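import Cfsg.Statements.S2039
import Cfsg.Agent.H88.J1Model
import Cfsg.Agent.H21.AbMult
import Cfsg.Agent.H22.SL2Mult
import Cfsg.Agent.H81.Central

set_option autoImplicit false
open Cfsg

namespace Cfsg.Agent.S2039

open Cfsg.Agent.H88.J1 Subgroup

/-- The Schur multiplier of the Janko group J₁ (the group generated by two explicit 7 × 7 matrices over the integers modulo 11) is trivial; here the Schur multiplier is described through stem extensions, as in the definitions: surjective homomorphisms onto the group from a finite group, whose kernel is central in that finite group and contained in that finite group's commutator subgroup. -/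
theorem result : Cfsg.HasCyclicSchurMultiplier ↥Cfsg.Spor.J1 1 := by
  refine H81.mult_trivial_iff.2 fun Γ _ _ σ ⟨hs, hc, hd⟩ => ?_
  rw [← inf_eq_left.2 hd]
  apply Subgroup.eq_bot_of_card_eq
  by_contra h
  obtain ⟨p, hp, hpd⟩ := Nat.exists_prime_and_dvd h
  haveI := Fact.mk hp
  by_cases h2 : p = 2
  · subst h2
    let S := syl jbase.inj j16
    have hcomm : IsMulCommutative (S : Subgroup Spor.J1) := by
      refine ⟨⟨?_⟩⟩
      rintro ⟨_, a, ha, rfl⟩ ⟨_, b, hb, rfl⟩
      exact Subtype.ext (by change jφ a * jφ b = jφ b * jφ a; rw [← map_mul, S0_comm a ha b hb, map_mul])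
    refine H22.not_dvd_card_ker_inf_commutator hs hc (S : Subgroup Spor.J1) S.not_dvd_index ?_ hpd
    rw [eq_bot_iff]
    refine inf_le_right.trans (commutator_le.2 fun x hx z hz => ?_)
    rw [mem_bot, commutatorElement_eq_one_iff_mul_comm]
    refine (H21.Ab2.of_sylow S hcomm).commute_of_central S (card_map_S0 jbase.inj) ?_ σ hs hc hx hz
    rintro _ ⟨a, ha, rfl⟩ hn
    by_contra h1
    obtain ⟨i, hi⟩ := jbase.conj_S ha (by rintro rfl; simp at h1)
    have e := hn jX jbase.y_norm
    rw [← hi] at e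
    have e2 : jX * jφ t0 * jX⁻¹ = jφ t0 := by
      calc _ = (jX ^ i)⁻¹ * (jX * (jX ^ i * jφ t0 * (jX ^ i)⁻¹) * jX⁻¹) * jX ^ i := by group
        _ = _ := by rw [e]; group
    rw [jbase.yt] at e2
    exact T_rel2.2.2.2.2.2.2.1 (jbase.inj e2)
  · obtain ⟨P⟩ : Nonempty (Sylow p Spor.J1) := inferInstance
    refine H22.not_dvd_card_ker_inf_commutator hs hc (P : Subgroup Spor.J1) P.not_dvd_index ?_ hpd
    rw [H22.der_comap_eq_bot_of_cyclic hc, inf_bot_eq]
    obtain ⟨k, hk⟩ := P.isPGroup'.exists_card_eq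
    have hd := card_subgroup_dvd_card (P : Subgroup Spor.J1)
    rw [hk, card_J1, show 175560 = 2 ^ 3 * 21945 from rfl] at hd
    have hd2 : p ^ k ∣ 21945 :=
      (Nat.Coprime.pow _ _ ((Nat.coprime_primes hp Nat.prime_two).2 h2)).dvd_of_dvd_mul_left hd
    have hsq : Squarefree 21945 := by
      rw [show 21945 = 3 * 5 * 7 * 11 * 19 from rfl]
      refine Nat.squarefree_mul_iff.2 ⟨by norm_num, Nat.squarefree_mul_iff.2 ⟨by norm_num,
        Nat.squarefree_mul_iff.2 ⟨by norm_num, Nat.squarefree_mul_iff.2 ⟨by norm_num, ?_, ?_⟩, ?_⟩, ?_⟩, ?_⟩ <;>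
        exact (Nat.Prime.prime (by norm_num)).squarefree
    rcases k with _ | _ | k
    · haveI : Subsingleton (P : Subgroup Spor.J1) := (Nat.card_eq_one_iff_unique.1 (by simpa using hk)).1
      exact isCyclic_of_subsingleton
    · exact isCyclic_of_prime_card (p := p) (by simpa using hk)
    · exact absurd (hsq p ((Dvd.intro (p ^ k) (by ring)).trans hd2)) (by simpa using hp.one_lt.ne')

end Cfsg.Agent.S2039
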