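import Cfsg.Statements.S2043
import Cfsg.Agent.H63.UBCo0
import Cfsg.Agent.H63.Co1

set_option autoImplicit false
open Cfsg

namespace Cfsg.Agent.S2043

/-- The Schur multiplier of the Conway group Co₁ (the automorphism group of the rank-24 lattice modulo its centre) is cyclic of order 2; here the Schur multiplier is described through stem extensions, as in the definitions: surjective homomorphisms onto the group from a finite group, whose kernel is central in that finite group and contained in that finite group's commutator subgroup. -/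
theorem result : Cfsg.HasCyclicSchurMultiplier Cfsg.Spor.Co1 2 := by
  have := H15.finite_Co0
  have hs := QuotientGroup.mk'_surjective (Subgroup.center Co0)
  have h2 : H15.negC ^ 2 = 1 := by rw [pow_two, H15.negC_sq]
  have hm : ∀ c ∈ (QuotientGroup.mk' (Subgroup.center Co0)).ker, c ^ 2 = 1 := fun c hc => by
    rw [H63.ker_Co0] at hc
    obtain ⟨k, rfl⟩ := hc
    rw [← zpow_natCast, ← zpow_mul, mul_comm, zpow_mul, zpow_natCast, h2, one_zpow]
  have hL := H63.LB.quot _ hs (QuotientGroup.ker_mk' _).le H63.commutator_Co0
  rw [QuotientGroup.ker_mk', H15.card_center] at hL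
  refine H63.mult_cyclic (H63.UB.of_PB_fac [(2, [2]), (3, []), (5, []), (7, [])] ?_
    [(2, 21), (3, 9), (5, 4), (7, 2), (11, 1), (13, 1), (23, 1)] 4157776806543360000 H15.card_Co1
    (by norm_num) (by simp only [List.forall_mem_cons]; norm_num)) hL
  simp only [List.forall_mem_cons]
  exact ⟨H63.PB.quot_cyclic _ hs H63.commutator_Co0 Nat.prime_two H63.ker_Co0 h2 H63.Le.co0p2pb.top,
    H63.PB.quot_coprime _ hs H63.commutator_Co0 hm (by norm_num) H63.Le.co0p3pb.top,
    H63.PB.quot_coprime _ hs H63.commutator_Co0 hm (by norm_num) H63.Le.co0p5pb.top,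
    H63.PB.quot_coprime _ hs H63.commutator_Co0 hm (by norm_num) H63.Le.co0p7pb.top, by simp⟩

end Cfsg.Agent.S2043
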