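import Cfsg.Statements.S2048
import Cfsg.Agent.H63.Suz
import Cfsg.Agent.H58.SuzP

set_option autoImplicit false
open Cfsg

namespace Cfsg.Agent.S2048

/-- The Schur multiplier of the Suzuki sporadic group (the finitely presented group of the definitions) is cyclic of order 6; here the Schur multiplier is described through stem extensions, as in the definitions: surjective homomorphisms onto the group from a finite group, whose kernel is central in that finite group and contained in that finite group's commutator subgroup. -/
theorem result : Cfsg.HasCyclicSchurMultiplier Cfsg.Spor.Suz 6 := by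
  have := H58.SuzP.finite
  have := H58.SuzP.simple
  have h := H58.SuzP.card_eq
  have hU := H63.univ_cox (fun x => (H58.SuzP.hc x).2) H58.SuzP.homM
  refine H63.mult_cyclic2 (H63.UB.of_PB_fac [(2, [2]), (3, [3]), (5, [])] ?_ [(2, 13), (3, 7), (5, 2), (7, 1), (11, 1), (13, 1)] 448345497600 h
    (by norm_num) (by simp only [List.forall_mem_cons]; norm_num)) (by norm_num) (H63.Suz.acov hU).lb (H63.Suz.bcov hU).lb
  simp only [List.forall_mem_cons]
  exact ⟨(H63.Suz.bcov hU).pb h (by norm_num) Nat.prime_two (fun _ _ _ hM ho => H63.Suz.bp2pb (H63.Suz.bsmd hM) ho)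
    (by decide), (H63.Suz.acov hU).pb h (by norm_num) Nat.prime_three (fun _ _ _ hM ho => H63.Suz.ap3pb (H63.Suz.asmd hM) ho)
    (by decide), (H63.Suz.acov hU).pb h (by norm_num) Nat.prime_five (fun _ _ _ hM ho => H63.Suz.ap5pb (H63.Suz.asmd hM) ho)
    (by decide), by simp⟩

end Cfsg.Agent.S2048
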