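import Cfsg.Statements.S2095
import Cfsg.Agent.H63.O73
import Cfsg.Agent.H56.Fi22O7
import Cfsg.Agent.H29.Transport
import Cfsg.Agent.S0295

set_option autoImplicit false
open Cfsg

namespace Cfsg.Agent.S2095

/-- Exceptional Schur multiplier: over the field with 3 elements, PΩ₇ (for the form x₀² + Σ xᵢyᵢ) has Schur multiplier cyclic of order 6 (the product of cyclic groups of orders 3 and 2; here the Schur multiplier is described through stem extensions, as in the definitions). -/
theorem result {F : Type*} [Field F] [Fintype F] (hF : Fintype.card F = 3) : Cfsg.HasCyclicSchurMultiplier (Cfsg.POmega F (Cfsg.quadFormOdd 3 F)) 6 := by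
  obtain ⟨e⟩ := H56.Fi22O7.K_equiv
  let f := FiniteField.ringEquivOfCardEq (K := F) (K' := ZMod 3) hF
  refine H81.mult_congr_left (G := H58.Fi22P.K) ?_ (e.trans (H29.pomegaEquiv f _ _ (H29.quadFormOdd_comp 3 f)).symm)
  have := H58.Fi22P.finite
  have := H63.simple_of_equiv (G := H58.Fi22P.K) e (S0295.result (F := ZMod 3) (by decide) 3 le_rfl)
  have h := H58.Fi22P.index_K.2
  have hA : H63.Univ H58.Fi22P.K (List.map H63.relW H63.O73.ars) 164412590478073920 10 :=
    H63.O73.univ.mono (by decide +kernel) (by decide +kernel)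
  have hU : H63.Univ H58.Fi22P.K (List.map H63.relW H63.O73.brs) 164412590478073920 10 :=
    H63.O73.univ.mono (by decide +kernel) (by decide +kernel)
  refine H63.mult_cyclic2 (H63.UB.of_PB_fac [(2, [2]), (3, [3])] ?_ [(2, 9), (3, 9), (5, 1), (7, 1), (13, 1)] 4585351680 h
    (by norm_num) (by simp only [List.forall_mem_cons]; norm_num)) (by norm_num) (H63.O73.acov hA).lb
    (H63.O73.bcov hU).lb
  simp only [List.forall_mem_cons]
  exact ⟨(H63.O73.bcov hU).pb h (by norm_num) Nat.prime_two (fun _ _ _ hM ho => H63.O73.bp2pb (H63.O73.bsmd hM) ho)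
    (by decide), (H63.O73.bcov hU).pb h (by norm_num) Nat.prime_three (fun _ _ _ hM ho => H63.O73.bp3pb (H63.O73.bsmd hM) ho)
    (by decide), by simp⟩

end Cfsg.Agent.S2095
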