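import Cfsg.Statements.S2098
import Cfsg.Agent.H63.O82
import Cfsg.Agent.S0293

set_option autoImplicit false
open Cfsg

namespace Cfsg.Agent.S2098

/-- Exceptional Schur multiplier: over the field with 2 elements, PΩ⁺₈ (for the form Σ xᵢyᵢ) has Schur multiplier a four-group, the product of two cyclic groups of order 2 (here the Schur multiplier is described through stem extensions, as in the definitions). -/
theorem result {F : Type*} [Field F] [Fintype F] (hF : Fintype.card F = 2) : Cfsg.HasSchurMultiplier (Cfsg.POmega F (Cfsg.quadFormPlus 4 F)) (Multiplicative (ZMod 2 × ZMod 2)) := by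
  obtain ⟨e⟩ := H63.equiv_quot_center (G := Omega F (quadFormPlus 4 F))
    (H63.card_center_omega (H11.qPlus F 4) _ (H11.qPlus_eq F 4) (H11.nd_qPlus F 4) (by simp) (Or.inl (by have := FiniteField.cast_card_eq_zero F; rwa [hF] at this)))
  have h' : Nat.card (POmega F (quadFormPlus 4 F)) = 174182400 := by
    have := S0293.result hF 4 (by norm_num)
    simp [Finset.prod_range_succ] at this
    omega
  have h := (Nat.card_congr e.toEquiv).trans h'
  have hM := H63.O82.md (H63.O82.md0 (H63.O82.md00 hF))
  refine H63.mult_prod2 (H63.UB.of_PB_fac [(2, [2, 2]), (3, []), (5, [])] ?_ [(2, 12), (3, 5), (5, 2), (7, 1)] 174182400 h'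
    (by norm_num) (by simp only [List.forall_mem_cons]; norm_num)) ((H63.O82.clb hM h).congr e)
  simp only [List.forall_mem_cons]
  exact ⟨(H63.O82.p2pb hM h).congr e, (H63.O82.p3pb hM h).congr e, (H63.O82.p5pb hM h).congr e, by simp⟩

end Cfsg.Agent.S2098
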