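import Cfsg.Statements.S2162
import Cfsg.Agent.H67.Transv
import Cfsg.Agent.H29.SUInv

set_option autoImplicit false
open Cfsg

namespace Cfsg.Agent.S2162

open Matrix in
theorem exists_comm {F : Type*} [Field F] {ι : Type*} [Fintype ι] [DecidableEq ι]
    {N : Matrix ι ι F} (h0 : N ≠ 0) (h : N * N = 0) (l : F) :
    ∃ D : Matrix ι ι F, D.det = l * l ∧ N * D = D * N := by
  obtain ⟨i, j, hij⟩ : ∃ i j, N i j ≠ 0 := by
    by_contra k
    push Not at k
    exact h0 (Matrix.ext k)
  have k : ∀ u v : ι → F, v ⬝ᵥ u = l - 1 → (1 + vecMulVec u v).det = l := fun u v e => by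
    rw [vecMulVec_eq Unit, det_one_add_replicateCol_mul_replicateRow, e, add_sub_cancel]
  set u : ι → F := Pi.single j ((l - 1) / N i j)
  set p : ι → F := Pi.single i 1
  have h1 : p ⬝ᵥ (N *ᵥ u) = l - 1 := by simp [u, p]; field_simp
  refine ⟨(1 + vecMulVec u (p ᵥ* N)) * (1 + vecMulVec (N *ᵥ u) p), ?_, ?_⟩
  · rw [det_mul, k _ _ (by rw [← dotProduct_mulVec, h1]), k _ _ h1]
  · rw [Matrix.ext_iff_mulVec]
    intro x
    simp only [← mulVec_mulVec, add_mulVec, one_mulVec, vecMulVec_mulVec, mulVec_add,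
      op_smul_eq_smul, mulVec_smul, ← dotProduct_mulVec, mulVec_mulVec _ N N, h, zero_mulVec,
      dotProduct_zero, dotProduct_add, dotProduct_smul, smul_zero, add_zero, zero_smul]

/-- Conjugacy of involutions in the special linear group over a finite field of characteristic two, in dimension at least 3: two elements of order 2 of SL_n(F) are conjugate in SL_n(F) exactly when the matrices a − 1 and b − 1 have the same rank (the rank of a − 1 is the dimension of the commutator space [V, a]). -/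
theorem result {F : Type*} [Field F] [Fintype F] [CharP F 2] {n : ℕ} (hn : 3 ≤ n) (a b : Matrix.SpecialLinearGroup (Fin n) F) (ha : orderOf a = 2) (hb : orderOf b = 2) :
    IsConj a b ↔ ((a : Matrix (Fin n) (Fin n) F) - 1).rank = ((b : Matrix (Fin n) (Fin n) F) - 1).rank := by
  refine ⟨fun h => ?_, fun h => ?_⟩
  · obtain ⟨g, rfl⟩ := isConj_iff.1 h
    have := H67.rank_conj (Matrix.SpecialLinearGroup.toGL g) (a.1 - 1)
    rw [← H67.conj_sub_one, ← map_inv] at this
    exact this.symm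
  have k : ∀ {x : Matrix.SpecialLinearGroup (Fin n) F}, orderOf x = 2 → (x.1 - 1) * (x.1 - 1) = 0 :=
    fun {x} h => H29.inv_sq_zero
      (congrArg Subtype.val ((pow_two x).symm.trans (h ▸ pow_orderOf_eq_one x)))
  obtain ⟨c, hc⟩ := H67.isConj_of_sq_zero (k ha) (k hb) h
  obtain ⟨l, hl⟩ := FiniteField.isSquare_of_char_two (ringChar.eq F 2) (c⁻¹).1.det
  obtain ⟨D, h1, h2⟩ := exists_comm (fun e => by
    rw [show a = 1 from Subtype.ext (sub_eq_zero.1 e), orderOf_one] at ha
    exact absurd ha (by decide)) (k ha) l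
  rw [sub_mul, mul_sub, one_mul, mul_one, sub_left_inj] at h2
  refine isConj_iff.2 ⟨⟨c.1 * D, ?_⟩, mul_inv_eq_iff_eq_mul.2 (Subtype.ext ?_)⟩
  · rw [Matrix.det_mul, h1, ← hl, ← Matrix.det_mul, c.mul_inv, Matrix.det_one]
  · change c.1 * D * a.1 = b.1 * (c.1 * D)
    rw [mul_assoc, ← h2, ← mul_assoc, hc.eq, mul_assoc]

end Cfsg.Agent.S2162
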