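import Cfsg.Statements.S2163
import Cfsg.Agent.H29.RankAB

set_option autoImplicit false
open Cfsg

namespace Cfsg.Agent.S2163

/-- Over a finite field of characteristic two and for n ≥ 3: for every ℓ with 1 ≤ ℓ and 2ℓ ≤ n, the matrix j_ℓ that is the identity plus the entries 1 in positions (n − ℓ + i, i) for i < ℓ (an identity block of size ℓ in the lower left corner) lies in SL_n(F), has order 2, and j_ℓ − 1 has rank ℓ. Together with the conjugacy criterion by rank, these matrices represent the conjugacy classes of involutions of SL_n(F). -/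
theorem result {F : Type*} [Field F] [Fintype F] [CharP F 2] {n : ℕ} (hn : 3 ≤ n) (ℓ : ℕ) (h1 : 1 ≤ ℓ) (h2 : 2 * ℓ ≤ n) :
    ∃ a : Matrix.SpecialLinearGroup (Fin n) F, (a : Matrix (Fin n) (Fin n) F) = 1 + Matrix.of (fun i j : Fin n => if j.val < ℓ ∧ i.val = j.val + (n - ℓ) then (1 : F) else 0) ∧ orderOf a = 2 ∧ ((a : Matrix (Fin n) (Fin n) F) - 1).rank = ℓ := by
----
  have e : Matrix.of (fun i j : Fin n => if j.val < ℓ ∧ i.val = j.val + (n - ℓ) then (1 : F) else 0) =
      H29.inc F n ℓ (n - ℓ) * (H29.inc F n ℓ 0).transpose := by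
    ext i j
    rw [H29.inc_mul]
    exact if_congr (by omega) rfl rfl
  have r := H29.rank_mul_of_inv (H29.mul_inc_self (F := F) (n := n) (l := ℓ) (s := n - ℓ) (by omega))
    (H29.mul_inc_self (s := 0) (by omega))
  rw [e]
  obtain ⟨a, h3, h4⟩ := H29.sl_of_sq_zero
    (N := H29.inc F n ℓ (n - ℓ) * (H29.inc F n ℓ 0).transpose) (by
      rw [Matrix.mul_assoc, ← Matrix.mul_assoc _ (H29.inc F n ℓ (n - ℓ)),
        H29.mul_inc_zero (by omega) (by omega), Matrix.zero_mul, Matrix.mul_zero])
    (fun h => by rw [h, Matrix.rank_zero, Fintype.card_fin] at r; omega)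
  exact ⟨a, h3, h4, by rw [h3, add_sub_cancel_left, r, Fintype.card_fin]⟩

end Cfsg.Agent.S2163
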