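import Cfsg.Statements.S2164
import Cfsg.Agent.H29.SUInv
import Cfsg.Agent.H67.Transv

set_option autoImplicit false
open Cfsg

namespace Cfsg.Agent.S2164

theorem rank_eq {F : Type*} [Field F] {n : ℕ} {a b : Matrix.SpecialLinearGroup (Fin n) F}
    (h : IsConj a b) : ((a : Matrix (Fin n) (Fin n) F) - 1).rank =
      ((b : Matrix (Fin n) (Fin n) F) - 1).rank := by
  obtain ⟨c, hc⟩ := isConj_iff.1 (Matrix.SpecialLinearGroup.toGL.map_isConj h)
  have := congrArg Units.val hc
  rw [Units.val_mul, Units.val_mul] at this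
  rw [← H67.rank_conj c, ← H67.conj_sub_one]
  exact congrArg (fun x => Matrix.rank (x - 1)) this

/-- Conjugacy of involutions in the special unitary group SU_n(q), q even, n ≥ 3, realised over the field F with q² elements as the matrices of determinant 1 preserving the form Σ u_i v_i^q: for two elements of order 2 of SU_n(q) the following are equivalent — they are conjugate in SU_n(q); they are conjugate in SL_n(F); the matrices a − 1 and b − 1 have the same rank. -/
theorem result {F : Type*} [Field F] [Fintype F] [CharP F 2] {n q : ℕ} (hF : Fintype.card F = q ^ 2) (hn : 3 ≤ n) (a b : ↥(Cfsg.SU n F q)) (ha : orderOf a = 2) (hb : orderOf b = 2) :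
    (IsConj a b ↔ IsConj (a : Matrix.SpecialLinearGroup (Fin n) F) (b : Matrix.SpecialLinearGroup (Fin n) F)) ∧
    (IsConj a b ↔ (((a : Matrix.SpecialLinearGroup (Fin n) F) : Matrix (Fin n) (Fin n) F) - 1).rank = (((b : Matrix.SpecialLinearGroup (Fin n) F) : Matrix (Fin n) (Fin n) F) - 1).rank) := by
  haveI : Fact (Fintype.card F = q ^ 2) := ⟨hF⟩
  have h1 : IsConj a b → IsConj (a : Matrix.SpecialLinearGroup (Fin n) F) b := fun h =>
    (SU n F q).subtype.map_isConj h
  have h3 := H29.isConj_su_of_rank ha hb
  exact ⟨⟨h1, fun h => h3 (rank_eq h)⟩, fun h => rank_eq (h1 h), h3⟩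

end Cfsg.Agent.S2164
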