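import Cfsg.Statements.S2165
import Cfsg.Agent.H29.RankAB
import Cfsg.Agent.H10.Herm

set_option autoImplicit false
open Cfsg

namespace Cfsg.Agent.S2165

/-- In SU_n(q), q even, n ≥ 3 (matrices of determinant 1 over the field with q² elements preserving Σ u_i v_i^q): for every ℓ with 1 ≤ ℓ and 2ℓ ≤ n, the permutation matrix of the involution of {0, …, n−1} exchanging i and n − ℓ + i for each i < ℓ lies in SU_n(q), has order 2, and differs from the identity by a matrix of rank ℓ. So every rank between 1 and n/2 occurs for involutions of SU_n(q). -/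
theorem result {F : Type*} [Field F] [Fintype F] [CharP F 2] {n q : ℕ} (hF : Fintype.card F = q ^ 2) (hn : 3 ≤ n) (ℓ : ℕ) (h1 : 1 ≤ ℓ) (h2 : 2 * ℓ ≤ n) :
    ∃ a : ↥(Cfsg.SU n F q), (((a : Matrix.SpecialLinearGroup (Fin n) F) : Matrix (Fin n) (Fin n) F) = Matrix.of (fun i j : Fin n => if (j.val < ℓ ∧ i.val = j.val + (n - ℓ)) ∨ (i.val < ℓ ∧ j.val = i.val + (n - ℓ)) ∨ (i = j ∧ ℓ ≤ i.val ∧ i.val < n - ℓ) then (1 : F) else 0)) ∧ orderOf a = 2 ∧ ((((a : Matrix.SpecialLinearGroup (Fin n) F) : Matrix (Fin n) (Fin n) F)) - 1).rank = ℓ := by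
----
  haveI := Fact.mk hF
  have two : (2 : F) = 0 := CharP.cast_eq_zero F 2
  set A := H29.inc F n ℓ 0 + H29.inc F n ℓ (n - ℓ) with hA
  have e : Matrix.of (fun i j : Fin n => if (j.val < ℓ ∧ i.val = j.val + (n - ℓ)) ∨ (i.val < ℓ ∧ j.val = i.val + (n - ℓ)) ∨ (i = j ∧ ℓ ≤ i.val ∧ i.val < n - ℓ) then (1 : F) else 0) =
      1 + A * A.transpose := by
    ext i j
    simp only [hA, Matrix.transpose_add, Matrix.add_mul, Matrix.mul_add, Matrix.add_apply,
      H29.inc_mul, Matrix.one_apply, Matrix.of_apply, Fin.ext_iff]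
    split_ifs <;> first | omega | simp [CharTwo.add_self_eq_zero]
  have e1 : (H29.inc F n ℓ 0).transpose * A = 1 := by
    rw [hA, Matrix.mul_add, H29.mul_inc_self (by omega), H29.mul_inc_zero (by omega) (by omega),
      add_zero]
  have r := H29.rank_mul_of_inv e1 (B := A.transpose) (B' := H29.inc F n ℓ 0)
    (by simpa using congrArg Matrix.transpose e1)
  have e2 : A.transpose * A = 0 := by
    rw [hA, Matrix.transpose_add, Matrix.add_mul, ← hA, e1, hA, Matrix.mul_add,
      H29.mul_inc_self (by omega), H29.mul_inc_zero (by omega) (by omega), zero_add, ← two_smul F,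
      two, zero_smul]
  obtain ⟨a, h3, h4⟩ := H29.sl_of_sq_zero (N := A * A.transpose) (by
      rw [Matrix.mul_assoc, ← Matrix.mul_assoc _ A, e2, Matrix.zero_mul, Matrix.mul_zero])
    (fun h => by rw [h, Matrix.rank_zero, Fintype.card_fin] at r; omega)
  have h5 : H10.IsIsom q a.1 := by
    have h6 : a.1.map (H10.cj F q) = a.1 := by
      rw [h3, ← e]; ext i j
      simp only [Matrix.map_apply, Matrix.of_apply, apply_ite (H10.cj F q), map_one, map_zero]
    have h7 : a.1.transpose = a.1 := by rw [h3]; simp [Matrix.transpose_mul]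
    rw [H10.isIsom_iff, h6, h7]
    exact congrArg Subtype.val ((pow_two a).symm.trans (h4 ▸ pow_orderOf_eq_one a))
  refine ⟨⟨a, h5⟩, h3.trans e.symm, (Subgroup.orderOf_mk _ _).trans h4, ?_⟩
  rw [h3, add_sub_cancel_left, r, Fintype.card_fin]

end Cfsg.Agent.S2165
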