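import Cfsg.Statements.S2172
import Cfsg.Agent.H29.OInv2
import Cfsg.Agent.H28.StdForms

set_option autoImplicit false
open Cfsg

namespace Cfsg.Agent.S2172

/-- Splitting of involution classes from O to Ω for the hyperbolic quadratic form Q = Σ x_i y_i in dimension 2m over a finite field F of characteristic two, m ≥ 4. Let t, s be involutions of the commutator subgroup Ω that are conjugate in the full isometry group O. If it is not the case that t − 1 has rank m and Q(v + t v) = 0 for every vector v, then t and s are conjugate by an element of Ω. If t − 1 has rank m and Q(v + t v) = 0 for all v, then t and s are conjugate by an element of Ω exactly when the intersection of the images of t − 1 and s − 1 has even dimension (so the class of t in O meets at most two classes of Ω). -/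
theorem result {F : Type*} [Field F] [Fintype F] [CharP F 2] {m : ℕ} (hm : 4 ≤ m) (t s : ↥(Cfsg.isometryGroup F (Cfsg.quadFormPlus m F))) (ht : orderOf t = 2) (hs : orderOf s = 2) (htO : t ∈ Cfsg.Omega F (Cfsg.quadFormPlus m F)) (hsO : s ∈ Cfsg.Omega F (Cfsg.quadFormPlus m F)) (hconj : IsConj t s) :
    (¬ (((((t : ↥(Cfsg.isometryGroup F (Cfsg.quadFormPlus m F))) : GL (Fin m ⊕ Fin m) F) : Matrix (Fin m ⊕ Fin m) (Fin m ⊕ Fin m) F) - 1).rank = m ∧ ∀ v : Fin m ⊕ Fin m → F, Cfsg.quadFormPlus m F (v + Matrix.mulVec (((t : ↥(Cfsg.isometryGroup F (Cfsg.quadFormPlus m F))) : GL (Fin m ⊕ Fin m) F) : Matrix (Fin m ⊕ Fin m) (Fin m ⊕ Fin m) F) v) = 0) →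
      ∃ g ∈ Cfsg.Omega F (Cfsg.quadFormPlus m F), g * t * g⁻¹ = s) ∧
    ((((((t : ↥(Cfsg.isometryGroup F (Cfsg.quadFormPlus m F))) : GL (Fin m ⊕ Fin m) F) : Matrix (Fin m ⊕ Fin m) (Fin m ⊕ Fin m) F) - 1).rank = m ∧ ∀ v : Fin m ⊕ Fin m → F, Cfsg.quadFormPlus m F (v + Matrix.mulVec (((t : ↥(Cfsg.isometryGroup F (Cfsg.quadFormPlus m F))) : GL (Fin m ⊕ Fin m) F) : Matrix (Fin m ⊕ Fin m) (Fin m ⊕ Fin m) F) v) = 0) →
      ((∃ g ∈ Cfsg.Omega F (Cfsg.quadFormPlus m F), g * t * g⁻¹ = s) ↔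
        Even (Module.finrank F ↥(LinearMap.range (Matrix.toLin' ((((t : ↥(Cfsg.isometryGroup F (Cfsg.quadFormPlus m F))) : GL (Fin m ⊕ Fin m) F) : Matrix (Fin m ⊕ Fin m) (Fin m ⊕ Fin m) F) - 1)) ⊓ LinearMap.range (Matrix.toLin' ((((s : ↥(Cfsg.isometryGroup F (Cfsg.quadFormPlus m F))) : GL (Fin m ⊕ Fin m) F) : Matrix (Fin m ⊕ Fin m) (Fin m ⊕ Fin m) F) - 1)))))) := by
----
  have hQ := H28.qPlus_nondeg (F := F) m
  have h2 : (2 : F) = 0 := CharP.cast_eq_zero F 2
  have hok : H28.EichOK (H28.qPlus m F) := Or.inr (Or.inl (by simp; omega))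
  have e : ∀ g : H28.O (H28.qPlus m F), H28.rho _ g - 1 = Matrix.toLin' (H28.mat g - 1) :=
    fun g => LinearMap.ext fun v => by simp [Matrix.sub_mulVec, H28.rho_apply]
  have k : ∀ t : H28.O (H28.qPlus m F), H28.MaxTS (H28.qPlus m F) (LinearMap.range (H28.rho _ t - 1)) ↔
      ((H28.mat t - 1).rank = m ∧ ∀ v, H28.qPlus m F (v + (H28.mat t).mulVec v) = 0) := by
    intro t
    rw [H29.rank_mat_sub_one, H28.MaxTS, Fintype.card_sum, Fintype.card_fin]
    have e' : ∀ v, v + (H28.mat t).mulVec v = (H28.rho _ t - 1) v := fun v =>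
      funext fun i => (add_comm _ _).trans (CharTwo.sub_eq_add _ _).symm
    simp only [e']
    exact and_congr (by omega) ⟨fun h v => h _ ⟨v, rfl⟩, by rintro h _ ⟨v, rfl⟩; exact h v⟩
  refine ⟨fun h => H29.exists_conj_omega hQ h2 hok ht hconj (mt (k t).1 h), fun h => ?_⟩
  have := H29.conj_omega_iff hQ h2 hok htO hconj ((k t).2 h)
  rwa [e t, e s] at this

end Cfsg.Agent.S2172
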