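import Cfsg.Statements.S2175
import Cfsg.Agent.H65.InvFix

set_option autoImplicit false
open Cfsg

namespace Cfsg.Agent.S2175

open Cfsg.Lie Cfsg.Agent.H37 Cfsg.Agent.H65

/-- representatives -/
def Ys : List (List ℕ) := [[71], [68, 66], [55, 65, 67]]

/-- fusion certificate -/
def f0 : List ℕ × ℕ × List (ℕ × ℕ) :=
    ([32, 27, 11, 0], 2, [(2, 32), (1, 0), (0, 10), (0, 9), (0, 8), (0, 7), (0, 6), (0, 5), (0, 4), (0, 3), (0, 2),
    (1, 1), (2, 27), (0, 0), (1, 1), (0, 8), (0, 7), (0, 6), (0, 5), (0, 4), (0, 3), (1, 2), (2, 11), (0, 0), (0,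
    1), (1, 2), (0, 6), (0, 5), (0, 4), (1, 3), (2, 0), (0, 0), (0, 1), (0, 2), (1, 3), (1, 4), (0, 0), (2, 47),
    (0, 4), (0, 3), (0, 2), (0, 1), (1, 0), (0, 1), (2, 51), (0, 6), (0, 5), (0, 4), (0, 3), (0, 2), (0, 1), (1,
    0), (1, 2), (1, 5), (2, 63), (0, 5), (0, 4), (0, 3), (0, 2), (0, 1), (1, 0), (0, 1), (0, 3), (0, 4), (0, 3),
    (0, 2), (0, 5), (0, 4), (1, 3), (0, 4), (1, 3), (2, 53), (0, 0), (0, 1), (0, 4), (0, 3), (1, 2), (1, 3), (3,
    49), (3, 63), (3, 50), (3, 62)])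

/-- fusion certificate -/
def f1 : List ℕ × ℕ × List (ℕ × ℕ) :=
    ([18, 6, 2], 2, [(2, 18), (1, 0), (0, 7), (0, 6), (0, 5), (0, 4), (0, 3), (0, 2), (1, 1), (2, 6), (0, 0), (1,
    1), (0, 5), (0, 4), (0, 3), (1, 2), (2, 2), (0, 0), (0, 1), (1, 2), (1, 3), (3, 38)])

/-- fusion certificate -/
def f2 : List ℕ × ℕ × List (ℕ × ℕ) :=
    ([11, 0], 1, [(2, 11), (1, 0), (0, 4), (0, 3), (0, 2), (1, 1), (2, 0), (0, 0), (1, 1), (1, 2), (3, 50)])

/-- fusion certificate -/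
def f3 : List ℕ × ℕ × List (ℕ × ℕ) :=
    ([0], 0, [(2, 0), (1, 0), (1, 1)])

/-- the classes of involutions of the Weyl group -/
def fs : List (List ℕ × ℕ × List (ℕ × ℕ)) := [f0, f1, f2, f3]

/-- certificates for the sets of nodes -/
def certs : List (ℕ × ℕ × List ℕ) :=
    [(0, 0, []), (1, 3, [36, 39, 45, 59, 71]), (0, 1, []), (1, 3, [36, 54, 64, 69]), (1, 2, [37, 40, 43, 60, 71]),
    (1, 2, [38, 41, 44, 58, 71]), (1, 2, [37, 53, 66, 68]), (1, 2, [38, 55, 65, 67]), (0, 1, [57, 38, 63]), (1, 3,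
    [36, 45, 59, 71]), (0, 1, [57, 38, 60]), (1, 3, [36, 52, 62, 70]), (1, 1, [37, 39, 42, 60, 71]), (1, 1, [36,
    38, 40, 43, 57, 71]), (1, 0, [44, 48, 66, 68]), (1, 0, [36, 41, 48, 50, 58, 69]), (1, 2, [37, 39, 44, 60, 71]),
    (1, 2, [36, 38, 39, 45, 59, 71]), (1, 2, [37, 53, 65, 69]), (1, 2, [36, 38, 54, 64, 69]), (0, 0, [43, 37, 60,
    69, 46]), (1, 2, [36, 37, 41, 44, 58, 71]), (0, 1, [38, 57, 36]), (1, 2, [36, 37, 55, 65, 67]), (1, 1, [37, 40,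
    44, 60, 71]), (1, 1, [36, 38, 41, 45, 59, 71]), (1, 0, [44, 48, 60, 71]), (1, 0, [36, 45, 49, 59, 71]), (0, 2,
    []), (1, 1, [36, 37, 39, 42, 56, 71]), (0, 2, [50]), (1, 0, [45, 49, 59, 61]), (1, 3, [36, 39, 44, 60, 71]),
    (0, 0, [45, 59, 36, 69, 46]), (1, 3, [36, 53, 65, 69]), (0, 1, [36, 57, 38]), (1, 2, [36, 37, 40, 43, 60, 71]),
    (1, 2, [36, 38, 41, 44, 58, 71]), (1, 2, [36, 37, 53, 66, 68]), (1, 2, [36, 38, 55, 65, 67]), (1, 3, [36, 44,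
    60, 71]), (0, 1, [38, 57, 37, 63]), (1, 3, [36, 51, 63, 70]), (0, 1, [38, 57, 37, 60]), (1, 1, [36, 37, 39, 42,
    60, 71]), (1, 1, [38, 40, 43, 57, 71]), (1, 0, [36, 44, 48, 66, 68]), (1, 0, [41, 48, 50, 58, 69]), (1, 2, [38,
    39, 44, 60, 71]), (1, 2, [36, 37, 39, 45, 59, 71]), (1, 2, [38, 53, 65, 69]), (1, 2, [36, 37, 54, 64, 69]), (1,
    2, [36, 38, 40, 43, 60, 71]), (0, 0, [44, 58, 38, 69, 46]), (1, 2, [36, 38, 53, 66, 68]), (0, 1, [57]), (1, 1,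
    [36, 37, 41, 44, 60, 71]), (1, 1, [38, 40, 45, 59, 71]), (1, 0, [36, 40, 49, 53, 65, 69]), (1, 0, [41, 48, 54,
    64, 69]), (1, 1, [36, 38, 41, 45, 60, 71]), (0, 3, []), (1, 0, [45, 49, 66, 68]), (0, 1000, [])]

theorem fus0 : fusOK chevE6 E6.tab (gen1 chevE6.nroots) (gen1 chevE6.nroots) Ys f0 = true := by
  decide +kernel

theorem fus1 : fusOK chevE6 E6.tab (gen1 chevE6.nroots) (gen1 chevE6.nroots) Ys f1 = true := by
  decide +kernel

theorem fus2 : fusOK chevE6 E6.tab (gen1 chevE6.nroots) (gen1 chevE6.nroots) Ys f2 = true := by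
  decide +kernel

theorem fus3 : fusOK chevE6 E6.tab (gen1 chevE6.nroots) (gen1 chevE6.nroots) Ys f3 = true := by
  decide +kernel

theorem hfus : ∀ e ∈ fs, fusOK chevE6 E6.tab (gen1 chevE6.nroots) (gen1 chevE6.nroots) Ys e = true := by
  simp only [fs, List.forall_mem_cons, List.not_mem_nil, false_imp_iff, implies_true, and_true]
  exact ⟨fus0, fus1, fus2, fus3⟩

theorem hk : allLt (2 ^ chevE6.rank) (fun k => chkK chevE6 E6.tab (fun c => (fs.map Prod.fst).getD c [])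
    (gen1 chevE6.nroots) (fun _ => (0, 0)) k (certs.getD k (2, 0, []))) = true := by
  decide +kernel

theorem hD : IsChev chevE6 := by simp

variable {F : Type*} [Field F] [Fintype F] [CharP F 2]

theorem fix0 : fixOK chevE6 E6.tab f3.1 [37452282855939, 35253226045953]
    36352754450945 36352754450945 35253226045698 35253226045698 2 1 56 = true := by
  decide +kernel

theorem rep0 : orderOf (xw (matRel hD F) [71]) = 2 ∧ fixc (xw (matRel hD F) [71]) = Nat.card F ^ 56 := by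
  obtain ⟨inst⟩ := nonempty_chev hD
  obtain ⟨-, -, g, -, h⟩ := fus_of_fusOK (matRel hD F) E6.checked.agree (gen1_x hD) (gen1_n hD) fus3
  exact inv_of_fixOK hD E6.checked.agree fix0 (by decide) h

theorem fix1 : fixOK chevE6 E6.tab f2.1 [1319245382176, 37452282855939, 35253226045953]
    36369934189825 36365639287809 35253226045985 35253226045985 545 2 46 = true := by
  decide +kernel

theorem rep1 : orderOf (xw (matRel hD F) [68, 66]) = 2 ∧ fixc (xw (matRel hD F) [68, 66]) = Nat.card F ^ 46 := by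
  obtain ⟨inst⟩ := nonempty_chev hD
  obtain ⟨-, -, g, -, h⟩ := fus_of_fusOK (matRel hD F) E6.checked.agree (gen1_x hD) (gen1_n hD) fus2
  exact inv_of_fixOK hD E6.checked.agree fix1 (by decide) h

theorem fix2 : fixOK chevE6 E6.tab f1.1 [1116826765856, 1292923118368, 66039551630877, 35253226045953]
    36369917542913 36369917542913 35253126432801 35253126432801 1312801 3 40 = true := by
  decide +kernel

theorem rep2 : orderOf (xw (matRel hD F) [55, 65, 67]) = 2 ∧ fixc (xw (matRel hD F) [55, 65, 67]) = Nat.card F ^ 40 := by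
  obtain ⟨inst⟩ := nonempty_chev hD
  obtain ⟨-, -, g, -, h⟩ := fus_of_fusOK (matRel hD F) E6.checked.agree (gen1_x hD) (gen1_n hD) fus1
  exact inv_of_fixOK hD E6.checked.agree fix2 (by decide) h

theorem hval : ∀ y ∈ Ys, Val chevE6 y := by unfold Val; decide

theorem hmem : ∀ y ∈ Ys, xw (matRel hD F) y ∈ chevE6.group F ∧ orderOf (xw (matRel hD F) y) = 2 := by
  obtain ⟨inst⟩ := nonempty_chev hD
  intro y hy
  refine ⟨H38.mg_grp hD F ▸ xw_mem_grp hD (hval y hy), ?_⟩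
  simp only [Ys, List.mem_cons, List.not_mem_nil, or_false] at hy
  rcases hy with rfl | rfl | rfl
  exacts [rep0.1, rep1.1, rep2.1]

theorem hcov : ∀ t ∈ chevE6.group F, orderOf t = 2 →
    ∃ y ∈ Ys, ∃ g ∈ chevE6.group F, g * t * g⁻¹ = xw (matRel hD F) y := by
  obtain ⟨inst⟩ := nonempty_chev hD
  exact fun t ht h => cover_grp hD E6.checked.agree hval hfus (allLt_spec hk) ht h

theorem hfix : ∀ y ∈ Ys, fixc (xw (matRel hD F) y) = Nat.card F ^ [56, 46, 40].getD (Ys.idxOf y) 0 := by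
  intro y hy
  simp only [Ys, List.mem_cons, List.not_mem_nil, or_false] at hy
  rcases hy with rfl | rfl | rfl
  exacts [rep0.2, rep1.2, rep2.2]

theorem hne : ∀ y ∈ Ys, ∀ y' ∈ Ys, ∀ g ∈ chevE6.group F,
    g * xw (matRel hD F) y * g⁻¹ = xw (matRel hD F) y' → y = y' := by
  intro y hy y' hy' g _ e
  have h := hfix (F := F) y' hy'
  rw [← e, fixc_conj, hfix y hy] at h
  have h' := Nat.pow_right_injective Finite.one_lt_card h
  clear h e
  revert y y'
  decide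

/-- Conjugacy classes of involutions in the Chevalley group of type E₆ over a finite field F of characteristic two (the matrix group generated by the root elements x_r(t)). In this problem's root numbering for type E₆ (the Chevalley data module; fundamental roots numbered so that p₁–p₃–p₄–p₅–p₆ is the long chain of the diagram and p₂ is joined to p₄; roots indexed by their coefficient vectors in increasing order) let r = 71 be the highest root (1,2,2,3,2,1), α = 68 = (1,1,2,2,1,1), β = 66 = (1,1,1,2,2,1), γ = 55 = (0,1,1,2,2,1), δ = 65 = (1,1,1,2,1,1), ε = 67 = (1,1,2,2,1,0) (α ⊥ β and γ, δ, ε pairwise orthogonal); consider x_r(1), x_α(1)x_β(1) and x_γ(1)x_δ(1)x_ε(1). Then: each invertible matrix equal to one of these three products lies in the group and has order 2; every element of order 2 of the group is conjugate in the group to one of them; and no two of them are conjugate in the group (so, the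 three matrices being distinct, the group has exactly three conjugacy classes of involutions). -/
theorem result {F : Type*} [Field F] [Fintype F] [CharP F 2] :
    (∀ y : GL Cfsg.Lie.chevE6.Idx F, ((y : GL Cfsg.Lie.chevE6.Idx F) : Matrix Cfsg.Lie.chevE6.Idx Cfsg.Lie.chevE6.Idx F) ∈ [Cfsg.Lie.chevE6.x F 71 1, Cfsg.Lie.chevE6.x F 68 1 * Cfsg.Lie.chevE6.x F 66 1, Cfsg.Lie.chevE6.x F 55 1 * Cfsg.Lie.chevE6.x F 65 1 * Cfsg.Lie.chevE6.x F 67 1] → y ∈ Cfsg.Lie.chevE6.group F ∧ orderOf y = 2) ∧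
    (∀ g ∈ Cfsg.Lie.chevE6.group F, orderOf g = 2 → ∃ y ∈ Cfsg.Lie.chevE6.group F, ((y : GL Cfsg.Lie.chevE6.Idx F) : Matrix Cfsg.Lie.chevE6.Idx Cfsg.Lie.chevE6.Idx F) ∈ [Cfsg.Lie.chevE6.x F 71 1, Cfsg.Lie.chevE6.x F 68 1 * Cfsg.Lie.chevE6.x F 66 1, Cfsg.Lie.chevE6.x F 55 1 * Cfsg.Lie.chevE6.x F 65 1 * Cfsg.Lie.chevE6.x F 67 1] ∧ ∃ h ∈ Cfsg.Lie.chevE6.group F, h * g * h⁻¹ = y) ∧
    (∀ y₁ ∈ Cfsg.Lie.chevE6.group F, ∀ y₂ ∈ Cfsg.Lie.chevE6.group F, ((y₁ : GL Cfsg.Lie.chevE6.Idx F) : Matrix Cfsg.Lie.chevE6.Idx Cfsg.Lie.chevE6.Idx F) ∈ [Cfsg.Lie.chevE6.x F 71 1, Cfsg.Lie.chevE6.x F 68 1 * Cfsg.Lie.chevE6.x F 66 1, Cfsg.Lie.chevE6.x F 55 1 * Cfsg.Lie.chevE6.x F 65 1 * Cfsg.Lie.chevE6.x F 67 1] → ((y₂ : GL Cfsg.Lie.chevE6.Idx F) : Matrix Cfsg.Lie.chevE6.Idx Cfsg.Lie.chevE6.Idx F) ∈ [Cfsg.Lie.chevE6.x F 71 1, Cfsg.Lie.chevE6.x F 68 1 * Cfsg.Lie.chevE6.x F 66 1, Cfsg.Lie.chevE6.x F 55 1 * Cfsg.Lie.chevE6.x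 F 65 1 * Cfsg.Lie.chevE6.x F 67 1] →
      (∃ h ∈ Cfsg.Lie.chevE6.group F, h * y₁ * h⁻¹ = y₂) → ((y₁ : GL Cfsg.Lie.chevE6.Idx F) : Matrix Cfsg.Lie.chevE6.Idx Cfsg.Lie.chevE6.Idx F) = ((y₂ : GL Cfsg.Lie.chevE6.Idx F) : Matrix Cfsg.Lie.chevE6.Idx Cfsg.Lie.chevE6.Idx F)) := by
  exact three_parts hD (by simp [Ys, mul_assoc]) hmem hcov hne

end Cfsg.Agent.S2175
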