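import Cfsg.Statements.S2179
import Cfsg.Agent.H64.Cent

set_option autoImplicit false
open Cfsg

namespace Cfsg.Agent.S2179

open Cfsg.Lie Cfsg.Agent.H37 Cfsg.Agent.H40.PE

theorem ok1 : H64.CentOK chevF4 (2 : ℕ) [47, 44] [47, 44] (20 :: 22 :: List.range' 24 24) [] [1, 2] [1, 1] := by
  decide +kernel

theorem ok2 : H64.CentOK chevF4 (2 : ℕ) [39, 45] [39, 40, 44, 45, 46, 47]
    [33, 14, 24, 23, 24, 28, 29, 30, 31, 32, 33, 35, 36, 37, 38, 39, 40, 41, 42, 43, 44, 45, 46, 47] [27, 25, 34, 26] [0, 3] [3, 4] := by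
  decide +kernel

theorem chk : H40.wcheck chevF4 2 ([(39, one), (45, one)] ++ [(27, var 0), (25, var 1), (34, var 2), (26, var 3)])
    ([(27, var 0), (25, var 1), (34, var 2), (26, var 3)] ++
      [(39, one), (45, one), (40, var 0), (46, var 1), (44, var 2), (47, var 3)]) = true := by
  decide +kernel

/-- Centralizers of the two remaining classes of involutions in the Chevalley group G of type F₄ over a finite field F of characteristic two (this problem's root numbering for type F₄, from the Chevalley data module: p₁, p₂ short, p₃, p₄ long with indices 33, 27, 25, 24 and negatives 14, 20, 22, 23; U generated by the positive root subgroups). For an element of G with matrix x_47(1)x_44(1) (highest root times highest short root): its centralizer in G is generated by U, X_{−p₂} and X_{−p₃}. For an element of G with matrix x_39(1)x_45(1) (roots (1,2,2,1) and (2,4,2,1), an orthogonal short/long pair): its centralizer in G is generated by X_{p₁}, X_{−p₁}, X_{p₄}, X_{−p₄} and the root subgroups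 of all positive roots other than p₂ (27), p₃ (25), p₁ + p₂ (34) and p₃ + p₄ (26). -/
theorem result {F : Type*} [Field F] [Fintype F] [CharP F 2] (w v : GL Cfsg.Lie.chevF4.Idx F) (hw : (w : Matrix Cfsg.Lie.chevF4.Idx Cfsg.Lie.chevF4.Idx F) = Cfsg.Lie.chevF4.x F 47 1 * Cfsg.Lie.chevF4.x F 44 1) (hv : (v : Matrix Cfsg.Lie.chevF4.Idx Cfsg.Lie.chevF4.Idx F) = Cfsg.Lie.chevF4.x F 39 1 * Cfsg.Lie.chevF4.x F 45 1) :
    Cfsg.Lie.chevF4.group F ⊓ Subgroup.centralizer {w} = Cfsg.Lie.chevF4.posUnipotent F ⊔ Cfsg.Lie.chevF4.rootSubgroup F 20 ⊔ Cfsg.Lie.chevF4.rootSubgroup F 22 ∧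
    Cfsg.Lie.chevF4.group F ⊓ Subgroup.centralizer {v} = Cfsg.Lie.chevF4.rootSubgroup F 33 ⊔ Cfsg.Lie.chevF4.rootSubgroup F 14 ⊔ Cfsg.Lie.chevF4.rootSubgroup F 24 ⊔ Cfsg.Lie.chevF4.rootSubgroup F 23 ⊔
      Subgroup.closure {g : GL Cfsg.Lie.chevF4.Idx F | ∃ (r : ℕ) (c : F), Cfsg.Lie.chevF4.IsPosRoot r ∧ r ∉ [27, 25, 34, 26] ∧ (g : Matrix Cfsg.Lie.chevF4.Idx Cfsg.Lie.chevF4.Idx F) = Cfsg.Lie.chevF4.x F r c} := by
  have hD : IsChev chevF4 := by simp
  obtain ⟨inst⟩ := H37.nonempty_chev hD
  have hp : ∀ (c : Fin chevF4.rank → F) (θ : ℕ), ∏ i, c i ^ chevF4.cartan i θ =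
      c ⟨0, by decide⟩ ^ chevF4.cartan 0 θ * c ⟨1, by decide⟩ ^ chevF4.cartan 1 θ *
        c ⟨2, by decide⟩ ^ chevF4.cartan 2 θ * c ⟨3, by decide⟩ ^ chevF4.cartan 3 θ :=
    fun c θ => Fin.prod_univ_four _
  have hpos : ∀ (l : List ℕ) (p : ℕ → Prop) (A : Set (Fin chevF4.nroots)), (∀ r, r ∈ A ↔ p r) →
      (∀ r : Fin chevF4.nroots, (r : ℕ) ∈ l ↔ p r) →
      (H38.mg hD F).US {r | (r : ℕ) ∈ l} = (H38.mg hD F).US A := fun l p A h1 h2 => by
    congr 1; ext r; rw [h1, Set.mem_ofPred_eq, h2]
  constructor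
  · have e : w = gword (matRel hD F).x ([47, 44].map fun r => (r, 1)) :=
      Units.ext (by rw [H40.coe_gword, hw]; simp [ChevalleyDatum.wordMat])
    rw [e, H64.mg_cent hD F 2 ok1 ?_ ?_ (by simp)]
    · rw [H64.US_cons hD F (by decide : 20 < chevF4.nroots),
        H64.US_cons hD F (by decide : 22 < chevF4.nroots), ← H38.mg_U hD, H38.RG.U,
        hpos _ (fun r => 24 ≤ r) _ (fun r => H38.rs_pos_iff r) (by decide +kernel), ← sup_assoc,
        sup_comm, sup_assoc]
      rfl
    · intro w hw h θ hθ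
      have h1 := h θ hθ
      have h2 := H64.fun_W chevF4.isLong (by decide +kernel) hw θ
      generalize w θ = a at h1 h2
      revert a θ
      decide +kernel
    · intro c hc h i hi
      have h1 := h 47 (by simp)
      have h2 := h 44 (by simp)
      rw [hp, show chevF4.cartan 0 47 = 0 by decide, show chevF4.cartan 1 47 = 0 by decide,
        show chevF4.cartan 2 47 = 0 by decide, show chevF4.cartan 3 47 = 1 by decide] at h1
      rw [hp, show chevF4.cartan 0 44 = 1 by decide, show chevF4.cartan 1 44 = 0 by decide,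
        show chevF4.cartan 2 44 = 0 by decide, show chevF4.cartan 3 44 = 0 by decide] at h2
      rcases (show i = ⟨0, by decide⟩ ∨ i = ⟨3, by decide⟩ by revert i; decide) with rfl | rfl
      · simpa using h2
      · simpa using h1
  · have e : v = gword (matRel hD F).x ([39, 45].map fun r => (r, 1)) :=
      Units.ext (by rw [H40.coe_gword, hv]; simp [ChevalleyDatum.wordMat])
    rw [e, H64.mg_cent hD F 2 ok2 ?_ ?_ ?_]
    · rw [H64.US_cons hD F (by decide : 33 < chevF4.nroots),
        H64.US_cons hD F (by decide : 14 < chevF4.nroots), H64.US_cons hD F (by decide : 24 < chevF4.nroots),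
        H64.US_cons hD F (by decide : 23 < chevF4.nroots),
        hpos _ (fun r => chevF4.IsPosRoot r ∧ r ∉ [27, 25, 34, 26])
          {r | chevF4.IsPosRoot r ∧ (r : ℕ) ∉ [27, 25, 34, 26]} (fun r => Iff.rfl) (by decide +kernel),
        ← H38.mg_US hD F (fun r => chevF4.IsPosRoot r ∧ r ∉ [27, 25, 34, 26]) (fun r h => h.1.1)]
      simp only [sup_assoc, and_assoc]
    · intro w hw h
      have h1 := h ⟨39, by decide⟩ (by simp)
      have h2 := h ⟨45, by decide⟩ (by simp)
      have h3 := H64.fun_W chevF4.isLong (by decide +kernel) hw ⟨39, by decide⟩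
      have h4 := H64.pairing_W hD hw ⟨39, by decide⟩ ⟨45, by decide⟩
      have h5 : ∀ a ∈ [39, 40, 44, 45, 46, 47], ∀ b ∈ [39, 40, 44, 45, 46, 47],
          chevF4.isLong a = chevF4.isLong 39 → chevF4.pairing a b = chevF4.pairing 39 45 →
          a = 39 ∧ b = 45 := by decide +kernel
      obtain ⟨h6, h7⟩ := h5 _ h1 _ h2 h3 h4
      intro θ hθ
      rcases (show θ = ⟨39, by decide⟩ ∨ θ = ⟨45, by decide⟩ by simpa [Fin.ext_iff] using hθ) with rfl | rfl
      exacts [Fin.ext h6, Fin.ext h7]
    · intro c hc h i hi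
      have h1 := h 39 (by simp)
      have h2 := h 45 (by simp)
      rw [hp, show chevF4.cartan 0 39 = 0 by decide, show chevF4.cartan 1 39 = -1 by decide,
        show chevF4.cartan 2 39 = 1 by decide, show chevF4.cartan 3 39 = 0 by decide] at h1
      rw [hp, show chevF4.cartan 0 45 = 0 by decide, show chevF4.cartan 1 45 = 2 by decide,
        show chevF4.cartan 2 45 = -1 by decide, show chevF4.cartan 3 45 = 0 by decide] at h2
      have a1 := hc ⟨1, by decide⟩
      have a2 := hc ⟨2, by decide⟩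
      simp only [zpow_neg, zpow_ofNat] at h1 h2
      field_simp at h1 h2
      have h3 : c ⟨1, by decide⟩ = 1 := mul_left_cancel₀ a1 (by rw [mul_one, ← sq, h2, h1])
      rcases (show i = ⟨1, by decide⟩ ∨ i = ⟨2, by decide⟩ by revert i; decide) with rfl | rfl
      · exact h3
      · rw [h1, h3]
    · intro c hc
      have h1 := H40.gword_eq_of_check hD (p := 2) (by exact_mod_cast CharTwo.two_eq_zero) chk
        [c 27, c 25, c 34, c 26]
      simp only [H40.evW_append, H40.gword_append] at h1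
      have h2 := H40.nf_inj hD (w := [(39, 1), (45, 1), (40, c 27), (46, c 25), (44, c 34), (47, c 26)])
        (w' := [(39, 1), (45, 1), (40, 0), (46, 0), (44, 0), (47, 0)])
        rfl (show [39, 45, 40, 46, 44, 47].Nodup by decide)
        (show ∀ r ∈ [39, 45, 40, 46, 44, 47], _ by decide)
        (Or.inl (show ∀ r ∈ [39, 45, 40, 46, 44, 47], _ by decide))
        (mul_left_cancel (h1.symm.trans (hc.symm.trans (by
          simp [gword, H40.x_zero _ (by decide : 40 < chevF4.nroots),
            H40.x_zero _ (by decide : 46 < chevF4.nroots), H40.x_zero _ (by decide : 44 < chevF4.nroots),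
            H40.x_zero _ (by decide : 47 < chevF4.nroots), H40.evW, H40.PE.eval]))))
      simpa using h2

end Cfsg.Agent.S2179
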