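import Cfsg.Statements.S2181
import Cfsg.Agent.H65.InvFix

set_option autoImplicit false
open Cfsg

namespace Cfsg.Agent.S2181

open Cfsg.Lie Cfsg.Agent.H37 Cfsg.Agent.H65

/-- representatives -/
def Ys : List (List ℕ) := [[125], [92, 125], [63, 92, 125], [109, 114, 123], [63, 109, 114, 123]]

/-- fusion certificate -/
def f0 : List ℕ × ℕ × List (ℕ × ℕ) :=
    ([62, 59, 52, 47, 38, 33, 0], 4, [(2, 62), (1, 0), (0, 19), (0, 18), (0, 17), (0, 16), (0, 15), (0, 14), (0,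
    13), (0, 12), (0, 11), (0, 10), (0, 9), (0, 8), (0, 7), (0, 6), (0, 5), (0, 4), (0, 3), (0, 2), (1, 1), (2,
    59), (0, 0), (1, 1), (0, 17), (0, 16), (0, 15), (0, 14), (0, 13), (0, 12), (0, 11), (0, 10), (0, 9), (0, 8),
    (0, 7), (0, 6), (0, 5), (0, 4), (0, 3), (1, 2), (2, 52), (0, 0), (0, 1), (1, 2), (0, 15), (0, 14), (0, 13), (0,
    12), (0, 11), (0, 10), (0, 9), (0, 8), (0, 7), (0, 6), (0, 5), (0, 4), (1, 3), (2, 47), (0, 0), (0, 1), (0, 2),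
    (1, 3), (0, 13), (0, 12), (0, 11), (0, 10), (0, 9), (0, 8), (0, 7), (0, 6), (0, 5), (1, 4), (2, 38), (0, 0),
    (0, 1), (0, 2), (0, 3), (1, 4), (0, 11), (0, 10), (0, 9), (0, 8), (0, 7), (0, 6), (1, 5), (2, 33), (0, 0), (0,
    1), (0, 2), (0, 3), (0, 4), (1, 5), (0, 9), (0, 8), (0, 7), (1, 6), (2, 0), (0, 0), (0, 1), (0, 2), (0, 3), (0,
    4), (0, 5), (1, 6), (1, 7), (0, 2), (0, 1), (0, 3), (0, 2), (0, 4), (0, 5), (0, 4), (0, 3), (0, 2), (0, 1), (2,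
    106), (0, 7), (0, 6), (0, 5), (0, 4), (0, 3), (0, 2), (0, 1), (1, 0), (2, 110), (0, 9), (0, 8), (0, 7), (0, 6),
    (0, 5), (0, 4), (0, 3), (0, 2), (0, 1), (1, 0), (0, 1), (1, 3), (0, 6), (0, 7), (1, 8), (3, 20), (0, 2), (0,
    1), (0, 0), (0, 3), (0, 2), (0, 4), (0, 3), (0, 2), (0, 1), (0, 0), (0, 6), (0, 5), (0, 7), (0, 6), (0, 5), (0,
    4), (0, 3), (0, 2), (0, 1), (0, 6), (0, 7), (1, 8), (2, 20), (0, 8), (0, 7), (0, 6), (0, 5), (0, 4), (0, 3),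
    (0, 2), (0, 1), (1, 0), (0, 1), (0, 3), (0, 4), (0, 3), (0, 2), (0, 5), (0, 4), (0, 3), (0, 6), (0, 5), (0, 4),
    (0, 7), (0, 6), (1, 5), (0, 6), (0, 5), (0, 7), (1, 6), (2, 66), (0, 0), (0, 1), (0, 3), (0, 2), (0, 4), (0,
    3), (0, 5), (0, 4), (0, 6), (1, 7), (0, 6), (1, 5), (0, 3), (0, 2), (0, 1), (0, 0), (0, 4), (2, 51), (0, 6),
    (0, 5), (0, 4), (0, 3), (0, 2), (0, 1), (1, 0), (0, 4), (0, 5), (2, 55), (0, 8), (0, 7), (0, 6), (0, 5), (0,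
    4), (0, 3), (0, 2), (0, 1), (1, 0), (0, 1), (0, 3), (0, 5), (0, 4), (0, 6), (1, 5), (0, 5), (1, 6), (3, 98),
    (0, 2), (0, 1), (0, 4), (0, 3), (0, 2), (0, 4), (1, 5), (2, 98), (0, 7), (0, 6), (0, 5), (0, 4), (0, 3), (0,
    2), (0, 1), (1, 0), (0, 2), (0, 4), (0, 5), (0, 4), (1, 3), (0, 4), (1, 3), (0, 3), (0, 4), (2, 78), (0, 0),
    (0, 2), (0, 1), (0, 3), (0, 2), (0, 4), (0, 5), (1, 6), (0, 5), (0, 4), (1, 3), (0, 1), (0, 0), (0, 2), (0, 1),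
    (0, 0), (0, 3), (0, 2), (0, 1), (0, 0), (2, 8), (0, 5), (0, 4), (0, 3), (0, 2), (0, 1), (1, 0), (0, 2), (0, 3),
    (0, 5), (0, 6), (2, 81), (0, 8), (0, 7), (0, 6), (0, 5), (0, 4), (0, 3), (0, 2), (0, 1), (1, 0), (0, 1), (0,
    2), (0, 3), (0, 5), (0, 6), (0, 5), (1, 4), (0, 5), (0, 4), (0, 6), (0, 7), (1, 6), (1, 6), (2, 103), (0, 6),
    (0, 5), (0, 4), (0, 3), (0, 2), (0, 1), (1, 0), (0, 1), (0, 3), (0, 4), (0, 3), (0, 2), (0, 5), (0, 4), (0, 3),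
    (0, 6), (0, 5), (1, 4), (0, 5), (1, 4), (2, 30), (0, 0), (0, 1), (0, 2), (0, 3), (1, 5), (1, 4), (3, 105), (3,
    92), (3, 124), (3, 70), (3, 114), (3, 123)])

/-- fusion certificate -/
def f1 : List ℕ × ℕ × List (ℕ × ℕ) :=
    ([62, 59, 47, 16, 11, 2], 4, [(2, 62), (1, 0), (0, 16), (0, 15), (0, 14), (0, 13), (0, 12), (0, 11), (0, 10),
    (0, 9), (0, 8), (0, 7), (0, 6), (0, 5), (0, 4), (0, 3), (0, 2), (1, 1), (2, 59), (0, 0), (1, 1), (0, 14), (0,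
    13), (0, 12), (0, 11), (0, 10), (0, 9), (0, 8), (0, 7), (0, 6), (0, 5), (0, 4), (0, 3), (1, 2), (2, 47), (0,
    0), (0, 1), (1, 2), (0, 12), (0, 11), (0, 10), (0, 9), (0, 8), (0, 7), (0, 6), (0, 5), (0, 4), (1, 3), (2, 16),
    (0, 0), (0, 1), (0, 2), (1, 3), (0, 10), (0, 9), (0, 8), (0, 7), (0, 6), (0, 5), (1, 4), (2, 11), (0, 0), (0,
    1), (0, 2), (0, 3), (1, 4), (0, 8), (0, 7), (0, 6), (1, 5), (2, 2), (0, 0), (0, 1), (0, 2), (0, 3), (0, 4), (1,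
    5), (1, 6), (0, 2), (0, 1), (0, 0), (0, 3), (0, 4), (0, 3), (0, 2), (2, 15), (0, 6), (0, 5), (0, 4), (0, 3),
    (0, 2), (0, 1), (1, 0), (2, 65), (0, 8), (0, 7), (0, 6), (0, 5), (0, 4), (0, 3), (0, 2), (0, 1), (1, 0), (0,
    1), (1, 3), (0, 5), (1, 6), (3, 67), (0, 2), (0, 1), (0, 0), (0, 3), (0, 2), (0, 1), (0, 0), (0, 5), (0, 4),
    (0, 3), (0, 2), (0, 1), (0, 5), (1, 6), (2, 67), (0, 7), (0, 6), (0, 5), (0, 4), (0, 3), (0, 2), (0, 1), (1,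
    0), (0, 1), (0, 3), (0, 4), (0, 3), (0, 2), (0, 5), (0, 4), (0, 3), (0, 6), (0, 5), (1, 4), (0, 5), (1, 4), (0,
    4), (2, 63), (0, 0), (0, 1), (0, 6), (0, 5), (0, 4), (0, 3), (1, 2), (0, 4), (1, 5), (0, 1), (0, 0), (0, 3),
    (0, 2), (2, 44), (0, 5), (0, 4), (0, 3), (0, 2), (0, 1), (1, 0), (0, 1), (2, 117), (0, 7), (0, 6), (0, 5), (0,
    4), (0, 3), (0, 2), (0, 1), (1, 0), (1, 2), (1, 5), (2, 55), (0, 6), (0, 5), (0, 4), (0, 3), (0, 2), (0, 1),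
    (1, 0), (0, 1), (0, 3), (0, 4), (0, 3), (0, 2), (0, 5), (0, 4), (1, 3), (0, 4), (1, 3), (0, 3), (2, 54), (0,
    0), (0, 2), (0, 1), (0, 3), (0, 2), (0, 4), (1, 5), (0, 4), (1, 3), (3, 71), (3, 119), (3, 70), (3, 118), (3,
    109), (3, 123), (0, 1)])

/-- fusion certificate -/
def f2 : List ℕ × ℕ × List (ℕ × ℕ) :=
    ([62, 59, 16, 11, 2], 4, [(2, 62), (1, 0), (0, 13), (0, 12), (0, 11), (0, 10), (0, 9), (0, 8), (0, 7), (0, 6),
    (0, 5), (0, 4), (0, 3), (0, 2), (1, 1), (2, 59), (0, 0), (1, 1), (0, 11), (0, 10), (0, 9), (0, 8), (0, 7), (0,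
    6), (0, 5), (0, 4), (0, 3), (1, 2), (2, 16), (0, 0), (0, 1), (1, 2), (0, 9), (0, 8), (0, 7), (0, 6), (0, 5),
    (0, 4), (1, 3), (2, 11), (0, 0), (0, 1), (0, 2), (1, 3), (0, 7), (0, 6), (0, 5), (1, 4), (2, 2), (0, 0), (0,
    1), (0, 2), (0, 3), (1, 4), (1, 5), (0, 1), (0, 0), (0, 2), (0, 1), (0, 3), (2, 65), (0, 5), (0, 4), (0, 3),
    (0, 2), (0, 1), (1, 0), (2, 67), (0, 7), (0, 6), (0, 5), (0, 4), (0, 3), (0, 2), (0, 1), (1, 0), (0, 1), (1,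
    3), (0, 4), (0, 5), (1, 6), (3, 15), (0, 2), (0, 1), (0, 0), (0, 4), (0, 3), (0, 5), (0, 4), (0, 3), (0, 2),
    (0, 1), (0, 4), (0, 5), (1, 6), (2, 15), (0, 6), (0, 5), (0, 4), (0, 3), (0, 2), (0, 1), (1, 0), (0, 1), (0,
    3), (0, 4), (0, 3), (0, 2), (0, 5), (0, 4), (1, 3), (0, 4), (0, 3), (0, 5), (1, 4), (2, 63), (0, 0), (0, 1),
    (0, 3), (0, 2), (0, 4), (1, 5), (0, 4), (1, 3), (3, 65), (3, 76), (3, 101), (0, 0)])

/-- fusion certificate -/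
def f3 : List ℕ × ℕ × List (ℕ × ℕ) :=
    ([62, 16, 11, 2], 4, [(2, 62), (1, 0), (0, 10), (0, 9), (0, 8), (0, 7), (0, 6), (0, 5), (0, 4), (0, 3), (0, 2),
    (1, 1), (2, 16), (0, 0), (1, 1), (0, 8), (0, 7), (0, 6), (0, 5), (0, 4), (0, 3), (1, 2), (2, 11), (0, 0), (0,
    1), (1, 2), (0, 6), (0, 5), (0, 4), (1, 3), (2, 2), (0, 0), (0, 1), (0, 2), (1, 3), (1, 4)])

/-- fusion certificate -/
def f4 : List ℕ × ℕ × List (ℕ × ℕ) :=
    ([62, 33, 0], 2, [(2, 62), (1, 0), (0, 7), (0, 6), (0, 5), (0, 4), (0, 3), (0, 2), (1, 1), (2, 33), (0, 0), (1,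
    1), (0, 5), (0, 4), (0, 3), (1, 2), (2, 0), (0, 0), (0, 1), (1, 2), (1, 3)])

/-- fusion certificate -/
def f5 : List ℕ × ℕ × List (ℕ × ℕ) :=
    ([52, 38, 33, 0], 3, [(2, 52), (1, 0), (0, 10), (0, 9), (0, 8), (0, 7), (0, 6), (0, 5), (0, 4), (0, 3), (0, 2),
    (1, 1), (2, 38), (0, 0), (1, 1), (0, 8), (0, 7), (0, 6), (0, 5), (0, 4), (0, 3), (1, 2), (2, 33), (0, 0), (0,
    1), (1, 2), (0, 6), (0, 5), (0, 4), (1, 3), (2, 0), (0, 0), (0, 1), (0, 2), (1, 3), (1, 4), (0, 0), (0, 1), (0,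
    0), (0, 2), (0, 1), (0, 0), (2, 22), (0, 4), (0, 3), (0, 2), (0, 1), (1, 0), (0, 4), (2, 31), (0, 6), (0, 5),
    (0, 4), (0, 3), (0, 2), (0, 1), (1, 0), (1, 3), (1, 5), (3, 17), (0, 2), (0, 1), (0, 0), (0, 4), (0, 3), (0,
    2), (0, 1), (0, 4), (1, 5), (2, 17), (0, 5), (0, 4), (0, 3), (0, 2), (0, 1), (1, 0), (0, 1), (0, 3), (0, 4),
    (0, 3), (0, 2), (0, 5), (0, 4), (1, 3), (0, 4), (1, 3), (2, 73), (0, 0), (0, 2), (0, 1), (0, 3), (0, 2), (1,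
    4), (1, 3), (3, 71), (3, 82)])

/-- fusion certificate -/
def f6 : List ℕ × ℕ × List (ℕ × ℕ) :=
    ([16, 11, 2], 3, [(2, 16), (1, 0), (0, 7), (0, 6), (0, 5), (0, 4), (0, 3), (0, 2), (1, 1), (2, 11), (0, 0), (1,
    1), (0, 5), (0, 4), (0, 3), (1, 2), (2, 2), (0, 0), (0, 1), (1, 2), (1, 3)])

/-- fusion certificate -/
def f7 : List ℕ × ℕ × List (ℕ × ℕ) :=
    ([33, 0], 1, [(2, 33), (1, 0), (0, 4), (0, 3), (0, 2), (1, 1), (2, 0), (0, 0), (1, 1), (1, 2)])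

/-- fusion certificate -/
def f8 : List ℕ × ℕ × List (ℕ × ℕ) :=
    ([0], 0, [(2, 0), (1, 0), (1, 1)])

/-- the classes of involutions of the Weyl group -/
def fs : List (List ℕ × ℕ × List (ℕ × ℕ)) := [f0, f1, f2, f3, f4, f5, f6, f7, f8]

/-- certificates for the sets of nodes -/
def certs : List (ℕ × ℕ × List ℕ) :=
    [(0, 0, []), (0, 1, []), (0, 1, [87, 84, 89, 64, 119, 97]), (0, 2, []), (0, 1, [87, 78, 70, 89, 64, 119, 97]),
    (0, 1, [103, 78, 70, 105, 64, 119, 76]), (0, 2, [110, 66, 87, 90, 64]), (0, 2, [110, 66, 103, 106, 64]), (0, 1,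
    [87, 78, 89, 64, 119, 97]), (0, 2, [80, 112, 67, 119, 64]), (0, 1, [87, 89, 64, 119, 97]), (0, 2, [70, 112, 67,
    115, 64]), (0, 1, [84, 70, 79, 66, 89, 64, 119, 97]), (0, 2, [97, 90, 103, 71, 119, 64]), (0, 2, [101, 75, 80,
    74, 90, 64]), (0, 2, [84, 96, 83, 112, 64]), (0, 1, [78, 87, 74, 89, 64, 119, 97]), (0, 2, [78, 110, 67, 119,
    71]), (0, 2, [71, 88, 67, 119, 97]), (0, 3, []), (0, 2, [85, 76, 88, 67, 119, 97]), (0, 2, [97, 78, 104, 67,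
    119, 76]), (0, 3, [71, 90, 79, 119, 97]), (0, 3, [71, 106, 79, 119, 76]), (0, 1, [79, 74, 84, 73, 89, 64, 119,
    97]), (0, 2, [79, 110, 119, 67]), (0, 2, [90, 84, 66, 119, 97]), (0, 3, [90, 103, 84, 119, 64]), (0, 2, [80,
    64, 84, 66, 119, 97]), (0, 2, [97, 85, 100, 66, 119, 71]), (0, 4, []), (0, 4, [97, 119, 64]), (0, 1, [78, 90,
    75, 91, 66, 119, 97]), (0, 2, [78, 110, 119, 71]), (0, 2, [69, 88, 119, 97]), (0, 3, [99, 101, 84, 119, 71]),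
    (0, 2, [83, 74, 88, 119, 97]), (0, 2, [95, 78, 104, 119, 76]), (0, 3, [69, 90, 75, 119, 97]), (0, 3, [69, 96,
    81, 119, 76]), (0, 2, [78, 88, 119, 97]), (0, 3, [104, 87, 115, 67]), (0, 2, [88, 119, 97]), (0, 3, [104, 87,
    119, 67]), (0, 2, [78, 73, 88, 119, 97]), (0, 3, [74, 104, 87, 115, 67]), (0, 3, [73, 90, 75, 119, 97]), (0, 3,
    [93, 101, 84, 119, 71]), (0, 1, [78, 88, 74, 89, 119, 97]), (0, 2, [78, 112, 66, 119, 71]), (0, 2, [70, 90, 66,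
    119, 97]), (0, 3, [100, 101, 83, 119, 71]), (0, 2, [84, 75, 90, 66, 119, 97]), (0, 2, [96, 78, 106, 66, 119,
    76]), (0, 3, [70, 88, 74, 119, 97]), (0, 3, [70, 95, 81, 119, 76]), (0, 2, [78, 88, 67, 119, 97]), (0, 3, [106,
    88, 115]), (0, 2, [68, 89, 92, 63, 83, 119, 97]), (0, 3, [88, 106, 85, 119]), (0, 2, [81, 83, 119, 97]), (0, 3,
    [64, 104, 85, 110]), (0, 4, [76, 119, 97]), (0, 4, [93, 64, 110]), (0, 1, [78, 82, 66, 88, 67, 119, 97]), (0,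
    2, [109, 78, 111, 64, 119, 71]), (0, 2, [87, 84, 89, 64, 119, 97]), (0, 3, [100, 83, 102, 85, 119, 71]), (0, 2,
    [87, 78, 70, 89, 64, 119, 97]), (0, 2, [103, 78, 70, 105, 64, 119, 76]), (0, 3, [75, 69, 92, 77, 119, 97]), (0,
    3, [96, 69, 98, 81, 119, 76]), (0, 2, [87, 78, 89, 64, 119, 97]), (0, 3, [103, 105, 88, 115, 67]), (0, 2, [87,
    89, 64, 119, 97]), (0, 3, [103, 105, 88, 119, 67]), (0, 2, [84, 70, 79, 66, 89, 64, 119, 97]), (0, 3, [103, 74,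
    105, 88, 115, 67]), (0, 3, [75, 70, 92, 77, 119, 97]), (0, 3, [100, 102, 85, 119, 71]), (0, 2, [78, 87, 74, 89,
    64, 119, 97]), (0, 3, [100, 95, 107, 90, 112, 64]), (0, 5, []), (0, 6, []), (0, 3, [80, 69, 107, 90, 64]), (0,
    3, [80, 69, 91, 106, 64]), (0, 6, [82, 71, 108]), (0, 6, [82, 71, 92]), (0, 2, [79, 74, 84, 73, 89, 64, 119,
    97]), (0, 3, [103, 107, 90, 115, 64]), (0, 5, [83, 70, 92, 123, 93]), (0, 6, [71, 82, 64]), (0, 3, [80, 79,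
    107, 90, 64]), (0, 3, [84, 99, 83, 107, 90, 112, 64]), (0, 7, []), (0, 7, [99]), (0, 1, [78, 82, 90, 66, 119,
    97]), (0, 2, [110, 78, 111, 119, 71]), (0, 2, [88, 85, 89, 119, 97]), (0, 3, [67, 99, 102, 84, 119, 71]), (0,
    2, [88, 78, 71, 89, 119, 97]), (0, 2, [104, 78, 71, 105, 119, 76]), (0, 3, [67, 83, 71, 92, 80, 119, 97]), (0,
    3, [67, 99, 71, 108, 80, 119, 76]), (0, 2, [88, 78, 89, 119, 97]), (0, 3, [104, 105, 87, 115, 67]), (0, 2, [88,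
    89, 119, 97]), (0, 3, [104, 105, 87, 119, 67]), (0, 2, [85, 71, 79, 67, 89, 119, 97]), (0, 3, [104, 74, 105,
    87, 115, 67]), (0, 3, [76, 78, 71, 92, 80, 119, 97]), (0, 3, [85, 93, 102, 84, 119, 71]), (0, 2, [78, 82, 88,
    119, 97]), (0, 3, [102, 95, 108, 91, 113, 63]), (0, 5, [89, 90, 65, 123, 93]), (0, 6, [65, 82, 71]), (0, 3,
    [82, 69, 108, 91, 63]), (0, 3, [82, 69, 92, 107, 63]), (0, 6, [72, 81, 70, 108]), (0, 6, [72, 81, 70, 92]), (0,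
    2, [78, 65, 90, 66, 119, 97]), (0, 3, [107, 108, 89, 116, 63]), (0, 5, [72, 91, 88, 123, 93]), (0, 6, [69, 64,
    81]), (0, 3, [81, 106, 88, 65]), (0, 3, [104, 106, 85, 110, 65]), (0, 8, []), (0, 1000, [])]

theorem fus0 : fusOK chevE7 E7.tab (gen1 chevE7.nroots) (gen1 chevE7.nroots) Ys f0 = true := by
  decide +kernel

theorem fus1 : fusOK chevE7 E7.tab (gen1 chevE7.nroots) (gen1 chevE7.nroots) Ys f1 = true := by
  decide +kernel

theorem fus2 : fusOK chevE7 E7.tab (gen1 chevE7.nroots) (gen1 chevE7.nroots) Ys f2 = true := by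
  decide +kernel

theorem fus3 : fusOK chevE7 E7.tab (gen1 chevE7.nroots) (gen1 chevE7.nroots) Ys f3 = true := by
  decide +kernel

theorem fus4 : fusOK chevE7 E7.tab (gen1 chevE7.nroots) (gen1 chevE7.nroots) Ys f4 = true := by
  decide +kernel

theorem fus5 : fusOK chevE7 E7.tab (gen1 chevE7.nroots) (gen1 chevE7.nroots) Ys f5 = true := by
  decide +kernel

theorem fus6 : fusOK chevE7 E7.tab (gen1 chevE7.nroots) (gen1 chevE7.nroots) Ys f6 = true := by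
  decide +kernel

theorem fus7 : fusOK chevE7 E7.tab (gen1 chevE7.nroots) (gen1 chevE7.nroots) Ys f7 = true := by
  decide +kernel

theorem fus8 : fusOK chevE7 E7.tab (gen1 chevE7.nroots) (gen1 chevE7.nroots) Ys f8 = true := by
  decide +kernel

theorem hfus : ∀ e ∈ fs, fusOK chevE7 E7.tab (gen1 chevE7.nroots) (gen1 chevE7.nroots) Ys e = true := by
  simp only [fs, List.forall_mem_cons, List.not_mem_nil, false_imp_iff, implies_true, and_true]
  exact ⟨fus0, fus1, fus2, fus3, fus4, fus5, fus6, fus7, fus8⟩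

theorem hk : allLt (2 ^ chevE7.rank) (fun k => chkK chevE7 E7.tab (fun c => (fs.map Prod.fst).getD c [])
    (gen1 chevE7.nroots) (fun _ => (0, 0)) k (certs.getD k (2, 0, []))) = true := by
  decide +kernel

theorem hD : IsChev chevE7 := by simp

variable {F : Type*} [Field F] [Fintype F] [CharP F 2]

theorem fix0 : fixOK chevE7 E7.tab f8.1 [18331131007271425, 18049651735527937]
    19175568822043140 18331131007009284 18049651735527937 18049651735527937 1 1 99 = true := by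
  decide +kernel

theorem rep0 : orderOf (xw (matRel hD F) [125]) = 2 ∧ fixc (xw (matRel hD F) [125]) = Nat.card F ^ 99 := by
  obtain ⟨inst⟩ := nonempty_chev hD
  obtain ⟨-, -, g, -, h⟩ := fus_of_fusOK (matRel hD F) E7.checked.agree (gen1_x hD) (gen1_n hD) fus8
  exact inv_of_fixOK hD E7.checked.agree fix0 (by decide) h

theorem fix1 : fixOK chevE7 E7.tab f7.1 [27056855287341825, 18331131007271425, 18049651735527937]
    19175577411978242 18612614573719812 18016666386702339 18016666386702369 8225 2 81 = true := by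
  decide +kernel

theorem rep1 : orderOf (xw (matRel hD F) [92, 125]) = 2 ∧ fixc (xw (matRel hD F) [92, 125]) = Nat.card F ^ 81 := by
  obtain ⟨inst⟩ := nonempty_chev hD
  obtain ⟨-, -, g, -, h⟩ := fus_of_fusOK (matRel hD F) E7.checked.agree (gen1_x hD) (gen1_n hD) fus7
  exact inv_of_fixOK hD E7.checked.agree fix1 (by decide) h

theorem fix2 : fixOK chevE7 E7.tab f4.1 [18049656032600833, 27056855287341825, 18331131007271425, 18049651735527937]
    18049677505135618 18049664620298500 18016666386702339 18016666386702369 8225 2 80 = true := by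
  decide +kernel

theorem rep2 : orderOf (xw (matRel hD F) [63, 92, 125]) = 2 ∧ fixc (xw (matRel hD F) [63, 92, 125]) = Nat.card F ^ 80 := by
  obtain ⟨inst⟩ := nonempty_chev hD
  obtain ⟨-, -, g, -, h⟩ := fus_of_fusOK (matRel hD F) E7.checked.agree (gen1_x hD) (gen1_n hD) fus4
  exact inv_of_fixOK hD E7.checked.agree fix2 (by decide) h

theorem fix3 : fixOK chevE7 E7.tab f6.1 [27057022788962821, 27056902529887777, 21427402995663373, 18049651735527937]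
    23116149777629697 19175508693484033 18018865309091872 18015566776240132 2099204 3 71 = true := by
  decide +kernel

theorem rep3 : orderOf (xw (matRel hD F) [109, 114, 123]) = 2 ∧ fixc (xw (matRel hD F) [109, 114, 123]) = Nat.card F ^ 71 := by
  obtain ⟨inst⟩ := nonempty_chev hD
  obtain ⟨-, -, g, -, h⟩ := fus_of_fusOK (matRel hD F) E7.checked.agree (gen1_x hD) (gen1_n hD) fus6
  exact inv_of_fixOK hD E7.checked.agree fix3 (by decide) h

theorem fix4 : fixOK chevE7 E7.tab f3.1 [18049823534221829, 27057022788962821, 27056902529887777, 21427402995663373, 18049651735527937]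
    18049600196837889 18049608786641409 18018865309091872 18015566776240132 2099204 3 70 = true := by
  decide +kernel

theorem rep4 : orderOf (xw (matRel hD F) [63, 109, 114, 123]) = 2 ∧ fixc (xw (matRel hD F) [63, 109, 114, 123]) = Nat.card F ^ 70 := by
  obtain ⟨inst⟩ := nonempty_chev hD
  obtain ⟨-, -, g, -, h⟩ := fus_of_fusOK (matRel hD F) E7.checked.agree (gen1_x hD) (gen1_n hD) fus3
  exact inv_of_fixOK hD E7.checked.agree fix4 (by decide) h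

theorem hval : ∀ y ∈ Ys, Val chevE7 y := by unfold Val; decide

theorem hmem : ∀ y ∈ Ys, xw (matRel hD F) y ∈ chevE7.group F ∧ orderOf (xw (matRel hD F) y) = 2 := by
  obtain ⟨inst⟩ := nonempty_chev hD
  intro y hy
  refine ⟨H38.mg_grp hD F ▸ xw_mem_grp hD (hval y hy), ?_⟩
  simp only [Ys, List.mem_cons, List.not_mem_nil, or_false] at hy
  rcases hy with rfl | rfl | rfl | rfl | rfl
  exacts [rep0.1, rep1.1, rep2.1, rep3.1, rep4.1]

theorem hcov : ∀ t ∈ chevE7.group F, orderOf t = 2 →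
    ∃ y ∈ Ys, ∃ g ∈ chevE7.group F, g * t * g⁻¹ = xw (matRel hD F) y := by
  obtain ⟨inst⟩ := nonempty_chev hD
  exact fun t ht h => cover_grp hD E7.checked.agree hval hfus (allLt_spec hk) ht h

theorem hfix : ∀ y ∈ Ys, fixc (xw (matRel hD F) y) = Nat.card F ^ [99, 81, 80, 71, 70].getD (Ys.idxOf y) 0 := by
  intro y hy
  simp only [Ys, List.mem_cons, List.not_mem_nil, or_false] at hy
  rcases hy with rfl | rfl | rfl | rfl | rfl
  exacts [rep0.2, rep1.2, rep2.2, rep3.2, rep4.2]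

theorem hne : ∀ y ∈ Ys, ∀ y' ∈ Ys, ∀ g ∈ chevE7.group F,
    g * xw (matRel hD F) y * g⁻¹ = xw (matRel hD F) y' → y = y' := by
  intro y hy y' hy' g _ e
  have h := hfix (F := F) y' hy'
  rw [← e, fixc_conj, hfix y hy] at h
  have h' := Nat.pow_right_injective Finite.one_lt_card h
  clear h e
  revert y y'
  decide

/-- The Chevalley group of type E₇ over a finite field of characteristic two (the matrix group generated by the root elements) has exactly five conjugacy classes of elements of order 2. -/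
theorem result {F : Type*} [Field F] [Fintype F] [CharP F 2] :
    (ConjClasses.mk '' {g : ↥(Cfsg.Lie.chevE7.group F) | orderOf g = 2}).ncard = 5 := by
  refine ncard_classes _ (fun i : Fin 5 => xw (matRel hD F) (Ys.get i)) (fun i => (hmem _ (List.get_mem _ _)).1)
    (fun i => (hmem _ (List.get_mem _ _)).2) (fun t ht h => ?_) fun i j g hg e => ?_
  · obtain ⟨y, hy, h⟩ := hcov t ht h
    obtain ⟨i, rfl⟩ := List.get_of_mem hy
    exact ⟨i, h⟩
  · exact List.nodup_iff_injective_get.1 (show Ys.Nodup by decide)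
      (hne _ (List.get_mem _ _) _ (List.get_mem _ _) g hg e)

end Cfsg.Agent.S2181
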