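import Cfsg.Statements.S2186
import Cfsg.Agent.H64.RootMat

set_option autoImplicit false
open Cfsg

namespace Cfsg.Agent.S2186

/-- Let G be the Chevalley group of type G₂ (over a field with at least four elements), D₄, E₆, E₇ or E₈ over a finite field F of characteristic two, and let X be the root subgroup of the highest root (the last root index) — a long root subgroup, of order |F|. For every g in G, the subgroup generated by X and its conjugate g X g⁻¹ is either a 2-group or is conjugate by an element of G to the subgroup generated by X and the root subgroup of the lowest root (index 0, the negative of the highest root), which is a copy of SL₂(F). -/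
theorem result {F : Type*} [Field F] [Fintype F] [CharP F 2] (D : Cfsg.Lie.ChevalleyDatum) (hD : D ∈ [Cfsg.Lie.chevG2, Cfsg.Lie.chevD4, Cfsg.Lie.chevE6, Cfsg.Lie.chevE7, Cfsg.Lie.chevE8]) (hF : D = Cfsg.Lie.chevG2 → 4 ≤ Fintype.card F) (g : GL D.Idx F) (hg : g ∈ D.group F) :
    IsPGroup 2 ↥(D.rootSubgroup F (D.nroots - 1) ⊔ (D.rootSubgroup F (D.nroots - 1)).map (MulAut.conj g).toMonoidHom) ∨
    ∃ h ∈ D.group F, (D.rootSubgroup F (D.nroots - 1) ⊔ (D.rootSubgroup F (D.nroots - 1)).map (MulAut.conj g).toMonoidHom).map (MulAut.conj h).toMonoidHom = D.rootSubgroup F (D.nroots - 1) ⊔ D.rootSubgroup F 0 := by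
  have hD' : H37.IsChev D := by
    simp only [List.mem_cons, List.not_mem_nil, or_false] at hD ⊢
    tauto
  obtain ⟨inst⟩ := H37.nonempty_chev hD'
  have h1 : D.rootSubgroup F (D.nroots - 1) = (H38.mg hD' F).US {H64.top D} :=
    H38.mg_rootSubgroup hD' F (H64.top D)
  have h0 : D.rootSubgroup F 0 = (H38.mg hD' F).US {(H38.rs D).neg (H64.top D)} := by
    rw [← H38.mg_rootSubgroup, H64.neg_top_val]
  rw [h1, h0]
  rw [← H38.mg_grp hD'] at hg ⊢
  obtain ⟨b, hb, w, -, e⟩ := H64.exists_conj_pair _ (H64.U_le_normalizer_top (H38.mg hD' F)) hg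
  by_cases hw : w (H64.top D) = (H38.rs D).neg (H64.top D)
  · exact Or.inr ⟨b⁻¹, inv_mem ((H38.mg hD' F).B_le_grp hb), by rw [e, hw]⟩
  · left
    have := H64.isPGroup_pair 2 (H38.mg hD' F).toRG0 (H38.mg_faithful hD' F).sep hw
    rw [← e] at this
    exact this.of_equiv (Subgroup.equivMapOfInjective _ _ (MulAut.conj b⁻¹).injective).symm

end Cfsg.Agent.S2186
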