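import Cfsg.Statements.S2194
import Cfsg.Agent.RK3.Main

set_option autoImplicit false
open Cfsg

namespace Cfsg.Agent.S2194

open MulAction Module RK3

/-- matrices of determinant one as elements of `SL(V)` -/
noncomputable def sl {F : Type*} [Field F] (n : ℕ) :
    Matrix.SpecialLinearGroup (Fin n) F ≃* Gm F (Fin n → F) :=
  MulEquiv.ofBijective (Matrix.SpecialLinearGroup.toLin'.codRestrict (H27.SLV F (Fin n → F)) fun A => by
    rw [H27.mem_SLV, Matrix.SpecialLinearGroup.toLin'_to_linearMap, LinearMap.det_toLin', A.2]) (by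
    constructor
    · intro A B h
      exact Matrix.SpecialLinearGroup.toLin'_injective (congrArg Subtype.val h)
    · intro g
      refine ⟨⟨LinearMap.toMatrix' ((g : (Fin n → F) ≃ₗ[F] (Fin n → F)) : (Fin n → F) →ₗ[F] (Fin n → F)),
        by rw [LinearMap.det_toMatrix']; exact H27.mem_SLV.1 g.2⟩, Subtype.ext ?_⟩
      apply LinearEquiv.toLinearMap_injective
      exact Matrix.toLin'_toMatrix' _)

theorem core {G X : Type*} [Group G] [MulAction G X] [Finite X] {F : Type*} [Field F] [Fintype F]
    {V : Type*} [AddCommGroup V] [Module F V] [Finite V] (hn : 5 ≤ finrank F V)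
    (π : Gm F V →* G) (hπ : Function.Surjective π) (hc : ∀ g ∈ Subgroup.center (Gm F V), π g = 1)
    (hprim : IsPreprimitive G X) (x : X) (h3 : nO (stabilizer G x) X = 3) :
    Nat.card X * (Fintype.card F + 1) =
      gq (Fintype.card F) (finrank F V) * gq (Fintype.card F) (finrank F V - 1) := by
  letI : MulAction (Gm F V) X := MulAction.compHom X π
  have hs : ∀ (g : Gm F V) (y : X), g • y = π g • y := fun _ _ => rfl
  have htr : IsPretransitive (Gm F V) X := ⟨fun a b => by
    obtain ⟨g, hg⟩ := exists_smul_eq G a b
    obtain ⟨g, rfl⟩ := hπ g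
    exact ⟨g, hg⟩⟩
  have hrel : orbitRel (stabilizer (Gm F V) x) X = orbitRel (stabilizer G x) X := by
    ext a b
    simp only [orbitRel_apply, mem_orbit_iff]
    constructor
    · rintro ⟨k, hk⟩
      exact ⟨⟨π k, k.2⟩, hk⟩
    · rintro ⟨⟨k, hk⟩, e⟩
      obtain ⟨k, rfl⟩ := hπ k
      exact ⟨⟨k, hk⟩, e⟩
  haveI : Nontrivial X := by
    by_contra hX
    rw [not_nontrivial_iff_subsingleton] at hX
    have : nO (stabilizer G x) X ≤ 1 :=
      (Nat.card_le_card_of_surjective _ Quotient.mk_surjective).trans
        (Finite.card_le_one_iff_subsingleton.2 hX)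
    omega
  have hst : stabilizer (Gm F V) x = (stabilizer G x).comap π := rfl
  refine RK3.main (x₀ := x) (K := stabilizer (Gm F V) x) ⟨hn, htr, rfl, ?_, ?_, ?_⟩
  · rw [hst]
    exact Subgroup.isCoatom_comap_of_surjective hπ
      ((isCoatom_stabilizer_iff_preprimitive G x).2 hprim)
  · rw [← h3, nO, nO, orbitRel.Quotient, orbitRel.Quotient, hrel]
  · intro g c hg
    rw [mem_stabilizer_iff, hs, hc g, one_smul]
    exact Subgroup.mem_center_iff.2 fun k => gm_ext fun v => by
      rw [mul_smul, mul_smul, hg, hg, SNG.gs]

/-- Primitive rank 3 actions of the projective special linear groups in dimension at least 5. Let G ≅ PSL_n(F), n ≥ 5, F a finite field with q elements, act faithfully and primitively on a finite set X so that a point stabilizer has exactly three orbits on X. Then X has as many points as there are 2-dimensional subspaces of F^n: |X|·(q² − 1)(q − 1) = (q^n − 1)(q^(n−1) − 1). (The action is in fact the one on the lines of the projective space, or on its subspaces of dimension n − 2; only the number of points is asserted here.)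 -/
theorem result {G X : Type*} [Group G] [Finite G] [MulAction G X] [FaithfulSMul G X] [Fintype X] {F : Type*} [Field F] [Fintype F] (n : ℕ) (hn : 5 ≤ n) (e : G ≃* Matrix.ProjectiveSpecialLinearGroup (Fin n) F) (hprim : MulAction.IsPreprimitive G X) (x : X) (h3 : Nat.card (MulAction.orbitRel.Quotient ↥(MulAction.stabilizer G x) X) = 3) :
    Fintype.card X * ((Fintype.card F ^ 2 - 1) * (Fintype.card F - 1)) = (Fintype.card F ^ n - 1) * (Fintype.card F ^ (n - 1) - 1) := by
  have hr : finrank F (Fin n → F) = n := by simp
  have hq : 1 ≤ Fintype.card F := Fintype.card_pos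
  have h := core (V := Fin n → F) (hr.symm ▸ hn)
    (e.symm.toMonoidHom.comp ((QuotientGroup.mk' _).comp (sl (F := F) n).symm.toMonoidHom))
    (e.symm.surjective.comp ((QuotientGroup.mk'_surjective _).comp (sl n).symm.surjective))
    (fun g hg => by
      have : (sl (F := F) n).symm g ∈ Subgroup.center _ := Subgroup.mem_center_iff.2 fun A => by
        apply (sl n).injective
        rw [map_mul, map_mul, MulEquiv.apply_symm_apply, Subgroup.mem_center_iff.1 hg]
      have h2 := (QuotientGroup.eq_one_iff _).2 this
      change e.symm (QuotientGroup.mk ((sl (F := F) n).symm g)) = 1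
      rw [h2, map_one]) hprim x h3
  rw [hr, Nat.card_eq_fintype_card] at h
  have e1 := gq_mul hq n
  have e2 := gq_mul hq (n - 1)
  have e3 : Fintype.card F ^ 2 - 1 = (Fintype.card F + 1) * (Fintype.card F - 1) := by
    rw [← Nat.sq_sub_sq, one_pow]
  rw [e3, ← e1, ← e2, Nat.add_sub_cancel, Nat.add_sub_cancel, ← mul_assoc, ← mul_assoc, h]
  ring

end Cfsg.Agent.S2194
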