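import Cfsg.Statements.S2214
import Cfsg.Agent.H64.FixMat

set_option autoImplicit false
open Cfsg

namespace Cfsg.Agent.S2214

/-- Let k be an algebraically closed field of prime characteristic p, G the adjoint Chevalley group of type G₂, B₂, D₄, F₄, E₆, E₇ or E₈ over k (the matrix group generated by the root elements x_s(t), t ∈ k, acting on the Lie algebra), q = p^a with a ≥ 1, and K a subgroup of G containing every root element x_s(t) with t^q = t and consisting of matrices all of whose entries c satisfy c^q = c. Then the centralizer of K in G is trivial, and the normalizer of K in G is exactly the set of elements of G all of whose entries c satisfy c^q = c. -/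
theorem result {k : Type*} [Field k] [IsAlgClosed k] (p : ℕ) [Fact p.Prime] [CharP k p] (D : Cfsg.Lie.ChevalleyDatum) (hD : D ∈ [Cfsg.Lie.chevG2, Cfsg.Lie.chevB2, Cfsg.Lie.chevD4, Cfsg.Lie.chevF4, Cfsg.Lie.chevE6, Cfsg.Lie.chevE7, Cfsg.Lie.chevE8]) (a : ℕ) (ha : 1 ≤ a) (K : Subgroup (GL D.Idx k)) (hKG : K ≤ D.group k)
    (hLK : Subgroup.closure {g : GL D.Idx k | ∃ (s : ℕ) (t : k), t ^ (p ^ a) = t ∧ (g : Matrix D.Idx D.Idx k) = D.x k s t} ≤ K)
    (hKfix : ∀ g ∈ K, ∀ i j : D.Idx, ((g : Matrix D.Idx D.Idx k) i j) ^ (p ^ a) = (g : Matrix D.Idx D.Idx k) i j) :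
    D.group k ⊓ Subgroup.centralizer (K : Set (GL D.Idx k)) = ⊥ ∧
    ∀ g : GL D.Idx k, g ∈ D.group k → (g ∈ Subgroup.normalizer (K : Set (GL D.Idx k)) ↔ ∀ i j : D.Idx, ((g : Matrix D.Idx D.Idx k) i j) ^ (p ^ a) = (g : Matrix D.Idx D.Idx k) i j) := by
  obtain ⟨inst⟩ := H37.nonempty_chev hD
  have hX := H38.mg_faithful hD k
  have hφ := H64.glMap_mg_x hD k (iterateFrobenius k p a)
  have hfix : ∀ g : GL D.Idx k, (∀ i j : D.Idx, ((g : Matrix D.Idx D.Idx k) i j) ^ (p ^ a) =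
      (g : Matrix D.Idx D.Idx k) i j) ↔ H39.glMap D (iterateFrobenius k p a) g = g := fun g =>
    (H64.glMap_eq_iff k (iterateFrobenius k p a) g).symm
  have hX0 : H64.X0 (H38.mg hD k) (iterateFrobenius k p a) ≤ K := by
    refine le_trans (Subgroup.closure_mono ?_) hLK
    rintro _ ⟨r, t, ht, rfl⟩
    exact ⟨r, t, ht, H38.mg_x hD k r t⟩
  simp only [hfix] at hKfix ⊢
  rw [← H38.mg_grp hD] at hKG ⊢
  have hC : ∀ g ∈ (H38.mg hD k).grp, (∀ y ∈ K, y * g = g * y) → g = 1 := fun g hg h =>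
    H64.eq_one_of_centralizes hX (fun _ hh => H38.mg_adj hD k hh) hg fun r =>
      (h _ (hX0 (H64.x_mem_X0 r (map_one _)))).symm
  have hN : ∀ g ∈ (H38.mg hD k).grp, H39.glMap D (iterateFrobenius k p a) g = g →
      ∀ y ∈ K, g * y * g⁻¹ ∈ K := by
    intro g hg e y hy
    obtain ⟨c, hc, h, hh, eh, rfl⟩ := H64.fix_decomp hφ hX hg e
    obtain ⟨c', hc', h', hh', -, e'⟩ := H64.fix_decomp hφ hX (hKG hy) (hKfix y hy)
    have h1 : h' ∈ K := by
      have := mul_mem (inv_mem (hX0 hc')) hy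
      simpa [e'] using this
    have h2 : c * h * y * (c * h)⁻¹ = c * (h * c' * h⁻¹ * h') * c⁻¹ := by
      rw [e', mul_assoc (h * c'), ← H38.mg_H_comm hD k hh' (inv_mem hh)]; group
    rw [h2]
    exact mul_mem (mul_mem (hX0 hc) (mul_mem (hX0 (H64.H_conj_mem_X0 hφ hX hh eh hc')) h1))
      (inv_mem (hX0 hc))
  refine ⟨eq_bot_iff.2 fun g hg => hC g hg.1 hg.2, fun g hg => ⟨fun h => ?_, fun h => ?_⟩⟩
  · have h1 : H39.glMap D (iterateFrobenius k p a) g ∈ (H38.mg hD k).grp := H64.map_mem_US hφ hg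
    refine (inv_mul_eq_one.1 (hC _ (mul_mem (inv_mem hg) h1) fun y hy => ?_)).symm
    have h2 := hKfix _ ((Subgroup.mem_normalizer_iff.1 h y).1 hy)
    rw [map_mul, map_mul, map_inv, hKfix y hy] at h2
    calc _ = g⁻¹ * (g * y * g⁻¹) * H39.glMap D (iterateFrobenius k p a) g := by group
      _ = _ := by rw [← h2]; group
  · refine Subgroup.mem_normalizer_iff.2 fun y => ⟨hN g hg h y, fun hy => ?_⟩
    have := hN g⁻¹ (inv_mem hg) (by rw [map_inv, h]) _ hy
    simpa [mul_assoc] using this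

end Cfsg.Agent.S2214
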