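import Cfsg.Statements.S2221
import Cfsg.Agent.H27.AltDec2

set_option autoImplicit false
open Cfsg

namespace Cfsg.Agent.S2221

open Equiv Equiv.Perm Subgroup Cfsg.Agent.H27.AltDec in
theorem dec_iff {α : Type*} [Fintype α] [DecidableEq α] {Q : Subgroup (Perm α)}
    {P : Subgroup (alternatingGroup α)} (hP : Q.comap (alternatingGroup α).subtype = P) :
    (∃ S₁ S₂ : Subgroup (alternatingGroup α), S₁ ≠ ⊥ ∧ S₂ ≠ ⊥ ∧
      Cfsg.IsInternalDirectProduct S₁ S₂ P) ↔ ∃ A B, A ≠ ⊥ ∧ B ≠ ⊥ ∧ Dec Q A B := by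
  have hi := (alternatingGroup α).subtype_injective
  have hm : P.map (alternatingGroup α).subtype = Q ⊓ alternatingGroup α := by
    rw [← hP, map_comap_eq, range_subtype, inf_comm]
  constructor
  · rintro ⟨S₁, S₂, h1, h2, -, -, h3, h4, h5⟩
    refine ⟨_, _, mt (map_eq_bot_iff_of_injective S₁ hi).1 h1,
      mt (map_eq_bot_iff_of_injective S₂ hi).1 h2, ?_, by rw [← map_inf _ _ _ hi, h4, Subgroup.map_bot],
      by rw [← Subgroup.map_sup, h5, hm]⟩
    rintro _ ⟨a, ha, rfl⟩ _ ⟨b, hb, rfl⟩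
    exact congrArg Subtype.val (h3 a ha b hb)
  · rintro ⟨A, B, h1, h2, h⟩
    have hA : A ≤ alternatingGroup α := fun x hx => (h.mem hx).2
    have hB : B ≤ alternatingGroup α := fun x hx => (h.symm.mem hx).2
    have hs : A.subgroupOf (alternatingGroup α) ⊔ B.subgroupOf (alternatingGroup α) = P := by
      apply map_injective hi
      rw [Subgroup.map_sup, map_subgroupOf_eq_of_le hA, map_subgroupOf_eq_of_le hB, h.sup, hm]
    refine ⟨A.subgroupOf _, B.subgroupOf _, fun e => h1 ?_, fun e => h2 ?_, hs ▸ le_sup_left,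
      hs ▸ le_sup_right, fun a ha b hb => Subtype.ext (h.comm _ ha _ hb), ?_, hs⟩
    · rw [← map_subgroupOf_eq_of_le hA, e, Subgroup.map_bot]
    · rw [← map_subgroupOf_eq_of_le hB, e, Subgroup.map_bot]
    · rw [subgroupOf, subgroupOf, ← comap_inf, h.inf, MonoidHom.comap_bot, ker_subtype]

open Subgroup in
theorem klein {G : Type*} [Group G] {P : Subgroup G} (h4 : Nat.card P = 4)
    (h2 : ∀ x ∈ P, x * x = 1) :
    ∃ S₁ S₂ : Subgroup G, S₁ ≠ ⊥ ∧ S₂ ≠ ⊥ ∧ Cfsg.IsInternalDirectProduct S₁ S₂ P := by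
  have : Finite P := Nat.finite_of_card_ne_zero (by omega)
  have ho : ∀ x ∈ P, x ≠ 1 → Nat.card (zpowers x) = 2 := fun x hx h1 => by
    rw [Nat.card_zpowers]; exact orderOf_eq_prime (by rw [sq, h2 x hx]) h1
  have hc : ∀ x ∈ P, ∀ y ∈ P, x * y = y * x := fun x hx y hy => by
    rw [← inv_eq_of_mul_eq_one_right (h2 _ (mul_mem hy hx)), mul_inv_rev,
      inv_eq_of_mul_eq_one_right (h2 x hx), inv_eq_of_mul_eq_one_right (h2 y hy)]
  obtain ⟨⟨x, hx⟩, hx1⟩ := (ne_bot_iff_exists_ne_one (H := P)).1 fun e => by simp [e] at h4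
  have hx1' : x ≠ 1 := fun e => hx1 (Subtype.ext e)
  obtain ⟨y, hy, hyx⟩ := SetLike.not_le_iff_exists.1 fun h : P ≤ zpowers x => by
    have : Finite (zpowers x) := Nat.finite_of_card_ne_zero (by rw [ho x hx hx1']; omega)
    have := card_le_of_le h
    rw [h4, ho x hx hx1'] at this
    omega
  have hy1 : y ≠ 1 := fun e => hyx (e ▸ one_mem _)
  have h5 : zpowers x ⊔ zpowers y ≤ P := sup_le (zpowers_le.2 hx) (zpowers_le.2 hy)
  refine ⟨zpowers x, zpowers y, mt zpowers_eq_bot.1 hx1', mt zpowers_eq_bot.1 hy1,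
    zpowers_le.2 hx, zpowers_le.2 hy,
    fun a ha b hb => hc a (zpowers_le.2 hx ha) b (zpowers_le.2 hy hb), ?_, ?_⟩
  · have : Fact (Nat.card (zpowers y)).Prime := ⟨ho y hy hy1 ▸ Nat.prime_two⟩
    rw [← disjoint_iff, ← subgroupOf_eq_bot]
    exact (eq_bot_or_eq_top_of_prime_card _).resolve_right fun t =>
      hyx (subgroupOf_eq_top.1 t (mem_zpowers y))
  · have : Finite ↥(zpowers x ⊔ zpowers y) := (Set.toFinite (P : Set G)).subset h5
    have h6 := card_dvd_of_le h5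
    have h7 := card_dvd_of_le (le_sup_left : zpowers x ≤ zpowers x ⊔ zpowers y)
    have h8 : Nat.card ↥(zpowers x ⊔ zpowers y) ≠ 2 := fun e => hyx
      ((eq_of_le_of_card_ge (le_sup_left : zpowers x ≤ zpowers x ⊔ zpowers y)
        (by rw [e, ho x hx hx1'])).ge (mem_sup_right (mem_zpowers y)))
    rw [h4] at h6
    rw [ho x hx hx1'] at h7
    have := Nat.le_of_dvd (by norm_num) h6
    refine eq_of_le_of_card_ge h5 ?_
    rw [h4]
    interval_cases Nat.card ↥(zpowers x ⊔ zpowers y) <;> simp_all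

theorem small {n : ℕ} (h : ∀ g : Equiv.Perm (Fin n), g ^ 4 = 1 → Equiv.Perm.sign g = 1 → g * g = 1)
    (P : Sylow 2 (alternatingGroup (Fin n)))
    (hc : (Nat.card (alternatingGroup (Fin n))).factorization 2 = 2) :
    ∃ S₁ S₂ : Subgroup (alternatingGroup (Fin n)), S₁ ≠ ⊥ ∧ S₂ ≠ ⊥ ∧
      Cfsg.IsInternalDirectProduct S₁ S₂ (P : Subgroup (alternatingGroup (Fin n))) := by
  have h4 : Nat.card P = 4 := by rw [P.card_eq_multiplicity, hc]; rfl
  refine klein h4 fun x hx => Subtype.ext (h _ ?_ x.2)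
  have := pow_card_eq_one' (x := (⟨x, hx⟩ : (P : Subgroup (alternatingGroup (Fin n)))))
  rw [h4] at this
  exact congrArg (fun u : (P : Subgroup (alternatingGroup (Fin n))) =>
    ((u : alternatingGroup (Fin n)) : Equiv.Perm (Fin n))) this


/-- Direct decomposability of the Sylow 2-subgroups of the alternating groups. Let n ≥ 4 and let P be a Sylow 2-subgroup of the alternating group of degree n. Then P is the internal direct product of two nontrivial subgroups if and only if n = 4, n = 5, or n ≡ 2, 3 (mod 4) with 4⌊n/4⌋ not a power of 2. In the remaining cases (n ≡ 0, 1 (mod 4) with n ≥ 8, or n ≡ 2, 3 (mod 4) with 4⌊n/4⌋ a power of 2) P is directly indecomposable. -/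
theorem result (n : ℕ) (hn : 4 ≤ n)
    (P : Sylow 2 (alternatingGroup (Fin n))) :
    (∃ S₁ S₂ : Subgroup (alternatingGroup (Fin n)), S₁ ≠ ⊥ ∧ S₂ ≠ ⊥ ∧
        Cfsg.IsInternalDirectProduct S₁ S₂ (P : Subgroup (alternatingGroup (Fin n)))) ↔
      (n = 4 ∨ n = 5 ∨ ((n % 4 = 2 ∨ n % 4 = 3) ∧ ∀ r : ℕ, 4 * (n / 4) ≠ 2 ^ r)) := by
  obtain ⟨Q, hQ⟩ := P.exists_comap_subtype_eq
  obtain ⟨τ, h⟩ := H27.AltDec.exists_ctx Q
  have hΓ := h.ncard_Gm
  have hΓ' := h.ncard_compl
  rw [Fintype.card_fin] at hΓ hΓ'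
  by_cases h6 : n < 6
  · refine iff_of_true ?_ (by omega)
    obtain rfl | rfl : n = 4 ∨ n = 5 := by omega
    · exact small (by decide +kernel) P (by rw [nat_card_alternatingGroup]; simp; decide +kernel)
    · exact small (by decide +kernel) P (by rw [nat_card_alternatingGroup]; simp; decide +kernel)
  have h6' : 6 ≤ Fintype.card (Fin n) := by rw [Fintype.card_fin]; omega
  rw [dec_iff hQ]
  constructor
  · rintro ⟨A, B, hA, hB, hd⟩
    have hs := h.not_single h6' hd hA hB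
    refine Or.inr (Or.inr ⟨?_, fun r hr => hs (h.single (by omega) (by rwa [Fintype.card_fin]))⟩)
    by_contra hc
    refine h.not_multi h6' hd hA hB hs fun a ha => by_contra fun e => ?_
    have : ({a, τ a} : Set (Fin n)).ncard ≤ (H27.AltDec.Gm (Q : Subgroup (Equiv.Perm (Fin n))))ᶜ.ncard :=
      Set.ncard_le_ncard (Set.insert_subset ha (Set.singleton_subset_iff.2
        (mt (H27.AltDec.inv_Gm τ h.tau_mem a).1 ha)))
    rw [Set.ncard_pair (Ne.symm e)] at this
    omega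
  · rintro (e | e | ⟨h1, h2⟩)
    · omega
    · omega
    obtain ⟨a, ha⟩ := (Set.ncard_pos (s := H27.AltDec.Gm (Q : Subgroup (Equiv.Perm (Fin n))))).1
      (by omega)
    obtain ⟨c, hc, hca⟩ : ∃ c ∈ H27.AltDec.Gm (Q : Subgroup (Equiv.Perm (Fin n))),
        c ∉ MulAction.orbit (Q : Subgroup (Equiv.Perm (Fin n))) a := by
      by_contra! hc
      obtain ⟨r, hr⟩ := h.two.card_orbit a
      refine h2 r ?_
      rw [← hΓ, ← hr, Nat.card_coe_set_eq]
      congr 1
      exact Set.Subset.antisymm hc fun b hb => H27.AltDec.Gm_of_orb ha hb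
    obtain ⟨b, b', hb, hb', hne⟩ :=
      (Set.one_lt_ncard_iff (s := (H27.AltDec.Gm (Q : Subgroup (Equiv.Perm (Fin n))))ᶜ)).1 (by omega)
    by_cases e : τ b = b
    · exact h.exists_dec ha hc hca hb' fun e' => hne (h.m.fix _ _ e e')
    · exact h.exists_dec ha hc hca hb e

end Cfsg.Agent.S2221
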