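import Cfsg.Statements.S2227
import Cfsg.Agent.H37.Levi
import Cfsg.Agent.H37.OkE6
import Cfsg.Agent.S0256

set_option autoImplicit false
open Cfsg

namespace Cfsg.Agent.S2227

section

open Cfsg.Lie Cfsg.Lie.ChevalleyDatum Cfsg.Agent.H37 Cfsg.Agent.H38 Finset H39 H40 Chev
open scoped Matrix MatrixGroups

/-- the number of roots with given value modulo 5 -/
noncomputable def cnt (a : ℤ) (y : List ℤ) : ℤ :=
  sumLt 72 fun r => if (a * sumLt 6 fun i => y.getD i 0 * E6.tab.car i r) % 5 = 2 then 1 else 0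

/-- the point with given values on the fundamental roots -/
def pt (a b c d e f : ℕ) : List ℤ :=
  [(4 * a + 3 * b + 5 * c + 6 * d + 4 * e + 2 * f) / 3, a + 2 * b + 2 * c + 3 * d + 2 * e + f,
    (5 * a + 6 * b + 10 * c + 12 * d + 8 * e + 4 * f) / 3, 2 * a + 3 * b + 4 * c + 6 * d + 4 * e + 2 * f,
    (4 * a + 6 * b + 8 * c + 12 * d + 10 * e + 5 * f) / 3, (2 * a + 3 * b + 4 * c + 6 * d + 5 * e + 4 * f) / 3]

theorem enum : ∀ a < 6, ∀ b < 3, ∀ c < 3, ∀ d < 2, ∀ e < 3, ∀ f < 6, a + 2 * b + 2 * c + 3 * d + 2 * e + f ≤ 5 →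
    (a + 2 * c + e + 2 * f) % 3 = 0 → cnt 1 (pt a b c d e f) = cnt 2 (pt a b c d e f) →
    pt a b c d e f = [0, 0, 0, 0, 0, 0] ∨ pt a b c d e f = [3, 4, 5, 7, 5, 3] := by
  have : (allLt 6 fun a => allLt 3 fun b => allLt 3 fun c => allLt 2 fun d => allLt 3 fun e => allLt 6 fun f =>
    decide (a + 2 * b + 2 * c + 3 * d + 2 * e + f ≤ 5 → (a + 2 * c + e + 2 * f) % 3 = 0 →
      cnt 1 (pt a b c d e f) = cnt 2 (pt a b c d e f) →
      pt a b c d e f = [0, 0, 0, 0, 0, 0] ∨ pt a b c d e f = [3, 4, 5, 7, 5, 3])) = true := by decide +kernel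
  simpa only [allLt_iff, decide_eq_true_eq] using this

theorem pr_toF (y : List ℤ) (r : Fin chevE6.nroots) :
    pr r (toF chevE6.rank y) = sumLt 6 fun i => y.getD i 0 * E6.tab.car i r := by
  rw [sumLt_eq, sum_range, pr_apply]
  exact sum_congr rfl fun i _ => by rw [E6.checked.agree.car_eq _ i.2 _ r.2]; rfl

/-- the Cartan matrix -/
def cm : List (List ℤ) := [[2, 0, -1, 0, 0, 0], [0, 2, 0, -1, 0, 0], [-1, 0, 2, -1, 0, 0], [0, -1, -1, 2, -1, 0],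
  [0, 0, 0, -1, 2, -1], [0, 0, 0, 0, -1, 2]]

/-- the point of order five -/
def b0 : Fin chevE6.rank → ℤ := toF chevE6.rank [3, 4, 5, 7, 5, 3]

theorem alc (b : Fin chevE6.rank → ℤ) (h1 : ∀ i, 0 ≤ pr ((rs chevE6).sp i) b) (h2 : ∀ r, pr r b ≤ 5)
    (τ : Equiv.Perm (Fin chevE6.nroots)) (h3 : ∀ r, pr (τ r) b % 5 = 2 * pr r b % 5) : b = 0 ∨ b = b0 := by
  have hC : ∀ i j : Fin chevE6.rank, chevE6.cartan j (chevE6.simple i) = gl cm i j := by decide +kernel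
  have hθ : ∀ j : Fin chevE6.rank, chevE6.cartan j 71 = gl [[0, 1, 0, 0, 0, 0]] 0 j := by decide +kernel
  have key : ∀ b : Fin 6 → ℤ, (∀ i : Fin 6, 0 ≤ ∑ j, b j * gl cm i j) →
      ∑ j, b j * gl [[0, 1, 0, 0, 0, 0]] 0 j ≤ 5 → ∃ a < 6, ∃ b' < 3, ∃ c < 3, ∃ d < 2, ∃ e < 3, ∃ f < 6,
      a + 2 * b' + 2 * c + 3 * d + 2 * e + f ≤ 5 ∧ (a + 2 * c + e + 2 * f) % 3 = 0 ∧ b = toF 6 (pt a b' c d e f) := by
    intro b h1 h2
    have a0 := h1 0
    have a1 := h1 1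
    have a2 := h1 2
    have a3 := h1 3
    have a4 := h1 4
    have a5 := h1 5
    simp [Fin.sum_univ_six, gl, cm] at a0 a1 a2 a3 a4 a5 h2
    obtain ⟨a, ha⟩ := Int.eq_ofNat_of_zero_le (a := 2 * b 0 - b 2) (by omega)
    obtain ⟨b', hb⟩ := Int.eq_ofNat_of_zero_le (a := 2 * b 1 - b 3) (by omega)
    obtain ⟨c, hc⟩ := Int.eq_ofNat_of_zero_le (a := 2 * b 2 - b 0 - b 3) (by omega)
    obtain ⟨d, hd⟩ := Int.eq_ofNat_of_zero_le (a := 2 * b 3 - b 1 - b 2 - b 4) (by omega)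
    obtain ⟨e, he⟩ := Int.eq_ofNat_of_zero_le (a := 2 * b 4 - b 3 - b 5) (by omega)
    obtain ⟨f, hf⟩ := Int.eq_ofNat_of_zero_le (a := 2 * b 5 - b 4) (by omega)
    refine ⟨a, by omega, b', by omega, c, by omega, d, by omega, e, by omega, f, by omega, by omega, by omega,
      funext fun i => ?_⟩
    fin_cases i <;> simp only [toF, pt, Fin.reduceFinMk, List.getD_cons_zero, List.getD_cons_succ, Fin.zero_eta,
      Fin.mk_one] <;> omega
  have h1' : ∀ i : Fin chevE6.rank, 0 ≤ ∑ j, b j * gl cm i j := fun i => by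
    simpa only [pr_apply, rs_sp_val, hC] using h1 i
  obtain ⟨a, ha, b', hb, c, hc, d, hd, e, he, f, hf, h4, h5, rfl⟩ := key b h1'
    (by have := h2 ⟨71, by decide⟩; simp only [pr_apply, hθ] at this; exact this)
  refine (enum a ha b' hb c hc d hd e he f hf h4 h5 ?_).imp (fun h => by rw [h]; exact funext (by decide))
    (congrArg _)
  rw [cnt, cnt, sumLt_eq, sumLt_eq, sum_range, sum_range]
  refine (Equiv.sum_comp τ _).symm.trans (sum_congr rfl fun r _ => ?_)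
  rw [← pr_toF, ← pr_toF, one_mul]
  exact if_congr (Eq.congr_left (h3 r)) rfl rfl

theorem b0_spec : (∀ i : Fin chevE6.rank, pr ((rs chevE6).sp i) b0 = toF chevE6.rank [1, 1, 0, 0, 0, 1] i) ∧
    ∀ r, -5 < pr r b0 ∧ pr r b0 < 5 := by
  simp only [b0, pr_toF, rs_sp_val]
  decide +kernel

/-- the nodes of the Levi subgroup -/
def nd (i : Fin 3) : Fin chevE6.rank := ⟨i + 2, (by omega : (i : ℕ) + 2 < 6)⟩

theorem inJ_iff (r : Fin chevE6.nroots) : 5 ∣ pr r b0 ↔ (rs chevE6).InJ (Set.range nd) r := by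
  have h1 : {i | pr ((rs chevE6).sp i) b0 = 0} = Set.range nd := Set.ext fun i => by
    rw [Set.mem_setOf_eq, b0_spec.1, Set.mem_range]; revert i; decide +kernel
  refine ⟨fun h => h1 ▸ inJ_of_pr (fun i => by rw [b0_spec.1]; revert i; decide +kernel)
    (by have := b0_spec.2 r; omega), fun h => ?_⟩
  rw [pr_eq_sum, sum_eq_zero fun j _ => ?_]
  · exact dvd_zero _
  by_cases hj : j ∈ Set.range nd
  · rw [show pr _ b0 = 0 from h1.ge hj, mul_zero]
  · rw [h j hj, zero_mul]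

/-- the matrix of the twisted Weyl group element -/
def mw : List (List ℤ) := [[0, 1, 0, 1, 1, 1], [-1, -1, -2, -3, -2, -1], [0, 0, 1, 0, 0, 0], [0, 0, 0, 1, 0, 0],
  [0, 0, 0, 0, 1, 0], [1, 1, 1, 1, 0, 0]]

theorem exists_w : ∃ w ∈ (rs chevE6).W, ∀ τ : Equiv.Perm (Fin chevE6.nroots), (∀ r, (τ r : ℕ) = tauE6 r) →
    (∀ i, w (τ ((rs chevE6).sp (nd i))) = (rs chevE6).sp (nd i)) ∧
    wM (w * τ) = Matrix.of fun i j : Fin chevE6.rank => gl mw i j := by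
  obtain ⟨w, hw, h⟩ := E6.checked.exists_wF [0, 2, 3, 4, 5, 4, 3, 2, 1, 3, 4, 0, 2, 3, 1] (by decide +kernel)
  refine ⟨w, hw, fun τ hτ => ⟨fun i => Fin.ext ?_, Matrix.ext fun i j => ?_⟩⟩
  · rw [h, hτ, rs_sp_val]; revert i; decide +kernel
  · rw [wM, cv, ← E6.checked.agree.co_eq _ (Fin.is_lt _) _ j.2, Equiv.Perm.mul_apply, h, hτ, rs_sp_val,
      Matrix.of_apply]
    revert i j; decide +kernel

/-- the first node -/
def i0 : Fin chevE6.rank := ⟨0, by decide⟩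

theorem tor {k : Type*} [Field k] {c : Fin chevE6.rank → kˣ}
    (h : zact ((2 : ℤ) • Matrix.of fun i j : Fin chevE6.rank => gl mw i j) c = c) :
    c ^ 5 ∈ centT chevE6 k ∧ c ^ 9 * expY (c i0 ^ 12) b0 = 1 := by
  rw [← zact_sub_one, MonoidHom.mem_ker] at h
  have key : ∀ (B : List (List ℤ)) (N : Matrix (Fin chevE6.rank) (Fin chevE6.rank) ℤ),
      (∀ i j, N i j = ∑ l : Fin chevE6.rank, (2 * gl mw i l - if i = l then 1 else 0) * gl B l j) →
      ∀ j, ∏ i, c i ^ N i j = 1 := fun B N hN j => by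
    have := congrArg (zact (Matrix.of fun i j : Fin chevE6.rank => gl B i j)) h
    rw [← zact_mul, map_one] at this
    refine Eq.trans (prod_congr rfl fun i _ => ?_) ((zact_apply _ _ _).symm.trans (congrFun this j))
    simp [hN, Matrix.mul_apply, Matrix.one_apply]
  refine ⟨mem_centT.2 fun j => ?_, funext fun j => ?_⟩
  · simpa only [Pi.pow_apply, ← zpow_natCast, ← zpow_mul] using key 
      [[2, 2, -5, 0, 0, 2], [4, 4, 0, -5, 0, 4], [-5, 0, 10, -5, 0, 0], [0, -5, -5, 10, -5, 0], [0, 0, 0, -5, 10, -5], [2, 2, 0, 0, -5, 2]]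
      (fun i j => (5 : ℕ) * chevE6.cartan i (chevE6.simple j)) (by decide +kernel) j
  · simpa only [zpow_add, prod_mul_distrib, expY, ← zpow_natCast, ← zpow_mul, pow_ite, zpow_zero, prod_ite_eq,
      prod_ite_eq', mem_univ, if_true, Pi.mul_apply, Pi.pow_apply, Pi.one_apply] using key 
      [[-21, -26, -40, -50, -34, -18], [18, 21, 24, 30, 24, 18], [0, 0, 9, 0, 0, 0], [0, 0, 0, 9, 0, 0], [0, 0, 0, 0, 9, 0], [-6, -10, -14, -22, -20, -9]]
      (fun i j => (if i = j then ((9 : ℕ) : ℤ) else 0) + if i = i0 then (12 : ℕ) * b0 j else 0)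
      (by decide +kernel) j

theorem cent_equiv {G X S : Type*} [Group G] [Group X] [Group S] [IsSimpleGroup S] (hS : Subgroup.center S = ⊥)
    {π : G →* X} (hπ : Function.Surjective π) (h1 : ∀ z, π z = 1 → z ^ 3 = 1 ∧ ∀ g, z * g = g * z) {x : G}
    (hx : orderOf x = 5) {ψ : S →* G} (h2 : ∀ s, ψ s * x = x * ψ s) (h3 : ∃ s, π (ψ s) ≠ 1)
    (h4 : ∀ y, y * x = x * y → ∃ (a : ℤ) (s : S), π y = π x ^ a * π (ψ s)) :
    Nonempty (Subgroup.centralizer {π x} ≃* Multiplicative (ZMod 5) × S) := by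
  have h5 : ∀ z, π z = 1 → z ^ 5 = 1 → z = 1 := fun z hz h => by
    rw [← pow_one z, ← show Nat.gcd 3 5 = 1 from rfl, pow_gcd_eq_one]; exact ⟨(h1 z hz).1, h⟩
  have h0 : x ^ 5 = 1 := hx ▸ pow_orderOf_eq_one x
  have : Fact (Nat.Prime 5) := ⟨by norm_num⟩
  have h6 : orderOf (π x) = 5 := orderOf_eq_prime (by rw [← map_pow, h0, map_one]) fun h => by
    simp [h5 x h h0] at hx
  have h7 : Function.Injective (π.comp ψ) := (MonoidHom.ker_eq_bot_iff _).1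
    ((Subgroup.Normal.eq_bot_or_eq_top inferInstance).resolve_right fun h => h3.elim fun s hs =>
      hs (h.ge (Subgroup.mem_top s)))
  let e := (zmodCyclicMulEquiv (inferInstance : IsCyclic (Subgroup.zpowers (π x))))
  rw [Nat.card_zpowers, h6] at e
  let χ := (Subgroup.subtype _).comp e.toMonoidHom
  have h8 : ∀ a s, Commute (χ a) (π.comp ψ s) := fun a s => by
    obtain ⟨i, hi⟩ := (e a).2
    exact (show π x ^ i = χ a from hi) ▸ ((show Commute (ψ s) x from h2 s).map π).symm.zpow_left i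
  have h9 : Function.Injective (χ.noncommCoprod _ h8) := (injective_iff_map_eq_one _).2 fun p hp => by
    have a1 : p.2 = 1 := hS.le (Subgroup.mem_center_iff.2 fun g => h7 (by
      rw [map_mul, map_mul, eq_inv_of_mul_eq_one_right hp]; exact (h8 _ g).inv_left.symm))
    rw [MonoidHom.noncommCoprod_apply, a1, map_one, mul_one] at hp
    exact Prod.ext (e.injective (Subtype.ext (hp.trans (map_one χ).symm))) a1
  refine ⟨(MulEquiv.subgroupCongr (Subgroup.ext fun y => ?_)).trans (MonoidHom.ofInjective h9).symm⟩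
  rw [Subgroup.mem_centralizer_singleton_iff]
  refine ⟨fun h => ?_, ?_⟩
  · obtain ⟨y, rfl⟩ := hπ y
    have a1 : π (y * x * y⁻¹ * x⁻¹) = 1 := by simp [h]
    have a2 := (show Commute _ x from (h1 _ a1).2 x).mul_pow 5
    rw [inv_mul_cancel_right, conj_pow, h0, mul_one, mul_one, mul_inv_cancel] at a2
    obtain ⟨a, s, h⟩ := h4 y (by rw [← mul_inv_eq_iff_eq_mul, ← mul_inv_eq_one]; exact h5 _ a1 a2.symm)
    exact ⟨(e.symm ⟨_, a, rfl⟩, s), by rw [h, MonoidHom.noncommCoprod_apply]; simp [χ]⟩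
  · rintro ⟨⟨a, s⟩, rfl⟩
    obtain ⟨i, hi⟩ := (e a).2
    exact Commute.mul_left ((show π x ^ i = χ a from hi) ▸ (Commute.refl _).zpow_left i)
      ((show Commute (ψ s) x from h2 s).map π)

variable {k : Type*} [Field k] [IsAlgClosed k] [CharP k 2] {Γ : Type*} [Group Γ] {A : Cov isChev_E6 k Γ} (hA : A.SC)
  (hF : A.HasField) (hk : ∀ t : k, ∃ n, n ≠ 0 ∧ t ^ 2 ^ n = t) {Φ : A.Frob} (he : ∀ r, Φ.e r = 2)
  {ζ : kˣ} (hζ : IsPrimitiveRoot ζ 5)
include hA hF hk he hζ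

theorem conj_t {s : Γ} (hs : Φ.σ s = s) (h : orderOf s = 5) : ∃ g, g⁻¹ * s * g = A.T (expY ζ b0) := by
  have h0 : s ^ 5 = 1 := h ▸ pow_orderOf_eq_one s
  obtain ⟨g, hg⟩ := Cov.conj_H hA hF 2 hk (by norm_num) h0
  obtain ⟨b, n, h1, h2, h3⟩ := hA.exists_alcove' hg (by norm_num) (by
    rw [← inv_inv g, inv_inv g⁻¹, conj_pow, h0]; simp) hζ
  have h4 : (g * n)⁻¹ * s * (g * n) = A.T (expY ζ b) := by rw [← h1]; group
  obtain ⟨m, w, hm, h5⟩ := Φ.exists_rep_fix hs (h4 ▸ A.torus_mem _)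
  rw [h4] at h5
  rcases alc b h2 h3 (Φ.twist hm).τ fun r => by
    have := (Φ.twist hm).rootChar_τ h5 r
    rwa [rootChar_expY, rootChar_expY, Cov.Frob.twist_e, he, ← zpow_natCast, ← zpow_mul, zpow_eq_zpow_iff_modEq,
      ← hζ.eq_orderOf, mul_comm] at this with rfl | rfl
  · rw [expY_zero, map_one, mul_assoc, inv_mul_eq_one, eq_comm, mul_eq_right] at h4
    simp [h4] at h
  · exact ⟨_, h4⟩

theorem cent_t (hτ : ∀ r, (Φ.τ r : ℕ) = tauE6 r) {G : Type*} [Group G] (μ : Φ.Model G) {x : G} (hx : orderOf x = 5) :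
    ∃ ψ : SL(4, ZMod 2) →* G, (∀ s, ψ s * x = x * ψ s) ∧ (∃ s, A.θ (μ.ι (ψ s)) ≠ 1) ∧
      ∀ y, y * x = x * y → ∃ (a : ℤ) (s : SL(4, ZMod 2)), A.θ (μ.ι (y * (x ^ a * ψ s)⁻¹)) = 1 := by
  obtain ⟨g, hg⟩ := conj_t hA hF hk he hζ (μ.fix x) ((orderOf_injective _ μ.inj x).trans hx)
  obtain ⟨w, hw, h1⟩ := exists_w
  obtain ⟨h1, h2⟩ := h1 Φ.τ hτ
  obtain ⟨n, hn, h3⟩ := Φ.exists_twist_std hw
  have hM := (Φ.twist hn).M_eq he
  rw [Cov.Frob.twist_τ, h2] at hM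
  have h4 : (Φ.twist hn).σ (A.T (expY ζ b0)) = A.T (expY ζ b0) := by
    rw [Cov.Frob.σ_T, hM, zact_expY]
    refine congrArg _ (funext fun j => zpow_eq_zpow_iff_modEq.2 ?_)
    simp only [← hζ.eq_orderOf, Matrix.vecMul, dotProduct, Matrix.smul_apply, Matrix.of_apply]
    revert j; decide +kernel
  obtain ⟨g', e1, e2⟩ := Φ.exists_normal hA (μ.fix x) (A.torus_mem _) hn hg h4
  have h5 : ∀ y, A.θ ((μ.twist hn e2).ι y) = 1 ↔ A.θ (μ.ι y) = 1 := fun y => by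
    simp [μ.twist_ι, mul_assoc, inv_mul_eq_one]
  rw [← μ.twist_ι hn e2] at e1
  simp only [ne_eq, ← h5]
  have h6 := fun i => h3 _ (h1 i)
  simp only [he] at h6
  generalize μ.twist hn e2 = μ at *
  generalize Φ.twist hn = Φ at *
  clear h5 h3 hg e2
  obtain ⟨ι, hι⟩ := A.exists_stMap (ZMod.castHom dvd_rfl k)
  obtain ⟨φ, hφ⟩ := hF (iterateFrobenius k 2 1)
  have hf := frob_fix_iff (ZMod.castHom dvd_rfl k) one_ne_zero (Nat.card_zmod 2)
  obtain ⟨ψ, p1, p2, p3⟩ := Cov.exists_levi_sl hι (long_of_simple (by decide +kernel)) (n := 3) (by norm_num) (e := nd)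
    (by decide +kernel) (by simp only [clA_C, rs_C]; decide +kernel)
  have hΨ : Psi A.X {A.T (expY ζ b0)} = {r | (rs chevE6).InJ (Set.range nd) r} := by
    rw [Cov.Psi_expY, ← hζ.eq_orderOf]; exact Set.ext inJ_iff
  have h7 : ∀ i u, A.X.x ((rs chevE6).sp (nd i)) u ∈ Φ.σ.eqLocus φ ∧
      A.X.x ((rs chevE6).neg ((rs chevE6).sp (nd i))) u ∈ Φ.σ.eqLocus φ := fun i u =>
    ⟨(h6 i u).1.trans (hφ _ u).symm, (h6 i u).2.trans (hφ _ u).symm⟩
  have h8 : ∀ s, ψ s ∈ μ.ι.range := p2 _ fun i t =>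
    ⟨(μ.fix_iff _).1 ((h7 i _).1.trans (by rw [hφ, (hf _).2 ⟨t, rfl⟩])),
      (μ.fix_iff _).1 ((h7 i _).2.trans (by rw [hφ, (hf _).2 ⟨t, rfl⟩]))⟩
  let ψ' := (MonoidHom.ofInjective μ.inj).symm.toMonoidHom.comp (ψ.codRestrict _ h8)
  have h9 : ∀ s, μ.ι (ψ' s) = ψ s := fun s => MonoidHom.apply_ofInjective_symm μ.inj _
  have h10 : ∀ s, ψ' s * x = x * ψ' s := fun s => μ.inj (by
    rw [map_mul, map_mul, h9, e1]
    refine Subgroup.mem_centralizer_singleton_iff.1 (p2 _ (fun i t => ?_) s)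
    have := (rs chevE6).inJ_sp.2 (Set.mem_range_self (f := nd) i)
    exact ⟨US_Psi_le _ (A.X.x_mem (hΨ.ge this) _), US_Psi_le _ (A.X.x_mem (hΨ.ge ((rs chevE6).inJ_neg.2 this)) _)⟩)
  refine ⟨ψ', h10, ⟨ClA.x _ ((ClA.rs 3).sp 0) 1, fun h => ?_⟩, fun y hy => ?_⟩
  · rw [h9, p3, A.θ_X, map_one] at h
    exact one_ne_zero ((mg_faithful _ k).eq_zero_of_x_eq_one h)
  obtain ⟨a, ha, s, hs, b, hb, q1, q2⟩ := hA.cent_fix hι hf hφ Φ (A.torus_mem _) (Φ.isOfFinOrder_of_fix (A.torus_mem _) h4)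
    (fun r hr u => (A.X.x_mem_of_supp (K := Φ.σ.eqLocus φ) (J := Set.range nd) (by
      rintro _ ⟨i, rfl⟩; exact mul_mem (mul_mem (h7 i _).1 (h7 i _).2) (h7 i _).1)
      (by rintro _ ⟨i, rfl⟩ t; exact (h7 i t).1) (hΨ.le hr) u).trans (hφ r u)) (g := μ.ι y)
    (by rw [Subgroup.mem_centralizer_singleton_iff, ← e1, ← map_mul, hy, map_mul]) (μ.fix y)
  obtain ⟨c, rfl⟩ := A.mem_H_iff.1 hs
  obtain ⟨a', ha'⟩ := p1 a (hΨ ▸ ha)
  obtain ⟨b', hb'⟩ := p1 b (hΨ ▸ hb)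
  obtain ⟨q3, q4⟩ := tor (c := c) (hA (by rw [← q1, Φ.σ_T, hM]; rfl))
  obtain ⟨i, -, hi⟩ := hζ.eq_pow_of_mem_rootsOfUnity (ξ := c i0 ^ 12) (by
    rw [mem_rootsOfUnity, ← pow_mul, show 12 * 5 = 5 * 3 * 4 from rfl, pow_mul, pow_mul]
    exact (congrArg (· ^ 4) (congrFun (centT_pow H64.hasInv_E6 q3) i0)).trans (one_pow 4))
  have q5 : A.θ (A.T c) = A.θ (μ.ι (x ^ (i : ℤ))) := by
    rw [map_zpow, e1, ← map_zpow, ← expY_zpow, zpow_natCast, hi, eq_inv_of_mul_eq_one_right q4,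
      show c ^ 9 = c⁻¹ * (c ^ 5) ^ 2 by group, map_inv, map_inv, map_mul, map_mul,
      Cov.θ_T_eq_one (pow_mem q3 2)]
    simp
  refine ⟨i, a' * b', ?_⟩
  rw [map_mul ψ', ← mul_assoc, ← ((show Commute _ x from h10 a').zpow_right i).eq]
  simp only [map_mul, map_inv, h9, ha', hb', q2, q5, mul_inv_cancel]

end

open H37 H39 H40 in

/-- In the twisted group ²E₆(2) all elements of order 5 are conjugate, and the centralizer of an element of order 5 is isomorphic to the direct product of a cyclic group of order 5 with the alternating group of degree 8. -/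
theorem result {K : Type*} [Field K] [Fintype K] (hK : Fintype.card K = 4) :
    (∀ x y : ↥(Cfsg.Lie.twistedE6 K 2), orderOf x = 5 → orderOf y = 5 → IsConj x y) ∧
      ∀ x : ↥(Cfsg.Lie.twistedE6 K 2), orderOf x = 5 →
        Nonempty (↥(Subgroup.centralizer ({x} : Set ↥(Cfsg.Lie.twistedE6 K 2))) ≃* (Multiplicative (ZMod 5) × ↥(alternatingGroup (Fin 8)))) := by
  obtain ⟨Φ, G, μ, π, h1, h2, h3, h4⟩ := exists_model_2E6 (K := K) (q := 2) Nat.prime_two.isPrimePow hK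
  have : CharP K 2 := charP_of_card_eq_prime_pow (p := 2) (f := 2) hK
  have : NeZero ((5 : ℕ) : AlgebraicClosure K) := ⟨fun h => by
    simpa using (CharP.cast_eq_zero_iff (AlgebraicClosure K) 2 5).1 h⟩
  obtain ⟨ζ, hζ⟩ := HasEnoughRootsOfUnity.exists_primitiveRoot (AlgebraicClosure K) 5
  have hζ' := hζ.isUnit_unit (by norm_num)
  have h5 : ∀ z, π z = 1 → z ^ 3 = 1 ∧ ∀ g, z * g = g * z := fun z hz => by
    obtain ⟨c, hc, e⟩ := Cov.exists_centT _ ((h2 z).1 hz)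
    exact ⟨μ.inj (by rw [map_pow, ← e, ← map_pow, centT_pow H64.hasInv_E6 hc, map_one, map_one]),
      fun g => μ.inj (by rw [map_mul, map_mul, Cov.comm_of_ker _ ((h2 z).1 hz)])⟩
  have : Fact (Nat.Prime 5) := ⟨by norm_num⟩
  have h6 : ∀ x, orderOf x = 5 → ∃ y, π y = x ∧ orderOf y = 5 := fun x hx => by
    obtain ⟨y, rfl⟩ := h1 x
    have e : π (y ^ 5) = 1 := by rw [map_pow, ← hx, pow_orderOf_eq_one]
    have e' : π (y ^ 6) = π y := by rw [pow_succ, map_mul, e, one_mul]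
    refine ⟨y ^ 6, e', orderOf_eq_prime ?_ fun h => by simp [← e', h] at hx⟩
    rw [← pow_mul, show 6 * 5 = 5 * 3 * 2 from rfl, pow_mul, pow_mul, (h5 _ e).1, one_pow]
  have h7 := fun y => conj_t (sc_all _) (scCov_hasField _ _) (algClosure_alg K 2) h4 hζ' (μ.fix y)
  refine ⟨fun x y hx hy => ?_, fun x hx => ?_⟩
  · obtain ⟨x, rfl, hx'⟩ := h6 x hx
    obtain ⟨y, rfl, hy'⟩ := h6 y hy
    obtain ⟨a, ha⟩ := h7 x ((orderOf_injective _ μ.inj x).trans hx')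
    obtain ⟨b, hb⟩ := h7 y ((orderOf_injective _ μ.inj y).trans hy')
    exact π.map_isConj (μ.isConj (sc_all _) (ha ▸ Cov.torus_mem _ _) (hb.trans ha.symm))
  obtain ⟨x, rfl, hx'⟩ := h6 x hx
  obtain ⟨ψ, p1, p2, p3⟩ := cent_t (sc_all _) (scCov_hasField _ _) (algClosure_alg K 2) h4 hζ' h3 μ hx'
  have hc : Subgroup.center (Matrix.SpecialLinearGroup (Fin 4) (ZMod 2)) = ⊥ :=
    Subgroup.card_eq_one.1 (by rw [H9.card_center_sl]; simp)
  let e₀ := QuotientGroup.quotientBot.symm.trans (QuotientGroup.quotientMulEquivOfEq hc.symm)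
  let e₁ := e₀.trans (S0256.result (ZMod.card 2)).some
  have := H9.psl_isSimpleGroup (ι := Fin 4) (F := ZMod 2) (by simp)
  have := e₀.isSimpleGroup
  obtain ⟨e⟩ := cent_equiv hc h1 h5 hx' p1 (by simpa only [Ne, h2] using p2) fun y hy => by
    obtain ⟨a, s, h⟩ := p3 y hy
    exact ⟨a, s, by simpa only [map_mul, map_inv, map_zpow, mul_inv_eq_one] using (h2 _).2 h⟩
  exact ⟨e.trans (MulEquiv.prodCongr (.refl _) e₁)⟩

end Cfsg.Agent.S2227
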