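import Cfsg.Statements.S2231
import Cfsg.Agent.H60.QdSylow
import Cfsg.Agent.H60.S4
import Cfsg.Agent.H9.GL2Sylow

set_option autoImplicit false
open Cfsg

namespace Cfsg.Agent.S2231

/-- Let p be an odd prime and K a finite field of characteristic p. Then Qd(p) (the natural semidirect product of an elementary abelian group of order p² by SL₂(p)) is not involved in the projective special linear group PSL₂(K). -/
theorem result {p : ℕ} [Fact p.Prime] (hp : p ≠ 2) {K : Type*} [Field K] [Fintype K] [CharP K p] : ¬ Cfsg.Involves ↥(Cfsg.qd p) (Matrix.ProjectiveSpecialLinearGroup (Fin 2) K) := by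
  intro h
  have h1 := H60.involves_of_surjective (QuotientGroup.mk' _) (QuotientGroup.mk'_surjective _) h
  obtain ⟨T, hT⟩ := H9.exists_sylow_sl_two_eq_lineStab p (H9.pt0 K)
  have h2 := H94.involves_sylow_of_involves T (H60.qdS p) H60.isPGroup_qdS h1
  obtain ⟨L, f, hf⟩ := H94.involves_iff.mp h2
  obtain ⟨a, ha⟩ := hf ⟨H60.heis 1 0 0, H60.heis_mem ..⟩
  obtain ⟨b, hb⟩ := hf ⟨H60.heis 0 0 1, H60.heis_mem ..⟩
  have hab : a * b = b * a := by
    obtain ⟨c, hc⟩ := (H9.mem_lineStab_pt0_iff _).mp (hT.le a.1.2)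
    obtain ⟨d, hd⟩ := (H9.mem_lineStab_pt0_iff _).mp (hT.le b.1.2)
    apply Subtype.ext
    apply Subtype.ext
    change a.1.1 * b.1.1 = b.1.1 * a.1.1
    rw [← hc, ← hd]
    apply Subtype.ext
    simp [Matrix.SpecialLinearGroup.transvection_coe, add_mul, mul_add, add_comm, add_left_comm]
  have h3 := congrArg (fun x => (f x : qd p)) hab
  simp only [map_mul, ha, hb, Subgroup.coe_mul, H60.heis_mul, H60.heis_inj] at h3
  simpa using h3.2.1

end Cfsg.Agent.S2231
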