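import Cfsg.Statements.S2239
import Cfsg.Agent.H13.SzSub3

set_option autoImplicit false
open Cfsg

namespace Cfsg.Agent.S2239

open Cfsg.Agent.H13
set_option linter.style.haveILetI false

/-- Subfield subgroups of the Suzuki group: let q = 2^(2m+1) and s = 2^(2k+1) with m, k ≥ 1 and 2k+1 dividing 2m+1 (so q is a power of s), both groups realised as stabilisers in SL₄ of the Suzuki–Tits ovoid. Then Sz(q) has a subgroup isomorphic to Sz(s), and any two subgroups of Sz(q) isomorphic to Sz(s) are conjugate. -/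
theorem result {F : Type*} [Field F] [Fintype F] {m : ℕ} (hm : 1 ≤ m) (hF : Fintype.card F = 2 ^ (2 * m + 1)) {K : Type*} [Field K] [Fintype K] {k : ℕ} (hk : 1 ≤ k) (hK : Fintype.card K = 2 ^ (2 * k + 1)) (hdiv : 2 * k + 1 ∣ 2 * m + 1) :
    (∃ S : Subgroup ↥(Cfsg.Sz F m), Nonempty (↥S ≃* ↥(Cfsg.Sz K k))) ∧
    ∀ S₁ S₂ : Subgroup ↥(Cfsg.Sz F m), Nonempty (↥S₁ ≃* ↥(Cfsg.Sz K k)) → Nonempty (↥S₂ ≃* ↥(Cfsg.Sz K k)) →
      ∃ g : ↥(Cfsg.Sz F m), S₂ = S₁.map (MulAut.conj g).toMonoidHom := by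
  letI := titsOfCard hF
  have Q := par_of_card hm hF
  set N := ovoidModel (titsOfCard_θ hF) Q.hy
  letI := titsOfCard hK
  have QK := par_of_card hk hK
  set N' := ovoidModel (titsOfCard_θ hK) QK.hy
  obtain ⟨f⟩ := exists_ringHom_of_dvd QK Q hdiv
  refine ⟨⟨_, ⟨(MonoidHom.ofInjective (N.embed_injective N' (QK.compat Q f))).symm⟩⟩, ?_⟩
  have key : ∀ S : Subgroup ↥(Cfsg.Sz F m), Nonempty (↥S ≃* ↥(Cfsg.Sz K k)) →
      ∃ g, S = (N.embed N' (QK.compat Q f)).range.map (MulAut.conj g).toMonoidHom := by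
    rintro S ⟨e⟩
    refine N.exists_eq_range Q S (fun h => N'.not_isSolvable QK.hy ?_) N' QK
      (Nat.card_congr e.toEquiv) f
    exact Group.isSolvable_of_surjective (f := e.toMonoidHom) e.surjective
  intro S₁ S₂ h1 h2
  obtain ⟨g1, rfl⟩ := key S₁ h1
  obtain ⟨g2, rfl⟩ := key S₂ h2
  refine ⟨g2 * g1⁻¹, ?_⟩
  ext x
  simp only [mem_map_conj]
  simp [mul_assoc]

end Cfsg.Agent.S2239
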