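import Cfsg.Statements.S2240
import Cfsg.Agent.H13.SzSub3

set_option autoImplicit false
open Cfsg

namespace Cfsg.Agent.S2240

open Cfsg.Agent.H13
set_option linter.style.haveILetI false

/-- Elementary abelian TI-subgroups of the Suzuki group: let q = 2^(2m+1) with m ≥ 1, the group realised as the stabiliser in SL₄ of the Suzuki–Tits ovoid, and n ≥ 2. There is an elementary abelian 2-subgroup E of order 2^n that is a TI-subgroup (every conjugate of E meeting E nontrivially is E itself) if and only if n divides 2m + 1. -/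
theorem result {F : Type*} [Field F] [Fintype F] {m : ℕ} (hm : 1 ≤ m) (hF : Fintype.card F = 2 ^ (2 * m + 1)) (n : ℕ) (hn : 2 ≤ n) :
    (∃ E : Subgroup ↥(Cfsg.Sz F m), Cfsg.IsElementaryAbelian 2 E ∧ Nat.card ↥E = 2 ^ n ∧
      ∀ x : ↥(Cfsg.Sz F m), E ⊓ E.map (MulAut.conj x).toMonoidHom ≠ ⊥ → x ∈ Subgroup.normalizer (E : Set ↥(Cfsg.Sz F m))) ↔ n ∣ 2 * m + 1 := by
  letI := titsOfCard hF
  have Q := par_of_card hm hF
  set N := ovoidModel (titsOfCard_θ hF) Q.hy
  haveI : Fact (Nat.Prime 2) := ⟨Nat.prime_two⟩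
  constructor
  · rintro ⟨E, ⟨-, h2⟩, hc, hTI⟩
    obtain ⟨g, hg⟩ := N.exists_le_conj_U (IsPGroup.of_card hc)
    set M := N.conj g
    have hZ : E ≤ M.Z := fun x hx => M.mem_Z_of_sq (hg hx) (h2 x hx)
    have hE : E ≠ ⊥ := by
      rintro rfl
      have := Nat.one_lt_two_pow (n := n) (by omega)
      simp at hc; omega
    obtain ⟨⟨x, hx⟩, hx1⟩ := Subgroup.ne_bot_iff_exists_ne_one.1 hE
    obtain ⟨e, rfl⟩ := hZ hx
    have he : e ≠ 0 := by rintro rfl; simp at hx1
    have h1 : ∀ l, l ≠ 0 → M.u 0 (e * l) ∈ E → ∀ b, M.u 0 b ∈ E ↔ M.u 0 (l * b) ∈ E := by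
      intro l hl hlE b
      obtain ⟨s, rfl⟩ := sq_mul_θ_surj l
      have hs : s ≠ 0 := by rintro rfl; simp at hl
      have := hTI (M.h (Units.mk0 s hs)) (by
        rw [Subgroup.ne_bot_iff_exists_ne_one]
        refine ⟨⟨_, hlE, _, hx, ?_⟩, fun h => ?_⟩
        · simp [Model.h_u_conj, mul_comm]
        · simpa [Model.u_eq_one, he, hs] using congrArg Subtype.val h)
      have := Subgroup.mem_normalizer_iff.1 this (M.u 0 b)
      simpa [Model.h_u_conj] using this
    let L : Subfield F :=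
      { carrier := {l | M.u 0 (e * l) ∈ E}
        mul_mem' := by
          intro a b ha hb
          by_cases h0 : a = 0
          · simp [h0, E.one_mem]
          have := (h1 a h0 ha _).1 hb
          simp only [Set.mem_setOf_eq]
          convert this using 2; ring
        one_mem' := by simpa using hx
        add_mem' := by
          intro a b ha hb
          have := E.mul_mem ha hb
          rw [Model.u_mul_u] at this
          simp only [Set.mem_setOf_eq]
          convert this using 2 <;> simp [mul_add]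
        zero_mem' := by simp [E.one_mem]
        neg_mem' := by intro a ha; rwa [CharTwo.neg_eq]
        inv_mem' := by
          intro a ha
          by_cases h0 : a = 0
          · simp [h0, E.one_mem]
          refine (h1 a h0 ha _).2 ?_
          convert hx using 2
          field_simp }
    have hL : Nat.card L = 2 ^ n := by
      rw [← hc]
      refine Nat.card_eq_of_bijective (fun l => ⟨M.u 0 (e * l), l.2⟩) ⟨fun a b h => ?_, fun y => ?_⟩
      · exact Subtype.ext (mul_left_cancel₀ he (M.u_inj.1 (Subtype.mk.inj h)).2)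
      · obtain ⟨b, hb⟩ := hZ y.2
        refine ⟨⟨e⁻¹ * b, ?_⟩, Subtype.ext ?_⟩
        · change M.u 0 _ ∈ E
          rw [mul_inv_cancel_left₀ he, ← hb]; exact y.2
        · simp [he, hb]
    letI := L.subtype.toAlgebra
    have := Module.natCard_eq_pow_finrank (K := L) (V := F)
    rw [hL, Q.card, ← pow_mul] at this
    exact ⟨_, Nat.pow_right_injective le_rfl this⟩
  · intro hd
    obtain ⟨k, rfl⟩ := (odd_two_mul_add_one m).of_dvd_nat hd
    letI := Fintype.ofFinite (GaloisField 2 (2 * k + 1))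
    have hK : Fintype.card (GaloisField 2 (2 * k + 1)) = 2 ^ (2 * k + 1) := by
      rw [← Nat.card_eq_fintype_card, GaloisField.card 2 _ (by omega)]
    letI := titsOfCard hK
    have QK := par_of_card (by omega) hK
    obtain ⟨f⟩ := exists_ringHom_of_dvd QK Q hd
    let E : Subgroup ↥(Cfsg.Sz F m) :=
      { carrier := {x | ∃ l, x = N.u 0 (f l)}
        mul_mem' := by
          rintro _ _ ⟨a, rfl⟩ ⟨b, rfl⟩
          exact ⟨a + b, by simp [Model.u_mul_u]⟩
        one_mem' := ⟨0, by simp⟩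
        inv_mem' := by rintro _ ⟨a, rfl⟩; exact ⟨a, by simp [Model.u_inv]⟩ }
    refine ⟨E, ⟨⟨⟨?_⟩⟩, ?_⟩, ?_, ?_⟩
    · rintro ⟨_, a, rfl⟩ ⟨_, b, rfl⟩
      exact Subtype.ext (N.u_zero_comm _ _ _)
    · rintro _ ⟨a, rfl⟩; simp [Model.u_sq]
    · rw [← QK.card]
      refine (Nat.card_eq_of_bijective (fun l => (⟨N.u 0 (f l), l, rfl⟩ : E))
        ⟨fun a b h => ?_, ?_⟩).symm
      · exact f.injective (N.u_inj.1 (Subtype.mk.inj h)).2
      · rintro ⟨_, a, rfl⟩; exact ⟨a, rfl⟩
    · intro x hx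
      obtain ⟨⟨_, ⟨a, rfl⟩, _, ⟨b, rfl⟩, e⟩, h1⟩ := Subgroup.ne_bot_iff_exists_ne_one.1 hx
      have e' : x * N.u 0 (f b) * x⁻¹ = N.u 0 (f a) := e
      have ha : N.u 0 (f a) ≠ 1 := fun h => h1 (Subtype.ext h)
      have hb : N.u 0 (f b) ≠ 1 := fun h => ha (by rw [← e', h]; simp)
      obtain ⟨c, d, s, rfl⟩ := N.mem_B'.1 (N.mem_B_of_conj_mem_B (N.u_mem_U _ _) hb
        (e' ▸ N.u_mem_B _ _))
      rw [Model.B_conj_u, Model.u_inj] at e'
      have hb0 : f b ≠ 0 := fun h => hb (by simp [h])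
      have e2 : (s : F) ^ 2 * Tits.θ (s : F) = f (a / b) := by
        rw [map_div₀, ← e'.2]; simp [hb0]
      apply Subgroup.mem_normalizer_fintype
      rintro _ ⟨l, rfl⟩
      exact ⟨a / b * l, by rw [Model.B_conj_u, map_mul f, ← e2]; simp⟩

end Cfsg.Agent.S2240
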