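import Cfsg.Statements.S2244
import Cfsg.Agent.H64.WeakClMat
import Cfsg.Agent.H38.MatLevi

set_option autoImplicit false
open Cfsg

namespace Cfsg.Agent.S2244

/-- Weakly closed unipotent subgroups of Chevalley groups: let G be the Chevalley group of type G₂, B₂, D₄, F₄, E₆, E₇ or E₈ over a finite field F (the matrix group generated by the root elements), with |F| ≠ 2, and |F| ≠ 3 as well for the types G₂, B₂, D₄, F₄. Let U be the subgroup generated by the positive root subgroups. If X ≤ U is weakly closed in U with respect to G (every G-conjugate of X lying in U equals X), then X is the unipotent radical U_J of a standard parabolic subgroup for some set J of fundamental roots. -/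
theorem result {F : Type*} [Field F] [Fintype F] (D : Cfsg.Lie.ChevalleyDatum) (hD : D ∈ [Cfsg.Lie.chevG2, Cfsg.Lie.chevB2, Cfsg.Lie.chevD4, Cfsg.Lie.chevF4, Cfsg.Lie.chevE6, Cfsg.Lie.chevE7, Cfsg.Lie.chevE8])
    (h2 : Fintype.card F ≠ 2) (h3 : D ∈ [Cfsg.Lie.chevG2, Cfsg.Lie.chevB2, Cfsg.Lie.chevD4, Cfsg.Lie.chevF4] → Fintype.card F ≠ 3)
    (X : Subgroup (GL D.Idx F)) (hXU : X ≤ D.posUnipotent F)
    (hwc : ∀ g ∈ D.group F, X.map (MulAut.conj g).toMonoidHom ≤ D.posUnipotent F → X.map (MulAut.conj g).toMonoidHom = X) :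
    ∃ J : Set ℕ, (∀ j ∈ J, j < D.rank) ∧ X = D.unipotentRadical F J := by
  obtain ⟨inst⟩ := H37.nonempty_chev hD
  have hq : 2 < Fintype.card F := lt_of_le_of_ne Fintype.one_lt_card (Ne.symm h2)
  have e1 : ∀ e ∈ [(1 : ℤ), -1], ∃ c : F, c ≠ 0 ∧ c ^ e ≠ 1 := by
    intro e he
    simp only [List.mem_cons, List.not_mem_nil, or_false] at he
    rcases he with rfl | rfl <;> exact H64.exists_zpow_ne_one (by decide) hq
  have e2 : Fintype.card F ≠ 3 → ∀ e ∈ [(1 : ℤ), -1, 2, -2], ∃ c : F, c ≠ 0 ∧ c ^ e ≠ 1 := by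
    intro h e he
    simp only [List.mem_cons, List.not_mem_nil, or_false] at he
    rcases he with rfl | rfl | rfl | rfl <;> exact H64.exists_zpow_ne_one (by decide) (by simp; omega)
  have e3 : (3 : F) = 0 → Fintype.card F ≠ 3 →
      ∀ e ∈ [(1 : ℤ), -1, 2, -2, 3, -3], ∃ c : F, c ≠ 0 ∧ c ^ e ≠ 1 := by
    intro h0 h e he
    have : CharP F 3 := (CharP.charP_iff_prime_eq_zero Nat.prime_three).2 h0
    obtain ⟨n, -, hn⟩ := FiniteField.card F 3
    have h4 : Fintype.card F ≠ 4 := by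
      rw [hn]; intro h4
      have := h4 ▸ dvd_pow_self 3 n.ne_zero
      omega
    simp only [List.mem_cons, List.not_mem_nil, or_false] at he
    rcases he with rfl | rfl | rfl | rfl | rfl | rfl <;>
      exact H64.exists_zpow_ne_one (by decide) (by simp; omega)
  have o1 : ∀ e ∈ [(1 : ℤ), -1], (e : F) ≠ 0 := by simp
  have hrs : ∀ {ok l E E'}, H64.Rules D ok l E → H64.SepS D E' → (∀ e ∈ ok, (e : F) ≠ 0) →
      (l ≠ 0 → ∀ z : ℤ, (z : F) = 0 ↔ l ∣ z) → (∀ e ∈ E, ∃ c : F, c ≠ 0 ∧ c ^ e ≠ 1) →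
      (∀ e ∈ E', ∃ c : F, c ≠ 0 ∧ c ^ e ≠ 1) → ∃ J, X = (H38.mg hD F).UJ J := by
    intro ok l E E' h1 h2 h3 h4 h5 h6
    refine H64.mg_eq_UJ hD h3 h4 h5 h6 h1 h2 (H38.mg_U hD F ▸ hXU) fun g hg h y hy => ?_
    rw [← hwc g (H38.mg_grp hD F ▸ hg) (by rintro _ ⟨y, hy, rfl⟩; exact H38.mg_U hD F ▸ h y hy)]
    exact ⟨y, hy, rfl⟩
  have t2 : (2 : F) = 0 → (2 : ℤ) ≠ 0 → ∀ z : ℤ, (z : F) = 0 ↔ 2 ∣ z :=
    fun h _ => H64.cast_eq_zero_iff 2 (by exact_mod_cast h)
  have t3 : (3 : F) = 0 → (3 : ℤ) ≠ 0 → ∀ z : ℤ, (z : F) = 0 ↔ 3 ∣ z :=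
    fun h _ => H64.cast_eq_zero_iff 3 (by exact_mod_cast h)
  obtain ⟨J, hJ⟩ : ∃ J, X = (H38.mg hD F).UJ J := by
    have hD' := hD
    simp only [List.mem_cons, List.not_mem_nil, or_false] at hD'
    rcases hD' with rfl | rfl | rfl | rfl | rfl | rfl | rfl
    · have h3 := h3 (by simp)
      by_cases c2 : (2 : F) = 0
      · have c3 : (3 : F) ≠ 0 := fun c3 => one_ne_zero (α := F) (by linear_combination c3 - c2)
        exact hrs H64.rules_G2_two H64.sepS_G2 (by simp [c3]) (t2 c2) (e2 h3) (e2 h3)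
      by_cases c3 : (3 : F) = 0
      · exact hrs H64.rules_G2_three H64.sepS_G2 (by simp [c2]) (t3 c3) (e3 c3 h3) (e2 h3)
      · exact hrs H64.rules_G2 H64.sepS_G2 (by simp [c2, c3]) (by simp) (by simp) (e2 h3)
    · have h3 := h3 (by simp)
      by_cases c2 : (2 : F) = 0
      · exact hrs H64.rules_B2_two H64.sepS_B2 o1 (t2 c2) (e2 h3) (e2 h3)
      · exact hrs H64.rules_B2 H64.sepS_B2 (by simp [c2]) (by simp) (by simp) (e2 h3)
    · exact hrs H64.rules_D4 H64.sepS_D4 o1 (by simp) (by simp) (e2 (h3 (by simp)))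
    · have h3 := h3 (by simp)
      by_cases c2 : (2 : F) = 0
      · exact hrs H64.rules_F4_two H64.sepS_F4 o1 (t2 c2) (e2 h3) (e2 h3)
      · exact hrs H64.rules_F4 H64.sepS_F4 (by simp [c2]) (by simp) (by simp) (e2 h3)
    · exact hrs H64.rules_E6 H64.sepS_E6 o1 (by simp) (by simp) e1
    · exact hrs H64.rules_E7 H64.sepS_E7 o1 (by simp) (by simp) e1
    · exact hrs H64.rules_E8 H64.sepS_E8 o1 (by simp) (by simp) e1
  refine ⟨{i | ∃ h : i < D.rank, (⟨i, h⟩ : Fin D.rank) ∈ J}, fun j hj => hj.1, ?_⟩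
  rw [H38.mg_UJ' hD, hJ]
  congr 1
  ext i; simp

end Cfsg.Agent.S2244
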