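import Cfsg.Statements.S2245
import Cfsg.Agent.H64.AltSylow

set_option autoImplicit false
open Cfsg

namespace Cfsg.Agent.S2245

open Cfsg.Agent.H64 Equiv Equiv.Perm

variable {α : Type*} [Fintype α] [DecidableEq α]

/-- The stabiliser of the partition `{O, Oᶜ}`. -/
def partStab (O : Finset α) : Subgroup (Perm α) where
  carrier := {g | ∀ x y, (x ∈ O ↔ y ∈ O) ↔ (g x ∈ O ↔ g y ∈ O)}
  one_mem' := fun _ _ => Iff.rfl
  mul_mem' := fun {g k} hg hk x y => (hk x y).trans (hg _ _)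
  inv_mem' := fun {g} hg x y => by simpa using (hg (g⁻¹ x) (g⁻¹ y)).symm

omit [Fintype α] in
theorem exists_mem_not_mem_list (O : Finset α) (l : List α) (h : l.length < O.card) :
    ∃ x ∈ O, x ∉ l := by
  by_contra hne
  push Not at hne
  have h1 : O ⊆ l.toFinset := fun x hx => List.mem_toFinset.2 (hne x hx)
  have h2 := (Finset.card_le_card h1).trans (List.toFinset_card_le l)
  omega

omit [Fintype α] in
theorem swap_mem_iff (O : Finset α) {a b : α} (h : a ∈ O ↔ b ∈ O) (x : α) :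
    swap a b x ∈ O ↔ x ∈ O := by
  rw [swap_apply_def]
  split_ifs with h1 h2
  · rw [h1, h]
  · rw [h2, h]
  · rfl

theorem exists_even_stab (O : Finset α) (hO : 4 ≤ O.card) {x y x' y' : α} (h : x ≠ y)
    (h' : x' ≠ y') (hx : x ∈ O ↔ x' ∈ O) (hy : y ∈ O ↔ y' ∈ O) :
    ∃ g ∈ alternatingGroup α, (∀ z, g z ∈ O ↔ z ∈ O) ∧ g x = x' ∧ g y = y' := by
  have h1 : swap x x' y ≠ x' := fun e => h ((swap x x').injective (by rw [e, swap_apply_left]))
  have h2 : ∃ g : Perm α, (∀ z, g z ∈ O ↔ z ∈ O) ∧ g x = x' ∧ g y = y' := by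
    refine ⟨swap (swap x x' y) y' * swap x x', fun z => ?_, ?_, ?_⟩
    · rw [Perm.mul_apply, swap_mem_iff O ((swap_mem_iff O hx y).trans hy), swap_mem_iff O hx]
    · rw [Perm.mul_apply, swap_apply_left, swap_apply_of_ne_of_ne h1.symm h']
    · rw [Perm.mul_apply, swap_apply_left]
  obtain ⟨g, g1, g2, g3⟩ := h2
  by_cases h5 : g ∈ alternatingGroup α
  · exact ⟨g, h5, g1, g2, g3⟩
  obtain ⟨c, hc, hc'⟩ := exists_mem_not_mem_list O [x', y'] (by simp; omega)
  obtain ⟨d, hd, hd'⟩ := exists_mem_not_mem_list O [x', y', c] (by simp; omega)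
  simp only [List.mem_cons, List.not_mem_nil, or_false, not_or] at hc' hd'
  refine ⟨swap c d * g, ?_, fun z => ?_, ?_, ?_⟩
  · rw [mem_alternatingGroup] at h5 ⊢
    rw [map_mul, sign_swap (Ne.symm hd'.2.2), (Int.units_eq_one_or _).resolve_left h5]; simp
  · rw [Perm.mul_apply, swap_mem_iff O (iff_of_true hc hd), g1]
  · rw [Perm.mul_apply, g2, swap_apply_of_ne_of_ne (Ne.symm hc'.1) (Ne.symm hd'.1)]
  · rw [Perm.mul_apply, g3, swap_apply_of_ne_of_ne (Ne.symm hc'.2) (Ne.symm hd'.2.1)]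

/-- Two proper overgroups whose even parts generate the alternating group. -/
def TwoOver (Q : Subgroup (Perm α)) : Prop :=
  ∃ K₁ K₂ : Subgroup (Perm α), Q ≤ K₁ ∧ Q ≤ K₂ ∧ ¬ alternatingGroup α ≤ K₁ ∧
    ¬ alternatingGroup α ≤ K₂ ∧ ∀ M : Subgroup (Perm α), K₁ ⊓ alternatingGroup α ≤ M →
      K₂ ⊓ alternatingGroup α ≤ M → alternatingGroup α ≤ M

theorem twoOver_of_part {Q : Subgroup (Perm α)} {τ : Perm α} (hτ : IsMatching τ)
    (h1 : ∀ g ∈ Q, ∀ a, g (τ a) = τ (g a)) (hs : ∀ a, swap a (τ a) ∈ Q)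
    (O : Finset α) (hO : 4 ≤ O.card) {b : α} (hb : b ∉ O) (hb' : τ b ≠ b)
    (hQ : Q ≤ partStab O) : TwoOver Q := by
  have hi := hτ.invol
  obtain ⟨a, ha, ha'⟩ : ∃ a ∈ O, τ a ≠ a := by
    obtain ⟨x, hx, -⟩ := exists_mem_not_mem_list O [] (by rw [List.length_nil]; omega)
    obtain ⟨y, hy, hy'⟩ := exists_mem_not_mem_list O [x] (by simp; omega)
    by_cases h : τ x = x
    · exact ⟨y, hy, fun h2 => hy' (by simp [hτ.fix _ _ h2 h])⟩
    · exact ⟨x, hx, h⟩
  obtain ⟨c, hc, hc'⟩ := exists_mem_not_mem_list O [a, τ a, τ b] (by simp; omega)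
  simp only [List.mem_cons, List.not_mem_nil, or_false, not_or] at hc'
  have hcb : c ≠ b := fun h => hb (h ▸ hc)
  have hab : a ≠ b := fun h => hb (h ▸ ha)
  have hτa : τ a ∈ O := by
    have := hQ (hs a) a c
    rw [swap_apply_left, swap_apply_of_ne_of_ne hc'.1 hc'.2.1] at this
    tauto
  have hτb : τ b ∉ O := by
    have := hQ (hs b) b c
    rw [swap_apply_left, swap_apply_of_ne_of_ne hcb hc'.2.2] at this
    tauto
  have hab2 : a ≠ τ b := fun h => hτb (h ▸ ha)
  have hab3 : τ a ≠ b := fun h => hb (h ▸ hτa)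
  have hab4 : τ a ≠ τ b := fun h => hab (τ.injective h)
  have hgA : swap a b * swap (τ a) (τ b) ∈ alternatingGroup α := dt_mem_alt hab hab4
  have hga : (swap a b * swap (τ a) (τ b)) a = b := by
    rw [Perm.mul_apply, swap_apply_of_ne_of_ne ha'.symm hab2, swap_apply_left]
  have hga' : (swap a b * swap (τ a) (τ b)) (τ a) = τ b := by
    rw [Perm.mul_apply, swap_apply_left, swap_apply_of_ne_of_ne hab2.symm hb']
  have hgc : (swap a b * swap (τ a) (τ b)) c = c := by
    rw [Perm.mul_apply, swap_apply_of_ne_of_ne hc'.2.1 hc'.2.2, swap_apply_of_ne_of_ne hc'.1 hcb]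
  have hgC : swap a b * swap (τ a) (τ b) ∈ Subgroup.centralizer ({τ} : Set (Perm α)) := by
    rw [Subgroup.mem_centralizer_singleton_iff]
    have e1 : τ * swap a b = swap (τ a) (τ b) * τ := by rw [swap_apply_apply]; simp
    have e2 : τ * swap (τ a) (τ b) = swap a b * τ := by
      have := swap_apply_apply τ (τ a) (τ b)
      rw [hi, hi] at this
      rw [this]; simp
    have e3 : Commute (swap a b) (swap (τ a) (τ b)) :=
      (disjoint_swap_swap (by simp [hab, ha'.symm, hab2, hab3.symm, hb'.symm, hab4])).commute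
    rw [← mul_assoc, e1, mul_assoc (swap (τ a) (τ b)), e2, e3.eq, mul_assoc]
  set g := swap a b * swap (τ a) (τ b)
  refine ⟨partStab O, Subgroup.centralizer {τ}, hQ, ?_, ?_, ?_, ?_⟩
  · intro q hq
    rw [Subgroup.mem_centralizer_singleton_iff]
    ext x; exact h1 q hq x
  · intro h
    have := h hgA a c
    rw [hga, hgc] at this
    tauto
  · intro h
    have h2 := h (dt_mem_alt ha'.symm hab)
    rw [Subgroup.mem_centralizer_singleton_iff] at h2
    have h3 := congrArg (fun f : Perm α => f a) h2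
    simp only [Perm.mul_apply, swap_apply_left] at h3
    rw [swap_apply_of_ne_of_ne ha' hab3, swap_apply_right,
      swap_apply_of_ne_of_ne hab.symm hab3.symm] at h3
    exact hab2 h3
  · intro M hM1 hM2
    have hgM : g ∈ M := hM2 ⟨hgC, hgA⟩
    have t0 : ∀ x y x' y' : α, x ≠ y → x' ≠ y' → (x ∈ O ↔ x' ∈ O) → (y ∈ O ↔ y' ∈ O) →
        ∃ k ∈ M, k x = x' ∧ k y = y' := by
      intro x y x' y' e1 e2 e3 e4
      obtain ⟨k, k1, k2, k3⟩ := exists_even_stab O hO e1 e2 e3 e4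
      exact ⟨k, hM1 ⟨fun u v => by rw [k2, k2], k1⟩, k3⟩
    have t1 : ∀ x y : α, x ≠ y → ∃ k ∈ M, k a = x ∧ k (τ a) = y := by
      intro x y hxy
      by_cases hx : x ∈ O <;> by_cases hy : y ∈ O
      · exact t0 _ _ _ _ ha'.symm hxy (iff_of_true ha hx) (iff_of_true hτa hy)
      · obtain ⟨k, hk, k1, k2⟩ := t0 a (τ a) c a ha'.symm hc'.1 (iff_of_true ha hc)
          (iff_of_true hτa ha)
        obtain ⟨l, hl, l1, l2⟩ := t0 c b x y hcb hxy (iff_of_true hc hx) (iff_of_false hb hy)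
        exact ⟨l * g * k, M.mul_mem (M.mul_mem hl hgM) hk, by
          rw [Perm.mul_apply, Perm.mul_apply, k1, hgc, l1], by
          rw [Perm.mul_apply, Perm.mul_apply, k2, hga, l2]⟩
      · obtain ⟨k, hk, k1, k2⟩ := t0 a (τ a) a c ha'.symm (Ne.symm hc'.1) Iff.rfl
          (iff_of_true hτa hc)
        obtain ⟨l, hl, l1, l2⟩ := t0 b c x y hcb.symm hxy (iff_of_false hb hx) (iff_of_true hc hy)
        exact ⟨l * g * k, M.mul_mem (M.mul_mem hl hgM) hk, by
          rw [Perm.mul_apply, Perm.mul_apply, k1, hga, l1], by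
          rw [Perm.mul_apply, Perm.mul_apply, k2, hgc, l2]⟩
      · obtain ⟨l, hl, l1, l2⟩ := t0 b (τ b) x y hb'.symm hxy (iff_of_false hb hx)
          (iff_of_false hτb hy)
        exact ⟨l * g, M.mul_mem hl hgM, by rw [Perm.mul_apply, hga, l1], by
          rw [Perm.mul_apply, hga', l2]⟩
    refine alt_le_of_two_trans (fun x y x' y' e1 e2 => ?_) ?_
    · obtain ⟨k, hk, k1, k2⟩ := t1 x y e1
      obtain ⟨l, hl, l1, l2⟩ := t1 x' y' e2
      refine ⟨l * k⁻¹, M.mul_mem hl (M.inv_mem hk), ?_, ?_⟩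
      · rw [← k1, ← l1]; simp
      · rw [← k2, ← l2]; simp
    · have h3 := isThreeCycle_swap_mul_swap_same ha'.symm (Ne.symm hc'.1) (Ne.symm hc'.2.1)
      refine ⟨_, hM1 ⟨fun u v => ?_, h3.mem_alternatingGroup⟩, h3⟩
      simp only [Perm.mul_apply, swap_mem_iff O (iff_of_true ha hτa),
        swap_mem_iff O (iff_of_true ha hc)]

theorem twoOver (hn : 7 ≤ Fintype.card α) (hk : ∀ k, Fintype.card α ≠ 2 ^ k + 1)
    (Q : Sylow 2 (Perm α)) : TwoOver (Q : Subgroup (Perm α)) := by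
  classical
  obtain ⟨τ, hτ, h1, h2⟩ := exists_matching Q
  have hs : ∀ a, swap a (τ a) ∈ Q := fun a => h2 _ (swap_pair τ hτ.invol a)
  obtain ⟨a, -, ha⟩ := exists_moved hτ [] (by simp; omega)
  set O : Finset α := Finset.univ.filter fun x => ∃ g ∈ Q, g a = x with hO
  have hmem : ∀ x, x ∈ O ↔ ∃ g ∈ Q, g a = x := fun x => by simp [hO]
  have hinv : ∀ g ∈ Q, ∀ x, g x ∈ O ↔ x ∈ O := by
    intro g hg x
    rw [hmem, hmem]
    constructor
    · rintro ⟨k, hk, e⟩
      exact ⟨g⁻¹ * k, mul_mem (inv_mem hg) hk, by rw [Perm.mul_apply, e]; simp⟩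
    · rintro ⟨k, hk, e⟩
      exact ⟨g * k, mul_mem hg hk, by rw [Perm.mul_apply, e]⟩
  have haO : a ∈ O := (hmem a).2 ⟨1, one_mem _, rfl⟩
  by_cases h3 : ∃ b, b ∉ O ∧ τ b ≠ b
  · obtain ⟨b, hb, hb'⟩ := h3
    by_cases h4 : 4 ≤ O.card
    · exact twoOver_of_part hτ h1 hs O h4 hb hb' fun g hg x y => by rw [hinv g hg, hinv g hg]
    · refine twoOver_of_part hτ h1 hs Oᶜ ?_ (b := a) (by simpa using haO) ha fun g hg x y => ?_
      · rw [Finset.card_compl]; omega
      · simp only [Finset.mem_compl]; rw [hinv g hg, hinv g hg]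
  push Not at h3
  have hcard : Nat.card (MulAction.orbit (Q : Subgroup (Perm α)) a) = O.card := by
    rw [← Nat.card_eq_finsetCard]
    refine Nat.card_congr (Equiv.subtypeEquivRight fun x => ?_)
    rw [hmem]
    exact ⟨fun ⟨g, e⟩ => ⟨g, g.2, e⟩, fun ⟨g, hg, e⟩ => ⟨⟨g, hg⟩, e⟩⟩
  obtain ⟨m, hm⟩ := Q.isPGroup'.card_orbit a
  rw [hcard] at hm
  by_cases h4 : ∃ z, z ∉ O
  · obtain ⟨z, hz⟩ := h4
    exfalso
    apply hk m
    have : Oᶜ = {z} := by
      ext x
      simp only [Finset.mem_compl, Finset.mem_singleton]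
      exact ⟨fun hx => hτ.fix _ _ (h3 x hx) (h3 z hz), fun hx => hx ▸ hz⟩
    rw [← hm, ← Finset.card_add_card_compl O, this]; simp
  push Not at h4
  -- transitive case
  obtain ⟨N, hN⟩ := IsPGroup.iff_card.1 Q.isPGroup'
  set S := MulAction.stabilizer (Q : Subgroup (Perm α)) a with hS
  obtain ⟨s, hs'⟩ := IsPGroup.iff_card.1 (Q.isPGroup'.to_subgroup S)
  have hSne : S ≠ ⊤ := by
    intro h
    have : (⟨_, hs a⟩ : (Q : Subgroup (Perm α))) ∈ S := h ▸ Subgroup.mem_top _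
    apply ha
    simpa [hS] using this
  have hsN : s < N := by
    have h5 : Nat.card S < Nat.card (Q : Subgroup (Perm α)) := by
      refine lt_of_le_of_ne (Subgroup.card_le_card_group S) fun h => hSne ?_
      exact Subgroup.eq_top_of_card_eq S h
    rw [hN, hs'] at h5
    exact (Nat.pow_lt_pow_iff_right (by norm_num)).1 h5
  obtain ⟨K, hK, hSK⟩ := Sylow.exists_subgroup_card_pow_prime_le 2 (m := N - 1)
    (by rw [hN]; exact pow_dvd_pow 2 (by omega)) S hs' (by omega)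
  have hKi : K.index = 2 := by
    have h5 := K.card_mul_index
    rw [hK, hN, show N = N - 1 + 1 by omega, pow_succ] at h5
    exact Nat.eq_of_mul_eq_mul_left (by positivity) h5
  set O' : Finset α := Finset.univ.filter fun x => ∃ g ∈ K, (g : Perm α) a = x with hO'
  have hmem' : ∀ q : (Q : Subgroup (Perm α)), (q : Perm α) a ∈ O' ↔ q ∈ K := by
    intro q
    simp only [hO', Finset.mem_filter, Finset.mem_univ, true_and]
    refine ⟨fun ⟨g, hg, e⟩ => ?_, fun hq => ⟨q, hq, rfl⟩⟩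
    have h5 : g⁻¹ * q ∈ S := by
      change ((g : Perm α)⁻¹ * q) a = a
      rw [Perm.mul_apply, ← e]; simp
    simpa using K.mul_mem hg (hSK h5)
  have hpart : ∀ g : (Q : Subgroup (Perm α)), ∀ x, (g : Perm α) x ∈ O' ↔ (g ∈ K ↔ x ∈ O') := by
    intro g x
    obtain ⟨q, hq, rfl⟩ := (hmem x).1 (h4 x)
    have e := hmem' (g * ⟨q, hq⟩)
    have e' := hmem' ⟨q, hq⟩
    rw [Subgroup.mul_mem_iff_of_index_two hKi] at e
    exact e.trans (by rw [← e'])
  obtain ⟨g, hg⟩ : ∃ g, g ∉ K := by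
    by_contra h
    push Not at h
    have : K = ⊤ := eq_top_iff.2 fun x _ => h x
    rw [this] at hKi; simp at hKi
  have hO4 : 4 ≤ O'.card := by
    have h5 : O'ᶜ.card ≤ O'.card := Finset.card_le_card_of_injOn (g : Perm α)
      (fun x hx => by
        have := hpart g x
        simp only [Finset.coe_compl, Set.mem_compl_iff, Finset.mem_coe] at hx ⊢
        exact this.2 (iff_of_false hg hx)) ((g : Perm α).injective.injOn)
    have := Finset.card_add_card_compl O'
    omega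
  have hτg : τ ((g : Perm α) a) ≠ (g : Perm α) a := by
    rw [← h1 g g.2]; exact fun h => ha ((g : Perm α).injective h)
  refine twoOver_of_part hτ h1 hs O' hO4 (b := (g : Perm α) a) (by rwa [hmem']) hτg
    fun q hq x y => ?_
  have e1 := hpart ⟨q, hq⟩ x
  have e2 := hpart ⟨q, hq⟩ y
  simp only at e1 e2
  rw [e1, e2]
  generalize ((⟨q, hq⟩ : (Q : Subgroup (Perm α))) ∈ K) = A
  generalize (x ∈ O') = B
  generalize (y ∈ O') = C
  clear * -
  tauto

theorem main {G : Type*} [Group G] (ι : G →* Perm α) (hι : Function.Injective ι)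
    (hA : alternatingGroup α ≤ ι.range) (hn : 5 ≤ Fintype.card α) (h6 : Fintype.card α ≠ 6)
    (R : Sylow 2 G) : (∃! M : Subgroup G, IsCoatom M ∧ (R : Subgroup G) ≤ M) ↔
      ∃ k : ℕ, 2 ≤ k ∧ Fintype.card α = 2 ^ k + 1 := by
  have : Finite G := Finite.of_injective _ hι
  have : Nontrivial α := Fintype.one_lt_card_iff_nontrivial.1 (by omega)
  obtain ⟨Q, hQ⟩ := R.exists_comap_eq_of_injective hι
  have htop : ∀ M : Subgroup G, (R : Subgroup G) ≤ M → alternatingGroup α ≤ M.map ι → M = ⊤ := by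
    intro M h1 h2
    have h3 : (alternatingGroup α).comap ι ≤ M := by
      intro g hg
      obtain ⟨y, hy, e⟩ := h2 hg
      rwa [← hι e]
    have h4 := Subgroup.index_dvd_of_le h3
    rw [Subgroup.index_comap] at h4
    have h5 := h4.trans (Subgroup.relIndex_dvd_index_of_normal _ _)
    rw [alternatingGroup.index_eq_two] at h5
    rcases (Nat.prime_two.eq_one_or_self_of_dvd _ h5) with h | h
    · exact Subgroup.index_eq_one.1 h
    · have h7 := Subgroup.index_dvd_of_le h1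
      rw [h] at h7
      exact absurd h7 R.not_dvd_index
  have hne : ∀ K : Subgroup (Perm α), ¬ alternatingGroup α ≤ K → K.comap ι ≠ ⊤ := by
    intro K hK h
    apply hK
    intro g hg
    obtain ⟨y, rfl⟩ := hA hg
    exact (h ▸ Subgroup.mem_top y : y ∈ K.comap ι)
  constructor
  · rintro ⟨M, ⟨hM, hRM⟩, huniq⟩
    by_contra hk
    have hk' : ∀ k, Fintype.card α ≠ 2 ^ k + 1 := by
      intro k e
      rcases Nat.lt_or_ge k 2 with h | h
      · interval_cases k <;> omega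
      · exact hk ⟨k, h, e⟩
    have h5 := hk' 2
    obtain ⟨K₁, K₂, a1, a2, a3, a4, a5⟩ := twoOver (by omega) hk' Q
    have hle : ∀ K : Subgroup (Perm α), (Q : Subgroup (Perm α)) ≤ K → ¬ alternatingGroup α ≤ K →
        K ⊓ alternatingGroup α ≤ M.map ι := by
      intro K b1 b2
      obtain ⟨M', c1, c2⟩ := (eq_top_or_exists_le_coatom (K.comap ι)).resolve_left (hne K b2)
      have c3 : M' = M := huniq M' ⟨c1, (hQ ▸ Subgroup.comap_mono b1).trans c2⟩
      rintro g ⟨g1, g2⟩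
      obtain ⟨y, rfl⟩ := hA g2
      exact ⟨y, c3 ▸ c2 g1, rfl⟩
    exact hM.1 (htop M hRM (a5 _ (hle _ a1 a3) (hle _ a2 a4)))
  · rintro ⟨k, hk, e⟩
    obtain ⟨z, h1, h2, h3⟩ := sylow_pow_add_one hk e Q
    set S := (MulAction.stabilizer (Perm α) z).comap ι with hS
    have hRS : (R : Subgroup G) ≤ S := by
      rw [← hQ]; exact Subgroup.comap_mono fun g hg => h1 g hg
    have hall : ∀ M : Subgroup G, (R : Subgroup G) ≤ M → M ≤ S ∨ M = ⊤ := by
      intro M hM
      rcases h3 (M.map ι) (fun g hg hg' => by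
        obtain ⟨y, rfl⟩ := hA hg'
        exact ⟨y, hM (hQ ▸ hg), rfl⟩) with h | h
      · exact Or.inl fun g hg => h _ ⟨g, hg, rfl⟩
      · exact Or.inr (htop M hM h)
    have hSne : S ≠ ⊤ := by
      apply hne
      intro h
      obtain ⟨a, ha⟩ := exists_not_mem_list [z] (by simp; omega)
      obtain ⟨b, hb⟩ := exists_not_mem_list [z, a] (by simp; omega)
      simp only [List.mem_cons, List.not_mem_nil, or_false, not_or] at ha hb
      have h4 : (swap a b * swap z a) z = z := h (dt_mem_alt (Ne.symm hb.2) (Ne.symm ha))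
      rw [Perm.mul_apply, swap_apply_left, swap_apply_left] at h4
      exact hb.1 h4
    refine ⟨S, ⟨⟨hSne, fun M hM => ?_⟩, hRS⟩, fun M ⟨hM, hRM⟩ => ?_⟩
    · exact (hall M (hRS.trans hM.le)).resolve_left hM.not_ge
    · exact (hM.le_iff_eq hSne).1 ((hall M hRM).resolve_right hM.1) |>.symm

theorem result (n : ℕ) (hn : 5 ≤ n) (h6 : n ≠ 6) :
    ((∀ R : Sylow 2 ↥(alternatingGroup (Fin n)), (∃! M : Subgroup ↥(alternatingGroup (Fin n)), IsCoatom M ∧ (R : Subgroup ↥(alternatingGroup (Fin n))) ≤ M) ↔ ∃ k : ℕ, 2 ≤ k ∧ n = 2 ^ k + 1) ∧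
    (∀ R : Sylow 2 (Equiv.Perm (Fin n)), (∃! M : Subgroup (Equiv.Perm (Fin n)), IsCoatom M ∧ (R : Subgroup (Equiv.Perm (Fin n))) ≤ M) ↔ ∃ k : ℕ, 2 ≤ k ∧ n = 2 ^ k + 1)) := by
  refine ⟨fun R => ?_, fun R => ?_⟩
  · simpa using main (alternatingGroup (Fin n)).subtype Subtype.val_injective (by simp)
      (by simpa) (by simpa) R
  · simpa using main (MonoidHom.id _) Function.injective_id (fun g _ => ⟨g, rfl⟩) (by simpa)
      (by simpa) R

end Cfsg.Agent.S2245
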