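import Cfsg.Statements.S2249
import Cfsg.Agent.H85.NRank
import Cfsg.Agent.H85.OrthSyl

set_option autoImplicit false
open Cfsg

namespace Cfsg.Agent.S2249

open H85 Matrix

theorem gl2 {F : Type*} [Field F] [Fintype F] (hq : Fintype.card F % 4 = 3) (m : ℕ)
    (S : Sylow 2 (GL (Fin (2 * m)) F)) : NR m S := by
  classical
  have h1 := Fintype.one_lt_card (α := F)
  have hF : Odd (Fintype.card F) := Nat.odd_iff.2 (by omega)
  have h2 := two_ne_zero_of_odd hF
  have hne : (-1 : GL (Fin 2) F) ≠ 1 := fun h => h2 (by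
    have := congrArg (fun x : GL (Fin 2) F => (x : Matrix (Fin 2) (Fin 2) F) 0 0) h
    simp at this
    linear_combination -this)
  have hinv : ∀ x : GL (Fin 2) F, x ^ 2 = 1 → GeneralLinearGroup.det x = 1 → x = 1 ∨ x = -1 :=
    fun x hx hd => (two_inv_eq h2 (m := x.1) (by rw [← Units.val_pow_eq_pow_val, hx, Units.val_one])
      (congrArg Units.val hd)).imp Units.ext Units.ext
  obtain ⟨φ, hφ⟩ := emb_singer F (d := 2) (m := 8) one_le_two (by
    obtain ⟨k, hk⟩ : ∃ k, Fintype.card F = 4 * k + 3 := ⟨Fintype.card F / 4, by omega⟩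
    exact ⟨2 * k * k + 3 * k + 1, by rw [hk, Nat.sub_eq_iff_eq_add (Nat.one_le_pow _ _ (by omega))]; ring⟩)
  let g := φ (Multiplicative.ofAdd 1)
  have hg8 : g ^ 2 ^ 3 = 1 := by rw [← map_pow, ← map_one φ]; congr 1
  have hg4 : g ^ 4 ≠ 1 := by
    rw [← map_pow, ← map_one φ, hφ.ne_iff]; decide
  obtain ⟨D, hD⟩ := exists_sylow_mem hg8
  have hdet : ∀ y ∈ (D : Subgroup (GL (Fin 2) F)), GeneralLinearGroup.det y = 1 ∨
      GeneralLinearGroup.det y = -1 := fun y hy => by
    obtain ⟨k, hk⟩ := D.isPGroup' ⟨y, hy⟩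
    have h1 : y ^ 2 ^ k = 1 := congrArg Subtype.val hk
    exact unit_eq_of_two_pow hq k _ (by rw [← map_pow, h1, map_one])
  have hdet2 : GeneralLinearGroup.det (g ^ 2) = 1 := by
    rcases hdet g hD with h | h <;> simp [h]
  have hg : g ^ 4 = -1 := (hinv _ (by rw [← pow_mul]; exact hg8) (by
    rw [show 4 = 2 * 2 from rfl, pow_mul, map_pow, hdet2, one_pow])).resolve_left hg4
  obtain ⟨w, -, -⟩ := exists_glWD (Fin 2) (Fin m) F (n := 2 * m) (by simp)
  obtain ⟨T⟩ : Nonempty (Sylow 2 (Equiv.Perm (Fin m))) := inferInstance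
  have key := w.nr_W T (hg ▸ pow_mem hD 4) (orderOf_eq_prime neg_one_sq hne) (fun y _ => by simp) hD
    (fun h => hg4 (by rw [show 4 = 2 * 2 from rfl, pow_mul, h, one_pow])) fun x hx h3 hx2 => by
      rcases hdet x hx with h | h
      · rcases hinv x hx2 h with h | h
        · rw [h]; exact one_mem _
        · rw [h]; exact Subgroup.mem_zpowers _
      exfalso
      have hxx : x * x = 1 := by rw [← pow_two, hx2]
      have h4 : g ^ 2 * x = x * g ^ 2 := by
        rcases hinv _ (h3 g hD) (by simp [h]) with h5 | h5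
        · have : g * x = x * g := by
            rw [← mul_inv_eq_iff_eq_mul, ← mul_left_inj x, h5, hxx]
          exact (Commute.pow_left this 2).eq
        · have : g * x = -(x * g) := by
            rw [← neg_mul, ← mul_inv_eq_iff_eq_mul, ← mul_left_inj x, h5, neg_mul, hxx]
          rw [pow_two, mul_assoc, this, mul_neg, ← mul_assoc, this, neg_mul, neg_neg, mul_assoc]
      have h5 : (g ^ 2 * x) ^ 2 = -1 := by
        rw [Commute.mul_pow h4, hx2, mul_one, ← pow_mul, hg]
      have h6 : GeneralLinearGroup.det (g ^ 2 * x) = -1 := by rw [map_mul, hdet2, h, one_mul]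
      exact (FiniteField.isSquare_neg_one_iff (F := F)).1
        (isSquare_of_sq_eq_neg h2 (m := (g ^ 2 * x).1) (congrArg Units.val h5)
          (congrArg Units.val h6)) hq
  have hcard : Nat.card D = 2 ^ (padicValNat 2 (Fintype.card F ^ 2 - 1) + 1) := by
    rw [D.card_eq_multiplicity, factorization_card_gl]
    have := val2_gl_three_mod hq 1
    simp only [mul_one, one_mul, Nat.factorial_one, padicValNat_one_right, add_zero] at this
    exact congrArg _ this
  obtain ⟨e⟩ := (Emb.subtype (w.W D T)).sylow_equiv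
    (by rw [WD.card_W, hcard, card_sylow_perm, ← pow_mul, ← pow_add]) (by
      rw [factorization_card_gl, val2_gl_three_mod hq, Fintype.card_fin, mul_comm]) S
  rw [Fintype.card_fin] at key
  exact key.of_equiv e

/-- The normal 2-rank of the general linear group over a finite field of odd order q: for n ≥ 1 and S a Sylow 2-subgroup of GL_n(F), the largest rank of an elementary abelian subgroup of S that is normal in S equals n when q ≡ 1 (mod 4) and ⌊(n + 1)/2⌋ when q ≡ 3 (mod 4). -/
theorem result {F : Type*} [Field F] [Fintype F] {q : ℕ} (hF : Fintype.card F = q) (hodd : Odd q) (n : ℕ) (hn : 1 ≤ n) (S : Sylow 2 (Matrix.GeneralLinearGroup (Fin n) F)) :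
    (q % 4 = 1 → ((∃ E : Subgroup ↥(S : Subgroup (Matrix.GeneralLinearGroup (Fin n) F)), E.Normal ∧ Cfsg.IsElementaryAbelian 2 E ∧ 2 ^ (n) ≤ Nat.card ↥E) ∧
      ∀ E : Subgroup ↥(S : Subgroup (Matrix.GeneralLinearGroup (Fin n) F)), E.Normal → Cfsg.IsElementaryAbelian 2 E → Nat.card ↥E ≤ 2 ^ (n))) ∧
    (q % 4 = 3 → ((∃ E : Subgroup ↥(S : Subgroup (Matrix.GeneralLinearGroup (Fin n) F)), E.Normal ∧ Cfsg.IsElementaryAbelian 2 E ∧ 2 ^ ((n + 1) / 2) ≤ Nat.card ↥E) ∧
      ∀ E : Subgroup ↥(S : Subgroup (Matrix.GeneralLinearGroup (Fin n) F)), E.Normal → Cfsg.IsElementaryAbelian 2 E → Nat.card ↥E ≤ 2 ^ ((n + 1) / 2))) := by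
  classical
  subst hF
  have h1 := Fintype.one_lt_card (α := F)
  have h2 := two_ne_zero_of_odd hodd
  refine ⟨fun hq => ?_, fun hq => ?_⟩
  · obtain ⟨w0, -, -⟩ := exists_glWD (Fin 1) (Fin n) F (n := n) (by simp)
    have hinj : Function.Injective (GeneralLinearGroup.scalar (Fin 1) : Fˣ →* GL (Fin 1) F) := by
      intro a b h
      have := congrArg GeneralLinearGroup.det h
      simpa using this
    let w := w0.pull _ hinj
    obtain ⟨u, hu⟩ : IsSquare (-1 : F) := FiniteField.isSquare_neg_one_iff.2 (by omega)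
    have hu0 : u ≠ 0 := by rintro rfl; simp at hu
    let υ : Fˣ := Units.mk0 u hu0
    have hυ : υ ^ 2 = -1 := Units.ext (by rw [pow_two]; exact hu.symm)
    have hne : (-1 : Fˣ) ≠ 1 := fun h => h2 (by
      have := congrArg Units.val h
      simp only [Units.val_neg, Units.val_one] at this
      linear_combination -this)
    obtain ⟨C, hC⟩ := exists_sylow_mem (p := 2) (g := υ) (k := 2) (by
      rw [pow_two 2, pow_mul, hυ, neg_one_sq])
    obtain ⟨T⟩ : Nonempty (Sylow 2 (Equiv.Perm (Fin n))) := inferInstance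
    have key := w.nr_W T (hυ ▸ pow_mem hC 2) (orderOf_eq_prime neg_one_sq hne)
      (fun y _ => mul_comm _ _) hC (hυ ▸ hne) fun x _ _ hx => by
        rcases sq_eq_one_iff.1 (show (x : F) ^ 2 = 1 from congrArg Units.val hx) with h | h
        · rw [show x = 1 from Units.ext h]; exact one_mem _
        · rw [show x = -1 from Units.ext h]; exact Subgroup.mem_zpowers _
    obtain ⟨e⟩ := (Emb.subtype (w.W C T)).sylow_equiv
      (by rw [WD.card_W, C.card_eq_multiplicity, card_sylow_perm, ← pow_mul, ← pow_add]) (by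
        rw [factorization_card_gl, val2_gl_one_mod h1 hq, Fintype.card_fin, mul_comm,
          Nat.card_units, Nat.card_eq_fintype_card, Nat.factorization_def _ Nat.prime_two]) S
    rw [Fintype.card_fin] at key
    exact key.of_equiv e
  · obtain ⟨m, rfl | rfl⟩ := Nat.even_or_odd' n
    · rw [show (2 * m + 1) / 2 = m by omega]
      exact gl2 hq m S
    · rw [show (2 * m + 1 + 1) / 2 = m + 1 by omega]
      obtain ⟨R⟩ : Nonempty (Sylow 2 (GL (Fin (2 * m)) F)) := inferInstance
      obtain ⟨e⟩ := (((Emb.subtype (R : Subgroup (GL (Fin (2 * m)) F))).prod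
        (emb_singer F (d := 1) (m := 2) le_rfl (by rw [pow_one]; omega))).trans
        (emb_gl_add F _ _ _ rfl)).sylow_equiv 
        (a := (Nat.card (GL (Fin (2 * m)) F)).factorization 2 + 1) (by
          rw [Nat.card_prod, R.card_eq_multiplicity, pow_succ]; simp) (by
          rw [factorization_card_gl, factorization_card_gl, val2_gl_succ h1 hodd,
            val2_pow_three_mod hq (odd_two_mul_add_one m)]) S
      exact ((gl2 hq m R).prod nr_two).of_equiv e

end Cfsg.Agent.S2249
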