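import Cfsg.Statements.S2250
import Cfsg.Agent.H85.NRank
import Cfsg.Agent.H85.OrthSyl

set_option autoImplicit false
open Cfsg

namespace Cfsg.Agent.S2250

open H85 Matrix

/-- The normal 2-rank of the symplectic group over a finite field of odd order: for n ≥ 1 and S a Sylow 2-subgroup of Sp_{2n}(F), the largest rank of an elementary abelian subgroup of S that is normal in S equals n. -/
theorem result {F : Type*} [Field F] [Fintype F] (hF : Odd (Fintype.card F)) (n : ℕ) (hn : 1 ≤ n) (S : Sylow 2 ↥(Matrix.symplecticGroup (Fin n) F)) :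
    ((∃ E : Subgroup ↥(S : Subgroup ↥(Matrix.symplecticGroup (Fin n) F)), E.Normal ∧ Cfsg.IsElementaryAbelian 2 E ∧ 2 ^ (n) ≤ Nat.card ↥E) ∧
      ∀ E : Subgroup ↥(S : Subgroup ↥(Matrix.symplecticGroup (Fin n) F)), E.Normal → Cfsg.IsElementaryAbelian 2 E → Nat.card ↥E ≤ 2 ^ (n)) := by
  classical
  have h1 := Fintype.one_lt_card (α := F)
  have h2 := two_ne_zero_of_odd hF
  let d : SpecialLinearGroup (Fin 2) F := ⟨!![0, -1; 1, 0], by simp [det_fin_two]⟩
  have hd : d ^ 2 = -1 := Subtype.ext (by
    rw [pow_two]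
    change (!![0, -1; 1, 0] : Matrix (Fin 2) (Fin 2) F) * !![0, -1; 1, 0] = -1
    ext i j; fin_cases i <;> fin_cases j <;> simp)
  have hne : (-1 : SpecialLinearGroup (Fin 2) F) ≠ 1 := fun h => h2 (by
    have := congrFun (congrFun (congrArg Subtype.val h) 0) 0
    simp at this
    linear_combination -this)
  obtain ⟨D, hD⟩ := exists_sylow_mem (p := 2) (g := d) (k := 2) (by
    rw [pow_two 2, pow_mul, hd, neg_one_sq])
  obtain ⟨T⟩ : Nonempty (Sylow 2 (Equiv.Perm (Fin n))) := inferInstance
  have key := (spWD (Fin n) F).nr_W T (hd ▸ pow_mem hD 2)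
    (orderOf_eq_prime neg_one_sq hne) (fun y _ => by simp) hD (hd ▸ hne) fun x _ _ hx => by
      rcases two_inv_eq h2 (congrArg Subtype.val hx) x.2 with h | h
      · rw [show x = 1 from Subtype.ext h]; exact one_mem _
      · rw [show x = -1 from Subtype.ext h]; exact Subgroup.mem_zpowers _
  obtain ⟨e⟩ := (Emb.subtype ((spWD (Fin n) F).W D T)).sylow_equiv
    (by rw [WD.card_W, card_sylow_sl2 hF, card_sylow_perm, ← pow_mul, ← pow_add]) (by
      rw [S0245.result rfl, Nat.factorization_def _ Nat.prime_two, padicValNat.mul (by positivity)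
        (Finset.prod_ne_zero_iff.2 fun i _ => pow_sub_one_ne_zero h1 (by omega)),
        val2_eq_zero hF.pow, val2_prod_even h1 hF, Fintype.card_fin, zero_add, mul_comm]) S
  rw [Fintype.card_fin] at key
  exact key.of_equiv e

end Cfsg.Agent.S2250
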