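import Cfsg.Statements.S2251
import Cfsg.Agent.H13.SzSub2

set_option autoImplicit false
open Cfsg

namespace Cfsg.Agent.S2251

open Cfsg.Agent.H13
set_option linter.style.haveILetI false

/-- The subgroups of the Suzuki group: with q = 2^(2m+1), m ≥ 1, r = 2^m and the group realised as the stabiliser in SL₄ of the Suzuki–Tits ovoid, every proper subgroup is contained in the normalizer of a Sylow 2-subgroup, or in the normalizer of a cyclic subgroup of order q − 1, q + 2r + 1 or q − 2r + 1, or in a subgroup isomorphic to a smaller Suzuki group Sz(s) with s = 2^(2k+1) ≥ 8 and 2k+1 a proper divisor of 2m+1. -/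
theorem result {F : Type*} [Field F] [Fintype F] {m : ℕ} (hm : 1 ≤ m) (hF : Fintype.card F = 2 ^ (2 * m + 1)) (M : Subgroup ↥(Cfsg.Sz F m)) (hM : M ≠ ⊤) :
    (∃ P : Sylow 2 ↥(Cfsg.Sz F m), M ≤ Subgroup.normalizer ((P : Subgroup ↥(Cfsg.Sz F m)) : Set ↥(Cfsg.Sz F m))) ∨
    (∃ U : Subgroup ↥(Cfsg.Sz F m), IsCyclic ↥U ∧ Nat.card ↥U ∈ ({2 ^ (2 * m + 1) - 1, 2 ^ (2 * m + 1) + 2 ^ (m + 1) + 1, 2 ^ (2 * m + 1) - 2 ^ (m + 1) + 1} : Set ℕ) ∧
      M ≤ Subgroup.normalizer (U : Set ↥(Cfsg.Sz F m))) ∨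
    (∃ (K : Type) (_ : Field K) (_ : Fintype K) (k : ℕ), 1 ≤ k ∧ k < m ∧ Fintype.card K = 2 ^ (2 * k + 1) ∧ 2 * k + 1 ∣ 2 * m + 1 ∧
      ∃ S : Subgroup ↥(Cfsg.Sz F m), Nonempty (↥S ≃* ↥(Cfsg.Sz K k)) ∧ M ≤ S) := by
  letI := titsOfCard hF
  have Q := par_of_card hm hF
  set N := ovoidModel (titsOfCard_θ hF) Q.hy
  have hB : (∃ g, M ≤ (N.conj g).B) → ∃ P : Sylow 2 ↥(Cfsg.Sz F m), M ≤ Subgroup.normalizer ((P : Subgroup ↥(Cfsg.Sz F m)) : Set ↥(Cfsg.Sz F m)) := by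
    rintro ⟨g, hg⟩
    exact ⟨(N.conj g).sylowU, by rw [← (N.conj g).normalizer_U] at hg; exact hg⟩
  rcases N.solvable_or_isSub Q M with h | h | ⟨g, L, hL, h⟩
  · exact Or.inl (hB h)
  · rcases N.le_of_solvable Q M with h | ⟨A, -, h1, h2, h3, -⟩
    · exact Or.inl (hB h)
    · exact Or.inr (Or.inl ⟨A, h1, h2, h3⟩)
  · obtain ⟨k, hk, hc, hd⟩ := exists_par_subfield Q L hL
    haveI : Fact (Nat.Prime 2) := ⟨Nat.prime_two⟩
    letI := Fintype.ofFinite (GaloisField 2 (2 * k + 1))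
    have hK : Fintype.card (GaloisField 2 (2 * k + 1)) = 2 ^ (2 * k + 1) := by
      rw [← Nat.card_eq_fintype_card, GaloisField.card 2 _ (by omega)]
    letI := titsOfCard hK
    have QK := par_of_card hk hK
    obtain ⟨f, hf⟩ := exists_ringHom_range (K := GaloisField 2 (2 * k + 1)) L (by rw [hc, QK.card])
    have e := h.eq_range (ovoidModel (titsOfCard_θ hK) QK.hy) (QK.compat Q f) hf
    refine Or.inr (Or.inr ⟨GaloisField 2 (2 * k + 1), inferInstance, inferInstance, k, hk, ?_, hK, hd,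
      M, ⟨?_⟩, le_rfl⟩)
    · by_contra hkm
      have := Nat.le_of_dvd (by omega) hd
      obtain rfl : k = m := by omega
      have hL : L = ⊤ := subfield_eq_of_card (by rw [hc, ← Q.card]; simp)
      subst hL
      exact hM ((N.conj g).eq_top_of_mem M (fun a b => (h.u_mem a b).2 ⟨trivial, trivial⟩)
        (fun s => (h.h_mem s).2 trivial) h.w_mem)
    · rw [e]
      exact (MonoidHom.ofInjective ((N.conj g).embed_injective _ _)).symm

end Cfsg.Agent.S2251
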