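import Cfsg.Statements.S2254
import Cfsg.Agent.H62.NilSym3

set_option autoImplicit false
open Cfsg

namespace Cfsg.Agent.S2254

/-- Let n ≡ 3 (mod 4). Then every nilpotent subgroup of the symmetric group on n letters has order at most 3 times the order of a Sylow 2-subgroup of the symmetric group on n − 3 letters; the bound is attained by a nilpotent subgroup isomorphic to the direct product of such a Sylow 2-subgroup with a cyclic group of order 3; and any two nilpotent subgroups attaining the bound are conjugate. -/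
theorem result  (n : ℕ) (hn : n % 4 = 3)
    (P : Sylow 2 (Equiv.Perm (Fin (n - 3)))) :
    (∀ N : Subgroup (Equiv.Perm (Fin n)), Group.IsNilpotent N → Nat.card N ≤ 3 * Nat.card P) ∧
    (∃ M : Subgroup (Equiv.Perm (Fin n)), Group.IsNilpotent M ∧ Nat.card M = 3 * Nat.card P ∧
      Nonempty (M ≃* (↥(P : Subgroup (Equiv.Perm (Fin (n - 3)))) × Multiplicative (ZMod 3)))) ∧
    (∀ N₁ N₂ : Subgroup (Equiv.Perm (Fin n)), Group.IsNilpotent N₁ → Group.IsNilpotent N₂ →
      Nat.card N₁ = 3 * Nat.card P → Nat.card N₂ = 3 * Nat.card P →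
      ∃ g : Equiv.Perm (Fin n), N₂ = N₁.map (MulAut.conj g).toMonoidHom) := by
  obtain ⟨r, rfl⟩ : ∃ r, n = r + 3 := ⟨n - 3, by omega⟩
  have hP : Nat.card P = H62.NilSym.S r := by rw [H62.NilSym.card_sylow_sym]; simp
  have key := fun (N : Subgroup (Equiv.Perm (Fin (r + 3)))) hN =>
    H62.NilSym.sym_eq N hN (r := r) (by simp) hn
  refine ⟨fun N hN => hP ▸ (key N hN).1, ?_, fun N₁ N₂ n1 n2 c1 c2 => ?_⟩
  · obtain ⟨M, h1, h2, h3, -⟩ := H62.NilSym.exists_ext (r := r) P.isPGroup' (Subgroup.subtype P.toSubgroup)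
      (Subgroup.subtype_injective _)
    exact ⟨M, h1, h2, h3⟩
  · rw [hP] at c1 c2
    exact H62.NilSym.conj_of_max (fun N hN => (key N hN).1) Equiv.Perm.IsThreeCycle
      (fun a b ha hb => Equiv.Perm.isConj_iff_cycleType_eq.2 (ha.cycleType.trans hb.cycleType.symm))
      N₁ N₂ n1 n2 c1 c2 ((key _ n1).2 c1) ((key _ n2).2 c2)

end Cfsg.Agent.S2254
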