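import Cfsg.Statements.S2256
import Cfsg.Agent.H62.NilSym3

set_option autoImplicit false
open Cfsg

namespace Cfsg.Agent.S2256

/-- Let n ≡ 3 (mod 4) with n ≥ 7. Then every nilpotent subgroup of the alternating group on n letters has order at most 3 times the order of a Sylow 2-subgroup of the alternating group on n − 3 letters; the bound is attained by a nilpotent subgroup isomorphic to the direct product of such a Sylow 2-subgroup with a cyclic group of order 3; and any two nilpotent subgroups of the alternating group attaining the bound are conjugate in it. -/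
theorem result  (n : ℕ) (hn : n % 4 = 3) (h7 : 7 ≤ n)
    (P : Sylow 2 (alternatingGroup (Fin (n - 3)))) :
    (∀ N : Subgroup (alternatingGroup (Fin n)), Group.IsNilpotent N → Nat.card N ≤ 3 * Nat.card P) ∧
    (∃ M : Subgroup (alternatingGroup (Fin n)), Group.IsNilpotent M ∧ Nat.card M = 3 * Nat.card P ∧
      Nonempty (M ≃* (↥(P : Subgroup (alternatingGroup (Fin (n - 3)))) × Multiplicative (ZMod 3)))) ∧
    (∀ N₁ N₂ : Subgroup (alternatingGroup (Fin n)), Group.IsNilpotent N₁ → Group.IsNilpotent N₂ →
      Nat.card N₁ = 3 * Nat.card P → Nat.card N₂ = 3 * Nat.card P →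
      ∃ g : alternatingGroup (Fin n), N₂ = N₁.map (MulAut.conj g).toMonoidHom) := by
  obtain ⟨r, rfl⟩ : ∃ r, n = r + 3 := ⟨n - 3, by omega⟩
  have hP : 2 * Nat.card P = H62.NilSym.S r := by
    rw [H62.NilSym.card_sylow_alt (by simp; omega)]; simp
  have key : ∀ N : Subgroup (alternatingGroup (Fin (r + 3))), Group.IsNilpotent N →
      Nat.card N ≤ 3 * Nat.card P ∧ (Nat.card N = 3 * Nat.card P →
        ∀ g ∈ N, Odd (orderOf g) → g ≠ 1 → (g : Equiv.Perm (Fin (r + 3))).IsThreeCycle) := by
    intro N hN
    have h3 := H62.NilSym.alt_eq (N.map (alternatingGroup (Fin (r + 3))).subtype)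
      (Group.nilpotent_of_mulEquiv (N.equivMapOfInjective _ (alternatingGroup (Fin (r + 3))).subtype_injective))
      (Subgroup.map_subtype_le _) (r := r) (by simp) hn (by omega)
    rw [Subgroup.card_map_of_injective (alternatingGroup (Fin (r + 3))).subtype_injective] at h3
    exact ⟨by omega, fun h g hg ho h1 => h3.2 (by omega) g ⟨g, hg, rfl⟩ (by rwa [Subgroup.orderOf_coe])
      (by simpa using h1)⟩
  refine ⟨fun N hN => (key N hN).1, ?_, fun N₁ N₂ n1 n2 c1 c2 => ?_⟩
  · obtain ⟨M, h1, h2, ⟨h3⟩, h4⟩ := H62.NilSym.exists_ext (r := r) P.isPGroup'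
      ((alternatingGroup _).subtype.comp (Subgroup.subtype P.toSubgroup))
      (Subtype.val_injective.comp Subtype.val_injective)
    have e := Subgroup.subgroupOfEquivOfLe (h4 fun k => k.1.2)
    exact ⟨M.subgroupOf _, Group.nilpotent_of_mulEquiv e.symm, (Nat.card_congr e.toEquiv).trans h2, ⟨e.trans h3⟩⟩
  · obtain ⟨k, hk⟩ := IsPGroup.iff_card.1 P.isPGroup'
    rw [hk] at key c1 c2
    exact H62.NilSym.conj_of_max (fun N hN => (key N hN).1)
      (fun g : alternatingGroup (Fin (r + 3)) => (g : Equiv.Perm (Fin (r + 3))).IsThreeCycle)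
      (fun a b ha hb => alternatingGroup.isThreeCycle_isConj (by simp; omega) ha hb)
      N₁ N₂ n1 n2 c1 c2 ((key _ n1).2 c1) ((key _ n2).2 c2)

end Cfsg.Agent.S2256
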