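import Cfsg.Statements.S2259
import Cfsg.Agent.H13.SzClass

set_option autoImplicit false
open Cfsg

namespace Cfsg.Agent.S2259

open Cfsg.Agent.H13
set_option linter.style.haveILetI false

section
variable {G F : Type*} [Group G] [Field F] [Tits F] (M : Model G F) [Finite F] {m : ℕ} (Q : Par F m)

def Sol (x : G) : Set G := {y | Group.IsSolvable (Subgroup.closure ({x, y} : Set G))}

include Q

theorem mem_sol {x y : G} : y ∈ Sol x ↔ (∃ g, x ∈ (M.conj g).B ∧ y ∈ (M.conj g).B) ∨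
    ∃ A : Subgroup G, Part m A ∧ x ∈ Subgroup.normalizer (A : Set G) ∧ y ∈ Subgroup.normalizer (A : Set G) := by
  have h1 : x ∈ Subgroup.closure ({x, y} : Set G) := Subgroup.subset_closure (by simp)
  have h2 : y ∈ Subgroup.closure ({x, y} : Set G) := Subgroup.subset_closure (by simp)
  constructor
  · intro h
    haveI : Group.IsSolvable (Subgroup.closure ({x, y} : Set G)) := h
    rcases M.le_of_solvable Q (Subgroup.closure ({x, y} : Set G)) with ⟨g, h⟩ | ⟨A, a, b, c, h, -⟩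
    · exact Or.inl ⟨g, h h1, h h2⟩
    · exact Or.inr ⟨A, ⟨a, b, c⟩, h h1, h h2⟩
  · rintro (⟨g, a, b⟩ | ⟨A, hA, a, b⟩)
    · exact isSolvable_of_le ((Subgroup.closure_le _).2 (Set.pair_subset a b)) (M.conj g).isSolvable_B
    · exact isSolvable_of_le ((Subgroup.closure_le _).2 (Set.pair_subset a b))
        (M.isSolvable_normalizer Q hA.2.1 hA.2.2)

include M in
theorem sol_two {x : G} (hx : x ∈ M.U) (hx1 : x ≠ 1) {A1 A2 A3 : Subgroup G} (p1 : Part m A1)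
    (p2 : Part m A2) (p3 : Part m A3) (c1 : Nat.card A1 = 2 ^ (2 * m + 1) - 1)
    (c2 : Nat.card A2 = np m) (c3 : Nat.card A3 = nm m) :
    (Sol x).ncard = Nat.card M.B + (nbr A1 x).ncard + (nbr A2 x).ncard + (nbr A3 x).ncard := by
  haveI := M.finite
  have hn : ∀ A y, Part m A → y ∈ nbr A x → ∃ A' : Subgroup G, Part m A' ∧ Nat.card A' = Nat.card A ∧
      x ∈ Subgroup.normalizer (A' : Set G) ∧ y ∈ Subgroup.normalizer (A' : Set G) ∧
      x * y * x⁻¹ * y⁻¹ ∈ A' ∧ x * y * x⁻¹ * y⁻¹ ≠ 1 := by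
    rintro A y hA ⟨h1, g, h2, h3⟩
    have h4 := mem_normalizer_map_conj.2 h2
    have h5 := mem_normalizer_map_conj.2 h3
    exact ⟨_, hA.conj g, card_map_conj _ _, h4, h5,
      (hA.conj g).1.comm_mem (hA.conj g).2.1 ((hA.conj g).ne_bot Q) h4 h5, fun h => h1 (by
        rw [mul_inv_eq_one, mul_inv_eq_iff_eq_mul] at h; exact h.symm)⟩
  have d1 : ∀ A, Part m A → Disjoint (M.B : Set G) (nbr A x) := by
    intro A hA
    rw [Set.disjoint_left]
    intro y hy hy2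
    obtain ⟨A', h1, -, -, -, h2, h3⟩ := hn A y hA hy2
    apply h3 (h1.eq_one Q h2 _)
    obtain ⟨a, b, e⟩ := M.U.mul_mem hx (M.conj_mem_U hy (M.U.inv_mem hx))
    rw [← M.u_pow_four a b, ← e]; congr 1; group
  have d2 : ∀ A A', Part m A → Part m A' → Nat.card A ≠ Nat.card A' →
      Disjoint (nbr A x) (nbr A' x) := by
    intro A A' hA hA' hc
    rw [Set.disjoint_left]
    intro y hy hy2
    obtain ⟨B, h1, e, -, -, h2, h3⟩ := hn A y hA hy
    obtain ⟨B', h1', e', -, -, h2', -⟩ := hn A' y hA' hy2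
    exact hc (by rw [← e, ← e', h1.1.eq_of_mem h1'.1 h2 h2' h3])
  have e : Sol x = (M.B : Set G) ∪ nbr A1 x ∪ nbr A2 x ∪ nbr A3 x := by
    ext y
    rw [mem_sol M Q]
    constructor
    · rintro (⟨g, h1, h2⟩ | ⟨A, hA, h1, h2⟩)
      · rw [Model.conj_B, mem_map_conj] at h1
        have := M.mem_B_of_conj_mem_B (g := g⁻¹) hx hx1 (by simpa using h1)
        rw [Model.B_eq_of_U_eq (M.conj_U_of_mem_B ((Subgroup.inv_mem_iff _).1 this))] at h2
        simp [h2]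
      by_cases hc : y * x = x * y
      · simp [M.U_le_B (M.mem_U_of_commute hx hx1 hc)]
      have key : ∀ A', Part m A' → Nat.card A = Nat.card A' → y ∈ nbr A' x := by
        intro A' hA' hc'
        obtain ⟨k, rfl⟩ := M.exists_conj_of_cyclic Q hA'.1 hA'.2.2 hA.2.1 hc'
        exact ⟨hc, k, mem_normalizer_map_conj.1 h1, mem_normalizer_map_conj.1 h2⟩
      rcases hA.2.2 with h | h | h
      · simp [key A1 p1 (h.trans c1.symm)]
      · simp [key A2 p2 (h.trans c2.symm)]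
      · simp [key A3 p3 (h.trans c3.symm)]
    · have key : ∀ A, Part m A → y ∈ nbr A x → ∃ A : Subgroup G, Part m A ∧ x ∈ Subgroup.normalizer (A : Set G) ∧
          y ∈ Subgroup.normalizer (A : Set G) := by
        intro A hA hy
        obtain ⟨A', h1, -, h2, h3, -⟩ := hn A y hA hy
        exact ⟨A', h1, h2, h3⟩
      rintro (((h | h) | h) | h)
      · exact Or.inl ⟨1, by rw [conj_one_B]; exact ⟨M.U_le_B hx, h⟩⟩
      · exact Or.inr (key _ p1 h)
      · exact Or.inr (key _ p2 h)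
      · exact Or.inr (key _ p3 h)
  have := seven_le Q
  have := five_le_nm Q.hm
  have := nm_lt_np m
  have n1 : 2 ^ (2 * m + 1) - 1 ≠ np m := fun h => by
    have h2 := Model.coprime_H_np Q
    rw [h, Nat.coprime_self] at h2; omega
  have n2 : 2 ^ (2 * m + 1) - 1 ≠ nm m := fun h => by
    have h2 := Model.coprime_H_nm Q
    rw [h, Nat.coprime_self] at h2; omega
  rw [e, Set.ncard_union_eq, Set.ncard_union_eq, Set.ncard_union_eq, ← Nat.card_coe_set_eq]
  · rfl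
  · exact d1 _ p1
  · exact Set.disjoint_union_left.2 ⟨d1 _ p2, d2 _ _ p1 p2 (by rwa [c1, c2])⟩
  · exact Set.disjoint_union_left.2 ⟨Set.disjoint_union_left.2 ⟨d1 _ p3, d2 _ _ p1 p3 (by rwa [c1, c3])⟩,
      d2 _ _ p2 p3 (by omega)⟩

include M in
theorem nbr_torus {x : G} (hx : orderOf x = 2 ∨ orderOf x = 4) {n : ℕ} (hn : n = np m ∨ n = nm m) :
    ∃ A, Part m A ∧ Nat.card A = n ∧
      (nbr A x).ncard = Nat.card (Subgroup.centralizer {x}) * (n - 1) := by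
  haveI := M.finite
  have h4 : x ^ 4 = 1 := orderOf_dvd_iff_pow_eq_one.1 (by rcases hx with h | h <;> rw [h]; norm_num)
  have h1 : x ≠ 1 := by rintro rfl; simp at hx
  obtain ⟨A, y, c, T, j, hj⟩ : ∃ A y c, Model.IsTorus m n A y c ∧ ∃ j : Fin 4, x = c ^ (j : ℕ) := by
    obtain ⟨A, b, c, T⟩ := M.exists_torus Q hn
    have hc := T.c_pow_four hn
    rcases hx with h | h
    · obtain ⟨g, hg⟩ := M.exists_conj_inv h1 (h ▸ pow_orderOf_eq_one x) (y := c ^ 2)
        (fun h => T.c_pow_not_mem (i := 2) (by omega) (by omega) (h ▸ A.one_mem))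
        (by rw [← pow_mul]; exact hc)
      exact ⟨_, _, _, T.conj_by g, 2, by rw [hg, conj_pow]; rfl⟩
    · obtain ⟨g, hg | hg⟩ := M.conj_or_conj_inv Q h (T.orderOf_c hn)
      · exact ⟨_, _, _, T.conj_by g, 1, by simpa using hg⟩
      · refine ⟨_, _, _, T.conj_by g, 3, ?_⟩
        rw [hg, conj_pow, inv_eq_of_mul_eq_one_right (a := c) (b := c ^ 3) (by rw [← hc]; group)]; rfl
  have p := part_T hn T
  refine ⟨A, p, T.card, ?_⟩
  have hxA : x ∉ A := fun h => h1 (p.eq_one Q h h4)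
  have hc := T.c_pow_four hn
  rw [← T.card]
  refine T.isCC.ncard_nbr T.isCyclic (p.ne_bot Q) (hj ▸ Subgroup.pow_mem _ T.c_mem _) hxA ?_
  intro g hg
  obtain ⟨i, a, ha, e⟩ := T.mem_normalizer_iff.1 hg
  suffices h : x = c ^ (i : ℕ) by rw [e, ← h]; simpa using ha
  have hi : c ^ (i : ℕ) ∉ A := fun h => h1 (inv_conj_eq_one
    (p.eq_one Q (e ▸ A.mul_mem h ha) (by rw [inv_conj_pow, h4]; simp)))
  obtain ⟨b, hb, e2⟩ := T.isCC.exists_conj (Subgroup.pow_mem _ T.c_mem _) hi ha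
  have e3 : (b⁻¹ * g⁻¹) * x * (b⁻¹ * g⁻¹)⁻¹ = c ^ (i : ℕ) := by
    calc _ = b⁻¹ * (g⁻¹ * x * g) * b := by group
      _ = _ := by rw [e, ← e2]; group
  have ho : orderOf (c ^ (j : ℕ)) = orderOf (c ^ (i : ℕ)) := by
    rw [← e3, ← hj]; exact (orderOf_conj' _ _).symm
  have hinv : ∀ k, k * c * k⁻¹ ≠ c ^ 3 := fun k => by
    rw [← inv_eq_of_mul_eq_one_right (a := c) (b := c ^ 3) (by rw [← hc]; group)]
    exact M.not_conj_inv' (T.orderOf_c hn) k
  rw [orderOf_pow, orderOf_pow, T.orderOf_c hn] at ho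
  rw [hj] at e3 ⊢
  fin_cases i <;> fin_cases j <;> simp at ho e3 ⊢
  · refine absurd ?_ (hinv (g * b))
    generalize c ^ 3 = d at e3
    rw [← e3]; group
  · exact absurd (by rw [← e3]; group) (hinv (b⁻¹ * g⁻¹))

include M in
theorem sol_cc {x : G} (hx1 : x ≠ 1) {n : ℕ} (hn : n = np m ∨ n = nm m) (hx : orderOf x ∣ n) :
    (Sol x).ncard = 4 * n := by
  haveI := M.finite
  obtain ⟨A, y, c, T, hxA⟩ : ∃ A y c, Model.IsTorus m n A y c ∧ x ∈ A := by
    obtain ⟨A, b, c, T⟩ := M.exists_torus Q hn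
    obtain ⟨p, hp, hd⟩ := Nat.exists_prime_and_dvd (mt orderOf_eq_one_iff.1 hx1)
    obtain ⟨k, hk⟩ := M.exists_conj_mem_cc Q T.isCC (part_T hn T).2.2 hp (T.card ▸ hd.trans hx) hd
    exact ⟨_, _, _, T.conj_by k⁻¹, mem_map_conj.2 (by simpa using hk)⟩
  have p := part_T hn T
  rw [← T.card_normalizer, ← SetLike.coe_sort_coe, Nat.card_coe_set_eq]
  congr 1
  ext z
  rw [mem_sol M Q]
  refine ⟨?_, fun h => Or.inr ⟨A, p, Subgroup.le_normalizer hxA, h⟩⟩
  rintro (⟨g, h, -⟩ | ⟨A', p', h1, h2⟩)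
  · exfalso
    have h2 := (M.conj g).B.orderOf_dvd_natCard h
    rw [Model.card_B, Q.card] at h2
    have h3 : Nat.Coprime n ((2 ^ (2 * m + 1)) ^ 2 * (2 ^ (2 * m + 1) - 1)) := by
      refine Nat.Coprime.mul_right ?_ ?_
      · exact ((odd_of_n hn).coprime_two_right.pow_right _).pow_right _
      · rcases hn with rfl | rfl
        · exact (Model.coprime_H_np Q).symm
        · exact (Model.coprime_H_nm Q).symm
    exact hx1 (orderOf_eq_one_iff.1 (Nat.eq_one_of_dvd_coprimes h3 hx h2))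
  · rwa [p.1.eq_of_mem p'.1 hxA (p'.mem_of_odd M Q h1 ((odd_of_n hn).of_dvd_nat hx)) hx1]

theorem sol_H {x : G} (hx1 : x ≠ 1) (hx : x ∈ M.H) :
    (Sol x).ncard = 2 * Nat.card M.B := by
  haveI := M.finite
  have hB : ∀ g y, y ∈ (M.conj g).B ↔ y • g • M.inf = g • M.inf := by
    intro g y
    rw [Model.conj_B, mem_map_conj, M.mem_B, mul_smul, mul_smul, inv_smul_eq_iff]
  have hw : ∀ y, y ∈ (M.conj M.w).B ↔ y • M.P 0 0 = M.P 0 0 := fun y => by rw [hB, M.w_smul_inf]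
  have e : Sol x = (M.B : Set G) ∪ (M.conj M.w).B ∪ (fun y => M.w * y) '' M.H := by
    ext z
    rw [mem_sol M Q]
    constructor
    · rintro (⟨g, h1, h2⟩ | ⟨A, p, h1, h2⟩)
      · rw [hB] at h1 h2
        rcases M.H_fix hx hx1 h1 with h | h <;> rw [h] at h2
        · simp [M.mem_B.2 h2]
        · simp [(hw z).2 h2]
      · rw [← (part_H M Q).1.eq_of_mem p.1 hx (p.mem_of_odd M Q h1
          (M.odd_card_H.of_dvd_nat (M.H.orderOf_dvd_natCard hx))) hx1] at h2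
        rcases normalizer_H_cases M Q h2 with h | ⟨s, rfl⟩
        · simp [M.H_le_B h]
        · exact Or.inr ⟨_, M.h_mem_H s, rfl⟩
    · rintro ((h | h) | ⟨y, hy, rfl⟩)
      · exact Or.inl ⟨1, by rw [conj_one_B]; exact ⟨M.H_le_B hx, h⟩⟩
      · exact Or.inl ⟨_, (hw x).2 (M.mem_H_iff_fix.1 hx).2, h⟩
      · exact Or.inr ⟨_, part_H M Q, Subgroup.le_normalizer hx,
          Subgroup.mul_mem _ M.w_mem_normalizer_H (Subgroup.le_normalizer hy)⟩
  have h1 := Set.ncard_union_add_ncard_inter (M.B : Set G) (M.conj M.w).B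
  have h2 : (M.B : Set G) ∩ (M.conj M.w).B = M.H := by
    ext y; simp [hw, M.mem_B, M.mem_H_iff_fix]
  have h3 : ((M.conj M.w).B : Set G).ncard = (M.B : Set G).ncard := by
    rw [← Nat.card_coe_set_eq, ← Nat.card_coe_set_eq]
    exact (M.conj M.w).card_B.trans M.card_B.symm
  rw [e, Set.ncard_union_eq, Set.ncard_image_of_injective _ (mul_right_injective _), ← h2, h1, h3,
    two_mul, ← Nat.card_coe_set_eq]
  · rfl
  · rw [Set.disjoint_right]
    rintro _ ⟨y, hy, rfl⟩ (h | h)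
    · exact M.w_not_mem_B (by simpa using M.B.mul_mem h (M.B.inv_mem (M.H_le_B hy)))
    · have := (hw _).1 h
      rw [mul_smul, (M.mem_H_iff_fix.1 hy).2, M.w_smul_zero] at this
      exact M.inf_ne_P _ _ this

include M in
theorem main (x : G) : (orderOf x = 2 → (Sol x).ncard = (2 ^ (2 * m + 1)) ^ 2 * (4 * 2 ^ (2 * m + 1) - 3)) ∧
    (orderOf x = 4 → (Sol x).ncard = (2 ^ (2 * m + 1)) ^ 2 * (2 ^ (2 * m + 1) + 3)) ∧
    (x ≠ 1 → orderOf x ∣ 2 ^ (2 * m + 1) - 1 →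
      (Sol x).ncard = 2 * (2 ^ (2 * m + 1)) ^ 2 * (2 ^ (2 * m + 1) - 1)) ∧
    (x ≠ 1 → orderOf x ∣ np m → (Sol x).ncard = 4 * np m) ∧
    (x ≠ 1 → orderOf x ∣ nm m → (Sol x).ncard = 4 * nm m) := by
  haveI := M.finite
  have h7 := seven_le Q
  have hnm := nm_add m
  have hnp : np m = 2 ^ (2 * m + 1) + 2 ^ (m + 1) + 1 := rfl
  have h5 := five_le_nm Q.hm
  refine ⟨fun h => ?_, fun h => ?_, fun h1 h => ?_, fun h1 h => sol_cc M Q h1 (Or.inl rfl) h,
    fun h1 h => sol_cc M Q h1 (Or.inr rfl) h⟩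
  · have h1 : x ≠ 1 := by rintro rfl; simp at h
    have h2 : x ^ 2 = 1 := h ▸ pow_orderOf_eq_one x
    obtain ⟨g, hg⟩ := M.exists_conj_u01 h1 h2
    obtain ⟨k, hk⟩ := M.exists_conj_inv h1 h2 (y := M.w) (fun h => M.w_not_mem_B (h ▸ M.B.one_mem))
      (by rw [← M.orderOf_w]; exact pow_orderOf_eq_one _)
    rw [← M.conj_u] at hg
    rw [← M.conj_w] at hk
    obtain ⟨A2, p2, c2, e2⟩ := nbr_torus M Q (Or.inl h) (Or.inl rfl)
    obtain ⟨A3, p3, c3, e3⟩ := nbr_torus M Q (Or.inl h) (Or.inr rfl)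
    have p1 := part_H (M.conj k) Q
    have c1 : Nat.card (M.conj k).H = 2 ^ (2 * m + 1) - 1 := by rw [Model.card_H, Q.card]
    have hxA : x ∉ (M.conj k).H := fun h => (M.conj k).w_not_mem_B (hk ▸ (M.conj k).H_le_B h)
    have e1 := p1.1.ncard_nbr p1.2.1 (p1.ne_bot Q) (hk ▸ (M.conj k).w_mem_normalizer_H) hxA (by
      intro z hz
      rcases normalizer_H_cases _ Q hz with h | ⟨s, h⟩
      · exact absurd (inv_conj_eq_one (p1.eq_one Q h (by
          rw [inv_conj_pow, show 4 = 2 * 2 by rfl, pow_mul, h2]; simp))) h1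
      · rw [h, ← hk]; simpa using (M.conj k).h_mem_H s)
    rw [sol_two (M.conj g) Q (hg ▸ (M.conj g).u_mem_U _ _) h1 p1 p2 p3 c1 c2 c3, e1, e2, e3, c1, hg,
      Model.centralizer_u_zero _ one_ne_zero, Model.card_U, Model.card_B, Q.card, ← mul_add,
      ← mul_add, ← mul_add]
    congr 1; omega
  · have h1 : x ≠ 1 := by rintro rfl; simp at h
    obtain ⟨g, a, b, ha, hg⟩ := M.exists_conj_u_of_order_four h
    obtain ⟨A2, p2, c2, e2⟩ := nbr_torus M Q (Or.inr h) (Or.inl rfl)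
    obtain ⟨A3, p3, c3, e3⟩ := nbr_torus M Q (Or.inr h) (Or.inr rfl)
    have p1 := part_H M Q
    have c1 : Nat.card M.H = 2 ^ (2 * m + 1) - 1 := by rw [Model.card_H, Q.card]
    have e1 : nbr M.H x = ∅ := by
      rw [Set.eq_empty_iff_forall_notMem]
      rintro y ⟨-, z, hz, -⟩
      have ho : orderOf (z⁻¹ * x * z) = 4 := by rw [orderOf_conj'', h]
      rcases normalizer_H_cases _ Q hz with h | ⟨s, h⟩
      · rw [p1.eq_one Q h (ho ▸ pow_orderOf_eq_one _)] at ho; simp at ho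
      · have := orderOf_dvd_of_pow_eq_one (wh_sq M s)
        rw [← h, ho] at this; omega
    rw [sol_two (M.conj g) Q (hg ▸ (M.conj g).u_mem_U _ _) h1 p1 p2 p3 c1 c2 c3, e1, e2, e3, hg,
      Model.card_centralizer_u _ ha, Model.card_B, Q.card, Set.ncard_empty, add_zero, add_assoc,
      ← mul_add, show np m - 1 + (nm m - 1) = 2 * 2 ^ (2 * m + 1) by omega]
    obtain ⟨t, ht⟩ : ∃ t, 2 ^ (2 * m + 1) = t + 1 := ⟨2 ^ (2 * m + 1) - 1, by omega⟩
    rw [ht]; simp; ring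
  · obtain ⟨p, hp, hd⟩ := Nat.exists_prime_and_dvd (mt orderOf_eq_one_iff.1 h1)
    have c1 : Nat.card M.H = 2 ^ (2 * m + 1) - 1 := by rw [Model.card_H, Q.card]
    obtain ⟨k, hk⟩ := M.exists_conj_mem_cc Q M.isCC_H (Or.inl c1) hp (c1 ▸ hd.trans h) hd
    rw [sol_H (M.conj k⁻¹) Q h1 (by rw [Model.conj_H, mem_map_conj]; simpa using hk), Model.card_B,
      Q.card, mul_assoc]

end

/-- Let G be the Suzuki group Sz(q), q = 2^(2m+1) with 2m + 1 prime and m ≥ 1, realised inside Sp_4(F) for F the field of order q, write r = 2^(m+1) (so r² = 2q), and for x ∈ G call the solubilizer of x the set of y ∈ G such that x and y generate a solvable subgroup. Then the solubilizer of an involution has q²(4q − 3) elements; that of an element of order 4 has q²(q + 3) elements; that of a non-identity element of order dividing q − 1 has 2q²(q − 1) elements; that of a non-identity element of order dividing q + r + 1 has 4(q + r +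 1) elements; and that of a non-identity element of order dividing q − r + 1 has 4(q − r + 1) elements. -/
theorem result {F : Type*} [Field F] [Fintype F] {m : ℕ} (hm : 1 ≤ m)
    (hp : (2 * m + 1).Prime) (hF : Fintype.card F = 2 ^ (2 * m + 1)) (x : ↥(Cfsg.Lie.Sz F (2 ^ (m + 1)))) :
    (orderOf x = 2 → Nat.card {y : ↥(Cfsg.Lie.Sz F (2 ^ (m + 1))) // Group.IsSolvable ↥(Subgroup.closure ({x, y} : Set (↥(Cfsg.Lie.Sz F (2 ^ (m + 1))))))} = (2 ^ (2 * m + 1)) ^ 2 * (4 * 2 ^ (2 * m + 1) - 3)) ∧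
    (orderOf x = 4 → Nat.card {y : ↥(Cfsg.Lie.Sz F (2 ^ (m + 1))) // Group.IsSolvable ↥(Subgroup.closure ({x, y} : Set (↥(Cfsg.Lie.Sz F (2 ^ (m + 1))))))} = (2 ^ (2 * m + 1)) ^ 2 * (2 ^ (2 * m + 1) + 3)) ∧
    (x ≠ 1 → orderOf x ∣ 2 ^ (2 * m + 1) - 1 →
      Nat.card {y : ↥(Cfsg.Lie.Sz F (2 ^ (m + 1))) // Group.IsSolvable ↥(Subgroup.closure ({x, y} : Set (↥(Cfsg.Lie.Sz F (2 ^ (m + 1))))))} = 2 * (2 ^ (2 * m + 1)) ^ 2 * (2 ^ (2 * m + 1) - 1)) ∧
    (x ≠ 1 → orderOf x ∣ 2 ^ (2 * m + 1) + 2 ^ (m + 1) + 1 → Nat.card {y : ↥(Cfsg.Lie.Sz F (2 ^ (m + 1))) // Group.IsSolvable ↥(Subgroup.closure ({x, y} : Set (↥(Cfsg.Lie.Sz F (2 ^ (m + 1))))))} = 4 * (2 ^ (2 * m + 1) + 2 ^ (m + 1) + 1)) ∧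
    (x ≠ 1 → orderOf x ∣ 2 ^ (2 * m + 1) - 2 ^ (m + 1) + 1 → Nat.card {y : ↥(Cfsg.Lie.Sz F (2 ^ (m + 1))) // Group.IsSolvable ↥(Subgroup.closure ({x, y} : Set (↥(Cfsg.Lie.Sz F (2 ^ (m + 1))))))} = 4 * (2 ^ (2 * m + 1) - 2 ^ (m + 1) + 1)) := by
  letI := titsOfCard hF
  exact main (lieModel (titsOfCard_θ hF)) (par_of_card hm hF) x

end Cfsg.Agent.S2259
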