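import Cfsg.Statements.S2270
import Cfsg.Agent.H8.KleinSylow
import Mathlib.GroupTheory.Perm.Cycle.Type

set_option autoImplicit false
open Cfsg

namespace Cfsg.Agent.S2270

open Subgroup

/-- A real `p`-element of order greater than two makes the automizer of an abelian Sylow
subgroup even. -/
theorem two_dvd_of_real {G : Type*} [Group G] [Finite G] {p : ℕ} [Fact p.Prime] (P : Sylow p G)
    (hP : IsMulCommutative (P : Subgroup G)) {x : G} {k : ℕ} (hx : x ^ p ^ k = 1)
    (h2 : x * x ≠ 1) (hc : IsConj x x⁻¹) :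
    2 ∣ ((centralizer ((P : Subgroup G) : Set G)).subgroupOf
      (normalizer ((P : Subgroup G) : Set G))).index := by
  obtain ⟨g, hg⟩ := H8.exists_conj_mem_sylow P hx
  obtain ⟨c, hc⟩ := isConj_iff.1 hc
  have e : (g * c⁻¹ * g⁻¹)⁻¹ * (g * x * g⁻¹) * (g * c⁻¹ * g⁻¹) = (g * x * g⁻¹)⁻¹ := by
    rw [conj_inv (b := g) (a := x), ← hc]; group
  obtain ⟨n, hn, h⟩ := P.conj_eq_normalizer_conj_of_mem (g * x * g⁻¹) (g * c⁻¹ * g⁻¹) hg
    (e ▸ (P : Subgroup G).inv_mem hg)
  rw [e] at h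
  have h3 : g * x * g⁻¹ * (g * x * g⁻¹) ≠ 1 := by rwa [conj_mul, Ne, conj_eq_one_iff]
  generalize g * x * g⁻¹ = y at hg h h3
  have hN : ((centralizer ((P : Subgroup G) : Set G)).subgroupOf
      (normalizer ((P : Subgroup G) : Set G))).Normal :=
    normalizerMonoidHom_ker (P : Subgroup G) ▸ MonoidHom.normal_ker _
  have h4 := ((centralizer ((P : Subgroup G) : Set G)).subgroupOf
      (normalizer ((P : Subgroup G) : Set G))).pow_index_mem ⟨n, hn⟩
  by_contra ho
  obtain ⟨m, hm⟩ := Nat.not_even_iff_odd.1 fun h => ho h.two_dvd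
  rw [hm] at h4
  have h5 : y * n ^ (2 * m + 1) = n ^ (2 * m + 1) * y := h4 y hg
  have h6 : y * n = n * y⁻¹ := by rw [h]; group
  have h7 : Commute y (n ^ 2) := by
    have h8 : y⁻¹ * n = n * y := by
      rw [← inv_mul_eq_iff_eq_mul, ← mul_assoc, ← inv_inj, mul_inv_rev, mul_inv_rev, inv_inv,
        inv_inv, h6, h]
      group
    rw [pow_two]
    exact (by rw [← mul_assoc, h6, mul_assoc, h8, mul_assoc] : y * (n * n) = n * n * y)
  rw [pow_succ, pow_mul, ← mul_assoc, (h7.pow_right m).eq, mul_assoc, mul_assoc, mul_right_inj, h6,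
    mul_right_inj, inv_eq_iff_mul_eq_one] at h5
  exact h3 h5

/-- Let n ≥ 3, p an odd prime, and P an abelian Sylow p-subgroup of the symmetric group S_n (with p dividing n!, so that P ≠ 1). Then N(P)/C(P) has even order. -/
theorem result (n : ℕ) (hn : 3 ≤ n) {p : ℕ} [Fact p.Prime] (hp : p ≠ 2) (hpn : p ≤ n)
    (P : Sylow p (Equiv.Perm (Fin n))) (hP : IsMulCommutative (P : Subgroup (Equiv.Perm (Fin n)))) :
    2 ∣ ((Subgroup.centralizer ((P : Subgroup (Equiv.Perm (Fin n))) : Set (Equiv.Perm (Fin n)))).subgroupOf (Subgroup.normalizer ((P : Subgroup (Equiv.Perm (Fin n))) : Set (Equiv.Perm (Fin n))))).index := by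
  have hpr : p.Prime := Fact.out
  obtain ⟨x, hx⟩ := exists_prime_orderOf_dvd_card' (G := Equiv.Perm (Fin n)) p (by
    rw [Nat.card_perm, Nat.card_fin]; exact Nat.dvd_factorial hpr.pos hpn)
  refine two_dvd_of_real P hP (x := x) (k := 1) (by rw [pow_one, ← hx, pow_orderOf_eq_one])
    (fun h => hp ?_) (Equiv.Perm.isConj_iff_cycleType_eq.2 x.cycleType_inv.symm)
  rw [← pow_two, ← orderOf_dvd_iff_pow_eq_one, hx] at h
  exact (Nat.prime_dvd_prime_iff_eq hpr Nat.prime_two).1 h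

end Cfsg.Agent.S2270
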