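import Cfsg.Statements.S2269
import Cfsg.Agent.S2270
import Cfsg.Agent.S0992
import Mathlib.GroupTheory.Transfer
import Mathlib.GroupTheory.SpecificGroups.Alternating.Simple

set_option autoImplicit false
open Cfsg

namespace Cfsg.Agent.S2269

open Subgroup Equiv Equiv.Perm

theorem real_four {n : ℕ} (hn : 6 ≤ n) :
    ∃ x : alternatingGroup (Fin n), x ^ 2 ^ 2 = 1 ∧ x * x ≠ 1 ∧ IsConj x x⁻¹ := by
  classical
  let f := viaEmbeddingHom (Fin.castLEEmb hn)
  have hf : Function.Injective f := viaEmbeddingHom_injective _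
  have hs : ∀ a, sign a = 1 → f a ∈ alternatingGroup (Fin n) := fun a ha => by
    rw [mem_alternatingGroup, ← ha]
    convert sign_extendDomain a (Equiv.ofInjective _ (Fin.castLEEmb hn).2)
    simp only [f, viaEmbeddingHom, extendDomainHom_apply]
    congr
  let a : Perm (Fin 6) := swap 0 1 * swap 1 2 * swap 2 3 * swap 4 5
  let b : Perm (Fin 6) := swap 0 2 * swap 4 5
  refine ⟨⟨f a, hs a (by decide)⟩, Subtype.ext ?_, fun h => ?_,
    isConj_iff.2 ⟨⟨f b, hs b (by decide)⟩, Subtype.ext ?_⟩⟩
  · change f a ^ 2 ^ 2 = 1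
    rw [← map_pow, show a ^ 2 ^ 2 = 1 by decide, map_one]
  · have h1 : f a * f a = 1 := congrArg Subtype.val h
    rw [← map_mul, ← map_one f, hf.eq_iff] at h1
    exact absurd h1 (by decide)
  · change f b * f a * (f b)⁻¹ = (f a)⁻¹
    rw [← map_inv, ← map_inv, ← map_mul, ← map_mul, show b * a * b⁻¹ = a⁻¹ by decide]

theorem real_cycle {n p : ℕ} (hp : p.Prime) (h2 : p ≠ 2) (hn : p + 2 ≤ n) :
    ∃ x : alternatingGroup (Fin n), x ^ p ^ 1 = 1 ∧ x * x ≠ 1 ∧ IsConj x x⁻¹ := by
  obtain ⟨g, hg⟩ := (exists_with_cycleType_iff (Fin n) (m := {p})).2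
    ⟨by simp; omega, by simpa using hp.two_le⟩
  have ho : orderOf g = p := by rw [← lcm_cycleType, hg]; simp
  have hs : g ∈ alternatingGroup (Fin n) := by
    rw [mem_alternatingGroup, sign_of_cycleType, hg]
    simpa using (hp.odd_of_ne_two h2).add_one.neg_one_pow
  refine ⟨⟨g, hs⟩, Subtype.ext ?_, fun h => h2 ?_, alternatingGroup.isConj_of
    (isConj_iff_cycleType_eq.2 g.cycleType_inv.symm) ?_⟩
  · change g ^ p ^ 1 = 1
    rw [pow_one, ← ho, pow_orderOf_eq_one]
  · have h1 : g * g = 1 := congrArg Subtype.val h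
    rw [← pow_two, ← orderOf_dvd_iff_pow_eq_one, ho] at h1
    exact (Nat.prime_dvd_prime_iff_eq hp Nat.prime_two).1 h1
  · change g.support.card + 2 ≤ _
    rw [← sum_cycleType, hg]
    simpa using hn

theorem five (P : Sylow 2 (alternatingGroup (Fin 5)))
    (hP : IsMulCommutative (P : Subgroup (alternatingGroup (Fin 5)))) :
    ((centralizer ((P : Subgroup (alternatingGroup (Fin 5))) :
      Set (alternatingGroup (Fin 5)))).subgroupOf (normalizer
        ((P : Subgroup (alternatingGroup (Fin 5))) : Set (alternatingGroup (Fin 5))))).index = 3 ∧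
      IsKleinFour (P : Subgroup (alternatingGroup (Fin 5))) := by
  have h60 : Nat.card (alternatingGroup (Fin 5)) = 2 ^ 2 * 15 := by
    have := two_mul_nat_card_alternatingGroup (α := Fin 5)
    rw [Nat.card_perm, Nat.card_fin, show Nat.factorial 5 = 120 from rfl] at this
    omega
  have h4 : Nat.card (P : Subgroup (alternatingGroup (Fin 5))) = 4 := by
    rw [P.card_eq_multiplicity, h60, Nat.factorization_mul (by norm_num) (by norm_num),
      Nat.Prime.factorization_pow Nat.prime_two]
    simp [Nat.factorization_eq_zero_of_not_dvd]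
  have hS : IsSimpleGroup (alternatingGroup (Fin 5)) := alternatingGroup.isSimpleGroup (by simp)
  have hK : IsKleinFour (P : Subgroup (alternatingGroup (Fin 5))) := by
    have hx : ∀ x : Perm (Fin 5), sign x = 1 → x ^ 4 = 1 → x ^ 2 = 1 := by decide +kernel
    have : Nontrivial (P : Subgroup (alternatingGroup (Fin 5))) :=
      Finite.one_lt_card_iff_nontrivial.1 (by omega)
    refine ⟨h4, (Monoid.exponent_eq_prime_iff Nat.prime_two).2 fun g hg => ?_⟩
    have h1 : g ^ 4 = 1 := h4 ▸ pow_card_eq_one'
    exact orderOf_eq_prime (Subtype.ext (Subtype.ext (hx g.1.1 g.1.2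
      (congrArg (fun y => y.1.1) h1)))) hg
  refine ⟨?_, hK⟩
  have h6 := (card_dvd_of_injective _ (QuotientGroup.kerLift_injective
    (P : Subgroup (alternatingGroup (Fin 5))).normalizerMonoidHom)).trans S0992.card_mulAut_dvd
  rw [normalizerMonoidHom_ker, ← index] at h6
  have ho : ¬ 2 ∣ ((centralizer ((P : Subgroup (alternatingGroup (Fin 5))) :
      Set (alternatingGroup (Fin 5)))).subgroupOf (normalizer
        ((P : Subgroup (alternatingGroup (Fin 5))) : Set (alternatingGroup (Fin 5))))).index :=
    fun h => P.not_dvd_index ((h.trans (relIndex_dvd_of_le_left _ P.le_centralizer)).trans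
      (relIndex_dvd_index_of_le le_normalizer))
  have h1 : ((centralizer ((P : Subgroup (alternatingGroup (Fin 5))) :
      Set (alternatingGroup (Fin 5)))).subgroupOf (normalizer
        ((P : Subgroup (alternatingGroup (Fin 5))) : Set (alternatingGroup (Fin 5))))).index ≠ 1 :=
    fun h => by
      have h2 := (MonoidHom.ker_transferSylow_isComplement' P
        (subgroupOf_eq_top.1 (index_eq_one.1 h))).card_mul_card
      rcases (MonoidHom.normal_ker (MonoidHom.transferSylow P
        (subgroupOf_eq_top.1 (index_eq_one.1 h)))).eq_bot_or_eq_top with h3 | h3 <;>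
        rw [h3, h4, h60] at h2
      · simp at h2
      · rw [card_top, h60] at h2
        omega
  have h7 := Nat.le_of_dvd (by norm_num) h6
  generalize ((centralizer ((P : Subgroup (alternatingGroup (Fin 5))) :
      Set (alternatingGroup (Fin 5)))).subgroupOf (normalizer
        ((P : Subgroup (alternatingGroup (Fin 5))) : Set (alternatingGroup (Fin 5))))).index = i at *
  interval_cases i <;> simp_all

/-- Let n ≥ 5 and let P be an abelian Sylow p-subgroup of the alternating group A_n. Then N(P)/C(P) (taken in A_n) has even order, or P is cyclic, except when n = 5 and p = 2, where P is a four-group and N(P)/C(P) has order 3. -/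
theorem result (n : ℕ) (hn : 5 ≤ n) {p : ℕ} [Fact p.Prime]
    (P : Sylow p (alternatingGroup (Fin n))) (hP : IsMulCommutative (P : Subgroup (alternatingGroup (Fin n)))) :
    (¬ (n = 5 ∧ p = 2) → 2 ∣ ((Subgroup.centralizer ((P : Subgroup (alternatingGroup (Fin n))) : Set (alternatingGroup (Fin n)))).subgroupOf (Subgroup.normalizer ((P : Subgroup (alternatingGroup (Fin n))) : Set (alternatingGroup (Fin n))))).index ∨ IsCyclic (P : Subgroup (alternatingGroup (Fin n)))) ∧
    ((n = 5 ∧ p = 2) → ((Subgroup.centralizer ((P : Subgroup (alternatingGroup (Fin n))) : Set (alternatingGroup (Fin n)))).subgroupOf (Subgroup.normalizer ((P : Subgroup (alternatingGroup (Fin n))) : Set (alternatingGroup (Fin n))))).index = 3 ∧ IsKleinFour (P : Subgroup (alternatingGroup (Fin n)))) := by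
  have hpr : p.Prime := Fact.out
  refine ⟨fun h => ?_, ?_⟩
  · by_cases h2 : p = 2
    · subst h2
      obtain ⟨x, h1, h3, h4⟩ := real_four (n := n) (by omega)
      exact Or.inl (S2270.two_dvd_of_real P hP h1 h3 h4)
    by_cases h3 : p + 2 ≤ n
    · obtain ⟨x, h1, h3, h4⟩ := real_cycle hpr h2 h3
      exact Or.inl (S2270.two_dvd_of_real P hP h1 h3 h4)
    refine Or.inr (isCyclic_of_card_dvd_prime (p := p) ?_)
    obtain ⟨k, hk⟩ := P.isPGroup'.exists_card_eq
    have h4 : p ^ k ∣ (p + 1).factorial := by
      refine hk ▸ ((Subgroup.card_subgroup_dvd_card _).trans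
        (Subgroup.card_subgroup_dvd_card _)).trans ?_
      rw [Nat.card_perm, Nat.card_fin]
      exact Nat.factorial_dvd_factorial (by omega)
    rw [hk]
    rcases k with _ | _ | k
    · simp
    · simp
    obtain ⟨m, rfl⟩ : ∃ m, p = m + 1 := ⟨p - 1, by have := hpr.pos; omega⟩
    rw [Nat.factorial_succ, Nat.factorial_succ, mul_left_comm, pow_succ',
      Nat.mul_dvd_mul_iff_left hpr.pos] at h4
    rcases (hpr.dvd_mul).1 ((dvd_pow_self _ (Nat.succ_ne_zero k)).trans h4) with h5 | h5
    · exact absurd ((Nat.dvd_add_right dvd_rfl).1 h5) hpr.not_dvd_one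
    · exact absurd (hpr.dvd_factorial.1 h5) (by omega)
  · rintro ⟨rfl, rfl⟩
    exact five P hP

end Cfsg.Agent.S2269
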