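import Cfsg.Statements.S2279
import Cfsg.Agent.H84.RUModel

set_option autoImplicit false
set_option linter.style.haveILetI false
open Cfsg

namespace Cfsg.Agent.S2279

/-- Let F be a finite field with q elements and n ≥ 4. Then SL_n(F) is generated by two regular unipotent elements (elements u with u − 1 nilpotent and (u − 1)^(n−1) ≠ 0); if q is prime, the two can be taken conjugate in SL_n(F). -/
theorem result {F : Type*} [Field F] [Fintype F] (n : ℕ) (hn : 4 ≤ n) :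
    (∃ u v : Matrix.SpecialLinearGroup (Fin n) F, (IsNilpotent ((u : Matrix (Fin n) (Fin n) F) - 1) ∧ ((u : Matrix (Fin n) (Fin n) F) - 1) ^ (n - 1) ≠ 0) ∧ (IsNilpotent ((v : Matrix (Fin n) (Fin n) F) - 1) ∧ ((v : Matrix (Fin n) (Fin n) F) - 1) ^ (n - 1) ≠ 0) ∧
      Subgroup.closure ({u, v} : Set (Matrix.SpecialLinearGroup (Fin n) F)) = ⊤) ∧
    ((Fintype.card F).Prime → ∃ u g : Matrix.SpecialLinearGroup (Fin n) F, (IsNilpotent ((u : Matrix (Fin n) (Fin n) F) - 1) ∧ ((u : Matrix (Fin n) (Fin n) F) - 1) ^ (n - 1) ≠ 0) ∧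
      Subgroup.closure ({u, g * u * g⁻¹} : Set (Matrix.SpecialLinearGroup (Fin n) F)) = ⊤) := by
  obtain ⟨u, g, hu, h⟩ := H84.RU.gen2_of_four_le (F := F) hn
  refine ⟨⟨u, g * u * g⁻¹, hu, ?_, h⟩, fun _ => ⟨u, g, hu, h⟩⟩
  have e : ∀ k, (((g * u * g⁻¹ : Matrix.SpecialLinearGroup (Fin n) F) :
      Matrix (Fin n) (Fin n) F) - 1) ^ k = (g : Matrix (Fin n) (Fin n) F) *
        ((u : Matrix (Fin n) (Fin n) F) - 1) ^ k * (g⁻¹ : Matrix.SpecialLinearGroup (Fin n) F) := by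
    have h1 : (g : Matrix (Fin n) (Fin n) F) * (g⁻¹ : Matrix.SpecialLinearGroup (Fin n) F) = 1 := by
      rw [← Matrix.SpecialLinearGroup.coe_mul, mul_inv_cancel]; rfl
    have h2 : ((g⁻¹ : Matrix.SpecialLinearGroup (Fin n) F) : Matrix (Fin n) (Fin n) F) * g = 1 := by
      rw [← Matrix.SpecialLinearGroup.coe_mul, inv_mul_cancel]; rfl
    intro k
    induction k with
    | zero => rw [pow_zero, pow_zero, mul_one, h1]
    | succ k ih =>
      rw [pow_succ, ih, pow_succ, Matrix.SpecialLinearGroup.coe_mul,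
        Matrix.SpecialLinearGroup.coe_mul]
      simp only [mul_sub, sub_mul, mul_assoc, mul_one, ← mul_assoc _ (g : Matrix (Fin n) (Fin n) F),
        h2, one_mul]
  obtain ⟨⟨k, hk⟩, hu⟩ := hu
  refine ⟨⟨k, by rw [e, hk, mul_zero, zero_mul]⟩, fun h0 => hu ?_⟩
  rw [e] at h0
  exact (Matrix.SpecialLinearGroup.toGL g).mul_right_eq_zero.1
    ((Matrix.SpecialLinearGroup.toGL g⁻¹).mul_left_eq_zero.1 h0)

end Cfsg.Agent.S2279
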