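import Cfsg.Statements.S2284
import Cfsg.Agent.H3.PresAlt4

set_option autoImplicit false
open Cfsg

namespace Cfsg.Agent.S2284

/-- For every n, the symmetric group S_n and the alternating group A_n each have a presentation with 2 generators and at most 8 relations. -/
theorem result (n : ℕ) : (∃ rels : Finset (FreeGroup (Fin 2)), rels.card ≤ 8 ∧ Nonempty (PresentedGroup (↑rels : Set (FreeGroup (Fin 2))) ≃* Equiv.Perm (Fin n))) ∧ (∃ rels : Finset (FreeGroup (Fin 2)), rels.card ≤ 8 ∧ Nonempty (PresentedGroup (↑rels : Set (FreeGroup (Fin 2))) ≃* ↥(alternatingGroup (Fin n)))) := by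
  by_cases hn : 3 ≤ n
  · exact ⟨(H3.pres_sym n hn).2, (H3.pres_alt n hn).2⟩
  have hn : n < 3 := by omega
  constructor
  · refine H3.Pr.mono ?_ (show 2 ≤ 8 by norm_num)
    interval_cases n
    · exact H3.pr_of_sq (a := 1) (by simp) (fun g => Or.inl (Subsingleton.elim _ _))
    · exact H3.pr_of_sq (a := 1) (by simp) (fun g => Or.inl (Subsingleton.elim _ _))
    · exact H3.pr_of_sq (a := Equiv.swap 0 1) (by simp) (by decide)
  · refine H3.Pr.mono (H3.pr_of_sq (a := 1) (by simp) fun g => Or.inl (Subtype.ext ?_)) (show 2 ≤ 8 by norm_num)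
    exact (alternatingGroup.eq_bot_of_card_le_two (by simp; omega)).le g.2

end Cfsg.Agent.S2284
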