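import Cfsg.Statements.S2290
import Cfsg.Agent.H3.PresSLn
import Cfsg.Agent.H3.PresSL2
import Cfsg.Agent.H62.SLGen

set_option autoImplicit false
open Cfsg

namespace Cfsg.Agent.S2290

open H3 H62.SLGen Matrix in
theorem two_gen {F : Type*} [Field F] [Fintype F] {n : ℕ} (hn : 1 ≤ n) :
    ∃ a b : Matrix.SpecialLinearGroup (Fin (n + 1)) F, Subgroup.closure {a, b} = ⊤ := by
  have h01 := zero_ne_one' hn
  obtain ⟨w, hw⟩ : ∃ w : Matrix.SpecialLinearGroup (Fin (n + 1)) F, IsW w := by
    refine ⟨⟨(H38.mono (finRotate (n + 1)) (sg F n))ᵀ, ?_⟩, fun i j => by simp [H38.mono]⟩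
    rw [det_transpose, det_mono, sign_finRotate, Finset.prod_eq_single (f := sg F n) (Fin.last n)
      (fun i _ hi => if_neg fun h => hi (Fin.ext h)) (by simp)]
    simp [sg, ← mul_pow]
  by_cases hK : 3 < Fintype.card F
  · obtain ⟨k, hk⟩ := IsCyclic.exists_generator (α := Fˣ)
    refine ⟨DG k.ne_zero 0 1, _, top_of_h hK hn k hk _ (fun i j => ?_) hw (Subgroup.subset_closure (Or.inl rfl))
      (Subgroup.subset_closure (Or.inr rfl))⟩
    have h1 : ((1 : Fin (n + 1)) : ℕ) = 1 := by rw [Fin.val_one']; exact Nat.mod_eq_of_lt (by omega)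
    rw [DG_val, H38.mono_one, diagonal_apply]
    simp only [Fin.ext_iff, h1, Fin.val_zero]
    split_ifs <;> simp <;> omega
  refine ⟨SpecialLinearGroup.transvection h01 1, w,
    top_of_w hn _ hw (Subgroup.subset_closure (Or.inr rfl)) h01 fun a => ?_⟩
  have hx : Ad fun t : F => SpecialLinearGroup.transvection h01 t := fun s t => by
    simpa [XT, h01] using (afull_sl (K := ⊥) (by simp) (one_ne_zero (α := F))).ad h01 s t
  have h1 : (1 : F) ∈ hx.pre (Subgroup.closure {SpecialLinearGroup.transvection h01 1, w}) :=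
    Subgroup.subset_closure (Or.inl rfl)
  have : hx.pre (Subgroup.closure {SpecialLinearGroup.transvection h01 1, w}) = ⊤ := by
    have h2 : (Nat.card F).Prime := by
      have := Fintype.one_lt_card (α := F)
      rw [Nat.card_eq_fintype_card]
      obtain h | h : Fintype.card F = 2 ∨ Fintype.card F = 3 := by omega
      all_goals rw [h]; norm_num
    have := Fact.mk h2
    exact (AddSubgroup.eq_bot_or_eq_top_of_prime_card _).resolve_left fun h => by simp [h] at h1
  exact this.ge (AddSubgroup.mem_top a)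


/-- For every finite field F with q elements and n ≥ 2, with q ≥ 4 when n = 2, the simple group PSL_n(F) has a presentation with 2 generators and at most 80 relations. -/
theorem result {F : Type*} [Field F] [Fintype F] (n : ℕ) (hn : 2 ≤ n) (h2 : n = 2 → 4 ≤ Fintype.card F) :
    ∃ rels : Finset (FreeGroup (Fin 2)), rels.card ≤ 80 ∧ Nonempty (PresentedGroup (↑rels : Set (FreeGroup (Fin 2))) ≃* Matrix.ProjectiveSpecialLinearGroup (Fin n) F) := by
  obtain ⟨m, rfl⟩ : ∃ m, n = m + 1 := ⟨n - 1, by omega⟩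
  obtain ⟨a, b, h⟩ := two_gen (F := F) (n := m) (by omega)
  have h' := congrArg (Subgroup.map (QuotientGroup.mk' (Subgroup.center _))) h
  rw [MonoidHom.map_closure, Set.image_pair, Subgroup.map_top_of_surjective _ (QuotientGroup.mk'_surjective _)] at h'
  by_cases h4 : 4 ≤ m + 1
  · exact ((H3.pres_sln h4).psl.two h').mono (by norm_num)
  obtain rfl | rfl : m = 1 ∨ m = 2 := by omega
  · exact (H3.pres_sl2.2.1.two h').mono (by norm_num)
  · exact (H3.pres_sl3.psl.two h').mono (by norm_num)

end Cfsg.Agent.S2290
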