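import Cfsg.Statements.S2295
import Cfsg.Agent.H3.PresO3

set_option autoImplicit false
open Cfsg

namespace Cfsg.Agent.S2295

/-- Let F be a finite field and n ≥ 4, and let Ω⁺_2n(F) be the commutator subgroup of the orthogonal group of the hyperbolic quadratic form Σ x_i y_i, with PΩ⁺_2n(F) its central quotient. Then Ω⁺_2n(F) has a presentation with 8 generators and at most 31 relations (at most 29 if n = 4 or 5), and PΩ⁺_2n(F) one with 8 generators and at most 32 relations (at most 30 if n = 4 or 5). -/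
theorem result {F : Type*} [Field F] [Fintype F] (n : ℕ) (hn : 4 ≤ n) :
    (∃ rels : Finset (FreeGroup (Fin 8)), rels.card ≤ 31 ∧ Nonempty (PresentedGroup (↑rels : Set (FreeGroup (Fin 8))) ≃* ↥(Cfsg.Omega F (Cfsg.quadFormPlus n F)))) ∧ (∃ rels : Finset (FreeGroup (Fin 8)), rels.card ≤ 32 ∧ Nonempty (PresentedGroup (↑rels : Set (FreeGroup (Fin 8))) ≃* Cfsg.POmega F (Cfsg.quadFormPlus n F))) ∧
    (n ≤ 5 → (∃ rels : Finset (FreeGroup (Fin 8)), rels.card ≤ 29 ∧ Nonempty (PresentedGroup (↑rels : Set (FreeGroup (Fin 8))) ≃* ↥(Cfsg.Omega F (Cfsg.quadFormPlus n F)))) ∧ (∃ rels : Finset (FreeGroup (Fin 8)), rels.card ≤ 30 ∧ Nonempty (PresentedGroup (↑rels : Set (FreeGroup (Fin 8))) ≃* Cfsg.POmega F (Cfsg.quadFormPlus n F)))) := by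
  obtain ⟨n, rfl⟩ : ∃ k, n = k + 2 := ⟨n - 2, by omega⟩
  have k : n + 2 ≤ 5 → H3.Pr (Cfsg.Omega F (Cfsg.quadFormPlus (n + 2) F)) 8 29 := fun h => by
    obtain rfl | rfl : n = 2 ∨ n = 3 := by omega
    exacts [(H3.pres_om le_rfl (H3.pr_alt_small 2)).pad 3, (H3.pres_om (by norm_num) (H3.pr_alt_small 3)).pad 3]
  have k' : H3.Pr (Cfsg.Omega F (Cfsg.quadFormPlus (n + 2) F)) 8 31 := by
    by_cases h : n + 2 ≤ 5
    · exact (k h).mono (by norm_num)
    · exact ((H3.pres_om (by omega) (H3.pres_alt _ (by omega)).1).pad 2).mono (by split_ifs <;> omega)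
  exact ⟨k', k'.pom (by omega), fun h => ⟨k h, (k h).pom (by omega)⟩⟩

end Cfsg.Agent.S2295
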