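import Cfsg.Statements.S2332
import Cfsg.Agent.H65.SLd

set_option autoImplicit false
open Cfsg

namespace Cfsg.Agent.S2332

/-- Smallest degree of a non-linear irreducible complex representation of SL_n over a finite field with q elements, for n ≥ 3 and (n, q) not one of (3, 2), (3, 4), (4, 2), (4, 3): every irreducible complex representation of SL_n(F) of degree at least 2 has degree at least (q^n − q)/(q − 1), and there is an irreducible complex representation of exactly that degree. -/
theorem result {F : Type*} [Field F] [Fintype F] [DecidableEq F] (n : ℕ) (hn : 3 ≤ n)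
    (hex : (n, Fintype.card F) ≠ (3, 2) ∧ (n, Fintype.card F) ≠ (3, 4) ∧ (n, Fintype.card F) ≠ (4, 2) ∧ (n, Fintype.card F) ≠ (4, 3)) :
    (∀ (k : ℕ) (ρ : Representation ℂ (Matrix.SpecialLinearGroup (Fin n) F) (Fin k → ℂ)), ρ.IsIrreducible → 2 ≤ k → (Fintype.card F ^ n - Fintype.card F) / (Fintype.card F - 1) ≤ k) ∧
    (∃ ρ : Representation ℂ (Matrix.SpecialLinearGroup (Fin n) F) (Fin ((Fintype.card F ^ n - Fintype.card F) / (Fintype.card F - 1)) → ℂ), ρ.IsIrreducible) := by
  have hq2 : 2 ≤ Fintype.card F := Fintype.one_lt_card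
  have key : ∀ i, ¬ Fintype.card F - 1 ∣ i → ∃ a : F, a ≠ 0 ∧ a ^ i ≠ 1 := fun i h => by
    by_contra! h'
    exact h ((FiniteField.forall_pow_eq_one_iff F i).1 fun x => Units.ext (by simpa using h' x x.ne_zero))
  simp only [ne_eq, Prod.mk.injEq, not_and] at hex
  refine ⟨fun k ρ hρ hk => ?_, ?_⟩
  · have := H65.sl_min ρ (by simpa) hn (fun e => key 3 fun h => by
      have := (Nat.dvd_prime Nat.prime_three).1 h
      omega) (fun e => key 2 fun h => by
      have := (Nat.dvd_prime Nat.prime_two).1 h
      omega) (by omega)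
    rw [Module.finrank_fin_fun, Nat.mul_sub, ← pow_succ', Nat.sub_add_cancel (by omega), mul_one] at this
    exact Nat.div_le_of_le_mul this
  · obtain ⟨m, ρ, h1, h2⟩ := H65.isIrr_piS_zero (F := F) hn
    have h3 := congrFun h2 1
    rw [Representation.char_one, Module.finrank_fin_fun, Pi.sub_apply, H65.piS_zero_one, eq_sub_iff_add_eq,
      eq_div_iff (sub_ne_zero.2 (by exact_mod_cast (by omega : Fintype.card F ≠ 1)))] at h3
    have h4 : Fintype.card F ^ n - Fintype.card F = (Fintype.card F - 1) * m := Nat.cast_injective (R := ℂ) (by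
      push_cast [Nat.le_self_pow (show n ≠ 0 by omega), show 1 ≤ Fintype.card F by omega]
      linear_combination -h3)
    rw [h4, Nat.mul_div_cancel_left _ (by omega)]
    exact ⟨ρ, h1⟩

end Cfsg.Agent.S2332
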