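import Cfsg.Statements.S2333
import Cfsg.Agent.H65.SpQ

set_option autoImplicit false
open Cfsg

namespace Cfsg.Agent.S2333

/-- For a finite field F of even order q and n ≥ 2 with (n, q) ≠ (2, 2), every irreducible complex representation of the symplectic group Sp_{2n}(F) of degree at least 2 has degree at least (q^n − 1)(q^n − q)/(2(q + 1)). -/
theorem result {F : Type*} [Field F] [Fintype F] [DecidableEq F] (n : ℕ) (hn : 2 ≤ n) (heven : Even (Fintype.card F)) (hex : (n, Fintype.card F) ≠ (2, 2)) :
    (∀ (k : ℕ) (ρ : Representation ℂ (Matrix.symplecticGroup (Fin n) F) (Fin k → ℂ)), ρ.IsIrreducible → 2 ≤ k → (Fintype.card F ^ n - 1) * (Fintype.card F ^ n - Fintype.card F) / (2 * (Fintype.card F + 1)) ≤ k) := by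
  intro k ρ hρ hk
  have h2 : (2 : F) = 0 := by
    have := FiniteField.even_card_iff_char_two.2 (Nat.even_iff.1 heven)
    rw [← Nat.cast_ofNat, ← this]
    exact ringChar.Nat.cast_ringChar
  have hc : commutator (Matrix.symplecticGroup (Fin n) F) = ⊤ := by
    refine H10.commutator_sp_eq_top ?_
    have := Fintype.one_lt_card (α := F)
    by_contra h
    refine hex (Prod.ext ?_ ?_) <;> simp only <;> omega
  have := H65.sp_even_bound ρ h2 hn H65.cast_ringChar_ne_zero
    (H65.ne_one_of_irr ρ hρ (by simpa using hk) (H10.sp_normal_le_center_or_eq_top hc))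
  rw [Module.finrank_fin_fun] at this
  exact Nat.div_le_of_le_mul this

end Cfsg.Agent.S2333
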