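import Cfsg.Statements.S2336
import Cfsg.Agent.H65.SLb

set_option autoImplicit false
open Cfsg

namespace Cfsg.Agent.S2336

/-- Let F be a finite field with q elements and n ≥ 3. The permutation character of SL_n(F) on the non-zero vectors of F^n (the function sending a matrix to the number of non-zero vectors it fixes) is the sum of the principal character and q − 1 pairwise distinct irreducible complex characters. -/
theorem result {F : Type*} [Field F] [Fintype F] [DecidableEq F] (n : ℕ) (hn : 3 ≤ n) :
    ∃ χ : Fin (Fintype.card F - 1) → (Matrix.SpecialLinearGroup (Fin n) F → ℂ),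
      (∀ i, Cfsg.IsIrrCharacter (Matrix.SpecialLinearGroup (Fin n) F) (χ i)) ∧ Function.Injective χ ∧
      ∀ g : Matrix.SpecialLinearGroup (Fin n) F,
        (Nat.card {v : Fin n → F // v ≠ 0 ∧ (g : Matrix (Fin n) (Fin n) F).mulVec v = v} : ℂ) = 1 + ∑ i, χ i g := by
  classical
  let e : Fin (Fintype.card F - 1) ≃ AddChar (Additive Fˣ) ℂ :=
    Fintype.equivOfCardEq (by simp [AddChar.card_eq, Fintype.card_units])
  let χ : AddChar (Additive Fˣ) ℂ → Matrix.SpecialLinearGroup (Fin n) F → ℂ := fun θ =>
    H65.piS n θ - (if θ = 0 then 1 else 0 : ℂ) • fun _ => 1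
  have h1 : ∀ θ θ', classInner (χ θ) (H65.piS n θ') = if θ = θ' then 1 else 0 := fun θ θ' => by
    rw [H5.classInner_sub_left, H5.classInner_smul_left, H65.inner_piS hn,
      H5.classInner_comm_of_isCharacter H5.isCharacter_one (H65.isCharacter_piS θ'), H65.inner_piS_one hn,
      add_sub_cancel_left]
  refine ⟨fun i => χ (e i), fun i => ?_, fun i j h => e.injective (by_contra fun h' => ?_), fun g => ?_⟩
  · by_cases h : e i = 0
    · simpa [χ, h] using H65.isIrr_piS_zero (F := F) hn
    · simpa [χ, h] using H65.isIrr_piS hn h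
  · have := h1 (e i) (e j)
    rw [show χ (e i) = χ (e j) from h, h1] at this
    simp [h'] at this
  · rw [Equiv.sum_comp e fun θ => χ θ g]
    simp [χ, H65.sum_piS, H65.nEig, Fintype.card_subtype, ite_apply]
    rfl

end Cfsg.Agent.S2336
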