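import Cfsg.Statements.S2337
import Cfsg.Agent.H13.SzTrace
import Cfsg.Agent.H7.Rep

set_option autoImplicit false
open Cfsg

namespace Cfsg.Agent.S2337

open Cfsg.Agent.H13
set_option linter.style.haveILetI false

section
variable {G F V : Type*} [Group G] [Field F] [Tits F] [Fintype F] (M : Model G F)
  [AddCommGroup V] [Module ℂ V] [FiniteDimensional ℂ V] (ρ : Representation ℂ G V)

/-- Joint eigenspace of `Z`. -/
def eig (μ : F → ℂ) : Submodule ℂ V where
  carrier := {v | ∀ b, ρ (M.u 0 b) v = μ b • v}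
  add_mem' := by intro x y hx hy b; rw [map_add, hx b, hy b, smul_add]
  zero_mem' := by intro b; simp
  smul_mem' := by intro c x hx b; rw [map_smul, hx b, smul_comm]

theorem finrank_eig (μ : F → ℂ) (h0 : μ 0 = 1) (hadd : ∀ a b, μ (a + b) = μ a * μ b) :
    (Fintype.card F : ℂ) * Module.finrank ℂ (eig M ρ μ) =
      ∑ b : F, μ b * LinearMap.trace ℂ V (ρ (M.u 0 b)) := by
  have hq : (Fintype.card F : ℂ) ≠ 0 := by simp
  have hsq : ∀ b, μ b * μ b = 1 := fun b => by rw [← hadd, CharTwo.add_self_eq_zero, h0]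
  have hp : LinearMap.IsProj (eig M ρ μ)
      ((Fintype.card F : ℂ)⁻¹ • ∑ b : F, μ b • (ρ (M.u 0 b) : V →ₗ[ℂ] V)) := by
    constructor
    · intro v
      apply Submodule.smul_mem
      intro c
      simp only [LinearMap.sum_apply, LinearMap.smul_apply, map_sum, map_smul, Finset.smul_sum]
      rw [← Equiv.sum_comp (Equiv.addRight c)]
      refine Finset.sum_congr rfl fun b _ => ?_
      rw [← Module.End.mul_apply, ← map_mul, M.u_mul_u, smul_smul]
      simp only [Equiv.coe_addRight, hadd, map_zero, zero_mul, add_zero]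
      rw [mul_comm, show c + (b + c) = b by grind]
    · intro v hv
      simp only [LinearMap.smul_apply, LinearMap.sum_apply]
      rw [Finset.sum_congr rfl (fun b _ => by rw [hv b, smul_smul, hsq, one_smul])]
      rw [Finset.sum_const, Finset.card_univ, ← Nat.cast_smul_eq_nsmul ℂ, smul_smul,
        inv_mul_cancel₀ hq, one_smul]
  rw [← hp.trace, map_smul, map_sum, smul_eq_mul, mul_inv_cancel_left₀ hq]
  simp

theorem trace_u (b : F) (hb : b ≠ 0) :
    LinearMap.trace ℂ V (ρ (M.u 0 b)) = LinearMap.trace ℂ V (ρ (M.u 0 1)) := by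
  obtain ⟨g, hg⟩ := M.exists_conj_u01 (x := M.u 0 b) (by simp [M.u_eq_one, hb]) (by simp [M.u_sq])
  rw [hg, map_mul, LinearMap.trace_mul_comm, ← map_mul, inv_mul_cancel_left]

theorem sum_trace (μ : F → ℂ) (h0 : μ 0 = 1) :
    ∑ b : F, μ b * LinearMap.trace ℂ V (ρ (M.u 0 b)) = Module.finrank ℂ V +
      (∑ b : F, μ b - 1) * LinearMap.trace ℂ V (ρ (M.u 0 1)) := by
  classical
  rw [← Finset.add_sum_erase _ _ (Finset.mem_univ 0), ← Finset.add_sum_erase _ μ (Finset.mem_univ 0),
    h0, add_sub_cancel_left, Finset.sum_mul,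
    Finset.sum_congr rfl (fun b hb => by rw [trace_u M ρ b (Finset.ne_of_mem_erase hb)])]
  simp

theorem sq_finrank_ge {m : ℕ} (Q : Par F m) (hpos : 0 < Module.finrank ℂ (eig M ρ (sgn m))) :
    2 ^ m ≤ Module.finrank ℂ (eig M ρ (sgn m)) := by
  classical
  set W := eig M ρ (sgn m)
  have hinv : ∀ a b, ∀ v ∈ W, ρ (M.u a b) v ∈ W := by
    intro a b v hv c
    rw [← Module.End.mul_apply, ← map_mul, M.u_zero_comm, map_mul, Module.End.mul_apply, hv c,
      map_smul]
  let σ : F → F → Module.End ℂ W := fun a b => (ρ (M.u a b)).restrict (hinv a b)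
  have hmul : ∀ a b c d, σ a b * σ c d = σ (a + c) (b + d + θ a * c) := by
    intro a b c d
    ext v
    simp only [σ, Module.End.mul_apply, LinearMap.coe_restrict_apply]
    rw [← Module.End.mul_apply, ← map_mul, M.u_mul_u]
  have hz : ∀ b, σ 0 b = sgn m b • (1 : Module.End ℂ W) := by
    intro b; ext v
    simp only [σ, LinearMap.coe_restrict_apply, LinearMap.smul_apply, Module.End.one_apply,
      Submodule.coe_smul]
    exact v.2 b
  have htr : ∀ a b, a ≠ 0 → a ≠ 1 → LinearMap.trace ℂ W (σ a b) = 0 := by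
    intro a b h0 h1
    obtain ⟨c, hc⟩ := Q.exists_comm_absTr h0 h1
    have e1 : σ c 0 * (σ a b * σ c (θ c * c)) = σ a b * σ 0 (θ c * a + θ a * c) := by
      rw [hmul, hmul, hmul]; congr 1
      · grind
      · grind
    have e2 : σ c (θ c * c) * σ c 0 = 1 := by
      rw [hmul, CharTwo.add_self_eq_zero, add_zero, CharTwo.add_self_eq_zero, hz]; simp
    have := congrArg (LinearMap.trace ℂ W) e1
    rw [LinearMap.trace_mul_comm, mul_assoc, e2, mul_one, hz, sgn_of_one hc] at this
    simp only [mul_smul_comm, mul_one, map_smul, smul_eq_mul] at this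
    linear_combination this / 2
  have hli : LinearIndependent ℂ (fun a : {a : F // absTr m a = 0} => σ a 0) := by
    rw [Fintype.linearIndependent_iff]
    intro g hg a
    have := congrArg (fun f => LinearMap.trace ℂ W (σ a (θ (a : F) * a) * f)) hg
    simp only [Finset.mul_sum, mul_smul_comm, map_sum, map_smul, mul_zero, map_zero, hmul] at this
    rw [Finset.sum_eq_single a] at this
    · rw [CharTwo.add_self_eq_zero, add_zero, CharTwo.add_self_eq_zero, hz] at this
      simpa [hpos.ne'] using this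
    · intro b _ hb
      rw [htr, smul_zero]
      · intro h; apply hb; apply Subtype.ext; grind
      · intro h
        have := congrArg (absTr m) h
        rw [absTr_add, a.2, b.2, absTr_one] at this
        simp at this
    · simp
  have h1 := hli.fintype_card_le_finrank
  rw [← Nat.card_eq_fintype_card, Q.card_ker_absTr, Module.finrank_linearMap] at h1
  by_contra hlt
  push Not at hlt
  have := Nat.mul_lt_mul'' hlt hlt
  rw [← pow_add, ← two_mul] at this
  omega

end

/-- For the Suzuki group Sz(q), q = 2^(2m+1) with m ≥ 1 (realised inside Sp₄ over the field with q elements), every irreducible complex representation of degree at least 2 has degree at least 2^m·(q − 1). -/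
theorem result {F : Type*} [Field F] [Fintype F] (m : ℕ) (hm : 1 ≤ m) (hF : Fintype.card F = 2 ^ (2 * m + 1)) :
    (∀ (k : ℕ) (ρ : Representation ℂ (Cfsg.Lie.Sz F (2 ^ (m + 1))) (Fin k → ℂ)), ρ.IsIrreducible → 2 ≤ k → 2 ^ m * (2 ^ (2 * m + 1) - 1) ≤ k) := by
  letI := titsOfCard hF
  have Q := par_of_card hm hF
  set M := lieModel (titsOfCard_θ hF)
  intro k ρ hirr hk
  have h1 := finrank_eig M ρ (fun _ => 1) rfl (by simp)
  have h2 := finrank_eig M ρ (sgn m) (sgn_zero m) Q.sgn_add
  rw [sum_trace M ρ _ rfl] at h1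
  rw [sum_trace M ρ _ (sgn_zero m), Q.sum_sgn] at h2
  simp only [Finset.sum_const, Finset.card_univ, nsmul_eq_mul, mul_one, Module.finrank_fin_fun] at h1 h2
  set d1 := Module.finrank ℂ (eig M ρ fun _ => 1) with hd1
  set d := Module.finrank ℂ (eig M ρ (sgn m)) with hd
  have hq : (Fintype.card F : ℂ) ≠ 0 := by simp
  have h3 : (d1 : ℂ) + ((Fintype.card F : ℂ) - 1) * d = k := by
    apply mul_left_cancel₀ hq
    linear_combination h1 + ((Fintype.card F : ℂ) - 1) * h2
  have h4 : d1 + (Fintype.card F - 1) * d = k := by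
    have : 1 ≤ Fintype.card F := Fintype.card_pos
    exact_mod_cast (by rw [Nat.cast_add, Nat.cast_mul, Nat.cast_sub this]; simpa using h3 :
      ((d1 + (Fintype.card F - 1) * d : ℕ) : ℂ) = k)
  have hpos : 0 < d := by
    by_contra h0
    have h0' : d = 0 := by omega
    rw [h0', mul_zero, add_zero] at h4
    have htop : eig M ρ (fun _ => 1) = ⊤ :=
      Submodule.eq_top_of_finrank_eq (by rw [← hd1, h4, Module.finrank_fin_fun])
    have hker : M.u 0 1 ∈ MonoidHom.ker ρ := by
      rw [MonoidHom.mem_ker]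
      refine LinearMap.ext fun v => ?_
      have : v ∈ eig M ρ (fun _ => 1) := htop ▸ Submodule.mem_top
      simpa using this 1
    have hall := M.eq_top_of_normal_of_mem Q.hy _ hker
    have htriv : ∀ g, ρ g = 1 := fun g => (hall ▸ Subgroup.mem_top g : g ∈ MonoidHom.ker ρ)
    have hv : (Pi.single (⟨0, by omega⟩ : Fin k) 1 : Fin k → ℂ) ≠ 0 := by simp
    rcases H7.eq_bot_or_eq_top_of_invariant ρ (Submodule.span ℂ {Pi.single (⟨0, by omega⟩ : Fin k) 1})
      (fun g v hv => by rwa [htriv g]) with h | h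
    · exact hv (Submodule.span_singleton_eq_bot.1 h)
    · have := finrank_span_singleton (K := ℂ) hv
      rw [h, finrank_top, Module.finrank_fin_fun] at this
      omega
  have h5 := sq_finrank_ge M ρ Q hpos
  rw [← hF, ← h4, mul_comm]
  exact le_add_left (Nat.mul_le_mul_left _ h5)

end Cfsg.Agent.S2337
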