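import Cfsg.Statements.S2339
import Cfsg.Agent.H37.MdS
import Cfsg.Agent.H37.OkE8

set_option autoImplicit false
open Cfsg

namespace Cfsg.Agent.S2339

section

open Cfsg.Lie Cfsg.Agent.H37 Cfsg.Agent.H37.Md Cfsg.Agent.H38 H39

/-- a generic coweight -/
def w (i : ℕ) : ℤ := [1165657666, 1487915363, 2062879876, 2959053510, 2367246245, 1775434884, 1183623267, 591811634].getD i 0

/-- witnesses -/
def cw (r : ℕ) : ℕ := fld 44751945818165724982242796849202622673171632729389333288767394045640074600697555907420021862038874772144792935882243519620435250467537957113225905556668900637935253400053808784080987653058849701668499713966869764761946699017862562280867424119845761496777811474438816485481378735696330022566230245323020576464165568342409345565380837387242395252246541395927416674885103841842421352107823538865745909251521737871245116356306681967148871086251800392230414899992639520826262017075233144194758803035985156385207972933022714308506743942375847170497394972016173063879770673191231422464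 8 256 r

/-- numbers of steps -/
def dt (r : ℕ) : ℕ := fld 10799179507370317752989334399720526248863700292531906010722869331287442228276933764912352318408247326317043266995429441646219591242737546818800400784347473198246735472435570246076554927268496052007751108137239741407244489141344590983873742451986338101099915352350781148890060626034404933994929578969897237005433570758980587173496364028456613279837256010028626872405055188649844947356010951703137647236298866239634042184569403637216986904073580763034172790289504487621684539765864850560112749274100800671700872907135265142440402862723791669819961297042498675850010538289397760000 8 256 r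

theorem hw : ∀ r, r + 1 < chevE8.nroots → fv chevE8 w r < fv chevE8 w (r + 1) :=
  mono_of_chk E8.checked.agree (by decide +kernel)

theorem hck : (triv w hw).chk E8.tab 239 28 cw dt = true := by decide +kernel

theorem hl : ((List.range chevE8.nroots).map dt).filter (· ≠ 0) = [1, 1, 2, 1, 2, 3, 1, 2, 3, 4, 1, 2, 3, 4, 5, 1, 2, 3, 4, 5, 6, 1, 2, 3, 4, 5, 6, 3, 4, 5, 6, 7, 5, 6, 7, 8, 7, 8, 9, 9, 10, 11, 1, 2, 3, 4, 5, 6, 7, 4, 5, 6, 7, 8, 6, 7, 8, 9, 8, 9, 10, 10, 11, 12, 7, 8, 9, 10, 9, 10, 11, 11, 12, 13, 10, 11, 12, 12, 13, 14, 13, 14, 15, 16, 11, 12, 13, 13, 14, 15, 14, 15, 16, 17, 15, 16, 17, 18, 19, 16, 17, 18, 19, 20, 21, 22, 17, 18, 19, 20, 21, 22, 23, 23, 24, 25, 26, 27, 28, 29] := by decide +kernel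

theorem small : ∀ q < 9, 2 ≤ q → ∀ j < 9, 0 < j →
    ¬(q * ((q ^ 12 + 1) * (q ^ 10 + 1) * (q ^ 6 + 1)) - j ∣ (q ^ 12 + 1) * (q ^ 10 + 1) * (q ^ 6 + 1) * (q ^ 30 - 1) * q ^ (28 + 1)) := by decide +kernel

theorem arith {q k : ℕ} (hq : IsPrimePow q) (h : (q - 1) * (q + 1) * (q ^ 28 * 2) ≤ q * k ∨
    (k ∣ (q ^ 12 + 1) * (q ^ 10 + 1) * (q ^ 6 + 1) * (q ^ 30 - 1) * q ^ (28 + 1) ∧ q * ((q ^ 12 + 1) * (q ^ 10 + 1) * (q ^ 6 + 1)) ≤ k + 8)) :
    q * ((q ^ 12 + 1) * (q ^ 10 + 1) * (q ^ 6 + 1)) ≤ k := by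
  have h2 := hq.two_le
  have e : q * ((q ^ 12 + 1) * (q ^ 10 + 1) * (q ^ 6 + 1)) = q ^ 29 + q ^ 23 + q ^ 19 + q ^ 17 + q ^ 13 + q ^ 11 + q ^ 7 + q ^ 1 := by ring
  rcases h with h | ⟨h, h'⟩
  · have h3 : (q - 1) * (q + 1) * (q ^ 27 * 2) ≤ k := Nat.le_of_mul_le_mul_left (h.trans' (le_of_eq (by ring))) hq.pos
    have h4 : (q - 1) * (q + 1) + 1 = q ^ 2 := by
      obtain ⟨p, rfl⟩ := Nat.exists_eq_add_one.2 hq.pos
      simp; ring
    have h5 : q ^ 29 = q ^ 2 * q ^ 27 := by ring
    have h6 : 2 ^ 2 ≤ q ^ 2 := Nat.pow_le_pow_left h2 2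
    have p2 : ∀ e, e + 1 ≤ 27 → 2 * q ^ e ≤ q ^ 27 := fun e he =>
      (Nat.mul_le_mul_right _ h2).trans (by rw [← pow_succ']; exact Nat.pow_le_pow_right hq.pos he)
    have p4 : ∀ e, 2 + e ≤ 27 → 4 * q ^ e ≤ q ^ 27 := fun e he =>
      (Nat.mul_le_mul_right _ h6).trans (by rw [← pow_add]; exact Nat.pow_le_pow_right hq.pos he)
    have c23 := p4 23 (by norm_num)
    have c19 := p4 19 (by norm_num)
    have c17 := p4 17 (by norm_num)
    have c13 := p4 13 (by norm_num)
    have c11 := p4 11 (by norm_num)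
    have c7 := p4 7 (by norm_num)
    have c1 := p4 1 (by norm_num)
    have h7 : 3 * q ^ 27 ≤ (q - 1) * (q + 1) * q ^ 27 := Nat.mul_le_mul_right _ (by omega)
    rw [e, h5, ← h4, add_mul]
    rw [← mul_assoc] at h3
    omega
  by_contra! hlt
  obtain ⟨j, hj⟩ := Nat.exists_eq_add_of_le hlt.le
  by_cases h9 : q < 9
  · exact small q h9 h2 j (by omega) (by omega) (by rwa [hj, Nat.add_sub_cancel])
  · have a1 : q * k + q * j = q ^ 30 + (q ^ 24 + q ^ 20 + q ^ 18 + q ^ 14 + q ^ 12 + q ^ 8 + q ^ 2) := by rw [← mul_add, ← hj]; ring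
    have a2 : q * j ≤ q ^ 2 := by rw [sq]; exact Nat.mul_le_mul_left _ (by omega)
    have p9 : ∀ e, e + 1 ≤ 24 → 9 * q ^ e ≤ q ^ 24 := fun e he =>
      (Nat.mul_le_mul_right _ (not_lt.1 h9)).trans (by rw [← pow_succ']; exact Nat.pow_le_pow_right hq.pos he)
    have b19 := p9 20 (by norm_num)
    have b17 := p9 18 (by norm_num)
    have b13 := p9 14 (by norm_num)
    have b11 := p9 12 (by norm_num)
    have b7 := p9 8 (by norm_num)
    have b1 := p9 2 (by norm_num)
    have a3 : 9 ^ 5 * q ^ 24 ≤ q ^ 29 := by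
      rw [show q ^ 29 = q ^ 5 * q ^ 24 by ring]
      exact Nat.mul_le_mul_right _ (Nat.pow_le_pow_left (by omega) _)
    have a4 : 9 ^ 2 ≤ q ^ 24 := (Nat.pow_le_pow_left (by omega) _).trans (Nat.pow_le_pow_right hq.pos (by norm_num))
    have := excl hq (l := 8) (by omega) (by omega) (by omega) hj.symm h (R := q * k + 1 - q ^ 30) (by omega) (by omega)
    omega

end

/-- For the Chevalley group of type E₈ over a finite field with q elements, every irreducible complex representation of degree at least 2 has degree at least q(q¹² + 1)(q¹⁰ + 1)(q⁶ + 1). -/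
theorem result {F : Type*} [Field F] [Fintype F] (k : ℕ) (ρ : Representation ℂ (Cfsg.Lie.chevE8.group F) (Fin k → ℂ)) (hρ : ρ.IsIrreducible) (hk : 2 ≤ k) :
    Fintype.card F * (Fintype.card F ^ 12 + 1) * (Fintype.card F ^ 10 + 1) * (Fintype.card F ^ 6 + 1) ≤ k := by
  have hD : H37.IsChev Cfsg.Lie.chevE8 := by simp
  obtain ⟨_⟩ := H37.nonempty_chev hD
  have hq : IsPrimePow (Nat.card F) := Nat.card_eq_fintype_card (α := F) ▸ FiniteField.isPrimePow_card F
  have := H37.Md.split_bound hD (H39.certOKE8.chkL_spec H39.chkL_E8) (H39.certOKE8.chkQ_spec H39.chkQ_E8)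
    (by rintro (h | h) <;> exact absurd (congrArg Cfsg.Lie.ChevalleyDatum.rank h) (by decide))
    H37.E8.checked.agree hw ⟨239, by decide +kernel⟩ (by decide +kernel) hck (J := {j | j.val ∈ [6, 5, 0, 1, 4, 2, 3]}) (by decide +kernel)
    (F := F) ((H39.set_full Cfsg.Lie.chevE8.rank [7, 6, 5, 0, 1, 4, 2, 3] (by decide +kernel)).symm ▸
      H39.poin_step (H39.RD hD) H39.cmE8 (H39.RD_A_E8 hD) [6, 5, 0, 1, 4, 2, 3] 7 H39.layE8_8 H39.layE8_8_ok (Nat.card F)) ρ hρ hk
  rw [H39.layE8_8_len, hl] at this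
  rw [← Nat.card_eq_fintype_card]
  generalize Nat.card F = q at hq this
  refine le_of_eq_of_le (by ring) (arith hq (this.imp_right fun h => ⟨?_, ?_⟩))
  · convert h.1 using 2
    have h1 : 1 ≤ q ^ 30 := Nat.one_le_pow _ _ hq.pos
    simp only [H39.polyOf_cons, H39.polyOf_nil]
    zify [h1, show 1 ≤ q from hq.pos]
    ring
  · refine le_of_eq_of_le ?_ (Nat.add_le_add_right h.2 _)
    simp only [List.map_cons, List.map_nil, List.sum_cons, List.sum_nil, Nat.add_one_sub_one]
    zify [show 1 ≤ q from hq.pos]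
    ring

end Cfsg.Agent.S2339
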