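import Cfsg.Statements.S2340
import Cfsg.Agent.H37.MdS
import Cfsg.Agent.H37.OkE6

set_option autoImplicit false
open Cfsg

namespace Cfsg.Agent.S2340

section

open Cfsg.Lie Cfsg.Agent.H37 Cfsg.Agent.H37.Md Cfsg.Agent.H38 H39

/-- layers of an orbit -/
def lay : List (List (List ℤ)) :=
  [[[.ofNat 0, .ofNat 1, .ofNat 0, .ofNat 0, .ofNat 0, .ofNat 0]],
   [[.ofNat 0, .negSucc 0, .ofNat 0, .ofNat 1, .ofNat 0, .ofNat 0]],
   [[.ofNat 0, .ofNat 0, .ofNat 1, .negSucc 0, .ofNat 1, .ofNat 0]],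
   [[.ofNat 1, .ofNat 0, .negSucc 0, .ofNat 0, .ofNat 1, .ofNat 0], [.ofNat 0, .ofNat 0, .ofNat 1, .ofNat 0, .negSucc 0, .ofNat 1]],
   [[.negSucc 0, .ofNat 0, .ofNat 0, .ofNat 0, .ofNat 1, .ofNat 0], [.ofNat 1, .ofNat 0, .negSucc 0, .ofNat 1, .negSucc 0, .ofNat 1], [.ofNat 0, .ofNat 0, .ofNat 1, .ofNat 0, .ofNat 0, .negSucc 0]],
   [[.negSucc 0, .ofNat 0, .ofNat 0, .ofNat 1, .negSucc 0, .ofNat 1], [.ofNat 1, .ofNat 1, .ofNat 0, .negSucc 0, .ofNat 0, .ofNat 1], [.ofNat 1, .ofNat 0, .negSucc 0, .ofNat 1, .ofNat 0, .negSucc 0]],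
   [[.negSucc 0, .ofNat 1, .ofNat 1, .negSucc 0, .ofNat 0, .ofNat 1], [.negSucc 0, .ofNat 0, .ofNat 0, .ofNat 1, .ofNat 0, .negSucc 0], [.ofNat 1, .negSucc 0, .ofNat 0, .ofNat 0, .ofNat 0, .ofNat 1], [.ofNat 1, .ofNat 1, .ofNat 0, .negSucc 0, .ofNat 1, .negSucc 0]],
   [[.negSucc 0, .negSucc 0, .ofNat 1, .ofNat 0, .ofNat 0, .ofNat 1], [.ofNat 0, .ofNat 1, .negSucc 0, .ofNat 0, .ofNat 0, .ofNat 1], [.negSucc 0, .ofNat 1, .ofNat 1, .negSucc 0, .ofNat 1, .negSucc 0], [.ofNat 1, .negSucc 0, .ofNat 0, .ofNat 0, .ofNat 1, .negSucc 0], [.ofNat 1, .ofNat 1, .ofNat 0, .ofNat 0, .negSucc 0, .ofNat 0]],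
   [[.ofNat 0, .negSucc 0, .negSucc 0, .ofNat 1, .ofNat 0, .ofNat 1], [.negSucc 0, .negSucc 0, .ofNat 1, .ofNat 0, .ofNat 1, .negSucc 0], [.ofNat 0, .ofNat 1, .negSucc 0, .ofNat 0, .ofNat 1, .negSucc 0], [.negSucc 0, .ofNat 1, .ofNat 1, .ofNat 0, .negSucc 0, .ofNat 0], [.ofNat 1, .negSucc 0, .ofNat 0, .ofNat 1, .negSucc 0, .ofNat 0]],
   [[.ofNat 0, .ofNat 0, .ofNat 0, .negSucc 0, .ofNat 1, .ofNat 1], [.ofNat 0, .negSucc 0, .negSucc 0, .ofNat 1, .ofNat 1, .negSucc 0], [.negSucc 0, .negSucc 0, .ofNat 1, .ofNat 1, .negSucc 0, .ofNat 0], [.ofNat 0, .ofNat 1, .negSucc 0, .ofNat 1, .negSucc 0, .ofNat 0], [.ofNat 1, .ofNat 0, .ofNat 1, .negSucc 0, .ofNat 0, .ofNat 0]],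
   [[.ofNat 0, .ofNat 0, .ofNat 0, .ofNat 0, .negSucc 0, .ofNat 2], [.ofNat 0, .ofNat 0, .ofNat 0, .negSucc 0, .ofNat 2, .negSucc 0], [.ofNat 0, .negSucc 0, .negSucc 0, .ofNat 2, .negSucc 0, .ofNat 0], [.negSucc 0, .ofNat 0, .ofNat 2, .negSucc 0, .ofNat 0, .ofNat 0], [.ofNat 0, .ofNat 2, .ofNat 0, .negSucc 0, .ofNat 0, .ofNat 0], [.ofNat 2, .ofNat 0, .negSucc 0, .ofNat 0, .ofNat 0, .ofNat 0]],
   [[.ofNat 0, .ofNat 0, .ofNat 0, .ofNat 0, .ofNat 1, .negSucc 1], [.ofNat 0, .ofNat 0, .ofNat 0, .ofNat 1, .negSucc 1, .ofNat 1], [.ofNat 0, .ofNat 1, .ofNat 1, .negSucc 1, .ofNat 1, .ofNat 0], [.ofNat 1, .ofNat 0, .negSucc 1, .ofNat 1, .ofNat 0, .ofNat 0], [.ofNat 0, .negSucc 1, .ofNat 0, .ofNat 1, .ofNat 0, .ofNat 0], [.negSucc 1, .ofNat 0, .ofNat 1, .ofNat 0, .ofNat 0, .ofNat 0]],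
   [[.ofNat 0, .ofNat 0, .ofNat 0, .ofNat 1, .negSucc 0, .negSucc 0], [.ofNat 0, .ofNat 1, .ofNat 1, .negSucc 0, .negSucc 0, .ofNat 1], [.ofNat 0, .negSucc 0, .ofNat 1, .negSucc 0, .ofNat 1, .ofNat 0], [.ofNat 1, .ofNat 1, .negSucc 0, .negSucc 0, .ofNat 1, .ofNat 0], [.negSucc 0, .ofNat 0, .negSucc 0, .ofNat 1, .ofNat 0, .ofNat 0]],
   [[.ofNat 0, .ofNat 1, .ofNat 1, .negSucc 0, .ofNat 0, .negSucc 0], [.ofNat 0, .negSucc 0, .ofNat 1, .ofNat 0, .negSucc 0, .ofNat 1], [.ofNat 1, .ofNat 1, .negSucc 0, .ofNat 0, .negSucc 0, .ofNat 1], [.ofNat 1, .negSucc 0, .negSucc 0, .ofNat 0, .ofNat 1, .ofNat 0], [.negSucc 0, .ofNat 1, .ofNat 0, .negSucc 0, .ofNat 1, .ofNat 0]],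
   [[.ofNat 0, .negSucc 0, .ofNat 1, .ofNat 0, .ofNat 0, .negSucc 0], [.ofNat 1, .ofNat 1, .negSucc 0, .ofNat 0, .ofNat 0, .negSucc 0], [.ofNat 1, .negSucc 0, .negSucc 0, .ofNat 1, .negSucc 0, .ofNat 1], [.negSucc 0, .ofNat 1, .ofNat 0, .ofNat 0, .negSucc 0, .ofNat 1], [.negSucc 0, .negSucc 0, .ofNat 0, .ofNat 0, .ofNat 1, .ofNat 0]],
   [[.ofNat 1, .negSucc 0, .negSucc 0, .ofNat 1, .ofNat 0, .negSucc 0], [.negSucc 0, .ofNat 1, .ofNat 0, .ofNat 0, .ofNat 0, .negSucc 0], [.negSucc 0, .negSucc 0, .ofNat 0, .ofNat 1, .negSucc 0, .ofNat 1], [.ofNat 1, .ofNat 0, .ofNat 0, .negSucc 0, .ofNat 0, .ofNat 1]],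
   [[.negSucc 0, .negSucc 0, .ofNat 0, .ofNat 1, .ofNat 0, .negSucc 0], [.ofNat 1, .ofNat 0, .ofNat 0, .negSucc 0, .ofNat 1, .negSucc 0], [.negSucc 0, .ofNat 0, .ofNat 1, .negSucc 0, .ofNat 0, .ofNat 1]],
   [[.negSucc 0, .ofNat 0, .ofNat 1, .negSucc 0, .ofNat 1, .negSucc 0], [.ofNat 1, .ofNat 0, .ofNat 0, .ofNat 0, .negSucc 0, .ofNat 0], [.ofNat 0, .ofNat 0, .negSucc 0, .ofNat 0, .ofNat 0, .ofNat 1]],
   [[.ofNat 0, .ofNat 0, .negSucc 0, .ofNat 0, .ofNat 1, .negSucc 0], [.negSucc 0, .ofNat 0, .ofNat 1, .ofNat 0, .negSucc 0, .ofNat 0]],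
   [[.ofNat 0, .ofNat 0, .negSucc 0, .ofNat 1, .negSucc 0, .ofNat 0]],
   [[.ofNat 0, .ofNat 1, .ofNat 0, .negSucc 0, .ofNat 0, .ofNat 0]],
   [[.ofNat 0, .negSucc 0, .ofNat 0, .ofNat 0, .ofNat 0, .ofNat 0]]]

theorem lay_ok : stepOK cmE6 chevE6.rank [0, 2, 3, 4, 5] 1 lay = true := by decide +kernel

theorem lay_len : lay.map List.length = [1, 1, 1, 2, 3, 3, 4, 5, 5, 5, 6, 6, 5, 5, 5, 4, 3, 3, 2, 1, 1, 1] := by decide +kernel

/-- a generic coweight -/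
def w (i : ℕ) : ℤ := [4412994, 3565923, 5680260, 6935238, 4623525, 2311764].getD i 0

/-- witnesses -/
def cw (r : ℕ) : ℕ := fld 44642956257885284838264783653751434276066152435754450980543679663034165213612903790636252140658535425161863605616255396531664335048696036715699455078164826773004095645024256 8 256 r

/-- numbers of steps -/
def dt (r : ℕ) : ℕ := fld 10665350953182619543419129748197819955115709721719923366535073317373372924840466865307711537770432473417804374365304231909357061863434784108424182461518407752312890584989696 8 256 r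

theorem hw : ∀ r, r + 1 < chevE6.nroots → fv chevE6 w r < fv chevE6 w (r + 1) :=
  mono_of_chk E6.checked.agree (by decide +kernel)

theorem hck : (triv w hw).chk E6.tab 71 10 cw dt = true := by decide +kernel

theorem hl : ((List.range chevE6.nroots).map dt).filter (· ≠ 0) = [1, 1, 2, 1, 2, 3, 1, 2, 3, 4, 1, 2, 3, 4, 3, 4, 5, 5, 6, 7, 1, 2, 3, 4, 5, 4, 5, 6, 6, 7, 8, 7, 8, 9, 10, 11] := by decide +kernel

theorem small : ∀ q < 9, 2 ≤ q → ∀ j < 7, 0 < j →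
    ¬(q * ((q ^ 6 + q ^ 3 + 1) * (q ^ 4 + 1)) - j ∣ (q ^ 6 + q ^ 3 + 1) * (q ^ 4 + 1) * (q ^ 12 - 1) * q ^ (10 + 1)) := by decide +kernel

theorem arith {q k : ℕ} (hq : IsPrimePow q) (h : (q - 1) * (q + 1) * (q ^ 10 * 2) ≤ q * k ∨
    (k ∣ (q ^ 6 + q ^ 3 + 1) * (q ^ 4 + 1) * (q ^ 12 - 1) * q ^ (10 + 1) ∧ q * ((q ^ 6 + q ^ 3 + 1) * (q ^ 4 + 1)) ≤ k + 6)) :
    q * ((q ^ 6 + q ^ 3 + 1) * (q ^ 4 + 1)) ≤ k := by
  have h2 := hq.two_le
  have e : q * ((q ^ 6 + q ^ 3 + 1) * (q ^ 4 + 1)) = q ^ 11 + q ^ 8 + q ^ 7 + q ^ 5 + q ^ 4 + q ^ 1 := by ring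
  rcases h with h | ⟨h, h'⟩
  · have h3 : (q - 1) * (q + 1) * (q ^ 9 * 2) ≤ k := Nat.le_of_mul_le_mul_left (h.trans' (le_of_eq (by ring))) hq.pos
    have h4 : (q - 1) * (q + 1) + 1 = q ^ 2 := by
      obtain ⟨p, rfl⟩ := Nat.exists_eq_add_one.2 hq.pos
      simp; ring
    have h5 : q ^ 11 = q ^ 2 * q ^ 9 := by ring
    have h6 : 2 ^ 2 ≤ q ^ 2 := Nat.pow_le_pow_left h2 2
    have p2 : ∀ e, e + 1 ≤ 9 → 2 * q ^ e ≤ q ^ 9 := fun e he =>
      (Nat.mul_le_mul_right _ h2).trans (by rw [← pow_succ']; exact Nat.pow_le_pow_right hq.pos he)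
    have p4 : ∀ e, 2 + e ≤ 9 → 4 * q ^ e ≤ q ^ 9 := fun e he =>
      (Nat.mul_le_mul_right _ h6).trans (by rw [← pow_add]; exact Nat.pow_le_pow_right hq.pos he)
    have c8 := p2 8 (by norm_num)
    have c7 := p4 7 (by norm_num)
    have c5 := p4 5 (by norm_num)
    have c4 := p4 4 (by norm_num)
    have c1 := p4 1 (by norm_num)
    have h7 : 3 * q ^ 9 ≤ (q - 1) * (q + 1) * q ^ 9 := Nat.mul_le_mul_right _ (by omega)
    rw [e, h5, ← h4, add_mul]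
    rw [← mul_assoc] at h3
    omega
  by_contra! hlt
  obtain ⟨j, hj⟩ := Nat.exists_eq_add_of_le hlt.le
  by_cases h9 : q < 9
  · exact small q h9 h2 j (by omega) (by omega) (by rwa [hj, Nat.add_sub_cancel])
  · have a1 : q * k + q * j = q ^ 12 + (q ^ 9 + q ^ 8 + q ^ 6 + q ^ 5 + q ^ 2) := by rw [← mul_add, ← hj]; ring
    have a2 : q * j ≤ q ^ 2 := by rw [sq]; exact Nat.mul_le_mul_left _ (by omega)
    have p9 : ∀ e, e + 1 ≤ 9 → 9 * q ^ e ≤ q ^ 9 := fun e he =>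
      (Nat.mul_le_mul_right _ (not_lt.1 h9)).trans (by rw [← pow_succ']; exact Nat.pow_le_pow_right hq.pos he)
    have b7 := p9 8 (by norm_num)
    have b5 := p9 6 (by norm_num)
    have b4 := p9 5 (by norm_num)
    have b1 := p9 2 (by norm_num)
    have a3 : 9 ^ 2 * q ^ 9 ≤ q ^ 11 := by
      rw [show q ^ 11 = q ^ 2 * q ^ 9 by ring]
      exact Nat.mul_le_mul_right _ (Nat.pow_le_pow_left (by omega) _)
    have a4 : 9 ^ 2 ≤ q ^ 9 := (Nat.pow_le_pow_left (by omega) _).trans (Nat.pow_le_pow_right hq.pos (by norm_num))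
    have := excl hq (l := 6) (by omega) (by omega) (by omega) hj.symm h (R := q * k + 1 - q ^ 12) (by omega) (by omega)
    omega

end

/-- For the Chevalley group of type E₆ over a finite field with q elements (the group generated by the root elements), every irreducible complex representation of degree at least 2 has degree at least q(q⁶ + q³ + 1)(q⁴ + 1). -/
theorem result {F : Type*} [Field F] [Fintype F] :
    (∀ (k : ℕ) (ρ : Representation ℂ (Cfsg.Lie.chevE6.group F) (Fin k → ℂ)), ρ.IsIrreducible → 2 ≤ k → Fintype.card F * (Fintype.card F ^ 6 + Fintype.card F ^ 3 + 1) * (Fintype.card F ^ 4 + 1) ≤ k) := by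
  intro k ρ hρ hk
  have hD : H37.IsChev Cfsg.Lie.chevE6 := by simp
  obtain ⟨_⟩ := H37.nonempty_chev hD
  have hq : IsPrimePow (Nat.card F) := Nat.card_eq_fintype_card (α := F) ▸ FiniteField.isPrimePow_card F
  have := H37.Md.split_bound hD (H39.certOKE6.chkL_spec H39.chkL_E6) (H39.certOKE6.chkQ_spec H39.chkQ_E6)
    (by rintro (h | h) <;> exact absurd (congrArg Cfsg.Lie.ChevalleyDatum.rank h) (by decide))
    H37.E6.checked.agree hw ⟨71, by decide +kernel⟩ (by decide +kernel) hck (J := {j | j.val ∈ [0, 2, 3, 4, 5]}) (by decide +kernel)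
    (F := F) ((H39.set_full Cfsg.Lie.chevE6.rank [1, 0, 2, 3, 4, 5] (by decide +kernel)).symm ▸
      H39.poin_step (H39.RD hD) H39.cmE6 (H39.RD_A_E6 hD) [0, 2, 3, 4, 5] 1 lay lay_ok (Nat.card F)) ρ hρ hk
  rw [lay_len, hl] at this
  rw [← Nat.card_eq_fintype_card]
  generalize Nat.card F = q at hq this
  refine le_of_eq_of_le (by ring) (arith hq (this.imp_right fun h => ⟨?_, ?_⟩))
  · convert h.1 using 2
    have h1 : 1 ≤ q ^ 12 := Nat.one_le_pow _ _ hq.pos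
    simp only [H39.polyOf_cons, H39.polyOf_nil]
    zify [h1, show 1 ≤ q from hq.pos]
    ring
  · refine le_of_eq_of_le ?_ (Nat.add_le_add_right h.2 _)
    simp only [List.map_cons, List.map_nil, List.sum_cons, List.sum_nil, Nat.add_one_sub_one]
    zify [show 1 ≤ q from hq.pos]
    ring

end Cfsg.Agent.S2340
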