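import Cfsg.Statements.S2341
import Cfsg.Agent.H37.MdU
import Cfsg.Agent.H37.OkE6
import Cfsg.Agent.H37.Twist
import Cfsg.Agent.H40.E6b

set_option autoImplicit false
open Cfsg

namespace Cfsg.Agent.S2341

section

open Cfsg.Lie Cfsg.Agent.H37 Cfsg.Agent.H37.Md Cfsg.Agent.H40 Cfsg.Agent.H38 H39

/-- representatives of the orbits -/
def rep (r : ℕ) : ℕ := [0, 1, 2, 3, 4, 3, 6, 7, 8, 9, 10, 11, 12, 13, 14, 15, 4, 7, 18, 9, 20, 21, 10, 21, 24, 25, 12, 27, 28, 29, 13, 28, 32, 14, 29, 15, 36, 37, 38, 39, 40, 41, 37, 40, 44, 45, 46, 47, 48, 49, 48, 51, 52, 53, 54, 55, 36, 38, 41, 45, 60, 49, 52, 63, 54, 65, 66, 55, 66, 69, 70, 71].getD r 0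

/-- a generic invariant coweight -/
def w (i : ℕ) : ℤ := [6963, 7296, 10926, 14589, 10926, 6963].getD i 0

theorem τ_lt : ∀ r < chevE6.nroots, tauE6 r < chevE6.nroots := by decide +kernel

theorem chk1 : ∀ r < 72, (tauE6 r ≠ r → E6.tab.pair r (tauE6 r) = 0) ∧
    ∀ s < 72, E6.tab.pair (tauE6 r) (tauE6 s) = E6.tab.pair r s := by decide +kernel

set_option synthInstance.maxSize 2000 in
theorem chk2 : ∀ r < 72, ∀ s < 72, tauE6 r = r → tauE6 s = s → E6.tab.pair r s = -1 →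
    ∃ δ < 72, tauE6 δ = δ ∧ E6.tab.pair r δ = 0 ∧ E6.tab.pair s δ = 1 := by decide +kernel

/-- the numerical data of the twist -/
def C : TwN chevE6 where
  τ := tauE6
  γ := gamE6
  m := 2
  rep := rep
  w := w
  hm := .inl rfl
  τ_lt := τ_lt
  γ_neg := by decide +kernel
  τ_p r hr s hs := by
    rw [← E6.checked.agree.pair hr hs, ← E6.checked.agree.pair (τ_lt r hr) (τ_lt s hs), (chk1 r hr).2 s hs]
  τ2 _ := by decide +kernel
  τ3 h := absurd h (by decide)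
  γ_fix := by decide +kernel
  orth r hr h := by rw [← E6.checked.agree.pair hr (τ_lt r hr), (chk1 r hr).1 h]
  rep_mem := by decide +kernel
  rep_τ := by decide +kernel
  f_τ := by decide +kernel
  f_inj := by decide +kernel

/-- witnesses -/
def cw (r : ℕ) : ℕ := fld 44642953367290993897260844764121935128255372114561513144279086318251213587373329420993974877321975369855994367151782185205578514659065861958967446498297620340408130753003520 8 256 r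

/-- numbers of steps -/
def dt (r : ℕ) : ℕ := fld 10665350490912197520853853959126860562313440036205676103741279100616183009654617516690095011941928237016337719353592618806756726457844077293654545699152570465189415788478464 8 256 r

theorem hck : C.chk E6.tab 71 10 cw dt = true := by decide +kernel

theorem hl : ((List.range chevE6.nroots).map dt).filter (· ≠ 0) = [1, 3, 1, 2, 4, 5, 5, 6, 7, 9, 10, 11] := by
  decide +kernel

theorem small : ∀ q < 9, 2 ≤ q → ∀ j < 3, 0 < j → ¬(q * ((q ^ 6 - q ^ 3 + 1) * (q ^ 4 + 1)) - j ∣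
    q ^ 36 * ((q ^ 2 - 1) * (q ^ 5 + 1) * (q ^ 6 - 1) * (q ^ 8 - 1) * (q ^ 9 + 1) * (q ^ 12 - 1))) := by decide +kernel

theorem arith {q k : ℕ} (hq : IsPrimePow q)
    (hd : k ∣ q ^ 36 * ((q ^ 2 - 1) * (q ^ 5 + 1) * (q ^ 6 - 1) * (q ^ 8 - 1) * (q ^ 9 + 1) * (q ^ 12 - 1)))
    (h : (q - 1) * (q + 1) * (q ^ 10 * 2) ≤ q * k ∨ q * ((q ^ 6 - q ^ 3 + 1) * (q ^ 4 + 1)) ≤ k + 2) :
    q * ((q ^ 6 - q ^ 3 + 1) * (q ^ 4 + 1)) ≤ k := by
  have h2 := hq.two_le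
  have h36 : q ^ 3 ≤ q ^ 6 := Nat.pow_le_pow_right hq.pos (by norm_num)
  have e : q * ((q ^ 6 - q ^ 3 + 1) * (q ^ 4 + 1)) + q ^ 8 + q ^ 4 = q ^ 11 + q ^ 7 + q ^ 5 + q ^ 1 := by
    zify [h36]; ring
  have m : ∀ a b, a ≤ b → q ^ a ≤ q ^ b := fun a b => Nat.pow_le_pow_right hq.pos
  rcases h with h | h
  · have h3 : (q - 1) * (q + 1) * (q ^ 9 * 2) ≤ k := Nat.le_of_mul_le_mul_left (h.trans' (le_of_eq (by ring))) hq.pos
    have h4 : (q - 1) * (q + 1) + 1 = q ^ 2 := by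
      obtain ⟨p, rfl⟩ := Nat.exists_eq_add_one.2 hq.pos
      simp; ring
    have h5 : q ^ 11 = q ^ 2 * q ^ 9 := by ring
    have h6 : 2 ^ 2 ≤ q ^ 2 := Nat.pow_le_pow_left h2 2
    have h7 : 3 * q ^ 9 ≤ (q - 1) * (q + 1) * q ^ 9 := Nat.mul_le_mul_right _ (by omega)
    have := m 7 8 (by norm_num)
    have := m 1 4 (by norm_num)
    have := m 5 9 (by norm_num)
    rw [h5, ← h4, add_mul _ 1 (q ^ 9)] at e
    rw [← mul_assoc] at h3
    omega
  by_contra! hlt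
  obtain ⟨j, hj⟩ := Nat.exists_eq_add_of_le hlt.le
  by_cases h9 : q < 9
  · exact small q h9 h2 j (by omega) (by omega) (by rwa [hj, Nat.add_sub_cancel])
  have a3 : 9 ^ 3 * q ^ 8 ≤ q ^ 11 := by
    rw [show q ^ 11 = q ^ 3 * q ^ 8 by ring]
    exact Nat.mul_le_mul_right _ (Nat.pow_le_pow_left (by omega) _)
  have a4 : 9 ^ 4 * q ^ 4 ≤ q ^ 8 := by
    rw [show q ^ 8 = q ^ 4 * q ^ 4 by ring]
    exact Nat.mul_le_mul_right _ (Nat.pow_le_pow_left (by omega) _)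
  have a5 : 2 * q ^ 1 ≤ q ^ 4 := (Nat.mul_le_mul_right _ h2).trans (by rw [← pow_succ']; exact m 2 4 (by norm_num))
  have a6 := m 2 4 (by norm_num)
  have a7 := m 0 2 (by norm_num)
  have hk : (k : ℤ) = q ^ 11 + q ^ 7 + q ^ 5 + q - q ^ 8 - q ^ 4 - j := by
    rw [hj] at e; zify at e; linarith
  rw [pow_one] at a5 e
  obtain rfl | rfl : j = 1 ∨ j = 2 := by omega
  · have := excl2 hq h2 one_pos hj.symm hd (c := 117649 * (q ^ 4 - q ^ 2 + 1)) (by omega)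
      ((86440) * (q : ℤ) ^ 0 + (79103) * (q : ℤ) ^ 1 + (145884) * (q : ℤ) ^ 2 + (113592) * (q : ℤ) ^ 3
       + (-27818) * (q : ℤ) ^ 4 + (335052) * (q : ℤ) ^ 5 + (11342) * (q : ℤ) ^ 6
       + (-25272) * (q : ℤ) ^ 7 + (-247109) * (q : ℤ) ^ 8 + (-236801) * (q : ℤ) ^ 9
       + (186913) * (q : ℤ) ^ 10 + (-251055) * (q : ℤ) ^ 11 + (54720) * (q : ℤ) ^ 12
       + (-426645) * (q : ℤ) ^ 13 + (92638) * (q : ℤ) ^ 14 + (148981) * (q : ℤ) ^ 15
       + (-29082) * (q : ℤ) ^ 16 + (126428) * (q : ℤ) ^ 17 + (-473808) * (q : ℤ) ^ 18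
       + (394927) * (q : ℤ) ^ 19 + (-99035) * (q : ℤ) ^ 20 + (31314) * (q : ℤ) ^ 21
       + (-261394) * (q : ℤ) ^ 22 + (-311563) * (q : ℤ) ^ 23 + (309321) * (q : ℤ) ^ 24
       + (-73184) * (q : ℤ) ^ 25 + (260806) * (q : ℤ) ^ 26 + (-195154) * (q : ℤ) ^ 27
       + (167141) * (q : ℤ) ^ 28 + (247483) * (q : ℤ) ^ 29 + (140607) * (q : ℤ) ^ 30
       + (204661) * (q : ℤ) ^ 31 + (-136377) * (q : ℤ) ^ 32 + (121261) * (q : ℤ) ^ 33
       + (-18953) * (q : ℤ) ^ 34 + (-45503) * (q : ℤ) ^ 35 + (-111815) * (q : ℤ) ^ 36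
       + (-170397) * (q : ℤ) ^ 37)
      ((204089) * (q : ℤ) ^ 0 + (-7337) * (q : ℤ) ^ 1 + (153221) * (q : ℤ) ^ 2 + (-39629) * (q : ℤ) ^ 3
       + (215900) * (q : ℤ) ^ 4 + (111815) * (q : ℤ) ^ 5 + (170397) * (q : ℤ) ^ 6) (by
        push_cast [a6, Nat.one_le_pow _ _ hq.pos]; rw [hk]; push_cast; ring)
    clear hk
    omega
  · have := excl2 hq (by omega) two_pos hj.symm hd (c := 2737152 * (q - 1)) (by omega)
      ((720187) * (q : ℤ) ^ 0 + (-385750) * (q : ℤ) ^ 1 + (2428700) * (q : ℤ) ^ 2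
       + (2531666) * (q : ℤ) ^ 3 + (-793972) * (q : ℤ) ^ 4 + (-3007203) * (q : ℤ) ^ 5
       + (-2250573) * (q : ℤ) ^ 6 + (2774444) * (q : ℤ) ^ 7 + (3425791) * (q : ℤ) ^ 8
       + (-332219) * (q : ℤ) ^ 9 + (-4554064) * (q : ℤ) ^ 10 + (-2982413) * (q : ℤ) ^ 11
       + (2129459) * (q : ℤ) ^ 12 + (2747877) * (q : ℤ) ^ 13 + (-2354522) * (q : ℤ) ^ 14
       + (-5559259) * (q : ℤ) ^ 15 + (-692402) * (q : ℤ) ^ 16 + (4845710) * (q : ℤ) ^ 17
       + (3046285) * (q : ℤ) ^ 18 + (-4270815) * (q : ℤ) ^ 19 + (-6175784) * (q : ℤ) ^ 20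
       + (1030359) * (q : ℤ) ^ 21 + (6835795) * (q : ℤ) ^ 22 + (2908466) * (q : ℤ) ^ 23
       + (-3930794) * (q : ℤ) ^ 24 + (-5102305) * (q : ℤ) ^ 25 + (1341802) * (q : ℤ) ^ 26
       + (5598015) * (q : ℤ) ^ 27 + (2257517) * (q : ℤ) ^ 28 + (-1990571) * (q : ℤ) ^ 29
       + (-1746112) * (q : ℤ) ^ 30 + (2484787) * (q : ℤ) ^ 31 + (2940073) * (q : ℤ) ^ 32
       + (62180) * (q : ℤ) ^ 33 + (-2319747) * (q : ℤ) ^ 34 + (-762405) * (q : ℤ) ^ 35
       + (2183612) * (q : ℤ) ^ 36 + (1675730) * (q : ℤ) ^ 37 + (-541612) * (q : ℤ) ^ 38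
       + (-2494390) * (q : ℤ) ^ 39 + (-1493447) * (q : ℤ) ^ 40)
      ((-1296778) * (q : ℤ) ^ 0 + (1245465) * (q : ℤ) ^ 1 + (3946372) * (q : ℤ) ^ 2
       + (3880097) * (q : ℤ) ^ 3 + (546949) * (q : ℤ) ^ 4 + (-1149496) * (q : ℤ) ^ 5
       + (-674787) * (q : ℤ) ^ 6 + (2035059) * (q : ℤ) ^ 7 + (2494390) * (q : ℤ) ^ 8
       + (1493447) * (q : ℤ) ^ 9) (by
        push_cast [show 1 ≤ q from hq.pos, Nat.one_le_pow _ _ hq.pos]; rw [hk]; push_cast; ring)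
    clear hk
    omega

end

/-- For the twisted group ²E₆(q), realised over the field with q² elements (q a prime power), every irreducible complex representation of degree at least 2 has degree at least q(q⁶ − q³ + 1)(q⁴ + 1). -/
theorem result {K : Type*} [Field K] [Fintype K] (q : ℕ) (hq : IsPrimePow q) (hK : Fintype.card K = q ^ 2) :
    (∀ (k : ℕ) (ρ : Representation ℂ (Cfsg.Lie.twistedE6 K q) (Fin k → ℂ)), ρ.IsIrreducible → 2 ≤ k → q * (q ^ 6 - q ^ 3 + 1) * (q ^ 4 + 1) ≤ k) := by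
  intro k ρ hρ hk
  letI := H40.chE6
  obtain ⟨-, -, -, φ, -, hφ⟩ := H37.exists_frobHom hK
  have h2 := H40.frob_iter_self hK hφ
  rw [mul_assoc]
  refine arith hq ((H5.degree_dvd_card ⟨k, ρ, hρ, rfl⟩ (by simp [Representation.char_one])).trans
    (Dvd.intro_left _ ((H40.card_E6 hq hK hφ).trans (by ring)))) ?_
  revert ρ
  rw [← H40.Fix_E6 h2 hφ]
  intro ρ hρ
  have hc := H37.Md.card_F0 hq hK hφ
  have hL := H39.certOKE6.chkL_spec H39.chkL_E6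
  have A := H37.E6.checked.agree
  have h3 : C.m = 3 → ∀ t, φ (φ (φ t)) = t := fun h => absurd h (by decide)
  have h4 : ∀ r < Cfsg.Lie.chevE6.nroots, C.τ r ≠ r → Nat.card K = Nat.card (φ.eqLocusField (RingHom.id K)) ^ C.m :=
    fun _ _ _ => by rw [hc, Nat.card_eq_fintype_card, hK]; rfl
  obtain ⟨σ, hσ, ρ', h⟩ := H37.Md.exists_tw H40.isChev_E6 hL C (fun _ => h2) h3 h4
    (H40.TE φ) rfl rfl (H40.TE_e φ) (H40.simple_E6 h2 (H40.exists_sq_ne_one hq hK le_rfl)) ρ hρ hk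
  have := H37.Md.mainN _ _ _ σ φ hσ _ _ _ A ρ' (fun r hr δ hδ _ _ h => ?_) (fun r hr s hs h1 h2 h3 => ?_)
    ⟨71, by decide⟩ (by decide +kernel) hck (h _ rfl) hc
  · rw [hl, Module.finrank_fin_fun] at this
    refine this.imp_right fun h => le_of_eq_of_le ?_ (Nat.add_le_add_right h.2 _)
    simp only [List.map_cons, List.map_nil, List.sum_cons, List.sum_nil, Nat.add_one_sub_one]
    zify [show 1 ≤ q from hq.pos, show q ^ 3 ≤ q ^ 6 from Nat.pow_le_pow_right hq.pos (by norm_num)]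
    ring
  · have hsym := (H37.Md.mkTS _ hL C σ φ hσ (fun _ => h2) h3 h4).p_symm
    obtain ⟨c, h1, h2⟩ := H39.certOKE6.chkQ_spec H39.chkQ_E6 ⟨r, hr⟩ ⟨δ, hδ⟩ (fun e => by
      rw [show δ = r from congrArg Fin.val e, H37.Chev.pairing_self r hr] at h; omega)
      ((H39.pairD _).ne_neg_of (show -1 ≤ Cfsg.Lie.chevE6.pairing r δ by omega))
    exact ⟨c, c.2, (hsym ⟨δ, hδ⟩ c).trans h1, (hsym ⟨r, hr⟩ c).trans h2⟩
  · obtain ⟨δ, hδ, a1, a2, a3⟩ := chk2 r hr s hs h1 h2 ((A.pair hr hs).trans h3)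
    exact ⟨δ, hδ, a1, (A.pair hr hδ).symm.trans a2, (A.pair hs hδ).symm.trans a3⟩

end Cfsg.Agent.S2341
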