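import Cfsg.Statements.S2342
import Cfsg.Agent.H37.MdU
import Cfsg.Agent.H37.OkD4
import Cfsg.Agent.H37.Twist
import Cfsg.Agent.H39.IsoSL
import Cfsg.Agent.H40.D4a

set_option autoImplicit false
open Cfsg

namespace Cfsg.Agent.S2342

section

open Cfsg.Lie Cfsg.Agent.H37 Cfsg.Agent.H37.Md Cfsg.Agent.H40

/-- the numerical data of the triality -/
def C : TwN chevD4 where
  τ := tauD4
  γ := gamD4
  m := 3
  rep r := [0, 1, 2, 2, 4, 5, 2, 4, 4, 9, 5, 5, 12, 12, 14, 15, 15, 17, 12, 15, 17, 17, 22, 23].getD r 0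
  w i := [42, 64, 42, 42].getD i 0
  hm := .inr rfl
  τ_lt := by decide +kernel
  γ_neg := by decide +kernel
  τ_p := by decide +kernel
  τ2 h := absurd h (by decide)
  τ3 _ := by decide +kernel
  γ_fix := by decide +kernel
  orth := by decide +kernel
  rep_mem := by decide +kernel
  rep_τ := by decide +kernel
  f_τ := by decide +kernel
  f_inj := by decide +kernel

theorem arith {q k : ℕ} (hq : IsPrimePow q) (hd : k ∣ q ^ 12 * (q ^ 2 - 1) * (q ^ 6 - 1) * (q ^ 8 + q ^ 4 + 1))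
    (h : (q - 1) * (q + 1) * (q ^ 4 * 2) ≤ q * k ∨ (q - 1) * (q ^ (4 + 1) + q ^ 4 + q) ≤ q * k) :
    q * (q ^ 4 - q ^ 2 + 1) ≤ k := by
  obtain ⟨p, rfl⟩ := Nat.exists_eq_add_one.2 hq.pos
  have hp : 1 ≤ p := by have := hq.two_le; omega
  have e1 : (p + 1) ^ 4 - (p + 1) ^ 2 = (p + 1) ^ 2 * (p * (p + 2)) := Nat.sub_eq_of_eq_add (by ring)
  have e2 : (p + 1) ^ 2 - 1 = p * (p + 2) := Nat.sub_eq_of_eq_add (by ring)
  have e3 : (p + 1) ^ 6 - 1 = p * (p + 2) * ((p + 1) ^ 4 + (p + 1) ^ 2 + 1) := Nat.sub_eq_of_eq_add (by ring)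
  rw [e1]
  rw [Nat.add_sub_cancel] at h
  rcases h with h | h
  · have h1 : (p + 1) * ((p + 1) ^ 2 * (p * (p + 2))) * 2 ≤ k :=
      Nat.le_of_mul_le_mul_left (h.trans' (le_of_eq (by ring))) hq.pos
    have h2 : 0 < (p + 1) ^ 2 * (p * (p + 2)) := by positivity
    nlinarith
  have h1 : p * ((p + 1) ^ 4 + (p + 1) ^ 3 + 1) ≤ k := Nat.le_of_mul_le_mul_left (h.trans' (le_of_eq (by ring))) hq.pos
  have h2 : p * ((p + 1) ^ 4 + (p + 1) ^ 3 + 1) + 1 = (p + 1) * ((p + 1) ^ 2 * (p * (p + 2)) + 1) := by ring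
  by_contra! hlt
  obtain rfl : k = p * ((p + 1) ^ 4 + (p + 1) ^ 3 + 1) := by omega
  rw [e2, e3, mul_assoc, mul_assoc] at hd
  have h3 := excl2 hq hq.two_le one_pos h2 hd (c := 27 * p) (by omega)
    (16 - 10 * (p + 1) + 23 * (p + 1) ^ 2 + 20 * (p + 1) ^ 3 - 3 * (p + 1) ^ 4 - 23 * (p + 1) ^ 5 - 9 * (p + 1) ^ 6 +
      29 * (p + 1) ^ 7 + 6 * (p + 1) ^ 8 - 14 * (p + 1) ^ 9 + 11 * (p + 1) ^ 11 - (p + 1) ^ 12 - 22 * (p + 1) ^ 13 -
      14 * (p + 1) ^ 14) (-11 + (p + 1) + 22 * (p + 1) ^ 2 + 14 * (p + 1) ^ 3) (by push_cast; ring)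
  rw [one_mul, mul_comm 27] at h3
  have h4 := Nat.le_of_mul_le_mul_left h3 hp
  rcases hp.eq_or_lt with rfl | h5
  · revert hd; decide
  · have := Nat.pow_le_pow_left (show 3 ≤ p + 1 by omega) 3
    omega

end

/-- For the twisted group ³D₄(q), realised over the field with q³ elements (q a prime power), every irreducible complex representation of degree at least 2 has degree at least q(q⁴ − q² + 1). -/
theorem result {K : Type*} [Field K] [Fintype K] (q : ℕ) (hq : IsPrimePow q) (hK : Fintype.card K = q ^ 3) :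
    (∀ (k : ℕ) (ρ : Representation ℂ (Cfsg.Lie.twistedD4 K q) (Fin k → ℂ)), ρ.IsIrreducible → 2 ≤ k → q * (q ^ 4 - q ^ 2 + 1) ≤ k) := by
  intro k ρ hρ hk
  letI := H40.chD4
  obtain ⟨-, -, -, φ, -, hφ⟩ := H37.exists_frobHom hK
  have h3 := H40.frob_iter_self hK hφ
  refine arith hq (H40.card_D4 hq hK hφ ▸ H5.degree_dvd_card ⟨k, ρ, hρ, rfl⟩ (by simp [Representation.char_one])) ?_
  revert ρ
  rw [← H40.Fix_D4 h3 hφ]
  intro ρ hρ
  have hc := H37.Md.card_F0 hq hK hφ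
  obtain ⟨σ, hσ, ρ', h⟩ := H37.Md.exists_tw H40.isChev_D4 (H39.long_of_simple H39.long_D4) C (φ := φ)
    (fun h => absurd h (by decide)) (fun _ => h3) (fun _ _ _ => by rw [hc, Nat.card_eq_fintype_card, hK]; rfl)
    (H40.TD φ) rfl rfl (H40.TD_e φ) (H40.simple_D4 h3 (H40.exists_sq_ne_one hq hK (by omega))) ρ hρ hk
  simpa using H37.Md.threeN _ _ _ _ _ _ σ hσ H37.D4.checked.agree ρ' rfl (H37.Md.norm_surj hq hK hφ)
    ⟨23, by decide⟩ ⟨22, by decide⟩ ⟨14, by decide⟩ ⟨5, by decide⟩ (a := 4) (by decide +kernel) (h _ rfl) hc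

end Cfsg.Agent.S2342
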