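import Cfsg.Statements.S2343
import Cfsg.Agent.H13.ReeCls
import Cfsg.Agent.H7.Rep
import Cfsg.Agent.S1073

set_option autoImplicit false
open Cfsg

namespace Cfsg.Agent.S2343

open Cfsg.Agent.H13
set_option linter.style.haveILetI false

section
variable {G A V : Type*} [Group G] [AddCommGroup A] [Fintype A] (x : A → G) (hx : ∀ a b, x (a + b) = x a * x b)
  [AddCommGroup V] [Module ℂ V] [FiniteDimensional ℂ V] (ρ : Representation ℂ G V) (μ : AddChar A ℂ)

/-- Joint eigenspace. -/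
def eig : Submodule ℂ V where
  carrier := {v | ∀ b, ρ (x b) v = μ b • v}
  add_mem' := by intro x y hx hy b; rw [map_add, hx b, hy b, smul_add]
  zero_mem' := by intro b; simp
  smul_mem' := by intro c x hx b; rw [map_smul, hx b, smul_comm]

include hx

omit [FiniteDimensional ℂ V] in
theorem isProj_eig : LinearMap.IsProj (eig x ρ μ)
    ((Fintype.card A : ℂ)⁻¹ • ∑ b : A, μ (-b) • (ρ (x b) : V →ₗ[ℂ] V)) := by
  have hq : (Fintype.card A : ℂ) ≠ 0 := by simp
  constructor
  · intro v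
    apply Submodule.smul_mem
    intro c
    simp only [LinearMap.sum_apply, LinearMap.smul_apply, map_sum, map_smul, Finset.smul_sum]
    symm
    rw [← Equiv.sum_comp (Equiv.addLeft c)]
    refine Finset.sum_congr rfl fun b _ => ?_
    rw [← Module.End.mul_apply, ← map_mul, ← hx, smul_smul, ← μ.map_add_eq_mul]
    simp
  · intro v hv
    simp only [LinearMap.smul_apply, LinearMap.sum_apply]
    rw [Finset.sum_congr rfl (fun b _ => by
      rw [hv b, smul_smul, ← μ.map_add_eq_mul, neg_add_cancel, μ.map_zero_eq_one, one_smul])]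
    rw [Finset.sum_const, Finset.card_univ, ← Nat.cast_smul_eq_nsmul ℂ, smul_smul,
      inv_mul_cancel₀ hq, one_smul]

theorem finrank_eig : (Fintype.card A : ℂ) * Module.finrank ℂ (eig x ρ μ) =
    ∑ b : A, μ (-b) * LinearMap.trace ℂ V (ρ (x b)) := by
  have hq : (Fintype.card A : ℂ) ≠ 0 := by simp
  rw [← (isProj_eig x hx ρ μ).trace, map_smul, map_sum, smul_eq_mul, mul_inv_cancel_left₀ hq]
  simp

omit hx in
theorem tr_conj (g y : G) : LinearMap.trace ℂ V (ρ (g * y * g⁻¹)) = LinearMap.trace ℂ V (ρ y) := by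
  rw [map_mul, LinearMap.trace_mul_comm, ← map_mul, inv_mul_cancel_left]

end

theorem main {G K : Type*} [Group G] [Field K] [Fintype K] (M : Ree G K) [IsSimpleGroup G] (k : ℕ)
    (ρ : Representation ℂ G (Fin k → ℂ)) [ρ.IsIrreducible] (hk : 2 ≤ k) :
    Fintype.card K ^ 2 - Fintype.card K + 1 ≤ k := by
  classical
  obtain ⟨χ, hχ⟩ := (AddChar.exists_apply_ne_zero (α := K)).2 one_ne_zero
  have hχ0 : ∑ c, χ (-c) = 0 :=
    (Equiv.sum_comp (Equiv.neg K) χ).trans (AddChar.sum_eq_zero_of_ne_one fun h => hχ (by simp [h]))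
  have hz : ∀ a b : K, M.u 0 0 (a + b) = M.u 0 0 a * M.u 0 0 b := fun a b => by rw [M.u0_mul, add_zero]
  have h1 := finrank_eig (fun c : K => M.u 0 0 c) hz ρ 1
  have h2 := finrank_eig (fun c : K × K => M.u 0 c.1 c.2) (fun a b => (M.u0_mul ..).symm) ρ
    (χ.compAddMonoidHom (AddMonoidHom.snd K K))
  have hp := isProj_eig (fun c : K => M.u 0 0 c) hz ρ 1
  set z := Module.finrank ℂ (eig (fun c : K => M.u 0 0 c) ρ 1) with hz'
  generalize Module.finrank ℂ (eig (fun c : K × K => M.u 0 c.1 c.2) ρ _) = d at h2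
  have t1 : ∀ c, c ≠ 0 → LinearMap.trace ℂ _ (ρ (M.u 0 0 c)) = LinearMap.trace ℂ _ (ρ (M.u 0 0 1)) := fun c hc => by
    rw [← tr_conj ρ (M.h (Units.mk0 c hc)) (M.u 0 0 1), M.h_conj]; simp
  have t2 : ∀ b c, b ≠ 0 → LinearMap.trace ℂ _ (ρ (M.u 0 b c)) = LinearMap.trace ℂ _ (ρ (M.u 0 b 0)) :=
    fun b c hb => by rw [← tr_conj ρ (M.u (c / b) 0 0) (M.u 0 b 0), M.u_conj_u0, zero_add, mul_div_cancel₀ _ hb]
  have t3 : ∀ μ : K → ℂ, μ 0 = 1 → ∑ c : K, μ c * LinearMap.trace ℂ _ (ρ (M.u 0 0 c)) = k +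
      (∑ c : K, μ c - 1) * LinearMap.trace ℂ _ (ρ (M.u 0 0 1)) := fun μ h0 => by
    rw [← Finset.add_sum_erase _ _ (Finset.mem_univ 0), ← Finset.add_sum_erase _ μ (Finset.mem_univ 0),
      h0, add_sub_cancel_left, Finset.sum_mul,
      Finset.sum_congr rfl (fun b hb => by rw [t1 b (Finset.ne_of_mem_erase hb)])]
    simp
  rw [t3 _ (by simp)] at h1
  rw [Fintype.sum_prod_type, Finset.sum_eq_single 0 (fun b _ hb => by
    simp only [AddChar.compAddMonoidHom_apply, AddMonoidHom.coe_snd, Prod.snd_neg]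
    rw [Finset.sum_congr rfl fun c _ => by rw [t2 b c hb], ← Finset.sum_mul, hχ0, zero_mul]) (by simp)] at h2
  simp only [AddChar.compAddMonoidHom_apply, AddMonoidHom.coe_snd, Prod.snd_neg] at h2
  rw [t3 _ (by simp), hχ0] at h2
  simp only [AddChar.one_apply, Finset.sum_const, Finset.card_univ, nsmul_eq_mul, mul_one, Fintype.card_prod,
    Nat.cast_mul] at h1 h2
  have hq : (Fintype.card K : ℂ) ≠ 0 := by simp
  have h4 : z + (Fintype.card K ^ 2 - Fintype.card K) * d = k := by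
    have h3 : (z : ℂ) + ((Fintype.card K : ℂ) ^ 2 - Fintype.card K) * d = k := by
      apply mul_left_cancel₀ hq
      linear_combination h1 + ((Fintype.card K : ℂ) - 1) * h2
    exact_mod_cast (by rw [Nat.cast_add, Nat.cast_mul, Nat.cast_sub (Nat.le_self_pow two_ne_zero _)]; simpa using h3 :
      ((z + (Fintype.card K ^ 2 - Fintype.card K) * d : ℕ) : ℂ) = k)
  rcases Nat.eq_zero_or_pos d with h0 | hpos
  · exfalso
    rw [h0, mul_zero, add_zero] at h4
    have htop : eig (fun c : K => M.u 0 0 c) ρ 1 = ⊤ :=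
      Submodule.eq_top_of_finrank_eq (by rw [← hz', h4, Module.finrank_fin_fun])
    have hker : M.u 0 0 1 ∈ MonoidHom.ker ρ := by
      rw [MonoidHom.mem_ker]
      refine LinearMap.ext fun v => ?_
      have : v ∈ eig (fun c : K => M.u 0 0 c) ρ 1 := htop ▸ Submodule.mem_top
      simpa using this 1
    have hall := (MonoidHom.normal_ker ρ).eq_bot_or_eq_top.resolve_left fun h => by
      simp [h, M.u_eq_one] at hker
    have htriv : ∀ g, ρ g = 1 := fun g => (hall ▸ Subgroup.mem_top g : g ∈ MonoidHom.ker ρ)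
    have hv : (Pi.single (⟨0, by omega⟩ : Fin k) 1 : Fin k → ℂ) ≠ 0 := by simp
    rcases H7.eq_bot_or_eq_top_of_invariant ρ (Submodule.span ℂ {Pi.single (⟨0, by omega⟩ : Fin k) 1})
      (fun g v hv => by rwa [htriv g]) with h | h
    · exact hv (Submodule.span_singleton_eq_bot.1 h)
    · have := finrank_span_singleton (K := ℂ) hv
      rw [h, finrank_top, Module.finrank_fin_fun] at this
      omega
  by_contra hlt
  have h5 := Nat.mul_le_mul_left (Fintype.card K ^ 2 - Fintype.card K) hpos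
  have h6 : z = 0 := by omega
  have h7 : k = Fintype.card K ^ 2 - Fintype.card K := by omega
  rw [Submodule.finrank_eq_zero.1 h6] at hp
  have h8 : ∑ b : K, (ρ (M.u 0 0 b) : (Fin k → ℂ) →ₗ[ℂ] Fin k → ℂ) = 0 := LinearMap.ext fun v => by
    simpa using hp.map_mem v
  have ta : LinearMap.trace ℂ _ (ρ M.a) = 0 := by
    have := congrArg (fun f => LinearMap.trace ℂ _ (f * ρ M.a)) h8
    simp only [Finset.sum_mul, map_sum, ← map_mul, zero_mul, map_zero] at this
    rw [Finset.sum_congr rfl fun c _ => show _ = LinearMap.trace ℂ _ (ρ M.a) by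
      rw [← tr_conj ρ (M.u 0 0 (-c)) M.a, M.u0_inv, mul_assoc, M.a_mul_u, ← mul_assoc, neg_zero, M.u0_mul,
        add_zero, show -c + - - -c = c by linear_combination -c * M.three]] at this
    simpa using this
  have tn : LinearMap.trace ℂ _ (ρ M.n) = 0 := by obtain ⟨g, hg⟩ := M.exists_conj_n; rw [hg, tr_conj, ta]
  have tan : LinearMap.trace ℂ _ (ρ M.a * ρ M.n) = 0 := by
    obtain ⟨g, hg⟩ := M.exists_conj_an; rw [← map_mul, hg, tr_conj, ta]
  have hid : IsIdempotentElem ((4 : ℂ)⁻¹ • (1 + ρ M.a + ρ M.n + ρ M.a * ρ M.n)) := by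
    have e1 : ρ M.a * ρ M.a = 1 := by rw [← map_mul, M.a_mul_a, map_one]
    have e2 : ρ M.n * ρ M.n = 1 := by rw [← map_mul, M.n_mul_n, map_one]
    have e3 : ρ M.n * ρ M.a = ρ M.a * ρ M.n := by rw [← map_mul, M.n_mul_a, map_mul]
    have e4 : ∀ w, ρ M.a * (ρ M.a * w) = w := fun w => by rw [← mul_assoc, e1, one_mul]
    have e5 : ∀ w, ρ M.n * (ρ M.a * w) = ρ M.a * (ρ M.n * w) := fun w => by rw [← mul_assoc, e3, mul_assoc]
    simp only [IsIdempotentElem, smul_mul_smul_comm, mul_add, add_mul, mul_one, one_mul, mul_assoc, e1, e2, e3, e4, e5]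
    module
  have := (LinearMap.IsIdempotentElem.isProj_range _ hid).trace
  simp only [map_smul, map_add, ta, tn, tan, LinearMap.trace_one, Module.finrank_fin_fun, add_zero,
    smul_eq_mul] at this
  generalize Module.finrank ℂ (LinearMap.range ((4 : ℂ)⁻¹ • (1 + ρ M.a + ρ M.n + ρ M.a * ρ M.n))) = e at this
  have h9 : k = 4 * e := by exact_mod_cast (show (k : ℂ) = 4 * (e : ℂ) by rw [← this]; ring)
  obtain ⟨s, hs⟩ := M.exists_s
  rw [Nat.card_eq_fintype_card] at hs
  rw [hs, show (24 * s + 3) ^ 2 - (24 * s + 3) = 4 * (144 * s ^ 2 + 30 * s + 1) + 2 by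
    rw [Nat.sub_eq_iff_eq_add (by nlinarith)]; ring] at h7
  omega

/-- For the Ree group ²G₂(q), q = 3^(2m+1) with m ≥ 1 (realised over the field with q elements), every irreducible complex representation of degree at least 2 has degree at least q² − q + 1. -/
theorem result {K : Type*} [Field K] [Fintype K] (m : ℕ) (hm : 1 ≤ m) (hK : Fintype.card K = 3 ^ (2 * m + 1)) :
    (∀ (k : ℕ) (ρ : Representation ℂ (Cfsg.Lie.twistedG2 K (3 ^ m)) (Fin k → ℂ)), ρ.IsIrreducible → 2 ≤ k → (3 ^ (2 * m + 1)) ^ 2 - 3 ^ (2 * m + 1) + 1 ≤ k) := by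
  intro k ρ hirr hk
  haveI := (S1073.result hm hK).1
  rw [← hK]
  exact main (reeModel hK) k ρ hk

end Cfsg.Agent.S2343
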