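import Cfsg.Statements.S2344
import Cfsg.Agent.H65.OrE

set_option autoImplicit false
open Cfsg

namespace Cfsg.Agent.S2344

/-- For a finite field F of odd order q > 3 and n ≥ 3, every irreducible complex representation of degree at least 2 of Ω_{2n+1}(F) (the commutator subgroup of the isometry group of the quadratic form x₀² + x₁y₁ + ⋯ + x_ny_n) has degree at least (q^{2n} − 1)/(q² − 1). -/
theorem result {F : Type*} [Field F] [Fintype F] (n : ℕ) (hn : 3 ≤ n) (hodd : Odd (Fintype.card F)) (h3 : 3 < Fintype.card F) :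
    (∀ (k : ℕ) (ρ : Representation ℂ (Cfsg.Omega F (Cfsg.quadFormOdd n F)) (Fin k → ℂ)), ρ.IsIrreducible → 2 ≤ k → (Fintype.card F ^ (2 * n) - 1) / (Fintype.card F ^ 2 - 1) ≤ k) := by
  classical
  intro k ρ hρ hk
  obtain ⟨m, rfl⟩ : ∃ m, n = m + 3 := ⟨n - 3, by omega⟩
  have h2 : (2 : F) ≠ 0 := H11.two_ne_zero_iff_odd.2 hodd
  obtain ⟨a, ha⟩ := H65.exists_mul_self_ne_one h3
  have hc := H65.omega_cases (H11.qOdd_eq F (m + 3)) (H11.nd_qOdd h2 _) (r := 2 * (m + 2)) (by simp; omega) (by omega)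
    (.inl ⟨rfl, a, ha⟩) ρ hρ hk
  have h0 : ∀ t, (H66.cnt (H11.qOdd F (m + 3)) t : ℤ) + Fintype.card F ^ (m + 3) =
      (Fintype.card F ^ (m + 3)) ^ 2 + H66.cnt (H11.qOdd F 0) t * Fintype.card F ^ (m + 3) := fun t => by
    exact_mod_cast Nat.card_eq_fintype_card (α := F) ▸ H66.cnt_odd t (m + 3)
  have h1 := h0 0
  rw [H66.cnt_zero_of_aniso (Q := H11.qOdd F 0) H66.qOdd_zero_aniso] at h1
  refine Nat.div_le_of_le_mul ?_
  zify [Nat.one_le_pow _ _ Fintype.card_pos]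
  simp only [H65.OCases, H65.Gz, pow_mul', if_true] at hc
  rw [pow_mul', pow_succ' _ (m + 2)] at *
  have hx : (Fintype.card F : ℤ) ^ 2 ≤ Fintype.card F ^ (m + 2) := pow_le_pow_right₀ (by omega) (by omega)
  have hq : (4 : ℤ) ≤ Fintype.card F := by omega
  generalize (Fintype.card F : ℤ) ^ (m + 2) = x at *
  generalize (Fintype.card F : ℤ) = q at *
  rcases hc with ⟨γ, γ', h⟩ | ⟨d, h4, h⟩ | ⟨γ, -, h, -⟩
  · have h5 : ∀ t, q * (x ^ 2 - x - 1) ≤ H66.cnt (H11.qOdd F (m + 3)) t - (q - 1) * (q * x ^ 2) - if t = 0 then q else 0 :=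
      fun t => by
        have := h0 t
        have : 0 ≤ (H66.cnt (H11.qOdd F 0) t : ℤ) * (q * x) :=
          mul_nonneg (by omega) (mul_nonneg (by omega) (by nlinarith))
        split_ifs <;> nlinarith
    have h6 : 2 * (x ^ 2 - x - 1) ≤ k := le_of_mul_le_mul_left (by linarith [h5 γ, h5 γ']) (show 0 < q by omega)
    have h7 : 16 ≤ q ^ 2 := by nlinarith
    have h8 : 3 * x ^ 2 ≤ 4 * (x ^ 2 - x - 1) := by nlinarith
    nlinarith [mul_le_mul_of_nonneg_left h6 (show 0 ≤ q ^ 2 - 1 by omega), mul_le_mul_of_nonneg_left h8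
      (show 0 ≤ q ^ 2 - 1 by omega), mul_le_mul_of_nonneg_right h7 (sq_nonneg x)]
  · rw [mul_pow]
    refine H65.odd_arith (by omega) hx (by omega) h4 ?_
    rw [h, show (H66.cnt (H11.qOdd F (m + 3)) 0 : ℤ) = q ^ 2 * x ^ 2 by push_cast at h1; linear_combination h1]
    ring
  · exact (ha.2 (h a ha.1)).elim

end Cfsg.Agent.S2344
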