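import Cfsg.Statements.S2345
import Cfsg.Agent.H65.OrE

set_option autoImplicit false
open Cfsg

namespace Cfsg.Agent.S2345

/-- For a finite field F with q > 3 elements and n ≥ 4, every irreducible complex representation of degree at least 2 of Ω⁺_{2n}(F) (the commutator subgroup of the isometry group of the hyperbolic quadratic form x₁y₁ + ⋯ + x_ny_n) has degree at least (q^n − 1)(q^{n−1} + q)/(q² − 1). -/
theorem result {F : Type*} [Field F] [Fintype F] (n : ℕ) (hn : 4 ≤ n) (h3 : 3 < Fintype.card F) :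
    (∀ (k : ℕ) (ρ : Representation ℂ (Cfsg.Omega F (Cfsg.quadFormPlus n F)) (Fin k → ℂ)), ρ.IsIrreducible → 2 ≤ k → (Fintype.card F ^ n - 1) * (Fintype.card F ^ (n - 1) + Fintype.card F) / (Fintype.card F ^ 2 - 1) ≤ k) := by
  classical
  intro k ρ hρ hk
  obtain ⟨m, rfl⟩ : ∃ m, n = m + 4 := ⟨n - 4, by omega⟩
  obtain ⟨a, ha⟩ := H65.exists_mul_self_ne_one h3
  have hc := H65.omega_cases (H11.qPlus_eq F (m + 4)) (H11.nd_qPlus F _) (r := 2 * (m + 2) + 1) (by simp; omega) (by omega)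
    (.inl ⟨rfl, a, ha⟩) ρ hρ hk
  have h0 : ∀ t, (H66.cnt (H11.qPlus F (m + 4)) t : ℤ) + Fintype.card F ^ (m + 3) =
      Fintype.card F * (Fintype.card F ^ (m + 3)) ^ 2 +
        H66.cnt (H11.qPlus F 0) t * (Fintype.card F * Fintype.card F ^ (m + 3)) := fun t => by
    exact_mod_cast Nat.card_eq_fintype_card (α := F) ▸ H66.cnt_plus t (m + 3)
  have h1 := h0 0
  rw [H66.cnt_zero_of_aniso (Q := H11.qPlus F 0) fun x _ => Subsingleton.elim _ _] at h1
  refine Nat.div_le_of_le_mul ?_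
  zify [Nat.one_le_pow _ _ Fintype.card_pos]
  simp only [H65.OCases, H65.Gz, pow_succ' _ (2 * (m + 2)), pow_mul', if_true] at hc
  rw [show m + 4 - 1 = m + 2 + 1 from rfl, pow_succ' _ (m + 3)]
  rw [pow_succ' _ (m + 2)] at *
  have hq : (4 : ℤ) ≤ Fintype.card F := by omega
  have hx : (Fintype.card F : ℤ) ^ (m + 2) = Fintype.card F ^ 2 ∨ (Fintype.card F : ℤ) ^ 3 ≤ Fintype.card F ^ (m + 2) := by
    rcases m with _ | m
    · exact .inl rfl
    · exact .inr (pow_le_pow_right₀ (by omega) (by omega))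
  have hx' : (Fintype.card F : ℤ) ^ 2 ≤ Fintype.card F ^ (m + 2) := pow_le_pow_right₀ (by omega) (by omega)
  generalize (Fintype.card F : ℤ) ^ (m + 2) = x at *
  generalize (Fintype.card F : ℤ) = q at *
  have h7 : 16 ≤ q ^ 2 := by nlinarith
  rcases hc with ⟨γ, γ', h⟩ | ⟨d, h4, h⟩ | ⟨γ, -, h, -⟩
  · have h5 : ∀ t, q * (q * x ^ 2 - x - 1) ≤
        H66.cnt (H11.qPlus F (m + 4)) t - (q - 1) * (q * (q * x ^ 2)) - if t = 0 then q else 0 := fun t => by
      have := h0 t
      have : 0 ≤ (H66.cnt (H11.qPlus F 0) t : ℤ) * (q * (q * x)) :=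
        mul_nonneg (by omega) (mul_nonneg (by omega) (mul_nonneg (by omega) (by omega)))
      split_ifs <;> nlinarith
    have h6 : 2 * (q * x ^ 2 - x - 1) ≤ k := le_of_mul_le_mul_left (by linarith [h5 γ, h5 γ']) (show 0 < q by omega)
    have h8 : 16 * x ≤ x ^ 2 := by nlinarith
    have h9 : 3 * (q * x ^ 2) ≤ 4 * (q * x ^ 2 - x - 1) := by nlinarith
    have h10 : 0 ≤ q * x ^ 2 := by nlinarith
    nlinarith [mul_le_mul_of_nonneg_left h6 (show 0 ≤ q ^ 2 - 1 by omega), mul_le_mul_of_nonneg_left h9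
      (show 0 ≤ q ^ 2 - 1 by omega), mul_le_mul_of_nonneg_right h7 h10, mul_le_mul_of_nonneg_left h8
      (show 0 ≤ q ^ 3 by positivity), mul_nonneg (show 0 ≤ q by omega) (show 0 ≤ x + 1 by omega)]
  · have := H65.even_arith (ε := 1) (.inl rfl) (by omega) hx (show (0 : ℤ) ≤ k by omega) h4 (by
      rw [h, show (H66.cnt (H11.qPlus F (m + 4)) 0 : ℤ) = q ^ 3 * x ^ 2 + q ^ 2 * x - q * x by
        push_cast at h1; linear_combination h1]
      ring)
    linear_combination this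
  · exact (ha.2 (h a ha.1)).elim

end Cfsg.Agent.S2345
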