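import Cfsg.Statements.S2346
import Cfsg.Agent.H65.OrE

set_option autoImplicit false
open Cfsg

namespace Cfsg.Agent.S2346

/-- For a finite field F with q elements, n ≥ 4, and a, b ∈ F with z₁² + a z₁z₂ + b z₂² anisotropic, every irreducible complex representation of degree at least 2 of Ω⁻_{2n}(F) (the commutator subgroup of the isometry group of x₁y₁ + ⋯ + x_{n−1}y_{n−1} + z₁² + a z₁z₂ + b z₂²) has degree at least (q^n + 1)(q^{n−1} − q)/(q² − 1). -/
theorem result {F : Type*} [Field F] [Fintype F] (n : ℕ) (hn : 4 ≤ n) (a b : F) (hab : ∀ z₁ z₂ : F, z₁ ^ 2 + a * z₁ * z₂ + b * z₂ ^ 2 = 0 → z₁ = 0 ∧ z₂ = 0) :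
    (∀ (k : ℕ) (ρ : Representation ℂ (Cfsg.Omega F (Cfsg.quadFormMinus (n - 1) F a b)) (Fin k → ℂ)), ρ.IsIrreducible → 2 ≤ k → (Fintype.card F ^ n + 1) * (Fintype.card F ^ (n - 1) - Fintype.card F) / (Fintype.card F ^ 2 - 1) ≤ k) := by
  classical
  intro k ρ hρ hk
  obtain ⟨m, rfl⟩ : ∃ m, n = m + 4 := ⟨n - 4, by omega⟩
  have hG : ∀ γ : F, m ≠ 0 ∨ γ = 0 ∨ (2 : F) ≠ 0 → H65.OGood (H11.qMinus (m + 3) a b) γ := fun γ h => by
    rcases m with _ | m
    · exact .inr (.inr ⟨by simp, H66.wittLe_minus hab 3, h.resolve_left (by simp)⟩)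
    · exact .inr (.inl (by simp; omega))
  have hc := H65.omega_cases (H11.qMinus_eq (m + 3) a b) (H11.nd_qMinus hab _) (r := 2 * (m + 2) + 1) (by simp; omega)
    (by omega) (hG 0 (by simp)) ρ hρ hk
  have h1 : (H66.cnt (H11.qMinus (m + 3) a b) 0 : ℤ) + Fintype.card F * Fintype.card F ^ (m + 3) =
      Fintype.card F * (Fintype.card F ^ (m + 3)) ^ 2 + Fintype.card F ^ (m + 3) := by
    exact_mod_cast Nat.card_eq_fintype_card (α := F) ▸ H66.cnt_minus_zero hab (m + 3)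
  have h0 : ∀ t, (H66.cnt (H11.qMinus (m + 3) a b) 0 : ℤ) ≤ H66.cnt (H11.qMinus (m + 3) a b) t := fun t => by
    exact_mod_cast H66.cnt_minus_le hab (m + 3) t
  have h2 : ∀ γ : F, γ ≠ 0 → (∀ a : F, a ≠ 0 → a * a = 1) → m = 0 → (2 : F) = 0 →
      Fintype.card F = 2 ∧ H66.cnt (H11.qMinus (m + 3) a b) 0 + H66.cnt (H11.qMinus (m + 3) a b) γ = 256 := by
    rintro γ h3 h4 rfl h5
    have h6 : ∀ a : F, a ≠ 0 → a = 1 := fun a ha => sub_eq_zero.1 (pow_eq_zero_iff (two_ne_zero) |>.1 (by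
      linear_combination h4 a ha + (1 - a) * h5))
    have h7 : (Finset.univ : Finset F) = {0, γ} := by
      ext x
      by_cases h : x = 0 <;> simp [h, h6 γ h3, h6 x]
    have h8 : Fintype.card F = 2 := by rw [← Finset.card_univ, h7, Finset.card_pair h3.symm]
    refine ⟨h8, ?_⟩
    rw [← Finset.sum_pair (f := H66.cnt (H11.qMinus (0 + 3) a b)) h3.symm, ← h7, H66.sum_cnt_eq_card]
    simp [h8]
  refine Nat.div_le_of_le_mul ?_
  have hq : (2 : ℤ) ≤ Fintype.card F := by exact_mod_cast Fintype.one_lt_card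
  zify [Nat.one_le_pow _ _ Fintype.card_pos, Nat.le_self_pow (show m + 4 - 1 ≠ 0 by omega)]
  simp only [H65.OCases, H65.Gz, pow_succ' _ (2 * (m + 2)), pow_mul', if_true] at hc
  rw [show m + 4 - 1 = m + 2 + 1 from rfl, pow_succ' _ (m + 3)]
  rw [pow_succ' _ (m + 2)] at *
  have hx : (Fintype.card F : ℤ) ^ (m + 2) = Fintype.card F ^ 2 ∨ (Fintype.card F : ℤ) ^ 3 ≤ Fintype.card F ^ (m + 2) := by
    rcases m with _ | m
    · exact .inl rfl
    · exact .inr (pow_le_pow_right₀ (by omega) (by omega))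
  have hx' : (Fintype.card F : ℤ) ^ 2 ≤ Fintype.card F ^ (m + 2) := pow_le_pow_right₀ (by omega) (by omega)
  replace h1 : (H66.cnt (H11.qMinus (m + 3) a b) 0 : ℤ) = Fintype.card F ^ 3 * (Fintype.card F ^ (m + 2)) ^ 2 -
    Fintype.card F ^ 2 * Fintype.card F ^ (m + 2) + Fintype.card F * Fintype.card F ^ (m + 2) := by linear_combination h1
  rcases hc with ⟨γ, γ', h⟩ | ⟨d, h4, h⟩ | ⟨γ, h3, h4, h5, h⟩
  · generalize (Fintype.card F : ℤ) ^ (m + 2) = x at *
    generalize (Fintype.card F : ℤ) = q at *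
    have h7 : 4 ≤ q ^ 2 := by nlinarith
    have h5 : ∀ t, q * ((q * x + 1) * (x - 1)) ≤
        H66.cnt (H11.qMinus (m + 3) a b) t - (q - 1) * (q * (q * x ^ 2)) - if t = 0 then q else 0 := fun t => by
      have := h0 t
      split_ifs <;> nlinarith
    have h6 : 2 * ((q * x + 1) * (x - 1)) ≤ k := le_of_mul_le_mul_left (by linarith [h5 γ, h5 γ']) (show 0 < q by omega)
    have h8 : q * (q ^ 2 * x + 1) ≤ (q ^ 2 - 1) * (2 * (q * x + 1)) := by
      nlinarith [mul_le_mul_of_nonneg_right h7 (show 0 ≤ q * x from mul_nonneg (by omega) (by omega))]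
    nlinarith [mul_le_mul_of_nonneg_left h6 (show 0 ≤ q ^ 2 - 1 by omega), mul_le_mul_of_nonneg_right h8
      (show 0 ≤ x - 1 by omega)]
  · have := H65.even_arith (ε := -1) (.inr rfl) hq hx (show (0 : ℤ) ≤ k by omega) h4 (by rw [h, h1]; ring)
    linear_combination this
  · simp only [if_neg h3] at h h5
    by_cases h6 : m ≠ 0 ∨ (2 : F) ≠ 0
    · replace h := h (hG γ (by tauto))
      have h8 := h0 γ
      rw [h1] at h h8
      generalize (Fintype.card F : ℤ) ^ (m + 2) = x at *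
      generalize (Fintype.card F : ℤ) = q at *
      generalize (H66.cnt (H11.qMinus (m + 3) a b) γ : ℤ) = y at *
      have h7 : 4 ≤ q ^ 2 := by nlinarith
      have h9 : 0 < q * x := mul_pos (by omega) (by omega)
      have h10 : 0 ≤ q * k * (q ^ 2 - 1) * (y - (q ^ 3 * x ^ 2 - q ^ 2 * x + q * x)) :=
        mul_nonneg (mul_nonneg (mul_nonneg (by omega) (by omega)) (by omega)) (by omega)
      have h11 : 0 ≤ q ^ 2 * ((q ^ 2 * x + 1) * (q * x - 1)) * (y - (q ^ 3 * x ^ 2 - q ^ 2 * x + q * x)) :=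
        mul_nonneg (mul_nonneg (by omega) (mul_nonneg (by nlinarith) (by omega))) (by omega)
      have h12 : 0 ≤ q ^ 3 * (q ^ 2 * x + 1) * ((q - 1) * x) :=
        mul_nonneg (mul_nonneg (by positivity) (by nlinarith)) (mul_nonneg (by omega) (by omega))
      have h13 : 0 ≤ q ^ 4 * x ^ 2 * ((q ^ 2 - 1) * k - (q * (q * x) + 1) * (q * x - q)) := by
        linear_combination h10 + h11 + h12 - h
      have := (mul_nonneg_iff_of_pos_left (mul_pos (by positivity) (pow_pos (by omega) 2))).1 h13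
      omega
    · push Not at h6
      obtain ⟨h7, h8⟩ := h2 γ h3 h4 h6.1 h6.2
      obtain rfl := h6.1
      rw [h7] at h1 h5 ⊢
      norm_num at h1 h5 h8 ⊢
      omega

end Cfsg.Agent.S2346
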