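import Cfsg.Statements.S2347
import Cfsg.Agent.H65.Weil2
import Cfsg.Agent.H5.Basic

set_option autoImplicit false
open Cfsg

namespace Cfsg.Agent.S2347

/-- Smallest degree of a non-linear irreducible complex representation of the symplectic group Sp_{2n} over a finite field of odd order q, n ≥ 2: every irreducible complex representation of degree at least 2 has degree at least (q^n − 1)/2, and there is an irreducible complex representation of exactly that degree (a Weil representation). -/
theorem result {F : Type*} [Field F] [Fintype F] [DecidableEq F] (n : ℕ) (hn : 2 ≤ n) (hodd : Odd (Fintype.card F)) :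
    (∀ (k : ℕ) (ρ : Representation ℂ (Matrix.symplecticGroup (Fin n) F) (Fin k → ℂ)), ρ.IsIrreducible → 2 ≤ k → (Fintype.card F ^ n - 1) / 2 ≤ k) ∧
    (∃ ρ : Representation ℂ (Matrix.symplecticGroup (Fin n) F) (Fin ((Fintype.card F ^ n - 1) / 2) → ℂ), ρ.IsIrreducible) := by
  have h2 := H65.two_ne_zero_of_odd hodd
  refine ⟨fun k ρ hρ hk => ?_, ?_⟩
  · have := H65.sp_bound h2 hn ρ H65.cast_ringChar_ne_zero (H65.ne_one_of_irr ρ hρ (by simpa using hk)
      (H10.sp_normal_le_center_or_eq_top (H10.commutator_sp_eq_top_of_two_ne_zero h2 hn)))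
    rw [Module.finrank_fin_fun, Nat.card_eq_fintype_card] at this
    omega
  · have := Fact.mk h2
    obtain ⟨ψ, hψ⟩ := H65.exists_addChar (F := F) H65.cast_ringChar_ne_zero
    have := Fact.mk hψ
    have h3 := H65.finrank_Ev_neg (F := F) (n := n)
    have : Nontrivial (H65.Ev n F (-1)) := by
      refine Module.nontrivial_of_finrank_pos (R := ℂ) ?_
      have h4 : 2 ^ 2 ≤ Fintype.card F ^ n :=
        (Nat.pow_le_pow_left Fintype.one_lt_card 2).trans (Nat.pow_le_pow_right Fintype.card_pos hn)
      omega
    have := H65.weilE_irr (ψ := ψ) (n := n) H65.neg_one_sq'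
    exact ⟨_, H5.isIrreducible_of_equiv (H5.transportEquiv (H65.weilE ψ H65.neg_one_sq')
      (LinearEquiv.ofFinrankEq _ _ (by rw [h3, Module.finrank_fin_fun])))⟩

end Cfsg.Agent.S2347
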