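import Cfsg.Statements.S2352
import Cfsg.Agent.H65.LawSL2
import Cfsg.Agent.H65.AltEmbed

set_option autoImplicit false

open Cfsg

namespace Cfsg.Agent.S2352

theorem result (w : FreeGroup ℕ) (hw : w ≠ 1) :
    ∃ N : ℕ, ∀ n : ℕ, N ≤ n → ∃ f : ℕ → alternatingGroup (Fin n), FreeGroup.lift f w ≠ 1 := by
  obtain ⟨N, h⟩ := H65.exists_word_entry_ne_zero.{0} w hw
  obtain ⟨p, hp, hpp⟩ := Nat.exists_infinite_primes N
  have : Fact p.Prime := ⟨hpp⟩
  obtain ⟨f, hf⟩ := h (ZMod p) (by simpa using hp)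
  refine ⟨2 * Nat.card (Matrix.SpecialLinearGroup (Fin 2) (ZMod p)), fun n hn => ?_⟩
  obtain ⟨φ, hφ⟩ := H65.exists_injective_alternatingGroup _ n hn
  refine ⟨fun i => φ (f i), fun h1 => hf ?_⟩
  rw [H65.map_lift, ← map_one φ] at h1
  rw [hφ h1]
  simp

end Cfsg.Agent.S2352
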