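import Cfsg.Statements.S2353
import Cfsg.Agent.H65.LawSL2

set_option autoImplicit false

open Cfsg

namespace Cfsg.Agent.S2353

theorem result (w : FreeGroup ℕ) (hw : w ≠ 1) :
    ∃ N : ℕ, ∀ (F : Type*) [Field F] [Fintype F], N ≤ Fintype.card F →
      ∃ f : ℕ → Matrix.ProjectiveSpecialLinearGroup (Fin 2) F, FreeGroup.lift f w ≠ 1 := by
  obtain ⟨N, h⟩ := H65.exists_word_entry_ne_zero w hw
  refine ⟨N, fun F _ _ hF => ?_⟩
  obtain ⟨f, hf⟩ := h F hF
  refine ⟨fun i => QuotientGroup.mk' _ (f i), ?_⟩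
  rw [H65.map_lift]
  intro h1
  rw [QuotientGroup.mk'_apply, QuotientGroup.eq_one_iff, Matrix.SpecialLinearGroup.mem_center_iff] at h1
  obtain ⟨r, -, hr⟩ := h1
  apply hf
  rw [← hr]
  simp

end Cfsg.Agent.S2353
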