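import Cfsg.Statements.S2354
import Cfsg.Agent.H65.Law

set_option autoImplicit false

open Cfsg Polynomial Matrix

namespace Cfsg.Agent.S2354

universe v

section
variable {R : Type*} [CommRing R] [CharP R 2]

/-- matrix of a central element of the Sylow 2-subgroup -/
def uM (m : ℕ) (b : R) : Matrix (Fin 4) (Fin 4) R :=
  !![1, 0, b, b ^ 2 ^ m; 0, 1, 0, b; 0, 0, 1, 0; 0, 0, 0, 1]

/-- antidiagonal matrix -/
def wM (R : Type*) [CommRing R] : Matrix (Fin 4) (Fin 4) R :=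
  !![0, 0, 0, 1; 0, 0, 1, 0; 0, 1, 0, 0; 1, 0, 0, 0]

theorem uM_add (m : ℕ) (a b : R) : uM m (a + b) = uM m a * uM m b := by
  ext i j
  fin_cases i <;> fin_cases j <;>
    simp [uM, Matrix.mul_apply, Fin.sum_univ_four, add_comm, add_pow_char_pow]

omit [CharP R 2] in
theorem uM_zero (m : ℕ) : uM m (0 : R) = 1 := by
  ext i j
  fin_cases i <;> fin_cases j <;> simp [uM]

omit [CharP R 2] in
theorem wM_mul : wM R * wM R = 1 := by
  ext i j
  fin_cases i <;> fin_cases j <;> simp [wM, Matrix.mul_apply, Fin.sum_univ_four]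

/-- as a unit -/
def uG (m : ℕ) (b : R) : GL (Fin 4) R :=
  ⟨uM m b, uM m (-b), by rw [← uM_add, add_neg_cancel, uM_zero], by rw [← uM_add, neg_add_cancel, uM_zero]⟩

/-- as a unit -/
def wG (R : Type*) [CommRing R] : GL (Fin 4) R := ⟨wM R, wM R, wM_mul, wM_mul⟩

theorem coe_uG (m : ℕ) (b : R) : (uG m b : Matrix (Fin 4) (Fin 4) R) = uM m b := rfl
omit [CharP R 2] in
theorem coe_wG : (wG R : Matrix (Fin 4) (Fin 4) R) = wM R := rfl
omit [CharP R 2] in
theorem wG_inv : (wG R)⁻¹ = wG R := rfl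

theorem uG_add (m : ℕ) (a b : R) : uG m (a + b) = uG m a * uG m b :=
  Units.ext (uM_add m a b)

end

theorem uG_mem {F : Type*} [Field F] [CharP F 2] (m : ℕ) (b : F) (hb : (b ^ 2 ^ m) ^ 2 ^ m = b ^ 2) :
    uG m b ∈ Cfsg.Lie.Sz F (2 ^ m) := by
  apply Subgroup.subset_closure
  constructor
  · intro u v
    simp only [Units.coeHom_apply, coe_uG, Cfsg.Lie.altForm4, uM, Matrix.mulVec, dotProduct, Fin.sum_univ_four]
    simp
    linear_combination (b * u 2 * v 3 + b ^ 2 ^ m * u 3 * v 3 + b * u 3 * v 2) * (CharTwo.two_eq_zero (R := F))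
  · rw [coe_uG]
    ext i j
    fin_cases i <;> fin_cases j <;> simp [Cfsg.Lie.star4, Cfsg.Lie.pairOf, uM, hb, CharTwo.neg_eq, sq]

theorem wG_mem {F : Type*} [Field F] [CharP F 2] (m : ℕ) : wG F ∈ Cfsg.Lie.Sz F (2 ^ m) := by
  apply Subgroup.subset_closure
  constructor
  · intro u v
    simp only [Units.coeHom_apply, coe_wG, Cfsg.Lie.altForm4, wM, Matrix.mulVec, dotProduct, Fin.sum_univ_four]
    simp
    ring
  · rw [coe_wG]
    ext i j
    fin_cases i <;> fin_cases j <;> simp [Cfsg.Lie.star4, Cfsg.Lie.pairOf, wM, CharTwo.neg_eq]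

theorem result (w : FreeGroup ℕ) (hw : w ≠ 1) :
    ∃ N : ℕ, ∀ (F : Type*) [Field F] [Fintype F] (m : ℕ), 1 ≤ m → N ≤ m →
      Fintype.card F = 2 ^ (2 * m + 1) →
      ∃ f : ℕ → ↥(Cfsg.Lie.Sz F (2 ^ (m + 1))), FreeGroup.lift f w ≠ 1 := by
  obtain ⟨k, D, h⟩ := H65.pingpong w hw
  refine ⟨k * (2 * D + 2), fun F _ _ m hm hN hF => ?_⟩
  have : CharP F 2 := by
    obtain ⟨p, hp⟩ := CharP.exists F
    obtain ⟨n, hpp, hn⟩ := FiniteField.card F p
    have : p = 2 := by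
      have h2 : p ∣ 2 ^ (2 * m + 1) := by rw [← hF, hn]; exact dvd_pow_self _ n.ne_zero
      exact (Nat.prime_dvd_prime_iff_eq hpp Nat.prime_two).1 (hpp.dvd_of_dvd_pow h2)
    exact this ▸ hp
  let S : ℕ → GL (Fin 4) F[X] → Prop := fun k g =>
    (g.1 0 0).degree < (g.1 3 0).degree ∧ (g.1 1 0).degree < (g.1 3 0).degree ∧
    (g.1 2 0).degree < (g.1 3 0).degree ∧ (g.1 3 0).natDegree ≤ 2 ^ (m + 1) * (k * (2 * D + 2))
  have hbase : ∀ (v : GL (Fin 4) F[X]), (v = wG F[X] ∨ v = (wG F[X])⁻¹) → ∀ a, S 0 (v * uG (m + 1) a) := by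
    intro v hv a
    rw [wG_inv, or_self] at hv
    subst hv
    simp [S, coe_uG, coe_wG, uM, wM, Matrix.mul_apply, Fin.sum_univ_four]
  have hstep : ∀ (v : GL (Fin 4) F[X]), (v = wG F[X] ∨ v = (wG F[X])⁻¹) →
      ∀ (x y : ℕ × Bool), x.1 ≤ D → y.1 ≤ D → (x.1 = y.1 → x.2 = y.2) → ∀ k g, S k g →
      S (k + 1) (v * uG (m + 1) (H65.lawR (fun i => (X ^ (2 * i + 1) : F[X])) (fun i => X ^ (2 * i + 2)) x
        + H65.lawL (fun i => (X ^ (2 * i + 1) : F[X])) (fun i => X ^ (2 * i + 2)) y) * g) := by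
    intro v hv x y hx hy hxy k g hg
    rw [wG_inv, or_self] at hv
    subst hv
    obtain ⟨h1, h2⟩ := H65.law_junction (F := F) D x y hx hy hxy
    set c := H65.lawR (fun i => (X ^ (2 * i + 1) : F[X])) (fun i => X ^ (2 * i + 2)) x
        + H65.lawL (fun i => (X ^ (2 * i + 1) : F[X])) (fun i => X ^ (2 * i + 2)) y with hc
    clear_value c
    obtain ⟨g0, g1, g2, g3⟩ := hg
    have hne : g.1 3 0 ≠ 0 := by
      intro h0
      rw [h0] at g0
      simp at g0
    have hc0 : c ≠ 0 := by rintro rfl; simp at h1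
    have e0 : (wG F[X] * uG (m + 1) c * g).1 0 0 = g.1 3 0 := by
      simp [coe_uG, coe_wG, uM, wM, Matrix.mul_apply, Fin.sum_univ_four]
    have e1 : (wG F[X] * uG (m + 1) c * g).1 1 0 = g.1 2 0 := by
      simp [coe_uG, coe_wG, uM, wM, Matrix.mul_apply, Fin.sum_univ_four]
    have e2 : (wG F[X] * uG (m + 1) c * g).1 2 0 = g.1 1 0 + c * g.1 3 0 := by
      simp [coe_uG, coe_wG, uM, wM, Matrix.mul_apply, Fin.sum_univ_four]
    have e3 : (wG F[X] * uG (m + 1) c * g).1 3 0 = g.1 0 0 + c * g.1 2 0 + c ^ 2 ^ (m + 1) * g.1 3 0 := by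
      simp [coe_uG, coe_wG, uM, wM, Matrix.mul_apply, Fin.sum_univ_four]
    have he : 2 ≤ 2 ^ (m + 1) := by
      calc 2 = 2 ^ 1 := rfl
        _ ≤ 2 ^ (m + 1) := Nat.pow_le_pow_right (by norm_num) (by omega)
    have d1 : (g.1 3 0).degree < (c * g.1 3 0).degree := by
      apply degree_lt_degree
      rw [natDegree_mul hc0 hne]; omega
    have hnn : (c ^ 2 ^ (m + 1) * g.1 3 0).natDegree = 2 ^ (m + 1) * c.natDegree + (g.1 3 0).natDegree := by
      rw [natDegree_mul (pow_ne_zero _ hc0) hne, natDegree_pow]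
    have d2 : (c * g.1 3 0).degree < (c ^ 2 ^ (m + 1) * g.1 3 0).degree := by
      apply degree_lt_degree
      rw [hnn, natDegree_mul hc0 hne]; nlinarith
    have d3 : (c * g.1 2 0).degree < (c * g.1 3 0).degree := by
      rw [degree_mul, degree_mul]
      exact WithBot.add_lt_add_left (by simpa using hc0) g2
    have hdeg : (g.1 0 0 + c * g.1 2 0 + c ^ 2 ^ (m + 1) * g.1 3 0).degree
        = (c ^ 2 ^ (m + 1) * g.1 3 0).degree := by
      apply degree_add_eq_right_of_degree_lt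
      exact lt_of_le_of_lt (degree_add_le _ _) (max_lt (g0.trans (d1.trans d2)) (d3.trans d2))
    simp only [S, e0, e1, e2, e3, hdeg, natDegree_eq_natDegree hdeg, hnn]
    refine ⟨d1.trans d2, g2.trans (d1.trans d2), ?_, ?_⟩
    · exact lt_of_le_of_lt (degree_add_le _ _) (max_lt (g1.trans (d1.trans d2)) d2)
    · have := Nat.mul_le_mul_left (2 ^ (m + 1)) h2
      nlinarith
  obtain ⟨a, g, hg, e⟩ := h (uG (R := F[X]) (m + 1)) (uG_add _) (wG F[X]) (fun i => X ^ (2 * i + 1))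
    (fun i => X ^ (2 * i + 2)) S hbase hstep
  have hne : g.1 3 0 ≠ 0 := by
    intro h0
    have := hg.1
    rw [h0] at this
    simp at this
  have hlt : (g.1 3 0).natDegree < Fintype.card F := by
    refine lt_of_le_of_lt hg.2.2.2 ?_
    rw [hF, show 2 * m + 1 = (m + 1) + m by ring, pow_add 2 (m + 1) m]
    exact Nat.mul_lt_mul_of_pos_left (lt_of_le_of_lt hN Nat.lt_two_pow_self) (by positivity)
  obtain ⟨t, ht⟩ := H65.exists_eval_ne_zero _ hne hlt
  let φ : GL (Fin 4) F[X] →* GL (Fin 4) F := Matrix.GeneralLinearGroup.map (Polynomial.evalRingHom t)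
  have hφu : ∀ b : F[X], φ (uG (m + 1) b) = uG (m + 1) (b.eval t) := by
    intro b
    ext i j
    fin_cases i <;> fin_cases j <;> simp [φ, coe_uG, uM]
  have hφw : φ (wG F[X]) = wG F := by
    ext i j
    fin_cases i <;> fin_cases j <;> simp [φ, coe_wG, wM]
  have hb : ∀ b : F, (b ^ 2 ^ (m + 1)) ^ 2 ^ (m + 1) = b ^ 2 := by
    intro b
    rw [← pow_mul, ← pow_add, show m + 1 + (m + 1) = (2 * m + 1) + 1 by ring, pow_succ, pow_mul, ← hF,
      FiniteField.pow_card]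
  have hmem : ∀ i : ℕ, φ (uG (m + 1) (X ^ (2 * i + 1)) * wG F[X] * uG (m + 1) (X ^ (2 * i + 2)))
      ∈ Cfsg.Lie.Sz F (2 ^ (m + 1)) := by
    intro i
    rw [map_mul, map_mul, hφu, hφu, hφw]
    exact mul_mem (mul_mem (uG_mem _ _ (hb _)) (wG_mem _)) (uG_mem _ _ (hb _))
  refine ⟨fun i => ⟨_, hmem i⟩, fun h1 => ?_⟩
  have h2 := congrArg (Cfsg.Lie.Sz F (2 ^ (m + 1))).subtype h1
  rw [← H65.map_lift, map_one] at h2
  simp only [Subgroup.subtype_apply] at h2
  rw [H65.map_lift, e] at h2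
  have h3 := congrArg (fun g : GL (Fin 4) F => g.1 3 0) h2
  apply ht
  simpa [φ, coe_uG, uM, Matrix.mul_apply, Fin.sum_univ_four] using h3

end Cfsg.Agent.S2354
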