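import Cfsg.Statements.S2355
import Cfsg.Agent.H65.LawSL2
import Cfsg.Agent.H65.SLEmbed
import Cfsg.Agent.S2352
import Cfsg.Agent.S0281

set_option autoImplicit false

open Cfsg Matrix

namespace Cfsg.Agent.S2355

/-- `w` takes a non-central value on `H`. -/
def NC (w : FreeGroup ℕ) (H : Type*) [Group H] : Prop :=
  ∃ f : ℕ → H, FreeGroup.lift f w ∉ Subgroup.center H

theorem NC.of_injective {w : FreeGroup ℕ} {H G : Type*} [Group H] [Group G] (h : NC w H)
    (φ : H →* G) (hφ : Function.Injective φ) : NC w G := by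
  obtain ⟨f, hf⟩ := h
  refine ⟨fun i => φ (f i), fun hc => hf ?_⟩
  rw [H65.map_lift, Subgroup.mem_center_iff] at hc
  rw [Subgroup.mem_center_iff]
  intro g
  apply hφ
  rw [map_mul, map_mul, hc]

theorem NC.commutator {w : FreeGroup ℕ} {H G : Type*} [Group H] [Group G] (h : NC w H)
    (hH : commutator H = ⊤) (φ : H →* G) (hφ : Function.Injective φ) : NC w (commutator G) := by
  have hmem : ∀ x, φ x ∈ _root_.commutator G := by
    intro x
    have h1 : φ x ∈ (_root_.commutator H).map φ := Subgroup.mem_map_of_mem _ (hH ▸ Subgroup.mem_top x)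
    rw [commutator_def, Subgroup.map_commutator] at h1
    exact Subgroup.commutator_mono le_top le_top h1
  exact h.of_injective (φ.codRestrict _ hmem) (fun a b hab => hφ (congrArg Subtype.val hab))

theorem NC.not_law {w : FreeGroup ℕ} {H G : Type*} [Group H] [Group G] (h : NC w H)
    (e : G ≃* H ⧸ Subgroup.center H) (hG : ∀ f : ℕ → G, FreeGroup.lift f w = 1) : False := by
  obtain ⟨f, hf⟩ := h
  have := hG (fun i => (e.symm.toMonoidHom.comp (QuotientGroup.mk' _)) (f i))
  rw [H65.map_lift] at this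
  apply hf
  simpa using this

theorem card_le {G H : Type*} [Group G] [Group H] (e : G ≃* H ⧸ Subgroup.center H)
    {ι F : Type*} [Fintype ι] [Fintype F] (φ : H → Matrix ι ι F) (hφ : Function.Injective φ)
    {N K : ℕ} (hF : Fintype.card F ≤ N) (hι : Fintype.card ι ≤ K) (hN : 1 ≤ N) :
    Nat.card G ≤ N ^ (K * K) := by
  classical
  have : Finite H := Finite.of_injective φ hφ
  rw [Nat.card_congr e.toEquiv]
  refine (Nat.card_le_card_of_surjective _ (QuotientGroup.mk'_surjective _)).trans ?_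
  refine (Nat.card_le_card_of_injective φ hφ).trans ?_
  rw [Nat.card_eq_fintype_card]
  change Fintype.card (ι → ι → F) ≤ _
  rw [Fintype.card_fun, Fintype.card_fun, ← pow_mul]
  exact (Nat.pow_le_pow_left hF _).trans (Nat.pow_le_pow_right hN (Nat.mul_le_mul hι hι))

theorem exists_bound (w : FreeGroup ℕ) (hw : w ≠ 1) : ∃ N : ℕ, 5 ≤ N ∧
    (∀ n, N ≤ n → NC w (alternatingGroup (Fin n))) ∧
    (∀ (F : Type) [Field F] [Fintype F], N ≤ Fintype.card F → NC w (SpecialLinearGroup (Fin 2) F)) := by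
  obtain ⟨N₁, h₁⟩ := S2352.result w hw
  obtain ⟨N₂, h₂⟩ := H65.exists_word_entry_ne_zero.{0} w hw
  refine ⟨N₁ + N₂ + 5, by omega, fun n hn => ?_, fun F _ _ hF => ?_⟩
  · obtain ⟨f, hf⟩ := h₁ n (by omega)
    refine ⟨f, ?_⟩
    rw [alternatingGroup.center_eq_bot (by simp; omega)]
    simpa using hf
  · obtain ⟨f, hf⟩ := h₂ F (by omega)
    refine ⟨f, fun hc => hf ?_⟩
    rw [Matrix.SpecialLinearGroup.mem_center_iff] at hc
    obtain ⟨r, -, hr⟩ := hc
    rw [← hr]
    simp

theorem sl2_perfect (F : Type) [Field F] [Fintype F] (h : 5 ≤ Fintype.card F) :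
    commutator (SpecialLinearGroup (Fin 2) F) = ⊤ := by
  classical
  obtain ⟨a, ha⟩ : ∃ a : F, a ∉ ({0, 1, -1} : Finset F) := by
    by_contra hc
    push Not at hc
    have h1 : (Finset.univ : Finset F) ⊆ {0, 1, -1} := fun a _ => hc a
    have h2 := Finset.card_le_card h1
    have h3 : ({0, 1, -1} : Finset F).card ≤ 3 := Finset.card_le_three
    rw [Finset.card_univ] at h2
    omega
  simp only [Finset.mem_insert, Finset.mem_singleton, not_or] at ha
  exact Matrix.SL2.commutator_eq_top ha.1 (by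
    rw [Ne, sq_eq_one_iff]; tauto)

/-- a perfect group with a non-central value embeds in `SL_m(F)` unless `m` and `|F|` are small -/
theorem exists_perfect {w : FreeGroup ℕ} {N : ℕ} (h5 : 5 ≤ N)
    (h₁ : ∀ n, N ≤ n → NC w (alternatingGroup (Fin n)))
    (h₂ : ∀ (F : Type) [Field F] [Fintype F], N ≤ Fintype.card F → NC w (SpecialLinearGroup (Fin 2) F))
    (F : Type) [Field F] [Fintype F] (m : ℕ) (hm : 2 ≤ m) (h : ¬ (m ≤ N ∧ Fintype.card F ≤ N)) :
    ∃ (H : Type) (_ : Group H), NC w H ∧ commutator H = ⊤ ∧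
      ∃ φ : H →* SpecialLinearGroup (Fin m) F, Function.Injective φ := by
  by_cases hN : m ≤ N
  · have hF : N ≤ Fintype.card F := by
      by_contra hc
      exact h ⟨hN, by omega⟩
    exact ⟨_, inferInstance, h₂ F hF, sl2_perfect F (by omega), H65.slLe hm, H65.slLe_injective hm⟩
  · exact ⟨_, inferInstance, h₁ m (by omega), commutator_alternatingGroup_eq_top (by simp; omega),
      H65.altHom, H65.altHom_injective⟩

theorem result (w : FreeGroup ℕ) (hw : w ≠ 1) :
    ∃ N : ℕ, ∀ (G : Type*) [Group G] [Finite G],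
      (Cfsg.IsAlternating G ∨ Cfsg.IsPSL G ∨ Cfsg.IsPSp G ∨ Cfsg.IsPSU G ∨ Cfsg.IsPOmegaOdd G ∨
          Cfsg.IsPOmegaPlus G ∨ Cfsg.IsPOmegaMinus G) →
      (∀ f : ℕ → G, FreeGroup.lift f w = 1) → Nat.card G ≤ N := by
  obtain ⟨N, h5, h₁, h₂⟩ := exists_bound w hw
  refine ⟨(N ^ 2) ^ ((2 * N + 2) * (2 * N + 2)), fun G _ _ hG hlaw => ?_⟩
  have hN2 : N ≤ N ^ 2 := Nat.le_self_pow (by norm_num) N
  have hN1 : 1 ≤ N ^ 2 := by omega
  rcases hG with ⟨n, hn, ⟨e⟩⟩ | ⟨F, _, _, n, hn, -, ⟨e⟩⟩ | ⟨F, _, _, n, hn, -, ⟨e⟩⟩ |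
    ⟨F, _, _, n, q, hq, hn, -, ⟨e⟩⟩ | ⟨F, _, _, n, hn, -, ⟨e⟩⟩ | ⟨F, _, _, n, hn, ⟨e⟩⟩ |
    ⟨F, _, _, n, a, b, hn, -, ⟨e⟩⟩
  · have e' : G ≃* alternatingGroup (Fin n) ⧸ Subgroup.center (alternatingGroup (Fin n)) :=
      e.trans ((QuotientGroup.quotientBot.symm).trans (QuotientGroup.quotientMulEquivOfEq
        (alternatingGroup.center_eq_bot (by simp; omega)).symm))
    by_cases h : n ≤ N
    · exact card_le e' (F := ZMod 2) (fun σ => (H65.altHom σ : SpecialLinearGroup (Fin n) (ZMod 2)).1)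
        (Subtype.val_injective.comp H65.altHom_injective) (by simp; omega) (by simp; omega) hN1
    · exact ((h₁ n (by omega)).not_law e' hlaw).elim
  · by_cases h : n ≤ N ∧ Fintype.card F ≤ N
    · exact card_le e Subtype.val Subtype.val_injective (by omega) (by simp; omega) hN1
    · obtain ⟨H, _, hH, -, φ, hφ⟩ := exists_perfect h5 h₁ h₂ F n hn h
      exact ((hH.of_injective φ hφ).not_law e hlaw).elim
  · by_cases h : n ≤ N ∧ Fintype.card F ≤ N
    · exact card_le e Subtype.val Subtype.val_injective (by omega) (by simp; omega) hN1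
    · obtain ⟨H, _, hH, -, φ, hφ⟩ := exists_perfect h5 h₁ h₂ F n hn h
      exact (((hH.of_injective φ hφ).of_injective _ (H65.slToSp_injective n)).not_law e hlaw).elim
  · by_cases h : n ≤ N
    · by_cases h' : q ≤ N
      · exact card_le e (fun x => x.1.1) (Subtype.val_injective.comp Subtype.val_injective)
          (hq ▸ Nat.pow_le_pow_left h' 2) (by simp; omega) hN1
      · obtain ⟨p, hp⟩ := CharP.exists F
        obtain ⟨k, hpp, hk⟩ := FiniteField.card F p
        have : Fact p.Prime := ⟨hpp⟩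
        obtain ⟨j, -, hj⟩ : ∃ j ≤ (k : ℕ), q = p ^ j := by
          rw [← Nat.dvd_prime_pow hpp, ← hk, hq]
          exact dvd_pow_self q (by norm_num)
        have hj0 : j ≠ 0 := by rintro rfl; simp at hj; omega
        have : Fintype (GaloisField p j) := Fintype.ofFinite _
        have hK : Fintype.card (GaloisField p j) = q := by
          rw [← Nat.card_eq_fintype_card, GaloisField.card p j hj0, hj]
        obtain ⟨e₂⟩ := S0281.result hq hK
        have h2n : 2 ≤ n := by omega
        let ψ : SU 2 F q →* SU n F q := ((H65.slLe h2n).comp (SU 2 F q).subtype).codRestrict _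
          (fun x => H65.slLe_mem_SU h2n q x.1 x.2)
        have hψ : Function.Injective ψ := fun x y hxy =>
          Subtype.ext (H65.slLe_injective h2n (congrArg Subtype.val hxy))
        exact ((((h₂ (GaloisField p j) (by omega)).of_injective e₂.symm.toMonoidHom
          e₂.symm.injective).of_injective ψ hψ).not_law e hlaw).elim
    · let ψ : alternatingGroup (Fin n) →* SU n F q := H65.altHom.codRestrict _ (H65.altHom_mem_SU n q)
      have hψ : Function.Injective ψ := fun x y hxy => H65.altHom_injective (congrArg Subtype.val hxy)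
      exact (((h₁ n (by omega)).of_injective ψ hψ).not_law e hlaw).elim
  · by_cases h : n ≤ N ∧ Fintype.card F ≤ N
    · exact card_le e (fun x => x.1.1.1)
        (Units.val_injective.comp (Subtype.val_injective.comp Subtype.val_injective))
        (by omega) (by simp; omega) hN1
    · obtain ⟨H, _, hH, hp, φ, hφ⟩ := exists_perfect h5 h₁ h₂ F n (by omega) h
      obtain ⟨ψ, hψ⟩ := H65.exists_injective_odd (F := F) n
      exact ((hH.commutator hp (ψ.comp φ) (hψ.comp hφ)).not_law e hlaw).elim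
  · by_cases h : n ≤ N ∧ Fintype.card F ≤ N
    · exact card_le e (fun x => x.1.1.1)
        (Units.val_injective.comp (Subtype.val_injective.comp Subtype.val_injective))
        (by omega) (by simp; omega) hN1
    · obtain ⟨H, _, hH, hp, φ, hφ⟩ := exists_perfect h5 h₁ h₂ F n (by omega) h
      obtain ⟨ψ, hψ⟩ := H65.exists_injective_plus (F := F) n
      exact ((hH.commutator hp (ψ.comp φ) (hψ.comp hφ)).not_law e hlaw).elim
  · by_cases h : n - 1 ≤ N ∧ Fintype.card F ≤ N
    · exact card_le e (fun x => x.1.1.1)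
        (Units.val_injective.comp (Subtype.val_injective.comp Subtype.val_injective))
        (by omega) (by simp; omega) hN1
    · obtain ⟨H, _, hH, hp, φ, hφ⟩ := exists_perfect h5 h₁ h₂ F (n - 1) (by omega) h
      obtain ⟨ψ, hψ⟩ := H65.exists_injective_minus (F := F) (n - 1) a b
      exact ((hH.commutator hp (ψ.comp φ) (hψ.comp hφ)).not_law e hlaw).elim

end Cfsg.Agent.S2355
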