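import Cfsg.Statements.S2359
import Cfsg.Agent.H13.ReeInst
import Cfsg.Agent.H13.ReeTor

set_option autoImplicit false
open Cfsg

namespace Cfsg.Agent.S2359

open Cfsg.Agent.H13
set_option linter.style.haveILetI false

/-- Let R be the small Ree group over the field with q = 3^(2m+1) ≥ 27 elements. If H is a cyclic subgroup of R of order (q−1)/2, then the centralizer of H in R is cyclic of order q−1, and every non-trivial subgroup of H has the same centralizer as H. If H is a cyclic subgroup of order (q+1)/4, then the centralizer of H is abelian of order q+1 with no element of order 4 (so it is the direct product of H and a group of order 4 whose non-identity elements all have order 2), and every non-trivial subgroup of H has the same centralizer as H. -/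
theorem result {K : Type*} [Field K] [Fintype K] {m : ℕ} (hm : 1 ≤ m)
    (hK : Fintype.card K = 3 ^ (2 * m + 1)) (H : Subgroup ↥(Cfsg.Lie.twistedG2 K (3 ^ m))) (hH : IsCyclic H) :
    (Nat.card H = (3 ^ (2 * m + 1) - 1) / 2 →
      IsCyclic ↥(Subgroup.centralizer (H : Set ↥(Cfsg.Lie.twistedG2 K (3 ^ m)))) ∧
        Nat.card ↥(Subgroup.centralizer (H : Set ↥(Cfsg.Lie.twistedG2 K (3 ^ m)))) = 3 ^ (2 * m + 1) - 1 ∧
        ∀ A : Subgroup ↥(Cfsg.Lie.twistedG2 K (3 ^ m)), A ≤ H → A ≠ ⊥ →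
          Subgroup.centralizer (A : Set ↥(Cfsg.Lie.twistedG2 K (3 ^ m))) = Subgroup.centralizer (H : Set ↥(Cfsg.Lie.twistedG2 K (3 ^ m)))) ∧
    (Nat.card H = (3 ^ (2 * m + 1) + 1) / 4 →
      IsMulCommutative ↥(Subgroup.centralizer (H : Set ↥(Cfsg.Lie.twistedG2 K (3 ^ m)))) ∧
        Nat.card ↥(Subgroup.centralizer (H : Set ↥(Cfsg.Lie.twistedG2 K (3 ^ m)))) = 3 ^ (2 * m + 1) + 1 ∧
        (∀ x ∈ Subgroup.centralizer (H : Set ↥(Cfsg.Lie.twistedG2 K (3 ^ m))), orderOf x ≠ 4) ∧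
        ∀ A : Subgroup ↥(Cfsg.Lie.twistedG2 K (3 ^ m)), A ≤ H → A ≠ ⊥ →
          Subgroup.centralizer (A : Set ↥(Cfsg.Lie.twistedG2 K (3 ^ m))) = Subgroup.centralizer (H : Set ↥(Cfsg.Lie.twistedG2 K (3 ^ m)))) := by
  have M := reeModel hK
  have hc : Nat.card K = 3 ^ (2 * m + 1) := by rw [Nat.card_eq_fintype_card, hK]
  have hq : 3 < Nat.card K := by
    rw [hc]; exact lt_of_lt_of_le (by norm_num) (Nat.pow_le_pow_right (by norm_num) (show 2 ≤ 2 * m + 1 by omega))
  haveI := M.finite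
  rw [← hc]
  refine ⟨fun h => ?_, fun h => ?_⟩
  · obtain ⟨k, rfl⟩ := (M.tor_H0 hq).of_card hH (h.trans M.card_H0.symm)
    have T := (M.tor_H0 hq).conj k
    rw [T.centralizer_eq le_rfl T.ne]
    exact ⟨isCyclic_map_conj M.isCyclic_H k, by rw [card_map_conj, M.card_H], fun A h1 h2 => T.centralizer_eq h1 h2⟩
  · obtain ⟨y, hy, -⟩ := H66.exists_nonsplit (F := K)
    obtain ⟨k, rfl⟩ := (M.tor_A1 hq hy).of_card hH (by rw [h, Nat.card_zpowers, M.orderOf_fy_sq hy])
    have T := (M.tor_A1 hq hy).conj k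
    rw [T.centralizer_eq le_rfl T.ne]
    refine ⟨⟨⟨?_⟩⟩, by rw [card_map_conj, M.card_T1 hq hy], fun x _ h4 => ?_, fun A h1 h2 => T.centralizer_eq h1 h2⟩
    · rintro ⟨_, a, ha, rfl⟩ ⟨_, b, hb, rfl⟩
      exact Subtype.ext (by rw [Subgroup.coe_mul, Subgroup.coe_mul, ← map_mul, ← map_mul, M.comm_T1 hq hy ha hb])
    · exact pow_ne_one_of_lt_orderOf (x := x) (n := 2) two_ne_zero (by omega)
        (by rw [sq, M.sq_eq_one_of_pow_four (h4 ▸ pow_orderOf_eq_one x)])

end Cfsg.Agent.S2359
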