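import Cfsg.Statements.S2362
import Cfsg.Agent.H11.OmEv
import Cfsg.Agent.H67.SpSpec
import Cfsg.Agent.H28.StdForms
import Cfsg.Agent.S2904

set_option autoImplicit false
open Cfsg

namespace Cfsg.Agent.S2362

open Polynomial QuadraticMap H11 in
theorem no_order {F : Type*} [Field F] [Fintype F] (hq : Odd (Fintype.card F)) (p : ℕ)
    [hp : Fact p.Prime] [CharP F p] {κ : Type} [Fintype κ] [DecidableEq κ]
    {Q : QuadraticForm F (κ → F)} (hQ : (polarBilin Q).Nondegenerate) {m : ℕ} (hm : 2 ≤ m)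
    (hκ : Fintype.card κ = 2 * m + 3) {g : H28.O Q} (hg : g ∈ Omega F ⇑Q) :
    ¬ p * (Fintype.card F ^ m + 1) ∣ orderOf g := by
  classical
  intro hdvd
  let Ω := AlgebraicClosure F
  haveI : CharP Ω p := charP_of_injective_algebraMap (algebraMap F Ω).injective p
  have h2 := H67.two_ne_zero_of_odd hq
  have h2' : (2 : Ω) ≠ 0 := by rw [← map_ofNat (algebraMap F Ω), _root_.map_ne_zero]; exact h2
  have hφ := H67.frob_injective (F := F) (Ω := Ω)
  have hE := cl_ev_of_pres (Ω := Ω) (pres_mat hQ g)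
  have hsp := fun k x => spinor_orb (Ω := Ω) hq hQ (H28.eichOK_of_two_ne_zero h2) g (k := k)
    (d := m) (x := x) (e := false)
  have hcard := (H67.card_ev Ω (H28.mat g)).trans hκ
  have hprod := H67.prod_ev (Ω := Ω) (H28.mat g)
  rw [det_of_mem_omega hg, map_one] at hprod
  have hpq : p ∣ Fintype.card F := by
    obtain ⟨n, -, hn⟩ := FiniteField.card F p
    exact hn ▸ dvd_pow_self p n.ne_zero
  have hq1 : 1 < Fintype.card F := Fintype.one_lt_card
  have hbig : ∀ K, (∀ x ∈ H67.ev Ω (H28.mat g), x ^ K = 1) →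
      orderOf g ∣ K * p ^ Fintype.card κ := fun K hK => by
    simpa [orderOf_dvd_iff_mat] using H67.pow_eq_smul_of_ev (Ω := Ω) p (A := H28.mat g) (k := K)
      (c := 1) (by rwa [map_one]) (Nat.lt_pow_self hp.out.one_lt).le
  have hsmall := fun K hK h1 h2' => (orderOf_dvd_iff_mat g _).2
    (pow_eq_one_of_count_symm (Ω := Ω) p h2 (pres_mat hQ g) (k := K) (j := 0) hK h1 h2')
  have hpos : ∀ x ∈ H67.ev Ω (H28.mat g), 0 < orderOf x := fun x hx => by
    refine IsOfFinOrder.orderOf_pos (isOfFinOrder_iff_pow_eq_one.2 ⟨_, orderOf_pos g, ?_⟩)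
    simpa using H67.pow_eq_of_mem_ev (c := 1)
      (by simpa using (orderOf_dvd_iff_mat g _).1 dvd_rfl) hx
  generalize H67.ev Ω (H28.mat g) = E at *
  set q := Fintype.card F
  obtain ⟨r, hr, hr1, hr2⟩ := S2904.result q (2 * m) hq1 (by omega)
    (by rintro ⟨h, -⟩; rw [h] at hq; exact absurd hq (by decide)) (by omega)
  have hfac : ∀ d, q ^ (2 * d) - 1 = (q ^ d + 1) * (q ^ d - 1) := fun d => by
    rw [mul_comm 2, pow_mul, ← Nat.sq_sub_sq, one_pow]
  have hrm : r ∣ q ^ m + 1 :=
    ((Nat.Prime.dvd_mul hr).1 (hfac m ▸ hr1)).resolve_right (hr2 m (by omega) (by omega))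
  have hcop : p.Coprime (q ^ m + 1) := (Nat.Prime.coprime_iff_not_dvd hp.out).2 fun h =>
    hp.out.one_lt.ne' (Nat.dvd_one.1 ((Nat.dvd_add_right (hpq.pow (by omega))).1 h))
  obtain ⟨K, hK, hK'⟩ := exists_kill E
  obtain ⟨x, hx, hrx⟩ := hK' r hr ((hcop.symm.coprime_dvd_left hrm).pow_right _
    |>.dvd_of_dvd_mul_right (hrm.trans ((dvd_mul_left _ _).trans (hdvd.trans (hbig K hK)))))
  have hx2 : x ^ 2 ≠ 1 := fun h => hr2 1 one_pos (by omega)
    ((hrx.trans (orderOf_dvd_of_pow_eq_one h)).trans (by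
      obtain ⟨t, ht⟩ := hq
      exact ⟨t, by rw [pow_one]; omega⟩))
  have hpeel : ∀ R, Cl q R → R.card ≤ 2 * m + 3 → x ∈ R →
      ∃ R', R = orbM q m x + R' ∧ x ^ qe q m false = 1 ∧ Cl q R' := by
    intro R hR hc hxR
    obtain ⟨d, e, R', hd, he, -, rfl, hR'⟩ := hR.peel1 (by omega) hφ hxR hx2
    rw [Multiset.card_add, card_orbM] at hc
    have h3 := hrx.trans (orderOf_dvd_of_pow_eq_one he)
    have h4 : r ∣ q ^ (2 * d) - 1 := h3.trans (by
      rw [hfac]; cases e
      exacts [dvd_mul_right _ _, dvd_mul_left _ _])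
    obtain rfl : d = m := by
      rcases lt_trichotomy d m with h | h | h
      · exact absurd h4 (hr2 _ (by omega) (by omega))
      · exact h
      refine absurd ?_ (hr2 2 two_pos (by omega))
      rw [show 2 * d = 2 * m + 2 by omega] at h4
      rw [← Nat.modEq_iff_dvd' (Nat.one_le_pow _ _ (by omega))] at hr1 h4 ⊢
      rw [pow_add] at h4
      simpa using h4.trans (hr1.mul_right (q ^ 2)).symm
    cases e
    · exact ⟨R', rfl, he, hR'⟩
    · exact absurd h3 (hr2 d hd (by omega))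
  obtain ⟨D, hD, hD2, hED⟩ := hE.split hq h2'
  have hxD : x ∈ D := by
    rw [hED] at hx
    simp only [Multiset.mem_add, Multiset.mem_replicate] at hx
    rcases hx with (⟨-, rfl⟩ | ⟨-, rfl⟩) | hx
    exacts [absurd (by simp) hx2, absurd (by simp) hx2, hx]
  have hc := congrArg Multiset.card hED
  simp only [Multiset.card_add, Multiset.card_replicate] at hc
  obtain ⟨D', rfl, hxm, hD'⟩ := hpeel D hD (by omega) hxD
  obtain ⟨⟨t, ht⟩, -⟩ := hD'.even_card (by omega) hφ fun y hy => hD2 y (by simp [hy])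
  obtain ⟨b, hb⟩ : Even (E.count (-1)) := by
    rw [hED, Multiset.prod_add, (hD.even_card (by omega) hφ hD2).2, Multiset.prod_add,
      Multiset.prod_replicate, Multiset.prod_replicate, one_pow, one_mul, mul_one] at hprod
    exact (neg_one_pow_eq_one_iff_even fun h => h2' (by linear_combination -h)).1 hprod
  rw [Multiset.card_add, card_orbM] at hc
  by_cases ha : E.count 1 = 3
  · obtain rfl : D' = 0 := Multiset.card_eq_zero.1 (by omega)
    rw [show E.count (-1) = 0 by omega, Multiset.replicate_zero, add_zero, add_zero] at hED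
    have h3 := (hsp _ x hED (by simpa using hD2) (by omega) hxm).1
      ((H28.mem_omega_iff _ _ _).1 hg).2
    have h4 := (hcop.symm.pow_right _).dvd_of_dvd_mul_right ((dvd_mul_left _ _).trans
      (hdvd.trans (hbig (qe q m false / 2) fun y hy => by
        rw [hED] at hy
        rcases Multiset.mem_add.1 hy with hy | hy
        · rw [Multiset.eq_of_mem_replicate hy, one_pow]
        · exact pow_eq_one_of_mem_orbM hy h3)))
    have h5 := Nat.one_le_pow m q (by omega)
    have := Nat.le_of_dvd (by rw [qe]; omega) h4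
    rw [qe] at this
    omega
  · suffices h3 : ∀ y, y ≠ -1 → E.count y ≤ p ^ 0 by
      obtain ⟨y, hy, hpy⟩ := hK' p hp.out ((dvd_mul_right _ _).trans (hdvd.trans (by
        simpa using hsmall K hK h3 (by rw [pow_zero]; omega))))
      exact not_dvd_orderOf p (hpos y hy) hpy
    intro y hy
    by_contra h3
    rw [pow_zero] at h3
    have hyE : y ∈ E := Multiset.count_pos.1 (by omega)
    obtain ⟨d, e, R, hd, he, -, h4, hR⟩ := hE.peel (k := 2) (by omega) hφ hyE
      (sq_ne_one_iff.2 ⟨by rintro rfl; omega, hy⟩) (by omega)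
    have h5 := congrArg Multiset.card h4
    rw [Multiset.card_add, Multiset.card_nsmul, card_orbM] at h5
    rw [h4] at hx
    rcases Multiset.mem_add.1 hx with hx | hx
    · obtain ⟨R', h6, -⟩ := hpeel _ (cl_orbM (by omega) (hE.ne y hyE) he)
        (by rw [card_orbM]; omega) (Multiset.mem_of_mem_nsmul hx)
      have h7 := congrArg Multiset.card h6
      rw [Multiset.card_add, card_orbM, card_orbM] at h7
      omega
    · obtain ⟨R', h6, -⟩ := hpeel _ hR (by omega) hx
      have h7 := congrArg Multiset.card h6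
      rw [Multiset.card_add, card_orbM] at h7
      omega


/-- Let F be a finite field of odd order and n ≥ 3. The simple orthogonal group PΩ(2n+1, F) (type B_n) and the projective symplectic group PSp(2n, F) (type C_n), which have the same order, do not have the same set of element orders. -/
theorem result {F : Type*} [Field F] [Fintype F] (hodd : Odd (Fintype.card F)) (n : ℕ) (hn : 3 ≤ n) :
    Set.range (orderOf : Cfsg.POmega F (Cfsg.quadFormOdd n F) → ℕ) ≠ Set.range (orderOf : Cfsg.PSp n F → ℕ) := by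
  classical
  obtain ⟨m, rfl⟩ : ∃ m, n = m + 1 := ⟨n - 1, by omega⟩
  obtain ⟨p, hchar⟩ := CharP.exists F
  haveI hp : Fact p.Prime := ⟨CharP.char_is_prime F p⟩
  have h2 := H67.two_ne_zero_of_odd hodd
  let Ω := AlgebraicClosure F
  haveI : CharP Ω p := charP_of_injective_algebraMap (algebraMap F Ω).injective p
  have hpq : p ∣ Fintype.card F := by
    obtain ⟨n, -, hn⟩ := FiniteField.card F p
    exact hn ▸ dvd_pow_self p n.ne_zero
  have hq1 : 1 < Fintype.card F := Fintype.one_lt_card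
  have hnd : ¬ p ∣ Fintype.card F ^ m + 1 := fun h =>
    hp.out.one_lt.ne' (Nat.dvd_one.1 ((Nat.dvd_add_right (hpq.pow (by omega))).1 h))
  obtain ⟨x, hx⟩ := H11.exists_primRoot Ω p hnd
  have hcl := H11.cl_orbM (d := m) (e := false) (by omega) (hx.ne_zero (by omega)) hx.pow_eq_one
  obtain ⟨A, -, hA, hA'⟩ := H67.exists_pres_ev_eq (ι := Fin (2 * m)) true hcl.frob hcl.inv
    (fun y hy => ⟨hcl.ne y hy, fun h => by
      have h3 := Nat.le_of_dvd two_pos (hx.dvd_of_pow_eq_one _
        (H11.pow_eq_one_of_orbM_mem (H67.frob_injective (F := F)) hy h))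
      have := Nat.one_lt_pow (n := m) (by omega) hq1
      omega⟩) (by simp [H11.card_orbM])
  obtain ⟨T, hT, hT1, hT2⟩ := H67.exists_regular_alt' F 0
  haveI : Nonempty (Fin (2 * m)) := ⟨⟨0, by omega⟩⟩
  obtain ⟨g, -, hg⟩ := H67.exists_sp_pair (m := m + 1) h2 hT hA' (by simp; omega)
  intro h
  obtain ⟨y, hy⟩ : orderOf (QuotientGroup.mk g : Cfsg.PSp (m + 1) F) ∈
    Set.range (orderOf : Cfsg.POmega F (Cfsg.quadFormOdd (m + 1) F) → ℕ) := h ▸ ⟨_, rfl⟩
  obtain ⟨y, rfl⟩ := QuotientGroup.mk_surjective y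
  refine no_order hodd p (H28.qOdd_nondeg (m + 1) h2) (m := m) (by omega) (by simp; omega) y.2 ?_
  refine Dvd.dvd.trans ?_ ((orderOf_map_dvd (QuotientGroup.mk' (Subgroup.center _)) y).trans
    (Subgroup.orderOf_coe y).symm.dvd)
  obtain ⟨c, hc⟩ := (H67.orderOf_mk_dvd_iff (H67.spHom _ F)
    (H67.sp_mem_center_iff (by omega)) g _).1 dvd_rfl
  obtain ⟨h3, h4⟩ := hg _ c hc
  obtain ⟨rfl, j, hj1, hj2⟩ := H67.unip_pow_eq_smul p hT1 hT2 h3
  erw [hy]
  refine Nat.Coprime.mul_dvd_of_dvd_of_dvd ((Nat.Prime.coprime_iff_not_dvd hp.out).2 hnd)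
    ((dvd_pow_self p (by rintro rfl; simp at hj1)).trans hj2) (hx.dvd_of_pow_eq_one _ ?_)
  rw [one_smul, ← Matrix.toLin'_pow, Module.End.one_eq_id, ← Matrix.toLin'_one,
    Matrix.toLin'.injective.eq_iff] at h4
  exact (H67.pow_eq_of_mem_ev (Ω := Ω) (c := 1) (x := x) (by simpa using h4)
    (hA ▸ H11.self_mem_orbM (by omega))).trans (map_one _)

end Cfsg.Agent.S2362
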