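import Cfsg.Statements.S2394
import Mathlib
import Cfsg.Agent.S0245
import Cfsg.Agent.S2904

set_option autoImplicit false
open scoped MatrixGroups
open Cfsg

namespace Cfsg.Agent.S2394

/-- The smallest degree of a faithful representation of the symplectic group `Sp_{2n}(q)` over its own field `F_q` is `2n`: every injective homomorphism from `Sp_{2n}(F)` to `GL_d(F)`, `F` the field with `q` elements, has `d ≥ 2n`. -/
theorem result {F : Type*} [Field F] [Fintype F] (n : ℕ) {d : ℕ}
    (ρ : ↥(Matrix.symplecticGroup (Fin n) F) →* GL (Fin d) F) (hρ : Function.Injective ρ) : 2 * n ≤ d := by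
  by_contra hlt
  push Not at hlt
  have hdvd := Subgroup.card_dvd_of_injective ρ hρ
  rw [S0245.result rfl n, Matrix.card_GL_field] at hdvd
  have hq : 1 < Fintype.card F := Fintype.one_lt_card
  set q := Fintype.card F with hqdef
  obtain ⟨m, rfl⟩ : ∃ m, n = m + 1 := ⟨n - 1, by omega⟩
  by_cases h1 : m = 0
  · subst h1
    have hd : d ≤ 1 := by omega
    have h2 : q ≤ q ^ 2 - 1 := by
      have : q ^ 2 = q * q := sq q
      have : 2 * q ≤ q * q := Nat.mul_le_mul_right q hq
      omega
    interval_cases d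
    · simp at hdvd; omega
    · simp only [zero_add, one_pow, pow_one, Finset.range_one, Finset.prod_singleton, mul_one,
        Finset.univ_unique, Fin.default_eq_zero, Fin.val_eq_zero, pow_zero] at hdvd
      have := Nat.le_of_dvd (by omega) hdvd
      have : 1 * (q ^ 2 - 1) ≤ q * (q ^ 2 - 1) := Nat.mul_le_mul_right _ hq.le
      omega
  by_cases h6 : q = 2 ∧ m = 2
  · obtain ⟨h2, rfl⟩ := h6
    rw [h2] at hdvd
    have hd : d ≤ 5 := by omega
    interval_cases d <;> revert hdvd <;> decide
  obtain ⟨r, hr, hr1, hr2⟩ := S2904.result q (2 * (m + 1)) hq (by omega) (by omega) (by omega)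
  have h3 : r ∣ ∏ i : Fin d, (q ^ d - q ^ (i : ℕ)) := by
    refine dvd_trans ?_ hdvd
    rw [Finset.prod_range_succ]
    exact (hr1.mul_left _).mul_left _
  obtain ⟨i, -, hi⟩ := (Prime.dvd_finset_prod_iff hr.prime _).1 h3
  have e : q ^ d - q ^ (i : ℕ) = q ^ (i : ℕ) * (q ^ (d - i) - 1) := by
    rw [Nat.mul_sub, ← pow_add, mul_one, Nat.add_sub_cancel' i.isLt.le]
  rw [e] at hi
  rcases (Nat.Prime.dvd_mul hr).1 hi with h | h
  · have h4 : r ∣ q ^ (2 * (m + 1)) := (hr.dvd_of_dvd_pow h).trans (dvd_pow_self q (by omega))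
    have h5 : 1 ≤ q ^ (2 * (m + 1)) := Nat.one_le_pow _ _ (by omega)
    have := (Nat.dvd_sub_iff_right h5 h4).1 hr1
    exact hr.one_lt.ne' (Nat.dvd_one.1 this)
  · exact hr2 _ (by have := i.isLt; omega) (by omega) h

end Cfsg.Agent.S2394
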