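import Cfsg.Statements.S2444
import Cfsg.Agent.H30.Ore7

set_option autoImplicit false
open Cfsg

namespace Cfsg.Agent.S2444



/-- In the special linear group SL(n,F) over a finite field F, with n ≥ 2 and (n, |F|) not (2,2) or (2,3), every element is a commutator a·b·a⁻¹·b⁻¹ of two elements of SL(n,F). -/
theorem result {F : Type*} [Field F] [Fintype F] (n : ℕ) (hn : 2 ≤ n) (hex : n = 2 → 4 ≤ Fintype.card F) :
    ∀ g : Matrix.SpecialLinearGroup (Fin n) F, ∃ a b : Matrix.SpecialLinearGroup (Fin n) F, g = a * b * a⁻¹ * b⁻¹ := by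
  intro g
  exact H30.Ore.Comm.commutator g (H30.Ore.comm_all n hex g.1 g.2)

end Cfsg.Agent.S2444
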