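import Cfsg.Statements.S2445
import Cfsg.Agent.H65.OreSpB
import Cfsg.Agent.H65.OreSpS
import Cfsg.Agent.H65.OreCenU

set_option autoImplicit false
open Cfsg

namespace Cfsg.Agent.S2445

open Matrix Cfsg.Agent.H65.Ore

section geo

variable (ι F : Type*) [Fintype ι] [DecidableEq ι] [Field F]

theorem key (A : Matrix (ι ⊕ ι) (ι ⊕ ι) F) (x y : ι ⊕ ι → F) :
    toBilin' (J ι F) (A *ᵥ x) (A *ᵥ y) = toBilin' (Aᵀ * J ι F * A) x y := by
  rw [toBilin'_apply', toBilin'_apply', ← mulVec_mulVec, ← mulVec_mulVec, dotProduct_mulVec x,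
    vecMul_transpose]

theorem skew (x y : ι ⊕ ι → F) : toBilin' (J ι F) y x = -toBilin' (J ι F) x y := by
  rw [toBilin'_apply', toBilin'_apply', dotProduct_mulVec, ← mulVec_transpose, J_transpose,
    neg_mulVec, neg_dotProduct, dotProduct_comm]

/-- The standard symplectic geometry. -/
noncomputable def geo : Geo F (ι ⊕ ι → F) (symplecticGroup ι F) where
  σ := RingHom.id F
  ε := -1
  τ := 0
  B := toBilin' (J ι F)
  Q _ := 0
  ρ := (toLinAlgEquiv' (R := F) (n := ι ⊕ ι)).toMonoidHom.comp (Submonoid.subtype _)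
  σσ _ := rfl
  εε := by simp
  symm x y := by rw [skew, neg_one_mul]; rfl
  nondeg x h := by
    have h1 : J ι F *ᵥ x = 0 := dotProduct_eq_zero _ fun y => by
      rw [dotProduct_comm, ← toBilin'_apply', skew, h, neg_zero]
    have := congrArg (J ι F *ᵥ ·) h1
    simpa [mulVec_mulVec, J_squared, neg_mulVec] using this
  Q_add _ _ := by simp
  Q_smul _ _ := by simp
  B_self x _ := by
    simp [toBilin'_apply', J, fromBlocks_mulVec, dotProduct, Fintype.sum_sum_type, neg_mulVec,
      mul_comm]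
  sing _ _ _ _ := ⟨0, rfl⟩
  inj := (toLinAlgEquiv' (R := F) (n := ι ⊕ ι)).injective.comp Subtype.val_injective
  ρB g x y := (key ι F g.1 x y).trans (by rw [SymplecticGroup.mem_iff'.1 g.2])
  ρQ _ _ := rfl
  full T h _ := ⟨⟨LinearMap.toMatrix' T, SymplecticGroup.mem_iff'.2 (toBilin'.injective
    (LinearMap.ext₂ fun x y => by
      rw [← key, LinearMap.toMatrix'_mulVec, LinearMap.toMatrix'_mulVec, h]))⟩,
    LinearMap.ext fun x => LinearMap.toMatrix'_mulVec T x⟩

/-- The standard frame. -/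
def fr : Fr (geo ι F) ι where
  e i := Pi.single (.inr i) 1
  f i := Pi.single (.inl i) 1
  Qe _ := rfl
  Qf _ := rfl
  ee i j := (toBilin'_single _ _ _).trans rfl
  ff i j := (toBilin'_single _ _ _).trans rfl
  ef i j := (toBilin'_single _ _ _).trans rfl

end geo

/-- In the symplectic group Sp(2m,F) over a finite field F (m ≥ 1), other than Sp(2,2), Sp(2,3) and Sp(4,2), every element is a commutator a·b·a⁻¹·b⁻¹ of two elements of Sp(2m,F). -/
theorem result {F : Type*} [Field F] [Fintype F] (m : ℕ) (hm : 1 ≤ m) (h1 : m = 1 → 4 ≤ Fintype.card F)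
    (h2 : m = 2 → 3 ≤ Fintype.card F) : ∀ g : Matrix.symplecticGroup (Fin m) F, ∃ a b : Matrix.symplecticGroup (Fin m) F, g = a * b * a⁻¹ * b⁻¹ := by
  intro g
  rcases hm.eq_or_lt with rfl | h3
  · exact sp_one (h1 rfl) g
  have hS : (geo (Fin m) F).IsSp := ⟨rfl, rfl, fun _ => rfl, fun _ => rfl⟩
  have hM : Module.finrank F (Fin m ⊕ Fin m → F) = 2 * m := by simp [two_mul]
  by_cases hF : ∃ c : F, c ≠ 0 ∧ c ≠ 1 ∧ c ≠ -1
  · by_cases hg : ∃ c : F, (geo (Fin m) F).ρ g = c • 1
    · obtain ⟨c, hc⟩ := hg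
      exact cen_Sp g (c := c) ((toLinAlgEquiv' (R := F)).injective (by
        rw [map_smul, map_one]; exact hc))
    · exact sp_big hS hF (fr _ F) hM h3 g (not_exists.1 hg)
  have hF' : ∀ c : F, c ≠ 0 → c = 1 ∨ c = -1 := fun c hc => by
    by_contra! h
    exact hF ⟨c, hc, h⟩
  refine sp_small_main hS hF' (fr _ F) hM h3 (fun e h0 => ?_) g
  classical
  have := Finset.card_le_card (show Finset.univ ⊆ ({0, 1} : Finset F) from fun c _ => by
    rcases eq_or_ne c 0 with rfl | hc
    · simp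
    · rcases hF' c hc with rfl | rfl
      · simp
      · rw [show (-1 : F) = 1 by linear_combination -h0]; simp)
  have := Finset.card_le_two (a := (0 : F)) (b := 1)
  have := h2 e
  rw [← Finset.card_univ] at this
  omega

end Cfsg.Agent.S2445
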