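import Cfsg.Statements.S2446
import Cfsg.Agent.H65.OreU3
import Cfsg.Agent.H65.OreU2
import Cfsg.Agent.H65.OreCenU
import Cfsg.Prelude.Def_LieClassical

set_option autoImplicit false
open Cfsg

namespace Cfsg.Agent.S2446

section geo

open Matrix Cfsg.Agent.H65.Ore Cfsg.Agent.H10

variable (n : ℕ) (F : Type*) [Field F] [Fintype F] (q : ℕ) [hF : Fact (Fintype.card F = q ^ 2)]

/-- The standard unitary geometry. -/
noncomputable def geo : Geo F (Fin n → F) (GU n F q) where
  σ := cj F q
  ε := 1
  τ := AddMonoidHom.id F + (cj F q).toAddMonoidHom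
  B := LinearMap.mk₂'ₛₗ (RingHom.id F) (cj F q) (hermForm n F q) herm_add_left herm_smul_left
    herm_add_right herm_smul_right
  Q x := hermForm n F q x x
  ρ := (toLinAlgEquiv' (R := F) (n := Fin n)).toMonoidHom.comp ((Units.coeHom _).comp (Subgroup.subtype _))
  σσ := cj_cj
  εε := one_mul 1
  symm x y := by rw [one_mul]; exact (cj_herm x y).symm
  nondeg x h := by_contra fun hx => let ⟨y, hy⟩ := exists_herm_eq_one (q := q) hx
    one_ne_zero ((herm_swap_one hy).symm.trans (h y))
  Q_add x y := by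
    change _ = _ + _ + (hermForm n F q x y + cj F q (hermForm n F q x y))
    rw [herm_add_left, herm_add_right, herm_add_right, cj_herm]; ring
  Q_smul c x := by rw [herm_smul_left, herm_smul_right, mul_assoc]
  B_self _ h := h
  sing u a ha hb := by
    change hermForm n F q u a ≠ 0 at hb
    obtain ⟨s, hs⟩ := exists_trace_eq (F := F) (q := q) (t := -hermForm n F q u u) (by rw [map_neg, cj_herm])
    refine ⟨cj F q (s / hermForm n F q u a), ?_⟩
    rw [herm_add_left, herm_add_right, herm_add_right, herm_smul_left, herm_smul_left, herm_smul_right,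
      herm_smul_right, ha, cj_cj, div_mul_cancel₀ _ hb, ← cj_herm u a, ← map_mul, div_mul_cancel₀ _ hb]
    linear_combination hs
  inj := (toLinAlgEquiv' (R := F) (n := Fin n)).injective.comp (Units.val_injective.comp Subtype.val_injective)
  ρB g x y := g.2 x y
  ρQ g x := g.2 x x
  full T h _ := by
    have i : Function.Injective T := (injective_iff_map_eq_zero T).2 fun x hx => by_contra fun h0 => by
      obtain ⟨y, hy⟩ := exists_herm_eq_one (q := q) h0
      have := h x y
      rw [hx, map_zero] at this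
      exact one_ne_zero ((herm_swap_one hy).symm.trans this.symm)
    obtain ⟨A, hA⟩ : IsUnit (LinearMap.toMatrix' T) := Matrix.mulVec_injective_iff_isUnit.1 fun x y e => i (by
      simpa only [LinearMap.toMatrix'_mulVec] using e)
    have e : ∀ x, A.1 *ᵥ x = T x := fun x => by rw [hA, LinearMap.toMatrix'_mulVec]
    exact ⟨⟨A, fun x y => by
      change hermForm n F q (A.1 *ᵥ x) (A.1 *ᵥ y) = _
      rw [e, e]; exact h x y⟩, LinearMap.ext e⟩

theorem det_geo (g : GU n F q) : LinearMap.det ((geo n F q).ρ g) = g.1.1.det := LinearMap.det_toLin' _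

end geo

/-- In the special unitary group SU(n,q), n ≥ 3, realised over the field F with q² elements as the determinant-one isometries of the standard Hermitian form, and with (n,q) ≠ (3,2), every element is a commutator a·b·a⁻¹·b⁻¹ of two elements of SU(n,q). -/
theorem result {F : Type*} [Field F] [Fintype F] (n q : ℕ) (hn : 3 ≤ n) (hF : Fintype.card F = q ^ 2) (hex : ¬ (n = 3 ∧ q = 2)) :
    ∀ g : Cfsg.SU n F q, ∃ a b : Cfsg.SU n F q, g = a * b * a⁻¹ * b⁻¹ := by
  open Matrix Cfsg.Agent.H65.Ore Cfsg.Agent.H10 in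
  intro g
  have := Fact.mk hF
  by_cases hg : ∃ c : F, g.1.1 = c • 1
  · obtain ⟨c, hc⟩ := hg
    exact cen_U hn hF g hc
  have hU : (geo n F q).IsU q := ⟨Nat.card_eq_fintype_card.trans hF, fun _ => rfl, rfl, fun _ => rfl, fun _ => rfl⟩
  let g' : GU n F q := ⟨SpecialLinearGroup.toGL g.1, g.2⟩
  have hd : LinearMap.det ((geo n F q).ρ g') = 1 := (det_geo n F q g').trans g.1.2
  have hg' : ∀ c : F, (geo n F q).ρ g' ≠ c • 1 := fun c hc => hg ⟨c, (toLinAlgEquiv' (R := F)).injective (by
    rw [map_smul, map_one]; exact hc)⟩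
  have h2 := two_le_of_card_sq hF
  obtain ⟨a, b, ha, hb, e⟩ : ∃ a b : GU n F q, LinearMap.det ((geo n F q).ρ a) = 1 ∧
      LinearMap.det ((geo n F q).ρ b) = 1 ∧ g' = a * b * a⁻¹ * b⁻¹ := by
    rcases h2.eq_or_lt with rfl | h3
    · exact u_two hU (by simp; omega) g' hd hg'
    · exact u_big hU h3 (by simpa using hn) g' hd hg'
  rw [det_geo] at ha hb
  refine ⟨⟨⟨a.1.1, ha⟩, a.2⟩, ⟨⟨b.1.1, hb⟩, b.2⟩, ?_⟩
  rw [eq_mul_inv_iff_mul_eq, eq_mul_inv_iff_mul_eq] at e ⊢
  exact Subtype.ext (Subtype.ext (congrArg (fun x : GU n F q => x.1.1) e))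

end Cfsg.Agent.S2446
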