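import Cfsg.Statements.S2450
import Cfsg.Agent.H66.SL2Prod

set_option autoImplicit false
open Cfsg

namespace Cfsg.Agent.S2450

theorem quad_card_le {F : Type*} [Field F] [Fintype F] [DecidableEq F] (a b c : F) (ha : a ≠ 0) :
    (Finset.univ.filter fun x : F => a * x ^ 2 + b * x + c = 0).card ≤ 2 := by
  have h0 : (Polynomial.C a * Polynomial.X ^ 2 + Polynomial.C b * Polynomial.X + Polynomial.C c :
      Polynomial F) ≠ 0 := by
    intro e
    have := congrArg (Polynomial.coeff · 2) e
    simp [Polynomial.coeff_X, Polynomial.coeff_C] at this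
    exact ha this
  refine (Polynomial.card_le_degree_of_subset_roots (p := Polynomial.C a * Polynomial.X ^ 2 +
    Polynomial.C b * Polynomial.X + Polynomial.C c) ?_).trans (Polynomial.natDegree_quadratic ha).le
  intro x hx
  rw [Polynomial.mem_roots h0]
  simpa using hx


/-- The Arad–Herzog conjecture for PSL(2,q): let F be a finite field with q ≥ 4 elements. For any two non-identity elements a, b of PSL(2,F), the set of products of a conjugate of a with a conjugate of b is not a single conjugacy class. -/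
theorem result {F : Type*} [Field F] [Fintype F] (h4 : 4 ≤ Fintype.card F)
    (a b : Matrix.ProjectiveSpecialLinearGroup (Fin 2) F) (ha : a ≠ 1) (hb : b ≠ 1) (c : Matrix.ProjectiveSpecialLinearGroup (Fin 2) F) :
    {g : Matrix.ProjectiveSpecialLinearGroup (Fin 2) F | ∃ u v : Matrix.ProjectiveSpecialLinearGroup (Fin 2) F, g = (u * a * u⁻¹) * (v * b * v⁻¹)} ≠ {g | IsConj c g} := by
  classical
  intro hset
  obtain ⟨a, rfl⟩ := H66.toPSL_surjective a
  obtain ⟨b, rfl⟩ := H66.toPSL_surjective b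
  obtain ⟨c, rfl⟩ := H66.toPSL_surjective c
  rw [Ne, H66.toPSL_eq_one_iff] at ha hb
  obtain ⟨u, hu⟩ := H66.exists_conj_lower_ne_zero ((H66.nonSc_iff a).2 (not_or.1 ha))
  obtain ⟨v, hv⟩ := H66.exists_conj_lower_ne_zero ((H66.nonSc_iff b).2 (not_or.1 hb))
  have key : ∀ x : F, H66.tr2 ((u * a * u⁻¹) * (H9.slMk !![1, x; 0, 1] (by simp) * (v * b * v⁻¹) *
      (H9.slMk !![1, x; 0, 1] (by simp))⁻¹)) = H66.tr2 c ∨ H66.tr2 ((u * a * u⁻¹) *
      (H9.slMk !![1, x; 0, 1] (by simp) * (v * b * v⁻¹) *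
      (H9.slMk !![1, x; 0, 1] (by simp))⁻¹)) = -H66.tr2 c := by
    intro x
    have hm : H66.toPSL F ((u * a * u⁻¹) * (H9.slMk !![1, x; 0, 1] (by simp) * (v * b * v⁻¹) *
      (H9.slMk !![1, x; 0, 1] (by simp))⁻¹)) ∈ {g | IsConj (H66.toPSL F c) g} := by
      rw [← hset]
      exact ⟨H66.toPSL F u, H66.toPSL F (H9.slMk !![1, x; 0, 1] (by simp) * v), by
        simp [mul_assoc]⟩
    obtain ⟨w, hw⟩ := isConj_iff.1 hm
    obtain ⟨w, rfl⟩ := H66.toPSL_surjective w
    rw [← map_inv, ← map_mul, ← map_mul, eq_comm, H66.toPSL_eq_iff] at hw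
    rcases hw with e | e
    · left; rw [e, H66.tr2_conj]
    · right; rw [e, H66.tr2_neg, H66.tr2_conj]
  generalize u * a * u⁻¹ = A at key hu
  generalize v * b * v⁻¹ = B at key hv
  have hT : ∀ x : F, H66.tr2 (A * (H9.slMk !![1, x; 0, 1] (by simp) * B *
      (H9.slMk !![1, x; 0, 1] (by simp))⁻¹)) = -(A.1 1 0 * B.1 1 0) * x ^ 2 +
      ((A.1 0 0 - A.1 1 1) * B.1 1 0 + A.1 1 0 * (B.1 1 1 - B.1 0 0)) * x + H66.tr2 (A * B) := by
    intro x
    simp only [H66.tr2, H66.sl2_mul_apply, H66.sl2_inv00, H66.sl2_inv01, H66.sl2_inv10,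
      H66.sl2_inv11]
    simp
    ring
  simp only [hT] at key
  have hne : -(A.1 1 0 * B.1 1 0) ≠ 0 := neg_ne_zero.2 (mul_ne_zero hu hv)
  generalize -(A.1 1 0 * B.1 1 0) = α at key hne
  generalize (A.1 0 0 - A.1 1 1) * B.1 1 0 + A.1 1 0 * (B.1 1 1 - B.1 0 0) = β at key
  have h1 := quad_card_le α β (H66.tr2 (A * B) - H66.tr2 c) hne
  have h3 := quad_card_le α β (H66.tr2 (A * B) + H66.tr2 c) hne
  by_cases h2 : (2 : F) = 0
  · rw [Finset.filter_true_of_mem, Finset.card_univ] at h1
    · omega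
    · intro x _
      rcases key x with e | e
      · linear_combination e
      · linear_combination e - H66.tr2 c * h2
  · have hodd := H66.odd_card_of_two_ne h2
    have : (Finset.univ : Finset F) ⊆
        (Finset.univ.filter fun x : F => α * x ^ 2 + β * x + (H66.tr2 (A * B) - H66.tr2 c) = 0) ∪
        (Finset.univ.filter fun x : F => α * x ^ 2 + β * x + (H66.tr2 (A * B) + H66.tr2 c) = 0) := by
      intro x _
      simp only [Finset.mem_union, Finset.mem_filter, Finset.mem_univ, true_and]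
      rcases key x with e | e
      · left; linear_combination e
      · right; linear_combination e
    have := (Finset.card_le_card this).trans (Finset.card_union_le _ _)
    rw [Finset.card_univ] at this
    omega

end Cfsg.Agent.S2450
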