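import Cfsg.Statements.S2455
import Cfsg.Agent.H66.SL2Prod

set_option autoImplicit false
open Cfsg

namespace Cfsg.Agent.S2455


/-- A strong covering result in the direction of Thompson's conjecture (non-identity elements) for PSL(2,q), q odd: let F be a finite field of odd characteristic p with at least 5 elements and let x ∈ PSL(2,F) have order greater than 2 and not divisible by p (so x is not unipotent). Then every non-identity element of PSL(2,F) is a product of two conjugates of x. -/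
theorem result {F : Type*} [Field F] [Fintype F] (p : ℕ) [Fact p.Prime] [CharP F p] (hp : p ≠ 2) (h5 : 5 ≤ Fintype.card F)
    (x : Matrix.ProjectiveSpecialLinearGroup (Fin 2) F) (hx2 : 2 < orderOf x) (hxp : ¬ p ∣ orderOf x) : ∀ g : Matrix.ProjectiveSpecialLinearGroup (Fin 2) F, g ≠ 1 → ∃ u v : Matrix.ProjectiveSpecialLinearGroup (Fin 2) F, g = (u * x * u⁻¹) * (v * x * v⁻¹) := by
  obtain ⟨x, rfl⟩ := H66.toPSL_surjective x
  intro g hg
  obtain ⟨g, rfl⟩ := H66.toPSL_surjective g
  have hpp : p.Prime := Fact.out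
  have h2 : (2 : F) ≠ 0 := fun e => hp ((Nat.prime_dvd_prime_iff_eq hpp Nat.prime_two).1
    ((CharP.cast_eq_zero_iff F p 2).1 e))
  have ht : H66.tr2 x ^ 2 ≠ 4 := by
    intro e
    have : orderOf (H66.toPSL F x) ∣ p := by
      apply orderOf_dvd_of_pow_eq_one
      rw [← map_pow, H66.toPSL_eq_one_iff, ← H66.sl2_mem_center_iff]
      exact H66.pow_char_mem_center p e
    rcases (Nat.dvd_prime hpp).1 this with h | h
    · omega
    · exact hxp (h ▸ dvd_rfl)
  have ht0 : H66.tr2 x ≠ 0 := by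
    intro e
    have : orderOf (H66.toPSL F x) ∣ 2 := by
      apply orderOf_dvd_of_pow_eq_one
      rw [← map_pow, sq, H66.mul_self_of_tr2_eq_zero e, H66.toPSL_eq_one_iff]
      exact Or.inr rfl
    have := Nat.le_of_dvd two_pos this
    omega
  have key : ∀ k : Matrix.SpecialLinearGroup (Fin 2) F, H66.NonSc k.1 → H66.tr2 k = -2 →
      ∃ A B : Matrix.SpecialLinearGroup (Fin 2) F, H66.tr2 A = H66.tr2 x ∧ H66.tr2 B = H66.tr2 x ∧
        k = A * B := fun k hk e =>
    H66.exists_mul_of_conic hk _ _ (2 * H66.tr2 x)⁻¹ (-(2 * H66.tr2 x)⁻¹) (by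
      rw [e]; field_simp; ring)
  rw [Ne, H66.toPSL_eq_one_iff] at hg
  by_cases hs : H66.tr2 g ^ 2 = 4
  · rcases H66.tr2_eq_of_sq hs with e | e
    · obtain ⟨A, B, hA, hB, h⟩ := key (-g) ((H66.nonSc_iff _).2
        ⟨fun e => hg (Or.inr (by rw [← e, neg_neg])), fun e => hg (Or.inl (neg_injective e))⟩)
        (by rw [H66.tr2_neg, e])
      rw [← H66.toPSL_neg g]
      exact H66.psl_conj_mul_conj ht hA hB h
    · obtain ⟨A, B, hA, hB, h⟩ := key g ((H66.nonSc_iff _).2 (not_or.1 hg))
        (by rw [H66.tr2_neg] at e; linear_combination -e)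
      exact H66.psl_conj_mul_conj ht hA hB h
  · obtain ⟨A, B, hA, hB, h⟩ := H66.exists_mul_of_tr2_ne hs (H66.tr2 x) (H66.tr2 x)
    exact H66.psl_conj_mul_conj ht hA hB h

end Cfsg.Agent.S2455
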