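import Cfsg.Statements.S2456
import Cfsg.Agent.H66.SL2Prod

set_option autoImplicit false
open Cfsg

namespace Cfsg.Agent.S2456


/-- A strong covering result in the direction of Thompson's conjecture (non-identity elements) for PSL(2,q), q even: let F be a finite field of characteristic 2 with q ≥ 4 elements and let x ∈ PSL(2,F) have order greater than 2 and not dividing q + 1. Then every non-identity element of PSL(2,F) is a product of two conjugates of x. -/
theorem result {F : Type*} [Field F] [Fintype F] [CharP F 2] (h4 : 4 ≤ Fintype.card F)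
    (x : Matrix.ProjectiveSpecialLinearGroup (Fin 2) F) (hx2 : 2 < orderOf x) (hxq : ¬ orderOf x ∣ Fintype.card F + 1) : ∀ g : Matrix.ProjectiveSpecialLinearGroup (Fin 2) F, g ≠ 1 → ∃ u v : Matrix.ProjectiveSpecialLinearGroup (Fin 2) F, g = (u * x * u⁻¹) * (v * x * v⁻¹) := by
  obtain ⟨x, rfl⟩ := H66.toPSL_surjective x
  intro g hg
  obtain ⟨g, rfl⟩ := H66.toPSL_surjective g
  have h2 : (2 : F) = 0 := CharP.cast_eq_zero F 2
  have ht : H66.tr2 x ^ 2 ≠ 4 := by
    intro e
    have : orderOf (H66.toPSL F x) ∣ 2 := by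
      apply orderOf_dvd_of_pow_eq_one
      rw [← map_pow, H66.toPSL_eq_one_iff, ← H66.sl2_mem_center_iff]
      exact H66.pow_char_mem_center 2 e
    have := Nat.le_of_dvd two_pos this
    omega
  rw [orderOf_injective _ (H66.toPSL_injective h2), ← Nat.card_eq_fintype_card] at hxq
  obtain ⟨a, ha⟩ := H66.split_of_orderOf hxq
  rw [Ne, H66.toPSL_eq_one_iff] at hg
  by_cases hs : H66.tr2 g ^ 2 = 4
  · obtain ⟨A, B, hA, hB, h⟩ := H66.exists_mul_of_conic ((H66.nonSc_iff g).2 (not_or.1 hg))
      (H66.tr2 x) (H66.tr2 x) a 0 (by linear_combination ha)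
    exact H66.psl_conj_mul_conj ht hA hB h
  · obtain ⟨A, B, hA, hB, h⟩ := H66.exists_mul_of_tr2_ne hs (H66.tr2 x) (H66.tr2 x)
    exact H66.psl_conj_mul_conj ht hA hB h

end Cfsg.Agent.S2456
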