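import Cfsg.Statements.S2457
import Cfsg.Agent.H13.SzConj

set_option autoImplicit false
open Cfsg

namespace Cfsg.Agent.S2457

open Cfsg.Agent.H13
set_option linter.style.haveILetI false

section
variable {G F : Type*} [Group G] [Field F] [Tits F] (M : Model G F) [Finite F] {m : ℕ} (Q : Par F m)

def Sq (x g : G) : Prop := ∃ u v : G, g = (u * x * u⁻¹) * (v * x * v⁻¹)

theorem sq_of {x y z g : G} (h1 : IsConj x y) (h2 : IsConj x z) (h3 : IsConj (y * z) g) : Sq x g := by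
  obtain ⟨a, rfl⟩ := isConj_iff.1 h1
  obtain ⟨b, rfl⟩ := isConj_iff.1 h2
  obtain ⟨c, rfl⟩ := isConj_iff.1 h3
  exact ⟨c * a, c * b, by group⟩

theorem Sq.inv {x g : G} (h : Sq x⁻¹ g⁻¹) : Sq x g := by
  obtain ⟨u, v, h⟩ := h
  exact ⟨v, u, by rw [← inv_inv g, h]; group⟩

include M in
theorem isConj_invol {x y : G} (hx : orderOf x = 2) (hy : orderOf y = 2) : IsConj x y := by
  obtain ⟨g, hg⟩ := M.exists_conj_inv (x := y) (y := x) (by rintro rfl; simp at hy)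
    (hy ▸ pow_orderOf_eq_one y) (by rintro rfl; simp at hx) (hx ▸ pow_orderOf_eq_one x)
  exact isConj_iff.2 ⟨g, hg.symm⟩

include Q

theorem sq_odd {x : G} (hx : M.tr x ≠ 0) {g : G} (hg : g ≠ 1) : Sq x g := by
  by_cases h0 : M.tr g ≠ 0
  · obtain ⟨k, hk⟩ := M.exists_conj_not_mem_B (x := x) (by rintro rfl; exact hx M.tr_one)
    obtain ⟨b, hb⟩ := M.exists_tr_comm hk (M.tr g)
    refine sq_of (isConj_iff.2 ⟨k, rfl⟩) (z := M.u 0 b * (k * x * k⁻¹)⁻¹ * M.u 0 b)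
      (M.isConj_of_tr_eq Q hx ?_) (M.isConj_of_tr_eq Q h0 (by rw [← hb]; congr 1; group)).symm
    rw [M.tr_mul_comm, ← mul_assoc, ← sq, M.u_sq]
    simp only [map_zero, mul_zero, M.u_zero, one_mul]
    rw [M.tr_inv, M.tr_conj]
  obtain ⟨c, hc⟩ := Q.exists_quad hx
  obtain ⟨e, -, he⟩ := Q.exists_add_θ' hc
  have hc0 : c ≠ 0 := by rintro rfl; simp at hc
  have hθ := θ_ne_zero hc0
  have h1 : M.tr x = M.tr (M.w * M.u c⁻¹ (c⁻¹ * θ c⁻¹ * e)) := by
    rw [M.tr_w_mul_u', fo]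
    simp only [map_mul, map_inv₀, θθ]
    field_simp
    grind
  generalize c⁻¹ * θ c⁻¹ * e = b at h1
  have ha : c⁻¹ ≠ 0 := inv_ne_zero hc0
  generalize c⁻¹ = a at h1 ha
  have c1 := M.isConj_of_tr_eq Q hx h1
  have c2 := M.isConj_of_tr_eq Q hx (h1.trans (M.tr_inv _).symm)
  rcases M.order_of_tr_eq_zero Q (not_not.1 h0) with h | h | h
  · exact absurd h hg
  · refine sq_of (M.isConj_of_tr_eq Q hx (h1.trans (M.tr_mul_comm _ _))) c1 (isConj_invol M ?_ h)
    rw [mul_assoc, M.w_mul_w_mul, ← sq, M.u_sq]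
    exact M.orderOf_u_zero (mul_ne_zero (θ_ne_zero ha) ha)
  · obtain ⟨d, hd⟩ := θ_surj (M.tr x)
    rw [← M.tr_w_mul_u] at hd
    have c3 := M.isConj_of_tr_eq Q hx hd.symm
    have c4 := M.isConj_of_tr_eq Q hx (hd.symm.trans (M.tr_inv _).symm)
    have ho : orderOf ((M.w * M.u 0 d)⁻¹ * (M.w * M.u a b)) = 4 := by
      rw [_root_.mul_inv_rev, M.w_inv, mul_assoc, M.w_mul_w_mul, M.u_inv, M.u_mul_u, zero_add]
      exact M.orderOf_u ha _
    obtain ⟨k, hk | hk⟩ := M.conj_or_conj_inv Q h ho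
    · exact sq_of c4 c1 (isConj_iff.2 ⟨k, hk.symm⟩)
    · exact sq_of c2 c3 (isConj_iff.2 ⟨k, by rw [hk]; group⟩)

theorem sq_four {x : G} (hx : IsConj x (M.u 1 0)) {g : G} (hg : g ≠ 1) : Sq x g := by
  have key : ∀ c e, c ≠ 0 → absTr m e = 0 → IsConj x (M.u c (c * θ c * e)) := fun c e hc he =>
    (hx.trans (M.isConj_u_of_absTr Q (by rw [he, absTr_zero]))).trans (M.isConj_u_scale hc e)
  by_cases h0 : M.tr g ≠ 0
  · obtain ⟨c, hc⟩ := Q.exists_quad h0
    obtain ⟨κ, hκ⟩ := sq_surj (M.tr g * (c ^ 2 * θ c) + c ^ 2)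
    obtain ⟨e, he0, he⟩ := Q.exists_add_θ' (κ := κ) (by rw [← Q.absTr_sq, hκ, hc])
    have hc0 : c ≠ 0 := by rintro rfl; simp at hc
    have hθ := θ_ne_zero hc0
    refine sq_of (key 1 e one_ne_zero he0) (z := M.w * M.u c⁻¹ (c⁻¹ * θ c⁻¹ * e) * M.w)
      ((key _ e (inv_ne_zero hc0) he0).trans (isConj_iff.2 ⟨M.w, by simp⟩))
      (M.isConj_of_tr_eq Q h0 ?_).symm
    rw [M.tr_u_w_u_w, fo, fo]
    simp only [map_mul, map_inv₀, θθ, map_one]
    field_simp
    grind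
  rcases M.order_of_tr_eq_zero Q (not_not.1 h0) with h | h | h
  · exact absurd h hg
  · refine sq_of hx hx (isConj_invol M ?_ h)
    rw [← sq, M.u_sq]
    exact M.orderOf_u_zero (by simp)
  obtain ⟨c, hc⟩ := Q.hy
  have hc0 : c ≠ 0 := by rintro rfl; simp at hc
  have hc1 : 1 + c ≠ 0 := fun h => hc (by grind)
  have n0 := mul_ne_zero hc0 (θ_ne_zero hc0)
  have n1 := mul_ne_zero hc1 (θ_ne_zero hc1)
  obtain ⟨e, he0, he1⟩ := Q.exists_absTr_mul (div_ne_zero n0 n1) (fun h => by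
    have := mul_θ_inj ((div_eq_one_iff_eq n1).1 h)
    simp at this)
  have k2 : ∀ y e', absTr m e' = 0 → absTr m y = absTr m (c * θ c / ((1 + c) * θ (1 + c)) * e' +
      c / ((1 + c) * θ (1 + c))) → IsConj (M.u 1 y) g → Sq x g := by
    intro y e' h1 h2 h3
    refine sq_of hx (key c e' hc0 h1) (IsConj.trans ?_ h3)
    refine ((M.isConj_u_of_absTr Q h2).trans ((M.isConj_u_scale hc1 _).trans ?_)).symm
    rw [M.u_mul_u]
    convert IsConj.refl _ using 2
    have := θ_ne_zero hc1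
    simp only [map_one]
    field_simp
    ring
  have k3 : ∀ y, IsConj (M.u 1 y) g → Sq x g := by
    intro y hy
    by_cases h4 : absTr m y = absTr m (c / ((1 + c) * θ (1 + c)))
    · exact k2 y 0 (absTr_zero m) (by simpa using h4) hy
    · refine k2 y e he0 ?_ hy
      rw [absTr_add, he1]
      have h5 := Q.absTr_mem y
      have h6 := Q.absTr_mem (c / ((1 + c) * θ (1 + c)))
      generalize absTr m (c / ((1 + c) * θ (1 + c))) = t at h4 h6 ⊢
      rcases h5 with h5 | h5 <;> rcases h6 with h6 | h6 <;>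
        simp [h5, h6, CharTwo.add_self_eq_zero] at h4 ⊢
  obtain ⟨k, hk | hk⟩ := M.exists_conj_u10 Q h
  · exact k3 0 (isConj_iff.2 ⟨k, hk.symm⟩)
  · refine k3 1 (isConj_iff.2 ⟨k, ?_⟩)
    rw [← inv_inv g, hk, conj_inv, M.u_inv]; simp

include M in
theorem main {x : G} (hx : 2 < orderOf x) {g : G} (hg : g ≠ 1) : Sq x g := by
  by_cases h0 : M.tr x ≠ 0
  · exact sq_odd M Q h0 hg
  rcases M.order_of_tr_eq_zero Q (not_not.1 h0) with h | h | h
  · simp [h] at hx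
  · omega
  obtain ⟨k, hk | hk⟩ := M.exists_conj_u10 Q h
  · exact sq_four M Q (isConj_iff.2 ⟨k, hk.symm⟩).symm hg
  · exact (sq_four M Q (isConj_iff.2 ⟨k, hk.symm⟩).symm (inv_ne_one.2 hg)).inv

end

/-- A strong covering result in the direction of Thompson's conjecture (non-identity elements) for the Suzuki groups: let q = 2^(2m+1) ≥ 8, F the field with q elements and Sz(q) the Suzuki group over F. For every element x of Sz(q) of order greater than 2, every non-identity element of Sz(q) is a product of two conjugates of x. -/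
theorem result {F : Type*} [Field F] [Fintype F] (m : ℕ) (hm : 1 ≤ m) (hF : Fintype.card F = 2 ^ (2 * m + 1))
    (x : Cfsg.Lie.Sz F (2 ^ (m + 1))) (hx2 : 2 < orderOf x) : ∀ g : Cfsg.Lie.Sz F (2 ^ (m + 1)), g ≠ 1 → ∃ u v : Cfsg.Lie.Sz F (2 ^ (m + 1)), g = (u * x * u⁻¹) * (v * x * v⁻¹) := by
  letI := titsOfCard hF
  exact fun g hg => main (lieModel (titsOfCard_θ hF)) (par_of_card hm hF) hx2 hg

end Cfsg.Agent.S2457
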