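import Cfsg.Statements.S2459
import Cfsg.Agent.H30.Ore6
import Cfsg.Agent.H30.Ore5
import Cfsg.Agent.H30.OreT2

set_option autoImplicit false
open Cfsg

namespace Cfsg.Agent.S2459

open H30.Ore Matrix

def x0 : M3 := ⟨1, 0, 0, 0, 0, 2, 0, 1, 0⟩

def chkx' (g u w : M3) : Bool :=
  u.det 2 == 1 && w.det 2 == 1 && M3.eqv 3 (g.mul (u.mul w)) ((u.mul x0).mul (w.mul x0))

def chkx (g : M3) : Bool :=
  g.det 2 != 1 || chkx' g (M3.dec 3 (look t33x 30 243 (g.code 3) % 32768))
    (M3.dec 3 (look t33x 30 243 (g.code 3) / 32768))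

theorem allx : M3.all 3 chkx = true := by decide +kernel

theorem three_aux (g : Matrix (Fin 3) (Fin 3) (ZMod 3)) (hg : g.det = 1) :
    ∃ u w : Matrix (Fin 3) (Fin 3) (ZMod 3), u.det = 1 ∧ w.det = 1 ∧
      g * (u * w) = u * M3.toMat _ x0 * (w * M3.toMat _ x0) := by
  obtain ⟨x, rfl, h⟩ := M3.of_all (r := 2) allx g
  have := M3.det_eq_one (r := 2) two_pos hg
  simp only [chkx, this, bne_self_eq_false, Bool.false_or] at h
  generalize M3.dec 3 _ = u at h
  generalize M3.dec 3 _ = w at h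
  simp only [chkx', Bool.and_eq_true, beq_iff_eq] at h
  obtain ⟨⟨h1, h2⟩, h3⟩ := h
  have h3 := M3.toMat_eqv h3
  simp only [M3.toMat_mul] at h3
  exact ⟨_, _, by rw [M3.det_toMat 2, h1]; rfl, by rw [M3.det_toMat 2, h2]; rfl, h3⟩

theorem sl_case {F : Type*} [Field F] [Fintype F] (h3 : 3 ≤ Fintype.card F) :
    ∃ (x : SpecialLinearGroup (Fin 3) F) (k : ℕ), x ^ k = 1 ∧ (k : F) ≠ 0 ∧
      ∀ g : SpecialLinearGroup (Fin 3) F, (∀ c : F, g.1 ≠ c • 1) →
        ∃ u v : SpecialLinearGroup (Fin 3) F, g = (u * x * u⁻¹) * (v * x * v⁻¹) := by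
  by_cases h4 : 4 ≤ Fintype.card F
  · obtain ⟨a, ha0, ha⟩ := exists_ne_inv h4
    let x : SpecialLinearGroup (Fin 3) F := ⟨diagonal ![1, a, a⁻¹], by
      simp [det_diagonal, Fin.prod_univ_three, mul_inv_cancel₀ ha0]⟩
    let s : SpecialLinearGroup (Fin 3) F := ⟨!![1, 0, 0; 0, 0, -1; 0, 1, 0], by
      simp [det_fin_three]⟩
    have hs : x * s * x = s := by
      apply Subtype.ext
      change diagonal ![1, a, a⁻¹] * !![1, 0, 0; 0, 0, -1; 0, 1, 0] * diagonal ![1, a, a⁻¹]
        = !![1, 0, 0; 0, 0, -1; 0, 1, 0]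
      ext i j
      rw [mul_diagonal, diagonal_mul]
      fin_cases i <;> fin_cases j <;> simp [ha0]
    refine ⟨x, Fintype.card F - 1, ?_, ?_, fun g hg => ?_⟩
    · apply Subtype.ext
      have := FiniteField.pow_card_sub_one_eq_one a ha0
      rw [Matrix.SpecialLinearGroup.coe_pow, Matrix.SpecialLinearGroup.coe_one]
      change diagonal ![1, a, a⁻¹] ^ _ = _
      rw [diagonal_pow, ← diagonal_one]
      congr 1
      ext i
      fin_cases i <;> simp [this]
    · rw [Nat.cast_sub (by omega), FiniteField.cast_card_eq_zero]; simp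
    · obtain ⟨A, B, y, z, hy, hz, h1, h2, h3⟩ := (sl3G ha0 ha g.1 g.2 hg).relS_diagonal 0
      have hx : (diagonal ![1, a, a⁻¹]).det = 1 := x.2
      have hA : A.det = 1 := by
        have := congrArg det h1
        rwa [det_mul, det_mul, hx, hy, mul_one, mul_one] at this
      have hB : B.det = 1 := by
        have := congrArg det h2
        rwa [det_mul, det_mul, hx, hz, mul_one, mul_one] at this
      let A' : SpecialLinearGroup (Fin 3) F := ⟨A, hA⟩
      let B' : SpecialLinearGroup (Fin 3) F := ⟨B, hB⟩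
      let y' : SpecialLinearGroup (Fin 3) F := ⟨y, hy⟩
      let z' : SpecialLinearGroup (Fin 3) F := ⟨z, hz⟩
      have e1 : A' * y' = y' * x := Subtype.ext h1
      have e2 : B' * z' = z' * x := Subtype.ext h2
      have e3 : g * B' = A' := Subtype.ext h3
      refine ⟨y', z' * s⁻¹, ?_⟩
      have e4 : s⁻¹ * x * s = x⁻¹ := by
        rw [eq_inv_iff_mul_eq_one, mul_assoc s⁻¹, mul_assoc s⁻¹, hs, inv_mul_cancel]
      rw [eq_mul_inv_of_mul_eq e3, eq_mul_inv_of_mul_eq e1, eq_mul_inv_of_mul_eq e2]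
      calc _ = y' * x * y'⁻¹ * (z' * x⁻¹ * z'⁻¹) := by group
        _ = _ := by rw [← e4]; group
  · have hc : Fintype.card F = 3 := by omega
    let e := ZMod.ringEquivOfPrime F Nat.prime_three hc
    let φ := SpecialLinearGroup.map (n := Fin 3) (e : ZMod 3 →+* F)
    let x : SpecialLinearGroup (Fin 3) (ZMod 3) := ⟨M3.toMat _ x0, by
      rw [M3.det_toMat 2]; rfl⟩
    have hx : x ^ 4 = 1 := by decide +kernel
    refine ⟨φ x, 4, by rw [← map_pow, hx, map_one], ?_, fun g _ => ?_⟩
    · have : (e 4 : F) ≠ 0 := by rw [map_ne_zero_iff e e.injective]; decide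
      simpa [map_ofNat] using this
    · let g' := SpecialLinearGroup.map (n := Fin 3) (e.symm : F →+* ZMod 3) g
      have hg : g = φ g' := by
        ext i j; simp [φ, g']
      obtain ⟨u, w, hu, hw, h⟩ := three_aux g'.1 g'.2
      let u' : SpecialLinearGroup (Fin 3) (ZMod 3) := ⟨u, hu⟩
      let w' : SpecialLinearGroup (Fin 3) (ZMod 3) := ⟨w, hw⟩
      have h' : g' * (u' * w') = u' * x * (w' * x) := Subtype.ext h
      refine ⟨φ u', φ (u' * w'), ?_⟩
      rw [hg, eq_mul_inv_of_mul_eq h']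
      simp only [map_mul, map_inv]
      group

/-- A form of Thompson's conjecture for PSL(3,q), q > 2 (covering the non-identity elements), with a semisimple class: for F a finite field of characteristic p with more than 2 elements there is an element x of PSL(3,F) of order prime to p such that every non-identity element of PSL(3,F) is a product of two conjugates of x. -/
theorem result {F : Type*} [Field F] [Fintype F] (p : ℕ) [Fact p.Prime] [CharP F p] (h3 : 3 ≤ Fintype.card F) :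
    ∃ x : Matrix.ProjectiveSpecialLinearGroup (Fin 3) F, ¬ p ∣ orderOf x ∧ ∀ g : Matrix.ProjectiveSpecialLinearGroup (Fin 3) F, g ≠ 1 → ∃ u v : Matrix.ProjectiveSpecialLinearGroup (Fin 3) F, g = (u * x * u⁻¹) * (v * x * v⁻¹) := by
  obtain ⟨x, k, hk, hk0, h⟩ := sl_case h3
  refine ⟨QuotientGroup.mk x, fun hp => hk0 ?_, fun g hg => ?_⟩
  · rw [CharP.cast_eq_zero_iff F p]
    refine hp.trans (orderOf_dvd_of_pow_eq_one ?_)
    rw [← QuotientGroup.mk_pow, hk, QuotientGroup.mk_one]
  · obtain ⟨g, rfl⟩ := QuotientGroup.mk_surjective g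
    obtain ⟨u, v, huv⟩ := h g fun c hc => hg (by
      rw [QuotientGroup.eq_one_iff, Subgroup.mem_center_iff]
      intro b
      apply Subtype.ext
      simp [hc])
    exact ⟨QuotientGroup.mk u, QuotientGroup.mk v, by rw [huv]; rfl⟩

end Cfsg.Agent.S2459
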