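import Cfsg.Statements.S2460
import Cfsg.Agent.H30.SpG1

set_option autoImplicit false
open Cfsg

namespace Cfsg.Agent.S2460

open H30.Ore Matrix Polynomial

variable {F : Type*} [Field F]

@[simp] theorem Bf_neg_left (x z : Fin 2 ⊕ Fin 2 → F) : Bf (-x) z = -Bf x z := by simp [Bf]

@[simp] theorem Bf_neg_right (x z : Fin 2 ⊕ Fin 2 → F) : Bf x (-z) = -Bf x z := by
  simp [Bf, mulVec_neg]

theorem sim_comp (M : Matrix (Fin 2) (Fin 2) F) (h : ∀ c : F, M ≠ c • 1) :
    ∃ y : Matrix (Fin 2) (Fin 2) F, y.det ≠ 0 ∧ M * y = y * !![0, -M.det; 1, M.trace] := by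
  by_cases h1 : M 1 0 = 0
  · by_cases h2 : M 0 1 = 0
    · refine ⟨!![1, M 0 0; 1, M 1 1], ?_, ?_⟩
      · intro h3
        apply h (M 0 0)
        simp [det_fin_two, sub_eq_zero] at h3
        ext i j; fin_cases i <;> fin_cases j <;> simp [h1, h2, h3]
      · ext i j; fin_cases i <;> fin_cases j <;>
          simp [Matrix.mul_apply, det_fin_two, trace_fin_two, h1, h2] <;> ring
    · refine ⟨!![0, M 0 1; 1, M 1 1], by simpa [det_fin_two] using h2, ?_⟩
      ext i j; fin_cases i <;> fin_cases j <;>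
        simp [Matrix.mul_apply, det_fin_two, trace_fin_two] <;> ring
  · refine ⟨!![1, M 0 0; 0, M 1 0], by simpa [det_fin_two] using h1, ?_⟩
    ext i j; fin_cases i <;> fin_cases j <;>
      simp [Matrix.mul_apply, det_fin_two, trace_fin_two] <;> ring

theorem sim_of_disc {M D : Matrix (Fin 2) (Fin 2) F} (h1 : M.det = D.det) (h2 : M.trace = D.trace)
    (h : D.trace ^ 2 ≠ 4 * D.det) :
    ∃ y : Matrix (Fin 2) (Fin 2) F, y.det ≠ 0 ∧ M * y = y * D := by
  have hns : ∀ N : Matrix (Fin 2) (Fin 2) F, N.trace ^ 2 ≠ 4 * N.det → ∀ c : F, N ≠ c • 1 := by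
    rintro N hN c rfl
    apply hN
    simp; ring
  obtain ⟨y, hy, e1⟩ := sim_comp M (hns M (by rwa [h1, h2]))
  obtain ⟨z, hz, e2⟩ := sim_comp D (hns D h)
  rw [h1, h2] at e1
  have hz' : IsUnit z.det := IsUnit.mk0 _ hz
  refine ⟨y * z⁻¹, by simp [hy, hz], ?_⟩
  rw [← Matrix.mul_assoc, e1, Matrix.mul_assoc, Matrix.mul_assoc]
  congr 1
  calc _ = z⁻¹ * (z * !![0, -D.det; 1, D.trace]) * z⁻¹ := by
        rw [← Matrix.mul_assoc, nonsing_inv_mul _ hz', Matrix.one_mul]
    _ = _ := by rw [← e2, Matrix.mul_assoc, Matrix.mul_assoc, mul_nonsing_inv _ hz', Matrix.mul_one]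

theorem conic [Fintype F] {t δ τ : F} (ht : t ≠ 0) (hτ : τ ≠ 2) :
    ∃ x y : F, -x ^ 2 + t * x - y ^ 2 + τ * x * y - (τ - 1) * t * y = δ := by
  by_cases h2 : (2 : F) = 0
  · have hτ0 : τ ≠ 0 := by rwa [h2] at hτ
    have : CharP F 2 := CharTwo.of_one_ne_zero_of_two_eq_zero one_ne_zero h2
    obtain ⟨x, hx⟩ := isSquare_of_charTwo' (δ + (t / τ) ^ 2 + (τ - 1) * t * (t / τ))
    refine ⟨x, t / τ, ?_⟩
    have : τ * (t / τ) = t := mul_div_cancel₀ _ hτ0
    linear_combination -hx + x * this + (t * x - x ^ 2 ) * h2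
  by_cases h3 : τ = -2
  · subst h3
    refine ⟨-(δ / (2 * t)), δ / (2 * t), ?_⟩
    field_simp
    ring
  have hodd : Fintype.card F % 2 = 1 := FiniteField.odd_card_of_char_ne_two (by
    intro h
    have := ringChar.Nat.cast_ringChar (R := F)
    rw [h] at this
    exact h2 (by exact_mod_cast this))
  have h4 : 4 - τ ^ 2 ≠ 0 := by
    have : 4 - τ ^ 2 = -((τ - 2) * (τ + 2)) := by ring
    rw [this, neg_ne_zero]
    exact mul_ne_zero (sub_ne_zero.2 hτ) (fun h => h3 (by linear_combination h))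
  obtain ⟨s, y, h⟩ := FiniteField.exists_root_sum_quadratic
    (f := C 1 * X ^ 2 + C (-t) * X + C δ) (g := C (4 - τ ^ 2) * X ^ 2 + C (t * (τ - 2)) * X + C 0)
    (degree_quadratic one_ne_zero) (degree_quadratic h4) hodd
  refine ⟨s + τ * y, 2 * y, ?_⟩
  simp only [eval_add, eval_mul, eval_C, eval_pow, eval_X] at h
  linear_combination -h

def Good (h : Matrix (Fin 2) (Fin 2) F) : Prop :=
  h = 1 ∨ (h.det = 1 ∧ (∀ c : F, h ≠ c • 1) ∧ h.trace ≠ 2)

theorem Good.relG [Fintype F] {h D : Matrix (Fin 2) (Fin 2) F} (hh : Good h) (ht : D.trace ≠ 0)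
    (hd : D.trace ^ 2 ≠ 4 * D.det) : RelG h D := by
  rcases hh with rfl | ⟨h1, h2, h3⟩
  · exact (relS_one D).relG
  obtain ⟨y, hy, e⟩ := sim_comp h h2
  rw [h1] at e
  obtain ⟨a, b, hab⟩ := conic (δ := D.det) ht h3
  let B : Matrix (Fin 2) (Fin 2) F := !![a, b; b + h.trace * (D.trace - a) - D.trace, D.trace - a]
  have hB : B.det = D.det := by simp [B, det_fin_two B]; linear_combination hab
  obtain ⟨z, hz, e2⟩ := sim_of_disc (M := B) hB (by simp [B]) hd
  obtain ⟨w, hw, e3⟩ := sim_of_disc (M := !![0, -1; 1, h.trace] * B) (D := D)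
    (by rw [det_mul, hB]; simp [det_fin_two]) (by simp [B]) hd
  have hy' : IsUnit y.det := IsUnit.mk0 _ hy
  have h4 : RelG !![0, -1; 1, h.trace] D := ⟨_, B, w, z, hw, hz, e3, e2, rfl⟩
  have h5 := h4.conj (mul_nonsing_inv y hy') (nonsing_inv_mul y hy')
  rw [← e, Matrix.mul_assoc, mul_nonsing_inv y hy', Matrix.mul_one] at h5
  obtain ⟨A, B, u, v, hu, hv, f1, f2, f3⟩ := h5
  refine ⟨A, B, u * y, v * y, by simp [hu, hy], by simp [hv, hy], ?_, ?_, f3⟩
  · rw [← Matrix.mul_assoc, f1, Matrix.mul_assoc, Matrix.mul_assoc, nonsing_inv_mul y hy',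
      Matrix.mul_one, Matrix.mul_assoc]
  · rw [← Matrix.mul_assoc, f2, Matrix.mul_assoc, Matrix.mul_assoc, nonsing_inv_mul y hy',
      Matrix.mul_one, Matrix.mul_assoc]

theorem good_or (h2 : (2 : F) ≠ 0) {h : Matrix (Fin 2) (Fin 2) F} (hd : h.det = 1) :
    Good h ∨ Good (-h) := by
  by_cases h1 : ∀ c : F, h ≠ c • 1
  · by_cases h3 : h.trace = 2
    · refine Or.inr (Or.inr ⟨by simp [det_neg, hd], fun c hc => h1 (-c) (by
        rw [neg_smul, ← hc, neg_neg]), ?_⟩)
      rw [trace_neg, h3]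
      intro h4
      exact mul_ne_zero h2 h2 (by linear_combination -h4)
    · exact Or.inl (Or.inr ⟨hd, h1, h3⟩)
  · push Not at h1
    obtain ⟨c, rfl⟩ := h1
    simp only [det_smul, Fintype.card_fin, det_one, mul_one, sq_eq_one_iff] at hd
    rcases hd with rfl | rfl
    · exact Or.inl (Or.inl (by simp))
    · exact Or.inr (Or.inl (by simp))

theorem main_case [Fintype F] (g : symplecticGroup (Fin 2) F) (v w : Fin 2 ⊕ Fin 2 → F)
    (hvw : Bf v w = 0)
    (hc : Bf v (g.1 *ᵥ v) * Bf w (g.1 *ᵥ w) - Bf v (g.1 *ᵥ w) * Bf w (g.1 *ᵥ v) ≠ 0) :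
    ∃ P : symplecticGroup (Fin 2) F,
      Good (P⁻¹ * g * P).1.toBlocks₁₁ ∨ Good (-(P⁻¹ * g * P).1.toBlocks₁₁) := by
  set c11 := Bf v (g.1 *ᵥ v) with e11
  set c12 := Bf v (g.1 *ᵥ w) with e12
  set c21 := Bf w (g.1 *ᵥ v) with e21
  set c22 := Bf w (g.1 *ᵥ w) with e22
  set d := c11 * c22 - c12 * c21 with hd
  have key : ∀ a b c : F, ∃ P : symplecticGroup (Fin 2) F,
      (P⁻¹ * g * P).1.toBlocks₁₁ = !![a, b; b, c] * !![c11, c12; c21, c22] := by
    intro a b c
    have hwv : Bf w v = 0 := by rw [Bf_swap, hvw, neg_zero]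
    have s11 : Bf (g.1 *ᵥ v) v = -c11 := Bf_swap _ _
    have s12 : Bf (g.1 *ᵥ w) v = -c12 := Bf_swap _ _
    have s21 : Bf (g.1 *ᵥ v) w = -c21 := Bf_swap _ _
    have s22 : Bf (g.1 *ᵥ w) w = -c22 := Bf_swap _ _
    obtain ⟨P, hP, -⟩ := frame ![v, w]
      ![a • v + b • w + (-c22 / d) • g.1 *ᵥ v + (c21 / d) • g.1 *ᵥ w,
        b • v + c • w + (c12 / d) • g.1 *ᵥ v + (-c11 / d) • g.1 *ᵥ w]
      (fun i j => by fin_cases i <;> fin_cases j <;> simp [Bf_self, hvw, hwv])
      (fun i j => by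
        fin_cases i <;> fin_cases j <;>
        simp [Bf_self, hvw, hwv, Bf_isom, s11, s12, s21, s22, ← e11, ← e12, ← e21, ← e22] <;>
        field_simp <;> ring)
      (fun i j => by
        fin_cases i <;> fin_cases j <;>
        simp [Bf_self, hvw, hwv, s11, s12, s21, s22] <;>
        field_simp <;> ring)
    refine ⟨P, ?_⟩
    ext i j
    rw [hP]
    fin_cases i <;> fin_cases j <;>
      simp [Bf_self, hvw, hwv, Bf_isom, ← e11, ← e12, ← e21, ← e22]
  by_cases h2 : (2 : F) = 0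
  · by_cases hs : c12 = c21
    · obtain ⟨P, hP⟩ := key (c22 / d) (-c12 / d) (c11 / d)
      refine ⟨P, Or.inl (Or.inl ?_)⟩
      rw [hP]
      ext i j
      fin_cases i <;> fin_cases j <;> simp [← hs] <;> field_simp <;> rw [hd, ← hs] <;> ring
    · have : CharP F 2 := CharTwo.of_one_ne_zero_of_two_eq_zero one_ne_zero h2
      obtain ⟨s, hs'⟩ := isSquare_of_charTwo' d⁻¹
      have hs0 : s ≠ 0 := by rintro rfl; simp [hc] at hs'
      obtain ⟨P, hP⟩ := key 0 s 0
      have htr : (!![0, s; s, 0] * !![c11, c12; c21, c22]).trace ≠ 0 := by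
        simp only [trace_fin_two, mul_fin_two, of_apply, cons_val', cons_val_zero, cons_val_one,
          cons_val_fin_one]
        intro h
        exact mul_ne_zero hs0 (sub_ne_zero.2 hs) (by linear_combination h - s * c21 * h2)
      refine ⟨P, Or.inl (Or.inr ⟨?_, fun c hc' => htr ?_, by rw [hP, h2]; exact htr⟩)⟩
      · rw [hP, det_mul]
        simp only [det_fin_two_of]
        have := mul_inv_cancel₀ hc
        linear_combination this + d * hs' - d⁻¹ * d * h2
      · rw [← hP, hc']; simp [h2]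
  · obtain ⟨P, hP⟩ := key 1 0 d⁻¹
    refine ⟨P, good_or h2 ?_⟩
    rw [hP, det_mul]
    simp only [det_fin_two_of]
    linear_combination mul_inv_cancel₀ hc

theorem exists_frame [Fintype F] (g : symplecticGroup (Fin 2) F) (hg : ∀ c : F, g.1 ≠ c • 1) :
    ∃ P : symplecticGroup (Fin 2) F,
      Good (P⁻¹ * g * P).1.toBlocks₁₁ ∨ Good (-(P⁻¹ * g * P).1.toBlocks₁₁) := by
  by_cases hq : ∀ v, Bf v (g.1 *ᵥ v) = 0
  · obtain ⟨w, hw⟩ : ∃ v, LinearIndependent F ![v, toLin' g.1 v] := by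
      by_contra h
      push Not at h
      obtain ⟨c, hc⟩ := LinearMap.exists_eq_smul_id_of_forall_notLinearIndependent h
      exact hg c (toLin'.injective (by rw [hc]; simp [Module.End.one_eq_id]))
    obtain ⟨v, hv⟩ := Bf_solve hw ![0, 1]
    have h0 : Bf v w = 0 := hv 0
    have h1 : Bf v (g.1 *ᵥ w) = 1 := hv 1
    have h2 := hq (v + w)
    simp only [mulVec_add, Bf_add_left, Bf_add_right, hq, h1] at h2
    refine main_case g v w h0 ?_
    rw [hq, hq, h1]
    intro h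
    exact one_ne_zero (α := F) (by linear_combination h2 + h)
  push Not at hq
  obtain ⟨v, hv⟩ := hq
  obtain ⟨w, hw0, h1, h2, h3⟩ : ∃ w, w ≠ 0 ∧ Bf v w = 0 ∧ Bf (g.1 *ᵥ v) w = 0 ∧
      Bf v (g.1 *ᵥ w) = 0 := by
    let L : (Fin 2 ⊕ Fin 2 → F) →ₗ[F] (Fin 3 → F) :=
      { toFun := fun w => ![Bf v w, Bf (g.1 *ᵥ v) w, Bf v (g.1 *ᵥ w)]
        map_add' := fun x y => by ext i; fin_cases i <;> simp [mulVec_add]
        map_smul' := fun c x => by ext i; fin_cases i <;> simp [mulVec_smul] }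
    obtain ⟨w, hw, hw0⟩ := Submodule.exists_mem_ne_zero_of_ne_bot
      (LinearMap.ker_ne_bot_of_finrank_lt (f := L) (by simp))
    have hw : L w = 0 := hw
    exact ⟨w, hw0, congrFun hw 0, congrFun hw 1, congrFun hw 2⟩
  have h2' : Bf w (g.1 *ᵥ v) = 0 := by rw [Bf_swap, h2, neg_zero]
  have h1' : Bf w v = 0 := by rw [Bf_swap, h1, neg_zero]
  by_cases hw : Bf w (g.1 *ᵥ w) = 0
  swap
  · exact main_case g v w h1 (by rw [h2', mul_zero, sub_zero]; exact mul_ne_zero hv hw)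
  have hv' : Bf (g.1 *ᵥ v) v = -Bf v (g.1 *ᵥ v) := Bf_swap _ _
  have hli : LinearIndependent F ![v, g.1 *ᵥ v, w] := by
    rw [Fintype.linearIndependent_iff]
    intro a ha
    simp only [Fin.sum_univ_three, cons_val_zero, cons_val_one, cons_val] at ha
    have e1 := congrArg (Bf v) ha
    have e2 := congrArg (Bf (g.1 *ᵥ v)) ha
    simp [Bf_self, h1, h2, hv, hv'] at e1 e2
    simp [e1, e2, hw0] at ha
    intro i; fin_cases i <;> simp [e1, e2, ha]
  obtain ⟨w', hw'⟩ := Bf_solve hli ![0, 0, 1]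
  have k1 : Bf w' v = 0 := hw' 0
  have k2 : Bf w' (g.1 *ᵥ v) = 0 := hw' 1
  have k3 : Bf w' w = 1 := hw' 2
  have k1' : Bf v w' = 0 := by rw [Bf_swap, k1, neg_zero]
  have k2' : Bf (g.1 *ᵥ v) w' = 0 := by rw [Bf_swap, k2, neg_zero]
  have key : ∀ a : F, a ≠ 0 → ∃ P : symplecticGroup (Fin 2) F,
      (P⁻¹ * g * P).1.toBlocks₁₁ = !![a⁻¹, 0; 0, Bf w' (g.1 *ᵥ w)] ∧
      (Bf w' (g.1 *ᵥ w) ≠ 0) := by
    intro a ha
    obtain ⟨P, hP, hP'⟩ := frame ![v, w]
      ![(-(a * Bf v (g.1 *ᵥ v))⁻¹) • (a • g.1 *ᵥ v - v), w']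
      (fun i j => by fin_cases i <;> fin_cases j <;> simp [Bf_self, h1, h1'])
      (fun i j => by
        fin_cases i <;> fin_cases j <;> simp [Bf_self, k1, k2, k1', k2'])
      (fun i j => by
        fin_cases i <;> fin_cases j <;> simp [Bf_self, k1, k3, h1, h2, hv']
        field_simp)
    refine ⟨P, ?_, fun h0 => hw0 ?_⟩
    · ext i j
      rw [hP]
      fin_cases i <;> fin_cases j <;> simp [Bf_self, Bf_isom, h1, h3, k2]
      field_simp
    · have := hP' (g.1 *ᵥ w) (fun i => by fin_cases i <;> simp [h3, hw])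
        (fun i => by fin_cases i <;> simp [h3, h0, Bf_isom, h1])
      exact mulVec_injective_iff_isUnit.2 ((isUnit_iff_isUnit_det _).2
        (SymplecticGroup.symplectic_det g.2)) (by rw [this, mulVec_zero])
  obtain ⟨-, -, hμ⟩ := key 1 one_ne_zero
  obtain ⟨P, hP, -⟩ := key _ hμ
  generalize Bf w' (g.1 *ᵥ w) = μ at hμ hP
  refine ⟨P, ?_⟩
  rw [hP]
  by_cases m1 : μ = 1
  · exact Or.inl (Or.inl (by rw [m1]; ext i j; fin_cases i <;> fin_cases j <;> simp))
  by_cases m2 : μ = -1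
  · exact Or.inr (Or.inl (by rw [m2]; ext i j; fin_cases i <;> fin_cases j <;> simp))
  refine Or.inl (Or.inr ⟨by simp [det_fin_two, hμ], fun c hc => ?_, fun h => m1 ?_⟩)
  · have e1 := congrFun (congrFun hc 0) 0
    have e2 := congrFun (congrFun hc 1) 1
    simp at e1 e2
    have : μ * μ = 1 := by nth_rewrite 1 [e2, ← e1]; exact inv_mul_cancel₀ hμ
    exact (mul_self_eq_one_iff.1 this).elim m1 m2
  · simp at h
    have := mul_inv_cancel₀ hμ
    have h5 : (μ - 1) ^ 2 = 0 := by linear_combination μ * h - this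
    exact sub_eq_zero.1 (pow_eq_zero_iff two_ne_zero |>.1 h5)

theorem exists_bt [Fintype F] (h3 : 3 ≤ Fintype.card F) :
    ∃ b t : F, b ≠ 0 ∧ t ≠ 0 ∧ t ^ 2 + 4 * b ^ 2 ≠ 0 ∧ 1 + b ^ 2 ≠ 0 ∧ (1 - b ^ 2) ^ 2 - t ^ 2 ≠ 0 := by
  classical
  by_cases h2 : (2 : F) = 0
  · obtain ⟨b, hb⟩ : ∃ b : F, b ∉ ({0, 1} : Finset F) := by
      by_contra h
      push Not at h
      have := (Finset.card_le_card (fun a _ => h a : Finset.univ ⊆ ({0, 1} : Finset F))).trans
        Finset.card_le_two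
      rw [Finset.card_univ] at this
      omega
    simp only [Finset.mem_insert, Finset.mem_singleton, not_or] at hb
    refine ⟨b, 1, hb.1, one_ne_zero, fun h => one_ne_zero (α := F) (by
      linear_combination h - 2 * b ^ 2 * h2), fun h => hb.2 ?_, fun h => hb.1 ?_⟩
    · have : (b - 1) ^ 2 = 0 := by linear_combination h - b * h2
      exact sub_eq_zero.1 (pow_eq_zero_iff two_ne_zero |>.1 this)
    · have : b ^ 4 = 0 := by linear_combination h + b ^ 2 * h2
      exact pow_eq_zero_iff (by norm_num) |>.1 this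
  · refine ⟨1, 2, one_ne_zero, h2, fun h => pow_ne_zero 3 h2 (by linear_combination h),
      fun h => h2 (by linear_combination h), fun h => pow_ne_zero 2 h2 (by linear_combination -h)⟩

theorem not_dvd_orderOf (p : ℕ) [hp : Fact p.Prime] [CharP F p] (D : GL (Fin 2) F)
    (hd : D.1.trace ^ 2 ≠ 4 * D.1.det) (ho : orderOf D ≠ 0) : ¬ p ∣ orderOf D := by
  rintro ⟨k, hk⟩
  have h1 : ∀ n : ℕ, ∃ a b : F, D.1 ^ n = a • 1 + b • D.1 := by
    intro n
    induction n with
    | zero => exact ⟨1, 0, by simp⟩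
    | succ n ih =>
      obtain ⟨a, b, h⟩ := ih
      refine ⟨-b * D.1.det, a + b * D.1.trace, ?_⟩
      rw [pow_succ, h]
      ext i j
      fin_cases i <;> fin_cases j <;>
        simp [Matrix.mul_apply, det_fin_two, trace_fin_two] <;> ring
  obtain ⟨a, b, h⟩ := h1 k
  have h2 : (D.1 ^ k - 1) ^ p = 0 := by
    rw [sub_pow_char_of_commute _ (Commute.one_right _), one_pow, ← pow_mul, mul_comm, ← hk,
      ← Units.val_pow_eq_pow_val, pow_orderOf_eq_one, Units.val_one, sub_self]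
  have h3 : (D.1 ^ k - 1).trace = 0 := (Matrix.isNilpotent_trace_of_isNilpotent ⟨p, h2⟩).eq_zero
  have h4 : (D.1 ^ k - 1).det = 0 := by
    have := congrArg det h2
    rw [det_pow, det_zero] at this
    exact pow_eq_zero_iff hp.out.ne_zero |>.1 this
  rw [h] at h3 h4
  simp [det_fin_two, trace_fin_two] at h3 h4 hd
  have hb : b = 0 := by
    by_contra hb
    apply hd
    have : b ^ 2 * ((D.1 0 0 + D.1 1 1) ^ 2 - 4 * (D.1 0 0 * D.1 1 1 - D.1 0 1 * D.1 1 0)) = 0 := by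
      linear_combination (a + b * D.1 0 0 - 1 + (a + b * D.1 1 1 - 1)) * h3 - 4 * h4
    exact sub_eq_zero.1 ((mul_eq_zero.1 this).resolve_left (pow_ne_zero 2 hb))
  have ha : a = 1 := by
    rw [hb] at h4
    simpa [sub_eq_zero] using h4
  have h5 : D ^ k = 1 := Units.ext (by rw [Units.val_pow_eq_pow_val, h, ha, hb]; simp)
  have h6 := Nat.le_of_dvd (Nat.pos_of_ne_zero fun h0 => ho (by rw [hk, h0, mul_zero]))
    (orderOf_dvd_of_pow_eq_one h5)
  have := hp.out.one_lt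
  have h7 : k ≠ 0 := fun h0 => ho (by rw [hk, h0, mul_zero])
  rw [hk] at h6
  nlinarith [Nat.pos_of_ne_zero h7]

/-- A form of Thompson's conjecture for the simple groups PSp(4,q), q ≥ 3 (covering the non-identity elements), with a semisimple class: for F a finite field of characteristic p with at least 3 elements there is an element x of PSp(4,F) of order prime to p such that every non-identity element of PSp(4,F) is a product of two conjugates of x. -/
theorem result {F : Type*} [Field F] [Fintype F] (p : ℕ) [Fact p.Prime] [CharP F p] (h3 : 3 ≤ Fintype.card F) :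
    ∃ x : Cfsg.PSp 2 F, ¬ p ∣ orderOf x ∧ ∀ g : Cfsg.PSp 2 F, g ≠ 1 → ∃ u v : Cfsg.PSp 2 F, g = (u * x * u⁻¹) * (v * x * v⁻¹) := by
  classical
  obtain ⟨b, t, hb, ht, h1, h2, h4⟩ := exists_bt h3
  let D : GL (Fin 2) F := GeneralLinearGroup.mkOfDetNeZero !![0, b; b, t] (by simp [det_fin_two, hb])
  have hD : D.1 = !![0, b; b, t] := rfl
  have hDi : (D⁻¹).1 = !![-t / b ^ 2, 1 / b; 1 / b, 0] := by
    rw [Matrix.coe_units_inv, hD]
    apply inv_eq_right_inv
    ext i j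
    fin_cases i <;> fin_cases j <;> simp [hb]
    field_simp; ring
  have hdisc : D.1.trace ^ 2 ≠ 4 * D.1.det := by
    simp only [hD, det_fin_two_of, trace_fin_two_of]
    intro h; exact h1 (by linear_combination h)
  have hs : D.1ᵀ = D.1 := by
    rw [hD]; ext i j; fin_cases i <;> fin_cases j <;> rfl
  have hp : aeval (D⁻¹).1ᵀ (C (-b ^ 2) * X ^ 2 - C t * X + 1) = 0 := by
    simp only [map_add, map_sub, map_mul, aeval_C, map_pow, aeval_X, map_one, hDi,
      Algebra.algebraMap_eq_smul_one, smul_mul_assoc, one_mul, sq]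
    ext i j
    fin_cases i <;> fin_cases j <;> simp [Matrix.mul_apply] <;> field_simp <;> ring
  have hp1 : IsUnit (aeval D.1 (C (-b ^ 2) * X ^ 2 - C t * X + 1)) := by
    simp only [map_add, map_sub, map_mul, aeval_C, map_pow, aeval_X, map_one, hD,
      Algebra.algebraMap_eq_smul_one, smul_mul_assoc, one_mul, sq]
    rw [isUnit_iff_isUnit_det, isUnit_iff_ne_zero, det_fin_two]
    intro h
    apply mul_ne_zero (pow_ne_zero 2 h2) h4
    simp at h
    linear_combination h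
  have hrel : ∀ g : symplecticGroup (Fin 2) F, Good g.1.toBlocks₁₁ →
      ∃ u v, g = (u * lev D * u⁻¹) * (v * lev D * v⁻¹) := fun g hg =>
    core_sp hs hp hp1 g (hg.relG (by simpa [hD] using ht) hdisc)
  refine ⟨QuotientGroup.mk (lev D), fun h => not_dvd_orderOf p D hdisc (orderOf_pos D).ne'
    (h.trans ((orderOf_map_dvd (QuotientGroup.mk' _) _).trans (orderOf_map_dvd _ _))),
    fun g hg => ?_⟩
  obtain ⟨g, rfl⟩ := QuotientGroup.mk_surjective g
  obtain ⟨P, hP⟩ := exists_frame g fun c hc => hg (by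
    rw [QuotientGroup.eq_one_iff, Subgroup.mem_center_iff]
    intro b
    apply Subtype.ext
    simp [hc])
  let n : symplecticGroup (Fin 2) F := ⟨-1, SymplecticGroup.neg_mem (one_mem _)⟩
  have hn : (QuotientGroup.mk n : Cfsg.PSp 2 F) = 1 := by
    rw [QuotientGroup.eq_one_iff, Subgroup.mem_center_iff]
    intro b
    apply Subtype.ext
    simp [n]
  have : ∃ u v, (QuotientGroup.mk (P⁻¹ * g * P) : Cfsg.PSp 2 F) =
      QuotientGroup.mk ((u * lev D * u⁻¹) * (v * lev D * v⁻¹)) := by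
    rcases hP with hP | hP
    · obtain ⟨u, v, h⟩ := hrel _ hP
      exact ⟨u, v, by rw [← h]⟩
    · obtain ⟨u, v, h⟩ := hrel (n * (P⁻¹ * g * P)) (by
        convert hP using 1
        ext i j
        simp [n, toBlocks₁₁])
      exact ⟨u, v, by rw [← h, QuotientGroup.mk_mul _ n, hn, one_mul]⟩
  obtain ⟨u, v, h⟩ := this
  refine ⟨QuotientGroup.mk (P * u), QuotientGroup.mk (P * v), ?_⟩
  simp only [QuotientGroup.mk_mul, QuotientGroup.mk_inv] at h ⊢
  calc _ = (P : Cfsg.PSp 2 F) * ((P : Cfsg.PSp 2 F)⁻¹ * g * P) * (P : Cfsg.PSp 2 F)⁻¹ := by group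
    _ = _ := by rw [h]; group

end Cfsg.Agent.S2460
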