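import Cfsg.Statements.S2461
import Cfsg.Agent.H37.ThE
import Cfsg.Agent.H40.Ree2
import Cfsg.Agent.H38.Simple

set_option autoImplicit false
open Cfsg

namespace Cfsg.Agent.S2461

open Cfsg.Lie Cfsg.Agent.H37 Cfsg.Agent.H40 Cfsg.Agent.H37.Th

/-- the trivial twist of `G₂` -/
def C0 : TwC chevG2 (Fin 2) where
  τ r := r
  γ _ := 1
  Js j := [j]
  word j := [j]
  base j := j
  τ_lt _ h := h
  τ_pos _ _ := Iff.rfl
  τ_neg _ _ := rfl
  γ_sq _ _ := rfl
  γ_neg _ _ := rfl
  word_lt := by decide +kernel
  τ_J _ _ _ := Iff.rfl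
  J_iff := by decide +kernel
  w_sq := by decide +kernel
  base_lt := by decide +kernel
  base_mem := by decide +kernel
  orbit := by decide +kernel
  cover := by decide +kernel
  disj := by decide +kernel

/-- the identity map as a twist -/
def T0 (F : Type*) [Field F] : TwD (matRel isChev_G2 F) C0 where
  σ g := g
  e _ := RingHom.id F
  σ_mul _ _ _ _ := rfl
  e_neg _ _ := rfl
  σ_x _ _ _ := by simp [C0]
  n_fix _ := rfl

/-- A form of Thompson's conjecture for the simple Chevalley groups G₂(q), q ≥ 3 (covering the non-identity elements), with a semisimple class: for F a finite field of characteristic p with at least 3 elements there is an element x of the Chevalley group of type G₂ over F of order prime to p such that every non-identity element of that group is a product of two conjugates of x. -/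
theorem result {F : Type*} [Field F] [Fintype F] (p : ℕ) [Fact p.Prime] [CharP F p] (h3 : 3 ≤ Fintype.card F) :
    ∃ x : Cfsg.Lie.chevG2.group F, ¬ p ∣ orderOf x ∧ ∀ g : Cfsg.Lie.chevG2.group F, g ≠ 1 → ∃ u v : Cfsg.Lie.chevG2.group F, g = (u * x * u⁻¹) * (v * x * v⁻¹) := by
  letI := H40.chG2
  obtain ⟨κ, h0, h1⟩ : ∃ a : F, a ≠ 0 ∧ a ≠ 1 := by
    classical
    obtain ⟨a, -, ha⟩ := Finset.exists_mem_notMem_of_card_lt_card (s := ({0, 1} : Finset F)) (t := Finset.univ)
      (Finset.card_le_two.trans_lt h3)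
    exact ⟨a, by simpa using ha⟩
  have e : (T0 F).mt.Fix = chevG2.group F := by
    ext g; rw [TwD.mem_mt_Fix, matRel_grp]; exact and_iff_left rfl
  have := (H38.isSimpleGroup_group isChev_G2 F fun _ => ⟨κ, h0, h1⟩).1
  have hC : ∀ j, OrbJ C0 j := by decide +kernel
  rw [← e] at this ⊢
  refine cover_ox (T0 F) (by decide) p (a := 1) (b := 0) (φ := RingHom.id F) rfl hC (by decide) (by decide)
    (by decide +kernel) (i := 1) rfl (by decide +kernel) (fun h h1 _ => ?_) (fun _ => rfl) (Units.mk0 κ h0) rfl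
    fun r hr e e' => h1 ?_
  · obtain ⟨c, hc⟩ := exists_isH (S := matRel isChev_G2 F) h1
    refine ⟨c 1, c 0, rfl, rfl, hc.uniq (matRel_adj _ _) (((isH_oh (hC 1) _).mul (isH_oh (hC 0) _)).congr fun i hi => ?_)⟩
    obtain rfl | rfl : i = 0 ∨ i = 1 := by change i < 2 at hi; omega
    all_goals simp [oc, C0]
  have h4 : ∀ r < chevG2.nroots, chevG2.cartan 1 r = 0 → chevG2.cartan 0 r = 1 ∨ chevG2.cartan 0 r = -1 := by
    decide +kernel
  rw [chiG2, e] at e'
  rcases h4 r hr e with e0 | e0 <;> simpa [e0, oc, C0, Units.ext_iff] using e'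

end Cfsg.Agent.S2461
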