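import Cfsg.Statements.S2462
import Cfsg.Agent.H37.ThE
import Cfsg.Agent.H40.D4a

set_option autoImplicit false
open Cfsg

namespace Cfsg.Agent.S2462

open Cfsg.Lie Cfsg.Agent.H40 Cfsg.Agent.H37.Th

theorem exists_kappa {K : Type*} [Field K] (φ : K →+* K) (hk : ∃ k : Kˣ, k ^ 2 ≠ 1) :
    ∃ κ : Kˣ, κ * φ κ ≠ φ (φ κ) := by
  obtain ⟨k, hk⟩ := hk
  have h1 : (k : K) + 1 ≠ 0 := fun e => hk (Units.ext (by
    rw [Units.val_pow_eq_pow_val, eq_neg_of_add_eq_zero_left e]; simp))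
  by_contra! h
  have h2 := h k
  have h3 := h (Units.mk0 _ h1)
  simp only [Units.val_mk0, map_add, map_one] at h3
  have h4 : φ k = -k := by linear_combination h3 - h2
  rw [h4, map_neg, h4] at h2
  exact h1 ((mul_eq_zero.1 (show (k : K) * (k + 1) = 0 by linear_combination -h2)).resolve_left k.ne_zero)

/-- A form of Thompson's conjecture for the triality groups ³D₄(q) (covering the non-identity elements) with a semisimple class: for q a power of the prime p and K the field with q³ elements there is an element x of ³D₄(q) (realised over K) of order prime to p such that every non-identity element of ³D₄(q) is a product of two conjugates of x. -/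
theorem result {K : Type*} [Field K] [Fintype K] (p : ℕ) [Fact p.Prime] [CharP K p] (q : ℕ) (hq : IsPrimePow q) (hK : Fintype.card K = q ^ 3) :
    ∃ x : Cfsg.Lie.twistedD4 K q, ¬ p ∣ orderOf x ∧ ∀ g : Cfsg.Lie.twistedD4 K q, g ≠ 1 → ∃ u v : Cfsg.Lie.twistedD4 K q, g = (u * x * u⁻¹) * (v * x * v⁻¹) := by
  letI := H40.chD4
  obtain ⟨φ, hφ⟩ := exists_frob hq hK
  have h3 := frob_iter_self hK hφ
  have hk := exists_sq_ne_one hq hK (by omega)
  have := (simple_D4 h3 hk).1
  obtain ⟨κ, hκ⟩ := exists_kappa φ hk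
  rw [← Fix_D4 h3 hφ]
  refine cover_ox (TD φ) (by decide) p (a := 0) (b := 1) (TD_e φ) orbD4 (by decide) (by decide) (by decide +kernel)
    (i := 1) rfl (by decide +kernel) (fun h h1 h2 => ?_) h3 κ (h3 _) fun r hr e e' => hκ ?_
  · obtain ⟨k, rfl⟩ : h ∈ (dh φ).range := range_dh h3 ▸ ⟨h1, h2⟩
    exact ⟨_, _, (mem_fixU φ).1 k.2.2, h3 _, dh_eq φ k⟩
  have h4 : ∀ r < chevD4.nroots, chevD4.cartan 1 r = 0 → ∃ s ∈ [(1 : ℤ), -1],
      (chevD4.cartan 0 r = s ∧ chevD4.cartan 2 r = s ∧ chevD4.cartan 3 r = -s) ∨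
      (chevD4.cartan 0 r = -s ∧ chevD4.cartan 2 r = s ∧ chevD4.cartan 3 r = s) ∨
      (chevD4.cartan 0 r = s ∧ chevD4.cartan 2 r = -s ∧ chevD4.cartan 3 r = s) := by decide +kernel
  obtain ⟨s, hs, h5⟩ := h4 r hr e
  have h6 (a b c : Kˣ) (h : a ^ s * b ^ s * c ^ (-s) = 1) : (a : K) * b = c := by
    simp only [List.mem_cons, List.not_mem_nil, or_false] at hs
    rw [zpow_neg, ← mul_zpow, ← div_eq_mul_inv, ← div_zpow] at h
    rcases hs with rfl | rfl <;> simpa [div_eq_one, Units.ext_iff, eq_comm] using h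
  have h7 : ∀ t, φ (φ (φ t)) = t := h3
  rw [chiD4, e] at e'
  change oc φ [0, 2, 3] κ 0 ^ _ * _ * oc φ [0, 2, 3] κ 2 ^ _ * oc φ [0, 2, 3] κ 3 ^ _ = 1 at e'
  rcases h5 with ⟨e0, e2, e3⟩ | ⟨e0, e2, e3⟩ | ⟨e0, e2, e3⟩ <;> rw [e0, e2, e3] at e'
  · simpa using h6 κ (Units.map (φ : K →* K) κ) (Units.map (φ : K →* K) (Units.map (φ : K →* K) κ))
      (by simpa [oc] using e')
  · have := congrArg (fun t => φ (φ t)) (h6 (Units.map (φ : K →* K) κ)
      (Units.map (φ : K →* K) (Units.map (φ : K →* K) κ)) κ (by simpa [oc, mul_comm, mul_left_comm, mul_assoc] using e'))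
    simpa [h7] using this
  · have := congrArg φ (h6 (Units.map (φ : K →* K) (Units.map (φ : K →* K) κ)) κ (Units.map (φ : K →* K) κ)
      (by simpa [oc, mul_comm, mul_left_comm, mul_assoc] using e'))
    simpa [h7] using this

end Cfsg.Agent.S2462
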