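import Cfsg.Statements.S2463
import Cfsg.Agent.H37.ThF
import Cfsg.Agent.H37.TiM

set_option autoImplicit false
open Cfsg

namespace Cfsg.Agent.S2463

open Cfsg.Lie Cfsg.Agent.H40 Cfsg.Agent.H37

theorem of_equiv {M G : Type*} [Group M] [Group G] (e : M ≃* G)
    (h : ∃ x : G, Odd (orderOf x) ∧ ∀ g : G, g ≠ 1 → ∃ u v : G, g = (u * x * u⁻¹) * (v * x * v⁻¹)) :
    ∃ x : M, Odd (orderOf x) ∧ ∀ g : M, g ≠ 1 → ∃ u v : M, g = (u * x * u⁻¹) * (v * x * v⁻¹) := by
  obtain ⟨x, h1, h2⟩ := h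
  refine ⟨e.symm x, by rwa [MulEquiv.orderOf_eq], fun g hg => ?_⟩
  obtain ⟨u, v, h3⟩ := h2 (e g) (by simpa using hg)
  exact ⟨e.symm u, e.symm v, e.injective (by simpa using h3)⟩

set_option maxRecDepth 100000

/-- A form of Thompson's conjecture for the simple groups of type ²F₄ (covering the non-identity elements) with a semisimple class: if M is a large Ree group ²F₄(2^(2m+1)) with m ≥ 1, or the Tits group, then there is an element x of M of odd order such that every non-identity element of M is a product of two conjugates of x. -/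
theorem result {M : Type*} [Group M] [Finite M] (hM : Cfsg.Lie.Iso2F4 M ∨ Cfsg.Lie.IsoTits M) :
    ∃ x : M, Odd (orderOf x) ∧ ∀ g : M, g ≠ 1 → ∃ u v : M, g = (u * x * u⁻¹) * (v * x * v⁻¹) := by
  rcases hM with ⟨K, _, _, m, hm, hK, ⟨e⟩⟩ | ⟨⟨e⟩⟩
  · refine of_equiv e ?_
    rw [← Fix_F4 (mkTh Nat.prime_two hK)]
    classical
    obtain ⟨a, -, ha⟩ := Finset.exists_mem_notMem_of_card_lt_card (s := ({0, 1} : Finset K)) (t := Finset.univ)
      (Finset.card_le_two.trans_lt ((H13.two_lt_card hm hK).trans_eq Nat.card_eq_fintype_card))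
    exact Th.cover_F4 _ ⟨a, by simpa using ha⟩
  · exact of_equiv (G := TitsGroup) e Ti.cover_tits

end Cfsg.Agent.S2463
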