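import Cfsg.Statements.S2467
import Cfsg.Agent.H66.AltOrders

set_option autoImplicit false
open Cfsg

namespace Cfsg.Agent.S2467


/-- Adjacency of 2 and an odd prime in the prime graph of the alternating groups: let r be an odd prime at most n, with n ≥ 4. The alternating group of degree n has an element of order 2r if and only if r + 4 ≤ n. -/
theorem result (n r : ℕ) (hn : 4 ≤ n) (hr : r.Prime) (hr2 : r ≠ 2) (hrn : r ≤ n) :
    (2 * r ∈ Set.range (orderOf : alternatingGroup (Fin n) → ℕ)) ↔ r + 4 ≤ n := by
  rw [Cfsg.Agent.H66.mem_range_orderOf_alternating_iff]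
  have hcop : Nat.Coprime 2 r := (Nat.coprime_primes Nat.prime_two hr).mpr (Ne.symm hr2)
  have hodd := hr.odd_of_ne_two hr2
  constructor
  · rintro ⟨t, ht, h2, he, hl⟩
    rw [Cfsg.Agent.H66.even_sum_add_card_iff] at he
    obtain ⟨a, ha, hra⟩ := Cfsg.Agent.H66.exists_mem_dvd_of_prime_dvd_lcm Nat.prime_two t
      (hl ▸ Dvd.intro _ rfl)
    obtain ⟨c, hc, hrc⟩ := Cfsg.Agent.H66.exists_mem_dvd_of_prime_dvd_lcm hr t
      (hl ▸ Dvd.intro_left _ rfl)
    have haE : a ∈ t.filter Even := Multiset.mem_filter.mpr ⟨ha, even_iff_two_dvd.mpr hra⟩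
    have hpos : 0 < (t.filter Even).card := Multiset.card_pos_iff_exists_mem.mpr ⟨a, haE⟩
    have hcard : 2 ≤ (t.filter Even).card := by
      rw [Nat.even_iff] at he
      omega
    have hsum : (t.filter Even).sum + (t.filter (fun x => ¬ Even x)).sum = t.sum := by
      rw [← Multiset.sum_add, Multiset.filter_add_not]
    have hc0 := h2 c hc
    by_cases hce : Even c
    · have hcE : c ∈ t.filter Even := Multiset.mem_filter.mpr ⟨hc, hce⟩
      obtain ⟨u, hu⟩ := Multiset.exists_cons_of_mem hcE
      have hu1 : 0 < u.card := by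
        rw [hu, Multiset.card_cons] at hcard
        omega
      obtain ⟨b, hb⟩ := Multiset.card_pos_iff_exists_mem.mp hu1
      have hbt : b ∈ t := (Multiset.mem_filter.mp (hu ▸ Multiset.mem_cons_of_mem hb)).1
      have hb2 := h2 b hbt
      have h3 := Multiset.single_le_sum (s := u) (fun x _ => Nat.zero_le x) b hb
      rw [hu, Multiset.sum_cons] at hsum
      have h4 : 2 * r ≤ c :=
        Nat.le_of_dvd (by omega) (hcop.mul_dvd_of_dvd_of_dvd (even_iff_two_dvd.mp hce) hrc)
      have := hr.two_le
      omega
    · have hcO : c ∈ t.filter (fun x => ¬ Even x) := Multiset.mem_filter.mpr ⟨hc, hce⟩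
      have h3 := Multiset.single_le_sum (s := t.filter (fun x => ¬ Even x))
        (fun x _ => Nat.zero_le x) c hcO
      have h4 := Multiset.card_nsmul_le_sum (s := t.filter Even) (a := 2)
        (fun x hx => h2 x (Multiset.mem_filter.mp hx).1)
      have h5 := Nat.le_of_dvd (by omega) hrc
      rw [smul_eq_mul] at h4
      omega
  · intro h
    refine ⟨{r, 2, 2}, ?_, ?_, ?_, ?_⟩
    · simp only [Multiset.insert_eq_cons, Multiset.sum_cons, Multiset.sum_singleton]
      omega
    · intro a ha
      simp only [Multiset.insert_eq_cons, Multiset.mem_cons, Multiset.mem_singleton] at ha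
      rcases ha with rfl | rfl | rfl
      · exact hr.two_le
      · exact le_rfl
      · exact le_rfl
    · simp only [Multiset.insert_eq_cons, Multiset.sum_cons, Multiset.sum_singleton,
        Multiset.card_cons, Multiset.card_singleton]
      rw [Nat.odd_iff] at hodd
      rw [Nat.even_iff]
      omega
    · simp only [Multiset.insert_eq_cons, Multiset.lcm_cons, Multiset.lcm_singleton]
      rw [normalize_eq, lcm_eq_nat_lcm, lcm_eq_nat_lcm, Nat.lcm_self, hcop.symm.lcm_eq_mul,
        mul_comm]

end Cfsg.Agent.S2467
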