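import Cfsg.Statements.S2471
import Cfsg.Agent.H66.SL2Order

set_option autoImplicit false
open Cfsg

namespace Cfsg.Agent.S2471


/-- In PSL(2,q) with q odd, the characteristic p is isolated from 2 in the prime graph: for F a finite field of odd characteristic p with at least 5 elements, PSL(2,F) has no element of order 2p. -/
theorem result {F : Type*} [Field F] [Fintype F] (p : ℕ) [Fact p.Prime] [CharP F p] (hp : p ≠ 2) (h5 : 5 ≤ Fintype.card F) (g : Matrix.ProjectiveSpecialLinearGroup (Fin 2) F) :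
    orderOf g ≠ 2 * p := by
  intro h
  have hpp : p.Prime := Fact.out
  obtain ⟨n, -, hn⟩ := FiniteField.card F p
  have hq : p ∣ Fintype.card F := hn ▸ dvd_pow_self p n.ne_zero
  have h1 : ∀ m : ℕ, orderOf g ∣ m / Nat.gcd 2 (Fintype.card F - 1) →
      Nat.gcd 2 (Fintype.card F - 1) ∣ m → p ∣ m := fun m a b =>
    ((Dvd.intro_left 2 h.symm).trans a).trans (Nat.div_dvd_of_dvd b)
  have h2 : (2 : F) ≠ 0 := fun e => hp ((Nat.prime_dvd_prime_iff_eq hpp Nat.prime_two).1
    ((CharP.cast_eq_zero_iff F p 2).1 e))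
  have hodd := H66.odd_card_of_two_ne h2
  rcases H66.orderOf_psl2_dvd p g with e | e | e
  · rw [h] at e
    have := Nat.le_of_dvd hpp.pos e
    have := hpp.pos
    omega
  · have := h1 _ e (Nat.gcd_dvd_right _ _)
    have := (Nat.dvd_sub_iff_right (by omega) hq).1 this
    exact hpp.one_lt.ne' (Nat.dvd_one.1 this)
  · have := h1 _ e (by rw [H66.gcd_two_of_two_ne_zero h2]; omega)
    have := (Nat.dvd_add_right hq).1 this
    exact hpp.one_lt.ne' (Nat.dvd_one.1 this)

end Cfsg.Agent.S2471
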