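import Cfsg.Statements.S2474
import Mathlib
import Cfsg.Agent.H67.OddSp

set_option autoImplicit false
open Cfsg

namespace Cfsg.Agent.S2474

open Polynomial Module Matrix H67

section
variable {F : Type*} [Field F] [Fintype F] {n s N : ℕ}

local notation "𝒦" => AlgebraicClosure F
local notation "q" => Fintype.card F
local notation "PO" => Set.range (orderOf : Cfsg.POmega F (Cfsg.quadFormOdd n F) → ℕ)
local notation "PS" => Set.range (orderOf : Cfsg.PSp n F → ℕ)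

theorem core (alt : Bool) {ι : Type*} [Fintype ι] [DecidableEq ι] {M : Matrix ι ι F}
    (hι : Fintype.card ι ≤ 2 * n + 1) (hN : Odd N) (hN0 : (N : F) ≠ 0) (hM : M ^ N = 1)
    (h : (ev 𝒦 M).map (fun x => x⁻¹) = ev 𝒦 M) : ∃ m ≤ n, ∃ A : Matrix (Fin (2 * m)) (Fin (2 * m)) F,
      Pres alt (toLin' A) ∧ ∀ k, A ^ k = 1 ↔ M ^ k = 1 := by
  obtain ⟨m, A, e, h1, -, h2, h3⟩ := exists_pres_core alt hN
    (fun x hx => pow_eq_one_of_mem_ev hM hx) (ev_map_frob M) h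
  refine ⟨m, ?_, A, h3, fun k => ⟨fun hk => IsSS_pow_eq_one (Ω := 𝒦)
    (H66.isSS_of_pow_eq_one hN0 hM) fun x hx => ?_, fun hk => IsSS_pow_eq_one (Ω := 𝒦)
    (H66.isSS_of_pow_eq_one hN0 h1) fun x hx => pow_eq_one_of_mem_ev hk (by simp [h2, hx])⟩⟩
  · have := congrArg Multiset.card h2
    simp only [card_ev, Multiset.card_add, Fintype.card_fin] at this
    omega
  · rcases Multiset.mem_add.1 (h2 ▸ hx) with h | h
    exacts [pow_eq_one_of_mem_ev hk h, by simp [Multiset.eq_of_mem_replicate h]]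

theorem caseA (p : ℕ) [Fact p.Prime] [CharP F p] (h2 : (2 : F) ≠ 0) (hn : 2 ≤ n) (hN : Odd N)
    (hN0 : (N : F) ≠ 0) : N ∈ PO ↔ N ∈ PS := by
  rw [mem_range_orderOf_pomega_iff h2 hn, mem_range_orderOf_psp_iff p (by omega) (.inr hN)]
  constructor
  · rintro ⟨g, -, rfl⟩
    obtain ⟨m, hm, A, h1, h3⟩ := core (n := n) true (M := g.1.1) (by simp; omega) hN hN0
      (congrArg (·.1.1) (pow_orderOf_eq_one g)) (ev_map_inv_of_odd h2 g)
    obtain ⟨u, hu, -⟩ := h1.exists_sp_pad (by simp) hm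
    exact ⟨u, orderOf_eq_orderOf_iff.2 fun k => by
      simp [hu, toLin'_pow_eq_one_iff, h3, Subtype.ext_iff, Units.ext_iff]⟩
  · rintro ⟨g, rfl⟩
    obtain ⟨m, hm, A, h1, h3⟩ := core (n := n) false (M := g.1) (by simp; omega) hN hN0
      (congrArg (·.1) (pow_orderOf_eq_one g)) (ev_map_inv_of_sp g)
    obtain ⟨u, hu⟩ := h1.exists_odd_pad h2 (n := n) (by simp; omega)
    have : orderOf u = orderOf g := orderOf_eq_orderOf_iff.2 fun k => by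
      simp [hu, toLin'_pow_eq_one_iff, h3, Subtype.ext_iff]
    exact ⟨u, mem_omega_of_odd h2 hN this, this⟩

theorem mixed (p : ℕ) [Fact p.Prime] [CharP F p] (h2 : (2 : F) ≠ 0) {x : 𝒦} {d : ℕ} (h0 : x ≠ 0)
    (h1 : x ^ 2 ≠ 1) (hd : 0 < d) (hdn : d < n) (h : x ^ q ^ d = x ∨ x ^ q ^ d = x⁻¹) :
    (∃ g : isometryGroup F (quadFormOdd n F), ∀ k, g ^ k = 1 ↔ x ^ k = 1 ∧ p ∣ k) ∧
      ∃ g : symplecticGroup (Fin n) F, ∀ k, g ^ k = 1 ↔ x ^ k = 1 ∧ p ∣ k := by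
  constructor
  · obtain ⟨A, h3, h4⟩ := exists_pres_pm false h0 h1 h hd
    obtain ⟨T, h5, h6, h7⟩ := exists_unip_symm (F := F) p h2
    obtain ⟨g, hg⟩ := (h3.prod h5).exists_odd_pad h2 (n := n) (by simp; omega)
    refine ⟨g, fun k => ?_⟩
    rw [hg, prodMap_pow_eq_one_iff, toLin'_pow_eq_one_iff, h4]
    exact and_congr_right' ⟨fun h => (h7 k 1 (by simpa using h)).2,
      by rintro ⟨j, rfl⟩; rw [pow_mul, h6, one_pow]⟩
  · obtain ⟨A, h3, h4⟩ := exists_pres_pm true h0 h1 h hd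
    obtain ⟨T, h5, h6, h7⟩ := exists_unip_alt (F := F) p
    obtain ⟨g, hg, -⟩ := (h3.prod h5).exists_sp_pad (m := d + 1) (n := n) (by simp; omega) hdn
    refine ⟨g, fun k => ?_⟩
    rw [hg, prodMap_pow_eq_one_iff, toLin'_pow_eq_one_iff, h4]
    exact and_congr_right' ⟨fun h => (h7 k 1 (by simpa using h)).2,
      by rintro ⟨j, rfl⟩; rw [pow_mul, h6, one_pow]⟩

theorem caseB (p : ℕ) [hp : Fact p.Prime] [CharP F p] (h2 : (2 : F) ≠ 0) (hn : 2 ≤ n)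
    (hs : s.Prime) (hN : Odd (s * p)) (hsp : s ≠ p) : s * p ∈ PO ↔ s * p ∈ PS := by
  have hc := (Nat.coprime_primes hs hp.out).2 hsp
  have hs' := (Nat.odd_mul.1 hN).1
  rw [mem_range_orderOf_pomega_iff h2 hn, mem_range_orderOf_psp_iff p (by omega) (.inr hN)]
  have key : ∀ {G : Type _} [Group G] {x : 𝒦} {g : G}, x ^ s = 1 → x ≠ 1 →
      (∀ k, g ^ k = 1 ↔ x ^ k = 1 ∧ p ∣ k) → orderOf g = s * p := fun h1 h2 hg =>
    orderOf_eq_mul_iff hs hp.out ((hg _).2 ⟨by rw [pow_mul, h1, one_pow], dvd_mul_left _ _⟩)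
      (fun h => hsp ((Nat.prime_dvd_prime_iff_eq hp.out hs).1 ((hg _).1 h).2).symm)
      fun h => h2 (by simpa [hc.gcd_eq_one] using pow_gcd_eq_one.2 ⟨h1, ((hg _).1 h).1⟩)
  have key2 : ∀ x : 𝒦, x ^ s = 1 → x ≠ 1 → x ≠ 0 ∧ x ^ 2 ≠ 1 := fun x h1 h2 =>
    ⟨by rintro rfl; simp [hs.ne_zero] at h1, fun h => h2 (by
      simpa [(Nat.coprime_two_right.2 hs').gcd_eq_one] using pow_gcd_eq_one.2 ⟨h1, h⟩)⟩
  constructor
  · rintro ⟨g, -, hg⟩
    obtain ⟨h3, h4, h5⟩ := pow_ne_one_of_orderOf hs hp.out hg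
    obtain ⟨x, d, h6, h7, h8, h9, h10⟩ := exists_pm_of_order_mul_char (n := n) p (by simp; omega) hs'
      (ev_map_inv_of_odd (Ω := 𝒦) h2 g) hc (congrArg (·.1.1) h3)
      (fun h => h4 (Subtype.ext (Units.ext h))) fun h => h5 (Subtype.ext (Units.ext h))
    obtain ⟨-, u, hu⟩ := mixed p h2 (key2 x h6 h7).1 (key2 x h6 h7).2 h8 h9 h10
    exact ⟨u, key h6 h7 hu⟩
  · rintro ⟨g, hg⟩
    obtain ⟨h3, h4, h5⟩ := pow_ne_one_of_orderOf hs hp.out hg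
    obtain ⟨x, d, h6, h7, h8, h9, h10⟩ := exists_pm_of_order_mul_char (n := n) p (by simp; omega) hs'
      (ev_map_inv_of_sp (Ω := 𝒦) g) hc (congrArg (·.1) h3)
      (fun h => h4 (Subtype.ext h)) fun h => h5 (Subtype.ext h)
    obtain ⟨⟨u, hu⟩, -⟩ := mixed p h2 (key2 x h6 h7).1 (key2 x h6 h7).2 h8 h9 h10
    exact ⟨u, mem_omega_of_odd h2 hN (key h6 h7 hu), key h6 h7 hu⟩

theorem ord4 {G : Type*} [Group G] (hs : s.Prime) {g : G} (h1 : g ^ (4 * s) = 1)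
    (h2 : g ^ (2 * s) ≠ 1) (h3 : g ^ 4 ≠ 1) : orderOf (g ^ 2) = 2 * s :=
  orderOf_eq_mul_iff Nat.prime_two hs (by rwa [← pow_mul, ← mul_assoc]) (by rwa [← pow_mul])
    (by rwa [← pow_mul])

theorem o4 (h2 : (2 : F) ≠ 0) (hn : 2 ≤ n) (hs : s.Prime) {g : isometryGroup F (quadFormOdd n F)}
    (h1 : g ^ (4 * s) = 1) (h3 : g ^ (2 * s) ≠ 1) (h4 : g ^ 4 ≠ 1) : 2 * s ∈ PO :=
  (mem_range_orderOf_pomega_iff h2 hn _).2 ⟨_, sq_mem_omega h2 g, ord4 hs h1 h3 h4⟩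

theorem sp4 (hn : 2 ≤ n) (hs : s.Prime) {g : symplecticGroup (Fin n) F}
    (h1 : g ^ (4 * s) = 1) (h3 : g ^ (2 * s) ≠ 1) (h4 : g ^ 4 ≠ 1) : 2 * s ∈ PS := by
  refine mem_range_orderOf_of_dvd (QuotientGroup.mk g) ?_
  rw [← ord4 hs h1 h3 h4, orderOf_dvd_iff_pow_eq_one, pow_right_comm]
  refine sp_center_sq (by omega) _ ((QuotientGroup.eq_one_iff _).1 ?_)
  rw [QuotientGroup.mk_pow, pow_orderOf_eq_one]

theorem root_pm {x : 𝒦} (hx : ∀ k, x ^ k = 1 ↔ N ∣ k) (hN : N ≠ 0) {a : ℕ} (ha : 0 < a)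
    (h : N ∣ a - 1 ∨ N ∣ a + 1) : x ≠ 0 ∧ (x ^ a = x ∨ x ^ a = x⁻¹) := by
  have h0 : x ≠ 0 := by rintro rfl; simpa [hN] using (hx N).2 dvd_rfl
  refine ⟨h0, h.imp (fun h => ?_) fun h => ?_⟩
  · rw [← Nat.sub_add_cancel ha, pow_succ, (hx _).2 h, one_mul]
  · rw [← mul_eq_one_iff_eq_inv₀ h0, ← pow_succ, (hx _).2 h]

theorem root4 (p : ℕ) [hp : Fact p.Prime] [CharP F p] (hq : Odd q) (hp2 : Odd p) :
    ∃ i : 𝒦, (∀ k, i ^ k = 1 ↔ 4 ∣ k) ∧ i ≠ 0 ∧ (i ^ q ^ 1 = i ∨ i ^ q ^ 1 = i⁻¹) := by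
  obtain ⟨i, hi⟩ := exists_root' F 𝒦 p (N := 4) ((Nat.coprime_two_left.2 hp2).pow_left 2)
  obtain ⟨k, hk⟩ := hq.pow (n := 1)
  exact ⟨i, hi, root_pm hi four_ne_zero (by omega) (by omega)⟩

variable (F n s) in
/-- the common criterion -/
def J : Prop := ∃ m ≤ n, ∃ t : Multiset 𝒦, t.map (fun x => x ^ q) = t ∧ t.map (fun x => x⁻¹) = t ∧
  t.card = 2 * m ∧ (∀ x ∈ t, x ^ 2 ≠ 1 ∧ x ^ (4 * s) = 1) ∧ (∃ x ∈ t, x ^ (2 * s) ≠ 1) ∧
    ∃ x ∈ t, x ^ 4 ≠ 1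

theorem J.both (h : J F n s) (h2 : (2 : F) ≠ 0) (hn : 2 ≤ n) (hs : s.Prime) :
    2 * s ∈ PO ∧ 2 * s ∈ PS := by
  obtain ⟨m, hm, t, h1, h3, h4, h5, ⟨x, h6, h7⟩, y, h8, h9⟩ := h
  have key : ∀ alt, ∃ A : Matrix (Fin (2 * m)) (Fin (2 * m)) F, Pres alt (toLin' A) ∧
      toLin' A ^ (4 * s) = (1 : End F _) ∧ toLin' A ^ (2 * s) ≠ (1 : End F _) ∧
      toLin' A ^ 4 ≠ (1 : End F _) := fun alt => by
    obtain ⟨A, h10, rfl, h11⟩ := exists_pres_ev_eq (ι := Fin (2 * m)) alt h1 h3 (fun z hz =>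
      ⟨by rintro rfl; simpa [hs.ne_zero] using (h5 0 hz).2, (h5 z hz).1⟩) (by simpa using h4)
    simp only [Ne, toLin'_pow_eq_one_iff]
    exact ⟨A, h11, IsSS_pow_eq_one h10 fun z hz => (h5 z hz).2,
      fun h => h7 (pow_eq_one_of_mem_ev h h6), fun h => h9 (pow_eq_one_of_mem_ev h h8)⟩
  constructor
  · obtain ⟨A, h10, h11, h12, h13⟩ := key false
    obtain ⟨g, hg⟩ := h10.exists_odd_pad h2 (n := n) (by simp; omega)
    exact o4 h2 hn hs ((hg _).2 h11) ((hg _).not.2 h12) ((hg _).not.2 h13)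
  · obtain ⟨A, h10, h11, h12, h13⟩ := key true
    obtain ⟨g, hg, -⟩ := h10.exists_sp_pad (by simp) hm
    exact sp4 hn hs ((hg _).2 h11) ((hg _).not.2 h12) ((hg _).not.2 h13)

theorem J_or (p : ℕ) [hp : Fact p.Prime] [CharP F p] (hq : Odd q) (hp2 : Odd p) (hs : Odd s)
    (hs0 : ((2 * s : ℕ) : F) ≠ 0) {ι : Type*} [Fintype ι] [DecidableEq ι] {M : Matrix ι ι F}
    (h1 : M ^ (2 * s) = 1) (h2 : M ^ 2 ≠ 1) (h : (ev 𝒦 M).map (fun x => x⁻¹) = ev 𝒦 M) :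
    J F n s ∨ ∃ x d t, n ≤ d ∧ ev 𝒦 M = pm q d x + t ∧ x ≠ 0 ∧ x ^ 2 ≠ 1 ∧
      (x ^ s = 1 ∨ x ^ s = -1) := by
  have hfr := frob_injective (F := F) (Ω := 𝒦)
  obtain ⟨x, hx, h3⟩ := exists_mem_ev_pow_ne 𝒦 hs0 h1 h2
  have h4 := pow_eq_one_of_mem_ev h1 hx
  have h5 : x ≠ 0 := by rintro rfl; simp [hs.pos.ne'] at h4
  obtain ⟨d, t, h6, h7, -, h8, -⟩ := exists_pm hfr (ev_map_frob M) h hx fun h =>
    h3 (by rw [sq, mul_eq_one_iff_eq_inv₀ h5]; exact h)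
  rcases le_or_gt n d with hd | hd
  · exact .inr ⟨x, d, t, hd, h8, h5, h3, sq_eq_one_iff.1 (by rw [← pow_mul', h4])⟩
  obtain ⟨i, hi, -, h9⟩ := root4 (F := F) p hq hp2
  obtain ⟨k, rfl⟩ := hs
  refine .inl ⟨d + 1, hd, pm q d x + pm q 1 i, by rw [Multiset.map_add, pm_map_frob h7,
    pm_map_frob h9], by simp [pm_map_inv], by simp [mul_add], fun z hz => ?_,
    ⟨i, by simp [self_mem_pm], by rw [Ne, hi]; omega⟩, x, by simp [self_mem_pm h6], fun h => h3 ?_⟩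
  · rcases Multiset.mem_add.1 hz with hz | hz <;> simp only [Ne, pow_eq_one_iff_of_mem_pm hfr hz]
    · exact ⟨h3, by rw [show 4 * (2 * k + 1) = 2 * (2 * k + 1) * 2 by ring, pow_mul, h4, one_pow]⟩
    · simp [hi]
  · rwa [show 2 * (2 * k + 1) = 4 * k + 2 by ring, pow_add, pow_mul, h, one_pow, one_mul] at h4

theorem J_of_sp (p : ℕ) [hp : Fact p.Prime] [CharP F p] (hq : Odd q) (hp2 : Odd p) (hn : 2 ≤ n)
    (hs : s.Prime) (hs2 : Odd s) (hs0 : (s : F) ≠ 0) (h : 2 * s ∈ PS) : J F n s := by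
  have h2 := H28.two_ne_zero_of_odd_card hq
  obtain ⟨g, hg⟩ := h
  obtain ⟨g, rfl⟩ := QuotientGroup.mk_surjective g
  have hZ := fun k => (hg ▸ orderOf_mk_dvd_iff (spHom n F) (sp_mem_center_iff (by omega)) g k :)
  have h3 : g.1 ^ (4 * s) = 1 := by
    have := sp_center_sq (by omega) (g ^ (2 * s)) ((QuotientGroup.eq_one_iff _).1
      (by rw [QuotientGroup.mk_pow, ← hg, pow_orderOf_eq_one]))
    rw [← pow_mul, mul_right_comm] at this
    exact congrArg (·.1) this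
  have hss := H66.isSS_of_pow_eq_one (by
    rw [Nat.cast_mul, show ((4 : ℕ) : F) = 2 * 2 by norm_num]; simp [h2, hs0]) h3
  obtain ⟨c, hc⟩ := (hZ _).1 dvd_rfl
  obtain ⟨y, hy⟩ := Multiset.card_pos_iff_exists_mem.1
    (show 0 < (ev 𝒦 g.1).card by simp [card_ev]; omega)
  have h4 : algebraMap F 𝒦 c ^ 2 = 1 := by
    rw [← pow_eq_of_mem_ev hc hy, ← pow_mul, mul_right_comm]
    exact pow_eq_one_of_mem_ev h3 hy
  have h5 := hs.two_le
  obtain ⟨k, hk⟩ := id hs2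
  rcases sq_eq_one_iff.1 h4 with h6 | h6
  · obtain rfl : c = 1 := (algebraMap F 𝒦).injective (by rwa [map_one])
    refine (J_or p hq hp2 hs2 (by simp [h2, hs0]) (M := g.1) (by simpa using hc) (fun h => ?_)
      (ev_map_inv_of_sp g)).resolve_right ?_
    · have := Nat.le_of_dvd two_pos ((hZ 2).2 ⟨1, by simpa using h⟩)
      omega
    rintro ⟨x, d, t, h7, h8, -, -, h9⟩
    have h10 := congrArg Multiset.card h8
    simp only [card_ev, Multiset.card_add, card_pm, Fintype.card_sum, Fintype.card_fin] at h10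
    rw [Multiset.card_eq_zero.1 (show t.card = 0 by omega), add_zero] at h8
    have : 2 * s ∣ s := (hZ s).2 (h9.elim (fun h9 => ⟨1, (IsSS_pow_eq_smul_iff (Ω := 𝒦) hss _ _).2
      fun z hz => by simpa using (pow_eq_one_iff_of_mem_pm frob_injective (h8 ▸ hz) s).2 h9⟩)
      fun h9 => ⟨-1, (IsSS_pow_eq_smul_iff (Ω := 𝒦) hss _ _).2
        fun z hz => by simpa using pow_eq_neg_one_of_mem_pm hq (h8 ▸ hz) h9⟩)
    have := Nat.le_of_dvd hs.pos this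
    omega
  · have h7 : ∀ x ∈ ev 𝒦 g.1, x ^ (2 * s) ≠ 1 := fun x hx h => (_root_.map_ne_zero (algebraMap F 𝒦)).2 h2
      (by rw [map_ofNat]; linear_combination h6 - h + pow_eq_of_mem_ev hc hx)
    refine ⟨n, le_rfl, ev 𝒦 g.1, ev_map_frob _, ev_map_inv_of_sp g, by simp [card_ev, two_mul],
      fun x hx => ⟨fun h => h7 x hx (by rw [pow_mul, h, one_pow]), pow_eq_one_of_mem_ev h3 hx⟩,
      ⟨y, hy, h7 y hy⟩, ?_⟩
    by_contra! h8
    have := Nat.le_of_dvd four_pos ((hZ 4).2 ⟨1, by simpa using IsSS_pow_eq_one hss h8⟩)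
    omega

theorem J_of_o (p : ℕ) [hp : Fact p.Prime] [CharP F p] (hq : Odd q) (hp2 : Odd p) (hn : 2 ≤ n)
    (hs : s.Prime) (hs2 : Odd s) (hs0 : (s : F) ≠ 0) (hsp : s ≠ p) (h : 2 * s ∈ PO) : J F n s := by
  have h2 := H28.two_ne_zero_of_odd_card hq
  have hfr := frob_injective (F := F) (Ω := 𝒦)
  obtain ⟨g, hg, h3⟩ := (mem_range_orderOf_pomega_iff h2 hn _).1 h
  obtain ⟨h4, h5, h6⟩ := pow_ne_one_of_orderOf Nat.prime_two hs h3
  have h0 : ((2 * s : ℕ) : F) ≠ 0 := by simp [h2, hs0]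
  rcases J_or (n := n) p hq hp2 hs2 h0 (M := g.1.1) (congrArg (·.1.1) h4)
    (fun h => h5 (Subtype.ext (Units.ext h))) (ev_map_inv_of_odd h2 g) with h | ⟨x, d, t, h7, h8, h9, h10, h11⟩
  · exact h
  have h12 := congrArg Multiset.card h8
  simp only [card_ev, Multiset.card_add, card_pm, Fintype.card_sum, Fintype.card_fin,
    Fintype.card_unit] at h12
  obtain ⟨y, rfl⟩ := Multiset.card_eq_one.1 (show t.card = 1 by omega)
  obtain rfl : y = 1 := by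
    have hQ := H28.qOdd_nondeg n h2
    have h13 := H28.det_eq_dickson hQ (H28.eichOK_of_two_ne_zero h2) g
    rw [((H28.mem_omega_iff hQ (H28.eichOK_of_two_ne_zero h2) g).1 hg).1] at h13
    simpa [h8, prod_pm h9, h13] using prod_ev (Ω := 𝒦) (H28.mat (Q := H28.qOdd n F) g)
  have h13 := h11.resolve_left fun h => h6 (Subtype.ext (Units.ext (IsSS_pow_eq_one (Ω := 𝒦)
    (H66.isSS_of_pow_eq_one h0 (congrArg (·.1.1) h4)) fun z hz => by
      rcases Multiset.mem_add.1 (h8 ▸ hz) with hz | hz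
      exacts [(pow_eq_one_iff_of_mem_pm hfr hz s).2 h, by simp [Multiset.mem_singleton.1 hz]])))
  have h14 := odd_key hq hs hs0 hg h4 h8 fun z hz =>
    ⟨pow_eq_neg_one_of_mem_pm hq hz h13, (pow_eq_one_iff_of_mem_pm hfr hz 2).not.2 h10⟩
  have hc : Nat.Coprime 4 s := (Nat.coprime_two_left.2 hs2).pow_left 2
  obtain ⟨w, hw⟩ := exists_root' F 𝒦 p (N := 4 * s) (Nat.Coprime.mul_left
    ((Nat.coprime_two_left.2 hp2).pow_left 2) ((Nat.coprime_primes hs hp.out).2 hsp))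
  obtain ⟨-, h15⟩ := root_pm hw (by simp [hs.ne_zero]) (pow_pos Fintype.card_pos n) (h14.imp
    (fun h => hc.mul_dvd_of_dvd_of_dvd (by omega) h.1)
    fun h => hc.mul_dvd_of_dvd_of_dvd (by omega) h.1)
  have h16 := hs.two_le
  have h17 : ∀ k, 0 < k → k < 4 * s → w ^ k ≠ 1 := fun k h1 h2 h =>
    (Nat.le_of_dvd h1 ((hw k).1 h)).not_gt h2
  exact ⟨n, le_rfl, pm q n w, pm_map_frob h15, pm_map_inv _ _ _, card_pm _ _ _, fun z hz => by
    simp only [Ne, pow_eq_one_iff_of_mem_pm hfr hz]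
    exact ⟨h17 _ two_pos (by omega), (hw _).2 dvd_rfl⟩,
    ⟨w, self_mem_pm (by omega) w, h17 _ (by omega) (by omega)⟩,
    w, self_mem_pm (by omega) w, h17 _ (by omega) (by omega)⟩

theorem caseC (p : ℕ) [hp : Fact p.Prime] [CharP F p] (hq : Odd q) (hp2 : Odd p) (hn : 2 ≤ n)
    (hs : s.Prime) (hs2 : Odd s) : 2 * s ∈ PO ↔ 2 * s ∈ PS := by
  have h2 := H28.two_ne_zero_of_odd_card hq
  by_cases hsp : s = p
  · subst hsp
    obtain ⟨i, hi, h3, h4⟩ := root4 (F := F) s hq hp2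
    obtain ⟨⟨g, hg⟩, u, hu⟩ := mixed s h2 h3 (by simp [hi]) one_pos hn h4
    have h5 : ¬ (i ^ (2 * s) = 1 ∧ s ∣ 2 * s) := fun h => by
      have := (hi _).1 h.1; obtain ⟨k, hk⟩ := hs2; omega
    have h6 : ¬ (i ^ 4 = 1 ∧ s ∣ 4) := fun h => hs.one_lt.ne'
      (((Nat.coprime_two_right.2 hs2).pow_right 2).eq_one_of_dvd h.2)
    exact iff_of_true (o4 h2 hn hs ((hg _).2 (by simp [hi])) ((hg _).not.2 h5) ((hg _).not.2 h6))
      (sp4 hn hs ((hu _).2 (by simp [hi])) ((hu _).not.2 h5) ((hu _).not.2 h6))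
  have hs0 := H66.natCast_ne_zero_of_coprime (F := F) p ((Nat.coprime_primes hs hp.out).2 hsp)
  exact ⟨fun h => ((J_of_o p hq hp2 hn hs hs2 hs0 hsp h).both h2 hn hs).2,
    fun h => ((J_of_sp p hq hp2 hn hs hs2 hs0 h).both h2 hn hs).1⟩

end


/-- For q odd and n ≥ 3 the simple groups P𝒦(2n+1,q) and PSp(2n,q) (which have the same order but different sets of element orders) have the same prime graph: for all distinct primes r, s, one of them has an element of order r·s if and only if the other does. -/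
theorem result {F : Type*} [Field F] [Fintype F] (hodd : Odd (Fintype.card F)) (n : ℕ) (hn : 3 ≤ n) (r s : ℕ) (hr : r.Prime) (hs : s.Prime) (hrs : r ≠ s) :
    (r * s ∈ Set.range (orderOf : Cfsg.POmega F (Cfsg.quadFormOdd n F) → ℕ)) ↔ (r * s ∈ Set.range (orderOf : Cfsg.PSp n F → ℕ)) := by
  obtain ⟨p, hp⟩ := CharP.exists F
  haveI : Fact p.Prime := ⟨CharP.char_is_prime F p⟩
  have h2 := H28.two_ne_zero_of_odd_card hodd
  have hp2 : Odd p := (Fact.out : p.Prime).odd_of_ne_two (by rintro rfl; exact h2 CharTwo.two_eq_zero)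
  have hn' : 2 ≤ n := by omega
  rcases hr.eq_two_or_odd' with rfl | hr2
  · exact caseC p hodd hp2 hn' hs (hs.odd_of_ne_two hrs.symm)
  rcases hs.eq_two_or_odd' with rfl | hs2
  · exact mul_comm 2 r ▸ caseC p hodd hp2 hn' hr hr2
  by_cases hsp : s = p
  · subst hsp
    exact caseB s h2 hn' hr (hr2.mul hs2) hrs
  by_cases hrp : r = p
  · subst hrp
    exact mul_comm s r ▸ caseB r h2 hn' hs (hs2.mul hr2) hsp
  exact caseA p h2 hn' (hr2.mul hs2) (H66.natCast_ne_zero_of_coprime p (Nat.Coprime.mul_left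
    ((Nat.coprime_primes hr Fact.out).2 hrp) ((Nat.coprime_primes hs Fact.out).2 hsp)))

end Cfsg.Agent.S2474
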