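import Cfsg.Statements.S2478
import Cfsg.Agent.H29.ClsSL

set_option autoImplicit false
open Cfsg

namespace Cfsg.Agent.S2478

open Polynomial

/-- The number of conjugacy classes of GL(n,q): for F a finite field with q elements and n ≥ 1, the number k of conjugacy classes of GL(n,F) satisfies q^n − q^(n−1) ≤ k ≤ q^n. -/
theorem result {F : Type*} [Field F] [Fintype F] (n : ℕ) (hn : 1 ≤ n) :
    Fintype.card F ^ n - Fintype.card F ^ (n - 1) ≤ Nat.card (ConjClasses (Matrix.GeneralLinearGroup (Fin n) F)) ∧ Nat.card (ConjClasses (Matrix.GeneralLinearGroup (Fin n) F)) ≤ Fintype.card F ^ n := by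
  haveI : Nonempty (Fin n) := ⟨⟨0, hn⟩⟩
  constructor
  · have h := H29.card_le_of_inv (G := Matrix.GeneralLinearGroup (Fin n) F)
      (fun A => A.1.charpoly)
      (fun A B h => H67.charpoly_eq_of_isConj ((H67.isConj_units_iff _ _).1 h))
      {f : F[X] | (f.Monic ∧ f.natDegree = n) ∧ f.coeff 0 ≠ 0} (by
        rintro f ⟨⟨h1, h2⟩, h3⟩
        obtain ⟨A, h4, h5⟩ := H29.exists_charpoly_det (ι := Fin n) h1 (by simpa using h2)
        exact ⟨Matrix.GeneralLinearGroup.mkOfDetNeZero A (by simp [h5, h3]), h4⟩)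
    have h2 := H66.card_monic_coeff_zero (F := F) hn (· ≠ 0)
    rw [← Nat.card_congr unitsEquivNeZero, Nat.card_units, Nat.card_eq_fintype_card (α := F)] at h2
    refine le_trans (le_of_eq ?_) (h2.ge.trans h)
    obtain ⟨m, rfl⟩ := Nat.exists_eq_add_of_le' hn
    rw [Nat.add_sub_cancel, Nat.sub_mul, one_mul, pow_succ']
  · have h := (H29.GL_bound (F := F) (ι := Fin n)).trans (H29.uu_le (Nat.cast_nonneg _) _)
    rw [Fintype.card_fin] at h
    exact_mod_cast h

end Cfsg.Agent.S2478
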