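import Cfsg.Statements.S2479
import Cfsg.Agent.H29.ClsSL

set_option autoImplicit false
open Cfsg

namespace Cfsg.Agent.S2479

/-- The number of conjugacy classes of SL(n,q): for F a finite field with q elements, the number k of conjugacy classes of SL(n,F) satisfies q^(n−1) < k and k ≤ (5/2)·q^(n−1) for n ≥ 2, and k ≤ q^(n−1) + 3q^(n−2) for n ≥ 3. -/
theorem result {F : Type*} [Field F] [Fintype F] (n : ℕ) (hn : 2 ≤ n) :
    Fintype.card F ^ (n - 1) < Nat.card (ConjClasses (Matrix.SpecialLinearGroup (Fin n) F)) ∧ 2 * Nat.card (ConjClasses (Matrix.SpecialLinearGroup (Fin n) F)) ≤ 5 * Fintype.card F ^ (n - 1) ∧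
      (3 ≤ n → Nat.card (ConjClasses (Matrix.SpecialLinearGroup (Fin n) F)) ≤ Fintype.card F ^ (n - 1) + 3 * Fintype.card F ^ (n - 2)) := by
  haveI : Nonempty (Fin n) := ⟨⟨0, by omega⟩⟩
  have hq : 2 ≤ Fintype.card F := Fintype.one_lt_card
  have h1 : (0 : ℝ) < Fintype.card F - 1 := sub_pos.2 (Nat.one_lt_cast.2 hq)
  have h := H29.SL_bound_one (F := F) (ι := Fin n)
  rw [Fintype.card_fin] at h
  refine ⟨H29.SL_lower hn, ?_, fun h3 => ?_⟩
  · have h2 := H29.KS_le' hq (show n ≠ 0 by omega)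
    have := le_of_mul_le_mul_left (a := (Fintype.card F : ℝ) - 1)
      (b := 2 * Nat.card (ConjClasses (Matrix.SpecialLinearGroup (Fin n) F)))
      (le_trans (by linarith) h2) h1
    exact_mod_cast this
  · have := le_of_mul_le_mul_left (h.trans (H29.KS_le hq h3)) h1
    exact_mod_cast this

end Cfsg.Agent.S2479
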