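import Cfsg.Statements.S2482
import Cfsg.Agent.H29.ClsDat

set_option autoImplicit false
open Cfsg

namespace Cfsg.Agent.S2482

open H29 Module

/-- The number of conjugacy classes of Sp(2n,q), q odd: for F a finite field of odd order q and n ≥ 1, the number k of conjugacy classes of Sp(2n,F) satisfies q^n ≤ k ≤ 10.8·q^n. -/
theorem result {F : Type*} [Field F] [Fintype F] (hodd : Odd (Fintype.card F)) (n : ℕ) (hn : 1 ≤ n) :
    Fintype.card F ^ n ≤ Nat.card (ConjClasses (Matrix.symplecticGroup (Fin n) F)) ∧ 5 * Nat.card (ConjClasses (Matrix.symplecticGroup (Fin n) F)) ≤ 54 * Fintype.card F ^ n := by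
  classical
  have h2 := H27.two_ne_zero_of_odd_card hodd
  have hq : (3 : ℝ) ≤ Fintype.card F := by
    have := Fintype.one_lt_card (α := F)
    obtain ⟨k, hk⟩ := hodd
    exact_mod_cast (show 3 ≤ Fintype.card F by omega)
  let ρ : Matrix.symplecticGroup (Fin n) F →* End F (Fin n ⊕ Fin n → F) :=
    ⟨⟨fun A => Matrix.toLin' A.1, Matrix.toLin'_one⟩, fun A B => Matrix.toLin'_mul _ _⟩
  have h : Full (H27.sympBilin n F) ρ :=
    ⟨fun A x y => by simp only [H27.sympBilin_apply]; exact H27.sp_sympForm A x y,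
      fun A B e => H27.sp_ext fun u => LinearMap.congr_fun e u, fun T hT => by
        obtain ⟨A, hA⟩ := H27.exists_sp_of_isometry T fun u v => by
          simpa only [H27.sympBilin_apply] using hT u v
        exact ⟨A, LinearMap.ext hA⟩⟩
  haveI := finite_of_inj h.inj
  obtain ⟨k, rfl⟩ := Nat.exists_eq_add_of_le' hn
  constructor
  · refine (le_ncard_RP k).trans (card_le_of_inv _ (charpoly_isConj ρ) _ fun f hf => ?_)
    obtain ⟨A, rfl, h3⟩ := pres_RP h2 true _ f hf.1 hf.2
    obtain ⟨B, hB⟩ := h3.exists_sp (m := k + 1) (by simp)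
    exact ⟨B, (Sim.charpoly_eq hB).trans (Matrix.charpoly_toLin' A)⟩
  · have h3 := h.bound h2 H27.sympBilin_nondegenerate (e := 1) (fun x y => by
      simp [H27.sympBilin_apply, H27.sympForm_neg_comm y x]) (fun i => decide (i % 2 = 1))
      fun i hi => decide_eq_true (by omega)
    rw [show finrank F (Fin (k + 1) ⊕ Fin (k + 1) → F) = 2 * (k + 1) by simp; ring] at h3
    have h4 := h3.trans (num_Sp hq (k + 1) (2 * k + 1))
    have : (5 : ℝ) * Nat.card (ConjClasses (Matrix.symplecticGroup (Fin (k + 1)) F)) ≤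
      54 * (Fintype.card F : ℝ) ^ (k + 1) := by linarith
    exact_mod_cast this

end Cfsg.Agent.S2482
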