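import Cfsg.Statements.S2485
import Mathlib

set_option autoImplicit false
open scoped Pointwise
open Cfsg

namespace Cfsg.Agent.S2485

open Matrix

variable {K : Type*} [Field K]

theorem anti_eq_zero (hK : ∀ y : K, y ^ 2 ≠ -1) (T U : Matrix (Fin 2) (Fin 2) K) (hT : T * T = -1)
    (hU : U * T = -(T * U)) (hd : U.det = 0) : U = 0 := by
  have t00 := congrFun (congrFun hT 0) 0
  have t01 := congrFun (congrFun hT 0) 1
  have u00 := congrFun (congrFun hU 0) 0
  have u01 := congrFun (congrFun hU 0) 1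
  rw [Matrix.det_fin_two] at hd
  simp only [Matrix.mul_apply, Fin.sum_univ_two, Matrix.neg_apply, Matrix.one_apply_eq, ne_eq,
    zero_ne_one, not_false_eq_true, Matrix.one_apply_ne, neg_zero] at t00 t01 u00 u01
  have hb : T 0 1 ≠ 0 := fun h => hK (T 0 0) (by rw [h] at t00; linear_combination t00)
  have hd' : T 1 1 = - T 0 0 := by
    apply mul_left_cancel₀ hb; linear_combination t01
  have hw : U 1 1 = - U 0 0 := by
    apply mul_left_cancel₀ hb; rw [hd'] at u01; linear_combination u01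
  rw [hw] at hd
  have hy : U 0 1 = 0 := by
    by_contra hy
    apply hK ((T 0 1 * U 0 0 - T 0 0 * U 0 1) / U 0 1)
    field_simp
    linear_combination (U 0 1) ^ 2 * t00 - T 0 1 * U 0 1 * u00 - (T 0 1) ^ 2 * hd
  have hx : U 0 0 = 0 := by
    rw [hy] at hd
    exact pow_eq_zero_iff (two_ne_zero) |>.1 (by linear_combination -hd)
  have hz : U 1 0 = 0 := by
    apply mul_left_cancel₀ hb; rw [hx, hy] at u00; linear_combination u00
  ext i j
  fin_cases i <;> fin_cases j <;> simp [hx, hy, hz, hw]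

/-- the basic involution -/
def T0 (K : Type*) [Field K] : GL (Fin 2) K :=
  Matrix.GeneralLinearGroup.mkOfDetNeZero !![0, -1; 1, 0] (by simp [Matrix.det_fin_two])

theorem T0_val : (T0 K : Matrix (Fin 2) (Fin 2) K) = !![0, -1; 1, 0] := rfl

theorem T0_sq : (T0 K : Matrix (Fin 2) (Fin 2) K) * (T0 K : Matrix (Fin 2) (Fin 2) K) = -1 := by
  rw [T0_val]; ext i j; fin_cases i <;> fin_cases j <;> simp

theorem mk_eq_one {A : GL (Fin 2) K} (c : K) (h : (A : Matrix (Fin 2) (Fin 2) K) = c • 1) :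
    (QuotientGroup.mk A : GL (Fin 2) K ⧸ Subgroup.center (GL (Fin 2) K)) = 1 := by
  rw [QuotientGroup.eq_one_iff, Matrix.GeneralLinearGroup.mem_center_iff_val_mem_range_scalar]
  exact ⟨c, by rw [h, Matrix.scalar_apply, Matrix.smul_one_eq_diagonal]⟩

theorem of_mk_eq_one {A : GL (Fin 2) K}
    (h : (QuotientGroup.mk A : GL (Fin 2) K ⧸ Subgroup.center (GL (Fin 2) K)) = 1) :
    ∃ c : K, (A : Matrix (Fin 2) (Fin 2) K) = c • 1 := by
  rw [QuotientGroup.eq_one_iff, Matrix.GeneralLinearGroup.mem_center_iff_val_mem_range_scalar] at h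
  obtain ⟨c, hc⟩ := h
  exact ⟨c, by rw [← hc, Matrix.scalar_apply, Matrix.smul_one_eq_diagonal]⟩

theorem comm_of_anti {A B : GL (Fin 2) K}
    (h : (A : Matrix (Fin 2) (Fin 2) K) * B = -((B : Matrix (Fin 2) (Fin 2) K) * A)) :
    (QuotientGroup.mk A : GL (Fin 2) K ⧸ Subgroup.center (GL (Fin 2) K)) * QuotientGroup.mk B =
      QuotientGroup.mk B * QuotientGroup.mk A := by
  rw [← mul_inv_eq_one, ← QuotientGroup.mk_mul, ← QuotientGroup.mk_mul, ← QuotientGroup.mk_inv,
    ← QuotientGroup.mk_mul]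
  refine mk_eq_one (-1) ?_
  rw [Units.val_mul, Units.val_mul, h, ← Units.val_mul, neg_mul, ← Units.val_mul, mul_inv_cancel]
  simp

theorem exists_comm (hK : ∀ y : K, y ^ 2 ≠ -1) (T S : GL (Fin 2) K)
    (hT : (T : Matrix (Fin 2) (Fin 2) K) * T = -1) (hS : (S : Matrix (Fin 2) (Fin 2) K) * S = -1) :
    ∃ u : GL (Fin 2) K ⧸ Subgroup.center (GL (Fin 2) K), u ≠ 1 ∧
      u * QuotientGroup.mk T = QuotientGroup.mk T * u ∧ u * QuotientGroup.mk S = QuotientGroup.mk S * u := by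
  set U : Matrix (Fin 2) (Fin 2) K := T * S - S * T with hU
  have hUT : U * T = -(T * U) := by
    rw [hU, sub_mul, mul_sub, mul_assoc (S : Matrix (Fin 2) (Fin 2) K), hT, ← mul_assoc (T : Matrix (Fin 2) (Fin 2) K) T, hT, mul_assoc]
    simp [sub_eq_add_neg, add_comm]
  have hUS : U * S = -(S * U) := by
    rw [hU, sub_mul, mul_sub, mul_assoc (T : Matrix (Fin 2) (Fin 2) K), hS, ← mul_assoc (S : Matrix (Fin 2) (Fin 2) K) S, hS, mul_assoc]
    simp [sub_eq_add_neg, add_comm]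
  by_cases hd : U.det = 0
  · have h0 := anti_eq_zero hK _ _ hT hUT hd
    refine ⟨QuotientGroup.mk T, fun h => ?_, rfl, ?_⟩
    · obtain ⟨c, hc⟩ := of_mk_eq_one h
      rw [hc] at hT
      have := congrFun (congrFun hT 0) 0
      exact hK c (by simpa [sq] using this)
    · rw [← QuotientGroup.mk_mul, ← QuotientGroup.mk_mul]
      congr 1
      exact Units.ext (sub_eq_zero.1 h0)
  · refine ⟨QuotientGroup.mk (Matrix.GeneralLinearGroup.mkOfDetNeZero U hd), fun h => ?_,
      comm_of_anti hUT, comm_of_anti hUS⟩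
    obtain ⟨c, hc⟩ := of_mk_eq_one h
    change U = _ at hc
    have h2 : (2 : K) ≠ 0 := fun h2 => hK 1 (by linear_combination h2)
    have hc0 : c ≠ 0 := by rintro rfl; apply hd; rw [hc]; simp
    rw [hc] at hUT
    have : (2 * c) • (T : Matrix (Fin 2) (Fin 2) K) = 0 := by
      simp only [smul_mul_assoc, one_mul, mul_smul_comm, mul_one] at hUT
      rw [two_mul, add_smul]; nth_rewrite 1 [hUT]; simp
    rw [smul_eq_zero] at this
    rcases this with h' | h'
    · exact mul_ne_zero h2 hc0 h'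
    · exact T.ne_zero h'

theorem cent_pgroup {q k : ℕ} [Fact q.Prime] (hk : q + 1 = 2 ^ k) (hq : 7 ≤ q) :
    IsPGroup 2 (Subgroup.centralizer {(QuotientGroup.mk (T0 (ZMod q)) :
      GL (Fin 2) (ZMod q) ⧸ Subgroup.center (GL (Fin 2) (ZMod q)))}) := by
  have hk2 : 2 ≤ k := by
    by_contra h
    have : k ≤ 1 := by omega
    have := Nat.pow_le_pow_right (by norm_num : 0 < 2) this
    omega
  have hq4 : q % 4 = 3 := by
    obtain ⟨m, rfl⟩ := Nat.exists_eq_add_of_le hk2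
    rw [pow_add] at hk; omega
  rintro ⟨a, ha⟩
  obtain ⟨A, rfl⟩ := QuotientGroup.mk_surjective a
  rw [Subgroup.mem_centralizer_singleton_iff, ← mul_inv_eq_one, ← QuotientGroup.mk_mul, ← QuotientGroup.mk_mul,
    ← QuotientGroup.mk_inv, ← QuotientGroup.mk_mul] at ha
  obtain ⟨c, hc⟩ := of_mk_eq_one ha
  have e : (A : Matrix (Fin 2) (Fin 2) (ZMod q)) * T0 (ZMod q) = c • ((T0 (ZMod q) : Matrix (Fin 2) (Fin 2) (ZMod q)) * A) := by
    have : A * T0 (ZMod q) = A * T0 (ZMod q) * (T0 (ZMod q) * A)⁻¹ * (T0 (ZMod q) * A) := by group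
    rw [← Units.val_mul, this, Units.val_mul _ (T0 (ZMod q) * A), hc]; simp
  have hdet := congrArg Matrix.det e
  rw [Matrix.det_smul, Matrix.det_mul, Matrix.det_mul, mul_comm (Matrix.det (T0 (ZMod q)).1)] at hdet
  have hne : Matrix.det A.1 * Matrix.det (T0 (ZMod q)).1 ≠ 0 := mul_ne_zero A.det_ne_zero (T0 _).det_ne_zero
  have hc2 : c ^ 2 = 1 := by
    apply mul_right_cancel₀ hne
    rw [one_mul]; simpa using hdet.symm
  have e00 := congrFun (congrFun e 0) 0
  have e01 := congrFun (congrFun e 0) 1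
  simp only [T0_val, Matrix.mul_apply, Fin.sum_univ_two, Matrix.smul_apply, smul_eq_mul, Matrix.of_apply,
    Matrix.cons_val', Matrix.cons_val_zero, Matrix.cons_val_one, Matrix.cons_val_fin_one] at e00 e01
  rcases sq_eq_one_iff.1 hc2 with h1 | h1
  · subst h1
    refine ⟨k, Subtype.ext ?_⟩
    show (QuotientGroup.mk A : GL (Fin 2) (ZMod q) ⧸ Subgroup.center (GL (Fin 2) (ZMod q))) ^ 2 ^ k = 1
    rw [← QuotientGroup.mk_pow, ← hk]
    set T : Matrix (Fin 2) (Fin 2) (ZMod q) := (T0 (ZMod q) : Matrix (Fin 2) (Fin 2) (ZMod q)) with hT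
    have hA : (A : Matrix (Fin 2) (Fin 2) (ZMod q)) = A 0 0 • 1 + A 1 0 • T := by
      ext i j
      fin_cases i <;> fin_cases j <;> simp [hT, T0_val]
      · linear_combination e00
      · linear_combination e01
    have hTq : T ^ q = -T := by
      have h2 : T ^ 2 = -1 := by rw [sq]; exact T0_sq
      have : q = 2 * (2 * (q / 4) + 1) + 1 := by omega
      calc T ^ q = T ^ (2 * (2 * (q / 4) + 1) + 1) := congrArg (T ^ ·) this
        _ = _ := by rw [pow_succ, pow_mul, h2, Odd.neg_one_pow ⟨_, rfl⟩]; simp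
    refine mk_eq_one (A 0 0 ^ 2 + A 1 0 ^ 2) ?_
    rw [Units.val_pow_eq_pow_val, pow_succ]
    nth_rewrite 1 [hA]
    rw [add_pow_char_of_commute _ (by simp [Commute, SemiconjBy, smul_smul, mul_comm]), smul_pow, smul_pow, one_pow, hTq,
      ZMod.pow_card, ZMod.pow_card]
    nth_rewrite 3 [hA]
    have : T * T = -1 := T0_sq
    simp only [add_mul, mul_add, smul_mul_assoc, mul_smul_comm, one_mul, mul_one, neg_mul, this, smul_neg,
      neg_neg, smul_smul, add_smul, sq]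
    module
  · subst h1
    refine ⟨1, Subtype.ext ?_⟩
    show (QuotientGroup.mk A : GL (Fin 2) (ZMod q) ⧸ Subgroup.center (GL (Fin 2) (ZMod q))) ^ 2 ^ 1 = 1
    rw [← QuotientGroup.mk_pow]
    refine mk_eq_one (A 0 0 ^ 2 + A 1 0 ^ 2) ?_
    rw [Units.val_pow_eq_pow_val, pow_one, sq]
    have a1 : A.1 0 1 = A.1 1 0 := by linear_combination e00
    have a2 : A.1 1 1 = - A.1 0 0 := by linear_combination -e01
    ext i j
    fin_cases i <;> fin_cases j <;> simp [Matrix.mul_apply, Fin.sum_univ_two, a1, a2] <;> ring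


/-- Let q = 2^k − 1 ≥ 7 be a prime and let G = PGL(2,q), the general linear group of degree 2 over the field with q elements modulo its centre. Then any two Sylow 2-subgroups of G have a non-trivial intersection: for a Sylow 2-subgroup H and every x ∈ G, H ∩ H^x ≠ 1. -/
theorem result {q k : ℕ} [Fact q.Prime] (hk : q + 1 = 2 ^ k) (hq : 7 ≤ q)
    (H : Sylow 2 (GL (Fin 2) (ZMod q) ⧸ Subgroup.center (GL (Fin 2) (ZMod q))))
    (x : GL (Fin 2) (ZMod q) ⧸ Subgroup.center (GL (Fin 2) (ZMod q))) :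
    (H : Subgroup (GL (Fin 2) (ZMod q) ⧸ Subgroup.center (GL (Fin 2) (ZMod q)))) ⊓ MulAut.conj x • (H : Subgroup _) ≠ ⊥ := by
  have hk2 : 2 ≤ k := by
    by_contra h
    have : k ≤ 1 := by omega
    have := Nat.pow_le_pow_right (by norm_num : 0 < 2) this
    omega
  have hq4 : q % 4 = 3 := by
    obtain ⟨m, rfl⟩ := Nat.exists_eq_add_of_le hk2
    rw [pow_add] at hk; omega
  have hK : ∀ y : ZMod q, y ^ 2 ≠ -1 := fun y hy => ZMod.mod_four_ne_three_of_sq_eq_neg_one hy hq4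
  obtain ⟨P, hP⟩ := (cent_pgroup hk hq).exists_le_sylow
  obtain ⟨g, rfl⟩ := MulAction.exists_smul_eq
    (GL (Fin 2) (ZMod q) ⧸ Subgroup.center (GL (Fin 2) (ZMod q))) P H
  have key : ∀ (y u : GL (Fin 2) (ZMod q) ⧸ Subgroup.center (GL (Fin 2) (ZMod q))),
      u * (y * QuotientGroup.mk (T0 (ZMod q)) * y⁻¹) = (y * QuotientGroup.mk (T0 (ZMod q)) * y⁻¹) * u →
      u ∈ MulAut.conj y • (P : Subgroup _) := by
    intro y u hu
    rw [Subgroup.mem_pointwise_smul_iff_inv_smul_mem]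
    apply hP
    rw [Subgroup.mem_centralizer_singleton_iff]
    show (MulAut.conj y)⁻¹ u * _ = _ * (MulAut.conj y)⁻¹ u
    rw [MulAut.conj_inv_apply]
    calc y⁻¹ * u * y * _ = y⁻¹ * (u * (y * QuotientGroup.mk (T0 (ZMod q)) * y⁻¹)) * y := by group
      _ = _ := by rw [hu]; group
  obtain ⟨A, hA⟩ := QuotientGroup.mk_surjective g
  obtain ⟨B, hB⟩ := QuotientGroup.mk_surjective (x * g)
  have sq : ∀ C : GL (Fin 2) (ZMod q), ((C * T0 (ZMod q) * C⁻¹ : GL (Fin 2) (ZMod q)) : Matrix (Fin 2) (Fin 2) (ZMod q)) *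
      (C * T0 (ZMod q) * C⁻¹ : GL (Fin 2) (ZMod q)) = -1 := by
    intro C
    have : C * T0 (ZMod q) * C⁻¹ * (C * T0 (ZMod q) * C⁻¹) = C * (T0 (ZMod q) * T0 (ZMod q)) * C⁻¹ := by group
    rw [← Units.val_mul, this, Units.val_mul, Units.val_mul, Units.val_mul, T0_sq, mul_neg, neg_mul, mul_one,
      ← Units.val_mul, mul_inv_cancel, Units.val_one]
  obtain ⟨u, hu, h1, h2⟩ := exists_comm hK _ _ (sq A) (sq B)
  rw [QuotientGroup.mk_mul, QuotientGroup.mk_mul, QuotientGroup.mk_inv] at h1 h2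
  rw [hA] at h1
  rw [hB] at h2
  intro hb
  apply hu
  refine (Subgroup.eq_bot_iff_forall _).1 hb u ⟨key _ _ h1, ?_⟩
  have := key _ _ h2
  rw [map_mul, mul_smul] at this
  exact this

end Cfsg.Agent.S2485
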