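import Cfsg.Statements.S2486
import Cfsg.Agent.H62.Unitri
import Cfsg.Agent.H3.PComplement

set_option autoImplicit false
open scoped Pointwise
open Cfsg

namespace Cfsg.Agent.S2486

open Matrix H62 Subgroup

theorem z2 : ∀ a : ZMod 2, a ≠ 0 → a = 1 := by decide

variable {n : ℕ}

/-- `GL = SL` over `F₂` -/
def toSL (A : GL (Fin n) (ZMod 2)) : SpecialLinearGroup (Fin n) (ZMod 2) := ⟨A.1, z2 _ A.det_ne_zero⟩

theorem BT_le : BT n (ZMod 2) ≤ UT n (ZMod 2) := by
  intro g hg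
  refine mem_UT.2 ⟨mem_BT.1 hg, fun i => z2 _ fun h => ?_⟩
  have h1 := H66.upper_mul_diag hg ((BT n (ZMod 2)).inv_mem hg) i
  rw [H29.sl_mul_inv, one_apply_eq] at h1
  change g.1 i i = 0 at h
  rw [h, zero_mul] at h1
  exact one_ne_zero h1

theorem bruhat (g : SpecialLinearGroup (Fin n) (ZMod 2))
    (hg : ∀ x ∈ UT n (ZMod 2), g * x * g⁻¹ ∈ UT n (ZMod 2) → x = 1) :
    ∃ u ∈ UT n (ZMod 2), ∃ b ∈ UT n (ZMod 2), ∃ σ : Equiv.Perm (Fin n), StrictAnti σ ∧
      g = u * toSL (H66.permGL (ZMod 2) σ) * b := by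
  obtain ⟨u, b, σ, h1, -, h3, h4⟩ := H66.bruhat_GL (SpecialLinearGroup.toGL g)
  have hu : toSL u ∈ UT n (ZMod 2) := BT_le h1
  have hb : toSL b ∈ UT n (ZMod 2) := BT_le h3
  have e : g = toSL u * toSL (H66.permGL (ZMod 2) σ) * toSL b := Subtype.ext (congrArg Units.val h4)
  refine ⟨_, hu, _, hb, σ, fun i j hij => ?_, e⟩
  by_contra hlt
  have hlt' : σ i < σ j := lt_of_le_of_ne (not_lt.1 hlt) (σ.injective.ne hij.ne)
  have hP : ∀ k l, toSL (H66.permGL (ZMod 2) σ) k l = if k = σ l then 1 else 0 :=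
    fun k l => H66.permGL_apply σ k l
  have hc : toSL (H66.permGL (ZMod 2) σ) * SpecialLinearGroup.transvection hij.ne 1 =
      SpecialLinearGroup.transvection hlt'.ne 1 * toSL (H66.permGL (ZMod 2) σ) := by
    ext k l
    rw [mul_tv_apply, tv_mul_apply, hP k i, hP (σ j) l]
    congr 1
    by_cases h1 : l = j <;> by_cases h2 : k = σ i <;> simp [h1, h2]
    exact Ne.symm h1
  have := hg ((toSL b)⁻¹ * SpecialLinearGroup.transvection hij.ne 1 * toSL b)
    (mul_mem (mul_mem (inv_mem hb) (transvection_mem_UT hij 1)) hb) (by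
      have : g * ((toSL b)⁻¹ * SpecialLinearGroup.transvection hij.ne 1 * toSL b) * g⁻¹ =
          toSL u * SpecialLinearGroup.transvection hlt'.ne 1 * (toSL u)⁻¹ := by
        rw [e]
        calc _ = toSL u * (toSL (H66.permGL (ZMod 2) σ) * SpecialLinearGroup.transvection hij.ne 1) *
            (toSL (H66.permGL (ZMod 2) σ))⁻¹ * (toSL u)⁻¹ := by group
          _ = _ := by rw [hc]; group
      rw [this]
      exact mul_mem (mul_mem hu (transvection_mem_UT hlt' 1)) (inv_mem hu))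
  rw [mul_assoc, inv_mul_eq_one, eq_comm, mul_eq_right] at this
  have h5 := transvection_apply' hij.ne (1 : ZMod 2) i j
  rw [this] at h5
  change (1 : Matrix (Fin n) (Fin n) (ZMod 2)) i j = _ at h5
  simp [hij.ne] at h5

/-- Sylow 2-subgroups are self-normalizing, transitive on opposite ones -/
def Opp (L : Type*) [Group L] : Prop :=
  (∀ (U : Sylow 2 L) (g : L), (∀ x ∈ U, g * x * g⁻¹ ∈ U) → g ∈ U) ∧
  ∀ U V V' : Sylow 2 L, (∀ x ∈ U, x ∈ V → x = 1) → (∀ x ∈ U, x ∈ V' → x = 1) →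
    ∃ u ∈ U, ∀ x ∈ V, u * x * u⁻¹ ∈ V'

theorem mem_smul {L : Type*} [Group L] (U : Sylow 2 L) (g x : L) : x ∈ g • U ↔ g⁻¹ * x * g ∈ U := by
  show x ∈ ((g • U : Sylow 2 L) : Subgroup L) ↔ _
  rw [Sylow.coe_subgroup_smul, mem_pointwise_smul_iff_inv_smul_mem]
  rfl

theorem opp_sl : Opp (SpecialLinearGroup (Fin n) (ZMod 2)) := by
  obtain ⟨U0, hU0⟩ := exists_sylow_UT (n := n) (K := ZMod 2) 2
  have m0 : ∀ x, x ∈ U0 ↔ x ∈ UT n (ZMod 2) := fun x => by rw [← hU0]; rfl
  constructor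
  · intro U g hg
    obtain ⟨a, rfl⟩ := MulAction.exists_smul_eq (SpecialLinearGroup (Fin n) (ZMod 2)) U0 U
    simp only [mem_smul, m0] at hg ⊢
    refine BT_le (normalizer_UT_le (Subgroup.mem_normalizer_fintype fun x hx => ?_))
    have := hg (a * x * a⁻¹) (by simpa [mul_assoc] using hx)
    simpa [mul_assoc] using this
  · intro U V V' h h'
    obtain ⟨a, rfl⟩ := MulAction.exists_smul_eq (SpecialLinearGroup (Fin n) (ZMod 2)) U0 U
    obtain ⟨g, rfl⟩ := MulAction.exists_smul_eq (SpecialLinearGroup (Fin n) (ZMod 2)) U0 V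
    obtain ⟨g', rfl⟩ := MulAction.exists_smul_eq (SpecialLinearGroup (Fin n) (ZMod 2)) U0 V'
    simp only [mem_smul, m0] at h h' ⊢
    have key : ∀ g : SpecialLinearGroup (Fin n) (ZMod 2),
        (∀ x, a⁻¹ * x * a ∈ UT n (ZMod 2) → g⁻¹ * x * g ∈ UT n (ZMod 2) → x = 1) →
        ∀ x ∈ UT n (ZMod 2), (a⁻¹ * g) * x * (a⁻¹ * g)⁻¹ ∈ UT n (ZMod 2) → x = 1 := by
      intro g h x hx hx'
      have := h (g * x * g⁻¹) (by simpa [mul_assoc] using hx') (by simpa [mul_assoc] using hx)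
      simpa using this
    obtain ⟨u, hu, b, hb, σ, hσ, e⟩ := bruhat _ (key g h)
    obtain ⟨u', hu', b', hb', σ', hσ', e'⟩ := bruhat _ (key g' h')
    have : σ = σ' := DFunLike.coe_injective ((hσ.range_inj hσ').1
      (σ.surjective.range_eq.trans σ'.surjective.range_eq.symm))
    subst this
    rw [inv_mul_eq_iff_eq_mul] at e e'
    refine ⟨a * (u' * u⁻¹) * a⁻¹, by simpa [mul_assoc] using mul_mem hu' (inv_mem hu), fun x hx => ?_⟩
    have : g'⁻¹ * (a * (u' * u⁻¹) * a⁻¹ * x * (a * (u' * u⁻¹) * a⁻¹)⁻¹) * g' =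
        (b⁻¹ * b')⁻¹ * (g⁻¹ * x * g) * (b⁻¹ * b') := by rw [e, e']; group
    rw [this]
    have hbb := mul_mem (inv_mem hb) hb'
    exact mul_mem (mul_mem (inv_mem hbb) hx) hbb

theorem Opp.of_equiv {L M : Type*} [Group L] [Group M] [Finite M] (e : M ≃* L) (h : Opp L) : Opp M := by
  have hs : Function.Surjective e.toMonoidHom := e.surjective
  have m : ∀ (U : Sylow 2 M) (x : L), x ∈ U.mapSurjective hs ↔ e.symm x ∈ U := fun U x =>
    Subgroup.mem_map_equiv
  constructor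
  · intro U g hg
    have := h.1 (U.mapSurjective hs) (e g) fun x hx => by
      rw [m] at hx ⊢
      simpa using hg _ hx
    rw [m] at this
    simpa using this
  · intro U V V' h1 h2
    obtain ⟨u, hu, hu'⟩ := h.2 (U.mapSurjective hs) (V.mapSurjective hs) (V'.mapSurjective hs)
      (fun x hx hx' => by rw [m] at hx hx'; simpa using h1 _ hx hx')
      (fun x hx hx' => by rw [m] at hx hx'; simpa using h2 _ hx hx')
    refine ⟨e.symm u, (m _ _).1 hu, fun x hx => ?_⟩
    have := hu' (e x) (by rw [m]; simpa using hx)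
    rw [m] at this
    simpa using this


/-- Let n ≥ 4 and let G be a finite group with a normal subgroup N of index 2 isomorphic to SL(n,2) and with trivial centralizer in G (so G is the extension of the simple group L_n(2) by its inverse-transpose automorphism, its full automorphism group). Then any two Sylow 2-subgroups of G have a non-trivial intersection: for a Sylow 2-subgroup H and every x ∈ G, H ∩ H^x ≠ 1. -/
theorem result {G : Type*} [Group G] [Finite G] {n : ℕ} (hn : 4 ≤ n) (N : Subgroup G) [N.Normal]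
    (e : N ≃* Matrix.SpecialLinearGroup (Fin n) (ZMod 2)) (hidx : N.index = 2)
    (hC : Subgroup.centralizer (N : Set G) = ⊥)
    (H : Sylow 2 G) (x : G) :
    (H : Subgroup G) ⊓ MulAut.conj x • (H : Subgroup G) ≠ ⊥ := by
  intro hb
  have ho : Opp N := opp_sl.of_equiv e
  have hb' : ∀ y ∈ H, y ∈ x • H → y = 1 := fun y h1 h2 =>
    (Subgroup.eq_bot_iff_forall _).1 hb y ⟨h1, h2⟩
  obtain ⟨h, hH, hN⟩ : ∃ h ∈ H, h ∉ N := by
    by_contra hc
    push Not at hc
    have := Subgroup.index_dvd_of_le (show (H : Subgroup G) ≤ N from hc)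
    rw [hidx] at this
    exact H.not_dvd_index this
  obtain ⟨u, hu, hu'⟩ := ho.2 (H3.sylowInf H N) (H3.sylowInf (h • x • H) N) (H3.sylowInf (x • H) N)
    (fun y h1 h2 => by
      rw [H3.mem_sylowInf] at h1 h2
      rw [mem_smul] at h2
      have := hb' _ (mul_mem (mul_mem (inv_mem hH) h1) hH) h2
      rw [mul_assoc, inv_mul_eq_one, eq_comm, mul_eq_right] at this
      exact Subtype.ext this)
    (fun y h1 h2 => Subtype.ext (hb' _ h1 h2))
  rw [H3.mem_sylowInf] at hu
  set V : Subgroup G := ((x • H : Sylow 2 G) : Subgroup G) ⊓ N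
  have hp : IsPGroup 2 (normalizer (V : Set G)) := by
    rintro ⟨g, hg⟩
    have h2 : g ^ 2 ∈ N := hidx ▸ N.pow_index_mem g
    have := ho.1 (H3.sylowInf (x • H) N) ⟨_, h2⟩ fun y hy => by
      rw [H3.mem_sylowInf] at hy ⊢
      exact ((mem_normalizer_iff.1 (pow_mem hg 2) y).1 ⟨hy, y.2⟩).1
    rw [H3.mem_sylowInf] at this
    obtain ⟨k, hk⟩ := (x • H).isPGroup' ⟨_, this⟩
    refine ⟨k + 1, Subtype.ext ?_⟩
    have := congrArg Subtype.val hk
    simpa [pow_succ', pow_mul] using this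
  have hE : normalizer (V : Set G) = ((x • H : Sylow 2 G) : Subgroup G) :=
    (x • H).3 hp (fun g hg => Subgroup.mem_normalizer_fintype fun y hy =>
      ⟨Subgroup.mul_mem _ (Subgroup.mul_mem _ hg hy.1) (Subgroup.inv_mem _ hg), ‹N.Normal›.conj_mem _ hy.2 g⟩)
  have hy : (u : G) * h ∈ normalizer (V : Set G) := Subgroup.mem_normalizer_fintype fun y hy => by
    refine ⟨?_, ‹N.Normal›.conj_mem _ hy.2 _⟩
    have := hu' ⟨h * y * h⁻¹, ‹N.Normal›.conj_mem _ hy.2 _⟩ (by
      rw [H3.mem_sylowInf, mem_smul]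
      simpa [mul_assoc] using hy.1)
    rw [H3.mem_sylowInf] at this
    simpa [mul_assoc] using this
  rw [hE] at hy
  have := hb' _ (mul_mem hu hH) hy
  apply hN
  rw [eq_inv_of_mul_eq_one_right this]
  exact inv_mem u.2

end Cfsg.Agent.S2486
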