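import Cfsg.Statements.S2487
import Cfsg.Agent.H27.Sp

set_option autoImplicit false
open scoped Pointwise
open Cfsg

namespace Cfsg.Agent.S2487

open Matrix

section

variable {F : Type*} [Field F] {m : ℕ}

/-- The orthogonal group. -/
abbrev OG (m : ℕ) (F : Type*) [Field F] := Cfsg.isometryGroup F (Cfsg.quadFormPlus m F)

/-- The action on vectors. -/
def ac (g : OG m F) (v : Fin m ⊕ Fin m → F) : Fin m ⊕ Fin m → F :=
  ((g : GL (Fin m ⊕ Fin m) F) : Matrix _ _ F) *ᵥ v

theorem ac_mul (g h : OG m F) (v : Fin m ⊕ Fin m → F) : ac (g * h) v = ac g (ac h v) := by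
  simp [ac]

theorem ac_one (v : Fin m ⊕ Fin m → F) : ac 1 v = v := by simp [ac]

theorem ac_add (g : OG m F) (u v : Fin m ⊕ Fin m → F) : ac g (u + v) = ac g u + ac g v :=
  mulVec_add _ _ _

theorem ac_Q (g : OG m F) (v : Fin m ⊕ Fin m → F) :
    Cfsg.quadFormPlus m F (ac g v) = Cfsg.quadFormPlus m F v := g.2 v v

theorem ac_ext {g : OG m F} (h : ∀ v, ac g v = v) : g = 1 :=
  Subtype.ext (Units.ext (Matrix.toLin'.injective (LinearMap.ext fun v => by
    simpa [ac] using h v)))

theorem Q_add (h2 : (2 : F) = 0) (u v : Fin m ⊕ Fin m → F) : Cfsg.quadFormPlus m F (u + v) =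
    Cfsg.quadFormPlus m F u + Cfsg.quadFormPlus m F v + Cfsg.sympForm m F u v := by
  simp only [Cfsg.quadFormPlus, H27.sympForm_eq, ← Finset.sum_add_distrib, Pi.add_apply]
  exact Finset.sum_congr rfl fun i _ => by linear_combination u (.inl i) * v (.inr i) * h2

theorem Q_smul (c : F) (u : Fin m ⊕ Fin m → F) :
    Cfsg.quadFormPlus m F (c • u) = c ^ 2 * Cfsg.quadFormPlus m F u := by
  simp only [Cfsg.quadFormPlus, Finset.mul_sum, Pi.smul_apply, smul_eq_mul]
  exact Finset.sum_congr rfl fun i _ => by ring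

theorem ac_B (h2 : (2 : F) = 0) (g : OG m F) (u v : Fin m ⊕ Fin m → F) :
    Cfsg.sympForm m F (ac g u) (ac g v) = Cfsg.sympForm m F u v := by
  have := ac_Q g (u + v)
  rw [ac_add, Q_add h2, Q_add h2, ac_Q, ac_Q] at this
  exact add_left_cancel this

theorem exists_inv (f : (Fin m ⊕ Fin m → F) →ₗ[F] (Fin m ⊕ Fin m → F)) (hf : ∀ v, f (f v) = v)
    (hQ : ∀ v, Cfsg.quadFormPlus m F (f v) = Cfsg.quadFormPlus m F v) :
    ∃ t : OG m F, ∀ v, ac t v = f v := by
  have e : LinearMap.toMatrix' f * LinearMap.toMatrix' f = 1 := by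
    rw [← LinearMap.toMatrix'_comp, show f ∘ₗ f = LinearMap.id from LinearMap.ext hf,
      LinearMap.toMatrix'_id]
  have a : ∀ v, LinearMap.toMatrix' f *ᵥ v = f v := fun v => by
    rw [← Matrix.toLin'_apply, Matrix.toLin'_toMatrix']
  exact ⟨⟨⟨_, _, e, e⟩, fun u _ => by simpa [a] using hQ u⟩, a⟩

theorem addself (h2 : (2 : F) = 0) (u : Fin m ⊕ Fin m → F) : u + u = 0 := by
  rw [← two_smul F, h2, zero_smul]

/-- A space of dimension two is the perp of the fixed vectors of a nontrivial isometry. -/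
theorem exists_fix (h2 : (2 : F) = 0) (h01 : ∀ x : F, x = 0 ∨ x = 1) {a b : Fin m ⊕ Fin m → F}
    (ha : a ≠ 0) (hb : b ≠ 0) (hab : a ≠ b) : ∃ t : OG m F, t ≠ 1 ∧ ∀ v,
      Cfsg.sympForm m F v a = 0 → Cfsg.sympForm m F v b = 0 → ac t v = v := by
  have refl : ∀ u, u ≠ 0 → Cfsg.quadFormPlus m F u = 1 → ∃ t : OG m F, t ≠ 1 ∧ ∀ v,
      Cfsg.sympForm m F v u = 0 → ac t v = v := fun u u0 hu => by
    obtain ⟨t, ht⟩ := exists_inv (LinearMap.id + ((H27.sympBilin m F).flip u).smulRight u)
      (fun v => by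
        simp [H27.sympBilin_apply, H27.sympForm_self, add_assoc, addself h2])
      (fun v => by
        simp only [LinearMap.add_apply, LinearMap.id_apply, LinearMap.smulRight_apply,
          LinearMap.BilinForm.flip_apply, H27.sympBilin_apply, Q_add h2, Q_smul, hu, H27.sympForm_smul_right]
        linear_combination Cfsg.sympForm m F v u ^ 2 * h2)
    refine ⟨t, fun e => u0 (H27.eq_zero_of_sympForm_right fun v => ?_), fun v hv => by
      simp [ht, H27.sympBilin_apply, hv]⟩
    have := ht v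
    rw [e, ac_one] at this
    simpa [H27.sympBilin_apply, u0] using this
  have hab0 : a + b ≠ 0 := fun e => hab (by
    rw [← add_zero a, ← addself h2 b, ← add_assoc, e, zero_add])
  rcases h01 (Cfsg.quadFormPlus m F a) with qa | qa; swap
  · obtain ⟨t, h1, h3⟩ := refl a ha qa
    exact ⟨t, h1, fun v hv _ => h3 v hv⟩
  rcases h01 (Cfsg.quadFormPlus m F b) with qb | qb; swap
  · obtain ⟨t, h1, h3⟩ := refl b hb qb
    exact ⟨t, h1, fun v _ hv => h3 v hv⟩
  rcases h01 (Cfsg.quadFormPlus m F (a + b)) with qc | qc; swap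
  · obtain ⟨t, h1, h3⟩ := refl _ hab0 qc
    exact ⟨t, h1, fun v hv hv' => h3 v (by rw [H27.sympForm_add_right, hv, hv', add_zero])⟩
  rw [Q_add h2, qa, qb, zero_add, zero_add] at qc
  have qd : Cfsg.sympForm m F b a = 0 := by rw [H27.sympForm_neg_comm, qc, neg_zero]
  obtain ⟨t, ht⟩ := exists_inv (LinearMap.id + (((H27.sympBilin m F).flip a).smulRight b +
      ((H27.sympBilin m F).flip b).smulRight a))
    (fun v => by
      simp only [LinearMap.add_apply, LinearMap.id_apply, LinearMap.smulRight_apply,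
        LinearMap.BilinForm.flip_apply, H27.sympBilin_apply, H27.sympForm_self, qc, qd,
        H27.sympForm_smul_left, H27.sympForm_add_left, mul_zero, add_zero]
      rw [add_assoc, addself h2, add_zero])
    (fun v => by
      simp only [LinearMap.add_apply, LinearMap.id_apply, LinearMap.smulRight_apply,
        LinearMap.BilinForm.flip_apply, H27.sympBilin_apply, Q_add h2, Q_smul, qa, qb, qd,
        H27.sympForm_smul_right, H27.sympForm_smul_left, H27.sympForm_add_right]
      linear_combination Cfsg.sympForm m F v a * Cfsg.sympForm m F v b * h2)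
  refine ⟨t, fun e => ha (H27.eq_zero_of_sympForm_right fun v => ?_), fun v hv hv' => by
    simp [ht, H27.sympBilin_apply, hv, hv']⟩
  have := ht v
  rw [e, ac_one] at this
  simp only [LinearMap.add_apply, LinearMap.id_apply, LinearMap.smulRight_apply,
    LinearMap.BilinForm.flip_apply, H27.sympBilin_apply, left_eq_add] at this
  rcases h01 (Cfsg.sympForm m F v a) with h | h
  · exact h
  rcases h01 (Cfsg.sympForm m F v b) with h' | h'
  · simp [h, h', hb] at this
  · simp [h, h', add_comm b, hab0] at this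

/-- The isometries that fix all but one of the vectors `e i`. -/
def Fx (F : Type*) [Field F] (j : Fin m) : Subgroup (OG m F) where
  carrier := {g | ∀ i, i ≠ j → ac g (Pi.single (.inl i) 1) = Pi.single (.inl i) 1}
  one_mem' _ _ := ac_one _
  mul_mem' ha hb i hi := by rw [ac_mul, hb i hi, ha i hi]
  inv_mem' {g} ha i hi := by
    conv_lhs => rw [← ha i hi, ← ac_mul, inv_mul_cancel, ac_one]

theorem Fx_two (h2 : (2 : F) = 0) (h01 : ∀ x : F, x = 0 ∨ x = 1) (j : Fin m) :
    IsPGroup 2 (Fx F j) := by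
  rintro ⟨g, hg⟩
  refine ⟨2, Subtype.ext (ac_ext fun v => ?_)⟩
  let P : (Fin m ⊕ Fin m → F) → Prop := fun v => ∀ i, i ≠ j → v (.inr i) = 0
  have h0 : ∀ v, P v → v (.inl j) = 0 → v (.inr j) = 0 → ac g v = v := fun v hv h1 h3 => by
    have e : v = ∑ i ∈ Finset.univ.erase j, v (.inl i) • Pi.single (.inl i) 1 := by
      ext (k | k) <;> by_cases hk : k = j <;> simp [Finset.sum_apply, Pi.single_apply, *]
      exact hv k hk
    rw [e, ac, mulVec_sum]
    refine Finset.sum_congr rfl fun i hi => ?_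
    rw [mulVec_smul]
    exact congrArg _ (hg i (Finset.ne_of_mem_erase hi))
  have h1 : ∀ v i, i ≠ j → ac g v (.inr i) = v (.inr i) := fun v i hi => by
    rw [← H27.sympForm_single_inl_right (ac g v), ← hg i hi, ac_B h2, H27.sympForm_single_inl_right]
  have hQ : ∀ v, P v → Cfsg.quadFormPlus m F v = v (.inl j) * v (.inr j) := fun v hv =>
    Finset.sum_eq_single j (fun i _ hi => by rw [hv i hi, mul_zero]) (by simp)
  have key : ∀ v, P v → ac g v (.inl j) * ac g v (.inr j) = v (.inl j) * v (.inr j) ∧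
      (ac g v (.inl j) = 0 ∧ ac g v (.inr j) = 0 ↔ v (.inl j) = 0 ∧ v (.inr j) = 0) := by
    intro v hv
    have hv' : P (ac g v) := fun i hi => by rw [h1 v i hi, hv i hi]
    refine ⟨by rw [← hQ _ hv', ac_Q, hQ _ hv], fun h => ?_, fun h => by rwa [h0 v hv h.1 h.2]⟩
    have e := congrArg (ac g⁻¹) (h0 _ hv' h.1 h.2)
    rw [← ac_mul, inv_mul_cancel, ac_one, ← ac_mul, inv_mul_cancel, ac_one] at e
    rwa [e] at h
  have t : (1 : F) + 1 = 0 := by linear_combination h2
  let N : (Fin m ⊕ Fin m → F) → (Fin m ⊕ Fin m → F) := fun v => ac g v + v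
  have s1 : ∀ v, P (N v) := fun v i hi => by
    simp only [N, Pi.add_apply, h1 v i hi]; linear_combination v (.inr i) * h2
  have s2 : ∀ v, P v → N v (.inl j) = N v (.inr j) := fun v hv => by
    have := key v hv
    simp only [N, Pi.add_apply]
    rcases h01 (ac g v (.inl j)) with a | a <;> rcases h01 (ac g v (.inr j)) with b | b <;>
      rcases h01 (v (.inl j)) with c | c <;> rcases h01 (v (.inr j)) with d | d <;>
      simp [a, b, c, d, t] at this ⊢
  have s3 : ∀ v, P v → v (.inl j) = v (.inr j) → N v (.inl j) = 0 ∧ N v (.inr j) = 0 :=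
    fun v hv e => by
      have := key v hv
      simp only [N, Pi.add_apply]
      rcases h01 (ac g v (.inl j)) with a | a <;> rcases h01 (ac g v (.inr j)) with b | b <;>
        rcases h01 (v (.inr j)) with d | d <;> simp [a, b, d, e, t] at this ⊢
  have s4 := s3 _ (s1 (N v)) (s2 _ (s1 v))
  have s5 : N (N (N (N v))) = 0 := by
    change ac g _ + _ = 0
    rw [h0 _ (s1 _) s4.1 s4.2, addself h2]
  have n2 : ∀ v, N (N v) = ac g (ac g v) + v := fun v => by
    simp only [N, ac_add]
    rw [add_assoc, ← add_assoc (ac g v), addself h2, zero_add]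
  rw [n2 (N (N v)), n2 v, ac_add, ac_add, add_assoc, ← add_assoc (ac g (ac g v)), addself h2,
    zero_add] at s5
  change ac (g ^ 2 ^ 2) v = v
  rw [show g ^ 2 ^ 2 = g * (g * (g * g)) by simp [pow_succ, mul_assoc], ac_mul, ac_mul, ac_mul, ← add_zero (ac g _),
    ← addself h2 v, ← add_assoc, s5, zero_add]

theorem exists_two (j : Fin m) (h k : OG m F) : ∃ a b : Fin m ⊕ Fin m → F, a ≠ 0 ∧ b ≠ 0 ∧ a ≠ b ∧
    ∀ u, u = a ∨ u = b → ∀ i, i ≠ j → Cfsg.sympForm m F (ac h (Pi.single (.inl i) 1)) u = 0 ∧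
      Cfsg.sympForm m F (ac k (Pi.single (.inl i) 1)) u = 0 := by
  let φ : (Fin m ⊕ Fin m → F) →ₗ[F] ({i // i ≠ j} → F) × ({i // i ≠ j} → F) :=
    (LinearMap.pi fun i => H27.sympBilin m F (ac h (Pi.single (.inl i.1) 1))).prod
      (LinearMap.pi fun i => H27.sympBilin m F (ac k (Pi.single (.inl i.1) 1)))
  have h1 := φ.finrank_range_add_finrank_ker
  have h2 := (LinearMap.range φ).finrank_le
  have := j.pos
  simp only [Module.finrank_prod, Module.finrank_fintype_fun_eq_card, Fintype.card_sum,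
    Fintype.card_fin, Fintype.card_subtype_compl, Fintype.card_unique] at h1 h2
  obtain ⟨v, hv⟩ := exists_linearIndependent_of_le_finrank (R := F) (M := LinearMap.ker φ) (n := 2)
    (by omega)
  refine ⟨v 0, v 1, fun e => hv.ne_zero 0 (Subtype.ext e), fun e => hv.ne_zero 1 (Subtype.ext e),
    fun e => absurd (hv.injective (Subtype.ext e)) (by decide), fun u hu i hi => ?_⟩
  have hu' : φ u = 0 := by rcases hu with rfl | rfl; exacts [(v 0).2, (v 1).2]
  exact ⟨(H27.sympBilin_apply _ _).symm.trans (congrFun (congrArg Prod.fst hu') ⟨i, hi⟩),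
    (H27.sympBilin_apply _ _).symm.trans (congrFun (congrArg Prod.snd hu') ⟨i, hi⟩)⟩

end

/-- Let m ≥ 4 and let G be the full isometry group of the hyperbolic quadratic form x₁y₁ + ⋯ + x_m y_m on the 2m-dimensional space over the field with 2 elements (the orthogonal group O⁺(2m,2), which contains Ω⁺(2m,2) with index 2). Then any two Sylow 2-subgroups of G have a non-trivial intersection: for a Sylow 2-subgroup H and every x ∈ G, H ∩ H^x ≠ 1. -/
theorem result {F : Type*} [Field F] [Fintype F] (hF : Fintype.card F = 2) {m : ℕ} (hm : 4 ≤ m)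
    (H : Sylow 2 (Cfsg.isometryGroup F (Cfsg.quadFormPlus m F)))
    (x : Cfsg.isometryGroup F (Cfsg.quadFormPlus m F)) :
    (H : Subgroup (Cfsg.isometryGroup F (Cfsg.quadFormPlus m F))) ⊓ MulAut.conj x • (H : Subgroup _) ≠ ⊥ := by
  classical
  have h01 : ∀ x : F, x = 0 ∨ x = 1 := fun x => by
    have := FiniteField.pow_card x
    rw [hF, pow_two] at this
    exact (eq_or_ne x 0).imp_right fun h => mul_left_cancel₀ h (by rw [this, mul_one])
  have h2 : (2 : F) = 0 := by
    have := FiniteField.cast_card_eq_zero F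
    rwa [hF] at this
  have : Fact (Nat.Prime 2) := ⟨Nat.prime_two⟩
  let j : Fin m := ⟨0, by omega⟩
  obtain ⟨S, hS⟩ := (Fx_two h2 h01 j).exists_le_sylow
  obtain ⟨h, rfl⟩ := MulAction.exists_smul_eq (OG m F) S H
  obtain ⟨a, b, ha, hb, hab, hu⟩ := exists_two j h (x * h)
  obtain ⟨t, t1, ht⟩ := exists_fix h2 h01 ha hb hab
  have key : ∀ k : OG m F, k = h ∨ k = x * h → t ∈ MulAut.conj k • (S : Subgroup (OG m F)) := by
    intro k hk
    rw [Subgroup.mem_pointwise_smul_iff_inv_smul_mem]
    refine hS fun i hi => ?_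
    change ac (k⁻¹ * t * k) _ = _
    rw [ac_mul, ac_mul, ht, ← ac_mul, inv_mul_cancel, ac_one]
    · rcases hk with rfl | rfl
      exacts [(hu a (.inl rfl) i hi).1, (hu a (.inl rfl) i hi).2]
    · rcases hk with rfl | rfl
      exacts [(hu b (.inr rfl) i hi).1, (hu b (.inr rfl) i hi).2]
  refine fun e => t1 (Subgroup.mem_bot.1 (e ▸ Subgroup.mem_inf.2 ⟨key h (.inl rfl), ?_⟩))
  have := key _ (.inr rfl)
  rwa [map_mul, mul_smul] at this

end Cfsg.Agent.S2487
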