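import Cfsg.Statements.S2488
import Mathlib
import Cfsg.Agent.H3.PGroup

set_option autoImplicit false
open scoped Pointwise
open Cfsg

namespace Cfsg.Agent.S2488

open Equiv

/-- a double transposition -/
def t0 : Perm (Fin 6) := swap 0 1 * swap 2 3

theorem c1 : ∀ g : Perm (Fin 6), g * t0 = t0 * g → g ^ 4 = 1 := by decide +kernel

theorem c2 : ∀ b1 b2 b3 : Bool, (Finset.univ.filter fun σ : Perm (Fin 6) => σ * σ = 1 ∧
    decide ((t0 * σ) ^ 3 = 1) = b1 ∧ decide ((t0 * σ) ^ 4 = 1) = b2 ∧ decide ((t0 * σ) ^ 5 = 1) = b3).card < 32 := by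
  decide +kernel

theorem cyc (τ : Perm (Fin 6)) (h : orderOf τ = 2) (hs : Perm.sign τ = 1) :
    τ.cycleType = Multiset.replicate 2 2 := by
  obtain ⟨n, hn⟩ := Perm.cycleType_prime_order (σ := τ) (h ▸ Nat.prime_two)
  have h1 := τ.sum_cycleType_le
  have h2 := τ.sign_of_cycleType
  rw [hn, h] at h1 h2 ⊢
  simp only [Multiset.sum_replicate, Multiset.card_replicate, smul_eq_mul, Fintype.card_fin] at h1 h2
  have : n ≤ 2 := by omega
  rw [hs] at h2
  interval_cases n
  · exact absurd h2 (by decide)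
  · rfl
  · exact absurd h2 (by decide)

theorem conj_t0 (τ : Perm (Fin 6)) (h : orderOf τ = 2) (hs : Perm.sign τ = 1) :
    ∃ c, c * t0 * c⁻¹ = τ := by
  rw [← isConj_iff, Perm.isConj_iff_cycleType_eq, cyc τ h hs, cyc t0]
  · exact orderOf_eq_prime (by decide) (by decide)
  · simp [t0]

theorem lemA (τ : Perm (Fin 6)) (h : orderOf τ = 2) (hs : Perm.sign τ = 1) (g : Perm (Fin 6))
    (hg : g * τ = τ * g) : g ^ 4 = 1 := by
  obtain ⟨c, rfl⟩ := conj_t0 τ h hs
  have := c1 (c⁻¹ * g * c) (by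
    calc c⁻¹ * g * c * t0 = c⁻¹ * (g * (c * t0 * c⁻¹)) * c := by group
      _ = _ := by rw [hg]; group)
  have e : g = c * (c⁻¹ * g * c) * c⁻¹ := by group
  rw [e, conj_pow, this]; group

theorem lemB (τ : Perm (Fin 6)) (h : orderOf τ = 2) (hs : Perm.sign τ = 1) {ι : Type*} [Finite ι]
    (f : ι → Perm (Fin 6)) (hf : Function.Injective f) (h2 : ∀ i, f i * f i = 1) (m : ℕ)
    (ho : ∀ i, orderOf (τ * f i) = m) : Nat.card ι < 32 := by
  obtain ⟨c, rfl⟩ := conj_t0 τ h hs
  refine lt_of_le_of_lt ?_ (c2 (decide (m ∣ 3)) (decide (m ∣ 4)) (decide (m ∣ 5)))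
  rw [← Nat.card_eq_finsetCard]
  have key : ∀ i, orderOf (t0 * (c⁻¹ * f i * c)) = m := by
    intro i
    rw [← ho i]
    have : c * t0 * c⁻¹ * f i = c * (t0 * (c⁻¹ * f i * c)) * c⁻¹ := by group
    rw [this]
    exact (MulAut.conj c).orderOf_eq _ |>.symm
  refine Nat.card_le_card_of_injective (fun i => ⟨c⁻¹ * f i * c, ?_⟩) ?_
  · simp only [Finset.mem_filter, Finset.mem_univ, true_and, decide_eq_decide, ← orderOf_dvd_iff_pow_eq_one, key,
      and_true]
    calc c⁻¹ * f i * c * (c⁻¹ * f i * c) = c⁻¹ * (f i * f i) * c := by group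
      _ = 1 := by rw [h2]; group
  · intro i j hij
    have := congrArg Subtype.val hij
    simp only [mul_left_inj, mul_right_inj] at this
    exact hf this


/-- Let G be a finite group with a normal subgroup N of index 4 isomorphic to the alternating group of degree 6 and with trivial centralizer in G (so G is the full automorphism group of A₆). Then any two Sylow 2-subgroups of G have a non-trivial intersection: for a Sylow 2-subgroup H and every x ∈ G, H ∩ H^x ≠ 1. -/
theorem result {G : Type*} [Group G] [Finite G] (N : Subgroup G) [N.Normal]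
    (e : N ≃* alternatingGroup (Fin 6)) (hidx : N.index = 4)
    (hC : Subgroup.centralizer (N : Set G) = ⊥)
    (H : Sylow 2 G) (x : G) :
    (H : Subgroup G) ⊓ MulAut.conj x • (H : Subgroup G) ≠ ⊥ := by
  intro hb
  set φ : N →* Perm (Fin 6) := (alternatingGroup (Fin 6)).subtype.comp e.toMonoidHom with hφ
  have hφi : Function.Injective φ := Subtype.val_injective.comp e.injective
  have hsgn : ∀ n, Perm.sign (φ n) = 1 := fun n => Perm.mem_alternatingGroup.1 (e n).2
  have hN : Nat.card N = 360 := by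
    rw [Nat.card_congr e.toEquiv, nat_card_alternatingGroup]; simp [Nat.factorial]
  have hG : Nat.card G = 2 ^ 5 * 45 := by rw [← N.card_mul_index, hN, hidx]; norm_num
  have hH : Nat.card H = 32 := by
    rw [H.card_eq_multiplicity, hG, Nat.factorization_mul (by norm_num) (by norm_num), Nat.factorization_pow]
    simp [Nat.Prime.factorization_self Nat.prime_two, Nat.factorization_eq_zero_of_not_dvd (by norm_num : ¬ 2 ∣ 45)]
  have hne : N.subgroupOf (H : Subgroup G) ≠ ⊥ := by
    intro h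
    have h1 := (N.subgroupOf (H : Subgroup G)).card_mul_index
    have h2 : (N.subgroupOf (H : Subgroup G)).index ∣ N.index := Subgroup.relIndex_dvd_index_of_normal N H
    rw [h, Subgroup.card_bot, one_mul, hH] at h1
    rw [h, h1, hidx] at h2
    norm_num at h2
  obtain ⟨⟨t, htH⟩, htN, htc, hto⟩ := H3.exists_mem_center_orderOf_eq H.isPGroup' _ hne
  have htN' : t ∈ N := htN
  have hto' : orderOf t = 2 := by rw [← hto, Subgroup.orderOf_mk]
  have htc' : ∀ h ∈ (H : Subgroup G), h * t = t * h := fun h hh =>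
    congrArg Subtype.val (Subgroup.mem_center_iff.1 htc ⟨h, hh⟩)
  have hφo : ∀ (y : G) (hy : y ∈ N), orderOf (φ ⟨y, hy⟩) = orderOf y := fun y hy => by
    rw [orderOf_injective φ hφi, Subgroup.orderOf_mk]
  -- the centraliser of `t` is a 2-group
  have hC2 : IsPGroup 2 (Subgroup.centralizer {t}) := by
    rintro ⟨g, hg⟩
    rw [Subgroup.mem_centralizer_singleton_iff] at hg
    refine ⟨4, Subtype.ext ?_⟩
    have h4 : g ^ 4 ∈ N := hidx ▸ N.pow_index_mem g
    have := lemA (φ ⟨t, htN'⟩) (by rw [hφo, hto']) (hsgn _) (φ ⟨_, h4⟩) (by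
      rw [← map_mul, ← map_mul]; congr 1
      exact Subtype.ext ((show Commute g t from hg).pow_left 4))
    rw [← map_pow, map_eq_one_iff φ hφi] at this
    have := congrArg Subtype.val this
    simpa [← pow_mul] using this
  have hCH : Subgroup.centralizer {t} = (H : Subgroup G) :=
    H.3 hC2 (fun h hh => Subgroup.mem_centralizer_singleton_iff.2 (htc' h hh))
  have hmem : ∀ h : (H : Subgroup G), (h : G) * (x * t * x⁻¹) * (h : G)⁻¹ ∈ N := fun h =>
    ‹N.Normal›.conj_mem _ (‹N.Normal›.conj_mem _ htN' x) h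
  have := lemB (φ ⟨t, htN'⟩) (by rw [hφo, hto']) (hsgn _) (fun h : (H : Subgroup G) => φ ⟨_, hmem h⟩) ?_ ?_
    (orderOf (t * (x * t * x⁻¹))) ?_
  · omega
  · intro a b hab
    have := congrArg Subtype.val (hφi hab)
    simp only at this
    have hm : ((b⁻¹ * a : (H : Subgroup G)) : G) ∈ (H : Subgroup G) ⊓ MulAut.conj x • (H : Subgroup G) := by
      refine Subgroup.mem_inf.2 ⟨(b⁻¹ * a).2, ?_⟩
      rw [Subgroup.mem_pointwise_smul_iff_inv_smul_mem]
      apply hCH.le
      rw [Subgroup.mem_centralizer_singleton_iff]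
      show (MulAut.conj x)⁻¹ _ * _ = _ * (MulAut.conj x)⁻¹ _
      rw [MulAut.conj_inv_apply]
      simp only [Subgroup.coe_mul, Subgroup.coe_inv]
      calc x⁻¹ * ((b : G)⁻¹ * a) * x * t = x⁻¹ * (b : G)⁻¹ * ((a : G) * (x * t * x⁻¹) * (a : G)⁻¹) * a * x := by group
        _ = _ := by rw [this]; group
    rw [hb, Subgroup.mem_bot, OneMemClass.coe_eq_one, inv_mul_eq_one] at hm
    exact hm.symm
  · intro h
    rw [← map_mul, map_eq_one_iff φ hφi]
    apply Subtype.ext
    have h2 : t * t = 1 := by rw [← sq, ← hto', pow_orderOf_eq_one]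
    show (h : G) * (x * t * x⁻¹) * (h : G)⁻¹ * ((h : G) * (x * t * x⁻¹) * (h : G)⁻¹) = 1
    calc _ = (h : G) * x * (t * t) * x⁻¹ * (h : G)⁻¹ := by group
      _ = 1 := by rw [h2]; group
  · intro h
    rw [← map_mul, orderOf_injective φ hφi, ← Subgroup.orderOf_coe]
    show orderOf (t * ((h : G) * (x * t * x⁻¹) * (h : G)⁻¹)) = _
    have : t * ((h : G) * (x * t * x⁻¹) * (h : G)⁻¹) = (h : G) * (t * (x * t * x⁻¹)) * (h : G)⁻¹ := by
      rw [← mul_assoc, ← mul_assoc, ← htc' h h.2]; group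
    rw [this]
    exact (MulAut.conj (h : G)).orderOf_eq _

end Cfsg.Agent.S2488
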