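import Cfsg.Statements.S2495
import Mathlib
import Cfsg.Agent.H67.Singer

set_option autoImplicit false
open Cfsg

namespace Cfsg.Agent.S2495


/-- Let q be an odd prime power, n ≥ 4 even, and L = PSL(n,q). Then L has an element of order q^(n/2) + 1 if and only if the 2-part of n exceeds the 2-part of q − 1. -/
theorem result {F : Type*} [Field F] [Fintype F] {q : ℕ} (hF : Fintype.card F = q) (hodd : Odd q)
    {n : ℕ} (hn : 4 ≤ n) (heven : Even n) :
    (∃ g : Matrix.ProjectiveSpecialLinearGroup (Fin n) F, orderOf g = q ^ (n / 2) + 1) ↔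
      padicValNat 2 (q - 1) < padicValNat 2 n := by
  subst hF
  obtain ⟨m, rfl⟩ := heven.two_dvd
  obtain ⟨p, hp⟩ := CharP.exists F
  haveI := Fact.mk (CharP.char_is_prime F p)
  have hq := Fintype.one_lt_card (α := F)
  obtain ⟨r, hr, h1, h2⟩ := H52.Zsig.zsigmondy hq (show 3 ≤ 2 * m by omega)
    fun h => by simp [h.1] at hodd; exact absurd hodd (by decide)
  have := H67.exists_order_half_iff (Ω := AlgebraicClosure F) (m := m) (by omega) (H67.slHom _ F)
    Subtype.val_injective H67.sl_mem_center_iff p (Q := Fintype.card F) (by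
      obtain ⟨j, -, hj⟩ := FiniteField.card F p
      exact_mod_cast hj ▸ dvd_pow_self p j.ne_zero) (by simpa using H67.frob_injective)
    (fun g => by simpa using H67.ev_map_frob _) (fun g => g.2) (fun s h1 h2 h3 => by
      obtain ⟨g, -, hg⟩ := H67.exists_sl_ev_eq (ι := Fin (2 * m)) (F := F) (by simpa using h1)
        (by simpa using h2) h3
      exact ⟨g, hg⟩) (fun x hx => H67.exists_algebraMap_eq_of_pow_card (by simpa using hx)) hr
    (by simpa using H52.Zsig.orderOf_eq_of_primitive hq (by omega) h1 h2)
  rwa [show ((Fintype.card F : ℤ) - 1).natAbs = Fintype.card F - 1 by omega,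
    show ((Fintype.card F : ℤ) ^ m + 1).natAbs = Fintype.card F ^ (2 * m / 2) + 1 by
      rw [Nat.mul_div_cancel_left _ two_pos]; exact_mod_cast Int.natAbs_natCast _] at this

end Cfsg.Agent.S2495
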