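import Cfsg.Statements.S2496
import Mathlib
import Cfsg.Agent.H67.Singer
import Cfsg.Agent.H67.UnitaryEig
import Cfsg.Agent.H10.Isotropic

set_option autoImplicit false
open Cfsg

namespace Cfsg.Agent.S2496


/-- Let q be an odd prime power, n ≥ 4 even, and U = PSU(n,q) (realised over the field with q² elements). Then U has an element of order q^(n/2) + (−1)^(n/2) — that is, q^(n/2) + 1 when n/2 is even and q^(n/2) − 1 when n/2 is odd — if and only if the 2-part of n exceeds the 2-part of q + 1. -/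
theorem result {F : Type*} [Field F] [Fintype F] {q : ℕ} (hF : Fintype.card F = q ^ 2) (hodd : Odd q)
    {n : ℕ} (hn : 4 ≤ n) (heven : Even n) :
    (∃ g : Cfsg.PSU n F q, orderOf g = if Even (n / 2) then q ^ (n / 2) + 1 else q ^ (n / 2) - 1) ↔
      padicValNat 2 (q + 1) < padicValNat 2 n := by
  obtain ⟨m, rfl⟩ := heven.two_dvd
  obtain ⟨p, hp⟩ := CharP.exists F
  haveI := Fact.mk (CharP.char_is_prime F p)
  haveI := Fact.mk hF
  have hq := H10.two_le_q F q
  have hq6 : ∀ n, ¬ (q = 2 ∧ n = 6) := fun _ h => absurd (h.1 ▸ hodd) (by decide)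
  obtain ⟨r, hr, h1⟩ : ∃ r : ℕ, r.Prime ∧ orderOf ((-(q : ℤ) : ℤ) : ZMod r) = 2 * m := by
    have key : ∀ r : ℕ, r.Prime → (-(q : ZMod r)) ^ m ≠ 1 →
        (Even m → orderOf (q : ZMod r) = 2 * m) → (Odd m → orderOf (q : ZMod r) = m) →
        orderOf ((-(q : ℤ) : ℤ) : ZMod r) = 2 * m := fun r hr h1 h3 h4 => by
      push_cast
      have h5 : orderOf (-(q : ZMod r)) ∣ 2 * m := by
        rw [orderOf_dvd_iff_pow_eq_one, (even_two_mul m).neg_pow, ← orderOf_dvd_iff_pow_eq_one]
        rcases Nat.even_or_odd m with h | h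
        exacts [(h3 h).dvd, h4 h ▸ dvd_mul_left _ _]
      obtain ⟨k, hk⟩ : m ∣ orderOf (-(q : ZMod r)) := by
        have h6 : orderOf (q : ZMod r) ∣ 2 * orderOf (-(q : ZMod r)) := by
          rw [orderOf_dvd_iff_pow_eq_one, ← (even_two_mul _).neg_pow, pow_mul', pow_orderOf_eq_one,
            one_pow]
        rcases Nat.even_or_odd m with h | h
        · exact Nat.dvd_of_mul_dvd_mul_left two_pos (h3 h ▸ h6)
        · exact (Nat.coprime_two_right.2 h).dvd_of_dvd_mul_left (h4 h ▸ h6)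
      rw [hk, mul_comm 2, Nat.mul_dvd_mul_iff_left (by omega)] at h5
      rcases (Nat.dvd_prime Nat.prime_two).1 h5 with rfl | rfl
      · exact (h1 (by rw [← mul_one m, ← hk, pow_orderOf_eq_one])).elim
      · rw [hk, mul_comm]
    rcases Nat.even_or_odd m with h | h
    · obtain ⟨r, hr, h1, h2⟩ := H52.Zsig.zsigmondy hq (show 3 ≤ 2 * m by omega) (hq6 _)
      have h3 := H52.Zsig.orderOf_eq_of_primitive hq (by omega) h1 h2
      exact ⟨r, hr, key r hr (h.neg_pow (q : ZMod r) ▸ pow_ne_one_of_lt_orderOf (by omega) (by omega))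
        (fun _ => h3) fun h' => (Nat.not_even_iff_odd.2 h' h).elim⟩
    · obtain ⟨r, hr, h1, h2⟩ := H52.Zsig.zsigmondy hq (show 3 ≤ m by obtain ⟨k, rfl⟩ := h; omega) (hq6 _)
      have h3 := H52.Zsig.orderOf_eq_of_primitive hq (by omega) h1 h2
      refine ⟨r, hr, key r hr (fun h4 => h2 2 one_le_two (by obtain ⟨k, rfl⟩ := h; omega) ?_)
        (fun h' => (Nat.not_even_iff_odd.2 h h').elim) fun _ => h3⟩
      rw [h.neg_pow, ← h3, pow_orderOf_eq_one, neg_eq_iff_add_eq_zero, one_add_one_eq_two] at h4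
      obtain ⟨k, rfl⟩ := hodd
      exact ((ZMod.natCast_eq_zero_iff 2 r).1 (by exact_mod_cast h4)).trans
        ⟨2 * k ^ 2 + 2 * k, Nat.sub_eq_of_eq_add (by ring)⟩
  have := H67.exists_order_half_iff (Ω := AlgebraicClosure F) (m := m) (by omega)
    ({ toFun := H10.sm, map_one' := rfl, map_mul' := fun _ _ => rfl } : SU (2 * m) F q →* _)
    H10.sm_injective (H10.mem_center_SU_iff (by omega)) p (Q := -(q : ℤ)) (by
      obtain ⟨j, hp, hj⟩ := FiniteField.card F p
      exact dvd_neg.2 (by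
        exact_mod_cast hp.dvd_of_dvd_pow (hF ▸ hj ▸ dvd_pow_self p j.ne_zero : p ∣ q ^ 2)))
    (H67.twist_injective F) (fun g => H67.ev_map_twist ((H67.isIsom_iff_cjT _).1 (H10.sm_isIsom g)))
    H10.sm_det (fun s h1 h2 h3 => by
      obtain ⟨T, hT0, -, hT2⟩ := H67.exists_isIsom_ev_eq (K := F) (q := q) h1 h2 fun h => by
        simp [Multiset.prod_eq_zero h] at h3
      exact ⟨H10.mkSU T hT0 ((algebraMap F (AlgebraicClosure F)).injective
        (by rw [← H67.prod_ev, hT2, h3, map_one])), hT2⟩)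
    (fun x hx => H67.exists_algebraMap_eq_of_pow_card (by
      rw [← H67.twist_twist F (q := q), hx, hx])) hr h1
  rw [show (-(q : ℤ) - 1).natAbs = q + 1 by omega] at this
  rw [← this, Nat.mul_div_cancel_left _ two_pos]
  have h2 := Nat.one_le_pow m q (by omega)
  split_ifs with h
  · rw [h.neg_pow, show ((q : ℤ) ^ m + 1).natAbs = q ^ m + 1 by exact_mod_cast Int.natAbs_natCast _]
  · rw [(Nat.not_even_iff_odd.1 h).neg_pow, ← Nat.cast_pow,
      show (-((q ^ m : ℕ) : ℤ) + 1).natAbs = q ^ m - 1 by omega]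

end Cfsg.Agent.S2496
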