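import Cfsg.Statements.S2504
import Cfsg.Agent.H62.AbSym

set_option autoImplicit false
open Cfsg

namespace Cfsg.Agent.S2504

open Cfsg.Agent.H62

/-- The largest order of an abelian subgroup of the alternating group of degree n is 3^k when n = 3k, 4·3^(k−1) when n = 3k + 1, and 16·3^(k−2) when n = 3k + 2, for every k ≥ 2 (so for all degrees n ≥ 6). -/
theorem result (k : ℕ) (hk : 2 ≤ k) :
    IsGreatest {c : ℕ | ∃ A : Subgroup (alternatingGroup (Fin (3 * k))), IsMulCommutative A ∧ Nat.card A = c} (3 ^ k) ∧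
    IsGreatest {c : ℕ | ∃ A : Subgroup (alternatingGroup (Fin (3 * k + 1))), IsMulCommutative A ∧ Nat.card A = c}
      (4 * 3 ^ (k - 1)) ∧
    IsGreatest {c : ℕ | ∃ A : Subgroup (alternatingGroup (Fin (3 * k + 2))), IsMulCommutative A ∧ Nat.card A = c}
      (16 * 3 ^ (k - 2)) := by
  obtain ⟨j, rfl⟩ : ∃ j, k = j + 2 := ⟨k - 2, by omega⟩
  refine ⟨(abS_three True _).isGreatest_alt fun A h _ => ?_,
    (((abS_three True (j + 1)).add (abS_four _)).cast (by ring) (by simp [mul_comm])).isGreatest_alt
      fun A h _ => ?_,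
    ((((abS_three True j).add (abS_four _)).add (abS_four _)).cast (by ring)
      (by simp; ring)).isGreatest_alt fun A h he => card_le_alt A h he (k := j) (by simp)⟩
  · simpa [(gP_val (j + 1)).1] using card_le_gP A h
  · simpa [(gP_val (j + 1)).2.1] using card_le_gP A h

end Cfsg.Agent.S2504
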