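import Cfsg.Statements.S2506
import Cfsg.Agent.H62.AbSym2

set_option autoImplicit false
open scoped Pointwise
open Cfsg

namespace Cfsg.Agent.S2506

open H62.AbAlt H46 in
theorem maxAb {n : ℕ} (A : Subgroup (alternatingGroup (Fin n))) (hA : IsMulCommutative A)
    (hAmax : ∀ C : Subgroup (alternatingGroup (Fin n)), IsMulCommutative C → Nat.card C ≤ Nat.card A) :
    MaxAb Finset.univ (A.map (alternatingGroup (Fin n)).subtype) := by
  refine ⟨?_, ?_, fun C hC hab => ?_⟩
  · rintro _ ⟨a, -, rfl⟩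
    exact mem_AltOn.2 ⟨Finset.subset_univ _, a.2⟩
  · rintro _ ⟨a, ha, rfl⟩ _ ⟨b, hb, rfl⟩
    exact congrArg (fun x : A => (x.1 : Equiv.Perm (Fin n))) (hA.is_comm.comm ⟨a, ha⟩ ⟨b, hb⟩)
  · have h : C ≤ alternatingGroup (Fin n) := fun c hc => (mem_AltOn.1 (hC hc)).2
    rw [Subgroup.card_map_of_injective (alternatingGroup (Fin n)).subtype_injective,
      ← Nat.card_congr (Subgroup.subgroupOfEquivOfLe h).toEquiv]
    exact hAmax _ ⟨⟨fun a b => Subtype.ext (Subtype.ext (hab _ a.2 _ b.2))⟩⟩


/-- In the alternating group of any degree, any two abelian subgroups of the largest possible order (among abelian subgroups) are conjugate. -/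
theorem result (n : ℕ)
    (A B : Subgroup (alternatingGroup (Fin n))) (hA : IsMulCommutative A) (hB : IsMulCommutative B)
    (hAmax : ∀ C : Subgroup (alternatingGroup (Fin n)), IsMulCommutative C → Nat.card C ≤ Nat.card A)
    (hBmax : ∀ C : Subgroup (alternatingGroup (Fin n)), IsMulCommutative C → Nat.card C ≤ Nat.card B) :
    ∃ g : alternatingGroup (Fin n), B = MulAut.conj g • A := by
  obtain ⟨g, hg, e⟩ := H62.AbAlt.conj_main _ _ _ _ rfl (maxAb A hA hAmax) (maxAb B hB hBmax)
  refine ⟨⟨g, (H46.mem_AltOn.1 hg).2⟩, Subgroup.map_injective (alternatingGroup (Fin n)).subtype_injective ?_⟩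
  rw [e, Subgroup.map_map]
  exact (Subgroup.map_map A (alternatingGroup (Fin n)).subtype
    (MulAut.conj (⟨g, (H46.mem_AltOn.1 hg).2⟩ : alternatingGroup (Fin n))).toMonoidHom).symm

end Cfsg.Agent.S2506
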