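import Cfsg.Statements.S2507
import Cfsg.Agent.H66.PSL2Cent

set_option autoImplicit false
open Cfsg

namespace Cfsg.Agent.S2507


/-- Let F be a finite field with q = 2^f ≥ 4 elements. The conjugacy class sizes of PSL(2,F) are exactly 1, q(q − 1), q² − 1 and q(q + 1). -/
theorem result {F : Type*} [Field F] [Fintype F]
    (h2 : 2 ∣ Fintype.card F) (h4 : 4 ≤ Fintype.card F) :
    Set.range (fun g : (Matrix.ProjectiveSpecialLinearGroup (Fin 2) F) => (Subgroup.centralizer ({g} : Set (Matrix.ProjectiveSpecialLinearGroup (Fin 2) F))).index) =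
      {1, Fintype.card F * (Fintype.card F - 1), Fintype.card F ^ 2 - 1, Fintype.card F * (Fintype.card F + 1)} := by
  have h2' : (2 : F) = 0 := by
    by_contra e
    have := H66.odd_card_of_two_ne e
    omega
  have h0 : ∀ g : Matrix.SpecialLinearGroup (Fin 2) F, H66.tr2 g ^ 2 ≠ 4 → H66.tr2 g ≠ 0 :=
    fun g h e => h (by rw [e]; linear_combination -2 * h2')
  ext m
  simp only [Set.mem_range, Set.mem_insert_iff, Set.mem_singleton_iff]
  constructor
  · rintro ⟨x, rfl⟩
    obtain ⟨g, rfl⟩ := H66.toPSL_surjective x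
    by_cases hg : H66.NonSc g.1
    · by_cases ht : H66.tr2 g ^ 2 = 4
      · rw [H66.cs_unipotent hg ht, H66.gcd_two_of_two_eq_zero h2', Nat.div_one]; simp
      · by_cases hs : H66.Split (H66.tr2 g)
        · rw [H66.cs_split ht (h0 g ht) hs]; simp
        · rw [H66.cs_nonsplit (h0 g ht) hs]; simp
    · rw [H66.cs_central ((H66.not_nonSc_iff g).1 hg)]; simp
  · rintro (rfl | rfl | rfl | rfl)
    · exact ⟨_, H66.cs_central (Or.inl rfl)⟩
    · obtain ⟨x, -, hs⟩ := H66.exists_nonsplit (F := F)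
      exact ⟨_, H66.cs_nonsplit (h0 x (H66.tr2_sq_ne_of_not_split hs)) hs⟩
    · refine ⟨H66.toPSL F (H66.upT 1), ?_⟩
      rw [H66.cs_unipotent (H66.nonSc_upT one_ne_zero) (by rw [H66.tr2_upT]; norm_num),
        H66.gcd_two_of_two_eq_zero h2', Nat.div_one]
    · obtain ⟨x, -, ht, hs⟩ := H66.exists_split_regular h4
      exact ⟨_, H66.cs_split ht (h0 x ht) hs⟩

end Cfsg.Agent.S2507
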