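import Cfsg.Statements.S2510
import Mathlib
import Cfsg.Agent.H67.Spec
import Cfsg.Agent.H67.Transv

set_option autoImplicit false
open Cfsg

namespace Cfsg.Agent.S2510

open Polynomial

/-- Let F be a finite field with q = p^a elements, n ≥ 2 (with q ≥ 4 when n = 2), L = PSL(n, F), and let r be a prime dividing q − 1 and not dividing n. Then for every m the direct product L × L × L × (ℤ/r)^m has the same set of element orders as L × L × L; and if n − 1 ≠ p^j for every j ≥ 0 (so never when n = 2, since 1 = p^0), then already L × L × (ℤ/r)^m has the same set of element orders as L × L. -/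
theorem result {F : Type*} [Field F] [Fintype F] (p a n r m : ℕ) (hp : p.Prime) (ha : 1 ≤ a) (hF : Fintype.card F = p ^ a)
    (hn : 2 ≤ n) (hn2 : n = 2 → 4 ≤ Fintype.card F) (hr : r.Prime) (hrq : r ∣ Fintype.card F - 1) (hrn : ¬ r ∣ n) :
    Set.range (orderOf : Matrix.ProjectiveSpecialLinearGroup (Fin n) F × Matrix.ProjectiveSpecialLinearGroup (Fin n) F × Matrix.ProjectiveSpecialLinearGroup (Fin n) F × Multiplicative (Fin m → ZMod r) → ℕ) =
      Set.range (orderOf : Matrix.ProjectiveSpecialLinearGroup (Fin n) F × Matrix.ProjectiveSpecialLinearGroup (Fin n) F × Matrix.ProjectiveSpecialLinearGroup (Fin n) F → ℕ) ∧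
    ((¬ ∃ j : ℕ, n - 1 = p ^ j) →
      Set.range (orderOf : Matrix.ProjectiveSpecialLinearGroup (Fin n) F × Matrix.ProjectiveSpecialLinearGroup (Fin n) F × Multiplicative (Fin m → ZMod r) → ℕ) =
        Set.range (orderOf : Matrix.ProjectiveSpecialLinearGroup (Fin n) F × Matrix.ProjectiveSpecialLinearGroup (Fin n) F → ℕ)) := by
  classical
  haveI : Fact p.Prime := ⟨hp⟩
  haveI : CharP F p := charP_of_card_eq_prime_pow hF
  let Ω := AlgebraicClosure F
  haveI : CharP Ω p := charP_of_injective_algebraMap (algebraMap F Ω).injective p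
  let ρ : Matrix.SpecialLinearGroup (Fin n) F →* Matrix (Fin n) (Fin n) F :=
    { toFun := fun g => g.1, map_one' := rfl, map_mul' := fun _ _ => rfl }
  have hρ : Function.Injective ρ := Subtype.val_injective
  have hZ : ∀ g, g ∈ Subgroup.center _ ↔ ∃ c : F, ρ g = c • 1 := by
    intro g
    rw [Matrix.SpecialLinearGroup.mem_center_iff]
    constructor
    · rintro ⟨c, -, hc⟩
      exact ⟨c, by rw [Matrix.smul_one_eq_diagonal]; exact hc.symm⟩
    · rintro ⟨c, hc⟩
      refine ⟨c, ?_, by rw [Matrix.scalar_apply, ← Matrix.smul_one_eq_diagonal]; exact hc.symm⟩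
      have := g.2
      change (ρ g).det = 1 at this
      rwa [hc, Matrix.det_smul, Matrix.det_one, mul_one] at this
  -- an element of order `r` in `F`
  haveI : Fact r.Prime := ⟨hr⟩
  obtain ⟨l, hl⟩ := exists_prime_orderOf_dvd_card (G := Fˣ) r (by rwa [Fintype.card_units])
  have hl1 : (l : F) ^ r = 1 := by rw [← Units.val_pow_eq_pow_val, ← hl, pow_orderOf_eq_one]; rfl
  have hl2 : (l : F) ≠ 1 := by
    intro h
    rw [Units.val_eq_one.1 h, orderOf_one] at hl
    exact hr.one_lt.ne hl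
  have hgood : ∀ (g : Matrix.SpecialLinearGroup (Fin n) F) (E : Matrix (Fin n) (Fin n) F),
      E * E = E → E ≠ 0 → E ≠ 1 → ρ g * E = E * ρ g →
      H67.GoodOrd r (QuotientGroup.mk g : Matrix.ProjectiveSpecialLinearGroup (Fin n) F) := by
    intro g E h1 h2 h3 h4
    obtain ⟨v, hv1, hv2, hv3⟩ := H67.exists_scaled_idem h1 hr.one_lt hl1
      (by rw [Fintype.card_fin]; exact ((Nat.Prime.coprime_iff_not_dvd hr).2 hrn).symm)
    have hv0 : v ≠ 0 := by rintro rfl; simp [hr.ne_zero] at hv1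
    refine H67.goodOrd_mk ρ hZ hρ hr (d := ⟨_, hv2⟩) (c := 1) ?_ (by rw [one_smul]; exact hv3) ?_
    · change ρ g * (v • (1 + ((l : F) - 1) • E)) = (v • (1 + ((l : F) - 1) • E)) * ρ g
      simp [mul_add, add_mul, h4]
    · intro c hc
      change v • (1 + ((l : F) - 1) • E) = c • 1 at hc
      refine H67.one_add_idem_ne_smul h1 h2 h3 hl2 (v⁻¹ * c) ?_
      rw [← smul_smul, ← hc, smul_smul, inv_mul_cancel₀ hv0, one_smul]
  -- the Singer element
  obtain ⟨δ, hδ0, hδ1, hδ2, hδ3⟩ := H67.exists_universal (Ω := Ω) p (Q := (Fintype.card F : ℤ))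
    (by rw [hF]; exact_mod_cast dvd_pow_self p (by omega)) (n := n) (by omega)
  simp only [zpow_natCast] at hδ1 hδ2 hδ3
  obtain ⟨T, hT1, hT2⟩ := H67.exists_isSS_ev_eq (ι := Fin n) (F := F) (H67.map_range_iterate hδ1)
    (by simp)
  have hT3 : T.det = 1 := (algebraMap F Ω).injective (by rw [← H67.prod_ev, hT2, hδ2, map_one])
  let t : Matrix.SpecialLinearGroup (Fin n) F := ⟨T, hT3⟩
  have hcop : (orderOf (QuotientGroup.mk t : Matrix.ProjectiveSpecialLinearGroup (Fin n) F)).Coprime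
      p := Nat.Coprime.coprime_dvd_left (orderOf_map_dvd (QuotientGroup.mk' _) t)
        (H66.IsSS.coprime_orderOf ρ hρ p hT1)
  have hdich : ∀ j, n ≤ p ^ j → ∀ x : Matrix.ProjectiveSpecialLinearGroup (Fin n) F,
      H67.GoodOrd r x ∨ orderOf x ∣
        orderOf (QuotientGroup.mk t : Matrix.ProjectiveSpecialLinearGroup (Fin n) F) * p ^ j := by
    intro j hj x
    obtain ⟨g, rfl⟩ := QuotientGroup.mk_surjective x
    obtain ⟨α, hα⟩ : ∃ α, α ∈ H67.ev Ω (ρ g) :=
      Multiset.card_pos_iff_exists_mem.1 (by rw [H67.card_ev, Fintype.card_fin]; omega)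
    obtain ⟨R, hR1, hR2, hR3⟩ := H67.exists_idem_of_mem_ev hα
    by_cases hE : aeval (ρ g) R = 1
    · right
      have horb : ∀ x ∈ H67.ev Ω (ρ g), ∃ i, (fun x : Ω => x ^ Fintype.card F)^[i] α = x := by
        intro x hx
        refine hR3 x hx ?_
        rw [H67.aeval_eq_of_mem_ev (S := 1) (by rw [hE, map_one]) hx, map_one]
        exact one_ne_zero
      have h1 := (H67.eq_range_map_iterate H67.frob_injective (H67.ev_map_frob _) hα horb).1
      rw [H67.card_ev, Fintype.card_fin] at h1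
      obtain ⟨i, rfl⟩ := hδ3 α (H67.ne_zero_of_mem_ev ((Group.isUnit g).map ρ) hα) (by
        rw [← h1, H67.prod_ev]
        exact (congrArg _ g.2).trans (map_one _))
      refine H67.orderOf_mk_dvd_of_orbit ρ hZ p (φ := fun x : Ω => x ^ Fintype.card F)
        (fun x k => pow_right_comm _ _ _) (fun x hx => H67.exists_algebraMap_eq_of_pow_card hx)
        (δ := δ) ?_ ?_ horb (by rwa [Fintype.card_fin])
      · exact hT2 ▸ Multiset.mem_map.2 ⟨0, Multiset.mem_range.2 (by omega), rfl⟩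
      · exact hT2 ▸ Multiset.mem_map.2 ⟨1, Multiset.mem_range.2 (by omega), rfl⟩
    · left
      refine hgood g _ hR1 (fun h => ?_) hE ?_
      · rw [H67.aeval_eq_zero_of_mem_ev h hα] at hR2
        exact zero_ne_one hR2
      · conv_lhs => lhs; rw [← aeval_X (R := F) (ρ g)]
        conv_rhs => rhs; rw [← aeval_X (R := F) (ρ g)]
        rw [← map_mul, ← map_mul, mul_comm]
  obtain ⟨k, rfl⟩ : ∃ k, n = k + 2 := ⟨n - 2, by omega⟩
  obtain ⟨f1, -, f3, f4, -⟩ := H67.blockOne_facts (K := F) (n := k + 1) 0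
  constructor
  · have hJ := (H67.jordanBlock_regular (F := F) (k + 2)).1
    obtain ⟨j, hj1, hj2⟩ := H67.exists_pow_dvd_orderOf_mk ρ hZ hρ p
      (u := ⟨_, H67.det_eq_one_of_unipotent hJ⟩) hJ (H67.jordanBlock_pow_ne_zero (k + 1))
    obtain ⟨d, -, hd⟩ := hgood 1 _ f1 f3 (f4 (by omega)) (by simp)
    refine H67.range_orderOf_prod_three (H67.pow_eq_one_zmod_pi m r) (QuotientGroup.mk t, _, d)
      (hd.trans (orderOf_snd_dvd_orderOf.trans orderOf_snd_dvd_orderOf)) fun x =>
      (hdich j hj1 x).imp_right fun h => h.trans ((hcop.pow_right j).mul_dvd_of_dvd_of_dvd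
        orderOf_fst_dvd_orderOf (hj2.trans (orderOf_fst_dvd_orderOf.trans orderOf_snd_dvd_orderOf)))
  · intro hne
    have hJ := (H67.jordanBlock_regular (F := F) (k + 1)).1
    obtain ⟨-, g2, -, -, g5⟩ := H67.blockOne_facts (K := F) (Cfsg.jordanBlock (k + 1) F)
    have hJ' := (g5 k).2 hJ
    obtain ⟨j, hj1, hj2⟩ := H67.exists_pow_dvd_orderOf_mk ρ hZ hρ p
      (u := ⟨_, H67.det_eq_one_of_unipotent hJ'⟩) hJ' (e := k) (by
        cases k with
        | zero => simp
        | succ k => exact mt (g5 k).1 (H67.jordanBlock_pow_ne_zero (k + 1)))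
    obtain ⟨d, hd1, hd⟩ := hgood ⟨_, H67.det_eq_one_of_unipotent hJ'⟩ _ f1 f3 (f4 (by omega)) g2
    have hj3 : k + 2 ≤ p ^ j := by
      have : k + 2 - 1 ≠ p ^ j := fun h => hne ⟨j, h⟩
      omega
    refine H67.range_orderOf_prod_two (H67.pow_eq_one_zmod_pi m r) (QuotientGroup.mk t, d)
      (hd.trans orderOf_snd_dvd_orderOf) fun x =>
      (hdich j hj3 x).imp_right fun h => h.trans ((hcop.pow_right j).mul_dvd_of_dvd_of_dvd
        orderOf_fst_dvd_orderOf (hj2.trans (hd1.trans orderOf_snd_dvd_orderOf)))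

end Cfsg.Agent.S2510
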