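import Cfsg.Statements.S2511
import Mathlib
import Cfsg.Agent.H67.Spec
import Cfsg.Agent.H67.UnitaryEig
import Cfsg.Agent.H10.Isotropic

set_option autoImplicit false
open Cfsg

namespace Cfsg.Agent.S2511

open Polynomial

/-- Let F be a finite field with q² elements, q = p^a, n ≥ 3 with (n, q) ≠ (3, 2), L = PSU(n, q) realised over F, and let r be a prime dividing q + 1 and not dividing n. Then for every m the direct product L × L × L × (ℤ/r)^m has the same set of element orders as L × L × L; and if n − 1 is not a power of p, then already L × L × (ℤ/r)^m has the same set of element orders as L × L. -/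
theorem result {F : Type*} [Field F] [Fintype F] (p a n q r m : ℕ) (hp : p.Prime) (ha : 1 ≤ a) (hq : q = p ^ a) (hF : Fintype.card F = q ^ 2)
    (hn : 3 ≤ n) (hn3 : ¬ (n = 3 ∧ q = 2)) (hr : r.Prime) (hrq : r ∣ q + 1) (hrn : ¬ r ∣ n) :
    Set.range (orderOf : Cfsg.PSU n F q × Cfsg.PSU n F q × Cfsg.PSU n F q × Multiplicative (Fin m → ZMod r) → ℕ) = Set.range (orderOf : Cfsg.PSU n F q × Cfsg.PSU n F q × Cfsg.PSU n F q → ℕ) ∧
    ((¬ ∃ j : ℕ, n - 1 = p ^ j) →
      Set.range (orderOf : Cfsg.PSU n F q × Cfsg.PSU n F q × Multiplicative (Fin m → ZMod r) → ℕ) = Set.range (orderOf : Cfsg.PSU n F q × Cfsg.PSU n F q → ℕ)) := by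
  classical
  haveI : Fact p.Prime := ⟨hp⟩
  haveI : Fact (Fintype.card F = q ^ 2) := ⟨hF⟩
  haveI : CharP F p := charP_of_card_eq_prime_pow (f := a * 2) (by rw [hF, hq, pow_mul])
  let Ω := AlgebraicClosure F
  haveI : CharP Ω p := charP_of_injective_algebraMap (algebraMap F Ω).injective p
  let ρ : Cfsg.SU n F q →* Matrix (Fin n) (Fin n) F :=
    { toFun := H10.sm, map_one' := rfl, map_mul' := fun _ _ => rfl }
  have hρ : Function.Injective ρ := H10.sm_injective
  have hZ : ∀ g, g ∈ Subgroup.center _ ↔ ∃ c : F, ρ g = c • 1 :=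
    H10.mem_center_SU_iff (by omega)
  have hU : ∀ g, H67.cjT q (ρ g) * ρ g = 1 := fun g => (H67.isIsom_iff_cjT _).1 (H10.sm_isIsom g)
  -- an element of order `r` in `F`
  haveI : Fact r.Prime := ⟨hr⟩
  obtain ⟨l, hl⟩ := exists_prime_orderOf_dvd_card' (G := Fˣ) r (by
    rw [H10.card_units_eq (q := q)]; exact hrq.mul_left _)
  have hl1 : (l : F) ^ r = 1 := by rw [← Units.val_pow_eq_pow_val, ← hl, pow_orderOf_eq_one]; rfl
  have hl2 : (l : F) ≠ 1 := by
    intro h
    rw [Units.val_eq_one.1 h, orderOf_one] at hl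
    exact hr.one_lt.ne hl
  have hnorm : ∀ v : F, v ^ r = 1 → H10.cj F q v * v = 1 := by
    intro v hv
    obtain ⟨s, hs⟩ := hrq
    rw [H10.cj_apply, ← pow_succ, hs, pow_mul, hv, one_pow]
  have hgood : ∀ (g : Cfsg.SU n F q) (E : Matrix (Fin n) (Fin n) F),
      E * E = E → E ≠ 0 → E ≠ 1 → ρ g * E = E * ρ g → H67.cjT q E = E →
      H67.GoodOrd r (QuotientGroup.mk g : Cfsg.PSU n F q) := by
    intro g E h1 h2 h3 h4 h5
    obtain ⟨v, hv1, hv2, hv3⟩ := H67.exists_scaled_idem h1 hr.one_lt hl1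
      (by rw [Fintype.card_fin]; exact ((Nat.Prime.coprime_iff_not_dvd hr).2 hrn).symm)
    have hv0 : v ≠ 0 := by rintro rfl; simp [hr.ne_zero] at hv1
    have hiso : H10.IsIsom q (v • (1 + ((l : F) - 1) • E)) := by
      rw [H67.isIsom_iff_cjT, H67.cjT_smul, map_add, H67.cjT_smul, H67.cjT_one, h5,
        smul_mul_smul_comm, hnorm v hv1, one_smul, add_mul, mul_add, mul_add, one_mul, one_mul,
        mul_one, smul_mul_smul_comm, h1, add_assoc, ← add_smul, ← add_smul, map_sub, map_one]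
      have : (l : F) - 1 + (H10.cj F q l - 1 + (H10.cj F q l - 1) * (l - 1)) = 0 := by
        linear_combination hnorm l hl1
      rw [this, zero_smul, add_zero]
    refine H67.goodOrd_mk ρ hZ hρ hr (d := H10.mkSU _ hiso hv2) (c := 1) ?_
      (by rw [one_smul]; exact hv3) ?_
    · change ρ g * (v • (1 + ((l : F) - 1) • E)) = (v • (1 + ((l : F) - 1) • E)) * ρ g
      simp [mul_add, add_mul, h4]
    · intro c hc
      change v • (1 + ((l : F) - 1) • E) = c • 1 at hc
      refine H67.one_add_idem_ne_smul h1 h2 h3 hl2 (v⁻¹ * c) ?_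
      rw [← smul_smul, ← hc, smul_smul, inv_mul_cancel₀ hv0, one_smul]
  -- the Singer element
  obtain ⟨δ, hδ0, hδ1, hδ2, hδ3⟩ := H67.exists_universal (Ω := Ω) p (Q := -(q : ℤ))
    (by rw [hq, dvd_neg]; exact_mod_cast dvd_pow_self p (by omega)) (n := n) (by omega)
  obtain ⟨T, hT0, hT1, hT2⟩ := H67.exists_isIsom_ev_eq (n := n) (K := F) (q := q)
    (H67.map_range_iterate hδ1) (by simp) (fun h => by
      rw [Multiset.prod_eq_zero h] at hδ2
      exact zero_ne_one hδ2)
  have hT3 : T.det = 1 := (algebraMap F Ω).injective (by rw [← H67.prod_ev, hT2, hδ2, map_one])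
  let t : Cfsg.SU n F q := H10.mkSU T hT0 hT3
  have hcop : (orderOf (QuotientGroup.mk t : Cfsg.PSU n F q)).Coprime
      p := Nat.Coprime.coprime_dvd_left (orderOf_map_dvd (QuotientGroup.mk' _) t)
        (H66.IsSS.coprime_orderOf ρ hρ p hT1)
  have hdich : ∀ j, n ≤ p ^ j → ∀ x : Cfsg.PSU n F q,
      H67.GoodOrd r x ∨ orderOf x ∣ orderOf (QuotientGroup.mk t : Cfsg.PSU n F q) * p ^ j := by
    intro j hj x
    obtain ⟨g, rfl⟩ := QuotientGroup.mk_surjective x
    obtain ⟨α, hα⟩ : ∃ α, α ∈ H67.ev Ω (ρ g) :=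
      Multiset.card_pos_iff_exists_mem.1 (by rw [H67.card_ev, Fintype.card_fin]; omega)
    rcases H67.exists_herm_idem_or (hU g) hα with ⟨E, h1, h2, h3, h4, h5⟩ | horb
    · exact Or.inl (hgood g E h1 h2 h3 h4 h5)
    · right
      have h1 := (H67.eq_range_map_iterate (H67.twist_injective F) (H67.ev_map_twist (hU g))
        hα horb).1
      rw [H67.card_ev, Fintype.card_fin] at h1
      obtain ⟨i, rfl⟩ := hδ3 α (H67.ne_zero_of_mem_ev ((Group.isUnit g).map ρ) hα) (by
        rw [← h1, H67.prod_ev]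
        exact (congrArg _ (H10.sm_det g)).trans (map_one _))
      refine H67.orderOf_mk_dvd_of_orbit ρ hZ p (φ := fun x : Ω => x ^ (-(q : ℤ)))
        (fun x k => by rw [← zpow_natCast, ← zpow_mul, mul_comm, zpow_mul, zpow_natCast])
        (fun x hx => H67.exists_algebraMap_eq_of_pow_card (by
          rw [← H67.twist_twist F (q := q), hx, hx]))
        (δ := δ) ?_ ?_ horb (by rwa [Fintype.card_fin])
      · exact hT2 ▸ Multiset.mem_map.2 ⟨0, Multiset.mem_range.2 (by omega), rfl⟩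
      · exact hT2 ▸ Multiset.mem_map.2 ⟨1, Multiset.mem_range.2 (by omega), rfl⟩
  have hreg : ∀ k, ∃ U : Matrix (Fin (k + 1)) (Fin (k + 1)) F, H10.IsIsom q U ∧
      (U - 1) ^ (k + 1) = 0 ∧ (U - 1) ^ k ≠ 0 := by
    intro k
    have hJ := (H67.jordanBlock_regular (F := F) (k + 1)).1
    obtain ⟨U, h1, h2⟩ := H67.exists_isIsom_unipotent (q := q) hJ
    refine ⟨U, h1, ?_, fun h => H67.jordanBlock_pow_ne_zero (K := F) k ?_⟩
    · rw [← H67.rank_eq_zero_iff', ← H67.rank_sub_one_pow_of_isConj h2, hJ, Matrix.rank_zero]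
    · rw [← H67.rank_eq_zero_iff', H67.rank_sub_one_pow_of_isConj h2, h, Matrix.rank_zero]
  obtain ⟨k, rfl⟩ : ∃ k, n = k + 2 := ⟨n - 2, by omega⟩
  obtain ⟨f1, -, f3, f4, -⟩ := H67.blockOne_facts (K := F) (n := k + 1) 0
  have f5 : H67.cjT q (H10.blockOne (0 : Matrix (Fin (k + 1)) (Fin (k + 1)) F)) =
      H10.blockOne 0 := by
    ext i j
    refine Fin.cases ?_ (fun i => ?_) i <;> refine Fin.cases ?_ (fun j => ?_) j <;>
      simp [H67.cjT_apply, H10.blockOne]
  constructor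
  · obtain ⟨U, hU0, hJ, hJ2⟩ := hreg (k + 1)
    obtain ⟨j, hj1, hj2⟩ := H67.exists_pow_dvd_orderOf_mk ρ hZ hρ p
      (u := H10.mkSU U hU0 (H67.det_eq_one_of_unipotent hJ)) hJ hJ2
    obtain ⟨d, -, hd⟩ := hgood 1 _ f1 f3 (f4 (by omega)) (by simp) f5
    refine H67.range_orderOf_prod_three (H67.pow_eq_one_zmod_pi m r) (QuotientGroup.mk t, _, d)
      (hd.trans (orderOf_snd_dvd_orderOf.trans orderOf_snd_dvd_orderOf)) fun x =>
      (hdich j hj1 x).imp_right fun h => h.trans ((hcop.pow_right j).mul_dvd_of_dvd_of_dvd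
        orderOf_fst_dvd_orderOf (hj2.trans (orderOf_fst_dvd_orderOf.trans orderOf_snd_dvd_orderOf)))
  · intro hne
    obtain ⟨U, hU0, hJ, hJ2⟩ := hreg k
    obtain ⟨-, g2, -, -, g5⟩ := H67.blockOne_facts (K := F) U
    have hJ' := (g5 k).2 hJ
    let u := H10.mkSU _ (H10.isIsom_blockOne_iff.2 hU0) (H67.det_eq_one_of_unipotent hJ')
    obtain ⟨j, hj1, hj2⟩ := H67.exists_pow_dvd_orderOf_mk ρ hZ hρ p (u := u) hJ' (e := k) (by
        cases k with
        | zero => simp
        | succ k => exact mt (g5 k).1 hJ2)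
    obtain ⟨d, hd1, hd⟩ := hgood u _ f1 f3 (f4 (by omega)) g2 f5
    have hj3 : k + 2 ≤ p ^ j := by
      have : k + 2 - 1 ≠ p ^ j := fun h => hne ⟨j, h⟩
      omega
    refine H67.range_orderOf_prod_two (H67.pow_eq_one_zmod_pi m r) (QuotientGroup.mk t, d)
      (hd.trans orderOf_snd_dvd_orderOf) fun x =>
      (hdich j hj3 x).imp_right fun h => h.trans ((hcop.pow_right j).mul_dvd_of_dvd_of_dvd
        orderOf_fst_dvd_orderOf (hj2.trans (hd1.trans orderOf_snd_dvd_orderOf)))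

end Cfsg.Agent.S2511
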