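import Cfsg.Statements.S2512
import Mathlib
import Cfsg.Agent.H67.SpSpec

set_option autoImplicit false
open Cfsg

namespace Cfsg.Agent.S2512

open Polynomial Module H67

section
variable {F : Type*} [Field F] [Fintype F] {Ω : Type*} [Field Ω] [Algebra F Ω]

local notation "φ" => fun x : Ω => x ^ Fintype.card F

theorem iter_eq (i : ℕ) (x : Ω) : (φ)^[i] x = x ^ Fintype.card F ^ i := by
  induction i with
  | zero => simp
  | succ i ih => rw [Function.iterate_succ_apply', ih, ← pow_mul, pow_succ]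

theorem iter_algebraMap (i : ℕ) (c : F) : (φ)^[i] (algebraMap F Ω c) = algebraMap F Ω c := by
  rw [iter_eq, ← map_pow, FiniteField.pow_card_pow]

theorem pow_eq_of_orbit {α x : Ω} {M i : ℕ} {c : F} (hc : c ^ 2 = 1)
    (h : α ^ M = algebraMap F Ω c) (hx : (φ)^[i] α = x ∨ (φ)^[i] α = x⁻¹) :
    x ^ M = algebraMap F Ω c := by
  have h1 : ((φ)^[i] α) ^ M = algebraMap F Ω c := by
    rw [iter_eq, ← pow_mul, mul_comm, pow_mul, h, ← iter_eq, iter_algebraMap]
  rcases hx with rfl | hx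
  · exact h1
  · rw [hx, inv_pow, inv_eq_iff_eq_inv] at h1
    rw [h1, ← map_inv₀]
    congr 1
    exact inv_eq_of_mul_eq_one_left (by rw [← sq, hc])

variable [IsAlgClosed Ω]

theorem sq_eq_one_of_iter {α : Ω} {i : ℕ} (h : ((φ)^[i] α) ^ 2 = 1) : α ^ 2 = 1 := by
  apply (frob_injective (F := F) (Ω := Ω)).iterate i
  rw [iter_eq] at h
  rw [iter_eq, iter_eq, one_pow, ← pow_mul, mul_comm, pow_mul, h]

theorem exists_torus (p : ℕ) [Fact p.Prime] [CharP F p] {n S : ℕ} (hn : 1 ≤ n) (hpS : ¬p ∣ S)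
    (hS : 2 < S) (h : ∀ δ : Ω, δ ^ S = 1 → (φ)^[n] δ = δ ∨ (φ)^[n] δ = δ⁻¹) :
    ∃ t : PSp n F, (orderOf t).Coprime p ∧ S ∣ 2 * orderOf t ∧
      ∀ α : Ω, α ^ S = 1 → ∃ c : F, c ^ 2 = 1 ∧ α ^ orderOf t = algebraMap F Ω c := by
  haveI : CharP Ω p := charP_of_injective_algebraMap (algebraMap F Ω).injective p
  haveI : NeZero (S : Ω) := ⟨by rwa [Ne, CharP.cast_eq_zero_iff Ω p]⟩
  haveI : NeZero S := ⟨by omega⟩
  obtain ⟨δ, hδ⟩ := HasEnoughRootsOfUnity.exists_primitiveRoot Ω S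
  have hδ0 : δ ≠ 0 := hδ.ne_zero (by omega)
  have hδ2 : δ ^ 2 ≠ 1 := fun h => by
    have := Nat.le_of_dvd two_pos (hδ.dvd_of_pow_eq_one _ h)
    omega
  set R : Multiset Ω := (Multiset.range n).map fun i => (φ)^[i] δ with hR
  have hR1 : δ ::ₘ R.map φ = (φ)^[n] δ ::ₘ R := by
    rw [hR, ← Multiset.map_cons (fun i => (φ)^[i] δ), ← Multiset.range_succ, Multiset.map_map]
    have : Multiset.range (n + 1) = 0 ::ₘ (Multiset.range n).map Nat.succ := by
      simp [Multiset.range, List.range_succ_eq_map]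
    rw [this, Multiset.map_cons, Multiset.map_map]
    simp only [Function.comp_def, Function.iterate_succ_apply']
    rfl
  have hs : (R + R.map fun x => x⁻¹).map φ = R + R.map fun x => x⁻¹ := by
    have h2 := congrArg (Multiset.map fun x : Ω => x⁻¹) hR1
    have h3 : (R.map fun x => x⁻¹).map φ = (R.map φ).map fun x => x⁻¹ := by
      simp only [Multiset.map_map, Function.comp_def, inv_pow]
    rw [Multiset.map_cons, Multiset.map_cons] at h2
    have h4 := congrArg₂ (· + ·) hR1 h2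
    simp only [Multiset.cons_add, Multiset.add_cons] at h4
    rw [Multiset.map_add, h3]
    rcases h δ hδ.pow_eq_one with h5 | h5
    · rw [h5] at h4
      simpa using h4
    · rw [h5, inv_inv, Multiset.cons_swap δ] at h4
      simpa using h4
  have hmem : ∀ x ∈ R + R.map fun x => x⁻¹, ∃ i, (φ)^[i] δ = x ∨ (φ)^[i] δ = x⁻¹ := by
    intro x hx
    rcases Multiset.mem_add.1 hx with hx | hx
    · obtain ⟨i, -, rfl⟩ := Multiset.mem_map.1 hx
      exact ⟨i, Or.inl rfl⟩
    · obtain ⟨y, hy, rfl⟩ := Multiset.mem_map.1 hx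
      obtain ⟨i, -, rfl⟩ := Multiset.mem_map.1 hy
      exact ⟨i, Or.inr (inv_inv _).symm⟩
  obtain ⟨A, hA1, hA2, hA3⟩ := exists_pres_ev_eq (F := F) (ι := Fin n ⊕ Fin n) true hs
    (by simp [add_comm]) (fun x hx => by
      obtain ⟨i, hi⟩ := hmem x hx
      have h0 : (φ)^[i] δ ≠ 0 := by rw [iter_eq]; exact pow_ne_zero _ hδ0
      refine ⟨?_, fun h2 => hδ2 (sq_eq_one_of_iter (F := F) (i := i) ?_)⟩
      · rintro rfl
        exact h0 (by simpa only [inv_zero, or_self] using hi)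
      · rcases hi with hi | hi <;> simp [hi, h2]) (by simp [hR])
  obtain ⟨T, hT⟩ := hA3.exists_sp (m := n) (by simp [two_mul])
  have hev : ev Ω T.1 = R + R.map fun x => x⁻¹ := by rw [← ev_of_sim hT, hA2]
  have hδR : δ ∈ R := Multiset.mem_map.2 ⟨0, Multiset.mem_range.2 (by omega), rfl⟩
  obtain ⟨c, hc⟩ := (orderOf_mk_dvd_iff (spHom n F) (sp_mem_center_iff hn) T _).1 dvd_rfl
  have e1 := pow_eq_of_mem_ev (Ω := Ω) hc (x := δ) (hev ▸ Multiset.mem_add.2 (Or.inl hδR))
  have e2 := pow_eq_of_mem_ev (Ω := Ω) hc (x := δ⁻¹)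
    (hev ▸ Multiset.mem_add.2 (Or.inr (Multiset.mem_map_of_mem _ hδR)))
  have hc2 : c ^ 2 = 1 := by
    apply (algebraMap F Ω).injective
    rw [map_pow, sq, map_one]
    nth_rewrite 1 [← e1]
    rw [← e2, ← mul_pow, mul_inv_cancel₀ hδ0, one_pow]
  refine ⟨QuotientGroup.mk T, ?_, ?_, fun α hα => ?_⟩
  · have hpS' : S.Coprime p := ((Nat.Prime.coprime_iff_not_dvd Fact.out).2 hpS).symm
    refine Nat.Coprime.coprime_dvd_left ?_ hpS'
    rw [orderOf_mk_dvd_iff (spHom n F) (sp_mem_center_iff hn)]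
    refine ⟨1, ?_⟩
    have h1 : A ^ S = (1 : F) • 1 := (IsSS_pow_eq_smul_iff (Ω := Ω) hA1 _ _).2 fun x hx => by
      obtain ⟨i, hi⟩ := hmem x (hA2 ▸ hx)
      exact pow_eq_of_orbit (by simp) (by simpa using hδ.pow_eq_one) hi
    obtain ⟨e, he⟩ := hT
    apply Matrix.toLin'.injective
    change Matrix.toLin' (T.1 ^ S) = _
    rw [Matrix.toLin'_pow, Sim.eq_conj e he]
    change (e.conjAlgEquiv F (Matrix.toLin' A)) ^ S = _
    rw [← map_pow, ← Matrix.toLin'_pow, h1]
    simp [Matrix.toLin'_one, ← End.one_eq_id]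
  · refine hδ.dvd_of_pow_eq_one _ ?_
    rw [mul_comm, pow_mul, e1, ← map_pow, hc2, map_one]
  · obtain ⟨k, -, rfl⟩ := hδ.eq_pow_of_pow_eq_one hα
    refine ⟨c ^ k, by rw [← pow_mul, mul_comm, pow_mul, hc2, one_pow], ?_⟩
    rw [← pow_mul, mul_comm, pow_mul, e1, map_pow]

theorem iterate_eq_or {s : Multiset Ω} (hs : s.map φ = s) (hs' : s.map (fun x => x⁻¹) = s)
    (hnd : s.Nodup) {n : ℕ} (hc : s.card = 2 * n) {α : Ω} (hα : α ∈ s) (h0 : α ≠ 0)
    (h : ∀ x ∈ s, ∃ i, (φ)^[i] α = x ∨ (φ)^[i] α = x⁻¹) :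
    (φ)^[n] α = α ∨ (α ^ 2 = 1 ∨ (φ)^[n] α = α⁻¹) := by
  classical
  have hinj := frob_injective (F := F) (Ω := Ω)
  have hp := mem_periodicPts_of_map_eq hinj hs hα
  have hinv : ∀ i (x : Ω), (φ)^[i] x⁻¹ = ((φ)^[i] x)⁻¹ := fun i x => by
    rw [iter_eq, iter_eq, inv_pow]
  by_cases hk : ∃ k, (φ)^[k] α = α⁻¹
  · right
    obtain ⟨k, hk⟩ := hk
    have h1 : s = orb φ α := (Multiset.Nodup.ext hnd (nodup_orb α)).2 fun x => by
      rw [mem_orb_iff hp]
      refine ⟨fun hx => ?_, ?_⟩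
      · obtain ⟨i, hi | hi⟩ := h x hx
        · exact ⟨i, hi⟩
        · exact ⟨i + k, by rw [Function.iterate_add_apply, hk, hinv, hi, inv_inv]⟩
      · rintro ⟨i, rfl⟩
        exact iterate_mem_of_map_eq hs hα i
    rw [h1, card_orb] at hc
    have h2 : Function.IsPeriodicPt φ (k + k) α := by
      change (φ)^[k + k] α = α
      rw [Function.iterate_add_apply, hk, hinv, hk, inv_inv]
    have h3 := h2.minimalPeriod_dvd
    rw [hc, ← two_mul, Nat.mul_dvd_mul_iff_left two_pos] at h3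
    obtain ⟨l, rfl⟩ := h3
    have h4 : Function.IsPeriodicPt φ (2 * n) α := hc ▸ Function.isPeriodicPt_minimalPeriod _ _
    rcases Nat.even_or_odd' l with ⟨l, rfl | rfl⟩
    · left
      have : (φ)^[n * (2 * l)] α = α := by
        rw [show n * (2 * l) = 2 * n * l by ring]; exact h4.mul_const l
      rw [this] at hk
      rw [sq]
      nth_rewrite 1 [hk]
      exact inv_mul_cancel₀ h0
    · right
      have : (φ)^[2 * n * l] α = α := h4.mul_const l
      rwa [show n * (2 * l + 1) = n + 2 * n * l by ring, Function.iterate_add_apply, this] at hk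
  · left
    push_neg at hk
    have h1 : s = orb φ α + (orb φ α).map fun x => x⁻¹ := by
      refine (Multiset.Nodup.ext hnd ?_).2 fun x => ?_
      · rw [Multiset.nodup_add]
        refine ⟨nodup_orb α, (nodup_orb α).map inv_injective, ?_⟩
        rw [Multiset.disjoint_left]
        intro x hx hy
        obtain ⟨y, hy', rfl⟩ := Multiset.mem_map.1 hy
        obtain ⟨i, hi⟩ := (mem_orb_iff hp _).1 hx
        obtain ⟨j, rfl⟩ := (mem_orb_iff hp _).1 hy'
        obtain ⟨d, hd, hd'⟩ := hp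
        apply hk (i + (d - 1) * j)
        apply hinj.iterate j
        rw [← Function.iterate_add_apply, show j + (i + (d - 1) * j) = i + d * j by
          obtain ⟨d, rfl⟩ := Nat.exists_eq_add_of_lt hd
          simp; ring, Function.iterate_add_apply, hinv, ← hi]
        exact congrArg _ (hd'.mul_const j)
      · rw [Multiset.mem_add, Multiset.mem_map, mem_orb_iff hp]
        refine ⟨fun hx => ?_, ?_⟩
        · obtain ⟨i, hi | hi⟩ := h x hx
          · exact Or.inl ⟨i, hi⟩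
          · exact Or.inr ⟨_, (mem_orb_iff hp _).2 ⟨i, hi⟩, inv_inv _⟩
        · rintro (⟨i, rfl⟩ | ⟨y, hy, rfl⟩)
          · exact iterate_mem_of_map_eq hs hα i
          · obtain ⟨i, rfl⟩ := (mem_orb_iff hp _).1 hy
            rw [← hs']
            exact Multiset.mem_map_of_mem _ (iterate_mem_of_map_eq hs hα i)
    rw [h1, Multiset.card_add, Multiset.card_map, card_orb] at hc
    have : n = Function.minimalPeriod φ α := by omega
    rw [this]
    exact Function.iterate_minimalPeriod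

theorem even_card_of_inv {s : Multiset Ω} (hs' : s.map (fun x => x⁻¹) = s) (hnd : s.Nodup)
    (h : ∀ x ∈ s, x ≠ 0 ∧ x ^ 2 ≠ 1) : Even s.card := by
  classical
  have := Finset.sum_involution (s := s.toFinset) (f := fun _ => (1 : ZMod 2)) (fun x _ => x⁻¹)
    (fun _ _ => rfl) (fun x hx _ hx' => by
      obtain ⟨h0, h1⟩ := h x (Multiset.mem_toFinset.1 hx)
      apply h1
      rw [sq]
      nth_rewrite 1 [← hx']
      exact inv_mul_cancel₀ h0)
    (fun x hx => by
      rw [Multiset.mem_toFinset] at hx ⊢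
      rw [← hs']
      exact Multiset.mem_map_of_mem _ hx) (fun _ _ => inv_inv _)
  rw [Finset.sum_const, nsmul_eq_mul, mul_one, ZMod.natCast_eq_zero_iff,
    Multiset.toFinset_card_of_nodup hnd] at this
  exact even_iff_two_dvd.2 this

theorem classify (p : ℕ) [Fact p.Prime] [CharP F p] (h2 : (2 : F) ≠ 0) {n : ℕ} (hn : 1 ≤ n)
    (a : PSp n F) : GoodOrd 2 a ∨ (∀ j, 2 * n ≤ p ^ j → orderOf a ∣ p ^ j) ∨
      ∃ α : Ω, α ≠ 0 ∧ ((φ)^[n] α = α ∨ (φ)^[n] α = α⁻¹) ∧
        ∀ (M : ℕ) (c : F), c ^ 2 = 1 → α ^ M = algebraMap F Ω c → orderOf a ∣ M := by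
  classical
  haveI : CharP Ω p := charP_of_injective_algebraMap (algebraMap F Ω).injective p
  have hinj := frob_injective (F := F) (Ω := Ω)
  obtain ⟨g, rfl⟩ := QuotientGroup.mk_surjective a
  have hcard : (ev Ω g.1).card = 2 * n := by rw [card_ev]; simp [two_mul]
  obtain ⟨α, hα⟩ : ∃ α, α ∈ ev Ω g.1 := Multiset.card_pos_iff_exists_mem.1 (by omega)
  have hinv := ev_map_inv_of_sp (Ω := Ω) g
  have hne : ∀ x ∈ ev Ω g.1, x ≠ 0 := fun x hx =>
    ne_zero_of_mem_ev ((Group.isUnit g).map (spHom n F)) hx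
  rcases exists_sym_idem_or (spAdj n F) spAdj_mul spAdj_spAdj spAdj_smul
    (mem_sp_iff_spAdj.1 g.2) hinv hα with ⟨E, h1, h0, h3, h4, h5⟩ | horb
  · exact Or.inl (goodOrd_of_idem h2 hn g h1 h0 h3 h4 h5)
  have hdvd := orderOf_mk_dvd_iff (spHom n F) (sp_mem_center_iff hn) g
  by_cases hα2 : α ^ 2 = 1
  · right; left
    intro j hj
    obtain ⟨c, hc, hc'⟩ : ∃ c : F, c ^ 2 = 1 ∧ α ^ 1 = algebraMap F Ω c := by
      rcases sq_eq_one_iff.1 hα2 with rfl | rfl
      · exact ⟨1, by simp, by simp⟩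
      · exact ⟨-1, by simp, by simp⟩
    have := pow_eq_smul_of_ev (Ω := Ω) p (A := g.1) (k := 1) (j := j) (c := c) (fun x hx => by
      obtain ⟨i, hi⟩ := horb x hx
      exact pow_eq_of_orbit hc hc' hi) (by simpa [two_mul] using hj)
    rw [one_mul] at this
    exact (hdvd _).2 ⟨_, this⟩
  set e := (ev Ω g.1).count α with he
  have hcount : ∀ x ∈ ev Ω g.1, (ev Ω g.1).count x = e := by
    intro x hx
    obtain ⟨i, hi | hi⟩ := horb x hx
    · rw [← hi, count_iterate hinj (ev_map_frob _)]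
    · rw [he, ← count_iterate hinj (ev_map_frob _) α i, hi]
      conv_rhs => rw [← hinv]
      rw [Multiset.count_map_eq_count' _ _ inv_injective]
  have hle : ∀ x, (ev Ω g.1).count x ≤ e := fun x => by
    by_cases hx : x ∈ ev Ω g.1
    · exact (hcount x hx).le
    · simp [Multiset.count_eq_zero_of_notMem hx]
  have he1 : 1 ≤ e := Multiset.one_le_count_iff_mem.2 hα
  rcases he1.eq_or_lt with he1 | he1
  · right; right
    have hnd : (ev Ω g.1).Nodup := Multiset.nodup_iff_count_le_one.2 fun x => he1 ▸ hle x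
    refine ⟨α, hne α hα, ?_, fun M c hc hM => ?_⟩
    · exact (iterate_eq_or (ev_map_frob _) hinv hnd hcard hα (hne α hα) horb).imp_right
        fun h => h.resolve_left hα2
    · have := pow_eq_smul_of_count (Ω := Ω) p (A := g.1) (k := M) (j := 0) (c := c)
        (fun x hx => by
          obtain ⟨i, hi⟩ := horb x hx
          exact pow_eq_of_orbit hc hM hi) (fun x => by rw [pow_zero, he1]; exact hle x)
      rw [pow_zero, mul_one] at this
      exact (hdvd _).2 ⟨_, this⟩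
  · left
    set O := (ev Ω g.1).dedup with hO
    have hdec : ev Ω g.1 = e • O := by
      ext x
      rw [Multiset.count_nsmul, hO, Multiset.count_dedup]
      split_ifs with hx
      · rw [hcount x hx, mul_one]
      · rw [Multiset.count_eq_zero_of_notMem hx, mul_zero]
    have hO1 : O.map φ = O := by
      rw [hO, ← Multiset.dedup_map_of_injective hinj, ev_map_frob]
    have hO2 : O.map (fun x => x⁻¹) = O := by
      rw [hO, ← Multiset.dedup_map_of_injective inv_injective, hinv]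
    have hO3 : ∀ x ∈ O, x ≠ 0 ∧ x ^ 2 ≠ 1 := fun x hx => by
      rw [hO, Multiset.mem_dedup] at hx
      refine ⟨hne x hx, fun h => hα2 ?_⟩
      obtain ⟨i, hi⟩ := horb x hx
      apply sq_eq_one_of_iter (F := F) (i := i)
      rcases hi with hi | hi <;> simp [hi, h]
    obtain ⟨i, hi⟩ := even_card_of_inv hO2 (Multiset.nodup_dedup _) hO3
    have hαO : α ∈ O := Multiset.mem_dedup.2 hα
    have hi0 : 0 < i := by
      have := Multiset.card_pos_iff_exists_mem.2 ⟨α, hαO⟩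
      omega
    have hni : n = e * i := by
      rw [hdec, Multiset.card_nsmul, hi] at hcard
      nlinarith
    obtain ⟨k, hk⟩ : ∃ k, (e - 1) * i = k + 1 :=
      ⟨(e - 1) * i - 1, by have := Nat.mul_pos (show 0 < e - 1 by omega) hi0; omega⟩
    have hk2 : n = i + (k + 1) := by
      rw [← hk, hni]
      obtain ⟨e', he'⟩ : ∃ e', e = e' + 1 := ⟨e - 1, by omega⟩
      rw [he', Nat.add_sub_cancel]; ring
    have hk3 : e - 1 ≤ k + 1 := hk ▸ Nat.le_mul_of_pos_right _ hi0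
    obtain ⟨A, hA1, hA2, hA3⟩ := exists_pres_ev_eq (F := F) (ι := Fin (i + i)) true hO1 hO2 hO3
      (by simp [hi])
    obtain ⟨U, hU1, hU2, hU3⟩ := exists_regular_alt' F k
    haveI : Nonempty (Fin (i + i)) := ⟨⟨0, by omega⟩⟩
    obtain ⟨g', ⟨d, hd1, hd2⟩, hg'⟩ := exists_sp_pair (m := n) h2 hA3 hU1 (by simp; omega)
    refine ⟨d, dvd_trans ?_ hd1, hd2⟩
    obtain ⟨c, hc⟩ := (orderOf_mk_dvd_iff (spHom n F) (sp_mem_center_iff hn) g' _).1 dvd_rfl
    obtain ⟨k1, k2⟩ := hg' _ _ hc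
    obtain ⟨rfl, j, hj1, M, hM⟩ := unip_pow_eq_smul p hU2 hU3 k2
    rw [hM] at k1 ⊢
    have k3 : A ^ (p ^ j * M) = (1 : F) • 1 := Matrix.toLin'.injective (by
      rw [Matrix.toLin'_pow, k1]; simp [Matrix.toLin'_one, ← End.one_eq_id])
    have k4 := pow_eq_of_mem_ev (Ω := Ω) k3 (hA2 ▸ hαO)
    have k5 : α ^ M = algebraMap F Ω 1 := by
      rw [map_one] at k4 ⊢
      have : (α ^ M - 1) ^ p ^ j = 0 := by
        rw [sub_pow_char_pow, ← pow_mul, mul_comm, k4, one_pow, sub_self]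
      exact sub_eq_zero.1 (pow_eq_zero_iff (pow_pos (Fact.out : p.Prime).pos j).ne' |>.1 this)
    have := pow_eq_smul_of_count (Ω := Ω) p (A := g.1) (k := M) (j := j) (c := 1)
      (fun x hx => by
        obtain ⟨i, hi⟩ := horb x hx
        exact pow_eq_of_orbit (by simp) k5 hi) (fun x => (hle x).trans (by omega))
    rw [mul_comm]
    exact (hdvd _).2 ⟨_, this⟩

end

/-- Let F be a finite field of odd order q = p^a, n ≥ 2 (with q ≥ 3 automatic), and L = PSp(2n, F). Then for every m the direct product L × L × L × (ℤ/2)^m has the same set of element orders as L × L × L; and if 2n − 1 is not a power of p, then already L × L × (ℤ/2)^m has the same set of element orders as L × L. -/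
theorem result {F : Type*} [Field F] [Fintype F] (p a n m : ℕ) (hp : p.Prime) (ha : 1 ≤ a) (hF : Fintype.card F = p ^ a) (hodd : Odd (Fintype.card F))
    (hn : 2 ≤ n) :
    Set.range (orderOf : Cfsg.PSp n F × Cfsg.PSp n F × Cfsg.PSp n F × Multiplicative (Fin m → ZMod 2) → ℕ) = Set.range (orderOf : Cfsg.PSp n F × Cfsg.PSp n F × Cfsg.PSp n F → ℕ) ∧
    ((¬ ∃ j : ℕ, 2 * n - 1 = p ^ j) →
      Set.range (orderOf : Cfsg.PSp n F × Cfsg.PSp n F × Multiplicative (Fin m → ZMod 2) → ℕ) = Set.range (orderOf : Cfsg.PSp n F × Cfsg.PSp n F → ℕ)) := by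
  classical
  haveI : Fact p.Prime := ⟨hp⟩
  haveI : CharP F p := charP_of_card_eq_prime_pow hF
  let Ω := AlgebraicClosure F
  have hp2 : Odd p := by
    rw [hF] at hodd
    exact (Nat.odd_pow_iff (by omega)).1 hodd
  have h2 : (2 : F) ≠ 0 := fun h => by
    have := (CharP.cast_eq_zero_iff F p 2).1 h
    rw [(Nat.prime_dvd_prime_iff_eq hp Nat.prime_two).1 this] at hp2
    exact absurd hp2 (by decide)
  set Q := Fintype.card F ^ n with hQ
  have hQ1 : Odd Q := hodd.pow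
  have hQ2 : 4 ≤ Q := by
    calc 4 = 2 ^ 2 := rfl
      _ ≤ 2 ^ n := Nat.pow_le_pow_right two_pos hn
      _ ≤ Q := Nat.pow_le_pow_left Fintype.one_lt_card n
  have hQ3 : p ∣ Q := (hF ▸ dvd_pow_self p (by omega)).trans (dvd_pow_self _ (by omega))
  have e1 : ∀ δ : Ω, δ ≠ 0 → (δ ^ (Q - 1) = 1 ↔
      (fun x : Ω => x ^ Fintype.card F)^[n] δ = δ) := fun δ h0 => by
    rw [iter_eq, ← hQ, ← mul_left_inj' h0, ← pow_succ, Nat.sub_add_cancel (by omega), one_mul]
  have e2 : ∀ δ : Ω, δ ≠ 0 → (δ ^ (Q + 1) = 1 ↔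
      (fun x : Ω => x ^ Fintype.card F)^[n] δ = δ⁻¹) := fun δ h0 => by
    rw [iter_eq, ← hQ, pow_succ, mul_eq_one_iff_eq_inv₀ h0]
  obtain ⟨t₁, c₁, d₁, k₁⟩ := exists_torus (F := F) (Ω := Ω) p (n := n) (S := Q - 1) (by omega)
    (fun h => hp.one_lt.ne' (Nat.dvd_one.1 (by
      have := Nat.dvd_sub hQ3 h
      rwa [show Q - (Q - 1) = 1 by omega] at this))) (by omega)
    fun δ hδ => Or.inl ((e1 δ (by rintro rfl; rw [zero_pow (by omega)] at hδ; simp at hδ)).1 hδ)
  obtain ⟨t₂, c₂, d₂, k₂⟩ := exists_torus (F := F) (Ω := Ω) p (n := n) (S := Q + 1) (by omega)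
    (fun h => hp.one_lt.ne' (Nat.dvd_one.1 ((Nat.dvd_add_right hQ3).1 h))) (by omega)
    fun δ hδ => Or.inr ((e2 δ (by rintro rfl; simp at hδ)).1 hδ)
  have hcl : ∀ x : PSp n F, H67.GoodOrd 2 x ∨ (∀ j, 2 * n ≤ p ^ j → orderOf x ∣ p ^ j) ∨
      orderOf x ∣ orderOf t₁ ∨ orderOf x ∣ orderOf t₂ := fun x =>
    (classify (Ω := Ω) p h2 (by omega) x).imp_right fun h => h.imp_right (by
      rintro ⟨α, h0, h | h, hα⟩
      · obtain ⟨c, hc, hc'⟩ := k₁ α ((e1 α h0).2 h)
        exact Or.inl (hα _ c hc hc')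
      · obtain ⟨c, hc, hc'⟩ := k₂ α ((e2 α h0).2 h)
        exact Or.inr (hα _ c hc hc'))
  obtain ⟨t, t', ht', hcl⟩ : ∃ t t' : PSp n F, 2 ∣ orderOf t' ∧ ∀ x : PSp n F, H67.GoodOrd 2 x ∨
      (∀ j, 2 * n ≤ p ^ j → orderOf x ∣ p ^ j) ∨ orderOf x ∣ orderOf t := by
    obtain ⟨r, hr⟩ := hQ1
    rcases Nat.even_or_odd' r with ⟨r, rfl | rfl⟩
    · have : 2 ∣ orderOf t₁ := by
        refine Nat.dvd_of_mul_dvd_mul_left two_pos (dvd_trans ?_ d₁)
        omega
      refine ⟨t₂, t₁, this, fun x => ?_⟩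
      rcases hcl x with h | h | h | h
      exacts [Or.inl h, Or.inr (Or.inl h), Or.inl ⟨t₁, h, this⟩, Or.inr (Or.inr h)]
    · have : 2 ∣ orderOf t₂ := by
        refine Nat.dvd_of_mul_dvd_mul_left two_pos (dvd_trans ?_ d₂)
        omega
      refine ⟨t₁, t₂, this, fun x => ?_⟩
      rcases hcl x with h | h | h | h
      exacts [Or.inl h, Or.inr (Or.inl h), Or.inr (Or.inr h), Or.inl ⟨t₂, h, this⟩]
  constructor
  · obtain ⟨k, rfl⟩ : ∃ k, n = k + 1 := ⟨n - 1, by omega⟩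
    obtain ⟨U, hU1, hU2, hU3⟩ := H67.exists_regular_alt' F k
    obtain ⟨u, e, he⟩ := hU1.exists_sp (m := k + 1) (by simp [two_mul])
    obtain ⟨c, hc⟩ := (H67.orderOf_mk_dvd_iff (H67.spHom _ F)
      (H67.sp_mem_center_iff (by omega)) u _).1 dvd_rfl
    obtain ⟨-, j, hj1, hj2⟩ := H67.unip_pow_eq_smul p (c := c)
      (M := orderOf (QuotientGroup.mk u : PSp (k + 1) F)) hU2 hU3 (by
      apply (e.conjAlgEquiv F).injective
      rw [map_pow, map_smul, map_one]
      change e.conj U ^ _ = _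
      rw [← H67.Sim.eq_conj e he, ← Matrix.toLin'_pow]
      change Matrix.toLin' (H67.spHom _ F u ^ _) = _
      rw [hc]
      simp [Matrix.toLin'_one, ← Module.End.one_eq_id])
    refine H67.range_orderOf_prod_three (H67.pow_eq_one_zmod_pi m 2) (t, QuotientGroup.mk u, t')
      (ht'.trans (orderOf_snd_dvd_orderOf.trans orderOf_snd_dvd_orderOf)) fun x =>
      (hcl x).imp_right fun h => h.elim (fun h => (h j (by omega)).trans (hj2.trans
        (orderOf_fst_dvd_orderOf.trans orderOf_snd_dvd_orderOf)))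
        fun h => h.trans orderOf_fst_dvd_orderOf
  · intro hne
    obtain ⟨k, rfl⟩ : ∃ k, n = k + 2 := ⟨n - 2, by omega⟩
    obtain ⟨U, hU1, hU2, hU3⟩ := H67.exists_regular_alt' F k
    obtain ⟨g, ⟨d, hd1, hd2⟩, hg⟩ := H67.exists_sp_pair (m := k + 2) h2 hU1
      (H67.pres_of_sp (m := 1) 1) (by simp; omega)
    obtain ⟨c, hc⟩ := (H67.orderOf_mk_dvd_iff (H67.spHom _ F)
      (H67.sp_mem_center_iff (by omega)) g _).1 dvd_rfl
    obtain ⟨-, j, hj1, hj2⟩ := H67.unip_pow_eq_smul p hU2 hU3 (hg _ _ hc).1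
    have hj3 : 2 * (k + 2) ≤ p ^ j := by
      have h3 : 2 * (k + 2) - 1 ≠ p ^ j := fun h => hne ⟨j, h⟩
      obtain ⟨r, hr⟩ : Odd (p ^ j) := hp2.pow
      omega
    refine H67.range_orderOf_prod_two (H67.pow_eq_one_zmod_pi m 2) (t, d)
      (hd2.trans orderOf_snd_dvd_orderOf) fun x =>
      (hcl x).imp_right fun h => h.elim (fun h => (h j hj3).trans (hj2.trans
        (hd1.trans orderOf_snd_dvd_orderOf))) fun h => h.trans orderOf_fst_dvd_orderOf

end Cfsg.Agent.S2512
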