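import Cfsg.Statements.S2513
import Mathlib
import Cfsg.Agent.H67.Spec
import Cfsg.Agent.H67.Transv

set_option autoImplicit false
open Cfsg

namespace Cfsg.Agent.S2513

open Polynomial

theorem range_subset {L : Type*} [Group L] [Finite L] {k l : ℕ} (w : Fin l → L)
    (h : ∀ a : L, orderOf a ∣ orderOf w) :
    Set.range (orderOf : (Fin k → L) → ℕ) ⊆ Set.range (orderOf : (Fin l → L) → ℕ) := by
  rintro _ ⟨x, rfl⟩
  refine H67.mem_range_orderOf_of_dvd w ?_
  rw [Pi.orderOf x]
  exact Finset.lcm_dvd fun i _ => h _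

theorem exists_extend {L : Type*} [Group L] {k l : ℕ} (hkl : k ≤ l) (w : Fin k → L) :
    ∃ w' : Fin l → L, orderOf w ∣ orderOf w' := by
  refine ⟨fun i => if h : (i : ℕ) < k then w ⟨i, h⟩ else 1, ?_⟩
  rw [Pi.orderOf w]
  refine Finset.lcm_dvd fun i _ => ?_
  refine dvd_trans ?_ (orderOf_apply_dvd_orderOf (Fin.castLE hkl i))
  simp

/-- Let F be the field with two elements, n ≥ 2, L = PSL(n, F) and k₀ = ⌊(n + 3)/2⌋. Then for every k ≥ k₀ the direct product of k copies of L has the same set of element orders as the direct product of k₀ copies of L. -/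
theorem result {F : Type*} [Field F] [Fintype F] (hF : Fintype.card F = 2) (n k : ℕ) (hn : 2 ≤ n) (hk : (n + 3) / 2 ≤ k) :
    Set.range (orderOf : (Fin k → Matrix.ProjectiveSpecialLinearGroup (Fin n) F) → ℕ) = Set.range (orderOf : (Fin ((n + 3) / 2) → Matrix.ProjectiveSpecialLinearGroup (Fin n) F) → ℕ) := by
  classical
  haveI : CharP F 2 := charP_of_card_eq_prime hF
  let Ω := AlgebraicClosure F
  haveI : CharP Ω 2 := charP_of_injective_algebraMap (algebraMap F Ω).injective 2
  have hF1 : ∀ c : F, c ≠ 0 → c = 1 := fun c hc => by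
    simpa [hF] using FiniteField.pow_card_sub_one_eq_one c hc
  let ρ : Matrix.SpecialLinearGroup (Fin n) F →* Matrix (Fin n) (Fin n) F :=
    { toFun := fun g => g.1, map_one' := rfl, map_mul' := fun _ _ => rfl }
  have hρ : Function.Injective ρ := Subtype.val_injective
  have hZ : ∀ g, g ∈ Subgroup.center _ ↔ ∃ c : F, ρ g = c • 1 := by
    intro g
    rw [Matrix.SpecialLinearGroup.mem_center_iff]
    constructor
    · rintro ⟨c, -, hc⟩
      exact ⟨c, by rw [Matrix.smul_one_eq_diagonal]; exact hc.symm⟩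
    · rintro ⟨c, hc⟩
      refine ⟨c, ?_, by rw [Matrix.scalar_apply, ← Matrix.smul_one_eq_diagonal]; exact hc.symm⟩
      have := g.2
      change (ρ g).det = 1 at this
      rwa [hc, Matrix.det_smul, Matrix.det_one, mul_one] at this
  have hsum : ∀ i : ℕ, ∑ j ∈ Finset.range i, ((Fintype.card F : ℕ) : ℤ) ^ j = ((2 ^ i - 1 : ℕ) : ℤ) := by
    intro i
    rw [hF, Nat.cast_sub Nat.one_le_two_pow]
    have := geom_sum_mul (2 : ℤ) i
    push_cast
    linear_combination this
  -- elements `t i` whose order is divisible by the exponent of the units of `F_(2^i)`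
  have ht : ∀ i, 1 ≤ i → i ≤ n → ∃ t : Matrix.ProjectiveSpecialLinearGroup (Fin n) F,
      (orderOf t).Coprime 2 ∧ ∀ x : Ω, x ^ (2 ^ i - 1) = 1 → x ^ orderOf t = 1 := by
    intro i hi hin
    obtain ⟨δ, hδ0, hδ1, hδ2, hδ3⟩ := H67.exists_universal (Ω := Ω) 2 (Q := (Fintype.card F : ℤ))
      (by rw [hF]) (n := i) hi
    have hδ4 : ∀ x : Ω, x ^ (2 ^ i - 1) = 1 → ∃ j : ℕ, δ ^ j = x := by
      intro x hx
      have hx0 : x ≠ 0 := by
        rintro rfl
        rw [zero_pow (Nat.sub_ne_zero_of_lt (Nat.one_lt_two_pow (by omega)))] at hx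
        exact zero_ne_one hx
      refine hδ3 x hx0 ?_
      rw [H67.prod_iterate_zpow _ _ hx0, hsum, zpow_natCast, hx]
    simp only [zpow_natCast] at hδ1 hδ2
    obtain ⟨T, hT1, hT2⟩ := H67.exists_isSS_ev_eq (ι := Fin n) (F := F)
      (s := (Multiset.range i).map (fun j => (fun y : Ω => y ^ Fintype.card F)^[j] δ) +
        Multiset.replicate (n - i) 1)
      (by rw [Multiset.map_add, H67.map_range_iterate hδ1]; simp) (by simp; omega)
    have hT3 : T.det = 1 := (algebraMap F Ω).injective (by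
      rw [← H67.prod_ev, hT2, Multiset.prod_add, hδ2, map_one]; simp)
    let t : Matrix.SpecialLinearGroup (Fin n) F := ⟨T, hT3⟩
    refine ⟨QuotientGroup.mk t, Nat.Coprime.coprime_dvd_left
      (orderOf_map_dvd (QuotientGroup.mk' _) t) (H66.IsSS.coprime_orderOf ρ hρ 2 hT1),
      fun x hx => ?_⟩
    obtain ⟨j, rfl⟩ := hδ4 x hx
    obtain ⟨c, hc⟩ := (H67.orderOf_mk_dvd_iff ρ hZ t _).1 dvd_rfl
    have h1 : δ ∈ H67.ev Ω (ρ t) := hT2 ▸ Multiset.mem_add.2
      (Or.inl (Multiset.mem_map.2 ⟨0, Multiset.mem_range.2 (by omega), rfl⟩))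
    have h2 := H67.pow_eq_of_mem_ev hc h1
    have h3 : c = 1 := hF1 c (by
      rintro rfl
      rw [map_zero] at h2
      exact pow_ne_zero _ hδ0 h2)
    rw [pow_right_comm, h2, h3, map_one, one_pow]
  choose! t ht1 ht2 using ht
  obtain ⟨n', rfl⟩ : ∃ k, n = k + 1 := ⟨n - 1, by omega⟩
  have hJ := (H67.jordanBlock_regular (F := F) (n' + 1)).1
  obtain ⟨j, hj1, hj2⟩ := H67.exists_pow_dvd_orderOf_mk ρ hZ hρ 2
    (u := ⟨_, H67.det_eq_one_of_unipotent hJ⟩) hJ (H67.jordanBlock_pow_ne_zero n')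
  set u : Matrix.ProjectiveSpecialLinearGroup (Fin (n' + 1)) F :=
    QuotientGroup.mk ⟨_, H67.det_eq_one_of_unipotent hJ⟩
  obtain ⟨l, hl⟩ : ∃ l, (n' + 1 + 3) / 2 = l + 1 := ⟨(n' + 1 + 3) / 2 - 1, by omega⟩
  let w0 : Fin l → Matrix.ProjectiveSpecialLinearGroup (Fin (n' + 1)) F :=
    fun i => t (n' + 1 - i)
  let w : Fin (l + 1) → Matrix.ProjectiveSpecialLinearGroup (Fin (n' + 1)) F := Fin.cons u w0
  have hw : ∀ a : Matrix.ProjectiveSpecialLinearGroup (Fin (n' + 1)) F, orderOf a ∣ orderOf w := by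
    intro a
    obtain ⟨g, rfl⟩ := QuotientGroup.mk_surjective a
    have h1 : (orderOf w0).Coprime 2 := by
      rw [Pi.orderOf]
      refine Nat.Coprime.coprime_dvd_left (Finset.lcm_dvd_prod _ _) (Nat.Coprime.prod_left
        fun i _ => ht1 _ (by omega) (by omega))
    have h2 : orderOf w0 * 2 ^ j ∣ orderOf w := by
      refine (h1.pow_right j).mul_dvd_of_dvd_of_dvd ?_
        (hj2.trans (orderOf_apply_dvd_orderOf (x := w) 0))
      rw [Pi.orderOf w0]
      exact Finset.lcm_dvd fun i _ => orderOf_apply_dvd_orderOf (x := w) i.succ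
    refine dvd_trans ?_ h2
    refine (H67.orderOf_mk_dvd_iff ρ hZ g _).2 ⟨_, H67.pow_eq_smul_of_ev (Ω := Ω) (c := 1) 2
      (fun x hx => ?_) (by rw [Fintype.card_fin]; omega)⟩
    set φ : Ω → Ω := fun y => y ^ Fintype.card F
    have hp := H67.mem_periodicPts_of_map_eq H67.frob_injective (H67.ev_map_frob _) hx
    have hd1 : 0 < Function.minimalPeriod φ x := Function.minimalPeriod_pos_of_mem_periodicPts hp
    have hd2 : Function.minimalPeriod φ x ≤ n' + 1 := by
      rw [← H67.card_orb, ← Fintype.card_fin (n' + 1), ← H67.card_ev Ω (ρ g)]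
      refine Multiset.card_le_card ((Multiset.le_iff_subset (H67.nodup_orb x)).2 fun y hy => ?_)
      obtain ⟨i, rfl⟩ := (H67.mem_orb_iff hp y).1 hy
      exact H67.iterate_mem_of_map_eq (H67.ev_map_frob _) hx i
    set d := Function.minimalPeriod φ x
    have h3 : φ^[(n' + 1) / d * d] x = x :=
      ((Function.isPeriodicPt_minimalPeriod φ x).const_mul _).eq
    have h4 := Nat.div_add_mod (n' + 1) d
    have h5 := Nat.mod_lt (n' + 1) hd1
    have h6 : d ≤ (n' + 1) / d * d := Nat.le_mul_of_pos_left d (Nat.div_pos hd2 hd1)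
    rw [mul_comm] at h4
    set i := (n' + 1) / d * d
    have h7 : x ^ (2 ^ i - 1) = 1 := by
      rw [pow_iterate, hF] at h3
      have hx0 := H67.ne_zero_of_mem_ev ((Group.isUnit g).map ρ) hx
      apply mul_right_cancel₀ hx0
      rw [← pow_succ, Nat.sub_add_cancel Nat.one_le_two_pow, one_mul]
      exact h3
    have h8 := ht2 i (by omega) (by omega) x h7
    obtain ⟨s, hs⟩ : orderOf (t i) ∣ orderOf w0 := by
      have := orderOf_apply_dvd_orderOf (x := w0) ⟨n' + 1 - i, by omega⟩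
      simp only [w0] at this
      rwa [show n' + 1 - (n' + 1 - i) = i by omega] at this
    rw [hs, pow_mul, h8, one_pow, map_one]
  rw [hl] at hk ⊢
  obtain ⟨w', hw'⟩ := exists_extend hk w
  exact Set.Subset.antisymm (range_subset w hw) (range_subset w' fun a => (hw a).trans hw')

end Cfsg.Agent.S2513
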