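import Cfsg.Statements.S2514
import Mathlib

set_option autoImplicit false
open Cfsg

namespace Cfsg.Agent.S2514

theorem exists_max {G : Type*} [Group G] [Finite G] (g : G) :
    ∃ n ∈ {n : ℕ | n ∈ Set.range (orderOf : G → ℕ) ∧ ∀ m ∈ Set.range (orderOf : G → ℕ), n ∣ m → m = n},
      orderOf g ∣ n := by
  have hfin : {x : G | orderOf g ∣ orderOf x}.Finite := Set.toFinite _
  obtain ⟨x, hx, hmax⟩ := Set.exists_max_image _ (orderOf : G → ℕ) hfin ⟨g, dvd_rfl⟩
  refine ⟨orderOf x, ⟨⟨x, rfl⟩, ?_⟩, hx⟩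
  rintro _ ⟨y, rfl⟩ hy
  exact le_antisymm (hmax y (dvd_trans hx hy)) (Nat.le_of_dvd (orderOf_pos y) hy)

theorem mem_range_of_dvd {G : Type*} [Group G] [Finite G] (g : G) (d : ℕ) (hd : d ∣ orderOf g) :
    d ∈ Set.range (orderOf : G → ℕ) :=
  ⟨g ^ (orderOf g / d), orderOf_pow_orderOf_div (orderOf_pos g).ne' hd⟩

theorem dvd_pi {ι : Type*} {G : Type*} [Group G] (x : ι → G) (i : ι) : orderOf (x i) ∣ orderOf x :=
  orderOf_map_dvd (Pi.evalMonoidHom (fun _ => G) i) x

theorem pi_dvd {ι : Type*} {G : Type*} [Group G] (x : ι → G) (N : ℕ)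
    (h : ∀ i, orderOf (x i) ∣ N) : orderOf x ∣ N := by
  rw [orderOf_dvd_iff_pow_eq_one]
  ext i
  exact orderOf_dvd_iff_pow_eq_one.1 (h i)


/-- For a finite group X write μ(X) for the set of element orders of X that are maximal under divisibility. Let G and H be finite groups and k ≥ 1 such that μ(H) ⊆ μ(G) and μ(G) has fewer than k elements outside μ(H). Then the direct product of k copies of G has the same set of element orders as the direct product of k − 1 copies of G with H. -/
theorem result {G H : Type*} [Group G] [Finite G] [Group H] [Finite H] (k : ℕ) (hk : 1 ≤ k)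
    (hsub : {n : ℕ | n ∈ Set.range (orderOf : H → ℕ) ∧ ∀ m ∈ Set.range (orderOf : H → ℕ), n ∣ m → m = n} ⊆ {n : ℕ | n ∈ Set.range (orderOf : G → ℕ) ∧ ∀ m ∈ Set.range (orderOf : G → ℕ), n ∣ m → m = n})
    (hfew : ({n : ℕ | n ∈ Set.range (orderOf : G → ℕ) ∧ ∀ m ∈ Set.range (orderOf : G → ℕ), n ∣ m → m = n} \ {n : ℕ | n ∈ Set.range (orderOf : H → ℕ) ∧ ∀ m ∈ Set.range (orderOf : H → ℕ), n ∣ m → m = n}).ncard < k) :
    Set.range (orderOf : (Fin k → G) → ℕ) = Set.range (orderOf : (Fin (k - 1) → G) × H → ℕ) := by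
  classical
  obtain ⟨k, rfl⟩ : ∃ j, k = j + 1 := ⟨k - 1, by omega⟩
  change Set.range (orderOf : (Fin (k + 1) → G) → ℕ) = Set.range (orderOf : (Fin k → G) × H → ℕ)
  set MG := {n : ℕ | n ∈ Set.range (orderOf : G → ℕ) ∧ ∀ m ∈ Set.range (orderOf : G → ℕ), n ∣ m → m = n} with hMG
  set MH := {n : ℕ | n ∈ Set.range (orderOf : H → ℕ) ∧ ∀ m ∈ Set.range (orderOf : H → ℕ), n ∣ m → m = n} with hMH
  apply Set.Subset.antisymm
  · rintro _ ⟨x, rfl⟩
    choose m hm hdvd using fun i => exists_max (x i)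
    choose y hy using fun i => (hm i).1
    by_cases hex : ∃ i, m i ∈ MH
    · obtain ⟨i, hi⟩ := hex
      obtain ⟨h, hh⟩ := hi.1
      refine mem_range_of_dvd ((fun j => y (i.succAbove j), h) : (Fin k → G) × H) _ ?_
      apply pi_dvd
      intro l
      rw [Prod.orderOf]
      refine (hdvd l).trans ?_
      rcases Fin.eq_self_or_eq_succAbove i l with rfl | ⟨j, rfl⟩
      · rw [← hh]
        exact Nat.dvd_lcm_right _ _
      · rw [← hy]
        exact (dvd_pi (fun j => y (i.succAbove j)) j).trans (Nat.dvd_lcm_left _ _)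
    · push Not at hex
      have hni : ¬ Function.Injective m := by
        intro hinj
        have h1 : Set.range m ⊆ MG \ MH := by
          rintro _ ⟨i, rfl⟩
          exact ⟨hm i, hex i⟩
        have hfin : (MG \ MH).Finite :=
          ((Set.finite_range (orderOf : G → ℕ)).subset (fun n hn => hn.1)).subset Set.diff_subset
        have h2 := Set.ncard_le_ncard h1 hfin
        rw [Set.ncard_range_of_injective hinj] at h2
        simp at h2
        omega
      rw [Function.not_injective_iff] at hni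
      obtain ⟨i, i', hii', hne⟩ := hni
      obtain ⟨j', rfl⟩ := Fin.exists_succAbove_eq hne.symm
      refine mem_range_of_dvd ((fun j => y (i.succAbove j), 1) : (Fin k → G) × H) _ ?_
      apply pi_dvd
      intro l
      rw [Prod.orderOf]
      refine (hdvd l).trans ?_
      rcases Fin.eq_self_or_eq_succAbove i l with rfl | ⟨j, rfl⟩
      · rw [hii', ← hy]
        exact (dvd_pi (fun j => y (l.succAbove j)) j').trans (Nat.dvd_lcm_left _ _)
      · rw [← hy]
        exact (dvd_pi (fun j => y (i.succAbove j)) j).trans (Nat.dvd_lcm_left _ _)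
  · rintro _ ⟨⟨x, h⟩, rfl⟩
    obtain ⟨n, hn, hd⟩ := exists_max h
    obtain ⟨g, hg⟩ := (hsub hn).1
    refine mem_range_of_dvd (Fin.cons g x : Fin (k + 1) → G) _ ?_
    rw [Prod.orderOf]
    apply Nat.lcm_dvd
    · apply pi_dvd
      intro j
      exact dvd_pi (Fin.cons g x : Fin (k + 1) → G) j.succ
    · refine hd.trans ?_
      rw [← hg]
      exact dvd_pi (Fin.cons g x : Fin (k + 1) → G) 0

end Cfsg.Agent.S2514
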