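import Cfsg.Statements.S2516
import Mathlib

set_option autoImplicit false
open Cfsg

namespace Cfsg.Agent.S2516

theorem orderOf_eq_mul {H G : Type*} [Group H] [Group G] (π : H →* G) (x : H)
    (hk : 0 < orderOf (π x)) (hfin : IsOfFinOrder x) :
    orderOf x = orderOf (x ^ orderOf (π x)) * orderOf (π x) := by
  have hd : orderOf (π x) ∣ orderOf x := orderOf_map_dvd π x
  rw [orderOf_pow_of_dvd hk.ne' hd, Nat.div_mul_cancel hd]


/-- Let F be a field of characteristic p > 0, V a non-zero finite-dimensional F-vector space, G a finite group and ρ a representation of G on V; form the semidirect product V ⋊ G. For g ∈ G of order k, the coset Vg contains an element of order pk if and only if the minimal polynomial of ρ(g) does not divide 1 + X + ⋯ + X^(k−1). -/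
theorem result {F : Type*} [Field F] (p : ℕ) [Fact p.Prime] [CharP F p] {V : Type*} [AddCommGroup V] [Module F V] [FiniteDimensional F V] [Nontrivial V]
    {G : Type*} [Group G] [Finite G] (ρ : Representation F G V) (g : G) :
    (∃ x : Multiplicative V ⋊[(MulAutMultiplicative V).symm.toMonoidHom.comp
        ((DistribMulAction.toAddAut ((V →ₗ[F] V)ˣ) V).comp ρ.asGroupHom)] G,
        x.right = g ∧ orderOf x = p * orderOf g) ↔
      ¬ (minpoly F (ρ g) ∣ ∑ i ∈ Finset.range (orderOf g), (Polynomial.X : Polynomial F) ^ i) := by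
  classical
  have hp : p.Prime := Fact.out
  set φ := (MulAutMultiplicative V).symm.toMonoidHom.comp
        ((DistribMulAction.toAddAut ((V →ₗ[F] V)ˣ) V).comp ρ.asGroupHom) with hφ
  have hφa : ∀ (h : G) (v : Multiplicative V),
      φ h v = Multiplicative.ofAdd (ρ h (Multiplicative.toAdd v)) := by
    intro h v
    rfl
  have hpow : ∀ (x : Multiplicative V ⋊[φ] G) (j : ℕ),
      Multiplicative.toAdd (x ^ j).left =
        (∑ i ∈ Finset.range j, (ρ x.right) ^ i) (Multiplicative.toAdd x.left) := by
    intro x j
    induction j with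
    | zero => simp
    | succ j ih =>
      rw [pow_succ, SemidirectProduct.mul_left, toAdd_mul, ih, hφa, Finset.sum_range_succ,
        LinearMap.add_apply, toAdd_ofAdd]
      congr 2
      rw [← map_pow]
      congr 1
      exact map_pow (SemidirectProduct.rightHom (φ := φ)) x j
  have hk : 0 < orderOf g := orderOf_pos g
  have hN : (minpoly F (ρ g) ∣ ∑ i ∈ Finset.range (orderOf g), (Polynomial.X : Polynomial F) ^ i) ↔
      (∑ i ∈ Finset.range (orderOf g), (ρ g) ^ i) = 0 := by
    rw [minpoly.dvd_iff]
    simp [map_sum]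
  have hinl : ∀ (x : Multiplicative V ⋊[φ] G), x.right = g →
      x ^ orderOf g = SemidirectProduct.inl (Multiplicative.ofAdd
        ((∑ i ∈ Finset.range (orderOf g), (ρ g) ^ i) (Multiplicative.toAdd x.left))) := by
    intro x hx
    ext
    · rw [SemidirectProduct.left_inl, toAdd_ofAdd, hpow, hx]
    · rw [SemidirectProduct.right_inl]
      have := map_pow (SemidirectProduct.rightHom (φ := φ)) x (orderOf g)
      rw [SemidirectProduct.rightHom_eq_right] at this
      rw [this, hx, pow_orderOf_eq_one]
  have hpv : ∀ v : V, (Multiplicative.ofAdd v) ^ p = 1 := by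
    intro v
    rw [← ofAdd_nsmul, ← Nat.cast_smul_eq_nsmul F, CharP.cast_eq_zero, zero_smul, ofAdd_zero]
  rw [hN]
  constructor
  · rintro ⟨x, hx, hord⟩ h0
    have h1 := hinl x hx
    rw [h0, LinearMap.zero_apply, ofAdd_zero, map_one] at h1
    have h2 := Nat.le_of_dvd hk (orderOf_dvd_of_pow_eq_one h1)
    rw [hord] at h2
    have := hp.two_le
    nlinarith
  · intro h0
    obtain ⟨v, hv⟩ : ∃ v, (∑ i ∈ Finset.range (orderOf g), (ρ g) ^ i) v ≠ 0 := by
      by_contra hcon
      push Not at hcon
      exact h0 (LinearMap.ext hcon)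
    refine ⟨⟨Multiplicative.ofAdd v, g⟩, rfl, ?_⟩
    set x : Multiplicative V ⋊[φ] G := ⟨Multiplicative.ofAdd v, g⟩ with hx
    have h1 := hinl x rfl
    have h2 : orderOf (x ^ orderOf g) = p := by
      rw [h1, orderOf_injective _ SemidirectProduct.inl_injective]
      apply orderOf_eq_prime (hpv _)
      intro h
      exact hv (ofAdd_eq_one.1 h)
    have hfin : IsOfFinOrder x := by
      refine IsOfFinOrder.of_pow (n := orderOf g) ?_ hk.ne'
      rw [← orderOf_pos_iff, h2]
      exact hp.pos
    have h3 := orderOf_eq_mul (SemidirectProduct.rightHom (φ := φ)) x hk hfin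
    change orderOf x = orderOf (x ^ orderOf g) * orderOf g at h3
    rw [h3, h2]

end Cfsg.Agent.S2516
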