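import Cfsg.Statements.S2519
import Cfsg.Agent.H37.SpG2

set_option autoImplicit false
open Cfsg

namespace Cfsg.Agent.S2519

theorem max_eq {R S : Set ℕ} (h1 : ∀ n ∈ R, ∃ m ∈ S, n ∣ m) (h2 : S ⊆ R) (h3 : ∀ m ∈ S, ∀ n ∈ S, m ∣ n → m = n) :
    {n | n ∈ R ∧ ∀ m ∈ R, n ∣ m → m = n} = S := by
  refine Set.Subset.antisymm (fun n hn => ?_) fun n hn => ⟨h2 hn, fun m hm h => ?_⟩
  · obtain ⟨m, hm, h⟩ := h1 n hn.1
    exact hn.2 m (h2 hm) h ▸ hm
  · obtain ⟨k, hk, h'⟩ := h1 m hm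
    exact Nat.dvd_antisymm (h3 n hn k hk (h.trans h') ▸ h') h

theorem anti {p q : ℤ} (hp : Prime p) (h0 : 0 < p) (hq : p ∣ q) (h5 : 5 ≤ q) {m n : ℤ}
    (hm : m ∈ [p * (q + 1), p * (q - 1), p * p, q ^ 2 - 1, q ^ 2 + q + 1, q ^ 2 - q + 1])
    (hn : n ∈ [p * (q + 1), p * (q - 1), p * p, q ^ 2 - 1, q ^ 2 + q + 1, q ^ 2 - q + 1]) (h : m ∣ n) : m = n := by
  have a0 : ∀ {x : ℤ}, p ∣ x + 1 → p ∣ x → False := fun a b => hp.not_dvd_one ((dvd_add_right b).1 a)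
  have a1 : ¬ p ∣ q + 1 := fun h => a0 h hq
  have a2 : ¬ p ∣ q - 1 := fun h => a0 (by simpa using hq) h
  have a3 : ¬ p ∣ q ^ 2 - 1 := fun h => a0 (by simpa using hq.pow two_ne_zero) h
  have a4 : ¬ p ∣ q ^ 2 + q + 1 := fun h => a0 h ((hq.pow two_ne_zero).add hq)
  have a5 : ¬ p ∣ q ^ 2 - q + 1 := fun h => a0 h ((hq.pow two_ne_zero).sub hq)
  have b0 : ∀ {x y : ℤ}, ¬ p ∣ x → x ∣ p * y → x ∣ y := fun a b =>
    (hp.coprime_iff_not_dvd.2 a).symm.dvd_of_dvd_mul_left b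
  have b1 : ∀ {x : ℤ}, ¬ p ∣ x → x ∣ p → x ≤ 1 := fun a b => Int.le_of_dvd one_pos (b0 a (by simpa using b))
  have b2 : ∀ {x y : ℤ}, p * x ∣ p * y → x ∣ y := (mul_dvd_mul_iff_left h0.ne').1
  have b3 : ∀ {x y : ℤ}, x ∣ y → x < y → x ≤ y - x := fun a b => Int.le_of_dvd (by omega) (a.sub dvd_rfl)
  have b4 : ∀ {x y : ℤ}, x ∣ y → 0 < y → x ≤ y := fun a b => Int.le_of_dvd b a
  simp only [List.mem_cons, List.not_mem_nil, or_false] at hm hn
  rcases hm with rfl | rfl | rfl | rfl | rfl | rfl <;> rcases hn with rfl | rfl | rfl | rfl | rfl | rfl <;>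
    first
    | rfl
    | exact absurd ((dvd_mul_right _ _).trans h) ‹_›
    | exact absurd (b2 h) ‹_›
    | (have := b1 ‹_› (b2 h); omega)
    | (have := b1 ‹_› (b0 ‹_› h); nlinarith)
    | (have := b4 (b0 ‹_› h) (by omega); nlinarith)
    | (have := b4 (b2 h) (by omega); omega)
    | (have := b3 (b2 h) (by omega); omega)
    | (have := b4 h (by nlinarith); nlinarith)
    | (have := b3 h (by omega); nlinarith)

/-- Let F be a finite field of odd order q = p^a ≥ 5. The element orders of the Chevalley group G₂(F) that are maximal under divisibility are exactly p(q + 1), p(q − 1), q² − 1, q² + q + 1, q² − q + 1, together with p² when p is 3 or 5. -/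
theorem result {F : Type*} [Field F] [Fintype F] (p a : ℕ) (hp : p.Prime) (hp2 : p ≠ 2) (ha : 1 ≤ a) (hF : Fintype.card F = p ^ a) (hq5 : 5 ≤ Fintype.card F) :
    {n : ℕ | n ∈ Set.range (orderOf : ↥(Cfsg.Lie.chevG2.group F) → ℕ) ∧ ∀ m ∈ Set.range (orderOf : ↥(Cfsg.Lie.chevG2.group F) → ℕ), n ∣ m → m = n} =
      ({p * (p ^ a + 1), p * (p ^ a - 1), p ^ (2 * a) - 1, p ^ (2 * a) + p ^ a + 1, p ^ (2 * a) - p ^ a + 1} : Set ℕ) ∪
        (if p = 3 ∨ p = 5 then ({p ^ 2} : Set ℕ) else ∅) := by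
  obtain ⟨_⟩ := H37.nonempty_chev (D := Cfsg.Lie.chevG2) (by simp)
  have := Fact.mk hp
  have := charP_of_card_eq_prime_pow hF
  rw [hF] at hq5
  rw [← Nat.card_eq_fintype_card] at hF
  have h1 : 1 ≤ p ^ a := by omega
  have h2 : p ^ a ≤ p ^ (2 * a) := Nat.pow_le_pow_right hp.pos (by omega)
  have h3 : 3 ≤ p := by have := hp.two_le; omega
  have e1 : ((p ^ a - 1 : ℕ) : ℤ) = Nat.card F - 1 := by rw [hF]; push_cast [h1]; ring
  have e2 : ((p ^ a + 1 : ℕ) : ℤ) = Nat.card F + 1 := by rw [hF]; push_cast; ring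
  have e3 : ((p ^ (2 * a) - 1 : ℕ) : ℤ) = Nat.card F ^ 2 - 1 := by rw [hF]; push_cast [h1.trans h2]; ring
  have e4 : ((p ^ (2 * a) + p ^ a + 1 : ℕ) : ℤ) = Nat.card F ^ 2 + Nat.card F + 1 := by rw [hF]; push_cast; ring
  have e5 : ((p ^ (2 * a) - p ^ a + 1 : ℕ) : ℤ) = Nat.card F ^ 2 - Nat.card F + 1 := by rw [hF]; push_cast [h2]; ring
  have hq : (p : ℤ) ∣ Nat.card F := by rw [hF]; exact_mod_cast dvd_pow_self p (by omega)
  refine max_eq ?_ ?_ fun m hm n hn h => ?_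
  · rintro _ ⟨x, rfl⟩
    have key : ∀ n, 6 ≤ p ^ n → (orderOf x ∣ p ^ n → orderOf x ∣ p * (p ^ a + 1) ∨
        (p = 3 ∨ p = 5) ∧ orderOf x ∣ p ^ 2) → _ := fun n hn h => by
      have := H37.orderOf_dvd_G2 F p x hn (b := 1) (by simpa using h3)
      rw [← e3, ← e4, ← e5, ← e1, ← e2, ← Nat.cast_mul, ← Nat.cast_mul] at this
      simp only [Int.natCast_dvd_natCast] at this
      change ∃ m ∈ ({p * (p ^ a + 1), p * (p ^ a - 1), p ^ (2 * a) - 1, p ^ (2 * a) + p ^ a + 1,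
        p ^ (2 * a) - p ^ a + 1} : Set ℕ) ∪ (if p = 3 ∨ p = 5 then ({p ^ 2} : Set ℕ) else ∅), orderOf x ∣ m
      rcases this with h' | h' | h' | h' | h' | h' | ⟨h0, h'⟩
      iterate 5 exact ⟨_, by simp, h'⟩
      · rcases h h' with h' | ⟨h0, h'⟩
        · exact ⟨_, by simp, h'⟩
        · exact ⟨_, by simp [h0], h'⟩
      · rw [pow_one, mul_comm] at h'
        have h4 : ¬ 3 ∣ p ^ a := fun h => h0 ((Nat.prime_dvd_prime_iff_eq Nat.prime_three hp).1
          (Nat.prime_three.dvd_of_dvd_pow h)).symm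
        rcases (by omega : 3 ∣ p ^ a + 1 ∨ 3 ∣ p ^ a - 1) with h | h <;>
          exact ⟨_, by simp, h'.trans (Nat.mul_dvd_mul_left p h)⟩
    by_cases h : p = 3 ∨ p = 5
    · exact key 2 (by nlinarith) fun h' => .inr ⟨h, h'⟩
    · refine key 1 ?_ fun h' => .inl (h'.trans (by simp))
      have : p ≠ 4 := by rintro rfl; exact absurd hp (by decide)
      rw [pow_one]; omega
  · rintro _ ((rfl | rfl | rfl | rfl | rfl) | h)
    · exact H37.exists_mixed_G2 F p (.inr e2)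
    · exact H37.exists_mixed_G2 F p (.inl e1)
    · exact H37.exists_orderOf_G2 F p (.inl e3)
    · exact H37.exists_orderOf_G2 F p (.inr (.inl e4))
    · exact H37.exists_orderOf_G2 F p (.inr (.inr e5))
    · split_ifs at h with h0
      · obtain rfl := h
        rcases h0 with rfl | rfl <;> exact H37.exists_unip_G2 F _ (n := 1) (by decide) (by decide +kernel)
      · exact h.elim
  · have key : ∀ m ∈ ({p * (p ^ a + 1), p * (p ^ a - 1), p ^ (2 * a) - 1, p ^ (2 * a) + p ^ a + 1,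
        p ^ (2 * a) - p ^ a + 1} : Set ℕ) ∪ (if p = 3 ∨ p = 5 then ({p ^ 2} : Set ℕ) else ∅), (m : ℤ) ∈
        [(p : ℤ) * (Nat.card F + 1), p * (Nat.card F - 1), p * p, Nat.card F ^ 2 - 1,
          Nat.card F ^ 2 + Nat.card F + 1, Nat.card F ^ 2 - Nat.card F + 1] := by
      rw [← e3, ← e4, ← e5, ← e1, ← e2]
      rintro _ ((rfl | rfl | rfl | rfl | rfl) | h)
      iterate 5 simp only [Nat.cast_mul, List.mem_cons, true_or, or_true]
      split_ifs at h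
      · obtain rfl := h
        simp [sq]
      · exact h.elim
    exact_mod_cast anti (Nat.prime_iff_prime_int.1 hp) (by omega) hq (by rw [hF]; exact_mod_cast hq5) (key m hm)
      (key n hn) (Int.natCast_dvd_natCast.2 h)

end Cfsg.Agent.S2519
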