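import Cfsg.Statements.S2520
import Cfsg.Agent.H37.SpG2

set_option autoImplicit false
open Cfsg

namespace Cfsg.Agent.S2520

/-- Let F be a finite field with q = 2^a ≥ 4 elements and G₂(F) the Chevalley group of type G₂ over it. Every element order of G₂(F) maximal under divisibility lies in the set {8, 12, 2(q + 1), 2(q − 1), q² − 1, q² + q + 1, q² − q + 1}, and every member of that set is an element order of G₂(F). -/
theorem result {F : Type*} [Field F] [Fintype F] (a : ℕ) (ha : 2 ≤ a) (hF : Fintype.card F = 2 ^ a) :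
    {n : ℕ | n ∈ Set.range (orderOf : ↥(Cfsg.Lie.chevG2.group F) → ℕ) ∧ ∀ m ∈ Set.range (orderOf : ↥(Cfsg.Lie.chevG2.group F) → ℕ), n ∣ m → m = n} ⊆ ({8, 12, 2 * (2 ^ a + 1), 2 * (2 ^ a - 1), 2 ^ (2 * a) - 1, 2 ^ (2 * a) + 2 ^ a + 1, 2 ^ (2 * a) - 2 ^ a + 1} : Set ℕ) ∧
    ({8, 12, 2 * (2 ^ a + 1), 2 * (2 ^ a - 1), 2 ^ (2 * a) - 1, 2 ^ (2 * a) + 2 ^ a + 1, 2 ^ (2 * a) - 2 ^ a + 1} : Set ℕ) ⊆ Set.range (orderOf : ↥(Cfsg.Lie.chevG2.group F) → ℕ) := by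
  obtain ⟨_⟩ := H37.nonempty_chev (D := Cfsg.Lie.chevG2) (by simp)
  have := charP_of_card_eq_prime_pow hF
  rw [← Nat.card_eq_fintype_card] at hF
  have h1 : 1 ≤ 2 ^ a := Nat.one_le_two_pow
  have h2 : 2 ^ a ≤ 2 ^ (2 * a) := Nat.pow_le_pow_right (by omega) (by omega)
  have e1 : ((2 ^ a - 1 : ℕ) : ℤ) = Nat.card F - 1 := by rw [hF]; push_cast [h1]; ring
  have e2 : ((2 ^ a + 1 : ℕ) : ℤ) = Nat.card F + 1 := by rw [hF]; push_cast; ring
  have e3 : ((2 ^ (2 * a) - 1 : ℕ) : ℤ) = Nat.card F ^ 2 - 1 := by rw [hF]; push_cast [h1.trans h2]; ring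
  have e4 : ((2 ^ (2 * a) + 2 ^ a + 1 : ℕ) : ℤ) = Nat.card F ^ 2 + Nat.card F + 1 := by rw [hF]; push_cast; ring
  have e5 : ((2 ^ (2 * a) - 2 ^ a + 1 : ℕ) : ℤ) = Nat.card F ^ 2 - Nat.card F + 1 := by rw [hF]; push_cast [h2]; ring
  refine (fun (a b : Prop) (hb : b) (h : b → a) => (⟨h hb, hb⟩ : a ∧ b)) _ _ ?_ fun h => ?_
  · rintro _ (rfl | rfl | rfl | rfl | rfl | rfl | rfl)
    · exact H37.exists_unip_G2 F 2 (n := 2) (by decide) (by decide +kernel)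
    · exact H37.exists_twelve F
    · exact H37.exists_mixed_G2 F 2 (.inr e2)
    · exact H37.exists_mixed_G2 F 2 (.inl e1)
    · exact H37.exists_orderOf_G2 F 2 (.inl e3)
    · exact H37.exists_orderOf_G2 F 2 (.inr (.inl e4))
    · exact H37.exists_orderOf_G2 F 2 (.inr (.inr e5))
  · rintro _ ⟨⟨x, rfl⟩, hx⟩
    have := H37.orderOf_dvd_G2 F 2 x (a := 3) (b := 2) (by decide) (by decide)
    rw [← e3, ← e4, ← e5, ← e1, ← e2, ← Nat.cast_mul, ← Nat.cast_mul] at this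
    simp only [Int.natCast_dvd_natCast] at this
    rcases this with h' | h' | h' | h' | h' | h' | ⟨-, h'⟩ <;> rw [← hx _ (h (by simp)) h'] <;> simp

end Cfsg.Agent.S2520
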