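import Cfsg.Statements.S2522
import Cfsg.Agent.H3.Lev5

set_option autoImplicit false
open Cfsg

namespace Cfsg.Agent.S2522

/-- Let K be a field with at least four elements (finite or infinite), n ≥ 3, and J ∈ GL(n, K) the regular unipotent matrix (ones on the diagonal and the superdiagonal, zeros elsewhere). Then every non-scalar g ∈ GL(n, K) with det g = 1 is a product of two GL(n, K)-conjugates of J. -/
theorem result {K : Type*} [Field K] (hK : 4 ≤ Cardinal.mk K) (n : ℕ) (hn : 3 ≤ n) (J g : GL (Fin n) K)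
    (hJ : ∀ i j : Fin n, (J : Matrix (Fin n) (Fin n) K) i j = if i = j then 1 else if j.val = i.val + 1 then 1 else 0)
    (hg : ¬ ∃ c : K, (g : Matrix (Fin n) (Fin n) K) = c • (1 : Matrix (Fin n) (Fin n) K))
    (hdet : (g : Matrix (Fin n) (Fin n) K).det = 1) :
    ∃ x y : GL (Fin n) K, g = (x * J * x⁻¹) * (y * J * y⁻¹) := by
  classical
  obtain ⟨k, rfl⟩ : ∃ k, n = k + 1 := ⟨n - 1, by omega⟩
  have hB : H3.Lev.Big K := fun x y z => by
    by_contra! h
    have : (Set.univ : Set K) ⊆ ↑({x, y, z} : Finset K) := fun t _ => by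
      have := h t
      simp only [Finset.coe_insert, Finset.coe_singleton, Set.mem_insert_iff, Set.mem_singleton_iff]
      tauto
    have h1 := Cardinal.mk_le_mk_of_subset this
    rw [Cardinal.mk_univ, Finset.coe_sort_coe, Cardinal.mk_coe_finset] at h1
    have h2 : (4 : ℕ) ≤ ({x, y, z} : Finset K).card := by exact_mod_cast hK.trans h1
    have := Finset.card_le_three (a := x) (b := y) (c := z)
    omega
  let e := Matrix.GeneralLinearGroup.toLin (n := Fin (k + 1)) (R := K)
  have he : ∀ a : GL (Fin (k + 1)) K, (e a).1 = Matrix.toLin' a.1 := fun a => rfl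
  have n1 : ∀ x i, ((e J).1 - 1) x i = ∑ j : Fin (k + 1), if j.val = i.val + 1 then x j else 0 := fun x i => by
    have : ∀ j, J.1 i j * x j = (if i = j then x j else 0) + if j.val = i.val + 1 then x j else 0 := fun j => by
      rw [hJ]; split_ifs with h1 h2 <;> simp_all
    simp [he, Matrix.mulVec, dotProduct, this, Finset.sum_add_distrib]
  have hJ' : H3.Lev.RU (e J).1 := by
    have n2 : ∀ l : ℕ, ∀ x (i : Fin (k + 1)), k + 1 ≤ i.val + l → ((((e J).1 - 1) ^ l) x) i = 0 := fun l => by
      induction l with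
      | zero => intro x i h; omega
      | succ l ih =>
        intro x i h
        rw [pow_succ', Module.End.mul_apply, n1]
        exact Finset.sum_eq_zero fun j _ => by split_ifs with h1; exacts [ih x j (by omega), rfl]
    refine ⟨⟨by simp, k + 1, fun x _ => funext fun i => n2 _ x i (by omega)⟩, Pi.single 0 1,
      fun x _ h => ⟨x 0, funext fun i => i.cases (by simp) fun i => ?_⟩⟩
    have := (n1 x i.castSucc).symm.trans (congrFun h _)
    rw [Finset.sum_eq_single i.succ] at this
    · simpa using this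
    · exact fun j _ hj => if_neg fun a => hj (Fin.ext a)
    · simp
  obtain ⟨j, j1, j2⟩ := H3.Lev.lev hB _ (Fin (k + 1) → K) rfl (e g).1 (by rw [he, LinearMap.det_toLin', hdet])
    (.inl fun c hc => hg ⟨c, Matrix.toLin'.injective (by rw [← he, hc]; simp [Module.End.one_eq_id])⟩)
  obtain ⟨j, rfl⟩ := (LinearMap.isUnit_iff_isUnit_det j).2 (H3.Lev.det_of_nil j1.1 ▸ isUnit_one)
  obtain ⟨x, hx⟩ := hJ'.exists_conj j2 (k := k) (by simp)
  obtain ⟨y, hy⟩ := hJ'.exists_conj (j1.inv j.inv_mul j.mul_inv) (k := k) (by simp)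
  replace hx : x * e J = e g * j * x := Units.ext hx
  replace hy : y * e J = j⁻¹ * y := Units.ext hy
  refine ⟨e.symm x, e.symm y, e.injective ?_⟩
  simp only [map_mul, map_inv, MulEquiv.apply_symm_apply, hx, hy]
  group

end Cfsg.Agent.S2522
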