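import Cfsg.Statements.S2523
import Cfsg.Agent.H3.Thom3
import Cfsg.Agent.H39.Descend

set_option autoImplicit false
open Cfsg

namespace Cfsg.Agent.S2523

/-- Let F be a finite field with at least 9 elements and let G be one of PSL(n, F) (n ≥ 2), PSp(2m, F) (m ≥ 2), PΩ(2m+1, F) (m ≥ 3, here q odd), PΩ⁺(2m, F) (m ≥ 4), or the Chevalley group of type G₂, F₄, E₆, E₇ or E₈ over F. Then G is the square of one of its conjugacy classes (Thompson's conjecture on products of conjugacy classes, not his conjecture on class sizes): there is a conjugacy class C of G with C·C = G, i.e. every element of G is a product of two elements of C. -/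
theorem result {F : Type*} [Field F] [Fintype F] (hF : 9 ≤ Fintype.card F) {G : Type*} [Group G] [Finite G]
    (hG : (∃ n : ℕ, 2 ≤ n ∧ Nonempty (G ≃* Matrix.ProjectiveSpecialLinearGroup (Fin n) F)) ∨
      (∃ m : ℕ, 2 ≤ m ∧ Nonempty (G ≃* Cfsg.PSp m F)) ∨
      (∃ m : ℕ, 3 ≤ m ∧ Odd (Fintype.card F) ∧ Nonempty (G ≃* Cfsg.POmega F (Cfsg.quadFormOdd m F))) ∨
      (∃ m : ℕ, 4 ≤ m ∧ Nonempty (G ≃* Cfsg.POmega F (Cfsg.quadFormPlus m F))) ∨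
      Nonempty (G ≃* ↥(Cfsg.Lie.chevG2.group F)) ∨ Nonempty (G ≃* ↥(Cfsg.Lie.chevF4.group F)) ∨
      Nonempty (G ≃* ↥(Cfsg.Lie.chevE6.group F)) ∨ Nonempty (G ≃* ↥(Cfsg.Lie.chevE7.group F)) ∨ Nonempty (G ≃* ↥(Cfsg.Lie.chevE8.group F))) :
    ∃ c : G, ∀ g : G, ∃ x y : G, g = (x * c * x⁻¹) * (y * c * y⁻¹) := by
  rw [← Nat.card_eq_fintype_card] at hF
  have k1 : ∀ {H : Type _} [Group H], H3.Sq H → (G ≃* H ⧸ Subgroup.center H) → ∃ c : G, ∀ g : G, ∃ x y : G,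
      g = (x * c * x⁻¹) * (y * c * y⁻¹) := fun h e => h.map (e.symm.toMonoidHom.comp (QuotientGroup.mk' _))
    (e.symm.surjective.comp (QuotientGroup.mk'_surjective _)) fun z hz => by
      simpa using (QuotientGroup.eq_one_iff z).2 hz
  have k2 : ∀ {D}, H37.IsChev D → H3.Sq (D.group F) → (G ≃* D.group F) → ∃ c : G, ∀ g : G, ∃ x y : G,
      g = (x * c * x⁻¹) * (y * c * y⁻¹) := fun hD h e => h.map e.symm.toMonoidHom e.symm.surjective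
    (by rw [H39.center_group_eq_bot hD]; exact bot_le)
  rcases hG with ⟨n, h, ⟨e⟩⟩ | ⟨n, h, ⟨e⟩⟩ | ⟨n, h, -, ⟨e⟩⟩ | ⟨n, h, ⟨e⟩⟩ | ⟨⟨e⟩⟩ | ⟨⟨e⟩⟩ | ⟨⟨e⟩⟩ | ⟨⟨e⟩⟩ | ⟨⟨e⟩⟩
  · obtain ⟨n, rfl⟩ : ∃ m, n = m + 1 := ⟨n - 1, by omega⟩
    exact k1 (H3.sqA hF n (by omega)) e
  · obtain ⟨n, rfl⟩ : ∃ m, n = m + 1 := ⟨n - 1, by omega⟩
    exact k1 (H3.sqC hF n (by omega)) e
  · obtain ⟨n, rfl⟩ : ∃ m, n = m + 2 := ⟨n - 2, by omega⟩
    exact k1 (H3.sqB hF n (by omega)) e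
  · obtain ⟨n, rfl⟩ : ∃ m, n = m + 3 := ⟨n - 3, by omega⟩
    exact k1 (H3.sqD hF n (by omega)) e
  exacts [k2 H39.memG2 (H3.sqG2 hF) e, k2 H39.memF4 (H3.sqF4 hF) e, k2 H39.memE6 (H3.sqE6 hF) e,
    k2 H39.memE7 (H3.sqE7 hF) e, k2 H39.memE8 (H3.sqE8 hF) e]

end Cfsg.Agent.S2523
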