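import Cfsg.Statements.S2524
import Cfsg.Agent.H65.WeilFin

set_option autoImplicit false
open Cfsg

namespace Cfsg.Agent.S2524

theorem ineq {q n k : ℕ} (hq : 3 ≤ q) (hn : 2 ≤ n) (hk : 2 * k ≤ q ^ n + 1) :
    ¬ (q ^ n - 1) * (q ^ n - q) ≤ 2 * (q + 1) * k := by
  have h1 : q * q ≤ q ^ n := by rw [← sq]; exact Nat.pow_le_pow_right (by omega) hn
  generalize q ^ n = N at *
  obtain ⟨M, rfl⟩ : ∃ M, N = M + q := ⟨N - q, by have : q ≤ q * q := Nat.le_mul_self q; omega⟩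
  obtain ⟨r, rfl⟩ : ∃ r, q = r + 3 := ⟨q - 3, by omega⟩
  rw [Nat.add_sub_cancel, show M + (r + 3) - 1 = M + r + 2 by omega]
  have h2 : r + 6 ≤ M := by nlinarith
  nlinarith

/-- Let F be a finite field of odd order q and G = Sp(2n, F) with n ≥ 2. Then G has exactly four irreducible complex characters of degree (q^n + 1)/2 or (q^n − 1)/2 (two of each), and every other non-principal irreducible character has degree at least (q^n − 1)(q^n − q)/(2(q + 1)). -/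
theorem result {F : Type*} [Field F] [Fintype F] (hodd : Odd (Fintype.card F)) (n : ℕ) (hn : 2 ≤ n) :
    Nat.card {χ : Cfsg.IrrCharacter ↥(Matrix.symplecticGroup (Fin n) F) // (χ : ↥(Matrix.symplecticGroup (Fin n) F) → ℂ) 1 = (((Fintype.card F) ^ n + 1 : ℕ) : ℂ) / 2} = 2 ∧
    Nat.card {χ : Cfsg.IrrCharacter ↥(Matrix.symplecticGroup (Fin n) F) // (χ : ↥(Matrix.symplecticGroup (Fin n) F) → ℂ) 1 = (((Fintype.card F) ^ n - 1 : ℕ) : ℂ) / 2} = 2 ∧
    ∀ χ : Cfsg.IrrCharacter ↥(Matrix.symplecticGroup (Fin n) F),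
      (χ : ↥(Matrix.symplecticGroup (Fin n) F) → ℂ) 1 ≠ 1 →
      (χ : ↥(Matrix.symplecticGroup (Fin n) F) → ℂ) 1 ≠ (((Fintype.card F) ^ n + 1 : ℕ) : ℂ) / 2 →
      (χ : ↥(Matrix.symplecticGroup (Fin n) F) → ℂ) 1 ≠ (((Fintype.card F) ^ n - 1 : ℕ) : ℂ) / 2 →
      (((Fintype.card F) ^ n - 1 : ℕ) : ℝ) * (((Fintype.card F) ^ n - Fintype.card F : ℕ) : ℝ) / (2 * ((Fintype.card F : ℕ) + 1 : ℝ)) ≤ ‖(χ : ↥(Matrix.symplecticGroup (Fin n) F) → ℂ) 1‖ := by
  classical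
  have h2 := Fact.mk (H65.two_ne_zero_of_odd hodd)
  obtain ⟨ψ₀, hψ₀⟩ := H65.exists_addChar (F := F) H65.cast_ringChar_ne_zero
  obtain ⟨δ, hδ⟩ := FiniteField.exists_nonsquare (F := F) fun e => by
    have := FiniteField.even_card_of_char_two e
    rw [Nat.odd_iff] at hodd
    omega
  have hψ : ∀ a : F, a ≠ 0 → ∃ ψ : AddChar F ℂ, ψ ≠ 1 ∧ ∀ x, ψ (-2⁻¹ * x) = ψ₀ (a * x) := fun a ha =>
    ⟨ψ₀.mulShift (-2 * a), AddChar.IsPrimitive.of_ne_one hψ₀ (by simp [ha, h2.out]), fun x => by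
      rw [AddChar.mulShift_apply]
      congr 1
      have := h2.out
      field_simp⟩
  obtain ⟨ψ, hψ1, h1⟩ := hψ 1 one_ne_zero
  obtain ⟨ψ', hψ2, h1'⟩ := hψ δ (by rintro rfl; exact hδ IsSquare.zero)
  have := Fact.mk hψ1
  have := Fact.mk hψ2
  have hq : 3 ≤ Fintype.card F := by
    have := Fintype.one_lt_card (α := F)
    rw [Nat.odd_iff] at hodd
    omega
  have hN : 3 * 3 ≤ Fintype.card F ^ n :=
    (Nat.mul_le_mul hq hq).trans (by rw [← sq]; exact Nat.pow_le_pow_right (by omega) hn)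
  have hs : ((Fintype.card F ^ n - 1 : ℕ) : ℂ) = (Fintype.card F : ℂ) ^ n + -1 := by
    rw [Nat.cast_sub (by omega)]; push_cast; ring
  have hs' : ((Fintype.card F ^ n + 1 : ℕ) : ℂ) = (Fintype.card F : ℂ) ^ n + 1 := by push_cast; ring
  have hd : ∀ (ψ : AddChar F ℂ) [Fact (ψ ≠ 1)] {ε : ℂ} (hε : ε * ε = 1),
      (H65.weilE (n := n) ψ hε).character 1 = ((Fintype.card F : ℂ) ^ n + ε) / 2 := fun ψ _ ε hε => by
    rw [Representation.char_one, H65.finrank_Ev hε]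
  have hi : ∀ (ψ : AddChar F ℂ) [Fact (ψ ≠ 1)] {ε : ℂ} (hε : ε * ε = 1),
      IsIrrCharacter _ (H65.weilE (n := n) ψ hε).character := fun ψ _ ε hε => by
    have := H65.nontrivial_Ev (F := F) hn hε
    have := H65.weilE_irr (ψ := ψ) (n := n) hε
    exact H5.isIrrCharacter_character _
  have main : ∀ χ : IrrCharacter (Matrix.symplecticGroup (Fin n) F), χ.1 1 ≠ 1 → ∃ k : ℕ, χ.1 1 = k ∧
      ((Fintype.card F ^ n - 1) * (Fintype.card F ^ n - Fintype.card F) ≤ 2 * (Fintype.card F + 1) * k ∨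
      (χ.1 = (H65.weilE ψ (one_mul 1)).character ∨ χ.1 = (H65.weilE ψ H65.neg_one_sq').character) ∨
      χ.1 = (H65.weilE ψ' (one_mul 1)).character ∨ χ.1 = (H65.weilE ψ' H65.neg_one_sq').character) := by
    rintro ⟨_, k, ρ, hρ, rfl⟩ h
    have hk : ρ.character 1 = k := by simp [Representation.char_one]
    refine ⟨k, hk, ?_⟩
    rcases H65.r1_or_bound ρ hψ₀ with hR | hR
    · refine .inr (H65.char_eq_weil hn ρ ?_ hψ₀ hR hδ h1 h1')
      have := H5.finrank_pos_of_isIrreducible ρ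
      rw [Module.finrank_fin_fun] at this ⊢
      have : k ≠ 1 := fun e => h (hk.trans (by rw [e, Nat.cast_one]))
      omega
    · exact .inl (by simpa using hR)
  have cnt : ∀ {ε : ℂ} (hε : ε * ε = 1) (m : ℕ), 3 ≤ m → m ≤ Fintype.card F ^ n + 1 →
      (m : ℂ) = (Fintype.card F : ℂ) ^ n + ε →
      Nat.card {χ : IrrCharacter (Matrix.symplecticGroup (Fin n) F) // χ.1 1 = (m : ℂ) / 2} = 2 := by
    intro ε hε m hm hm' e
    refine Nat.card_eq_two_iff.2 ⟨⟨⟨_, hi ψ hε⟩, by rw [e]; exact hd ψ hε⟩, ⟨⟨_, hi ψ' hε⟩, by rw [e]; exact hd ψ' hε⟩,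
      fun h => H65.weilE_char_ne hn hψ₀ hδ h1 h1' hε (congrArg (·.1.1) h), Set.eq_univ_of_forall fun χ => ?_⟩
    obtain ⟨k, hk, h⟩ := main χ.1 fun h => by
      have : (m : ℂ) = (2 : ℕ) := by push_cast; linear_combination 2 * h - 2 * χ.2
      have := Nat.cast_injective this
      omega
    have hk' : 2 * k = m := Nat.cast_injective (R := ℂ) (by push_cast; linear_combination 2 * χ.2 - 2 * hk)
    have hε' : ∀ (ψ : AddChar F ℂ) [Fact (ψ ≠ 1)] {ε' : ℂ} (hε' : ε' * ε' = 1),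
        χ.1.1 = (H65.weilE (n := n) ψ hε').character → χ.1.1 = (H65.weilE (n := n) ψ hε).character := by
      intro ψ _ ε' hε' h
      obtain rfl : ε' = ε := by
        have := hd ψ hε'
        rw [← h, χ.2, e] at this
        linear_combination -2 * this
      exact h
    rcases h with h | (h | h) | h | h
    · exact absurd h (ineq hq hn (by omega))
    · exact .inl (Subtype.ext (Subtype.ext (hε' _ _ h)))
    · exact .inl (Subtype.ext (Subtype.ext (hε' _ _ h)))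
    · exact .inr (Subtype.ext (Subtype.ext (hε' _ _ h)))
    · exact .inr (Subtype.ext (Subtype.ext (hε' _ _ h)))
  refine ⟨cnt (one_mul 1) _ (by omega) le_rfl hs', cnt H65.neg_one_sq' _ (by omega) (by omega) hs,
    fun χ h h' h'' => ?_⟩
  obtain ⟨k, hk, h⟩ := main χ h
  rcases h with h | (h | h) | h | h
  · rw [hk, Complex.norm_natCast, div_le_iff₀ (by positivity), mul_comm (k : ℝ)]
    exact_mod_cast h
  · exact absurd (by rw [h, hd, hs']) h'
  · exact absurd (by rw [h, hd, hs]) h''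
  · exact absurd (by rw [h, hd, hs']) h'
  · exact absurd (by rw [h, hd, hs]) h''

end Cfsg.Agent.S2524
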