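import Cfsg.Statements.S2525
import Cfsg.Agent.H37.Spect
import Cfsg.Agent.H37.WF4

set_option autoImplicit false
open Cfsg

namespace Cfsg.Agent.S2525

theorem Aw : H37.wordOK Cfsg.Lie.chevF4 [3, 2, 1, 2, 1] [[1, 2, 2, 2], [0, -1, 0, 0], [0, 0, -1, -1], [0, 1, 2, 1]] = true := by decide +kernel

theorem Ae : H37.Cov.eigOK Cfsg.Lie.chevF4.rank [[1, 2, 2, 2], [0, -1, 0, 0], [0, 0, -1, -1], [0, 1, 2, 1]]
    [[-1, -1, -1, -1], [-1, -1, -3, -1], [0, -2, -4, -2], [0, -2, -2, 0]] [-1, -1, 1, 0] [-1, 0, 0, 0, 1] [-1, -1, 0, 0] (2) = true := by decide +kernel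

theorem Bw : H37.wordOK Cfsg.Lie.chevF4 [3, 1, 0] [[-1, -1, 0, 0], [1, 0, 0, 0], [0, 1, 1, 1], [0, 0, 0, -1]] = true := by decide +kernel

theorem Be : H37.Cov.eigOK Cfsg.Lie.chevF4.rank [[-1, -1, 0, 0], [1, 0, 0, 0], [0, 1, 1, 1], [0, 0, 0, -1]]
    [[-1, -1, 0, 0], [-1, -1, -1, -1], [-1, -2, -2, -1], [-1, -1, -1, 0]] [0, -1, 1, -1] [-1, -1, 0, 1, 1] [-1, -1, -1, -1] (1) = true := by decide +kernel

theorem Cw : H37.wordOK Cfsg.Lie.chevF4 [2, 1, 0] [[-1, -1, -2, 0], [1, 0, 0, 0], [0, 1, 1, 0], [0, 0, 1, 1]] = true := by decide +kernel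

theorem Ce : H37.Cov.eigOK Cfsg.Lie.chevF4.rank [[-1, -1, -2, 0], [1, 0, 0, 0], [0, 1, 1, 0], [0, 0, 1, 1]]
    [[-1, 1, 0, -1], [-1, 1, 0, -2], [-1, 1, -1, -2], [-1, 0, 0, -1]] [-1, 1, 0, -1] [-1, 1, 0, -1, 1] [-1, -1, -1, -1] (1) = true := by decide +kernel

theorem Dw : H37.wordOK Cfsg.Lie.chevF4 [3, 2, 1, 2, 1, 0] [[-1, -2, -2, -2], [1, 1, 2, 2], [0, 0, -1, -1], [0, 1, 2, 1]] = true := by decide +kernel

theorem De : H37.Cov.eigOK Cfsg.Lie.chevF4.rank [[-1, -2, -2, -2], [1, 1, 2, 2], [0, 0, -1, -1], [0, 1, 2, 1]]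
    [[1, 0, 0, 0], [1, 0, 0, -1], [1, 1, -1, -1], [1, 0, -1, 0]] [-1, 0, 0, 0] [1, 0, 0, 0, 1] [-1, -1, -1, -1] (-1) = true := by decide +kernel

theorem Ew : H37.wordOK Cfsg.Lie.chevF4 [3, 2, 1, 0] [[-1, -1, -2, -2], [1, 0, 0, 0], [0, 1, 1, 1], [0, 0, 1, 0]] = true := by decide +kernel

theorem Ee : H37.Cov.eigOK Cfsg.Lie.chevF4.rank [[-1, -1, -2, -2], [1, 0, 0, 0], [0, 1, 1, 1], [0, 0, 1, 0]]
    [[1, 0, -1, 0], [1, 0, -1, -1], [1, 0, -2, -1], [1, -1, -1, 0]] [-1, -1, 1, 0] [1, 0, -1, 0, 1] [-1, -1, -1, -1] (-1) = true := by decide +kernel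

theorem Xw : H37.wordOK Cfsg.Lie.chevF4 [1, 0] [[-1, -1, 0, 0], [1, 0, 0, 0], [0, 1, 1, 0], [0, 0, 0, 1]] = true := by decide +kernel

theorem Xe : H37.Cov.eigOK Cfsg.Lie.chevF4.rank [[-1, -1, 0, 0], [1, 0, 0, 0], [0, 1, 1, 0], [0, 0, 0, 1]]
    [[-1, 0, 0], [-1, 0, -1], [-1, -1, -1], [-1, -1, -1]] [-1, 0, 0, 0] [-1, 0, 0, 1] [-1, -1, -1, -1] (1) = true := by decide +kernel

theorem Xm : H37.mixOK Cfsg.Lie.chevF4 [1, 0] [[-1, 0, 0], [-1, 0, -1], [-1, -1, -1], [-1, -1, -1]] 46 = true := by decide +kernel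

theorem Yw : H37.wordOK Cfsg.Lie.chevF4 [2, 1, 0] [[-1, -1, -2, 0], [1, 0, 0, 0], [0, 1, 1, 0], [0, 0, 1, 1]] = true := by decide +kernel

theorem Ye : H37.Cov.eigOK Cfsg.Lie.chevF4.rank [[-1, -1, -2, 0], [1, 0, 0, 0], [0, 1, 1, 0], [0, 0, 1, 1]]
    [[1, 0, 0], [1, 0, -1], [1, -1, -1], [0, 0, 0]] [-1, 0, 0, 0] [1, 0, 0, 1] [-1, -1, -1, 0] (-1) = true := by decide +kernel

theorem Ym : H37.mixOK Cfsg.Lie.chevF4 [2, 1, 0] [[1, 0, 0], [1, 0, -1], [1, -1, -1], [0, 0, 0]] 47 = true := by decide +kernel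

theorem Zw : H37.wordOK Cfsg.Lie.chevF4 [2, 1] [[1, 1, 2, 0], [0, -1, -2, 0], [0, 1, 1, 0], [0, 0, 1, 1]] = true := by decide +kernel

theorem Ze : H37.Cov.eigOK Cfsg.Lie.chevF4.rank [[1, 1, 2, 0], [0, -1, -2, 0], [0, 1, 1, 0], [0, 0, 1, 1]]
    [[0, 0], [1, 0], [1, -1], [0, 0]] [0, -1, 0, 0] [1, 0, 1] [0, -1, -1, 0] (-1) = true := by decide +kernel

theorem Zm : H37.mixOK Cfsg.Lie.chevF4 [2, 1] [[0, 0], [1, 0], [1, -1], [0, 0]] 29 = true := by decide +kernel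

section nt

variable {r : ℕ} [Fact r.Prime] (hr : r ≠ 2) (q : ℕ)

theorem dvd_iff (f : List ℤ) : (r : ℤ) ∣ H37.ev q f ↔ (f.foldr (fun (c : ℤ) s => (c : ZMod r) + q * s) 0) = 0 := by
  rw [← ZMod.intCast_zmod_eq_zero_iff_dvd]
  refine Eq.congr_left ?_
  induction f with
  | nil => simp [H37.ev_nil]
  | cons c f ih => simp [H37.ev_cons, ih]

theorem dA : (r : ℤ) ∣ H37.ev q [-1, 0, 0, 0, 1] ↔ orderOf (q : ZMod r) ∣ 4 := by
  rw [dvd_iff, orderOf_dvd_iff_pow_eq_one]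
  simp only [List.foldr_cons, List.foldr_nil]; push_cast
  constructor <;> intro h <;> linear_combination h

theorem dX : (r : ℤ) ∣ H37.ev q [-1, 0, 0, 1] ↔ orderOf (q : ZMod r) ∣ 3 := by
  rw [dvd_iff, orderOf_dvd_iff_pow_eq_one]
  simp only [List.foldr_cons, List.foldr_nil]; push_cast
  constructor <;> intro h <;> linear_combination h

theorem dB : (r : ℤ) ∣ H37.ev q [-1, -1, 0, 1, 1] ↔ orderOf (q : ZMod r) ∣ 3 ∨ orderOf (q : ZMod r) ∣ 2 := by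
  rw [dvd_iff, orderOf_dvd_iff_pow_eq_one, orderOf_dvd_iff_pow_eq_one]
  simp only [List.foldr_cons, List.foldr_nil]; push_cast
  generalize (q : ZMod r) = x
  refine ⟨fun h => (mul_eq_zero.1 (show (x ^ 3 - 1) * (x + 1) = 0 by linear_combination h)).imp
    (fun h => by linear_combination h) fun h => by linear_combination (x - 1) * h, ?_⟩
  rintro (h | h)
  · linear_combination (x + 1) * h
  · linear_combination (x ^ 2 + x + 1) * h

include hr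

theorem two_ne : (2 : ZMod r) ≠ 0 := fun h =>
  hr ((Nat.prime_dvd_prime_iff_eq Fact.out Nat.prime_two).1 ((ZMod.natCast_eq_zero_iff 2 r).1 (by exact_mod_cast h)))

theorem dH (n : ℕ) : (q : ZMod r) ^ n + 1 = 0 ↔ orderOf (q : ZMod r) ∣ 2 * n ∧ ¬ orderOf (q : ZMod r) ∣ n := by
  rw [orderOf_dvd_iff_pow_eq_one, orderOf_dvd_iff_pow_eq_one, pow_mul']
  generalize (q : ZMod r) ^ n = x
  exact ⟨fun h => ⟨by linear_combination (x - 1) * h, fun h' => two_ne hr (by linear_combination h - h')⟩,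
    fun h => (mul_eq_zero.1 (show (x - 1) * (x + 1) = 0 by linear_combination h.1)).resolve_left
      fun h' => h.2 (by linear_combination h')⟩

theorem dY : (r : ℤ) ∣ H37.ev q [1, 0, 0, 1] ↔ orderOf (q : ZMod r) ∣ 6 ∧ ¬ orderOf (q : ZMod r) ∣ 3 := by
  rw [dvd_iff, ← dH hr q 3]
  simp only [List.foldr_cons, List.foldr_nil]; push_cast
  constructor <;> intro h <;> linear_combination h

theorem dZ : (r : ℤ) ∣ H37.ev q [1, 0, 1] ↔ orderOf (q : ZMod r) ∣ 4 ∧ ¬ orderOf (q : ZMod r) ∣ 2 := by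
  rw [dvd_iff, ← dH hr q 2]
  simp only [List.foldr_cons, List.foldr_nil]; push_cast
  constructor <;> intro h <;> linear_combination h

theorem dD : (r : ℤ) ∣ H37.ev q [1, 0, 0, 0, 1] ↔ orderOf (q : ZMod r) ∣ 8 ∧ ¬ orderOf (q : ZMod r) ∣ 4 := by
  rw [dvd_iff, ← dH hr q 4]
  simp only [List.foldr_cons, List.foldr_nil]; push_cast
  constructor <;> intro h <;> linear_combination h

theorem dC : (r : ℤ) ∣ H37.ev q [-1, 1, 0, -1, 1] ↔
    orderOf (q : ZMod r) ∣ 2 ∨ orderOf (q : ZMod r) ∣ 6 ∧ ¬ orderOf (q : ZMod r) ∣ 3 := by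
  rw [dvd_iff, ← dH hr q 3, orderOf_dvd_iff_pow_eq_one]
  simp only [List.foldr_cons, List.foldr_nil]; push_cast
  generalize (q : ZMod r) = x
  refine ⟨fun h => (mul_eq_zero.1 (show (x - 1) * (x ^ 3 + 1) = 0 by linear_combination h)).imp
    (fun h => by linear_combination (x + 1) * h) id, ?_⟩
  rintro (h | h)
  · linear_combination (x ^ 2 - x + 1) * h
  · linear_combination (x - 1) * h

theorem dE (hq : (q : ZMod r) ≠ 0) : (r : ℤ) ∣ H37.ev q [1, 0, -1, 0, 1] ↔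
    (orderOf (q : ZMod r) ∣ 12 ∧ ¬ orderOf (q : ZMod r) ∣ 6) ∧ ¬ orderOf (q : ZMod r) ∣ 4 := by
  rw [dvd_iff, ← dH hr q 6, orderOf_dvd_iff_pow_eq_one]
  simp only [List.foldr_cons, List.foldr_nil]; push_cast
  have h0 := ZMod.pow_card_sub_one_eq_one hq
  generalize (q : ZMod r) = x at h0
  refine ⟨fun h => ⟨by linear_combination (x ^ 2 + 1) * h, fun h' => ?_⟩, fun h =>
    (mul_eq_zero.1 (show (x ^ 2 + 1) * _ = 0 by linear_combination h.1)).resolve_left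
      fun h' => h.2 (by linear_combination (x ^ 2 - 1) * h')⟩
  obtain rfl : r = 3 := (Nat.prime_dvd_prime_iff_eq Fact.out Nat.prime_three).1 ((ZMod.natCast_eq_zero_iff 3 r).1
    (by push_cast; linear_combination (x ^ 2 + 2) * h - (x ^ 2 + 1) * h'))
  exact one_ne_zero (α := ZMod 3) (by linear_combination h - h' + h0)

end nt

/-- the five kinds of tori -/
def T (i : Fin 5) (k : ℕ) : Prop :=
  ![k ∣ 4, k ∣ 3 ∨ k ∣ 2, k ∣ 2 ∨ k ∣ 6 ∧ ¬ k ∣ 3, k ∣ 8 ∧ ¬ k ∣ 4, (k ∣ 12 ∧ ¬ k ∣ 6) ∧ ¬ k ∣ 4] i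

instance instDecT (i : Fin 5) (k : ℕ) : Decidable (T i k) := by
  unfold T
  match i with
  | 0 | 1 | 2 | 3 | 4 => simp only [Matrix.cons_val]; infer_instance

theorem T_lt {i : Fin 5} {k : ℕ} (h : T i k) : k < 13 := by
  have a : ∀ n, k ∣ n → 0 < n → k ≤ n := fun n a b => Nat.le_of_dvd b a
  have := a 2; have := a 3; have := a 4; have := a 6; have := a 8; have := a 12
  match i with
  | 0 | 1 | 2 | 3 | 4 => simp only [T, Matrix.cons_val] at h; omega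

set_option synthInstance.maxSize 4000 in
theorem comb : ∀ k < 13, ∀ l < 13, (∃ i, T i k) → (∃ i, T i l) → ((¬ ∃ i, T i k ∧ T i l) ↔
    ((k < l ∧ (l ∈ ({8, 12} : Finset ℕ) ∨ (l = 6 ∧ k ∈ ({3, 4} : Finset ℕ)) ∨ (l = 4 ∧ k = 3))) ∨
      (l < k ∧ (k ∈ ({8, 12} : Finset ℕ) ∨ (k = 6 ∧ l ∈ ({3, 4} : Finset ℕ)) ∨ (k = 4 ∧ l = 3))))) := by
  decide +kernel

set_option synthInstance.maxSize 4000 in
theorem comb2 : ∀ k < 13, (∃ i, T i k) → ((¬ ∃ i < 3, T i k) ↔ k ∈ ({8, 12} : Finset ℕ)) ∧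
    ((∃ i < 3, T i k) → k ∣ 3 ∨ (k ∣ 6 ∧ ¬ k ∣ 3) ∨ (k ∣ 4 ∧ ¬ k ∣ 2)) := by
  decide +kernel

section grp

open Cfsg.Lie H37 H38

variable {F : Type*} [Field F] [Finite F] [CharP F 2] [Chev chevF4]

theorem q_ne {t : ℕ} (ht : t.Prime) (h2 : t ≠ 2) : ((Nat.card F : ℕ) : ZMod t) ≠ 0 := fun h => by
  obtain ⟨m, -, e⟩ := exists_card_eq_pow F 2
  rw [ZMod.natCast_eq_zero_iff, e] at h
  exact h2 ((Nat.prime_dvd_prime_iff_eq ht Nat.prime_two).1 (ht.dvd_of_dvd_pow h))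

theorem up0 {A : Type*} [CommGroup A] {w : Equiv.Perm (Fin chevF4.nroots)} (hw : w ∈ (rs chevF4).W)
    {c : Fin chevF4.rank → A} (hc : zact ((Nat.card F : ℤ) • wM w) c = c) :
    ∃ i, (i < 3 ∨ (wM w).det = 1) ∧ ∀ t : ℕ, t.Prime → t ≠ 2 → t ∣ orderOf c →
      T i (orderOf ((Nat.card F : ℕ) : ZMod t)) := by
  have key : ∀ {P : List ℤ}, hornM (wM w) P = 0 → ∀ t : ℕ, t.Prime → t ≠ 2 → t ∣ orderOf c →
      (t : ℤ) ∣ ev (Nat.card F) P.reverse := fun h t ht h2 h3 =>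
    ((Nat.prime_iff_prime_int.1 ht).dvd_or_dvd ((Int.natCast_dvd_natCast.2 h3).trans
      (orderOf_dvd_iff_zpow_eq_one.2 (pow_eq_one_of_hornM hc h)))).resolve_left fun h =>
        q_ne (F := F) ht h2 ((ZMod.natCast_eq_zero_iff _ _).2 (Int.natCast_dvd_natCast.1 h))
  have neg : ∀ (t : ℕ) (P : List ℤ), (t : ℤ) ∣ ev (Nat.card F) P → (t : ℤ) ∣ ev (Nat.card F) (psmul (-1) P) :=
    fun t P h => by rw [ev_psmul]; exact h.mul_left _
  rcases wF4_horn hw with h | h | h | ⟨h0, h | h⟩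
  · exact ⟨0, .inl (by decide), fun t ht h2 h3 => haveI := Fact.mk ht; (dA _).1 (neg _ _ (key h t ht h2 h3))⟩
  · exact ⟨1, .inl (by decide), fun t ht h2 h3 => haveI := Fact.mk ht; (dB _).1 (neg _ _ (key h t ht h2 h3))⟩
  · exact ⟨2, .inl (by decide), fun t ht h2 h3 => haveI := Fact.mk ht; (dC h2 _).1 (neg _ _ (key h t ht h2 h3))⟩
  · exact ⟨3, .inr h0, fun t ht h2 h3 => haveI := Fact.mk ht; (dD h2 _).1 (key h t ht h2 h3)⟩
  · exact ⟨4, .inr h0, fun t ht h2 h3 => haveI := Fact.mk ht; (dE h2 _ (q_ne ht h2)).1 (key h t ht h2 h3)⟩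

theorem up (x : chevF4.group F) : ∃ i, (2 ∣ orderOf x → i < 3) ∧ ∀ t : ℕ, t.Prime → t ≠ 2 → t ∣ orderOf x →
    T i (orderOf ((Nat.card F : ℕ) : ZMod t)) := by
  obtain ⟨w, hw, c, h1, h2, u, hu, ⟨a, ha⟩, h3⟩ := exists_jordan_group (by simp) F 2 H39.centT_F4 x
  have key : ∀ t : ℕ, t.Prime → t ≠ 2 → t ∣ orderOf x → t ∣ orderOf c := fun t ht h4 h5 =>
    (ht.dvd_mul.1 (h5.trans (orderOf_dvd_of_pow_eq_one ((h3 (orderOf c * 2 ^ a)).2
      ⟨by rw [pow_mul, pow_orderOf_eq_one, one_pow], by rw [pow_mul', ha, one_pow]⟩)))).resolve_right fun h =>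
        h4 ((Nat.prime_dvd_prime_iff_eq ht Nat.prime_two).1 (ht.dvd_of_dvd_pow h))
  obtain ⟨i, hi, h4⟩ := up0 hw h1
  by_cases h5 : ∃ r : Fin chevF4.nroots, H39.rootChar chevF4 r c = 1
  · obtain ⟨r, hr⟩ := h5
    obtain ⟨j, hj, h5⟩ := up0 (F := F) (mul_mem hw (reflPerm_mem r)) (c := c) (by
      rw [wM_mul hw, ← Matrix.mul_smul, zact_mul, zact_refl, hr, expY_one, div_one, h1])
    rcases hi with hi | hi
    · exact ⟨i, fun _ => hi, fun t a b d => h4 t a b (key t a b d)⟩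
    · refine ⟨j, fun _ => hj.resolve_right ?_, fun t a b d => h5 t a b (key t a b d)⟩
      rw [wM_mul hw, Matrix.det_mul, hi, det_refl]; decide
  · refine ⟨i, fun h => absurd (h.trans (orderOf_dvd_of_pow_eq_one ((h3 (orderOf c)).2 ⟨pow_orderOf_eq_one c, ?_⟩)))
      (Nat.prime_two.coprime_iff_not_dvd.1 h2.symm), fun t a b d => h4 t a b (key t a b d)⟩
    rw [Set.eq_empty_of_forall_notMem (s := {r | _}) fun r hr => h5 ⟨r, hr.2⟩, RG0.US_empty, Subgroup.mem_bot] at hu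
    rw [hu, one_pow]

theorem exT {r : ℕ} (hr : r.Prime) (h2 : r ≠ 2) (h : r ∣ Nat.card (chevF4.group F)) :
    ∃ i, T i (orderOf ((Nat.card F : ℕ) : ZMod r)) := by
  have := Fact.mk hr
  obtain ⟨x, hx⟩ := exists_prime_orderOf_dvd_card' r h
  obtain ⟨i, -, h⟩ := up x
  exact ⟨i, h r hr h2 (hx ▸ dvd_rfl)⟩

theorem odd_iff {r s : ℕ} (hr : r.Prime) (hs : s.Prime) (hrs : r ≠ s) (h2 : r ≠ 2) (h2' : s ≠ 2) :
    (∃ x : chevF4.group F, orderOf x = r * s) ↔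
      ∃ i, T i (orderOf ((Nat.card F : ℕ) : ZMod r)) ∧ T i (orderOf ((Nat.card F : ℕ) : ZMod s)) := by
  have := Fact.mk hr
  have := Fact.mk hs
  refine ⟨fun ⟨x, hx⟩ => ?_, fun ⟨i, a, b⟩ => ?_⟩
  · obtain ⟨i, -, h⟩ := up x
    exact ⟨i, h r hr h2 (hx ▸ dvd_mul_right _ _), h s hs h2' (hx ▸ dvd_mul_left _ _)⟩
  have h : ∀ {n : ℤ}, (r : ℤ) ∣ n → (s : ℤ) ∣ n → ((r * s : ℕ) : ℤ) ∣ n := fun a b => by
    rw [Nat.cast_mul]; exact (Nat.isCoprime_iff_coprime.2 ((Nat.coprime_primes hr hs).2 hrs)).mul_dvd a b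
  have hD : IsChev chevF4 := by simp
  fin_cases i
  · exact (exists_orderOf_group hD F 2 H39.centT_F4 Aw Ae (h ((dA _).2 a) ((dA _).2 b))
      (Nat.isCoprime_iff_coprime.2 (Nat.Coprime.mul_left ((Nat.coprime_primes hr Nat.prime_two).2 h2)
        ((Nat.coprime_primes hs Nat.prime_two).2 h2')))).1
  · exact (exists_orderOf_group hD F 2 H39.centT_F4 Bw Be (h ((dB _).2 a) ((dB _).2 b)) isCoprime_one_right).1
  · exact (exists_orderOf_group hD F 2 H39.centT_F4 Cw Ce (h ((dC h2 _).2 a) ((dC h2' _).2 b)) isCoprime_one_right).1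
  · exact (exists_orderOf_group hD F 2 H39.centT_F4 Dw De (h ((dD h2 _).2 a) ((dD h2' _).2 b))
      isCoprime_one_right.neg_right).1
  · exact (exists_orderOf_group hD F 2 H39.centT_F4 Ew Ee (h ((dE h2 _ (q_ne hr h2)).2 a) ((dE h2' _ (q_ne hs h2')).2 b))
      isCoprime_one_right.neg_right).1

theorem two_iff {s : ℕ} (hs : s.Prime) (h2 : s ≠ 2) (h : s ∣ Nat.card (chevF4.group F)) :
    (¬ ∃ x : chevF4.group F, orderOf x = s * 2) ↔ orderOf ((Nat.card F : ℕ) : ZMod s) ∈ ({8, 12} : Finset ℕ) := by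
  have := Fact.mk hs
  obtain ⟨i, hi⟩ := exT hs h2 h
  obtain ⟨h3, h4⟩ := comb2 _ (T_lt hi) ⟨i, hi⟩
  rw [← h3]
  refine not_congr ⟨fun ⟨x, hx⟩ => ?_, fun h => ?_⟩
  · obtain ⟨i, h5, h6⟩ := up x
    exact ⟨i, h5 (hx ▸ dvd_mul_left _ _), h6 s hs h2 (hx ▸ dvd_mul_right _ _)⟩
  have hD : IsChev chevF4 := by simp
  rcases h4 h with h | h | h
  · exact (exists_orderOf_group hD F 2 H39.centT_F4 Xw Xe ((dX _).2 h) isCoprime_one_right).2 _ Xm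
  · exact (exists_orderOf_group hD F 2 H39.centT_F4 Yw Ye ((dY h2 _).2 h) isCoprime_one_right.neg_right).2 _ Ym
  · exact (exists_orderOf_group hD F 2 H39.centT_F4 Zw Ze ((dZ h2 _).2 h) isCoprime_one_right.neg_right).2 _ Zm

end grp

/-- Let F be a finite field with q = 2^n elements and G = F₄(F). For an odd prime r let e(r, q) be the multiplicative order of q modulo r. Two distinct primes r, s dividing the order of G are non-adjacent in the prime graph of G (no element of order rs) if and only if, up to swapping r and s, either r = 2 and e(s, q) ∈ {8, 12}, or r, s are both odd with k = e(r, q) < l = e(s, q) and one of: l ∈ {8, 12}; l = 6 and k ∈ {3, 4}; l = 4 and k = 3. -/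
theorem result {F : Type*} [Field F] [Fintype F] (n : ℕ) (hn : 1 ≤ n) (hF : Fintype.card F = 2 ^ n)
    (r s : ℕ) (hr : r.Prime) (hs : s.Prime) (hrs : r ≠ s) (hrG : r ∣ Nat.card ↥(Cfsg.Lie.chevF4.group F)) (hsG : s ∣ Nat.card ↥(Cfsg.Lie.chevF4.group F)) :
    (¬ ∃ x : ↥(Cfsg.Lie.chevF4.group F), orderOf x = r * s) ↔
      ((r = 2 ∧ orderOf ((Fintype.card F : ℕ) : ZMod s) ∈ ({8, 12} : Finset ℕ)) ∨ (s = 2 ∧ orderOf ((Fintype.card F : ℕ) : ZMod r) ∈ ({8, 12} : Finset ℕ)) ∨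
       (r ≠ 2 ∧ s ≠ 2 ∧
         ((orderOf ((Fintype.card F : ℕ) : ZMod r) < orderOf ((Fintype.card F : ℕ) : ZMod s) ∧ (orderOf ((Fintype.card F : ℕ) : ZMod s) ∈ ({8, 12} : Finset ℕ) ∨ (orderOf ((Fintype.card F : ℕ) : ZMod s) = 6 ∧ orderOf ((Fintype.card F : ℕ) : ZMod r) ∈ ({3, 4} : Finset ℕ)) ∨ (orderOf ((Fintype.card F : ℕ) : ZMod s) = 4 ∧ orderOf ((Fintype.card F : ℕ) : ZMod r) = 3))) ∨
          (orderOf ((Fintype.card F : ℕ) : ZMod s) < orderOf ((Fintype.card F : ℕ) : ZMod r) ∧ (orderOf ((Fintype.card F : ℕ) : ZMod r) ∈ ({8, 12} : Finset ℕ) ∨ (orderOf ((Fintype.card F : ℕ) : ZMod r) = 6 ∧ orderOf ((Fintype.card F : ℕ) : ZMod s) ∈ ({3, 4} : Finset ℕ)) ∨ (orderOf ((Fintype.card F : ℕ) : ZMod r) = 4 ∧ orderOf ((Fintype.card F : ℕ) : ZMod s) = 3)))))) := by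
  obtain ⟨_⟩ := H37.nonempty_chev (D := Cfsg.Lie.chevF4) (by simp)
  obtain ⟨p, _⟩ := CharP.exists F
  obtain ⟨m, hp, hm⟩ := FiniteField.card F p
  obtain rfl : p = 2 := (Nat.prime_dvd_prime_iff_eq hp Nat.prime_two).1
    (hp.dvd_of_dvd_pow (hF ▸ hm ▸ dvd_pow_self p m.ne_zero))
  rw [← Nat.card_eq_fintype_card]
  by_cases h1 : r = 2
  · subst h1
    rw [mul_comm, two_iff hs hrs.symm hsG]
    simp [hrs.symm]
  by_cases h2 : s = 2
  · subst h2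
    rw [two_iff hr h1 hrG]
    simp [h1]
  obtain ⟨i, hi⟩ := exT hr h1 hrG
  obtain ⟨j, hj⟩ := exT hs h2 hsG
  rw [odd_iff hr hs hrs h1 h2, comb _ (T_lt hi) _ (T_lt hj) ⟨i, hi⟩ ⟨j, hj⟩]
  simp only [h1, h2, false_and, false_or, ne_eq, not_false_eq_true, true_and]

end Cfsg.Agent.S2525
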