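import Cfsg.Statements.S2537
import Cfsg.Agent.H93.L2Class
import Cfsg.Agent.H49.Hall
import Cfsg.Agent.S0811
import Cfsg.Agent.S0812

set_option autoImplicit false
open Cfsg

namespace Cfsg.Agent.S2537

open Cfsg.Agent.H28 Cfsg.Agent.H93.L2

theorem not_dvd_iff {l a b q N : ℕ} (hl : l.Prime) (h : a * b = q * N) (h0 : q * N ≠ 0)
    (hq : ¬ l ∣ q) : ¬ l ∣ b ↔ N.factorization l = a.factorization l := by
  have h1 := congrArg (fun n => n.factorization l) h
  have ha := left_ne_zero_of_mul (h ▸ h0)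
  have hb := right_ne_zero_of_mul (h ▸ h0)
  simp only [Nat.factorization_mul ha hb, Nat.factorization_mul (left_ne_zero_of_mul h0)
    (right_ne_zero_of_mul h0), Finsupp.add_apply, Nat.factorization_eq_zero_of_not_dvd hq] at h1
  rw [hl.dvd_iff_one_le_factorization hb]
  omega

theorem fact_two (a b : ℕ) : (2 ^ a * 3 ^ b).factorization 2 = a := by
  rw [Nat.factorization_mul (by positivity) (by positivity), Nat.prime_two.factorization_pow,
    Nat.prime_three.factorization_pow]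
  simp

theorem fact_three (a b : ℕ) : (2 ^ a * 3 ^ b).factorization 3 = b := by
  rw [Nat.factorization_mul (by positivity) (by positivity), Nat.prime_two.factorization_pow,
    Nat.prime_three.factorization_pow]
  simp

theorem mem_of_dvd {l a b : ℕ} (hl : l.Prime) (h : l ∣ 2 ^ a * 3 ^ b) : l ∈ ({2, 3} : Set ℕ) := by
  rcases hl.dvd_mul.1 h with h | h
  · exact Or.inl ((Nat.prime_dvd_prime_iff_eq hl Nat.prime_two).1 (hl.dvd_of_dvd_pow h))
  · exact Or.inr ((Nat.prime_dvd_prime_iff_eq hl Nat.prime_three).1 (hl.dvd_of_dvd_pow h))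

/-- Let `F` be a finite field with `q` elements of characteristic `p ≥ 5`, and `ε = 1` if `q ≡ 1 (mod 4)`, `ε = -1` otherwise. Then `PSL(2, F)` has a Hall `{2, 3}`-subgroup if and only if `3` divides `q − ε`, or the `{2,3}`-part of `q² − 1` is 24, or the `{2,3}`-part of `q² − 1` is 48 (the `{2,3}`-part of `m` being the largest divisor of `m` with no prime factor other than 2 and 3). -/
theorem result {F : Type*} [Field F] [Fintype F] {p : ℕ} [Fact p.Prime] [CharP F p]
    (hp : 5 ≤ p) (q : ℕ) (hq : Fintype.card F = q) :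
    (∃ H : Subgroup (Matrix.ProjectiveSpecialLinearGroup (Fin 2) F), Cfsg.IsPiHall ({2, 3} : Set ℕ) H) ↔
      (3 ∣ q - 1 ∧ q % 4 = 1) ∨ (3 ∣ q + 1 ∧ q % 4 = 3) ∨
        2 ^ (q ^ 2 - 1).factorization 2 * 3 ^ (q ^ 2 - 1).factorization 3 = 24 ∨
        2 ^ (q ^ 2 - 1).factorization 2 * 3 ^ (q ^ 2 - 1).factorization 3 = 48 := by
  classical
  have hpp : p.Prime := Fact.out
  rw [← Nat.card_eq_fintype_card] at hq
  have hρ := pslInc_injective (F := F)
  have hL := (range_pslInc (F := F)).ge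
  have ho : q % 2 = 1 := hq ▸ (odd_card_iff p).2 (by omega)
  have h3 : ¬ 3 ∣ q := fun e => by
    obtain ⟨n, -, hn⟩ := FiniteField.card F p
    rw [← hq, Nat.card_eq_fintype_card, hn] at e
    have := (Nat.prime_dvd_prime_iff_eq Nat.prime_three hpp).1 (Nat.prime_three.dvd_of_dvd_pow e)
    omega
  have h5 : 5 ≤ q := hp.trans (Nat.le_of_dvd (hq ▸ Nat.card_pos) (hq ▸ char_dvd_card p))
  have hd := card_of_range_eq hρ (range_pslInc (F := F))
  rw [((gcd_cases (Finite.one_lt_card (α := F)).le).resolve_right fun e => by omega).2] at hd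
  have h0 : q * (q ^ 2 - 1) ≠ 0 := by rw [← hq, ← hd]; exact mul_ne_zero two_ne_zero Nat.card_pos.ne'
  have key : ∀ (H : Subgroup (Matrix.ProjectiveSpecialLinearGroup (Fin 2) F)) (a b : ℕ),
      2 * Nat.card H = 2 ^ a * 3 ^ b → (IsPiHall {2, 3} H ↔
        2 ^ (q ^ 2 - 1).factorization 2 * 3 ^ (q ^ 2 - 1).factorization 3 = 2 ^ a * 3 ^ b) := by
    intro H a b h
    have e : 2 ^ a * 3 ^ b * H.index = q * (q ^ 2 - 1) := by
      rw [← h, mul_assoc, H.card_mul_index, hd, hq]
    have e2 := not_dvd_iff Nat.prime_two e h0 (by omega)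
    have e3 := not_dvd_iff Nat.prime_three e h0 h3
    rw [fact_two] at e2
    rw [fact_three] at e3
    constructor
    · intro hH
      rw [e2.1 (hH.2 2 Nat.prime_two (by simp)), e3.1 (hH.2 3 Nat.prime_three (by simp))]
    · intro hH
      refine ⟨fun l hl hl' => mem_of_dvd hl (h ▸ hl'.mul_left 2), ?_⟩
      rintro _ - (rfl | rfl)
      · exact e2.2 (by rw [← fact_two a b, ← hH, fact_two])
      · exact e3.2 (by rw [← fact_three a b, ← hH, fact_three])
  have idx : ∀ (T : Subgroup (Matrix.ProjectiveSpecialLinearGroup (Fin 2) F)),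
      (Nat.card T = q - 1 → 2 * T.index = q * (q + 1)) ∧
        (Nat.card T = q + 1 → 2 * T.index = q * (q - 1)) := fun T => by
    rw [← T.card_mul_index, hq] at hd
    obtain ⟨k, rfl⟩ : ∃ k, q = k + 2 := ⟨q - 2, by omega⟩
    rw [show (k + 2) ^ 2 - 1 = (k + 1) * (k + 3) from Nat.sub_eq_of_eq_add (by ring)] at hd
    constructor <;> intro h <;> rw [h] at hd
    · exact Nat.eq_of_mul_eq_mul_left (by omega : 0 < k + 1) (by
        rw [mul_left_comm, show k + 1 = k + 2 - 1 from rfl, hd]; simp; ring)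
    · exact Nat.eq_of_mul_eq_mul_left (by omega : 0 < k + 2 + 1) (by
        rw [mul_left_comm, hd, show k + 2 - 1 = k + 1 from rfl]; ring)
  have cop : ∀ i m, 2 * i = q * m → ((¬ 2 ∣ i ∧ ¬ 3 ∣ i) ↔ (¬ 4 ∣ m ∧ ¬ 3 ∣ m)) := fun i m h => by
    have c4 : Nat.Coprime 4 q := (Nat.coprime_two_left.2 (Nat.odd_iff.2 ho)).pow_left 2
    have c3 : Nat.Coprime 3 q := (Nat.Prime.coprime_iff_not_dvd Nat.prime_three).2 h3
    have a4 : 4 ∣ m ↔ 4 ∣ q * m := ⟨fun h => h.mul_left _, c4.dvd_of_dvd_mul_left⟩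
    have a3 : 3 ∣ m ↔ 3 ∣ q * m := ⟨fun h => h.mul_left _, c3.dvd_of_dvd_mul_left⟩
    rw [a4, a3, ← h]
    omega
  constructor
  · rintro ⟨H, hH⟩
    have hp' : ¬ p ∣ Nat.card H := fun e => by
      have := hH.1 p hpp e
      simp only [Set.mem_insert_iff, Set.mem_singleton_iff] at this
      omega
    have hH' : H ≠ ⊤ := by
      rintro rfl
      rw [Subgroup.card_top] at hp'
      exact hp' (Nat.Coprime.dvd_of_dvd_mul_left
        ((Nat.coprime_primes hpp Nat.prime_two).2 (by omega)) (hd ▸ (char_dvd_card p).mul_right _))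
    have i2 := hH.2 2 Nat.prime_two (by simp)
    have i3 := hH.2 3 Nat.prime_three (by simp)
    rcases dickson hρ p H (not_le_map_of_ne_top hρ range_pslInc hH') with
      ⟨x, h⟩ | ⟨c, -, hc, h⟩ | ⟨-, -, ⟨e⟩⟩ | ⟨-, -, ⟨e⟩⟩ | ⟨-, -, ⟨e⟩⟩ | ⟨t, K, -, -, h⟩
    · have := Subgroup.index_dvd_of_le h
      rw [index_stab hL, hq] at this
      exact absurd (Dvd.dvd.trans (by omega) this) i2
    · have h1 := Subgroup.index_dvd_of_le h
      have h2 : ¬ 2 ∣ (torN c).index ∧ ¬ 3 ∣ (torN c).index :=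
        ⟨fun e => i2 (e.trans h1), fun e => i3 (e.trans h1)⟩
      obtain ⟨n, ⟨e⟩, -, ⟨-, hn⟩ | ⟨-, hn⟩⟩ := torN_card hρ p hL hd hc
      · have := (cop _ _ ((idx _).1 (by rw [card_of_dih e]; omega))).1 h2
        have a4 : q % 4 = 1 := by omega
        have a3 : q % 3 = 1 := by omega
        exact Or.inl ⟨by omega, a4⟩
      · have := (cop _ _ ((idx _).2 (by rw [card_of_dih e]; omega))).1 h2
        have a4 : q % 4 = 3 := by omega
        have a3 : q % 3 = 2 := by omega
        exact Or.inr (Or.inl ⟨by omega, a4⟩)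
    · exact Or.inr (Or.inr (Or.inl ((key H 3 1 (by
        rw [Nat.card_congr e.toEquiv, card_alt4]; rfl)).1 hH)))
    · exact Or.inr (Or.inr (Or.inr ((key H 4 1 (by
        rw [Nat.card_congr e.toEquiv, card_sym4]; rfl)).1 hH)))
    · have := hH.1 5 Nat.prime_five (by rw [Nat.card_congr e.toEquiv, card_alt5]; norm_num)
      simp at this
    · refine absurd ((char_dvd_card_subfield p K).trans ((card_dvd_card_cj_subPSL K t).trans ?_)) hp'
      rw [← Subgroup.card_map_of_injective hρ]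
      refine Subgroup.card_dvd_of_le ?_
      rcases h with h | ⟨-, h⟩ <;> rw [h]
      exact Subgroup.map_mono (subPSL_le K)
  · have dih : ∀ (T : Subgroup (Matrix.ProjectiveSpecialLinearGroup (Fin 2) F)),
        Group.IsSolvable T → (¬ 2 ∣ T.index ∧ ¬ 3 ∣ T.index) → ∃ H : Subgroup
          (Matrix.ProjectiveSpecialLinearGroup (Fin 2) F), IsPiHall {2, 3} H := fun T hT h => by
      obtain ⟨H, h1, h2, h3⟩ := H49.exists_hall hT {2, 3}
      refine ⟨H, h2, fun l hl hl' e => ?_⟩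
      rw [← Subgroup.relIndex_mul_index h1, hl.dvd_mul] at e
      refine h3 l hl hl' (e.resolve_right ?_)
      rcases hl' with rfl | rfl
      exacts [h.1, h.2]
    have g2 : ∀ m, 2 ∣ m → 2 * (m / Nat.gcd 2 (q - 1)) = m := fun m hm => by
      rw [Nat.gcd_eq_left (by omega)]; omega
    rintro (⟨a, b⟩ | ⟨a, b⟩ | h | h)
    · by_cases hs : q ∈ ({2, 3, 5, 7, 9, 11} : Finset ℕ)
      · simp only [Finset.mem_insert, Finset.mem_singleton] at hs
        omega
      obtain ⟨T, -, ⟨e⟩⟩ := S0812.result (Nat.card_eq_fintype_card (α := F) ▸ hq) hs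
      exact dih T (solvable_of_equiv e (dih_solvable _))
        ((cop _ _ ((idx T).1 (by rw [card_of_dih e, g2 _ (by omega)]))).2 (by omega))
    · by_cases hs : q ∈ ({2, 7, 9} : Finset ℕ)
      · simp only [Finset.mem_insert, Finset.mem_singleton] at hs
        omega
      obtain ⟨T, -, ⟨e⟩⟩ := S0811.result (Nat.card_eq_fintype_card (α := F) ▸ hq) hs
      exact dih T (solvable_of_equiv e (dih_solvable _))
        ((cop _ _ ((idx T).2 (by rw [card_of_dih e, g2 _ (by omega)]))).2 (by omega))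
    · obtain ⟨φ, hφ⟩ := exists_alt4 (F := F) (two_ne_zero_of (hq ▸ ho))
      obtain ⟨e⟩ := equiv_comap_range hρ hφ ((alt_le_pslIn φ).trans hL)
      exact ⟨_, (key _ 3 1 (by rw [Nat.card_congr e.toEquiv, card_alt4]; rfl)).2 h⟩
    · have h4 : (q ^ 2 - 1).factorization 2 = 4 := by
        rw [← fact_two 4 1, show 2 ^ 4 * 3 ^ 1 = 48 from rfl, ← h, fact_two]
      have h6 := (Nat.prime_two.pow_dvd_iff_le_factorization (right_ne_zero_of_mul h0)).2 h4.ge
      have h7 : q % 8 = 1 ∨ q % 8 = 7 := by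
        have h8 : q ^ 2 % 16 = 1 := by
          have : 1 ≤ q ^ 2 := Nat.one_le_pow _ _ (by omega)
          omega
        rw [Nat.pow_mod] at h8
        rw [← Nat.mod_mod_of_dvd q (by norm_num : 8 ∣ 16)]
        have : q % 16 < 16 := Nat.mod_lt _ (by norm_num)
        generalize q % 16 = r at this h8 ⊢
        interval_cases r <;> simp at h8 ⊢
      obtain ⟨X, ⟨e⟩⟩ := exists_s4_psl (F := F) (hq ▸ h7)
      exact ⟨_, (key _ 4 1 (by rw [Nat.card_congr e.toEquiv, card_sym4]; rfl)).2 h⟩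

end Cfsg.Agent.S2537
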