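import Cfsg.Statements.S2556
import Cfsg.Agent.H13.SzInst
import Cfsg.Agent.H13.SzAutS

set_option autoImplicit false
open Cfsg

namespace Cfsg.Agent.S2556

open Cfsg.Agent.H13
set_option linter.style.haveILetI false

/-- Let S be a Sylow 2-subgroup of the Suzuki group Sz(q), q = 2ⁿ with n = 2m + 1 ≥ 3 (realised as 4 × 4 matrices over the field with q elements). Then the largest normal 2-subgroup of the automorphism group of S is elementary abelian of order 2^(n²), and the automorphism group of S has order 2^(n²) · n · (q − 1). -/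
theorem result {S : Type*} [Group S] [Finite S] (m : ℕ) (hm : 1 ≤ m)
    {F : Type*} [Field F] [Fintype F] (hF : Fintype.card F = 2 ^ (2 * m + 1))
    (P : Sylow 2 ↥(Cfsg.Lie.Sz F (2 ^ (m + 1)))) (hS : Nonempty (S ≃* ↥(P : Subgroup ↥(Cfsg.Lie.Sz F (2 ^ (m + 1)))))) :
    Cfsg.IsElementaryAbelian 2 (Cfsg.pCore 2 (MulAut S)) ∧ Nat.card ↥(Cfsg.pCore 2 (MulAut S)) = 2 ^ ((2 * m + 1) ^ 2) ∧
      Nat.card (MulAut S) = 2 ^ ((2 * m + 1) ^ 2) * ((2 * m + 1) * (2 ^ (2 * m + 1) - 1)) := by
  letI := titsOfCard hF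
  haveI := charP_of_card hF
  letI : Algebra (ZMod 2) F := ZMod.algebra F 2
  obtain ⟨e⟩ := hS
  obtain ⟨k, hk⟩ := (lieModel (titsOfCard_θ hF)).exists_conj_U P
  set M := (lieModel (titsOfCard_θ hF)).conj k
  have ex : ∀ s : S, ∃ a b, (e s : Cfsg.Lie.Sz F (2 ^ (m + 1))) = M.u a b := fun s =>
    M.mem_U.1 (hk ▸ (e s).2)
  choose c1 c2 hc using ex
  have hm' : ∀ a b, M.u a b ∈ (P : Subgroup (Cfsg.Lie.Sz F (2 ^ (m + 1)))) := fun a b =>
    hk ▸ M.u_mem_U a b
  let C : AutS.Co F S :=
    { U := fun a b => e.symm ⟨M.u a b, hm' a b⟩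
      c1 := c1
      c2 := c2
      mul := fun a b c d => by
        rw [← map_mul]
        exact congrArg e.symm (Subtype.ext (M.u_mul_u a b c d))
      eta := fun s => by
        rw [MulEquiv.symm_apply_eq]
        exact Subtype.ext (hc s).symm
      c1U := fun a b => by
        have := hc (e.symm ⟨M.u a b, hm' a b⟩)
        rw [MulEquiv.apply_symm_apply] at this
        exact (M.u_inj.1 this).1.symm
      c2U := fun a b => by
        have := hc (e.symm ⟨M.u a b, hm' a b⟩)
        rw [MulEquiv.apply_symm_apply] at this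
        exact (M.u_inj.1 this).2.symm }
  exact C.main (titsOfCard_θ hF) (by rw [Nat.card_eq_fintype_card, hF]) (by omega) ⟨m, rfl⟩

end Cfsg.Agent.S2556
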