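import Cfsg.Statements.S2557
import Cfsg.Agent.H29.C2Low
import Cfsg.Agent.H67.Char2Quad

set_option autoImplicit false
open Cfsg

namespace Cfsg.Agent.S2557

open H29 Module

/-- The number of conjugacy classes of Sp(2n,q), q even: for F a finite field of even order q and n ≥ 1, the number k of conjugacy classes of Sp(2n,F) satisfies q^n ≤ k ≤ 15.2·q^n. -/
theorem result {F : Type*} [Field F] [Fintype F] (heven : Even (Fintype.card F)) (n : ℕ) (hn : 1 ≤ n) :
    Fintype.card F ^ n ≤ Nat.card (ConjClasses (Matrix.symplecticGroup (Fin n) F)) ∧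
      5 * Nat.card (ConjClasses (Matrix.symplecticGroup (Fin n) F)) ≤ 76 * Fintype.card F ^ n := by
  classical
  have h2 : (2 : F) = 0 := by_contra fun h => by
    have := H27.card_mod_two_of_two_ne_zero h
    have := Nat.even_iff.1 heven
    omega
  haveI : CharP F 2 := CharTwo.of_one_ne_zero_of_two_eq_zero one_ne_zero h2
  let ρ : Matrix.symplecticGroup (Fin n) F →* End F (Fin n ⊕ Fin n → F) :=
    ⟨⟨fun A => Matrix.toLin' A.1, Matrix.toLin'_one⟩, fun A B => Matrix.toLin'_mul _ _⟩
  have h : Full (H27.sympBilin n F) ρ :=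
    ⟨fun A x y => by simp only [H27.sympBilin_apply]; exact H27.sp_sympForm A x y,
      fun A B e => H27.sp_ext fun u => LinearMap.congr_fun e u, fun T hT => by
        obtain ⟨A, hA⟩ := H27.exists_sp_of_isometry T fun u v => by
          simpa only [H27.sympBilin_apply] using hT u v
        exact ⟨A, LinearMap.ext hA⟩⟩
  have h3 : ∀ Q : QuadraticForm F (Fin n ⊕ Fin n → F), (∀ x y, QuadraticMap.polar Q x y =
      QuadraticMap.polar (H67.QPlus F n) x y) → Q2 (H27.sympBilin n F) Q := fun Q e =>
    ⟨h2, fun x y => by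
      rw [H27.sympBilin_apply, ← H67.polar_QPlus_eq_sympForm, ← e, QuadraticMap.map_add (f := Q)],
      fun c x => by rw [Q.map_smul, sq, smul_eq_mul]⟩
  obtain ⟨k, rfl⟩ := Nat.exists_eq_add_of_le' hn
  have h4 : finrank F (Fin (k + 1) ⊕ Fin (k + 1) → F) = 2 * (k + 1) := by simp; ring
  refine ⟨h.low_two (h3 _ fun _ _ => rfl) H27.sympBilin_nondegenerate h4,
    h.bound_two H27.sympBilin_nondegenerate h4 fun g => ?_⟩
  obtain ⟨Q, h5, h6⟩ := H67.exists_invariant_quad (H67.QPlus F _) (T := ρ g) fun x y => by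
    simpa only [H67.polar_QPlus_eq_sympForm, ← H27.sympBilin_apply] using h.iso g x y
  exact ⟨Q, h3 Q h5, fun x => by simp [h6]⟩

end Cfsg.Agent.S2557
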