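import Cfsg.Statements.S2559
import Cfsg.Agent.H29.C2Low
import Cfsg.Agent.H28.StdForms

set_option autoImplicit false
open Cfsg

namespace Cfsg.Agent.S2559

open H29 Module QuadraticMap

theorem aux {F : Type*} [Field F] [Fintype F] (h2 : (2 : F) = 0) {κ : Type} [Fintype κ]
    [DecidableEq κ] {Q : QuadraticForm F (κ → F)} (hQ : (polarBilin Q).Nondegenerate) {k : ℕ}
    (hk : Fintype.card κ = 2 * (k + 2)) :
    Fintype.card F ^ (k + 2) ≤ 2 * Nat.card (ConjClasses (H28.O Q)) ∧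
      Nat.card (ConjClasses (H28.O Q)) ≤ 15 * Fintype.card F ^ (k + 2) := by
  classical
  have h3 : Q2 (polarBilin Q) Q := ⟨h2, QuadraticMap.map_add Q,
    fun c x => by rw [Q.map_smul, pow_two, smul_eq_mul]⟩
  have h4 : finrank F (κ → F) = 2 * (k + 2) := by simp [hk]
  have h5 : Function.Injective (H28.rho Q) := fun _ _ e => H28.O_ext (LinearMap.congr_fun e)
  have h6 : ∀ T : End F (κ → F), (∀ x, Q (T x) = Q x) → ∃ g, H28.rho Q g = T := fun T h => by
    obtain ⟨g, hg⟩ := H67.exists_mem_isometryGroup (A := LinearMap.toMatrix' T) hQ (by simpa using h)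
    exact ⟨g, (congrArg Matrix.toLin' hg).trans (Matrix.toLin'_toMatrix' T)⟩
  exact ⟨low_O2 h3 hQ h4 h5 h6, bound_O2 hQ h4 (fun g => ⟨h3, fun x => by
    simpa using g.2 x trivial⟩) h5 h6⟩

/-- The number of conjugacy classes of the full orthogonal groups O⁺(2n,q) and O⁻(2n,q), q even, 2n ≥ 4: for F a finite field of even order q and n ≥ 2, the number k of conjugacy classes of the isometry group of the hyperbolic quadratic form Σ xᵢyᵢ on F^{2n}, and likewise of the elliptic form Σ xᵢyᵢ + (z₁² + a z₁z₂ + b z₂²) with anisotropic binary part, satisfies q^n/2 ≤ k ≤ 15·q^n. -/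
theorem result {F : Type*} [Field F] [Fintype F] (heven : Even (Fintype.card F)) (n : ℕ) (hn : 2 ≤ n) (a b : F) (hab : ∀ z₁ z₂ : F, z₁ ^ 2 + a * z₁ * z₂ + b * z₂ ^ 2 = 0 → z₁ = 0 ∧ z₂ = 0) :
    (Fintype.card F ^ n ≤ 2 * Nat.card (ConjClasses ↥(Cfsg.isometryGroup F (Cfsg.quadFormPlus n F))) ∧
      Nat.card (ConjClasses ↥(Cfsg.isometryGroup F (Cfsg.quadFormPlus n F))) ≤ 15 * Fintype.card F ^ n) ∧
    (Fintype.card F ^ n ≤ 2 * Nat.card (ConjClasses ↥(Cfsg.isometryGroup F (Cfsg.quadFormMinus (n - 1) F a b))) ∧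
      Nat.card (ConjClasses ↥(Cfsg.isometryGroup F (Cfsg.quadFormMinus (n - 1) F a b))) ≤ 15 * Fintype.card F ^ n) := by
  have h2 : (2 : F) = 0 := by_contra fun h => by
    have := H27.card_mod_two_of_two_ne_zero h
    have := Nat.even_iff.1 heven
    omega
  obtain ⟨k, rfl⟩ := Nat.exists_eq_add_of_le' hn
  exact ⟨aux h2 (H28.qPlus_nondeg _) (by simp [two_mul]),
    aux h2 (H28.qMinus_nondeg _ hab) (by simp; ring)⟩

end Cfsg.Agent.S2559
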