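import Cfsg.Statements.S2648
import Cfsg.Agent.H85.DLen

set_option autoImplicit false
open Cfsg

namespace Cfsg.Agent.S2648

open H85 Matrix Subgroup
open scoped commutatorElement

theorem quat (k : ℕ) (hk : 1 ≤ k) : ds (⊤ : Subgroup (QuaternionGroup (2 ^ k))) 2 = ⊥ ∧
    ds (⊤ : Subgroup (QuaternionGroup (2 ^ k))) 1 ≠ ⊥ := by
  constructor
  · let A : Subgroup (QuaternionGroup (2 ^ k)) :=
      { carrier := Set.range QuaternionGroup.a
        mul_mem' := by rintro _ _ ⟨i, rfl⟩ ⟨j, rfl⟩; exact ⟨_, rfl⟩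
        one_mem' := ⟨0, rfl⟩
        inv_mem' := by rintro _ ⟨i, rfl⟩; exact ⟨_, rfl⟩ }
    have h1 : ds (⊤ : Subgroup (QuaternionGroup (2 ^ k))) 1 ≤ A := commutator_le.2 (by
      rintro (i | i) - (j | j) - <;> exact ⟨_, rfl⟩)
    refine eq_bot_iff.2 ((commutator_mono h1 h1).trans (commutator_le.2 ?_))
    rintro _ ⟨i, rfl⟩ _ ⟨j, rfl⟩
    rw [mem_bot, commutatorElement_eq_one_iff_mul_comm, QuaternionGroup.a_mul_a,
      QuaternionGroup.a_mul_a, add_comm]
  · intro h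
    have h1 := commutator_mem_commutator (mem_top (QuaternionGroup.a (1 : ZMod (2 * 2 ^ k))))
      (mem_top (QuaternionGroup.xa 0))
    rw [show ⁅(⊤ : Subgroup (QuaternionGroup (2 ^ k))), ⊤⁆ = ⊥ from h, mem_bot,
      commutatorElement_eq_one_iff_mul_comm, QuaternionGroup.a_mul_xa,
      QuaternionGroup.xa_mul_a] at h1
    have h2 : ((2 : ℕ) : ZMod (2 * 2 ^ k)) = 0 := by
      have := QuaternionGroup.xa.inj h1
      push_cast; linear_combination -this
    rw [ZMod.natCast_eq_zero_iff] at h2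
    have := Nat.le_of_dvd two_pos h2
    have := Nat.one_lt_two_pow (n := k) (by omega)
    omega

theorem sl2 {F : Type*} [Field F] [Fintype F] (hF : Odd (Fintype.card F))
    (D : Sylow 2 (SpecialLinearGroup (Fin 2) F)) :
    ds (D : Subgroup (SpecialLinearGroup (Fin 2) F)) 2 = ⊥ ∧
      ds (D : Subgroup (SpecialLinearGroup (Fin 2) F)) 1 ≠ ⊥ := by
  obtain ⟨k, hk, ⟨e⟩⟩ := S0261.result hF D
  have h : ∀ j, ds (D : Subgroup (SpecialLinearGroup (Fin 2) F)) j = ⊥ ↔
      ds (⊤ : Subgroup (QuaternionGroup (2 ^ k))) j = ⊥ := fun j => by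
    rw [ds_eq_bot_iff, ← ds_top, ← ds_map_eq_bot_iff (f := e.toMonoidHom) _ e.injective,
      map_top_of_surjective _ e.surjective]
  rw [Ne, h, h]
  exact quat k hk

theorem lower {F : Type*} [Field F] [Fintype F] (hF : Odd (Fintype.card F)) (j : ℕ) :
    ∃ H : Subgroup (symplecticGroup (Fin (2 ^ j)) F), IsPGroup 2 H ∧ ds H (j + 1) ≠ ⊥ := by
  classical
  induction j with
  | zero =>
    obtain ⟨D⟩ : Nonempty (Sylow 2 (SpecialLinearGroup (Fin 2) F)) := inferInstance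
    have hinj : Function.Injective ((spWD (Fin (2 ^ 0)) F).ins 0) := fun a b h => by
      simpa using congrFun ((spWD (Fin (2 ^ 0)) F).β_inj h) 0
    exact ⟨_, D.isPGroup'.map ((spWD (Fin (2 ^ 0)) F).ins 0),
      fun h => (sl2 hF D).2 ((ds_map_eq_bot_iff _ hinj _).1 h)⟩
  | succ j ih =>
    obtain ⟨H, h1, h2⟩ := ih
    obtain ⟨w⟩ := exists_spWD (Fin (2 ^ j)) (Fin 2) F
    obtain ⟨φ, hφ⟩ := emb_sp_reindex (Fin (2 ^ j) × Fin 2) (Fin (2 ^ (j + 1))) F finProdFinEquiv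
    have hT : IsPGroup 2 (⊤ : Subgroup (Equiv.Perm (Fin 2))) :=
      IsPGroup.of_card (n := 1) (by rw [card_top, Nat.card_perm]; simp)
    exact ⟨_, (w.push φ hφ).isPGroup_W h1 hT, (w.push φ hφ).ds_W_ne_bot
      (mem_top (Equiv.swap 0 1)) (i := 0) (by decide) h2⟩

/-- Let q be odd, F a field with q elements and n ≥ 1. A Sylow 2-subgroup R of the symplectic group Sp_{2n}(F) has derived length exactly k + 1, where 2^k ≤ 2n < 2^{k+1}: the (k+1)-st term of its derived series is trivial and the k-th is not. -/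
theorem result {F : Type*} [Field F] [Fintype F] [DecidableEq F] (q : ℕ) (hF : Fintype.card F = q) (hq : Odd q) (n : ℕ) (hn : 1 ≤ n) (R : Sylow 2 ↥(Matrix.symplecticGroup (Fin n) F)) : derivedSeries ↥(R : Subgroup ↥(Matrix.symplecticGroup (Fin n) F)) (Nat.log 2 (2 * n) + 1) = ⊥ ∧ derivedSeries ↥(R : Subgroup ↥(Matrix.symplecticGroup (Fin n) F)) (Nat.log 2 (2 * n)) ≠ ⊥ := by
  subst hF
  have h1 := Fintype.one_lt_card (α := F)
  rw [mul_comm, Nat.log_mul_base one_lt_two (by omega), Ne, ← ds_eq_bot_iff, ← ds_eq_bot_iff]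
  constructor
  · obtain ⟨D⟩ : Nonempty (Sylow 2 (SpecialLinearGroup (Fin 2) F)) := inferInstance
    obtain ⟨T⟩ : Nonempty (Sylow 2 (Equiv.Perm (Fin n))) := inferInstance
    refine ds_sylow' ((spWD (Fin n) F).isPGroup_W D.isPGroup' T.isPGroup') ?_
      ((spWD (Fin n) F).ds_W_eq_bot (ds_sylow_perm 2 n T) (sl2 hq D).1) R
    rw [WD.card_W, card_sylow_sl2 hq, card_sylow_perm, S0245.result rfl,
      Nat.factorization_def _ Nat.prime_two, padicValNat.mul (by positivity)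
        (Finset.prod_ne_zero_iff.2 fun i _ => pow_sub_one_ne_zero h1 (by omega)),
      val2_eq_zero hq.pow, val2_prod_even h1 hq, Fintype.card_fin, ← pow_mul, ← pow_add, zero_add,
      mul_comm]
  · intro h
    obtain ⟨H, h2, h3⟩ := lower hq (Nat.log 2 n)
    obtain ⟨φ, hφ⟩ := Emb.trans ⟨MonoidHom.inl _ _, fun _ _ h => congrArg Prod.fst h⟩
      (emb_sp_add F _ _ n (Nat.add_sub_cancel' (Nat.pow_log_le_self 2 (by omega : n ≠ 0))))
    exact h3 ((ds_map_eq_bot_iff _ hφ _).1 (ds_sylow (h2.map φ) R h))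

end Cfsg.Agent.S2648
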