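import Cfsg.Statements.S2661
import Cfsg.Agent.H13.TwFus
import Cfsg.Agent.H40.F4b

set_option autoImplicit false
open scoped MatrixGroups
open Cfsg

namespace Cfsg.Agent.S2661

open Cfsg.Agent.H13
set_option linter.style.haveILetI false

theorem seven (n : ℕ) : ¬ ((2 : ZMod 7) ^ n) ^ 12 * (((2 : ZMod 7) ^ n) ^ 3 + 1) *
    (((2 : ZMod 7) ^ n + 1) * (((2 : ZMod 7) ^ n) ^ 2 + 1)) * (((2 : ZMod 7) ^ n) ^ 6 + 1) = 0 := by
  have : ∀ k : ℕ, (2 : ZMod 7) ^ k = 1 ∨ (2 : ZMod 7) ^ k = 2 ∨ (2 : ZMod 7) ^ k = 4 := by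
    intro k
    induction k with
    | zero => simp
    | succ k ih => rcases ih with h | h | h <;> rw [pow_succ, h] <;> decide
  rcases this n with h | h | h <;> rw [h] <;> decide

open Cfsg.Agent.H40 Cfsg.Lie in
theorem key {K : Type*} [Field K] [Fintype K] {e : ℕ} (θ : Th K 2 e) {n : ℕ} (hK : Nat.card K = 2 ^ n)
    (Q : Subgroup (twistedF4 K e)) (hQ : IsPGroup 7 Q) (g : twistedF4 K e)
    (hg : ∀ x ∈ Q, g * x * g⁻¹ ∈ Q) : ∀ x ∈ Q, g ^ 16 * x * (g ^ 16)⁻¹ = x := by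
  haveI : Fact (Nat.Prime 7) := ⟨by norm_num⟩
  set D : Subgroup (twistedF4 K e) := (chevF4.diagonalSubgroup K ⊓ twistedF4 K e).subgroupOf (twistedF4 K e)
  have hD : Nat.card D = (Nat.card K - 1) ^ 2 := by
    rw [← card_H1_F4 θ]
    exact Nat.card_congr (Subgroup.subgroupOfEquivOfLe inf_le_right).toEquiv
  have hI : ¬ 7 ∣ D.index := by
    have h1 := D.card_mul_index
    rw [hD, card_F4 θ] at h1
    obtain ⟨r, hr⟩ : ∃ r, Nat.card K = r + 2 := ⟨Nat.card K - 2, by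
      have := Finite.one_lt_card (α := K); omega⟩
    have h2 : D.index = Nat.card K ^ 12 * (Nat.card K ^ 3 + 1) * ((Nat.card K + 1) * (Nat.card K ^ 2 + 1)) *
        (Nat.card K ^ 6 + 1) := by
      refine Nat.eq_of_mul_eq_mul_left (show 0 < (Nat.card K - 1) ^ 2 by rw [hr]; simp) ?_
      rw [h1, hr, show (r + 2) ^ 4 - 1 = (r + 1) * ((r + 2 + 1) * ((r + 2) ^ 2 + 1)) from
        Nat.sub_eq_of_eq_add (by ring), show r + 2 - 1 = r + 1 from rfl]
      ring
    rw [h2, ← ZMod.natCast_eq_zero_iff, hK]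
    push_cast
    exact seven n
  obtain ⟨P, hP, -⟩ := H4.IsSylowIn.exists_le (p := 7) (Q := ⊥) (K := D) IsPGroup.of_bot bot_le
  have hP' : ¬ 7 ∣ P.index := by
    rw [← Subgroup.relIndex_mul_index hP.le]
    exact fun h => ((Nat.Prime.dvd_mul (by norm_num)).1 h).elim hP.not_dvd hI
  obtain ⟨c, hc⟩ := H4.exists_conj_mem_sylow hQ (hP.isPGroup.toSylow hP')
  intro x hx
  have hW : Nat.card (TF θ).mt.W1 = 16 := (TF θ).card_W1 (by decide) (by decide) tabF4 enumF4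
  have := tw_pow_comm (TF θ).mt (g := (c * g * c⁻¹ : twistedF4 K e))
    (Q := {y | ∃ x ∈ Q, y = (c * x * c⁻¹ : twistedF4 K e)}) (x := (c * x * c⁻¹ : twistedF4 K e)) ?_
    ((Fix_F4 θ).ge (c * g * c⁻¹).2) ?_ ?_ ⟨x, hx, rfl⟩
  · rw [hW] at this
    have h2 : (c * g * c⁻¹) ^ 16 * (c * x * c⁻¹) * ((c * g * c⁻¹) ^ 16)⁻¹ = c * x * c⁻¹ := Subtype.ext this
    rw [conj_pow] at h2
    calc _ = c⁻¹ * (c * g ^ 16 * c⁻¹ * (c * x * c⁻¹) * (c * g ^ 16 * c⁻¹)⁻¹) * c := by group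
      _ = x := by rw [h2]; group
  · exact fun a ha b hb => H_comm (H37.matRel_adj _ _) ha hb
  · rintro _ ⟨y, hy, rfl⟩
    rw [(TF θ).mt_H']
    exact (hP.le (hc y hy)).1
  · rintro _ ⟨y, hy, rfl⟩
    refine ⟨g * y * g⁻¹, hg y hy, ?_⟩
    push_cast
    group

/-- Alternating sections of the large Ree groups ²F₄. Let `m ≥ 1`, let `K` be a field with `2^(2m+1)` elements and let `G` be the large Ree group ²F₄(2^(2m+1)) realised over `K`. If some subgroup of `G` has a quotient isomorphic to the alternating group of degree `r`, then `r ≤ 6`. (Only an upper bound is asserted.) -/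
theorem result {K : Type*} [Field K] [Fintype K] {m : ℕ} (hm : 1 ≤ m)
    (hK : Fintype.card K = 2 ^ (2 * m + 1)) (r : ℕ) (H : Subgroup ↥(Cfsg.Lie.twistedF4 K (2 ^ m))) (N : Subgroup ↥H) [N.Normal]
    (h : Nonempty (↥H ⧸ N ≃* ↥(alternatingGroup (Fin r)))) :
    r ≤ 6 := by
  by_contra hr
  haveI : Fact (Nat.Prime 7) := ⟨by norm_num⟩
  obtain ⟨ψ⟩ := h
  set ι := Equiv.Perm.viaEmbeddingHom (Fin.castLEEmb (show 7 ≤ r by omega))
  have hι : Function.Injective ι := Equiv.Perm.viaEmbeddingHom_injective _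
  have hs : ∀ (x : Equiv.Perm (Fin 7)) (k : ℕ), Odd k → x ^ k = 1 → ι x ∈ alternatingGroup (Fin r) := by
    intro x k hk hx
    have : Equiv.Perm.sign (ι x) ^ k = 1 := by rw [← map_pow, ← map_pow, hx, map_one, map_one]
    rcases Int.units_eq_one_or (Equiv.Perm.sign (ι x)) with h | h
    · exact h
    · rw [h, hk.neg_one_pow] at this
      exact absurd this (by decide)
  set a : Equiv.Perm (Fin 7) := c[0, 1, 2, 3, 4, 5, 6]
  set b : Equiv.Perm (Fin 7) := c[1, 2, 4] * c[3, 6, 5]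
  have ha : a ^ 7 = 1 := by decide +kernel
  have hb : b ^ 3 = 1 := by decide +kernel
  have := sec_fus (p := 7) (e := 16)
    (key (H40.mkTh Nat.prime_two hK) (n := 2 * m + 1) (by rw [Nat.card_eq_fintype_card, hK]))
    H (ψ.toMonoidHom.comp (QuotientGroup.mk' N)) (ψ.surjective.comp (QuotientGroup.mk'_surjective N))
    (a := ⟨ι a, hs a 7 (by decide) ha⟩) (b := ⟨ι b, hs b 3 (by decide) hb⟩) (k := 2)
    (Subtype.ext (by change ι a ^ 7 = 1; rw [← map_pow, ha, map_one]))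
    (Subtype.ext (by
      change ι b * ι a * (ι b)⁻¹ = ι a ^ 2
      rw [← map_inv, ← map_mul, ← map_mul, ← map_pow]
      exact congrArg ι (by decide +kernel)))
  have h1 : ι (a ^ 2 ^ 16) = ι a := by
    have h0 := congrArg Subtype.val this
    rw [Subgroup.coe_pow] at h0
    rw [map_pow, h0]
  have h2 := hι h1
  rw [show 2 ^ 16 = 7 * 9362 + 2 by norm_num, pow_add, pow_mul, ha, one_pow, one_mul] at h2
  exact absurd h2 (by decide +kernel)

end Cfsg.Agent.S2661
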