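import Cfsg.Statements.S2758
import Cfsg.Agent.H60.S4
import Cfsg.Agent.H72.SylowIn
import Cfsg.Agent.H42.Index2
import Cfsg.Agent.H3.PResidual
import Cfsg.Agent.H60.QdExt
-- import your own Cfsg.Agent.* helpers here

set_option autoImplicit false
open Cfsg

namespace Cfsg.Agent.S2758

open Subgroup

theorem a_b {G : Type*} [Group G] [Finite G] {p : ℕ} [hp' : Fact p.Prime] (hp : p ≠ 2)
    (h : Involves (DihedralGroup p) G) : ∃ (x : G) (P : Subgroup G), (∃ k : ℕ, orderOf x = 2 ^ k) ∧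
      IsPGroup p P ∧ x ∈ normalizer (P : Set G) ∧ x ∉ centralizer (P : Set G) := by
  haveI : Fact (Nat.Prime 2) := ⟨Nat.prime_two⟩
  haveI : NeZero p := ⟨hp'.out.ne_zero⟩
  obtain ⟨K, f, hf⟩ := H94.involves_iff.mp h
  set V := zpowers (DihedralGroup.r (1 : ZMod p)) with hV
  have hVp : IsPGroup p V := IsPGroup.of_card (n := 1) (by
    rw [Nat.card_zpowers, DihedralGroup.orderOf_r_one, pow_one])
  have hr : ∀ k : ZMod p, DihedralGroup.r k ∈ V := fun k => ⟨(k.val : ℤ), by simp⟩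
  haveI : V.Normal := ⟨by
    rintro _ ⟨k, rfl⟩ (j | j) <;> simp [hr]⟩
  obtain ⟨R, hR⟩ := H72.exists_isSylowIn p (V.comap f)
  have hRV : R.map f = V := by
    have := hR.map f
    rw [map_comap_eq_self_of_surjective hf] at this
    exact this.eq_of_isPGroup hVp
  obtain ⟨k, hk⟩ := hf (DihedralGroup.sr 0)
  obtain ⟨m, hm, n, hn, rfl⟩ := hR.frattini (H := ⊤) (g := k) (by rw [normalizer_eq_top]) trivial
  obtain ⟨j, hj⟩ : ∃ j, f n = DihedralGroup.sr j := by
    obtain ⟨i, hi⟩ := hm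
    rw [map_mul, ← hi, ← eq_inv_mul_iff_mul_eq] at hk
    exact ⟨_, by rw [hk]; simp; rfl⟩
  obtain ⟨a, b, ha, hb, ⟨e, he⟩, hb2, hab⟩ := H3.exists_p_part (p := 2) n
  have h1 : f b = 1 := by
    obtain ⟨i, rfl⟩ := hb
    rw [← orderOf_eq_one_iff]
    refine Nat.eq_one_of_dvd_coprimes hb2 (orderOf_map_dvd _ _) ?_
    rw [map_zpow, ← DihedralGroup.orderOf_sr j, ← hj]
    exact orderOf_dvd_of_mem_zpowers (zpow_mem_zpowers _ _)
  rw [hab, map_mul, h1, mul_one] at hj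
  refine ⟨a, R.map K.subtype, ?_, hR.isPGroup.map _,
    le_normalizer_map K.subtype (mem_map_of_mem _ (zpowers_le.mpr hn ha)), fun hc => ?_⟩
  · obtain ⟨i, -, hi⟩ := (Nat.dvd_prime_pow Nat.prime_two).mp (orderOf_dvd_of_pow_eq_one he)
    exact ⟨i, by rw [orderOf_coe, hi]⟩
  · obtain ⟨r, hr', hr1⟩ := hRV.ge (hr 1)
    have h2 : f r * f a = f a * f r := by
      rw [← map_mul, ← map_mul]
      congr 1
      exact Subtype.ext (mem_centralizer_iff.mp hc _ (mem_map_of_mem _ hr'))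
    rw [hr1, hj, DihedralGroup.r_mul_sr, DihedralGroup.sr_mul_r, DihedralGroup.sr.injEq] at h2
    have h3 : ((2 : ℕ) : ZMod p) = 0 := by push_cast; linear_combination -h2
    rw [ZMod.natCast_eq_zero_iff] at h3
    exact hp ((Nat.prime_dvd_prime_iff_eq hp'.out Nat.prime_two).mp h3)

theorem b_c {G : Type*} [Group G] [Finite G] {p : ℕ} [Fact p.Prime] {x : G} {P : Subgroup G}
    (hx : ∃ k : ℕ, orderOf x = 2 ^ k) (hP : IsPGroup p P) (hN : x ∈ normalizer (P : Set G))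
    (hC : x ∉ centralizer (P : Set G)) : ∃ x y : G, (∃ k : ℕ, orderOf x = 2 ^ k) ∧
      (∃ k : ℕ, orderOf y = p ^ k) ∧ y ≠ 1 ∧ x * y * x⁻¹ = y⁻¹ := by
  classical
  obtain ⟨k, hk⟩ := hx
  have hex : ∃ n, x ^ 2 ^ n ∈ centralizer (P : Set G) :=
    ⟨k, by rw [← hk, pow_orderOf_eq_one]; exact one_mem _⟩
  obtain ⟨n, hn⟩ := Nat.exists_eq_succ_of_ne_zero (n := Nat.find hex) (fun h => hC (by
    have := Nat.find_spec hex
    rwa [h, pow_zero, pow_one] at this))
  have h1 := Nat.find_spec hex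
  have h2 := Nat.find_min hex (m := n) (by omega)
  rw [hn, pow_succ, pow_mul, pow_two] at h1
  rw [mem_centralizer_iff] at h2
  push Not at h2
  obtain ⟨u, hu, h2⟩ := h2
  set z := x ^ 2 ^ n with hz
  have h3 : u⁻¹ * (z * u * z⁻¹) ∈ P :=
    mul_mem (inv_mem hu) (H72.conj_mem_of_mem_normalizer (pow_mem hN _) hu)
  refine ⟨z, u⁻¹ * (z * u * z⁻¹), ?_, ?_, fun h => h2 ?_, ?_⟩
  · obtain ⟨i, -, hi⟩ := (Nat.dvd_prime_pow Nat.prime_two).mp (hk ▸ orderOf_pow_dvd (x := x) (2 ^ n))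
    exact ⟨i, hi⟩
  · obtain ⟨i, hi⟩ := IsPGroup.iff_orderOf.mp hP ⟨_, h3⟩
    exact ⟨i, by rwa [orderOf_mk] at hi⟩
  · rw [inv_mul_eq_one, eq_mul_inv_iff_mul_eq] at h
    exact h
  · calc z * (u⁻¹ * (z * u * z⁻¹)) * z⁻¹ = z * u⁻¹ * z⁻¹ * (z * z * u) * (z * z)⁻¹ := by group
      _ = _ := by rw [← mem_centralizer_iff.mp h1 u hu]; group

theorem c_a {G : Type*} [Group G] [Finite G] {p : ℕ} [hp' : Fact p.Prime] (hp : p ≠ 2) {x y : G}
    (hx : ∃ k : ℕ, orderOf x = 2 ^ k) (hy : ∃ k : ℕ, orderOf y = p ^ k) (h1 : y ≠ 1)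
    (h : x * y * x⁻¹ = y⁻¹) : Involves (DihedralGroup p) G := by
  haveI : Fact (Nat.Prime 2) := ⟨Nat.prime_two⟩
  have hcop : p.Coprime 2 := (Nat.coprime_primes hp'.out Nat.prime_two).mpr hp
  obtain ⟨k, hk⟩ := hx
  obtain ⟨j, hj⟩ := hy
  obtain ⟨m, hm1, hm⟩ := H60.exists_pow_order_prime (p := p) h1 ⟨j, by rw [← hj, pow_orderOf_eq_one]⟩
  have h2 : x * y ^ m * x⁻¹ = (y ^ m)⁻¹ := by rw [← conj_pow, h, inv_pow]
  generalize y ^ m = z at hm1 hm h2
  set H := centralizer ({x * x} : Set G) with hH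
  have hxH : x ∈ H := mem_centralizer_singleton_iff.mpr (mul_assoc _ _ _).symm
  have hzH : z ∈ H := mem_centralizer_singleton_iff.mpr (by
    calc z * (x * x) = (x * z * x⁻¹)⁻¹ * (x * x) := by rw [h2]; group
      _ = x * z⁻¹ * x := by group
      _ = _ := by rw [← h2]; group)
  set x' : H := ⟨x, hxH⟩
  set z' : H := ⟨z, hzH⟩
  set N := zpowers (x' * x') with hN
  haveI : N.Normal := ⟨fun n hn g => by
    obtain ⟨i, rfl⟩ := hn
    have : g * (x' * x') = x' * x' * g := Subtype.ext (mem_centralizer_singleton_iff.mp g.2)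
    rw [← conj_zpow, this, mul_inv_cancel_right]
    exact zpow_mem_zpowers _ _⟩
  set π := QuotientGroup.mk' N with hπ
  have h3 : π z' ≠ 1 := fun h' => by
    have h4 := orderOf_dvd_of_mem_zpowers ((QuotientGroup.eq_one_iff z').mp h')
    rw [← pow_two, orderOf_mk, orderOf_eq_prime hm hm1] at h4
    have h5 := h4.trans (orderOf_pow_dvd 2)
    rw [orderOf_mk, hk] at h5
    exact hp'.out.one_lt.ne' (Nat.eq_one_of_dvd_coprimes (hcop.pow_right k) dvd_rfl h5)
  have h4 : π z' ^ p = 1 := by rw [← map_pow, show z' ^ p = 1 from Subtype.ext hm, map_one]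
  have h5 : π x' * π z' * (π x')⁻¹ = (π z')⁻¹ := by
    rw [← map_inv, ← map_inv, ← map_mul, ← map_mul]
    congr 1
    exact Subtype.ext h2
  obtain ⟨e⟩ := H42.dihedral_recog hp'.out.ne_zero (orderOf_eq_prime h4 h3) (b := π x')
    (by rw [← map_mul]; exact (QuotientGroup.eq_one_iff _).mpr (mem_zpowers _)) h5 (by
      rintro ⟨i, hi⟩
      rw [← hi, (Commute.zpow_self _ i).eq, mul_inv_cancel_right] at h5
      exact h3 (H60.eq_one_of_inv_eq_self hcop _ 1 (by rwa [pow_one]) h5.symm))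
  exact H60.involves_of_subgroup H (H60.involves_of_surjective π (QuotientGroup.mk'_surjective N)
    (H94.involves_of_inj_surj (Subgroup.subtype _) (Subgroup.subtype_injective _) e.toMonoidHom
      e.surjective))

/-- For an odd prime p and a finite group G the following are equivalent: the dihedral group of order 2p is involved in G; some element of 2-power order normalizes but does not centralize some p-subgroup of G; some element of 2-power order inverts some nonidentity element of p-power order. -/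
theorem result {G : Type*} [Group G] [Finite G] {p : ℕ} [Fact p.Prime] (hp : p ≠ 2) : (Cfsg.Involves (DihedralGroup p) G ↔ ∃ (x : G) (P : Subgroup G), (∃ k : ℕ, orderOf x = 2 ^ k) ∧ IsPGroup p ↥P ∧ x ∈ Subgroup.normalizer (P : Set G) ∧ x ∉ Subgroup.centralizer (P : Set G)) ∧ (Cfsg.Involves (DihedralGroup p) G ↔ ∃ x y : G, (∃ k : ℕ, orderOf x = 2 ^ k) ∧ (∃ k : ℕ, orderOf y = p ^ k) ∧ y ≠ 1 ∧ x * y * x⁻¹ = y⁻¹) := by
  refine ⟨⟨a_b hp, ?_⟩, fun h => ?_, ?_⟩
  · rintro ⟨x, P, h1, h2, h3, h4⟩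
    obtain ⟨x, y, a1, a2, a3, a4⟩ := b_c h1 h2 h3 h4
    exact c_a hp a1 a2 a3 a4
  · obtain ⟨x, P, h1, h2, h3, h4⟩ := a_b hp h
    exact b_c h1 h2 h3 h4
  · rintro ⟨x, y, a1, a2, a3, a4⟩
    exact c_a hp a1 a2 a3 a4

end Cfsg.Agent.S2758
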