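import Cfsg.Statements.S2897
import Cfsg.Agent.S2896

set_option autoImplicit false
open Cfsg

namespace Cfsg.Agent.S2897



/-- Let p be a prime dividing the order of the finite group G, suppose G has parabolic characteristic p, let S be a Sylow p-subgroup of G and G₁ a normal subgroup of G. If Ω₁(Z(S ∩ G₁)) is nontrivial and contained in Ω₁(Z(S)), then G₁ has parabolic characteristic p. -/
theorem result {G : Type*} [Group G] [Finite G] {p : ℕ} [Fact p.Prime] (hdiv : p ∣ Nat.card G) (hG : Cfsg.IsOfParabolicCharacteristic p G) (S : Sylow p G) (G₁ : Subgroup G) [G₁.Normal] (hne : Cfsg.omegaOne p (((S : Subgroup G) ⊓ G₁) ⊓ Subgroup.centralizer (((S : Subgroup G) ⊓ G₁ : Subgroup G) : Set G)) ≠ ⊥) (hle : Cfsg.omegaOne p (((S : Subgroup G) ⊓ G₁) ⊓ Subgroup.centralizer (((S : Subgroup G) ⊓ G₁ : Subgroup G) : Set G)) ≤ Cfsg.omegaOne p ((S : Subgroup G) ⊓ Subgroup.centralizer ((S : Subgroup G) : Set G))) : Cfsg.IsOfParabolicCharacteristic p ↥G₁ := by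
  have hS1 : H71.SylowIn p ((S : Subgroup G) ⊓ G₁) G₁ :=
    (H71.sylowIn_top S).inf_normal le_top (Subgroup.le_normalizer_of_normal)
  obtain ⟨P, hP⟩ := hS1.exists_sylow_map
  have hd1 : p ∣ Nat.card G₁ := by
    have h1 : (S : Subgroup G) ⊓ G₁ ≠ ⊥ := by
      intro h
      exact hne (le_bot_iff.1 ((H21.omegaOne_le _ _).trans (inf_le_left.trans h.le)))
    exact (H71.dvd_card_of_isPGroup hS1.isPGroup h1).trans (Subgroup.card_dvd_of_le inf_le_right)
  refine (S2896.result hd1 P ⊥ bot_le).2.1.2 fun z hz1 hz => ?_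
  have hz' : (z : G) ∈ Cfsg.omegaOne p (((S : Subgroup G) ⊓ G₁) ⊓
      Subgroup.centralizer (((S : Subgroup G) ⊓ G₁ : Subgroup G) : Set G)) := by
    have h1 := (H21.mem_omegaOne_of_comm).1 hz
    refine H21.mem_omegaOne ⟨hP ▸ ⟨z, h1.1.1, rfl⟩, ?_⟩ (by exact_mod_cast h1.2)
    rw [← hP]
    rintro _ ⟨y, hy, rfl⟩
    exact congrArg Subtype.val (h1.1.2 y hy)
  have h2 := (S2896.result hdiv S ⊥ bot_le).2.1.1 hG z (by simpa using hz1) (hle hz')
  rw [← H71.charPIn_iff_gfitting] at h2 ⊢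
  have h3 : H72.CharPIn p (Subgroup.centralizer ({(z : G)} : Set G) ⊓ G₁) :=
    h2.of_normal inf_le_left (H71.le_normalizer_inf Subgroup.le_normalizer
      Subgroup.le_normalizer_of_normal)
  rw [← H71.charPIn_subgroupOf (K := G₁) inf_le_right] at h3
  convert h3 using 1
  ext y
  simp only [Subgroup.mem_centralizer_singleton_iff, Subgroup.mem_subgroupOf, Subgroup.mem_inf,
    y.2, and_true]
  exact Subtype.ext_iff

end Cfsg.Agent.S2897
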