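import Cfsg.Statements.S2898
import Cfsg.Agent.S2896
import Cfsg.Agent.H71.Invert

set_option autoImplicit false
open Cfsg

namespace Cfsg.Agent.S2898



/-- Let G be a finite group of even order with parabolic characteristic 2. If the centre of G ⧸ O(G) is trivial, then O(G) = 1. -/
theorem result {G : Type*} [Group G] [Finite G] (h2 : 2 ∣ Nat.card G) (hG : Cfsg.IsOfParabolicCharacteristic 2 G) [hN : (Cfsg.oddCore G).Normal] (hZ : Subgroup.center (G ⧸ Cfsg.oddCore G) = ⊥) : Cfsg.oddCore G = ⊥ := by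
  have : Fact (Nat.Prime 2) := ⟨Nat.prime_two⟩
  set O := Cfsg.oddCore G with hO
  have hOc : (Nat.card O).Coprime 2 := H44.pPrimeCore_coprime
  obtain ⟨S⟩ : Nonempty (Sylow 2 G) := inferInstance
  -- central involutions of `S` have no fixed points on `O`
  have key : ∀ z ∈ (S : Subgroup G), orderOf z = 2 →
      z ∈ Subgroup.centralizer ((S : Subgroup G) : Set G) →
      Subgroup.centralizer ({z} : Set G) ⊓ O = ⊥ := by
    intro z hz hzo hzc
    have h1 := (S2896.result h2 S ⊥ bot_le).2.1.1 hG z (H71.ne_one_of_orderOf_prime hzo)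
      (H21.mem_omegaOne ⟨hz, hzc⟩ (H71.pow_eq_one_of_orderOf hzo))
    rw [← H71.charPIn_iff_gfitting] at h1
    exact H71.CharPIn_inf_eq_bot h1 hOc Subgroup.le_normalizer_of_normal
  obtain ⟨z, hz, hzo, hzc⟩ := H71.exists_central S.isPGroup' (S.ne_bot_of_dvd_card h2) S.isPGroup'
    Subgroup.le_normalizer
  rw [sup_idem] at hzc
  have hz2 : z * z = 1 := by rw [← pow_two]; exact H71.pow_eq_one_of_orderOf hzo
  have hinv := H71.inverts_of_fpf hz2 (Subgroup.le_normalizer_of_normal (Subgroup.mem_top z))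
    (key z hz hzo hzc)
  set C := Subgroup.centralizer (O : Set G) with hC
  have hcomm : ∀ g : G, g * z * g⁻¹ * z⁻¹ ∈ C := fun g =>
    H71.commutator_mem_centralizer_of_inverts hinv
      (Subgroup.le_normalizer_of_normal (Subgroup.mem_top g))
  by_cases hCe : 2 ∣ Nat.card C
  · have hS1 : H71.SylowIn 2 ((S : Subgroup G) ⊓ C) C :=
      (H71.sylowIn_top S).inf_normal le_top (Subgroup.le_normalizer_of_normal)
    have hne : (S : Subgroup G) ⊓ C ≠ ⊥ := by
      intro h
      apply hS1.not_dvd
      rw [h, Subgroup.relIndex_bot_left]; exact hCe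
    obtain ⟨w, hw, hwo, hwc⟩ := H71.exists_central hS1.isPGroup hne S.isPGroup'
      (H71.le_normalizer_inf Subgroup.le_normalizer Subgroup.le_normalizer_of_normal)
    rw [← key w hw.1 hwo (H72.centralizer_anti le_sup_left hwc), eq_comm, inf_eq_right]
    intro x hx
    exact Subgroup.mem_centralizer_singleton_iff.2 (hw.2 x hx)
  · have hCO : C ≤ O := H44.le_pPrimeCore inferInstance
      ((Nat.coprime_comm.1 ((Nat.Prime.coprime_iff_not_dvd Nat.prime_two).2 hCe)))
    have hzZ : (QuotientGroup.mk z : G ⧸ O) ∈ Subgroup.center (G ⧸ O) := by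
      rw [Subgroup.mem_center_iff]
      intro g
      obtain ⟨g, rfl⟩ := QuotientGroup.mk_surjective g
      rw [← mul_inv_eq_one]
      have := (QuotientGroup.eq_one_iff _).2 (hCO (hcomm g))
      simpa [mul_assoc] using this
    rw [hZ, Subgroup.mem_bot, QuotientGroup.eq_one_iff] at hzZ
    have := H71.dvd_card_of_orderOf hzZ
    rw [hzo] at this
    exact absurd this ((Nat.Prime.coprime_iff_not_dvd Nat.prime_two).1 hOc.symm)

end Cfsg.Agent.S2898
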