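import Cfsg.Statements.S2905
import Cfsg.Agent.H72.PMin

set_option autoImplicit false
open Cfsg

namespace Cfsg.Agent.S2905

open Subgroup Cfsg.Agent.H92 Cfsg.Agent.H70 Cfsg.Agent.H72

/-- Let P be a finite p-minimal group (a Sylow p-subgroup S is not normal and lies in a unique maximal subgroup M of P) and let F be the normal core of M. Then: every subnormal subgroup N of P contained in M satisfies N ∩ S ≤ O_p(P); if O^p(P) has a normal Sylow p-subgroup then the order of P has at most two prime divisors; every normal subgroup N of P either contains O^p(P) or is contained in F; and O^p(P)F ⧸ F is a minimal normal subgroup of P ⧸ F. -/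
theorem result {P : Type*} [Group P] [Finite P] {p : ℕ} [Fact p.Prime] (hP : Cfsg.IsPMinimal p P) (S : Sylow p P) (M : Subgroup P) (hM : IsCoatom M) (hSM : (S : Subgroup P) ≤ M) [hF : M.normalCore.Normal] : (∀ N : Subgroup P, N.IsSubnormal → N ≤ M → N ⊓ (S : Subgroup P) ≤ Cfsg.pCore p P) ∧ ((∀ T : Sylow p ↥(Cfsg.pResidual p P), (T : Subgroup ↥(Cfsg.pResidual p P)).Normal) → (Nat.card P).primeFactors.card ≤ 2) ∧ (∀ N : Subgroup P, N.Normal → Cfsg.pResidual p P ≤ N ∨ N ≤ M.normalCore) ∧ (∀ N : Subgroup P, N.Normal → M.normalCore ≤ N → N ≤ Cfsg.pResidual p P ⊔ M.normalCore → N = M.normalCore ∨ N = Cfsg.pResidual p P ⊔ M.normalCore) ∧ M.normalCore < Cfsg.pResidual p P ⊔ M.normalCore := by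
  have h := minOver_of_isPMinimal hP S hM hSM
  have hc : ∀ N : Subgroup P, N.Normal → pResidual p P ≤ N ∨ N ≤ M.normalCore := fun N hN =>
    (h.pRes_le_or S.isPGroup' le_top norm_of_normal).imp (fun e => pRes_top.ge.trans e)
      fun e => normal_le_normalCore.2 e
  refine ⟨fun N hN hNM => ?_, fun hT => ?_, hc, fun N hN h1 h2 => ?_, right_lt_sup.2 fun e => ?_⟩
  · exact (MinOver_le_pCoreOf_of_subn h S.isPGroup' (subn_top_iff.2 hN) hNM inf_le_left
      (S.isPGroup'.to_le inf_le_right)).trans pCoreOf_top.le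
  · obtain ⟨t, -, ht⟩ := MinOver_two_primes (sylIn_top S) h (by rw [pRes_top]; exact hT)
    refine le_trans (Finset.card_le_card (t := {p, t}) fun r hr => ?_) Finset.card_le_two
    simpa using ht r (Nat.prime_of_mem_primeFactors hr) (Nat.dvd_of_mem_primeFactors hr)
  · rcases hc N hN with e | e
    · exact Or.inr (le_antisymm h2 (sup_le e h1))
    · exact Or.inl (le_antisymm e h1)
  · exact h.lt.not_ge ((pRes_sup_sylIn (sylIn_top S)).ge.trans
      (sup_le (pRes_top.le.trans (e.trans M.normalCore_le)) hSM))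

end Cfsg.Agent.S2905
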