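import Cfsg.Statements.S2907
import Mathlib.Tactic.Group

set_option autoImplicit false
open Cfsg

namespace Cfsg.Agent.S2907

/-- Let X be a finite semi-extraspecial p-group and x an element of X outside the centre. Then the index of C_X(x) in X equals the order of Z(X), and the commutators [x, y], y ∈ X, form exactly the centre Z(X). -/
theorem result {X : Type*} [Group X] [Finite X] {p : ℕ} [Fact p.Prime] (hX : Cfsg.IsSemiExtraspecial p X) (x : X) (hx : x ∉ Subgroup.center X) : (Subgroup.centralizer ({x} : Set X)).index = Nat.card ↥(Subgroup.center X) ∧ {z : X | ∃ y : X, z = x * y * x⁻¹ * y⁻¹} = (Subgroup.center X : Set X) := by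
  obtain ⟨⟨hp, -, hZ⟩, hY⟩ := hX
  have hc : ∀ a b : X, a * b * a⁻¹ * b⁻¹ ∈ Subgroup.center X := fun a b =>
    hZ ▸ Subgroup.commutator_mem_commutator (Subgroup.mem_top a) (Subgroup.mem_top b)
  let f : X →* X := MonoidHom.mk' (fun y => x * y * x⁻¹ * y⁻¹) fun a b => by
    have := Subgroup.mem_center_iff.1 (hc x b) a⁻¹
    calc x * (a * b) * x⁻¹ * (a * b)⁻¹ = x * a * x⁻¹ * ((x * b * x⁻¹ * b⁻¹) * a⁻¹) := by group
      _ = _ := by rw [← this]; group
  have hker : f.ker = Subgroup.centralizer ({x} : Set X) := by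
    ext y
    rw [MonoidHom.mem_ker, Subgroup.mem_centralizer_singleton_iff]
    change x * y * x⁻¹ * y⁻¹ = 1 ↔ _
    rw [mul_inv_eq_one, mul_inv_eq_iff_eq_mul, eq_comm]
  have hle : f.range ≤ Subgroup.center X := by
    rintro _ ⟨y, rfl⟩; exact hc x y
  have hr : f.range = Subgroup.center X := by
    by_contra hne
    obtain ⟨M, hM, hfM⟩ := (eq_top_or_exists_le_coatom
      (f.range.subgroupOf (Subgroup.center X))).resolve_left (by
        rw [Subgroup.subgroupOf_eq_top]; exact fun h => hne (le_antisymm hle h))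
    set Y := M.map (Subgroup.center X).subtype
    have hsub : Y.subgroupOf (Subgroup.center X) = M :=
      Subgroup.comap_map_eq_self_of_injective (Subgroup.center X).subtype_injective M
    obtain ⟨hn, -, hcard⟩ := hY Y (Subgroup.map_subtype_le _) (hsub ▸ hM)
    have h1 : (Subgroup.center X).map (QuotientGroup.mk' Y) ≤ Subgroup.center (X ⧸ Y) := by
      rintro _ ⟨z, hz, rfl⟩
      rw [Subgroup.mem_center_iff]
      intro g
      obtain ⟨g, rfl⟩ := QuotientGroup.mk'_surjective Y g
      rw [← map_mul, ← map_mul, Subgroup.mem_center_iff.1 hz g]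
    have h2 : (Subgroup.center X).map (QuotientGroup.mk' Y) = Subgroup.center (X ⧸ Y) := by
      have : Fact (Nat.card (Subgroup.center (X ⧸ Y))).Prime := hcard ▸ inferInstance
      rcases Subgroup.eq_bot_or_eq_top_of_prime_card (((Subgroup.center X).map
        (QuotientGroup.mk' Y)).subgroupOf (Subgroup.center (X ⧸ Y))) with h | h
      · exfalso
        rw [Subgroup.subgroupOf_eq_bot, disjoint_iff, inf_eq_left.2 h1, Subgroup.map_eq_bot_iff,
          QuotientGroup.ker_mk', ← Subgroup.subgroupOf_eq_top, hsub] at h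
        exact hM.1 h
      · exact le_antisymm h1 (Subgroup.subgroupOf_eq_top.1 h)
    have h3 : QuotientGroup.mk' Y x ∈ Subgroup.center (X ⧸ Y) := by
      rw [Subgroup.mem_center_iff]
      intro g
      obtain ⟨g, rfl⟩ := QuotientGroup.mk'_surjective Y g
      have h4 : f g ∈ Y := ⟨⟨f g, hc x g⟩, hfM ⟨g, rfl⟩, rfl⟩
      have h5 : QuotientGroup.mk' Y (x * g * x⁻¹ * g⁻¹) = 1 := (QuotientGroup.eq_one_iff _).2 h4
      rw [map_mul, map_mul, map_mul, map_inv, map_inv, mul_inv_eq_one, mul_inv_eq_iff_eq_mul] at h5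
      exact h5.symm
    rw [← h2] at h3
    obtain ⟨z, hz, he⟩ := h3
    have h6 : z⁻¹ * x ∈ Y := QuotientGroup.eq.1 he
    exact hx (by simpa using (Subgroup.center X).mul_mem hz (Subgroup.map_subtype_le _ h6))
  refine ⟨by rw [← hker, Subgroup.index_ker, hr], ?_⟩
  rw [← hr]
  ext z
  exact ⟨fun ⟨y, hy⟩ => ⟨y, hy.symm⟩, fun ⟨y, hy⟩ => ⟨y, hy.symm⟩⟩

end Cfsg.Agent.S2907
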