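import Cfsg.Statements.S2908
import Cfsg.Agent.H71.Amb2
import Cfsg.Agent.H21.Basic
import Cfsg.Agent.S0026
import Cfsg.Agent.S0027

set_option autoImplicit false
open Cfsg

namespace Cfsg.Agent.S2908

open Subgroup H71
open scoped commutatorElement

/-- Let P be a p-subgroup of a finite group, normalized by a p-subgroup A and by a subgroup B of order prime to p that commutes elementwise with A. If [P, B] ≤ [P, A], then B centralizes P. -/
theorem result {G : Type*} [Group G] [Finite G] {p : ℕ} [Fact p.Prime] (P A B : Subgroup G) (hP : IsPGroup p ↥P) (hA : IsPGroup p ↥A) (hB : ¬ p ∣ Nat.card ↥B) (hnA : A ≤ Subgroup.normalizer (P : Set G)) (hnB : B ≤ Subgroup.normalizer (P : Set G)) (hAB : ⁅A, B⁆ = ⊥) (hcomm : ⁅P, B⁆ ≤ ⁅P, A⁆) : ⁅P, B⁆ = ⊥ := by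
  have hcop : (Nat.card B).Coprime (Nat.card P) := by
    obtain ⟨k, hk⟩ := hP.exists_card_eq
    rw [hk]
    exact Nat.Coprime.pow_right _ ((Nat.Prime.coprime_iff_not_dvd Fact.out).2 hB).symm
  have hsol : Group.IsSolvable P := by
    haveI := hP.isNilpotent
    infer_instance
  have h26 := S0026.result B P hnB hcop (Or.inr hsol)
  have h27 := S0027.result B P hnB hcop (Or.inr hsol)
  have hAcB : A ≤ centralizer (B : Set G) := commutator_eq_bot_iff_le_centralizer.1 hAB
  have hBcA : B ≤ centralizer (A : Set G) := le_centralizer_iff.1 hAcB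
  have hAnB : A ≤ normalizer (B : Set G) := H21.le_normalizer_of_le_centralizer hAcB
  have hBnA : B ≤ normalizer (A : Set G) := H21.le_normalizer_of_le_centralizer hBcA
  set R := ⁅P, B⁆ with hR
  set C := P ⊓ centralizer (B : Set G) with hC
  set S := A ⊔ P with hS
  have hRP : R ≤ P := H21.commutator_le_of_le_normalizer hnB
  have hSp : IsPGroup p S := isPGroup_sup_of_le_normalizer hnA hA hP
  have hPR : P ≤ normalizer (R : Set G) := normalizer_commutator_ge_left P B
  have hAR : A ≤ normalizer (R : Set G) := le_normalizer_commutator hnA hAnB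
  have hBR : B ≤ normalizer (R : Set G) := normalizer_commutator_ge_right P B
  have hSR : S ≤ normalizer (R : Set G) := sup_le hAR hPR
  set N := ⁅R, S⁆ with hN
  have hSN : S ≤ normalizer (N : Set G) := normalizer_commutator_ge_right R S
  have hBN : B ≤ normalizer (N : Set G) :=
    le_normalizer_commutator hBR (le_normalizer_sup hBnA hnB)
  have hCN : C ≤ normalizer (N : Set G) := inf_le_left.trans (le_sup_right.trans hSN)
  have hAC : A ≤ normalizer (C : Set G) := le_normalizer_inf hnA (le_normalizer_centralizer hAnB)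
  have h1 : ⁅P, A⁆ ≤ N ⊔ C := by
    rw [commutator_le]
    intro x hx a ha
    rw [← h26] at hx
    obtain ⟨r, hr, c, hc, rfl⟩ := (mem_sup_of_le_normalizer' (inf_le_left.trans hPR)).1 hx
    have hca : ⁅c, a⁆ ∈ C := H21.commutatorElement_mem_left (hAC ha) hc
    have e : ⁅r * c, a⁆ = ⁅r, ⁅c, a⁆ * a⁆ * ⁅c, a⁆ := by
      simp only [commutatorElement_def]; group
    rw [e]
    refine mul_mem (mem_sup_left (commutator_mem_commutator hr ?_)) (mem_sup_right hca)
    exact S.mul_mem (mem_sup_right hca.1) (mem_sup_left ha)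
  have h2 : ⁅N ⊔ C, B⁆ ≤ N := by
    refine H21.commutator_sup_left_le le_normalizer hCN (H21.commutator_le_of_le_normalizer hBN) ?_
    rw [commutator_eq_bot_iff_le_centralizer.2 inf_le_right]
    exact bot_le
  refine eq_bot_of_le_commutator (hP.to_le hRP) hSp hSR ?_
  calc R = ⁅R, B⁆ := h27.symm
    _ ≤ ⁅N ⊔ C, B⁆ := commutator_mono (hcomm.trans h1) le_rfl
    _ ≤ N := h2

end Cfsg.Agent.S2908
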