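import Cfsg.Statements.S2909
import Cfsg.Agent.H71.Amb2
import Cfsg.Agent.H21.Basic
import Cfsg.Agent.H46.Generation
import Cfsg.Agent.S0028
import Cfsg.Agent.S2908

set_option autoImplicit false
open Cfsg

namespace Cfsg.Agent.S2909

open Subgroup H71
open scoped commutatorElement

/-- Let p be a prime, E a normal p-subgroup of the finite group G, and U a non-cyclic elementary abelian p-subgroup of G such that either C_E(U) = C_E(u) for every nontrivial u ∈ U, or [E, U] = [E, ⟨u⟩] for every nontrivial u ∈ U. If R is a subgroup of order prime to p normalized by U, then [R, U] centralizes E. -/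
theorem result {G : Type*} [Group G] [Finite G] {p : ℕ} [Fact p.Prime] (E : Subgroup G) [E.Normal] (hE : IsPGroup p ↥E) (U : Subgroup G) (hU : Cfsg.IsElementaryAbelian p U) (hnc : ¬ IsCyclic ↥U) (hcond : (∀ u ∈ U, u ≠ 1 → E ⊓ Subgroup.centralizer (U : Set G) = E ⊓ Subgroup.centralizer ({u} : Set G)) ∨ (∀ u ∈ U, u ≠ 1 → ⁅E, U⁆ = ⁅E, Subgroup.zpowers u⁆)) (R : Subgroup G) (hR : ¬ p ∣ Nat.card ↥R) (hRU : U ≤ Subgroup.normalizer (R : Set G)) : ⁅R, U⁆ ≤ Subgroup.centralizer (E : Set G) := by
  have hUp := H46.isPGroup_of_isElementaryAbelian hU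
  have hUc : ∀ u ∈ U, U ≤ centralizer ({u} : Set G) := by
    intro u hu x hx
    rw [mem_centralizer_singleton_iff]
    haveI := hU.1
    exact H21.mul_comm_of_mem hx hu
  have hnE : ∀ H : Subgroup G, H ≤ normalizer (E : Set G) := fun H => by
    rw [normalizer_eq_top]; exact le_top
  have hnC : ∀ H : Subgroup G, H ≤ normalizer (centralizer (E : Set G) : Set G) := fun H =>
    le_normalizer_centralizer (hnE H)
  have key : R ≤ H21.commStab U (centralizer (E : Set G)) := by
    refine H46.le_of_forall_element hUp hU.1 hnc hR hRU ?_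
    intro u hu hu1
    rw [H21.le_commStab]
    refine ⟨hnC _, ?_⟩
    set Ru := R ⊓ centralizer ({u} : Set G) with hRu
    have hURu : U ≤ normalizer (Ru : Set G) :=
      le_normalizer_inf hRU ((hUc u hu).trans le_normalizer)
    have hBle : ⁅Ru, U⁆ ≤ Ru := H21.commutator_le_of_le_normalizer hURu
    have hBc : ¬ p ∣ Nat.card ↥(⁅Ru, U⁆) := H46.not_dvd_card_of_le hR (hBle.trans inf_le_left)
    have huU : zpowers u ≤ U := by simpa using hu
    have huB : zpowers u ≤ centralizer ((⁅Ru, U⁆ : Subgroup G) : Set G) := by
      rw [le_centralizer_iff, H21.centralizer_zpowers]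
      exact hBle.trans inf_le_right
    rcases hcond with h | h
    · refine S0028.result p (zpowers u) ⁅Ru, U⁆ E (hUp.to_le huU)
        ((Nat.Prime.coprime_iff_not_dvd Fact.out).2 hBc).symm hE huB (hnE _) (hnE _) ?_
      rw [H21.centralizer_zpowers, le_centralizer_iff]
      have h1 : Ru ≤ normalizer (centralizer ((E ⊓ centralizer ({u} : Set G) : Subgroup G) : Set G) : Set G) :=
        le_normalizer_centralizer (le_normalizer_inf (hnE _) (inf_le_right.trans le_normalizer))
      have h2 : U ≤ centralizer ((E ⊓ centralizer ({u} : Set G) : Subgroup G) : Set G) := by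
        rw [← h u hu hu1, le_centralizer_iff]
        exact inf_le_right
      rw [commutator_comm]
      exact H21.commutator_le_of_le_of_le_normalizer h2 h1
    · have hN : centralizer ({u} : Set G) ≤ normalizer ((⁅E, zpowers u⁆ : Subgroup G) : Set G) := by
        refine le_normalizer_commutator (hnE _) ?_
        rw [← H21.centralizer_zpowers]
        exact H21.le_normalizer_of_le_centralizer le_rfl
      have h1 : ⁅Ru, U⁆ ≤ H21.commStab E ⁅E, zpowers u⁆ := by
        rw [commutator_le]
        intro r hr v hv
        have hv' : v ∈ H21.commStab E ⁅E, zpowers u⁆ := by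
          have : U ≤ H21.commStab E ⁅E, zpowers u⁆ := by
            rw [H21.le_commStab]
            exact ⟨(hUc u hu).trans hN, by rw [commutator_comm, h u hu hu1]⟩
          exact this hv
        have hv'' : r * v * r⁻¹ ∈ H21.commStab E ⁅E, zpowers u⁆ := by
          have : zpowers (r * v * r⁻¹) ≤ H21.commStab E ⁅E, zpowers u⁆ := by
            rw [H21.le_commStab, ← cj_zpowers]
            constructor
            · exact (cj_le_of_mem hr.2 ((zpowers_le.2 hv).trans (hUc u hu))).trans hN
            · have e : ⁅cj r (zpowers v), E⁆ = cj r ⁅zpowers v, E⁆ := by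
                rw [cj_commutator, cj_eq_of_normal r E]
              rw [e]
              refine cj_le_of_mem_normalizer (hN hr.2) ?_
              rw [← h u hu hu1, commutator_comm]
              exact commutator_mono le_rfl (zpowers_le.2 hv)
          exact this (mem_zpowers _)
        rw [commutatorElement_def]
        exact mul_mem hv'' (inv_mem hv')
      have h2 := (H21.le_commStab.1 h1).2
      rw [commutator_comm] at h2
      have := S2908.result E (zpowers u) ⁅Ru, U⁆ hE (hUp.to_le huU) hBc (hnE _) (hnE _)
        (commutator_eq_bot_iff_le_centralizer.2 huB) h2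
      exact H21.commutator_eq_bot_iff'.1 this
  exact (H21.le_commStab.1 key).2

end Cfsg.Agent.S2909
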