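import Cfsg.Statements.S2912
import Cfsg.Agent.H21.ElemMod
import Cfsg.Agent.H79.Shult

set_option autoImplicit false
open Cfsg

namespace Cfsg.Agent.S2912

open Module Subgroup in
/-- dimension bound for a module on which the centre acts by a faithful scalar character -/
theorem card_quot_le {K : Type*} [Field K] {U : Type*} [AddCommGroup U] [Module K U]
    [FiniteDimensional K U] [Nontrivial U] {E : Type*} [Group E] [Finite E]
    (hc : commutator E ≤ center E) (σ : E →* End K U) (l : center E →* K)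
    (hl : ∀ z : center E, σ z = l z • 1) (hinj : Function.Injective l) :
    (center E).index ≤ finrank K U ^ 2 := by
  classical
  have hm : ∀ h g : E, h * g * h⁻¹ * g⁻¹ ∈ center E := fun h g =>
    hc (Subgroup.commutator_mem_commutator (mem_top h) (mem_top g))
  let χ : E → E →* K := fun g =>
    { toFun := fun h => l ⟨h * g * h⁻¹ * g⁻¹, hm h g⟩
      map_one' := by
        have : (⟨1 * g * 1⁻¹ * g⁻¹, hm 1 g⟩ : center E) = 1 := Subtype.ext (by simp)
        rw [this, map_one]
      map_mul' := fun a b => by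
        rw [← map_mul]
        congr 1
        apply Subtype.ext
        have := (mem_center_iff.1 (hm b g)) (a * g * a⁻¹ * g⁻¹)
        have h2 := (mem_center_iff.1 (hm b g)) a
        simp only [MulMemClass.mk_mul_mk]
        rw [this]
        calc a * b * g * (a * b)⁻¹ * g⁻¹ = (a * (b * g * b⁻¹ * g⁻¹)) * (g * a⁻¹ * g⁻¹) := by group
          _ = _ := by rw [h2]; group }
  have hχ : ∀ g h : E, σ h * σ g * σ h⁻¹ = χ g h • σ g := by
    intro g h
    have := hl ⟨h * g * h⁻¹ * g⁻¹, hm h g⟩
    have e : σ h * σ g * σ h⁻¹ = σ (h * g * h⁻¹ * g⁻¹) * σ g := by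
      simp only [← map_mul]; congr 1; group
    rw [e, this, smul_mul_assoc, one_mul]
    rfl
  let o : E ⧸ center E → E := Quotient.out
  have hχinj : Function.Injective fun c => χ (o c) := by
    intro c d hcd
    rw [← QuotientGroup.out_eq' c, ← QuotientGroup.out_eq' d, QuotientGroup.eq, mem_center_iff]
    intro h
    have h1 := hinj (DFunLike.congr_fun hcd h⁻¹)
    have h2 : h⁻¹ * o c * h⁻¹⁻¹ * (o c)⁻¹ = h⁻¹ * o d * h⁻¹⁻¹ * (o d)⁻¹ := congrArg Subtype.val h1
    change h * ((o c)⁻¹ * o d) = (o c)⁻¹ * o d * h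
    have h3 : o c * h * (o c)⁻¹ = o d * h * (o d)⁻¹ := by
      have := congrArg (fun x => h * x) h2
      simpa [mul_assoc] using this
    have h4 : h = (o c)⁻¹ * (o d * h * (o d)⁻¹) * o c := by rw [← h3]; group
    calc h * ((o c)⁻¹ * o d) = ((o c)⁻¹ * (o d * h * (o d)⁻¹) * o c) * ((o c)⁻¹ * o d) := by
          rw [← h4]
      _ = _ := by group
  have hli : LinearIndependent K fun c : E ⧸ center E => σ (o c) := by
    haveI := Fintype.ofFinite (E ⧸ center E)
    rw [Fintype.linearIndependent_iff]
    intro a ha c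
    have hne : σ (o c) ≠ 0 := by
      intro h0
      have : σ (o c) * σ (o c)⁻¹ = 1 := by rw [← map_mul, mul_inv_cancel, map_one]
      rw [h0, zero_mul] at this
      exact zero_ne_one this
    obtain ⟨φ, hφ⟩ := Module.Projective.exists_dual_eq_one K hne
    have hD := (linearIndependent_monoidHom E K).comp _ hχinj
    rw [Fintype.linearIndependent_iff] at hD
    have := hD (fun d => a d * φ (σ (o d))) (by
      funext h
      have h1 := congrArg (fun f => φ (σ h * f * σ h⁻¹)) ha
      simp only [Finset.mul_sum, Finset.sum_mul, mul_smul_comm, smul_mul_assoc, hχ, map_sum,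
        map_smul, mul_zero, zero_mul, map_zero, smul_eq_mul] at h1
      simp only [Finset.sum_apply, Pi.smul_apply, Function.comp, smul_eq_mul, Pi.zero_apply]
      rw [← h1]
      exact Finset.sum_congr rfl fun d _ => by ring) c
    simpa [hφ] using this
  haveI := Fintype.ofFinite (E ⧸ center E)
  have := hli.fintype_card_le_finrank
  rwa [Module.finrank_linearMap, ← Nat.card_eq_fintype_card, ← pow_two] at this

/-- Let p and r be distinct primes, let E be an extraspecial subgroup of order p^(2w+1) of a finite group, and let A be an elementary abelian r-subgroup normalized by E on which E acts faithfully (C_E(A) = 1). If n ≥ 1 is least with p dividing rⁿ − 1 (the smallest dimension of a faithful representation of a group of order p over the field with r elements), then the order of A is at least r^(n·p^w). -/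
theorem result {G : Type*} [Group G] [Finite G] {p r : ℕ} [Fact p.Prime] [hr : Fact r.Prime] (hpr : p ≠ r) (E A : Subgroup G) (w : ℕ) (hE : Cfsg.IsExtraspecial p ↥E) (hEcard : Nat.card ↥E = p ^ (2 * w + 1)) (hA : Cfsg.IsElementaryAbelian r A) (hnorm : E ≤ Subgroup.normalizer (A : Set G)) (hfaith : E ⊓ Subgroup.centralizer (A : Set G) = ⊥) (n : ℕ) (hn : 1 ≤ n) (hdiv : p ∣ r ^ n - 1) (hmin : ∀ k : ℕ, 1 ≤ k → p ∣ r ^ k - 1 → n ≤ k) : r ^ (n * p ^ w) ≤ Nat.card ↥A := by
  classical
  have hp : p.Prime := Fact.out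
  obtain ⟨d, ρ₀, hd, hρ₀, -⟩ := H21.exists_matrix_rep_of_isElementaryAbelian hA hnorm
  rw [hd]
  apply Nat.pow_le_pow_right hr.out.pos
  let K := AlgebraicClosure (ZMod r)
  let ρ₁ : E →* Matrix (Fin d) (Fin d) K := (algebraMap (ZMod r) K).mapMatrix.toMonoidHom.comp ρ₀
  let ρ : E →* Module.End K (Fin d → K) :=
    (Matrix.toLinAlgEquiv' (R := K) (n := Fin d)).toRingEquiv.toRingHom.toMonoidHom.comp ρ₁
  have hρ : ∀ g v, ρ g v = ((ρ₀ g).map (algebraMap (ZMod r) K)).mulVec v := fun g v => rfl
  haveI := Fintype.ofFinite E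
  have hZ := hE.2
  haveI : Fact (Nat.card (Subgroup.center E)).Prime := ⟨hZ ▸ hp⟩
  haveI : Nontrivial (Subgroup.center E) := Finite.one_lt_card_iff_nontrivial.1 (hZ ▸ hp.one_lt)
  obtain ⟨z, hz1⟩ := exists_ne (1 : Subgroup.center E)
  have hzp : z ^ p = 1 := by rw [← hZ]; exact pow_card_eq_one'
  have hcomm : ∀ g : E, ρ z * ρ g = ρ g * ρ z := fun g => by
    rw [← map_mul, ← map_mul, Subgroup.mem_center_iff.1 z.2 g]
  have hinv : ∀ ζ : K, H79.Inv ρ (Module.End.eigenspace (ρ z) ζ) := by
    intro ζ g v hv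
    rw [Module.End.mem_eigenspace_iff] at hv ⊢
    rw [← Module.End.mul_apply, hcomm, Module.End.mul_apply, hv, map_smul]
  -- each eigenspace for an eigenvalue `≠ 1` is large
  have hbig : ∀ ζ : K, ζ ≠ 1 → Module.End.eigenspace (ρ z) ζ ≠ ⊥ →
      p ^ w ≤ Module.finrank K (Module.End.eigenspace (ρ z) ζ) := by
    intro ζ hζ hne
    obtain ⟨W, hW, hle, hW0, hirr⟩ := (hinv ζ).exists_irr hne
    haveI : Nontrivial W := Submodule.nontrivial_iff_ne_bot.2 hW0
    obtain ⟨l, hl⟩ := hirr.exists_centralChar
    have hlz : l z ≠ 1 := by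
      intro h1
      obtain ⟨v, hv⟩ := exists_ne (0 : W)
      have h2 := congrArg (fun f => ((f v : W) : Fin d → K)) (hl z)
      simp only [h1, one_smul, Module.End.one_apply, H79.Inv.coe_res] at h2
      have h3 := Module.End.mem_eigenspace_iff.1 (hle v.2)
      rw [h2] at h3
      apply hζ
      have h4 : (ζ - 1) • (v : Fin d → K) = 0 := by rw [sub_smul, one_smul, ← h3, sub_self]
      rcases smul_eq_zero.1 h4 with h | h
      · exact sub_eq_zero.1 h
      · exact absurd (Subtype.ext h) hv
    have hinj : Function.Injective l := by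
      rw [← MonoidHom.ker_eq_bot_iff]
      rcases l.ker.eq_bot_or_eq_top_of_prime_card with h | h
      · exact h
      · exact absurd (show z ∈ l.ker from h ▸ Subgroup.mem_top z) hlz
    have h1 := card_quot_le (le_of_eq hE.1.2.2) hW.res l hl hinj
    have h2 : (Subgroup.center E).index = (p ^ w) ^ 2 := by
      have := (Subgroup.center E).card_mul_index
      rw [hZ, hEcard] at this
      apply Nat.eq_of_mul_eq_mul_left hp.pos
      rw [this]; ring
    rw [h2] at h1
    exact (Nat.pow_le_pow_iff_left (by norm_num)).1 h1 |>.trans (Submodule.finrank_mono hle)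
  -- an eigenvalue `≠ 1`
  have hpK : (p : K) ≠ 0 := by
    rw [Ne, CharP.cast_eq_zero_iff K r]
    intro h
    exact hpr ((Nat.prime_dvd_prime_iff_eq hr.out hp).1 h).symm
  have hEK : (Fintype.card E : K) ≠ 0 := by
    rw [← Nat.card_eq_fintype_card, hEcard, Nat.cast_pow]
    exact pow_ne_zero _ hpK
  obtain ⟨ζ, hζ1, hζ⟩ : ∃ ζ : K, ζ ≠ 1 ∧ Module.End.eigenspace (ρ z) ζ ≠ ⊥ := by
    by_contra hcon
    push_neg at hcon
    have hall : (⊤ : Submodule K (Fin d → K)) ≤ Module.End.eigenspace (ρ z) 1 := by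
      apply H79.Inv.le_of_forall_irr hEK ⊤ (H79.inv_top ρ)
      intro W hW _ hW0 hirr
      haveI : Nontrivial W := Submodule.nontrivial_iff_ne_bot.2 hW0
      obtain ⟨l, hl⟩ := hirr.exists_centralChar
      have hle : W ≤ Module.End.eigenspace (ρ z) (l z) := by
        intro v hv
        have h2 := congrArg (fun f => ((f ⟨v, hv⟩ : W) : Fin d → K)) (hl z)
        rw [Module.End.mem_eigenspace_iff]
        simpa [H79.Inv.coe_res] using h2
      by_cases h1 : l z = 1
      · rwa [h1] at hle
      · exact absurd (le_bot_iff.1 (hcon _ h1 ▸ hle)) hW0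
    have h1 : ρ₀ z = 1 := by
      ext i j
      have := Module.End.mem_eigenspace_iff.1 (hall (Submodule.mem_top (x := Pi.single j 1)))
      rw [hρ] at this
      have h2 := congrFun this i
      apply (algebraMap (ZMod r) K).injective
      simp only [Matrix.mulVec_single_one, Matrix.col_apply, Matrix.map_apply, one_smul] at h2
      rw [h2, Matrix.one_apply, Pi.single_apply]
      split_ifs <;> simp
    rw [hρ₀] at h1
    have h2 : ((z : E) : G) ∈ E ⊓ Subgroup.centralizer (A : Set G) := ⟨(z : E).2, h1⟩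
    rw [hfaith, Subgroup.mem_bot] at h2
    exact hz1 (Subtype.ext (Subtype.ext h2))
  have hζp : ζ ^ p = 1 := by
    obtain ⟨v, hv, hv0⟩ := Submodule.exists_mem_ne_zero_of_ne_bot hζ
    have h1 : Module.End.HasEigenvector (ρ z) ζ v := ⟨hv, hv0⟩
    have h2 := h1.pow_apply p
    rw [← map_pow, ← SubgroupClass.coe_pow, hzp] at h2
    simp only [OneMemClass.coe_one, map_one, Module.End.one_apply] at h2
    have h4 : (ζ ^ p - 1) • v = 0 := by rw [sub_smul, one_smul, ← h2, sub_self]
    exact sub_eq_zero.1 ((smul_eq_zero.1 h4).resolve_right hv0)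
  have hord : orderOf ζ = p := orderOf_eq_prime hζp hζ1
  have hfrob : ∀ i : ℕ, Module.End.eigenspace (ρ z) (ζ ^ r ^ i) ≠ ⊥ := by
    intro i
    induction i with
    | zero => simpa using hζ
    | succ i ih =>
      obtain ⟨v, hv, hv0⟩ := Submodule.exists_mem_ne_zero_of_ne_bot ih
      rw [Module.End.mem_eigenspace_iff, hρ] at hv
      rw [Submodule.ne_bot_iff]
      refine ⟨frobenius K r ∘ v, ?_, ?_⟩
      · rw [Module.End.mem_eigenspace_iff, hρ]
        funext k
        have h1 := congrArg (frobenius K r) (congrFun hv k)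
        rw [RingHom.map_mulVec, Matrix.map_map] at h1
        have e : (frobenius K r) ∘ (algebraMap (ZMod r) K) = algebraMap (ZMod r) K := by
          funext x
          simp only [Function.comp, frobenius_def, ← map_pow, ZMod.pow_card]
        rw [e] at h1
        rw [h1]
        simp [frobenius_def, mul_pow, pow_succ, pow_mul]
      · intro h0
        apply hv0
        funext k
        have := congrFun h0 k
        simpa [frobenius_def, hr.out.ne_zero] using this
  have hne1 : ∀ i : ℕ, ζ ^ r ^ i ≠ 1 := by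
    intro i h
    have := orderOf_dvd_of_pow_eq_one h
    rw [hord] at this
    exact hpr ((Nat.prime_dvd_prime_iff_eq hp hr.out).1 (hp.dvd_of_dvd_pow this))
  have hlt : ∀ i j : ℕ, i < j → j < n → ζ ^ r ^ i ≠ ζ ^ r ^ j := by
    intro i j hij hj h
    have h1 := (isOfFinOrder_iff_pow_eq_one.2 ⟨p, hp.pos, hζp⟩).pow_eq_pow_iff_modEq.1 h
    rw [hord] at h1
    obtain ⟨k, rfl⟩ := Nat.exists_eq_add_of_lt hij
    have hle : r ^ i ≤ r ^ (i + k + 1) := Nat.pow_le_pow_right hr.out.pos (by omega)
    have h2 := (Nat.modEq_iff_dvd' hle).1 h1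
    have e : r ^ (i + k + 1) - r ^ i = r ^ i * (r ^ (k + 1) - 1) := by
      rw [Nat.mul_sub, mul_one, add_assoc, pow_add]
    rw [e] at h2
    rcases (Nat.Prime.dvd_mul hp).1 h2 with h3 | h3
    · exact hpr ((Nat.prime_dvd_prime_iff_eq hp hr.out).1 (hp.dvd_of_dvd_pow h3))
    · have := hmin (k + 1) (by omega) h3
      omega
  have hinj : Function.Injective fun i : Fin n => ζ ^ r ^ (i : ℕ) := by
    intro i j h
    rcases lt_trichotomy (i : ℕ) j with h1 | h1 | h1
    · exact absurd h (hlt _ _ h1 j.2)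
    · exact Fin.ext h1
    · exact absurd h.symm (hlt _ _ h1 i.2)
  have hind := (Module.End.eigenspaces_iSupIndep (ρ z)).comp hinj
  have h1 := LinearMap.finrank_le_finrank_of_injective hind.dfinsupp_lsum_injective
  have h2 : Module.finrank K (Π₀ i : Fin n, Module.End.eigenspace (ρ z) (ζ ^ r ^ (i : ℕ))) =
      ∑ i : Fin n, Module.finrank K (Module.End.eigenspace (ρ z) (ζ ^ r ^ (i : ℕ))) :=
    Module.finrank_directSum K _
  have h3 : n * p ^ w ≤ ∑ i : Fin n,
      Module.finrank K (Module.End.eigenspace (ρ z) (ζ ^ r ^ (i : ℕ))) := by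
    calc n * p ^ w = ∑ _i : Fin n, p ^ w := by simp
      _ ≤ _ := Finset.sum_le_sum fun i _ => hbig _ (hne1 i) (hfrob i)
  rw [Module.finrank_fin_fun] at h1
  exact h3.trans (h2 ▸ h1)

end Cfsg.Agent.S2912
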