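import Cfsg.Statements.S2924
import Cfsg.Agent.H71.CharP
import Cfsg.Agent.H71.Amb2
import Cfsg.Agent.H71.Invert
import Cfsg.Agent.H46.Generation
import Cfsg.Agent.S0028

set_option autoImplicit false
open Cfsg

namespace Cfsg.Agent.S2924

open Subgroup H71
open scoped commutatorElement

section
variable {X : Type*} [Group X] [Finite X]

/-- `O(H)` in the ambient group. -/
def oc (H : Subgroup X) : Subgroup X := (pPrimeCore 2 H).map H.subtype

/-- `θ(y) = O(C(y))`. -/
def th (y : X) : Subgroup X := oc (centralizer ({y} : Set X))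

theorem th_le (y : X) : th y ≤ centralizer ({y} : Set X) := H44.pPrimeCoreOf_le _

theorem le_norm_th (y : X) : centralizer ({y} : Set X) ≤ normalizer (th y : Set X) :=
  H44.le_normalizer_pPrimeCoreOf _

theorem th_cop (y : X) : (Nat.card (th y)).Coprime 2 := H44.pPrimeCoreOf_coprime _

theorem cj_th (g y : X) : cj g (th y) = th (g * y * g⁻¹) := by
  have h1 : cj g (oc (centralizer ({y} : Set X))) = oc (cj g (centralizer ({y} : Set X))) :=
    H44.map_pPrimeCoreOf_inj _ (MulAut.conj g).injective _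
  unfold th
  rw [h1, cj_centralizer_singleton]

theorem le_cent {Y : Subgroup X} (hY : IsElementaryAbelian 2 Y) {y : X} (hy : y ∈ Y) :
    Y ≤ centralizer ({y} : Set X) := by
  intro x hx
  rw [mem_centralizer_singleton_iff]
  have := hY.1
  exact congrArg Subtype.val (this.is_comm.comm (⟨x, hx⟩ : Y) ⟨y, hy⟩)

theorem cent_zpowers (y : X) : centralizer (zpowers y : Set X) = centralizer ({y} : Set X) := by
  rw [zpowers_eq_closure, centralizer_closure]

theorem inverts {Y : Subgroup X} (hY : IsElementaryAbelian 2 Y) {y z : X} (hy : y ∈ Y) (hz : z ∈ Y)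
    (hc : H72.CharPIn 2 (centralizer ({z} : Set X))) : ∀ x ∈ th y, z * x * z⁻¹ = x⁻¹ := by
  have hP := H46.isPGroup_of_isElementaryAbelian hY
  have hyY : zpowers y ≤ Y := by simpa using hy
  have h1 := charPIn_inf_centralizer hc (hP.to_le hyY) (hyY.trans (le_cent hY hz))
  rw [cent_zpowers] at h1
  have h2 := CharPIn_inf_eq_bot h1 (th_cop y) (inf_le_right.trans (le_norm_th y))
  refine inverts_of_fpf ?_ (le_norm_th y (le_cent hY hy hz)) ?_
  · have := hY.2 z hz; rwa [pow_two] at this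
  · rw [eq_bot_iff, ← h2]
    exact le_inf (le_inf inf_le_left (inf_le_right.trans (th_le y))) inf_le_right

theorem odd_orderOf {D : Subgroup X} (hD : (Nat.card D).Coprime 2) {d : X} (hd : d ∈ D) :
    (orderOf d).Coprime 2 := hD.coprime_dvd_left (dvd_card_of_orderOf hd)

theorem balance {Y : Subgroup X} (hY : IsElementaryAbelian 2 Y) {y w z : X} (hy : y ∈ Y) (hw : w ∈ Y)
    (hz : z ∈ Y) (hc : H72.CharPIn 2 (centralizer ({z} : Set X)))
    (hE : layer ↥(centralizer ({w} : Set X)) = ⊥) :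
    th y ⊓ centralizer ({w} : Set X) ≤ th w := by
  have hP := H46.isPGroup_of_isElementaryAbelian hY
  have hyY : zpowers y ≤ Y := by simpa using hy
  set H := centralizer ({w} : Set X) with hH
  set D := th y ⊓ H with hD
  have hDc : (Nat.card D).Coprime 2 :=
    (th_cop y).coprime_dvd_left (card_dvd_of_le inf_le_left)
  have hiy := inverts hY hy hz hc
  have hiw := inverts hY hw hz hc
  -- D centralizes O(H)
  have h1 : D ≤ centralizer (th w : Set X) := by
    intro d hd
    have h := commutator_mem_centralizer_of_inverts hiw (le_norm_th w hd.2)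
    have e : d * z * d⁻¹ * z⁻¹ = d ^ 2 := by
      have := hiy d⁻¹ ((th y).inv_mem hd.1)
      rw [inv_inv] at this
      rw [pow_two]
      calc d * z * d⁻¹ * z⁻¹ = d * (z * d⁻¹ * z⁻¹) := by group
        _ = d * d := by rw [this]
    rw [e] at h
    have hm : d ∈ zpowers (d ^ 2) :=
      mem_zpowers_pow_iff.2 (Nat.coprime_comm.1 (odd_orderOf hDc hd))
    exact (zpowers_le.2 h) hm
  -- D centralizes O_2(H)
  have hQH : pCoreOf 2 H ≤ H := H72.pCoreOf_le H
  have hHQ : H ≤ normalizer (pCoreOf 2 H : Set X) := H72.le_normalizer_pCoreOf H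
  have h2 : D ≤ centralizer (pCoreOf 2 H : Set X) := by
    refine S0028.result 2 (zpowers y) D (pCoreOf 2 H) (hP.to_le hyY) hDc (H72.isPGroup_pCoreOf 2 H) ?_
      (hyY.trans ((le_cent hY hw).trans hHQ)) (inf_le_right.trans hHQ) ?_
    · rw [le_centralizer_iff, cent_zpowers]
      exact inf_le_left.trans (th_le y)
    · rw [cent_zpowers, ← commutator_eq_bot_iff_le_centralizer, eq_bot_iff]
      have hd : Disjoint (pCoreOf 2 H) D :=
        H44.disjoint_of_isPGroup_of_coprime (H72.isPGroup_pCoreOf 2 H) hDc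
      rw [← hd.eq_bot, commutator_le]
      intro q hq d hd
      refine ⟨?_, ?_, ?_⟩
      · have : d * q⁻¹ * d⁻¹ ∈ pCoreOf 2 H :=
          (mem_normalizer_iff.1 (hHQ hd.2) _).1 ((pCoreOf 2 H).inv_mem hq.1)
        have e : ⁅q, d⁆ = q * (d * q⁻¹ * d⁻¹) := by rw [commutatorElement_def]; group
        rw [e]; exact (pCoreOf 2 H).mul_mem hq.1 this
      · have : q * d * q⁻¹ ∈ th y := (mem_normalizer_iff.1 (le_norm_th y hq.2) _).1 hd.1
        rw [commutatorElement_def]; exact (th y).mul_mem this ((th y).inv_mem hd.1)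
      · rw [commutatorElement_def]
        exact H.mul_mem (H.mul_mem (H.mul_mem (hQH hq.1) hd.2) (H.inv_mem (hQH hq.1))) (H.inv_mem hd.2)
  have hF : H44.Fof H ≤ th w ⊔ pCoreOf 2 H := by
    have := map_mono (f := H.subtype) (H44.fitting_le_pCore_sup_pPrimeCore (p := 2) (G := H))
    rw [Subgroup.map_sup, sup_comm] at this
    exact this
  have h3 : D ≤ th w ⊔ pCoreOf 2 H := by
    refine le_trans ?_ hF
    refine le_trans ?_ (H44.inf_centralizer_Fof_le_of_Eof_eq_bot (H44.Eof_eq_bot_iff_layer.2 hE))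
    refine le_inf inf_le_right ?_
    rw [le_centralizer_iff]
    refine hF.trans (sup_le ?_ ?_)
    · exact le_centralizer_iff.1 h1
    · exact le_centralizer_iff.1 h2
  intro d hd
  obtain ⟨o, ho, q, hq, e⟩ := (mem_sup_of_le_normalizer' (hQH.trans (le_norm_th w))).1 (h3 hd)
  have hco : Commute o⁻¹ d := ((mem_centralizer_iff.1 (h1 hd)) o⁻¹ ((th w).inv_mem ho))
  have hq1 : q = 1 := by
    refine H72.eq_one_of_mem_isPGroup (H72.isPGroup_pCoreOf 2 H) hq ?_
    have e2 : q = o⁻¹ * d := by rw [e]; group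
    rw [e2]
    refine Nat.Coprime.coprime_dvd_left (hco.orderOf_mul_dvd_mul_orderOf) ?_
    exact Nat.Coprime.mul_left (odd_orderOf (th_cop w) ((th w).inv_mem ho)) (odd_orderOf hDc hd)
  rw [e, hq1, mul_one]; exact ho

theorem th_comm {Y : Subgroup X} (hY : IsElementaryAbelian 2 Y) (h8 : 8 ≤ Nat.card Y)
    (hE : ∀ x ∈ Y, x ≠ 1 → layer ↥(centralizer ({x} : Set X)) = ⊥) {z : X}
    (hz : z ∈ Y) (hc : H72.CharPIn 2 (centralizer ({z} : Set X))) {y y' : X} (hy : y ∈ Y)
    (hy' : y' ∈ Y) : th y ≤ centralizer (th y' : Set X) := by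
  have hY1 : Y ≠ ⊥ := by
    rintro rfl
    simp at h8
  have hnd : ∀ y : X, ¬ 2 ∣ Nat.card (th y) := fun y => H44.coprime_iff_not_dvd.1 (th_cop y)
  refine H46.le_of_forall_hyperplane hY hY1 (hnd y) ((le_cent hY hy).trans (le_norm_th y)) ?_
  intro B hB hBi
  rw [le_centralizer_iff]
  refine H46.le_of_forall_hyperplane hY hY1 (hnd y') ((le_cent hY hy').trans (le_norm_th y')) ?_
  intro B' hB' hBi'
  have hne : B ⊓ B' ≠ ⊥ := by
    intro h
    have := relIndex_inf_le (H := B) (K := B') (L := Y)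
    rw [h, hBi, hBi', relIndex_bot_left] at this
    omega
  obtain ⟨⟨w, hw⟩, hw1⟩ := ne_bot_iff_exists_ne_one.1 hne
  have hw1' : w ≠ 1 := fun h => hw1 (Subtype.ext h)
  have hwY : w ∈ Y := hB hw.1
  have h1 : th y ⊓ centralizer (B : Set X) ≤ th w :=
    le_trans (inf_le_inf_left _ (centralizer_le (by simpa using hw.1)))
      (balance hY hy hwY hz hc (hE w hwY hw1'))
  have h2 : th y' ⊓ centralizer (B' : Set X) ≤ th w :=
    le_trans (inf_le_inf_left _ (centralizer_le (by simpa using hw.2)))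
      (balance hY hy' hwY hz hc (hE w hwY hw1'))
  exact h2.trans ((le_centralizer_of_inverts (inverts hY hwY hz hc)).trans (centralizer_le h1))

end

/-- Let X be a finite group and Y an elementary abelian 2-subgroup of X of order at least 8 such that C_X(x) has no components (E(C_X(x)) = 1) for every nontrivial x ∈ Y, and F*(C_X(z)) = O₂(C_X(z)) for some nontrivial z ∈ Y. Then the subgroup generated by the cores O(C_X(y)), y ∈ Y nontrivial, has odd order and is normalized by N_X(Y). -/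
theorem result {X : Type*} [Group X] [Finite X] (Y : Subgroup X) (hY : Cfsg.IsElementaryAbelian 2 Y) (h8 : 8 ≤ Nat.card ↥Y) (hE : ∀ x ∈ Y, x ≠ 1 → Cfsg.layer ↥(Subgroup.centralizer ({x} : Set X)) = ⊥) (hz : ∃ z ∈ Y, z ≠ 1 ∧ Cfsg.generalizedFittingSubgroup ↥(Subgroup.centralizer ({z} : Set X)) = Cfsg.pCore 2 ↥(Subgroup.centralizer ({z} : Set X))) : Odd (Nat.card ↥(⨆ y : {y : X // y ∈ Y ∧ y ≠ 1}, (Cfsg.oddCore ↥(Subgroup.centralizer ({(y : X)} : Set X))).map (Subgroup.centralizer ({(y : X)} : Set X)).subtype)) ∧ Subgroup.normalizer (Y : Set X) ≤ Subgroup.normalizer ((⨆ y : {y : X // y ∈ Y ∧ y ≠ 1}, (Cfsg.oddCore ↥(Subgroup.centralizer ({(y : X)} : Set X))).map (Subgroup.centralizer ({(y : X)} : Set X)).subtype : Subgroup X) : Set X) := by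
  obtain ⟨z, hz, -, hc⟩ := hz
  have hc' : H72.CharPIn 2 (centralizer ({z} : Set X)) := (charPIn_iff_gfitting _).2 hc
  change Odd (Nat.card ↥(⨆ y : {y : X // y ∈ Y ∧ y ≠ 1}, th (y : X))) ∧
    normalizer (Y : Set X) ≤ normalizer ((⨆ y : {y : X // y ∈ Y ∧ y ≠ 1}, th (y : X) : Subgroup X) : Set X)
  set J : Subgroup X := ⨆ y : {y : X // y ∈ Y ∧ y ≠ 1}, th (y : X) with hJ
  have hJc : J ≤ centralizer (J : Set X) := by
    refine iSup_le fun y => ?_
    rw [le_centralizer_iff]
    exact iSup_le fun y' => th_comm hY h8 hE hz hc' y'.2.1 y.2.1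
  constructor
  · have hall : ∀ x ∈ J, x ∈ J ∧ (orderOf x).Coprime 2 := by
      intro x hx
      refine iSup_induction (C := fun x => x ∈ J ∧ (orderOf x).Coprime 2) _ hx ?_ ?_ ?_
      · intro y x hx
        exact ⟨le_iSup (fun y : {y : X // y ∈ Y ∧ y ≠ 1} => th (y : X)) y hx, odd_orderOf (th_cop _) hx⟩
      · exact ⟨J.one_mem, by simp⟩
      · rintro a b ⟨ha, ha'⟩ ⟨hb, hb'⟩
        have hco : Commute a b := (mem_centralizer_iff.1 (hJc hb)) a ha
        exact ⟨J.mul_mem ha hb, Nat.Coprime.coprime_dvd_left hco.orderOf_mul_dvd_mul_orderOf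
          (Nat.Coprime.mul_left ha' hb')⟩
    rw [← H44.coprime_two_iff_odd, H44.coprime_iff_not_dvd]
    intro h2
    obtain ⟨t, ht, ho⟩ := exists_orderOf_prime_of_dvd h2
    have := (hall t ht).2
    rw [ho] at this
    norm_num at this
  · intro g hg
    refine mem_normalizer_of_cj_le ?_
    rw [hJ, cj_iSup]
    refine iSup_le fun y => ?_
    rw [cj_th]
    exact le_iSup (fun y : {y : X // y ∈ Y ∧ y ≠ 1} => th (y : X))
      ⟨g * y * g⁻¹, (mem_normalizer_iff.1 hg _).1 y.2.1, conj_ne_one y.2.2⟩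

end Cfsg.Agent.S2924
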