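import Cfsg.Statements.S2925
import Cfsg.Agent.H72.Fixed
import Cfsg.Agent.H44.Components
import Cfsg.Agent.H21.Basic

set_option autoImplicit false
open Cfsg

namespace Cfsg.Agent.S2925

open Cfsg.Agent.H72


/-- Let K be a component of the finite group X and T a Sylow 2-subgroup of X. If some abelian normal subgroup Y of T does not normalize K, then K ⧸ Z(K) has abelian Sylow 2-subgroups. -/
theorem result {X : Type*} [Group X] [Finite X] (K : Subgroup X) (hK : Cfsg.IsComponent K) (T : Sylow 2 X) (Y : Subgroup X) (hYT : Y ≤ (T : Subgroup X)) (hYn : (Y.subgroupOf (T : Subgroup X)).Normal) (hYab : IsMulCommutative ↥Y) (hnot : ¬ Y ≤ Subgroup.normalizer (K : Set X)) (P : Sylow 2 (↥K ⧸ Subgroup.center ↥K)) : IsMulCommutative ↥(P : Subgroup (↥K ⧸ Subgroup.center ↥K)) := by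
  obtain ⟨y, hyY, hy⟩ := SetLike.not_le_iff_exists.1 hnot
  have hK' := H44.comp_top_iff.2 hK
  have hne : K ≠ cj y K := fun e => hy (cj_eq_iff.1 e.symm)
  have hcomm : ⁅K, cj y K⁆ = ⊥ := hK'.commutator_eq_bot_of_ne
    (hK'.conj (Subgroup.le_normalizer (Subgroup.mem_top y))) hne
  rw [Subgroup.commutator_eq_bot_iff_le_centralizer] at hcomm
  have hn : (T : Subgroup X) ≤ Subgroup.normalizer (Y : Set X) :=
    (Subgroup.normal_subgroupOf_iff_le_normalizer hYT).1 hYn
  have key : ∀ a ∈ (T : Subgroup X) ⊓ K, ∀ b ∈ (T : Subgroup X) ⊓ K, ∀ k ∈ K,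
      k * (a * b * a⁻¹ * b⁻¹) = (a * b * a⁻¹ * b⁻¹) * k := by
    intro a ha b hb k hk
    have mem : ∀ c ∈ (T : Subgroup X) ⊓ K, c * (y * c⁻¹ * y⁻¹) ∈ Y := fun c hc => by
      have := Y.mul_mem (conj_mem_of_mem_normalizer (hn hc.1) hyY) (Y.inv_mem hyY)
      simpa [mul_assoc] using this
    have h1 := H21.mul_comm_of_mem (mem a ha) (mem b hb)
    set a' := y * a⁻¹ * y⁻¹
    set b' := y * b⁻¹ * y⁻¹
    have ha' : a' ∈ cj y K := conj_mem_cj (K.inv_mem ha.2)
    have hb' : b' ∈ cj y K := conj_mem_cj (K.inv_mem hb.2)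
    have e1 : a' * b = b * a' := hcomm hb.2 a' ha'
    have e2 : b' * a = a * b' := hcomm ha.2 b' hb'
    have e3 : (b * a)⁻¹ * (a * b) = (b' * a') * (a' * b')⁻¹ := by
      have : a * b * (a' * b') = b * a * (b' * a') := by
        calc a * b * (a' * b') = a * (b * a') * b' := by group
          _ = a * a' * (b * b') := by rw [← e1]; group
          _ = b * b' * (a * a') := h1
          _ = b * (b' * a) * a' := by group
          _ = _ := by rw [e2]; group
      calc (b * a)⁻¹ * (a * b) = (b * a)⁻¹ * (a * b * (a' * b')) * (a' * b')⁻¹ := by group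
        _ = _ := by rw [this]; group
    have h2 : (b * a)⁻¹ * (a * b) ∈ cj y K := by
      rw [e3]
      exact mul_mem (mul_mem hb' ha') (inv_mem (mul_mem ha' hb'))
    have hba : b * a ∈ K := K.mul_mem hb.2 ha.2
    have h3 := hcomm (K.mul_mem (K.mul_mem (K.inv_mem hba) hk) hba) _ h2
    calc k * (a * b * a⁻¹ * b⁻¹)
        = (b * a) * (((b * a)⁻¹ * k * (b * a)) * ((b * a)⁻¹ * (a * b))) * (b * a)⁻¹ := by group
      _ = _ := by rw [← h3]; group
  obtain ⟨R, hR⟩ := (isSylowIn_inf_subnormal T hK.1).exists_sylow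
  have h1 := (isSylowIn_top R).map (QuotientGroup.mk' (Subgroup.center K))
  rw [Subgroup.map_top_of_surjective _ (QuotientGroup.mk'_surjective _)] at h1
  obtain ⟨g, -, hg⟩ := h1.exists_cj_eq (isSylowIn_top P)
  have h2 : IsMulCommutative ((R : Subgroup K).map (QuotientGroup.mk' (Subgroup.center K))) := by
    refine ⟨⟨?_⟩⟩
    rintro ⟨_, a, ha, rfl⟩ ⟨_, b, hb, rfl⟩
    rw [hR] at ha hb
    apply Subtype.ext
    have h3 : a * b * a⁻¹ * b⁻¹ ∈ Subgroup.center K :=
      Subgroup.mem_center_iff.2 fun k => Subtype.ext (key a ha b hb k k.2)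
    have h5 : QuotientGroup.mk' (Subgroup.center K) (a * b * a⁻¹ * b⁻¹) = 1 :=
      (QuotientGroup.eq_one_iff _).2 h3
    rw [map_mul, map_mul, map_mul, map_inv, map_inv, mul_inv_eq_one, mul_inv_eq_iff_eq_mul] at h5
    exact h5
  rw [← hg]
  infer_instance

end Cfsg.Agent.S2925
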