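import Cfsg.Statements.S2928
import Cfsg.Agent.H46.AltOn

set_option autoImplicit false
open Cfsg

namespace Cfsg.Agent.S2928

open Subgroup Equiv Equiv.Perm H44 H46
open scoped commutatorElement

section
variable {α : Type*} [Fintype α] [DecidableEq α]

/-- Even products of transpositions of the pairing `τ`. -/
def Wt (τ : Perm α) (hτ : ∀ x, τ (τ x) = x) : Subgroup (Perm α) where
  carrier := {g | sign g = 1 ∧ ∀ x, g x = x ∨ g x = τ x}
  one_mem' := ⟨by simp, fun _ => Or.inl rfl⟩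
  mul_mem' := fun {a b} ha hb => ⟨by simp [ha.1, hb.1], fun x => by
    have h1 := hb.2 x
    have h2 := ha.2 (b x)
    have h3 := hτ x
    simp only [Perm.mul_apply]
    grind⟩
  inv_mem' := fun {a} ha => ⟨by simp [ha.1], fun x => by
    have h1 := ha.2 (a⁻¹ x)
    have h2 : a (a⁻¹ x) = x := by simp
    have h3 := hτ (a⁻¹ x)
    grind⟩

theorem Wt_sq {τ : Perm α} {hτ : ∀ x, τ (τ x) = x} {g : Perm α} (hg : g ∈ Wt τ hτ) : g * g = 1 := by
  ext x
  have h1 := hg.2 x
  have h2 := hg.2 (g x)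
  have h3 := hτ x
  have h4 : g (g x) = g x → g x = x := fun h => g.injective h
  simp only [Perm.mul_apply, Perm.one_apply]
  grind

theorem Wt_comm {τ : Perm α} {hτ : ∀ x, τ (τ x) = x} {g k : Perm α} (hg : g ∈ Wt τ hτ)
    (hk : k ∈ Wt τ hτ) : g * k = k * g := by
  have h1 := Wt_sq hg
  have h2 := Wt_sq hk
  have h3 := Wt_sq (mul_mem hg hk)
  have h4 : g⁻¹ = g := inv_eq_of_mul_eq_one_right h1
  have h5 : k⁻¹ = k := inv_eq_of_mul_eq_one_right h2
  rw [← inv_eq_of_mul_eq_one_right h3, mul_inv_rev, h4, h5]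

theorem swap_mem_Wt {τ : Perm α} (hτ : ∀ x, τ (τ x) = x) {x u : α} (hx : τ x ≠ x) (hu : τ u ≠ u)
    (h1 : u ≠ x) (h2 : u ≠ τ x) : swap x (τ x) * swap u (τ u) ∈ Wt τ hτ := by
  refine ⟨by simp [hx.symm, hu.symm], fun y => ?_⟩
  have h3 := hτ x
  have h4 := hτ u
  simp only [Perm.mul_apply, swap_apply_def]
  grind

structure Pair (H : Subgroup (Perm α)) (τ : Perm α) : Prop where
  sq : ∀ x, τ (τ x) = x
  fix : ∃ f, ∀ u, τ u = u → u = f
  le : Wt τ sq ≤ H

theorem Pair.conj {H : Subgroup (Perm α)} {τ : Perm α} (h : Pair H τ) {k : Perm α} (hk : k ∈ H) :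
    Pair H (k * τ * k⁻¹) := by
  refine ⟨fun x => by simp [h.sq], ?_, fun g hg => ?_⟩
  · obtain ⟨f, hf⟩ := h.fix
    refine ⟨k f, fun u hu => ?_⟩
    have : τ (k⁻¹ u) = k⁻¹ u := by
      apply k.injective
      simpa using hu
    rw [← hf _ this]; simp
  · have h1 : k⁻¹ * g * k ∈ Wt τ h.sq := by
      refine ⟨by simp [hg.1], fun x => ?_⟩
      rcases hg.2 (k x) with h2 | h2
      · left; simp [h2]
      · right; simp [h2]
    have h2 := mul_mem (mul_mem hk (h.le h1)) (inv_mem hk)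
    simpa [mul_assoc] using h2

theorem exists_not_mem (l : List α) (h : l.length < Fintype.card α) : ∃ x, x ∉ l := by
  by_contra hcon
  push Not at hcon
  have h1 : (Finset.univ : Finset α) ⊆ l.toFinset := fun x _ => List.mem_toFinset.2 (hcon x)
  have h2 := (Finset.card_le_card h1).trans (List.toFinset_card_le l)
  rw [Finset.card_univ] at h2
  omega

theorem swap_comm' {a b c d : α} (h1 : a ≠ c) (h2 : a ≠ d) (h3 : b ≠ c) (h4 : b ≠ d) :
    Commute (swap a b) (swap c d) := by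
  apply Perm.Disjoint.commute
  intro x
  simp only [swap_apply_def]
  grind

variable {H : Subgroup (Perm α)} (hno : ∀ c ∈ H, ¬ c.IsThreeCycle) (h8 : 8 ≤ Fintype.card α)
  {σ τ : Perm α} (hσ : Pair H σ) (hτ : Pair H τ)

/-- The standing condition at a point. -/
def Cond (σ τ : Perm α) (x : α) : Prop := σ x ≠ x ∧ τ x ≠ x ∧ σ x ≠ τ x

omit [Fintype α] [DecidableEq α] in
theorem Cond.symm {σ τ : Perm α} {x : α} (h : Cond σ τ x) : Cond τ σ x := ⟨h.2.1, h.1, h.2.2.symm⟩

/-- The allowed auxiliary points. -/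
def Al (σ τ : Perm α) (x v : α) : Prop := v ≠ x ∧ v ≠ σ x ∧ v ≠ τ x ∧ v ≠ σ (τ x) ∧ σ v ≠ v

include hno hσ hτ in
theorem core {x u v : α} (hx : Cond σ τ x) (hu : Al τ σ x u) (hv : Al σ τ x v) :
    v = u ∨ v = τ u ∨ σ v = u ∨ σ v = τ u := by
  by_contra hcon
  push Not at hcon
  obtain ⟨c1, c2, c3, c4⟩ := hcon
  obtain ⟨x1, x2, x3⟩ := hx
  obtain ⟨u1, u2, u3, u4, u5⟩ := hu
  obtain ⟨v1, v2, v3, v4, v5⟩ := hv
  have ha := hτ.le (swap_mem_Wt hτ.sq x2 u5 u1 u2)
  have hb := hσ.le (swap_mem_Wt hσ.sq x1 v5 v1 v2)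
  have e1 := hτ.sq x
  have e2 := hτ.sq u
  have e3 := hσ.sq x
  have e4 := hσ.sq v
  set a := swap x (τ x)
  set b := swap x (σ x)
  set c := swap u (τ u)
  set d := swap v (σ v)
  have hca : Commute c a := swap_comm' (by grind) (by grind) (by grind) (by grind)
  have hcb : Commute c b := swap_comm' (by grind) (by grind) (by grind) (by grind)
  have hcd : Commute c d := swap_comm' (by grind) (by grind) (by grind) (by grind)
  have hda : Commute d a := swap_comm' (by grind) (by grind) (by grind) (by grind)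
  have hdb : Commute d b := swap_comm' (by grind) (by grind) (by grind) (by grind)
  have hcc : c * c = 1 := swap_mul_self _ _
  have hdd : d * d = 1 := swap_mul_self _ _
  have h1 : a * c * (b * d) = (a * b) * (c * d) := by
    rw [mul_assoc, mul_assoc, ← mul_assoc c, hcb.eq, mul_assoc]
  have h2 : Commute (a * b) (c * d) :=
    ((hca.mul_right hcb).mul_left (hda.mul_right hdb)).symm
  have h3 : (a * c * (b * d)) ^ 2 = (a * b) * (a * b) := by
    rw [h1, h2.mul_pow, hcd.mul_pow, pow_two c, pow_two d, hcc, hdd]; simp [pow_two]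
  have h4 : (a * b).IsThreeCycle := isThreeCycle_swap_mul_swap_same x2.symm x1.symm x3.symm
  exact hno _ (h3 ▸ pow_mem (mul_mem ha hb) 2) h4.isThreeCycle_sq

include hno h8 hσ hτ in
theorem L0 {x : α} (hx : Cond σ τ x) : ∃ l : List α, l.length = 4 ∧
    ∀ v, Al σ τ x v → v ∈ l ∧ Al τ σ x v := by
  obtain ⟨f, hf⟩ := hτ.fix
  obtain ⟨u, hu⟩ := exists_not_mem [x, τ x, σ x, τ (σ x), f] (by simp; omega)
  obtain ⟨w, hw⟩ := exists_not_mem [x, τ x, σ x, τ (σ x), f, u, τ u] (by simp; omega)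
  simp only [List.mem_cons, List.not_mem_nil, or_false, not_or] at hu hw
  have hu' : Al τ σ x u := ⟨hu.1, hu.2.1, hu.2.2.1, hu.2.2.2.1, fun h => hu.2.2.2.2 (hf _ h)⟩
  have hw' : Al τ σ x w := ⟨hw.1, hw.2.1, hw.2.2.1, hw.2.2.2.1, fun h => hw.2.2.2.2.1 (hf _ h)⟩
  refine ⟨[u, τ u, w, τ w], rfl, fun v hv => ?_⟩
  have h1 := core hno hσ hτ hx hu' hv
  have h2 := core hno hσ hτ hx hw' hv
  have e1 := hτ.sq x
  have e2 := hτ.sq u
  have e3 := hτ.sq w
  have e4 := hτ.sq (σ x)
  have hv5 := hv.2.2.2.2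
  simp only [List.mem_cons, List.not_mem_nil, or_false]
  unfold Al at hu' hw' ⊢
  grind

include hno h8 hσ hτ in
theorem L1 {x : α} (hx : Cond σ τ x) : τ (σ x) ≠ σ x := by
  intro h
  obtain ⟨l, hl, hl'⟩ := L0 hno h8 hτ hσ hx.symm
  obtain ⟨w, hw⟩ := exists_not_mem ([x, τ x, σ x] ++ l) (by simp; omega)
  simp only [List.mem_append, List.mem_cons, List.not_mem_nil, or_false, not_or] at hw
  obtain ⟨f, hf⟩ := hτ.fix
  refine hw.2 (hl' w ⟨hw.1.1, hw.1.2.1, hw.1.2.2, by rw [h]; exact hw.1.2.2, fun h' => ?_⟩).1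
  exact hw.1.2.2 ((hf _ h').trans (hf _ h).symm)

include hno h8 hσ hτ in
theorem L2 {x : α} (hx : Cond σ τ x) : τ (σ x) = σ (τ x) := by
  by_contra hne
  obtain ⟨l, hl, hl'⟩ := L0 hno h8 hσ hτ hx
  have h1 := L1 hno h8 hσ hτ hx
  have e1 := hτ.sq x
  have e2 := hτ.sq (σ x)
  have e3 := hσ.sq x
  obtain ⟨x1, x2, x3⟩ := hx
  have hy : Cond τ σ (σ x) := ⟨h1, by grind, by grind⟩
  have h2 := L1 hno h8 hτ hσ hy
  exact (hl' (τ (σ x)) ⟨by grind, h1, by grind, hne, h2⟩).2.2.2.2.1 rfl

include hno h8 hσ hτ in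
theorem L3 {x : α} (hx : Cond σ τ x) : Fintype.card α ≤ 9 := by
  by_contra hcon
  obtain ⟨l, hl, hl'⟩ := L0 hno h8 hσ hτ hx
  obtain ⟨f, hf⟩ := hσ.fix
  obtain ⟨w, hw⟩ := exists_not_mem ([x, σ x, τ x, σ (τ x), f] ++ l) (by simp; omega)
  simp only [List.mem_append, List.mem_cons, List.not_mem_nil, or_false, not_or] at hw
  exact hw.2 (hl' w ⟨hw.1.1, hw.1.2.1, hw.1.2.2.1, hw.1.2.2.2.1, fun h => hw.1.2.2.2.2 (hf _ h)⟩).1

include hno h8 hσ hτ in
theorem L4a {x : α} (h1 : τ x = x) : σ x = x := by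
  by_contra h2
  obtain ⟨f, hf⟩ := hτ.fix
  have e1 := hτ.sq (σ x)
  have e3 := hσ.sq x
  have e4 := hf x
  have e5 := hf (σ x)
  have hy : Cond σ τ (σ x) := ⟨by grind, by grind, by grind⟩
  have := L1 hno h8 hσ hτ hy
  grind

include hno h8 hσ hτ in
theorem L4 (x : α) : σ x = τ x ∨ Cond σ τ x := by
  by_cases h : σ x = τ x
  · exact Or.inl h
  · refine Or.inr ⟨fun h1 => h ?_, fun h1 => h ?_, h⟩
    · rw [h1, L4a hno h8 hτ hσ h1]
    · rw [h1, L4a hno h8 hσ hτ h1]

include hno h8 hσ hτ in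
theorem pair_comm : τ * σ = σ * τ := by
  ext x
  rcases L4 hno h8 hσ hτ x with h | h
  · simp only [Perm.mul_apply]
    rw [h, hτ.sq, ← h, hσ.sq]
  · exact L2 hno h8 hσ hτ h

include hno h8 hσ hτ in
theorem pair_eq (h10 : 10 ≤ Fintype.card α) : σ = τ := by
  ext x
  rcases L4 hno h8 hσ hτ x with h | h
  · exact h
  · have := L3 hno h8 hσ hτ h
    omega

theorem exists_threeCycle (h8 : 8 ≤ Fintype.card α) (hE : QS (FSof H)) {τ : Perm α} (hτ : Pair H τ)
    (hs : Fintype.card α ≤ 9 → sign τ = 1) : ∃ c ∈ H, c.IsThreeCycle := by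
  by_contra hno
  push Not at hno
  set E := FSof H with hEd
  have hcomp : Comp H E := ⟨sn_FSof H, hE⟩
  have hCE : H ⊓ centralizer (E : Set (Perm α)) ≤ E := inf_centralizer_FSof_le H
  have hab : ∀ U : Subgroup (Perm α), U ≤ H → E ≤ normalizer (U : Set (Perm α)) →
      (∀ a ∈ U, ∀ b ∈ U, a * b = b * a) → U ≤ centralizer (E : Set (Perm α)) := by
    intro U h1 h2 h3
    rcases hcomp.le_or_commutator_eq_bot_of_le_normalizer h1 h2 with h | h
    · exact absurd (fun a ha b hb => h3 b (h hb) a (h ha)) hE.not_le_centralizer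
    · exact commutator_eq_bot_iff_le_centralizer.1 (by rw [commutator_comm]; exact h)
  have hcent : ∀ e ∈ E, e * τ = τ * e := by
    by_cases h10 : 10 ≤ Fintype.card α
    · intro e he
      have := pair_eq hno h8 (hτ.conj (hcomp.le he)) hτ h10
      exact mul_inv_eq_iff_eq_mul.1 this
    · have hτH : τ ∈ H := hτ.le ⟨hs (by omega), fun x => Or.inr rfl⟩
      set N : Subgroup (Perm α) := closure {g | g ∈ H ∧ Pair H g} with hN
      have key : ∀ k ∈ H, ∀ g ∈ N, k * g * k⁻¹ ∈ N := by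
        intro k hk g hg
        have : N.map (MulAut.conj k).toMonoidHom ≤ N := by
          rw [hN, MonoidHom.map_closure]
          apply Subgroup.closure_mono
          rintro _ ⟨d, hd, rfl⟩
          exact ⟨mul_mem (mul_mem hk hd.1) (inv_mem hk), hd.2.conj hk⟩
        exact this ⟨g, hg, rfl⟩
      have h1 : N ≤ centralizer (E : Set (Perm α)) := by
        refine hab N (by rw [hN, closure_le]; exact fun g hg => hg.1) ?_ ?_
        · intro k hk
          rw [mem_normalizer_iff]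
          refine fun g => ⟨key k (hcomp.le hk) g, fun hg => ?_⟩
          have := key k⁻¹ (inv_mem (hcomp.le hk)) _ hg
          simpa [mul_assoc] using this
        · have h2 : N ≤ centralizer (N : Set (Perm α)) := by
            rw [hN, closure_le]
            intro a ha
            rw [SetLike.mem_coe, centralizer_closure]
            intro b hb
            exact pair_comm hno h8 ha.2 hb.2
          exact fun a ha b hb => h2 hb a ha
      exact fun e he => h1 (Subgroup.subset_closure ⟨hτH, hτ⟩) e he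
  have hW : Wt τ hτ.sq ≤ centralizer (E : Set (Perm α)) := by
    have key : ∀ e ∈ E, ∀ g ∈ Wt τ hτ.sq, e * g * e⁻¹ ∈ Wt τ hτ.sq := by
      intro e he g hg
      refine ⟨by simp [hg.1], fun x => ?_⟩
      rcases hg.2 (e⁻¹ x) with h | h
      · left; simp only [Perm.mul_apply]; rw [h]; simp
      · right
        simp only [Perm.mul_apply]
        rw [h, ← Perm.mul_apply e τ, hcent e he]; simp
    refine hab _ hτ.le ?_ (fun a ha b hb => Wt_comm ha hb)
    intro k hk
    rw [mem_normalizer_iff]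
    refine fun g => ⟨key k hk g, fun hg => ?_⟩
    have := key k⁻¹ (inv_mem hk) _ hg
    simpa [mul_assoc] using this
  obtain ⟨f, hf⟩ := hτ.fix
  obtain ⟨x, hx⟩ := exists_not_mem [f] (by simp; omega)
  obtain ⟨u, hu⟩ := exists_not_mem [f, x, τ x] (by simp; omega)
  simp only [List.mem_cons, List.not_mem_nil, or_false, not_or] at hx hu
  have hx' : τ x ≠ x := fun h => hx (hf _ h)
  have hu' : τ u ≠ u := fun h => hu.1 (hf _ h)
  have hm := swap_mem_Wt hτ.sq hx' hu' hu.2.1 hu.2.2
  have h1 := eq_one_of_small hE.perfect (hCE ⟨hτ.le hm, hW hm⟩) (hW hm) (by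
    refine (Finset.card_le_card (support_mul_le _ _)).trans ((Finset.card_union_le _ _).trans ?_)
    rw [card_support_swap hx'.symm, card_support_swap hu'.symm])
  have h2 := DFunLike.congr_fun h1 x
  have e1 := hτ.sq u
  simp only [Perm.mul_apply, swap_apply_def, Perm.one_apply] at h2
  grind

end

/-- The standard pairing. -/
def tf (n : ℕ) (i : Fin n) : Fin n :=
  if h : i.1 % 2 = 0 then (if h' : i.1 + 1 < n then ⟨i.1 + 1, h'⟩ else i) else ⟨i.1 - 1, by omega⟩

theorem tf_tf (n : ℕ) (i : Fin n) : tf n (tf n i) = i := by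
  apply Fin.ext
  unfold tf
  split_ifs <;> simp at * <;> omega

/-- The standard pairing as a permutation. -/
def t0 (n : ℕ) : Perm (Fin n) := ⟨tf n, tf n, tf_tf n, tf_tf n⟩


/-- Let n ≥ 8 and let H be a subgroup of the symmetric group of degree n whose generalized Fitting subgroup F*(H) is quasisimple. If H contains a Sylow 2-subgroup of the alternating group of degree n, then F*(H) is isomorphic to an alternating group of degree m for some m ∈ {n − 3, n − 2, n − 1, n}. -/
theorem result (n : ℕ) (hn : 8 ≤ n) (H : Subgroup (Equiv.Perm (Fin n))) (hF : Cfsg.IsQuasisimple ↥(Cfsg.generalizedFittingSubgroup ↥H)) (hS : ∃ P : Sylow 2 ↥(alternatingGroup (Fin n)), ((P : Subgroup ↥(alternatingGroup (Fin n))).map (alternatingGroup (Fin n)).subtype) ≤ H) : ∃ m : ℕ, (m = n - 3 ∨ m = n - 2 ∨ m = n - 1 ∨ m = n) ∧ Nonempty (↥(Cfsg.generalizedFittingSubgroup ↥H) ≃* ↥(alternatingGroup (Fin m))) := by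
  classical
  obtain ⟨P, hP⟩ := hS
  have hE : QS (FSof H) := (qs_map_inj_iff _ H.subtype_injective).2 (qs_iff.2 hF)
  have hPH : ∀ g : alternatingGroup (Fin n), g ∈ (P : Subgroup (alternatingGroup (Fin n))) →
      (g : Perm (Fin n)) ∈ H := fun g hg => hP ⟨g, hg, rfl⟩
  -- the pairing
  have hW : IsPGroup 2 ((Wt (t0 n) (tf_tf n)).subgroupOf (alternatingGroup (Fin n))) := by
    intro g
    refine ⟨1, Subtype.ext (Subtype.ext ?_)⟩
    simpa [pow_two] using Wt_sq (hτ := tf_tf n) g.2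
  obtain ⟨g, -, hg⟩ := exists_conj_le_sylow P le_top le_top hW
  have h0 : Pair (H.comap (MulAut.conj (g : Perm (Fin n))).toMonoidHom) (t0 n) := by
    refine ⟨tf_tf n, ⟨⟨n - 1, by omega⟩, fun u hu => ?_⟩, fun w hw => hPH _ (hg ⟨w, hw.1⟩ hw)⟩
    have h1 : tf n u = u := hu
    have h2 := congrArg Fin.val h1
    apply Fin.ext
    unfold tf at h2
    split_ifs at h2 <;> simp at * <;> omega
  have hτ : Pair H ((g : Perm (Fin n)) * t0 n * (g : Perm (Fin n))⁻¹) := by
    have h1 := (Pair.conj (H := ⊤) ⟨h0.sq, h0.fix, le_top⟩ (mem_top (g : Perm (Fin n))))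
    refine ⟨h1.sq, h1.fix, fun w hw => ?_⟩
    have h2 : (g : Perm (Fin n))⁻¹ * w * g ∈ Wt (t0 n) h0.sq := by
      refine ⟨by simp [hw.1], fun x => ?_⟩
      rcases hw.2 ((g : Perm (Fin n)) x) with h2 | h2
      · left; simp [h2]
      · right; simp [h2]
    have h3 : (g : Perm (Fin n)) * ((g : Perm (Fin n))⁻¹ * w * g) * (g : Perm (Fin n))⁻¹ ∈ H := h0.le h2
    simpa [mul_assoc] using h3
  obtain ⟨c, hcH, hc⟩ := exists_threeCycle (by simpa using hn) hE hτ (by
    intro h9
    have h9' : n ≤ 9 := by simpa using h9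
    have : sign (t0 n) = 1 := by
      interval_cases n <;> decide
    simp [this])
  obtain ⟨s, hs1, hs2, hs3⟩ := alt_of_threeCycle hE hcH hc
  have hcard : n ≤ s.card + 3 := by
    by_contra hcon
    obtain ⟨t, ht, h4⟩ := Finset.exists_subset_card_eq (s := sᶜ) (n := 4)
      (by rw [Finset.card_compl, Fintype.card_fin]; omega)
    obtain ⟨a, t', ha, rfl, h3⟩ := Finset.card_eq_succ.1 h4
    obtain ⟨b, c, d, hbc, hbd, hcd, rfl⟩ := Finset.card_eq_three.1 h3
    simp only [Finset.mem_insert, Finset.mem_singleton, not_or] at ha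
    have ma : a ∉ s := by simpa using ht (by simp : a ∈ _)
    have mb : b ∉ s := by simpa using ht (by simp : b ∈ _)
    have mc : c ∉ s := by simpa using ht (by simp : c ∈ _)
    have md : d ∉ s := by simpa using ht (by simp : d ∈ _)
    let e : alternatingGroup (Fin n) := ⟨swap a b * swap c d, by simp [ha.1, hcd]⟩
    have he' : ∀ x ∈ s, (e : Perm (Fin n)) x = x := fun x hx => by
      simp only [e, Perm.mul_apply, swap_apply_def]
      grind
    have hee : e * e = 1 := by
      apply Subtype.ext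
      ext x
      simp only [e, Subgroup.coe_mul, Perm.mul_apply, swap_apply_def, Subgroup.coe_one, Perm.one_apply]
      grind
    have he2 : IsPGroup 2 (zpowers e) := by
      have : orderOf e ∣ 2 := orderOf_dvd_of_pow_eq_one (by rw [pow_two, hee])
      obtain ⟨k, -, hk⟩ := (Nat.dvd_prime_pow Nat.prime_two (m := 1)).1 (by simpa using this)
      exact IsPGroup.of_card (n := k) (by rw [Nat.card_zpowers, hk])
    have hdM : zpowers e ≤ (SetStab s).subgroupOf (alternatingGroup (Fin n)) := by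
      rw [zpowers_le]
      intro x
      by_cases hx : x ∈ s
      · exact (congrArg (· ∈ s) (he' x hx)).to_iff
      · simp only [hx, iff_false]
        intro h
        exact hx ((e : Perm (Fin n)).injective (he' _ h) ▸ h)
    obtain ⟨k, hk, hkd⟩ := exists_conj_le_sylow P
      (M := (SetStab s).subgroupOf (alternatingGroup (Fin n))) (fun x hx => hs2 x (hPH x hx)) hdM he2
    have h1 := hs3 _ (hPH _ (hkd e (mem_zpowers e))) (fun x hx => by
      have : ((k⁻¹ : alternatingGroup (Fin n)) : Perm (Fin n)) x ∈ s := (inv_mem hk x).2 hx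
      rw [Subgroup.coe_mul, Subgroup.coe_mul, Perm.mul_apply, Perm.mul_apply, he' _ this]
      simp)
    have h2 : (e : Perm (Fin n)) = 1 := by simpa using h1
    have h3 := DFunLike.congr_fun h2 a
    simp only [e, Perm.mul_apply, swap_apply_def, Perm.one_apply] at h3
    grind
  have hle : s.card ≤ n := by simpa using Finset.card_le_univ s
  refine ⟨s.card, by omega, ⟨?_⟩⟩
  exact ((Cfsg.generalizedFittingSubgroup H).equivMapOfInjective _ H.subtype_injective).trans
    ((MulEquiv.subgroupCongr hs1).trans (altOnEquiv s))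

end Cfsg.Agent.S2928
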