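import Cfsg.Statements.S2929
import Cfsg.Agent.H46.AltOn

set_option autoImplicit false
open Cfsg

namespace Cfsg.Agent.S2929

open Subgroup Equiv Equiv.Perm H44 H46

theorem exists_three {α : Type*} [Fintype α] [DecidableEq α] (D : Finset α) (hD : 3 ≤ D.card) :
    ∃ c : Perm α, c.IsThreeCycle ∧ ∀ x, x ∉ D → c x = x := by
  obtain ⟨t, ht, h3⟩ := Finset.exists_subset_card_eq hD
  obtain ⟨a, b, c, hab, hac, hbc, rfl⟩ := Finset.card_eq_three.1 h3
  refine ⟨swap a b * swap a c, isThreeCycle_swap_mul_swap_same hab hac hbc, fun x hx => ?_⟩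
  have h1 : x ≠ a := fun h => hx (ht (by simp [h]))
  have h2 : x ≠ b := fun h => hx (ht (by simp [h]))
  have h3 : x ≠ c := fun h => hx (ht (by simp [h]))
  simp [swap_apply_of_ne_of_ne, h1, h2, h3]


/-- Let n ≥ 5 and let H be a subgroup of the symmetric group of degree n whose generalized Fitting subgroup F*(H) is quasisimple. If H contains a Sylow 3-subgroup of the symmetric group, then F*(H) is isomorphic to an alternating group of degree m for some m ∈ {n − 2, n − 1, n}. -/
theorem result (n : ℕ) (hn : 5 ≤ n) (H : Subgroup (Equiv.Perm (Fin n))) (hF : Cfsg.IsQuasisimple ↥(Cfsg.generalizedFittingSubgroup ↥H)) (hS : ∃ P : Sylow 3 (Equiv.Perm (Fin n)), (P : Subgroup (Equiv.Perm (Fin n))) ≤ H) : ∃ m : ℕ, (m = n - 2 ∨ m = n - 1 ∨ m = n) ∧ Nonempty (↥(Cfsg.generalizedFittingSubgroup ↥H) ≃* ↥(alternatingGroup (Fin m))) := by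
  classical
  haveI : Fact (Nat.Prime 3) := ⟨Nat.prime_three⟩
  obtain ⟨P, hP⟩ := hS
  have hE : QS (FSof H) := (qs_map_inj_iff _ H.subtype_injective).2 (qs_iff.2 hF)
  have h3 : ∀ c : Perm (Fin n), c.IsThreeCycle → IsPGroup 3 (zpowers c) := fun c hc =>
    IsPGroup.of_card (n := 1) (by rw [Nat.card_zpowers, hc.orderOf, pow_one])
  obtain ⟨c, hc, -⟩ := exists_three (Finset.univ : Finset (Fin n)) (by simp; omega)
  obtain ⟨g, -, hg⟩ := exists_conj_le_sylow P le_top le_top (h3 c hc)
  have hc' : (g * c * g⁻¹).IsThreeCycle := (cycleType_conj (σ := c) (τ := g)).trans hc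
  obtain ⟨s, hs1, hs2, hs3⟩ := alt_of_threeCycle hE (hP (hg c (mem_zpowers c))) hc'
  have hcard : n ≤ s.card + 2 := by
    by_contra hcon
    obtain ⟨d, hd, hds⟩ := exists_three sᶜ (by rw [Finset.card_compl, Fintype.card_fin]; omega)
    have hd' : ∀ x ∈ s, d x = x := fun x hx => hds x (by simpa using hx)
    have hdM : zpowers d ≤ SetStab s := by
      rw [zpowers_le]
      intro x
      by_cases hx : x ∈ s
      · rw [hd' x hx]
      · simp only [hx, iff_false]
        intro h
        exact hx (d.injective (hd' _ h) ▸ h)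
    obtain ⟨k, hk, hkd⟩ := exists_conj_le_sylow P (M := SetStab s) (fun x hx => hs2 x (hP hx)) hdM
      (h3 d hd)
    have h1 := hs3 _ (hP (hkd d (mem_zpowers d))) (fun x hx => by
      have : k⁻¹ x ∈ s := (inv_mem hk x).2 hx
      rw [Perm.mul_apply, Perm.mul_apply, hd' _ this]
      simp)
    exact hd.ne_one (by simpa using h1)
  have hle : s.card ≤ n := by simpa using Finset.card_le_univ s
  refine ⟨s.card, by omega, ⟨?_⟩⟩
  exact ((Cfsg.generalizedFittingSubgroup H).equivMapOfInjective _ H.subtype_injective).trans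
    ((MulEquiv.subgroupCongr hs1).trans (altOnEquiv s))

end Cfsg.Agent.S2929
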