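import Cfsg.Statements.S2939
import Cfsg.Agent.H72.SylChain

set_option autoImplicit false
open Cfsg

namespace Cfsg.Agent.S2939

open Cfsg.Agent.H72

theorem conjRight_subset_iff {G : Type*} [Group G] {g : G} {A : Set G} {H : Subgroup G} :
    Cfsg.conjRight g A ⊆ (H : Set G) ↔ A ⊆ (cj g H : Set G) := by
  unfold Cfsg.conjRight
  rw [Set.image_subset_iff]
  refine forall_congr' fun a => imp_congr_right fun _ => ?_
  exact (mem_cj (g := g) (x := a) (H := H)).symm

theorem partial_last {G : Type*} [Group G] {n : ℕ} (y : Fin n → G) :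
    Fin.partialProd y (Fin.last n) = (List.ofFn y).prod := by
  unfold Fin.partialProd
  rw [List.take_of_length_le (by simp)]

/-- Let p be a prime dividing the order of the finite group G and 𝓕 a family of subgroups of G closed under conjugation, with conjugates taken as X^g = g⁻¹Xg. Then 𝓕 controls Sylow p-intersections in G (any two distinct Sylow p-subgroups S and T with S ∩ T ≠ 1 are joined by a chain S = S₀, S₁, …, Sₙ = T of Sylow p-subgroups where, for each i, some member Xᵢ of 𝓕 meets both S_{i-1} and Sᵢ in Sylow p-subgroups of Xᵢ, satisfies S ∩ T ≤ Sᵢ ∩ Xᵢ, and contains an element xᵢ with Sᵢ^{xᵢ} = S_{i-1}) if and only if 𝓕 strongly controls p-fusion in G (whenever A is a subset of a Sylow p-subgroup S, A contains an element other than 1, and A^g ⊆ S, the element g factorises as g = y₁⋯yₙy with y ∈ N_G(S) and each yᵢ in a member Yᵢ of 𝓕 that meets S in a Sylow p-subgroup of Yᵢ, with A^{y₁⋯yᵢ} ⊆ S ∩ Yᵢ for each i). -/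
theorem result {G : Type*} [Group G] [Finite G] {p : ℕ} [Fact p.Prime] (hdiv : p ∣ Nat.card G) (𝓕 : Set (Subgroup G)) (h𝓕 : Cfsg.IsNormalSet 𝓕) : Cfsg.ControlsSylowIntersections p 𝓕 ↔ Cfsg.FamilyStronglyControlsFusion p 𝓕 := by
  rw [controls_iff_top]
  constructor
  · intro h S A g hAS ⟨a, ha, ha1⟩ hgA
    have hS := isSylowIn_top S
    have hgA' : A ⊆ (cj g (S : Subgroup G) : Set G) := conjRight_subset_iff.1 hgA
    have hne : (S : Subgroup G) ⊓ cj g S ≠ ⊥ := fun e => ha1 (by
      have : a ∈ (S : Subgroup G) ⊓ cj g S := ⟨hAS ha, hgA' ha⟩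
      rwa [e, Subgroup.mem_bot] at this)
    have c := h _ _ hS (hS.cj_of_mem (Subgroup.mem_top g)) hne
    let r : G → G → Prop := fun u v => ∃ Y ∈ Cfsg.sylowMembers p 𝓕 (S : Subgroup G), ∃ y ∈ Y,
      v = u * y ∧ Cfsg.conjRight v A ⊆ (S : Set G) ∩ (Y : Set G)
    have key : ∀ T, SylChain p ⊤ 𝓕 ((S : Subgroup G) ⊓ cj g S) S T →
        ∃ u, Relation.ReflTransGen r 1 u ∧ cj u (S : Subgroup G) = T := by
      intro T hT
      induction hT with
      | refl => exact ⟨1, .refl, cj_one _⟩
      | @tail U V _ hl ih =>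
        obtain ⟨u, hu, he⟩ := ih
        obtain ⟨-, -, -, h4, X, hX, x, hx, h5, -, h7, h8⟩ := hl
        have hV : cj (u * (u⁻¹ * x * u)) (S : Subgroup G) = V := by
          rw [← cj_cj_inv x V, h7, ← he, ← cj_mul]
          congr 1
          group
        refine ⟨u * (u⁻¹ * x * u), hu.tail ⟨cj u⁻¹ X, mem_sylowMembers.2
          ⟨cj_mem_of_isNormalSet h𝓕 hX _, ?_⟩, u⁻¹ * x * u, ?_, rfl, ?_⟩, hV⟩
        · rw [← cj_inv_cj u (S : Subgroup G), he, ← cj_inf]
          exact h5.cj _
        · simpa using conj_mem_cj (g := u⁻¹) hx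
        · have hA : A ⊆ (((S : Subgroup G) ⊓ cj g S : Subgroup G) : Set G) :=
            fun b hb => ⟨hAS hb, hgA' hb⟩
          refine Set.subset_inter (conjRight_subset_iff (H := (S : Subgroup G)).2 ?_)
            (conjRight_subset_iff.2 ?_)
          · rw [hV]; exact hA.trans h4
          · rw [← cj_mul, show u * (u⁻¹ * x * u) * u⁻¹ = x by group, cj_eq_of_mem hx]
            exact hA.trans h8
    obtain ⟨u, hu, he⟩ := key _ c
    obtain ⟨n, d, h0, hl, hd⟩ := reflTransGen_iff_fin.1 hu
    choose Y hY y hy h1 h2 using hd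
    have hpp : ∀ i : Fin (n + 1), Fin.partialProd y i = d i := by
      intro i
      induction i using Fin.induction with
      | zero => rw [Fin.partialProd_zero, h0]
      | succ j ih => rw [Fin.partialProd_succ, ih, h1]
    refine ⟨n, Y, y, u⁻¹ * g, ?_, fun i => ⟨hY i, hy i⟩, ?_, fun i => ?_⟩
    · rw [← cj_eq_iff, cj_mul, ← he, cj_inv_cj]
    · rw [← partial_last, hpp, hl, mul_inv_cancel_left]
    · have := h2 i
      rw [← hpp] at this
      exact this
  · intro h S T hS hT hne
    obtain ⟨g, -, rfl⟩ := hS.exists_cj_eq hT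
    obtain ⟨S, rfl⟩ := hS.exists_sylow_top
    obtain ⟨a, ha1⟩ := (Subgroup.ne_bot_iff_exists_ne_one).1 hne
    obtain ⟨n, Y, y, y₀, hy₀, hY, hg, hA⟩ := h S ((S : Subgroup G) ⊓ cj g S : Subgroup G) g
      (fun b hb => hb.1) ⟨a, a.2, fun e => ha1 (Subtype.ext e)⟩
      ((conjRight_subset_iff (H := (S : Subgroup G))).2 fun b hb => hb.2)
    have hA' : ∀ i : Fin n, (S : Subgroup G) ⊓ cj g S ≤ cj (Fin.partialProd y i.succ) S ∧
        (S : Subgroup G) ⊓ cj g S ≤ cj (Fin.partialProd y i.succ) (Y i) := fun i =>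
      ⟨(conjRight_subset_iff (H := (S : Subgroup G))).1 ((hA i).trans Set.inter_subset_left),
        conjRight_subset_iff.1 ((hA i).trans Set.inter_subset_right)⟩
    have hA0 : ∀ i : Fin (n + 1), (S : Subgroup G) ⊓ cj g S ≤ cj (Fin.partialProd y i) S := by
      intro i
      induction i using Fin.cases with
      | zero => rw [Fin.partialProd_zero, cj_one]; exact inf_le_left
      | succ j => exact (hA' j).1
    refine reflTransGen_iff_fin.2 ⟨n, fun i => cj (Fin.partialProd y i) S, ?_, ?_, fun i => ?_⟩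
    · simp only [Fin.partialProd_zero, cj_one]
    · simp only [partial_last]
      rw [hg, cj_mul, cj_eq_of_mem_normalizer hy₀]
    · obtain ⟨h1, h2⟩ := hY i
      rw [mem_sylowMembers] at h1
      dsimp only
      set u := Fin.partialProd y i.castSucc
      have hu : Fin.partialProd y i.succ = u * y i := Fin.partialProd_succ y i
      have hX : cj (u * y i) (Y i) = cj u (Y i) := by rw [cj_mul, cj_eq_of_mem h2]
      refine ⟨hS.cj_of_mem (Subgroup.mem_top _), hS.cj_of_mem (Subgroup.mem_top _), hA0 _, hA0 _,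
        cj u (Y i), cj_mem_of_isNormalSet h𝓕 h1.1 u, u * y i * u⁻¹, conj_mem_cj h2, ?_, ?_, ?_, ?_⟩
      · rw [← cj_inf]; exact h1.2.cj u
      · rw [hu, ← hX, ← cj_inf]; exact h1.2.cj _
      · rw [hu, ← cj_mul]
        congr 1
        group
      · rw [← hX, ← hu]; exact (hA' i).2

end Cfsg.Agent.S2939
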