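import Cfsg.Statements.S2940
import Cfsg.Agent.H71.SylowIn

set_option autoImplicit false
open Cfsg

namespace Cfsg.Agent.S2940

/-- Let S be a Sylow p-subgroup of the finite group G and G₁, G₂ subgroups containing S with G = G₁G₂. Then for every g ∈ G there is a Sylow p-subgroup U of G with S ∩ S^g ≤ U ≤ G₁ ∩ G₂^g (conjugates taken as X^g = g⁻¹Xg). -/
theorem result {G : Type*} [Group G] [Finite G] {p : ℕ} [Fact p.Prime] (S : Sylow p G) (G₁ G₂ : Subgroup G) (h1 : (S : Subgroup G) ≤ G₁) (h2 : (S : Subgroup G) ≤ G₂) (hfact : ∀ g : G, ∃ g₁ ∈ G₁, ∃ g₂ ∈ G₂, g = g₁ * g₂) (g : G) : ∃ U : Sylow p G, (S : Subgroup G) ⊓ Cfsg.subgroupConjRight g (S : Subgroup G) ≤ (U : Subgroup G) ∧ (U : Subgroup G) ≤ G₁ ⊓ Cfsg.subgroupConjRight g G₂ := by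
  obtain ⟨g₁, hg₁, g₂, hg₂, he⟩ := hfact g⁻¹
  have hc : Cfsg.subgroupConjRight g G₂ = H71.cj g₁ G₂ := by
    show H71.cj g⁻¹ G₂ = _
    rw [he, ← H71.cj_cj, H71.cj_eq_of_mem hg₂]
  have hS : H71.SylowIn p (H71.cj g₁ (S : Subgroup G)) ⊤ :=
    (H71.sylowIn_top S).cj_of_mem (Subgroup.mem_top _)
  have hle : H71.cj g₁ (S : Subgroup G) ≤ G₁ ⊓ Cfsg.subgroupConjRight g G₂ := by
    rw [hc]
    exact le_inf (H71.cj_le_of_mem hg₁ h1) (H71.cj_mono h2)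
  have hQ : (S : Subgroup G) ⊓ Cfsg.subgroupConjRight g (S : Subgroup G) ≤
      G₁ ⊓ Cfsg.subgroupConjRight g G₂ :=
    inf_le_inf h1 (Subgroup.map_mono h2)
  obtain ⟨x, hx, hxle⟩ := (hS.mono hle le_top).exists_conj_le
    (S.isPGroup'.to_le inf_le_left) hQ
  obtain ⟨U, hU⟩ := (hS.cj_of_mem (Subgroup.mem_top x)).exists_sylow_top
  exact ⟨U, hU ▸ hxle, hU ▸ H71.cj_le_of_mem hx hle⟩

end Cfsg.Agent.S2940
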