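import Cfsg.Statements.S2955
import Cfsg.Agent.H72.SylChain

set_option autoImplicit false
open Cfsg

namespace Cfsg.Agent.S2955

open Cfsg.Agent.H72


/-- Let p be a prime dividing the order of the finite group G and 𝓕 a conjugation-closed family of subgroups that controls Sylow p-intersections in G. Suppose the Sylow p-subgroups of G are chain-connected: any two of them are joined by a chain of Sylow p-subgroups, consecutive ones distinct with nontrivial intersection, all containing the intersection of the two ends (equivalently, the graph on the Sylow p-subgroups whose edges are the distinct pairs meeting nontrivially is connected). Then for every Sylow p-subgroup S, G is generated by N_G(S) together with the members of 𝓕 that meet S in a Sylow p-subgroup of themselves. -/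
theorem result {G : Type*} [Group G] [Finite G] (p : ℕ) [Fact p.Prime] (hdiv : p ∣ Nat.card G)
    (𝓕 : Set (Subgroup G)) (h𝓕 : Cfsg.IsNormalSet 𝓕) (hc : Cfsg.ControlsSylowIntersections p 𝓕)
    (hconn : Cfsg.IsSylowChainConnected p G) (S : Sylow p G) :
    (⨆ X ∈ Cfsg.sylowMembers p 𝓕 (S : Subgroup G), X) ⊔ Subgroup.normalizer ((S : Subgroup G) : Set G) = ⊤ := by
  set H := (⨆ X ∈ Cfsg.sylowMembers p 𝓕 (S : Subgroup G), X) ⊔
    Subgroup.normalizer ((S : Subgroup G) : Set G) with hH
  have link : ∀ A P Q : Subgroup G, SylChain p ⊤ 𝓕 A P Q → (∃ h ∈ H, cj h P = S) →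
      ∃ h ∈ H, cj h Q = S := by
    intro A P Q hPQ hP
    induction hPQ with
    | refl => exact hP
    | tail _ hl ih =>
      obtain ⟨h, hh, he⟩ := ih
      obtain ⟨-, -, -, -, X, hX, x, hx, h5, -, h7, -⟩ := hl
      have h1 : cj h X ∈ Cfsg.sylowMembers p 𝓕 (S : Subgroup G) := by
        refine mem_sylowMembers.2 ⟨cj_mem_of_isNormalSet h𝓕 hX h, ?_⟩
        rw [← he, ← cj_inf]
        exact h5.cj h
      have h2 : cj h X ≤ H :=
        (le_iSup₂ (f := fun X (_ : X ∈ Cfsg.sylowMembers p 𝓕 (S : Subgroup G)) => X) _ h1).trans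
          le_sup_left
      refine ⟨(h * x * h⁻¹)⁻¹ * h, H.mul_mem (H.inv_mem (h2 (conj_mem_cj hx))) hh, ?_⟩
      rw [← he, ← h7, ← cj_mul]
      congr 1
      group
  rw [eq_top_iff]
  intro g _
  obtain ⟨n, c, h0, hl, -, hc'⟩ := hconn S (g⁻¹ • S)
  have key : ∀ i : Fin (n + 1), ∃ h ∈ H, cj h (c i : Subgroup G) = S := by
    intro i
    induction i using Fin.induction with
    | zero => exact ⟨1, H.one_mem, by rw [cj_one, h0]⟩
    | succ j ih =>
      exact link _ _ _ (controls_iff_top.1 hc _ _ (isSylowIn_top _) (isSylowIn_top _) (hc' j).2) ih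
  obtain ⟨h, hh, he⟩ := key (Fin.last n)
  rw [hl, cj_sylow g⁻¹, ← cj_mul, cj_eq_iff] at he
  have h3 : h * g⁻¹ ∈ H := (le_sup_right : _ ≤ H) he
  have : g = (h * g⁻¹)⁻¹ * h := by group
  rw [this]
  exact H.mul_mem (H.inv_mem h3) hh

end Cfsg.Agent.S2955
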