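import Cfsg.Statements.S2956
import Cfsg.Agent.H72.SylChain

set_option autoImplicit false
open Cfsg

namespace Cfsg.Agent.S2956

open Cfsg.Agent.H72

theorem exists_maximal_plocal {G : Type*} [Group G] [Finite G] {p : ℕ} {N : Subgroup G}
    (hN : Cfsg.IsPLocal p N) : ∃ M, Cfsg.IsMaximalPLocal p M ∧ N ≤ M := by
  obtain ⟨M, hM, hmax⟩ := Set.Finite.exists_le_maximal (Set.toFinite {N | Cfsg.IsPLocal p N}) hN
  exact ⟨M, ⟨hmax.1, fun K hK hMK => le_antisymm (hmax.2 hK hMK) hMK⟩, hM⟩

/-- Let p be a prime dividing the order of the finite group G, and f an assignment to every p-subgroup P of a set f(P) of subgroups of P, each normalized by N_G(P), compatible with conjugation, such that for P ≠ 1 the members of f(P) are nontrivial. Let 𝓕 be the family of the normalizers N_G(F) of the members F of f(S) over the Sylow p-subgroups S of G, and 𝓕' the family of the maximal p-local subgroups M of G that are singular for f (the corresponding family of normalizers inside M does not control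 Sylow p-intersections in M). Then 𝓕 ∪ 𝓕' controls Sylow p-intersections in G. -/
theorem result {G : Type*} [Group G] [Finite G] (p : ℕ) [Fact p.Prime] (hdiv : p ∣ Nat.card G)
    (f : Subgroup G → Set (Subgroup G)) (hf : Cfsg.IsNormalizerFunctor p f)
    (hf1 : ∀ P : Subgroup G, IsPGroup p ↥P → P ≠ ⊥ → ∀ F ∈ f P, F ≠ ⊥)
    (𝓕 𝓕' : Set (Subgroup G)) (h𝓕 : 𝓕 = Cfsg.functorFamily p f ⊤)
    (h𝓕' : 𝓕' = {M | Cfsg.IsMaximalPLocal p M ∧ ¬ Cfsg.IsFunctorRegular p f M}) :
    Cfsg.ControlsSylowIntersections p (𝓕 ∪ 𝓕') := by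
  subst h𝓕 h𝓕'
  set 𝓖 := Cfsg.functorFamily p f ⊤ ∪
    {M | Cfsg.IsMaximalPLocal p M ∧ ¬ Cfsg.IsFunctorRegular p f M} with h𝓖
  rw [controls_iff_top]
  have main : ∀ (k : ℕ) (A : Subgroup G), Nat.card G - Nat.card A = k → A ≠ ⊥ →
      ∀ S T : Subgroup G, IsSylowIn p S ⊤ → IsSylowIn p T ⊤ → A ≤ S → A ≤ T →
      SylChain p ⊤ 𝓖 A S T := by
    intro k
    induction k using Nat.strong_induction_on with
    | _ k ih =>
    intro A hk hA
    have cardle : ∀ B : Subgroup G, Nat.card B ≤ Nat.card G := fun B =>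
      Subgroup.card_le_card_group B
    have cardlt : ∀ B C : Subgroup G, B < C → Nat.card B < Nat.card C := fun B C h =>
      lt_of_le_of_ne (Subgroup.card_le_of_le h.le)
        (fun e => h.ne (Subgroup.eq_of_le_of_card_ge h.le e.ge))
    have big : ∀ R S T : Subgroup G, Nat.card A < Nat.card R → IsSylowIn p S ⊤ → IsSylowIn p T ⊤ →
        A ≤ R → R ≤ S → R ≤ T → SylChain p ⊤ 𝓖 A S T := by
      intro R S T hR hS hT hAR h1 h2
      have := cardle R
      refine (ih _ (by omega) R rfl ?_ S T hS hT h1 h2).mono' subset_rfl hAR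
      intro e
      exact hA (le_bot_iff.1 (e ▸ hAR))
    have inner : ∀ (j : ℕ) (M R₀ : Subgroup G), Cfsg.IsMaximalPLocal p M → IsSylowIn p R₀ M →
        Nat.card G - Nat.card R₀ = j → ∀ R R' S T : Subgroup G, R ≤ M → R' ≤ M → A ≤ R → A ≤ R' →
        Nat.card A < Nat.card R → Nat.card A < Nat.card R' → IsSylowIn p S ⊤ → IsSylowIn p T ⊤ →
        R ≤ S → R' ≤ T → SylChain p ⊤ 𝓖 A S T := by
      intro j
      induction j using Nat.strong_induction_on with
      | _ j ihj =>
      intro M R₀ hM hR₀ hj R R' S T hRM hRM' hAR hAR' hc hc' hS hT hRS hRT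
      obtain ⟨P, hP, hRP⟩ := exists_isSylowIn_ge (hS.isPGroup.to_le hRS) hRM
      obtain ⟨Q, hQ, hRQ⟩ := exists_isSylowIn_ge (hT.isPGroup.to_le hRT) hRM'
      obtain ⟨S₁, hS₁, hPS⟩ := exists_isSylowIn_ge hP.isPGroup le_top
      obtain ⟨T₁, hT₁, hQT⟩ := exists_isSylowIn_ge hQ.isPGroup le_top
      refine (big R S S₁ hc hS hS₁ hAR hRS (hRP.trans hPS)).trans
        (Relation.ReflTransGen.trans ?_ (big R' T₁ T hc' hT₁ hT hAR' (hRQ.trans hQT) hRT))
      have hcP : Nat.card A < Nat.card P := hc.trans_le (Subgroup.card_le_of_le hRP)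
      have hAP : A ≤ P := hAR.trans hRP
      have hAQ : A ≤ Q := hAR'.trans hRQ
      by_cases hreg : Cfsg.IsFunctorRegular p f M
      · have c := (isFunctorRegular_iff.1 hreg P Q hP hQ
          (fun e => hA (le_bot_iff.1 (e ▸ le_inf hAP hAQ)))).mono' subset_rfl (le_inf hAP hAQ)
        clear hRQ hQ hAQ
        induction c generalizing T₁ with
        | refl => exact big P S₁ T₁ hcP hS₁ hT₁ hAP hPS hQT
        | @tail U V _ hl ihc =>
          obtain ⟨U₁, hU₁, hUU⟩ := exists_isSylowIn_ge hl.1.isPGroup le_top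
          refine (ihc U₁ hU₁ hUU).trans ?_
          by_cases hV : IsSylowIn p V ⊤
          · have hl' := hl.functor_top hf hV
            rw [hl'.1.maximal U₁ hU₁.isPGroup hUU le_top, hV.maximal T₁ hT₁.isPGroup hQT le_top]
            exact .single (hl'.mono Set.subset_union_left le_rfl)
          · obtain ⟨F, hF, h1, h2, -⟩ := hl.functor hf
            have hVp := hl.2.1.isPGroup
            have hV0 : V ≠ ⊥ := fun e => hA (le_bot_iff.1 (e ▸ hl.2.2.2.1))
            obtain ⟨M', hM', hNM⟩ := exists_maximal_plocal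
              (⟨F, hVp.to_le ((hf V hVp).1 F hF).1, hf1 V hVp hV0 F hF, rfl⟩ :
                Cfsg.IsPLocal p (Subgroup.normalizer (F : Set G)))
            obtain ⟨R₁, hR₁⟩ := exists_isSylowIn p M'
            have hlt : V < T₁ := lt_of_le_of_ne hQT (fun e => hV (e ▸ hT₁))
            have h3 := lt_inf_normalizer_of_isPGroup hT₁.isPGroup hlt
            have h4 := hR₁.card_le (hT₁.isPGroup.to_inf_left (K := Subgroup.normalizer (V : Set G)))
              (inf_le_right.trans (((hf V hVp).1 F hF).2.trans hNM))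
            have h5 := cardlt _ _ h3
            have h6 := hl.2.1.card_eq hR₀
            have h7 := cardle R₁
            have h8 := hl.1.card_eq hP
            have h9 := hl.2.1.card_eq hP
            exact ihj _ (by omega) M' R₁ hM' hR₁ rfl U V U₁ T₁ (h1.trans hNM) (h2.trans hNM)
              hl.2.2.1 hl.2.2.2.1 (by omega) (by omega) hU₁ hT₁ hUU hQT
      · obtain ⟨x, hx, he⟩ := hQ.exists_cj_eq hP
        have hT₂ := hT₁.cj_of_mem (Subgroup.mem_top x)
        have hPT : P ≤ cj x T₁ := he ▸ cj_mono x hQT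
        refine (big P S₁ _ hcP hS₁ hT₂ hAP hPS hPT).tail ⟨hT₂, hT₁, hAP.trans hPT, hAQ.trans hQT,
          M, Or.inr ⟨hM, hreg⟩, x⁻¹, M.inv_mem hx, ?_, ?_, by rw [inv_inv], hAP.trans hP.le⟩
        · rw [hP.maximal _ hT₂.isPGroup.to_inf_left (le_inf hPT hP.le) inf_le_right]; exact hP
        · rw [hQ.maximal _ hT₁.isPGroup.to_inf_left (le_inf hQT hQ.le) inf_le_right]; exact hQ
    intro S T hS hT hAS hAT
    by_cases hST : S = T
    · rw [hST]
    have hApg := hS.isPGroup.to_le hAS
    have h1 : A < S := lt_of_le_of_ne hAS fun e =>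
      hST (hS.maximal T hT.isPGroup (e ▸ hAT) le_top).symm
    have h2 : A < T := lt_of_le_of_ne hAT fun e =>
      hST (hT.maximal S hS.isPGroup (e ▸ hAS) le_top)
    obtain ⟨M, hM, hNM⟩ := exists_maximal_plocal
      (⟨A, hApg, hA, rfl⟩ : Cfsg.IsPLocal p (Subgroup.normalizer (A : Set G)))
    obtain ⟨R₀, hR₀⟩ := exists_isSylowIn p M
    have h3 := lt_inf_normalizer_of_isPGroup hS.isPGroup h1
    have h4 := lt_inf_normalizer_of_isPGroup hT.isPGroup h2
    exact inner _ M R₀ hM hR₀ rfl _ _ S T (inf_le_right.trans hNM) (inf_le_right.trans hNM)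
      h3.le h4.le (cardlt _ _ h3) (cardlt _ _ h4) hS hT inf_le_left inf_le_left
  intro S T hS hT hne
  exact main _ _ rfl hne S T hS hT inf_le_left inf_le_right

end Cfsg.Agent.S2956
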