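import Cfsg.Statements.S2957
import Cfsg.Agent.H72.SylChain
import Cfsg.Agent.S2940

set_option autoImplicit false
open Cfsg

namespace Cfsg.Agent.S2957

open Cfsg.Agent.H72


/-- Let p be a prime dividing the order of the finite group G, f an equivariant assignment of a set of subgroups f(P) of P to every p-subgroup P, each normalized by N_G(P), and S a Sylow p-subgroup. If G = G₁G₂ for subgroups G₁, G₂ both containing S and both regular for f (in each Gᵢ, the family of normalizers in Gᵢ of the members of f(P), P a Sylow p-subgroup of Gᵢ, controls Sylow p-intersections), then G itself is regular for f. -/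
theorem result {G : Type*} [Group G] [Finite G] (p : ℕ) [Fact p.Prime] (hdiv : p ∣ Nat.card G)
    (f : Subgroup G → Set (Subgroup G)) (hf : Cfsg.IsNormalizerFunctor p f) (S : Sylow p G)
    (G₁ G₂ : Subgroup G) (h₁ : (S : Subgroup G) ≤ G₁) (h₂ : (S : Subgroup G) ≤ G₂)
    (hprod : ∀ g : G, ∃ g₁ ∈ G₁, ∃ g₂ ∈ G₂, g = g₁ * g₂)
    (hr₁ : Cfsg.IsFunctorRegular p f G₁) (hr₂ : Cfsg.IsFunctorRegular p f G₂) :
    Cfsg.IsFunctorRegular p f ⊤ := by
  rw [isFunctorRegular_iff] at hr₁ hr₂ ⊢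
  have hcj := cj_mem_functorFamily_top hf
  have hS := isSylowIn_top S
  have key : ∀ g : G, (S : Subgroup G) ⊓ cj g S ≠ ⊥ →
      SylChain p ⊤ (Cfsg.functorFamily p f ⊤) ((S : Subgroup G) ⊓ cj g S) S (cj g S) := by
    intro g hne
    obtain ⟨U, hU1, hU2⟩ := Cfsg.Agent.S2940.result S G₁ G₂ h₁ h₂ hprod g⁻¹
    unfold Cfsg.subgroupConjRight at hU1 hU2
    rw [inv_inv] at hU1 hU2
    change (S : Subgroup G) ⊓ cj g S ≤ U at hU1
    change (U : Subgroup G) ≤ G₁ ⊓ cj g G₂ at hU2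
    have hA1 : (S : Subgroup G) ⊓ cj g S ≤ (S : Subgroup G) ⊓ U := le_inf inf_le_left hU1
    have c1 := (hr₁ S U (isSylowIn_sylow S h₁) (isSylowIn_sylow U (hU2.trans inf_le_left))
      (fun e => hne (le_bot_iff.1 (e ▸ hA1)))).functor_top hf hS h₁
    have hA2 : (S : Subgroup G) ⊓ cj g S ≤ cj g (cj g⁻¹ U ⊓ S) := by
      rw [cj_inf, cj_cj_inv]; exact le_inf hU1 inf_le_right
    have c2 := ((hr₂ (cj g⁻¹ U) S (((isSylowIn_top U).cj_of_mem (Subgroup.mem_top _)).of_le
      ((le_cj_iff g).1 (hU2.trans inf_le_right)) le_top) (isSylowIn_sylow S h₂)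
      (fun e => hne (le_bot_iff.1 (by rwa [e, cj_bot] at hA2)))).functor_top hf hS h₂).cj g (hcj g)
    rw [cj_cj_inv] at c2
    exact (c1.mono' subset_rfl hA1).trans (c2.mono' subset_rfl hA2)
  intro P Q hP hQ hne
  obtain ⟨a, -, rfl⟩ := hS.exists_cj_eq hP
  obtain ⟨b, -, rfl⟩ := hS.exists_cj_eq hQ
  have e : cj b (S : Subgroup G) = cj a (cj (a⁻¹ * b) S) := by
    rw [← cj_mul, mul_inv_cancel_left]
  rw [e, ← cj_inf] at hne ⊢
  exact (key _ (fun h => hne (by rw [h, cj_bot]))).cj a (hcj a)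

end Cfsg.Agent.S2957
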