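import Cfsg.Statements.S2958
import Cfsg.Agent.H72.Conj

set_option autoImplicit false
open Cfsg

namespace Cfsg.Agent.S2958

open Cfsg.Agent.H72


/-- Let X, A, B be subgroups of a group G such that G is generated by the conjugates of X and every conjugate of X is contained in A or in B. Then A = G or B = G. -/
theorem result {G : Type*} [Group G] (X A B : Subgroup G) (hgen : (⨆ g : G, X.map (MulAut.conj g).toMonoidHom) = ⊤) (hcover : ∀ g : G, X.map (MulAut.conj g).toMonoidHom ≤ A ∨ X.map (MulAut.conj g).toMonoidHom ≤ B) : A = ⊤ ∨ B = ⊤ := by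
  by_contra hcon
  push Not at hcon
  obtain ⟨hA, hB⟩ := hcon
  -- the join of the conjugates not inside `A`
  let B₀ : Subgroup G := ⨆ g : {g : G // ¬ cj g X ≤ A}, cj (g : G) X
  have hB₀ : B₀ ≤ B := iSup_le fun g => (hcover g).resolve_left g.2
  have hAn : A ≤ Subgroup.normalizer (B₀ : Set G) := by
    apply le_normalizer_of_cj_le
    intro a ha
    rw [cj_iSup]
    refine iSup_le fun g => ?_
    rw [← cj_mul]
    refine le_iSup_of_le ⟨a * g, fun h => g.2 ?_⟩ le_rfl
    rw [cj_mul, cj_le_iff, cj_eq_of_mem (A.inv_mem ha)] at h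
    exact h
  have hn : Subgroup.normalizer (B₀ : Set G) = ⊤ := by
    rw [eq_top_iff, ← hgen]
    refine iSup_le fun g => ?_
    by_cases h : cj g X ≤ A
    · exact h.trans hAn
    · exact (le_iSup_of_le (⟨g, h⟩ : {g : G // ¬ cj g X ≤ A}) le_rfl : cj g X ≤ B₀).trans
        Subgroup.le_normalizer
  have hex : ∃ g, ¬ cj g X ≤ A := by
    by_contra h
    push Not at h
    exact hA (top_le_iff.1 (hgen ▸ iSup_le h))
  obtain ⟨g, hg⟩ := hex
  have h1 : cj g X ≤ B₀ := le_iSup_of_le (⟨g, hg⟩ : {g : G // ¬ cj g X ≤ A}) le_rfl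
  apply hB
  rw [eq_top_iff, ← hgen]
  refine iSup_le fun k => ?_
  have : cj k X = cj (k * g⁻¹) (cj g X) := by rw [← cj_mul]; simp
  change cj k X ≤ B
  rw [this]
  exact (cj_le_of_mem_normalizer (by rw [hn]; trivial) h1).trans hB₀

end Cfsg.Agent.S2958
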