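import Cfsg.Statements.S2960
import Cfsg.Agent.H72.Core

set_option autoImplicit false
open Cfsg

namespace Cfsg.Agent.S2960

open Cfsg.Agent.H72


/-- Let G be a finite group of characteristic p (C_G(O_p(G)) ≤ O_p(G)), p prime, T a Sylow p-subgroup of G and Q a normal subgroup of T with C_T(Q) ≤ Q. Then C_G(Q) ≤ Q. -/
theorem result {G : Type*} [Group G] [Finite G] {p : ℕ} [Fact p.Prime] (hG : Subgroup.centralizer (Cfsg.pCore p G : Set G) ≤ Cfsg.pCore p G) (T : Sylow p G) (Q : Subgroup G) (hQT : Q ≤ (T : Subgroup G)) (hQn : (T : Subgroup G) ≤ Subgroup.normalizer (Q : Set G)) (hC : (T : Subgroup G) ⊓ Subgroup.centralizer (Q : Set G) ≤ Q) : Subgroup.centralizer (Q : Set G) ≤ Q := by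
  have hp : IsPGroup p ↥(Subgroup.centralizer (Q : Set G)) := by
    apply isPGroup_of_forall_coprime
    intro x hx ho
    refine (charPIn_top_iff.2 hG).eq_one_of_centralizes (T.isPGroup'.to_le hQT) le_top ?_
      trivial hx ho
    refine le_trans (inf_le_inf_right _ (sup_le hQT ?_)) hC
    rw [pCoreOf_top]
    exact pCore_le_sylow T
  have h1 : Subgroup.centralizer (Q : Set G) ≤ T :=
    (isSylowIn_top T).le_of_normalizes hp le_top (le_normalizer_centralizer hQn)
  exact (le_inf h1 le_rfl).trans hC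

end Cfsg.Agent.S2960
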