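import Cfsg.Statements.S2961
import Cfsg.Agent.H72.Core
import Cfsg.Agent.S2960

set_option autoImplicit false
open Cfsg

namespace Cfsg.Agent.S2961

open Cfsg.Agent.H72


/-- Let G be a finite group of characteristic p (C_G(O_p(G)) ≤ O_p(G)), p prime, T a Sylow p-subgroup of G and Q a normal subgroup of T with C_T(Q) ≤ Q. Then every subgroup L of G containing Q has characteristic p: C_L(O_p(L)) ≤ O_p(L). -/
theorem result {G : Type*} [Group G] [Finite G] {p : ℕ} [Fact p.Prime] (hG : Subgroup.centralizer (Cfsg.pCore p G : Set G) ≤ Cfsg.pCore p G) (T : Sylow p G) (Q : Subgroup G) (hQT : Q ≤ (T : Subgroup G)) (hQn : (T : Subgroup G) ≤ Subgroup.normalizer (Q : Set G)) (hC : (T : Subgroup G) ⊓ Subgroup.centralizer (Q : Set G) ≤ Q) (L : Subgroup G) (hQL : Q ≤ L) : Subgroup.centralizer (Cfsg.pCore p ↥L : Set ↥L) ≤ Cfsg.pCore p ↥L := by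
  rw [← charPIn_iff]
  have hCQ := Cfsg.Agent.S2960.result hG T Q hQT hQn hC
  let L₀ : Subgroup G := ⨆ l : L, cj (l : G) Q
  have hL₀ : L₀ ≤ L := iSup_le fun l => cj_le_of_mem l.2 hQL
  have hQL₀ : Q ≤ L₀ := le_iSup_of_le (1 : L) (cj_one Q).ge
  have hn : L ≤ Subgroup.normalizer (L₀ : Set G) := by
    apply le_normalizer_of_cj_le
    intro a ha
    rw [cj_iSup]
    refine iSup_le fun l => ?_
    rw [← cj_mul]
    exact le_iSup_of_le ((⟨a, ha⟩ : L) * l) le_rfl
  have hP : pCoreOf p (⊤ : Subgroup G) ≤ Subgroup.normalizer (L₀ : Set G) := by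
    rw [pCoreOf_top]
    apply le_normalizer_of_cj_le
    intro a ha
    rw [cj_iSup]
    refine iSup_le fun l => ?_
    have h1 : (l : G)⁻¹ * a * l ∈ pCore p G :=
      conj_mem_of_mem_normalizer' (Subgroup.le_normalizer_of_normal (K := ⊤) trivial) ha
    have h2 : cj a (cj (l : G) Q) = cj (l : G) (cj ((l : G)⁻¹ * a * l) Q) := by
      rw [← cj_mul, ← cj_mul]; congr 1; group
    rw [h2, cj_eq_of_mem_normalizer (hQn (pCore_le_sylow T h1))]
    exact le_iSup_of_le l le_rfl
  have h0 : CharPIn p L₀ := (charPIn_top_iff.2 hG).of_normalized le_top hP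
  have hle : pCoreOf p L₀ ≤ pCoreOf p L := pCoreOf_le_pCoreOf_of_normal hL₀ hn
  apply charPIn_of_forall
  intro x hx hc ho
  apply eq_one_of_mem_isPGroup (T.isPGroup'.to_le hQT) (hCQ _) ho
  intro q hq
  apply commute_of_commutator_mem (isPGroup_pCoreOf p L₀) ho (centralizer_anti hle hc)
  apply h0
  constructor
  · exact Subgroup.le_normalizer_iff_commutator_le_left.1 hn
      (Subgroup.commutator_mem_commutator (hQL₀ hq) hx)
  · apply centralizer_anti hle
    exact Subgroup.le_normalizer_iff_commutator_le_right.1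
      (le_normalizer_centralizer (le_normalizer_pCoreOf L))
      (Subgroup.commutator_mem_commutator (hQL hq) hc)

end Cfsg.Agent.S2961
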