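import Cfsg.Statements.S2963
import Mathlib

set_option autoImplicit false
open Cfsg

namespace Cfsg.Agent.S2963

/-- Let n be odd. If the symmetric group of degree n is a minimal parabolic group for the prime 2, that is, a Sylow 2-subgroup is not normal and lies in exactly one maximal subgroup, then n = 2^m + 1 for some natural number m. -/
theorem result (n : ℕ) (hn : Odd n) (h : Cfsg.IsPMinimal 2 (Equiv.Perm (Fin n))) : ∃ m : ℕ, n = 2 ^ m + 1 := by
  classical
  have : Fact (Nat.Prime 2) := ⟨Nat.prime_two⟩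
  obtain ⟨S⟩ : Nonempty (Sylow 2 (Equiv.Perm (Fin n))) := inferInstance
  obtain ⟨hnn, M, -, hM⟩ := h S
  have hnt : Nontrivial (Fin n) := by
    by_contra hc
    rw [not_nontrivial_iff_subsingleton] at hc
    exact hnn ⟨fun a ha g => by rwa [Subsingleton.elim (g * a * g⁻¹) a]⟩
  obtain ⟨a, ha⟩ := S.isPGroup'.nonempty_fixed_point_of_prime_not_dvd_card (Fin n) (by
    rw [Nat.card_eq_fintype_card, Fintype.card_fin]
    exact hn.not_two_dvd_nat)
  have hSa : (S : Subgroup (Equiv.Perm (Fin n))) ≤ MulAction.stabilizer _ a :=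
    fun s hs => ha ⟨s, hs⟩
  have hMa := hM _ ⟨MulAction.IsPreprimitive.isCoatom_stabilizer_of_isPreprimitive _ a, hSa⟩
  obtain ⟨b, hb⟩ := exists_ne a
  let O : Set (Fin n) := MulAction.orbit (S : Subgroup (Equiv.Perm (Fin n))) b
  have hbO : b ∈ O := MulAction.mem_orbit_self b
  have haO : a ∉ O := by
    rintro ⟨s, hs⟩
    apply hb
    have h1 : s • a = a := ha s
    exact MulAction.injective s (hs.trans h1.symm)
  have hall : ∀ c, c ≠ a → c ∈ O := by
    intro c hc
    by_contra hcO
    let K : Subgroup (Equiv.Perm (Fin n)) :=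
      { carrier := {σ | ∀ x, σ x ∈ O ↔ x ∈ O}
        mul_mem' := fun {σ τ} h1 h2 x => (h1 _).trans (h2 x)
        one_mem' := fun _ => Iff.rfl
        inv_mem' := fun {σ} h1 x => by
          have := h1 (σ⁻¹ x)
          rw [show σ (σ⁻¹ x) = x by simp] at this
          exact this.symm }
    have hK : K ≠ ⊤ := by
      intro hK
      have : Equiv.swap a b ∈ K := by rw [hK]; trivial
      have h1 := this a
      rw [Equiv.swap_apply_left] at h1
      exact haO (h1.1 hbO)
    obtain ⟨M', hM', hle⟩ := (eq_top_or_exists_le_coatom K).resolve_left hK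
    have hSK : (S : Subgroup (Equiv.Perm (Fin n))) ≤ K := fun s hs x =>
      ⟨fun h => by
        have := MulAction.mem_orbit_of_mem_orbit (⟨s, hs⟩⁻¹ : (S : Subgroup _)) h
        rwa [show (s x) = (⟨s, hs⟩ : (S : Subgroup _)) • x from rfl, inv_smul_smul] at this,
        fun h => MulAction.mem_orbit_of_mem_orbit (⟨s, hs⟩ : (S : Subgroup _)) h⟩
    have h1 := hM _ ⟨hM', hSK.trans hle⟩
    have h2 : Equiv.swap a c ∈ K := by
      intro x
      by_cases h3 : x = a
      · rw [h3, Equiv.swap_apply_left]; exact iff_of_false hcO haO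
      by_cases h4 : x = c
      · rw [h4, Equiv.swap_apply_right]; exact iff_of_false haO hcO
      rw [Equiv.swap_apply_of_ne_of_ne h3 h4]
    have h3 := hle h2
    rw [h1, ← hMa, MulAction.mem_stabilizer_iff, Equiv.Perm.smul_def, Equiv.swap_apply_left] at h3
    exact hc h3
  obtain ⟨m, hm⟩ := S.isPGroup'.card_orbit b
  refine ⟨m, ?_⟩
  have h1 : O = {a}ᶜ := by
    ext c
    exact ⟨fun hc (h : c = a) => haO (h ▸ hc), hall c⟩
  have h2 : O.ncard = 2 ^ m := hm
  have h3 := Set.ncard_add_ncard_compl ({a} : Set (Fin n))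
  rw [Set.ncard_singleton, ← h1, h2, Nat.card_eq_fintype_card, Fintype.card_fin] at h3
  omega

end Cfsg.Agent.S2963
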