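import Cfsg.Statements.S2998
import Cfsg.Agent.H72.Card

set_option autoImplicit false
open Cfsg

namespace Cfsg.Agent.S2998

open Cfsg.Agent.H72


/-- Let G be a finite group, p a prime, P a Sylow p-subgroup of G and x ∈ P an element such that N_G(R) ≤ C_G(x) for every nontrivial subgroup R of P. Then P ≤ C_G(x); every G-conjugate of x lying in P equals x (so g ∈ C_G(x) whenever g x g⁻¹ ∈ P); and for every normal subgroup N of G, the image of x in G ⧸ N has the same property with respect to the image of P: the normalizer of every nontrivial subgroup of the image of P centralizes the image of x. -/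
theorem result {G : Type*} [Group G] [Finite G] {p : ℕ} [Fact p.Prime] (P : Sylow p G) (x : G) (hxP : x ∈ (P : Subgroup G)) (hlc : ∀ R : Subgroup G, R ≤ (P : Subgroup G) → R ≠ ⊥ → Subgroup.normalizer (R : Set G) ≤ Subgroup.centralizer ({x} : Set G)) : (P : Subgroup G) ≤ Subgroup.centralizer ({x} : Set G) ∧ (∀ g : G, g * x * g⁻¹ ∈ (P : Subgroup G) → g * x * g⁻¹ = x) ∧ ∀ (N : Subgroup G) [N.Normal], ∀ R : Subgroup (G ⧸ N), R ≤ (P : Subgroup G).map (QuotientGroup.mk' N) → R ≠ ⊥ → Subgroup.normalizer (R : Set (G ⧸ N)) ≤ Subgroup.centralizer ({(QuotientGroup.mk x : G ⧸ N)} : Set (G ⧸ N)) := by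
  have hP : (P : Subgroup G) ≤ Subgroup.centralizer ({x} : Set G) := by
    by_cases h : (P : Subgroup G) = ⊥
    · rw [h]; exact bot_le
    · exact Subgroup.le_normalizer.trans (hlc _ le_rfl h)
  refine ⟨hP, ?_, ?_⟩
  · intro g hg
    by_cases hx1 : x = 1
    · subst hx1; simp
    have hy1 : g * x * g⁻¹ ≠ 1 := by simpa [mul_inv_eq_one] using hx1
    have h1 : Subgroup.centralizer ({g * x * g⁻¹} : Set G) ≤ Subgroup.centralizer ({x} : Set G) := by
      rw [← centralizer_zpowers]
      exact (Subgroup.centralizer_le_normalizer _).trans (hlc _ (Subgroup.zpowers_le.2 hg)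
        (by rwa [ne_eq, Subgroup.zpowers_eq_bot]))
    have h2 : Subgroup.centralizer ({g * x * g⁻¹} : Set G) = Subgroup.centralizer ({x} : Set G) := by
      apply Subgroup.eq_of_le_of_card_ge h1
      rw [← cj_centralizer_singleton, card_cj]
    have hxc : x ∈ Subgroup.centralizer (P : Set G) := fun y hy =>
      Subgroup.mem_centralizer_singleton_iff.1 (hP hy)
    have hyc : g⁻¹⁻¹ * x * g⁻¹ ∈ Subgroup.centralizer (P : Set G) := fun y hy => by
      rw [inv_inv]
      exact Subgroup.mem_centralizer_singleton_iff.1 (h2.ge (hP hy))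
    obtain ⟨n, hn, he⟩ := P.conj_eq_normalizer_conj_of_mem_centralizer x g⁻¹ hxc hyc
    rw [inv_inv] at he
    rw [he]
    have hPne : (P : Subgroup G) ≠ ⊥ := fun h => hx1 (by rw [h] at hxP; exact hxP)
    have := Subgroup.mem_centralizer_singleton_iff.1 (hlc _ le_rfl hPne hn)
    rw [mul_assoc, ← this]; simp
  · intro N _ R hR hR1 gq hg
    obtain ⟨g, rfl⟩ := QuotientGroup.mk'_surjective N gq
    let K : Subgroup G := R.comap (QuotientGroup.mk' N)
    have hNK : N ≤ K := fun n hn => by
      change QuotientGroup.mk' N n ∈ R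
      rw [(QuotientGroup.eq_one_iff n).2 hn |> (show QuotientGroup.mk' N n = 1 from ·)]
      exact R.one_mem
    have hK : K ≤ (P : Subgroup G) ⊔ N := by
      have := Subgroup.comap_mono (f := QuotientGroup.mk' N) hR
      rwa [Subgroup.comap_map_eq, QuotientGroup.ker_mk'] at this
    have hS : IsSylowIn p ((P : Subgroup G) ⊓ K) K :=
      isSylowIn_inf_of_le_sup P.isPGroup' ((isSylowIn_top P).inf_normal le_top
        Subgroup.le_normalizer_of_normal) Subgroup.le_normalizer_of_normal hNK hK
    have hgK : g ∈ Subgroup.normalizer (K : Set G) :=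
      Subgroup.le_normalizer_comap (QuotientGroup.mk' N) hg
    obtain ⟨k, hk, n, hn, rfl⟩ := hS.frattini (H := Subgroup.normalizer (K : Set G)) le_rfl hgK
    have hne : (P : Subgroup G) ⊓ K ≠ ⊥ := by
      intro h
      apply hR1
      rw [eq_bot_iff]
      intro r hr
      obtain ⟨y, hy, rfl⟩ := hR hr
      have : y ∈ (P : Subgroup G) ⊓ K := ⟨hy, hr⟩
      rw [h, Subgroup.mem_bot] at this
      simp [this]
    have hn' := Subgroup.mem_centralizer_singleton_iff.1 (hlc _ inf_le_left hne hn)
    obtain ⟨a, ha, b, hb, rfl⟩ := mem_sup_of_normalizes Subgroup.le_normalizer_of_normal (hK hk)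
    have ha' := Subgroup.mem_centralizer_singleton_iff.1 (hP ha)
    rw [Subgroup.mem_centralizer_singleton_iff, map_mul, map_mul,
      (show QuotientGroup.mk' N b = 1 from (QuotientGroup.eq_one_iff b).2 hb), mul_one]
    change QuotientGroup.mk' N a * QuotientGroup.mk' N n * QuotientGroup.mk' N x =
      QuotientGroup.mk' N x * (QuotientGroup.mk' N a * QuotientGroup.mk' N n)
    simp only [← map_mul]
    congr 1
    rw [mul_assoc, hn', ← mul_assoc, ha', mul_assoc]

end Cfsg.Agent.S2998
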