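import Cfsg.Statements.S2999
import Cfsg.Agent.H72.Bridge

set_option autoImplicit false
open Cfsg

namespace Cfsg.Agent.S2999

open Subgroup Cfsg.Agent.H92 Cfsg.Agent.H70 Cfsg.Agent.H72

/-- Let p be a prime and let P and V be subgroups of a finite group with V elementary abelian, P normalizing V and acting faithfully on it (P ∩ C(V) = 1). Suppose P is p-minimal (a Sylow p-subgroup T of P is not normal and lies in a unique maximal subgroup M of P) and A ≤ T is an elementary abelian subgroup such that: |V/C_V(A)| ≤ |A| while |A₀|·|C_V(A₀)| < |A|·|C_V(A)| for every nontrivial proper subgroup A₀ of A; [C_V(T), P] ≠ 1; and P = ⟨A, xAx⁻¹⟩ for every x ∈ P outside M. Then, with q = |A|, there is a field F with q elements such that P ≅ SL₂(F), C_V(A) = [V, A]·C_V(P), and P acts on V/C_V(P) as SL₂(F) on its natural two-dimensional module. -/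
theorem result {G : Type*} [Group G] [Finite G] {p : ℕ} [Fact p.Prime] (V P : Subgroup G) (hV : Cfsg.IsElementaryAbelian p V) (hPV : P ≤ Subgroup.normalizer (V : Set G)) (hfaith : P ⊓ Subgroup.centralizer (V : Set G) = ⊥) (hmin : Cfsg.IsPMinimal p ↥P) (T : Sylow p ↥P) (M : Subgroup ↥P) (hM : IsCoatom M) (hTM : (T : Subgroup ↥P) ≤ M) (A : Subgroup G) (hAT : A ≤ ((T : Subgroup ↥P).map P.subtype)) (hAel : Cfsg.IsElementaryAbelian p A) (hi : Nat.card ↥V ≤ Nat.card ↥A * Nat.card ↥(V ⊓ Subgroup.centralizer ((A : Subgroup G) : Set G)) ∧ ∀ A₀ : Subgroup G, A₀ ≤ A → A₀ ≠ ⊥ → A₀ ≠ A → Nat.card ↥A₀ * Nat.card ↥(V ⊓ Subgroup.centralizer ((A₀ : Subgroup G) : Set G)) < Nat.card ↥A * Nat.card ↥(V ⊓ Subgroup.centralizer ((A : Subgroup G) : Set G))) (hii : ⁅(V ⊓ Subgroup.centralizer ((((T : Subgroup ↥P).map P.subtype) : Subgroup G) : Set G)), P⁆ ≠ ⊥) (hiii : ∀ x : ↥P, x ∉ M → A ⊔ A.map (MulAut.conj (x : G)).toMonoidHom = P) : ∃ (F : Type) (_ : Field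 F) (_ : Fintype F), Fintype.card F = Nat.card ↥A ∧ Nonempty (↥P ≃* Matrix.SpecialLinearGroup (Fin 2) F) ∧ (V ⊓ Subgroup.centralizer ((A : Subgroup G) : Set G)) = ⁅V, A⁆ ⊔ (V ⊓ Subgroup.centralizer ((P : Subgroup G) : Set G)) ∧ Cfsg.ActsAsSL2OnSection F ⊤ P V (V ⊓ Subgroup.centralizer ((P : Subgroup G) : Set G)) := by
  obtain ⟨W, _, _, _, ι, hp, hf, h⟩ := exists_br_faith hV hPV hfaith
  have eA := map_subtype_subgroupOf (hAT.trans (map_subtype_le _))
  have hAT' : A.subgroupOf P ≤ T := (subgroupOf_le_iff (hAT.trans (map_subtype_le _))).2 hAT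
  have hg : ∀ x : P, x ∉ M → A.subgroupOf P ⊔ cj x (A.subgroupOf P) = ⊤ := fun x hx =>
    map_injective P.subtype_injective (by
      rw [Subgroup.map_sup, map_cj, eA, map_subtype_top]; exact hiii x hx)
  obtain ⟨x, -, hx⟩ := SetLike.exists_of_lt hM.lt_top
  have hm : MinOver (A.subgroupOf P) ⊤ M := ⟨hAT'.trans hTM, hM.lt_top,
    eq_top_iff.2 ((hg x hx).ge.trans (sup_le (le_ncl _ _) (cj_le_ncl _ trivial))),
    fun X h1 h2 y hy => by_contra fun hy' =>
      h2.not_ge ((hg y hy').ge.trans (sup_le h1 (cj_le_of_mem hy h1)))⟩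
  have hA0 : A ≠ ⊥ := fun e => hm.not_le_pCoreOf (T.isPGroup'.to_le hAT') (by
    rw [e, bot_subgroupOf]; exact bot_le)
  obtain ⟨F, _, _, hF⟩ := exists_field_card (IsElementaryAbelian_isPGroup hAel) hA0
  have hz : ¬ H69.fixA W (T : Subgroup P) ≤ H69.fixA W (⊤ : Subgroup P) := fun e => hii (by
    rw [comm_eq_bot_iff, ← h.fixS]
    refine (toG_mono e).trans ?_
    rw [h.fixS, map_subtype_top]; exact inf_le_right)
  obtain ⟨z, hz1, hz2⟩ := SetLike.not_le_iff_exists.1 hz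
  obtain ⟨σ, ψ, hr, hn⟩ := exists_nat2_top hp hf hm
    (fun a ha b hb => Subtype.ext (le_centralizer_iff_isMulCommutative.2 hAel.1 ha _ hb))
    (by rw [h.msS, eA, ← h.card]; exact hi.1) (fun A₀ a1 a2 a3 => by
      rw [h.msS, h.msS, eA]
      exact hi.2 _ (map_subtype_le_iff.2 a1) (mt map_subtype_eq_bot_iff.1 a2) fun e =>
        a3 (by rw [← e, subgroupOf_map_subtype'])) (sylIn_top T) hAT' hz1 hz2 F
    (by rw [hF, ← card_map_of_injective P.subtype_injective, eA])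
  refine ⟨F, inferInstance, inferInstance, hF,
    ⟨(MulEquiv.ofBijective σ ⟨hn.inj, MonoidHom.range_eq_top.1 hr⟩).symm⟩, ?_, ?_⟩
  · have := congrArg (toG ι) hn.fix_eq
    rwa [toG_sup, h.fixS, h.fixS, h.cmAS, eA, hr, map_subtype_top] at this
  · have := h.actsSL2 hn.inj (by rw [hr]; exact MonoidHom.range_eq_top.2 Function.surjective_id)
      (U := ⊤) (fun _ _ _ => trivial) hn.ker hn.eqv fun w => (hn.surj w).imp fun _ e => ⟨trivial, e⟩
    rwa [h.toG_top] at this

end Cfsg.Agent.S2999
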