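import Cfsg.Statements.S3003
import Cfsg.Agent.H72.Conj
import Cfsg.Agent.H3.PComplement
import Cfsg.Agent.S1324

set_option autoImplicit false
open Cfsg

namespace Cfsg.Agent.S3003

open Cfsg.Agent.H72

theorem key {G : Type*} [Group G] [Finite G] {p : ℕ} [Fact p.Prime] (Q : Subgroup G)
    (hQp : IsPGroup p ↥Q) (hlarge : Cfsg.IsLarge Q) (G₁ : Subgroup G) (hQG : Q ≤ G₁)
    (R : Subgroup G) (hR : (Nat.card ↥R).Coprime p) (hGR : G₁ ≤ Subgroup.normalizer (R : Set G))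
    (U : Subgroup G)
    (h : ∃ x ∈ U, x ≠ 1 ∧ ∃ g ∈ G₁, g * x * g⁻¹ ∈ Q ⊓ Subgroup.centralizer (Q : Set G)) :
    R ⊓ Subgroup.centralizer (U : Set G) = ⊥ := by
  obtain ⟨x, hxU, hx1, g, hg, hz⟩ := h
  have hQR : Q ⊓ R = ⊥ := H3.inf_eq_bot_of_isPGroup_of_coprime hQp hR
  set D := R ⊓ Subgroup.centralizer ({g * x * g⁻¹} : Set G) with hD
  have h1 : D ≤ Subgroup.normalizer (Q : Set G) := by
    refine inf_le_right.trans ?_
    rw [← centralizer_zpowers]
    refine (Subgroup.centralizer_le_normalizer _).trans (hlarge.2 _ (Subgroup.zpowers_le.2 hz.2) ?_)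
    rw [ne_eq, Subgroup.zpowers_eq_bot, conj_eq_one_iff]
    exact hx1
  have h2 : ⁅D, Q⁆ = ⊥ := by
    rw [eq_bot_iff, ← hQR]
    exact le_inf (Subgroup.le_normalizer_iff_commutator_le_right.1 h1)
      ((Subgroup.commutator_mono inf_le_left le_rfl).trans
        (Subgroup.le_normalizer_iff_commutator_le_left.1 (hQG.trans hGR)))
  have h3 : D = ⊥ := by
    rw [eq_bot_iff, ← hQR]
    exact le_inf ((Subgroup.commutator_eq_bot_iff_le_centralizer.1 h2).trans hlarge.1) inf_le_left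
  rw [hD, ← cj_centralizer_singleton, ← cj_eq_of_mem_normalizer (hGR hg), ← cj_inf,
    cj_eq_bot_iff] at h3
  rw [eq_bot_iff, ← h3]
  exact inf_le_inf_left _ (Subgroup.centralizer_le (Set.singleton_subset_iff.2 hxU))


/-- Let G be a finite group, p a prime and Q a large p-subgroup of G: C_G(Q) ≤ Q and N_G(U) ≤ N_G(Q) for every nontrivial subgroup U of C_G(Q). Let Q ≤ G₁ ≤ G, let R be a subgroup of order prime to p normalized by G₁, and let U ≤ G₁ be a p-subgroup. If U contains a nontrivial element which is G₁-conjugate to an element of Z(Q), then C_R(U) = 1. In particular, if U is elementary abelian of order at least p² and every maximal subgroup of U contains a nontrivial element G₁-conjugate into Z(Q), then R = 1. -/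
theorem result {G : Type*} [Group G] [Finite G] {p : ℕ} [Fact p.Prime] (Q : Subgroup G) (hQp : IsPGroup p ↥Q) (hlarge : Cfsg.IsLarge Q) (G₁ : Subgroup G) (hQG : Q ≤ G₁) (R : Subgroup G) (hR : (Nat.card ↥R).Coprime p) (hGR : G₁ ≤ Subgroup.normalizer (R : Set G)) (U : Subgroup G) (hUG : U ≤ G₁) (hUp : IsPGroup p ↥U) : ((∃ x ∈ U, x ≠ 1 ∧ ∃ g ∈ G₁, g * x * g⁻¹ ∈ Q ⊓ Subgroup.centralizer (Q : Set G)) → R ⊓ Subgroup.centralizer (U : Set G) = ⊥) ∧ (Cfsg.IsElementaryAbelian p U → p ^ 2 ≤ Nat.card ↥U → (∀ U₀ : Subgroup G, U₀ ≤ U → IsCoatom (U₀.subgroupOf U) → ∃ x ∈ U₀, x ≠ 1 ∧ ∃ g ∈ G₁, g * x * g⁻¹ ∈ Q ⊓ Subgroup.centralizer (Q : Set G)) → R = ⊥) := by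
  refine ⟨key Q hQp hlarge G₁ hQG R hR hGR U, fun hU hc h => ?_⟩
  have hp : p.Prime := Fact.out
  have hmax : ∀ U₀ : Subgroup G, U₀ ≤ U → IsCoatom (U₀.subgroupOf U) →
      R ⊓ Subgroup.centralizer (U₀ : Set G) = ⊥ := fun U₀ h1 h2 =>
    key Q hQp hlarge G₁ hQG R hR hGR U₀ (h U₀ h1 h2)
  rw [S1324.result p U R hU hc ((Nat.Prime.coprime_iff_not_dvd hp).1 hR.symm) (hUG.trans hGR),
    iSup_eq_bot]
  rintro ⟨B, hBU, hB⟩
  obtain ⟨k, hk⟩ := hUp.index (B.subgroupOf U)
  change (B.subgroupOf U).index ≤ p at hB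
  have hk1 : k ≤ 1 := by
    rw [hk] at hB
    exact (Nat.pow_le_pow_iff_right hp.one_lt).1 (by rwa [pow_one])
  rcases Nat.le_one_iff_eq_zero_or_eq_one.1 hk1 with rfl | rfl
  · have hne : (⊥ : Subgroup U) ≠ ⊤ := by
      intro hbt
      have h1 : Nat.card U = 1 := by
        rw [← Subgroup.card_top, ← hbt, Subgroup.card_bot]
      have := Nat.one_lt_pow two_ne_zero hp.one_lt
      omega
    obtain ⟨M, hM, -⟩ := (eq_top_or_exists_le_coatom (⊥ : Subgroup U)).resolve_left hne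
    have h1 := hmax (M.map U.subtype) (Subgroup.map_subtype_le _) (by
      rwa [Subgroup.subgroupOf, Subgroup.comap_map_eq_self_of_injective U.subtype_injective])
    rw [eq_bot_iff, ← h1]
    apply inf_le_inf_left _ (centralizer_anti _)
    rw [pow_zero, Subgroup.index_eq_one, Subgroup.subgroupOf_eq_top] at hk
    exact (Subgroup.map_subtype_le _).trans hk
  · exact hmax B hBU (H3.isCoatom_of_index_prime (by rwa [hk, pow_one]))

end Cfsg.Agent.S3003
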