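import Cfsg.Statements.S3006
import Cfsg.Agent.H72.CL

set_option autoImplicit false
open scoped Pointwise
open Cfsg

namespace Cfsg.Agent.S3006

open Cfsg.Agent.H72


/-- Let P be a finite p-group, Q a centrally large subgroup of P (|Q|·|Z(Q)| maximal among subgroups of P) and A an abelian subgroup of P of largest order. Then QA = AQ is a centrally large subgroup of P, C_{QA}(Q ∩ A) = Z(Q)·A, and the subgroup generated by all centrally large subgroups of P contains C_P(Z(J(P))), where J(P) is generated by the abelian subgroups of largest order. -/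
theorem result {p : ℕ} [Fact p.Prime] (P : Type*) [Group P] [Finite P] (hP : IsPGroup p P) (Q A : Subgroup P) (hQ : Cfsg.IsCentrallyLarge Q) (hA : A ∈ Cfsg.maxAbelianSubgroups P) : ((Q ⊔ A : Subgroup P) : Set P) = (Q : Set P) * (A : Set P) ∧ Cfsg.IsCentrallyLarge (Q ⊔ A) ∧ (Q ⊔ A) ⊓ Subgroup.centralizer ((Q ⊓ A : Subgroup P) : Set P) = (Q ⊓ Subgroup.centralizer (Q : Set P)) ⊔ A ∧ (((Q ⊓ Subgroup.centralizer (Q : Set P)) ⊔ A : Subgroup P) : Set P) = ((Q ⊓ Subgroup.centralizer (Q : Set P)) : Set P) * (A : Set P) ∧ Subgroup.centralizer ((Cfsg.thompsonSubgroupA P ⊓ Subgroup.centralizer (Cfsg.thompsonSubgroupA P : Set P) : Subgroup P) : Set P) ≤ Cfsg.centrallyLargeJoin P := by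
  have hZ := inf_eq_right.2 (cl_centralizer_le hQ)
  refine ⟨cl_coe_sup_maxAb hQ hA, cl_sup_maxAb hQ hA, ?_, ?_, ?_⟩
  · rw [hZ]
    refine le_antisymm (fun x hx => ?_) (cl_center_sup_maxAb_le hQ hA)
    obtain ⟨z, hz, a, ha, rfl⟩ := cl_maxAb_mem hQ hA hx
    exact Subgroup.mul_mem_sup hz ha
  · change _ = ((Q ⊓ Subgroup.centralizer (Q : Set P) : Subgroup P) : Set P) * (A : Set P)
    rw [hZ]
    ext x
    constructor
    · intro hx
      exact cl_maxAb_mem hQ hA (cl_center_sup_maxAb_le hQ hA hx)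
    · rintro ⟨z, hz, a, ha, rfl⟩
      exact Subgroup.mul_mem_sup hz ha
  · refine (jTilde_le_sup cl_centrallyLargeJoin).trans (sup_le le_rfl thompson_le_centrallyLargeJoin)

end Cfsg.Agent.S3006
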