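import Cfsg.Statements.S3008
import Cfsg.Agent.H72.CLNormal

set_option autoImplicit false
open Cfsg

namespace Cfsg.Agent.S3008

open Cfsg.Agent.H72


/-- Let P be a finite p-group, with J(P) generated by its abelian subgroups of largest order and J̃(P) = C_P(Z(J(P))); call R ≤ P centrally large if |R|·|Z(R)| is as large as possible, and let P_MCL be generated by the minimal centrally large subgroups. Then: for every centrally large Q, Q·J(P) ⊇ J̃(P); some minimal centrally large subgroup of P is normalized by both J(P) and P_MCL; if P = J(P) and d(P)² = |P|·|Z(P)|, where d(P) is the largest order of an abelian subgroup, then every minimal centrally large subgroup of P is abelian; and if every minimal centrally large subgroup is abelian then J̃(P) = J(P). -/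
theorem result {p : ℕ} [Fact p.Prime] (P : Type*) [Group P] [Finite P] (hP : IsPGroup p P) : (∀ Q : Subgroup P, Cfsg.IsCentrallyLarge Q → Subgroup.centralizer ((Cfsg.thompsonSubgroupA P ⊓ Subgroup.centralizer (Cfsg.thompsonSubgroupA P : Set P) : Subgroup P) : Set P) ≤ Q ⊔ Cfsg.thompsonSubgroupA P) ∧ (∃ Q : Subgroup P, Cfsg.IsMinimalCentrallyLarge Q ∧ Cfsg.thompsonSubgroupA P ≤ Subgroup.normalizer (Q : Set P) ∧ Cfsg.minimalCentrallyLargeJoin P ≤ Subgroup.normalizer (Q : Set P)) ∧ (Cfsg.thompsonSubgroupA P = ⊤ → (∀ A ∈ Cfsg.maxAbelianSubgroups P, Nat.card ↥A ^ 2 = Nat.card P * Nat.card ↥(Subgroup.center P)) → ∀ Q : Subgroup P, Cfsg.IsMinimalCentrallyLarge Q → IsMulCommutative ↥Q) ∧ ((∀ Q : Subgroup P, Cfsg.IsMinimalCentrallyLarge Q → IsMulCommutative ↥Q) → Subgroup.centralizer ((Cfsg.thompsonSubgroupA P ⊓ Subgroup.centralizer (Cfsg.thompsonSubgroupA P : Set P) : Subgroup P) : Set P) = Cfsg.thompsonSubgroupA P) := by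
  have := hP.isNilpotent
  refine ⟨fun Q hQ => jTilde_le_sup hQ, exists_mcl_normalized, fun hJ hd Q hQ => ?_, fun h => ?_⟩
  · have h1 := cl_sup_thompson hQ.1
    rw [hJ, sup_top_eq] at h1
    obtain ⟨A, hA⟩ := exists_maxAbelian (P := P)
    have h2 : IsCentrallyLarge A := by
      rw [isCentrallyLarge_iff, maxAb_centralizer hA]
      refine ⟨?_, le_rfl⟩
      rw [IsCentralizerLarge, maxAb_centralizer hA, ← sq, hd A hA, ← cl_cd h1, Subgroup.card_top,
        Subgroup.coe_top, Subgroup.centralizer_univ]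
    obtain ⟨R, hR, hRA⟩ := exists_minimalCL_le h2
    rw [← Subgroup.commutator_self_eq_bot_iff, mcl_commutator_eq hQ hR,
      Subgroup.commutator_eq_bot_iff_le_centralizer]
    exact le_centralizer_of_le (maxAb_le hA) hRA
  · obtain ⟨Q, hQ⟩ := exists_minimalCL (P := P)
    refine le_antisymm ((jTilde_le_sup hQ.1).trans (sup_le ?_ le_rfl)) ?_
    · exact le_sSup ((mcl_iff_maxAb hQ (h Q hQ) Q).1 hQ)
    · exact Subgroup.le_centralizer_iff.1 inf_le_right

end Cfsg.Agent.S3008
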