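import Cfsg.Statements.S3009
import Cfsg.Agent.H72.NatSL2

set_option autoImplicit false
open Cfsg

namespace Cfsg.Agent.S3009

open Subgroup Cfsg.Agent.H92 Cfsg.Agent.H70 Cfsg.Agent.H72

/-- Let p be a prime and let G and V be subgroups of a finite group with V elementary abelian and normalized by G, and G isomorphic to SL₂(F) for a finite field F with pⁿ elements. Suppose G acts irreducibly and nontrivially on V by conjugation (no G-invariant subgroups of V other than 1 and V, and [V, G] ≠ 1), and let S be a Sylow p-subgroup of G and V₀ = C_V(S). If [V, S, S] = 1 or |V| ≤ |V₀|², then G acts on V as SL₂(F) on its natural two-dimensional module; in particular |V| = |F|². -/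
theorem result {X : Type*} [Group X] [Finite X] {p : ℕ} [Fact p.Prime] (G V : Subgroup X) (hV : Cfsg.IsElementaryAbelian p V) (hGV : G ≤ Subgroup.normalizer (V : Set X)) (F : Type) [Field F] [Fintype F] (n : ℕ) (hF : Fintype.card F = p ^ n) (hG : Nonempty (↥G ≃* Matrix.SpecialLinearGroup (Fin 2) F)) (hirr : ∀ U : Subgroup X, U ≤ V → G ≤ Subgroup.normalizer (U : Set X) → U = ⊥ ∨ U = V) (hnt : ⁅V, G⁆ ≠ ⊥) (S : Sylow p ↥G) (hyp : ⁅⁅V, (S : Subgroup ↥G).map G.subtype⁆, (S : Subgroup ↥G).map G.subtype⁆ = ⊥ ∨ Nat.card ↥V ≤ Nat.card ↥(V ⊓ Subgroup.centralizer (((S : Subgroup ↥G).map G.subtype : Subgroup X) : Set X)) ^ 2) : Cfsg.ActsAsSL2OnSection F ⊤ G V ⊥ := by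
  obtain ⟨φ⟩ := hG
  have : CharP F p := charP_of_card_eq_prime_pow hF
  obtain ⟨g, -, hg⟩ := sylIn_exists_le_cj ((sylIn_top S).map φ.toMonoidHom) (R := upS F)
    (by rw [← MonoidHom.range_eq_map, MonoidHom.range_eq_top.2 φ.surjective]; exact le_top)
    isPGroup_upS
  obtain ⟨π, hπ⟩ : ∃ π : G ≃* H69.SL2 F, upS F ≤ (S : Subgroup G).map π.toMonoidHom :=
    ⟨φ.trans (MulAut.conj g), hg.trans (Subgroup.map_map _ _ _).le⟩
  obtain ⟨A, _, _, _, ι, hp, h⟩ := exists_br' hV G.subtype (fun k => hGV k.2) π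
  have hr : π.toMonoidHom.range = ⊤ := MonoidHom.range_eq_top.2 π.surjective
  have ht : (⊤ : Subgroup G).map π.toMonoidHom = ⊤ := by rw [← MonoidHom.range_eq_map, hr]
  have irr : ∀ U : AddSubgroup A, (∀ g : H69.SL2 F, ∀ u ∈ U, g • u ∈ U) → U = ⊥ ∨ U = ⊤ :=
    fun U hU => by
      have := (h.norm_iff ⊤ U).2 fun g _ => hU g
      rw [map_subtype_top] at this
      exact (hirr _ (h.toG_le U) this).imp (fun e => h.toG_inj.1 (e.trans toG_bot.symm))
        fun e => h.toG_inj.1 (e.trans h.toG_top.symm)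
  have hfix := h.toG_fix ⊤
  rw [ht, map_subtype_top] at hfix
  have nt : H69.fixA A (⊤ : Subgroup (H69.SL2 F)) ≠ ⊤ := fun e => hnt (by
    rw [e, h.toG_top] at hfix
    exact comm_eq_bot_iff.2 (hfix.le.trans inf_le_right))
  have hZ := (irr _ fun g u hu => smul_mem_fix_top hu g).resolve_right nt
  obtain ⟨θ, hθ⟩ := natural_of_irr hp irr nt (hyp.imp (fun e => ((h.prp _ _).2 e).mono hπ hπ)
    fun e => by
      rw [h.card, ← h.toG_fix, h.card_toG] at e
      exact e.trans (Nat.pow_le_pow_left (AddSubgroup.card_le_of_le (H69.fixA_anti hπ)) 2))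
  have hi : (MonoidHom.id (H69.SL2 F)).range = ⊤ := MonoidHom.range_eq_top.2 Function.surjective_id
  have := h.actsSL2 (σ := MonoidHom.id _) Function.injective_id (hr.trans hi.symm)
    (ψ := θ.symm.toAddMonoidHom) (U := ⊤) (fun _ _ _ => trivial)
    (fun v => by rw [hi, hZ]; simp) (fun g v => by
      obtain ⟨x, rfl⟩ := θ.surjective v
      simp [hθ]) fun w => ⟨θ w, trivial, by simp⟩
  rwa [h.toG_top, ← hfix, hZ, toG_bot] at this

end Cfsg.Agent.S3009
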