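import Cfsg.Statements.S3011
import Cfsg.Agent.H72.Core
import Cfsg.Agent.S3012
import Cfsg.Agent.S0199

set_option autoImplicit false
open Cfsg

namespace Cfsg.Agent.S3011

open Cfsg.Agent.H72

theorem eq_one_of_inv {G : Type*} [Group G] {h : G} (ho : Odd (orderOf h)) (hi : h⁻¹ = h) :
    h = 1 := by
  have h2 : h ^ 2 = 1 := by rw [sq]; nth_rewrite 1 [← hi]; exact inv_mul_cancel h
  exact orderOf_eq_one_iff.1 (Nat.Coprime.eq_one_of_dvd (Nat.coprime_two_right.2 ho)
    (orderOf_dvd_of_pow_eq_one h2))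

/-- An involution outside `O₂(G)` inverts a nontrivial element of odd order. -/
theorem exists_inverted {G : Type*} [Group G] [Finite G] {v : G} (hv : v ^ 2 = 1)
    (hn : v ∉ pCore 2 G) : ∃ h : G, h ≠ 1 ∧ Odd (orderOf h) ∧ v * h * v⁻¹ = h⁻¹ := by
  by_contra hcon
  push Not at hcon
  have hv2 : v * v = 1 := by rw [← sq]; exact hv
  have hvi : v⁻¹ = v := inv_eq_of_mul_eq_one_right hv2
  have hX : IsPGroup 2 (Subgroup.zpowers v) := by
    rintro ⟨_, k, rfl⟩
    refine ⟨1, Subtype.ext ?_⟩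
    change (v ^ k) ^ 2 ^ 1 = 1
    rw [pow_one, ← zpow_natCast, ← zpow_mul, mul_comm, zpow_mul, zpow_natCast, hv, one_zpow]
  obtain ⟨N, hN, hN2, hle⟩ := S0199.result (Subgroup.zpowers v) hX fun g => by
    set y := v * (g * v * g⁻¹) with hy
    have hy1 : v * y * v⁻¹ = y⁻¹ := by
      rw [hy, ← mul_assoc, hv2, one_mul, mul_inv_rev, mul_inv_rev, mul_inv_rev, hvi]; group
    obtain ⟨k, m, hm, he⟩ := Nat.exists_eq_two_pow_mul_odd (orderOf_pos y).ne'
    have ho' : Odd (orderOf (y ^ 2 ^ k)) := by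
      refine Odd.of_dvd_nat hm (orderOf_dvd_of_pow_eq_one ?_)
      rw [← pow_mul, ← he, pow_orderOf_eq_one]
    have h1 : y ^ 2 ^ k = 1 := by
      by_contra h
      exact hcon _ h ho' (by rw [← conj_pow, hy1, inv_pow])
    have hY : IsPGroup 2 (Subgroup.zpowers y) :=
      IsPGroup.of_card_dvd_pow (by rw [Nat.card_zpowers]; exact orderOf_dvd_of_pow_eq_one h1)
    have hn : Subgroup.zpowers v ≤ Subgroup.normalizer (Subgroup.zpowers y : Set G) := by
      rw [Subgroup.zpowers_le, ← cj_eq_iff, cj_zpowers, hy1, Subgroup.zpowers_inv]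
    refine (isPGroup_sup_of_normalizes hX hY hn).to_le (sup_le le_sup_left ?_)
    change cj g _ ≤ _
    rw [cj_zpowers, Subgroup.zpowers_le]
    have : g * v * g⁻¹ = v⁻¹ * y := by rw [hy]; group
    rw [this]
    exact Subgroup.mul_mem_sup (inv_mem (Subgroup.mem_zpowers v)) (Subgroup.mem_zpowers y)
  exact hn (le_pCore hN hN2 (hle (Subgroup.mem_zpowers v)))


/-- Let G be a finite group and V a nontrivial elementary abelian 2-subgroup of G of order at most 4 such that, whenever an element of V inverts an element h of G of odd order, some nontrivial element of V commutes with h. Then V meets O₂(G) nontrivially. (The case of order at most 4 has a short argument from the Baer–Suzuki theorem.) -/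
theorem result {G : Type*} [Group G] [Finite G] (V : Subgroup G) (hV : Cfsg.IsElementaryAbelian 2 V) (hV1 : V ≠ ⊥) (hS : Cfsg.IsSidkiPair V) (h4 : Nat.card V ≤ 4) : V ⊓ Cfsg.pCore 2 G ≠ ⊥ := by
  classical
  intro hbot
  have hab : ∀ a ∈ V, ∀ b ∈ V, Commute a b := fun a ha b hb =>
    congrArg Subtype.val (hV.1.is_comm.comm (⟨a, ha⟩ : V) ⟨b, hb⟩)
  have hex : ∀ v ∈ V, v ≠ 1 → ∃ h : G, h ≠ 1 ∧ Odd (orderOf h) ∧ v * h * v⁻¹ = h⁻¹ := by
    intro v hv hv1
    refine exists_inverted (hV.2 v hv) fun h => hv1 ?_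
    have : v ∈ V ⊓ pCore 2 G := ⟨hv, h⟩
    rwa [hbot] at this
  obtain ⟨⟨c, hc⟩, hc1⟩ := (Subgroup.ne_bot_iff_exists_ne_one).1 hV1
  have hc1' : c ≠ 1 := fun h => hc1 (Subtype.ext h)
  obtain ⟨x, hx1, hxo, hxc⟩ := hex c hc hc1'
  obtain ⟨b, hb, hb1, hbx⟩ := hS x c hc hxo hxc
  obtain ⟨y, hy1, hyo, hyb⟩ := hex b hb hb1
  obtain ⟨a, ha, ha1, hay⟩ := hS y b hb hyo hyb
  have noinv : ∀ {w h : G}, Odd (orderOf h) → w * h = h * w → w * h * w⁻¹ = h⁻¹ → h = 1 := by
    intro w h ho h1 h2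
    rw [h1, mul_inv_cancel_right] at h2
    exact eq_one_of_inv ho h2.symm
  have hne : a ≠ b := by
    rintro rfl
    exact hy1 (noinv hyo hay hyb)
  have hb2 : b * b = 1 := by rw [← sq]; exact hV.2 b hb
  have ha2 : a * a = 1 := by rw [← sq]; exact hV.2 a ha
  have hall : ∀ w ∈ V, w ≠ 1 → w = a ∨ w = b ∨ w = a * b := by
    intro w hw hw1
    by_contra hcon
    push Not at hcon
    obtain ⟨n1, n2, n3⟩ := hcon
    have hab1 : a * b ≠ 1 := fun h => hne (by
      rw [← mul_one a, ← hb2, ← mul_assoc, h, one_mul])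
    have hsub : (({1, a, b, a * b, w} : Finset G) : Set G) ⊆ (V : Set G) := by
      intro z hz
      simp only [Finset.coe_insert, Finset.coe_singleton, Set.mem_insert_iff,
        Set.mem_singleton_iff] at hz
      rcases hz with rfl | rfl | rfl | rfl | rfl
      exacts [V.one_mem, ha, hb, V.mul_mem ha hb, hw]
    have hcard := Set.ncard_le_ncard hsub (Set.toFinite _)
    rw [Set.ncard_coe_finset] at hcard
    have h5 : ({1, a, b, a * b, w} : Finset G).card = 5 := by
      rw [Finset.card_insert_of_notMem, Finset.card_insert_of_notMem, Finset.card_insert_of_notMem,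
        Finset.card_insert_of_notMem, Finset.card_singleton]
      · simpa using n3.symm
      · simp [ha1, n2.symm]
      · simp [hne, hb1, n1.symm]
      · simp [ha1.symm, hb1.symm, hab1.symm, hw1.symm]
    have : Nat.card V = (V : Set G).ncard := rfl
    omega
  have hbx' : Commute b x := hbx
  have hay' : Commute a y := hay
  have hax : a * x * a⁻¹ = x⁻¹ := by
    rcases hall c hc hc1' with rfl | rfl | rfl
    · exact hxc
    · exact absurd (noinv hxo hbx hxc) hx1
    · rw [← hxc, mul_assoc a b, hbx]; group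
  have hcomm : ¬ Commute x y := by
    intro hxy
    have ho : Odd (orderOf (x * y)) := Odd.of_dvd_nat (hxo.mul hyo) hxy.orderOf_mul_dvd_mul_orderOf
    have e1 : a * (x * y) * a⁻¹ = x⁻¹ * y := by
      rw [← hax, mul_assoc (a * x), hay'.inv_left.eq]; group
    have e2 : b * (x * y) * b⁻¹ = x * y⁻¹ := by
      rw [← hyb, ← mul_assoc b, hbx]; group
    have e3 : a * b * (x * y) * (a * b)⁻¹ = (x * y)⁻¹ := by
      calc a * b * (x * y) * (a * b)⁻¹ = a * (b * (x * y) * b⁻¹) * a⁻¹ := by group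
        _ = (a * x * a⁻¹) * (a * y⁻¹ * a⁻¹) := by rw [e2]; group
        _ = _ := by rw [hax, hay'.inv_right.eq, hxy.eq]; group
    obtain ⟨w, hw, hw1, hc⟩ := hS (x * y) (a * b) (V.mul_mem ha hb) ho e3
    rcases hall w hw hw1 with rfl | rfl | rfl
    · rw [hc, mul_inv_cancel_right, mul_left_inj] at e1
      exact hx1 (eq_one_of_inv hxo e1.symm)
    · rw [hc, mul_inv_cancel_right, mul_right_inj] at e2
      exact hy1 (eq_one_of_inv hyo e2.symm)
    · have h1 : y = x⁻¹ := eq_inv_of_mul_eq_one_right (noinv ho hc e3)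
      exact hy1 (noinv hyo (by rw [h1]; exact hbx'.inv_right) hyb)
  have ho : Odd (orderOf (x * y * x⁻¹)) := by
    rwa [show x * y * x⁻¹ = MulAut.conj x y from rfl, MulEquiv.orderOf_eq]
  have e2 : b * (x * y * x⁻¹) * b⁻¹ = (x * y * x⁻¹)⁻¹ := by
    calc b * (x * y * x⁻¹) * b⁻¹ = (b * x) * y * (b * x)⁻¹ := by group
      _ = x * (b * y * b⁻¹) * x⁻¹ := by rw [hbx]; group
      _ = _ := by rw [hyb]; group
  have e1 : a * (x * y * x⁻¹) * a⁻¹ = x⁻¹ * y * x := by
    calc a * (x * y * x⁻¹) * a⁻¹ = (a * x * a⁻¹) * (a * y * a⁻¹) * (a * x * a⁻¹)⁻¹ := by group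
      _ = _ := by rw [hax, hay]; group
  obtain ⟨w, hw, hw1, hc⟩ := hS (x * y * x⁻¹) b hb ho e2
  rcases hall w hw hw1 with rfl | rfl | rfl
  · rw [hc, mul_inv_cancel_right] at e1
    apply hcomm
    apply Commute.symm
    apply S3012.commute_of_commute_two_pow hxo (k := 1)
    change y * x ^ 2 = x ^ 2 * y
    calc y * x ^ 2 = x * (x⁻¹ * y * x) * x := by rw [sq]; group
      _ = _ := by rw [← e1, sq]; group
  · have := noinv ho hc e2
    rw [conj_eq_one_iff] at this
    exact hy1 this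
  · have e3 : x * y * x⁻¹ = x⁻¹ * y⁻¹ * x := by
      calc x * y * x⁻¹ = a * b * (x * y * x⁻¹) * (a * b)⁻¹ := by rw [hc]; group
        _ = a * (b * (x * y * x⁻¹) * b⁻¹) * a⁻¹ := by group
        _ = (a * (x * y * x⁻¹) * a⁻¹)⁻¹ := by rw [e2]; group
        _ = _ := by rw [e1]; group
    have e4 : x ^ 2 * y * (x ^ 2)⁻¹ = y⁻¹ := by
      calc x ^ 2 * y * (x ^ 2)⁻¹ = x * (x * y * x⁻¹) * x⁻¹ := by rw [sq]; group
        _ = _ := by rw [e3]; group
    apply hcomm
    apply Commute.symm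
    apply S3012.commute_of_commute_two_pow hxo (k := 2)
    change y * x ^ 4 = x ^ 4 * y
    calc y * x ^ 4 = (x ^ 2 * y * (x ^ 2)⁻¹)⁻¹ * x ^ 4 := by
          rw [e4, inv_inv]
      _ = x ^ 2 * y⁻¹ * x ^ 2 := by group
      _ = _ := by rw [← e4]; group

end Cfsg.Agent.S3011
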