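import Cfsg.Statements.S3014
import Cfsg.Agent.H72.WTriple

set_option autoImplicit false
open Cfsg

namespace Cfsg.Agent.S3014

open Cfsg.Agent.H72


/-- Let G be a finite group and H ≤ M ≤ G subgroups such that for every g ∈ G the subgroup generated by H and g H g⁻¹ meets M exactly in H. If H is a maximal subgroup of M and M is a maximal subgroup of G, then the normal closure of H in G meets M exactly in H. -/
theorem result {G : Type*} [Group G] [Finite G] (H M : Subgroup G) (hHM : H ≤ M) (hcl : ∀ g : G, (H ⊔ H.map (MulAut.conj g).toMonoidHom) ⊓ M = H) (hmaxH : IsCoatom (H.subgroupOf M)) (hmaxM : IsCoatom M) : Subgroup.normalClosure (H : Set G) ⊓ M = H := by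
  have hn : M ≤ Subgroup.normalizer (H : Set G) := le_normalizer_of_cj_le fun g hg => by
    have := hcl g
    rw [← this]
    exact le_inf (le_sup_right.trans' (by rw [this])) (by rw [this]; exact cj_le_of_mem hg hHM)
  have hn' : (H.subgroupOf M).Normal := Subgroup.normal_subgroupOf_of_le_normalizer hn
  by_cases hW : ∀ g, g ∉ M → M ⊓ cj g M ≤ H
  · obtain ⟨N, hN, e, -⟩ := exists_normal_of_wtriple hHM hmaxH hW
    refine le_antisymm ?_ (le_inf Subgroup.le_normalClosure hHM)
    rw [← e]
    exact inf_le_inf_right _ (Subgroup.normalClosure_le_normal (by rw [e]; exact e.ge.trans inf_le_left))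
  push Not at hW
  obtain ⟨g, hg, hD⟩ := hW
  set K := H ⊔ cj g H with hK
  have hKM : K ⊓ M = H := hcl g
  have hD1 : M ⊓ cj g M ≤ Subgroup.normalizer (K : Set G) :=
    le_normalizer_sup (inf_le_left.trans hn)
      (inf_le_right.trans (by rw [← cj_normalizer]; exact cj_mono g hn))
  have h1 : M ≤ Subgroup.normalizer (K : Set G) := by
    rcases eq_or_eq_of_isCoatom_subgroupOf (K := H ⊔ M ⊓ cj g M) hmaxH le_sup_left
      (sup_le hHM inf_le_left) with e | e
    · exact absurd (le_sup_right.trans e.le) hD
    · rw [← e]; exact sup_le (le_normalizer_of_le le_sup_left) hD1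
  have h2 : cj g M ≤ Subgroup.normalizer (K : Set G) := by
    rcases eq_or_eq_of_isCoatom_subgroupOf (K := H ⊔ cj g⁻¹ (M ⊓ cj g M)) hmaxH le_sup_left
      (sup_le hHM ((cj_le_iff _).2 (by simp))) with e | e
    · refine absurd ?_ hD
      rw [← hKM]
      refine le_inf (le_sup_right.trans' ((le_cj_iff _).2 (le_sup_right.trans e.le))) inf_le_left
    · rw [← e, cj_sup, cj_cj_inv]; exact sup_le (le_normalizer_of_le le_sup_right) hD1
  by_cases hMn : cj g M ≤ M
  · have h3 : Subgroup.normalizer (M : Set G) = ⊤ :=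
      hmaxM.2 _ (lt_of_le_of_ne Subgroup.le_normalizer fun e =>
        hg (e ▸ mem_normalizer_of_cj_le hMn))
    have h4 : H.Normal := Subgroup.normalizer_eq_top_iff.1 (eq_top_iff.2
      (le_normalizer_of_cj_le fun x _ => by
        have := hcl x
        rw [← this]
        refine le_inf (le_sup_right.trans' (by rw [this])) ?_
        rw [this]
        exact cj_le_of_mem_normalizer (h3.ge trivial) hHM))
    rw [Subgroup.normalClosure_eq_self, inf_eq_left.2 hHM]
  have h3 : Subgroup.normalizer (K : Set G) = ⊤ :=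
    hmaxM.2 _ (lt_of_le_of_ne h1 fun e => hMn (e ▸ h2))
  have h4 : K.Normal := Subgroup.normalizer_eq_top_iff.1 h3
  refine le_antisymm ?_ (le_inf Subgroup.le_normalClosure hHM)
  rw [← hKM]
  exact inf_le_inf_right _ (Subgroup.normalClosure_le_normal
    (by rw [hKM]; exact (le_sup_left : H ≤ K)))

end Cfsg.Agent.S3014
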