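import Cfsg.Statements.S3015
import Cfsg.Agent.H72.WTriple

set_option autoImplicit false
open Cfsg

namespace Cfsg.Agent.S3015

open Cfsg.Agent.H72


/-- Let G be a finite non-abelian simple group, M a maximal subgroup of G and H a normal subgroup of M of prime index in M. Then G is generated by H together with one of its conjugates. -/
theorem result {G : Type*} [Group G] [Finite G] [IsSimpleGroup G] (hG : ¬ IsMulCommutative G) (M H : Subgroup G) (hmaxM : IsCoatom M) (hHM : H ≤ M) (hHn : (H.subgroupOf M).Normal) (hidx : (H.relIndex M).Prime) : ∃ g : G, H ⊔ H.map (MulAut.conj g).toMonoidHom = ⊤ := by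
  by_contra hcon
  push Not at hcon
  have hn : M ≤ Subgroup.normalizer (H : Set G) :=
    (Subgroup.normal_subgroupOf_iff_le_normalizer hHM).1 hHn
  have hmaxH : IsCoatom (H.subgroupOf M) := by
    refine ⟨fun e => hidx.ne_one (Subgroup.index_eq_one.2 e), fun K hK => ?_⟩
    have h1 := Subgroup.relIndex_mul_index hK.le
    rcases (Nat.dvd_prime hidx).1 ⟨_, (h1.symm.trans (mul_comm _ _))⟩ with e | e
    · exact Subgroup.index_eq_one.1 e
    · refine absurd ?_ hK.not_ge
      rw [← Subgroup.relIndex_eq_one]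
      rw [e] at h1
      exact Nat.eq_of_mul_eq_mul_right hidx.pos (h1.trans (one_mul _).symm)
  have hnb : ∀ N : Subgroup G, M ≤ Subgroup.normalizer (N : Set G) → N ≠ ⊤ → N ≠ ⊥ →
      Subgroup.normalizer (N : Set G) = M := fun N h1 h2 h3 => by
    rcases h1.eq_or_lt with e | e
    · exact e.symm
    · rcases (Subgroup.normalizer_eq_top_iff.1 (hmaxM.2 _ e)).eq_bot_or_eq_top with e | e
      · exact absurd e h3
      · exact absurd e h2
  have hHt : H ≠ ⊤ := fun e => hmaxM.1 (eq_top_iff.2 (e ▸ hHM))
  have hW : ∀ g, g ∉ M → M ⊓ cj g M ≤ H := fun g hg => by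
    by_contra hD
    set K := H ⊔ cj g H with hK
    have hD1 : M ⊓ cj g M ≤ Subgroup.normalizer (K : Set G) :=
      le_normalizer_sup (inf_le_left.trans hn)
        (inf_le_right.trans (by rw [← cj_normalizer]; exact cj_mono g hn))
    have h1 : M ≤ Subgroup.normalizer (K : Set G) := by
      rcases eq_or_eq_of_isCoatom_subgroupOf (K := H ⊔ M ⊓ cj g M) hmaxH le_sup_left
        (sup_le hHM inf_le_left) with e | e
      · exact absurd (le_sup_right.trans e.le) hD
      · rw [← e]; exact sup_le (le_normalizer_of_le le_sup_left) hD1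
    have hMb : M ≠ ⊥ := fun e => hD (by rw [e]; simp)
    have hMg : ¬ cj g M ≤ M := fun e => hg (by
      rw [← hnb M Subgroup.le_normalizer hmaxM.1 hMb]; exact mem_normalizer_of_cj_le e)
    have hH0 : H ≠ ⊥ := fun e => by
      rcases eq_or_eq_of_isCoatom_subgroupOf (K := M ⊓ cj g M) hmaxH (by rw [e]; exact bot_le)
        inf_le_left with e' | e'
      · exact hD e'.le
      · exact hMg (Subgroup.eq_of_le_of_card_ge (e'.ge.trans inf_le_right) (card_cj _ _).le).ge
    have h2 : cj g H ≤ M := by
      rw [← hnb K h1 (hcon g) (fun e => hH0 (le_bot_iff.1 (e ▸ le_sup_left)))]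
      exact le_sup_right.trans Subgroup.le_normalizer
    have : Fact (H.relIndex M).Prime := ⟨hidx⟩
    generalize hp : H.relIndex M = p at *
    have h3 : pResidualOf p M ≤ H := H70.pRes_le_of_pow fun x hx => ⟨1, by
      have := Subgroup.pow_index_mem (H.subgroupOf M) (⟨x, hx⟩ : M)
      rw [pow_one, ← hp]; exact this⟩
    have h4 : cj g (pResidualOf p M) = pResidualOf p M := by
      refine Subgroup.eq_of_le_of_card_ge ?_ (card_cj _ _).ge
      conv_lhs => rw [← H70.pRes_eq_of_le hHM h3]
      exact (H70.cj_pRes g H).le.trans (H70.pRes_mono h2)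
    have h5 : pResidualOf p M = ⊥ := by
      by_contra h0
      exact hg (by
        rw [← hnb _ (H70.le_norm_pRes M) (fun e => hHt (eq_top_iff.2 (e ▸ h3))) h0]
        exact cj_eq_iff.1 h4)
    have h6 := H70.pRes_eq_bot_iff.1 h5
    have h7 : cj g H < M := lt_of_le_of_ne h2 fun e => hmaxH.1 (Subgroup.subgroupOf_eq_top.2
      (Subgroup.eq_of_le_of_card_ge hHM (by rw [← e, card_cj])).ge)
    have h8 := lt_inf_normalizer_of_isPGroup h6 h7
    rw [← cj_normalizer, hnb H hn hHt hH0] at h8
    rcases eq_or_eq_of_isCoatom_subgroupOf (K := cj g⁻¹ (M ⊓ cj g M)) hmaxH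
      ((le_cj_iff _).2 (by simpa using h8.le)) ((cj_le_iff _).2 (by simp)) with e | e
    · rw [← e, cj_cj_inv] at h8; exact lt_irrefl _ h8
    · apply hMg
      conv_lhs => rw [← e, cj_cj_inv]
      exact inf_le_left
  obtain ⟨N, hN, e, hc⟩ := exists_normal_of_wtriple hHM hmaxH hW
  rcases hN.eq_bot_or_eq_top with e' | e'
  · refine hG ⟨⟨fun a b => ?_⟩⟩
    have := hc a b
    rw [e', Subgroup.mem_bot, commutatorElement_eq_one_iff_mul_comm] at this
    exact this
  · rw [e', top_inf_eq] at e
    exact hmaxH.1 (by rw [← e]; simp)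

end Cfsg.Agent.S3015
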