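import Cfsg.Statements.S3019
import Cfsg.Agent.H85.ShChr
-- import your own Cfsg.Agent.* helpers here

set_option autoImplicit false
open Cfsg

namespace Cfsg.Agent.S3019

universe u

open Subgroup Cfsg.Agent.H85.Sh in
theorem aux {p : ℕ} [hp : Fact p.Prime] (n : ℕ) : ∀ (G : Type u) [Group G] [Finite G],
    Nat.card G = n → (∀ P₁ P₂ : Sylow p G, IsPSolvable p ↥((P₁ : Subgroup G) ⊔ P₂)) →
    IsPSolvable p G := by
  induction n using Nat.strong_induction_on with
  | _ n ih =>
  intro G _ _ hn h
  subst hn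
  have hsub : ∀ K : Subgroup G, K ≠ ⊤ → IsPSolvable p K := fun K hK => by
    refine ih _ (lt_of_le_of_ne K.card_le_card_group fun h => hK (eq_top_of_card_eq K h)) K rfl
      fun R₁ R₂ => ?_
    obtain ⟨P₁, h1⟩ := R₁.exists_comap_subtype_eq
    obtain ⟨P₂, h2⟩ := R₂.exists_comap_subtype_eq
    refine H22.IsPSolvable.of_equiv (H22.IsPSolvable.of_le (h P₁ P₂) ?_)
      (equivMapOfInjective _ K.subtype K.subtype_injective).symm
    rw [Subgroup.map_sup, ← h1, ← h2]
    exact sup_le_sup (map_comap_le _ _) (map_comap_le _ _)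
  by_contra hG
  have hs : IsSimpleGroup G := by
    rcases subsingleton_or_nontrivial G with _ | _
    · exact absurd H22.isPSolvable_of_subsingleton hG
    refine ⟨fun K hK => or_iff_not_imp_left.mpr fun h1 => by_contra fun h2 => hG ?_⟩
    refine H22.isPSolvable_of_normal_of_quotient K (hsub K h2) (ih _ ?_ _ rfl fun R₁ R₂ => ?_)
    · rw [card_eq_card_quotient_mul_card_subgroup K]
      exact lt_mul_of_one_lt_right Nat.card_pos (K.one_lt_card_iff_ne_bot.mpr h1)
    obtain ⟨P₁, rfl⟩ := Sylow.mapSurjective_surjective (QuotientGroup.mk'_surjective K) p R₁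
    obtain ⟨P₂, rfl⟩ := Sylow.mapSurjective_surjective (QuotientGroup.mk'_surjective K) p R₂
    rw [Sylow.coe_mapSurjective, Sylow.coe_mapSurjective, ← Subgroup.map_sup]
    exact H22.IsPSolvable.map (h P₁ P₂) _
  have H : Hyp p G := ⟨h, fun v hv => hsub _ fun hc => hG ?_⟩
  · obtain ⟨P⟩ : Nonempty (Sylow p G) := inferInstance
    obtain ⟨B, hB⟩ := exists_blk (G := G) (p := p)
    have := Fintype.ofFinite G
    have h1 : (P : Subgroup G) ≠ ⊤ := fun h1 => hG (H22.isPSolvable_of_isPGroup
      ((h1 ▸ P.isPGroup').of_equiv topEquiv))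
    have h2 : p ∣ Nat.card G := by_contra fun h2 =>
      hG (H22.isPSolvable_of_coprime (hp.out.coprime_iff_not_dvd.mpr h2).symm)
    have h3 := P.dvd_card_of_dvd_card h2
    have h4 := hp.out.two_le.trans (Nat.le_of_dvd Nat.card_pos h3)
    by_cases h5 : Nat.card (P : Subgroup G) = 2
    · rw [h5] at h3
      have h6 := (Nat.prime_dvd_prime_iff_eq hp.out Nat.prime_two).1 h3
      subst h6
      exact hG (H22.isPSolvable_of_hasNormalPComplement ⟨P, _, inferInstance,
        IsCyclic.isComplement' ((Nat.minFac_eq_two_iff _).2 h2) (isCyclic_of_prime_card h5)⟩)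
    · exact core H hB P h1 (by omega)
  · have h1 := H5.prime_card_of_simple_of_mem_center hv (mem_center_iff.2 fun g =>
      mem_centralizer_singleton_iff.1 (hc ▸ mem_top g))
    have := Fact.mk h1
    have := isCyclic_of_prime_card (α := G) rfl
    have := Group.isSolvable_of_comm (G := G) IsCyclic.commGroup.mul_comm
    exact H22.isPSolvable_of_isSolvable

/-- Let G be a finite group, p a prime and P a Sylow p-subgroup of G. Then G is p-solvable if and only if, for every g ∈ G, the subgroup generated by P and g P g⁻¹ is p-solvable. -/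
theorem result {G : Type*} [Group G] [Finite G] {p : ℕ} [Fact p.Prime] (P : Sylow p G) : Cfsg.IsPSolvable p G ↔ ∀ g : G, Cfsg.IsPSolvable p ↥((P : Subgroup G) ⊔ (P : Subgroup G).map (MulAut.conj g).toMonoidHom) := by
  refine ⟨fun h g => H22.IsPSolvable.subgroup h _, fun h => aux _ G rfl fun P₁ P₂ => ?_⟩
  obtain ⟨a, rfl⟩ := MulAction.exists_smul_eq G P P₁
  obtain ⟨b, rfl⟩ := MulAction.exists_smul_eq G P P₂
  have := H22.IsPSolvable.map (h (a⁻¹ * b)) (MulAut.conj a).toMonoidHom
  rw [Subgroup.map_sup, Subgroup.map_map] at this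
  have e : (MulAut.conj a).toMonoidHom.comp (MulAut.conj (a⁻¹ * b)).toMonoidHom =
      (MulAut.conj b).toMonoidHom := by
    ext x
    simp [mul_assoc]
  rw [e] at this
  exact this

end Cfsg.Agent.S3019
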