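import Cfsg.Statements.S3021
import Cfsg.Agent.H72.Conj

set_option autoImplicit false
open Cfsg

namespace Cfsg.Agent.S3021

open Subgroup Cfsg.Agent.H72

/-- Let G be a finite group, p a prime and H a p-subgroup of G that is extremely closed (for every g, the subgroup generated by H and g H g⁻¹ meets N_G(H) exactly in H). Then every p-subgroup Q of G containing H has N_G(Q) ≤ N_G(H); in particular every Sylow p-subgroup P of G containing H normalizes H, and H is strongly closed in P with respect to G. -/
theorem result {G : Type*} [Group G] [Finite G] {p : ℕ} [Fact p.Prime] (H : Subgroup G) (hHp : IsPGroup p H) (hcl : Cfsg.IsExtremelyClosed H) : (∀ Q : Subgroup G, IsPGroup p Q → H ≤ Q → Subgroup.normalizer (Q : Set G) ≤ Subgroup.normalizer (H : Set G)) ∧ ∀ P : Sylow p G, H ≤ (P : Subgroup G) → (P : Subgroup G) ≤ Subgroup.normalizer (H : Set G) ∧ Cfsg.IsStronglyClosed H (P : Subgroup G) := by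
  have key : ∀ Q : Subgroup G, IsPGroup p Q → H ≤ Q →
      Subgroup.normalizer (Q : Set G) ≤ Subgroup.normalizer (H : Set G) := by
    intro Q hQ hHQ g hg
    apply mem_normalizer_of_cj_le
    have h1 : H ⊔ cj g H ≤ Q := sup_le hHQ (cj_le_of_mem_normalizer hg hHQ)
    by_contra h2
    have h3 : H < H ⊔ cj g H := lt_of_le_of_ne le_sup_left fun h => h2 (le_sup_right.trans h.ge)
    have h4 := lt_inf_normalizer_of_isPGroup (hQ.to_le h1) h3
    rw [hcl g] at h4
    exact lt_irrefl _ h4
  refine ⟨key, fun P hP => ?_⟩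
  have h1 : (P : Subgroup G) ≤ Subgroup.normalizer (H : Set G) :=
    le_normalizer.trans (key _ P.isPGroup' hP)
  refine ⟨h1, hP, fun x hx g hg => ?_⟩
  rw [← hcl g]
  exact ⟨mem_sup_right (conj_mem_cj hx), h1 hg⟩

end Cfsg.Agent.S3021
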