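import Cfsg.Statements.S3025
import Cfsg.Agent.S0016
import Cfsg.Agent.H21.Basic
import Cfsg.Agent.H72.Conj

set_option autoImplicit false
open Cfsg

namespace Cfsg.Agent.S3025

open Subgroup Cfsg.Agent.H72


/-- Let F be a finite group and H a nontrivial subgroup of F that is contained in every nontrivial subgroup of F which H normalizes. Then F has a nontrivial normal subgroup N contained in every nontrivial normal subgroup of F (a unique minimal normal subgroup), N is simple, and one of the following holds: C_F(N) = 1; or H = N has prime order p, C_F(N) is cyclic of order a power of p, and F/C_F(N) is cyclic of order dividing p − 1; or H = N has order 2, N is central in F, and F is a generalized quaternion group. -/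
theorem result {F : Type*} [Group F] [Finite F] (H : Subgroup F) (hH : H ≠ ⊥)
    (hmin : ∀ R : Subgroup F, R ≠ ⊥ → H ≤ Subgroup.normalizer (R : Set F) → H ≤ R) :
    ∃ N : Subgroup F, N.Normal ∧ N ≠ ⊥ ∧ (∀ M : Subgroup F, M.Normal → M ≠ ⊥ → N ≤ M) ∧ IsSimpleGroup ↥N ∧
      (Subgroup.centralizer (N : Set F) = ⊥ ∨
       (H = N ∧ (Nat.card N).Prime ∧ IsCyclic ↥(Subgroup.centralizer (N : Set F)) ∧
          (∃ k : ℕ, 1 ≤ k ∧ Nat.card ↥(Subgroup.centralizer (N : Set F)) = Nat.card N ^ k) ∧
          (∃ g : F, Subgroup.centralizer (N : Set F) ⊔ Subgroup.zpowers g = ⊤) ∧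
          (Subgroup.centralizer (N : Set F)).index ∣ Nat.card N - 1) ∨
       (H = N ∧ Nat.card N = 2 ∧ Subgroup.centralizer (N : Set F) = ⊤ ∧
          ∃ k : ℕ, 1 ≤ k ∧ Nonempty (F ≃* QuaternionGroup (2 ^ k)))) := by
  have hHN : H ≤ normalClosure (H : Set F) := le_normalClosure
  set N := normalClosure (H : Set F) with hN
  have hN1 : N ≠ ⊥ := fun h => hH (eq_bot_iff.2 (h ▸ hHN))
  have hleast : ∀ M : Subgroup F, M.Normal → M ≠ ⊥ → N ≤ M := fun M hM h1 =>
    normalClosure_le_normal (hmin M h1 (by rw [normalizer_eq_top]; exact le_top))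
  have hsimple : IsSimpleGroup N := by
    have : Nontrivial N := (nontrivial_iff_ne_bot _).2 hN1
    refine ⟨fun L hL => ?_⟩
    rw [or_iff_not_imp_left]
    intro hL1
    have h1 : L.map N.subtype ≠ ⊥ := by rwa [Ne, map_eq_bot_iff_of_injective _ N.subtype_injective]
    have h2 : N ≤ normalizer ((L.map N.subtype : Subgroup F) : Set F) := fun n hn =>
      mem_normalizer_of_conj_mem (by
        rintro _ ⟨l, hl, rfl⟩
        exact ⟨_, hL.conj_mem l hl ⟨n, hn⟩, rfl⟩)
    have h3 : N ≤ L.map N.subtype := by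
      refine (closure_le _).2 fun x hx => ?_
      obtain ⟨a, ha, h4⟩ := Group.mem_conjugatesOfSet_iff.1 hx
      obtain ⟨g, rfl⟩ := isConj_iff.1 h4
      have h5 := hmin (cj g⁻¹ (L.map N.subtype)) (by rwa [Ne, cj_eq_bot_iff]) (hHN.trans (by
        rw [← cj_normalizer]; exact (cj_eq_of_normal g⁻¹ N).ge.trans (cj_mono _ h2))) ha
      simpa using mem_cj.1 h5
    rw [eq_top_iff]
    intro x _
    obtain ⟨y, hy, hxy⟩ := h3 x.2
    rwa [← Subtype.ext hxy]
  refine ⟨N, inferInstance, hN1, hleast, hsimple, ?_⟩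
  rw [or_iff_not_imp_left]
  intro hC1
  set C := centralizer (N : Set F) with hC
  have hNC : N ≤ C := hleast C inferInstance hC1
  have hcomm : IsMulCommutative N := ⟨⟨fun a b => Subtype.ext (hNC b.2 a a.2)⟩⟩
  have hp : (Nat.card N).Prime := by
    let _ : CommGroup N := { (inferInstance : Group N) with mul_comm := mul_comm' }
    exact IsSimpleGroup.prime_card
  have : Fact (Nat.card N).Prime := ⟨hp⟩
  have hHeq : H = N := by
    refine H21.eq_of_le_of_card_le hHN ?_
    rcases (Nat.dvd_prime hp).1 (card_dvd_of_le hHN) with h | h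
    · exact absurd (card_eq_one.1 h) hH
    · exact h.ge
  have hsub : ∀ R ≤ C, R ≠ ⊥ → N ≤ R := fun R h1 h2 => hHeq ▸ hmin R h2
    (hHN.trans (H21.le_normalizer_of_le_centralizer (le_centralizer_iff.1 h1)))
  have hsub' : ∀ R : Subgroup C, (Nat.card R).Prime → R = N.subgroupOf C := fun R hR => by
    have h1 : N ≤ R.map C.subtype := hsub _ (map_subtype_le _) (by
      rw [Ne, map_eq_bot_iff_of_injective _ C.subtype_injective]
      rintro rfl
      simp at hR
      exact Nat.not_prime_one hR)
    have h2 : N = R.map C.subtype := by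
      refine H21.eq_of_le_of_card_le h1 ?_
      have h3 := card_dvd_of_le h1
      rw [card_map_of_injective C.subtype_injective] at h3 ⊢
      exact ((Nat.prime_dvd_prime_iff_eq hp hR).1 h3).ge
    rw [h2, ← comap_subtype, comap_map_eq_self_of_injective C.subtype_injective]
  have hcN : Nat.card (N.subgroupOf C) = Nat.card N := Nat.card_congr (subgroupOfEquivOfLe hNC).toEquiv
  have hPC : IsPGroup (Nat.card N) C := by
    refine IsPGroup.of_card (n := (Nat.card C).primeFactorsList.length)
      (Nat.eq_prime_pow_of_unique_prime_dvd Nat.card_pos.ne' fun {d} hd hdd => ?_)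
    have : Fact d.Prime := ⟨hd⟩
    obtain ⟨x, hx⟩ := exists_prime_orderOf_dvd_card' d hdd
    rw [← hcN, ← hsub' (zpowers x) (by rwa [Nat.card_zpowers, hx]), Nat.card_zpowers, hx]
  have hcyc : IsCyclic N := isCyclic_of_prime_card (p := Nat.card N) rfl
  have hker : (MulAut.conjNormal (H := N)).ker = C := by
    ext g
    rw [MonoidHom.mem_ker, hC, mem_centralizer_iff]
    constructor
    · intro h n hn
      have := congrArg (fun f : MulAut N => (f ⟨n, hn⟩ : F)) h
      simp only [MulAut.conjNormal_apply, MulAut.one_apply] at this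
      rw [mul_inv_eq_iff_eq_mul] at this
      exact this.symm
    · intro h
      ext n
      rw [MulAut.conjNormal_apply, MulAut.one_apply, ← h n n.2]; group
  have hidx : C.index ∣ Nat.card N - 1 := by
    rw [← hker, index_ker, ← Nat.totient_prime hp, ← IsCyclic.card_mulAut]
    exact card_subgroup_dvd_card _
  have main : IsCyclic C → (H = N ∧ (Nat.card N).Prime ∧ IsCyclic C ∧
      (∃ k : ℕ, 1 ≤ k ∧ Nat.card C = Nat.card N ^ k) ∧ (∃ g : F, C ⊔ Subgroup.zpowers g = ⊤) ∧
      C.index ∣ Nat.card N - 1) := fun hc => by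
    refine ⟨hHeq, hp, hc, ?_, ?_, hidx⟩
    · obtain ⟨k, hk⟩ := hPC.exists_card_eq
      refine ⟨k, Nat.pos_of_ne_zero ?_, hk⟩
      rintro rfl
      exact hC1 (card_eq_one.1 hk)
    · have h1 : IsCyclic (MulAut N) := by
        have : IsCyclic (ZMod (Nat.card N))ˣ := inferInstance
        exact isCyclic_of_surjective (IsCyclic.mulAutMulEquiv N).symm (MulEquiv.surjective _)
      obtain ⟨⟨_, g, rfl⟩, hg⟩ := IsCyclic.exists_generator (α := (MulAut.conjNormal (H := N)).range)
      refine ⟨g, eq_top_iff.2 fun x _ => ?_⟩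
      obtain ⟨k, hk⟩ := mem_zpowers_iff.1 (hg ⟨_, x, rfl⟩)
      have h2 : x * (g ^ k)⁻¹ ∈ C := by
        rw [← hker, MonoidHom.mem_ker, map_mul, map_inv, map_zpow, mul_inv_eq_one]
        exact (congrArg Subtype.val hk).symm
      simpa using mul_mem (mem_sup_left h2 : _ ∈ C ⊔ zpowers g)
        (mem_sup_right (zpow_mem (mem_zpowers g) k))
  rcases S0016.result (Nat.card N) hPC (fun A B hA hB => by
    rw [hsub' A (hA ▸ hp), hsub' B (hB ▸ hp)]) with hc | ⟨h2, n, ⟨e⟩⟩
  · exact .inl (main hc)
  · rcases n with _ | n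
    · have : IsCyclic (QuaternionGroup (2 ^ 0)) := QuaternionGroup.quaternionGroup_one_isCyclic
      exact .inl (main (isCyclic_of_surjective e.symm e.symm.surjective))
    · have h3 : C = ⊤ := by
        rw [h2] at hidx
        exact index_eq_one.1 (Nat.dvd_one.1 hidx)
      exact .inr ⟨hHeq, h2, h3, n + 1, by omega,
        ⟨(topEquiv.symm.trans (MulEquiv.subgroupCongr h3.symm)).trans e⟩⟩

end Cfsg.Agent.S3025
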