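import Cfsg.Statements.S3027
import Cfsg.Agent.H44.Subnormal
import Cfsg.Agent.H72.Conj

set_option autoImplicit false
open Cfsg

namespace Cfsg.Agent.S3027

open Subgroup Cfsg.Agent.H72

theorem sup_eq_top_iff {G : Type*} [Group G] (D : Subgroup G) [D.Normal] (X : Subgroup G) :
    X ⊔ D = ⊤ ↔ X.map (QuotientGroup.mk' D) = ⊤ := by
  constructor
  · intro h
    have := congrArg (Subgroup.map (QuotientGroup.mk' D)) h
    rwa [Subgroup.map_sup, QuotientGroup.map_mk'_self, sup_bot_eq,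
      map_top_of_surjective _ (QuotientGroup.mk'_surjective _)] at this
  · intro h
    have := congrArg (Subgroup.comap (QuotientGroup.mk' D)) h
    rwa [comap_map_eq, QuotientGroup.ker_mk', comap_top] at this


/-- Let G be a finite group and D a normal subgroup of G such that G/D is perfect (that is, G = G′D). Then among the subnormal subgroups B of G with BD = G there is a least one, and it is normal in G. -/
theorem result {G : Type*} [Group G] [Finite G] (D : Subgroup G) [D.Normal] (hperf : ⁅(⊤ : Subgroup G), (⊤ : Subgroup G)⁆ ⊔ D = ⊤) :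
    ∃ B : Subgroup G, B.Normal ∧ B ⊔ D = ⊤ ∧ ∀ B' : Subgroup G, B'.IsSubnormal → B' ⊔ D = ⊤ → B ≤ B' := by
  have hc : ∀ X Y : Subgroup G, X ⊔ D = ⊤ → Y ⊔ D = ⊤ → ⁅X, Y⁆ ⊔ D = ⊤ := fun X Y hX hY => by
    rw [sup_eq_top_iff, Subgroup.map_commutator] at hperf ⊢
    rw [sup_eq_top_iff] at hX hY
    rw [map_top_of_surjective _ (QuotientGroup.mk'_surjective D)] at hperf
    rwa [hX, hY]
  have hle : ∀ {X Y : Subgroup G}, X ≤ Y → X ⊔ D = ⊤ → Y ⊔ D = ⊤ := fun h1 h2 =>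
    top_le_iff.1 (h2 ▸ sup_le_sup_right h1 D)
  obtain ⟨B, ⟨hBn, hBD⟩, hB⟩ := Set.Finite.exists_minimal
    (Set.toFinite {B : Subgroup G | B.Normal ∧ B ⊔ D = ⊤}) ⟨⊤, inferInstance, top_sup_eq _⟩
  obtain ⟨Y, ⟨hYB, hYn, hYD⟩, hY⟩ := Set.Finite.exists_minimal
    (Set.toFinite {Y : Subgroup G | Y ≤ B ∧ B ≤ normalizer (Y : Set G) ∧ Y ⊔ D = ⊤})
    ⟨B, le_rfl, le_normalizer, hBD⟩
  have hYle : ∀ X, X ≤ B → B ≤ normalizer (X : Set G) → X ⊔ D = ⊤ → Y ≤ X := fun X h1 h2 h3 => by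
    have h4 : ⁅Y, X⁆ ≤ Y ⊓ X := le_inf (H44.commutator_le_left_of_le_normalizer (h1.trans hYn))
      (H44.commutator_le_right_of_le_normalizer (hYB.trans h2))
    exact (hY (y := Y ⊓ X) ⟨inf_le_left.trans hYB, le_normalizer_inf hYn h2,
      hle h4 (hc _ _ hYD h3)⟩ inf_le_left).trans inf_le_right
  have hYnormal : Y.Normal := ⟨fun y hy g => by
    have h1 := hYle (cj g⁻¹ Y) (by rw [← cj_eq_of_normal g⁻¹ B]; exact cj_mono _ hYB)
      (by rw [← cj_normalizer, ← cj_eq_of_normal g⁻¹ B]; exact cj_mono _ hYn)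
      (by rw [← cj_eq_of_normal g⁻¹ D, ← cj_sup, hYD, cj_top]) hy
    simpa using mem_cj.1 h1⟩
  have hBY : B ≤ Y := hB ⟨hYnormal, hYD⟩ hYB
  refine ⟨B, hBn, hBD, fun B' hB' hD => ?_⟩
  have hsn := H44.sn_top_iff.2 hB'
  clear hB'
  induction hsn with
  | refl => exact le_top
  | step K L hKL _ hn ih =>
    have h1 := ih (hle hKL hD)
    have h2 : ⁅B, K⁆ ≤ B ⊓ K := le_inf (commutator_le_left B K)
      (H44.commutator_le_right_of_le_normalizer (h1.trans hn))
    exact hBY.trans ((hYle (B ⊓ K) inf_le_left (le_normalizer_inf le_normalizer (h1.trans hn))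
      (hle h2 (hc _ _ hBD hD))).trans inf_le_right)

end Cfsg.Agent.S3027
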