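import Cfsg.Statements.S3031
import Cfsg.Agent.H73.HSub
import Cfsg.Agent.H61.Transfer
import Cfsg.Agent.H3.Tate

set_option autoImplicit false
open Cfsg

namespace Cfsg.Agent.S3031

open Subgroup Cfsg.Agent.H72 Cfsg.Agent.H73 Cfsg.Agent.H61
open scoped commutatorElement

/-- Let G be a finite group, p the smallest prime dividing |G| and P a Sylow p-subgroup. Suppose that P is cyclic, or that P has a subgroup D with 1 < |D| < |P| such that every subgroup E of P of order |D|, and also every subgroup E of P of order 4 when |D| = 2, satisfies g E g⁻¹ ∩ N_G(E) ≤ E for all g ∈ G (E is strongly closed in its normalizer with respect to G). Then G has a normal p-complement. -/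
theorem result {G : Type*} [Group G] [Finite G] {p : ℕ} [Fact p.Prime] (hdiv : p ∣ Nat.card G)
    (hmin : ∀ q : ℕ, q.Prime → q ∣ Nat.card G → p ≤ q) (P : Sylow p G)
    (h : IsCyclic ↥(P : Subgroup G) ∨ ∃ D : Subgroup G, D ≤ (P : Subgroup G) ∧ 1 < Nat.card D ∧ Nat.card D < Nat.card (P : Subgroup G) ∧
      ∀ E : Subgroup G, E ≤ (P : Subgroup G) → (Nat.card E = Nat.card D ∨ (Nat.card D = 2 ∧ Nat.card E = 4)) →
        ∀ g : G, E.map (MulAut.conj g).toMonoidHom ⊓ Subgroup.normalizer (E : Set G) ≤ E) :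
    Cfsg.HasNormalPComplement p G := by
  have hp : p.Prime := Fact.out
  have hcop : ∀ g : G, (orderOf g).Coprime (p - 1) := fun g => by
    refine Nat.coprime_of_dvd fun q hq h1 h2 => ?_
    have h3 := hmin q hq (h1.trans (orderOf_dvd_natCard g))
    have h4 := Nat.le_of_dvd (Nat.sub_pos_of_lt hp.one_lt) h2
    have := hp.pos
    omega
  rcases h with h | ⟨D, hDP, hD1, hD2, h⟩
  · refine H3.hasNormalPComplement_of_normalizer_le_centralizer P
      (IsCyclic.normalizer_le_centralizer ?_ h)
    have h1 : Nat.card G ≠ 1 := fun h1 => hp.one_lt.ne' (Nat.dvd_one.1 (h1 ▸ hdiv))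
    exact le_antisymm (Nat.minFac_le_of_dvd hp.two_le hdiv)
      (hmin _ (Nat.minFac_prime h1) (Nat.minFac_dvd _))
  have hP := P.isPGroup'
  obtain ⟨d, hd⟩ := (hP.to_le hDP).exists_card_eq
  rw [hd] at hD1 hD2 h
  have hd0 : 0 < d := Nat.pos_of_ne_zero fun h0 => by simp [h0] at hD1
  refine H3.hasNormalPComplement_of_inf_pResidual_le_frattini P fun x hx => ?_
  refine H3.mem_frattini_iff.2 fun M hM => ?_
  set M' := M.map (P : Subgroup G).subtype with hM'
  have hMP : M' ≤ P := map_subtype_le M
  have hMs : M'.subgroupOf P = M := comap_map_eq_self_of_injective (subtype_injective _) M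
  have hMi : M.index = p := H3.index_eq_of_isCoatom hP hM
  have hMn : M.Normal := H3.normal_of_isCoatom hP hM
  have hPM : (P : Subgroup G) ≤ normalizer (M' : Set G) := le_normalizer_map_subtype M
  have hMc : p ^ d ≤ Nat.card M' := by
    have h1 := M.card_mul_index
    have h2 := H22.pow_succ_le_card_of_lt hP hD2
    rw [← h1, hMi, pow_succ] at h2
    rw [hM', card_map_of_injective (subtype_injective _)]
    exact Nat.le_of_mul_le_mul_right h2 hp.pos
  have hcomm : ∀ a ∈ (P : Subgroup G), ∀ u ∈ (P : Subgroup G), a⁻¹ * (u * a * u⁻¹) ∈ M' := by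
    intro a ha u hu
    have h1 := H3.commutator_le_of_normal_index_prime hMi
      (commutator_mem_commutator (mem_top (⟨a, ha⟩⁻¹ : (P : Subgroup G))) (mem_top ⟨u, hu⟩))
    refine ⟨_, h1, ?_⟩
    simp [commutatorElement_def, mul_assoc]
  have key : (P : Subgroup G) ⊓ ⁅(⊤ : Subgroup G), (⊤ : Subgroup G)⁆ ≤ M' := by
    refine focal_le_of_foc (isSylowIn_top P) (alperin_centric (isSylowIn_top P)
      (𝓕 := {T | T ≤ P ∧ FN p ⊤ (P : Subgroup G) T}) (fun U hU => hU) (fun T hT => ?_)
      (fun A c _ hc => Foc.cent _ hc) (fun A g k => Foc.comp) (fun A B g hB hA => hA.restrict hB) ?_)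
    · exact exists_FN (isSylowIn_top P) (hP.to_le hT) le_top
    rintro T ⟨hTP, hFN⟩ - g - hg a ha
    have hT := hP.to_le hTP
    by_cases hc : p ^ d < Nat.card T
    · obtain ⟨R, hR⟩ := IsSylowIn.exists_sylow hFN
      obtain ⟨u, hu, w, hw, e⟩ := H3.exists_mul_pResidual R ⟨g, mem_top g, hg⟩
      have h1 : pResidual p ↥(⊤ ⊓ normalizer (T : Set G)) ≤
          (centralizer (T : Set G)).subgroupOf _ := by
        rw [H3.pResidual_le_iff]
        intro y hy
        exact mem_centralizer_of_normalizes_card hT le_rfl hd0 hc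
          (fun E hE hEc => normalizer_le_of_hSubgroup (h E (hE.trans hTP) (Or.inl hEc)) hT hE)
          (fun h2 E hE hEc =>
            normalizer_le_of_hSubgroup (h E (hE.trans hTP) (Or.inr ⟨h2, hEc⟩)) hT hE)
          (mem_bigN_of_coprime y.2.2 (hcop _)) (by rwa [coe_subtype, Subgroup.orderOf_coe])
      have h2 : g = u * w := congrArg Subtype.val e
      have h3 : a * w = w * a := h1 hw a ha
      rw [hR, mem_subgroupOf] at hu
      have h4 : g * a * g⁻¹ = u * a * (u : G)⁻¹ := by
        rw [h2, mul_assoc (u : G), ← h3]; group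
      rw [h4]
      exact hcomm a (hTP ha) u hu.1
    by_cases hTM : T ≤ M'
    · exact hTM (mul_mem (inv_mem ha) (conj_mem_of_mem_normalizer hg ha))
    have h1 : normalizer (T : Set G) ≤ normalizer ((T ⊓ M' : Subgroup G) : Set G) := by
      intro y hy
      refine mem_normalizer_of_conj_mem fun b hb => ?_
      have h2 := conj_mem_of_mem_normalizer hy hb.1
      obtain ⟨E, hbE, hEM, hE⟩ := exists_between_card (hP.to_le hMP) (inf_le_right (a := T))
        ((card_le_of_le inf_le_left).trans (not_lt.1 hc)) hMc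
      have h3 := h E (hEM.trans hMP) (Or.inl hE)
      exact ⟨h2, hEM (h3 y ⟨conj_mem_cj (hbE hb),
        normalizer_le_of_hSubgroup h3 hP (hEM.trans hMP) (le_normalizer (hTP h2))⟩)⟩
    have h2 : (T ⊓ M').relIndex T = p := by
      rw [inf_relIndex_left, ← relIndex_subgroupOf hTP, hMs]
      have h3 := relIndex_dvd_index_of_normal M (T.subgroupOf P)
      rw [hMi] at h3
      refine ((Nat.dvd_prime hp).1 h3).resolve_left fun h4 => hTM ?_
      rw [← hMs, relIndex_subgroupOf hTP, relIndex_eq_one] at h4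
      exact h4
    have h3 := bigN_section (le_normalizer.trans h1) h2 le_rfl h1
      (mem_bigN_of_coprime hg (hcop g)) ha
    have h4 := conj_mem_of_mem_normalizer' (hPM (hTP ha)) h3.2
    simpa [mul_assoc] using h4
  rw [← hMs]
  exact key ⟨x.2, H3.inf_pResidual_le_commutator hP ⟨x.2, hx⟩⟩

end Cfsg.Agent.S3031
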