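import Cfsg.Statements.S3032
import Cfsg.Agent.S3031
import Cfsg.Agent.H69.Cores
import Cfsg.Agent.H2.MinNormal
import Cfsg.Agent.H22.Core

set_option autoImplicit false
open Cfsg

namespace Cfsg.Agent.S3032

open Subgroup Cfsg.Agent.H72 Cfsg.Agent.H73
open scoped commutatorElement

/-- The hypothesis on the Sylow subgroups of `E`. -/
def Hyp {G : Type*} [Group G] (E : Subgroup G) : Prop :=
  ∀ p : ℕ, p.Prime → ∀ P : Subgroup G, IsSylowIn p P E → ¬ IsCyclic P →
    ∃ d : ℕ, 0 < d ∧ p ^ d < Nat.card P ∧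
      ∀ F ≤ P, (Nat.card F = p ^ d ∨ (p ^ d = 2 ∧ Nat.card F = 4)) →
        ∀ g : G, cj g F ⊓ normalizer (F : Set G) ≤ F

section
variable {G : Type*} [Group G] [Finite G]

theorem npc {E : Subgroup G} (h : Hyp E) (hE : E ≠ ⊥) :
    HasNormalPComplement (Nat.card E).minFac E := by
  have h1 : Nat.card E ≠ 1 := ((one_lt_card_iff_ne_bot E).2 hE).ne'
  have hp := Nat.minFac_prime h1
  have := Fact.mk hp
  obtain ⟨P⟩ : Nonempty (Sylow (Nat.card E).minFac E) := inferInstance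
  refine S3031.result (Nat.minFac_dvd _) (fun q hq hd => Nat.minFac_le_of_dvd hq.two_le hd) P ?_
  by_cases hc : IsCyclic (P : Subgroup E)
  · exact Or.inl hc
  right
  have hi := E.subtype_injective
  obtain ⟨d, hd, hd2, h2⟩ := h _ hp _ (isSylowIn_map E P) fun h3 => hc
    (isCyclic_of_surjective _ (equivMapOfInjective _ _ hi).symm.surjective)
  rw [card_map_of_injective hi] at hd2
  obtain ⟨D, hD, hDc⟩ := H22.exists_le_card_eq_pow P.isPGroup' hd2.le
  refine ⟨D, hD, hDc ▸ Nat.one_lt_pow hd.ne' hp.one_lt, hDc ▸ hd2, fun F hF hFc g x hx => ?_⟩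
  rw [hDc, ← card_map_of_injective (K := F) hi] at hFc
  have h3 := h2 _ (map_mono hF) hFc g (x := (x : G)) ⟨?_, le_normalizer_map _ ⟨x, hx.2, rfl⟩⟩
  · obtain ⟨y, hy, e⟩ := h3
    exact hi e ▸ hy
  · obtain ⟨y, hy, rfl⟩ := hx.1
    exact conj_mem_cj ⟨y, hy, rfl⟩

theorem tower (E : Subgroup G) : E.Normal → Hyp E → E ≠ ⊥ →
    ∃ q : ℕ, q.Prime ∧ ∃ Q : Subgroup G, IsSylowIn q Q E ∧ Q ≠ ⊥ ∧ Q.Normal := by
  induction E using WellFoundedLT.induction with
  | ind E ih =>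
  intro hn h hE
  have h1 : Nat.card E ≠ 1 := ((one_lt_card_iff_ne_bot E).2 hE).ne'
  have hp := Nat.minFac_prime h1
  have := Fact.mk hp
  have h2 := npc h hE
  set p := (Nat.card E).minFac
  set K := (pResidual p E).map E.subtype with hK
  have hKc : (Nat.card K).Coprime p := by
    rw [hK, card_map_of_injective E.subtype_injective]
    exact H3.hasNormalPComplement_iff_coprime.1 h2
  by_cases hK0 : K = ⊥
  · rw [hK, map_eq_bot_iff_of_injective _ E.subtype_injective, H3.pResidual_eq_bot_iff] at hK0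
    exact ⟨p, hp, E, ⟨le_rfl, hK0, fun Q _ h3 h4 => le_antisymm h4 h3⟩, hE, hn⟩
  have hKE : K ≤ E := map_subtype_le _
  have hlt : K < E := lt_of_le_of_ne hKE fun h3 => by
    rw [h3] at hKc
    exact (Nat.Prime.coprime_iff_not_dvd hp).1 hKc.symm (Nat.minFac_dvd _)
  have hsyl : ∀ r : ℕ, r.Prime → ∀ R, IsSylowIn r R K → R ≠ ⊥ → IsSylowIn r R E := by
    intro r hr R hR hR0
    have := Fact.mk hr
    have hrp : r ≠ p := by
      rintro rfl
      exact hR0 (hR.eq_bot_iff.2 ((Nat.Prime.coprime_iff_not_dvd hp).1 hKc.symm))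
    refine ⟨hR.le.trans hKE, hR.isPGroup, fun Q hQ h3 h4 => hR.maximal Q hQ h3 fun x hx => ?_⟩
    refine H3.mem_map_subtype_pResidual_of_coprime (h4 hx) ?_
    obtain ⟨k, hk⟩ := IsPGroup.iff_orderOf.1 hQ ⟨x, hx⟩
    rw [← Subgroup.orderOf_coe] at hk
    exact hk ▸ ((Nat.coprime_primes hr hp).2 hrp).pow_left k
  obtain ⟨q, hq, Q, hQ, hQ0, hQn⟩ := ih K hlt inferInstance (fun r hr R hR hc =>
    h r hr R (hsyl r hr R hR (by rintro rfl; exact hc inferInstance)) hc) hK0
  exact ⟨q, hq, Q, hsyl q hq Q hQ hQ0, hQ0, hQn⟩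

theorem hyp_quot {E Q : Subgroup G} [Q.Normal] {q : ℕ} [hq : Fact q.Prime] (hQ : IsSylowIn q Q E)
    (h : Hyp E) : Hyp (E.map (QuotientGroup.mk' Q)) := by
  intro r hr R' hR' hc
  have := Fact.mk hr
  set f := QuotientGroup.mk' Q with hf
  have hker : f.ker = Q := QuotientGroup.ker_mk' Q
  obtain ⟨R, hR, rfl⟩ : ∃ R, IsSylowIn r R E ∧ R.map f = R' := by
    obtain ⟨R, hR⟩ := exists_isSylowIn r E
    obtain ⟨_, ⟨e, he, rfl⟩, h1⟩ := (hR.map f).exists_cj_eq hR'
    refine ⟨cj e R, hR.cj_of_mem he, ?_⟩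
    rw [← h1, cj, cj, map_map, map_map]
    congr 1
  have hrq : r ≠ q := by
    rintro rfl
    apply hc
    have h1 : R ≤ Q := hQ.le_of_normalizes' hR.isPGroup hR.le (by rw [normalizer_eq_top]; exact le_top)
    rw [(Subgroup.map_eq_bot_iff _).2 (h1.trans hker.ge)]
    infer_instance
  have hcop : (Nat.card Q).Coprime r := by
    obtain ⟨k, hk⟩ := hQ.isPGroup.exists_card_eq
    exact hk ▸ ((Nat.coprime_primes hq.out hr).2 hrq.symm).pow_left k
  have hcard : ∀ F ≤ R, Nat.card (F.map f) = Nat.card F := by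
    intro F hF
    rw [← relIndex_ker, hker, ← inf_relIndex_left,
      H22.inf_eq_bot_of_pgroup_coprime (hR.isPGroup.to_le hF) hcop, relIndex_bot_left]
  obtain ⟨d, hd, hd2, h2⟩ := h r hr R hR fun h3 => hc
    (isCyclic_of_surjective _ (f.subgroupMap_surjective R))
  refine ⟨d, hd, (hcard R le_rfl).symm ▸ hd2, fun F' hF' hFc g' x' hx' => ?_⟩
  obtain ⟨F, hF, rfl⟩ : ∃ F ≤ R, F.map f = F' := by
    refine ⟨R ⊓ F'.comap f, inf_le_left, le_antisymm (map_le_iff_le_comap.2 inf_le_right) ?_⟩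
    intro y hy
    obtain ⟨x, hx, rfl⟩ := hF' hy
    exact ⟨x, ⟨hx, hy⟩, rfl⟩
  rw [hcard F hF] at hFc
  have h3 := h2 F hF hFc
  obtain ⟨g, rfl⟩ := QuotientGroup.mk'_surjective Q g'
  obtain ⟨⟨_, ⟨y, hy, rfl⟩, rfl⟩, hxn⟩ := hx'
  have hFp := hR.isPGroup.to_le hF
  set x := g * y * g⁻¹ with hx
  have hxe : (MulAut.conj (QuotientGroup.mk' Q g)).toMonoidHom (f y) = f x := by simp [hx, hf]
  rw [hxe] at hxn ⊢
  set M := (F.map f).comap f with hM
  have hFM : F ≤ M := le_comap_map _ _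
  have hxM : x ∈ normalizer (M : Set G) := le_normalizer_comap _ hxn
  have hsyl : IsSylowIn r F M := by
    refine isSylowIn_of_not_dvd_relIndex hFp hFM fun h4 => ?_
    rw [hM, comap_map_eq, hker, sup_comm] at h4
    have h5 := H2.card_sup_mul_card_inf_of_normal F Q
    rw [H22.inf_eq_bot_of_pgroup_coprime hFp hcop, card_bot, mul_one,
      ← H2.card_mul_relIndex_of_le (le_sup_left : F ≤ F ⊔ Q)] at h5
    rw [sup_comm, Nat.eq_of_mul_eq_mul_left Nat.card_pos h5] at h4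
    exact (Nat.Prime.coprime_iff_not_dvd hr).1 hcop.symm h4
  have hxp : IsPGroup r (zpowers x) := (IsPGroup_cj g hFp).to_le (zpowers_le.2 (conj_mem_cj hy))
  obtain ⟨T, hT, hxT⟩ := exists_isSylowIn_ge hxp (le_sup_left : zpowers x ≤ zpowers x ⊔ M)
  have hT2 := hT.inf_normal le_sup_right (sup_le (zpowers_le.2 hxM) le_normalizer)
  obtain ⟨u, hu, e⟩ := hsyl.exists_cj_eq hT2
  have h4 : x ∈ normalizer (cj u F : Set G) := by
    rw [e]
    exact inf_normalizer_le_normalizer_inf ⟨le_normalizer (hxT (mem_zpowers x)), hxM⟩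
  rw [← cj_normalizer, mem_cj] at h4
  have h5 := h3 (u⁻¹ * g) ⟨mem_cj.2 (by simpa [hx, mul_assoc] using hy), h4⟩
  exact cj_le_of_mem hu hFM (mem_cj.2 h5)

theorem cycChain_of {Q : Subgroup G} [Q.Normal] {q : ℕ} [hq : Fact q.Prime] (hQ : IsPGroup q Q)
    (h : ∀ g ∈ bigN q (⊤ : Subgroup G), (orderOf g).Coprime q → g ∈ centralizer (Q : Set G)) :
    H19.CycChain Q := by
  obtain ⟨B, hB, hmax⟩ := Set.Finite.exists_maximal
    (Set.toFinite {B : Subgroup G | B ≤ Q ∧ H19.CycChain B}) ⟨⊥, bot_le, H19.CycChain.bot⟩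
  by_cases hBQ : Q ≤ B
  · exact le_antisymm hB.1 hBQ ▸ hB.2
  exfalso
  have hBn := hB.2.normal
  set f := QuotientGroup.mk' B with hf
  have hker : f.ker = B := QuotientGroup.ker_mk' B
  have hs := QuotientGroup.mk'_surjective B
  have hQ' := hQ.map f
  have : Group.IsNilpotent (Q.map f) := hQ'.isNilpotent
  obtain ⟨V, r, hr, hVn, hV0, hVQ, hVc, hVr, hVe, hmin⟩ := H2.exists_minimal_normal_le_of_solvable
    (Q.map f) (Normal.map inferInstance f hs) inferInstance
    (fun h1 => hBQ (hker ▸ (Subgroup.map_eq_bot_iff _).1 h1))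
  have hVq := hQ'.to_le hVQ
  obtain rfl : r = q := by
    by_contra hne
    have := Fact.mk hr
    exact hV0 (disjoint_self.1 (IsPGroup.disjoint_of_ne r q hne V V hVr hVq))
  have hN := bigN_top_normal (G := G ⧸ B) (p := r)
  obtain ⟨S⟩ : Nonempty (Sylow r (bigN r (⊤ : Subgroup G))) := inferInstance
  have h1 := H69.inf_centralizer_ne_bot
    (T := ((S : Subgroup (bigN r (⊤ : Subgroup G))).map (Subgroup.subtype _)).map f)
    ((S.isPGroup'.map _).map _) hVr (by rw [normalizer_eq_top]; exact le_top) hV0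
  have h2 : V ⊓ centralizer (bigN r (⊤ : Subgroup (G ⧸ B)) : Set (G ⧸ B)) ≠ ⊥ := by
    intro h2
    apply h1
    rw [eq_bot_iff, ← h2]
    rintro v ⟨hv, hv2⟩
    refine ⟨hv, fun n hn => ?_⟩
    rw [← map_top_of_surjective f hs, ← map_bigN] at hn
    obtain ⟨n, hn, rfl⟩ := hn
    obtain ⟨u, hu, w, hw, e⟩ := H3.exists_mul_pResidual S ⟨n, hn⟩
    have h3 : pResidual r (bigN r (⊤ : Subgroup G)) ≤ (centralizer (Q : Set G)).subgroupOf _ := by
      rw [H3.pResidual_le_iff]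
      exact fun y hy => h y y.2 (by rwa [Subgroup.orderOf_coe])
    obtain ⟨v, hvQ, rfl⟩ := hVQ hv
    have h4 : n = u * w := congrArg Subtype.val e
    have h5 : v * w = w * v := h3 hw v hvQ
    have h6 := hv2 (f u) ⟨u, ⟨u, hu, rfl⟩, rfl⟩
    rw [h4, map_mul, mul_assoc, ← map_mul, ← h5, map_mul, ← mul_assoc, h6, mul_assoc]
  have h3 := le_centralizer_iff.1 (((hmin _ inferInstance inf_le_left).resolve_left h2).ge.trans
    inf_le_right)
  have h4 := H19.isCyclic_of_minimal_normal V ⟨hVc, hVe⟩ hmin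
    (fun a b => h3 (commutator_le_bigN _ (commutator_mem_commutator (mem_top a) (mem_top b))))
    (fun a => h3 (pow_mem_bigN (mem_top a)))
  have h5 := H19.CycChain.comap f (hker.symm ▸ hB.2) (H19.CycChain.of_isCyclic V)
  have h6 : V.comap f ≤ Q := by
    refine (comap_mono hVQ).trans ?_
    rw [comap_map_eq, hker]
    exact sup_le le_rfl hB.1
  have h7 := hmax ⟨h6, h5⟩ (hker.ge.trans (ker_le_comap f V))
  apply hV0
  rw [← map_comap_eq_self_of_surjective hs V, Subgroup.map_eq_bot_iff, QuotientGroup.ker_mk']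
  exact h7

end

theorem main (G : Type*) [Group G] [Finite G] : ∀ (E : Subgroup G) [E.Normal],
    IsSupersolvable (G ⧸ E) → Hyp E → IsSupersolvable G := by
  refine H2.card_induction (P := fun G _ _ => ∀ (E : Subgroup G) [E.Normal],
    IsSupersolvable (G ⧸ E) → Hyp E → IsSupersolvable G) G ?_
  intro G _ _ ih E hn hGE h
  by_cases hE : E = ⊥
  · subst hE
    exact H19.isSupersolvable_of_equiv QuotientGroup.quotientBot hGE
  obtain ⟨q, hq, Q, hQ, hQ0, hQn⟩ := tower E hn h hE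
  have := Fact.mk hq
  have h1 := ih (G ⧸ Q) (H2.card_quotient_lt Q hQ0) (E.map (QuotientGroup.mk' Q))
    (H19.isSupersolvable_of_equiv
      (QuotientGroup.quotientQuotientEquivQuotient Q E hQ.le).symm hGE) (hyp_quot hQ h)
  refine H19.isSupersolvable_of_ker (QuotientGroup.mk' Q) ?_ h1
  rw [QuotientGroup.ker_mk']
  by_cases hc : IsCyclic Q
  · exact H19.CycChain.of_isCyclic Q
  obtain ⟨d, hd, hd2, h2⟩ := h q hq Q hQ hc
  have h3 : (⊤ : Subgroup G) ≤ normalizer (Q : Set G) := by rw [normalizer_eq_top]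
  exact cycChain_of hQ.isPGroup fun g hg hgq =>
    mem_centralizer_of_normalizes_card hQ.isPGroup h3 hd hd2
      (fun F hF hFc => h3.trans (normalizer_le_of_hSubgroup (h2 F hF (Or.inl hFc)) hQ.isPGroup hF))
      (fun h4 F hF hFc => h3.trans
        (normalizer_le_of_hSubgroup (h2 F hF (Or.inr ⟨h4, hFc⟩)) hQ.isPGroup hF)) hg hgq

/-- Let G be a finite group and E a normal subgroup with G/E supersolvable. Suppose that for every prime p and every non-cyclic Sylow p-subgroup P of E there is a subgroup D of P with 1 < |D| < |P| such that every subgroup F of P of order |D|, and also every subgroup F of P of order 4 when |D| = 2, satisfies g F g⁻¹ ∩ N_G(F) ≤ F for all g ∈ G. Then G is supersolvable. -/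
theorem result {G : Type*} [Group G] [Finite G] (E : Subgroup G) [E.Normal] (hGE : Cfsg.IsSupersolvable (G ⧸ E))
    (h : ∀ (p : ℕ), p.Prime → ∀ P : Subgroup G, P ≤ E → IsPGroup p P → ¬ p ∣ P.relIndex E → ¬ IsCyclic ↥P →
      ∃ D : Subgroup G, D ≤ P ∧ 1 < Nat.card D ∧ Nat.card D < Nat.card P ∧
        ∀ F : Subgroup G, F ≤ P → (Nat.card F = Nat.card D ∨ (Nat.card D = 2 ∧ Nat.card F = 4)) →
          ∀ g : G, F.map (MulAut.conj g).toMonoidHom ⊓ Subgroup.normalizer (F : Set G) ≤ F) :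
    Cfsg.IsSupersolvable G := by
  refine main G E hGE fun p hp P hP hc => ?_
  have := Fact.mk hp
  obtain ⟨D, hD, h1, h2, h3⟩ := h p hp P hP.le hP.isPGroup hP.not_dvd_relIndex hc
  obtain ⟨d, hd⟩ := (hP.isPGroup.to_le hD).exists_card_eq
  rw [hd] at h1 h2 h3
  exact ⟨d, Nat.pos_of_ne_zero fun h0 => by simp [h0] at h1, h2, h3⟩

end Cfsg.Agent.S3032
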