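import Cfsg.Statements.S3044
import Cfsg.Agent.H73.Isolated

set_option autoImplicit false
open Cfsg

namespace Cfsg.Agent.S3044

open Subgroup H70 H73

/-- Let G be a finite group, p a prime, S a Sylow p-subgroup of G and P a p-minimal subgroup of G containing S (S is not normal in P and lies in exactly one maximal subgroup of P). Let L be the subgroup generated by N_G(S) and all p-minimal subgroups of G containing S other than P, and suppose P is isolated: O_p(L) is not contained in O_p(P). Put Y for the normal closure of O^p(P) in G. Then G = YL; P is again isolated in the subgroup YS (the subgroup L₀ generated by N_{YS}(S) and the p-minimal subgroups of YS containing S other than P has O_p(L₀) not contained in O_p(P)); and either Y = O^p(P), or p divides |Y/O_p(Y)|, Y/O_p(Y) is generated by its components (a central product of quasisimple groups), and S permutes these components transitively by conjugation. -/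
theorem result {G : Type*} [Group G] [Finite G] {p : ℕ} [Fact p.Prime] (S : Sylow p G) (P : Subgroup G) (hSP : (S : Subgroup G) ≤ P) (hPmin : Cfsg.IsPMinimal p ↥P)
    (L Y : Subgroup G)
    (hL : L = Subgroup.normalizer ((S : Subgroup G) : Set G) ⊔ ⨆ P' : {P' : Subgroup G // (S : Subgroup G) ≤ P' ∧ Cfsg.IsPMinimal p ↥P' ∧ P' ≠ P}, (P' : Subgroup G))
    (hiso : ¬ (Cfsg.pCore p ↥L).map L.subtype ≤ (Cfsg.pCore p ↥P).map P.subtype)
    (hY : Y = Subgroup.normalClosure (((Cfsg.pResidual p ↥P).map P.subtype : Subgroup G) : Set G)) :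
    Y ⊔ L = ⊤ ∧
    ¬ (Cfsg.pCore p ↥((Subgroup.normalizer ((S : Subgroup G) : Set G) ⊓ (Y ⊔ (S : Subgroup G))) ⊔
          ⨆ P' : {P' : Subgroup G // (S : Subgroup G) ≤ P' ∧ P' ≤ Y ⊔ (S : Subgroup G) ∧ Cfsg.IsPMinimal p ↥P' ∧ P' ≠ P}, (P' : Subgroup G))).map
        (Subgroup.subtype _) ≤ (Cfsg.pCore p ↥P).map P.subtype ∧
    ((Cfsg.pResidual p ↥P).map P.subtype = Y ∨
     ∃ _ : (Cfsg.pCore p ↥Y).Normal,
       p ∣ Nat.card (↥Y ⧸ Cfsg.pCore p ↥Y) ∧ Cfsg.layer (↥Y ⧸ Cfsg.pCore p ↥Y) = ⊤ ∧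
       ∀ K₁ K₂ : Subgroup (↥Y ⧸ Cfsg.pCore p ↥Y), Cfsg.IsComponent K₁ → Cfsg.IsComponent K₂ →
         ∃ s ∈ (S : Subgroup G), ((K₂.comap (QuotientGroup.mk' (Cfsg.pCore p ↥Y))).map Y.subtype) = (((K₁.comap (QuotientGroup.mk' (Cfsg.pCore p ↥Y))).map Y.subtype)).map (MulAut.conj s).toMonoidHom) := by
  obtain ⟨h, hsup, hnp⟩ := isol_of S hSP hPmin hL hiso hY
  refine ⟨hsup, fun h1 => hiso (le_trans ?_ h1), ?_⟩
  · refine pCoreOf_le_of_le ?_ (h.AS.trans (le_sup_of_le_left (le_inf le_normalizer le_sup_right)))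
    rw [hL]
    exact sup_le_sup inf_le_left (iSup_le fun P' => le_iSup (fun P' : {P' : Subgroup G //
      (S : Subgroup G) ≤ P' ∧ IsPMinimal p P' ∧ P' ≠ P} => (P' : Subgroup G))
      ⟨P', P'.2.1, P'.2.2.2⟩)
  have := h.normal
  have hQn : (pCoreOf p Y).Normal := normal_of_top_le_norm (norm_pCoreOf norm_of_normal)
  let f := QuotientGroup.mk' (pCoreOf p Y)
  have hk : f.ker = pCoreOf p Y := QuotientGroup.ker_mk' _
  have h1 := h.map f (QuotientGroup.mk'_surjective _) (fun h1 =>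
    hnp ((pCoreOf_isPGroup Y).to_le (hk ▸ h1)))
  have hO : pCoreOf p (Y.map f) = ⊥ := by
    rw [← map_pCoreOf_of_ker _ _ ((pCoreOf_isPGroup Y).to_le (inf_le_left.trans hk.le)),
      QuotientGroup.map_mk'_self]
  by_cases hd : p ∣ Nat.card (Y.map f)
  swap
  · obtain ⟨t, ht, htp, hY'⟩ := h1.of_not_dvd hd
    have := Fact.mk ht
    have h2 := (h1.of_isPGroup htp hY').ge
    rw [Subgroup.map_le_map_iff, hk] at h2
    exact Or.inl (eq_of_le_sup hY (pCoreOf_isPGroup Y) ((le_sylIn_of_norm (H92.sylIn_top S) le_top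
      (pCoreOf_isPGroup Y) norm_of_normal).trans hSP) h2)
  obtain ⟨e, he⟩ := exists_equiv_map f (pCore p Y) hk
  let φ := (Y.map f).subtype.comp e.toMonoidHom
  have hφ : Function.Injective φ := (Y.map f).subtype_injective.comp e.injective
  have hφt : (⊤ : Subgroup _).map φ = Y.map f := by
    rw [← map_map, map_top_of_surjective _ e.surjective, map_subtype_top]
  have hK : ∀ K : Subgroup (Y ⧸ pCore p Y),
      (K.comap (QuotientGroup.mk' (pCore p Y))).map Y.subtype = (K.map φ).comap f := fun K => by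
    ext x
    constructor
    · rintro ⟨y, hy, rfl⟩
      exact ⟨_, hy, he y⟩
    · rintro ⟨y, hy, h2⟩
      obtain ⟨y, rfl⟩ := QuotientGroup.mk'_surjective _ y
      obtain ⟨z, hz, h3⟩ : (y : G)⁻¹ * x ∈ pCoreOf p Y := QuotientGroup.eq.1 ((he y).symm.trans h2)
      refine ⟨y * z, ?_, by simp [show (z : G) = _ from h3]⟩
      change QuotientGroup.mk' _ (y * z) ∈ K
      rwa [map_mul, show QuotientGroup.mk' (pCore p Y) z = 1 from (QuotientGroup.eq_one_iff _).2 hz,
        mul_one]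
  refine Or.inr ⟨inferInstance, by rwa [Nat.card_congr e.toEquiv], ?_, fun K₁ K₂ h2 h3 => ?_⟩
  · refine map_injective hφ ?_
    rw [← H44.Eof_top, H44.map_Eof_inj _ hφ, hφt, h1.Eof_eq hO hd]
  · obtain ⟨_, ⟨s, hs, rfl⟩, h4⟩ := h1.trans hO hd (hφt ▸ (H44.comp_top_iff.2 h2).map_inj φ hφ)
      (hφt ▸ (H44.comp_top_iff.2 h3).map_inj φ hφ)
    refine ⟨s, hs, ?_⟩
    rw [hK, hK, h4]
    ext x
    rw [mem_comap, mem_cj, mem_cj, mem_comap, map_mul, map_mul, map_inv]
end Cfsg.Agent.S3044
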