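import Cfsg.Statements.S3045
import Cfsg.Agent.H73.Isolated

set_option autoImplicit false
open Cfsg

namespace Cfsg.Agent.S3045

open Subgroup H70 H73

/-- Let G be a finite group, p a prime, S a Sylow p-subgroup of G and P a p-minimal subgroup of G containing S. Let L be the subgroup generated by N_G(S) and all p-minimal subgroups of G containing S other than P, and suppose O_p(L) is not contained in O_p(P). Put Y for the normal closure of O^p(P) in G. Then O^p(P) is contained in the preimage in G of F*(G/O_p(G)); and if Y is solvable, then Y = O^p(P) and Y/O_p(Y) is a t-group of nilpotency class at most 2 for some prime t ≠ p. -/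
theorem result {G : Type*} [Group G] [Finite G] {p : ℕ} [Fact p.Prime] (S : Sylow p G) (P : Subgroup G) (hSP : (S : Subgroup G) ≤ P) (hPmin : Cfsg.IsPMinimal p ↥P)
    (L Y : Subgroup G)
    (hL : L = Subgroup.normalizer ((S : Subgroup G) : Set G) ⊔ ⨆ P' : {P' : Subgroup G // (S : Subgroup G) ≤ P' ∧ Cfsg.IsPMinimal p ↥P' ∧ P' ≠ P}, (P' : Subgroup G))
    (hiso : ¬ (Cfsg.pCore p ↥L).map L.subtype ≤ (Cfsg.pCore p ↥P).map P.subtype)
    (hY : Y = Subgroup.normalClosure (((Cfsg.pResidual p ↥P).map P.subtype : Subgroup G) : Set G)) [hn : (Cfsg.pCore p G).Normal] :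
    (Cfsg.pResidual p ↥P).map P.subtype ≤ (Cfsg.generalizedFittingSubgroup (G ⧸ Cfsg.pCore p G)).comap (QuotientGroup.mk' (Cfsg.pCore p G)) ∧
    (Group.IsSolvable ↥Y → (Cfsg.pResidual p ↥P).map P.subtype = Y ∧
       ∃ _ : (Cfsg.pCore p ↥Y).Normal, ∃ t : ℕ, t.Prime ∧ t ≠ p ∧ IsPGroup t (↥Y ⧸ Cfsg.pCore p ↥Y) ∧
         ∃ _ : Group.IsNilpotent (↥Y ⧸ Cfsg.pCore p ↥Y), Group.nilpotencyClass (↥Y ⧸ Cfsg.pCore p ↥Y) ≤ 2) := by
  obtain ⟨h, -, hnp⟩ := isol_of S hSP hPmin hL hiso hY
  refine ⟨?_, fun hs => ?_⟩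
  · have h1 := h.map (QuotientGroup.mk' (pCore p G)) (QuotientGroup.mk'_surjective _) (fun h1 =>
      hnp (pCore_isPGroup.to_le (by rwa [QuotientGroup.ker_mk'] at h1)))
    have h2 : pCoreOf p (⊤ : Subgroup (G ⧸ pCore p G)) = ⊥ := by
      rw [← map_top_of_surjective _ (QuotientGroup.mk'_surjective (pCore p G)),
        ← map_pCoreOf_of_ker _ _ (by
          rw [QuotientGroup.ker_mk']; exact pCore_isPGroup.to_le inf_le_left),
        pCoreOf_top, QuotientGroup.map_mk'_self]
    rw [← map_le_iff_le_comap]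
    refine h1.le.trans ((h1.dich3 H44.gfitting_normal (eq_bot_iff.2 (h2 ▸
      pCoreOf_le_pCoreOf_of_norm le_top norm_of_normal))).elim id fun h3 => ?_)
    exact (comm_eq_bot_iff'.1 h3).trans H44.centralizer_gfitting_le
  have := h.normal
  have hQn : (pCoreOf p Y).Normal := normal_of_top_le_norm (norm_pCoreOf norm_of_normal)
  let f := QuotientGroup.mk' (pCoreOf p Y)
  have hk : f.ker = pCoreOf p Y := QuotientGroup.ker_mk' _
  have h1 := h.map f (QuotientGroup.mk'_surjective _) (fun h1 =>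
    hnp ((pCoreOf_isPGroup Y).to_le (hk ▸ h1)))
  have hO : pCoreOf p (Y.map f) = ⊥ := by
    rw [← map_pCoreOf_of_ker _ _ ((pCoreOf_isPGroup Y).to_le (inf_le_left.trans hk.le)),
      QuotientGroup.map_mk'_self]
  have hs' : Group.IsSolvable (Y.map f) :=
    Group.isSolvable_of_surjective (f.subgroupMap_surjective Y)
  obtain ⟨t, ht, htp, hY'⟩ := h1.of_not_dvd (h1.not_dvd_of_solvable hO hs')
  have := Fact.mk ht
  have h2 := (h1.of_isPGroup htp hY').ge
  rw [Subgroup.map_le_map_iff, hk] at h2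
  obtain ⟨e, -⟩ := exists_equiv_map f (pCore p Y) hk
  have h3 : (⊤ : Subgroup (Y.map f)).lowerCentralSeries 2 = ⊥ := by
    refine map_injective (Y.map f).subtype_injective ?_
    rw [map_lowerCentralSeries, map_subtype_top, Subgroup.map_bot]
    exact h1.class_two hO hs'
  have h4 : Group.IsNilpotent (Y.map f) := hY'.isNilpotent
  refine ⟨eq_of_le_sup hY (pCoreOf_isPGroup Y) ((le_sylIn_of_norm (H92.sylIn_top S) le_top
    (pCoreOf_isPGroup Y) norm_of_normal).trans hSP) h2, inferInstance, t, ht, htp,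
    hY'.of_equiv e.symm, (hY'.of_equiv e.symm).isNilpotent, ?_⟩
  exact (Group.nilpotencyClass_le_of_surjective e.symm.toMonoidHom e.symm.surjective).trans
    (Subgroup.lowerCentralSeries_eq_bot_iff_nilpotencyClass_le.1 h3)
end Cfsg.Agent.S3045
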