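import Cfsg.Statements.S3053
import Cfsg.Agent.H3.ClassTwo
import Cfsg.Agent.H72.SylowIn
import Cfsg.Agent.H21.Quad

set_option autoImplicit false
open Cfsg

namespace Cfsg.Agent.S3053

open Subgroup Cfsg.Agent.H72
open scoped commutatorElement

variable {G : Type*} [Group G] [Finite G] {p : ℕ} [hp : Fact p.Prime]

/-- extraspecial of order `p ^ 3` with centre generated by `z` -/
structure ES (p : ℕ) (P : Subgroup G) (z : G) : Prop where
  card : Nat.card P = p ^ 3
  ord : orderOf z = p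
  mem : z ∈ P
  cen : ∀ x ∈ P, x * z = z * x
  cen' : ∀ x ∈ P, (∀ y ∈ P, y * x = x * y) → x ∈ zpowers z
  comm : ∀ x ∈ P, ∀ y ∈ P, ⁅x, y⁆ ∈ zpowers z

omit [Finite G] hp in
theorem ES.cj {P : Subgroup G} {z : G} (h : ES p P z) (g : G) : ES p (cj g P) (g * z * g⁻¹) where
  card := by rw [card_cj, h.card]
  ord := by rw [← h.ord]; exact orderOf_injective (MulAut.conj g).toMonoidHom (MulAut.conj g).injective z
  mem := conj_mem_cj h.mem
  cen := by
    rintro _ ⟨x, hx, rfl⟩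
    change g * x * g⁻¹ * _ = _ * (g * x * g⁻¹)
    simp only [conj_mul, h.cen x hx]
  cen' := by
    rintro _ ⟨x, hx, rfl⟩ h1
    rw [← cj_zpowers]
    refine conj_mem_cj (h.cen' x hx fun y hy => ?_)
    have h2 : g * y * g⁻¹ * (g * x * g⁻¹) = g * x * g⁻¹ * (g * y * g⁻¹) := h1 _ (conj_mem_cj hy)
    simpa only [conj_mul, mul_left_inj, mul_right_inj] using h2
  comm := by
    rintro _ ⟨x, hx, rfl⟩ _ ⟨y, hy, rfl⟩
    rw [← cj_zpowers, ← map_commutatorElement]
    exact conj_mem_cj (h.comm x hx y hy)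

omit [Finite G] hp in
theorem ES.commute {P : Subgroup G} {z : G} (h : ES p P z) {x w : G} (hx : x ∈ P)
    (hw : w ∈ zpowers z) : Commute x w := by
  obtain ⟨k, rfl⟩ := mem_zpowers_iff.1 hw
  exact (show Commute x z from h.cen x hx).zpow_right k

theorem ES.exists_comm {P : Subgroup G} {z : G} (h : ES p P z) {y : G} (hy : y ∈ P)
    (hyz : y ∉ zpowers z) {w : G} (hw : w ∈ zpowers z) : ∃ x ∈ P, x * y * x⁻¹ = w * y := by
  have h1 : ¬ ∀ x ∈ P, x * y = y * x := fun h1 => hyz (h.cen' y hy h1)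
  push Not at h1
  obtain ⟨x, hx, hxy⟩ := h1
  have h2 : zpowers ⁅x, y⁆ = zpowers z := by
    refine H21.eq_of_le_of_card_le (zpowers_le.2 (h.comm x hx y hy)) ?_
    have h3 := card_dvd_of_le (zpowers_le.2 (h.comm x hx y hy))
    rw [Nat.card_zpowers z, h.ord] at h3 ⊢
    rcases (Nat.dvd_prime hp.out).1 h3 with h4 | h4
    · rw [Nat.card_zpowers, orderOf_eq_one_iff, commutatorElement_eq_one_iff_mul_comm] at h4
      exact absurd h4 hxy
    · exact h4.ge
  obtain ⟨k, rfl⟩ := mem_zpowers_iff.1 (h2 ▸ hw)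
  refine ⟨x ^ k, zpow_mem hx k, ?_⟩
  rw [← H3.commutator_zpow_left_of_commute (h.commute hx (h.comm x hx y hy)), commutatorElement_def]
  group

theorem ES.cent_eq {P : Subgroup G} {z : G} (h : ES p P z) {y : G} (hy : y ∈ P)
    (hyz : y ∉ zpowers z) : P ⊓ centralizer {y} = zpowers z ⊔ zpowers y := by
  have h1 : zpowers z ⊔ zpowers y ≤ P ⊓ centralizer {y} := sup_le
    (zpowers_le.2 ⟨h.mem, mem_centralizer_singleton_iff.2 (h.cen y hy).symm⟩)
    (zpowers_le.2 ⟨hy, mem_centralizer_singleton_iff.2 rfl⟩)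
  have h2 : P ⊓ centralizer {y} < P := lt_of_le_of_ne inf_le_left fun h2 =>
    hyz (h.cen' y hy fun x hx => mem_centralizer_singleton_iff.1 (h2.ge hx).2)
  have h3 : zpowers z < zpowers z ⊔ zpowers y := lt_of_le_of_ne le_sup_left fun h3 =>
    hyz (h3.ge (mem_sup_right (mem_zpowers y)))
  refine (H21.eq_of_le_of_card_le h1 ?_).symm
  obtain ⟨i, -, hi⟩ := (Nat.dvd_prime_pow hp.out).1 (h.card ▸ card_dvd_of_le h2.le)
  obtain ⟨j, -, hj⟩ := (Nat.dvd_prime_pow hp.out).1 (h.card ▸ card_dvd_of_le (h1.trans h2.le))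
  have h4 := H21.card_lt_of_lt h2
  have h5 := H21.card_lt_of_lt h3
  rw [hi, h.card, Nat.pow_lt_pow_iff_right hp.out.one_lt] at h4
  rw [hj, Nat.card_zpowers, h.ord] at h5
  nth_rewrite 1 [← pow_one p] at h5
  rw [Nat.pow_lt_pow_iff_right hp.out.one_lt] at h5
  rw [hi, hj]
  exact Nat.pow_le_pow_right hp.out.pos (by omega)

theorem false_of_inverts (hp2 : p ≠ 2) {P : Subgroup G} {z y t : G} (h : ES p P z) (hy : y ∈ P)
    (hyz : y ∉ zpowers z) (hyp : y ^ p = 1) (ht : t ∈ normalizer (P : Set G))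
    (h1 : t * z * t⁻¹ = z⁻¹) (h2 : t * y * t⁻¹ = y⁻¹) : ∀ x ∈ P, x ^ p = 1 := by
  have hodd : Odd p := hp.out.odd_of_ne_two hp2
  have hzp : ∀ w ∈ zpowers z, w ^ p = 1 := fun w hw => by
    obtain ⟨k, rfl⟩ := mem_zpowers_iff.1 hw
    rw [← zpow_natCast, ← zpow_mul, mul_comm, zpow_mul, zpow_natCast, ← h.ord, pow_orderOf_eq_one,
      one_zpow]
  have hinv : ∀ w ∈ zpowers z, t * w * t⁻¹ = w⁻¹ := fun w hw => by
    obtain ⟨k, rfl⟩ := mem_zpowers_iff.1 hw
    rw [← conj_zpow, h1, inv_zpow]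
  have hA : IsElementaryAbelian p (zpowers z ⊔ zpowers y) := H21.isElementaryAbelian_sup
    (H21.isElementaryAbelian_zpowers (hzp z (mem_zpowers z))) (H21.isElementaryAbelian_zpowers hyp)
    (zpowers_le.2 (H21.mem_centralizer_zpowers.2 (h.cen y hy).symm))
  intro x hx
  have hx' : t * x * t⁻¹ ∈ P := conj_mem_of_mem_normalizer ht hx
  set x' := t * x * t⁻¹ with hx'def
  have h3 : ⁅x', y⁆ = ⁅x, y⁆ := by
    have h4 : ⁅x', y⁻¹⁆ = ⁅x, y⁆⁻¹ := by
      rw [← h2, ← hinv _ (h.comm x hx y hy), hx'def]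
      simp only [commutatorElement_def]; group
    have h5 := H3.commutator_zpow_right_of_commute (h.commute hy (h.comm x' hx' y hy)) (-1)
    rw [zpow_neg_one, zpow_neg_one, h4] at h5
    exact (inv_injective h5).symm
  have h4 : x⁻¹ * x' ∈ P ⊓ centralizer {y} := ⟨mul_mem (P.inv_mem hx) hx', by
    change _ ∈ centralizer _
    rw [mem_centralizer_singleton_iff]
    have h5 : x' * y * x'⁻¹ = x * y * x⁻¹ := by
      simpa only [commutatorElement_def, mul_left_inj] using h3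
    calc x⁻¹ * x' * y = x⁻¹ * (x' * y * x'⁻¹) * x' := by group
      _ = _ := by rw [h5]; group⟩
  have h5 := hA.2 _ (h.cent_eq hy hyz ▸ h4)
  have h6 : x' ^ p = x ^ p := by
    have h7 := H3.mul_pow_of_odd_of_commute_commutator (h.commute hx (h.comm _ h4.1 x hx))
      (h.commute h4.1 (h.comm _ h4.1 x hx)) hodd (hzp _ (h.comm _ h4.1 x hx))
    rwa [h5, mul_one, mul_inv_cancel_left] at h7
  have h7 : x ^ p ∈ zpowers z := h.cen' _ (pow_mem hx p) fun w hw => by
    have h8 := H3.commutator_pow_left_of_commute (h.commute hx (h.comm x hx w hw)) p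
    rw [hzp _ (h.comm x hx w hw), commutatorElement_eq_one_iff_mul_comm] at h8
    exact h8.symm
  have h8 := hinv _ h7
  rw [← conj_pow, ← hx'def, h6] at h8
  have h9 : (x ^ p) ^ 2 = 1 := by rw [sq]; nth_rewrite 1 [h8]; group
  exact (pow_eq_one_iff_of_coprime ((Nat.coprime_primes Nat.prime_two hp.out).2 hp2.symm)).1
    ⟨h9, hzp _ h7⟩


/-- Let p be an odd prime and G a finite group with a Sylow p-subgroup P that is extraspecial of order p³ and exponent p². Then the centre of P is strongly closed in P with respect to G: a G-conjugate of an element of Z(P) that lies in P already lies in Z(P). In particular a nontrivial central element of P is conjugate in G to no noncentral element of P. -/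
theorem result {G : Type*} [Group G] [Finite G]
    {p : ℕ} [Fact p.Prime] (hp : p ≠ 2) (P : Sylow p G) (hE : Cfsg.IsExtraspecial p ↥P)
    (hcard : Nat.card P = p ^ 3) (hexp : Monoid.exponent ↥P = p ^ 2) :
    Cfsg.IsStronglyClosed ((Subgroup.center ↥P).map (P : Subgroup G).subtype) (P : Subgroup G) := by
  have hpp : p.Prime := Fact.out
  replace hE : IsExtraspecial p (P : Subgroup G) := hE
  change IsStronglyClosed ((center (P : Subgroup G)).map (P : Subgroup G).subtype) _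
  refine ⟨map_subtype_le _, ?_⟩
  rintro _ ⟨z₀, hz₀, rfl⟩ g hg
  replace hz₀ : z₀ ∈ center (P : Subgroup G) := hz₀
  by_cases hz1 : z₀ = 1
  · rw [hz1]; simp
  have hzo : orderOf z₀ = p := by
    have h1 := Subgroup.orderOf_dvd_natCard _ hz₀
    rw [hE.2] at h1
    exact ((Nat.dvd_prime hpp).1 h1).resolve_left (mt orderOf_eq_one_iff.1 hz1)
  have hZ : zpowers z₀ = center (P : Subgroup G) := H21.eq_of_le_of_card_le (zpowers_le.2 hz₀)
    (by rw [hE.2, Nat.card_zpowers, hzo])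
  have hZ' : (center (P : Subgroup G)).map (P : Subgroup G).subtype = zpowers (z₀ : G) := by
    rw [← hZ, MonoidHom.map_zpowers]; rfl
  set z : G := z₀.1 with hz
  have h : ES p (P : Subgroup G) z :=
    ⟨hcard, by rw [hz, Subgroup.orderOf_coe, hzo], z₀.2,
      fun x hx => congrArg Subtype.val (mem_center_iff.1 hz₀ ⟨x, hx⟩),
      fun x hx h1 => hZ' ▸ ⟨⟨x, hx⟩, mem_center_iff.2 fun y => Subtype.ext (h1 y y.2), rfl⟩,
      fun x hx y hy => hZ' ▸ ⟨⁅(⟨x, hx⟩ : (P : Subgroup G)), ⟨y, hy⟩⁆, by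
        rw [← hE.1.2.2]; exact commutator_mem_commutator (mem_top _) (mem_top _), rfl⟩⟩
  rw [hZ']
  change g * z * g⁻¹ ∈ (P : Subgroup G) at hg
  change g * z * g⁻¹ ∈ _
  by_contra hyz
  set y := g * z * g⁻¹ with hy
  have hzy : z * y = y * z := (h.cen y hg).symm
  have h1 : IsSylowIn p (cj g P) (centralizer {y}) :=
    ((isSylowIn_top P).cj_of_mem (mem_top g)).of_le
      (fun x hx => mem_centralizer_singleton_iff.2 ((h.cj g).cen x hx)) le_top
  obtain ⟨c, hc, hcz⟩ := h1.exists_cj_le (P.isPGroup'.to_le (zpowers_le.2 h.mem))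
    (zpowers_le.2 (mem_centralizer_singleton_iff.2 hzy))
  have h' := (h.cj g).cj c⁻¹
  have hcy : c⁻¹ * y * c⁻¹⁻¹ = y := by
    rw [mul_assoc, inv_inv, ← mem_centralizer_singleton_iff.1 hc]; group
  rw [← hy, hcy] at h'
  have hzP' : z ∈ cj c⁻¹ (cj g P) := by
    rw [mem_cj, inv_inv]; exact hcz (conj_mem_cj (mem_zpowers z))
  have hzy' : z ∉ zpowers y := fun h2 => hyz (by
    rw [H21.eq_of_le_of_card_le (zpowers_le.2 h2) (by
      rw [Nat.card_zpowers, Nat.card_zpowers, h.ord, h'.ord])]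
    exact mem_zpowers y)
  obtain ⟨x, hx, hxy⟩ := h.exists_comm hg hyz (mem_zpowers z)
  obtain ⟨x', hx', hxz'⟩ := h'.exists_comm hzP' hzy' (inv_mem (mem_zpowers y))
  have hxz : x * z * x⁻¹ = z := by rw [h.cen x hx]; group
  have hxy' : x' * y * x'⁻¹ = y := by rw [h'.cen x' hx']; group
  set w := x * x' * x with hw
  have hwz : w * z * w⁻¹ = y⁻¹ := by
    calc w * z * w⁻¹ = x * (x' * (x * z * x⁻¹) * x'⁻¹) * x⁻¹ := by rw [hw]; group
      _ = (x * y * x⁻¹)⁻¹ * (x * z * x⁻¹) := by rw [hxz, hxz']; nth_rewrite 2 [← hxz]; group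
      _ = y⁻¹ := by rw [hxy, hxz]; group
  have hwy : w * y * w⁻¹ = z := by
    calc w * y * w⁻¹ = x * (x' * (x * y * x⁻¹) * x'⁻¹) * x⁻¹ := by rw [hw]; group
      _ = x * ((x' * z * x'⁻¹) * (x' * y * x'⁻¹)) * x⁻¹ := by rw [hxy]; group
      _ = x * (y⁻¹ * (z * y)) * x⁻¹ := by rw [hxz', hxy']; group
      _ = z := by rw [hzy, inv_mul_cancel_left, hxz]
  set t := w * w with ht
  have htz : t * z * t⁻¹ = z⁻¹ := by
    calc t * z * t⁻¹ = w * (w * z * w⁻¹) * w⁻¹ := by rw [ht]; group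
      _ = (w * y * w⁻¹)⁻¹ := by rw [hwz]; group
      _ = _ := by rw [hwy]
  have hty : t * y * t⁻¹ = y⁻¹ := by
    calc t * y * t⁻¹ = w * (w * y * w⁻¹) * w⁻¹ := by rw [ht]; group
      _ = _ := by rw [hwy, hwz]
  set A := zpowers z ⊔ zpowers y with hA
  have hAc : ∀ s, s * z = z * s → s * y = y * s → s ∈ centralizer (A : Set G) := fun s h2 h3 => by
    rw [hA, H21.centralizer_sup]
    exact ⟨H21.mem_centralizer_zpowers.2 h2, H21.mem_centralizer_zpowers.2 h3⟩
  have hPA : (P : Subgroup G) ≤ normalizer (A : Set G) := fun s hs =>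
    mem_normalizer_of_cj_le (by
      rw [hA, cj_sup, cj_zpowers, cj_zpowers, h.cen s hs, mul_inv_cancel_right]
      refine sup_le le_sup_left (zpowers_le.2 ?_)
      simpa [commutatorElement_def] using mul_mem (mem_sup_left (h.comm s hs y hg) : _ ∈ A)
        (mem_sup_right (mem_zpowers y)))
  have hinv : ∀ a ∈ A, t * a * t⁻¹ = a⁻¹ := fun a ha => by
    obtain ⟨u, hu, v, hv, rfl⟩ := (H21.mem_sup_of_le_normalizer (H21.le_normalizer_of_le_centralizer
      (zpowers_le.2 (H21.mem_centralizer_zpowers.2 hzy.symm)))).1 ha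
    obtain ⟨i, rfl⟩ := mem_zpowers_iff.1 hu
    obtain ⟨j, rfl⟩ := mem_zpowers_iff.1 hv
    rw [← conj_mul, ← conj_zpow, ← conj_zpow, htz, hty, inv_zpow, inv_zpow, ← mul_inv_rev,
      ((show Commute y z from hzy.symm).zpow_zpow j i).eq]
  have htL : cj t P ≤ centralizer (A : Set G) ⊔ P := by
    rintro _ ⟨s, hs, rfl⟩
    have h2 : t * s * t⁻¹ * s⁻¹ ∈ centralizer (A : Set G) := fun a ha => by
      have h3 := hinv _ (inv_mem (conj_mem_of_mem_normalizer' (hPA hs) ha))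
      have h4 := hinv _ (inv_mem ha)
      rw [inv_inv] at h3 h4
      calc a * (t * s * t⁻¹ * s⁻¹) = (t * a⁻¹ * t⁻¹) * (t * s * t⁻¹ * s⁻¹) := by rw [h4]
        _ = t * s * t⁻¹ * (t * (s⁻¹ * a * s)⁻¹ * t⁻¹) * s⁻¹ := by group
        _ = _ := by rw [h3]; group
    simpa using mul_mem (mem_sup_left h2 : _ ∈ centralizer (A : Set G) ⊔ P) (mem_sup_right hs)
  obtain ⟨l, hl, h2⟩ := (((isSylowIn_top P).cj_of_mem (mem_top t)).of_le htL le_top).exists_cj_eq
    (isSylowIn_sylow P le_sup_right)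
  obtain ⟨s, hs, c', hc', rfl⟩ := (H21.mem_sup_of_le_normalizer' (X := (P : Subgroup G))
    (H21.le_normalizer_centralizer hPA)).1 (sup_comm (centralizer (A : Set G)) _ ▸ hl)
  have h3 : c' * t ∈ normalizer ((P : Subgroup G) : Set G) := by
    rw [← cj_eq_iff, cj_mul, ← cj_inj s, ← cj_mul, h2, cj_eq_of_mem hs]
  have h4 : ∀ a ∈ A, c' * t * a * (c' * t)⁻¹ = a⁻¹ := fun a ha => by
    calc c' * t * a * (c' * t)⁻¹ = c' * (t * a * t⁻¹) * c'⁻¹ := by group
      _ = _ := by rw [hinv a ha, ← hc' _ (inv_mem ha)]; group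
  have h5 := false_of_inverts hp h hg hyz (h'.ord ▸ pow_orderOf_eq_one y) h3
    (h4 z (mem_sup_left (mem_zpowers z))) (h4 y (mem_sup_right (mem_zpowers y)))
  have h6 : Monoid.exponent P ∣ p := Monoid.exponent_dvd_of_forall_pow_eq_one fun x =>
    Subtype.ext (h5 x x.2)
  replace h6 : p ^ 2 ∣ p := hexp ▸ h6
  have := Nat.le_of_dvd hpp.pos h6
  have := hpp.one_lt
  nlinarith

end Cfsg.Agent.S3053
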