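import Cfsg.Statements.S3054
import Cfsg.Agent.H20.Exs3

set_option autoImplicit false
open Cfsg

namespace Cfsg.Agent.S3054

open Subgroup Cfsg.Agent.H49 Cfsg.Agent.H20

theorem exists_aut {B : Type*} [Group B] [Finite B] {p : ℕ} [hp : Fact p.Prime]
    (hB : Nat.card B = p ^ 2) {a z : B} (ha : orderOf a = p) (hz : z ∉ zpowers a) :
    ∃ φ : MulAut B, orderOf φ = p ∧ φ a = a ∧ ∃ b ∈ zpowers a, b ≠ 1 ∧ φ z = z * b := by
  let _ := IsPGroup.commGroupOfCardEqPrimeSq hB
  have c1 : Nat.card (zpowers a) = p := by rw [Nat.card_zpowers, ha]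
  have c2 : Nat.card (B ⧸ zpowers a) = p := by
    have := (zpowers a).card_eq_card_quotient_mul_card_subgroup
    rw [hB, c1, pow_two] at this
    exact (Nat.eq_of_mul_eq_mul_right hp.out.pos this).symm
  let χ : B →* B := (zpowers a).subtype.comp
    ((mulEquivOfPrimeCardEq c2 c1).toMonoidHom.comp (QuotientGroup.mk' _))
  have h1 : ∀ u, χ u ∈ zpowers a := fun u => Subtype.property _
  have h2 : ∀ u, χ u = 1 ↔ u ∈ zpowers a := fun u => by simp [χ]
  have h3 : ∀ u, χ (χ u) = 1 := fun u => (h2 _).2 (h1 u)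
  let φ : MulAut B :=
    { toFun := fun u => u * χ u
      invFun := fun u => u * (χ u)⁻¹
      left_inv := fun u => by simp [h3]
      right_inv := fun u => by simp [h3]
      map_mul' := fun u v => by rw [map_mul, mul_mul_mul_comm] }
  have h4 : ∀ (j : ℕ) u, (φ ^ j) u = u * χ u ^ j := fun j u => by
    induction j with
    | zero => simp
    | succ j ih =>
      rw [pow_succ', MulAut.mul_apply, ih]
      show u * χ u ^ j * χ (u * χ u ^ j) = _
      rw [map_mul, map_pow, h3, pow_succ]; simp [mul_assoc]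
  have h5 : χ z ≠ 1 := fun e => hz ((h2 z).1 e)
  refine ⟨φ, orderOf_eq_prime (MulEquiv.ext fun u => ?_) fun e => h5 ?_, ?_, _, h1 z, h5, rfl⟩
  · rw [h4, ← ha, orderOf_dvd_iff_pow_eq_one.1 (orderOf_dvd_of_mem_zpowers (h1 u))]
    simp
  · simpa [e] using (h4 1 z).symm
  · show a * χ a = a
    rw [(h2 a).2 (mem_zpowers a), mul_one]

/-- Let p be an odd prime and G a finite group with a Sylow p-subgroup P that is extraspecial of order p³ and exponent p. Suppose P contains three distinct subgroups A of order p² (each is elementary abelian of rank 2) such that every automorphism of A of order p is induced by conjugation by an element of G; equivalently the automorphism group induced on A by its normalizer contains the special linear group of A. Then p ≤ 13. -/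
theorem result {G : Type*} [Group G] [Finite G]
    {p : ℕ} [Fact p.Prime] (hp : p ≠ 2) (P : Sylow p G) (hE : Cfsg.IsExtraspecial p ↥P)
    (hcard : Nat.card P = p ^ 3) (hexp : Monoid.exponent ↥P = p)
    (A : Fin 3 → Subgroup G) (hA : Function.Injective A) (hAP : ∀ i, A i ≤ (P : Subgroup G))
    (hAcard : ∀ i, Nat.card ↥(A i) = p ^ 2)
    (hSL : ∀ i, ∀ φ : MulAut ↥(A i), orderOf φ = p → ∃ g : G, ∀ a : ↥(A i), (φ a : G) = g * (a : G) * g⁻¹) :
    p ≤ 13 := by
  obtain ⟨z, κ, h⟩ := exists_exs (P : Subgroup G) hE hcard hexp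
  have pr : p.Prime := Fact.out
  have cz : Nat.card (zpowers z) = p := by
    rw [Nat.card_zpowers, orderOf_eq_prime (h.pw z h.mem) h.ne]
  have nle : ∀ i, ¬ A i ≤ zpowers z := fun i hle => by
    have := card_le_of_le hle
    rw [hAcard, cz, pow_two] at this
    have := pr.two_le
    nlinarith
  have nz : ∀ B : Subgroup G, B ≤ P → B ≤ 𝒩(zpowers z) := fun B hB =>
    le_norm_iff.2 fun x hx w hw => h.conj_mem (le_normalizer (hB hx)) hw
  have hz : ∀ i, zpowers z ≤ A i := fun i => by
    refine (inf_eq_bot_or_le_of_prime_card (cz ▸ pr) (A i)).resolve_left fun e => nle i ?_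
    have e1 : A i ⊔ zpowers z = P := eq_of_le_of_card_eq (sup_le (hAP i) h.zp_le) (by
      rw [card_sup_of_disjoint (Or.inl (nz _ (hAP i))) (by simpa [inf_comm] using e), hAcard, cz,
        ← pow_succ]
      exact hcard.symm)
    intro x hx
    refine (h.cen x (hAP i hx)).1 fun y hy => mem_cent1.1 ((e1.ge.trans (sup_le ?_ ?_)) hy)
    · exact fun u hu => mem_cent1.2 (congrArg Subtype.val
        ((IsPGroup.commGroupOfCardEqPrimeSq (hAcard i)).mul_comm ⟨u, hu⟩ ⟨x, hx⟩))
    · exact fun u hu => mem_cent1.2 (h.cen' hu (hAP i hx)).symm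
  choose a ha haz using fun i => SetLike.not_le_iff_exists.1 (nle i)
  have oa : ∀ i, orderOf (a i) = p := fun i =>
    orderOf_eq_prime (h.pw _ (hAP i (ha i))) fun e => haz i (e ▸ one_mem _)
  have d : ∀ i, zpowers (a i) ⊓ zpowers z = ⊥ := fun i =>
    (eq_bot_or_eq_of_prime_card (K := zpowers (a i)) (by rw [Nat.card_zpowers, oa]; exact pr)
      inf_le_left).resolve_right fun e => haz i (e.ge (mem_zpowers _)).2
  have eA : ∀ i, zpowers (a i) ⊔ zpowers z = A i := fun i =>
    eq_of_le_of_card_eq (sup_le (zpowers_le.2 (ha i)) (hz i)) (by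
      rw [card_sup_of_disjoint (Or.inl (nz _ (zpowers_le.2 (hAP i (ha i))))) (d i), hAcard, cz,
        Nat.card_zpowers, oa, pow_two])
  have := h.bound P.not_dvd_index (fun i => ⟨a i, hAP i (ha i)⟩) haz (fun i => ?_)
    (fun i j ⟨k, hk⟩ => hA (eq_of_le_of_card_eq ?_ ((hAcard j).trans (hAcard i).symm)).symm)
    (by simp)
  · omega
  · obtain ⟨φ, h1, h2, b, hb, b1, h3⟩ := exists_aut (hAcard i) (a := ⟨a i, ha i⟩)
      (z := ⟨z, hz i (mem_zpowers z)⟩) ((orderOf_mk _ _).trans (oa i)) fun ⟨k, hk⟩ =>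
        h.ne (mem_bot.1 (d i ▸ ⟨⟨k, congrArg Subtype.val hk⟩, mem_zpowers z⟩))
    obtain ⟨g, hg⟩ := hSL i φ h1
    obtain ⟨k, hk⟩ := hb
    exact ⟨g, b, ⟨k, congrArg Subtype.val hk⟩, fun e => b1 (Subtype.ext e),
      (hg _).symm.trans (congrArg Subtype.val h2), (hg _).symm.trans (congrArg Subtype.val h3)⟩
  · rw [← inv_mul_eq_one, ← map_pow, ← map_inv, ← map_mul, h.ker] at hk
    rw [← eA j]
    refine sup_le (zpowers_le.2 ?_) (hz i)
    simpa using mul_mem (pow_mem (ha i) k) (inv_mem (hz i hk))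

end Cfsg.Agent.S3054
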