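import Cfsg.Statements.S3055
import Cfsg.Agent.H20.Exs3

set_option autoImplicit false
open Cfsg

namespace Cfsg.Agent.S3055

open Subgroup Cfsg.Agent.H49 Cfsg.Agent.H20 Multiplicative

theorem vec_inj {F : Type*} [Field F] {x y : OnePoint F} {c : F} (h : vec x = c • vec y) :
    x = y := by
  have h0 := congrFun h 0
  have h1 := congrFun h 1
  cases x <;> cases y <;> simp [vec] at h0 h1
  · rfl
  · simp [← h1] at h0
  · rw [h0, ← h1, one_mul]

theorem low_of_conj {G : Type*} [Group G] [Finite G] {p : ℕ} [hp : Fact p.Prime]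
    {P : Subgroup G} {z : G} {κ : P →* Multiplicative (Fin 2 → ZMod p)} (h : Exs P z κ)
    (hS : ¬ p ∣ P.index) {x g : G} (hx : x ∈ P) (hxz : x ∉ zpowers z) (hg : g * x * g⁻¹ = z) :
    Low z x := by
  have pP : IsPGroup p P := fun x => ⟨1, Subtype.ext (by simpa using h.pw x x.2)⟩
  have hP : P ≤ 𝒞[z] := fun x hx => mem_cent1.2 (h.cen' (mem_zpowers z) hx)
  have h1 : cj g (zpowers z) ≤ 𝒞[g * x * g⁻¹] := by
    rw [← cj_cent1]
    exact cj_mono g (zpowers_le.2 (mem_cent1.2 (h.cen' (mem_zpowers z) hx).symm))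
  rw [hg] at h1
  obtain ⟨c, hc, e⟩ := sylowOf_subJ (P := P) (M := 𝒞[z]) (X := cj g (zpowers z))
    ((sylowOf_iff hp.out).2 ⟨hP, pP, fun hd => hS (hd.trans (relIndex_dvd_index_of_le hP))⟩) h1
    (isPi_of_isPGroup hp.out (isPGroup_cj.2 (pP.to_le h.zp_le)))
  rw [cj_cj, cj_zpowers, zpowers_le] at e
  have e1 : c * g * x * (c * g)⁻¹ = z := by
    calc c * g * x * (c * g)⁻¹ = c * (g * x * g⁻¹) * c⁻¹ := by group
      _ = z := by rw [hg, mem_cent1.1 hc, mul_inv_cancel_right]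
  generalize c * g = k at e e1
  obtain ⟨u, hu, e2⟩ := h.exists_u e (fun hw => hxz (by
    have := zpowers_eq_of_prime (h.pw z h.mem) hw fun e' => h.ne (conj_eq_one_iff.1 e')
    rw [← conj_mem_cj (g := k), cj_zpowers, this, e1]
    exact mem_zpowers z)) 1
  refine ⟨k⁻¹ * u * k, x, mem_zpowers _, fun e => hxz (by rw [e]; exact one_mem _), ?_, ?_⟩
  · calc k⁻¹ * u * k * x * (k⁻¹ * u * k)⁻¹ = k⁻¹ * (u * (k * x * k⁻¹) * u⁻¹) * k := by group
      _ = k⁻¹ * (k * x * k⁻¹) * k := by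
        rw [e1, h.cen' (mem_zpowers z) hu, mul_inv_cancel_right]
      _ = _ := by group
  · calc k⁻¹ * u * k * z * (k⁻¹ * u * k)⁻¹ = k⁻¹ * (u * (k * z * k⁻¹) * u⁻¹) * k := by group
      _ = k⁻¹ * (k * z * k⁻¹ * (k * x * k⁻¹)) * k := by rw [e2, e1, zpow_one]
      _ = _ := by group

/-- Let p be an odd prime and G a finite group with a Sylow p-subgroup P that is extraspecial of order p³ and exponent p. If all nonidentity elements of P are conjugate in G, then p ≤ 7. -/
theorem result {G : Type*} [Group G] [Finite G]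
    {p : ℕ} [Fact p.Prime] (hp : p ≠ 2) (P : Sylow p G) (hE : Cfsg.IsExtraspecial p ↥P)
    (hcard : Nat.card P = p ^ 3) (hexp : Monoid.exponent ↥P = p)
    (hconj : ∀ x y : ↥P, x ≠ 1 → y ≠ 1 → ∃ g : G, g * (x : G) * g⁻¹ = (y : G)) :
    p ≤ 7 := by
  obtain ⟨z, κ, h⟩ := exists_exs (P : Subgroup G) hE hcard hexp
  have pr : p.Prime := Fact.out
  choose a ha using fun y : OnePoint (ZMod p) => h.surj (ofAdd (vec y))
  have haz : ∀ y, (a y).1 ∉ zpowers z := fun y e =>
    vec_ne y (congrArg toAdd ((ha y).symm.trans ((h.ker _).2 e)))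
  have : Fintype (OnePoint (ZMod p)) := Fintype.ofFinite _
  have hc : Fintype.card (OnePoint (ZMod p)) = p + 1 := by
    rw [← Nat.card_eq_fintype_card, H28.card_onePoint, Nat.card_zmod]
  have hl : ∀ y, Low z (a y) := fun y => by
    obtain ⟨g, hg⟩ := hconj (a y) ⟨z, h.mem⟩ (fun e => haz y (by rw [e]; exact one_mem _))
      fun e => h.ne (congrArg Subtype.val e)
    exact low_of_conj h P.not_dvd_index (a y).2 (haz y) hg
  have hne : ∀ i j, (∃ k : ℕ, κ (a j) = κ (a i) ^ k) → i = j := fun i j ⟨k, hk⟩ => by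
    rw [ha, ha] at hk
    refine (vec_inj (c := (k : ZMod p)) ?_).symm
    rw [Nat.cast_smul_eq_nsmul]
    exact congrArg toAdd hk
  have := h.bound P.not_dvd_index a haz hl hne (by have := pr.two_le; omega)
  omega

end Cfsg.Agent.S3055
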