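import Cfsg.Statements.S3059
import Cfsg.Agent.H69.StrongEmb
import Cfsg.Agent.H3.PResidual

set_option autoImplicit false
open Cfsg

namespace Cfsg.Agent.S3059

open Subgroup Cfsg.Agent.H69

/-- Let p be a prime and H a strongly p-embedded subgroup of the finite group G in the classical sense: H is proper, p divides the order of H, and H ∩ gHg⁻¹ has order prime to p for every g outside H. Then for every normal subgroup N of G of order divisible by p, G = H · O^p(N), where O^p(N) is the subgroup generated by the elements of N of order prime to p. -/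
theorem result {G : Type*} [Group G] [Finite G]
    (p : ℕ) [Fact p.Prime] (H : Subgroup G) (hH : H ≠ ⊤) (hpH : p ∣ Nat.card H)
    (hse : ∀ g : G, g ∉ H → ¬ p ∣ Nat.card ↥(H ⊓ H.map (MulAut.conj g).toMonoidHom))
    (N : Subgroup G) [N.Normal] (hN : p ∣ Nat.card N) :
    H ⊔ Subgroup.closure {g : G | g ∈ N ∧ (orderOf g).Coprime p} = ⊤ := by
  have hs : IsStronglyPEmbedded p H := isStronglyPEmbedded_iff_inf.2 ⟨hH, hpH, hse⟩
  obtain ⟨P, hP⟩ := spe_exists_sylow_le hs
  have h1 : SylOf p ((P : Subgroup G) ⊓ N) N :=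
    (sylOf_top P).inf_normal le_top (by rw [normalizer_eq_top])
  rw [eq_top_iff]
  intro g _
  obtain ⟨m, hm, n, hn, rfl⟩ := spe_exists_mul_normal hs hN g
  refine mul_mem (mem_sup_left hm) ?_
  obtain ⟨u, hu, w, hw, h⟩ := H3.exists_mul_pResidual h1.toSylow ⟨n, hn⟩
  have h2 : n = u * w := congrArg Subtype.val h
  rw [h2]
  refine mul_mem (mem_sup_left (hP ?_)) (mem_sup_right ?_)
  · rw [h1.coe_toSylow, mem_subgroupOf] at hu
    exact hu.1
  · have : pResidual p N ≤
        (Subgroup.closure {g : G | g ∈ N ∧ (orderOf g).Coprime p}).comap N.subtype := by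
      rw [H3.pResidual_le_iff]
      intro x hx
      exact subset_closure ⟨x.2, by rwa [coe_subtype, Subgroup.orderOf_coe]⟩
    exact this hw

end Cfsg.Agent.S3059
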