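import Cfsg.Statements.S3064
import Cfsg.Agent.S0035
import Cfsg.Agent.H2.Basic
import Cfsg.Agent.H22.Core
import Cfsg.Agent.H72.SylowIn
import Cfsg.Agent.H21.PAct

set_option autoImplicit false
open Cfsg

namespace Cfsg.Agent.S3064

open Subgroup Cfsg.Agent.H72

theorem aux {p : ℕ} [hp : Fact p.Prime] (G : Type*) [Group G] [Finite G] : ∀ x : G,
    IsPGroup p (zpowers x) → (∀ (P : Subgroup G) (g : G), IsPGroup p P → x ∈ P → g * x * g⁻¹ ∈ P →
      g * x * g⁻¹ = x) →
    (∀ H : Subgroup G, (Nat.card H).Coprime p → (∀ h ∈ H, x * h * x⁻¹ ∈ H) →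
      ∀ h ∈ H, x * h = h * x) → x ∈ center G := by
  refine H2.card_induction (P := fun G _ _ => ∀ x : G,
    IsPGroup p (zpowers x) → (∀ (P : Subgroup G) (g : G), IsPGroup p P → x ∈ P → g * x * g⁻¹ ∈ P →
      g * x * g⁻¹ = x) →
    (∀ H : Subgroup G, (Nat.card H).Coprime p → (∀ h ∈ H, x * h * x⁻¹ ∈ H) →
      ∀ h ∈ H, x * h = h * x) → x ∈ center G) G ?_
  intro G _ _ ih x hx hU hb
  by_contra hxZ
  have hsub : ∀ H : Subgroup G, H ≠ ⊤ → x ∈ H → H ≤ centralizer {x} := fun H hH hxH h hh => by
    have h1 := ih H (by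
        simpa using H21.card_lt_of_lt (lt_top_iff_ne_top.2 hH)) ⟨x, hxH⟩
      (by
        have := hx.comap_of_injective H.subtype H.subtype_injective
        exact this.to_le (zpowers_le.2 (mem_zpowers x)))
      (fun P g hP h1 h2 => Subtype.ext (hU (P.map H.subtype) g (hP.map _) ⟨_, h1, rfl⟩ ⟨_, h2, rfl⟩))
      (fun K hK h1 k hk => Subtype.ext (hb (K.map H.subtype)
        (by rwa [card_map_of_injective H.subtype_injective])
        (by rintro _ ⟨y, hy, rfl⟩; exact ⟨_, h1 y hy, rfl⟩) k ⟨k, hk, rfl⟩))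
    exact mem_centralizer_singleton_iff.2 (congrArg Subtype.val (mem_center_iff.1 h1 ⟨h, hh⟩))
  set C := centralizer ({x} : Set G) with hC
  have hZC : center G ≤ C := center_le_centralizer _
  have hxC : x ∈ C := mem_centralizer_singleton_iff.2 rfl
  let π := QuotientGroup.mk' (center G)
  have hmem : ∀ g, π g ∈ C.map π ↔ g ∈ C := fun g => by
    rw [← mem_comap, comap_map_eq, QuotientGroup.ker_mk', sup_eq_left.2 hZC]
  have hCtop : C ≠ ⊤ := fun h => hxZ (mem_center_iff.2 fun g =>
    mem_centralizer_singleton_iff.1 (h.ge (mem_top g)))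
  obtain ⟨K, -, hKn, hK⟩ := S0035.result (C.map π) ⟨fun h => hxZ (by
      have := h.le ((hmem x).2 hxC)
      rwa [mem_bot, QuotientGroup.mk'_apply, QuotientGroup.eq_one_iff] at this),
    fun h => hCtop (eq_top_iff.2 fun g _ => (hmem g).1 (h.ge (mem_top _))), by
      intro g hg
      obtain ⟨g, rfl⟩ := QuotientGroup.mk'_surjective _ g
      rw [eq_bot_iff]
      rintro _ ⟨⟨c, hc, rfl⟩, h2⟩
      replace h2 := mem_pointwise_smul_iff_inv_smul_mem.1 h2
      have h3 : g⁻¹ * c * g ∈ C := (hmem _).1 (by rw [map_mul, map_mul, map_inv]; simpa [π] using h2)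
      rw [mem_bot, QuotientGroup.mk'_apply, QuotientGroup.eq_one_iff]
      by_contra h4
      have h5 : centralizer ({c} : Set G) ≠ ⊤ := fun h => h4 (mem_center_iff.2 fun y =>
        mem_centralizer_singleton_iff.1 (h.ge (mem_top y)))
      have h6 := hsub _ h5 (mem_centralizer_singleton_iff.2
        (mem_centralizer_singleton_iff.1 hc).symm)
      have h7 : g * x * g⁻¹ ∈ C := h6 (mem_centralizer_singleton_iff.2 (by
        have := mem_centralizer_singleton_iff.1 h3
        calc g * x * g⁻¹ * c = g * (x * (g⁻¹ * c * g)) * g⁻¹ := by group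
          _ = _ := by rw [← this]; group))
      have h8 := hU (zpowers x ⊔ cj g (zpowers x)) g (H21.isPGroup_sup_of_le_normalizer hx
        (IsPGroup_cj g hx) (H21.le_normalizer_of_le_centralizer (by
          rw [cj_zpowers, zpowers_le, H21.centralizer_zpowers]; exact h7)))
        (mem_sup_left (mem_zpowers x)) (mem_sup_right (conj_mem_cj (mem_zpowers x)))
      exact hg ((hmem g).2 (mem_centralizer_singleton_iff.2 (mul_inv_eq_iff_eq_mul.1 h8)))⟩
  obtain ⟨S, hS⟩ := hx.exists_le_sylow
  have hSC : (S : Subgroup G) ≤ C := fun s hs => mem_centralizer_singleton_iff.2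
    (mul_inv_eq_iff_eq_mul.1 (hU S s S.isPGroup' (hS (mem_zpowers x))
      (mul_mem (mul_mem hs (hS (mem_zpowers x))) (inv_mem hs))))
  have hcK : (Nat.card K).Coprime p := by
    rw [← hK.index_eq_card]
    have h1 : (C.map π).index = C.index := by
      rw [index_map, QuotientGroup.ker_mk', sup_eq_left.2 hZC, QuotientGroup.range_mk', index_top,
        mul_one]
    rw [h1]
    exact ((Nat.Prime.coprime_iff_not_dvd hp.out).2 fun h =>
      S.not_dvd_index (h.trans (index_dvd_of_le hSC))).symm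
  have hB : IsPGroup p ↥((S : Subgroup G) ⊓ center G) := S.isPGroup'.to_inf_left
  have hZK : center G ≤ K.comap π := (QuotientGroup.ker_mk' (center G)).ge.trans (ker_le_comap _ _)
  have hrel : (((S : Subgroup G) ⊓ center G).relIndex (K.comap π)).Coprime p := by
    rw [← relIndex_mul_relIndex _ _ _ inf_le_right hZK]
    refine Nat.Coprime.mul_left ((Nat.Prime.coprime_iff_not_dvd hp.out).2
      ((isSylowIn_top S).inf_normal le_top (by rw [normalizer_eq_top])).not_dvd_relIndex).symm ?_
    have h1 : (center G).relIndex (K.comap π) = Nat.card K := by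
      have h2 := relIndex_ker (K.comap π) π
      rwa [QuotientGroup.ker_mk',
        map_comap_eq_self_of_surjective (QuotientGroup.mk'_surjective _)] at h2
    rwa [h1]
  obtain ⟨n, hn⟩ := hB.exists_card_eq
  obtain ⟨L, hLn, -, hLc, hL⟩ := H22.exists_normal_complement_of_central
    ((S : Subgroup G) ⊓ center G) (K.comap π) (inf_le_right.trans hZK)
    (fun g _ z hz => (mem_center_iff.1 hz.2 g).symm) (by rw [hn]; exact hrel.symm.pow_left n)
  have hLC : L ≤ C := fun l hl => mem_centralizer_singleton_iff.2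
    (hb L (hLc ▸ hrel) (fun h hh => hLn.conj_mem h hh x) l hl).symm
  have hKC : K ≤ C.map π := by
    rw [← map_comap_eq_self_of_surjective (QuotientGroup.mk'_surjective (center G)) K, ← hL]
    exact map_mono (sup_le (inf_le_left.trans hSC) hLC)
  have h1 := hK.sup_eq_top
  rw [sup_eq_right.2 hKC] at h1
  exact hCtop (eq_top_iff.2 fun g _ => (hmem g).1 (h1.ge (mem_top _)))


/-- Let S be a Sylow p-subgroup of the finite group G and x an element of S such that (i) x is the only G-conjugate of x lying in S, and (ii) x centralizes every subgroup of order prime to p that it normalizes. Then x lies in the centre of G. -/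
theorem result {G : Type*} [Group G] [Finite G] {p : ℕ} [Fact p.Prime]
    (S : Sylow p G) (x : G) (hx : x ∈ S)
    (hU : ∀ g : G, g⁻¹ * x * g ∈ S → g⁻¹ * x * g = x)
    (hb : ∀ H : Subgroup G, (Nat.card H).Coprime p → (∀ h ∈ H, x * h * x⁻¹ ∈ H) → ∀ h ∈ H, x * h = h * x) :
    x ∈ Subgroup.center G := by
  refine aux (p := p) G x (S.isPGroup'.to_le (zpowers_le.2 hx)) (fun P g hP h1 h2 => ?_) hb
  obtain ⟨k, -, hk⟩ := (isSylowIn_top S).exists_cj_le hP le_top
  have h3 := hU k⁻¹ (by rw [inv_inv]; exact hk (conj_mem_cj h1))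
  have h4 := hU (k * g)⁻¹ (by
    have h5 : (k * g)⁻¹⁻¹ * x * (k * g)⁻¹ = k * (g * x * g⁻¹) * k⁻¹ := by group
    rw [h5]; exact hk (conj_mem_cj h2))
  simp only [inv_inv] at h3 h4
  calc g * x * g⁻¹ = k⁻¹ * (k * g * x * (k * g)⁻¹) * k := by group
    _ = k⁻¹ * (k * x * k⁻¹) * k := by rw [h4, h3]
    _ = x := by group

end Cfsg.Agent.S3064
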