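import Cfsg.Statements.S3072
import Cfsg.Agent.H73.Essential

set_option autoImplicit false
open Cfsg

namespace Cfsg.Agent.S3072

open Subgroup H72 H61 H73

/-- A strong form of the Alperin–Goldschmidt fusion Theorem. Let P be a Sylow p-subgroup of the finite group G, A a subset of P containing a nonidentity element, and g an element with g⁻¹Ag ⊆ P. Then g = c·x₁⋯xₙ·y with c ∈ C_G(A), y ∈ N_G(P) and, for each i, an element xᵢ and a subgroup Hᵢ ≤ P such that: N_P(Hᵢ) is a Sylow p-subgroup of N_G(Hᵢ); C_P(Hᵢ) ≤ Hᵢ; O_{p',p}(N_G(Hᵢ)) = Hᵢ·C_G(Hᵢ); the Sylow p-subgroups of N_G(Hᵢ)/Hᵢ are not chain-connected through nontrivial intersections (the quotient has a strongly p-embedded subgroup); xᵢ lies in O^p(Xᵢ), where Xᵢ/Hᵢ is the smallest normal subgroup of N_G(Hᵢ)/Hᵢ of order divisible by p; and (x₁⋯xᵢ₋₁)⁻¹A(x₁⋯xᵢ₋₁) ⊆ Hᵢ. -/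
theorem result {G : Type*} [Group G] [Finite G] {p : ℕ} [Fact p.Prime]
    (P : Sylow p G) (A : Set G) (hA : A ⊆ (P : Set G)) (hA1 : ∃ a ∈ A, a ≠ 1)
    (g : G) (hAg : (fun a => g⁻¹ * a * g) '' A ⊆ (P : Set G)) :
    ∃ (n : ℕ) (H X : Fin n → Subgroup G) (x : Fin n → G) (c y : G),
      c ∈ Subgroup.centralizer A ∧ y ∈ Subgroup.normalizer ((P : Subgroup G) : Set G) ∧
      g = c * (List.ofFn x).prod * y ∧
      ∀ i : Fin n,
        H i ≤ (P : Subgroup G) ∧
        ¬ p ∣ ((P : Subgroup G) ⊓ Subgroup.normalizer (H i : Set G)).relIndex (Subgroup.normalizer (H i : Set G)) ∧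
        (P : Subgroup G) ⊓ Subgroup.centralizer (H i : Set G) ≤ H i ∧
        (Cfsg.pPrimePCore p ↥(Subgroup.normalizer (H i : Set G))).map (Subgroup.normalizer (H i : Set G)).subtype =
          H i ⊔ Subgroup.centralizer (H i : Set G) ∧
        ¬ Cfsg.IsSylowChainConnected p
            (↥(Subgroup.normalizer (H i : Set G)) ⧸ (H i).subgroupOf (Subgroup.normalizer (H i : Set G))) ∧
        (H i ≤ X i ∧ X i ≤ Subgroup.normalizer (H i : Set G) ∧
          ((X i).subgroupOf (Subgroup.normalizer (H i : Set G))).Normal ∧ p ∣ (H i).relIndex (X i) ∧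
          ∀ Y : Subgroup G, H i ≤ Y → Y ≤ Subgroup.normalizer (H i : Set G) →
            (Y.subgroupOf (Subgroup.normalizer (H i : Set G))).Normal → p ∣ (H i).relIndex Y → X i ≤ Y) ∧
        x i ∈ (Cfsg.pResidual p ↥(X i)).map (X i).subtype ∧
        (fun a => (((List.ofFn x).take i.val).prod)⁻¹ * a * ((List.ofFn x).take i.val).prod) '' A ⊆ (H i : Set G) := by
  obtain ⟨y, hy, k, c, hc, hk, hg⟩ := alperin_essential (isSylowIn_top P) (closure A)
    ((closure_le _).2 hA) g⁻¹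
    (cj_closure_le_iff.2 (by rw [inv_inv]; exact hAg))
  obtain ⟨l, h1, h2⟩ := hk.exists_list
  choose T K X hE hX hAT hx using h2
  have hl : List.ofFn (fun i : Fin l.length => l[i.val]) = l := List.ofFn_getElem
  refine ⟨l.length, fun i => T i i.2, fun i => X i i.2, fun i => l[i.val], c⁻¹, y⁻¹,
    by rw [← centralizer_closure]; exact inv_mem hc, inv_mem hy, ?_, fun i => ?_⟩
  · rw [hl, h1, ← inv_inv g, hg]; group
  have h3 := hE i i.2
  have h4 := hX i i.2
  refine ⟨h3.le, h3.syl.not_dvd_relIndex, h3.cen, h3.map_pPrimePCore,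
    not_isSylowChainConnected_iff.2 ⟨_, h3.spe⟩, ⟨h4.le, h4.le',
      (normal_subgroupOf_iff_le_normalizer h4.le').2 h4.norm, h4.dvd, fun Y h5 h6 h7 h8 =>
      h4.least Y h5 h6 ((normal_subgroupOf_iff_le_normalizer h6).1 h7) h8⟩,
    inv_mem_iff.1 (hx _ _), ?_⟩
  rw [hl]
  simpa only [inv_inv] using cj_closure_le_iff.1 (hAT i i.2)
end Cfsg.Agent.S3072
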