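import Cfsg.Statements.S3074
import Cfsg.Agent.H60.Qd
import Cfsg.Agent.H73.PCube
import Cfsg.Agent.H9.SLBasic
import Cfsg.Agent.H3.Fusion

set_option autoImplicit false
open Cfsg

namespace Cfsg.Agent.S3074

open Subgroup Cfsg.Agent.H60

theorem card_qd (p : ℕ) [hp : Fact p.Prime] : Nat.card (qd p) = p ^ 3 * (p ^ 2 - 1) := by
  have h1 : Function.Surjective (qdLin p) := fun A => ⟨qdEmb p A, by
    apply Subtype.ext
    rw [qdEmb_apply]
    exact (Matrix.eta_fin_two A.1).symm⟩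
  have h2 := (qdLin p).ker.card_mul_index
  rw [index_ker, MonoidHom.range_eq_top.2 h1, card_top, card_ker_qdLin, H9.card_sl_two,
    ZMod.card] at h2
  rw [← h2]; ring

theorem unip_pow {p : ℕ} (b x y : ZMod p) (n : ℕ) :
    qdMk 1 b 0 1 x y (by simp) ^ n =
      qdMk 1 ((n : ZMod p) * b) 0 1 ((n : ZMod p) * x + ((n.choose 2 : ℕ) : ZMod p) * (b * y))
        ((n : ZMod p) * y) (by simp) := by
  induction n with
  | zero => rw [pow_zero, qdMk_one, qdMk_inj]; simp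
  | succ n ih =>
    rw [pow_succ, ih, qdMk_mul, qdMk_inj, Nat.choose_succ_succ' n 1]
    simp only [Nat.choose_one_right]
    push_cast
    refine ⟨?_, ?_, ?_, ?_, ?_, ?_⟩ <;> ring

/-- the unitriangular subgroup -/
def U (p : ℕ) : Subgroup (qd p) where
  carrier := {M | ∃ b x y, M = qdMk 1 b 0 1 x y (by simp)}
  one_mem' := ⟨0, 0, 0, qdMk_one⟩
  mul_mem' := by
    rintro _ _ ⟨b, x, y, rfl⟩ ⟨b', x', y', rfl⟩
    exact ⟨b' + b, x' + b * y' + x, y' + y, by rw [qdMk_mul, qdMk_inj]; simp⟩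
  inv_mem' := by
    rintro _ ⟨b, x, y, rfl⟩
    exact ⟨-b, b * y - x, -y, by rw [qdMk_inv, qdMk_inj]; simp⟩

theorem card_U (p : ℕ) [hp : Fact p.Prime] : Nat.card (U p) = p ^ 3 := by
  have : Nat.card (U p) = Nat.card (ZMod p × ZMod p × ZMod p) := by
    refine (Nat.card_congr (Equiv.ofBijective (fun v : ZMod p × ZMod p × ZMod p =>
      (⟨qdMk 1 v.1 0 1 v.2.1 v.2.2 (by simp), _, _, _, rfl⟩ : U p)) ⟨?_, ?_⟩)).symm
    · intro v w h
      have h1 : qdMk 1 v.1 0 1 v.2.1 v.2.2 (by simp) = qdMk 1 w.1 0 1 w.2.1 w.2.2 (by simp) :=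
        congrArg Subtype.val h
      have := qdMk_inj.1 h1
      exact Prod.ext this.2.1 (Prod.ext this.2.2.2.2.1 this.2.2.2.2.2)
    · rintro ⟨_, b, x, y, rfl⟩
      exact ⟨(b, x, y), rfl⟩
  rw [this]; simp; ring

/-- Let p be an odd prime. A Sylow p-subgroup of Qd(p), the split extension of an elementary abelian group of order p² by SL₂(p) acting naturally, is extraspecial of order p³ and exponent p. -/
theorem result (p : ℕ) [Fact p.Prime] (hp : p ≠ 2) (P : Sylow p ↥(Cfsg.qd p)) :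
    Cfsg.IsExtraspecial p ↥P ∧ Nat.card P = p ^ 3 ∧ Monoid.exponent ↥P = p := by
  have hpp : p.Prime := Fact.out
  have hcard : ∀ S : Sylow p ↥(Cfsg.qd p), Nat.card S = p ^ 3 := by
    intro S
    have h1 : ¬ p ∣ p ^ 2 - 1 := fun h => by
      have h2 : p ∣ p ^ 2 - (p ^ 2 - 1) := Nat.dvd_sub (dvd_pow_self p two_ne_zero) h
      rw [Nat.sub_sub_self (Nat.one_le_pow _ _ hpp.pos)] at h2
      exact hpp.one_lt.ne' (Nat.dvd_one.1 h2)
    have h2 : p ^ 2 - 1 ≠ 0 := fun h => h1 (h ▸ dvd_zero p)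
    rw [S.card_eq_multiplicity, card_qd, Nat.factorization_mul (pow_ne_zero _ hpp.ne_zero) h2,
      Finsupp.add_apply, Nat.factorization_eq_zero_of_not_dvd h1, hpp.factorization_pow]
    simp
  obtain ⟨S, hS⟩ := (IsPGroup.of_card (card_U p)).exists_le_sylow
  have hUS : U p = S := eq_of_le_of_card_ge hS (by rw [card_U]; exact (hcard S).le)
  obtain ⟨g, rfl⟩ := MulAction.exists_smul_eq (qd p) S P
  have hmem : ∀ x : qd p, x ∈ g • S ↔ g⁻¹ * x * g ∈ U p := fun x => by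
    rw [hUS]
    exact H3.mem_smul_sylow_iff S g x
  have hna : ∃ x y : ↥(g • S), x * y ≠ y * x := by
    refine ⟨⟨g * qdMk 1 1 0 1 0 0 (by simp) * g⁻¹, (hmem _).2 ⟨1, 0, 0, by group⟩⟩,
      ⟨g * qdMk 1 0 0 1 0 1 (by simp) * g⁻¹, (hmem _).2 ⟨0, 0, 1, by group⟩⟩, fun h => ?_⟩
    have h1 := congrArg (fun t : ↥(g • S) => g⁻¹ * (t : qd p) * g) h
    simp only [MulMemClass.coe_mul, mul_assoc, inv_mul_cancel_left, inv_mul_cancel, mul_one] at h1
    rw [qdMk_mul, qdMk_mul, qdMk_inj] at h1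
    simpa using h1.2.2.2.2.1
  refine ⟨H73.isExtraspecial_of_card_eq_cube (hcard _) hna, hcard _, ?_⟩
  obtain ⟨x, y, hxy⟩ := hna
  have : Nontrivial ↥(g • S) := ⟨⟨_, _, hxy⟩⟩
  rw [Monoid.exponent_eq_prime_iff hpp]
  intro a ha
  refine orderOf_eq_prime (Subtype.ext ?_) ha
  obtain ⟨b, x, y, h⟩ := (hmem _).1 a.2
  have h1 : (g⁻¹ * (a : qd p) * g) ^ p = 1 := by
    have h2 : ((p.choose 2 : ℕ) : ZMod p) = 0 := (ZMod.natCast_eq_zero_iff _ _).2
      (hpp.dvd_choose_self two_ne_zero (lt_of_le_of_ne hpp.two_le hp.symm))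
    rw [h, unip_pow, qdMk_one, qdMk_inj, h2]
    simp
  have h3 : (g⁻¹ * (a : qd p) * g⁻¹⁻¹) ^ p = 1 := by rwa [inv_inv]
  rw [conj_pow, mul_inv_eq_one, mul_eq_left] at h3
  exact h3

end Cfsg.Agent.S3074
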