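import Cfsg.Statements.S3075
import Cfsg.Agent.H73.PGV1

set_option autoImplicit false
open Cfsg

namespace Cfsg.Agent.S3075

open Subgroup Cfsg.Agent.H72
open scoped commutatorElement


/-- Let p be an odd prime and N a finite group with a normal elementary abelian subgroup A of order p² that is its own centralizer in N, such that N/A is isomorphic to SL₂(p) (over any field F with p elements). Then N splits over A: some subgroup U of N satisfies A ∩ U = 1 and AU = N. -/
theorem result {N : Type*} [Group N] [Finite N] {p : ℕ} [Fact p.Prime] (hp : p ≠ 2)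
    (A : Subgroup N) [A.Normal] (hAcomm : IsMulCommutative A) (hAcard : Nat.card A = p ^ 2) (hAexp : Monoid.exponent ↥A = p)
    (hAself : Subgroup.centralizer (A : Set N) = A)
    {F : Type*} [Field F] [Fintype F] (hF : Fintype.card F = p) (e : N ⧸ A ≃* Matrix.SpecialLinearGroup (Fin 2) F) :
    ∃ U : Subgroup N, A ⊓ U = ⊥ ∧ A ⊔ U = ⊤ := by
  have hpp : p.Prime := Fact.out
  have hodd : Odd p := hpp.odd_of_ne_two hp
  have hA : ∀ a ∈ A, a ^ p = 1 := fun a ha => by
    have := Monoid.pow_exponent_eq_one (⟨a, ha⟩ : A)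
    rw [hAexp] at this
    exact congrArg Subtype.val this
  have hc : ∀ {a b : N}, a ∈ A → b ∈ A → a * b = b * a := fun ha hb => H21.mul_comm_of_mem ha hb
  let π : N →* Matrix.SpecialLinearGroup (Fin 2) F := e.toMonoidHom.comp (QuotientGroup.mk' A)
  have hπ : Function.Surjective π := e.surjective.comp (QuotientGroup.mk'_surjective A)
  have hker : ∀ g, π g = 1 ↔ g ∈ A := fun g => by
    change e g = 1 ↔ _
    rw [EmbeddingLike.map_eq_one_iff, QuotientGroup.eq_one_iff]
  obtain ⟨t₀, ht₀⟩ := hπ (-1)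
  set t := t₀ ^ p with ht
  have hπt : π t = -1 := by rw [ht, map_pow, ht₀, hodd.neg_one_pow]
  have htt : t * t = 1 := by
    rw [ht, ← (Commute.refl t₀).mul_pow]
    exact hA _ ((hker _).1 (by rw [map_mul, ht₀]; simp))
  have hti : t⁻¹ = t := inv_eq_of_mul_eq_one_right htt
  have htA : t ∉ A := fun h => by
    have h1 := (hker t).2 h
    rw [hπt] at h1
    have h2 : (-1 : F) = 1 := by
      simpa using congrArg (fun M : Matrix.SpecialLinearGroup (Fin 2) F => M.1 0 0) h1
    have h3 : ((2 : ℕ) : F) = 0 := by push_cast; linear_combination -h2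
    have h4 : ((p : ℕ) : F) = 0 := by rw [← hF]; exact FiniteField.cast_card_eq_zero F
    obtain ⟨k, hk⟩ := hodd
    rw [hk] at h4
    push_cast at h3 h4
    rw [h3] at h4
    simp at h4
  obtain ⟨k, hk⟩ := hodd
  have hsq : ∀ a ∈ A, a ^ (k + 1) * a ^ (k + 1) = a := fun a ha => by
    rw [← pow_add, show k + 1 + (k + 1) = p + 1 by omega, pow_succ, hA a ha, one_mul]
  have hsup : A ⊔ centralizer {t} = ⊤ := by
    rw [eq_top_iff]
    intro g _
    have h1 : g * t * g⁻¹ * t⁻¹ ∈ A := (hker _).1 (by simp [hπt])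
    set a := g * t * g⁻¹ * t⁻¹ with ha
    have h2 : t * a * t⁻¹ = a⁻¹ := by
      rw [ha, hti]
      simp only [mul_inv_rev, inv_inv, hti]
      calc t * (g * t * g⁻¹ * t) * t = t * (g * t * g⁻¹) * (t * t) := by group
        _ = _ := by rw [htt]; group
    have h3 : t * a ^ (k + 1) * t⁻¹ = (a ^ (k + 1))⁻¹ := by rw [← conj_pow, h2, inv_pow]
    have h4 : (a ^ (k + 1))⁻¹ * g ∈ centralizer ({t} : Set N) := by
      rw [mem_centralizer_singleton_iff]
      have h5 : g * t = a * t * g := by rw [ha]; group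
      have h6 : t * (a ^ (k + 1))⁻¹ = a ^ (k + 1) * t := by
        rw [← h3, hti, ← mul_assoc, ← mul_assoc, htt, one_mul]
      rw [mul_assoc, h5, ← mul_assoc t, h6]
      nth_rewrite 2 [← hsq a h1]
      group
    simpa using mul_mem (mem_sup_left (pow_mem h1 (k + 1)) : _ ∈ A ⊔ centralizer {t})
      (mem_sup_right h4)
  refine ⟨centralizer {t}, ?_, hsup⟩
  by_contra hne
  let W : Subgroup N :=
    { carrier := {x | x ∈ A ∧ t * x * t⁻¹ = x⁻¹}
      mul_mem' := fun {a b} ha hb => ⟨mul_mem ha.1 hb.1, by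
        rw [hc ha.1 hb.1, mul_inv_rev, ← ha.2, ← hb.2, hc hb.1 ha.1]; group⟩
      one_mem' := ⟨one_mem _, by group⟩
      inv_mem' := fun {a} ha => ⟨inv_mem ha.1, by rw [← conj_inv, ha.2]⟩ }
  have hcyc : ∀ X, X < A → IsCyclic X := fun X hX => by
    have h1 := card_dvd_of_le hX.le
    rw [hAcard] at h1
    obtain ⟨i, hi, h2⟩ := (Nat.dvd_prime_pow hpp).1 h1
    have h3 := H21.card_lt_of_lt hX
    rw [h2, hAcard] at h3
    have h4 : i ≤ 1 := by have := (Nat.pow_lt_pow_iff_right hpp.one_lt).1 h3; omega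
    exact isCyclic_of_card_dvd_prime (p := p) (by rw [h2]; simpa using pow_dvd_pow p h4)
  have h1 : A ⊓ centralizer {t} < A := lt_of_le_of_ne inf_le_left fun h => htA (by
    rw [← hAself]
    intro a ha
    exact mem_centralizer_singleton_iff.1 (h.ge ha).2)
  have h2 : W < A := lt_of_le_of_ne (fun x hx => hx.1) fun h => hne (by
    rw [eq_bot_iff]
    intro x hx
    have h3 := (h.ge hx.1).2
    rw [← mem_centralizer_singleton_iff.1 hx.2, mul_inv_cancel_right] at h3
    have h4 : x * x = 1 := by nth_rewrite 1 [h3]; group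
    rw [mem_bot, ← hsq x hx.1, ← (Commute.refl x).mul_pow, h4, one_pow])
  have hn1 : ⊤ ≤ normalizer ((A ⊓ centralizer {t} : Subgroup N) : Set N) := by
    rw [← hsup]
    exact sup_le (H21.le_normalizer_of_le_comm le_rfl inf_le_left)
      (H21.le_normalizer_inf (by rw [normalizer_eq_top]; exact le_top) le_normalizer)
  have hn2 : ⊤ ≤ normalizer (W : Set N) := by
    rw [← hsup]
    refine sup_le (H21.le_normalizer_of_le_comm le_rfl h2.le) fun g hg =>
      mem_normalizer_of_conj_mem fun x hx => ⟨‹A.Normal›.conj_mem _ hx.1 g, ?_⟩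
    have h3 := mem_centralizer_singleton_iff.1 hg
    calc t * (g * x * g⁻¹) * t⁻¹ = (t * g) * x * (t * g)⁻¹ := by group
      _ = g * (t * x * t⁻¹) * g⁻¹ := by rw [← h3]; group
      _ = _ := by rw [hx.2]; group
  have h3 : ∀ g h : N, ⁅g, h⁆ ∈ A := fun g h => by
    have h4 := H73.commutator_mem_centralizer_of_isCyclic (hcyc _ h1) (hn1 (mem_top g)) (hn1 (mem_top h))
    have h5 := H73.commutator_mem_centralizer_of_isCyclic (hcyc _ h2) (hn2 (mem_top g)) (hn2 (mem_top h))
    rw [← hAself]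
    intro a ha
    set b := a ^ (k + 1) with hb
    have hbA : b ∈ A := pow_mem ha _
    have hb' : t * b * t⁻¹ ∈ A := ‹A.Normal›.conj_mem _ hbA t
    have h8 : t * (t * b * t⁻¹) * t⁻¹ = b := by
      calc t * (t * b * t⁻¹) * t⁻¹ = (t * t) * b * (t * t)⁻¹ := by group
        _ = b := by rw [htt]; group
    have h6 := h4 (b * (t * b * t⁻¹)) ⟨mul_mem hbA hb', mem_centralizer_singleton_iff.2 (by
      rw [eq_comm, ← mul_inv_eq_iff_eq_mul]
      calc t * (b * (t * b * t⁻¹)) * t⁻¹ = (t * b * t⁻¹) * (t * (t * b * t⁻¹) * t⁻¹) := by group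
        _ = _ := by rw [h8, hc hb' hbA])⟩
    have h7 := h5 (b * (t * b * t⁻¹)⁻¹) ⟨mul_mem hbA (inv_mem hb'), by
      calc t * (b * (t * b * t⁻¹)⁻¹) * t⁻¹ = (t * b * t⁻¹) * (t * (t * b * t⁻¹) * t⁻¹)⁻¹ := by group
        _ = _ := by rw [h8]; group⟩
    have h9 : a = (b * (t * b * t⁻¹)) * (b * (t * b * t⁻¹)⁻¹) := by
      rw [mul_assoc, ← mul_assoc (t * b * t⁻¹), hc hb' hbA, mul_inv_cancel_right, hsq a ha]
    rw [h9, mul_assoc, h7, ← mul_assoc, h6, mul_assoc]
  obtain ⟨g, hg⟩ := hπ ⟨!![1, 1; 0, 1], by simp [Matrix.det_fin_two]⟩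
  obtain ⟨h, hh⟩ := hπ ⟨!![1, 0; 1, 1], by simp [Matrix.det_fin_two]⟩
  have h4 := (hker _).2 (h3 g h)
  rw [map_commutatorElement, commutatorElement_eq_one_iff_mul_comm, hg, hh] at h4
  have h5 := congrArg (fun M : Matrix.SpecialLinearGroup (Fin 2) F => M.1 0 0) h4
  change (!![1, 1; 0, 1] * !![1, 0; 1, 1] : Matrix (Fin 2) (Fin 2) F) 0 0 =
    (!![1, 0; 1, 1] * !![1, 1; 0, 1] : Matrix (Fin 2) (Fin 2) F) 0 0 at h5
  simp at h5

end Cfsg.Agent.S3075
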