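import Cfsg.Statements.S3076
import Cfsg.Agent.H73.Essential

set_option autoImplicit false
open Cfsg

namespace Cfsg.Agent.S3076

open Subgroup H72 H61 H73

theorem aux {Y : Type*} [Group Y] [Finite Y] {p : ℕ} [hp : Fact p.Prime] {H R C : Subgroup Y}
    [H.Normal] [C.Normal] (hR : IsSylowIn p R ⊤) (hHR : H ≤ R) (hC : C = centralizer (H : Set Y)) :
    (H ≤ (pCore p (Y ⧸ C)).comap (QuotientGroup.mk' C) ∧
      ¬ p ∣ H.relIndex ((pCore p (Y ⧸ C)).comap (QuotientGroup.mk' C))) ↔
    (R ⊓ C ≤ H ∧ pPrimePCore p Y = H ⊔ C) := by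
  set K := (pCore p (Y ⧸ C)).comap (QuotientGroup.mk' C) with hK
  have hpH : IsPGroup p H := hR.isPGroup.to_le hHR
  have hCK : C ≤ K := fun c hc => by
    change QuotientGroup.mk' C c ∈ pCore p (Y ⧸ C)
    rw [show QuotientGroup.mk' C c = 1 from (QuotientGroup.eq_one_iff _).2 hc]
    exact one_mem _
  have hHK : H ≤ K := map_le_iff_le_comap.1
    (H22.le_pCore ((inferInstance : H.Normal).map _ (QuotientGroup.mk'_surjective _)) (hpH.map _))
  have hKn : K.Normal := inferInstance
  have hKp : IsPGroup p (K.map (QuotientGroup.mk' C)) :=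
    H22.isPGroup_pCore.to_le (map_comap_le _ _)
  have hO : pPrimeCore p Y ≤ C := hC ▸ pPrimeCore_le_centralizer hpH
  have hKle : K ≤ (R ⊓ K) ⊔ C := by
    obtain ⟨S, rfl⟩ := hR.exists_sylow_top
    intro x hx
    obtain ⟨s, hs, c, hc, rfl⟩ := (H21.mem_sup_of_le_normalizer'
      (by rw [normalizer_eq_top]; exact le_top)).1 (H21.le_sylow_sup_of_normal hKp S hx)
    exact mul_mem (mem_sup_left ⟨hs, by simpa using mul_mem hx (inv_mem (hCK hc))⟩)
      (mem_sup_right hc)
  have hRK : IsSylowIn p (R ⊓ K) K := hR.inf_normal le_top (by rw [normalizer_eq_top])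
  constructor
  · rintro ⟨-, h2⟩
    have h3 := isSylowIn_of_not_dvd_relIndex hpH hHK h2
    have h4 : R ⊓ K ≤ H := h3.le_of_normalizes' hRK.isPGroup inf_le_right
      (by rw [normalizer_eq_top]; exact le_top)
    have h5 : R ⊓ C ≤ H := (inf_le_inf_left _ hCK).trans h4
    refine ⟨h5, le_antisymm ?_ (hC ▸ sup_centralizer_le_pPrimePCore hpH hR (hC ▸ h5))⟩
    refine le_trans ?_ (hKle.trans (sup_le_sup_right h4 _))
    rw [hK, ← map_le_iff_le_comap]
    refine H22.le_pCore ((inferInstance : (pPrimePCore p Y).Normal).map _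
      (QuotientGroup.mk'_surjective _)) ?_
    refine ((hR.isPGroup.to_le (inf_le_left : R ⊓ pPrimePCore p Y ≤ R)).map
      (QuotientGroup.mk' C)).to_le ?_
    have := map_mono (f := QuotientGroup.mk' C) ((pPrimePCore_le_sup hR).trans (sup_le_sup_left hO _))
    rwa [Subgroup.map_sup, QuotientGroup.map_mk'_self, sup_bot_eq] at this
  · rintro ⟨h1, h2⟩
    refine ⟨hHK, ?_⟩
    have h3 : C ≤ H ⊔ pPrimeCore p Y := hC ▸ centralizer_le_sup_pPrimeCore hpH hR (hC ▸ h1)
    have h4 : K ≤ H ⊔ C := h2 ▸ le_pPrimePCore_of_le_sup hKn hR.isPGroup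
      (hKle.trans (sup_le (inf_le_left.trans le_sup_left)
        (h3.trans (sup_le_sup_right hHR _))))
    have h5 : R ⊓ K ≤ H := by
      refine (inf_le_inf_left _ h4).trans ?_
      rw [inf_sup_of_normalizes' hHR (by rw [normalizer_eq_top]; exact le_top)]
      exact sup_le le_rfl h1
    have h6 := hRK.not_dvd_relIndex
    rwa [le_antisymm h5 (le_inf hHR hHK)] at h6

/-- Let P be a Sylow p-subgroup of the finite group G and H ≤ P a subgroup with N_P(H) a Sylow p-subgroup of N_G(H). Let N be the preimage in N_G(H) of O_p(N_G(H)/C_G(H)). Then H is a Sylow p-subgroup of N if and only if C_P(H) ≤ H and O_{p',p}(N_G(H)) = H·C_G(H). -/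
theorem result {G : Type*} [Group G] [Finite G] {p : ℕ} [Fact p.Prime]
    (P : Sylow p G) (H : Subgroup G) (hHP : H ≤ (P : Subgroup G))
    (hSyl : ¬ p ∣ ((P : Subgroup G) ⊓ Subgroup.normalizer (H : Set G)).relIndex (Subgroup.normalizer (H : Set G)))
    [hC : ((Subgroup.centralizer (H : Set G)).subgroupOf (Subgroup.normalizer (H : Set G))).Normal] :
    (H ≤ ((Cfsg.pCore p (↥(Subgroup.normalizer (H : Set G)) ⧸
              (Subgroup.centralizer (H : Set G)).subgroupOf (Subgroup.normalizer (H : Set G)))).comap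
            (QuotientGroup.mk' _)).map (Subgroup.normalizer (H : Set G)).subtype ∧
      ¬ p ∣ H.relIndex (((Cfsg.pCore p (↥(Subgroup.normalizer (H : Set G)) ⧸
              (Subgroup.centralizer (H : Set G)).subgroupOf (Subgroup.normalizer (H : Set G)))).comap
            (QuotientGroup.mk' _)).map (Subgroup.normalizer (H : Set G)).subtype)) ↔
    ((P : Subgroup G) ⊓ Subgroup.centralizer (H : Set G) ≤ H ∧
      (Cfsg.pPrimePCore p ↥(Subgroup.normalizer (H : Set G))).map (Subgroup.normalizer (H : Set G)).subtype =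
        H ⊔ Subgroup.centralizer (H : Set G)) := by
  have h1 := aux (IsSylowIn.subgroupOf (isSylowIn_of_not_dvd_relIndex
    (P.isPGroup'.to_le inf_le_left) inf_le_right hSyl))
    (H := H.subgroupOf (normalizer (H : Set G)))
    (subgroupOf_mono _ (le_inf hHP le_normalizer)) (subgroupOf_centralizer H).symm
  set N := normalizer (H : Set G) with hN
  have h2 : ∀ K : Subgroup N, (K.map N.subtype).subgroupOf N = K := fun K =>
    comap_map_eq_self_of_injective N.subtype_injective _
  have h3 : ∀ K : Subgroup N, H ≤ K.map N.subtype ↔ H.subgroupOf N ≤ K := fun K =>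
    ⟨fun h => h2 K ▸ subgroupOf_mono N h, fun h => by
      have := map_mono (f := N.subtype) h
      rwa [map_subgroupOf_eq_of_le le_normalizer] at this⟩
  rw [h3, ← relIndex_subgroupOf (map_subtype_le _), h2, h1]
  refine and_congr ⟨fun h x hx => h (x := ⟨x, centralizer_le_normalizer _ hx.2⟩)
    ⟨⟨hx.1, centralizer_le_normalizer _ hx.2⟩, hx.2⟩, fun h x hx => h ⟨hx.1.1, hx.2⟩⟩
    ⟨fun h => ?_, fun h => ?_⟩
  · rw [h, Subgroup.map_sup, map_subgroupOf_eq_of_le le_normalizer,
      map_subgroupOf_eq_of_le (centralizer_le_normalizer _)]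
  · refine map_injective N.subtype_injective ?_
    rw [h, Subgroup.map_sup, map_subgroupOf_eq_of_le le_normalizer,
      map_subgroupOf_eq_of_le (centralizer_le_normalizer _)]
end Cfsg.Agent.S3076
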