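import Cfsg.Statements.S3078
import Cfsg.Agent.H23.Replace
import Cfsg.Agent.H21.Quad
import Cfsg.Agent.H3.ClassTwo
import Cfsg.Agent.H72.Conj

set_option autoImplicit false
open Cfsg

namespace Cfsg.Agent.S3078

open Subgroup H23
open scoped commutatorElement

theorem card_le_of_inj {G : Type*} [Group G] [Finite G] {D X Y : Subgroup G} (h : D ⊓ X ≤ Y)
    (f : G → G) (hf : ∀ x ∈ X, f x ∈ Y)
    (hi : ∀ x ∈ X, ∀ y ∈ X, (f x)⁻¹ * f y ∈ D → x⁻¹ * y ∈ D) : Nat.card X ≤ Nat.card Y := by
  rw [card_eq_relIndex_mul (inf_le_right : D ⊓ X ≤ X),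
    card_eq_relIndex_mul (inf_le_right : D ⊓ Y ≤ Y), inf_relIndex_right, inf_relIndex_right]
  refine Nat.mul_le_mul ?_ (card_le_of_le (le_inf inf_le_left h))
  refine Nat.card_le_card_of_injective (α := X ⧸ D.subgroupOf X) (β := Y ⧸ D.subgroupOf Y)
    (fun q => QuotientGroup.mk ⟨f q.out, hf _ q.out.2⟩) fun q q' hq => ?_
  rw [← q.out_eq', ← q'.out_eq']
  have h1 := QuotientGroup.eq.1 hq
  exact QuotientGroup.eq.2 (hi _ q.out.2 _ q'.out.2 h1)

theorem main {G : Type*} [Group G] [Finite G] {p : ℕ} [hp' : Fact p.Prime] (hp : p ≠ 2)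
    (hG : IsPGroup p G) (A B : Subgroup G) [B.Normal] (hA : IsMulCommutative A) (hBA : ⁅B, B⁆ ≤ A)
    (hBnA : ¬ B ≤ normalizer (A : Set G)) : ∃ C : Subgroup G, IsMulCommutative C ∧
      Nat.card C = Nat.card A ∧ A ⊓ B < C ⊓ B ∧ C ≤ normalizer (A : Set G) ∧
      C ≤ normalClosure (A : Set G) ∧ (∀ x ∈ C, x ^ Monoid.exponent A = 1) ∧
      Nat.card (omegaOne p A) ≤ Nat.card (omegaOne p C) := by
  obtain ⟨x, hx1, hx2, hx3⟩ := exists_mem_normalizer_not_mem
    (hG.to_subgroup (normalizer (A : Set G) ⊔ B))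
    (lt_of_le_of_ne le_sup_left fun h => hBnA (le_sup_right.trans h.ge))
  obtain ⟨m, hm, b, hb, rfl⟩ := H72.mem_sup_of_normalizes
    le_normalizer_of_normal hx1
  have hbN : b ∈ normalizer ((normalizer (A : Set G) : Subgroup G) : Set G) := by
    simpa using mul_mem (inv_mem (le_normalizer hm)) hx2
  have hbA : b ∉ normalizer (A : Set G) := fun h => hx3 (mul_mem hm h)
  have hodd : Odd p := hp'.out.odd_of_ne_two hp
  have hC := repl_comm hA hBA hb hbN hG (fun h => absurd h hp)
  refine ⟨repl A b, hC, card_repl hA hBA hb hbN, inf_lt_repl_inf hBA hb hbA,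
    repl_le_normalizer hbN, repl_le le_normalClosure b, fun x hx => ?_, ?_⟩
  · have h1 : Odd (Monoid.exponent A) := by
      obtain ⟨k, hk⟩ := (isPGroup_iff_exponent_eq_pow.mp (hG.to_subgroup A))
      rw [hk]
      exact hodd.pow
    exact pow_eq_one_of_mem_repl hA hbN (Or.inl h1)
      (fun a ha => congrArg Subtype.val (Monoid.pow_exponent_eq_one (⟨a, ha⟩ : A))) hx
  refine card_le_of_inj (D := A ⊓ A.map (MulAut.conj (b⁻¹)).toMonoidHom)
    (fun x hx => H21.mem_omegaOne (mem_sup_left hx.1) (H21.mem_omegaOne_of_comm.1 hx.2).2)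
    (fun a => a * (b⁻¹ * a⁻¹ * b)) (fun a ha => ?_) (fun a ha a' ha' h => ?_)
  · obtain ⟨ha, hap⟩ := H21.mem_omegaOne_of_comm.1 ha
    refine H21.mem_omegaOne (mem_sup_right (subset_closure ⟨a, ha, by group⟩)) ?_
    have hv : b⁻¹ * a⁻¹ * b ∈ A.map (MulAut.conj (b⁻¹)).toMonoidHom := by
      rw [mem_conj_inv_iff]; simpa [mul_assoc] using ha
    have hc := mem_centralizer_iff.1 (inf_le_centralizer_sup hA (commutator_sup_le_inf hA hbN
      (commutator_mem_commutator (mem_sup_right hv) ha)))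
    have h1 : Commute a ⁅b⁻¹ * a⁻¹ * b, a⁆ := hc _ (mem_sup_left ha)
    rw [H3.mul_pow_of_odd_of_commute_commutator h1 (hc _ (mem_sup_right hv)) hodd
      (by rw [← H3.commutator_pow_right_of_commute h1, hap, commutatorElement_one_right]), hap]
    have := conj_pow (a := b⁻¹) (b := a⁻¹) (i := p)
    rw [inv_inv] at this
    rw [this, inv_pow, hap]; group
  · replace ha := H21.omegaOne_le p A ha
    replace ha' := H21.omegaOne_le p A ha'
    refine ⟨A.mul_mem (A.inv_mem ha) ha', mem_conj_inv_iff.2 ?_⟩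
    have h1 := mul_mem (mul_mem (inv_mem ha) (mem_conj_inv_iff.1 h.2)) ha'
    convert h1 using 1
    group

/-- A replacement Theorem for abelian subgroups of p-groups, p odd. Let G be a finite p-group with p odd, A an abelian subgroup of G, and B a subgroup of nilpotency class at most 2 with [B, B] ≤ A, such that A normalizes B but B does not normalize A. Then there is an abelian subgroup A* of G of the same order as A with A ∩ B strictly contained in A* ∩ B, A* contained in N_G(A) and in the normal closure of A, the exponent of A* dividing the exponent of A, and with the subgroup generated by the elements of order dividing p in A of order at most that of the corresponding subgroup of A* (the rank of A is at most the rank of A*). -/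
theorem result {G : Type*} [Group G] [Finite G] {p : ℕ} [Fact p.Prime] (hp : p ≠ 2) (hG : IsPGroup p G) (A B : Subgroup G) (hA : IsMulCommutative A) (hB2 : ⁅⁅B, B⁆, B⁆ = ⊥) (hBA : ⁅B, B⁆ ≤ A) (hAB : A ≤ Subgroup.normalizer (B : Set G)) (hBnA : ¬ B ≤ Subgroup.normalizer (A : Set G)) : ∃ Astar : Subgroup G, IsMulCommutative Astar ∧ Nat.card Astar = Nat.card A ∧ A ⊓ B < Astar ⊓ B ∧ Astar ≤ Subgroup.normalizer (A : Set G) ∧ Astar ≤ Subgroup.normalClosure (A : Set G) ∧ Monoid.exponent Astar ∣ Monoid.exponent A ∧ Nat.card (Cfsg.omegaOne p A) ≤ Nat.card (Cfsg.omegaOne p Astar) := by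
  set N := normalizer (B : Set G) with hN
  have hi := N.subtype_injective
  have hAm : (A.subgroupOf N).map N.subtype = A := map_subgroupOf_eq_of_le hAB
  have hBm : (B.subgroupOf N).map N.subtype = B := map_subgroupOf_eq_of_le le_normalizer
  have hnorm : ∀ x : N, x ∈ normalizer ((A.subgroupOf N : Subgroup N) : Set N) →
      (x : G) ∈ normalizer (A : Set G) := fun x hx => mem_normalizer_of_conj fun a ha =>
    conj_mem_of_mem_normalizer hx (a := ⟨a, hAB ha⟩) ha
  obtain ⟨C, h1, h2, h3, h4, h5, h6, h7⟩ := main hp (hG.to_subgroup N) (A.subgroupOf N)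
    (B.subgroupOf N) inferInstance
    (commutator_le.2 fun x hx y hy => hBA (commutator_mem_commutator hx hy))
    (fun h => hBnA fun x hx => hnorm ⟨x, le_normalizer hx⟩ (h hx))
  have he := (subgroupOfEquivOfLe hAB)
  refine ⟨C.map N.subtype, inferInstance, ?_, ?_, ?_, ?_, ?_, ?_⟩
  · rw [card_map_of_injective hi, h2, Nat.card_congr he.toEquiv]
  · rw [← hAm, ← hBm, ← map_inf _ _ _ hi, ← map_inf _ _ _ hi]
    exact lt_of_le_of_ne (map_mono h3.le) fun h => h3.ne (map_injective hi h)
  · rintro _ ⟨x, hx, rfl⟩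
    exact hnorm x (h4 hx)
  · rw [map_le_iff_le_comap]
    exact h5.trans (normalClosure_le_normal fun x hx => le_normalClosure (H := A) hx)
  · rw [Monoid.exponent_dvd_iff_forall_pow_eq_one]
    rintro ⟨_, x, hx, rfl⟩
    rw [← Monoid.exponent_eq_of_mulEquiv he]
    exact Subtype.ext (congrArg (Subtype.val : N → G) (h6 x hx))
  · rw [← hAm, ← H21.omegaOne_map_of_injective p _ _ hi, ← H21.omegaOne_map_of_injective p _ _ hi,
      card_map_of_injective hi, card_map_of_injective hi]
    exact h7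
end Cfsg.Agent.S3078
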