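import Cfsg.Statements.S3086
import Cfsg.Agent.H73.PGV2
import Mathlib.GroupTheory.SemidirectProduct

set_option autoImplicit false
open Cfsg

namespace Cfsg.Agent.S3086

open Subgroup SemidirectProduct

/-- the action on the multiplicative version of the module -/
def act {G V k : Type*} [Group G] [AddCommGroup V] [CommSemiring k] [Module k V]
    (ρ : Representation k G V) : G →* MulAut (Multiplicative V) where
  toFun g :=
    { toFun := fun v => Multiplicative.ofAdd (ρ g v.toAdd)
      invFun := fun v => Multiplicative.ofAdd (ρ g⁻¹ v.toAdd)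
      left_inv := fun v => by simp
      right_inv := fun v => by simp
      map_mul' := fun v w => by simp }
  map_one' := by ext v; simp
  map_mul' g h := by ext v; simp

theorem act_apply {G V k : Type*} [Group G] [AddCommGroup V] [CommSemiring k] [Module k V]
    (ρ : Representation k G V) (g : G) (v : V) :
    act ρ g (Multiplicative.ofAdd v) = Multiplicative.ofAdd (ρ g v) := rfl


/-- The P(G,V)-theorem. Let p be a prime, G a finite group acting faithfully and linearly on a finite vector space V over the field with p elements, and A a nontrivial elementary abelian p-subgroup of G such that |A|·|C_V(A)| ≥ |B|·|C_V(B)| for every subgroup B of A. Then A normalizes every component (subnormal quasisimple subgroup) of G. -/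
theorem result {G V : Type*} [Group G] [Finite G] [AddCommGroup V] [Finite V] (p : ℕ) [Fact p.Prime] [Module (ZMod p) V]
    (ρ : Representation (ZMod p) G V) (hρ : Function.Injective ρ)
    (A : Subgroup G) (hA : A ≠ ⊥) (hAel : Cfsg.IsElementaryAbelian p A)
    (hP : ∀ B : Subgroup G, B ≤ A →
      Nat.card ↥B * Nat.card {v : V // ∀ b ∈ B, ρ b v = v} ≤ Nat.card ↥A * Nat.card {v : V // ∀ a ∈ A, ρ a v = v}) :
    ∀ K : Subgroup G, Cfsg.IsComponent K → A ≤ Subgroup.normalizer (K : Set G) := by
  intro K hK
  let Γ := Multiplicative V ⋊[act ρ] G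
  have : Finite Γ := Finite.of_equiv _ SemidirectProduct.equivProd.symm
  let V' : Subgroup Γ := (inl : Multiplicative V →* Γ).range
  let ι : G →* Γ := inr
  have hι : Function.Injective ι := inr_injective
  have hcomm : ∀ (g : G) (v : V), ι g * inl (Multiplicative.ofAdd v) =
      inl (Multiplicative.ofAdd v) * ι g ↔ ρ g v = v := fun g v => by
    rw [← mul_inv_eq_iff_eq_mul, ← map_inv, ← inl_aut, act_apply, inl_inj]
    rfl
  have hV' : IsElementaryAbelian p V' := by
    refine ⟨⟨⟨?_⟩⟩, ?_⟩
    · rintro ⟨_, v, rfl⟩ ⟨_, w, rfl⟩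
      refine Subtype.ext ?_
      change inl v * inl w = inl w * inl v
      rw [← map_mul, ← map_mul, mul_comm]
    · rintro _ ⟨v, rfl⟩
      rw [← map_pow]
      have : v ^ p = 1 := by
        apply Multiplicative.toAdd.injective
        rw [toAdd_pow, toAdd_one, ← Nat.cast_smul_eq_nsmul (ZMod p), ZMod.natCast_self, zero_smul]
      rw [this, map_one]
  have hn : V'.Normal := by
    change (inl : Multiplicative V →* Γ).range.Normal
    rw [range_inl_eq_ker_rightHom]; infer_instance
  have hcard : ∀ B : Subgroup G, Nat.card ↥(V' ⊓ centralizer ((B.map ι : Subgroup Γ) : Set Γ)) =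
      Nat.card {v : V // ∀ b ∈ B, ρ b v = v} := fun B => by
    symm
    refine Nat.card_eq_of_bijective (fun v => ⟨inl (Multiplicative.ofAdd v.1), ⟨_, rfl⟩, ?_⟩) ⟨?_, ?_⟩
    · rintro _ ⟨b, hb, rfl⟩
      exact (hcomm b v.1).2 (v.2 b hb)
    · intro v w h
      exact Subtype.ext (Multiplicative.ofAdd.injective (inl_injective (congrArg Subtype.val h)))
    · rintro ⟨_, ⟨v, rfl⟩, hv⟩
      exact ⟨⟨v.toAdd, fun b hb => (hcomm b _).1 (hv _ ⟨b, hb, rfl⟩)⟩, rfl⟩
  have hA' := H21.isElementaryAbelian_map hAel ι
  have hc : H44.Comp (A.map ι ⊔ K.map ι) (K.map ι) := by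
    rw [← Subgroup.map_sup]
    exact ((H44.comp_top_iff.2 hK).mono le_sup_right le_top).map_inj ι hι
  have h := H73.pgv_normalizes (p := p) _ rfl hV' hA' (by rw [normalizer_eq_top]; exact le_top)
    (by rw [normalizer_eq_top]; exact le_top) hc
    ⟨fun B hB => by
      obtain ⟨B, rfl⟩ : ∃ B' : Subgroup G, B'.map ι = B :=
        ⟨B.comap ι, map_comap_eq_self (hB.trans (map_le_range _ _))⟩
      rw [hcard, hcard, card_map_of_injective hι, card_map_of_injective hι]
      exact hP B ((map_le_map_iff_of_injective hι).1 hB),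
    by
      have := hA'.1
      rw [H21.commutator_eq_bot_iff'.2 (H21.le_centralizer_of_le_comm le_rfl le_rfl)]
      exact bot_le,
    fun a ha => by rw [hA'.2 a ha]; exact one_mem _⟩
    (fun h => (H44.comp_top_iff.2 hK).qs.ne_bot (by
      rw [eq_bot_iff]
      intro k hk
      have h1 := H21.commutator_eq_bot_iff'.1 h ⟨k, hk, rfl⟩
      rw [mem_bot]
      apply hρ
      ext v
      rw [map_one]
      exact (hcomm k v).1 (h1 _ ⟨_, rfl⟩).symm))
  intro a ha
  have h1 := h ⟨a, ha, rfl⟩
  rw [mem_normalizer_iff] at h1 ⊢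
  intro x
  have h2 := h1 (ι x)
  rwa [← map_inv, ← map_mul, ← map_mul, mem_map_iff_mem hι, mem_map_iff_mem hι] at h2

end Cfsg.Agent.S3086
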