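import Cfsg.Statements.S3105
import Cfsg.Agent.SR4.ID4

set_option autoImplicit false
open Cfsg

namespace Cfsg.Agent.S3105

open SR4 Subgroup


/-- Let X be a finite nonsolvable 2-constrained group with no nontrivial normal subgroup of odd order and of sectional 2-rank at most 4, and suppose X/O₂(X) is isomorphic to the projective special linear group of dimension 3 over the field with 2 elements. Then O₂(X) is elementary abelian of order 8 or 16, or is isomorphic to the direct product of a cyclic group of order 4 and an elementary abelian group of order 8. -/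
theorem result {X : Type*} [Group X] [Finite X] (hns : ¬ Group.IsSolvable X) (hc : Cfsg.IsPConstrained 2 X) (hO : Cfsg.oddCore X = ⊥)
    (h4 : Cfsg.SectionalPRankLE 2 4 X) {F : Type*} [Field F] [Fintype F] (hF : Fintype.card F = 2)
    (hQ : Nonempty (X ⧸ Cfsg.pCore 2 X ≃* Matrix.ProjectiveSpecialLinearGroup (Fin 3) F)) :
    (Cfsg.IsElementaryAbelian 2 (Cfsg.pCore 2 X) ∧ (Nat.card ↥(Cfsg.pCore 2 X) = 8 ∨ Nat.card ↥(Cfsg.pCore 2 X) = 16)) ∨
      Nonempty (↥(Cfsg.pCore 2 X) ≃* Multiplicative (ZMod 4) × (Fin 3 → Multiplicative (ZMod 2))) := by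
  obtain ⟨e⟩ := hQ
  obtain ⟨e'⟩ := psl3_equiv_gl hF
  have cx := CX.of_constrained hc hO
  have h : LX (pCore 2 X) ((e.trans e').toMonoidHom.comp (QuotientGroup.mk' _)) := ⟨cx.two, by
    rw [← MonoidHom.comap_ker, (MonoidHom.ker_eq_bot_iff _).2 (e.trans e').injective, MonoidHom.comap_bot,
      QuotientGroup.ker_mk'], (e.trans e').surjective.comp (QuotientGroup.mk'_surjective _), S4.of_sec h4⟩
  obtain ⟨B, W, π, ω, s, d, k⟩ := h.st cx.cent
  by_cases d2 : d * d = 1
  · refine Or.inl ⟨⟨⟨⟨fun a b => Subtype.ext (k.ab _ a.2 _ b.2)⟩⟩, fun q hq => by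
      simpa [d2, pow_two] using k.sqm k.dQ (k.QK hq)⟩, ?_⟩
    rw [k.cardQ]
    by_cases d1 : d = 1
    · rw [d1, orderOf_one]; exact Or.inl rfl
    · rw [H18.orderOf_eq_two' d2 d1]; exact Or.inr rfl
  have o4 : orderOf d = 4 := orderOf_eq_prime_pow (p := 2) (n := 1) (by rwa [pow_one, pow_two]) k.four
  obtain ⟨c, -, hc, -⟩ := H24.L32.exists_coord8 W (fun a => Subtype.ext (k.sq _ (k.WK a.2))) k.card
  let f : W ≃* (Fin 3 → Multiplicative (ZMod 2)) :=
    { toEquiv := c, map_mul' := hc }
  let g : zpowers d ≃* Multiplicative (ZMod 4) :=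
    mulEquivOfCyclicCardEq (by rw [Nat.card_zpowers, o4]; simp)
  have cm : ∀ (a : zpowers d) (b : W), Commute ((zpowers d).subtype a) (W.subtype b) := fun a b =>
    k.ab _ (zpowers_le.2 k.dQ a.2) _ (k.KQ (k.WK b.2))
  let φ := MonoidHom.noncommCoprod (zpowers d).subtype W.subtype cm
  have r : φ.range = pCore 2 X := by
    rw [MonoidHom.noncommCoprod_range, range_subtype, range_subtype, sup_comm, k.sup]
  have i : Function.Injective φ := (MonoidHom.noncommCoprod_injective _ _ cm).2
    ⟨subtype_injective _, subtype_injective _, by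
      rw [range_subtype, range_subtype, disjoint_iff, inf_comm, k.inf]⟩
  exact Or.inr ⟨((MulEquiv.subgroupCongr r).symm.trans (MonoidHom.ofInjective i).symm).trans (g.prodCongr f)⟩

end Cfsg.Agent.S3105
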