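import Cfsg.Statements.S3110
import Mathlib
import Cfsg.Agent.S0217
import Cfsg.Agent.S0205
import Cfsg.Agent.H74.Balance

set_option autoImplicit false
open Cfsg

namespace Cfsg.Agent.S3110

open Subgroup H74
open scoped Pointwise

/-- Balance for all pairs of commuting nontrivial `2`-elements. -/
def Bal (G : Type*) [Group G] : Prop :=
  ∀ a b : G, IsPGroup 2 (zpowers a) → IsPGroup 2 (zpowers b) → a ≠ 1 → b ≠ 1 → a * b = b * a →
    Cfsg.centralizerPPrimeCore 2 a ⊓ centralizer ({b} : Set G) ≤ Cfsg.centralizerPPrimeCore 2 b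

section
variable {G : Type*} [Group G] [Finite G]

theorem pg_zpowers {V : Subgroup G} (hV : IsPGroup 2 V) {a : G} (ha : a ∈ V) :
    IsPGroup 2 (zpowers a) := hV.to_le (zpowers_le.mpr ha)

theorem pg_of_exp {V : Subgroup G} (he : ∀ e ∈ V, e ^ 2 = 1) : IsPGroup 2 V := fun a =>
  ⟨1, Subtype.ext (by simpa using he a a.2)⟩

theorem theta_le_WW_of_comm (hb : Bal G) {V : Subgroup G} (hV : IsPGroup 2 V)
    (hc : IsMulCommutative V) (hnc : ¬ IsCyclic V) {b : G} (hb2 : IsPGroup 2 (zpowers b))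
    (hb1 : b ≠ 1) (hVb : V ≤ centralizer ({b} : Set G)) :
    Cfsg.centralizerPPrimeCore 2 b ≤ WW 2 V := by
  refine H46.le_of_forall_element hV hc hnc
    (H44.coprime_iff_not_dvd.mp (theta_coprime 2 b))
    (hVb.trans (centralizer_le_normalizer_theta 2 b)) fun a ha ha1 => ?_
  exact (hb b a hb2 (pg_zpowers hV ha) hb1 ha1
    (mem_centralizer_singleton_iff.mp (hVb ha)).symm).trans (theta_le_WW 2 ha ha1)

theorem WW_eq_of_le (hb : Bal G) {V E : Subgroup G} (hE : IsPGroup 2 E)
    (hc : IsMulCommutative E) (hnc : ¬ IsCyclic V) (hVE : V ≤ E) : WW 2 E = WW 2 V := by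
  have hcomm : ∀ x ∈ E, ∀ y ∈ E, x * y = y * x := fun x hx y hy =>
    congrArg Subtype.val (hc.is_comm.comm (⟨x, hx⟩ : E) ⟨y, hy⟩)
  refine le_antisymm (WW_le fun b hbE hb1 => ?_) (WW_mono 2 hVE)
  refine theta_le_WW_of_comm hb (hE.to_le hVE) ⟨⟨fun x y => Subtype.ext ?_⟩⟩ hnc
    (pg_zpowers hE hbE) hb1 fun x hx => mem_centralizer_singleton_iff.mpr ?_
  · exact hcomm _ (hVE x.2) _ (hVE y.2)
  · exact hcomm _ (hVE hx) _ hbE

theorem sig (hb : Bal G) {E : Subgroup G} (hc : IsMulCommutative E) (he : ∀ e ∈ E, e ^ 2 = 1)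
    (h8 : 8 ≤ Nat.card E) : ¬ 2 ∣ Nat.card (WW 2 E) ∧
      ∀ a ∈ E, a ≠ 1 → WW 2 E ⊓ centralizer {a} = Cfsg.centralizerPPrimeCore 2 a := by
  have hcomm : ∀ x ∈ E, ∀ y ∈ E, x * y = y * x := fun x hx y hy =>
    congrArg Subtype.val (hc.is_comm.comm (⟨x, hx⟩ : E) ⟨y, hy⟩)
  have hE := pg_of_exp he
  refine Cfsg.Agent.S0217.result (p := 2) E hcomm he h8 (Cfsg.centralizerPPrimeCore 2)
    (fun a _ _ => theta_le 2 a) (fun a _ _ => H44.coprime_iff_not_dvd.mp (theta_coprime 2 a))
    (fun a ha _ b hb' x hx => ?_)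
    (fun a _ _ => Cfsg.Agent.S0205.result (H44.coprime_two_iff_odd.mp (theta_coprime 2 a)))
    (fun a ha ha1 b hb' hb1 => hb a b (pg_zpowers hE ha) (pg_zpowers hE hb') ha1 hb1
      (hcomm _ ha _ hb'))
  exact (mem_normalizer_iff.mp (centralizer_le_normalizer_theta 2 a
    (mem_centralizer_singleton_iff.mpr (hcomm _ hb' _ ha))) x).mp hx

theorem main (hb : Bal G) {S E : Subgroup G} (hS : IsPGroup 2 S)
    (hSE : S ≤ normalizer (E : Set G)) (hc : IsMulCommutative E) (he : ∀ e ∈ E, e ^ 2 = 1)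
    (h8 : 8 ≤ Nat.card E) {B : Subgroup G} (hB : B ≤ S) (hr : ¬ Cfsg.PRankLE 2 1 B) :
    WW 2 E = WW 2 B := by
  have hcomm : ∀ x ∈ E, ∀ y ∈ E, x * y = y * x := fun x hx y hy =>
    congrArg Subtype.val (hc.is_comm.comm (⟨x, hx⟩ : E) ⟨y, hy⟩)
  have hE := pg_of_exp he
  have h4 : ∀ w ∈ S, w ^ 2 = 1 → 2 < Nat.card ↥(E ⊓ centralizer ({w} : Set G)) := by
    intro w hw hw2
    have := card_le_sq_card_inf_centralizer hc he (hSE hw) hw2
    by_contra hh
    have h2 : Nat.card ↥(E ⊓ centralizer ({w} : Set G)) ^ 2 ≤ 2 ^ 2 :=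
      Nat.pow_le_pow_left (not_lt.mp hh) 2
    omega
  have hnc : ∀ w ∈ S, w ^ 2 = 1 → ¬ IsCyclic ↥(E ⊓ centralizer ({w} : Set G)) := by
    intro w hw hw2 hcyc
    have := card_le_of_isCyclic_of_pow (by norm_num : 0 < 2) hcyc (fun e h => he e h.1)
    have := h4 w hw hw2
    omega
  have hcV : ∀ w : G, IsMulCommutative ↥(E ⊓ centralizer ({w} : Set G)) := fun w =>
    ⟨⟨fun x y => Subtype.ext (hcomm _ x.2.1 _ y.2.1)⟩⟩
  apply le_antisymm
  · unfold Cfsg.PRankLE at hr
    push Not at hr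
    obtain ⟨V0, hV0c, hV0e, hV0⟩ := hr
    set V := V0.map B.subtype with hV
    have hVB : V ≤ B := map_subtype_le _
    have hVe : ∀ v ∈ V, v ^ 2 = 1 := by
      rintro _ ⟨v, hv, rfl⟩
      exact congrArg Subtype.val (hV0e v hv)
    have hVc : IsMulCommutative V := inferInstance
    have hVnc : ¬ IsCyclic V := by
      intro hcyc
      have := card_le_of_isCyclic_of_pow (by norm_num : 0 < 2) hcyc hVe
      rw [hV, card_map_of_injective B.subtype_injective] at this
      omega
    refine H46.le_of_forall_element (pg_of_exp hVe) hVc hVnc (sig hb hc he h8).1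
      (((hVB.trans hB).trans hSE).trans (normalizer_le_normalizer_WW 2 E)) fun v hv hv1 => ?_
    refine le_trans ?_ (theta_le_WW 2 (hVB hv) hv1)
    by_cases hvE : v ∈ E
    · exact ((sig hb hc he h8).2 v hvE hv1).le
    set V' := E ⊓ centralizer ({v} : Set G) with hV'
    set E' := V' ⊔ zpowers v with hE'
    have hmem : ∀ x ∈ E', ∃ y ∈ V', ∃ k : ℤ, x = y * v ^ k := by
      intro x hx
      have hn : zpowers v ≤ normalizer (V' : Set G) := by
        rw [zpowers_le]
        apply centralizer_le_normalizer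
        intro y hy
        exact mem_centralizer_singleton_iff.mp hy.2
      obtain ⟨y, hy, z, ⟨k, rfl⟩, rfl⟩ : x ∈ (V' : Set G) * (zpowers v : Set G) := by
        rw [← coe_mul_of_right_le_normalizer_left _ _ hn]; exact hx
      exact ⟨y, hy, k, rfl⟩
    have hcv : ∀ y ∈ V', ∀ k : ℤ, Commute y (v ^ k) := fun y hy k =>
      Commute.zpow_right (mem_centralizer_singleton_iff.mp hy.2) k
    have hE'c : IsMulCommutative E' := by
      refine ⟨⟨fun x y => Subtype.ext ?_⟩⟩
      obtain ⟨a, ha, k, hx⟩ := hmem x x.2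
      obtain ⟨b, hb, l, hy⟩ := hmem y y.2
      simp only [coe_mul, hx, hy]
      refine Commute.mul_left (Commute.mul_right (hcomm _ ha.1 _ hb.1) (hcv a ha l))
        (Commute.mul_right (hcv b hb k).symm (Commute.zpow_zpow_self v k l))
    have hE'e : ∀ e ∈ E', e ^ 2 = 1 := by
      intro x hx
      obtain ⟨a, ha, k, rfl⟩ := hmem x hx
      rw [(hcv a ha k).mul_pow, he a ha.1, one_mul, ← zpow_natCast, ← zpow_mul, mul_comm,
        zpow_mul, zpow_natCast, hVe v hv, one_zpow]
    have hvS : v ∈ S := hB (hVB hv)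
    have hE'8 : 8 ≤ Nat.card E' := by
      have h1 : Nat.card V' < Nat.card E' := by
        have hlt : V' < E' := by
          refine lt_of_le_of_ne le_sup_left fun h => hvE ?_
          have : v ∈ E' := mem_sup_right (mem_zpowers v)
          rw [← h] at this
          exact this.1
        have h1 := card_le_of_le hlt.le
        refine lt_of_le_of_ne h1 fun h => hlt.ne ?_
        exact eq_of_le_of_card_ge hlt.le h.ge
      have h2 := h4 v hvS (hVe v hv)
      obtain ⟨m, hm⟩ := (IsPGroup.iff_card (p := 2)).mp (hE.to_le (inf_le_left : V' ≤ E))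
      obtain ⟨n, hn⟩ := (IsPGroup.iff_card (p := 2)).mp (pg_of_exp hE'e)
      rw [hm] at h2
      rw [hm, hn] at h1
      rw [hn]
      have h3 : 1 < m := (Nat.pow_lt_pow_iff_right (by norm_num : 1 < 2)).mp (by simpa using h2)
      have h5 : m < n := (Nat.pow_lt_pow_iff_right (by norm_num : 1 < 2)).mp h1
      calc 8 = 2 ^ 3 := by norm_num
        _ ≤ 2 ^ n := Nat.pow_le_pow_right (by norm_num) (by omega)
    have e1 : WW 2 E = WW 2 V' := WW_eq_of_le hb hE hc (hnc v hvS (hVe v hv)) inf_le_left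
    have e2 : WW 2 E' = WW 2 V' :=
      WW_eq_of_le hb (pg_of_exp hE'e) hE'c (hnc v hvS (hVe v hv)) le_sup_left
    rw [e1, ← e2]
    exact ((sig hb hE'c hE'e hE'8).2 v (mem_sup_right (mem_zpowers v)) hv1).le
  · refine WW_le fun b hbB hb1 => ?_
    have hbS := hB hbB
    have hbp := pg_zpowers hS hbS
    haveI : Nontrivial (zpowers b) := (nontrivial_iff_ne_bot _).mpr (by simpa using hb1)
    obtain ⟨n, hn0, hn⟩ := hbp.nontrivial_iff_card.mp inferInstance
    obtain ⟨w, hw⟩ := exists_prime_orderOf_dvd_card' (G := zpowers b) 2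
      (by rw [hn]; exact dvd_pow_self 2 hn0.ne')
    have hw2 : (w : G) ^ 2 = 1 := by
      have := pow_orderOf_eq_one w
      rw [hw] at this
      exact congrArg Subtype.val this
    have hw1 : (w : G) ≠ 1 := by
      intro h
      have : w = 1 := Subtype.ext h
      rw [this, orderOf_one] at hw
      omega
    have hwS : (w : G) ∈ S := zpowers_le.mpr hbS w.2
    obtain ⟨k, hk⟩ := mem_zpowers_iff.mp w.2
    have hC : centralizer ({b} : Set G) ≤ centralizer ({(w : G)} : Set G) := by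
      intro x hx
      rw [mem_centralizer_singleton_iff] at hx ⊢
      rw [← hk]
      exact Commute.zpow_right hx k
    have h1 : Cfsg.centralizerPPrimeCore 2 b ≤ Cfsg.centralizerPPrimeCore 2 (w : G) := by
      refine le_trans (le_inf le_rfl ((theta_le 2 b).trans hC))
        (hb b w hbp (pg_zpowers hS hwS) hb1 hw1 ?_)
      rw [← hk]
      exact Commute.self_zpow b k
    refine h1.trans ((theta_le_WW_of_comm hb (hE.to_le inf_le_left) (hcV w) (hnc w hwS hw2)
      (pg_zpowers hS hwS) hw1 inf_le_right).trans (WW_mono 2 inf_le_left))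

theorem bal_of_constrained
    (h2c : ∀ T : Subgroup G, IsPGroup 2 T → T ≠ ⊥ →
      Cfsg.IsPConstrained 2 ↥(Subgroup.normalizer (T : Set G))) : Bal G := by
  intro a b ha hb _ hb1 hab
  refine balance_of_constrained ?_ ha hab
  have h1 := h2c _ hb (by simpa using hb1)
  haveI : ((centralizer ({b} : Set G)).subgroupOf
      (normalizer ((zpowers b : Subgroup G) : Set G))).Normal :=
    (normal_subgroupOf_iff_le_normalizer (centralizer_le_normalizer_zpowers b)).mpr
      (normalizer_zpowers_le_normalizer_centralizer b)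
  exact (H22.isPConstrained_congr (subgroupOfEquivOfLe (centralizer_le_normalizer_zpowers b))).mp
    (H22.IsPConstrained.of_normal h1 _)

/-- From a normal abelian subgroup of rank `≥ 3` of one Sylow subgroup to a normal elementary
abelian subgroup of order `≥ 8` of any Sylow subgroup. -/
theorem exists_E (S : Sylow 2 G) (A : Subgroup ↥(S : Subgroup G)) (hAn : A.Normal)
    (hAab : IsMulCommutative ↥A) (hA3 : ¬ Cfsg.PRankLE 2 2 ↥A) (S' : Sylow 2 G) :
    ∃ E : Subgroup G, E ≤ S' ∧ (S' : Subgroup G) ≤ normalizer (E : Set G) ∧ IsMulCommutative E ∧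
      (∀ e ∈ E, e ^ 2 = 1) ∧ 8 ≤ Nat.card E := by
  have hcomm : ∀ x ∈ A, ∀ y ∈ A, x * y = y * x := fun x hx y hy =>
    congrArg Subtype.val (hAab.is_comm.comm (⟨x, hx⟩ : A) ⟨y, hy⟩)
  let E0 : Subgroup S :=
    { carrier := {a | a ∈ A ∧ a ^ 2 = 1}
      mul_mem' := fun {a b} ha hb => ⟨A.mul_mem ha.1 hb.1, by
        rw [Commute.mul_pow (hcomm a ha.1 b hb.1), ha.2, hb.2, one_mul]⟩
      one_mem' := ⟨A.one_mem, one_pow 2⟩
      inv_mem' := fun {a} ha => ⟨A.inv_mem ha.1, by rw [inv_pow, ha.2, inv_one]⟩ }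
  haveI hE0n : E0.Normal := ⟨fun a ha g => ⟨hAn.conj_mem a ha.1 g, by
    rw [conj_pow, ha.2]; simp⟩⟩
  haveI hE0c : IsMulCommutative E0 := ⟨⟨fun x y => Subtype.ext (hcomm _ x.2.1 _ y.2.1)⟩⟩
  have hE08 : 8 ≤ Nat.card E0 := by
    unfold Cfsg.PRankLE at hA3
    push Not at hA3
    obtain ⟨V0, -, hV0e, hV0⟩ := hA3
    have h1 : V0.map A.subtype ≤ E0 := by
      rintro _ ⟨v, hv, rfl⟩
      exact ⟨v.2, congrArg Subtype.val (hV0e v hv)⟩
    have h2 := card_le_of_le h1
    rw [card_map_of_injective A.subtype_injective] at h2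
    obtain ⟨n, hn⟩ := (IsPGroup.iff_card (p := 2)).mp (S.isPGroup'.to_subgroup E0)
    rw [hn] at h2 ⊢
    have h3 : 2 < n := (Nat.pow_lt_pow_iff_right (by norm_num : 1 < 2)).mp (lt_of_lt_of_le hV0 h2)
    calc 8 = 2 ^ 3 := by norm_num
      _ ≤ 2 ^ n := Nat.pow_le_pow_right (by norm_num) (by omega)
  let e : S ≃* S' := Sylow.equiv S S'
  haveI hn : (E0.map e.toMonoidHom).Normal := hE0n.map _ e.surjective
  refine ⟨(E0.map e.toMonoidHom).map (S' : Subgroup G).subtype, map_subtype_le _, ?_,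
    inferInstance, ?_, ?_⟩
  · rw [← normal_subgroupOf_iff_le_normalizer (map_subtype_le _),
      subgroupOf, comap_map_eq_self_of_injective (subtype_injective _)]
    exact hn
  · rintro _ ⟨_, ⟨x, hx, rfl⟩, rfl⟩
    rw [← map_pow, ← map_pow, hx.2, map_one, map_one]
  · rw [card_map_of_injective (subtype_injective _), card_map_of_injective e.injective]
    exact hE08

end

/-- Let G be a finite group in which every 2-local subgroup is 2-constrained and some Sylow 2-subgroup has a self-centralizing abelian normal subgroup of 2-rank at least 3, and let S be any Sylow 2-subgroup of G. Then there is a subgroup W of G of odd order such that, for every subgroup B of S of 2-rank at least 2, W is generated by the largest normal odd-order subgroups O(C_G(b)) of the centralizers of the non-identity elements b of B, and W is normalized by the normalizer of every such B. -/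
theorem result {G : Type*} [Group G] [Finite G]
    (h2c : ∀ T : Subgroup G, IsPGroup 2 T → T ≠ ⊥ → Cfsg.IsPConstrained 2 ↥(Subgroup.normalizer (T : Set G)))
    (S : Sylow 2 G) (A : Subgroup ↥(S : Subgroup G)) (hAn : A.Normal) (hAab : IsMulCommutative ↥A)
    (hAC : Subgroup.centralizer (A : Set ↥(S : Subgroup G)) = A) (hA3 : ¬ Cfsg.PRankLE 2 2 ↥A) (S' : Sylow 2 G) :
    ∃ W : Subgroup G, Odd (Nat.card ↥W) ∧
      ∀ B : Subgroup G, B ≤ (S' : Subgroup G) → ¬ Cfsg.PRankLE 2 1 ↥B →
        W = (⨆ b : {b : G // b ∈ B ∧ b ≠ 1}, Cfsg.centralizerPPrimeCore 2 (b : G)) ∧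
        Subgroup.normalizer (B : Set G) ≤ Subgroup.normalizer (W : Set G) := by
  obtain ⟨E, -, hSE, hc, he, h8⟩ := exists_E S A hAn hAab hA3 S'
  have hb := bal_of_constrained h2c
  refine ⟨WW 2 E, Nat.odd_iff.mpr (Nat.two_dvd_ne_zero.mp (sig hb hc he h8).1), fun B hB hr => ?_⟩
  have h := main hb S'.isPGroup' hSE hc he h8 hB hr
  refine ⟨h, ?_⟩
  rw [h]
  exact normalizer_le_normalizer_WW 2 B

end Cfsg.Agent.S3110
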