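import Cfsg.Statements.S3153
import Cfsg.Agent.H46.Standard
import Cfsg.Agent.H92.SylLocal

set_option autoImplicit false
open Cfsg

namespace Cfsg.Agent.S3153

open Subgroup Cfsg.Agent.H44
open scoped commutatorElement


/-- Let X be a finite group and P a standard subgroup of X whose centralizer has 2-rank at most 1 and whose centre has odd order. Let S be a Sylow 2-subgroup of N_X(P) and t an involution of S centralizing P. Suppose some element g of X normalizes S, does not lie in S, has its square in S, and conjugates t into P·C_X(P). Then P commutes elementwise with the largest normal odd-order subgroup O(X) of X; consequently every t-invariant 2-component of X containing P is quasisimple. -/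
theorem result {X : Type*} [Group X] [Finite X] (P : Subgroup X) (hP : Cfsg.IsStandardSubgroup P)
    (hr : Cfsg.PRankLE 2 1 ↥(Subgroup.centralizer (P : Set X))) (hZ : Odd (Nat.card ↥(Subgroup.center ↥P)))
    (S : Sylow 2 ↥(Subgroup.normalizer (P : Set X))) (t : X) (ht : orderOf t = 2) (htS : t ∈ (S : Subgroup ↥(Subgroup.normalizer (P : Set X))).map (Subgroup.normalizer (P : Set X)).subtype)
    (htP : t ∈ Subgroup.centralizer (P : Set X))
    (g : X) (hgN : ∀ s ∈ (S : Subgroup ↥(Subgroup.normalizer (P : Set X))).map (Subgroup.normalizer (P : Set X)).subtype, g * s * g⁻¹ ∈ (S : Subgroup ↥(Subgroup.normalizer (P : Set X))).map (Subgroup.normalizer (P : Set X)).subtype)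
    (hgS : g ∉ (S : Subgroup ↥(Subgroup.normalizer (P : Set X))).map (Subgroup.normalizer (P : Set X)).subtype) (hg2 : g ^ 2 ∈ (S : Subgroup ↥(Subgroup.normalizer (P : Set X))).map (Subgroup.normalizer (P : Set X)).subtype)
    (hgt : g * t * g⁻¹ ∈ P ⊔ Subgroup.centralizer (P : Set X)) :
    ⁅P, Cfsg.oddCore X⁆ = ⊥ ∧
      ∀ L : Subgroup X, Cfsg.IsPComponent 2 L → P ≤ L → (∀ l ∈ L, t * l * t⁻¹ ∈ L) → Cfsg.IsQuasisimple ↥L := by
  have hS := H92.sylIn_of_sylow S
  set T := (S : Subgroup ↥(normalizer (P : Set X))).map (normalizer (P : Set X)).subtype with hT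
  have hPq := H46.standard_qs hP
  have hcomp := H46.standard_comp hP ht htP
  have huniq : ∀ a ∈ centralizer (P : Set X), orderOf a = 2 → Commute a t → a = t :=
    fun a ha ha2 => H46.eq_of_pRankLE_one hr ha htP ha2 ht
  have htt := H8.mul_self_of_orderOf_two ht
  have ht1 := H8.ne_one_of_orderOf_two ht
  have htT : t ∈ centralizer (T : Set X) := by
    obtain ⟨z, hz, hz2, hzT⟩ := H46.exists_involution_centralized (p := 2)
      (U := T ⊓ centralizer (P : Set X)) (hS.pgroup.to_le inf_le_left)
      (fun h => ht1 (mem_bot.1 (h ▸ mem_inf.2 ⟨htS, htP⟩))) hS.pgroup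
      (H21.le_normalizer_inf le_normalizer (hS.le.trans (normalizer_le_normalizer_centralizer P)))
    rwa [huniq z hz.2 hz2 (hzT t htS).symm] at hzT
  set u := g * t * g⁻¹ with hu
  have huT : u ∈ T := hgN t htS
  have hut : u * t = t * u := htT u huT
  have hu2 : orderOf u = 2 := by rw [hu, H8.orderOf_conj', ht]
  have huu := H8.mul_self_of_orderOf_two hu2
  have hune : u ≠ t := fun h => by
    have h1 : g ∈ normalizer (P : Set X) := H46.standard_centralizer_le_normalizer hP ht htP
      (mem_centralizer_singleton_iff.2 (mul_inv_eq_iff_eq_mul.1 h))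
    have h2 : IsPGroup 2 (zpowers g) := by
      obtain ⟨k, hk⟩ := hS.pgroup ⟨_, hg2⟩
      have h3 : g ^ 2 ^ (k + 1) = 1 := by
        rw [pow_succ', pow_mul]; exact congrArg Subtype.val hk
      obtain ⟨j, -, hj⟩ := (Nat.dvd_prime_pow Nat.prime_two).1 (orderOf_dvd_of_pow_eq_one h3)
      exact IsPGroup.of_card (by rw [Nat.card_zpowers, hj])
    have h3 := hS.max (T ⊔ zpowers g) (sup_le hS.le (zpowers_le_of_mem h1))
      (isPGroup_sup_of_le_normalizer (zpowers_le_of_mem (H92.mem_normalizer_of_conj_mem hgN))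
        hS.pgroup h2) le_sup_left
    exact hgS (h3.le (mem_sup_right (mem_zpowers g)))
  have hgu : g * u * g⁻¹ = t := by
    have := htT _ hg2
    calc g * u * g⁻¹ = (g ^ 2 * t) * (g ^ 2)⁻¹ := by rw [hu, sq]; group
      _ = t := by rw [this]; group
  -- decompose `u`
  have hZ' : Odd (Nat.card ↥(P ⊓ centralizer (P : Set X))) := by
    rwa [← map_center_subtype, card_map_of_injective P.subtype_injective]
  obtain ⟨a, ha, c, hc, hac, haa, hcc⟩ : ∃ a ∈ P, ∃ c ∈ centralizer (P : Set X), u = a * c ∧
      a * a = 1 ∧ c * c = 1 := by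
    obtain ⟨a, ha, c, hc, hac⟩ := (mem_sup_of_le_normalizer'
      (le_normalizer.trans (normalizer_le_normalizer_centralizer P))).1 hgt
    have hcm : Commute a c := hc a ha
    have h1 : (a * a) * (c * c) = 1 := by rw [← hcm.symm.mul_mul_mul_comm, hac, huu]
    have h2 : a * a ∈ P ⊓ centralizer (P : Set X) := by
      refine mem_inf.2 ⟨mul_mem ha ha, ?_⟩
      rw [eq_inv_of_mul_eq_one_left h1]
      exact inv_mem (mul_mem hc hc)
    obtain ⟨k, hk⟩ := hZ'
    have h3 : (a * a) ^ (2 * k + 1) = 1 := by
      rw [← hk]; exact orderOf_dvd_iff_pow_eq_one.1 (orderOf_dvd_natCard _ h2)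
    refine ⟨a ^ (2 * k + 1), pow_mem ha _, c ^ (2 * k + 1), pow_mem hc _, ?_, ?_, ?_⟩
    · rw [← hcm.mul_pow, hac, pow_succ, pow_mul, sq, huu, one_pow, one_mul]
    · rw [← (Commute.refl a).mul_pow, h3]
    · rw [← (Commute.refl c).mul_pow, eq_inv_of_mul_eq_one_right h1, inv_pow, h3, inv_one]
  have ha1 : a ≠ 1 := fun h => by
    rw [h, one_mul] at hac
    exact hune (huniq u (hac ▸ hc) hu2 hut)
  have ha2 := H8.orderOf_two_of haa ha1
  have haZ : a ∉ centralizer (P : Set X) := fun h =>
    H46.not_coprime_two_of_mem (mem_inf.2 ⟨ha, h⟩) ha2 (coprime_two_iff_odd.2 hZ')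
  have hat : a * t = t * a := htP a ha
  have hane : a ≠ t := fun h => haZ (h ▸ htP)
  have hev := H46.not_coprime_two_of_mem ha ha2
  have hOn : ∀ U : Subgroup X, U ≤ normalizer (pPrimeCore 2 X : Set X) := fun U =>
    le_top.trans (normalizer_eq_top _).ge
  have h1 : pPrimeCore 2 X ⊓ centralizer ({t} : Set X) ≤ centralizer (P : Set X) :=
    H46.comp_commutator_inf_centralizer hcomp hev pPrimeCore_coprime (hOn P)
  have h2 : pPrimeCore 2 X ⊓ centralizer ({u} : Set X) ≤ centralizer ({g * a * g⁻¹} : Set X) := by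
    intro x hx
    have h3 : g⁻¹ * x * g ∈ pPrimeCore 2 X ⊓ centralizer ({t} : Set X) := by
      refine ⟨H21.conj_mem_of_mem_normalizer' (hOn ⊤ trivial) hx.1,
        mem_centralizer_singleton_iff.2 ?_⟩
      have h4 := mem_centralizer_singleton_iff.1 hx.2
      calc g⁻¹ * x * g * t = g⁻¹ * (x * u) * g := by rw [hu]; group
        _ = _ := by rw [h4, hu]; group
    have h4 := h1 h3 a ha
    refine mem_centralizer_singleton_iff.2 ?_
    calc x * (g * a * g⁻¹) = g * ((g⁻¹ * x * g) * a) * g⁻¹ := by group
      _ = _ := by rw [← h4]; group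
  have h3 : P ≤ centralizer (pPrimeCore 2 X : Set X) := by
    by_cases hc1 : c = 1
    · rw [hc1, mul_one] at hac
      rw [← hac, hgu, hac] at h2
      have h4 : pPrimeCore 2 X ≤ centralizer ({t * a} : Set X) := by
        refine H46.le_of_four ht ha2 hane.symm hat.symm (coprime_iff_not_dvd.1 pPrimeCore_coprime)
          (hOn ⊤ trivial) (hOn ⊤ trivial) (fun x hx => ?_) (fun x hx => ?_) inf_le_right
        · exact mem_centralizer_singleton_iff.2 (Commute.mul_right
            (mem_centralizer_singleton_iff.1 hx.2) (h1 hx a ha).symm)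
        · exact mem_centralizer_singleton_iff.2 (Commute.mul_right
            (mem_centralizer_singleton_iff.1 (h2 hx)) (mem_centralizer_singleton_iff.1 hx.2))
      exact H46.qs_le_of_mul_mem hPq (le_top.trans (normalizer_eq_top _).ge) htP ha haZ
        fun x hx => mem_centralizer_singleton_iff.1 (h4 hx)
    · have hct : c = t := by
        refine huniq c hc (H8.orderOf_two_of hcc hc1) ?_
        rw [eq_inv_mul_of_mul_eq hac.symm]
        exact Commute.mul_left (Commute.inv_left hat) hut
      rw [hct] at hac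
      have h4 : g * a * g⁻¹ = a := by
        calc g * a * g⁻¹ = (g * u * g⁻¹) * (g * t * g⁻¹)⁻¹ := by rw [hac]; group
          _ = a⁻¹ := by rw [hgu, ← hu, hac]; group
          _ = a := H8.inv_eq_of_orderOf_two ha2
      rw [h4, hac] at h2
      have h5 : pPrimeCore 2 X ≤ centralizer ({a} : Set X) :=
        H46.le_of_four ha2 ht hane hat (coprime_iff_not_dvd.1 pPrimeCore_coprime)
          (hOn ⊤ trivial) (hOn ⊤ trivial) inf_le_right
          (fun x hx => mem_centralizer_singleton_iff.2 (h1 hx a ha).symm) h2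
      refine H46.qs_le_of_mul_mem hPq (le_top.trans (normalizer_eq_top _).ge) (one_mem _) ha haZ ?_
      rw [one_mul]
      exact fun x hx => mem_centralizer_singleton_iff.1 (h5 hx)
  refine ⟨commutator_eq_bot_iff_le_centralizer.2 h3, fun L hL hPL _ => ?_⟩
  have hL' : PComp 2 ⊤ L := pcomp_top_iff.2 hL
  refine qs_iff.1 (hL'.comp_iff_commutator.2 ?_).qs
  rw [Oppof_top, commutator_eq_bot_iff_le_centralizer]
  rcases hL'.pqs.normal (centralizer (pPrimeCore 2 X : Set X) ⊓ L) inf_le_right
    (H21.le_normalizer_inf (le_top.trans (normalizer_eq_top _).ge) le_normalizer) with h | h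
  · exact h.ge.trans inf_le_left
  · exact absurd (coprime_of_le (hPq.perfect.ge.trans ((commutator_mono (le_inf h3 hPL) hPL).trans h))
      (pPrimeCoreOf_coprime L)) hev

end Cfsg.Agent.S3153
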