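import Cfsg.Statements.S3155
import Mathlib

set_option autoImplicit false
open Cfsg

namespace Cfsg.Agent.S3155


/-- Let B be the direct product of three cyclic groups of order 4. Then the automorphism of B inverting every element is not the square of any automorphism of B. -/
theorem result {B : Type*} [CommGroup B] [Finite B] (hB : Nonempty (B ≃* Multiplicative (ZMod 4 × ZMod 4 × ZMod 4)))
    (τ : B ≃* B) : τ.trans τ ≠ MulEquiv.inv B := by
  obtain ⟨e⟩ := hB
  intro h
  have hx : ∀ b, τ (τ b) = b⁻¹ := fun b => by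
    have := congrArg (fun f : B ≃* B => f b) h
    simpa using this
  let σ : Multiplicative (ZMod 4 × ZMod 4 × ZMod 4) ≃* Multiplicative (ZMod 4 × ZMod 4 × ZMod 4) :=
    (e.symm.trans τ).trans e
  have hσ : ∀ b, σ (σ b) = b⁻¹ := fun b => by
    simp [σ, hx]
  let s : (ZMod 4 × ZMod 4 × ZMod 4) →+ (ZMod 4 × ZMod 4 × ZMod 4) :=
    { toFun := fun b => (σ (Multiplicative.ofAdd b)).toAdd
      map_zero' := by simp
      map_add' := fun a b => by rw [ofAdd_add, map_mul, toAdd_mul] }
  have hs : ∀ b, s (s b) = -b := fun b => by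
    have := hσ (Multiplicative.ofAdd b)
    exact congrArg Multiplicative.toAdd this
  let L : (ZMod 4 × ZMod 4 × ZMod 4) →ₗ[ZMod 4] (ZMod 4 × ZMod 4 × ZMod 4) := s.toZModLinearMap 4
  have hL : L ∘ₗ L = (-1 : ZMod 4) • LinearMap.id := by
    apply LinearMap.ext
    intro b
    simp [L, hs]
  have hdet := congrArg LinearMap.det hL
  rw [LinearMap.det_comp, LinearMap.det_smul, LinearMap.det_id] at hdet
  have hr : Module.finrank (ZMod 4) (ZMod 4 × ZMod 4 × ZMod 4) = 3 := by
    haveI : Nontrivial (ZMod 4) := ⟨⟨0, 1, by decide⟩⟩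
    rw [Module.finrank_prod, Module.finrank_prod, Module.finrank_self]
  rw [hr] at hdet
  revert hdet
  generalize LinearMap.det L = d
  revert d
  decide

end Cfsg.Agent.S3155
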