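import Cfsg.Statements.S3179
import Mathlib
import Cfsg.Agent.H66.SL2Order
import Cfsg.Agent.H9.SLBasic
import Cfsg.Agent.S1163
import Cfsg.Agent.S0280

set_option autoImplicit false
open Cfsg

namespace Cfsg.Agent.S3179



theorem card_gl5 : Nat.card (GL (Fin 5) (ZMod 2)) = 9999360 := by
  rw [Matrix.card_GL_field, ZMod.card]; decide

/-- first element of order three -/
def ea : GL (Fin 5) (ZMod 2) :=
  ⟨!![0,1,0,0,0;1,1,0,0,0;0,0,1,0,0;0,0,0,1,0;0,0,0,0,1], !![1,1,0,0,0;1,0,0,0,0;0,0,1,0,0;0,0,0,1,0;0,0,0,0,1],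
    by decide +kernel, by decide +kernel⟩

/-- second element of order three -/
def eb : GL (Fin 5) (ZMod 2) :=
  ⟨!![1,0,0,0,0;0,1,0,0,0;0,0,0,1,0;0,0,1,1,0;0,0,0,0,1], !![1,0,0,0,0;0,1,0,0,0;0,0,1,1,0;0,0,1,0,0;0,0,0,0,1],
    by decide +kernel, by decide +kernel⟩

theorem no_nine (y : GL (Fin 5) (ZMod 2)) : orderOf y ≠ 9 := by
  classical
  intro hy
  haveI : Fact (Nat.Prime 3) := ⟨Nat.prime_three⟩
  have h9 : ∀ P : Sylow 3 (GL (Fin 5) (ZMod 2)), Nat.card P = 9 := fun P => by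
    have e : (9999360 : ℕ) = 3 ^ 2 * 1111040 := by norm_num
    rw [P.card_eq_multiplicity, card_gl5, e, Nat.factorization_mul (by norm_num) (by norm_num), Nat.factorization_pow]
    simp [Nat.Prime.factorization_self Nat.prime_three,
      Nat.factorization_eq_zero_of_not_dvd (by norm_num : ¬ 3 ∣ 1111040)]
  obtain ⟨P, hP⟩ := (IsPGroup.of_card (p := 3) (n := 2) (G := Subgroup.zpowers y)
    (by rw [Nat.card_zpowers, hy]; norm_num)).exists_le_sylow
  have hc : IsCyclic P := by
    refine isCyclic_of_orderOf_eq_card ⟨y, hP (Subgroup.mem_zpowers y)⟩ ?_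
    rw [Subgroup.orderOf_mk, hy, h9]
  have ha : ea ^ 3 = 1 := Units.ext (by decide +kernel)
  have hb : eb ^ 3 = 1 := Units.ext (by decide +kernel)
  have hab : Commute ea eb := Units.ext (by decide +kernel)
  have pa : IsPGroup 3 (Subgroup.zpowers ea) := by
    rintro ⟨_, k, rfl⟩
    exact ⟨1, Subtype.ext (by
      show (ea ^ k) ^ 3 ^ 1 = 1
      rw [pow_one, ← zpow_natCast, ← zpow_mul, mul_comm, zpow_mul, zpow_natCast, ha, one_zpow])⟩
  have pb : IsPGroup 3 (Subgroup.zpowers eb) := by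
    rintro ⟨_, k, rfl⟩
    exact ⟨1, Subtype.ext (by
      show (eb ^ k) ^ 3 ^ 1 = 1
      rw [pow_one, ← zpow_natCast, ← zpow_mul, mul_comm, zpow_mul, zpow_natCast, hb, one_zpow])⟩
  obtain ⟨Q, hQ⟩ := (pa.to_sup_of_normal_right' pb (by
    rw [Subgroup.zpowers_le]
    refine Subgroup.centralizer_le_normalizer _ ?_
    rintro _ ⟨k, rfl⟩
    exact (hab.symm.zpow_left k).eq)).exists_le_sylow
  have hQc : IsCyclic Q := isCyclic_of_surjective (Sylow.equiv P Q) (Sylow.equiv P Q).surjective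
  have ma : ea ∈ Q := hQ (Subgroup.mem_sup_left (Subgroup.mem_zpowers _))
  have mb : eb ∈ Q := hQ (Subgroup.mem_sup_right (Subgroup.mem_zpowers _))
  letI : Fintype Q := Fintype.ofFinite _
  have h3 := IsCyclic.card_pow_eq_one_le (α := Q) (n := 3) (by norm_num)
  have h4 : ({1, ⟨ea, ma⟩, ⟨eb, mb⟩, ⟨ea, ma⟩ * ⟨eb, mb⟩} : Finset Q) ⊆
      Finset.univ.filter (fun a : Q => a ^ 3 = 1) := by
    intro x hx
    simp only [Finset.mem_insert, Finset.mem_singleton] at hx
    rw [Finset.mem_filter]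
    refine ⟨Finset.mem_univ _, ?_⟩
    rcases hx with rfl | rfl | rfl | rfl
    · simp
    · exact Subtype.ext ha
    · exact Subtype.ext hb
    · apply Subtype.ext
      show (ea * eb) ^ 3 = 1
      rw [hab.mul_pow, ha, hb, one_mul]
  have n1 : ea ≠ 1 := fun h => absurd (congrArg Units.val h) (by decide +kernel)
  have n2 : eb ≠ 1 := fun h => absurd (congrArg Units.val h) (by decide +kernel)
  have n3 : ea ≠ eb := fun h => absurd (congrArg Units.val h) (by decide +kernel)
  have n4 : ea * eb ≠ 1 := fun h => absurd (congrArg Units.val h) (by decide +kernel)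
  have := (Finset.card_le_card h4).trans h3
  rw [Finset.card_insert_of_notMem, Finset.card_insert_of_notMem, Finset.card_insert_of_notMem] at this
  · simp at this
  · simp [Subtype.ext_iff, n1]
  · simp [Subtype.ext_iff, n2, n3]
  · simp [Subtype.ext_iff, n1.symm, n2.symm, n4.symm]


/-- Let X be a section of the general linear group GL(5, 2), that is, a quotient of a subgroup of it. If X is isomorphic to PSL(2, 2^n) for some n ≥ 2, to a Suzuki group over the field with 2^(2m+1) elements for some m ≥ 1, or to PSU(3, 2^n) for some n ≥ 2, then X is isomorphic to PSL(2, 4). -/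
theorem result {H : Subgroup (GL (Fin 5) (ZMod 2))}
    {K : Subgroup ↥H} [K.Normal]
    (hX : (∃ (n : ℕ) (F : Type) (_ : Field F) (_ : Fintype F), 2 ≤ n ∧ Fintype.card F = 2 ^ n ∧
        Nonempty (↥H ⧸ K ≃* Matrix.ProjectiveSpecialLinearGroup (Fin 2) F)) ∨
      (∃ (m : ℕ) (F : Type) (_ : Field F) (_ : Fintype F), 1 ≤ m ∧ Fintype.card F = 2 ^ (2 * m + 1) ∧
        Nonempty (↥H ⧸ K ≃* ↥(Cfsg.Lie.Sz F (2 ^ (m + 1))))) ∨
      (∃ (n : ℕ) (F : Type) (_ : Field F) (_ : Fintype F), 2 ≤ n ∧ Fintype.card F = 4 ^ n ∧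
        Nonempty (↥H ⧸ K ≃* Cfsg.PSU 3 F (2 ^ n)))) :
    ∃ (F : Type) (_ : Field F) (_ : Fintype F), Fintype.card F = 4 ∧
      Nonempty (↥H ⧸ K ≃* Matrix.ProjectiveSpecialLinearGroup (Fin 2) F) := by
  have hd : Nat.card (↥H ⧸ K) ∣ 9999360 := by
    rw [← card_gl5]
    exact (Subgroup.card_quotient_dvd_card K).trans H.card_subgroup_dvd_card
  rcases hX with ⟨n, F, _, _, hn, hF, ⟨e⟩⟩ | ⟨m, F, _, _, hm, hF, ⟨e⟩⟩ | ⟨n, F, _, _, hn, hF, ⟨e⟩⟩
  · have h1 := H9.gcd_mul_card_psl_two (F := F)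
    have h2 : Fintype.card F * (Fintype.card F ^ 2 - 1) ∣ 2 * 9999360 := by
      rw [← h1, ← Nat.card_congr e.toEquiv]
      exact Nat.mul_dvd_mul (Nat.gcd_dvd_left _ _) hd
    rw [hF] at h2
    have h3 : n ≤ 24 := by
      by_contra h
      have := Nat.le_of_dvd (by norm_num) (dvd_of_mul_right_dvd h2)
      have := Nat.pow_le_pow_right (by norm_num : 0 < 2) (show 25 ≤ n by omega)
      omega
    have h4 : n = 2 ∨ n = 3 := by
      interval_cases n <;> first | omega | (exact absurd h2 (by norm_num))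
    rcases h4 with rfl | rfl
    · exact ⟨F, _, _, hF, ⟨e⟩⟩
    · exfalso
      obtain ⟨x, hx, -⟩ := H66.exists_nonsplit (F := F)
      have h20 : (2 : F) = 0 := by
        have := FiniteField.cast_card_eq_zero F
        rw [hF] at this
        exact pow_eq_zero_iff (n := 3) (by norm_num) |>.1 (by exact_mod_cast this)
      rw [Nat.card_eq_fintype_card, hF, ← orderOf_injective _ (H66.toPSL_injective h20),
        ← e.symm.orderOf_eq] at hx
      obtain ⟨y, hy⟩ := QuotientGroup.mk'_surjective K (e.symm (H66.toPSL F x))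
      have h5 : 9 ∣ orderOf (y : GL (Fin 5) (ZMod 2)) := by
        rw [Subgroup.orderOf_coe]
        have := orderOf_map_dvd (QuotientGroup.mk' K) y
        rwa [hy, hx] at this
      exact no_nine _ (orderOf_pow_orderOf_div (orderOf_pos _).ne' h5)
  · exfalso
    rw [Nat.card_congr e.toEquiv, (S1163.result hm hF).1] at hd
    have h3 : m ≤ 12 := by
      by_contra h
      have := Nat.le_of_dvd (by norm_num) (dvd_of_mul_left_dvd hd)
      have h5 := Nat.pow_le_pow_right (by norm_num : 0 < 2) (show 25 ≤ 2 * m + 1 by omega)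
      have := Nat.le_self_pow (two_ne_zero) (2 ^ (2 * m + 1))
      omega
    interval_cases m <;> exact absurd hd (by norm_num)
  · exfalso
    have h1 := S0280.result (F := F) (q := 2 ^ n) (by rw [hF, ← pow_mul, mul_comm, pow_mul]; norm_num) 3 (by norm_num)
    rw [← Nat.card_congr e.toEquiv] at h1
    have h2 : (2 ^ n) ^ (3 * (3 - 1) / 2) * ∏ i ∈ Finset.range 3,
        (if Even i then (2 ^ n) ^ (i + 1) + 1 else (2 ^ n) ^ (i + 1) - 1) ∣ 3 * ((2 ^ n + 1) * 9999360) := by
      rw [← h1]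
      exact Nat.mul_dvd_mul (Nat.gcd_dvd_left _ _) (Nat.mul_dvd_mul_left _ hd)
    simp only [Finset.prod_range_succ, Finset.prod_range_zero, one_mul, Even.zero, if_true, zero_add, pow_one,
      Nat.not_even_one, if_false, even_two] at h2
    have h4 : (2 ^ n) ^ 3 * (((2 ^ n) ^ 2 - 1) * ((2 ^ n) ^ 3 + 1)) ∣ 3 * 9999360 := by
      apply Nat.dvd_of_mul_dvd_mul_left (Nat.succ_pos (2 ^ n))
      convert h2 using 1 <;> simp only [Nat.succ_eq_add_one] <;> ring
    have h3 : n ≤ 24 := by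
      by_contra h
      have := Nat.le_of_dvd (by norm_num) (dvd_of_mul_right_dvd h4)
      have h5 := Nat.pow_le_pow_right (by norm_num : 0 < 2) (show 25 ≤ n by omega)
      have := Nat.le_self_pow (three_ne_zero) (2 ^ n)
      omega
    interval_cases n <;> exact absurd h4 (by norm_num)

end Cfsg.Agent.S3179
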