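import Cfsg.Statements.S3180
import Mathlib

set_option autoImplicit false
open Cfsg

namespace Cfsg.Agent.S3180


/-- Let P be a Sylow p-subgroup of a finite group J and P₁ a subgroup of P that is weakly closed in P with respect to J. If J acts on a set and two points, each fixed by every element of P₁, lie in one J-orbit, then they lie in one orbit of the normalizer of P₁ in J. -/
theorem result {J : Type*} [Group J] [Finite J]
    {p : ℕ} [Fact p.Prime] (P : Sylow p J) (P₁ : Subgroup J) (hW : Cfsg.IsWeaklyClosed P₁ (P : Subgroup J))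
    {Ω : Type*} [MulAction J Ω] (x y : Ω) (hx : ∀ g ∈ P₁, g • x = x) (hy : ∀ g ∈ P₁, g • y = y)
    (hc : ∃ g : J, g • x = y) :
    ∃ g ∈ Subgroup.normalizer (P₁ : Set J), g • x = y := by
  obtain ⟨g, hg⟩ := hc
  set H := MulAction.stabilizer J y with hH
  have hP1 : IsPGroup p P₁ := P.isPGroup'.to_le hW.1
  have h1 : P₁ ≤ H := fun a ha => hy a ha
  set P₂ := P₁.map (MulAut.conj g).toMonoidHom with hP₂
  have hP2 : IsPGroup p P₂ := hP1.map _
  have h2 : P₂ ≤ H := by
    rintro _ ⟨a, ha, rfl⟩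
    show (g * a * g⁻¹) • y = y
    rw [← hg, mul_smul, mul_smul, inv_smul_smul, hx a ha]
  obtain ⟨Q₁, hQ₁⟩ := (hP1.comap_subtype (K := H)).exists_le_sylow
  obtain ⟨Q₂, hQ₂⟩ := (hP2.comap_subtype (K := H)).exists_le_sylow
  obtain ⟨h, hh⟩ := MulAction.exists_smul_eq H Q₂ Q₁
  have hQ : IsPGroup p ((Q₁ : Subgroup H).map H.subtype) := Q₁.isPGroup'.map _
  obtain ⟨R, hR⟩ := hQ.exists_le_sylow
  obtain ⟨k, hk⟩ := MulAction.exists_smul_eq J R P
  have hRP : ∀ a ∈ (R : Subgroup J), k * a * k⁻¹ ∈ (P : Subgroup J) := by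
    intro a ha
    rw [← hk]
    exact ⟨a, ha, rfl⟩
  have e1 : P₁.map (MulAut.conj k).toMonoidHom = P₁ := by
    apply hW.2
    rintro _ ⟨a, ha, rfl⟩
    apply hRP
    apply hR
    exact ⟨⟨a, h1 ha⟩, hQ₁ ha, rfl⟩
  have e2 : P₁.map (MulAut.conj (k * h * g)).toMonoidHom = P₁ := by
    apply hW.2
    rintro _ ⟨a, ha, rfl⟩
    have ha2 : g * a * g⁻¹ ∈ P₂ := ⟨a, ha, rfl⟩
    have : (h : J) * (g * a * g⁻¹) * (h : J)⁻¹ ∈ (R : Subgroup J) := by
      apply hR
      refine ⟨h * ⟨_, h2 ha2⟩ * h⁻¹, ?_, rfl⟩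
      rw [← hh]
      exact ⟨_, hQ₂ ha2, rfl⟩
    have := hRP _ this
    show k * h * g * a * (k * h * g)⁻¹ ∈ _
    convert this using 1
    group
  have n1 : k ∈ Subgroup.normalizer (P₁ : Set J) := by
    rw [Subgroup.mem_normalizer_iff_map_conj_eq]; exact e1
  have n2 : k * h * g ∈ Subgroup.normalizer (P₁ : Set J) := by
    rw [Subgroup.mem_normalizer_iff_map_conj_eq]; exact e2
  refine ⟨h * g, ?_, ?_⟩
  · have := (Subgroup.normalizer (P₁ : Set J)).mul_mem ((Subgroup.normalizer (P₁ : Set J)).inv_mem n1) n2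
    convert this using 1
    group
  · rw [mul_smul, hg]; exact h.2

end Cfsg.Agent.S3180
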