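import Cfsg.Statements.S3183
import Mathlib
import Cfsg.Agent.H74.SylowBasic

set_option autoImplicit false
open Cfsg

namespace Cfsg.Agent.S3183

theorem aux {G : Type*} [Group G] [Finite G]
    (hCI : ∀ S T : Sylow 2 G, S ≠ T → ∃ U : Sylow 2 G,
      (S : Subgroup G) ⊓ (T : Subgroup G) ≤ (Subgroup.center ↥(U : Subgroup G)).map (U : Subgroup G).subtype)
    (S : Sylow 2 G) (D : Subgroup G) :
    ∀ T : Sylow 2 G, T ≠ S → D = (S : Subgroup G) ⊓ (T : Subgroup G) →
      D ≤ (Subgroup.center ↥(S : Subgroup G)).map (S : Subgroup G).subtype := by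
  haveI : Fact (Nat.Prime 2) := ⟨Nat.prime_two⟩
  induction D using WellFoundedGT.induction with
  | ind D ih =>
  intro T hT hD
  obtain ⟨U, hU⟩ := hCI S T hT.symm
  rw [← hD] at hU
  have hUN : (U : Subgroup G) ≤ Subgroup.normalizer (D : Set G) := by
    rw [Subgroup.le_normalizer_iff]
    intro u hu d hd
    rw [(H74.mem_map_center_iff.1 (hU hd)).2 u hu]
    simpa using hd
  obtain ⟨n, hn, hn2⟩ := H74.exists_conj_mem_sylow_of_le U hUN
    (S.isPGroup'.to_inf_left (K := Subgroup.normalizer (D : Set G))) inf_le_right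
  have hD' : D ≤ (Subgroup.center ↥((n⁻¹ • U : Sylow 2 G) : Subgroup G)).map
      ((n⁻¹ • U : Sylow 2 G) : Subgroup G).subtype := by
    intro d hd
    have hd' : n * d * n⁻¹ ∈ D := (Subgroup.mem_normalizer_iff.1 hn d).1 hd
    have := H74.mem_map_center_iff.1 (hU hd')
    rw [H74.mem_map_center_iff]
    refine ⟨by rw [H74.mem_smul_sylow_iff]; simpa using this.1, fun s hs => ?_⟩
    rw [H74.mem_smul_sylow_iff, inv_inv] at hs
    have h3 := this.2 _ hs
    calc s * d = n⁻¹ * (n * s * n⁻¹ * (n * d * n⁻¹)) * n := by group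
      _ = n⁻¹ * (n * d * n⁻¹ * (n * s * n⁻¹)) * n := by rw [h3]
      _ = d * s := by group
  by_cases hE : n⁻¹ • U = S
  · rw [hE] at hD'; exact hD'
  · have hDS : D < (S : Subgroup G) := by
      refine lt_of_le_of_ne (hD ▸ inf_le_left) ?_
      intro h
      apply hT
      have : (S : Subgroup G) ≤ T := by rw [← h, hD]; exact inf_le_right
      exact Sylow.ext (S.is_maximal' T.isPGroup' this)
    obtain ⟨x, hx1, hx2, hx3⟩ := H74.exists_mem_normalizer_not_mem S.isPGroup' hDS
    have hlt : D < (S : Subgroup G) ⊓ ((n⁻¹ • U : Sylow 2 G) : Subgroup G) := by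
      refine lt_of_le_of_ne (le_inf hDS.le (hD'.trans (Subgroup.map_subtype_le _))) ?_
      intro h
      apply hx2
      rw [h]
      refine ⟨hx1, ?_⟩
      show x ∈ ((n⁻¹ • U : Sylow 2 G) : Subgroup G)
      rw [H74.mem_smul_sylow_iff, inv_inv]
      exact hn2 x ⟨hx1, hx3⟩
    exact hlt.le.trans (ih _ hlt _ hE rfl)


/-- Let G be a finite group in which the intersection of any two distinct Sylow 2-subgroups is contained in the centre of some Sylow 2-subgroup, and let S be a Sylow 2-subgroup. Then for every x in S the centralizer of x in S is a Sylow 2-subgroup of the centralizer of x in G (no 2-subgroup centralizing x is larger), and for every other Sylow 2-subgroup T the intersection S ∩ T lies in both the centre of S and the centre of T. -/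
theorem result {G : Type*} [Group G] [Finite G]
    (hCI : ∀ S T : Sylow 2 G, S ≠ T → ∃ U : Sylow 2 G,
      (S : Subgroup G) ⊓ (T : Subgroup G) ≤ (Subgroup.center ↥(U : Subgroup G)).map (U : Subgroup G).subtype)
    (S : Sylow 2 G) :
    (∀ x ∈ (S : Subgroup G), ∀ P : Subgroup G, IsPGroup 2 ↥P → P ≤ Subgroup.centralizer ({x} : Set G) →
        Nat.card ↥P ≤ Nat.card ↥((S : Subgroup G) ⊓ Subgroup.centralizer ({x} : Set G))) ∧
    (∀ T : Sylow 2 G, T ≠ S →
        (S : Subgroup G) ⊓ (T : Subgroup G) ≤
          (Subgroup.center ↥(S : Subgroup G)).map (S : Subgroup G).subtype ⊓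
            (Subgroup.center ↥(T : Subgroup G)).map (T : Subgroup G).subtype) := by
  haveI : Fact (Nat.Prime 2) := ⟨Nat.prime_two⟩
  refine ⟨fun x hx P hP hPx => ?_, fun T hT => le_inf (aux hCI S _ T hT rfl) ?_⟩
  · have hxP : IsPGroup 2 ↥(P ⊔ Subgroup.zpowers x) := by
      apply IsPGroup.to_sup_of_normal_right' hP (S.isPGroup'.to_le (Subgroup.zpowers_le.2 hx))
      rw [Subgroup.le_normalizer_iff]
      intro a ha y hy
      obtain ⟨k, rfl⟩ := Subgroup.mem_zpowers_iff.1 hy
      have : Commute a x := Subgroup.mem_centralizer_singleton_iff.1 (hPx ha)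
      rw [(this.zpow_right k).eq]
      simp
    obtain ⟨T, hT⟩ := hxP.exists_le_sylow
    by_cases hTS : T = S
    · subst hTS
      exact Subgroup.card_le_of_le (le_inf (le_sup_left.trans hT) hPx)
    · have hxT : x ∈ (T : Subgroup G) := hT (Subgroup.mem_sup_right (Subgroup.mem_zpowers x))
      have hxZ := H74.mem_map_center_iff.1 (aux hCI S _ T hTS rfl ⟨hx, hxT⟩)
      have : (S : Subgroup G) ⊓ Subgroup.centralizer ({x} : Set G) = S := by
        apply inf_eq_left.2
        intro s hs
        rw [Subgroup.mem_centralizer_singleton_iff]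
        exact hxZ.2 s hs
      rw [this]
      calc Nat.card P ≤ Nat.card (T : Subgroup G) := Subgroup.card_le_of_le (le_sup_left.trans hT)
        _ = Nat.card (S : Subgroup G) := by rw [T.card_eq_multiplicity, S.card_eq_multiplicity]
  · rw [inf_comm]
    exact aux hCI T _ S hT.symm rfl

end Cfsg.Agent.S3183
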