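import Cfsg.Statements.S3184
import Mathlib
import Cfsg.Agent.H74.SylowBasic
import Cfsg.Agent.S3183
import Cfsg.Agent.S0215

set_option autoImplicit false
open Cfsg

namespace Cfsg.Agent.S3184


/-- Let G be a finite group in which the intersection of any two distinct Sylow 2-subgroups is contained in the centre of some Sylow 2-subgroup, and let S be a Sylow 2-subgroup. If C is a nontrivial cyclic characteristic subgroup of S, then the involution of C is central modulo the largest normal subgroup of odd order of G: each of its conjugates has the same image in G/O(G). -/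
theorem result {G : Type*} [Group G] [Finite G]
    (hCI : ∀ S T : Sylow 2 G, S ≠ T → ∃ U : Sylow 2 G,
      (S : Subgroup G) ⊓ (T : Subgroup G) ≤ (Subgroup.center ↥(U : Subgroup G)).map (U : Subgroup G).subtype)
    (S : Sylow 2 G) (C : Subgroup ↥(S : Subgroup G)) (hC : C ≠ ⊥) (hCc : IsCyclic ↥C) (hCh : C.Characteristic)
    (c : ↥(S : Subgroup G)) (hc : c ∈ C) (hc2 : orderOf c = 2) :
    ∀ g : G, (QuotientGroup.mk (s := Cfsg.oddCore G) (g * (c : G) * g⁻¹)) =
      QuotientGroup.mk (s := Cfsg.oddCore G) (c : G) := by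
  classical
  haveI : Fact (Nat.Prime 2) := ⟨Nat.prime_two⟩
  -- `c` is the only involution of `C`
  have huniq : ∀ d ∈ C, orderOf d = 2 → d = c := by
    intro d hd hd2
    haveI := Fintype.ofFinite C
    have h0 : orderOf (⟨c, hc⟩ : C) = 2 := by rw [Subgroup.orderOf_mk, hc2]
    have h1 := IsCyclic.card_orderOf_eq_totient (α := C) (d := 2) (h0.symm.dvd.trans orderOf_dvd_card)
    rw [Nat.totient_two, Finset.card_eq_one] at h1
    obtain ⟨a, ha⟩ := h1
    have e1 : (⟨d, hd⟩ : C) ∈ ({a} : Finset C) := by
      rw [← ha]; simp [Subgroup.orderOf_mk, hd2]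
    have e2 : (⟨c, hc⟩ : C) ∈ ({a} : Finset C) := by
      rw [← ha]; simp [Subgroup.orderOf_mk, hc2]
    rw [Finset.mem_singleton] at e1 e2
    exact congrArg Subtype.val (e1.trans e2.symm)
  have hN : ∀ g ∈ Subgroup.normalizer ((S : Subgroup G) : Set G), g * (c : G) * g⁻¹ = c := by
    intro g hg
    have hmem := hCh.fixed ((S : Subgroup G).normalizerMonoidHom ⟨g, hg⟩)
    have h1 := hc
    rw [← hmem] at h1
    have := huniq _ h1 (by
      show orderOf ((S : Subgroup G).normalizerMonoidHom ⟨g, hg⟩ c) = 2
      rw [MulEquiv.orderOf_eq, hc2])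
    exact congrArg Subtype.val this
  have hiso : ∀ g : G, g * (c : G) * g⁻¹ ∈ S → g * (c : G) * g⁻¹ = c := by
    intro g hg
    by_cases hgS : g • S = S
    · exact hN g (Sylow.smul_eq_iff_mem_normalizer.1 hgS)
    · have h1 : g * (c : G) * g⁻¹ ∈ ((g • S : Sylow 2 G) : Subgroup G) := by
        rw [H74.mem_smul_sylow_iff]
        have e : g⁻¹ * (g * (c : G) * g⁻¹) * g = c := by group
        rw [e]; exact c.2
      have h2 := (S3183.result hCI S).2 _ hgS ⟨hg, h1⟩
      have h3 := (H74.mem_map_center_iff.1 h2.1).2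
      have h4 := (H74.mem_map_center_iff.1 h2.2).2
      set d := g * (c : G) * g⁻¹ with hd
      have hS : (S : Subgroup G) ≤ Subgroup.centralizer {d} := fun s hs =>
        Subgroup.mem_centralizer_singleton_iff.2 (h3 s hs)
      have hgS' : ((g • S : Sylow 2 G) : Subgroup G) ≤ Subgroup.centralizer {d} := fun s hs =>
        Subgroup.mem_centralizer_singleton_iff.2 (h4 s hs)
      obtain ⟨h, hh, hh2⟩ := H74.exists_conj_mem_sylow_of_le S hS (g • S).isPGroup' hgS'
      have h5 : h * g ∈ Subgroup.normalizer ((S : Subgroup G) : Set G) := by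
        apply Sylow.smul_eq_iff_mem_normalizer.1
        apply Sylow.ext
        symm
        apply ((h * g) • S).is_maximal' S.isPGroup'
        intro x hx
        rw [H74.mem_smul_sylow_iff] at hx
        have := hh2 (h⁻¹ * x * h) (by
          rw [H74.mem_smul_sylow_iff]
          convert hx using 1; group)
        convert this using 1; group
      have h6 := hN _ h5
      have h7 : h * d = d * h := Subgroup.mem_centralizer_singleton_iff.1 hh
      calc d = h * d * h⁻¹ := by rw [h7]; group
        _ = c := by rw [← h6, hd]; group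
  obtain ⟨N, hN1, hN2, hN3⟩ := S0215.result S (c : G) (by rw [Subgroup.orderOf_coe, hc2]) c.2 hiso
  intro g
  symm
  rw [QuotientGroup.eq]
  have hle : N ≤ Cfsg.oddCore G := le_sSup ⟨hN1, (Nat.coprime_two_right).2 hN2⟩
  apply hle
  have hc1 : (c : G) * c = 1 := by
    have := pow_orderOf_eq_one c
    rw [hc2, pow_two] at this
    exact congrArg Subtype.val this
  have hci : (c : G)⁻¹ = c := inv_eq_of_mul_eq_one_right hc1
  have := hN3 g
  rw [hci] at this ⊢
  convert this using 1; group

end Cfsg.Agent.S3184
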