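import Cfsg.Statements.S3190
import Mathlib
import Cfsg.Agent.H74.SylowBasic
import Cfsg.Agent.S0065

set_option autoImplicit false
open Cfsg

namespace Cfsg.Agent.S3190


/-- Let p be an odd prime and, inside a finite group, let P be a p-subgroup normalized by a Klein four-group T. Let R be a subgroup of P, normal in P and normalized by T, such that P is the product of R with the centralizer of T in P. If T centralizes the centre of P, then T centralizes the centre of R. -/
theorem result {X : Type*} [Group X] [Finite X]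
    {p : ℕ} (hp : p.Prime) (hodd : Odd p) (P T R : Subgroup X) (hP : IsPGroup p ↥P) (hT : IsKleinFour ↥T)
    (hTP : T ≤ Subgroup.normalizer (P : Set X)) (hRP : R ≤ P) (hRn : (R.subgroupOf P).Normal)
    (hTR : T ≤ Subgroup.normalizer (R : Set X)) (hfac : R ⊔ (P ⊓ Subgroup.centralizer (T : Set X)) = P)
    (hZ : T ≤ Subgroup.centralizer (((Subgroup.center ↥P).map P.subtype : Subgroup X) : Set X)) :
    T ≤ Subgroup.centralizer (((Subgroup.center ↥R).map R.subtype : Subgroup X) : Set X) := by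
  haveI : Fact p.Prime := ⟨hp⟩
  intro t ht
  have ht2 : t * t = 1 := by
    have := hT.exponent_two
    have h2 := Monoid.pow_exponent_eq_one (⟨t, ht⟩ : T)
    rw [this] at h2
    simpa [pow_two] using congrArg Subtype.val h2
  have hti : t⁻¹ = t := inv_eq_of_mul_eq_one_right ht2
  set Z : Subgroup X := (Subgroup.center ↥R).map R.subtype with hZdef
  have hZ' : ∀ z, z ∈ Z ↔ z ∈ R ∧ ∀ s ∈ R, s * z = z * s := fun z => H74.mem_map_center_iff
  -- elements of `Z` inverted by `t`
  let W : Subgroup X :=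
    { carrier := {z | z ∈ Z ∧ t * z * t⁻¹ = z⁻¹}
      one_mem' := ⟨Z.one_mem, by simp⟩
      mul_mem' := by
        rintro a b ⟨ha, ha'⟩ ⟨hb, hb'⟩
        refine ⟨Z.mul_mem ha hb, ?_⟩
        have : a * b = b * a := ((hZ' b).1 hb).2 a ((hZ' a).1 ha).1
        calc t * (a * b) * t⁻¹ = (t * a * t⁻¹) * (t * b * t⁻¹) := by group
          _ = (b * a)⁻¹ := by rw [ha', hb']; group
          _ = (a * b)⁻¹ := by rw [this]
      inv_mem' := by
        rintro a ⟨ha, ha'⟩
        refine ⟨Z.inv_mem ha, ?_⟩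
        calc t * a⁻¹ * t⁻¹ = (t * a * t⁻¹)⁻¹ := by group
          _ = a⁻¹⁻¹ := by rw [ha'] }
  have hWP : W ≤ P := fun z hz => hRP ((hZ' z).1 hz.1).1
  have hPR : P ≤ Subgroup.normalizer (R : Set X) := Subgroup.le_normalizer_of_normal_subgroupOf hRP
  have hZn : ∀ g ∈ Subgroup.normalizer (R : Set X), ∀ z ∈ Z, g * z * g⁻¹ ∈ Z := by
    intro g hg z hz
    rw [hZ'] at hz ⊢
    refine ⟨(Subgroup.mem_normalizer_iff.1 hg z).1 hz.1, fun s hs => ?_⟩
    have hs' : g⁻¹ * s * g ∈ R := (Subgroup.mem_normalizer_iff''.1 hg s).1 hs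
    have := hz.2 _ hs'
    calc s * (g * z * g⁻¹) = g * (g⁻¹ * s * g * z) * g⁻¹ := by group
      _ = g * (z * (g⁻¹ * s * g)) * g⁻¹ := by rw [this]
      _ = _ := by group
  have hPW : P ≤ Subgroup.normalizer (W : Set X) := by
    rw [← hfac]
    apply sup_le
    · rw [Subgroup.le_normalizer_iff]
      intro r hr z hz
      rw [((hZ' z).1 hz.1).2 r hr]
      simpa using hz
    · rw [Subgroup.le_normalizer_iff]
      intro c hc z hz
      refine ⟨hZn c (hPR hc.1) z hz.1, ?_⟩
      have hct : t * c = c * t := hc.2 t ht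
      calc t * (c * z * c⁻¹) * t⁻¹ = (t * c) * z * (t * c)⁻¹ := by group
        _ = c * (t * z * t⁻¹) * c⁻¹ := by rw [hct]; group
        _ = _ := by rw [hz.2]; group
  have hWbot : W = ⊥ := by
    by_contra hne
    haveI : (W.subgroupOf P).Normal := Subgroup.normal_subgroupOf_of_le_normalizer hPW
    have hne' : W.subgroupOf P ≠ ⊥ := by
      rw [Ne, Subgroup.subgroupOf_eq_bot, disjoint_iff, inf_eq_left.2 hWP]
      exact hne
    haveI : Group.IsNilpotent P := hP.isNilpotent
    have := S0065.result (W.subgroupOf P) hne'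
    obtain ⟨⟨w, hw⟩, hw1⟩ := Subgroup.ne_bot_iff_exists_ne_one.1 this
    have hc : (w : X) * t = t * w := hZ ht _ ⟨w, hw.2, rfl⟩
    have hinv : t * w * t⁻¹ = (w : X)⁻¹ := hw.1.2
    have hw2 : w ^ 2 = 1 := by
      apply Subtype.ext
      rw [← hc, mul_inv_cancel_right] at hinv
      simp only [pow_two, Subgroup.coe_mul, Subgroup.coe_one]
      nth_rewrite 1 [hinv]
      simp
    obtain ⟨k, hk⟩ := hP w
    have hcop : Nat.Coprime 2 (p ^ k) := by
      apply Nat.Coprime.pow_right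
      exact (Nat.coprime_two_left).2 hodd
    apply hw1
    apply Subtype.ext
    exact (pow_eq_one_iff_of_coprime hcop).1 ⟨hw2, hk⟩
  intro z hz
  have hz' : t * z * t⁻¹ ∈ Z := hZn t (hTR ht) z hz
  have hmem : z⁻¹ * (t * z * t⁻¹) ∈ W := by
    refine ⟨Z.mul_mem (Z.inv_mem hz) hz', ?_⟩
    have hcomm : z⁻¹ * (t * z * t⁻¹) = (t * z * t⁻¹) * z⁻¹ :=
      ((hZ' _).1 hz').2 _ ((hZ' _).1 (Z.inv_mem hz)).1
    calc t * (z⁻¹ * (t * z * t⁻¹)) * t⁻¹ = t * z⁻¹ * t * z * (t * t)⁻¹ := by group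
      _ = t * z⁻¹ * t⁻¹ * z := by rw [ht2, hti]; simp
      _ = _ := by group
  rw [hWbot, Subgroup.mem_bot] at hmem
  calc z * t = z * (z⁻¹ * (t * z * t⁻¹)) * t := by rw [hmem]; simp
    _ = t * z := by group

end Cfsg.Agent.S3190
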