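import Cfsg.Statements.S3191
import Cfsg.Agent.ALT.KIso

set_option autoImplicit false
open Cfsg

namespace Cfsg.Agent.S3191

open Subgroup Cfsg.Agent.H49 Cfsg.Agent.ALT Equiv Equiv.Perm

/-- Let n ≥ 1 and r = 2 or 3, and let H be the centralizer in the alternating group of degree 4n + r of an involution moving exactly 4n points (a product of 2n disjoint transpositions). Let G be a finite group that has no normal subgroup of index 2 and that contains an involution t which is central in some Sylow 2-subgroup of G and whose centralizer is isomorphic to H. Then G has exactly n conjugacy classes of involutions. -/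
theorem result (n r : ℕ) (hn : 1 ≤ n) (hr : r = 2 ∨ r = 3)
    (α : ↥(alternatingGroup (Fin (4 * n + r)))) (hα : orderOf α = 2)
    (hα4 : (α : Equiv.Perm (Fin (4 * n + r))).support.card = 4 * n)
    {G : Type*} [Group G] [Finite G] (h2 : ∀ H : Subgroup G, H.Normal → H.index ≠ 2)
    (t : G) (ht : orderOf t = 2) (S : Sylow 2 G) (htS : t ∈ (S : Subgroup G))
    (htZ : ∀ s ∈ (S : Subgroup G), s * t = t * s)
    (hiso : Nonempty (↥(Subgroup.centralizer ({t} : Set G)) ≃*
      ↥(Subgroup.centralizer ({α} : Set ↥(alternatingGroup (Fin (4 * n + r))))))) :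
    Nat.card {c : ConjClasses G // ∃ x ∈ c.carrier, orderOf x = 2} = n := by
  have : Nonempty (Fin n) := ⟨⟨0, hn⟩⟩
  obtain ⟨e⟩ := hiso
  obtain ⟨χ⟩ := exists_model_iso (ι := Fin n) (ρ := Fin r) (by simp) α
    (by rw [← hα, ← Subgroup.coe_pow, pow_orderOf_eq_one]; rfl) (by simpa using hα4)
  have : ∃ s : Perm (Fin r), s * s = 1 ∧ sign s = -1 ∧ (∀ σ : Perm (Fin r), sign σ = 1 → σ ^ 3 = 1) ∧
      ∀ σ : Perm (Fin r), sign σ = 1 → σ * s = s * σ → σ = 1 := by
    rcases hr with rfl | rfl <;> decide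
  obtain ⟨s, h1, h3, h4, h5⟩ := this
  obtain ⟨θ, K₁, K₂, k, rfl⟩ := kondo_of_model (orderOf_eq_two_iff.1 ht).2 (χ.trans e.symm) h1 h3
    h4 h5
  have res : pResidual 2 G = ⊤ := by
    by_contra hne
    obtain ⟨M, hM, hi⟩ := H3.pResidual_ne_top_iff.1 hne
    exact h2 M hM hi
  rw [k.card_classes res fun hd => S.not_dvd_index
    (hd.trans (index_dvd_of_le fun s hs => mem_cent1.2 (htZ s hs))), Fintype.card_fin]

end Cfsg.Agent.S3191
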