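import Cfsg.Statements.S3195
import Mathlib
import Cfsg.Agent.S0200
import Cfsg.Agent.H74.OddAut

set_option autoImplicit false
open Cfsg

namespace Cfsg.Agent.S3195

section
variable {G : Type*} [Group G]

theorem eq_one_of_odd [Finite G] {x : G} (hx : Odd (orderOf x)) {k : ℕ} (h : x ^ (2 ^ k) = 1) : x = 1 := by
  have h1 := orderOf_dvd_of_pow_eq_one h
  have h2 : Nat.Coprime (orderOf x) (2 ^ k) := Nat.Coprime.pow_right _ ((Nat.coprime_two_right).2 hx)
  exact orderOf_eq_one_iff.1 (h2.eq_one_of_dvd h1)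

theorem comm_of_sq [Finite G] {x y : G} (hx : Odd (orderOf x)) (h : Commute y (x * x)) : Commute y x :=
  (H74.commute_of_pow_commute (k := 2) ((Nat.coprime_two_right).2 hx) (by rw [pow_two]; exact h.symm)).symm

theorem inv_comm [Finite G] {a x : G} (hx : Odd (orderOf x)) (h : a * x * a⁻¹ = x⁻¹) (hc : Commute a x) : x = 1 := by
  apply eq_one_of_odd hx (k := 1)
  rw [hc.eq, mul_inv_cancel_right] at h
  rw [pow_one, pow_two]; nth_rewrite 1 [h]; simp

theorem conj_eq {a x : G} (h : a * x * a⁻¹ = x⁻¹) : x⁻¹ * a * x⁻¹⁻¹ = a * (x * x) := by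
  calc x⁻¹ * a * x⁻¹⁻¹ = a * x * a⁻¹ * a * x := by rw [h, inv_inv]
    _ = a * (x * x) := by group

/-- The main configuration is impossible. -/
theorem core [Finite G] {a c x y : G} (hac : Commute a c) (hc2 : c * c = 1)
    (hx : Odd (orderOf x)) (hx1 : x ≠ 1) (hy : Odd (orderOf y)) (hy1 : y ≠ 1)
    (hax : a * x * a⁻¹ = x⁻¹) (hcx : Commute c x) (hcy : c * y * c⁻¹ = y⁻¹) (hay : Commute a y)
    (h1 : Commute a (x * (y⁻¹ * c * y⁻¹⁻¹) * x⁻¹) ∨ Commute c (x * (y⁻¹ * c * y⁻¹⁻¹) * x⁻¹) ∨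
      Commute (a * c) (x * (y⁻¹ * c * y⁻¹⁻¹) * x⁻¹))
    (h2 : Commute a ((x * y)⁻¹ * (a * c) * (x * y)⁻¹⁻¹) ∨ Commute c ((x * y)⁻¹ * (a * c) * (x * y)⁻¹⁻¹) ∨
      Commute (a * c) ((x * y)⁻¹ * (a * c) * (x * y)⁻¹⁻¹)) : False := by
  rw [conj_eq hcy] at h1
  set e := c * (y * y) with he
  have hae : Commute a e := hac.mul_right (hay.mul_right hay)
  have hce : ¬ Commute c e := by
    intro h
    have : Commute c (y * y) := by
      have := (Commute.refl c).inv_right.mul_right h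
      rwa [he, inv_mul_cancel_left] at this
    exact hy1 (inv_comm hy hcy (comm_of_sq hy this))
  have tr : ∀ α : G, Commute α (x * e * x⁻¹) → Commute (x⁻¹ * α * x⁻¹⁻¹) e := by
    intro α h
    show _ * e = e * _
    calc x⁻¹ * α * x⁻¹⁻¹ * e = x⁻¹ * (α * (x * e * x⁻¹)) * x := by group
      _ = _ := by rw [h.eq]; group
  have hacx : a * c * x * (a * c)⁻¹ = x⁻¹ := by
    rw [← hax, mul_assoc a c, hcx.eq]; group
  have hxy : Commute x y := by
    rcases h1 with h | h | h
    · have h3 := tr _ h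
      rw [conj_eq hax] at h3
      have h4 : Commute e (x * x) := by
        have := hae.inv_left.mul_left h3
        rw [inv_mul_cancel_left] at this
        exact this.symm
      have h5 := comm_of_sq hx h4
      have h6 : Commute x (y * y) := by
        have := hcx.symm.inv_right.mul_right h5.symm
        rwa [he, inv_mul_cancel_left] at this
      exact comm_of_sq hy h6
    · have h3 := tr _ h
      have : x⁻¹ * c * x⁻¹⁻¹ = c := by rw [inv_inv, mul_assoc, hcx.eq]; group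
      rw [this] at h3
      exact absurd h3 hce
    · have h3 := tr _ h
      rw [conj_eq hacx] at h3
      have h4 : Commute (c * (x * x)) e := by
        have := hae.inv_left.mul_left h3
        rwa [mul_assoc a, inv_mul_cancel_left] at this
      have h5 := h4.pow_left (orderOf x)
      obtain ⟨k, hk⟩ := hx
      rw [(hcx.mul_right hcx).mul_pow, (Commute.refl x).mul_pow, pow_orderOf_eq_one, mul_one, mul_one, hk, pow_succ,
        pow_mul, pow_two, hc2, one_pow, one_mul] at h5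
      exact absurd h5 hce
  have hxyo : Odd (orderOf (x * y)) := (hx.mul hy).of_dvd_nat hxy.orderOf_mul_dvd_mul_orderOf
  have hacxy : a * c * (x * y) * (a * c)⁻¹ = (x * y)⁻¹ := by
    calc a * c * (x * y) * (a * c)⁻¹ = (a * c * x * (a * c)⁻¹) * (a * (c * y * c⁻¹) * a⁻¹) := by group
      _ = x⁻¹ * y⁻¹ := by rw [hacx, hcy, hay.inv_right.eq]; group
      _ = _ := by rw [hxy.eq, mul_inv_rev]
  rw [conj_eq hacxy] at h2
  have red : ∀ α : G, Commute α (a * c) → Commute α (a * c * (x * y * (x * y))) → Commute α (x * y) := by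
    intro α h3 h4
    apply comm_of_sq hxyo
    have := h3.inv_right.mul_right h4
    rwa [inv_mul_cancel_left] at this
  rcases h2 with h | h | h
  · have h3 := red a ((Commute.refl a).mul_right hac) h
    have : Commute a x := by
      have := h3.mul_right hay.inv_right
      rwa [mul_inv_cancel_right] at this
    exact hx1 (inv_comm hx hax this)
  · have h3 := red c (hac.symm.mul_right (Commute.refl c)) h
    have : Commute c y := by
      have := hcx.inv_right.mul_right h3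
      rwa [inv_mul_cancel_left] at this
    exact hy1 (inv_comm hy hcy this)
  · have h3 := inv_comm hxyo hacxy (red _ (Commute.refl _) h)
    have : x = y⁻¹ := eq_inv_of_mul_eq_one_left h3
    exact hx1 (inv_comm hx hax (this ▸ hay.inv_right))

end


/-- Let A be a Klein four-subgroup of a finite group G. If every G-conjugate of every involution of A commutes with some involution of A (its centralizer meets A nontrivially), then A meets the largest normal 2-subgroup O₂(G) nontrivially. -/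
theorem result {G : Type*} [Group G] [Finite G]
    (A : Subgroup G) (hA : IsKleinFour ↥A)
    (h : ∀ a ∈ A, a ≠ 1 → ∀ g : G, A ⊓ Subgroup.centralizer ({g * a * g⁻¹} : Set G) ≠ ⊥) :
    A ⊓ Cfsg.pCore 2 G ≠ ⊥ := by
  classical
  haveI := hA
  intro hbot
  have h2 : ∀ a ∈ A, a * a = 1 := fun a ha => congrArg Subtype.val (IsKleinFour.mul_self (⟨a, ha⟩ : A))
  have hcomm : ∀ a ∈ A, ∀ b ∈ A, Commute a b := by
    intro a ha b hb
    have e := h2 _ (A.mul_mem ha hb)
    show a * b = b * a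
    calc a * b = (a * a)⁻¹ * a * b⁻¹ * (b * b)⁻¹ * (a * a) * a⁻¹ * a⁻¹ := by
          rw [h2 a ha, h2 b hb, inv_eq_of_mul_eq_one_right (h2 b hb), inv_eq_of_mul_eq_one_right (h2 a ha)]
          simp [mul_assoc, h2 a ha]
      _ = (a * b)⁻¹ * 1 * (a * b)⁻¹ * b * a := by
          rw [h2 a ha, h2 b hb, inv_eq_of_mul_eq_one_right e, inv_eq_of_mul_eq_one_right (h2 b hb),
            inv_eq_of_mul_eq_one_right (h2 a ha)]
          calc 1⁻¹ * a * b * 1⁻¹ * 1 * a * a = a * b * (a * a) := by group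
            _ = a * b * (a * (b * b) * a) := by rw [h2 b hb]; group
            _ = _ := by group
      _ = b * a := by rw [inv_eq_of_mul_eq_one_right e, mul_one, e, one_mul]
  have hodd : ∀ a ∈ A, a ≠ 1 → ∃ x : G, x ≠ 1 ∧ Odd (orderOf x) ∧ a * x * a⁻¹ = x⁻¹ := by
    intro a ha ha1
    apply S0200.result a (orderOf_eq_prime (by rw [pow_two, h2 a ha]) ha1)
    intro N hN hN2 haN
    apply ha1
    have : a ∈ A ⊓ Cfsg.pCore 2 G := ⟨ha, (le_sSup (s := {N : Subgroup G | N.Normal ∧ IsPGroup 2 N}) ⟨hN, hN2⟩) haN⟩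
    rwa [hbot, Subgroup.mem_bot] at this
  have hex : ∀ a ∈ A, a ≠ 1 → ∀ g : G, ∃ c ∈ A, c ≠ 1 ∧ Commute c (g * a * g⁻¹) := by
    intro a ha ha1 g
    obtain ⟨⟨c, hc⟩, hc1⟩ := Subgroup.ne_bot_iff_exists_ne_one.1 (h a ha ha1 g)
    exact ⟨c, hc.1, fun e => hc1 (Subtype.ext e), Subgroup.mem_centralizer_singleton_iff.1 hc.2⟩
  have hthree : ∀ a ∈ A, ∀ c ∈ A, a ≠ 1 → c ≠ 1 → a ≠ c → ∀ b ∈ A, b ≠ 1 → b = a ∨ b = c ∨ b = a * c := by
    intro a ha c hc ha1 hc1 hac b hb hb1
    by_contra hcon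
    push Not at hcon
    have := IsKleinFour.eq_mul_of_ne_all (G := A) (x := ⟨a, ha⟩) (y := ⟨c, hc⟩) (z := ⟨b, hb⟩)
      (fun e => ha1 (congrArg Subtype.val e)) (fun e => hc1 (congrArg Subtype.val e))
      (fun e => hac (congrArg Subtype.val e)) (fun e => hb1 (congrArg Subtype.val e))
      (fun e => hcon.1 (congrArg Subtype.val e)) (fun e => hcon.2.1 (congrArg Subtype.val e))
    exact hcon.2.2 (congrArg Subtype.val this)
  have hAne : A ≠ ⊥ := by
    intro e
    have := hA.card_four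
    rw [e, Subgroup.card_bot] at this
    omega
  obtain ⟨⟨a, ha⟩, ha1'⟩ := Subgroup.ne_bot_iff_exists_ne_one.1 hAne
  have ha1 : a ≠ 1 := fun e => ha1' (Subtype.ext e)
  -- one step: `a` inverts `x`, some other `c` centralizes `x`
  have step : ∀ a ∈ A, a ≠ 1 → ∀ x : G, x ≠ 1 → Odd (orderOf x) → a * x * a⁻¹ = x⁻¹ →
      ∃ c ∈ A, c ≠ 1 ∧ c ≠ a ∧ Commute c x := by
    intro a ha ha1 x hx1 hx hax
    obtain ⟨c, hc, hc1, hcd⟩ := hex a ha ha1 x⁻¹
    rw [conj_eq hax] at hcd
    have hcx : Commute c x := by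
      apply comm_of_sq hx
      have := (hcomm c hc a ha).inv_right.mul_right hcd
      rwa [inv_mul_cancel_left] at this
    refine ⟨c, hc, hc1, ?_, hcx⟩
    rintro rfl
    exact hx1 (inv_comm hx hax hcx)
  obtain ⟨x, hx1, hx, hax⟩ := hodd a ha ha1
  obtain ⟨c, hc, hc1, hca, hcx⟩ := step a ha ha1 x hx1 hx hax
  obtain ⟨y, hy1, hy, hcy⟩ := hodd c hc hc1
  obtain ⟨a', ha', ha'1, ha'c, ha'y⟩ := step c hc hc1 y hy1 hy hcy
  have ha'x : a' * x * a'⁻¹ = x⁻¹ := by
    rcases hthree a ha c hc ha1 hc1 hca.symm a' ha' ha'1 with rfl | rfl | rfl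
    · exact hax
    · exact absurd rfl ha'c
    · rw [← hax, mul_assoc a c, hcx.eq]; group
  have hcases : ∀ b ∈ A, b ≠ 1 → ∀ g : G, Commute a' (g * b * g⁻¹) ∨ Commute c (g * b * g⁻¹) ∨
      Commute (a' * c) (g * b * g⁻¹) := by
    intro b hb hb1 g
    obtain ⟨d, hd, hd1, hdc⟩ := hex b hb hb1 g
    rcases hthree a' ha' c hc ha'1 hc1 ha'c d hd hd1 with rfl | rfl | rfl
    · exact Or.inl hdc
    · exact Or.inr (Or.inl hdc)
    · exact Or.inr (Or.inr hdc)
  have hac1 : a' * c ≠ 1 := by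
    intro e
    apply ha'c
    rw [eq_inv_of_mul_eq_one_left e, inv_eq_of_mul_eq_one_right (h2 c hc)]
  refine core (hcomm a' ha' c hc) (h2 c hc) hx hx1 hy hy1 ha'x hcx hcy ha'y ?_ (hcases _ (A.mul_mem ha' hc) hac1 _)
  have e : x * (y⁻¹ * c * y⁻¹⁻¹) * x⁻¹ = (x * y⁻¹) * c * (x * y⁻¹)⁻¹ := by group
  rw [e]
  exact hcases c hc hc1 _

end Cfsg.Agent.S3195
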