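import Cfsg.Statements.S3196
import Mathlib
import Cfsg.Agent.H74.OddAut

set_option autoImplicit false
open Cfsg
open scoped Pointwise

namespace Cfsg.Agent.S3196

section
variable {G : Type*} [Group G]

theorem comm_sup {r x y u : G} (hx : Commute r x) (hy : Commute r y)
    (hu : u ∈ Subgroup.zpowers x ⊔ Subgroup.zpowers y) : Commute r u := by
  have : Subgroup.zpowers x ⊔ Subgroup.zpowers y ≤ Subgroup.centralizer {r} := by
    apply sup_le <;> rw [Subgroup.zpowers_le, Subgroup.mem_centralizer_singleton_iff]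
    · exact hx.symm
    · exact hy.symm
  exact (Subgroup.mem_centralizer_singleton_iff.1 (this hu)).symm

theorem comm_zp {r x u : G} (hx : Commute r x) (hu : u ∈ Subgroup.zpowers x) : Commute r u := by
  obtain ⟨k, rfl⟩ := hu
  exact hx.zpow_right k

theorem mem_back [Finite G] {p : ℕ} (hp : p.Prime) {x u : G} (hx : orderOf x = p) (hu : u ∈ Subgroup.zpowers x)
    (hu1 : u ≠ 1) : x ∈ Subgroup.zpowers u := by
  haveI : Fact p.Prime := ⟨hp⟩
  have := mem_zpowers_of_prime_card (G := Subgroup.zpowers x) (p := p) (by rw [Nat.card_zpowers, hx])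
    (g := ⟨u, hu⟩) (fun e => hu1 (congrArg Subtype.val e)) (g' := ⟨x, Subgroup.mem_zpowers x⟩)
  obtain ⟨k, hk⟩ := this
  exact ⟨k, congrArg Subtype.val hk⟩

theorem exchange [Finite G] {p : ℕ} (hp : p.Prime) {x y u : G} (hy : orderOf y = p) (hxy : Commute x y)
    (hu : u ∈ Subgroup.zpowers x ⊔ Subgroup.zpowers y) (hux : u ∉ Subgroup.zpowers x) :
    y ∈ Subgroup.zpowers x ⊔ Subgroup.zpowers u := by
  have h1 : ∃ a ∈ Subgroup.zpowers x, ∃ b ∈ Subgroup.zpowers y, a * b = u := by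
    have : u ∈ ((Subgroup.zpowers x : Subgroup G) : Set G) * (Subgroup.zpowers y : Set G) := by
      rw [← Subgroup.coe_mul_of_left_le_normalizer_right]
      · exact hu
      · rw [Subgroup.le_normalizer_iff]
        intro a ha b hb
        rw [(comm_zp (comm_zp hxy hb).symm ha).symm.eq]
        simpa using hb
    exact this
  obtain ⟨a, ha, b, hb, rfl⟩ := h1
  have hb1 : b ≠ 1 := by rintro rfl; exact hux (by simpa using ha)
  have h2 : b ∈ Subgroup.zpowers x ⊔ Subgroup.zpowers (a * b) := by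
    have := Subgroup.mul_mem_sup (Subgroup.inv_mem _ ha) (Subgroup.mem_zpowers (a * b))
    simpa using this
  exact (Subgroup.zpowers_le.2 h2) (mem_back hp hy hb hb1)

theorem lemA [Finite G] {p : ℕ} (hp : p.Prime) (D : Set G) (hD : ∀ x ∈ D, orderOf x = p)
    (hB : ∀ x ∈ D, ∀ y ∈ D, Commute x y → y ∉ Subgroup.zpowers x → ∀ w ∈ D,
      ∃ u ∈ D, u ∈ Subgroup.zpowers x ⊔ Subgroup.zpowers y ∧ Commute u w)
    (hrad : ∀ x ∈ D, ∃ r ∈ D, ¬ Commute r x) {a b : G} (ha : a ∈ D) (hb : b ∈ D)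
    (hab : ∀ r ∈ D, Commute r a → Commute r b) : b ∈ Subgroup.zpowers a := by
  have hne : ∀ x ∈ D, x ≠ 1 := fun x hx e => by
    have := hD x hx; rw [e, orderOf_one] at this; exact hp.one_lt.ne this
  by_contra hba
  have hc : Commute a b := hab a ha (Commute.refl a)
  obtain ⟨r, hr, hra⟩ := hrad a ha
  obtain ⟨u, hu, hu1, hur⟩ := hB a ha b hb hc hba r hr
  have hau : ∀ s ∈ D, Commute s a → Commute s u := fun s hs h => comm_sup h (hab s hs h) hu1
  obtain ⟨t, ht, htu⟩ := hrad u hu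
  have hua : Commute a u := hau a ha (Commute.refl a)
  have hru : r ∉ Subgroup.zpowers u := fun h => hra (comm_zp hua h).symm
  obtain ⟨r', hr', hr'1, hr't⟩ := hB u hu r hr hur hru t ht
  have hr'u : r' ∉ Subgroup.zpowers u := fun h => htu (comm_zp hr't.symm (mem_back hp (hD u hu) h (hne _ hr')))
  have hur' : Commute u r' := comm_sup (Commute.refl u) hur hr'1
  have hr'a : ¬ Commute a r' := fun h => hra (comm_sup hua h (exchange hp (hD r hr) hur hr'1 hr'u)).symm
  have htr' : t ∉ Subgroup.zpowers r' := fun h => htu (comm_zp hur' h).symm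
  obtain ⟨w, hw, hw1, hwa⟩ := hB r' hr' t ht hr't htr' a ha
  have hwr' : w ∉ Subgroup.zpowers r' := fun h => hr'a (comm_zp hwa.symm (mem_back hp (hD _ hr') h (hne _ hw)))
  exact htu (comm_sup hur' (hau w hw hwa).symm (exchange hp (hD t ht) hr't hw1 hwr')).symm

theorem comm_of_conj_mem [Finite G] {p : ℕ} (hp : p.Prime) {x w : G} (hx : orderOf x = p) (hw : orderOf w = p)
    (h : x * w * x⁻¹ ∈ Subgroup.zpowers w) : Commute x w := by
  haveI : Fact p.Prime := ⟨hp⟩
  have hn : x ∈ Subgroup.normalizer ((Subgroup.zpowers w : Subgroup G) : Set G) := by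
    apply Subgroup.mem_normalizer_fintype
    rintro _ ⟨k, rfl⟩
    show x * w ^ k * x⁻¹ ∈ Subgroup.zpowers w
    rw [← conj_zpow]
    exact Subgroup.zpow_mem _ h k
  have h1 : ((Subgroup.zpowers w).normalizerMonoidHom ⟨x, hn⟩) ^ (p - 1) = 1 := by
    apply orderOf_dvd_iff_pow_eq_one.1
    refine (orderOf_dvd_natCard _).trans ?_
    rw [IsCyclic.card_mulAut, Nat.card_zpowers, hw, Nat.totient_prime hp]
  rw [← map_pow] at h1
  have h2 := congrArg (fun φ : MulAut (Subgroup.zpowers w) => ((φ ⟨w, Subgroup.mem_zpowers w⟩ : _) : G)) h1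
  have h3 : x ^ (p - 1) * w * (x ^ (p - 1))⁻¹ = w := h2
  apply H74.commute_of_pow_commute (k := p - 1)
  · rw [hx]
    exact (Nat.coprime_self_sub_right hp.one_le).2 (Nat.coprime_one_right p)
  · show x ^ (p - 1) * w = w * x ^ (p - 1)
    rw [← mul_inv_eq_iff_eq_mul]; exact h3

theorem main [Finite G] {p : ℕ} (hp : p.Prime) (D : Set G) (hD : ∀ x ∈ D, orderOf x = p)
    (hconj : ∀ x ∈ D, ∀ g : G, g * x * g⁻¹ ∈ D)
    (hB : ∀ x ∈ D, ∀ y ∈ D, Commute x y → y ∉ Subgroup.zpowers x → ∀ w ∈ D,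
      ∃ u ∈ D, u ∈ Subgroup.zpowers x ⊔ Subgroup.zpowers y ∧ Commute u w)
    {x y : G} (hx : x ∈ D) (hy : y ∈ D) (hxy : Commute x y) (hyx : y ∉ Subgroup.zpowers x) (hz : x * y ∈ D) :
    ∃ v ∈ D, ∀ r ∈ D, Commute r v := by
  by_contra hcon
  push Not at hcon
  have hne : ∀ x ∈ D, x ≠ 1 := fun x hx e => by
    have := hD x hx; rw [e, orderOf_one] at this; exact hp.one_lt.ne this
  have A := fun a b ha hb => lemA hp D hD hB hcon (a := a) (b := b) ha hb
  have hxz : x ∉ Subgroup.zpowers (x * y) := by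
    intro h
    exact hyx ((Subgroup.mul_mem_cancel_left _ (Subgroup.mem_zpowers x)).1 (mem_back hp (hD _ hz) h (hne _ hx)))
  obtain ⟨w, hw, hwz, hwx⟩ : ∃ w ∈ D, Commute w (x * y) ∧ ¬ Commute w x := by
    by_contra h
    push Not at h
    exact hxz (A _ _ hz hx h)
  have hwy : ¬ Commute w y := fun h => hwx (by simpa using hwz.mul_right h.inv_right)
  set w' := x * w * x⁻¹ with hw'
  have hw'2 : w' = y⁻¹ * w * y := by
    calc w' = y⁻¹ * (y * x * w) * x⁻¹ := by rw [hw']; group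
      _ = y⁻¹ * (w * (y * x)) * x⁻¹ := by rw [← hxy.eq, hwz.eq]
      _ = _ := by group
  have cx : ∀ s, Commute s w → Commute s x → Commute s w' := fun s h1 h2 =>
    (h2.mul_right h1).mul_right h2.inv_right
  have cy : ∀ s, Commute s w → Commute s y → Commute s w' := fun s h1 h2 =>
    hw'2 ▸ (h2.inv_right.mul_right h1).mul_right h2
  have hw'w : w' ∉ Subgroup.zpowers w := fun h => hwx (comm_of_conj_mem hp (hD x hx) (hD w hw) h).symm
  have hzw : x * y ∉ Subgroup.zpowers w := fun h =>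
    hwx (comm_zp ((Commute.refl x).mul_right hxy) (mem_back hp (hD w hw) h (hne _ hz))).symm
  obtain ⟨s, hs, hsw, hsz⟩ : ∃ s ∈ D, Commute s w ∧ ¬ Commute s (x * y) := by
    by_contra h
    push Not at h
    exact hzw (A _ _ hw hz h)
  have hsw' : s ∉ Subgroup.zpowers w := fun h => hsz (comm_zp hwz.symm h).symm
  obtain ⟨U, hU, hU1, hUy⟩ := hB w hw s hs hsw.symm hsw' y hy
  have hUw : U ∉ Subgroup.zpowers w := fun h => hwy (comm_zp hUy.symm (mem_back hp (hD w hw) h (hne _ hU))).symm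
  have hwU : Commute w U := comm_sup (Commute.refl w) hsw.symm hU1
  have hUx : ¬ Commute U x := fun h =>
    hsz (comm_sup hwz.symm (h.mul_right hUy).symm (exchange hp (hD s hs) hsw.symm hU1 hUw)).symm
  obtain ⟨U₀, hU₀, hU₀1, hU₀x⟩ := hB w hw U hU hwU hUw x hx
  have hU₀U : U₀ ∉ Subgroup.zpowers U := fun h =>
    hUx (comm_zp hU₀x.symm (mem_back hp (hD U hU) h (hne _ hU₀))).symm
  have hwU₀ : Commute w U₀ := comm_sup (Commute.refl w) hwU hU₀1
  have hww' : Commute w' w :=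
    comm_sup (cy U hwU.symm hUy).symm (cx U₀ hwU₀.symm hU₀x).symm
      (exchange hp (hD w hw) hwU.symm (sup_comm (Subgroup.zpowers w) _ ▸ hU₀1) hU₀U)
  apply hw'w
  apply A _ _ hw (hconj w hw x)
  intro r hr hrw
  by_cases h : r ∈ Subgroup.zpowers w
  · exact (comm_zp hww' h).symm
  · obtain ⟨r₀, hr₀, hr₀1, hr₀x⟩ := hB w hw r hr hrw.symm h x hx
    have hr₀w : r₀ ∉ Subgroup.zpowers w := fun h =>
      hwx (comm_zp hr₀x.symm (mem_back hp (hD w hw) h (hne _ hr₀))).symm
    have hwr₀ : Commute w r₀ := comm_sup (Commute.refl w) hrw.symm hr₀1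
    exact (comm_sup hww' (cx r₀ hwr₀.symm hr₀x).symm (exchange hp (hD r hr) hrw.symm hr₀1 hr₀w)).symm

end


/-- Let p be a prime and K a set of subgroups of order p of a finite group G, closed under conjugation, such that at least two distinct members of K commute elementwise, and whenever two distinct members X, Y of K commute: every subgroup of order p of the group XY they generate belongs to K, and every member W of K has centralizer meeting XY nontrivially. Then some member V of K commutes elementwise with every member of K and lies in O_p(G); in particular G is not simple. -/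
theorem result {G : Type*} [Group G] [Finite G]
    {p : ℕ} (hp : p.Prime) (K : Set (Subgroup G)) (hK : ∀ X ∈ K, Nat.card ↥X = p)
    (hKc : ∀ X ∈ K, ∀ g : G, X.map (MulAut.conj g).toMonoidHom ∈ K)
    (hex : ∃ X ∈ K, ∃ Y ∈ K, X ≠ Y ∧ ∀ x ∈ X, ∀ y ∈ Y, x * y = y * x)
    (ha : ∀ X ∈ K, ∀ Y ∈ K, X ≠ Y → (∀ x ∈ X, ∀ y ∈ Y, x * y = y * x) →
      ∀ Z : Subgroup G, Z ≤ X ⊔ Y → Nat.card ↥Z = p → Z ∈ K)
    (hb : ∀ X ∈ K, ∀ Y ∈ K, X ≠ Y → (∀ x ∈ X, ∀ y ∈ Y, x * y = y * x) →
      ∀ W ∈ K, (X ⊔ Y) ⊓ Subgroup.centralizer (W : Set G) ≠ ⊥) :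
    (∃ V ∈ K, (∀ W ∈ K, ∀ v ∈ V, ∀ w ∈ W, v * w = w * v) ∧ V ≤ Cfsg.pCore p G) ∧ ¬ IsSimpleGroup G := by
  haveI : Fact p.Prime := ⟨hp⟩
  set D : Set G := {x | x ≠ 1 ∧ Subgroup.zpowers x ∈ K} with hDdef
  have hD : ∀ x ∈ D, orderOf x = p := fun x hx => by rw [← Nat.card_zpowers]; exact hK _ hx.2
  have hgen : ∀ X ∈ K, ∀ x ∈ X, x ≠ 1 → Subgroup.zpowers x = X := by
    intro X hX x hx hx1
    apply le_antisymm (Subgroup.zpowers_le.2 hx)
    intro y hy
    obtain ⟨k, hk⟩ := mem_zpowers_of_prime_card (G := X) (p := p) (hK X hX)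
      (g := ⟨x, hx⟩) (fun e => hx1 (congrArg Subtype.val e)) (g' := ⟨y, hy⟩)
    exact ⟨k, congrArg Subtype.val hk⟩
  have hgen' : ∀ X ∈ K, ∃ x ∈ D, Subgroup.zpowers x = X := by
    intro X hX
    have : X ≠ ⊥ := by
      intro e
      have := hK X hX
      rw [e, Subgroup.card_bot] at this
      exact hp.one_lt.ne this
    obtain ⟨⟨x, hx⟩, hx1⟩ := Subgroup.ne_bot_iff_exists_ne_one.1 this
    have hx1' : x ≠ 1 := fun e => hx1 (Subtype.ext e)
    exact ⟨x, ⟨hx1', by rw [hgen X hX x hx hx1']; exact hX⟩, hgen X hX x hx hx1'⟩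
  have hconj : ∀ x ∈ D, ∀ g : G, g * x * g⁻¹ ∈ D := by
    intro x hx g
    refine ⟨by simpa using hx.1, ?_⟩
    have := hKc _ hx.2 g
    rwa [MonoidHom.map_zpowers] at this
  have hcc : ∀ x y : G, Commute x y → ∀ a ∈ Subgroup.zpowers x, ∀ b ∈ Subgroup.zpowers y, a * b = b * a :=
    fun x y h a ha b hb => (comm_zp (comm_zp h hb).symm ha).symm
  have hmem : ∀ x ∈ D, ∀ y ∈ D, Commute x y → y ∉ Subgroup.zpowers x →
      ∀ u ∈ Subgroup.zpowers x ⊔ Subgroup.zpowers y, u ≠ 1 → u ∈ D := by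
    intro x hx y hy hxy hyx u hu hu1
    refine ⟨hu1, ha _ hx.2 _ hy.2 (fun e => hyx (e ▸ Subgroup.mem_zpowers y)) (hcc x y hxy) _
      (Subgroup.zpowers_le.2 hu) ?_⟩
    rw [Nat.card_zpowers]
    refine orderOf_eq_prime ?_ hu1
    have : u ∈ ((Subgroup.zpowers x : Subgroup G) : Set G) * (Subgroup.zpowers y : Set G) := by
      rw [← Subgroup.coe_mul_of_left_le_normalizer_right]
      · exact hu
      · rw [Subgroup.le_normalizer_iff]
        intro a ha b hb
        rw [hcc x y hxy a ha b hb]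
        simpa using hb
    obtain ⟨_, ⟨i, rfl⟩, _, ⟨j, rfl⟩, rfl⟩ := this
    show (x ^ i * y ^ j) ^ p = 1
    rw [(hxy.zpow_zpow i j).mul_pow, ← zpow_natCast, ← zpow_natCast, ← zpow_mul, ← zpow_mul, mul_comm i, mul_comm j,
      zpow_mul, zpow_mul, zpow_natCast, zpow_natCast]
    nth_rewrite 1 [← hD x hx]
    rw [← hD y hy, pow_orderOf_eq_one, pow_orderOf_eq_one]; simp
  have hB : ∀ x ∈ D, ∀ y ∈ D, Commute x y → y ∉ Subgroup.zpowers x → ∀ w ∈ D,
      ∃ u ∈ D, u ∈ Subgroup.zpowers x ⊔ Subgroup.zpowers y ∧ Commute u w := by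
    intro x hx y hy hxy hyx w hw
    obtain ⟨⟨u, hu⟩, hu1⟩ := Subgroup.ne_bot_iff_exists_ne_one.1
      (hb _ hx.2 _ hy.2 (fun e => hyx (e ▸ Subgroup.mem_zpowers y)) (hcc x y hxy) _ hw.2)
    exact ⟨u, hmem x hx y hy hxy hyx u hu.1 (fun e => hu1 (Subtype.ext e)), hu.1,
      (hu.2 w (Subgroup.mem_zpowers w)).symm⟩
  obtain ⟨X, hX, Y, hY, hXY, hc⟩ := hex
  obtain ⟨x, hx, rfl⟩ := hgen' X hX
  obtain ⟨y, hy, rfl⟩ := hgen' Y hY
  have hxy : Commute x y := hc x (Subgroup.mem_zpowers x) y (Subgroup.mem_zpowers y)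
  have hyx : y ∉ Subgroup.zpowers x := fun h => hXY (hgen _ hX y h hy.1).symm
  have hz : x * y ∈ D := by
    apply hmem x hx y hy hxy hyx _ (Subgroup.mul_mem_sup (Subgroup.mem_zpowers x) (Subgroup.mem_zpowers y))
    intro e
    apply hyx
    rw [eq_inv_of_mul_eq_one_right e]
    exact Subgroup.inv_mem _ (Subgroup.mem_zpowers x)
  obtain ⟨v, hv, hvr⟩ := main hp D hD hconj hB hx hy hxy hyx hz
  have hN : IsPGroup p (Subgroup.normalClosure ({v} : Set G)) := by
    have hvp : v ^ p = 1 := by rw [← hD v hv, pow_orderOf_eq_one]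
    have hcj : ∀ a ∈ Group.conjugatesOfSet ({v} : Set G), ∃ g : G, a = g * v * g⁻¹ := by
      intro a ha
      obtain ⟨b, hb, hab⟩ := Group.mem_conjugatesOfSet_iff.1 ha
      obtain ⟨g, hg⟩ := isConj_iff.1 hab
      rw [Set.mem_singleton_iff.1 hb] at hg
      exact ⟨g, hg.symm⟩
    have hcomm : ∀ a ∈ Group.conjugatesOfSet ({v} : Set G), ∀ b ∈ Group.conjugatesOfSet ({v} : Set G),
        Commute a b := by
      intro a ha b hb
      obtain ⟨g, rfl⟩ := hcj a ha
      obtain ⟨h, rfl⟩ := hcj b hb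
      have := hvr _ (hconj v hv (h⁻¹ * g))
      show _ * _ = _ * _
      calc g * v * g⁻¹ * (h * v * h⁻¹) = h * (h⁻¹ * g * v * (h⁻¹ * g)⁻¹ * v) * h⁻¹ := by group
        _ = _ := by rw [this.eq]; group
    intro a
    refine ⟨1, Subtype.ext ?_⟩
    obtain ⟨a, ha⟩ := a
    show a ^ p ^ 1 = 1
    rw [pow_one]
    induction ha using Subgroup.closure_induction with
    | mem a ha => obtain ⟨g, rfl⟩ := hcj a ha; rw [conj_pow, hvp]; simp
    | one => simp
    | mul a b ha hb iha ihb =>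
      have : Commute a b := by
        haveI := Subgroup.isMulCommutative_closure (k := Group.conjugatesOfSet ({v} : Set G))
          (fun a ha b hb => hcomm a ha b hb)
        exact congrArg Subtype.val (mul_comm' (⟨a, ha⟩ : Subgroup.closure _) ⟨b, hb⟩)
      rw [this.mul_pow, iha, ihb, one_mul]
    | inv a ha iha => rw [inv_pow, iha, inv_one]
  have hvN : v ∈ Subgroup.normalClosure ({v} : Set G) := Subgroup.subset_normalClosure rfl
  refine ⟨⟨Subgroup.zpowers v, hv.2, fun W hW a ha w hw => ?_, ?_⟩, fun hs => ?_⟩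
  · obtain ⟨w₀, hw₀, rfl⟩ := hgen' W hW
    exact hcc v w₀ (hvr w₀ hw₀).symm a ha w hw
  · exact (Subgroup.zpowers_le.2 hvN).trans
      (le_sSup (s := {N : Subgroup G | N.Normal ∧ IsPGroup p N}) ⟨inferInstance, hN⟩)
  · rcases hs.eq_bot_or_eq_top_of_normal (Subgroup.normalClosure ({v} : Set G)) inferInstance with h | h
    · rw [h, Subgroup.mem_bot] at hvN; exact hv.1 hvN
    · rw [h] at hN
      have hG : IsPGroup p G := hN.of_equiv Subgroup.topEquiv
      haveI := hG.isNilpotent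
      rcases hs.eq_bot_or_eq_top_of_normal (Subgroup.center G) inferInstance with h1 | h1
      · exact Group.IsNilpotent.center_ne_bot G h1
      · have hn : (Subgroup.zpowers x).Normal := ⟨fun a ha g => by
          have : g ∈ Subgroup.center G := by rw [h1]; trivial
          rw [← Subgroup.mem_center_iff.1 this a]; simpa using ha⟩
        rcases hs.eq_bot_or_eq_top_of_normal _ hn with h2 | h2
        · exact hx.1 (Subgroup.zpowers_eq_bot.1 h2)
        · exact hyx (by rw [h2]; trivial)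

end Cfsg.Agent.S3196
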