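import Cfsg.Statements.S3200
import Cfsg.Agent.H49.Hall
import Cfsg.Agent.S0564

set_option autoImplicit false
open Cfsg

namespace Cfsg.Agent.S3200

open Subgroup Cfsg.Agent.H49
open scoped IsMulCommutative

theorem compl_of_hall {K : Type*} [Group K] [Finite K] (P : Sylow 2 K) {D : Subgroup K}
    (h1 : IsPi {2}ᶜ D) (h2 : IsPiNat {2} D.index) : IsComplement' (P : Subgroup K) D := by
  have hP := isPi_of_isPGroup Nat.prime_two P.isPGroup'
  refine isComplement'_of_coprime ?_ (hP.coprime h1)
  have e := P.1.card_mul_index.trans ((mul_comm _ _).trans D.card_mul_index).symm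
  rw [pi_factor_unique e hP ((isPiNat_compl_singleton Nat.prime_two).2 P.not_dvd_index) h2 h1,
    D.index_mul_card]

/-- Let H be a finite group in which a Sylow 2-subgroup has an abelian complement (an abelian subgroup meeting it trivially whose product with it is all of H). Then H is solvable, and every subgroup and every quotient group of H again has a Sylow 2-subgroup with an abelian complement. -/
theorem result {H : Type*} [Group H] [Finite H]
    (S : Sylow 2 H) (C : Subgroup H) (hC : IsMulCommutative ↥C) (hSC : Subgroup.IsComplement' (S : Subgroup H) C) :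
    Group.IsSolvable H ∧
    (∀ L : Subgroup H, ∃ (P : Sylow 2 ↥L) (D : Subgroup ↥L), IsMulCommutative ↥D ∧ Subgroup.IsComplement' (P : Subgroup ↥L) D) ∧
    (∀ (N : Subgroup H) [N.Normal], ∃ (P : Sylow 2 (H ⧸ N)) (D : Subgroup (H ⧸ N)),
      IsMulCommutative ↥D ∧ Subgroup.IsComplement' (P : Subgroup (H ⧸ N)) D) := by
  have hS := isPi_of_isPGroup Nat.prime_two S.isPGroup'
  have h1 : IsPi {2}ᶜ C := by
    rw [isPi_compl_singleton Nat.prime_two, ← hSC.symm.index_eq_card]
    exact S.not_dvd_index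
  have h2 : IsPiNat {2} C.index := hSC.index_eq_card ▸ hS
  have hs : Group.IsSolvable H := S0564.result S C S.isPGroup'.isNilpotent
    CommGroup.isNilpotent fun g => by
    obtain ⟨⟨a, b⟩, e⟩ := hSC.2 g
    exact ⟨a, a.2, b, b.2, e.symm⟩
  refine ⟨hs, fun L => ?_, fun N _ => ⟨default, C.map (QuotientGroup.mk' N), inferInstance,
    compl_of_hall _ (h1.map _) (h2.of_dvd (index_map_dvd _ (QuotientGroup.mk'_surjective N)))⟩⟩
  obtain ⟨D, hD⟩ := exists_hall (M := (⊤ : Subgroup L)) inferInstance {2}ᶜ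
  obtain ⟨g, -, hg⟩ := hall_Jsub (M := ⊤) (H := C) (π := {2}ᶜ) inferInstance
    ⟨le_top, h1, fun p hp h3 h4 => h3 (h2 p hp (relIndex_top_right C ▸ h4))⟩ le_top
    (IsPi.map hD.2.1 L.subtype)
  refine ⟨default, D, ?_, compl_of_hall _ hD.2.1 fun p hp h3 => by_contra fun h4 =>
    hD.2.2 p hp h4 (relIndex_top_right D ▸ h3)⟩
  have := abelian_of_le (isMulCommutative_cj.2 hC) hg
  exact ⟨⟨fun a b => Subtype.ext (Subtype.ext
    (abelian_iff.1 this ⟨b.1, b.2, rfl⟩ _ ⟨a.1, a.2, rfl⟩))⟩⟩

end Cfsg.Agent.S3200
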