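import Cfsg.Statements.S3201
import Cfsg.Agent.S0218
import Cfsg.Agent.H1.UniqueSub
import Cfsg.Agent.H3.PGroup

set_option autoImplicit false
open Cfsg

namespace Cfsg.Agent.S3201

open Subgroup

theorem main {S : Type*} [Group S] [Finite S] (hS : IsPGroup 2 S) {ι : Type*} (i₀ : ι)
    (K : ι → Subgroup S) [hn : ∀ i, (K i).Normal] (hKZ : ∀ i, K i ≤ center S)
    (h2 : ∀ i, ∀ x ∈ center S, ∀ y ∈ center S, x * y ∈ K i ↔ (x ∈ K i ↔ y ∈ K i))
    (hne : ∀ i, ∃ z ∈ center S, z ∉ K i) (hint : ∀ x, (∀ i, x ∈ K i) → x = 1)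
    (hq : ∀ i, ∃! x : S ⧸ K i, orderOf x = 2) (hna : ¬ IsMulCommutative (S ⧸ K i₀)) :
    ∃ E Q : Subgroup S, Cfsg.IsInternalDirectProduct E Q ⊤ ∧ Cfsg.IsElementaryAbelian 2 E ∧
      ¬ IsMulCommutative ↥Q ∧ ∃! x : ↥Q, orderOf x = 2 := by
  have hZ2 : ∀ x ∈ center S, x * x = 1 := fun x hx => hint _ fun i => (h2 i x hx x hx).2 Iff.rfl
  have hmem : ∀ i s, s * s ∈ K i → s ∈ center S := by
    intro i s hs
    by_cases h : s ∈ K i
    · exact hKZ i h
    obtain ⟨z, hz, hzK⟩ := hne i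
    have h1 : ∀ t : S, t * t ∈ K i → t ∉ K i → orderOf (t : S ⧸ K i) = 2 := fun t ht ht' =>
      H8.orderOf_two_of (by rw [← QuotientGroup.mk_mul]; exact (QuotientGroup.eq_one_iff _).2 ht)
        fun h => ht' ((QuotientGroup.eq_one_iff _).1 h)
    have h3 := (hq i).unique (h1 z (by rw [hZ2 z hz]; exact one_mem _) hzK) (h1 s hs h)
    have h4 := mul_mem hz (hKZ i (QuotientGroup.eq.1 h3))
    rwa [mul_inv_cancel_left] at h4
  have huniq : ∀ s t : S, s ∉ center S → t ∉ center S → s * s ∈ center S → t * t ∈ center S →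
      s * s = t * t := by
    intro s t hs ht hs2 ht2
    have := hint _ fun i => (h2 i _ hs2 _ ht2).2
      (iff_of_false (fun h => hs (hmem i s h)) fun h => ht (hmem i t h))
    rw [eq_inv_of_mul_eq_one_left this, eq_comm]
    exact eq_inv_of_mul_eq_one_left (hZ2 _ ht2)
  obtain h | ⟨n, a, g, ha, hg, hga, hgen⟩ := H1.cyclic_or_quaternion_gens (hS.to_quotient (K i₀))
    fun x y hx hy => (hq i₀).unique hx hy
  · exact absurd IsCyclic.isMulCommutative hna
  obtain ⟨a, rfl⟩ := QuotientGroup.mk'_surjective _ a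
  obtain ⟨g, rfl⟩ := QuotientGroup.mk'_surjective _ g
  set π := QuotientGroup.mk' (K i₀) with hπ
  have hker : ∀ x, π x = 1 ↔ x ∈ K i₀ := fun x => QuotientGroup.eq_one_iff x
  have hpos := Nat.two_pow_pos n
  have hnc : g * a ≠ a * g := fun h => by
    have h1 : π a ^ 2 = 1 := by
      rw [← map_mul, h, map_mul, mul_inv_cancel_right] at hga
      rw [pow_two]; exact mul_eq_one_iff_eq_inv.2 hga
    have := Nat.le_of_dvd two_pos (orderOf_dvd_of_pow_eq_one h1)
    rw [ha, pow_succ] at this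
    omega
  have hz1 : π a ^ 2 ^ (n + 1) * π a ^ 2 ^ (n + 1) = 1 := by
    rw [← pow_add, ← two_mul, ← ha, pow_orderOf_eq_one]
  have hz2 : π a ^ 2 ^ (n + 1) ≠ 1 := fun h => by
    have := Nat.le_of_dvd (Nat.two_pow_pos _) (orderOf_dvd_of_pow_eq_one h)
    rw [ha, pow_succ] at this
    omega
  have hgZ : g ∉ center S := fun h => hnc (mem_center_iff.1 h a).symm
  have hg2 : g * g ∈ center S := hmem i₀ _ ((hker _).1 (by rw [map_mul, map_mul, hg, hz1]))
  have h3 : g * a * (g * a) = g * g := by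
    refine huniq _ _ (fun h => hnc ?_) hgZ (hmem i₀ _ ((hker _).1 ?_)) hg2
    · have := mem_center_iff.1 h a
      rw [← mul_assoc] at this
      exact (mul_right_cancel this).symm
    · have : π (g * a * (g * a)) = π a ^ 2 ^ (n + 1) := by
        calc π (g * a * (g * a)) = (π g * π a * (π g)⁻¹) * (π g * π g) * π a := by
              simp only [map_mul]; group
          _ = _ := by rw [hga, hg]; group
      rw [map_mul, this, hz1]
  have h4 : g * a * g⁻¹ = a⁻¹ := by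
    have h5 := mem_center_iff.1 hg2 a
    calc g * a * g⁻¹ = g * a * (g * a) * a⁻¹ * (g * g)⁻¹ := by group
      _ = a⁻¹ * (a * (g * g)) * a⁻¹ * (g * g)⁻¹ := by rw [h3]; group
      _ = _ := by rw [h5]; group
  have h5 : a ^ 2 ^ n * a ^ 2 ^ n = a ^ 2 ^ (n + 1) := by rw [← pow_add, pow_succ 2, mul_two]
  have h6 : g * g = a ^ 2 ^ (n + 1) := by
    rw [← h5]
    refine huniq _ _ hgZ (fun h => hz2 ?_) hg2 (hmem i₀ _ ((hker _).1 ?_))
    · rw [← map_pow, ← h5, hZ2 _ h, map_one]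
    · rw [h5, map_mul, map_pow, hz1]
  have h7 : orderOf a = 2 * 2 ^ (n + 1) := by
    refine Nat.dvd_antisymm (orderOf_dvd_of_pow_eq_one ?_) (ha ▸ orderOf_map_dvd π a)
    rw [two_mul, pow_add, ← h6, hZ2 _ hg2]
  obtain ⟨Q, haQ, hgQ, -, -, ⟨e⟩⟩ := H9.exists_subgroup_quaternion
    (n := 2 ^ (n + 1)) (by rw [pow_succ]; omega) a g h7 h6 h4
  have hQ : ∃! x : Q, orderOf x = 2 := by
    obtain ⟨⟨x, hx⟩, h⟩ := Nat.card_eq_one_iff_exists.1 (S0218.result n)
    refine ⟨e.symm x, (e.symm.orderOf_eq x).trans hx, fun y hy => ?_⟩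
    exact e.eq_symm_apply.2 (congrArg Subtype.val (h ⟨e y, (e.orderOf_eq y).trans hy⟩))
  have hgK : g * g ∉ K i₀ := fun h => hgZ (hmem _ _ h)
  refine ⟨K i₀, Q, ⟨le_top, le_top, fun x hx y _ => (mem_center_iff.1 (hKZ _ hx) y).symm,
    eq_bot_iff.2 fun x hx => by_contra fun h => hgK ?_, eq_top_iff.2 fun x _ => ?_⟩,
    ⟨⟨⟨fun x y => Subtype.ext (mem_center_iff.1 (hKZ _ y.2) x)⟩⟩,
      fun x hx => by rw [pow_two, hZ2 x (hKZ _ hx)]⟩,
    fun h => hnc (congrArg Subtype.val (h.1.1 ⟨g, hgQ⟩ ⟨a, haQ⟩)), hQ⟩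
  · have := hQ.unique (y₁ := ⟨x, hx.2⟩) (y₂ := ⟨g * g, mul_mem hgQ hgQ⟩)
      (H8.orderOf_two_of (Subtype.ext (hZ2 _ (hKZ _ hx.1))) fun h' => h (congrArg Subtype.val h'))
      (H8.orderOf_two_of (Subtype.ext (hZ2 _ hg2)) fun h' => hgK (by
        rw [show g * g = 1 from congrArg Subtype.val h']; exact one_mem _))
    rw [← show x = g * g from congrArg Subtype.val this]
    exact hx.1
  · have key : ∀ y : S, π y ∈ zpowers (π a) → y ∈ K i₀ ⊔ Q := by
      rintro y ⟨k, hk⟩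
      have : y * (a ^ k)⁻¹ ∈ K i₀ := (hker _).1 (by rw [map_mul, map_inv, map_zpow, ← hk]; simp)
      simpa using mul_mem (mem_sup_left this) (mem_sup_right (zpow_mem haQ k) : a ^ k ∈ K i₀ ⊔ Q)
    rcases hgen (π x) with h | h
    · exact key x h
    · simpa using mul_mem (mem_sup_right hgQ : g ∈ K i₀ ⊔ Q) (key (g⁻¹ * x) (by simpa using h))

/-- Let S be a finite 2-group whose centre Z(S) has n ≥ 2 distinct maximal subgroups C₁, …, Cₙ with trivial intersection such that each quotient S/Cᵢ is a non-abelian group with exactly one involution (a generalized quaternion group). Then S is the internal direct product of an elementary abelian subgroup and a non-abelian subgroup with exactly one involution. -/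
theorem result {S : Type*} [Group S] [Finite S]
    (hS : IsPGroup 2 S) (n : ℕ) (hn : 2 ≤ n) (C : Fin n → Subgroup ↥(Subgroup.center S))
    (hCmax : ∀ i, IsCoatom (C i)) (hCinj : Function.Injective C) (hCint : ⨅ i, C i = ⊥)
    (hCq : ∀ i, ∃ (_ : ((C i).map (Subgroup.center S).subtype).Normal),
      ¬ IsMulCommutative (S ⧸ (C i).map (Subgroup.center S).subtype) ∧
      ∃! x : S ⧸ (C i).map (Subgroup.center S).subtype, orderOf x = 2) :
    ∃ E Q : Subgroup S, Cfsg.IsInternalDirectProduct E Q ⊤ ∧ Cfsg.IsElementaryAbelian 2 E ∧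
      ¬ IsMulCommutative ↥Q ∧ ∃! x : ↥Q, orderOf x = 2 := by
  choose hN h1 h2 using hCq
  have hmem : ∀ i (x : S) (hx : x ∈ Subgroup.center S),
      x ∈ (C i).map (Subgroup.center S).subtype ↔ (⟨x, hx⟩ : Subgroup.center S) ∈ C i :=
    fun i x hx => Subgroup.mem_map_iff_mem (f := (Subgroup.center S).subtype)
      Subtype.val_injective (x := ⟨x, hx⟩)
  refine main hS ⟨0, by omega⟩ (fun i => (C i).map (Subgroup.center S).subtype)
    (fun i => Subgroup.map_subtype_le _) (fun i x hx y hy => ?_) (fun i => ?_) (fun x hx => ?_)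
    h2 (h1 _)
  · rw [hmem i x hx, hmem i y hy, hmem i _ (mul_mem hx hy)]
    exact Subgroup.mul_mem_iff_of_index_two
      (H3.index_eq_of_isCoatom (hS.to_subgroup _) (hCmax i)) (a := ⟨x, hx⟩) (b := ⟨y, hy⟩)
  · obtain ⟨z, -, hz⟩ := SetLike.exists_of_lt (hCmax i).lt_top
    exact ⟨z, z.2, fun h => hz ((hmem i z z.2).1 h)⟩
  · have hx0 := Subgroup.map_subtype_le _ (hx ⟨0, by omega⟩)
    have : (⟨x, hx0⟩ : Subgroup.center S) ∈ ⨅ i, C i :=
      Subgroup.mem_iInf.2 fun i => (hmem i x hx0).1 (hx i)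
    rw [hCint] at this
    exact congrArg Subtype.val (Subgroup.mem_bot.1 this)

end Cfsg.Agent.S3201
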