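import Cfsg.Statements.S3202
import Cfsg.Agent.H1.UniqueSub

set_option autoImplicit false
open Cfsg

namespace Cfsg.Agent.S3202

open Subgroup
open scoped commutatorElement

/-- Let S be a finite 2-group of 2-rank exactly 2 and D a maximal subgroup of the centre of S such that S/D is a non-abelian group with exactly one involution (a generalized quaternion group). Then S has a nontrivial cyclic characteristic subgroup. -/
theorem result {S : Type*} [Group S]
    [Finite S] (hS : IsPGroup 2 S) (hr2 : Cfsg.PRankLE 2 2 S) (hr1 : ¬ Cfsg.PRankLE 2 1 S)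
    (D : Subgroup ↥(Subgroup.center S)) (hD : IsCoatom D)
    (hq : ∃ (_ : (D.map (Subgroup.center S).subtype).Normal),
      ¬ IsMulCommutative (S ⧸ D.map (Subgroup.center S).subtype) ∧
      ∃! x : S ⧸ D.map (Subgroup.center S).subtype, orderOf x = 2) :
    ∃ C : Subgroup S, C ≠ ⊥ ∧ IsCyclic ↥C ∧ C.Characteristic := by
  obtain ⟨_, hna, u, hu, hu'⟩ := hq
  set N := D.map (center S).subtype
  have hN : N ≤ center S := map_subtype_le _
  rcases H1.cyclic_or_quaternion_gens (hS.to_quotient N) fun x y hx hy =>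
    (hu' x hx).trans (hu' y hy).symm with h | ⟨n, a, g, -, hgg, hga, h⟩
  · exact absurd IsCyclic.isMulCommutative hna
  obtain ⟨a, rfl⟩ := QuotientGroup.mk_surjective a
  obtain ⟨g, rfl⟩ := QuotientGroup.mk_surjective g
  have hA : ∀ P : Subgroup S, a ∈ P → N ≤ P → ∀ x : S, (x : S ⧸ N) ∈ zpowers (a : S ⧸ N) → x ∈ P :=
    fun P ha hP x ⟨i, hi⟩ => by
      simpa using mul_mem (zpow_mem ha i)
        (hP (QuotientGroup.eq.mp (show ((a ^ i : S) : S ⧸ N) = x from hi)))
  have gen : ∀ P : Subgroup S, a ∈ P → g ∈ P → N ≤ P → ∀ x, x ∈ P := fun P ha hg hP x =>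
    (h x).elim (hA P ha hP x) fun e => by simpa using mul_mem hg (hA P ha hP (g⁻¹ * x) e)
  have hc : ∀ x : S, (x : S ⧸ N) ∈ zpowers (a : S ⧸ N) → Commute x a := fun x hx =>
    mem_centralizer_singleton_iff.mp (hA (centralizer {a}) (mem_centralizer_singleton_iff.mpr rfl)
      (hN.trans (center_le_centralizer _)) x hx)
  have h1 : Commute (g * a * g⁻¹) a := hc _ (by
    rw [QuotientGroup.mk_mul, QuotientGroup.mk_mul, QuotientGroup.mk_inv, hga]
    exact inv_mem (mem_zpowers _))
  have h2 : Commute (g * g) a := hc _ (by rw [QuotientGroup.mk_mul, hgg]; exact npow_mem_zpowers _ _)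
  have hn : (zpowers ⁅g, a⁆).Normal := normalizer_eq_top_iff.mp (eq_top_iff.mpr fun x _ =>
    gen _ (centralizer_le_normalizer _ (by
      rw [zpowers_eq_closure, centralizer_closure]
      exact mem_centralizer_singleton_iff.mpr (h1.mul_left (Commute.refl a).inv_left).symm))
      (mem_normalizer_fintype fun _ hi => by
        obtain ⟨i, hi⟩ := hi
        have : g * ⁅g, a⁆ * g⁻¹ = ⁅g, a⁆⁻¹ := by
          calc _ = g * g * a * (g * g)⁻¹ * (g * a * g⁻¹)⁻¹ := by rw [commutatorElement_def]; group
            _ = _ := by rw [h2.eq, mul_inv_cancel_right, commutatorElement_def]; group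
        rw [← hi, ← conj_zpow, this]
        exact zpow_mem (inv_mem (mem_zpowers _)) i)
      (hN.trans ((center_le_centralizer _).trans (centralizer_le_normalizer _))) x)
  have hq : ∀ x y : S, Commute (QuotientGroup.mk' (zpowers ⁅g, a⁆) x) (QuotientGroup.mk' _ y) := by
    have e : Commute (QuotientGroup.mk' (zpowers ⁅g, a⁆) g) (QuotientGroup.mk' _ a) := by
      rw [← commutatorElement_eq_one_iff_commute, ← map_commutatorElement]
      exact (QuotientGroup.eq_one_iff _).mpr (mem_zpowers _)
    have key : ∀ y : S, Commute (QuotientGroup.mk' (zpowers ⁅g, a⁆) a) (QuotientGroup.mk' _ y) →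
        Commute (QuotientGroup.mk' (zpowers ⁅g, a⁆) g) (QuotientGroup.mk' _ y) →
        ∀ x, Commute (QuotientGroup.mk' (zpowers ⁅g, a⁆) x) (QuotientGroup.mk' _ y) :=
      fun y e1 e2 x => mem_centralizer_singleton_iff.mp
        (gen ((centralizer {QuotientGroup.mk' _ y}).comap (QuotientGroup.mk' _))
          (mem_centralizer_singleton_iff.mpr e1) (mem_centralizer_singleton_iff.mpr e2)
          (fun d hd => mem_centralizer_singleton_iff.mpr
            (Commute.map (mem_center_iff.mp (hN hd) y).symm _)) x)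
    exact fun x y => key y (key a (Commute.refl _) e y).symm (key g e.symm (Commute.refl _) y).symm x
  refine ⟨commutator S, fun e => hna ?_, ?_, inferInstance⟩
  · have : IsMulCommutative S := ⟨⟨fun x y => commutatorElement_eq_one_iff_mul_comm.mp
      (mem_bot.mp (e ▸ commutator_mem_commutator (mem_top x) (mem_top y)))⟩⟩
    exact ⟨⟨fun x y => by
      obtain ⟨x, rfl⟩ := QuotientGroup.mk_surjective x
      obtain ⟨y, rfl⟩ := QuotientGroup.mk_surjective y
      rw [← QuotientGroup.mk_mul, ← QuotientGroup.mk_mul, this.is_comm.comm]⟩⟩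
  · refine isCyclic_of_le (H' := zpowers ⁅g, a⁆) (commutator_le.mpr fun x _ y _ => ?_)
    rw [← QuotientGroup.eq_one_iff, ← QuotientGroup.mk'_apply, map_commutatorElement]
    exact commutatorElement_eq_one_iff_commute.mpr (hq x y)

end Cfsg.Agent.S3202
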