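import Cfsg.Statements.S3208
import Mathlib
import Cfsg.Agent.H74.SylowBasic

set_option autoImplicit false
open Cfsg

namespace Cfsg.Agent.S3208


/-- Let j be an involution of a finite group G, H a subgroup of G, and T a Sylow 2-subgroup of H ∩ C_G(j) containing j such that ⟨j⟩ is a characteristic subgroup of T. Then T is a Sylow 2-subgroup of H. -/
theorem result {G : Type*} [Group G] [Finite G]
    (j : G) (hj : orderOf j = 2) (H T : Subgroup G) (hT : T ≤ H ⊓ Subgroup.centralizer ({j} : Set G)) (h2 : IsPGroup 2 ↥T)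
    (hSyl : ¬ 2 ∣ T.relIndex (H ⊓ Subgroup.centralizer ({j} : Set G))) (hjT : j ∈ T)
    (hchar : ((Subgroup.zpowers j).subgroupOf T).Characteristic) :
    ¬ 2 ∣ T.relIndex H := by
  haveI : Fact (Nat.Prime 2) := ⟨Nat.prime_two⟩
  classical
  intro hd
  obtain ⟨T₁, hT₁, hlt, hT₁H⟩ := H74.exists_lt_pgroup_of_dvd_relIndex h2 (hT.trans inf_le_left) hd
  obtain ⟨x, hx1, hx2, hx3⟩ := H74.exists_mem_normalizer_not_mem hT₁ hlt
  have hxj : x * j * x⁻¹ = j := by
    have hmem := hchar.fixed (T.normalizerMonoidHom ⟨x, hx3⟩)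
    have hj1 : (⟨j, hjT⟩ : T) ∈ (Subgroup.zpowers j).subgroupOf T := Subgroup.mem_zpowers j
    rw [← hmem] at hj1
    have hj2 : x * j * x⁻¹ ∈ Subgroup.zpowers j := hj1
    have hj3 : x * j * x⁻¹ ≠ 1 := by
      intro h
      have : j = 1 := by simpa using h
      rw [this, orderOf_one] at hj
      omega
    rw [mem_zpowers_iff_mem_range_orderOf, hj] at hj2
    simp only [Finset.mem_image, Finset.mem_range] at hj2
    obtain ⟨i, hi, hi2⟩ := hj2
    interval_cases i
    · exact absurd (by simpa using hi2.symm) hj3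
    · simpa using hi2.symm
  apply hSyl
  apply H74.dvd_relIndex_of_lt (T₁ := T₁ ⊓ Subgroup.centralizer ({j} : Set G)) (hT₁.to_inf_left)
  · refine lt_of_le_of_ne (le_inf hlt.le (hT.trans inf_le_right)) ?_
    intro h
    apply hx2
    rw [h]
    refine ⟨hx1, ?_⟩
    show x ∈ Subgroup.centralizer ({j} : Set G)
    rw [Subgroup.mem_centralizer_singleton_iff]
    calc x * j = x * j * x⁻¹ * x := by group
      _ = j * x := by rw [hxj]
  · exact inf_le_inf_right _ hT₁H

end Cfsg.Agent.S3208
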