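import Cfsg.Statements.S3209
import Cfsg.Agent.H66.PSL2Cent
import Cfsg.Agent.H67.FinField

set_option autoImplicit false
open Cfsg

namespace Cfsg.Agent.S3209

theorem aux {G : Type*} [Group G] {F : Type*} [Field F] [Fintype F] (hF : Odd (Fintype.card F))
    (L : Subgroup G) (e : L ≃* Matrix.SpecialLinearGroup (Fin 2) F) (j : G) (hj : orderOf j = 2)
    (hjL : j ∈ L) :
    (∀ a ∈ L, a * a = 1 → a = 1 ∨ a = j) ∧ ∃ x ∈ L, x * x = j ∧
      ∀ a ∈ L, a * a = j → ∃ g ∈ L, g * x * g⁻¹ = a := by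
  have h2 := H67.two_ne_zero_of_odd hF
  have hjj : j * j = 1 := by rw [← sq, ← hj, pow_orderOf_eq_one]
  have hj1 : j ≠ 1 := by rintro rfl; simp at hj
  have k1 : ∀ a (ha : a ∈ L), a * a = 1 → a = 1 ∨ e ⟨a, ha⟩ = -1 := by
    intro a ha h
    refine ((H66.mul_self_eq_one_iff (e ⟨a, ha⟩) h2).1 ?_).imp_left fun h' => ?_
    · rw [← map_mul, ← map_one e]; congr 1; exact Subtype.ext h
    · exact congrArg Subtype.val ((MulEquiv.map_eq_one_iff e).1 h')
  have ej : e ⟨j, hjL⟩ = -1 := (k1 j hjL hjj).resolve_left hj1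
  refine ⟨fun a ha h => (k1 a ha h).imp_right fun h' => ?_, e.symm (H66.comp2 0), Subtype.prop _,
    ?_, fun a ha h => ?_⟩
  · exact congrArg Subtype.val (e.injective (h'.trans ej.symm))
  · rw [← Subgroup.coe_mul, ← map_mul, H66.mul_self_of_tr2_eq_zero (H66.tr2_comp2 0), ← ej]; simp
  · have : e ⟨a, ha⟩ * e ⟨a, ha⟩ = -1 := by
      rw [← map_mul, ← ej]; congr 1; exact Subtype.ext h
    have ht := (H66.mul_self_eq_neg_one_iff _ h2).1 this
    obtain ⟨u, hu⟩ := isConj_iff.1 (H66.isConj_comp2 (H66.tr2_sq_ne_of_eq_zero h2 ht))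
    refine ⟨e.symm u, Subtype.prop _, ?_⟩
    rw [← Subgroup.coe_inv, ← Subgroup.coe_mul, ← Subgroup.coe_mul, ← map_inv, ← map_mul, ← map_mul,
      ← ht, hu]
    simp


/-- Let L₁ ≅ SL₂(q₁) and L₂ ≅ SL₂(q₂), q₁ and q₂ odd, be elementwise-commuting subgroups of a finite group meeting in ⟨j⟩ for an involution j. Then L₁L₂ has exactly two conjugacy classes of involutions: the central involution j, and one further class (there is an involution x ≠ j in L₁L₂, and every involution of L₁L₂ other than j is conjugate to x by an element of L₁L₂). -/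
theorem result {G : Type*} [Group G] [Finite G]
    {F₁ : Type*} [Field F₁] [Fintype F₁] {F₂ : Type*} [Field F₂] [Fintype F₂]
    (hF₁ : Odd (Fintype.card F₁)) (hF₂ : Odd (Fintype.card F₂)) (L₁ L₂ : Subgroup G)
    (e₁ : ↥L₁ ≃* Matrix.SpecialLinearGroup (Fin 2) F₁) (e₂ : ↥L₂ ≃* Matrix.SpecialLinearGroup (Fin 2) F₂)
    (hc : ∀ x ∈ L₁, ∀ y ∈ L₂, x * y = y * x) (j : G) (hj : orderOf j = 2) (hm : L₁ ⊓ L₂ = Subgroup.zpowers j) :
    ∃ x ∈ L₁ ⊔ L₂, orderOf x = 2 ∧ x ≠ j ∧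
      ∀ y ∈ L₁ ⊔ L₂, orderOf y = 2 → y = j ∨ ∃ g ∈ L₁ ⊔ L₂, g * x * g⁻¹ = y := by
  have hjm : j ∈ L₁ ⊓ L₂ := hm ▸ Subgroup.mem_zpowers j
  have hjj : j * j = 1 := by rw [← sq, ← hj, pow_orderOf_eq_one]
  have hj1 : j ≠ 1 := by rintro rfl; simp at hj
  obtain ⟨a1, x1, hx1, b1, c1⟩ := aux hF₁ L₁ e₁ j hj hjm.1
  obtain ⟨a2, x2, hx2, b2, c2⟩ := aux hF₂ L₂ e₂ j hj hjm.2
  have hz : ∀ a ∈ L₁, a ∈ L₂ → a = 1 ∨ a = j := fun a h1 h2 => by
    have : a ∈ Subgroup.zpowers j := hm ▸ ⟨h1, h2⟩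
    refine a1 a h1 ?_
    obtain ⟨k, rfl⟩ := this
    simp only
    rw [← (Commute.refl j).mul_zpow, hjj, one_zpow]
  have hsq : ∀ a ∈ L₁, ∀ b ∈ L₂, a * b * (a * b) = a * a * (b * b) := fun a ha b hb => by
    rw [mul_assoc, ← mul_assoc b, ← hc a ha b hb]; group
  have hx1n : x1 ∉ L₂ := fun h => by
    rcases hz x1 hx1 h with e | e
    · rw [e, one_mul] at b1; exact hj1 b1.symm
    · rw [e, hjj] at b1; exact hj1 b1.symm
  have hdec : ∀ y ∈ L₁ ⊔ L₂, ∃ a ∈ L₁, ∃ b ∈ L₂, a * b = y := by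
    intro y hy
    have : L₁ ≤ Subgroup.normalizer (L₂ : Set G) := fun a ha => by
      rw [Subgroup.mem_normalizer_iff]
      intro b
      constructor
      · intro hb; rw [hc a ha b hb, mul_inv_cancel_right]; exact hb
      · intro hb
        have := hc a ha _ hb
        have e : b = a * b * a⁻¹ := by
          rw [inv_mul_cancel_right, mul_right_inj] at this; exact this.symm
        rw [e]; exact hb
    have h := Subgroup.coe_mul_of_left_le_normalizer_right L₁ L₂ this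
    have hy' : y ∈ ((L₁ ⊔ L₂ : Subgroup G) : Set G) := hy
    rw [h] at hy'
    exact hy'
  refine ⟨x1 * x2, Subgroup.mul_mem_sup hx1 hx2, ?_, fun e => hx1n ?_, fun y hy hy2 => ?_⟩
  · apply orderOf_eq_prime
    · rw [sq, hsq _ hx1 _ hx2, b1, b2, hjj]
    · intro e
      exact hx1n (by rw [eq_inv_of_mul_eq_one_left e]; exact L₂.inv_mem hx2)
  · rw [eq_mul_inv_of_mul_eq e]; exact L₂.mul_mem hjm.2 (L₂.inv_mem hx2)
  · obtain ⟨a, ha, b, hb, rfl⟩ := hdec y hy
    have h1 : a * a * (b * b) = 1 := by rw [← hsq a ha b hb, ← sq, ← hy2, pow_orderOf_eq_one]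
    have hne : a * b ≠ 1 := by intro e; rw [e] at hy2; simp at hy2
    rcases hz (a * a) (L₁.mul_mem ha ha) (by
      rw [eq_inv_of_mul_eq_one_left h1]; exact L₂.inv_mem (L₂.mul_mem hb hb)) with e | e
    · left
      rw [e, one_mul] at h1
      rcases a1 a ha e with rfl | rfl <;> rcases a2 b hb h1 with rfl | rfl
      · simp at hne
      · simp
      · simp
      · exact absurd hjj hne
    · right
      rw [e] at h1
      have e' : b * b = j := by
        rw [eq_inv_of_mul_eq_one_right h1]; exact inv_eq_of_mul_eq_one_right hjj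
      obtain ⟨g, hg, rfl⟩ := c1 a ha e
      obtain ⟨h, hh, rfl⟩ := c2 b hb e'
      refine ⟨g * h, Subgroup.mul_mem_sup hg hh, ?_⟩
      have t1 := hc x1 hx1 h hh
      have t2 := hc g⁻¹ (L₁.inv_mem hg) _ hb
      calc g * h * (x1 * x2) * (g * h)⁻¹ = g * (h * x1) * x2 * h⁻¹ * g⁻¹ := by group
        _ = g * x1 * (h * x2 * h⁻¹ * g⁻¹) := by rw [← t1]; group
        _ = _ := by rw [← t2]; group

end Cfsg.Agent.S3209
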