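import Cfsg.Statements.S3210
import Cfsg.Agent.G2Q.Setup

set_option autoImplicit false
open Cfsg

namespace Cfsg.Agent.S3210

theorem card_le {G A B : Type*} [Group G] [Group A] [Group B] [Finite B] {f : A →* G} {g : B →* G}
    (hf : Function.Injective f) {n : G} (h : ∀ x, ∃ y, n * f x * n⁻¹ = g y) : Nat.card A ≤ Nat.card B := by
  choose y hy using h
  exact Nat.card_le_card_of_injective y fun a b k => hf (mul_left_cancel (mul_right_cancel ((hy a).trans (k ▸ (hy b).symm))))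

theorem map_eq {G A B : Type*} [Group G] [Finite G] [Group A] [Group B] {f : A →* G} {g : B →* G}
    (hf : Function.Injective f) (hg : Function.Injective g) (hc : Nat.card A = Nat.card B) {n : G}
    (h : ∀ x, ∃ y, n * f x * n⁻¹ = g y) : f.range.map (MulAut.conj n).toMonoidHom = g.range := by
  refine Subgroup.eq_of_le_of_card_ge ?_ ?_
  · rintro _ ⟨_, ⟨x, rfl⟩, rfl⟩
    obtain ⟨y, hy⟩ := h x
    exact ⟨y, hy.symm⟩
  · rw [Subgroup.card_map_of_injective (MulAut.conj n).injective,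
      ← Nat.card_congr (MonoidHom.ofInjective hf).toEquiv, ← Nat.card_congr (MonoidHom.ofInjective hg).toEquiv, hc]


/-- Let G be a finite group with subgroups L₁ ≅ SL₂(q₁) and L₂ ≅ SL₂(q₂), q₁ and q₂ odd prime powers, which commute elementwise and meet in ⟨j⟩ for an involution j, and suppose L₁L₂ has index 2 in C_G(j). Then every element n of C_G(j) outside L₁L₂ either normalizes both L₁ and L₂, or conjugates L₁ onto L₂; in the second case q₁ = q₂ and there is an element n′ of C_G(j) outside L₁L₂ conjugating L₁ onto L₂ with n′² ∈ ⟨j⟩. -/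
theorem result {G : Type*} [Group G] [Finite G]
    {F₁ : Type*} [Field F₁] [Fintype F₁] {F₂ : Type*} [Field F₂] [Fintype F₂]
    (hF₁ : Odd (Fintype.card F₁)) (hF₂ : Odd (Fintype.card F₂)) (L₁ L₂ : Subgroup G)
    (e₁ : ↥L₁ ≃* Matrix.SpecialLinearGroup (Fin 2) F₁) (e₂ : ↥L₂ ≃* Matrix.SpecialLinearGroup (Fin 2) F₂)
    (hc : ∀ x ∈ L₁, ∀ y ∈ L₂, x * y = y * x) (j : G) (hj : orderOf j = 2) (hm : L₁ ⊓ L₂ = Subgroup.zpowers j)
    (hle : L₁ ⊔ L₂ ≤ Subgroup.centralizer ({j} : Set G)) (hi : (L₁ ⊔ L₂).relIndex (Subgroup.centralizer ({j} : Set G)) = 2) (n : G) (hn : n ∈ Subgroup.centralizer ({j} : Set G)) (hn' : n ∉ L₁ ⊔ L₂) :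
    (L₁.map (MulAut.conj n).toMonoidHom = L₁ ∧ L₂.map (MulAut.conj n).toMonoidHom = L₂) ∨
      (L₁.map (MulAut.conj n).toMonoidHom = L₂ ∧ Fintype.card F₁ = Fintype.card F₂ ∧
        ∃ n' ∈ Subgroup.centralizer ({j} : Set G), n' ∉ L₁ ⊔ L₂ ∧ L₁.map (MulAut.conj n').toMonoidHom = L₂ ∧ n' ^ 2 ∈ Subgroup.zpowers j) := by
  obtain ⟨f₁, f₂, rfl, rfl, h⟩ := G2Q.exists_pre L₁ L₂ e₁ e₂ hc hj hm
  have hY := G2Q.conj_mem_iff_of_normal hle (Subgroup.normal_of_index_eq_two hi)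
  have hnj := Subgroup.mem_centralizer_singleton_iff.1 hn
  rcases h.cases hnj (hY n hnj) with ⟨h1, h2⟩ | ⟨h1, h2⟩
  · exact Or.inl ⟨map_eq h.inj₁ h.inj₁ rfl h1, map_eq h.inj₂ h.inj₂ rfl h2⟩
  have hq := h.card_eq h1 h2
  have hs : Nat.card (G2Q.SL2 F₁) = Nat.card (G2Q.SL2 F₂) :=
    (card_le h.inj₁ h1).antisymm (card_le h.inj₂ h2)
  refine Or.inr ⟨map_eq h.inj₁ h.inj₂ hs h1, by simpa using hq, ?_⟩
  obtain ⟨a, b, hab⟩ := h.mem_Y.1 (show n * n ∈ _ from Subgroup.mul_self_mem_of_index_two hi ⟨n, hn⟩)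
  obtain ⟨y, hy⟩ := h1 a
  obtain ⟨x, hx⟩ := h2 b
  have ha : f₁ a⁻¹ ∈ f₁.range ⊔ f₂.range := Subgroup.mem_sup_left ⟨_, rfl⟩
  refine ⟨n * f₁ a⁻¹, mul_mem hn (hle ha), fun k => hn' ((Subgroup.mul_mem_cancel_right _ ha).1 k),
    map_eq h.inj₁ h.inj₂ hs fun z => ?_, ?_⟩
  · obtain ⟨w, hw⟩ := h1 (a⁻¹ * z * a)
    exact ⟨w, by rw [← hw]; simp [mul_assoc]⟩
  have e1 : f₂ y * f₁ x = f₁ a * f₂ b := by
    rw [← hy, ← hx, ← hab, show n * f₁ a * n⁻¹ * (n * f₂ b * n⁻¹) = n * (f₁ a * f₂ b) * n⁻¹ by group, ← hab]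
    group
  have e2 : f₁ (x⁻¹ * a) = f₂ (y * b⁻¹) := by
    rw [map_mul, map_mul, map_inv, map_inv, inv_mul_eq_iff_eq_mul, ← mul_assoc, h.comm, e1, mul_inv_cancel_right]
  have e3 : (n * f₁ a⁻¹) ^ 2 = (f₂ y)⁻¹ * (f₂ (y * b⁻¹))⁻¹ * f₂ y := by
    rw [show (n * f₁ a⁻¹) ^ 2 = (n * f₁ a * n⁻¹)⁻¹ * (n * n) * (f₁ a)⁻¹ by rw [map_inv, sq]; group, hy, hab,
      h.comm, map_mul, map_inv]
    group
  rw [e3, ← e2]
  rcases h.meet _ _ e2 with k | k <;> rw [k]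
  · simp
  · rw [inv_eq_of_mul_eq_one_right h.jj, mul_assoc, ← h.f₂_j, inv_mul_cancel_left]
    exact Subgroup.mem_zpowers j


end Cfsg.Agent.S3210
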