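import Cfsg.Statements.S3211
import Cfsg.Agent.H75.ZStar
import Cfsg.Agent.H75.SL2Like

set_option autoImplicit false
open Cfsg

namespace Cfsg.Agent.S3211

open Cfsg.Agent.H75

theorem exists_max {G : Type*} [Group G] [Finite G] {L : Subgroup G} {j : G} (h : SL2Like L j) :
    ∃ m : ℕ, (∃ z ∈ L, z ^ 2 ^ m * z ^ 2 ^ m = j) ∧
      ¬ ∃ z ∈ L, z ^ 2 ^ (m + 1) * z ^ 2 ^ (m + 1) = j := by
  by_contra hcon
  push Not at hcon
  have hall : ∀ m : ℕ, ∃ z ∈ L, z ^ 2 ^ m * z ^ 2 ^ m = j := by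
    intro m
    induction m with
    | zero => simpa using h.ex
    | succ m ih => exact hcon m ih
  obtain ⟨z, -, hz⟩ := hall (Nat.card G)
  have h1 : z ^ 2 ^ (Nat.card G + 1) = j := by rw [pow_succ, pow_mul, pow_two, hz]
  have h2 : orderOf z = 2 ^ (Nat.card G + 1 + 1) := by
    have : Fact (Nat.Prime 2) := ⟨Nat.prime_two⟩
    apply orderOf_eq_prime_pow
    · rw [h1]; exact ne_one_of_orderOf_two h.ord
    · rw [pow_succ, pow_mul, h1, pow_two, mul_self_of_orderOf_two h.ord]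
  have h3 := orderOf_le_card (x := z)
  have h4 : Nat.card G + 1 + 1 < 2 ^ (Nat.card G + 1 + 1) := Nat.lt_two_pow_self
  omega

theorem decomp {G : Type*} [Group G] {L₁ L₂ : Subgroup G} {j : G} (h₁ : SL2Like L₁ j)
    (h₂ : SL2Like L₂ j) (hc : ∀ x ∈ L₁, ∀ y ∈ L₂, x * y = y * x)
    (hm : L₁ ⊓ L₂ = Subgroup.zpowers j) {x y : G} (hx : x ∈ L₁) (hy : y ∈ L₂)
    (ht : orderOf (x * y) = 2) (htj : x * y ≠ j) : x * x = j ∧ y * y = j := by
  have hj2 := mul_self_of_orderOf_two h₁.ord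
  have e : x * x * (y * y) = 1 := by
    calc x * x * (y * y) = x * (x * y) * y := by group
      _ = x * (y * x) * y := by rw [hc x hx y hy]
      _ = x * y * (x * y) := by group
      _ = 1 := mul_self_of_orderOf_two ht
  have h1 : x * x ∈ Subgroup.zpowers j := by
    rw [← hm]
    refine Subgroup.mem_inf.mpr ⟨mul_mem hx hx, ?_⟩
    rw [eq_inv_of_mul_eq_one_left e]
    exact inv_mem (mul_mem hy hy)
  rcases (mem_zpowers_of_orderOf_two h₁.ord).mp h1 with h | h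
  · exfalso
    rw [h, one_mul] at e
    rcases h₁.sq x hx h with rfl | rfl <;> rcases h₂.sq y hy e with h' | h'
    · simp [h'] at ht
    · exact htj (by simp [h'])
    · exact htj (by simp [h'])
    · rw [h', hj2] at ht; simp at ht
  · refine ⟨h, ?_⟩
    rw [h] at e
    rw [eq_inv_of_mul_eq_one_right e, inv_eq_of_mul_eq_one_right hj2]

/-- Let G be a finite group with subgroups L₁ ≅ SL₂(q₁) and L₂ ≅ SL₂(q₂), q₁ and q₂ odd prime powers, which commute elementwise and meet in ⟨j⟩ for an involution j, and suppose L₁L₂ has index 2 in C_G(j). If some n ∈ C_G(j) with n² = j interchanges L₁ and L₂ under conjugation (so that C_G(j) = L₁L₂⟨n⟩), then G = C_G(j)O(G). -/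
theorem result {G : Type*} [Group G] [Finite G]
    {F₁ : Type*} [Field F₁] [Fintype F₁] {F₂ : Type*} [Field F₂] [Fintype F₂]
    (hF₁ : Odd (Fintype.card F₁)) (hF₂ : Odd (Fintype.card F₂)) (L₁ L₂ : Subgroup G)
    (e₁ : ↥L₁ ≃* Matrix.SpecialLinearGroup (Fin 2) F₁) (e₂ : ↥L₂ ≃* Matrix.SpecialLinearGroup (Fin 2) F₂)
    (hc : ∀ x ∈ L₁, ∀ y ∈ L₂, x * y = y * x) (j : G) (hj : orderOf j = 2) (hm : L₁ ⊓ L₂ = Subgroup.zpowers j)
    (hle : L₁ ⊔ L₂ ≤ Subgroup.centralizer ({j} : Set G)) (hi : (L₁ ⊔ L₂).relIndex (Subgroup.centralizer ({j} : Set G)) = 2) (n : G) (hn : n ∈ Subgroup.centralizer ({j} : Set G))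
    (hn2 : n ^ 2 = j) (hswap : L₁.map (MulAut.conj n).toMonoidHom = L₂) :
    Subgroup.centralizer ({j} : Set G) ⊔ Cfsg.oddCore G = ⊤ := by
  have hjm : j ∈ L₁ ⊓ L₂ := hm ▸ Subgroup.mem_zpowers j
  have h₁ := sl2Like_of_equiv hF₁ e₁ hj hjm.1
  have h₂ := sl2Like_of_equiv hF₂ e₂ hj hjm.2
  have hj2 := mul_self_of_orderOf_two hj
  have hj1 := ne_one_of_orderOf_two hj
  have hnj : n * j = j * n := (mem_centralizer_singleton'.mp hn).eq
  have hnn : n * n = j := by rw [← pow_two, hn2]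
  have hs1 : ∀ x ∈ L₁, n * x * n⁻¹ ∈ L₂ := fun x hx => hswap ▸ H4.conj_mem_map_conj n hx
  have hnn2 : ∀ y ∈ L₂, n * (n * y * n⁻¹) * n⁻¹ = y := fun y hy => by
    calc n * (n * y * n⁻¹) * n⁻¹ = (n * n) * y * (n * n)⁻¹ := by group
      _ = y := by rw [hnn, ← h₂.central y hy]; group
  have hs2 : ∀ y ∈ L₂, n * y * n⁻¹ ∈ L₁ := fun y hy => by
    have h1 : n * (n * y * n⁻¹) * n⁻¹ ∈ L₁.map (MulAut.conj n).toMonoidHom := by
      rw [hnn2 y hy, hswap]; exact hy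
    rw [H4.mem_map_conj] at h1
    simpa [mul_assoc] using h1
  have hcase : ∀ x ∈ L₁, x ∈ L₂ → x = 1 ∨ x = j := fun x h1 h2 =>
    (mem_zpowers_of_orderOf_two hj).mp (hm ▸ Subgroup.mem_inf.mpr ⟨h1, h2⟩)
  have hnY : n ∉ L₁ ⊔ L₂ := by
    intro h
    obtain ⟨a, ha, b, hb, rfl⟩ := (mem_sup_of_commute hc).mp h
    obtain ⟨x, hx, hxx⟩ := h₁.ex
    have h1 : a * b * x * (a * b)⁻¹ = a * x * a⁻¹ := by
      rw [mul_assoc a b x, ← hc x hx b hb]; group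
    have h2 := hs1 x hx
    rw [h1] at h2
    have h3 : (a * x * a⁻¹) * (a * x * a⁻¹) = j := by
      calc (a * x * a⁻¹) * (a * x * a⁻¹) = a * (x * x) * a⁻¹ := by group
        _ = j := by rw [hxx, h₁.central a ha]; group
    rcases hcase _ (mul_mem (mul_mem ha hx) (inv_mem ha)) h2 with h | h
    · rw [h, one_mul] at h3; exact hj1 h3.symm
    · rw [h, hj2] at h3; exact hj1 h3.symm
  -- every element of square one of the centralizer lies in `L₁ L₂`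
  have hY : ∀ c ∈ Subgroup.centralizer ({j} : Set G), c * c = 1 → c ∈ L₁ ⊔ L₂ := by
    intro c hcC hcc
    by_contra hcY
    have h1 : c * n⁻¹ ∈ L₁ ⊔ L₂ := by
      have := (Subgroup.mul_mem_iff_of_index_two hi (a := ⟨c, hcC⟩) (b := ⟨n⁻¹, inv_mem hn⟩)).mpr
        (by simp [Subgroup.mem_subgroupOf, hcY, hnY])
      exact this
    obtain ⟨x, hx, y, hy, hxy⟩ := (mem_sup_of_commute hc).mp h1
    have hc' : c = x * y * n := by rw [hxy]; group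
    have hu := hs2 y hy
    have hv := hs1 x hx
    have e : (x * (n * y * n⁻¹)) * (y * (n * x * n⁻¹)) * j = 1 := by
      rw [← hcc, hc', mul_assoc x, hc _ hu _ (mul_mem hy hv), ← hnn]; group
    have h2 : x * (n * y * n⁻¹) ∈ L₂ := by
      rw [mul_assoc] at e
      rw [eq_inv_of_mul_eq_one_left e]
      exact inv_mem (mul_mem (mul_mem hy hv) h₂.mem)
    have h3 : n * (x * (n * y * n⁻¹)) * n⁻¹ = (n * x * n⁻¹) * y := by
      conv_rhs => rw [← hnn2 y hy]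
      group
    rcases hcase _ (mul_mem hx hu) h2 with h | h
    · rw [h, mul_one, mul_inv_cancel] at h3
      rw [h, one_mul, eq_inv_of_mul_eq_one_right h3.symm, inv_mul_cancel, one_mul] at e
      exact hj1 e
    · rw [h, hnj, mul_inv_cancel_right] at h3
      have h4 : y * (n * x * n⁻¹) = j := by
        calc y * (n * x * n⁻¹) = y * ((n * x * n⁻¹) * y) * y⁻¹ := by group
          _ = j := by rw [← h3, h₂.central y hy]; group
      rw [h, h4, hj2, one_mul] at e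
      exact hj1 e
  apply centralizer_sup_oddCore_of_isolated hj
  intro g hg
  by_contra hne
  obtain ⟨m, ⟨z, hz, hzm⟩, hmax⟩ := exists_max h₁
  have hto : orderOf (g * j * g⁻¹) = 2 := by rw [orderOf_conj', hj]
  obtain ⟨x₁, hx₁, x₂, hx₂, ht⟩ := (mem_sup_of_commute hc).mp
    (hY _ (mem_centralizer_singleton'.mpr hg) (mul_self_of_orderOf_two hto))
  obtain ⟨q₁, q₂⟩ := decomp h₁ h₂ hc hm hx₁ hx₂ (ht ▸ hto) (ht ▸ hne)
  obtain ⟨k, hk, hkz⟩ := h₁.conj _ (pow_mem hz _) _ hx₁ hzm q₁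
  set c := k * z * k⁻¹ with hcdef
  have hcL : c ∈ L₁ := mul_mem (mul_mem hk hz) (inv_mem hk)
  have hcx : c ^ 2 ^ m = x₁ := by rw [hcdef, conj_pow, hkz]
  have hcx' : c * x₁ = x₁ * c := by rw [← hcx]; exact ((Commute.refl c).pow_right _).eq
  obtain ⟨y₁, hy₁, r₁, s₁⟩ := h₁.inv x₁ hx₁ q₁
  obtain ⟨y₂, hy₂, r₂, s₂⟩ := h₂.inv x₂ hx₂ q₂
  have a1 : (y₁ * y₂) * (y₁ * y₂) = 1 := by
    calc (y₁ * y₂) * (y₁ * y₂) = y₁ * (y₂ * y₁) * y₂ := by group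
      _ = (y₁ * y₁) * (y₂ * y₂) := by rw [← hc y₁ hy₁ y₂ hy₂]; group
      _ = 1 := by rw [r₁, r₂, hj2]
  have a2 : (y₁ * y₂) * c * (y₁ * y₂)⁻¹ = c⁻¹ := by
    rw [← s₁ c hcL hcx', mul_assoc y₁, ← hc c hcL y₂ hy₂]; group
  have a3 : (c * (y₁ * y₂)) * (c * (y₁ * y₂)) = 1 := by
    calc (c * (y₁ * y₂)) * (c * (y₁ * y₂))
        = c * ((y₁ * y₂) * c * (y₁ * y₂)⁻¹) * ((y₁ * y₂) * (y₁ * y₂)) := by group
      _ = 1 := by rw [a1, a2]; group
  have a4 : Commute (y₁ * y₂) (x₁ * x₂) := by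
    have b1 : (y₁ * y₂) * x₁ * (y₁ * y₂)⁻¹ = x₁⁻¹ := by
      rw [← s₁ x₁ hx₁ rfl, mul_assoc y₁, ← hc x₁ hx₁ y₂ hy₂]; group
    have b2 : (y₁ * y₂) * x₂ * (y₁ * y₂)⁻¹ = x₂⁻¹ := by
      rw [← s₂ x₂ hx₂ rfl, hc y₁ hy₁ y₂ hy₂, mul_assoc y₂, hc y₁ hy₁ x₂ hx₂]; group
    have b3 : x₁⁻¹ * x₂⁻¹ = x₁ * x₂ := by
      rw [← mul_inv_rev, ← hc x₁ hx₁ x₂ hx₂, ht, inv_eq_of_orderOf_two hto]
    show _ * _ = _ * _
    calc y₁ * y₂ * (x₁ * x₂)
        = ((y₁ * y₂) * x₁ * (y₁ * y₂)⁻¹) * ((y₁ * y₂) * x₂ * (y₁ * y₂)⁻¹) * (y₁ * y₂) := by group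
      _ = _ := by rw [b1, b2, b3]
  have a5 : Commute c (x₁ * x₂) :=
    (show Commute c x₁ from hcx').mul_right (show Commute c x₂ from hc c hcL x₂ hx₂)
  have conjC : ∀ w : G, Commute w (x₁ * x₂) → w * w = 1 → g⁻¹ * w * g ∈ L₁ ⊔ L₂ := by
    intro w hw hww
    apply hY
    · rw [mem_centralizer_singleton']
      rw [ht] at hw
      show _ * j = j * _
      calc g⁻¹ * w * g * j = g⁻¹ * (w * (g * j * g⁻¹)) * g := by group
        _ = _ := by rw [hw.eq]; group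
    · calc g⁻¹ * w * g * (g⁻¹ * w * g) = g⁻¹ * (w * w) * g := by group
        _ = 1 := by rw [hww]; group
  have b1 : g⁻¹ * c * g ∈ L₁ ⊔ L₂ := by
    have := mul_mem (conjC _ (a5.mul_left a4) a3) (inv_mem (conjC _ a4 a1))
    have e : g⁻¹ * (c * (y₁ * y₂)) * g * (g⁻¹ * (y₁ * y₂) * g)⁻¹ = g⁻¹ * c * g := by group
    rwa [e] at this
  obtain ⟨z₁, hz₁, z₂, hz₂, hzz⟩ := (mem_sup_of_commute hc).mp b1
  have b2 : z₁ ^ 2 ^ (m + 1) * z₂ ^ 2 ^ (m + 1) = g⁻¹ * j * g := by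
    rw [← (show Commute z₁ z₂ from hc _ hz₁ _ hz₂).mul_pow, hzz]
    have : g⁻¹ * c * g = g⁻¹ * c * g⁻¹⁻¹ := by rw [inv_inv]
    rw [this, conj_pow, inv_inv, pow_succ, pow_mul, hcx, pow_two, q₁]
  have b3 : orderOf (g⁻¹ * j * g) = 2 := by
    have := orderOf_conj' g⁻¹ j
    rwa [inv_inv, hj] at this
  have b4 : g⁻¹ * j * g ≠ j := by
    intro h
    apply hne
    calc g * j * g⁻¹ = g * (g⁻¹ * j * g) * g⁻¹ := by rw [h]
      _ = j := by group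
  exact hmax ⟨z₁, hz₁, (decomp h₁ h₂ hc hm (pow_mem hz₁ _) (pow_mem hz₂ _) (b2 ▸ b3) (b2 ▸ b4)).1⟩

end Cfsg.Agent.S3211
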