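import Cfsg.Statements.S3213
import Cfsg.Agent.H56.Mod.SL25
import Cfsg.Agent.H56.ClsTools

set_option autoImplicit false
open Cfsg

namespace Cfsg.Agent.S3213

open H14 H56 Matrix Module

def cj : List ℕ := [nat_lit 0x30a1525d66c1f79caa45890734683, nat_lit 0x8454122c62699ee41e692de5560296]

theorem five {G : Type*} [Group G] (e : G ≃* SL25.K) (x : G) (hx : orderOf x = 3) :
    ∃ g : G, orderOf ((x * (g * x * g⁻¹)) ^ 2) = 5 := by
  have h1 : ordP 5 32 24 3 (SL25.E.pk (e x)) = true := by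
    have h := (Subgroup.orderOf_coe _).trans ((e.orderOf_eq x).trans hx)
    simp only [ordP, Bool.and_eq_true, Bool.not_eq_true', beq_iff, ← Bool.not_eq_true]
    rw [← SL25.E.pk_pow, ← SL25.E.pk_one, SL25.E.pk_inj, SL25.E.pk_inj, ← h, pow_orderOf_eq_one]
    exact ⟨fun e => by rw [e, orderOf_one] at h; omega, rfl⟩
  obtain ⟨P, hP, h2⟩ := anyL_iff.1 (bimp_iff.1 (SL25.chain.forall_of_allElts (f := fun P =>
    bimp (ordP 5 32 24 3 P) (anyL cj fun Q => ordP 5 32 24 5 (powP 5 32 24 (comp 5 32 24 P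
      (comp3 5 32 24 Q P (inv 5 32 24 Q))) 2))) (by decide +kernel) _ (e x).2) h1)
  obtain ⟨g, hg, rfl⟩ := inG_of_memOK SL25.chain (l := cj) (by decide +kernel) P hP
  rw [← SL25.E.pk_inv, ← SL25.E.pk_mul3, ← SL25.E.pk_mul, ← SL25.E.pk_pow] at h2
  refine ⟨e.symm ⟨g, hg⟩, ?_⟩
  rw [← e.orderOf_eq, ← Subgroup.orderOf_coe, ← SL25.E.orderOf_eq_of_ordP (by norm_num) h2]
  simp

variable {F : Type*} [Field F] [Fintype F]

/-- the fixed space -/
abbrev fx (A : symplecticGroup (Fin 2) F) : Submodule F (Fin 2 ⊕ Fin 2 → F) :=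
  LinearMap.ker (toLin' (A : Matrix (Fin 2 ⊕ Fin 2) (Fin 2 ⊕ Fin 2) F) - LinearMap.id)

omit [Fintype F] in
theorem mem_fx {A : symplecticGroup (Fin 2) F} {v : Fin 2 ⊕ Fin 2 → F} :
    v ∈ fx A ↔ A.1 *ᵥ v = v := by simp [sub_eq_zero]

theorem fx_five (hF : Fintype.card F = 3) {A : symplecticGroup (Fin 2) F} (hA : orderOf A = 5) :
    fx A = ⊥ := by
  have : Fact (Nat.Prime 5) := ⟨by norm_num⟩
  have h1 := (IsPGroup.of_card (G := Subgroup.zpowers A) (p := 5) (n := 1)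
    (by rw [Nat.card_zpowers, hA, pow_one])).card_modEq_card_fixedPoints (Fin 2 ⊕ Fin 2 → F)
  have h2 : MulAction.fixedPoints (Subgroup.zpowers A) (Fin 2 ⊕ Fin 2 → F) = fx A := by
    ext v
    exact ⟨fun h => mem_fx.2 (h ⟨A, Subgroup.mem_zpowers A⟩), fun h g =>
      (Subgroup.zpowers_le (H := MulAction.stabilizer _ v) (g := A)).2 (mem_fx.1 h) g.2⟩
  rw [h2, SetLike.coe_sort_coe, Module.natCard_eq_pow_finrank (K := F) (V := fx A), Nat.card_fun,
    Nat.card_eq_fintype_card, hF, Nat.card_eq_fintype_card] at h1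
  have h3 := (fx A).finrank_le
  rw [finrank_fintype_fun_eq_card] at h3
  simp only [Fintype.card_sum, Fintype.card_fin] at h1 h3
  rw [← Submodule.finrank_eq_zero]
  by_contra h4
  have h5 : fx A = ⊤ := Submodule.eq_top_of_finrank_eq (by
    rw [finrank_fintype_fun_eq_card]
    simp only [Fintype.card_sum, Fintype.card_fin]
    generalize finrank F (fx A) = d at *
    interval_cases d <;> simp_all [Nat.ModEq])
  rw [show A = 1 from Subtype.ext (Matrix.ext_iff_mulVec.2 fun v =>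
    (mem_fx.1 (h5.ge trivial)).trans (one_mulVec v).symm), orderOf_one] at hA
  omega

omit [Fintype F] in
theorem inv_form (A : symplecticGroup (Fin 2) F) (v w : Fin 2 ⊕ Fin 2 → F) :
    (A.1 *ᵥ v) ⬝ᵥ J (Fin 2) F *ᵥ A.1 *ᵥ w = v ⬝ᵥ J (Fin 2) F *ᵥ w := by
  rw [← vecMul_transpose, ← dotProduct_mulVec, mulVec_mulVec, mulVec_mulVec,
    SymplecticGroup.mem_iff'.1 A.2]

omit [Fintype F] in
theorem skew (v w : Fin 2 ⊕ Fin 2 → F) : v ⬝ᵥ J (Fin 2) F *ᵥ w = -(w ⬝ᵥ J (Fin 2) F *ᵥ v) := by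
  rw [dotProduct_mulVec, ← mulVec_transpose, J_transpose, neg_mulVec, neg_dotProduct, dotProduct_comm]

theorem sq_zero (hF : Fintype.card F = 3) {A : symplecticGroup (Fin 2) F} (hA : A ^ 3 = 1)
    (N : End F (Fin 2 ⊕ Fin 2 → F)) (hN : ∀ v, N v = A.1 *ᵥ v - v) (v : Fin 2 ⊕ Fin 2 → F) :
    N (N v) = 0 := by
  have h3 : (3 : F) = 0 := by simpa [hF] using FiniteField.cast_card_eq_zero F
  have hA3 : ∀ v, A.1 *ᵥ A.1 *ᵥ A.1 *ᵥ v = v := fun v => by
    rw [mulVec_mulVec, mulVec_mulVec, ← pow_three', ← SubmonoidClass.coe_pow, hA]; exact one_mulVec v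
  have h1 : ∀ v, N (N (N v)) = 0 := fun v => by
    simp only [hN, mulVec_sub, hA3]
    ext i
    simp only [Pi.sub_apply, Pi.zero_apply]
    linear_combination ((A.1 *ᵥ v) i - (A.1 *ᵥ A.1 *ᵥ v) i) * h3
  have h2 : ∀ v w, N (N v) ⬝ᵥ J (Fin 2) F *ᵥ w = -(N (N w) ⬝ᵥ J (Fin 2) F *ᵥ v) := fun v w => by
    have e1 := inv_form A (A.1 *ᵥ A.1 *ᵥ v) w
    have e2 := inv_form A v (A.1 *ᵥ A.1 *ᵥ w)
    rw [hA3] at e1 e2
    rw [← skew]
    simp only [hN, mulVec_sub, sub_dotProduct, dotProduct_sub]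
    linear_combination e2 - e1 + (v ⬝ᵥ J (Fin 2) F *ᵥ A.1 *ᵥ w - (A.1 *ᵥ v) ⬝ᵥ J (Fin 2) F *ᵥ w) * h3
  by_contra h4
  obtain ⟨w, hw⟩ : ∃ w, N (N v) ⬝ᵥ J (Fin 2) F *ᵥ w ≠ 0 := by
    by_contra h5
    push Not at h5
    refine h4 (dotProduct_eq_zero _ fun w => ?_)
    have := h5 (-(J (Fin 2) F *ᵥ w))
    rwa [mulVec_neg, mulVec_mulVec, J_squared, neg_mulVec, neg_neg, one_mulVec] at this
  have h5 : ∀ v, N (N v) ⬝ᵥ J (Fin 2) F *ᵥ v = 0 := fun v => by
    linear_combination (-1) * h2 v v + (N (N v) ⬝ᵥ J (Fin 2) F *ᵥ v) * h3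
  have h6 : 2 ≤ finrank F (LinearMap.range (N * N)) := by
    refine (Fintype.card_fin 2).ge.trans (LinearIndependent.fintype_card_le_finrank
      (b := ![⟨_, v, rfl⟩, ⟨_, w, rfl⟩]) (LinearIndependent.pair_iff.2 fun s t h => ?_))
    have h7 : s • N (N v) + t • N (N w) = 0 := congrArg Subtype.val h
    have h8 := congrArg (· ⬝ᵥ J (Fin 2) F *ᵥ w) h7
    have h9 := congrArg (· ⬝ᵥ J (Fin 2) F *ᵥ v) h7
    simp only [add_dotProduct, smul_dotProduct, h5, smul_eq_mul, mul_zero, add_zero, zero_add,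
      zero_dotProduct, mul_eq_zero, h2 w v, neg_eq_zero, hw, or_false] at h8 h9
    exact ⟨h8, h9⟩
  have h7 : LinearMap.range (N * N) ≤ LinearMap.ker N := by rintro _ ⟨u, rfl⟩; exact h1 u
  have h8 : LinearMap.range (N * N) ≤ LinearMap.range N := by rintro _ ⟨u, rfl⟩; exact ⟨_, rfl⟩
  have h9 := N.finrank_range_add_finrank_ker
  have := Submodule.finrank_mono h7
  simp only [finrank_fintype_fun_eq_card, Fintype.card_sum, Fintype.card_fin] at h9
  exact h4 (h7 ((Submodule.eq_of_le_of_finrank_le h8 (by omega)).ge ⟨v, rfl⟩))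

/-- Let F be the field with 3 elements and K the field with 5 elements. For every injective homomorphism φ from SL₂(K) into the symplectic group Sp₄(F) (4 × 4 matrices g with g J gᵀ = J for the standard alternating matrix J) and every element x of order 3 of SL₂(K), the vectors of F⁴ fixed by φ(x) form a 2-dimensional subspace that is totally isotropic for the alternating form defined by J. -/
theorem result {F : Type*} [Field F] [Fintype F] (hF : Fintype.card F = 3)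
    {K : Type*} [Field K] [Fintype K] (hK : Fintype.card K = 5)
    (φ : Matrix.SpecialLinearGroup (Fin 2) K →* ↥(Matrix.symplecticGroup (Fin 2) F)) (hφ : Function.Injective φ)
    (x : Matrix.SpecialLinearGroup (Fin 2) K) (hx : orderOf x = 3) :
    Module.finrank F ↥(LinearMap.ker (Matrix.toLin' ((φ x : Matrix (Fin 2 ⊕ Fin 2) (Fin 2 ⊕ Fin 2) F)) - LinearMap.id)) = 2 ∧
      ∀ v w : Fin 2 ⊕ Fin 2 → F, (φ x : Matrix (Fin 2 ⊕ Fin 2) (Fin 2 ⊕ Fin 2) F).mulVec v = v →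
        (φ x : Matrix (Fin 2 ⊕ Fin 2) (Fin 2 ⊕ Fin 2) F).mulVec w = w →
          dotProduct v ((Matrix.J (Fin 2) F).mulVec w) = 0 := by
  obtain ⟨g, hg⟩ := five (SL25.equiv hK).some x hx
  let N : End F (Fin 2 ⊕ Fin 2 → F) := toLin' (φ x).1 - LinearMap.id
  have hN : ∀ v, N v = (φ x).1 *ᵥ v - v := fun v => by simp [N]
  have h1 := sq_zero hF (by rw [← map_pow, ← hx, pow_orderOf_eq_one, map_one]) N hN
  have h2 : LinearMap.range N ≤ LinearMap.ker N := by rintro _ ⟨u, rfl⟩; exact h1 u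
  have h3 := N.finrank_range_add_finrank_ker
  have h4 := Submodule.finrank_mono h2
  have h5 : finrank F (fx (φ x)) ≤ finrank F (fx (φ (g * x * g⁻¹))) := by
    have hi : Function.Injective (toLin' (φ g).1) := fun a b h => by
      have := congrArg ((φ g⁻¹).1 *ᵥ ·) h
      simpa only [toLin'_apply, mulVec_mulVec, ← Submonoid.coe_mul, ← map_mul, inv_mul_cancel,
        map_one, OneMemClass.coe_one, one_mulVec] using this
    rw [(Submodule.equivMapOfInjective _ hi _).finrank_eq]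
    refine Submodule.finrank_mono ?_
    rintro _ ⟨v, hv, rfl⟩
    rw [mem_fx, toLin'_apply, mulVec_mulVec, ← Submonoid.coe_mul, ← map_mul, inv_mul_cancel_right,
      map_mul, Submonoid.coe_mul, ← mulVec_mulVec, mem_fx.1 hv]
  have h6 : fx (φ x) ⊓ fx (φ (g * x * g⁻¹)) = ⊥ := by
    rw [eq_bot_iff, ← fx_five hF ((orderOf_injective φ hφ _).trans hg)]
    rintro v ⟨h7, h8⟩
    rw [mem_fx, sq, map_mul, map_mul, Submonoid.coe_mul, Submonoid.coe_mul]
    simp only [← mulVec_mulVec, mem_fx.1 h7, mem_fx.1 h8]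
  have h7 := Submodule.finrank_sup_add_finrank_inf_eq (fx (φ x)) (fx (φ (g * x * g⁻¹)))
  have h8 := (fx (φ x) ⊔ fx (φ (g * x * g⁻¹))).finrank_le
  rw [h6, finrank_bot] at h7
  simp only [finrank_fintype_fun_eq_card, Fintype.card_sum, Fintype.card_fin] at h3 h8
  change finrank F (LinearMap.ker N) ≤ _ at h5
  change _ = finrank F (LinearMap.ker N) + _ at h7
  refine ⟨show finrank F (LinearMap.ker N) = 2 by omega, fun v w hv hw => ?_⟩
  obtain ⟨u, rfl⟩ := (Submodule.eq_of_le_of_finrank_le h2 (by omega)).ge (mem_fx.2 hw)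
  have := inv_form (φ x) v u
  rw [hv] at this
  rw [hN, mulVec_sub, dotProduct_sub, this, sub_self]

end Cfsg.Agent.S3213
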