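import Cfsg.Statements.S3215
import Cfsg.Agent.S0017
import Cfsg.Agent.S0028
import Cfsg.Agent.S0526
import Cfsg.Agent.H24.FpfBasic
import Cfsg.Agent.H69.Cores
import Cfsg.Agent.H73.PByCyc
import Cfsg.Agent.H46.PAction
import Cfsg.Agent.H49.Prod
import Cfsg.Agent.H22.CoprimeQuot
import Cfsg.Agent.H3.PComplement
import Cfsg.Agent.H3.PGroup

set_option autoImplicit false
open Cfsg

namespace Cfsg.Agent.S3215

open scoped commutatorElement
open Subgroup

section
variable {H : Type*} [Group H] [Finite H]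

theorem inv_of_two {y : H} (y1 : y ≠ 1) (hy : IsPGroup 2 (zpowers y)) :
    ∃ t ∈ zpowers y, orderOf t = 2 := by
  haveI : Nontrivial (zpowers y) := (nontrivial_iff_ne_bot _).2 (by rwa [Ne, zpowers_eq_bot])
  obtain ⟨z, -, -, ho⟩ := H3.exists_mem_center_orderOf_eq hy ⊤ top_ne_bot
  exact ⟨z, z.2, by rw [orderOf_coe, ho]⟩

theorem cent_step
    (hI : ∀ t : H, orderOf t = 2 → HasNormalPComplement 2 ↥(centralizer ({t} : Set H)))
    {t x : H} (ht : orderOf t = 2) (hx : (orderOf x).Coprime 2) (hc : x * t = t * x) :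
    x ∈ centralizer ((pCore 2 H ⊓ centralizer ({t} : Set H) : Subgroup H) : Set H) := by
  have hxC : x ∈ centralizer ({t} : Set H) := mem_centralizer_singleton_iff.2 hc
  have h := H3.mem_centralizer_of_hasNormalPComplement (hI t ht)
    (Q := (pCore 2 H).subgroupOf (centralizer ({t} : Set H)))
    (H22.isPGroup_pCore.comap_of_injective _ (subtype_injective _)) (g := ⟨x, hxC⟩)
    (by rw [normalizer_eq_top]; trivial) (by rwa [← orderOf_coe])
  intro y hy
  exact congrArg Subtype.val (h ⟨y, hy.2⟩ hy.1)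

theorem fpf1 [Group.IsSolvable H] (hO : oddCore H = ⊥)
    (hI : ∀ t : H, orderOf t = 2 → HasNormalPComplement 2 ↥(centralizer ({t} : Set H)))
    {x y : H} (hx : (orderOf x).Coprime 2) (hy : y ∈ pCore 2 H) (y1 : y ≠ 1)
    (hc : x * y = y * x) : x = 1 := by
  obtain ⟨t, hty, ht⟩ := inv_of_two y1 (H22.isPGroup_pCore.to_le (zpowers_le.2 hy))
  have hxt : x * t = t * x := by
    obtain ⟨k, rfl⟩ := hty
    exact (Commute.zpow_right hc k).eq
  have h1 := cent_step hI ht hx hxt
  have h2 : zpowers x ≤ centralizer (pCore 2 H : Set H) := by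
    refine S0028.result 2 (zpowers t) (zpowers x) (pCore 2 H)
      (IsPGroup.of_card (n := 1) (by rw [Nat.card_zpowers, ht, pow_one]))
      (by rwa [Nat.card_zpowers]) H22.isPGroup_pCore ?_ (by rw [normalizer_eq_top]; exact le_top)
      (by rw [normalizer_eq_top]; exact le_top) ?_
    · rw [zpowers_le, zpowers_eq_closure, centralizer_closure]
      exact mem_centralizer_singleton_iff.2 hxt.symm
    · rw [zpowers_eq_closure, centralizer_closure, le_centralizer_iff, zpowers_le]
      exact h1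
  have h3 : zpowers x = ⊥ := H22.eq_bot_of_pgroup_coprime
    (H22.isPGroup_pCore.to_le (h2.trans (S0017.result 2 hO))) (by rwa [Nat.card_zpowers])
  exact zpowers_eq_bot.1 h3

theorem fpf2 [Group.IsSolvable H] (hO : oddCore H = ⊥)
    (hI : ∀ t : H, orderOf t = 2 → HasNormalPComplement 2 ↥(centralizer ({t} : Set H)))
    {x w : H} (hx : (orderOf x).Coprime 2) (hw : IsPGroup 2 (zpowers w)) (w1 : w ≠ 1)
    (hc : x * w = w * x) : x = 1 := by
  obtain ⟨t, hty, ht⟩ := inv_of_two w1 hw
  have hxt : x * t = t * x := by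
    obtain ⟨k, rfl⟩ := hty
    exact (Commute.zpow_right hc k).eq
  have h1 := cent_step hI ht hx hxt
  have hY : pCore 2 H ≠ ⊥ := by
    intro h
    have := S0017.result 2 hO (show t ∈ _ by
      rw [h]; intro y hy; rw [SetLike.mem_coe, mem_bot] at hy; simp [hy])
    rw [h, mem_bot] at this
    rw [this] at ht; simp at ht
  have h2 := H69.inf_centralizer_ne_bot
    (IsPGroup.of_card (p := 2) (G := zpowers t) (n := 1) (by rw [Nat.card_zpowers, ht, pow_one]))
    (H22.isPGroup_pCore (p := 2) (G := H)) (by rw [normalizer_eq_top]; exact le_top) hY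
  rw [zpowers_eq_closure, centralizer_closure] at h2
  obtain ⟨y, hy, y1⟩ := H49.ne_bot_iff_exists.1 h2
  exact fpf1 hO hI hx hy.1 y1 (h1 y hy).symm

theorem fpf3 [Group.IsSolvable H] (hO : oddCore H = ⊥)
    (hI : ∀ t : H, orderOf t = 2 → HasNormalPComplement 2 ↥(centralizer ({t} : Set H)))
    {x w : H ⧸ pCore 2 H} (hx : (orderOf x).Coprime 2) (hw : IsPGroup 2 (zpowers w)) (w1 : w ≠ 1)
    (hc : x * w = w * x) : x = 1 := by
  by_contra x1
  obtain ⟨p, hp, hpx⟩ := Nat.exists_prime_and_dvd (show orderOf x ≠ 1 by rwa [Ne, orderOf_eq_one_iff])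
  haveI := Fact.mk hp
  have hp2 : p ≠ 2 := by
    rintro rfl
    exact (Nat.Prime.coprime_iff_not_dvd Nat.prime_two).1 hx.symm hpx
  have ho : orderOf (x ^ (orderOf x / p)) = p := orderOf_pow_orderOf_div (orderOf_pos x).ne' hpx
  set x' := x ^ (orderOf x / p) with hx'
  have hc' : Commute x' w := Commute.pow_left hc _
  let f := QuotientGroup.mk' (pCore 2 H)
  have hs : Function.Surjective f := QuotientGroup.mk'_surjective _
  obtain ⟨P, -, hP, hPf⟩ := H22.exists_isPGroup_map_eq f (H := ⊤) (Q := zpowers x')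
    (IsPGroup.of_card (n := 1) (by rw [Nat.card_zpowers, ho, pow_one]))
    (by rw [map_top_of_surjective f hs]; exact le_top)
  obtain ⟨a, rfl⟩ := hs w
  have hnd : ¬ p ∣ Nat.card (pCore 2 H) := by
    obtain ⟨k, hk⟩ := IsPGroup.iff_card.1 (H22.isPGroup_pCore (p := 2) (G := H))
    rw [hk]
    intro h
    exact hp2 ((Nat.prime_dvd_prime_iff_eq hp Nat.prime_two).1 (hp.dvd_of_dvd_pow h))
  obtain ⟨n, hn, hna⟩ := H46.exists_mul_mem_centralizer hP hnd
    (by rw [normalizer_eq_top]; exact le_top) (x := a) (by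
      intro u hu
      have hu' : f u ∈ zpowers x' := hPf ▸ mem_map_of_mem f hu
      obtain ⟨k, hk⟩ := hu'
      have : f u * f a = f a * f u := by rw [← hk]; exact (hc'.zpow_left k).eq
      rw [← QuotientGroup.eq_one_iff]
      change f _ = 1
      simp only [map_mul, map_inv, this]
      group)
  have hfn : f (a * n) = f a := by
    rw [map_mul, show f n = 1 from (QuotientGroup.eq_one_iff n).2 hn, mul_one]
  have hP1 : P ≠ ⊥ := by
    rintro rfl
    rw [Subgroup.map_bot, eq_comm, zpowers_eq_bot] at hPf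
    rw [hPf, orderOf_one] at ho
    exact hp.one_lt.ne ho
  obtain ⟨u, hu, u1⟩ := H49.ne_bot_iff_exists.1 hP1
  refine u1 (fpf2 hO hI (w := a * n) ?_ ?_ ?_ (hna u hu))
  · obtain ⟨k, hk⟩ := hP ⟨u, hu⟩
    have : orderOf u ∣ p ^ k := orderOf_dvd_of_pow_eq_one (congrArg Subtype.val hk)
    exact Nat.Coprime.coprime_dvd_left this
      (Nat.Coprime.pow_left k ((Nat.coprime_primes hp Nat.prime_two).2 hp2))
  · refine (H44.isPGroup_comap f (by rw [QuotientGroup.ker_mk']; exact H22.isPGroup_pCore) hw).to_le ?_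
    rw [zpowers_le, mem_comap, hfn]
    exact mem_zpowers _
  · intro h
    rw [h, map_one] at hfn
    exact w1 hfn.symm

theorem quot_part {K : Type*} [Group K] [Finite K] [Group.IsSolvable K] (hO : pCore 2 K = ⊥)
    (hf : ∀ x w : K, (orderOf x).Coprime 2 → IsPGroup 2 (zpowers w) → w ≠ 1 → x * w = w * x → x = 1)
    (X : Subgroup K) [IsZGroup X] {k : ℕ} (hXi : X.index ∣ 2 ^ k) :
    X.Normal ∧ ∃ g : K, X ⊔ zpowers g = ⊤ := by
  have hFc : (Nat.card (fittingSubgroup K)).Coprime 2 := by
    refine H44.coprime_of_le_pPrimeCore ((H44.fitting_le_pCore_sup_pPrimeCore (p := 2)).trans ?_)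
    rw [hO, bot_sup_eq]
  have hCF : centralizer (fittingSubgroup K : Set K) ≤ fittingSubgroup K := S0044.result
  have hFn : Group.IsNilpotent (fittingSubgroup K) := H44.fitting_isNilpotent
  have hFN : (fittingSubgroup K).Normal := inferInstance
  generalize fittingSubgroup K = F at *
  have hFX : F ≤ X := by
    rw [← relIndex_eq_one]
    exact Nat.eq_one_of_dvd_coprimes (hFc.pow_right k) (relIndex_dvd_card _ _)
      ((H3.relIndex_dvd_index_of_normal_right _ _).trans hXi)
  have hZF : IsZGroup F := IsZGroup.of_injective (f := inclusion hFX) (inclusion_injective hFX)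
  have hFcyc : IsCyclic F := inferInstance
  have hcF : commutator K ≤ F := by
    refine le_trans ?_ hCF
    obtain ⟨g, rfl⟩ := (Subgroup.isCyclic_iff_exists_zpowers_eq_top F).1 hFcyc
    rw [Subgroup.zpowers_eq_closure, Subgroup.centralizer_closure]
    exact S0526.commutator_le_centralizer g
  refine ⟨Subgroup.Normal.of_commutator_le _ (hcF.trans hFX), ?_⟩
  obtain ⟨S⟩ : Nonempty (Sylow 2 K) := inferInstance
  have hSab : IsMulCommutative (S : Subgroup K) := ⟨⟨fun a b => by
    have h0 : ⁅(a : K), (b : K)⁆ ∈ (S : Subgroup K) := by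
      rw [commutatorElement_def]
      exact mul_mem (mul_mem (mul_mem a.2 b.2) (inv_mem a.2)) (inv_mem b.2)
    have h : ⁅(a : K), (b : K)⁆ ∈ (S : Subgroup K) ⊓ F :=
      ⟨h0, hcF (commutator_mem_commutator (mem_top _) (mem_top _))⟩
    rw [H22.inf_eq_bot_of_pgroup_coprime S.isPGroup' hFc, mem_bot,
      commutatorElement_eq_one_iff_mul_comm] at h
    exact Subtype.ext h⟩⟩
  have hScyc : IsCyclic (S : Subgroup K) := by
    by_cases hF1 : F = ⊥
    · have : (S : Subgroup K) = ⊥ := by
        rw [eq_bot_iff, ← hF1]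
        refine le_trans ?_ hCF
        rw [hF1]; intro x _ y hy; rw [SetLike.mem_coe, mem_bot] at hy; simp [hy]
      rw [this]; infer_instance
    · refine H2.isCyclic_of_fpf_of_comm hSab hF1 (by rw [normalizer_eq_top]; exact le_top) ?_
      intro a ha a1
      rw [eq_bot_iff]
      intro x hx
      exact mem_bot.2 (hf _ _ (Nat.Coprime.coprime_dvd_left (orderOf_dvd_natCard F hx.1) hFc)
        (S.isPGroup'.to_le (zpowers_le.2 ha)) a1 (mem_centralizer_singleton_iff.1 hx.2))
  obtain ⟨g, hg⟩ := (Subgroup.isCyclic_iff_exists_zpowers_eq_top _).1 hScyc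
  refine ⟨g, ?_⟩
  rw [hg, ← index_eq_one]
  exact Nat.eq_one_of_dvd_coprimes
    (Nat.Coprime.pow_left k ((Nat.Prime.coprime_iff_not_dvd Nat.prime_two).2 S.not_dvd_index))
    ((index_dvd_of_le le_sup_left).trans hXi) (index_dvd_of_le le_sup_right)

end


/-- Let H be a finite solvable group with no nontrivial normal subgroup of odd order in which the centralizer of every involution has a normal 2-complement. Let X be a Hall 2'-subgroup of H (odd order, index a power of 2) and Y = O₂(H). Then no non-identity element of X commutes with a non-identity element of Y (so for X ≠ 1 the group XY is a Frobenius group with kernel Y), every Sylow subgroup of X is cyclic, XY is normal in H, and H/XY is a cyclic 2-group. -/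
theorem result {H : Type*} [Group H] [Finite H] (hsol : Group.IsSolvable H)
    (hO : Cfsg.oddCore H = ⊥)
    (hI : ∀ t : H, orderOf t = 2 → Cfsg.HasNormalPComplement 2 ↥(Subgroup.centralizer ({t} : Set H)))
    (X : Subgroup H) (hXodd : Odd (Nat.card X)) (hXidx : ∃ k : ℕ, X.index = 2 ^ k) :
    (∀ x ∈ X, x ≠ 1 → ∀ y ∈ Cfsg.pCore 2 H, y ≠ 1 → x * y ≠ y * x) ∧
      (∀ (p : ℕ) [Fact p.Prime] (P : Sylow p ↥X), IsCyclic ↥(P : Subgroup ↥X)) ∧
      (X ⊔ Cfsg.pCore 2 H).Normal ∧
      ∀ hN : (X ⊔ Cfsg.pCore 2 H).Normal, IsCyclic (H ⧸ (X ⊔ Cfsg.pCore 2 H)) ∧ IsPGroup 2 (H ⧸ (X ⊔ Cfsg.pCore 2 H)) := by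
  have hXc : (Nat.card X).Coprime 2 := (Nat.coprime_two_right).2 hXodd
  have h1 : ∀ x ∈ X, x ≠ 1 → ∀ y ∈ Cfsg.pCore 2 H, y ≠ 1 → x * y ≠ y * x :=
    fun x hx x1 y hy y1 hc =>
      x1 (fpf1 hO hI (Nat.Coprime.coprime_dvd_left (orderOf_dvd_natCard X hx) hXc) hy y1 hc)
  have hZ : IsZGroup X := by
    by_cases hY : pCore 2 H = ⊥
    · have : X = ⊥ := by
        rw [eq_bot_iff, ← hY]
        refine le_trans ?_ (S0017.result 2 hO)
        rw [hY]; intro x _ y hy; rw [SetLike.mem_coe, mem_bot] at hy; simp [hy]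
      subst this
      infer_instance
    · refine H24.isZGroup_of_ambient hY (by rw [normalizer_eq_top]; exact le_top) ?_
        (H44.coprime_iff_not_dvd.1 hXc)
      intro a ha a1
      rw [eq_bot_iff]
      intro y hy
      by_contra y1
      exact h1 a ha a1 y hy.1 y1 (mem_centralizer_singleton_iff.1 hy.2).symm
  let f := QuotientGroup.mk' (pCore 2 H)
  have hs : Function.Surjective f := QuotientGroup.mk'_surjective _
  obtain ⟨k, hk⟩ := hXidx
  have hXi : (X.map f).index ∣ 2 ^ k := hk ▸ index_map_dvd X hs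
  have hZ' : IsZGroup (X.map f) := IsZGroup.of_surjective (f := f.subgroupMap X) (f.subgroupMap_surjective X)
  obtain ⟨hXn, g, htop⟩ := quot_part H22.pCore_quotient_pCore
    (fun x w hx hw w1 hc => fpf3 hO hI hx hw w1 hc) (X.map f) hXi
  have hker : f.ker = pCore 2 H := QuotientGroup.ker_mk' _
  have heq : X ⊔ pCore 2 H = (X.map f).comap f := by
    rw [comap_map_eq, hker]
  have hN : (X ⊔ pCore 2 H).Normal := by rw [heq]; infer_instance
  refine ⟨h1, fun p _ P => inferInstance, hN, fun _ => ⟨?_, ?_⟩⟩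
  · obtain ⟨a, rfl⟩ := hs g
    refine H73.isCyclic_quotient_of_sup (g := a) ?_
    have h2 := congrArg (comap f) htop
    rw [← MonoidHom.map_zpowers, ← Subgroup.map_sup, comap_map_eq, hker, comap_top] at h2
    rw [← h2, sup_right_comm]
  · obtain ⟨j, -, hj⟩ := (Nat.dvd_prime_pow Nat.prime_two).1
      (hk ▸ index_dvd_of_le (le_sup_left : X ≤ X ⊔ pCore 2 H))
    exact IsPGroup.of_card hj

end Cfsg.Agent.S3215
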