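import Cfsg.Statements.S3247
import Cfsg.Agent.S0631
import Cfsg.Agent.H3.PGroup

set_option autoImplicit false
open Cfsg

namespace Cfsg.Agent.S3247

open Subgroup

section
variable {G : Type*} [Group G] [Finite G] {p : ℕ} [Fact p.Prime]

theorem charP_of_cent (T : Subgroup G) [T.Normal] (hT : IsPGroup p T) (hO : pPrimeCore p G = ⊥)
    (hC : IsPConstrained p (centralizer (T : Set G))) : H22.IsCharP p G := by
  have hO' : pPrimeCore p (centralizer (T : Set G)) = ⊥ := by
    rw [H22.pPrimeCore_of_normal, hO, bot_subgroupOf]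
  have hc := (H22.isPConstrained_iff_of_pPrimeCore_eq_bot hO').1 hC
  intro x hx
  have hTQ : T ≤ pCore p G := H22.le_pCore inferInstance hT
  have hxC : x ∈ centralizer (T : Set G) := centralizer_le hTQ hx
  have : (⟨x, hxC⟩ : centralizer (T : Set G)) ∈ pCore p (centralizer (T : Set G)) := by
    apply hc
    intro y hy
    have hy' : (y : G) ∈ pCore p G := by
      have := hy
      rw [SetLike.mem_coe, H22.pCore_of_normal] at this
      exact this
    exact Subtype.ext (hx _ hy')
  rw [H22.pCore_of_normal] at this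
  exact this

theorem con_of_cent (T : Subgroup G) [T.Normal] (hT : IsPGroup p T)
    (hC : IsPConstrained p (centralizer (T : Set G))) : IsPConstrained p G := by
  rw [H22.isPConstrained_iff]
  have hs := QuotientGroup.mk'_surjective (pPrimeCore p G)
  haveI : (T.map (QuotientGroup.mk' (pPrimeCore p G))).Normal := Normal.map inferInstance _ hs
  refine charP_of_cent (T.map (QuotientGroup.mk' (pPrimeCore p G))) (hT.map _)
    H22.pPrimeCore_quotient_pPrimeCore ?_
  exact (H22.isPConstrained_iff_of_ker_coprime (H22.centralizerMap _ T)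
      (H22.centralizerMap_surjective _ hs H22.coprime_ker_mk' hT)
      (H22.coprime_ker_centralizerMap _ H22.coprime_ker_mk' T)).1 hC

omit [Finite G] in
theorem cent_sub {T M : Subgroup G} (hTM : T ≤ M) :
    centralizer ((T.subgroupOf M : Subgroup M) : Set M) = (centralizer (T : Set G)).subgroupOf M := by
  ext x
  rw [mem_subgroupOf, mem_centralizer_iff, mem_centralizer_iff]
  constructor
  · intro h y hy
    exact congrArg Subtype.val (h ⟨y, hTM hy⟩ hy)
  · intro h y hy
    exact Subtype.ext (h y hy)

theorem con_cent_of_le {T M : Subgroup G} (hT : IsPGroup p T) (hTM : T ≤ M)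
    (hCM : centralizer (T : Set G) ≤ M) (hM : IsPConstrained p M) :
    IsPConstrained p (centralizer (T : Set G)) := by
  have h := (S0631.result hM (T.subgroupOf M)
    (hT.of_equiv (subgroupOfEquivOfLe hTM).symm)).2
  rw [cent_sub hTM] at h
  exact (H22.isPConstrained_congr (subgroupOfEquivOfLe hCM)).1 h

theorem con_norm_of_cent {T : Subgroup G} (hT : IsPGroup p T)
    (hC : IsPConstrained p (centralizer (T : Set G))) :
    IsPConstrained p (normalizer (T : Set G)) := by
  refine con_of_cent (T.subgroupOf (normalizer (T : Set G)))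
    (hT.of_equiv (subgroupOfEquivOfLe le_normalizer).symm) ?_
  rw [cent_sub le_normalizer]
  exact (H22.isPConstrained_congr (subgroupOfEquivOfLe (centralizer_le_normalizer _))).2 hC

theorem con_norm_of_elts
    (h : ∀ x : G, orderOf x = p → IsPConstrained p (centralizer ({x} : Set G)))
    {T : Subgroup G} (hT : IsPGroup p T) (hT1 : T ≠ ⊥) :
    IsPConstrained p (normalizer (T : Set G)) := by
  haveI : Nontrivial T := (nontrivial_iff_ne_bot T).2 hT1
  obtain ⟨z, -, hz, ho⟩ := H3.exists_mem_center_orderOf_eq hT ⊤ top_ne_bot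
  refine con_norm_of_cent hT (con_cent_of_le hT ?_ ?_ (h z (by rw [orderOf_coe, ho])))
  · intro t ht
    rw [mem_centralizer_singleton_iff]
    exact congrArg Subtype.val ((mem_center_iff.1 hz) ⟨t, ht⟩)
  · exact centralizer_le (Set.singleton_subset_iff.2 z.2)

end


/-- Let G be a finite group and p a prime; here a p-local subgroup means the normalizer of a nontrivial p-subgroup, other than G itself. If every p-local subgroup of G that is maximal among p-local subgroups is p-constrained, or if the centralizer of every element of order p of G is p-constrained, then every p-local subgroup of G is p-constrained. -/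
theorem result {G : Type*} [Group G] [Finite G] (p : ℕ) [hp : Fact p.Prime]
    (h : (∀ M : Subgroup G, (∃ T : Subgroup G, IsPGroup p ↥T ∧ T ≠ ⊥ ∧ M = Subgroup.normalizer (T : Set G)) → M ≠ ⊤ →
        (∀ M' : Subgroup G, (∃ T' : Subgroup G, IsPGroup p ↥T' ∧ T' ≠ ⊥ ∧ M' = Subgroup.normalizer (T' : Set G)) → M' ≠ ⊤ → M ≤ M' → M = M') →
        Cfsg.IsPConstrained p ↥M) ∨
      (∀ x : G, orderOf x = p → Cfsg.IsPConstrained p ↥(Subgroup.centralizer ({x} : Set G))))
    (T : Subgroup G) (hT : IsPGroup p ↥T) (hT1 : T ≠ ⊥) (hTG : Subgroup.normalizer (T : Set G) ≠ ⊤) :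
    Cfsg.IsPConstrained p ↥(Subgroup.normalizer (T : Set G)) := by
  rcases h with h | h
  · obtain ⟨M, ⟨hM1, hM2, hM3⟩, hmax⟩ := (Set.toFinite {M : Subgroup G |
      (∃ T : Subgroup G, IsPGroup p ↥T ∧ T ≠ ⊥ ∧ M = Subgroup.normalizer (T : Set G)) ∧ M ≠ ⊤ ∧
        Subgroup.normalizer (T : Set G) ≤ M}).exists_maximal
      ⟨_, ⟨T, hT, hT1, rfl⟩, hTG, le_rfl⟩
    have hM := h M hM1 hM2 fun M' h1 h2 h3 =>
      le_antisymm h3 (hmax ⟨h1, h2, hM3.trans h3⟩ h3)
    exact con_norm_of_cent hT (con_cent_of_le hT (le_normalizer.trans hM3)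
      ((centralizer_le_normalizer _).trans hM3) hM)
  · exact con_norm_of_elts h hT hT1

end Cfsg.Agent.S3247
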