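import Cfsg.Statements.S3246
import Cfsg.Agent.S3247
import Cfsg.Agent.H46.NormalFour
import Cfsg.Agent.H46.Generation
import Cfsg.Agent.H49.Prod
import Cfsg.Agent.H4.CoprimeAut

set_option autoImplicit false
open Cfsg

namespace Cfsg.Agent.S3246

open scoped commutatorElement
open Subgroup

section
variable {G : Type*} [Group G] [Finite G]

theorem core_step (S : Sylow 2 G) (X : Subgroup G) (hX : Odd (Nat.card X))
    (hSX : (S : Subgroup G) ≤ normalizer (X : Set G)) (e : G)
    (hH : H22.IsCharP 2 (centralizer ({e} : Set G)))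
    (hidx : Nat.card (S : Subgroup G) ≤ 2 * Nat.card ↥(centralizer ({e} : Set G) ⊓ (S : Subgroup G))) :
    X ⊓ centralizer ({e} : Set G) ≤ ⊥ := by
  set H := centralizer ({e} : Set G) with hHdef
  set T := H ⊓ (S : Subgroup G) with hT
  set Q := (pCore 2 H).map H.subtype with hQ
  have hQp : IsPGroup 2 Q := H22.isPGroup_pCore.map _
  have hHQ : H ≤ normalizer (Q : Set G) := (H49.normalIn_map_subtype (pCore 2 H)).norm
  have hXc : (Nat.card X).Coprime 2 := (Nat.coprime_two_right).2 hX
  have hTp : IsPGroup 2 T := S.isPGroup'.to_le inf_le_right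
  have hTQ : IsPGroup 2 ↥(T ⊔ Q) :=
    IsPGroup.to_sup_of_normal_right' hTp hQp (inf_le_left.trans hHQ)
  have hle : Nat.card ↥(T ⊔ Q) ≤ Nat.card (S : Subgroup G) := by
    obtain ⟨S', hS'⟩ := hTQ.exists_le_sylow
    rw [Nat.card_congr (S.equiv S').toEquiv]
    exact card_le_of_le hS'
  have hc := H49.card_sup_mul_card_inf (H := T) (K := Q) (Or.inl (inf_le_left.trans hHQ))
  have hTpos := H49.card_pos' T
  have hQ2 : Nat.card Q ≤ 2 * Nat.card ↥(T ⊓ Q) := by
    have : Nat.card T * Nat.card Q ≤ Nat.card T * (2 * Nat.card ↥(T ⊓ Q)) := by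
      rw [← hc]; nlinarith
    exact Nat.le_of_mul_le_mul_left this hTpos
  intro y hy
  have hyo : (orderOf y).Coprime 2 :=
    Nat.Coprime.coprime_dvd_left (orderOf_dvd_natCard X hy.1) hXc
  set Q0 := Q ⊓ centralizer ({y} : Set G) with hQ0
  have hTQ0 : T ⊓ Q ≤ Q0 := by
    intro t ht
    refine ⟨ht.2, ?_⟩
    have h1 : t * y * t⁻¹ * y⁻¹ ∈ X :=
      X.mul_mem ((mem_normalizer_iff.1 (hSX ht.1.2) y).1 hy.1) (X.inv_mem hy.1)
    have h2 : t * y * t⁻¹ * y⁻¹ ∈ Q := by
      have := (mem_normalizer_iff.1 (hHQ hy.2) t⁻¹).1 (Q.inv_mem ht.2)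
      have := Q.mul_mem ht.2 this
      simpa only [mul_assoc] using this
    have h3 : t * y * t⁻¹ * y⁻¹ ∈ Q ⊓ X := ⟨h2, h1⟩
    rw [H22.inf_eq_bot_of_pgroup_coprime hQp hXc, mem_bot] at h3
    refine mem_centralizer_singleton_iff.2 ?_
    calc t * y = (t * y * t⁻¹ * y⁻¹) * y * t := by group
      _ = y * t := by rw [h3, one_mul]
  have hi : Q0.relIndex Q ≤ 2 := by
    have h1 := H49.card_mul_relIndex (show Q0 ≤ Q from inf_le_left)
    have h2 := card_le_of_le hTQ0
    have h3 := H49.card_pos' Q0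
    by_contra hh
    push Not at hh
    nlinarith
  have hyQ : y ∈ centralizer (Q : Set G) := by
    refine H4.mem_centralizer_of_stabilizes (p := 2) (N := Q0) (hQp.to_le inf_le_left) hyo ?_ ?_
    · intro q hq
      exact mem_centralizer_singleton_iff.1 hq.2
    · intro x hx
      have hyx : y * x * y⁻¹ ∈ Q := (mem_normalizer_iff.1 (hHQ hy.2) x).1 hx
      by_cases hx0 : x ∈ Q0
      · have : y * x * y⁻¹ = x := by
          rw [← mem_centralizer_singleton_iff.1 hx0.2]; group
        rw [this, inv_mul_cancel]; exact Q0.one_mem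
      · have hi2 : Q0.relIndex Q = 2 := by
          have h0 := H49.relIndex_pos Q0 Q
          have h1 : Q0.relIndex Q ≠ 1 := fun h => hx0 (relIndex_eq_one.1 h hx)
          omega
        have hyx0 : y * x * y⁻¹ ∉ Q0 := by
          intro h
          apply hx0
          refine ⟨hx, ?_⟩
          have h' := mem_centralizer_singleton_iff.1 h.2
          refine mem_centralizer_singleton_iff.2 ?_
          have : y * (x * y) = y * (y * x) := by
            calc y * (x * y) = (y * x * y⁻¹ * y) * y := by group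
              _ = y * (y * x) := by rw [h']; group
          exact mul_left_cancel this
        have := (mul_mem_iff_of_index_two (H := Q0.subgroupOf Q) hi2
          (a := (⟨x, hx⟩ : Q)⁻¹) (b := ⟨_, hyx⟩)).2 (by
            rw [inv_mem_iff, mem_subgroupOf, mem_subgroupOf]
            exact iff_of_false hx0 hyx0)
        exact this
  have hyQ' : y ∈ Q := by
    refine ⟨⟨y, hy.2⟩, hH ?_, rfl⟩
    intro q hq
    exact Subtype.ext (hyQ _ ⟨q, hq, rfl⟩)
  have : y ∈ Q ⊓ X := ⟨hyQ', hy.1⟩
  rwa [H22.inf_eq_bot_of_pgroup_coprime hQp hXc] at this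

theorem idx_two {P : Type*} [Group P] [Finite P] (hP : IsPGroup 2 P) (U : Subgroup P) [U.Normal]
    (hU : Nat.card U = 2 ^ 2) {e : P} (he : e ∈ U) :
    ∀ a b : P, a ∉ centralizer ({e} : Set P) → b ∉ centralizer ({e} : Set P) →
      a * b ∈ centralizer ({e} : Set P) := by
  have hU1 : ⊥ < U := bot_lt_iff_ne_bot.2 (by rintro rfl; simp at hU)
  obtain ⟨Z, hZn, -, hZU, hZc, hZ⟩ := H3.exists_normal_card_eq_mul hP ⊥ U hU1
  rw [card_bot, one_mul] at hZc
  have hZU' : Z < U := lt_of_le_of_ne hZU (by rintro rfl; omega)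
  obtain ⟨K, -, -, hKU, hKc, hK⟩ := H3.exists_normal_card_eq_mul hP Z U hZU'
  have hKU' : K = U := H49.eq_of_le_of_card_eq hKU (by omega)
  subst hKU'
  obtain ⟨z, hz1, hz⟩ := (Nat.card_eq_two_iff' (1 : Z)).1 hZc
  have hcomm : ∀ a : P, a ∉ centralizer ({e} : Set P) → a * e * a⁻¹ = (z : P) * e := by
    intro a ha
    have h1 : ⁅e, a⁆⁻¹ ∈ Z := Z.inv_mem (hK (commutator_mem_commutator he (mem_top a)))
    have h2 := hz ⟨_, h1⟩ (fun h => ha (by
      have h3 : ⁅e, a⁆⁻¹ = 1 := congrArg Subtype.val h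
      rw [inv_eq_one, commutatorElement_eq_one_iff_mul_comm] at h3
      exact mem_centralizer_singleton_iff.2 h3.symm))
    rw [← h2]
    simp only [commutatorElement_inv, commutatorElement_def]
    group
  have hzc : ∀ a : P, a * z * a⁻¹ = z := by
    intro a
    have h1 : ⁅(z : P), a⁆ = 1 := mem_bot.1 (hZ (commutator_mem_commutator z.2 (mem_top a)))
    rw [commutatorElement_eq_one_iff_mul_comm] at h1
    rw [← h1]; group
  have hz2 : (z : P) * z = 1 := by
    have := pow_card_eq_one' (x := z)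
    rw [hZc, _root_.sq] at this
    exact congrArg Subtype.val this
  intro a b ha hb
  rw [mem_centralizer_singleton_iff]
  have : a * b * e * (a * b)⁻¹ = e := by
    calc a * b * e * (a * b)⁻¹ = a * (b * e * b⁻¹) * a⁻¹ := by group
      _ = (a * z * a⁻¹) * (a * e * a⁻¹) := by rw [hcomm b hb]; group
      _ = e := by rw [hzc, hcomm a ha, ← mul_assoc, hz2, one_mul]
  calc a * b * e = (a * b * e * (a * b)⁻¹) * (a * b) := by group
    _ = e * (a * b) := by rw [this]

end


/-- Let G be a finite group whose Sylow 2-subgroup S has a self-centralizing normal subgroup of rank at least 3. Suppose that either every maximal 2-local subgroup of G is 2-constrained with no nontrivial normal subgroup of odd order, or the centralizer of every involution of G is 2-constrained with no nontrivial normal subgroup of odd order. Then S normalizes no nontrivial subgroup of G of odd order and every 2-local subgroup of G is 2-constrained. -/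
theorem result {G : Type*} [Group G] [Finite G]
    (S : Sylow 2 G) (A : Subgroup G) (hA : Cfsg.IsSCN (S : Subgroup G) A) (hA3 : ¬ Cfsg.PRankLE 2 2 ↥A)
    (h : (∀ M : Subgroup G, Cfsg.IsMaximalTwoLocal M → Cfsg.IsPConstrained 2 ↥M ∧ Cfsg.oddCore ↥M = ⊥) ∨
      (∀ t : G, orderOf t = 2 → Cfsg.IsPConstrained 2 ↥(Subgroup.centralizer ({t} : Set G)) ∧
        Cfsg.oddCore ↥(Subgroup.centralizer ({t} : Set G)) = ⊥)) :
    (∀ X : Subgroup G, Odd (Nat.card ↥X) → (S : Subgroup G) ≤ Subgroup.normalizer (X : Set G) → X = ⊥) ∧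
      (∀ T : Subgroup G, IsPGroup 2 ↥T → T ≠ ⊥ → Cfsg.IsPConstrained 2 ↥(Subgroup.normalizer (T : Set G))) := by
  have hc : ∀ t : G, orderOf t = 2 → H22.IsCharP 2 (centralizer ({t} : Set G)) := by
    intro t ht
    rcases h with h | h
    · have hp : IsPGroup 2 (zpowers t) := IsPGroup.of_card (n := 1) (by rw [Nat.card_zpowers, ht, pow_one])
      have h1 : zpowers t ≠ ⊥ := by
        rw [Ne, zpowers_eq_bot]; rintro rfl; simp at ht
      obtain ⟨M, ⟨hM1, hM3⟩, hmax⟩ := (Set.toFinite {M : Subgroup G |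
        IsTwoLocal M ∧ Subgroup.normalizer (zpowers t : Set G) ≤ M}).exists_maximal
        ⟨_, ⟨zpowers t, hp, h1, rfl⟩, le_rfl⟩
      obtain ⟨hM, hO⟩ := h M ⟨hM1, fun M' h1 h3 => le_antisymm (hmax ⟨h1, hM3.trans h3⟩ h3) h3⟩
      have hM' := (H22.isPConstrained_iff_of_pPrimeCore_eq_bot hO).1 hM
      have hle : zpowers t ≤ M := le_normalizer.trans hM3
      have h2 := S0631.isCharP_centralizer hM' ((zpowers t).subgroupOf M)
        (hp.of_equiv (subgroupOfEquivOfLe hle).symm)
      rw [S3247.cent_sub hle] at h2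
      have h3 := h2.of_equiv (subgroupOfEquivOfLe ((centralizer_le_normalizer _).trans hM3))
      have h4 : centralizer ((zpowers t : Subgroup G) : Set G) = centralizer ({t} : Set G) := by
        rw [zpowers_eq_closure, centralizer_closure]
      rwa [h4] at h3
    · exact (H22.isPConstrained_iff_of_pPrimeCore_eq_bot (h t ht).2).1 (h t ht).1
  refine ⟨fun X hX hSX => ?_, fun T hT hT1 =>
    S3247.con_norm_of_elts (fun x hx => (hc x hx).isPConstrained) hT hT1⟩
  unfold Cfsg.PRankLE at hA3
  push Not at hA3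
  obtain ⟨B, hB1, hB2, hB3⟩ := hA3
  let f : A →* (S : Subgroup G) := inclusion hA.1
  have hf : Function.Injective f := inclusion_injective hA.1
  obtain ⟨U, hUn, hUe, hUc⟩ := H46.exists_normal_four S.isPGroup' (A := B.map f)
    ⟨inferInstance, by
      rintro _ ⟨b, hb, rfl⟩
      rw [← map_pow, hB2 b hb, map_one]⟩
    (by rw [card_map_of_injective hf]; exact hB3)
  haveI := hUe.1
  have hVc : Nat.card (U.map (S : Subgroup G).subtype) = 2 ^ 2 := by
    rw [card_map_of_injective (subtype_injective _), hUc]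
  have hVe : ∀ a ∈ U.map (S : Subgroup G).subtype, a ^ 2 = 1 := by
    rintro _ ⟨b, hb, rfl⟩
    rw [← map_pow, hUe.2 b hb, map_one]
  rw [eq_bot_iff]
  refine H46.le_of_forall_element (p := 2) (A := U.map (S : Subgroup G).subtype)
    (IsPGroup.of_card hVc) inferInstance ?_ (by simpa [← even_iff_two_dvd] using hX)
    ((map_subtype_le _).trans hSX) ?_
  · intro hcyc
    obtain ⟨g, hg⟩ := IsCyclic.exists_ofOrder_eq_natCard (α := U.map (S : Subgroup G).subtype)
    have : orderOf g ∣ 2 := orderOf_dvd_of_pow_eq_one (Subtype.ext (hVe g g.2))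
    rw [hg, hVc] at this
    omega
  · rintro _ ⟨e, he, rfl⟩ he1
    have ho : orderOf (e : G) = 2 := orderOf_eq_prime (hVe _ ⟨e, he, rfl⟩) he1
    refine core_step S X hX hSX _ (hc _ ho) (H46.card_le_two_mul fun a ha b hb ha' hb' => ?_)
    have := idx_two S.isPGroup' U hUc he ⟨a, ha⟩ ⟨b, hb⟩
      (fun h => ha' (mem_centralizer_singleton_iff.2
        (congrArg Subtype.val (mem_centralizer_singleton_iff.1 h))))
      (fun h => hb' (mem_centralizer_singleton_iff.2
        (congrArg Subtype.val (mem_centralizer_singleton_iff.1 h))))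
    exact mem_centralizer_singleton_iff.2
        (congrArg Subtype.val (mem_centralizer_singleton_iff.1 this))

end Cfsg.Agent.S3246
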