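import Cfsg.Statements.S3264
import Cfsg.Agent.BART.Main

set_option autoImplicit false
open Cfsg

namespace Cfsg.Agent.S3264

open Subgroup H72 H81

/-- Let G be a non-abelian finite simple group and X a conjugacy class of involutions of G. Form the graph on X in which two distinct involutions are joined when their product has odd order. Then this graph is connected. (By the Baer–Suzuki Theorem the graph has at least one edge; connectedness is the stronger statement.) -/
theorem result {G : Type*} [Group G] [Finite G] [IsSimpleGroup G]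
    (hG : ¬ IsMulCommutative G) (t : G) (ht : orderOf t = 2) :
    (SimpleGraph.fromRel fun x y : {x : G // IsConj t x} => Odd (orderOf (x.1 * y.1))).Connected := by
  set Γ := (SimpleGraph.fromRel fun x y : {x : G // IsConj t x} => Odd (orderOf (x.1 * y.1)))
    with hΓ
  have htt : t * t = 1 := by rw [← pow_two, ← ht, pow_orderOf_eq_one]
  let v : G → {x : G // IsConj t x} := fun g => ⟨g * t * g⁻¹, isConj_iff.2 ⟨g, rfl⟩⟩
  let c : G → {x : G // IsConj t x} → {x : G // IsConj t x} := fun g x =>
    ⟨g * x.1 * g⁻¹, x.2.trans (isConj_iff.2 ⟨g, rfl⟩)⟩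
  have hodd : ∀ (g : G) (x y : G), Odd (orderOf (x * y)) →
      Odd (orderOf (g * x * g⁻¹ * (g * y * g⁻¹))) := by
    intro g x y h
    have : g * x * g⁻¹ * (g * y * g⁻¹) = (MulAut.conj g) (x * y) := by
      simp only [MulAut.conj_apply]; group
    rwa [this, MulEquiv.orderOf_eq]
  have hc : ∀ (g : G) x y, Γ.Adj x y → Γ.Adj (c g x) (c g y) := by
    intro g x y h
    rw [hΓ, SimpleGraph.fromRel_adj] at h ⊢
    refine ⟨fun e => h.1 ?_, h.2.imp (hodd g _ _) (hodd g _ _)⟩
    have := congrArg Subtype.val e
    simp only [c] at this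
    exact Subtype.ext (mul_left_cancel (mul_right_cancel this))
  have hr : ∀ (g : G) x y, Γ.Reachable x y → Γ.Reachable (c g x) (c g y) := fun g x y h =>
    h.map (⟨c g, fun {a b} hab => hc g a b hab⟩ : Γ →g Γ)
  have hcv : ∀ g h : G, c g (v h) = v (g * h) := by
    intro g h
    apply Subtype.ext
    simp only [c, v]; group
  let Y : Subgroup G :=
    { carrier := {g | Γ.Reachable (v 1) (v g)}
      one_mem' := SimpleGraph.Reachable.refl _
      mul_mem' := by
        intro a b ha hb
        have := hr a _ _ hb
        rw [hcv, hcv, mul_one] at this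
        exact ha.trans this
      inv_mem' := by
        intro a ha
        have := hr a⁻¹ _ _ ha
        rw [hcv, hcv, mul_one, inv_mul_cancel] at this
        exact this.symm }
  have hNC : NC (zpowers t) ⊤ := by
    refine ⟨le_top, fun L hL _ hN => ?_⟩
    have hLn : L.Normal := normalizer_eq_top_iff.1 (top_le_iff.1 hN)
    refine (hLn.eq_bot_or_eq_top).resolve_left fun e => ?_
    have : t = 1 := mem_bot.1 (e ▸ hL (mem_zpowers t))
    rw [this, orderOf_one] at ht
    omega
  have hY : Y = ⊤ := by
    refine BART.bartels (zpowers t) Y hNC fun g hg => ?_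
    rw [cj_zpowers] at hg ⊢
    have hss : g * t * g⁻¹ * (g * t * g⁻¹) = 1 := by
      calc g * t * g⁻¹ * (g * t * g⁻¹) = g * (t * t) * g⁻¹ := by group
        _ = 1 := by rw [htt]; group
    have ho := BART.odd_of_conj htt hss hg rfl
    have h1 : Γ.Reachable (v 1) (v g) := by
      by_cases e : v 1 = v g
      · rw [e]
      · refine SimpleGraph.Adj.reachable ?_
        rw [hΓ, SimpleGraph.fromRel_adj]
        refine ⟨e, Or.inl ?_⟩
        simpa [v] using ho
    rw [zpowers_le]
    have h2 := hr (g * t * g⁻¹) _ _ h1
    rw [hcv, hcv, mul_one] at h2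
    have h3 : v (g * t * g⁻¹ * g) = v g := by
      apply Subtype.ext
      simp only [v]; group
    rw [h3] at h2
    exact h1.trans h2.symm
  have hall : ∀ x, Γ.Reachable (v 1) x := by
    rintro ⟨x, hx⟩
    obtain ⟨g, rfl⟩ := isConj_iff.1 hx
    have : g ∈ Y := hY ▸ mem_top g
    exact this
  haveI : Nonempty {x : G // IsConj t x} := ⟨v 1⟩
  exact ⟨fun x y => (hall x).symm.trans (hall y)⟩

end Cfsg.Agent.S3264
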