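import Cfsg.Statements.S3265
import Cfsg.Agent.H68.InvMid

set_option autoImplicit false
open Cfsg

namespace Cfsg.Agent.S3265

open Equiv Equiv.Perm in
theorem even_of_swap {α : Type*} {w : Perm α} {v : α} (h : w (w v) = v)
    (h' : w v ≠ v) : ¬ Odd (orderOf w) := by
  rintro ⟨k, hk⟩
  have : ∀ j, (w ^ (2 * j)) v = v := by
    intro j
    induction j with
    | zero => rfl
    | succ j ih => rw [mul_add, pow_add, Perm.mul_apply, mul_one, sq, Perm.mul_apply, h, ih]
  have e := congrArg (fun g : Perm α => g v) (pow_orderOf_eq_one w)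
  simp only [hk, pow_succ', Perm.mul_apply, this, Perm.one_apply] at e
  exact h' e

open Equiv Equiv.Perm in
theorem exists_far {α : Type*} [Fintype α] [DecidableEq α] (hn : 5 ≤ Fintype.card α)
    {t : Perm α} (ht : t * t = 1) (h1 : t ≠ 1) : ∃ y, IsConj t y ∧ ¬ Odd (orderOf (t * y)) := by
  have tt : ∀ v, t (t v) = v := fun v => by rw [← Perm.mul_apply, ht, Perm.one_apply]
  obtain ⟨a, ha⟩ : ∃ a, t a ≠ a := by
    by_contra hc
    push Not at hc
    exact h1 (Equiv.ext hc)
  by_cases hb : ∃ b, b ≠ a ∧ b ≠ t a ∧ t b ≠ b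
  · obtain ⟨b, h2, h3, h4⟩ := hb
    have h5 : t b ≠ t a := fun e => h2 (t.injective e)
    have h6 : t b ≠ a := fun e => h3 (by rw [← e, tt])
    refine ⟨_, isConj_iff.2 ⟨swap (t a) b, rfl⟩, even_of_swap (v := a) ?_ ?_⟩
    · simp [swap_apply_of_ne_of_ne ha.symm h2.symm, swap_apply_of_ne_of_ne h5 h4, tt]
    · simp [swap_apply_of_ne_of_ne ha.symm h2.symm, h6]
  · push Not at hb
    obtain ⟨b, -, hb'⟩ := Finset.exists_mem_notMem_of_card_lt_card (s := {a, t a})
      (t := Finset.univ) (Finset.card_le_two.trans_lt (by rw [Finset.card_univ]; omega))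
    obtain ⟨c, -, hc'⟩ := Finset.exists_mem_notMem_of_card_lt_card (s := {a, t a, b})
      (t := Finset.univ) (Finset.card_le_three.trans_lt (by rw [Finset.card_univ]; omega))
    simp only [Finset.mem_insert, Finset.mem_singleton, not_or] at hb' hc'
    have e1 := hb b hb'.1 hb'.2
    have e2 := hb c hc'.1 hc'.2.1
    have y1 : (swap a b * swap (t a) c * t * (swap a b * swap (t a) c)⁻¹) a = a := by
      simp [swap_apply_of_ne_of_ne hb'.2 (Ne.symm hc'.2.2), e1]
    have y2 : (swap a b * swap (t a) c * t * (swap a b * swap (t a) c)⁻¹) (t a) = t a := by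
      simp [swap_apply_of_ne_of_ne ha (Ne.symm hb'.2), e2]
    refine ⟨_, isConj_iff.2 ⟨swap a b * swap (t a) c, rfl⟩, even_of_swap (v := a) ?_ ?_⟩
    · rw [Perm.mul_apply, Perm.mul_apply t, y1, y2, tt]
    · rw [Perm.mul_apply, y1]; exact ha

open Equiv Equiv.Perm in
theorem conj_of_card {α : Type*} [Fintype α] [DecidableEq α] {x z : Perm α} (hx : x * x = 1)
    (hz : z * z = 1) (h : z.support.card = x.support.card) : IsConj x z := by
  have : Fact (Nat.Prime 2) := ⟨Nat.prime_two⟩
  have h1 := cycleType_of_pow_prime_eq_one (p := 2) (by rw [sq, hx])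
  have h2 := cycleType_of_pow_prime_eq_one (p := 2) (by rw [sq, hz])
  rw [← sum_cycleType, ← sum_cycleType, h1, h2, Multiset.sum_replicate, Multiset.sum_replicate,
    smul_eq_mul, smul_eq_mul] at h
  rw [isConj_iff_cycleType_eq, h1, h2]
  congr 1; omega

/-- Let n ≥ 5 and let X be a conjugacy class of involutions of the symmetric group of degree n. The graph on X joining two distinct involutions whose product has odd order is connected and has diameter exactly 2. -/
theorem result (n : ℕ) (hn : 5 ≤ n) (t : Equiv.Perm (Fin n)) (ht : orderOf t = 2) :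
    (SimpleGraph.fromRel fun x y : {x : Equiv.Perm (Fin n) // IsConj t x} =>
        Odd (orderOf (x.1 * y.1))).Connected ∧
      (SimpleGraph.fromRel fun x y : {x : Equiv.Perm (Fin n) // IsConj t x} =>
        Odd (orderOf (x.1 * y.1))).diam = 2 := by
  set G := (SimpleGraph.fromRel fun x y : {x : Equiv.Perm (Fin n) // IsConj t x} =>
        Odd (orderOf (x.1 * y.1))) with hG
  have htt : t * t = 1 := by rw [← sq, ← ht, pow_orderOf_eq_one]
  have hinv : ∀ x : {x : Equiv.Perm (Fin n) // IsConj t x},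
      x.1 * x.1 = 1 ∧ x.1.support.card = t.support.card := by
    rintro ⟨x, hx⟩
    obtain ⟨c, rfl⟩ := isConj_iff.1 hx
    exact ⟨by rw [conj_mul, htt]; simp, Equiv.Perm.card_support_conj⟩
  have hle1 : ∀ x y : {x : Equiv.Perm (Fin n) // IsConj t x}, Odd (orderOf (x.1 * y.1)) →
      G.edist x y ≤ 1 := fun x y h => by
    rw [SimpleGraph.edist_le_one_iff_adj_or_eq, hG, SimpleGraph.fromRel_adj]
    tauto
  have hle : G.ediam ≤ 2 := by
    refine SimpleGraph.ediam_le_of_edist_le fun x y => ?_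
    obtain ⟨z, h1, h2, h3, h4⟩ := H68.exists_mid (by simpa using hn) (hinv x).1 (hinv y).1
      ((hinv x).2.trans (hinv y).2.symm)
    let z' : {x : Equiv.Perm (Fin n) // IsConj t x} :=
      ⟨z, x.2.trans (conj_of_card (hinv x).1 h1 h2)⟩
    refine (SimpleGraph.edist_triangle (v := z')).trans ?_
    rw [SimpleGraph.edist_comm (u := z'), ← one_add_one_eq_two]
    exact add_le_add (hle1 x z' h3) (hle1 y z' h4)
  have hne : G.ediam ≠ ⊤ := ne_top_of_le_ne_top (by decide) hle
  have : Nonempty {x : Equiv.Perm (Fin n) // IsConj t x} := ⟨⟨t, IsConj.refl t⟩⟩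
  have hc := SimpleGraph.connected_of_ediam_ne_top hne
  refine ⟨hc, le_antisymm (ENat.toNat_le_toNat hle (by decide)) ?_⟩
  obtain ⟨y, hy, hy'⟩ := exists_far (by simpa using hn) htt (by rintro rfl; simp at ht)
  refine le_trans (hc.one_lt_dist_of_ne_of_not_adj (u := ⟨t, IsConj.refl t⟩) (v := ⟨y, hy⟩)
    (fun e => hy' ?_) ?_) (SimpleGraph.dist_le_diam hne)
  · have : t = y := congrArg Subtype.val e
    rw [← this, htt]; simp
  · rw [hG, SimpleGraph.fromRel_adj]
    rintro ⟨-, h | h⟩
    · exact hy' h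
    · refine hy' ?_
      have : y * t = t⁻¹ * (t * y) * t⁻¹⁻¹ := by group
      rwa [this, ← MulAut.conj_apply, MulEquiv.orderOf_eq] at h

end Cfsg.Agent.S3265
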