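import Cfsg.Statements.S3266
import Cfsg.Agent.H66.PSL2Cent
import Cfsg.Agent.H67.FinField

set_option autoImplicit false
open Cfsg

namespace Cfsg.Agent.S3266

open Cfsg.Agent.H66 Matrix

theorem tr_zero {F : Type*} [Field F] {g : SpecialLinearGroup (Fin 2) F} (h : g * g = -1) :
    tr2 g = 0 := by
  have hd := sl2_det g
  have e : tr2 g • g.1 = 0 := by
    have := sl2_mul_self g
    have h' : g.1 * g.1 = -1 := congrArg Subtype.val h
    rw [h'] at this
    linear_combination (norm := skip) -this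
    abel
  rcases smul_eq_zero.1 e with e | e
  · exact e
  · rw [e] at hd; simp at hd

theorem isConj_zero {F : Type*} [Field F] [Fintype F] {g : SpecialLinearGroup (Fin 2) F}
    (hg : NonSc g.1) (h : tr2 g = 0) : IsConj (comp2 0) g := by
  by_cases h2 : (2 : F) = 0
  · have hc : ringChar F = 2 :=
      (Nat.prime_dvd_prime_iff_eq (CharP.char_is_prime F _) Nat.prime_two).1 ((ringChar.spec F 2).1 h2)
    obtain ⟨P, hP, e⟩ := exists_conj_companion hg
    obtain ⟨r, hr⟩ := FiniteField.isSquare_of_char_two hc P.det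
    have hr0 : r ≠ 0 := fun e => hP (by rw [hr, e, mul_zero])
    rw [isConj_iff]
    refine ⟨H9.slMk (r⁻¹ • P) (by rw [det_smul, hr]; simp; field_simp), ?_⟩
    rw [mul_inv_eq_iff_eq_mul]
    apply Subtype.ext
    change (r⁻¹ • P) * (comp2 0).1 = g.1 * (r⁻¹ • P)
    rw [sl2_det, ← tr2, h] at e
    rw [smul_mul_assoc, mul_smul_comm, e, coe_comp2]
  · have := isConj_comp2 (tr2_sq_ne_of_eq_zero h2 h)
    rwa [h] at this

theorem fricke {F : Type*} [Field F] {X Y : SpecialLinearGroup (Fin 2) F} (hX : tr2 X = 0)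
    (hY : tr2 Y = 0) (hs : tr2 (X * Y) ^ 2 ≠ 4) (a b c : F)
    (h : c ^ 2 = 4 - tr2 (X * Y) ^ 2 - a ^ 2 - b ^ 2 - tr2 (X * Y) * a * b) :
    ∃ Z : SpecialLinearGroup (Fin 2) F, tr2 Z = 0 ∧ tr2 (X * Z) = a ∧ tr2 (Y * Z) = b := by
  have hD : 4 - tr2 (X * Y) ^ 2 ≠ 0 := sub_ne_zero.2 hs.symm
  obtain ⟨α, hα⟩ : ∃ α, α * (4 - tr2 (X * Y) ^ 2) = -(2 * a + tr2 (X * Y) * b) :=
    ⟨_, div_mul_cancel₀ _ hD⟩
  obtain ⟨β, hβ⟩ : ∃ β, β * (4 - tr2 (X * Y) ^ 2) = -(tr2 (X * Y) * a + 2 * b) :=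
    ⟨_, div_mul_cancel₀ _ hD⟩
  obtain ⟨l, hl⟩ : ∃ l, l * (4 - tr2 (X * Y) ^ 2) = c := ⟨_, div_mul_cancel₀ _ hD⟩
  have h1 : -2 * α + tr2 (X * Y) * β = a := by
    apply mul_right_cancel₀ hD; linear_combination -2 * hα + tr2 (X * Y) * hβ
  have h2 : tr2 (X * Y) * α - 2 * β = b := by
    apply mul_right_cancel₀ hD; linear_combination tr2 (X * Y) * hα - 2 * hβ
  have h3 : α ^ 2 + β ^ 2 - tr2 (X * Y) * α * β + l ^ 2 * (4 - tr2 (X * Y) ^ 2) = 1 := by
    apply mul_right_cancel₀ hD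
    rw [← h1, ← h2, ← hl] at h
    linear_combination h
  have dX := sl2_det X
  have dY := sl2_det Y
  have eX : X.1 1 1 = -X.1 0 0 := by rw [tr2] at hX; linear_combination hX
  have eY : Y.1 1 1 = -Y.1 0 0 := by rw [tr2] at hY; linear_combination hY
  simp only [tr2, sl2_mul_apply, eX, eY] at h1 h2 h3 dX dY
  refine ⟨H9.slMk (α • X.1 + β • Y.1 + l • (X.1 * Y.1 - Y.1 * X.1)) ?_, ?_, ?_, ?_⟩
  · rw [det_fin_two]
    simp only [Matrix.add_apply, Matrix.sub_apply, Matrix.smul_apply, smul_eq_mul, mul2_apply, eX, eY]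
    linear_combination h3 + (α ^ 2 + 4 * l ^ 2) * dX + (β ^ 2 + 4 * l ^ 2 *
      (X.1 0 0 * -X.1 0 0 - X.1 0 1 * X.1 1 0)) * dY
  · simp only [tr2, H9.coe_slMk, Matrix.add_apply, Matrix.sub_apply, Matrix.smul_apply, smul_eq_mul,
      mul2_apply, eX, eY]
    ring
  · simp only [tr2, sl2_mul_apply, H9.coe_slMk, Matrix.add_apply, Matrix.sub_apply,
      Matrix.smul_apply, smul_eq_mul, mul2_apply, eX, eY]
    linear_combination h1 - 2 * α * dX
  · simp only [tr2, sl2_mul_apply, H9.coe_slMk, Matrix.add_apply, Matrix.sub_apply,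
      Matrix.smul_apply, smul_eq_mul, mul2_apply, eX, eY]
    linear_combination h2 - 2 * β * dY

theorem sum_quad {F : Type*} [Field F] [Fintype F] [DecidableEq F] (h2 : (2 : F) ≠ 0) {s : F}
    (hs : s ^ 2 ≠ 4) : ∑ t : F, quadraticChar F (t ^ 2 + s * t + 1) = -1 := by
  have hc : ringChar F ≠ 2 := fun e => h2 ((ringChar.spec F 2).2 (by rw [e]))
  have hD : 4 - s ^ 2 ≠ 0 := sub_ne_zero.2 hs.symm
  have h1 : (Finset.univ.filter fun x : F × F => x.2 ^ 2 = x.1 ^ 2 + s * x.1 + 1).card =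
      (Finset.univ.erase (0 : F)).card := by
    refine Finset.card_bij' (fun x _ => 2 * x.2 - 2 * x.1 - s)
      (fun w _ => (((4 - s ^ 2) / w - w - 2 * s) / 4, ((4 - s ^ 2) / w + w) / 4)) ?_ ?_ ?_ ?_
    · intro x hx
      simp only [Finset.mem_filter, Finset.mem_univ, true_and, Finset.mem_erase, and_true] at hx ⊢
      intro e
      exact hD (by linear_combination -4 * hx + (2 * x.2 + 2 * x.1 + s) * e)
    · intro w hw
      simp only [Finset.mem_filter, Finset.mem_univ, true_and, Finset.mem_erase, and_true] at hw ⊢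
      have h4 : (4 : F) ≠ 0 := by rw [show (4 : F) = 2 * 2 by norm_num]; exact mul_ne_zero h2 h2
      field_simp
      ring
    · intro x hx
      simp only [Finset.mem_filter, Finset.mem_univ, true_and] at hx
      have h4 : (4 : F) ≠ 0 := by rw [show (4 : F) = 2 * 2 by norm_num]; exact mul_ne_zero h2 h2
      have hw : 2 * x.2 - 2 * x.1 - s ≠ 0 := fun e =>
        hD (by linear_combination -4 * hx + (2 * x.2 + 2 * x.1 + s) * e)
      have : (4 - s ^ 2) / (2 * x.2 - 2 * x.1 - s) = 2 * x.2 + 2 * x.1 + s := by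
        rw [div_eq_iff hw]; linear_combination -4 * hx
      rw [this]
      refine Prod.ext ?_ ?_ <;> simp only <;> field_simp <;> ring
    · intro w hw
      have h4 : (4 : F) ≠ 0 := by rw [show (4 : F) = 2 * 2 by norm_num]; exact mul_ne_zero h2 h2
      simp only
      generalize (4 - s ^ 2) / w = k
      field_simp
      ring
  rw [Finset.card_erase_of_mem (Finset.mem_univ _), Finset.card_univ, Finset.card_filter,
    Fintype.sum_prod_type] at h1
  have h3 : ∀ t : F, ((∑ u : F, if u ^ 2 = t ^ 2 + s * t + 1 then 1 else 0 : ℕ) : ℤ) =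
      quadraticChar F (t ^ 2 + s * t + 1) + 1 := by
    intro t
    rw [← quadraticChar_card_sqrts hc, ← Finset.card_filter]
    simp
  have h4 := congrArg (Nat.cast : ℕ → ℤ) h1
  rw [Nat.cast_sum, Nat.cast_sub Fintype.card_pos] at h4
  simp only [h3, Finset.sum_add_distrib] at h4
  simp only [Finset.sum_const, Finset.card_univ, nsmul_eq_mul, mul_one, Nat.cast_one] at h4
  linarith

theorem exists_pair {F : Type*} [Field F] [Fintype F] [DecidableEq F] (hq : Fintype.card F % 4 = 3)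
    (h4 : 4 ≤ Fintype.card F) {s : F} (hs : ¬ Split s) :
    ∃ l m c : F, l ≠ 0 ∧ m ≠ 0 ∧
      c ^ 2 = 4 - s ^ 2 - (l + l⁻¹) ^ 2 - (m + m⁻¹) ^ 2 - s * (l + l⁻¹) * (m + m⁻¹) := by
  have h2 : (2 : F) ≠ 0 := H67.two_ne_zero_of_odd (Nat.odd_iff.2 (by omega))
  have hc : ringChar F ≠ 2 := fun e => h2 ((ringChar.spec F 2).2 (by rw [e]))
  have hf : ∀ t : F, t ^ 2 + s * t + 1 ≠ 0 := fun t e => hs ⟨-t, by linear_combination e⟩
  have hm1 : quadraticChar F (-1) = -1 :=
    quadraticChar_neg_one_iff_not_isSquare.2 (by rw [FiniteField.isSquare_neg_one_iff]; omega)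
  obtain ⟨ρ, σ, hρ, hσ, e1, e2⟩ : ∃ ρ σ : F, ρ ≠ 0 ∧ σ ≠ 0 ∧ quadraticChar F ρ = quadraticChar F σ ∧
      quadraticChar F (ρ ^ 2 + s * ρ + 1) ≠ quadraticChar F (σ ^ 2 + s * σ + 1) := by
    by_contra hcon
    push Not at hcon
    have k := sum_quad h2 (tr2_sq_ne_of_not_split hs)
    have k0 := quadraticChar_sum_zero hc
    set A := quadraticChar F (1 ^ 2 + s * 1 + 1) with hA
    set B := quadraticChar F ((-1) ^ 2 + s * (-1) + 1) with hB
    have k1 : ∀ t : F, 2 * quadraticChar F (t ^ 2 + s * t + 1) =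
        (A + B) + (A - B) * quadraticChar F t + if t = 0 then 2 - (A + B) else 0 := by
      intro t
      split_ifs with h0
      · simp [h0]
      · rcases quadraticChar_dichotomy h0 with e | e
        · rw [hcon t 1 h0 one_ne_zero (by simp [e]), e]; ring
        · rw [hcon t (-1) h0 (by simp) (by rw [e, hm1]), e]; ring
    have k2 := Finset.sum_congr rfl fun t (_ : t ∈ Finset.univ) => k1 t
    rw [← Finset.mul_sum, k, Finset.sum_add_distrib, Finset.sum_add_distrib, ← Finset.mul_sum, k0]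
      at k2
    simp at k2
    have h4' : (4 : ℤ) ≤ Fintype.card F := by exact_mod_cast h4
    rcases quadraticChar_dichotomy (hf 1) with a | a <;>
      rcases quadraticChar_dichotomy (hf (-1)) with b | b <;> rw [← hA] at a <;> rw [← hB] at b <;>
      rw [a, b] at k2 <;> linarith
  obtain ⟨l, hl⟩ : IsSquare (ρ * σ) := by
    rw [← quadraticChar_one_iff_isSquare (mul_ne_zero hρ hσ), map_mul, e1, ← sq,
      quadraticChar_sq_one hσ]
  have hl0 : l ≠ 0 := fun e => mul_ne_zero hρ hσ (by rw [hl, e, mul_zero])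
  obtain ⟨c, hcc⟩ : IsSquare (-((ρ ^ 2 + s * ρ + 1) * (σ ^ 2 + s * σ + 1))) := by
    rw [← quadraticChar_one_iff_isSquare (neg_ne_zero.2 (mul_ne_zero (hf _) (hf _))),
      neg_eq_neg_one_mul, map_mul, map_mul, hm1]
    rcases quadraticChar_dichotomy (hf ρ) with a | a <;>
      rcases quadraticChar_dichotomy (hf σ) with b | b <;> simp_all
  have hσ' : σ = l * l / ρ := by rw [← hl]; field_simp
  refine ⟨l, l / ρ, c / l, hl0, div_ne_zero hl0 hρ, ?_⟩
  rw [div_pow, sq c, ← hcc, hσ']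
  field_simp
  ring

theorem odd_of_sq {F : Type*} [Field F] [Fintype F] (h2 : (2 : F) ≠ 0)
    {g : SpecialLinearGroup (Fin 2) F} (h : tr2 g ^ 2 = 4) : Odd (orderOf (toPSL F g)) := by
  obtain ⟨p, hp⟩ := CharP.exists F
  have hpp := CharP.char_is_prime F p
  refine (hpp.odd_of_ne_two ?_).of_dvd_nat (orderOf_dvd_of_pow_eq_one ?_)
  · rintro rfl; exact h2 (CharP.cast_eq_zero F 2)
  · rw [← map_pow, toPSL_eq_one_iff, ← sl2_mem_center_iff]
    exact pow_char_mem_center p h

theorem odd_of_split {F : Type*} [Field F] [Fintype F] (hq : Fintype.card F % 4 = 3)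
    {g : SpecialLinearGroup (Fin 2) F} (h : Split (tr2 g)) : Odd (orderOf (toPSL F g)) := by
  have h2 : (2 : F) ≠ 0 := H67.two_ne_zero_of_odd (Nat.odd_iff.2 (by omega))
  by_cases ht : tr2 g ^ 2 = 4
  · exact odd_of_sq h2 ht
  · have := pow_card_sub_one_of_split ht h
    rw [Nat.card_eq_fintype_card, show Fintype.card F - 1 = 2 * ((Fintype.card F - 1) / 2) by omega]
      at this
    exact (Nat.odd_iff.2 (by omega)).of_dvd_nat (orderOf_dvd_of_pow_eq_one (toPSL_pow_eq_one h2 this))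

theorem odd_of_two {F : Type*} [Field F] [Fintype F] (h2 : (2 : F) = 0)
    {g : SpecialLinearGroup (Fin 2) F} (h : tr2 g ≠ 0) : Odd (orderOf (toPSL F g)) := by
  have hc : ringChar F = 2 :=
    (Nat.prime_dvd_prime_iff_eq (CharP.char_is_prime F _) Nat.prime_two).1 ((ringChar.spec F 2).1 h2)
  have hev := FiniteField.even_card_of_char_two hc
  have hq : 1 < Fintype.card F := Fintype.one_lt_card
  have ht : tr2 g ^ 2 ≠ 4 := fun e => h (pow_eq_zero_iff two_ne_zero |>.1
    (by linear_combination e + 2 * h2))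
  rw [orderOf_injective _ (toPSL_injective h2)]
  by_cases hs : Split (tr2 g)
  · refine Odd.of_dvd_nat ?_ (orderOf_dvd_of_pow_eq_one (pow_card_sub_one_of_split ht hs))
    rw [Nat.card_eq_fintype_card, Nat.odd_iff]; omega
  · refine Odd.of_dvd_nat ?_ (orderOf_dvd_of_pow_eq_one (pow_card_add_one_of_nonsplit hs))
    rw [Nat.card_eq_fintype_card, Nat.odd_iff]; omega

theorem comm_of_two {F : Type*} [Field F] (h2 : (2 : F) = 0) {X Y : SpecialLinearGroup (Fin 2) F}
    (hX : tr2 X = 0) (hY : tr2 Y = 0) (h : tr2 (X * Y) = 0) : X.1 * Y.1 = Y.1 * X.1 := by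
  have a := inv_eq_neg_of_tr2 h
  rw [_root_.mul_inv_rev, inv_eq_neg_of_tr2 hX, inv_eq_neg_of_tr2 hY, neg_mul_neg, ← neg_one_mul,
    neg_one_eq_one_of_two h2, one_mul] at a
  exact (congrArg Subtype.val a).symm

theorem common {F : Type*} [Field F] [Fintype F] (h4 : 4 ≤ Fintype.card F)
    {X Y : SpecialLinearGroup (Fin 2) F} (hX : tr2 X = 0) (hY : tr2 Y = 0) (nX : NonSc X.1)
    (nY : NonSc Y.1) (h : ¬ Odd (orderOf (toPSL F (X * Y)))) :
    ∃ Z : SpecialLinearGroup (Fin 2) F, tr2 Z = 0 ∧ NonSc Z.1 ∧ Odd (orderOf (toPSL F (X * Z))) ∧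
      Odd (orderOf (toPSL F (Y * Z))) := by
  classical
  by_cases h2 : (2 : F) = 0
  · have c := comm_of_two h2 hX hY (by by_contra e; exact h (odd_of_two h2 e))
    obtain ⟨Z, t, n, hZ⟩ : ∃ Z : SpecialLinearGroup (Fin 2) F, tr2 Z = 0 ∧ NonSc Z.1 ∧
        X.1 * Z.1 ≠ Z.1 * X.1 := by
      by_contra hcon
      push Not at hcon
      have a := hcon (upT 1) (by rw [tr2_upT, h2]) (nonSc_upT one_ne_zero)
      have b := hcon (comp2 0) (tr2_comp2 0) (by simp [NonSc, coe_comp2])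
      have := congrFun (congrFun (commute_of_commute_nonSc nX a.symm b.symm) 0) 0
      simp [mul2_apply, coe_upT, coe_comp2] at this
    refine ⟨Z, t, n, odd_of_two h2 fun e => hZ (comm_of_two h2 hX t e),
      odd_of_two h2 fun e => hZ ?_⟩
    exact commute_of_commute_nonSc nY c (comm_of_two h2 hY t e).symm
  have hs : tr2 (X * Y) ^ 2 ≠ 4 := fun e => h (odd_of_sq h2 e)
  have hodd := odd_card_of_two_ne h2
  by_cases hq : Fintype.card F % 4 = 3
  · obtain ⟨l, m, c, hl, hm, e⟩ := exists_pair hq h4 (fun e => h (odd_of_split hq e))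
    obtain ⟨Z, t, a, b⟩ := fricke hX hY hs _ _ _ e
    refine ⟨Z, t, nonSc_of_tr2 (tr2_sq_ne_of_eq_zero h2 t), odd_of_split hq ⟨l, ?_⟩,
      odd_of_split hq ⟨m, ?_⟩⟩
    · rw [a]; field_simp; ring
    · rw [b]; field_simp; ring
  · obtain ⟨i, hi⟩ := FiniteField.isSquare_neg_one_iff.2 hq
    obtain ⟨Z, t, a, b⟩ := fricke hX hY hs 2 2 (i * (tr2 (X * Y) + 2))
      (by linear_combination -(tr2 (X * Y) + 2) ^ 2 * hi)
    exact ⟨Z, t, nonSc_of_tr2 (tr2_sq_ne_of_eq_zero h2 t), odd_of_sq h2 (by rw [a]; norm_num),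
      odd_of_sq h2 (by rw [b]; norm_num)⟩

theorem orderOf_two {F : Type*} [Field F] {X : SpecialLinearGroup (Fin 2) F} (hX : tr2 X = 0)
    (nX : NonSc X.1) : orderOf (toPSL F X) = 2 := by
  apply orderOf_eq_prime
  · rw [← map_pow, sq, mul_self_of_tr2_eq_zero hX, toPSL_eq_one_iff]; exact Or.inr rfl
  · rw [Ne, toPSL_eq_one_iff, ← not_nonSc_iff, not_not]; exact nX

theorem lift_inv {F : Type*} [Field F] {x : ProjectiveSpecialLinearGroup (Fin 2) F}
    (hx : orderOf x = 2) : ∃ X, toPSL F X = x ∧ tr2 X = 0 ∧ NonSc X.1 := by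
  obtain ⟨X, rfl⟩ := toPSL_surjective x
  have n : NonSc X.1 := by
    by_contra e
    rw [not_nonSc_iff, ← toPSL_eq_one_iff] at e
    rw [e] at hx; simp at hx
  refine ⟨X, rfl, tr_zero ?_, n⟩
  have := pow_orderOf_eq_one (toPSL F X)
  rw [hx, ← map_pow, sq, toPSL_eq_one_iff] at this
  rcases this with e | e
  · by_cases h2 : (2 : F) = 0
    · rw [e, neg_one_eq_one_of_two h2]
    · exact absurd n ((not_nonSc_iff X).2 ((mul_self_eq_one_iff X h2).1 e))
  · exact e

theorem exists_nonadj {F : Type*} [Field F] [Fintype F] (h4 : 4 ≤ Fintype.card F) :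
    ∃ X Y : SpecialLinearGroup (Fin 2) F, tr2 X = 0 ∧ NonSc X.1 ∧ tr2 Y = 0 ∧ NonSc Y.1 ∧
      tr2 (X * Y) = 0 ∧ NonSc (X * Y).1 := by
  classical
  by_cases h2 : (2 : F) = 0
  · obtain ⟨c, hc⟩ : ∃ c : F, c ∉ ({0, -1} : Finset F) := by
      by_contra hcon
      push Not at hcon
      have := (Finset.card_le_card (fun c _ => hcon c : Finset.univ ⊆ _)).trans Finset.card_le_two
      rw [Finset.card_univ] at this
      omega
    simp only [Finset.mem_insert, Finset.mem_singleton, not_or] at hc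
    refine ⟨upT 1, upT c, by rw [tr2_upT, h2], nonSc_upT one_ne_zero, by rw [tr2_upT, h2],
      nonSc_upT hc.1, by rw [← upT_add, tr2_upT, h2], ?_⟩
    rw [← upT_add]
    exact nonSc_upT fun e => hc.2 (by linear_combination e)
  · have ht := tr2_sq_ne_of_eq_zero h2 (tr2_comp2 (0 : F))
    obtain ⟨y, hy⟩ := isConj_iff.1 (isConj_of_tr2_eq ht (tr2_inv _))
    have t1 := tr2_eq_zero_of_conj_eq_inv (nonSc_of_tr2 ht) hy
    have t2 := tr2_eq_zero_of_conj_eq_inv (y := comp2 0 * y) (nonSc_of_tr2 ht)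
      (by rw [_root_.mul_inv_rev, mul_assoc, mul_assoc, ← mul_assoc (comp2 0) y⁻¹, ← mul_assoc y,
        ← mul_assoc y, hy]; group)
    exact ⟨comp2 0, y, tr2_comp2 0, nonSc_of_tr2 ht, t1, nonSc_of_tr2 (tr2_sq_ne_of_eq_zero h2 t1),
      t2, nonSc_of_tr2 (tr2_sq_ne_of_eq_zero h2 t2)⟩


/-- Let F be a finite field with at least 4 elements and let X be a conjugacy class of involutions of PSL(2, F). The graph on X joining two distinct involutions whose product has odd order is connected and has diameter exactly 2. -/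
theorem result {F : Type*} [Field F] [Fintype F] (hF : 4 ≤ Fintype.card F)
    (t : Matrix.ProjectiveSpecialLinearGroup (Fin 2) F) (ht : orderOf t = 2) :
    (SimpleGraph.fromRel fun x y : {x : Matrix.ProjectiveSpecialLinearGroup (Fin 2) F // IsConj t x} =>
        Odd (orderOf (x.1 * y.1))).Connected ∧
      (SimpleGraph.fromRel fun x y : {x : Matrix.ProjectiveSpecialLinearGroup (Fin 2) F // IsConj t x} =>
        Odd (orderOf (x.1 * y.1))).diam = 2 := by
  obtain ⟨T, rfl, tT, nT⟩ := lift_inv ht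
  have mem : ∀ Z : SpecialLinearGroup (Fin 2) F, tr2 Z = 0 → NonSc Z.1 →
      IsConj (toPSL F T) (toPSL F Z) := fun Z a b =>
    (toPSL F).map_isConj ((isConj_zero nT tT).symm.trans (isConj_zero b a))
  have ord : ∀ x : {x : Matrix.ProjectiveSpecialLinearGroup (Fin 2) F // IsConj (toPSL F T) x},
      orderOf x.1 = 2 := fun x => by
    obtain ⟨u, hu⟩ := isConj_iff.1 x.2
    rw [← hu]
    exact ((MulAut.conj u).orderOf_eq _).trans ht
  have sw : ∀ a b : Matrix.ProjectiveSpecialLinearGroup (Fin 2) F, orderOf (a * b) = orderOf (b * a) :=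
    fun a b => by
      rw [show a * b = a * (b * a) * a⁻¹ by group]
      exact (MulAut.conj a).orderOf_eq _
  set G := SimpleGraph.fromRel fun x y : {x : Matrix.ProjectiveSpecialLinearGroup (Fin 2) F //
    IsConj (toPSL F T) x} => Odd (orderOf (x.1 * y.1)) with hG
  have h1 : ∀ u v, G.edist u v ≤ 2 := by
    intro u v
    by_cases e : G.Adj u v ∨ u = v
    · exact (SimpleGraph.edist_le_one_iff_adj_or_eq.2 e).trans (by norm_num)
    · rw [not_or, hG, SimpleGraph.fromRel_adj] at e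
      have ho : ¬ Odd (orderOf (u.1 * v.1)) := fun h => e.1 ⟨e.2, Or.inl h⟩
      obtain ⟨X, hX, tX, nX⟩ := lift_inv (ord u)
      obtain ⟨Y, hY, tY, nY⟩ := lift_inv (ord v)
      obtain ⟨Z, tZ, nZ, a, b⟩ := common hF tX tY nX nY (by rwa [map_mul, hX, hY])
      rw [map_mul] at a b
      rw [hX] at a
      rw [hY] at b
      have a1 : G.Adj u ⟨_, mem Z tZ nZ⟩ := by
        rw [hG, SimpleGraph.fromRel_adj]
        refine ⟨fun e' => ho ?_, Or.inl a⟩
        rw [sw, e']; exact b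
      have a2 : G.Adj ⟨_, mem Z tZ nZ⟩ v := by
        rw [hG, SimpleGraph.fromRel_adj]
        refine ⟨fun e' => ho ?_, Or.inr b⟩
        rw [← e']; exact a
      refine SimpleGraph.edist_triangle.trans (b := _ + G.edist ⟨_, mem Z tZ nZ⟩ v) ?_
      rw [SimpleGraph.edist_eq_one_iff_adj.2 a1, SimpleGraph.edist_eq_one_iff_adj.2 a2]
      norm_num
  have h2 : G.ediam = 2 := by
    refine le_antisymm (SimpleGraph.ediam_le_of_edist_le h1) ?_
    obtain ⟨X, Y, tX, nX, tY, nY, t, n⟩ := exists_nonadj hF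
    have ho := orderOf_two t n
    rw [map_mul] at ho
    refine le_trans ?_ (SimpleGraph.edist_le_ediam (u := ⟨_, mem X tX nX⟩) (v := ⟨_, mem Y tY nY⟩))
    by_contra hlt
    rw [not_le, show (2 : ℕ∞) = 1 + 1 from rfl, ENat.lt_add_one_iff (by simp),
      SimpleGraph.edist_le_one_iff_adj_or_eq, hG, SimpleGraph.fromRel_adj] at hlt
    rcases hlt with ⟨-, e | e⟩ | e
    · simp only [ho] at e; exact absurd e (by decide)
    · simp only [sw (toPSL F Y), ho] at e; exact absurd e (by decide)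
    · have e' : toPSL F X = toPSL F Y := congrArg Subtype.val e
      have := pow_orderOf_eq_one (toPSL F Y)
      rw [orderOf_two tY nY] at this
      rw [e', ← sq, this, orderOf_one] at ho
      omega
  have : Nonempty {x : Matrix.ProjectiveSpecialLinearGroup (Fin 2) F // IsConj (toPSL F T) x} :=
    ⟨⟨_, IsConj.refl _⟩⟩
  exact ⟨SimpleGraph.connected_of_ediam_ne_top (by rw [h2]; simp),
    by rw [SimpleGraph.diam, h2]; rfl⟩

end Cfsg.Agent.S3266
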