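import Cfsg.Statements.S3269
import Cfsg.Agent.H75.ZStar
import Cfsg.Agent.H75.QuatBasic

set_option autoImplicit false
open Cfsg

namespace Cfsg.Agent.S3269

open Cfsg.Agent.H75

/-- `P = Q × R` with `Q` of quaternion type with involution `z`. -/
structure Good {P : Type*} [Group P] (Q R : Subgroup P) (z : P) : Prop where
  comm : ∀ a ∈ Q, ∀ b ∈ R, a * b = b * a
  disj : ∀ a ∈ Q, a ∈ R → a = 1
  gen : ∀ s : P, ∃ q ∈ Q, ∃ r ∈ R, s = q * r
  mem : z ∈ Q
  ne : z ≠ 1
  uniq : ∀ y ∈ Q, y * y = 1 → y = 1 ∨ y = z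
  cen : ∀ y ∈ Q, y * z = z * y
  ca : ∀ a ∈ Q, ∀ b ∈ Q, ∀ c ∈ Q, a * b ≠ b * a → c * a = a * c → c * b = b * c → c * c = 1
  nonab : ∃ a ∈ Q, ∃ b ∈ Q, a * b ≠ b * a

variable {P : Type*} [Group P]

theorem Good.map {Q R : Subgroup P} {z : P} (h : Good Q R z) (φ : P ≃* P) :
    Good (Q.map φ.toMonoidHom) (R.map φ.toMonoidHom) (φ z) where
  comm := by
    rintro _ ⟨a, ha, rfl⟩ _ ⟨b, hb, rfl⟩
    rw [← map_mul, h.comm a ha b hb, map_mul]
  disj := by
    rintro _ ⟨a, ha, rfl⟩ ⟨b, hb, hab⟩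
    have : b = a := φ.injective hab
    subst this
    rw [h.disj b ha hb, map_one]
  gen := by
    intro s
    obtain ⟨q, hq, r, hr, hs⟩ := h.gen (φ.symm s)
    refine ⟨φ q, ⟨q, hq, rfl⟩, φ r, ⟨r, hr, rfl⟩, ?_⟩
    rw [← map_mul, ← hs, MulEquiv.apply_symm_apply]
  mem := ⟨z, h.mem, rfl⟩
  ne := by simpa using h.ne
  uniq := by
    rintro _ ⟨y, hy, rfl⟩ h2
    have : y * y = 1 := φ.injective (by rw [map_mul, map_one]; exact h2)
    rcases h.uniq y hy this with h | h
    · left; rw [h, map_one]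
    · right; rw [h]; rfl
  cen := by
    rintro _ ⟨y, hy, rfl⟩
    show φ y * φ z = φ z * φ y
    rw [← map_mul, h.cen y hy, map_mul]
  ca := by
    rintro _ ⟨a, ha, rfl⟩ _ ⟨b, hb, rfl⟩ _ ⟨c, hc, rfl⟩ h1 h2 h3
    rw [← map_mul, ← map_mul] at h1 h2 h3
    rw [← map_mul, h.ca a ha b hb c hc (fun h => h1 (by rw [h])) (φ.injective h2) (φ.injective h3),
      map_one]
  nonab := by
    obtain ⟨a, ha, b, hb, hab⟩ := h.nonab
    refine ⟨φ a, ⟨a, ha, rfl⟩, φ b, ⟨b, hb, rfl⟩, fun h => hab (φ.injective ?_)⟩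
    rw [map_mul, map_mul, h]

theorem Good.central {Q R : Subgroup P} {z : P} (h : Good Q R z) : z ∈ Subgroup.center P := by
  rw [Subgroup.mem_center_iff]
  intro s
  obtain ⟨q, hq, r, hr, rfl⟩ := h.gen s
  rw [mul_assoc, ← h.comm z h.mem r hr, ← mul_assoc, h.cen q hq, mul_assoc]

theorem Good.comm_iff {Q R : Subgroup P} {z : P} (h : Good Q R z) {a b r t : P} (ha : a ∈ Q)
    (hb : b ∈ Q) (hr : r ∈ R) (ht : t ∈ R) :
    a * r * (b * t) * (a * r)⁻¹ * (b * t)⁻¹ = (a * b * a⁻¹ * b⁻¹) * (r * t * r⁻¹ * t⁻¹) := by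
  have h1 := h.comm b hb r hr
  have h2 := h.comm a⁻¹ (inv_mem ha) (r * t * r⁻¹) (mul_mem (mul_mem hr ht) (inv_mem hr))
  have h3 := h.comm b⁻¹ (inv_mem hb) (r * t * r⁻¹ * t⁻¹)
    (mul_mem (mul_mem (mul_mem hr ht) (inv_mem hr)) (inv_mem ht))
  calc a * r * (b * t) * (a * r)⁻¹ * (b * t)⁻¹
      = a * (r * b) * t * r⁻¹ * a⁻¹ * t⁻¹ * b⁻¹ := by group
    _ = a * b * (r * t * r⁻¹ * a⁻¹) * t⁻¹ * b⁻¹ := by rw [← h1]; group
    _ = a * b * a⁻¹ * (r * t * r⁻¹ * t⁻¹ * b⁻¹) := by rw [← h2]; group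
    _ = _ := by rw [← h3]; group

theorem Good.commute_left {Q R : Subgroup P} {z : P} (h : Good Q R z) {a b r t : P} (ha : a ∈ Q)
    (hb : b ∈ Q) (hr : r ∈ R) (ht : t ∈ R) (hc : a * r * (b * t) = b * t * (a * r)) :
    a * b = b * a := by
  have h1 := h.comm_iff ha hb hr ht
  rw [hc] at h1
  have h2 : a * b * a⁻¹ * b⁻¹ = (r * t * r⁻¹ * t⁻¹)⁻¹ := by
    apply eq_inv_of_mul_eq_one_left
    rw [← h1]; group
  have h3 := h.disj _ (mul_mem (mul_mem (mul_mem ha hb) (inv_mem ha)) (inv_mem hb))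
    (h2 ▸ inv_mem (mul_mem (mul_mem (mul_mem hr ht) (inv_mem hr)) (inv_mem ht)))
  calc a * b = (a * b * a⁻¹ * b⁻¹) * (b * a) := by group
    _ = b * a := by rw [h3, one_mul]

theorem Good.mem_zpowers [Finite P] (hP : IsPGroup 2 P) {Q R : Subgroup P} {z : P}
    (h : Good Q R z) {c : P} (hc : c ∈ Q) (hc1 : c ≠ 1) : z ∈ Subgroup.zpowers c := by
  have : Fact (Nat.Prime 2) := ⟨Nat.prime_two⟩
  obtain ⟨k, hk⟩ := (IsPGroup.iff_orderOf.mp hP) c
  have hev : Even (orderOf c) := by
    rw [hk]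
    rcases k with _ | k
    · exact absurd (by simpa using hk) hc1
    · exact ⟨2 ^ k, by ring⟩
  have h2 := orderOf_pow_half hev
  rcases h.uniq _ (pow_mem hc _) (mul_self_of_orderOf_two h2) with h3 | h3
  · exact absurd h3 (ne_one_of_orderOf_two h2)
  · rw [← h3]; exact Subgroup.pow_mem _ (Subgroup.mem_zpowers c) _

theorem Good.eq_or_mem [Finite P] (hP : IsPGroup 2 P) {Q R Q' R' : Subgroup P} {z z' : P}
    (h : Good Q R z) (h' : Good Q' R' z') : z' = z ∨ z' ∈ R := by
  obtain ⟨a', ha', b', hb', hab'⟩ := h'.nonab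
  obtain ⟨a, ha, r, hr, rfl⟩ := h.gen a'
  obtain ⟨b, hb, t, ht, rfl⟩ := h.gen b'
  by_cases hab : a * b = b * a
  · right
    have h1 := h.comm_iff ha hb hr ht
    have h2 := h'.mem_zpowers hP
      (mul_mem (mul_mem (mul_mem ha' hb') (inv_mem ha')) (inv_mem hb'))
      (fun h => hab' (by
        calc _ = (a * r * (b * t) * (a * r)⁻¹ * (b * t)⁻¹) * (b * t * (a * r)) := by group
          _ = _ := by rw [h, one_mul]))
    rw [h1, hab] at h2
    refine (Subgroup.zpowers_le.mpr ?_ : _ ≤ R) h2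
    simpa using mul_mem (mul_mem (mul_mem hr ht) (inv_mem hr)) (inv_mem ht)
  · left
    have hQR' : ∀ q ∈ Q, ∀ r' ∈ R', q * r' = r' * q := by
      intro q hq r' hr'
      obtain ⟨c, hc, ρ, hρ, rfl⟩ := h.gen r'
      have h1 := h.commute_left hc ha hρ hr (h'.comm _ ha' _ hr').symm
      have h2 := h.commute_left hc hb hρ ht (h'.comm _ hb' _ hr').symm
      have h3 : q * c = c * q := by
        rcases h.uniq c hc (h.ca a ha b hb c hc hab h1 h2) with h4 | h4
        · simp [h4]
        · rw [h4, h.cen q hq]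
      rw [← mul_assoc, h3, mul_assoc, h.comm q hq ρ hρ, mul_assoc]
    obtain ⟨a₁, ha₁, ρ, hρ, e₁⟩ := h'.gen a
    obtain ⟨b₁, hb₁, σ, hσ, e₂⟩ := h'.gen b
    have h1 := h'.comm_iff ha₁ hb₁ hρ hσ
    have h2 : ρ * σ = σ * ρ := by
      have h3 := hQR' a ha σ hσ
      rw [e₁, mul_assoc, ← mul_assoc σ, ← h'.comm a₁ ha₁ σ hσ, mul_assoc] at h3
      exact mul_left_cancel h3
    rw [← e₁, ← e₂, h2] at h1
    have h4 := h.mem_zpowers hP (mul_mem (mul_mem (mul_mem ha hb) (inv_mem ha)) (inv_mem hb))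
      (fun h => hab (by
        calc _ = (a * b * a⁻¹ * b⁻¹) * (b * a) := by group
          _ = _ := by rw [h, one_mul]))
    have h5 : z ∈ Q' := by
      rw [h1] at h4
      refine (Subgroup.zpowers_le.mpr ?_ : _ ≤ Q') h4
      simpa using mul_mem (mul_mem (mul_mem ha₁ hb₁) (inv_mem ha₁)) (inv_mem hb₁)
    have h6 : z * z = 1 := by
      by_contra h7
      have h8 := h.mem_zpowers hP (mul_mem h.mem h.mem) h7
      obtain ⟨k, hk⟩ := (IsPGroup.iff_orderOf.mp hP) z
      have h9 : orderOf z ∣ orderOf (z * z) := orderOf_dvd_of_mem_zpowers h8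
      rcases k with _ | k
      · exact h.ne (by simpa using hk)
      · have h10 : (z * z) ^ 2 ^ k = 1 := by
          rw [← pow_two, ← pow_mul, ← pow_succ', ← hk, pow_orderOf_eq_one]
        have h11 := h9.trans (orderOf_dvd_of_pow_eq_one h10)
        rw [hk] at h11
        have := Nat.le_of_dvd (by positivity) h11
        have : 2 ^ k < 2 ^ (k + 1) := Nat.pow_lt_pow_right (by norm_num) (by omega)
        omega
    rcases h'.uniq z h5 h6 with h7 | h7
    · exact absurd h7 h.ne
    · exact h7.symm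

open scoped IsMulCommutative in
theorem exists_fixed [Finite P] (hP : IsPGroup 2 P) {Q R : Subgroup P} {z : P} (h : Good Q R z) :
    ∃ w : P, w ≠ 1 ∧ w ∈ Subgroup.center P ∧ ∀ φ : P ≃* P, φ w = w := by
  classical
  have := Fintype.ofFinite (Subgroup.center P)
  let D : Finset (Subgroup.center P) :=
    Finset.univ.filter (fun y => ∃ Q R : Subgroup P, Good Q R (y : P))
  have hz : (⟨z, h.central⟩ : Subgroup.center P) ∈ D := by
    simp only [D, Finset.mem_filter, Finset.mem_univ, true_and]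
    exact ⟨Q, R, h⟩
  refine ⟨((∏ y ∈ D, y : Subgroup.center P) : P), ?_, Subtype.prop _, ?_⟩
  · rw [← Finset.mul_prod_erase D _ hz]
    have h1 : (∏ y ∈ D.erase ⟨z, h.central⟩, y) ∈ R.subgroupOf (Subgroup.center P) := by
      apply Subgroup.prod_mem
      intro y hy
      rw [Finset.mem_erase] at hy
      obtain ⟨hy1, hy2⟩ := hy
      simp only [D, Finset.mem_filter, Finset.mem_univ, true_and] at hy2
      obtain ⟨Q', R', h'⟩ := hy2
      rcases h.eq_or_mem hP h' with h2 | h2
      · exact absurd (Subtype.ext h2) hy1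
      · exact h2
    intro h2
    rw [Subgroup.coe_mul] at h2
    have h3 := eq_inv_of_mul_eq_one_left h2
    exact h.ne (h.disj z h.mem (by
      have : z = _ := h3
      rw [this]; exact inv_mem h1))
  · intro φ
    have h1 : Subgroup.centerCongr φ (∏ y ∈ D, y) = ∏ y ∈ D, y := by
      rw [map_prod]
      apply Finset.prod_equiv (Subgroup.centerCongr φ).toEquiv
      · intro y
        simp only [D, Finset.mem_filter, Finset.mem_univ, true_and]
        constructor
        · rintro ⟨Q', R', h'⟩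
          exact ⟨_, _, h'.map φ⟩
        · rintro ⟨Q', R', h'⟩
          have h2 := h'.map φ.symm
          have h3 : φ.symm (((Subgroup.centerCongr φ).toEquiv y : Subgroup.center P) : P) = y :=
            φ.symm_apply_apply y
          rw [h3] at h2
          exact ⟨_, _, h2⟩
      · intro y _; rfl
    exact congrArg Subtype.val h1

/-- Let G be a finite group whose Sylow 2-subgroup S is an internal direct product Q × R with Q generalized quaternion (of order at least 8) and R a subgroup all of whose involutions are central in R. Then G is not simple. In particular no finite simple group has a Sylow 2-subgroup that is a direct product of one or more generalized quaternion groups. -/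
theorem result {G : Type*} [Group G] [Finite G]
    (S : Sylow 2 G) (Q R : Subgroup G) (hQR : Cfsg.IsInternalDirectProduct Q R (S : Subgroup G))
    (n : ℕ) (hn : 1 ≤ n) (eQ : ↥Q ≃* QuaternionGroup (2 ^ n))
    (hR : ∀ r ∈ R, orderOf r = 2 → ∀ s ∈ R, r * s = s * r) :
    ¬ IsSimpleGroup G := by
  classical
  intro hsimp
  have : Fact (Nat.Prime 2) := ⟨Nat.prime_two⟩
  have : NeZero (2 ^ n) := ⟨by positivity⟩
  obtain ⟨hQS, hRS, hc, hd, hs⟩ := hQR
  have hgen : ∀ s ∈ (S : Subgroup G), ∃ q ∈ Q, ∃ r ∈ R, s = q * r := by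
    intro s hs'
    have hn : R ≤ Subgroup.normalizer (Q : Set G) := by
      intro r hr
      apply H4.mem_normalizer_of_conj_mem
      intro q hq
      rwa [← hc q hq r hr, mul_inv_cancel_right]
    rw [← hs, ← SetLike.mem_coe, Subgroup.coe_mul_of_right_le_normalizer_left Q R hn] at hs'
    obtain ⟨q, hq, r, hr, rfl⟩ := hs'
    exact ⟨q, hq, r, hr, rfl⟩
  let z : Q := eQ.symm (QuaternionGroup.a (2 ^ n : ℕ))
  have hz : eQ z = QuaternionGroup.a (2 ^ n : ℕ) := eQ.apply_symm_apply _
  have huniq : ∀ y ∈ Q, y * y = 1 → y = 1 ∨ y = z := by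
    intro y hy h2
    have h3 : eQ ⟨y, hy⟩ * eQ ⟨y, hy⟩ = 1 := by
      rw [← map_mul, ← map_one eQ]; congr 1; exact Subtype.ext h2
    rcases quat_mul_self_eq_one h3 with h | h
    · left; exact congrArg Subtype.val (eQ.injective (h.trans (map_one eQ).symm))
    · right; exact congrArg Subtype.val (eQ.injective (h.trans hz.symm))
  have hcen : ∀ y ∈ Q, y * z = z * y := by
    intro y hy
    have := quat_a_n_central (eQ ⟨y, hy⟩)
    rw [← hz, ← map_mul, ← map_mul] at this
    exact congrArg Subtype.val (eQ.injective this)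
  obtain ⟨x₀, y₀, hxy₀⟩ := quat_exists_not_commute (n := 2 ^ n)
    (by calc 2 = 2 ^ 1 := rfl
      _ ≤ 2 ^ n := Nat.pow_le_pow_right (by norm_num) hn)
  have hne₀ : ((eQ.symm x₀ : Q) : G) * (eQ.symm y₀ : Q) ≠ (eQ.symm y₀ : Q) * (eQ.symm x₀ : Q) := by
    intro h
    apply hxy₀
    apply eQ.symm.injective
    rw [map_mul, map_mul]
    exact Subtype.ext h
  have hgood : Good (Q.subgroupOf (S : Subgroup G)) (R.subgroupOf (S : Subgroup G))
      ⟨z, hQS z.2⟩ :=
    { comm := fun a ha b hb => Subtype.ext (hc _ ha _ hb)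
      disj := fun a ha hb => Subtype.ext (by
        have : (a : G) ∈ Q ⊓ R := ⟨ha, hb⟩
        rwa [hd] at this)
      gen := fun s => by
        obtain ⟨q, hq, r, hr, h⟩ := hgen s s.2
        exact ⟨⟨q, hQS hq⟩, hq, ⟨r, hRS hr⟩, hr, Subtype.ext h⟩
      mem := z.2
      ne := fun h => by
        have h1 : z = 1 := Subtype.ext (by have h' := Subtype.ext_iff.mp h; exact h')
        rw [h1, map_one] at hz
        exact quat_a_n_ne_one hz.symm
      uniq := fun y hy h2 => by
        rcases huniq y hy (congrArg Subtype.val h2) with h | h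
        · left; exact Subtype.ext h
        · right; exact Subtype.ext h
      cen := fun y hy => Subtype.ext (hcen y hy)
      ca := fun a ha b hb c hc' h1 h2 h3 => by
        have := quat_mul_self_of_commute (x := eQ ⟨a, ha⟩) (y := eQ ⟨b, hb⟩) (c := eQ ⟨c, hc'⟩)
          (fun h => h1 (by
            rw [← map_mul, ← map_mul] at h
            exact Subtype.ext (by have h' := Subtype.ext_iff.mp (eQ.injective h); exact h')))
          (by rw [← map_mul, ← map_mul]; congr 1; exact Subtype.ext (by have h' := Subtype.ext_iff.mp h2; exact h'))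
          (by rw [← map_mul, ← map_mul]; congr 1; exact Subtype.ext (by have h' := Subtype.ext_iff.mp h3; exact h'))
        rw [← map_mul, ← map_one eQ] at this
        exact Subtype.ext (by have h' := Subtype.ext_iff.mp (eQ.injective this); exact h')
      nonab := ⟨⟨_, hQS (eQ.symm x₀).2⟩, (eQ.symm x₀).2, ⟨_, hQS (eQ.symm y₀).2⟩, (eQ.symm y₀).2,
        fun h => hne₀ (congrArg Subtype.val h)⟩ }
  obtain ⟨w, hw1, hwc, hwf⟩ := exists_fixed S.isPGroup' hgood
  obtain ⟨k, hk⟩ := (IsPGroup.iff_orderOf.mp S.isPGroup') w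
  have hev : Even (orderOf w) := by
    rw [hk]
    rcases k with _ | k
    · exact absurd (by simpa using hk) hw1
    · exact ⟨2 ^ k, by ring⟩
  have hu := orderOf_pow_half hev
  set u := w ^ (orderOf w / 2) with hudef
  have huf : ∀ φ : (S : Subgroup G) ≃* (S : Subgroup G), φ u = u := fun φ => by
    rw [hudef, map_pow, hwf]
  have huG : orderOf (u : G) = 2 := by rw [Subgroup.orderOf_coe, hu]
  -- all involutions of `S` are central
  have hinv : ∀ t ∈ (S : Subgroup G), t * t = 1 →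
      t ∈ Subgroup.centralizer ((S : Subgroup G) : Set G) := by
    intro t ht h2
    obtain ⟨q, hq, r, hr, rfl⟩ := hgen t ht
    have h3 : q * q = (r * r)⁻¹ := by
      apply eq_inv_of_mul_eq_one_left
      calc q * q * (r * r) = q * (q * r) * r := by group
        _ = q * (r * q) * r := by rw [hc q hq r hr]
        _ = q * r * (q * r) := by group
        _ = 1 := h2
    have h4 : q * q = 1 := by
      have : q * q ∈ Q ⊓ R := Subgroup.mem_inf.mpr ⟨mul_mem hq hq, h3 ▸ inv_mem (mul_mem hr hr)⟩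
      rwa [hd] at this
    have h5 : r * r = 1 := by rwa [h4, eq_comm, inv_eq_one] at h3
    rw [Subgroup.mem_centralizer_iff]
    intro s hs'
    obtain ⟨q', hq', r', hr', rfl⟩ := hgen s hs'
    have e1 : q' * q = q * q' := by
      rcases huniq q hq h4 with h | h
      · simp [h]
      · rw [h, hcen q' hq']
    have e2 : r' * r = r * r' := by
      by_cases h : r = 1
      · simp [h]
      · exact (hR r hr (orderOf_eq_two_of_mul_self h h5) r' hr').symm
    calc q' * r' * (q * r) = q' * (r' * q) * r := by group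
      _ = (q' * q) * (r' * r) := by rw [← hc q hq r' hr']; group
      _ = q * (q' * r) * r' := by rw [e1, e2]; group
      _ = _ := by rw [hc q' hq' r hr]; group
  have hcard := card_eq_two_of_isolated_of_simple S huG u.2 (by
    intro g hg
    obtain ⟨m, hm, hmg⟩ := S.conj_eq_normalizer_conj_of_mem_centralizer (u : G) g⁻¹
      (hinv _ u.2 (mul_self_of_orderOf_two huG))
      (by rw [inv_inv]; exact hinv _ hg (mul_self_of_orderOf_two (by rw [orderOf_conj', huG])))
    rw [inv_inv] at hmg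
    rw [hmg]
    have := huf ((S : Subgroup G).normalizerMonoidHom ⟨m⁻¹, inv_mem hm⟩)
    have h2 : m⁻¹ * (u : G) * m⁻¹⁻¹ = u := congrArg Subtype.val this
    rwa [inv_inv] at h2)
  have : IsCyclic G := isCyclic_of_prime_card (p := 2) hcard
  exact hne₀ (mul_comm' _ _)

end Cfsg.Agent.S3269
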