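import Cfsg.Statements.S3279
import Cfsg.Agent.H75.ThreeInv
import Cfsg.Agent.H75.ZStar

set_option autoImplicit false
open Cfsg

namespace Cfsg.Agent.S3279

open Cfsg.Agent.H75

/-- Let G be a finite simple group and x an involution of G whose centralizer contains at most three involutions. Then C_G(x) contains a Sylow 2-subgroup of G, and all involutions of G are conjugate. -/
theorem result {G : Type*} [Group G] [Finite G] [IsSimpleGroup G] (x : G) (hx : orderOf x = 2)
    (h3 : Nat.card {u : ↥(Subgroup.centralizer ({x} : Set G)) // orderOf u = 2} ≤ 3) :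
    (∃ S : Sylow 2 G, (S : Subgroup G) ≤ Subgroup.centralizer ({x} : Set G)) ∧
      ∀ u v : G, orderOf u = 2 → orderOf v = 2 → IsConj u v := by
  classical
  have : Fact (Nat.Prime 2) := ⟨Nat.prime_two⟩
  have h3' := atMostThreeInv_of_card hx h3
  obtain ⟨S, hS⟩ : ∃ S : Sylow 2 G, (S : Subgroup G) ≤ Subgroup.centralizer ({x} : Set G) := by
    by_contra hcon
    push Not at hcon
    obtain ⟨N, hN, hN1, hN2, -⟩ := exists_normal_of_atMostThreeInv hx h3' hcon
    rcases hN.eq_bot_or_eq_top with h | h
    · exact hN1 h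
    · exact hN2 h
  refine ⟨⟨S, hS⟩, ?_⟩
  have hxS : x ∈ (S : Subgroup G) := mem_sylow_of_le_centralizer S hx hS
  have hall : ∀ t ∈ (S : Subgroup G), orderOf t = 2 → IsConj x t := by
    intro t htS ht
    by_contra hnc
    have htx : t ≠ x := fun h => hnc (h ▸ IsConj.refl x)
    have htc : Commute t x := mem_centralizer_singleton'.mp (hS htS)
    -- `G` is not of order two, so no involution is isolated
    have hiso : ∀ u ∈ (S : Subgroup G), orderOf u = 2 →
        ∃ g : G, g * u * g⁻¹ ∈ (S : Subgroup G) ∧ g * u * g⁻¹ ≠ u := by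
      intro u huS hu
      by_contra hcon
      push Not at hcon
      have hc := card_eq_two_of_isolated_of_simple S hu huS hcon
      have h1 : Nat.card (Subgroup.zpowers x) = Nat.card G := by rw [Nat.card_zpowers, hx, hc]
      have h2 : t ∈ Subgroup.zpowers x := by
        rw [Subgroup.eq_top_of_card_eq _ h1]; trivial
      rcases (mem_zpowers_of_orderOf_two hx).mp h2 with h | h
      · exact ne_one_of_orderOf_two ht h
      · exact htx h
    obtain ⟨g, hgS, hg⟩ := hiso x hxS hx
    obtain ⟨h, hhS, hh⟩ := hiso t htS ht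
    have e1 : g * x * g⁻¹ = x * t := by
      rcases h3' t ht htc htx _ (by rw [orderOf_conj', hx])
        (mem_centralizer_singleton'.mp (hS hgS)) with h' | h' | h'
      · exact absurd h' hg
      · exact absurd (isConj_iff.mpr ⟨g, h'⟩) hnc
      · exact h'
    rcases h3' t ht htc htx _ (by rw [orderOf_conj', ht])
        (mem_centralizer_singleton'.mp (hS hhS)) with h' | h' | h'
    · exact hnc (isConj_iff.mpr ⟨h, h'⟩ : IsConj t x).symm
    · exact hh h'
    · exact hnc ((isConj_iff.mpr ⟨g, e1⟩ : IsConj x _).trans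
        (isConj_iff.mpr ⟨h, h'⟩ : IsConj t _).symm)
  have hall' : ∀ t : G, orderOf t = 2 → IsConj x t := by
    intro t ht
    obtain ⟨g, hg⟩ := exists_conj_invol_mem_sylow S ht
    exact (hall _ hg (by rw [orderOf_conj', ht])).trans (isConj_iff.mpr ⟨g, rfl⟩ : IsConj t _).symm
  exact fun u v hu hv => (hall' u hu).symm.trans (hall' v hv)

end Cfsg.Agent.S3279
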