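import Cfsg.Statements.S3282
import Cfsg.Agent.H18.BSW7
import Cfsg.Agent.H42.Index2

set_option autoImplicit false
open Cfsg

namespace Cfsg.Agent.S3282

/-- The abstract form of the Brauer–Suzuki–Wall Theorem. Let G be a finite group with an involution t and an abelian subgroup K of H = C_G(t) containing t, such that H = K⟨s⟩ for an involution s ∉ K with C_K(s) = ⟨t⟩ and s inverting every element of K, K ∩ K^g = 1 for every g outside H, and all involutions of G conjugate. Then G has a subgroup Q, of order q say, with |G| = q(q+1)(q−1)/2, C_G(x) = Q for every non-identity x ∈ Q, N_G(Q) = QD for an abelian subgroup D of order (q−1)/2 meeting Q trivially, and for every nontrivial subgroup X of D, N_G(X) = N_G(D) = D⟨u⟩ for some involution u ∉ D inverting D. -/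
theorem result {G : Type*} [Group G] [Finite G] (t : G) (ht : orderOf t = 2)
    (K : Subgroup G) (hKab : IsMulCommutative ↥K) (hKH : K ≤ Subgroup.centralizer ({t} : Set G)) (htK : t ∈ K)
    (s : G) (hs : orderOf s = 2) (hsH : s ∈ Subgroup.centralizer ({t} : Set G)) (hsK : s ∉ K)
    (hH : K ⊔ Subgroup.zpowers s = Subgroup.centralizer ({t} : Set G)) (hCK : K ⊓ Subgroup.centralizer ({s} : Set G) = Subgroup.zpowers t)
    (hinv : ∀ x ∈ K, s * x * s⁻¹ = x⁻¹)
    (hTI : ∀ g : G, g ∉ Subgroup.centralizer ({t} : Set G) → K ⊓ K.map (MulAut.conj g).toMonoidHom = ⊥)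
    (hconj : ∀ x y : G, orderOf x = 2 → orderOf y = 2 → IsConj x y) :
    ∃ Q D : Subgroup G, 2 * Nat.card G = Nat.card ↥Q * (Nat.card ↥Q + 1) * (Nat.card ↥Q - 1) ∧
      (∀ x ∈ Q, x ≠ 1 → Subgroup.centralizer ({x} : Set G) = Q) ∧
      IsMulCommutative ↥D ∧ 2 * Nat.card ↥D + 1 = Nat.card ↥Q ∧ Q ⊓ D = ⊥ ∧
      Subgroup.normalizer (Q : Set G) = Q ⊔ D ∧
      ∀ X : Subgroup G, X ≤ D → X ≠ ⊥ →
        Subgroup.normalizer (X : Set G) = Subgroup.normalizer (D : Set G) ∧
        ∃ u : G, orderOf u = 2 ∧ u ∉ D ∧ (∀ d ∈ D, u * d * u⁻¹ = d⁻¹) ∧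
          Subgroup.normalizer (D : Set G) = D ⊔ Subgroup.zpowers u := by
  have := Fintype.ofFinite G
  have hss := (H18.ord_two_iff.mp hs).1
  have hsN : s ∈ Subgroup.normalizer (K : Set G) :=
    H42.mem_normalizer_of_conj_mem fun x hx => by rw [hinv x hx]; exact K.inv_mem hx
  refine H18.BSW.concl (t := t) (s := s) (K := K) ⟨ht, fun a ha b hb => setLike_mul_comm ha hb,
    htK, hs, hsK, fun g => ?_, hinv, fun x hx h1 => ?_, fun g x hx h1 h2 => ?_, fun x hx => ?_⟩
  · rw [← Subgroup.mem_centralizer_singleton_iff, ← hH,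
      H42.mem_sup_zpowers hsN (by rw [hss]; exact K.one_mem), inv_eq_of_mul_eq_one_right hss]
  · refine (H42.mem_zpowers_of_mul_self (H18.ord_two_iff.mp ht).1).mp ?_
    rw [← hCK]
    refine ⟨hx, Subgroup.mem_centralizer_singleton_iff.mpr ?_⟩
    have := hinv x hx
    rw [inv_eq_of_mul_eq_one_right h1] at this
    exact (mul_inv_eq_iff_eq_mul.mp this).symm
  · by_contra h3
    have h4 := hTI g (fun h => h3 (Subgroup.mem_centralizer_singleton_iff.mp h))
    have h5 : g * x * g⁻¹ ∈ K ⊓ K.map (MulAut.conj g).toMonoidHom := ⟨h2, x, hx, rfl⟩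
    rw [h4, Subgroup.mem_bot] at h5
    exact h1 (conj_eq_one_iff.mp h5)
  · obtain ⟨g, hg⟩ := isConj_iff.mp (hconj t x ht hx)
    exact ⟨g, hg.symm⟩

end Cfsg.Agent.S3282
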