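import Cfsg.Statements.S3305
import Cfsg.Agent.H75.Rank1

set_option autoImplicit false
open Cfsg

namespace Cfsg.Agent.S3305

/-- If any two distinct Sylow 2-subgroups of the finite group G intersect in a cyclic group, then the same holds in every quotient group G/H, H a normal subgroup of G. -/
theorem result {G : Type*} [Group G] [Finite G]
    (hC : ∀ S T : Sylow 2 G, S ≠ T → IsCyclic ↥((S : Subgroup G) ⊓ (T : Subgroup G))) (H : Subgroup G) [H.Normal] :
    ∀ S T : Sylow 2 (G ⧸ H), S ≠ T → IsCyclic ↥((S : Subgroup (G ⧸ H)) ⊓ (T : Subgroup (G ⧸ H))) := by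
  intro S T hne
  obtain ⟨S', T', hne', R, hR, hm⟩ := H75.exists_sylow_lift_inf (QuotientGroup.mk' H)
    (QuotientGroup.mk'_surjective H) hne
  have := hC S' T' hne'
  have h1 : IsCyclic R := Subgroup.isCyclic_of_le hR
  rw [← hm]
  exact isCyclic_of_surjective _ ((QuotientGroup.mk' H).subgroupMap_surjective R)

end Cfsg.Agent.S3305
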