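import Cfsg.Statements.S3303
import Cfsg.Agent.H75.Rank1
import Cfsg.Agent.S3305

set_option autoImplicit false
open Cfsg

namespace Cfsg.Agent.S3303

/-- Let G be a finite solvable group in which the intersection of any two distinct Sylow 2-subgroups is cyclic. Then G/O(G) has a normal Sylow 2-subgroup, where O(G) is the largest normal subgroup of odd order. -/
theorem result {G : Type*} [Group G] [Finite G] (hs : Group.IsSolvable G)
    (hC : ∀ S T : Sylow 2 G, S ≠ T → IsCyclic ↥((S : Subgroup G) ⊓ (T : Subgroup G))) :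
    ∃ P : Sylow 2 (G ⧸ Cfsg.oddCore G), (P : Subgroup (G ⧸ Cfsg.oddCore G)).Normal := by
  by_contra hn
  obtain ⟨S, T, hne⟩ := H75.exists_sylow_ne_of_not_normal hn
  have h1 := S3305.result hC (Cfsg.oddCore G) S T hne
  have h2 : IsCyclic (pCore 2 (G ⧸ Cfsg.oddCore G)) :=
    Subgroup.isCyclic_of_le (le_inf (H22.pCore_le_sylow S) (H22.pCore_le_sylow T))
  refine hn (H75.exists_normal_sylow_of_isPGroup (H75.isPGroup_of_odd_cent
    (H75.isCharP_quotient hs) fun n hn => ?_))
  exact H75.comm_of_odd_of_isCyclic H22.isPGroup_pCore h2 hn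
    (by rw [Subgroup.normalizer_eq_top]; trivial)

end Cfsg.Agent.S3303
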