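import Cfsg.Statements.S3304
import Cfsg.Agent.H22.PConstrained
import Cfsg.Agent.H24.FpfPerfect
import Cfsg.Agent.H46.Standard
import Cfsg.Agent.H49.SylowOf
import Cfsg.Agent.H75.Q8Ext
import Cfsg.Agent.H1.UniqueSub

set_option autoImplicit false
open Cfsg

namespace Cfsg.Agent.S3304

open Subgroup Cfsg.Agent.H49

theorem inf_lift {G H : Type*} [Group G] [Finite G] [Group H] [Finite H] {p : ℕ}
    (hp : p.Prime) (f : G →* H) (hf : Function.Surjective f) (A B : Sylow p H) (hAB : A ≠ B) :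
    ∃ S T : Sylow p G, S ≠ T ∧ ∃ R ≤ (S : Subgroup G) ⊓ T, R.map f = (A : Subgroup H) ⊓ B := by
  have hmap : ∀ X : Subgroup H, IsPi {p} X → ∀ P, IsSylowOf p P (X.comap f) → P.map f = X :=
    fun X hX P hP => by
      have := hP.map f
      rw [map_comap_eq_self_of_surjective hf] at this
      exact this.eq_self hX
  obtain ⟨R, hR⟩ := exists_sylowOf p (((A : Subgroup H) ⊓ B).comap f)
  have key : ∀ A : Sylow p H, R ≤ (A : Subgroup H).comap f →
      ∃ S : Sylow p G, R ≤ S ∧ (S : Subgroup G).map f = A := fun A h => by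
    obtain ⟨S, hS, hRS⟩ := exists_sylowOf_ge hR.pi h
    obtain ⟨S, rfl⟩ := exists_sylow_of_top hp (hS.of_index le_top (by
      rw [relIndex_top_right, index_comap_of_surjective _ hf, ← relIndex_top_right]
      exact (sylowOf_top hp A).index))
    exact ⟨S, hRS, hmap _ (sylowOf_top hp A).pi _ hS⟩
  obtain ⟨S, h1, h2⟩ := key A (hR.le.trans (comap_mono inf_le_left))
  obtain ⟨T, h3, h4⟩ := key B (hR.le.trans (comap_mono inf_le_right))
  exact ⟨S, T, fun e => hAB (Sylow.ext (by rw [← h2, ← h4, e])), R, le_inf h1 h3,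
    hmap _ ((sylowOf_top hp A).pi.inf_left B) R hR⟩

theorem cyc_or {P : Type*} [Group P] [Finite P] (hP : IsPGroup 2 P)
    (h : ∀ x y : P, orderOf x = 2 → orderOf y = 2 → Commute x y → x = y) :
    IsCyclic P ∨ ∃ n : ℕ, Nonempty (P ≃* QuaternionGroup (2 ^ (n + 1))) := by
  refine H1.cyclic_or_quaternion hP fun x y hx hy => ?_
  have : Nontrivial P := ⟨x, 1, by rintro rfl; simp at hx⟩
  have := hP.center_nontrivial
  obtain ⟨n, hn0, hn⟩ := (hP.to_subgroup (center P)).nontrivial_iff_card.1 inferInstance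
  obtain ⟨z, hz⟩ := exists_prime_orderOf_dvd_card' (G := center P) 2
    (hn ▸ dvd_pow_self 2 hn0.ne')
  have key : ∀ w : P, orderOf w = 2 → w = z := fun w hw =>
    h w z hw (by rw [orderOf_coe, hz]) (mem_center_iff.1 z.2 w)
  rw [key x hx, key y hy]

theorem card_q {X : Type*} [Group X] {n : ℕ} (e : X ≃* QuaternionGroup (2 ^ (n + 1))) :
    Nat.card X = 8 * 2 ^ n := by
  rw [Nat.card_congr e.toEquiv, Nat.card_eq_fintype_card, QuaternionGroup.card]; ring

theorem core_case {H : Type*} [Group H] [Finite H]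
    (hC : centralizer (pCore 2 H : Set H) ≤ pCore 2 H)
    (hn : ∀ P : Sylow 2 H, ¬ (P : Subgroup H).Normal)
    (h : ∀ x y : pCore 2 H, orderOf x = 2 → orderOf y = 2 → Commute x y → x = y) :
    Nonempty (H ≃* GL (Fin 2) (ZMod 3)) ∨ (Nat.card H = 48 ∧ Nat.card (center H) = 2 ∧
      Nonempty (H ⧸ center H ≃* Equiv.Perm (Fin 4)) ∧
      ∀ P : Sylow 2 H, Nonempty ((P : Subgroup H) ≃* QuaternionGroup 4)) := by
  set Q := pCore 2 H
  have hQ : IsPGroup 2 Q := H22.isPGroup_pCore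
  obtain ⟨S⟩ : Nonempty (Sylow 2 H) := inferInstance
  have h2 : ¬ IsPGroup 2 H := fun c => hn S (by
    have : (S : Subgroup H) = ⊤ := (S.is_maximal' (c.to_subgroup ⊤) le_top).symm
    rw [this]; infer_instance)
  obtain ⟨α, α1, αo⟩ : ∃ α : MulAut Q, α ≠ 1 ∧ (orderOf α).Coprime 2 := by
    by_contra c
    refine h2 fun g => ?_
    obtain ⟨k, m, hm, e⟩ := Nat.exists_eq_two_pow_mul_odd (orderOf_pos g).ne'
    have o : orderOf (g ^ 2 ^ k) = m := by
      rw [orderOf_pow_of_dvd (by positivity) ⟨m, e⟩, e, Nat.mul_div_cancel_left _ (by positivity)]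
    have e1 : MulAut.conjNormal (H := Q) (g ^ 2 ^ k) = 1 := by_contra fun n =>
      c ⟨_, n, (Nat.coprime_two_right.2 hm).coprime_dvd_left (o ▸ orderOf_map_dvd _ _)⟩
    have m1 : g ^ 2 ^ k ∈ Q := hC fun q hq => (mul_inv_eq_iff_eq_mul.1
      (congrArg Subtype.val (MulEquiv.congr_fun e1 ⟨q, hq⟩))).symm
    obtain ⟨j, hj⟩ := hQ ⟨_, m1⟩
    exact ⟨k + j, by rw [pow_add, pow_mul]; exact congrArg Subtype.val hj⟩
  obtain ⟨e⟩ : Nonempty (Q ≃* H75.Q8) := by
    rcases cyc_or hQ h with hc | ⟨_ | n, ⟨e⟩⟩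
    · exact absurd (H24.mulAut_eq_one_of_isCyclic hQ α αo) α1
    · exact ⟨e⟩
    · exact absurd ((MulAut.congr e).map_eq_one_iff.1 (H24.mulAut_quaternion_eq_one _
        (by rwa [MulEquiv.orderOf_eq]))) α1
  obtain ⟨ι, φ, hx, hr⟩ := H75.exists_q8Ext Q e hC
  have h8 : Nat.card Q = 8 := card_q (n := 0) e
  have h48 : Nat.card H = 48 := by
    have d1 : Nat.card φ.range ∣ 24 := by
      have := card_subgroup_dvd_card φ.range
      rwa [Nat.card_perm, Nat.card_fin] at this
    have d2 := Q.card_mul_index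
    have d3 : 2 ∣ Q.index := by_contra fun c => hn (hQ.toSylow c) (inferInstanceAs Q.Normal)
    have d4 := hx.card_eq
    have d5 : Nat.card H ≠ 16 := fun c => h2 (IsPGroup.of_card (n := 4) c)
    obtain ⟨m, hm⟩ := d3
    rw [h8, hm] at d2
    have := Nat.le_of_dvd (by norm_num) d1
    generalize Nat.card φ.range = r at d1 d4 this
    interval_cases r <;> omega
  by_cases hs : ∃ s : H, s * s = 1 ∧ s ∉ ι.range
  · obtain ⟨s, h1, h2⟩ := hs
    exact Or.inl (hx.equiv_gl23 h48 h1 h2)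
  refine Or.inr ⟨h48, hx.ker_eq_center ▸ hx.card_ker,
    ⟨(QuotientGroup.quotientMulEquivOfEq hx.ker_eq_center.symm).trans
      (QuotientGroup.quotientKerEquivOfSurjective φ (hx.surjective h48))⟩, fun P => ?_⟩
  have k : ∀ x : P, orderOf x = 2 → (x : H) = ι (.a 2) := fun x o => by
    rw [← orderOf_coe] at o
    have xx : (x : H) * x = 1 := by
      rw [← pow_two]; exact orderOf_dvd_iff_pow_eq_one.1 o.dvd
    obtain ⟨r, hr⟩ : (x : H) ∈ ι.range := by_contra fun c => hs ⟨x, xx, c⟩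
    rcases H75.q8_sq_eq_one r (hx.inj (by rw [map_mul, hr, xx, map_one])) with rfl | rfl
    · rw [← hr] at o; simp at o
    · exact hr.symm
  have hP : Nat.card P = 16 := by
    rw [P.card_eq_multiplicity, h48, show 48 = 2 ^ 4 * 3 from rfl,
      Nat.factorization_mul (by norm_num) (by norm_num), Finsupp.add_apply,
      Nat.prime_two.factorization_pow, Nat.factorization_eq_zero_of_not_dvd (by norm_num)]
    simp
  rcases H1.cyclic_or_quaternion P.isPGroup' fun x y hx hy => Subtype.ext ((k x hx).trans (k y hy).symm)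
    with hc | ⟨n, ⟨f⟩⟩
  · have hle : ∀ r, ι r ∈ (P : Subgroup H) := fun r => hQ.le_sylow_of_normal P (hr ▸ ⟨r, rfl⟩)
    have := congrArg Subtype.val
      (hc.isMulCommutative.is_comm.comm (⟨_, hle (.a 1)⟩ : P) ⟨_, hle (.xa 0)⟩)
    exact absurd (hx.inj ((map_mul ι _ _).trans (this.trans (map_mul ι _ _).symm))) (by decide)
  · have := card_q f
    rw [hP] at this
    obtain rfl : n = 1 := Nat.pow_right_injective le_rfl (by simp only; omega)
    exact ⟨f⟩

/-- Let G be a finite solvable group in which the intersection of any two distinct Sylow 2-subgroups has 2-rank at most 1 (contains no Klein four-group). Write Q = G/O(G), O(G) the largest normal subgroup of odd order. Then Q has a normal Sylow 2-subgroup; or Q is isomorphic to GL(2,3); or Q has order 48, centre of order 2 with central quotient isomorphic to the symmetric group of degree 4, and generalized quaternion Sylow 2-subgroups of order 16 (the binary octahedral group). The last two are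 the two representation groups of the symmetric group of degree 4. -/
theorem result {G : Type*} [Group G] [Finite G] (hs : Group.IsSolvable G)
    (hI : ∀ S T : Sylow 2 G, S ≠ T → Cfsg.PRankLE 2 1 ↥((S : Subgroup G) ⊓ (T : Subgroup G))) :
    (∃ P : Sylow 2 (G ⧸ Cfsg.oddCore G), (P : Subgroup (G ⧸ Cfsg.oddCore G)).Normal) ∨
    Nonempty ((G ⧸ Cfsg.oddCore G) ≃* GL (Fin 2) (ZMod 3)) ∨
    (Nat.card (G ⧸ Cfsg.oddCore G) = 48 ∧ Nat.card ↥(Subgroup.center (G ⧸ Cfsg.oddCore G)) = 2 ∧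
      Nonempty ((G ⧸ Cfsg.oddCore G) ⧸ Subgroup.center (G ⧸ Cfsg.oddCore G) ≃* Equiv.Perm (Fin 4)) ∧
      ∀ P : Sylow 2 (G ⧸ Cfsg.oddCore G), Nonempty (↥(P : Subgroup (G ⧸ Cfsg.oddCore G)) ≃* QuaternionGroup 4)) := by
  by_cases hn : ∃ P : Sylow 2 (G ⧸ Cfsg.oddCore G), (P : Subgroup (G ⧸ Cfsg.oddCore G)).Normal
  · exact Or.inl hn
  right
  simp only [not_exists] at hn
  have hO : pPrimeCore 2 (G ⧸ oddCore G) = ⊥ := H22.pPrimeCore_quotient_pPrimeCore
  refine core_case ((H22.isPConstrained_iff_of_pPrimeCore_eq_bot hO).1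
    H22.isPConstrained_of_isSolvable) hn fun x y hx hy hc => ?_
  obtain ⟨A⟩ : Nonempty (Sylow 2 (G ⧸ oddCore G)) := inferInstance
  obtain ⟨B, hB⟩ : ∃ B, A ≠ B := by
    by_contra c
    simp only [not_exists, not_not] at c
    have : Subsingleton (Sylow 2 (G ⧸ oddCore G)) := ⟨fun a b => (c a).symm.trans (c b)⟩
    exact hn A (Sylow.normal_of_subsingleton A)
  obtain ⟨S, T, hST, R, hR, e⟩ := inf_lift Nat.prime_two _
    (QuotientGroup.mk'_surjective (oddCore G)) A B hB
  have hle : pCore 2 (G ⧸ oddCore G) ≤ R.map (QuotientGroup.mk' (oddCore G)) :=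
    e ▸ le_inf (H22.pCore_le_sylow A) (H22.pCore_le_sylow B)
  have inj : ∀ r ∈ R, QuotientGroup.mk' (oddCore G) r = 1 → r = 1 := fun r hr c => by
    obtain ⟨k, hk⟩ := IsPGroup.iff_orderOf.1 S.isPGroup' ⟨r, (hR hr).1⟩
    rw [← orderOf_coe] at hk
    exact orderOf_eq_one_iff.1 (Nat.eq_one_of_dvd_coprimes
      (H22.coprime_card_pPrimeCore.pow_right k)
      (Subgroup.orderOf_dvd_natCard _ ((QuotientGroup.eq_one_iff r).1 c)) hk.dvd)
  have ord : ∀ r ∈ R, ∀ x : pCore 2 (G ⧸ oddCore G), QuotientGroup.mk' (oddCore G) r = x →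
      orderOf x = 2 → orderOf r = 2 := fun r hr x e o => by
    rw [← orderOf_coe, ← e] at o
    refine orderOf_eq_prime (inj _ (pow_mem hr 2) ?_) ?_
    · rw [map_pow]; exact orderOf_dvd_iff_pow_eq_one.1 o.dvd
    · rintro rfl; simp at o
  obtain ⟨a, ha, ea⟩ := hle x.2
  obtain ⟨b, hb, eb⟩ := hle y.2
  have := H46.eq_of_pRankLE_one (hI S T hST) (hR ha) (hR hb) (ord a ha x ea hx) (ord b hb y eb hy)
    (mul_inv_eq_one.1 (inj _ (mul_mem (mul_mem ha hb) (inv_mem (mul_mem hb ha))) (by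
      rw [map_mul, map_inv, map_mul, map_mul, ea, eb, mul_inv_eq_one]
      exact congrArg Subtype.val hc)))
  exact Subtype.ext (by rw [← ea, ← eb, this])

end Cfsg.Agent.S3304
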