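import Mathlib
import Cfsg.Statements.S3349

set_option autoImplicit false
open Cfsg
open scoped commutatorElement

namespace Cfsg.Agent.S3349

theorem mem_of_centralizes {Q : Type*} [Group Q] (A : Subgroup Q) (hA : IsMulCommutative A)
    (hmax : ∀ B : Subgroup Q, A ≤ B → IsMulCommutative B → B = A) (c : Q)
    (hc : ∀ a ∈ A, a * c = c * a) : c ∈ A := by
  have hAA : ∀ a ∈ A, ∀ b ∈ A, a * b = b * a := fun a ha b hb =>
    congrArg Subtype.val (hA.is_comm.comm (⟨a, ha⟩ : A) ⟨b, hb⟩)
  have h1 : Subgroup.closure (insert c (A : Set Q)) = A := by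
    apply hmax
    · exact fun a ha => Subgroup.subset_closure (Set.mem_insert_of_mem _ ha)
    · apply Subgroup.isMulCommutative_closure
      rintro x (rfl | hx) y (rfl | hy)
      · rfl
      · exact (hc y hy).symm
      · exact hc x hx
      · exact hAA x hx y hy
  rw [← h1]
  exact Subgroup.subset_closure (Set.mem_insert _ _)

/-- Let Q be a finite extraspecial p-group and α an automorphism of Q fixing every element of some maximal abelian subgroup of Q. Then the order of α is a power of p. -/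
theorem result {Q : Type*} [Group Q] [Finite Q]
    (p : ℕ) [Fact p.Prime] (hQ : Cfsg.IsExtraspecial p Q) (α : MulAut Q)
    (A : Subgroup Q) (hA : IsMulCommutative A) (hmax : ∀ B : Subgroup Q, A ≤ B → IsMulCommutative B → B = A)
    (hfix : ∀ a ∈ A, α a = a) :
    ∃ k : ℕ, orderOf α = p ^ k := by
  obtain ⟨⟨hp, -, hc⟩, -⟩ := hQ
  have hZ : commutator Q ≤ A := by
    rw [hc]
    exact fun z hz => mem_of_centralizes A hA hmax z fun a _ => Subgroup.mem_center_iff.mp hz a
  have hn : ∀ a ∈ A, ∀ x : Q, x * a * x⁻¹ ∈ A := by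
    intro a ha x
    have h1 : ⁅x, a⁆ ∈ A := hZ (Subgroup.commutator_mem_commutator (Subgroup.mem_top _) (Subgroup.mem_top _))
    have := A.mul_mem h1 ha
    simpa [commutatorElement_def] using this
  have hc' : ∀ x : Q, x⁻¹ * α x ∈ A := by
    intro x
    apply mem_of_centralizes A hA hmax
    intro a ha
    have h1 := hfix _ (hn a ha x)
    rw [map_mul, map_mul, map_inv, hfix a ha] at h1
    calc a * (x⁻¹ * α x) = x⁻¹ * (x * a * x⁻¹) * α x := by group
      _ = x⁻¹ * α x * a := by rw [← h1]; group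
  have hpow : ∀ (n : ℕ) (x : Q), (α ^ n) x = x * (x⁻¹ * α x) ^ n := by
    intro n x
    induction n with
    | zero => simp
    | succ n ih =>
      rw [pow_succ', MulAut.mul_apply, ih, map_mul, hfix _ (A.pow_mem (hc' x) n), pow_succ',
        ← mul_assoc, mul_inv_cancel_left]
  obtain ⟨k, hk⟩ := IsPGroup.iff_card.mp hp
  have h1 : α ^ p ^ k = 1 := by
    ext x
    rw [hpow, ← hk, pow_card_eq_one', mul_one, MulAut.one_apply]
  obtain ⟨j, -, hj⟩ := (Nat.dvd_prime_pow Fact.out).mp (orderOf_dvd_of_pow_eq_one h1)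
  exact ⟨j, hj⟩

end Cfsg.Agent.S3349
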