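import Cfsg.Statements.S3359
import Cfsg.Agent.H24.FpfSolv

set_option autoImplicit false
open Cfsg

namespace Cfsg.Agent.S3359

open H24

/-- Structure of non-solvable Frobenius complements. Let G be a finite non-solvable group that occurs as a Frobenius complement. Then G has a normal subgroup G₀ of index 1 or 2 which is the direct product of a subgroup isomorphic to SL(2,5) and a subgroup M of order prime to 30 all of whose Sylow subgroups are cyclic. -/
theorem result {G : Type*} [Group G] [Finite G] (hns : ¬ Group.IsSolvable G)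
    (hFC : ∃ (L : Type) (_ : Group L) (_ : Finite L) (H : Subgroup L), Cfsg.IsFrobeniusComplement H ∧ Nonempty (G ≃* H)) :
    ∃ G₀ : Subgroup G, G₀.Normal ∧ (G₀.index = 1 ∨ G₀.index = 2) ∧
      ∃ S M : Subgroup G, S ⊔ M = G₀ ∧ S ⊓ M = ⊥ ∧ (∀ s ∈ S, ∀ x ∈ M, s * x = x * s) ∧
        Nonempty (S ≃* Matrix.SpecialLinearGroup (Fin 2) (ZMod 5)) ∧
        (∀ (p : ℕ) [Fact p.Prime] (P : Sylow p M), IsCyclic P) ∧ (Nat.card M).Coprime 30 := by
  have h := fpf_of_exists_frob hFC
  obtain ⟨φ, hφ, hn, h3, f, hker, hf⟩ := h.exists_SL5 hns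
  obtain ⟨M, hM, hM30, hMz⟩ := h.exists_odd_part hφ h3
  have hMC : M ≤ Subgroup.centralizer (φ.range : Set G) := fun c hc => ((hM c).mp hc).1
  have hZ := h.isZGroup_cent hφ h3
  have hZM : IsZGroup M := IsZGroup.of_injective (Subgroup.inclusion_injective hMC)
  refine ⟨(Equiv.Perm.sign.comp f).ker, inferInstance, ?_, φ.range, M, ?_, ?_, ?_,
    ⟨(MonoidHom.ofInjective hφ).symm⟩, fun p _ P => inferInstance, hM30⟩
  · rw [Subgroup.index_ker]
    have := (Equiv.Perm.sign.comp f).range.card_subgroup_dvd_card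
    rw [Nat.card_eq_fintype_card (α := ℤˣ), Fintype.card_units_int] at this
    exact (Nat.dvd_prime Nat.prime_two).mp this
  · apply le_antisymm
    · refine sup_le ?_ fun c hc => ?_
      · rintro _ ⟨s, rfl⟩
        have : SL5.proj s ∈ alternatingGroup (Fin 5) := SL5.proj_range ▸ ⟨s, rfl⟩
        rw [MonoidHom.mem_ker, MonoidHom.comp_apply, hf]
        exact this
      · have : f c = 1 := by rw [← MonoidHom.mem_ker, hker]; exact hMC hc
        rw [MonoidHom.mem_ker, MonoidHom.comp_apply, this, map_one]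
    · intro g hg
      obtain ⟨s, c, hc, rfl⟩ := mem_sup_of_sign hf hg
      rw [hker] at hc
      rcases hMz c hc with h1 | h1
      · exact Subgroup.mul_mem_sup ⟨s, rfl⟩ h1
      · rw [show φ s * c = φ (s * (-1)⁻¹) * (φ (-1) * c) by rw [map_mul, map_inv]; group]
        exact Subgroup.mul_mem_sup ⟨_, rfl⟩ h1
  · rw [eq_bot_iff]
    rintro c ⟨h1, h2⟩
    refine (eq_of_mem_cent hφ (hMC h2) h1).resolve_right fun e => ?_
    have := ((hM c).mp h2).2
    rw [e, orderOf_injective φ hφ, SL5.orderOf_neg_one] at this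
    exact absurd this (by decide)
  · exact fun s hs x hx => hMC hx s hs

end Cfsg.Agent.S3359
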