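import Cfsg.Statements.S3380
import Cfsg.Agent.S0126
import Cfsg.Agent.H31.NoFour
import Cfsg.Agent.H18.SmallCent
import Cfsg.Agent.H18.Four
import Cfsg.Agent.H46.NormalFour
import Cfsg.Agent.H24.FpfBasic
import Cfsg.Agent.H49.Prod
import Cfsg.Agent.H3.PGroup

set_option autoImplicit false
open Cfsg

namespace Cfsg.Agent.S3380

open Subgroup
open scoped commutatorElement

theorem exists_U {G : Type*} [Group G] [Finite G] (p : ℕ) [hp : Fact p.Prime] (hG : IsPGroup p G)
    (hnc : ¬ IsCyclic G) (hnq : ∀ n : ℕ, ¬ Nonempty (G ≃* QuaternionGroup n))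
    (hnd : ∀ n : ℕ, ¬ Nonempty (G ≃* DihedralGroup n)) (hnsd : ¬ Cfsg.IsQuasiDihedral G) :
    ∃ A : Subgroup G, A.Normal ∧ Cfsg.IsElementaryAbelian p A ∧ Nat.card A = p ^ 2 := by
  by_cases h2 : p = 2
  swap
  · exact S0126.result h2 hG hnc
  subst h2
  have : ¬ ∀ A : Subgroup G, A.Normal → IsMulCommutative A → IsCyclic A := by
    intro hn
    obtain ⟨w, hw⟩ := (H31.cyclic_or_small_cent hG hn).resolve_left hnc
    rcases H18.two_group_cases hG w hw with h | ⟨n, -, h⟩ | ⟨n, h⟩ | h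
    exacts [hnc h, hnd _ h, hnq _ h, hnsd h]
  push Not at this
  obtain ⟨A, hAn, hAc, hA⟩ := this
  have hc : ∀ a ∈ A, ∀ b ∈ A, a * b = b * a := fun a ha b hb =>
    congrArg Subtype.val (hAc.is_comm.comm (⟨a, ha⟩ : A) ⟨b, hb⟩)
  let O : Subgroup G :=
    { carrier := {x | x ∈ A ∧ x ^ 2 = 1}
      one_mem' := ⟨A.one_mem, one_pow _⟩
      mul_mem' := fun {a b} ha hb => ⟨A.mul_mem ha.1 hb.1, by
        rw [(show Commute a b from hc a ha.1 b hb.1).mul_pow, ha.2, hb.2, one_mul]⟩
      inv_mem' := fun {a} ha => ⟨A.inv_mem ha.1, by rw [inv_pow, ha.2, inv_one]⟩ }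
  have hOn : O.Normal := ⟨fun n hn g => ⟨hAn.conj_mem n hn.1 g, by rw [conj_pow, hn.2]; group⟩⟩
  have hO4 : 2 ^ 2 ≤ Nat.card O := by
    by_contra hlt
    apply hA
    refine H46.isCyclic_of_comm_of_unique (p := 2) (hG.to_subgroup A) fun x y hx hy => ?_
    by_contra hxy
    apply hlt
    have hx2 : (x : G) * x = 1 := by
      have := pow_orderOf_eq_one x
      rw [hx, _root_.sq] at this
      exact congrArg Subtype.val this
    have hy2 : (y : G) * y = 1 := by
      rw [_root_.sq] at hy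
      exact congrArg Subtype.val hy
    have h4 := H18.card_four hx2 hy2 (hc _ x.2 _ y.2)
      (fun h => by rw [show x = 1 from Subtype.ext h] at hx; simp at hx)
      (fun h => hxy (by rw [show y = 1 from Subtype.ext h]; exact one_mem _))
      (fun h => hxy (by rw [show y = x from Subtype.ext h.symm]; exact mem_zpowers _))
    have : H18.four (x : G) y hx2 hy2 (hc _ x.2 _ y.2) ≤ O :=
      H18.four_le ⟨x.2, by rw [_root_.sq, hx2]⟩ ⟨y.2, by rw [_root_.sq, hy2]⟩
    have := card_le_of_le this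
    omega
  obtain ⟨K, hK1, hK2, hK3⟩ := H3.exists_normal_le_card_eq hG O 2 hO4
  exact ⟨K, hK1, ⟨⟨⟨fun a b => Subtype.ext (hc _ (hK2 a.2).1 _ (hK2 b.2).1)⟩⟩,
    fun a ha => (hK2 ha).2⟩, hK3⟩

section
variable {q : ℕ} [Fact q.Prime] {V : Type*} [AddCommGroup V] [Module (ZMod q) V]
  {G : Type*} [Group G] (ρ : G →* (V ≃ₗ[ZMod q] V))

def fix (a : G) : Submodule (ZMod q) V := LinearMap.eqLocus (ρ a : V →ₗ[ZMod q] V) LinearMap.id

theorem mem_fix {a : G} {w : V} : w ∈ fix ρ a ↔ ρ a w = w := Iff.rfl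

theorem app_mul (a b : G) (w : V) : ρ (a * b) w = ρ a (ρ b w) := by rw [map_mul]; rfl

theorem map_fix (g a : G) : (fix ρ a).map (ρ g : V →ₗ[ZMod q] V) = fix ρ (g * a * g⁻¹) := by
  ext w
  rw [Submodule.mem_map, mem_fix]
  constructor
  · rintro ⟨v, hv, rfl⟩
    change ρ _ (ρ g v) = ρ g v
    rw [← app_mul, inv_mul_cancel_right, app_mul, (mem_fix ρ).1 hv]
  · intro h
    refine ⟨ρ g⁻¹ w, ?_, ?_⟩
    · rw [mem_fix]
      conv_rhs => rw [← h]
      rw [← app_mul, ← app_mul]; congr 2; group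
    · change ρ g (ρ g⁻¹ w) = w
      rw [← app_mul, mul_inv_cancel, map_one]; rfl

theorem fix_central (hρ : Function.Injective ρ)
    (hirr : ∀ W : Submodule (ZMod q) V, (∀ g : G, ∀ w ∈ W, ρ g w ∈ W) → W = ⊥ ∨ W = ⊤)
    {z : G} (hz : z ∈ center G) (z1 : z ≠ 1) {w : V} (hw : ρ z w = w) : w = 0 := by
  rcases hirr (fix ρ z) (fun g w hw => by
    rw [mem_fix, ← app_mul, ← mem_center_iff.1 hz g, app_mul, (mem_fix ρ).1 hw]) with h | h
  · have : w ∈ fix ρ z := hw
    rwa [h, Submodule.mem_bot] at this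
  · exfalso
    apply z1
    apply hρ
    rw [map_one]
    ext v
    exact (mem_fix ρ).1 (h ▸ Submodule.mem_top)

end


/-- Let a finite p-group G act faithfully and irreducibly on a non-trivial finite vector space V over the field with q elements (q prime), and suppose G is not cyclic, generalized quaternion, dihedral or semidihedral. Then G has a subgroup H of index p and V is the direct sum of p subspaces, each invariant under H, on none of which H acts faithfully, and which every element of G outside H permutes in a single p-cycle. -/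
theorem result
    (q : ℕ) [Fact q.Prime] {V : Type*} [AddCommGroup V] [Module (ZMod q) V] [Finite V] [Nontrivial V]
    {G : Type*} [Group G] [Finite G] (p : ℕ) [Fact p.Prime] (hG : IsPGroup p G)
    (ρ : G →* (V ≃ₗ[ZMod q] V)) (hρ : Function.Injective ρ)
    (hirr : ∀ W : Submodule (ZMod q) V, (∀ g : G, ∀ w ∈ W, ρ g w ∈ W) → W = ⊥ ∨ W = ⊤)
    (hnc : ¬ IsCyclic G) (hnq : ∀ n : ℕ, ¬ Nonempty (G ≃* QuaternionGroup n))
    (hnd : ∀ n : ℕ, ¬ Nonempty (G ≃* DihedralGroup n)) (hnsd : ¬ Cfsg.IsQuasiDihedral G) :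
    ∃ (H : Subgroup G) (W : Fin p → Submodule (ZMod q) V), H.index = p ∧
      iSup W = ⊤ ∧ iSupIndep W ∧
      (∀ h ∈ H, ∀ i, ∀ w ∈ W i, ρ h w ∈ W i) ∧
      (∀ i, ∃ h ∈ H, h ≠ 1 ∧ ∀ w ∈ W i, ρ h w = w) ∧
      ∀ g : G, g ∉ H → ∃ σ : Equiv.Perm (Fin p), orderOf σ = p ∧ ∀ i, (W i).map (ρ g : V →ₗ[ZMod q] V) = W (σ i) := by
  have hp : p.Prime := Fact.out
  haveI : NeZero p := ⟨hp.ne_zero⟩
  obtain ⟨U, hUn, ⟨hUc, hUe⟩, hUcard⟩ := exists_U p hG hnc hnq hnd hnsd
  have hU1 : U ≠ ⊥ := by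
    rintro rfl
    rw [card_bot] at hUcard
    exact (Nat.one_lt_pow two_ne_zero hp.one_lt).ne hUcard
  obtain ⟨z, hzU, hz, hzo⟩ := H3.exists_mem_center_orderOf_eq hG U hU1
  have z1 : z ≠ 1 := by rintro rfl; rw [orderOf_one] at hzo; exact hp.one_lt.ne hzo
  letI : DistribMulAction G V :=
    { smul := fun g v => ρ g v
      one_smul := fun v => by change ρ 1 v = v; rw [map_one]; rfl
      mul_smul := fun a b v => app_mul ρ a b v
      smul_zero := fun g => map_zero (ρ g)
      smul_add := fun g => map_add (ρ g) }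
  have hpq : (p : ZMod q) ≠ 0 := by
    intro h
    have hqp : q = p := (Nat.prime_dvd_prime_iff_eq Fact.out hp).1 ((ZMod.natCast_eq_zero_iff p q).1 h)
    subst hqp
    have hdvd : q ∣ Nat.card V := by
      obtain ⟨v, hv⟩ := exists_ne (0 : V)
      have : addOrderOf v = q := addOrderOf_eq_prime (by
        rw [← Nat.cast_smul_eq_nsmul (ZMod q), ZMod.natCast_self, zero_smul]) hv
      rw [← this]; exact addOrderOf_dvd_natCard v
    obtain ⟨v, hv, hv0⟩ := hG.exists_fixed_point_of_prime_dvd_card_of_fixed_point V hdvd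
      (a := 0) (fun g => smul_zero g)
    exact hv0 (fix_central ρ hρ hirr hz z1 (hv z)).symm
  obtain ⟨u, hu, u1, v, hv, v0⟩ : ∃ u ∈ U, u ≠ 1 ∧ ∃ v : V, ρ u v = v ∧ v ≠ 0 := by
    by_contra hcon
    push Not at hcon
    have := (H24.fpf_of_distrib (G := U) (V := V) fun g hg v hv =>
      hcon g g.2 (fun h => hg (Subtype.ext h)) v hv).isCyclic_of_comm
    obtain ⟨g, hg⟩ := this.exists_ofOrder_eq_natCard
    have h4 := Nat.le_of_dvd hp.pos (hUcard ▸ hg ▸ orderOf_dvd_of_pow_eq_one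
      (Subtype.ext (hUe g g.2) : g ^ p = 1))
    have := hp.two_le
    nlinarith
  have huc : u ∉ center G := fun h => v0 (fix_central ρ hρ hirr h u1 hv)
  haveI hZn : (zpowers z).Normal := ⟨fun n hn g => by
    rw [mem_center_iff.1 (zpowers_le.2 hz hn) g, mul_inv_cancel_right]; exact hn⟩
  have hZc : Nat.card (zpowers z) = p := by rw [Nat.card_zpowers, hzo]
  have hcomm : ∀ g : G, ∃ k : ℕ, g * u * g⁻¹ = u * z ^ k := by
    have hlt : zpowers z < U := lt_of_le_of_ne (zpowers_le.2 hzU) (fun h => huc (zpowers_le.2 hz (h ▸ hu)))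
    obtain ⟨K, -, -, hKU, hKc, hK⟩ := H3.exists_normal_card_eq_mul hG _ U hlt
    have hKU' : K = U := H49.eq_of_le_of_card_eq hKU (by rw [hKc, hZc, hUcard, _root_.sq])
    subst hKU'
    intro g
    have h1 : ⁅u⁻¹, g⁆ ∈ zpowers z := hK (commutator_mem_commutator (inv_mem hu) (mem_top g))
    obtain ⟨k, hk⟩ := (mem_powers_iff_mem_zpowers).2 h1
    refine ⟨k, ?_⟩
    change z ^ k = _ at hk
    rw [hk, commutatorElement_def]
    group
  have hzc : ∀ (g : G) (k : ℕ), g * z ^ k = z ^ k * g := fun g k =>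
    mem_center_iff.1 (pow_mem hz k) g
  let W : Fin p → Submodule (ZMod q) V := fun i => fix ρ (u * z ^ (i : ℕ))
  have hmap : ∀ (g : G) (k : ℕ), g * u * g⁻¹ = u * z ^ k → ∀ i,
      (W i).map (ρ g : V →ₗ[ZMod q] V) = W (i + Fin.ofNat p k) := by
    intro g k hk i
    simp only [W]
    rw [map_fix]
    congr 1
    have : z ^ ((i + Fin.ofNat p k : Fin p) : ℕ) = z ^ (k + i) := by
      rw [pow_eq_pow_iff_modEq, hzo, Fin.val_add, Fin.val_ofNat, add_comm k]
      exact (Nat.mod_modEq _ _).trans (Nat.ModEq.add_left _ (Nat.mod_modEq _ _))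
    rw [this, pow_add, ← mul_assoc u, ← hk, mul_assoc (g * u) g⁻¹, hzc g⁻¹]
    group
  refine ⟨centralizer {u}, W, ?_, ?_, ?_, ?_, ?_, ?_⟩
  · let φ : G →* G := MonoidHom.mk' (fun g => u⁻¹ * (g * u * g⁻¹)) (fun a b => by
      obtain ⟨k, hk⟩ := hcomm a
      obtain ⟨l, hl⟩ := hcomm b
      calc u⁻¹ * (a * b * u * (a * b)⁻¹) = u⁻¹ * (a * (b * u * b⁻¹) * a⁻¹) := by group
        _ = u⁻¹ * (a * u * a⁻¹) * (a * z ^ l * a⁻¹) := by rw [hl]; group
        _ = _ := by rw [hl, hzc a l]; group)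
    have hker : φ.ker = centralizer {u} := by
      ext g
      rw [MonoidHom.mem_ker, mem_centralizer_singleton_iff]
      change u⁻¹ * (g * u * g⁻¹) = 1 ↔ _
      rw [inv_mul_eq_one, eq_mul_inv_iff_mul_eq, eq_comm]
    have hr : φ.range ≤ zpowers z := by
      rintro _ ⟨g, rfl⟩
      obtain ⟨k, hk⟩ := hcomm g
      change u⁻¹ * (g * u * g⁻¹) ∈ _
      rw [hk, inv_mul_cancel_left]
      exact pow_mem (mem_zpowers z) k
    rw [← hker, index_ker]
    rcases H49.eq_bot_or_eq_of_prime_card (hZc.symm ▸ hp) hr with h | h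
    · exfalso
      apply huc
      rw [mem_center_iff]
      intro g
      have : g ∈ φ.ker := by
        rw [MonoidHom.mem_ker, ← mem_bot, ← h]; exact ⟨g, rfl⟩
      rw [hker] at this
      exact mem_centralizer_singleton_iff.1 this
    · rw [h, hZc]
  · refine (hirr _ ?_).resolve_left ?_
    · intro g w hw
      obtain ⟨k, hk⟩ := hcomm g
      have : (iSup W).map (ρ g : V →ₗ[ZMod q] V) ≤ iSup W := by
        rw [Submodule.map_iSup]
        exact iSup_le fun i => (hmap g k hk i).le.trans (le_iSup W _)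
      exact this ⟨w, hw, rfl⟩
    · intro h
      have : v ∈ W 0 := by
        simp only [W, Fin.val_zero, pow_zero, mul_one]; exact hv
      have := le_iSup W 0 this
      rw [h, Submodule.mem_bot] at this
      exact v0 this
  · intro i
    let a := u * z ^ (i : ℕ)
    have hap : a ^ p = 1 := hUe a (mul_mem hu (pow_mem hzU _))
    let e : V →ₗ[ZMod q] V := ∑ t ∈ Finset.range p, (ρ (a ^ t) : V →ₗ[ZMod q] V)
    have he : ∀ w, e w = ∑ t ∈ Finset.range p, ρ (a ^ t) w := fun w => by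
      simp only [e, LinearMap.sum_apply]; rfl
    have hea : ∀ w, ρ a (e w) = e w := by
      intro w
      rw [he, map_sum]
      have h1 := Finset.sum_range_succ (fun t => ρ (a ^ t) w) p
      have h2 := Finset.sum_range_succ' (fun t => ρ (a ^ t) w) p
      simp only [hap, pow_zero] at h1 h2
      rw [h2, add_left_inj] at h1
      rw [← h1]
      refine Finset.sum_congr rfl fun t _ => ?_
      rw [← app_mul, pow_succ']
    have hker : (⨆ (j) (_ : j ≠ i), W j) ≤ LinearMap.ker e := by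
      refine iSup₂_le fun j hj w hw => ?_
      rw [LinearMap.mem_ker]
      have hb : ρ (u * z ^ (j : ℕ)) (e w) = e w := by
        rw [he, map_sum]
        refine Finset.sum_congr rfl fun t _ => ?_
        have hc : (u * z ^ (j : ℕ)) * a ^ t = a ^ t * (u * z ^ (j : ℕ)) :=
          congrArg Subtype.val (hUc.is_comm.comm (⟨_, mul_mem hu (pow_mem hzU _)⟩ : U)
            ⟨_, pow_mem (mul_mem hu (pow_mem hzU _)) t⟩)
        rw [← app_mul, hc, app_mul, (mem_fix ρ).1 hw]
      refine fix_central ρ hρ hirr (z := a⁻¹ * (u * z ^ (j : ℕ))) ?_ ?_ ?_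
      · have : a⁻¹ * (u * z ^ (j : ℕ)) = (z ^ (i : ℕ))⁻¹ * z ^ (j : ℕ) := by simp only [a]; group
        rw [this]
        exact mul_mem (inv_mem (pow_mem hz _)) (pow_mem hz _)
      · intro h
        rw [inv_mul_eq_one, mul_right_inj, pow_eq_pow_iff_modEq, hzo] at h
        exact hj (Fin.ext (Nat.ModEq.eq_of_lt_of_lt h i.2 j.2)).symm
      · rw [app_mul, hb]
        conv_lhs => rw [← hea w]
        rw [← app_mul, inv_mul_cancel, map_one]; rfl
    rw [Submodule.disjoint_def]
    intro w hw hw'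
    have h1 : e w = 0 := hker hw'
    have h2 : ∀ t, ρ (a ^ t) w = w := by
      intro t
      induction t with
      | zero => rw [pow_zero, map_one]; rfl
      | succ t ih => rw [pow_succ, app_mul, (mem_fix ρ).1 hw, ih]
    rw [he] at h1
    simp only [h2, Finset.sum_const, Finset.card_range] at h1
    rw [← Nat.cast_smul_eq_nsmul (ZMod q)] at h1
    exact (smul_eq_zero.1 h1).resolve_left hpq
  · intro h hh i w hw
    have h1 := hmap h 0 (by rw [mem_centralizer_singleton_iff.1 hh]; group) i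
    have h2 : (i + Fin.ofNat p 0 : Fin p) = i := by simp
    rw [h2] at h1
    exact h1.le ⟨w, hw, rfl⟩
  · intro i
    refine ⟨u * z ^ (i : ℕ), ?_, ?_, fun w hw => hw⟩
    · rw [mem_centralizer_singleton_iff, mul_assoc, ← hzc]
    · intro h
      apply huc
      rw [eq_inv_of_mul_eq_one_left h]
      exact inv_mem (pow_mem hz _)
  · intro g hg
    obtain ⟨k, hk⟩ := hcomm g
    refine ⟨Equiv.addRight (Fin.ofNat p k), ?_, fun i => hmap g k hk i⟩
    refine orderOf_eq_prime ?_ ?_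
    · have h0 : p • (Fin.ofNat p k) = 0 := by
        have := card_nsmul_eq_zero (x := Fin.ofNat p k)
        rwa [Fintype.card_fin] at this
      rw [Equiv.nsmul_addRight, h0, Equiv.addRight_zero]
    · intro h
      have h1 := congrArg (fun σ : Equiv.Perm (Fin p) => ((σ 0 : Fin p) : ℕ)) h
      simp only [Equiv.coe_addRight, zero_add, Fin.val_ofNat, Equiv.Perm.coe_one, id, Fin.val_zero] at h1
      apply hg
      rw [mem_centralizer_singleton_iff]
      rw [← pow_mod_orderOf, hzo, h1, pow_zero, mul_one] at hk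
      exact mul_inv_eq_iff_eq_mul.1 hk

end Cfsg.Agent.S3380
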