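import Cfsg.Statements.S3370
import Cfsg.Agent.S3380

set_option autoImplicit false
open Cfsg

namespace Cfsg.Agent.S3370

open Subgroup

theorem geom_odd {x : ℤ} (hx : Odd x) (a : ℕ) :
    (∑ i ∈ Finset.range a, x ^ i) % 2 = a % 2 := by
  induction a with
  | zero => simp
  | succ a ih =>
    rw [Finset.sum_range_succ]
    have : x ^ a % 2 = 1 := Int.odd_iff.1 hx.pow
    push_cast
    omega

theorem natAbs_eq_of_odd {x : ℤ} (hx : Odd x) {a k : ℕ} (ha : Odd a)
    (h : (x ^ a - 1).natAbs = 2 ^ k) : (x ^ a - 1).natAbs = (x - 1).natAbs := by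
  have h1 := geom_odd hx a
  have h2 : (a : ℤ) % 2 = 1 := by
    obtain ⟨b, rfl⟩ := ha
    push_cast
    omega
  have h3 : Odd (∑ i ∈ Finset.range a, x ^ i).natAbs := by
    rw [Int.natAbs_odd, Int.odd_iff, h1, h2]
  have h4 : (x ^ a - 1).natAbs = (∑ i ∈ Finset.range a, x ^ i).natAbs * (x - 1).natAbs := by
    rw [← Int.natAbs_mul, geom_sum_mul]
  have h5 : (∑ i ∈ Finset.range a, x ^ i).natAbs = 1 :=
    Nat.Coprime.eq_one_of_dvd (Nat.Coprime.pow_right k h3.coprime_two_right) ⟨_, h ▸ h4⟩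
  rw [h4, h5, one_mul]

theorem catalan_sub {p a k : ℕ} (hp : p.Prime) (ho : Odd p) (h : p ^ a = 2 ^ k + 1) :
    p ^ a = 9 ∨ p ^ a = p := by
  rcases Nat.even_or_odd a with ⟨b, rfl⟩ | ha
  · left
    obtain ⟨c, hc⟩ : Odd (p ^ b) := ho.pow
    rw [pow_add, hc] at h ⊢
    have h1 : c * (c + 1) * 4 = 2 ^ k := by nlinarith
    have h2 : c ∣ 2 ^ k := ⟨(c + 1) * 4, by rw [← h1]; ring⟩
    have h3 : c + 1 ∣ 2 ^ k := ⟨c * 4, by rw [← h1]; ring⟩
    rcases Nat.even_or_odd c with he | he
    · have h4 := Nat.Coprime.eq_one_of_dvd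
        (Nat.Coprime.pow_right k he.add_one.coprime_two_right) h3
      have : c = 0 := by omega
      rw [this] at h1
      exact absurd h1.symm (by positivity)
    · have h4 := Nat.Coprime.eq_one_of_dvd (Nat.Coprime.pow_right k he.coprime_two_right) h2
      subst h4
      rfl
  · right
    have hp2 := hp.two_le
    have h1 : ((p : ℤ) ^ a - 1).natAbs = 2 ^ k := by
      have : (p : ℤ) ^ a = ((2 ^ k : ℕ) : ℤ) + 1 := by exact_mod_cast h
      rw [this, add_sub_cancel_right, Int.natAbs_natCast]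
    have h2 := natAbs_eq_of_odd (x := (p : ℤ)) (by exact_mod_cast ho) ha h1
    rw [h1] at h2
    omega

theorem catalan_add {p a k : ℕ} (ho : Odd p) (ha : a ≠ 0) (hk : 2 ≤ k)
    (h : p ^ a + 1 = 2 ^ k) : p ^ a = p := by
  rcases Nat.even_or_odd a with ⟨b, rfl⟩ | ha
  · exfalso
    obtain ⟨c, hc⟩ : Odd (p ^ b) := ho.pow
    obtain ⟨j, rfl⟩ := Nat.exists_eq_add_of_le hk
    rw [pow_add, hc, pow_add] at h
    have : (2 * c + 1) * (2 * c + 1) = 4 * (c * c + c) + 1 := by ring
    omega
  · have h1 : ((-p : ℤ) ^ a - 1).natAbs = 2 ^ k := by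
      have : (p : ℤ) ^ a + 1 = ((2 ^ k : ℕ) : ℤ) := by exact_mod_cast h
      rw [ha.neg_pow, ← Int.natAbs_neg, show -(-(p : ℤ) ^ a - 1) = p ^ a + 1 by ring, this,
        Int.natAbs_natCast]
    have h2 := natAbs_eq_of_odd (x := (-p : ℤ)) (Odd.neg (by exact_mod_cast ho)) ha h1
    rw [h1] at h2
    omega

section
variable {q : ℕ} [Fact q.Prime] {V : Type*} [AddCommGroup V] [Module (ZMod q) V]
  {G : Type*} [Group G] (ρ : G →* (V ≃ₗ[ZMod q] V))

def stab (v : V) : Subgroup G where
  carrier := {g | ρ g v = v}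
  one_mem' := by change ρ 1 v = v; rw [map_one]; rfl
  mul_mem' := fun {a b} ha hb => by
    change ρ (a * b) v = v
    rw [S3380.app_mul, show ρ b v = v from hb]; exact ha
  inv_mem' := fun {a} ha => by
    change ρ a⁻¹ v = v
    conv_lhs => rw [← show ρ a v = v from ha]
    rw [← S3380.app_mul, inv_mul_cancel, map_one]; rfl

theorem mem_stab {v : V} {g : G} : g ∈ stab ρ v ↔ ρ g v = v := Iff.rfl

theorem index_stab [Finite V] (htrans : ∀ v w : V, v ≠ 0 → w ≠ 0 → ∃ g : G, ρ g v = w) {v : V}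
    (hv : v ≠ 0) : (stab ρ v).index + 1 = Nat.card V := by
  letI : MulAction G V := MulAction.compHom V ρ
  have h1 : stab ρ v = MulAction.stabilizer G v := rfl
  have h2 : MulAction.orbit G v = {0}ᶜ := by
    ext w
    constructor
    · rintro ⟨g, rfl⟩ h
      exact hv ((ρ g).map_eq_zero_iff.1 h)
    · intro h
      exact htrans v w hv h
  rw [h1, MulAction.index_stabilizer, h2, ← Set.ncard_add_ncard_compl ({0} : Set V),
    Set.ncard_singleton, add_comm]

theorem stab_eq_bot (hρ : Function.Injective ρ)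
    (htrans : ∀ v w : V, v ≠ 0 → w ≠ 0 → ∃ g : G, ρ g v = w) {v : V}
    (hv : v ≠ 0) (hn : (stab ρ v).Normal) : stab ρ v = ⊥ := by
  rw [eq_bot_iff]
  intro s hs
  rw [mem_bot]
  apply hρ
  rw [map_one]
  ext w
  by_cases hw : w = 0
  · rw [hw, map_zero, map_zero]
  obtain ⟨g, rfl⟩ := htrans v w hv hw
  have := hn.conj_mem' s hs g
  rw [mem_stab] at this
  conv_rhs => rw [← this]
  rw [← S3380.app_mul, ← S3380.app_mul]
  change _ = ρ _ v
  congr 2; group

theorem conj_stab (hρ : Function.Injective ρ)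
    (htrans : ∀ v w : V, v ≠ 0 → w ≠ 0 → ∃ g : G, ρ g v = w) {v : V}
    (hv : v ≠ 0) {t : G} (ht : t * t = 1) (htc : t ∉ center G) : ∃ g : G, g⁻¹ * t * g ∈ stab ρ v := by
  obtain ⟨w, hw⟩ : ∃ w, ρ t w + w ≠ 0 := by
    by_contra h
    push Not at h
    apply htc
    rw [mem_center_iff]
    intro g
    apply hρ
    ext w
    rw [S3380.app_mul, S3380.app_mul, eq_neg_of_add_eq_zero_left (h w),
      eq_neg_of_add_eq_zero_left (h (ρ g w)), map_neg]
  obtain ⟨g, hg⟩ := htrans v _ hv hw
  refine ⟨g, ?_⟩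
  have : ρ t (ρ t w + w) = ρ t w + w := by
    rw [map_add, ← S3380.app_mul, ht, map_one, add_comm]; rfl
  rw [mem_stab, S3380.app_mul, S3380.app_mul, hg, this, ← hg, ← S3380.app_mul, inv_mul_cancel,
    map_one]; rfl

end

theorem eq_of_card_le_two {G : Type*} [Group G] [Finite G] {S : Subgroup G} (h : Nat.card S ≤ 2)
    {a b : G} (ha : a ∈ S) (hb : b ∈ S) (a1 : a ≠ 1) (b1 : b ≠ 1) : a = b := by
  have h0 : 1 < Nat.card S := (one_lt_card_iff_ne_bot S).2 (H49.ne_bot_iff_exists.2 ⟨a, ha, a1⟩)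
  obtain ⟨z, -, hz⟩ := (Nat.card_eq_two_iff' (1 : S)).1 (show Nat.card S = 2 by omega)
  have h1 := hz ⟨a, ha⟩ (fun h => a1 (congrArg Subtype.val h))
  have h2 := hz ⟨b, hb⟩ (fun h => b1 (congrArg Subtype.val h))
  exact congrArg Subtype.val (h1.trans h2.symm)

theorem dih_false {G : Type*} [Group G] [Finite G] {S : Subgroup G} (h : Nat.card S ≤ 2)
    (hc : ∀ t : G, t * t = 1 → t ∉ center G → ∃ g : G, g⁻¹ * t * g ∈ S) {n : ℕ}
    (e : G ≃* DihedralGroup n)
    (h0 : (DihedralGroup.sr 0 : DihedralGroup n) * .r 1 ≠ .r 1 * .sr 0)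
    (h1 : (DihedralGroup.sr 1 : DihedralGroup n) * .r 1 ≠ .r 1 * .sr 1)
    (h2 : ∀ g : DihedralGroup n, g⁻¹ * .sr 0 * g ≠ .sr 1) : False := by
  have key : ∀ i : ZMod n, (DihedralGroup.sr i : DihedralGroup n) * .r 1 ≠ .r 1 * .sr i →
      ∃ g : G, g⁻¹ * e.symm (.sr i) * g ∈ S ∧ g⁻¹ * e.symm (.sr i) * g ≠ 1 := by
    intro i hi
    have hnc : e.symm (.sr i) ∉ center G := fun hz => hi (by
      have := congrArg e (mem_center_iff.1 hz (e.symm (.r 1)))
      simpa using this.symm)
    obtain ⟨g, hg⟩ := hc (e.symm (.sr i)) (by rw [← map_mul, DihedralGroup.sr_mul_self, map_one]) hnc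
    refine ⟨g, hg, fun h => hnc ?_⟩
    have : e.symm (.sr i) = 1 := by
      calc _ = g * (g⁻¹ * e.symm (.sr i) * g) * g⁻¹ := by group
        _ = 1 := by rw [h]; group
    rw [this]; exact one_mem _
  obtain ⟨g, hg, hg1⟩ := key 0 h0
  obtain ⟨k, hk, hk1⟩ := key 1 h1
  have := congrArg e (eq_of_card_le_two h hg hk hg1 hk1)
  simp only [map_mul, map_inv, MulEquiv.apply_symm_apply] at this
  apply h2 (e g * (e k)⁻¹)
  calc _ = e k * ((e g)⁻¹ * .sr 0 * e g) * (e k)⁻¹ := by group
    _ = _ := by rw [this]; group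


/-- Let q be a prime, V a non-trivial finite vector space over the field with q elements, and G a non-trivial finite p-group (p prime) acting faithfully and linearly on V and transitively on the non-zero vectors. Then either q = 2 and G has prime order p = |V| − 1; or p = 2, V has q elements with q = 2^m + 1 and G is cyclic of order 2^m; or p = 2, q = 3, V has 9 elements and G is cyclic of order 8, quaternion of order 8, or semidihedral of order 16. -/
theorem result (q : ℕ) [Fact q.Prime] {V : Type*} [AddCommGroup V] [Module (ZMod q) V] [Finite V] [Nontrivial V]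
    {G : Type*} [Group G] [Finite G] [Nontrivial G] (p : ℕ) [Fact p.Prime] (hG : IsPGroup p G)
    (ρ : G →* (V ≃ₗ[ZMod q] V)) (hρ : Function.Injective ρ)
    (htrans : ∀ v w : V, v ≠ 0 → w ≠ 0 → ∃ g : G, ρ g v = w) :
    (q = 2 ∧ p = Nat.card V - 1 ∧ Nat.card G = p) ∨
    (p = 2 ∧ Nat.card V = q ∧ (∃ m : ℕ, q = 2 ^ m + 1 ∧ Nat.card G = 2 ^ m) ∧ IsCyclic G) ∨
    (p = 2 ∧ q = 3 ∧ Nat.card V = 9 ∧
      ((IsCyclic G ∧ Nat.card G = 8) ∨ Nonempty (G ≃* QuaternionGroup 2) ∨ (Cfsg.IsQuasiDihedral G ∧ Nat.card G = 16))) := by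
  have hp : p.Prime := Fact.out
  have hq : q.Prime := Fact.out
  obtain ⟨v, hv⟩ := exists_ne (0 : V)
  have hi := index_stab ρ htrans hv
  obtain ⟨k, hk⟩ := hG.exists_card_eq
  obtain ⟨a, -, ha⟩ := (Nat.dvd_prime_pow hp).1 (hk ▸ (stab ρ v).index_dvd_card)
  have hreg : (stab ρ v).Normal → Nat.card G = p ^ a := fun hn => by
    rw [← ha, stab_eq_bot ρ hρ htrans hv hn, index_bot]
  have ha0 : a ≠ 0 := by
    rintro rfl
    have h1 : stab ρ v = ⊤ := index_eq_one.1 ha
    have := hreg (h1 ▸ inferInstance)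
    exact (Finite.one_lt_card (α := G)).ne' this
  haveI : Module.Finite (ZMod q) V := Module.Finite.of_finite
  have hV : Nat.card V = q ^ Module.finrank (ZMod q) V := by
    rw [Module.natCard_eq_pow_finrank (K := ZMod q), Nat.card_zmod]
  have hn0 : 0 < Module.finrank (ZMod q) V := Module.finrank_pos
  rw [ha, hV] at hi
  rcases hq.eq_two_or_odd' with rfl | hqo
  · left
    have hpo : Odd p := by
      refine hp.odd_of_ne_two ?_
      rintro rfl
      have h1 : 2 ∣ 2 ^ a := dvd_pow_self 2 ha0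
      have h2 : 2 ∣ 2 ^ Module.finrank (ZMod 2) V := dvd_pow_self 2 hn0.ne'
      omega
    have h2 : 2 ≤ Module.finrank (ZMod 2) V := by
      by_contra hlt
      have h1 : Module.finrank (ZMod 2) V = 1 := by omega
      have := Nat.one_lt_pow ha0 hp.one_lt
      rw [h1] at hi
      omega
    have h3 := catalan_add hpo ha0 h2 hi
    refine ⟨rfl, by omega, ?_⟩
    rw [hreg (H3.normal_of_index_eq hG (ha.trans h3)), h3]
  right
  obtain rfl : p = 2 := by
    by_contra h
    have h1 : Odd (p ^ a) := (hp.odd_of_ne_two h).pow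
    have h2 : Odd (q ^ Module.finrank (ZMod q) V) := hqo.pow
    rw [← hi] at h2
    exact (Nat.not_even_iff_odd.2 h2) h1.add_one
  rcases catalan_sub hq hqo hi.symm with h9 | h1
  · right
    obtain rfl : q = 3 := by
      have : q ∣ 3 ^ 2 := (dvd_pow_self q hn0.ne').trans (by rw [h9]; norm_num)
      exact (Nat.prime_dvd_prime_iff_eq hq Nat.prime_three).1 (hq.dvd_of_dvd_pow this)
    have hd : Module.finrank (ZMod 3) V = 2 := Nat.pow_right_injective (by norm_num) h9
    refine ⟨rfl, rfl, hV.trans h9, ?_⟩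
    have h8 : (stab ρ v).index = 8 := by omega
    have h48 : Nat.card G ∣ 48 := by
      let b := Module.finBasisOfFinrankEq (ZMod 3) V hd
      let e := (Matrix.GeneralLinearGroup.toLin' b).trans
        (LinearMap.GeneralLinearGroup.generalLinearEquiv (ZMod 3) V)
      have h1 : Nat.card (V ≃ₗ[ZMod 3] V) = 48 := by
        rw [← Nat.card_congr e.toEquiv, Matrix.card_GL_field]; decide
      rw [← h1]
      exact card_dvd_of_injective ρ hρ
    have hmul := (stab ρ v).card_mul_index
    have hk4 : k ≤ 4 := by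
      rw [hk] at h48
      by_contra hlt
      have := (pow_dvd_pow 2 (show 5 ≤ k by omega)).trans h48
      omega
    have h16 : Nat.card G ≤ 16 := hk ▸ Nat.pow_le_pow_right two_pos hk4
    have hS : Nat.card (stab ρ v) ≤ 2 := by rw [h8] at hmul; omega
    have hS0 := H49.card_pos' (stab ρ v)
    have hGc : Nat.card G = 8 ∨ Nat.card G = 16 := by rw [h8] at hmul; omega
    have ha8 : 2 ^ a = 8 := by omega
    by_cases hc : IsCyclic G
    · exact Or.inl ⟨hc, by rw [hreg inferInstance, ha8]⟩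
    right
    by_cases hQ : ∃ n, Nonempty (G ≃* QuaternionGroup n)
    · obtain ⟨n, ⟨e⟩⟩ := hQ
      left
      have hn0 : n ≠ 0 := by
        rintro rfl
        have : Finite (QuaternionGroup 0) := Finite.of_equiv G e.toEquiv
        have : Finite (ZMod 0) := Finite.of_injective (QuaternionGroup.a (n := 0))
          (fun _ _ h => QuaternionGroup.a.inj h)
        exact not_finite (ZMod 0)
      haveI : NeZero n := ⟨hn0⟩
      have hcn : Nat.card G = 4 * n := by
        rw [Nat.card_congr e.toEquiv, Nat.card_eq_fintype_card, QuaternionGroup.card]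
      rcases hGc with h | h
      · obtain rfl : n = 2 := by omega
        exact ⟨e⟩
      · obtain rfl : n = 4 := by omega
        exfalso
        have hz : ∀ x y : QuaternionGroup 4, x * x = 1 → y * x = x * y := by decide
        have : (stab ρ v).Normal := ⟨fun s hs g => by
          have h2 : Nat.card (stab ρ v) = 2 := by rw [h8] at hmul; omega
          have h3 : s * s = 1 := by
            have := pow_card_eq_one' (x := (⟨s, hs⟩ : stab ρ v))
            rw [h2, _root_.sq] at this
            exact congrArg Subtype.val this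
          have h4 : g * s = s * g := e.injective (by
            rw [map_mul, map_mul]; exact hz _ _ (by rw [← map_mul, h3, map_one]))
          rw [h4, mul_inv_cancel_right]; exact hs⟩
        have := hreg this
        omega
    right
    by_cases hD : ∃ n, Nonempty (G ≃* DihedralGroup n)
    · obtain ⟨n, ⟨e⟩⟩ := hD
      exfalso
      have hcn : Nat.card G = 2 * n := by
        rw [Nat.card_congr e.toEquiv, DihedralGroup.nat_card]
      have hn : n = 4 ∨ n = 8 := by omega
      rcases hn with rfl | rfl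
      · exact dih_false hS (fun t => conj_stab ρ hρ htrans hv) e (by decide) (by decide) (by decide)
      · exact dih_false hS (fun t => conj_stab ρ hρ htrans hv) e (by decide) (by decide) (by decide)
    by_cases hSD : Cfsg.IsQuasiDihedral G
    · refine ⟨hSD, ?_⟩
      obtain ⟨n, hn, hcn, -⟩ := hSD
      have := Nat.pow_le_pow_right two_pos (show 4 ≤ n + 1 by omega)
      omega
    exfalso
    push Not at hQ hD
    obtain ⟨H, W, -, hW, -, hH, hf, hσ⟩ := S3380.result 3 2 hG ρ hρ (fun W hW => by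
      by_cases h : W = ⊥
      · exact Or.inl h
      right
      obtain ⟨w, hw, w0⟩ := (Submodule.ne_bot_iff W).1 h
      rw [eq_top_iff]
      intro u _
      by_cases hu : u = 0
      · rw [hu]; exact W.zero_mem
      obtain ⟨g, rfl⟩ := htrans w u w0 hu
      exact hW g w hw) hc (fun n h => (hQ n).elim h.some) (fun n h => (hD n).elim h.some) hSD
    have hall : ∀ u : V, ∃ i, u ∈ W i := by
      obtain ⟨i, hi⟩ : ∃ i, W i ≠ ⊥ := by
        by_contra h
        push Not at h
        rw [iSup_eq_bot.2 h] at hW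
        exact bot_ne_top hW
      obtain ⟨w, hw, w0⟩ := (Submodule.ne_bot_iff _).1 hi
      intro u
      by_cases hu : u = 0
      · exact ⟨i, hu ▸ (W i).zero_mem⟩
      obtain ⟨g, rfl⟩ := htrans w u w0 hu
      by_cases hg : g ∈ H
      · exact ⟨i, hH g hg i w hw⟩
      · obtain ⟨σ, -, h⟩ := hσ g hg
        exact ⟨σ i, (h i).le ⟨w, hw, rfl⟩⟩
    have hne : ∀ i, ∃ u, u ∉ W i := by
      intro i
      by_contra h
      push Not at h
      obtain ⟨x, -, x1, hx⟩ := hf i
      apply x1
      apply hρ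
      rw [map_one]
      ext w
      exact hx w (h w)
    obtain ⟨x, hx⟩ := hne 0
    obtain ⟨y, hy⟩ := hne 1
    have hx' : x ∈ W 1 := by
      obtain ⟨i, hi⟩ := hall x
      fin_cases i
      exacts [absurd hi hx, hi]
    have hy' : y ∈ W 0 := by
      obtain ⟨i, hi⟩ := hall y
      fin_cases i
      exacts [hi, absurd hi hy]
    obtain ⟨i, hi⟩ := hall (x + y)
    fin_cases i
    · exact hx ((Submodule.add_mem_iff_left _ hy').1 hi)
    · exact hy ((Submodule.add_mem_iff_right _ hx').1 hi)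
  · left
    have hd : Module.finrank (ZMod q) V = 1 :=
      Nat.pow_right_injective hq.two_le (h1.trans (pow_one q).symm)
    have hsp := (finrank_eq_one_iff_of_nonzero' v hv).1 hd
    haveI : IsMulCommutative G := ⟨⟨fun g h => hρ (by
      ext w
      obtain ⟨c, rfl⟩ := hsp w
      obtain ⟨x, hx⟩ := hsp (ρ g v)
      obtain ⟨y, hy⟩ := hsp (ρ h v)
      rw [S3380.app_mul, S3380.app_mul]
      simp only [map_smul, ← hx, ← hy, smul_smul]
      rw [mul_right_comm])⟩⟩
    refine ⟨rfl, hV.trans h1, ⟨a, by omega, hreg inferInstance⟩, ?_⟩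
    letI : DistribMulAction G V := DistribMulAction.compHom V ρ
    refine (H24.fpf_of_distrib (G := G) (V := V) fun g hg w hw => ?_).isCyclic_of_comm
    by_contra w0
    have : g ∈ stab ρ w := hw
    rw [stab_eq_bot ρ hρ htrans w0 inferInstance] at this
    exact hg this

end Cfsg.Agent.S3370
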