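import Cfsg.Statements.S3371
import Cfsg.Agent.S3370
import Cfsg.Agent.H69.UniqueP

set_option autoImplicit false
open Cfsg

namespace Cfsg.Agent.S3371

open Subgroup S3370 S3380

section
variable {q : ℕ} [hq : Fact q.Prime] {V : Type*} [AddCommGroup V] [Module (ZMod q) V] [Finite V]
  {G : Type*} [Group G] [Finite G] {p : ℕ} [hp : Fact p.Prime] {ρ : G →* (V ≃ₗ[ZMod q] V)}

/-- half transitive, not semiregular -/
structure HT (p : ℕ) (ρ : G →* (V ≃ₗ[ZMod q] V)) : Prop where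
  pg : IsPGroup p G
  ne : p ≠ q
  inj : Function.Injective ρ
  eq : ∀ v w : V, v ≠ 0 → w ≠ 0 → Nat.card (stab ρ v) = Nat.card (stab ρ w)
  nb : ∀ v : V, v ≠ 0 → stab ρ v ≠ ⊥

omit [Finite V] [Finite G] in
theorem app_one (v : V) : ρ 1 v = v := by rw [map_one]; rfl

omit [Finite V] [Finite G] hp in
theorem HT.one (h : HT p ρ) {g : G} (hg : ∀ v, ρ g v = v) : g = 1 :=
  h.inj (by rw [map_one]; exact LinearEquiv.ext hg)

omit [Finite V] [Finite G] in
theorem HT.unip (h : HT p ρ) {g : G} {u v : V} (h1 : ρ g u = u) (h2 : ρ g v = v + u) : u = 0 := by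
  have h3 : ∀ n : ℕ, ρ (g ^ n) v = v + (n : ZMod q) • u := fun n => by
    induction n with
    | zero => simp
    | succ n ih => rw [pow_succ', app_mul, ih, map_add, map_smul, h1, h2, Nat.cast_succ, add_smul, one_smul]; abel
  obtain ⟨k, hk⟩ := h.pg g
  have h4 := h3 (p ^ k)
  rw [hk, app_one, left_eq_add, smul_eq_zero, Nat.cast_pow] at h4
  exact h4.resolve_left (pow_ne_zero _ fun e =>
    h.ne ((Nat.prime_dvd_prime_iff_eq hq.out hp.out).1 ((ZMod.natCast_eq_zero_iff p q).1 e)).symm)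

omit [Finite V] hp in
theorem HT.stab_eq (h : HT p ρ) {v w : V} (hv : v ≠ 0) (hw : w ≠ 0) (hl : stab ρ v ≤ stab ρ w) :
    stab ρ v = stab ρ w := eq_of_le_of_card_ge hl (h.eq w v hw hv).le

omit [Finite V] in
theorem HT.cen (h : HT p ρ) {z : G} (hz : z ∈ center G) (h1 : z ≠ 1) {u : V} (hu : ρ z u = u) : u = 0 := by
  by_contra h0
  have hc : ∀ g v, ρ g (ρ z v) = ρ z (ρ g v) := fun g v => by rw [← app_mul, ← app_mul, mem_center_iff.1 hz]
  have key : ∀ u v, u ≠ 0 → ρ z u = u → ρ z v - v ≠ 0 → stab ρ u = stab ρ (ρ z v - v) := by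
    intro u v h2 h3 h4
    have h5 : u + (ρ z v - v) ≠ 0 := fun e => h2 (neg_eq_zero.1 (h.unip (g := z) (v := v) (by rw [map_neg, h3])
      (by rw [add_eq_zero_iff_neg_eq.1 e]; abel)))
    have h6 : ∀ g ∈ stab ρ (u + (ρ z v - v)), ρ g u = u := fun g hg => by
      rw [mem_stab, map_add, map_sub, hc] at hg
      refine sub_eq_zero.1 (h.unip (g := z) (v := v - ρ g v) (by rw [map_sub, ← hc, h3]) ?_)
      rw [map_sub, sub_eq_iff_eq_add, eq_sub_of_add_eq hg]
      abel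
    refine (h.stab_eq h5 h2 h6).symm.trans (h.stab_eq h5 h4 fun g hg => ?_)
    have := h6 g hg
    rwa [mem_stab, map_add, this, add_right_inj] at hg
  obtain ⟨v, hv⟩ : ∃ v, ρ z v - v ≠ 0 := by
    by_contra! h2
    exact h1 (h.one fun v => sub_eq_zero.1 (h2 v))
  refine h.nb u h0 (eq_bot_iff.2 fun g hg => h.one fun w => ?_)
  have h2 : ρ z (ρ g w - w) = ρ g w - w := by
    have : ρ g (ρ z w - w) = ρ z w - w := by
      by_cases e : ρ z w - w = 0
      · rw [e, map_zero]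
      · exact (key u w h0 hu e ▸ hg : g ∈ stab ρ (ρ z w - w))
    rw [map_sub, hc, sub_eq_iff_eq_add] at this
    rw [map_sub, this]
    abel
  by_contra h3
  have h4 := sub_ne_zero.2 h3
  exact h4 (h.unip (g := g) (v := w) ((key u v h0 hu hv).trans (key _ v h4 h2 hv).symm ▸ hg :
    g ∈ stab ρ (ρ g w - w)) (by abel))

omit [Finite V] in
theorem HT.neg (h : HT p ρ) {z : G} (hz : z ∈ center G) (h1 : z ≠ 1) (h2 : z * z = 1) (v : V) : ρ z v = -v :=
  eq_neg_of_add_eq_zero_left (h.cen hz h1 (by rw [map_add, ← app_mul, h2, app_one, add_comm]))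

omit [Finite V] [Finite G] in
theorem card_sq (h2 : q ≠ 2) {a z g : G} (ha : a * a = 1) (hz : ∀ v, ρ z v = -v) (hg : g * a * g⁻¹ = a * z) :
    Nat.card V = Nat.card (fix ρ a) ^ 2 := by
  have h0 : (2 : ZMod q) ≠ 0 := fun e => h2 ((Nat.prime_dvd_prime_iff_eq hq.out Nat.prime_two).1
    ((ZMod.natCast_eq_zero_iff 2 q).1 (by exact_mod_cast e)))
  have h1 : IsCompl (fix ρ a) (fix ρ (a * z)) := ⟨Submodule.disjoint_def.2 fun v h3 h4 => by
    rw [mem_fix, app_mul, hz, map_neg, (mem_fix ρ).1 h3, neg_eq_iff_add_eq_zero, ← two_smul (ZMod q)] at h4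
    exact (smul_eq_zero.1 h4).resolve_left h0, codisjoint_iff.2 (eq_top_iff.2 fun v _ => by
      rw [show v = (2 : ZMod q)⁻¹ • ((v + ρ a v) + (v - ρ a v)) by
        rw [add_add_sub_cancel, ← two_smul (ZMod q), inv_smul_smul₀ h0]]
      refine Submodule.smul_mem _ _ (Submodule.add_mem_sup ?_ ?_)
      · rw [mem_fix, map_add, ← app_mul, ha, app_one, add_comm]
      · rw [mem_fix, app_mul, hz, neg_sub, map_sub, ← app_mul, ha, app_one])⟩
  rw [← Nat.card_congr (Submodule.prodEquivOfIsCompl _ _ h1).toEquiv, Nat.card_prod, sq, ← hg, ← map_fix,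
    ← Nat.card_congr ((ρ g).submoduleMap (fix ρ a)).toEquiv]

theorem card_pow (W : Submodule (ZMod q) V) : ∃ n, Nat.card W = q ^ n :=
  ⟨_, by rw [Module.natCard_eq_pow_finrank (K := ZMod q), Nat.card_zmod]⟩

omit [Finite V] in
theorem HT.ind (h : HT p ρ) {a : G} {κ : G} (hκ : κ ∈ center G) (L : List (V × G)) :
    ∀ {x : V}, ρ a x = ρ κ x → (∀ y ∈ L, y.2 ∈ center G ∧ y.2 ≠ κ ∧ ρ a y.1 = ρ y.2 y.1) →
      x + (L.map Prod.fst).sum = 0 → x = 0 := by
  induction hn : L.length generalizing L with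
  | zero => intro x _ _ h3; simpa [List.length_eq_zero_iff.1 hn] using h3
  | succ n ih =>
    intro x h1 h2 h3
    obtain ⟨y, L, rfl⟩ := List.exists_cons_of_length_eq_add_one hn
    obtain ⟨e1, e2, e3⟩ := h2 y List.mem_cons_self
    have hc : ∀ (v : V) (k : G), k ∈ center G → ρ a v = ρ k v →
        ρ a (ρ a v - ρ y.2 v) = ρ k (ρ a v - ρ y.2 v) := fun v k hk e => by
      rw [map_sub, map_sub, ← app_mul ρ a y.2, mem_center_iff.1 e1, app_mul, e, ← app_mul ρ a k,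
        mem_center_iff.1 hk, app_mul, e, ← app_mul ρ y.2, ← app_mul ρ k y.2, mem_center_iff.1 hk]
    have h4 := ih (L.map fun w => (ρ a w.1 - ρ y.2 w.1, w.2)) (by simpa using hn) (hc x κ hκ h1) (by
      intro w hw
      obtain ⟨w, hw', rfl⟩ := List.mem_map.1 hw
      obtain ⟨f1, f2, f3⟩ := h2 w (List.mem_cons_of_mem _ hw')
      exact ⟨f1, f2, hc _ _ f1 f3⟩) (by
      have := congrArg ((ρ a : V →ₗ[ZMod q] V) - (ρ y.2 : V →ₗ[ZMod q] V)) h3
      rw [map_zero, map_add, List.map_cons, List.sum_cons, map_add, map_list_sum, List.map_map] at this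
      rw [List.map_map, ← this]
      simp only [LinearMap.sub_apply, LinearEquiv.coe_coe, e3, sub_self, zero_add]
      rfl)
    refine h.cen (mul_mem (inv_mem hκ) e1) (fun e => e2 (inv_mul_eq_one.1 e).symm) ?_
    rw [app_mul, ← sub_eq_zero.1 h4, h1, ← app_mul, inv_mul_cancel, app_one]

omit [Finite V] in
theorem HT.swap (h : HT p ρ) {a ζ : G} (ha : ∀ g, a⁻¹ * (g⁻¹ * a * g) ∈ center G) (hζ : ζ ∈ center G)
    (h1 : ζ ≠ 1) {v w : V} (hv : v ≠ 0) (hw : w ≠ 0) (h2 : ρ a v = v) (h3 : ρ a w = ρ ζ w) :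
    (ζ * ζ = 1 ∧ ∃ g, ρ g v = w ∧ ρ g w = v) ∧
      ∀ g ∈ stab ρ (v + w), ρ g v = v ∧ ρ g w = w ∨ ζ * ζ = 1 ∧ ρ g v = w ∧ ρ g w = v := by
  have h4 : ∀ g ∈ stab ρ (v + w), ρ g v = v ∧ ρ g w = w ∨ ζ * ζ = 1 ∧ ρ g v = w ∧ ρ g w = v := by
    intro g hg
    rw [mem_stab, map_add] at hg
    obtain ⟨η, hη, e⟩ : ∃ η ∈ center G, a * g = η * g * a :=
      ⟨_, ha g, by rw [← mem_center_iff.1 (ha g) g, mul_assoc, ← mem_center_iff.1 (ha g) a]; group⟩
    have e1 : ρ a (ρ g v) = ρ η (ρ g v) := by rw [← app_mul, e, app_mul, app_mul, h2]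
    have e2 : ρ a (ρ g w) = ρ (η * ζ) (ρ g w) := by
      rw [← app_mul, e, app_mul, h3, ← app_mul, ← app_mul, mul_assoc, mul_assoc, mem_center_iff.1 hζ]
    by_cases h5 : η = 1
    · rw [h5, one_mul] at e2
      rw [h5, app_one] at e1
      have := h.ind (a := a) (one_mem _) [(ρ g w - w, ζ)] (x := ρ g v - v) (by rw [map_sub, e1, h2, app_one])
        (by simp [hζ, h1, e2, h3]) (by simp [sub_add_sub_comm, hg])
      rw [sub_eq_zero] at this
      exact .inl ⟨this, by rwa [this, add_right_inj] at hg⟩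
    have h6 : η * ζ = 1 := by
      by_contra h6
      exact hv (h.ind (a := a) (one_mem _) [(w, ζ), (-ρ g v, η), (-ρ g w, η * ζ)] (by rw [h2, app_one])
        (by simp [hζ, h1, e1, e2, h3, hη, h5, h6, mul_mem hη hζ]) (by
          simp only [List.map_cons, List.map_nil, List.sum_cons, List.sum_nil]
          rw [← add_assoc, ← hg]; abel))
    have h7 : η = ζ := by
      by_contra h7
      exact hw (h.ind (a := a) hζ [(v, 1), (-ρ g v, η), (-ρ g w, 1)] h3
        (by simp [one_mem, h1.symm, e1, e2, h2, hη, h6, h7]) (by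
          simp only [List.map_cons, List.map_nil, List.sum_cons, List.sum_nil]
          rw [← add_assoc, add_comm w, ← hg]; abel))
    subst h7
    rw [h6, app_one] at e2
    have := h.ind (a := a) (one_mem _) [(ρ g v - w, η)] (x := ρ g w - v) (by rw [map_sub, e2, h2, app_one])
      (by simp [hζ, h1, e1, h3]) (by simp [sub_add_sub_comm, add_comm (ρ g w), hg])
    rw [sub_eq_zero] at this
    exact .inr ⟨h6, by rwa [this, add_comm, add_right_inj] at hg, this⟩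
  refine ⟨?_, h4⟩
  by_contra h5
  have h6 : v + w ≠ 0 := fun e => hv (h.ind (a := a) (one_mem _) [(w, ζ)] (by rw [h2, app_one])
    (by simp [hζ, h1, h3]) (by simpa using e))
  have h7 : a ∈ stab ρ (v + w) := h.stab_eq h6 hv (fun g hg =>
    ((h4 g hg).resolve_right fun e => h5 ⟨e.1, g, e.2⟩).1) ▸ h2
  rw [mem_stab, map_add, h2, add_right_inj, h3] at h7
  exact hw (h.cen hζ h1 h7)

theorem HT.caseA [Nontrivial V] (h : HT p ρ) {U : Subgroup G} (hUn : U.Normal) (hU : IsElementaryAbelian p U)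
    (hc : Nat.card U = p ^ 2) : (Nat.card V = q ^ 2 ∧ (∃ m : ℕ, q = 2 ^ m + 1) ∧
      ∃ e : V ≃ₗ[ZMod q] (Fin 2 → ZMod q), ∀ f : (Fin 2 → ZMod q) ≃ₗ[ZMod q] (Fin 2 → ZMod q),
        (∃ g : G, f = e.symm.trans ((ρ g).trans e)) ↔
        ∃ a s : ZMod q, a ≠ 0 ∧ (s = 1 ∨ s = -1) ∧
          ((∀ v, f v = ![a * v 0, s * a⁻¹ * v 1]) ∨ (∀ v, f v = ![s * a⁻¹ * v 1, a * v 0]))) ∨
    (Nat.card V = 81 ∧ q = 3 ∧ p = 2) := by
  let _ : DistribMulAction G V := DistribMulAction.compHom V ρ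
  have hUc := hU.1
  obtain ⟨z, hzU, hz, hzo⟩ := H3.exists_mem_center_orderOf_eq h.pg U (by
    rintro rfl
    rw [card_bot] at hc
    exact (Nat.one_lt_pow two_ne_zero hp.out.one_lt).ne hc)
  obtain ⟨a, hu, a1, v, hv, v0⟩ : ∃ u ∈ U, u ≠ 1 ∧ ∃ v : V, ρ u v = v ∧ v ≠ 0 := by
    by_contra! hcon
    obtain ⟨g, hg⟩ := (H24.fpf_of_distrib (G := U) (V := V) fun g hg v hv =>
      hcon g g.2 (fun h => hg (Subtype.ext h)) v hv).isCyclic_of_comm.exists_ofOrder_eq_natCard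
    have h4 := Nat.le_of_dvd hp.out.pos (hc ▸ hg ▸ orderOf_dvd_of_pow_eq_one
      (Subtype.ext (hU.2 g g.2) : g ^ p = 1))
    have := hp.out.two_le
    nlinarith
  have huc : a ∉ center G := fun e => v0 (h.cen e a1 hv)
  have hZn : (zpowers z).Normal := ⟨fun n hn g => by
    rw [mem_center_iff.1 (zpowers_le.2 hz hn) g, mul_inv_cancel_right]; exact hn⟩
  have ha : ∀ g, a⁻¹ * (g⁻¹ * a * g) ∈ zpowers z := fun g => by
    obtain ⟨K, -, -, hKU, hKc, hK⟩ := H3.exists_normal_card_eq_mul h.pg _ U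
      (lt_of_le_of_ne (zpowers_le.2 hzU) fun e => huc (zpowers_le.2 hz (e ▸ hu)))
    obtain rfl : K = U := eq_of_le_of_card_ge hKU (by rw [hKc, Nat.card_zpowers, hzo, hc, sq])
    simpa [commutatorElement_def, mul_assoc] using hK (commutator_mem_commutator (inv_mem hu) (mem_top g⁻¹))
  have ha' := fun g => zpowers_le.2 hz (ha g)
  have hm : ∀ g u, ρ a u = u → ρ a (ρ g u) = ρ (a⁻¹ * (g⁻¹ * a * g)) (ρ g u) := fun g u e => by
    conv_rhs => rw [← e, ← app_mul, ← app_mul, ← mem_center_iff.1 (ha' g) g, mul_assoc,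
      ← mem_center_iff.1 (ha' g) a]
    rw [← app_mul]
    congr 2
    group
  obtain ⟨g₀, h0⟩ : ∃ g, a⁻¹ * (g⁻¹ * a * g) ≠ 1 := by
    by_contra! e
    exact huc (mem_center_iff.2 fun g => by
      have := e g
      rw [inv_mul_eq_one, mul_assoc, eq_inv_mul_iff_mul_eq] at this
      exact this)
  have w0 : ρ g₀ v ≠ 0 := by simpa using v0
  have hw := hm g₀ v hv
  obtain ⟨⟨h1, g₁, s1, s2⟩, h2⟩ := h.swap ha' (ha' g₀) h0 v0 w0 hv hw
  obtain rfl : p = 2 := by
    have e1 := orderOf_eq_prime (hU.2 _ (zpowers_le.2 hzU (ha g₀))) h0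
    rw [← e1, orderOf_eq_prime ((sq _).trans h1) h0]
  have hz2 : z * z = 1 := by rw [← sq, ← hzo, pow_orderOf_eq_one]
  have z1 : z ≠ 1 := fun e => by simp [e] at hzo
  have hzz : ∀ u ∈ zpowers z, u = 1 ∨ u = z := fun u hu => by
    by_contra! e
    exact e.2 (eq_of_card_le_two (by rw [Nat.card_zpowers, hzo]) hu (mem_zpowers z) e.1 z1)
  have hn := h.neg hz z1 hz2
  have e0 := (hzz _ (ha g₀)).resolve_left h0
  have haa : a * a = 1 := (sq a).symm.trans (hU.2 a hu)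
  have hV := card_sq h.ne.symm haa hn (g := g₀⁻¹) (by rw [← e0]; group)
  rw [e0] at hw
  generalize ρ g₀ v = w at w0 hw s1 s2 h2
  rw [hn] at hw
  have hs : ∀ u u', u ≠ 0 → u' ≠ 0 → ρ a u = u → ρ a u' = -u' → ∃ g, ρ g u = u' ∧ ρ g u' = u :=
    fun u u' e1 e2 e3 e4 => (h.swap ha' hz z1 e1 e2 e3 (e4.trans (hn u').symm)).1.2
  have hd : ∀ g, a * g = g * a ∨ ∀ u, ρ a (ρ g u) = -ρ g (ρ a u) := fun g => (hzz _ (ha g)).imp
    (fun e => by rw [inv_mul_eq_one, mul_assoc, eq_inv_mul_iff_mul_eq] at e; exact e.symm) fun e u => by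
      rw [← app_mul, show a * g = g * a * z by rw [← e]; group, app_mul, hn, map_neg, app_mul]
  have h3 : ∀ u : V, u = -u → u = 0 := fun u e => h.cen hz z1 ((hn u).trans e.symm)
  have hcm : ∀ g, a * g = g * a → ∀ u, ρ a (ρ g u) = ρ g (ρ a u) := fun g e u => by
    rw [← app_mul, e, app_mul]
  obtain ⟨m, hm⟩ : ∃ m, Nat.card (fix ρ a) = 2 ^ m + 1 := by
    obtain ⟨m, hm⟩ := (h.pg.to_subgroup (centralizer {a})).card_orbit v
    refine ⟨m, ?_⟩
    rw [← hm, Nat.card_coe_set_eq, ← Set.ncard_insert_of_notMem (a := 0), ← Nat.card_coe_set_eq]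
    · refine Nat.card_congr (Equiv.setCongr (s := (fix ρ a : Set V)) (Set.ext fun u => ⟨fun e => ?_, ?_⟩))
      · by_cases u0 : u = 0
        · exact .inl u0
        obtain ⟨g, e1, e2⟩ := hs u w u0 w0 e hw
        have e3 : ρ (g * g₁) v = u := by rw [app_mul, s1, e2]
        refine .inr ⟨⟨g * g₁, mem_centralizer_singleton_iff.2 ((hd _).resolve_right fun e4 => u0 (h3 u ?_)).symm⟩, e3⟩
        have := e4 v
        rwa [hv, e3, (mem_fix ρ).1 e] at this
      · rintro (rfl | ⟨g, rfl⟩)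
        · exact zero_mem _
        · exact (hcm g (mem_centralizer_singleton_iff.1 g.2).symm v).trans (congrArg _ hv)
    · rintro ⟨g, e⟩
      exact v0 ((ρ g).map_eq_zero_iff.1 e)
  obtain ⟨n, hn'⟩ := card_pow (fix ρ a)
  rcases catalan_sub hq.out (hq.out.odd_of_ne_two h.ne.symm) (hn'.symm.trans hm) with h9 | h4
  · refine .inr ⟨by rw [hV, hn', h9]; rfl, ?_, rfl⟩
    have : q ∣ 3 ^ 2 := (dvd_pow_self q (n := n) fun e => by simp [e] at h9).trans (by rw [h9]; norm_num)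
    exact (Nat.prime_dvd_prime_iff_eq hq.out Nat.prime_three).1 (hq.out.dvd_of_dvd_pow this)
  rw [h4] at hn'
  rw [hn'] at hV hm
  have l1 : ∀ u, ρ a u = u → ∃ b : ZMod q, u = b • v := fun u e => by
    obtain ⟨b, hb⟩ := (Function.Injective.bijective_of_nat_card_le (f := fun b : ZMod q =>
      (⟨b • v, Submodule.smul_mem _ b hv⟩ : fix ρ a)) (fun b c e => smul_left_injective _ v0 (Subtype.mk.inj e))
      (by rw [hn', Nat.card_zmod])).2 ⟨u, e⟩
    exact ⟨b, (Subtype.mk.inj hb).symm⟩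
  have a2 : ∀ u, ρ a (ρ g₁ u) = -ρ g₁ (ρ a u) := (hd g₁).resolve_left fun e => w0 (h3 w (by
    have := hcm g₁ e v
    rwa [hv, s1, hw, eq_comm] at this))
  have l2 : ∀ u, ρ a u = -u → ∃ b : ZMod q, u = b • w := fun u e => by
    obtain ⟨b, hb⟩ := l1 (ρ g₁ u) (by rw [a2, e, map_neg, neg_neg])
    exact ⟨b, (ρ g₁).injective (by rw [hb, map_smul, s2])⟩
  have l3 : ∀ b c : ZMod q, b • v + c • w = 0 → b = 0 ∧ c = 0 := fun b c e => by
    have e1 := congrArg (ρ a) e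
    rw [map_add, map_smul, map_smul, hv, hw, map_zero, smul_neg, add_neg_eq_zero] at e1
    rw [← e1] at e
    have e2 := h3 _ (eq_neg_of_add_eq_zero_left e)
    exact ⟨(smul_eq_zero.1 e2).resolve_right v0, (smul_eq_zero.1 (e1 ▸ e2)).resolve_right w0⟩
  let φ : (Fin 2 → ZMod q) →ₗ[ZMod q] V :=
    (LinearMap.toSpanSingleton _ V v).comp (LinearMap.proj 0) + (LinearMap.toSpanSingleton _ V w).comp (LinearMap.proj 1)
  have hφ : ∀ x, φ x = x 0 • v + x 1 • w := fun _ => rfl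
  let e := LinearEquiv.ofBijective φ (Function.Injective.bijective_of_nat_card_le
    ((injective_iff_map_eq_zero φ).2 fun x e => by
      obtain ⟨e1, e2⟩ := l3 _ _ e
      ext i
      fin_cases i
      exacts [e1, e2]) (by simp [hV]))
  have he : ∀ x, e x = x 0 • v + x 1 • w := fun _ => rfl
  have one : ∀ g, ρ g v = v → ρ g w = w → g = 1 := fun g e1 e2 => h.one fun u => by
    obtain ⟨x, rfl⟩ := e.surjective u
    rw [he, map_add, map_smul, map_smul, e1, e2]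
  have c2 : Nat.card (stab ρ v) ≤ 2 := by
    have h6 : v + w ≠ 0 := fun e => one_ne_zero (l3 1 1 (by rwa [one_smul, one_smul])).1
    rw [h.eq v _ v0 h6]
    refine (Set.ncard_le_ncard (t := {1, g₁}) fun g hg => ?_).trans ((Set.ncard_insert_le _ _).trans (by simp))
    rcases h2 g hg with ⟨e1, e2⟩ | ⟨-, e1, e2⟩
    · exact .inl (one g e1 e2)
    · exact .inr (eq_of_inv_mul_eq_one (one (g⁻¹ * g₁) (by
        rw [app_mul, s1, ← e1, ← app_mul, inv_mul_cancel, app_one]) (by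
        rw [app_mul, s2, ← e2, ← app_mul, inv_mul_cancel, app_one])))
  have ex : ∀ b : ZMod q, b ≠ 0 → ∃ g, ρ g v = b • w ∧ ρ g w = b⁻¹ • v := fun b hb => by
    obtain ⟨g, e1, e2⟩ := hs v (b • w) v0 (smul_ne_zero hb w0) hv (by rw [map_smul, hw, smul_neg])
    exact ⟨g, e1, by rw [← e2, map_smul, inv_smul_smul₀ hb]⟩
  have dg : ∀ g, ρ a (ρ g v) = ρ g v → ρ a (ρ g w) = -ρ g w → ∃ b s : ZMod q, b ≠ 0 ∧ (s = 1 ∨ s = -1) ∧
      ρ g v = b • v ∧ ρ g w = (s * b⁻¹) • w := fun g e1 e2 => by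
    obtain ⟨b, hb⟩ := l1 _ e1
    obtain ⟨d, hd⟩ := l2 _ e2
    have b0 : b ≠ 0 := fun e => v0 ((ρ g).map_eq_zero_iff.1 (by rw [hb, e, zero_smul]))
    obtain ⟨k, k1, k2⟩ := ex b b0
    have e3 : ρ (g * k * g₁) v = v := by rw [app_mul, app_mul, s1, k2, map_smul, hb, inv_smul_smul₀ b0]
    have e4 : ρ (g * k * g₁) w = (d * b) • w := by rw [app_mul, app_mul, s2, k1, map_smul, hd, smul_smul, mul_comm]
    refine ⟨b, d * b, b0, ?_, hb, by rw [hd, mul_inv_cancel_right₀ b0]⟩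
    by_cases e5 : g * k * g₁ = 1
    · rw [e5, app_one] at e4
      exact .inl (smul_left_injective _ w0 (e4.symm.trans (one_smul _ _).symm))
    · rw [eq_of_card_le_two c2 e3 hv e5 a1, hw] at e4
      exact .inr (smul_left_injective _ w0 (e4.symm.trans (neg_one_smul _ _).symm))
  have tr : ∀ (g : G) (f : (Fin 2 → ZMod q) ≃ₗ[ZMod q] (Fin 2 → ZMod q)),
      f = e.symm.symm.trans ((ρ g).trans e.symm) ↔ ∀ x, e (f x) = x 0 • ρ g v + x 1 • ρ g w := fun g f => by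
    rw [LinearEquiv.ext_iff]
    refine forall_congr' fun x => ?_
    rw [LinearEquiv.trans_apply, LinearEquiv.trans_apply, LinearEquiv.eq_symm_apply, LinearEquiv.symm_symm,
      he x, map_add, map_smul, map_smul]
  refine .inl ⟨hV, ⟨m, hm⟩, e.symm, fun f => ⟨?_, ?_⟩⟩
  · rintro ⟨g, hf⟩
    rw [tr] at hf
    rcases hd g with e1 | e1
    · obtain ⟨b, s, e2, e3, e4, e5⟩ := dg g (by rw [hcm g e1, hv]) (by rw [hcm g e1, hw, map_neg])
      refine ⟨b, s, e2, e3, .inl fun x => e.injective ?_⟩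
      rw [hf, he, e4, e5, smul_smul, smul_smul, mul_comm (x 0), mul_comm (x 1)]
      rfl
    · obtain ⟨b, s, e2, e3, e4, e5⟩ := dg (g * g₁) (by rw [app_mul, s1, e1, hw, map_neg, neg_neg])
        (by rw [app_mul, s2, e1, hv])
      rw [app_mul, s1] at e4
      rw [app_mul, s2] at e5
      have e6 : s * (s * b⁻¹)⁻¹ = b := by rcases e3 with rfl | rfl <;> simp
      refine ⟨s * b⁻¹, s, fun e => e2 (by rw [← e6, e]; simp), e3, .inr fun x => e.injective ?_⟩
      rw [hf, he, e4, e5, smul_smul, smul_smul, mul_comm (x 0), mul_comm (x 1), e6, add_comm]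
      rfl
  rintro ⟨b, s, e1, e2, e3⟩
  obtain ⟨k, k1, k2⟩ : ∃ k, ρ k v = v ∧ ρ k w = s • w := by
    rcases e2 with rfl | rfl
    · exact ⟨1, app_one _, by rw [app_one, one_smul]⟩
    · exact ⟨a, hv, by rw [hw, neg_one_smul]⟩
  rcases e3 with e3 | e3
  · obtain ⟨g, f1, f2⟩ := ex b⁻¹ (inv_ne_zero e1)
    refine ⟨g * g₁ * k, (tr _ f).2 fun x => ?_⟩
    simp only [e3, he, app_mul, k1, k2, map_smul, s1, s2, f1, f2, inv_inv, smul_smul, Matrix.cons_val_zero,
      Matrix.cons_val_one]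
    rw [mul_comm (x 0), mul_comm (x 1)]
  · obtain ⟨g, f1, f2⟩ := ex b e1
    refine ⟨g * k, (tr _ f).2 fun x => ?_⟩
    simp only [e3, he, app_mul, k1, k2, map_smul, f1, f2, smul_smul, Matrix.cons_val_zero,
      Matrix.cons_val_one]
    rw [mul_comm (x 0), mul_comm (x 1), add_comm]

theorem HT.caseB [Nontrivial V] (h : HT 2 ρ) {x y : G} {k : ℕ} (hx : orderOf x = 2 ^ (k + 2))
    (hc : Nat.card G = 2 ^ (k + 3)) (hy : y ∉ zpowers x) (h1 : y * y = 1) (h2 : y * x ^ 2 ^ k * y⁻¹ = (x ^ 2 ^ k)⁻¹) :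
    Nat.card V = q ^ 2 ∧ ∃ (m : ℕ) (Y : Subgroup G), q = 2 ^ m - 1 ∧ Nat.card Y = 2 ^ m ∧
      ∀ u, u ∈ Y ↔ u ∈ zpowers x ∧ y * u * y⁻¹ = u⁻¹ := by
  classical
  have hi : (zpowers x).index = 2 := by
    have := (zpowers x).card_mul_index
    rw [Nat.card_zpowers, hx, hc, pow_succ 2 (k + 2)] at this
    exact Nat.eq_of_mul_eq_mul_left (by positivity) this
  have hcm : ∀ u ∈ zpowers x, ∀ u' ∈ zpowers x, u * u' = u' * u := by
    rintro _ ⟨i, rfl⟩ _ ⟨j, rfl⟩
    exact (Commute.zpow_zpow_self x i j).eq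
  have hg : ∀ g, g ∉ zpowers x → y⁻¹ * g ∈ zpowers x := fun g hg =>
    (mul_mem_iff_of_index_two hi).2 (by simp [hy, hg])
  set w := x ^ 2 ^ k with hw
  have w1 : w ∈ zpowers x := pow_mem (mem_zpowers x) _
  have w4 : w * w * (w * w) = 1 := by
    simp only [hw, ← pow_add]
    rw [show 2 ^ k + 2 ^ k + (2 ^ k + 2 ^ k) = 2 ^ (k + 2) by ring, ← hx, pow_orderOf_eq_one]
  have z1 : w * w ≠ 1 := fun e => by
    rw [hw, ← pow_add, ← two_mul, ← pow_succ'] at e
    have := Nat.le_of_dvd (by positivity) (hx ▸ orderOf_dvd_of_pow_eq_one e)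
    rw [Nat.pow_le_pow_iff_right one_lt_two] at this
    omega
  have hz : w * w ∈ center G := mem_center_iff.2 fun g => by
    by_cases e : g ∈ zpowers x
    · exact hcm _ e _ (mul_mem w1 w1)
    · have e1 : y * (w * w) * y⁻¹ = w * w := by
        rw [show y * (w * w) * y⁻¹ = (y * w * y⁻¹) * (y * w * y⁻¹) by group, h2, ← mul_inv_rev,
          inv_eq_of_mul_eq_one_right w4]
      rw [← mul_inv_cancel_left y g, mul_assoc, hcm _ (hg g e) _ (mul_mem w1 w1), ← mul_assoc,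
        mul_inv_eq_iff_eq_mul.1 e1, mul_assoc]
  have hf : ∀ u ∈ zpowers x, ∀ v, v ≠ 0 → ρ u v = v → u = 1 := fun u hu v v0 e => by
    by_contra u1
    obtain ⟨t, t1, -, t3⟩ := H3.exists_mem_center_orderOf_eq (h.pg.to_subgroup (zpowers x ⊓ stab ρ v)) ⊤
      fun e1 => u1 (congrArg Subtype.val (mem_bot.1 (e1 ▸ mem_top _ : (⟨u, hu, e⟩ : ↥(zpowers x ⊓ stab ρ v)) ∈ ⊥)))
    have t4 := H69.mem_zpowers_of_cyclic_or_quaternion (h.pg.to_subgroup (zpowers x)) (.inl inferInstance)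
      (x := ⟨t, t.2.1⟩) (y := ⟨w * w, mul_mem w1 w1⟩) (fun e => by
        simp [show t = 1 from Subtype.ext (congrArg Subtype.val e :)] at t3)
      (Subtype.ext (congrArg Subtype.val (t3 ▸ pow_orderOf_eq_one t : t ^ 2 = 1) :)) (Subtype.ext ((sq _).trans w4))
    obtain ⟨i, t5⟩ := t4
    exact v0 (h.cen hz z1 ((show (t : G) ^ i = w * w from congrArg Subtype.val t5) ▸ (stab ρ v).zpow_mem t.2.2 i :
      w * w ∈ stab ρ v))
  let Y : Subgroup G :=
    { carrier := {u | u ∈ zpowers x ∧ y * u * y⁻¹ = u⁻¹}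
      one_mem' := ⟨one_mem _, by simp⟩
      mul_mem' := fun {a b} ha hb => ⟨mul_mem ha.1 hb.1, by
        rw [← conj_mul, ha.2, hb.2, ← mul_inv_rev, hcm _ ha.1 _ hb.1]⟩
      inv_mem' := fun {a} ha => ⟨inv_mem ha.1, by rw [← conj_inv, ha.2]⟩ }
  have y1 : y⁻¹ = y := inv_eq_of_mul_eq_one_right h1
  have hY : ∀ u ∈ Y, Nat.card V = Nat.card (fix ρ (y * u)) ^ 2 := fun u hu => card_sq h.ne.symm
    (by rw [← mul_assoc, ← inv_mul_cancel u, ← hu.2, y1]) (h.neg hz z1 w4) (g := w⁻¹) (by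
      rw [inv_inv, ← h2, ← mul_assoc, inv_mul_cancel_right, mul_assoc y, ← hcm _ hu.1 _ w1]
      group)
  obtain ⟨n, hn'⟩ := card_pow (fix ρ y)
  have hV := hY 1 Y.one_mem
  rw [mul_one, hn'] at hV
  have := Fintype.ofFinite V
  have := Fintype.ofFinite Y
  have cnt : (Finset.univ.erase (0 : V)).card = Nat.card Y * (q ^ n - 1) := by
    rw [show Finset.univ.erase (0 : V) = (Finset.univ : Finset Y).biUnion fun u =>
      (Finset.univ.filter fun v => ρ (y * u) v = v).erase 0 from Finset.ext fun v => ?_,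
      Finset.card_biUnion fun u _ u' _ e => Finset.disjoint_left.2 fun v e1 e2 => e (Subtype.ext ?_),
      Finset.sum_const_nat (m := q ^ n - 1) fun u _ => ?_, Finset.card_univ, Nat.card_eq_fintype_card]
    · rw [Finset.card_erase_of_mem (by simp), Nat.pow_left_injective two_ne_zero (hV.symm.trans (hY u u.2)),
        ← Fintype.card_subtype, Nat.card_eq_fintype_card]
      rfl
    · simp only [Finset.mem_erase, Finset.mem_filter, Finset.mem_univ, true_and] at e1 e2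
      refine inv_mul_eq_one.1 (hf _ (mul_mem (inv_mem u.2.1) u'.2.1) v e1.1 ?_)
      rw [show (u : G)⁻¹ * u' = (y * u)⁻¹ * (y * u') by group]
      exact (stab ρ v).mul_mem ((stab ρ v).inv_mem e1.2) e2.2
    · simp only [Finset.mem_erase, Finset.mem_univ, and_true, Finset.mem_biUnion, Finset.mem_filter, true_and]
      refine ⟨fun v0 => ?_, fun ⟨_, e, _⟩ => e⟩
      obtain ⟨⟨t, t1⟩, t2⟩ := ne_bot_iff_exists_ne_one.1 (h.nb v v0)
      have t3 : t ∉ zpowers x := fun e => t2 (Subtype.ext (hf t e v v0 t1))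
      have t4 := hf _ ((mul_mem_iff_of_index_two hi).2 Iff.rfl) v v0 (mul_mem t1 t1)
      refine ⟨⟨y⁻¹ * t, hg t t3, ?_⟩, v0, by rwa [mul_inv_cancel_left]⟩
      rw [mul_inv_cancel_left, mul_inv_rev, inv_eq_of_mul_eq_one_right t4, inv_inv, y1]
  obtain ⟨m, hm⟩ := (h.pg.to_subgroup Y).exists_card_eq
  have n0 : n ≠ 0 := fun e => by
    have := Finite.one_lt_card (α := V)
    rw [hV, e] at this
    simp at this
  have r1 := Nat.one_lt_pow n0 hq.out.one_lt
  rw [Finset.card_erase_of_mem (Finset.mem_univ _), Finset.card_univ, ← Nat.card_eq_fintype_card, hV, hm] at cnt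
  have r2 : q ^ n + 1 = 2 ^ m := by
    obtain ⟨r, hr⟩ : ∃ r, q ^ n = r + 1 := ⟨q ^ n - 1, by omega⟩
    rw [hr] at cnt r1 ⊢
    refine Nat.eq_of_mul_eq_mul_right (m := r) (by omega) ?_
    rw [Nat.add_sub_cancel] at cnt
    rw [← cnt, show (r + 1) ^ 2 = (r + 1 + 1) * r + 1 by ring, Nat.add_sub_cancel]
  have r3 := catalan_add (hq.out.odd_of_ne_two h.ne.symm) n0 (k := m) (by
    by_contra e
    have : 2 ^ m ≤ 2 ^ 1 := Nat.pow_le_pow_right two_pos (by omega)
    omega) r2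
  exact ⟨by rw [hV, r3], m, Y, by omega, hm, fun _ => Iff.rfl⟩

end

/-- Let q be a prime, V a non-trivial finite vector space over the field with q elements, and G a finite p-group (p prime) acting faithfully and linearly on V such that all G-orbits on the non-zero vectors have the same size. Then one of the following holds: G is cyclic or generalized quaternion and acts semiregularly on the non-zero vectors; or V has q² elements with q = 2^m − 1 and G is dihedral of order 2^(m+1) or semidihedral of order 2^(m+2); or V has q² elements with q = 2^m + 1 and, in suitable coordinates V = F_q², G is exactly the group of maps (x, y) ↦ (a x, ± a⁻¹ y) and (x, y) ↦ (± a⁻¹ y, a x) with a ≠ 0; or V has 81 elements (q = 3) and G is a 2-group. -/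
theorem result (q : ℕ) [Fact q.Prime] {V : Type*} [AddCommGroup V] [Module (ZMod q) V] [Finite V] [Nontrivial V]
    {G : Type*} [Group G] [Finite G] (p : ℕ) [Fact p.Prime] (hG : IsPGroup p G)
    (ρ : G →* (V ≃ₗ[ZMod q] V)) (hρ : Function.Injective ρ)
    (hhalf : ∀ v w : V, v ≠ 0 → w ≠ 0 → Nat.card {u : V | ∃ g : G, ρ g v = u} = Nat.card {u : V | ∃ g : G, ρ g w = u}) :
    ((IsCyclic G ∨ ∃ n : ℕ, Nonempty (G ≃* QuaternionGroup n)) ∧ ∀ v : V, v ≠ 0 → ∀ g : G, ρ g v = v → g = 1) ∨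
    (Nat.card V = q ^ 2 ∧ ∃ m : ℕ, q = 2 ^ m - 1 ∧
      (Nonempty (G ≃* DihedralGroup (2 ^ m)) ∨ (Cfsg.IsQuasiDihedral G ∧ Nat.card G = 2 ^ (m + 2)))) ∨
    (Nat.card V = q ^ 2 ∧ (∃ m : ℕ, q = 2 ^ m + 1) ∧
      ∃ e : V ≃ₗ[ZMod q] (Fin 2 → ZMod q), ∀ f : (Fin 2 → ZMod q) ≃ₗ[ZMod q] (Fin 2 → ZMod q),
        (∃ g : G, f = e.symm.trans ((ρ g).trans e)) ↔
        ∃ a s : ZMod q, a ≠ 0 ∧ (s = 1 ∨ s = -1) ∧
          ((∀ v, f v = ![a * v 0, s * a⁻¹ * v 1]) ∨ (∀ v, f v = ![s * a⁻¹ * v 1, a * v 0]))) ∨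
    (Nat.card V = 81 ∧ q = 3 ∧ p = 2) := by
  have hp : p.Prime := Fact.out
  have hq : q.Prime := Fact.out
  let _ : DistribMulAction G V := DistribMulAction.compHom V ρ
  by_cases h0 : ∀ v : V, v ≠ 0 → ∀ g : G, ρ g v = v → g = 1
  · refine .inl ⟨((H24.fpf_of_distrib (G := G) (V := V) fun g hg v hv =>
      by_contra fun e => hg (h0 v e g hv)).cyclic_or_quaternion hG).imp id fun ⟨_, n, h⟩ => ⟨_, h⟩, h0⟩
  have he : ∀ v w : V, v ≠ 0 → w ≠ 0 → Nat.card (S3370.stab ρ v) = Nat.card (S3370.stab ρ w) := by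
    intro v w hv hw
    have h1 : ∀ v : V, Nat.card (S3370.stab ρ v) * Nat.card {u : V | ∃ g : G, ρ g v = u} = Nat.card G := fun v => by
      rw [← (S3370.stab ρ v).card_mul_index]
      exact congrArg _ (MulAction.index_stabilizer G v).symm
    have h2 := (h1 v).trans (h1 w).symm
    rw [hhalf v w hv hw] at h2
    exact Nat.eq_of_mul_eq_mul_right (Nat.pos_of_mul_pos_left (h1 w ▸ Nat.card_pos)) h2
  push Not at h0
  obtain ⟨v, v0, g, hg, g1⟩ := h0
  have h : HT p ρ := ⟨hG, fun e => ?_, hρ, he, fun w hw e => g1 (Subgroup.mem_bot.1 (Subgroup.card_eq_one.1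
    ((he v w v0 hw).trans (by rw [e, Subgroup.card_bot])) ▸ hg : g ∈ (⊥ : Subgroup G)))⟩
  swap
  · subst e
    obtain ⟨u, hu, u0⟩ := hG.exists_fixed_point_of_prime_dvd_card_of_fixed_point V
      (by simpa using (addOrderOf_eq_prime (by
        rw [← Nat.cast_smul_eq_nsmul (ZMod p), ZMod.natCast_self, zero_smul]) v0 ▸ addOrderOf_dvd_natCard v : p ∣ _))
      (a := 0) (fun g => smul_zero g)
    have h1 : S3370.stab ρ u = ⊤ := eq_top_iff.2 fun g _ => hu g
    refine g1 (hρ (by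
      rw [map_one]
      refine LinearEquiv.ext fun w => ?_
      by_cases w0 : w = 0
      · rw [w0, map_zero, map_zero]
      · exact (Subgroup.eq_top_of_card_eq _ ((he w u w0 (Ne.symm u0)).trans (by rw [h1, Subgroup.card_top])) ▸
          Subgroup.mem_top g : g ∈ S3370.stab ρ w)))
  have hcq : ¬ (IsCyclic G ∨ ∃ n : ℕ, Nonempty (G ≃* QuaternionGroup n)) := fun e => by
    obtain ⟨z, -, z1, z2⟩ := H3.exists_mem_center_orderOf_eq hG ⊤ fun e =>
      g1 (Subgroup.mem_bot.1 (e ▸ Subgroup.mem_top g))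
    obtain ⟨t, -, -, t2⟩ := H3.exists_mem_center_orderOf_eq (hG.to_subgroup (S3370.stab ρ v)) ⊤ fun e =>
      g1 (congrArg Subtype.val (Subgroup.mem_bot.1 (e ▸ Subgroup.mem_top _ : (⟨g, hg⟩ : S3370.stab ρ v) ∈ ⊥)))
    obtain ⟨i, hi⟩ := H69.mem_zpowers_of_cyclic_or_quaternion hG e (x := t) (y := z) (fun e => by
      rw [show t = 1 from Subtype.ext e, orderOf_one] at t2; exact hp.one_lt.ne t2)
      (congrArg Subtype.val (t2 ▸ pow_orderOf_eq_one t : t ^ p = 1) :) (z2 ▸ pow_orderOf_eq_one z)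
    exact v0 (h.cen z1 (fun e => by rw [e, orderOf_one] at z2; exact hp.one_lt.ne z2)
      (hi ▸ zpow_mem t.2 i : z ∈ S3370.stab ρ v))
  obtain ⟨k, hk⟩ := hG.exists_card_eq
  by_cases hd : ∃ n, Nonempty (G ≃* DihedralGroup n)
  · obtain ⟨n, ⟨e⟩⟩ := hd
    have h1 := hk
    rw [Nat.card_congr e.toEquiv, DihedralGroup.nat_card] at h1
    obtain rfl : p = 2 := ((Nat.prime_dvd_prime_iff_eq Nat.prime_two hp).1
      (Nat.prime_two.dvd_of_dvd_pow (h1 ▸ dvd_mul_right 2 n))).symm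
    obtain ⟨k, rfl⟩ : ∃ j, k = j + 3 := ⟨k - 3, by
      by_contra h2
      have h3 : IsMulCommutative G := by
        obtain rfl | rfl | rfl : k = 0 ∨ k = 1 ∨ k = 2 := by omega
        · omega
        · exact (isCyclic_of_prime_card hk).isMulCommutative
        · exact IsPGroup.isMulCommutative_of_card_eq_prime_sq hk
      exact v0 (h.cen (Subgroup.mem_center_iff.2 fun u => h3.is_comm.comm u g) g1 hg)⟩
    obtain rfl : n = 2 ^ (k + 2) := by rw [pow_succ 2 (k + 2)] at h1; omega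
    have h2 : ∀ u ∈ Subgroup.zpowers (e.symm (.r 1)), e.symm (.sr 0) * u * (e.symm (.sr 0))⁻¹ = u⁻¹ := by
      rintro _ ⟨i, rfl⟩
      rw [← conj_zpow, ← inv_zpow, ← map_inv, ← map_mul, ← map_mul, ← map_inv]
      simp
    obtain ⟨h3, m, Y, h4, h5, h6⟩ := h.caseB (x := e.symm (.r 1)) (y := e.symm (.sr 0)) (k := k)
      (by rw [MulEquiv.orderOf_eq, DihedralGroup.orderOf_r_one]) hk (by
        rintro ⟨i, hi⟩
        simp only [← map_zpow, EmbeddingLike.apply_eq_iff_eq, DihedralGroup.r_one_zpow] at hi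
        cases hi) (by rw [← map_mul, DihedralGroup.sr_mul_self, map_one])
      (h2 _ (pow_mem (Subgroup.mem_zpowers _) _))
    rw [show Y = Subgroup.zpowers (e.symm (.r 1)) from Subgroup.ext fun u => (h6 u).trans (and_iff_left_of_imp (h2 u)),
      Nat.card_zpowers, MulEquiv.orderOf_eq, DihedralGroup.orderOf_r_one] at h5
    exact .inr (.inl ⟨h3, m, h4, .inl (h5 ▸ ⟨e⟩)⟩)
  by_cases hs : IsQuasiDihedral G
  · obtain ⟨n, h1, h2, x, y, h3, h4, h5⟩ := id hs
    obtain rfl : p = 2 := ((Nat.prime_dvd_prime_iff_eq Nat.prime_two hp).1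
      (Nat.prime_two.dvd_of_dvd_pow ((hk.symm.trans h2) ▸ dvd_pow_self 2 n.succ_ne_zero))).symm
    obtain ⟨j, rfl⟩ : ∃ j, n = j + 3 := ⟨n - 3, by omega⟩
    have h6 : ∀ i : ℕ, y * x ^ i * y⁻¹ = (x ^ i)⁻¹ ↔ 2 ∣ i := fun i => by
      rw [← conj_pow, h5, ← pow_mul, ← mul_eq_one_iff_eq_inv, ← pow_add, ← orderOf_dvd_iff_pow_eq_one, h3,
        ← Nat.succ_mul, Nat.succ_eq_add_one, Nat.sub_add_cancel Nat.one_le_two_pow,
        show j + 3 - 1 = j + 2 from rfl, pow_succ 2 (j + 2), Nat.mul_dvd_mul_iff_left (by positivity)]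
    have h7 : y ∉ Subgroup.zpowers x := by
      rintro ⟨i, rfl⟩
      rw [(Commute.zpow_left (Commute.refl x) i).eq, mul_inv_cancel_right, ← mul_left_inj x, ← pow_succ,
        Nat.sub_add_cancel Nat.one_le_two_pow, ← sq, pow_eq_pow_iff_modEq, h3] at h5
      have e1 : 2 ^ (j + 3 - 1) < 2 ^ (j + 3) := Nat.pow_lt_pow_right one_lt_two (by omega)
      have e2 : 2 ^ 1 < 2 ^ (j + 3 - 1) := Nat.pow_lt_pow_right one_lt_two (by omega)
      have := Nat.ModEq.eq_of_lt_of_lt h5 (by omega) e1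
      omega
    obtain ⟨e1, m, Y, e2, e3, e4⟩ := h.caseB (x := x) (y := y) (k := j + 1) h3 h2 h7 (by rw [← sq, ← h4, pow_orderOf_eq_one])
      ((h6 _).2 (dvd_pow_self 2 j.succ_ne_zero))
    refine .inr (.inl ⟨e1, m, e2, .inr ⟨hs, ?_⟩⟩)
    have e5 : Y = Subgroup.zpowers (x ^ 2) := le_antisymm (fun u hu => by
      obtain ⟨f1, f2⟩ := (e4 u).1 hu
      obtain ⟨i, rfl⟩ := (mem_powers_iff_mem_zpowers).2 f1
      obtain ⟨l, rfl⟩ := (h6 i).1 f2
      exact ⟨l, by simp [pow_mul]⟩)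
      (Subgroup.zpowers_le.2 ((e4 _).2 ⟨pow_mem (Subgroup.mem_zpowers x) 2, (h6 2).2 dvd_rfl⟩))
    rw [e5, Nat.card_zpowers, orderOf_pow_of_dvd two_ne_zero (h3 ▸ dvd_pow_self 2 (by omega)), h3] at e3
    rw [h2, pow_add 2 m, ← e3, pow_succ 2 (j + 2), Nat.mul_div_cancel _ two_pos]
    ring
  obtain ⟨U, h1, h2, h3⟩ := S3380.exists_U p hG (fun e => hcq (.inl e)) (fun n e => hcq (.inr ⟨n, e⟩))
    (fun n e => hd ⟨n, e⟩) hs
  exact .inr (.inr (h.caseA h1 h2 h3))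

end Cfsg.Agent.S3371
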