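import Mathlib
import Cfsg.Statements.S3389
import Cfsg.Agent.H42.SylIn

set_option autoImplicit false
open Cfsg

namespace Cfsg.Agent.S3389

open MulAction Cfsg.Agent.H42

variable {G : Type*} [Group G] [Finite G] {Ω : Type*} [Fintype Ω] [MulAction G Ω]

omit [Finite G] [Fintype Ω] in
theorem smul_fixed_of_normalizer {P : Subgroup G} {n : G}
    (hn : n ∈ Subgroup.normalizer (P : Set G)) {x : Ω} (hx : P ≤ stabilizer G x) :
    P ≤ stabilizer G (n • x) := by
  intro p hp
  have h1 : n⁻¹ * p * n⁻¹⁻¹ ∈ P := conj_mem_of_mem_normalizer (Subgroup.inv_mem _ hn) hp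
  have h2 : (n⁻¹ * p * n⁻¹⁻¹) • x = x := hx h1
  rw [inv_inv, mul_smul, mul_smul, inv_smul_eq_iff] at h2
  exact h2

omit [Finite G] in
/-- A subgroup acting semiregularly on an invariant set has order dividing its size. -/
theorem card_dvd_of_semiregular (Z : Subgroup G) (s : SubMulAction Z Ω)
    (h : ∀ z ∈ Z, ∀ x ∈ s, z • x = x → z = 1) : Nat.card Z ∣ Nat.card s := by
  have e := selfEquivOrbitsQuotientProd (G := Z) (X := s) (fun x => by
    rw [eq_bot_iff]
    intro z hz
    rw [Subgroup.mem_bot]
    exact Subtype.ext (h z z.2 x x.2 (congrArg Subtype.val hz)))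
  rw [Nat.card_congr e, Nat.card_prod]
  exact Dvd.intro_left _ rfl

theorem part3 (k : ℕ) (hfix : ∀ g : G, g ≠ 1 → Nat.card (fixedBy Ω g) ≤ k) (p : ℕ) (hp : p.Prime)
    (hkp : k < p) (α : Ω) (hd : p ∣ Nat.card (stabilizer G α)) : ¬ p ∣ (stabilizer G α).index := by
  haveI : Fact p.Prime := ⟨hp⟩
  obtain ⟨P, hP, -⟩ := exists_sylIn (p := p) (R := ⊥) (H := stabilizer G α) IsPGroup.of_bot bot_le
  obtain ⟨S, hS, hPS⟩ := exists_sylIn (p := p) hP.isP (le_top (a := P))
  have hPne : P ≠ ⊥ := by
    rintro rfl
    exact hP.ndvd (by rwa [Subgroup.relIndex_bot_left])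
  obtain ⟨g, hg, hg1⟩ := (Subgroup.bot_or_exists_ne_one P).resolve_left hPne
  have hSP : S = P := by
    by_contra hne
    have hlt := lt_inf_normalizer hS.isP (lt_of_le_of_ne hPS (Ne.symm hne))
    set N := S ⊓ Subgroup.normalizer (P : Set G)
    have hN : IsPGroup p N := hS.isP.to_inf_left
    have hle : N ≤ stabilizer G α := by
      obtain ⟨j, hj⟩ := hN.card_orbit α
      have h1 : orbit N α ⊆ fixedBy Ω g := by
        rintro _ ⟨n, rfl⟩
        exact smul_fixed_of_normalizer n.2.2 hP.le hg
      have h2 : Nat.card (orbit N α) ≤ k :=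
        (Nat.card_le_card_of_injective _ (Set.inclusion_injective h1)).trans (hfix g hg1)
      have hj0 : j = 0 := by
        by_contra h0
        have : p ≤ p ^ j := Nat.le_self_pow h0 p
        omega
      rw [hj0, pow_zero] at hj
      intro n hn
      haveI := (Nat.card_eq_one_iff_unique.mp hj).1
      have := Subsingleton.elim (⟨(⟨n, hn⟩ : N) • α, mem_orbit _ _⟩ : orbit N α)
        ⟨α, mem_orbit_self _⟩
      exact congrArg Subtype.val this
    exact hlt.ne (hP.eq_of_le hN hle hlt.le).symm
  intro h
  apply hS.ndvd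
  rw [hSP, Subgroup.relIndex_top_right]
  exact h.trans (Subgroup.index_dvd_of_le hP.le)

/-- Let G be a finite group acting faithfully and transitively on a finite set Ω with fixity k ≥ 1: every non-identity element fixes at most k points and some non-identity element fixes exactly k points. Then |Z(G)| divides k; if k = 2 then |G| is even; and for every prime p > k dividing |G| and every point α, either p does not divide |G_α| or G_α contains a Sylow p-subgroup of G. -/
theorem result {G : Type*} [Group G] [Finite G] {Ω : Type*} [Fintype Ω] [MulAction G Ω] [FaithfulSMul G Ω]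
    (htr : MulAction.IsPretransitive G Ω) (k : ℕ) (hk : 1 ≤ k)
    (hfix : ∀ g : G, g ≠ 1 → Nat.card (MulAction.fixedBy Ω g) ≤ k) (hex : ∃ g : G, g ≠ 1 ∧ Nat.card (MulAction.fixedBy Ω g) = k) :
    Nat.card (Subgroup.center G) ∣ k ∧ (k = 2 → 2 ∣ Nat.card G) ∧
      ∀ (p : ℕ), p.Prime → k < p → p ∣ Nat.card G → ∀ α : Ω,
        ¬ p ∣ Nat.card (MulAction.stabilizer G α) ∨ ¬ p ∣ (MulAction.stabilizer G α).index := by
  obtain ⟨g, hg1, hg⟩ := hex
  refine ⟨?_, ?_, fun p hp hkp _ α => ?_⟩
  · let s : SubMulAction (Subgroup.center G) Ω :=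
      { carrier := fixedBy Ω g
        smul_mem' := by
          intro z x hx
          show g • (z : G) • x = (z : G) • x
          rw [← mul_smul, Subgroup.mem_center_iff.mp z.2 g, mul_smul, mem_fixedBy.mp hx] }
    rw [← hg]
    refine card_dvd_of_semiregular _ s fun z hz x _ hx => ?_
    apply FaithfulSMul.eq_of_smul_eq_smul (α := Ω)
    intro y
    obtain ⟨h, rfl⟩ := exists_smul_eq G x y
    rw [one_smul, ← mul_smul, ← Subgroup.mem_center_iff.mp hz h, mul_smul, hx]
  · rintro rfl
    by_contra hodd
    obtain ⟨α, β, hne, hab⟩ := Set.ncard_eq_two.mp ((Nat.card_coe_set_eq _).symm.trans hg)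
    have hα : g • α = α := by rw [← mem_fixedBy, hab]; simp
    have hβ : g • β = β := by rw [← mem_fixedBy, hab]; simp
    obtain ⟨p, hp, hpd⟩ := Nat.exists_prime_and_dvd (n := orderOf g) (by simpa using hg1)
    haveI : Fact p.Prime := ⟨hp⟩
    have hp2 : 2 < p := by
      rcases hp.eq_two_or_odd' with rfl | h
      · exact absurd (hpd.trans (orderOf_dvd_natCard g)) hodd
      · have := hp.two_le
        obtain ⟨j, rfl⟩ := h
        omega
    obtain ⟨P, hP, -⟩ := exists_sylIn (p := p) (R := ⊥) (H := stabilizer G α ⊓ stabilizer G β)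
      IsPGroup.of_bot bot_le
    have hPne : P ≠ ⊥ := by
      rintro rfl
      apply hP.ndvd
      rw [Subgroup.relIndex_bot_left]
      exact hpd.trans (Subgroup.orderOf_dvd_natCard _ (show g ∈ _ from ⟨hα, hβ⟩))
    obtain ⟨x, hx, hx1⟩ := (Subgroup.bot_or_exists_ne_one P).resolve_left hPne
    have hfx : fixedBy Ω x = {α, β} := by
      symm
      apply Set.eq_of_subset_of_ncard_le
      · rintro y (rfl | rfl)
        · exact (hP.le hx).1
        · exact (hP.le hx).2
      · rw [Set.ncard_pair hne, ← Nat.card_coe_set_eq]; exact hfix x hx1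
      · exact Set.toFinite _
    have hNfix : ∀ n ∈ Subgroup.normalizer (P : Set G), n • α = α ∧ n • β = β := by
      intro n hn
      have h1 : n • α ∈ fixedBy Ω x := smul_fixed_of_normalizer hn (hP.le.trans inf_le_left) hx
      have h2 : n • β ∈ fixedBy Ω x := smul_fixed_of_normalizer hn (hP.le.trans inf_le_right) hx
      rw [hfx] at h1 h2
      have key : n • α = α := by
        rcases h1 with h1 | h1
        · exact h1
        · rcases h2 with h2 | h2
          · have h3 : n ^ 2 ∈ stabilizer G α := by
              rw [mem_stabilizer_iff, sq, mul_smul, h1, h2]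
            have hco : Nat.Coprime 2 (orderOf n) :=
              (Nat.Prime.coprime_iff_not_dvd Nat.prime_two).mpr
                fun h => hodd (h.trans (orderOf_dvd_natCard n))
            obtain ⟨m, hm⟩ := exists_pow_eq_self_of_coprime hco
            rw [← mem_stabilizer_iff, ← hm]
            exact Subgroup.pow_mem _ h3 m
          · exact absurd (smul_left_cancel n (h1.trans h2.symm)) hne
      refine ⟨key, ?_⟩
      rcases h2 with h2 | h2
      · exact absurd (smul_left_cancel n (key.trans h2.symm)) hne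
      · exact h2
    obtain ⟨S, hS, hPS⟩ := exists_sylIn (p := p) hP.isP (le_top (a := P))
    have hSP : S = P := by
      by_contra hne'
      have hlt := lt_inf_normalizer hS.isP (lt_of_le_of_ne hPS (Ne.symm hne'))
      exact hlt.ne (hP.eq_of_le hS.isP.to_inf_left (fun n hn => hNfix n hn.2) hlt.le).symm
    rw [hSP] at hS
    obtain ⟨h, hh⟩ := exists_smul_eq G α β
    have h1 : cj h P ≤ stabilizer G β := by
      rw [cj_le_iff]
      intro y hy
      have : y • α = α := (hP.le hy).1
      rw [mem_stabilizer_iff, ← hh, mul_smul, mul_smul, inv_smul_smul, this]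
    obtain ⟨u, hu, hu'⟩ := (hS.of_le (hP.le.trans inf_le_right) le_top).exists_conj
      (isPGroup_cj h hP.isP) h1
    have h2 : u * h ∈ Subgroup.normalizer (P : Set G) := by
      refine mem_normalizer_of_conj_mem fun y hy => ?_
      have := hu' _ (conj_mem_cj (g := h) hy)
      simpa [mul_assoc] using this
    have h3 := (hNfix _ h2).1
    rw [mul_smul, hh, mem_stabilizer_iff.mp hu] at h3
    exact hne h3.symm
  · by_cases hd : p ∣ Nat.card (stabilizer G α)
    · exact Or.inr (part3 k hfix p hp hkp α hd)
    · exact Or.inl hd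

end Cfsg.Agent.S3389
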