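import Cfsg.Statements.S3391
import Cfsg.Agent.H13.SzTorus2

set_option autoImplicit false
open Cfsg

namespace Cfsg.Agent.S3391

open Cfsg.Agent.H13
set_option linter.style.haveILetI false

theorem sq_fix {G Ω : Type*} [Group G] [MulAction G Ω] [Finite Ω] {S : Set Ω} (hS : Nat.card S ≤ 2)
    {a : Ω} {g : G} (h0 : a ∈ S) (h1 : g • a ∈ S) (h2 : g ^ 2 • a ∈ S) : g ^ 2 • a = a := by
  classical
  by_contra hne
  have e : g ^ 2 • a = g • g • a := by rw [sq, mul_smul]
  have n1 : g • a ≠ a := fun h => hne (by rw [e, h, h])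
  have n2 : g ^ 2 • a ≠ g • a := fun h => n1 (MulAction.injective g (e.symm.trans h))
  have hsub : ({a, g • a, g ^ 2 • a} : Set Ω) ⊆ S := by
    intro x hx; rcases hx with rfl | rfl | rfl <;> assumption
  have := Set.ncard_le_ncard hsub
  rw [Set.ncard_insert_of_notMem (by simp [n1.symm, Ne.symm hne]), Set.ncard_pair n2.symm] at this
  rw [Nat.card_coe_set_eq] at hS
  omega

/-- Let q = 2^{2m+1} ≥ 8 and let G be isomorphic to the Suzuki group Sz(q). If G acts faithfully and transitively on a finite set Ω with fixity 2 (every non-identity element fixes at most two points, and some fixes exactly two), then either |Ω| = q² + 1 and the action is 2-transitive, or |Ω| = q²(q² + 1) and the point stabilizers have order q − 1. -/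
theorem result {G : Type*} [Group G] [Finite G] (F : Type) [Field F] [Fintype F] (m : ℕ) (hm : 1 ≤ m) (hF : Fintype.card F = 2 ^ (2 * m + 1))
    (e : G ≃* ↥(Cfsg.Lie.Sz F (2 ^ (m + 1)))) {Ω : Type*} [Fintype Ω] [MulAction G Ω] [FaithfulSMul G Ω] (htr : MulAction.IsPretransitive G Ω)
    (hfix : ∀ g : G, g ≠ 1 → Nat.card (MulAction.fixedBy Ω g) ≤ 2) (hex : ∃ g : G, g ≠ 1 ∧ Nat.card (MulAction.fixedBy Ω g) = 2) :
    (Fintype.card Ω = Fintype.card F ^ 2 + 1 ∧ MulAction.IsMultiplyPretransitive G Ω 2) ∨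
    (Fintype.card Ω = Fintype.card F ^ 2 * (Fintype.card F ^ 2 + 1) ∧ ∀ α : Ω, Nat.card (MulAction.stabilizer G α) = Fintype.card F - 1) := by
  letI := titsOfCard hF
  have Q := par_of_card hm hF
  set M0 := (lieModel (titsOfCard_θ hF)).ofEquiv e
  haveI : Fact (Nat.Prime 2) := ⟨Nat.prime_two⟩
  have hq : Nat.card F = Fintype.card F := Nat.card_eq_fintype_card
  obtain ⟨g0, hg0, hc0⟩ := hex
  obtain ⟨⟨α, hα⟩⟩ : Nonempty (MulAction.fixedBy Ω g0) :=
    (Nat.card_pos_iff.1 (by rw [hc0]; norm_num)).1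
  set K := MulAction.stabilizer G α with hK
  have hg0K : g0 ∈ K := hα
  -- a subgroup normalising a nontrivial subgroup of `K` has its squares in `K`
  have key : ∀ (L : Subgroup G) (x : G), x ∈ L → x ≠ 1 → L ≤ K →
      ∀ g, (∀ y ∈ L, g⁻¹ * y * g ∈ L) → g ^ 2 ∈ K := by
    intro L x hx h1 hL g hg
    refine sq_fix (hfix x h1) (hL hx) ?_ ?_
    · have : (g⁻¹ * x * g) • α = α := hL (hg x hx)
      rwa [mul_smul, mul_smul, inv_smul_eq_iff] at this
    · have : (g⁻¹ * (g⁻¹ * x * g) * g) • α = α := hL (hg _ (hg x hx))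
      rwa [show g⁻¹ * (g⁻¹ * x * g) * g = (g ^ 2)⁻¹ * x * g ^ 2 by simp [sq, mul_assoc], mul_smul,
        mul_smul, inv_smul_eq_iff] at this
  have hidx : K.index = Fintype.card Ω := by
    rw [hK, MulAction.index_stabilizer_of_transitive, Nat.card_eq_fintype_card]
  by_cases hev : 2 ∣ Nat.card K
  · left
    obtain ⟨⟨t, ht⟩, hto⟩ := exists_prime_orderOf_dvd_card' 2 hev
    rw [Subgroup.orderOf_mk] at hto
    have ht1 : t ≠ 1 := by rintro rfl; simp at hto
    obtain ⟨k, hk⟩ := M0.exists_conj_u01 ht1 (hto ▸ pow_orderOf_eq_one t)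
    rw [← M0.conj_u] at hk
    generalize M0.conj k = M at hk
    have hZ : M.Z ≤ K := by
      rintro _ ⟨b, rfl⟩
      obtain ⟨a, rfl⟩ := mul_θ_surj b
      have := key (Subgroup.zpowers t) t (Subgroup.mem_zpowers t) ht1 (Subgroup.zpowers_le.2 ht)
        (M.u a 0) (by
          rintro _ ⟨i, rfl⟩
          have : Commute (M.u a 0) t := by rw [hk]; exact (M.u_zero_comm _ _ _).symm
          simp only
          rw [mul_assoc, ← (this.zpow_right i).eq, inv_mul_cancel_left]
          exact ⟨i, rfl⟩)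
      rwa [M.u_sq, mul_comm] at this
    have hsq : ∀ g ∈ M.B, g ^ 2 ∈ K := fun g hg =>
      key M.Z (M.u 0 1) (M.u_mem_Z 1) (by simp [M.u_eq_one]) hZ g (fun y hy => by
        simpa using M.conj_mem_Z (M.B.inv_mem hg) hy)
    have hodd : ∀ s, Odd (orderOf (M.h s)) := fun s =>
      M.odd_card_H.of_dvd_nat (M.H.orderOf_dvd_natCard (M.h_mem_H s))
    have hH : ∀ s, M.h s ∈ K := fun s => mem_of_odd_sq (hodd s) (hsq _ (M.h_mem_B s))
    have hB : M.B ≤ K := by
      obtain ⟨s0, hs0⟩ := exists_unit_ne_one Q.hy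
      have h1 : ∀ a b, M.u a b * M.h s0 ∈ K := by
        intro a b
        refine mem_of_odd_sq ?_ (hsq _ (M.mem_B'.2 ⟨_, _, _, rfl⟩))
        obtain ⟨x, y, e⟩ := M.conj_h_of_mem_B a b hs0
        have := orderOf_injective (MulAut.conj (M.u x y)).toMonoidHom (MulAut.conj _).injective
          (M.h s0)
        rw [e]
        exact this ▸ hodd s0
      intro g hg
      obtain ⟨a, b, s, rfl⟩ := M.mem_B'.1 hg
      exact K.mul_mem (by simpa using K.mul_mem (h1 a b) (K.inv_mem (hH s0))) (hH s)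
    have hKB : K = M.B := by
      refine ((M.isCoatom_B Q.hy).le_iff.1 hB).resolve_left fun htop => ?_
      have hall : ∀ g : G, g • α = α := fun g => (htop ▸ Subgroup.mem_top g : g ∈ K)
      apply hg0
      apply FaithfulSMul.eq_of_smul_eq_smul (α := Ω)
      intro x
      obtain ⟨g, rfl⟩ := MulAction.exists_smul_eq G α x
      rw [hall, hall, hall]
    refine ⟨by rw [← hidx, hKB, M.index_B, hq], ?_⟩
    rw [MulAction.is_two_pretransitive_iff]
    intro a b c d hab hcd
    obtain ⟨a, rfl⟩ := MulAction.exists_smul_eq G α a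
    obtain ⟨b, rfl⟩ := MulAction.exists_smul_eq G α b
    obtain ⟨c, rfl⟩ := MulAction.exists_smul_eq G α c
    obtain ⟨d, rfl⟩ := MulAction.exists_smul_eq G α d
    have tr : ∀ x y : G, x • α = y • α ↔ x • M.inf = y • M.inf := by
      intro x y
      rw [← inv_smul_eq_iff, ← mul_smul, ← MulAction.mem_stabilizer_iff, ← hK, hKB, M.mem_B,
        mul_smul, inv_smul_eq_iff]
    obtain ⟨g, h1, h2⟩ := M.two_trans (mt (tr _ _).2 hab) (mt (tr _ _).2 hcd)
    exact ⟨g, by rw [← mul_smul, tr, mul_smul, h1], by rw [← mul_smul, tr, mul_smul, h2]⟩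
  · right
    have hoddK : ∀ g ∈ K, Odd (orderOf g) := fun g hg =>
      (Nat.odd_iff.2 (by omega) : Odd (Nat.card K)).of_dvd_nat (K.orderOf_dvd_natCard hg)
    have hcc : ∀ A : Subgroup G, IsCC A → Odd (Nat.card A) → ∀ g ∈ K, g ≠ 1 → g ∈ A → A ≤ K := by
      intro A hA ho g hg h1 hgA a ha
      refine mem_of_odd_sq (ho.of_dvd_nat (A.orderOf_dvd_natCard ha))
        (key (Subgroup.zpowers g) g (Subgroup.mem_zpowers g) h1 (Subgroup.zpowers_le.2 hg) a ?_)
      rintro _ ⟨i, rfl⟩
      have : Commute a g := hA.comm hgA ha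
      simp only
      rw [mul_assoc, ← (this.zpow_right i).eq, inv_mul_cancel_left]
      exact ⟨i, rfl⟩
    have htor : ∀ n, (n = np m ∨ n = nm m) → Nat.Coprime (Nat.card K) n := by
      intro n hn
      have hno : Odd n := by rcases hn with rfl | rfl; exacts [odd_np m, odd_nm m]
      apply Nat.Coprime.symm
      rw [Nat.coprime_iff_gcd_eq_one, Nat.eq_one_iff_not_exists_prime_dvd]
      intro p hp hd
      haveI : Fact p.Prime := ⟨hp⟩
      obtain ⟨⟨g, hg⟩, hgo⟩ := exists_prime_orderOf_dvd_card' p (hd.trans (Nat.gcd_dvd_right _ _))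
      rw [Subgroup.orderOf_mk] at hgo
      have hg1 : g ≠ 1 := by rintro rfl; exact hp.one_lt.ne (by simpa using hgo)
      obtain ⟨A, b, c, T⟩ := M0.exists_torus Q hn
      obtain ⟨k, hk⟩ := M0.exists_conj_mem_cc Q T.isCC (Or.inr (T.card ▸ hn)) hp
        (T.card ▸ hd.trans (Nat.gcd_dvd_left _ _)) (hgo ▸ dvd_rfl : p ∣ orderOf g)
      have T' := T.conj_by k⁻¹
      have hgA : g ∈ A.map (MulAut.conj k⁻¹).toMonoidHom := by
        rw [mem_map_conj]; simpa using hk
      generalize A.map (MulAut.conj k⁻¹).toMonoidHom = A' at T' hgA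
      generalize k⁻¹ * (M0.w * M0.u 0 b) * k⁻¹⁻¹ = x at T'
      generalize k⁻¹ * c * k⁻¹⁻¹ = c' at T'
      have hle := hcc A' T'.isCC (T'.card ▸ hno) g hg hg1 hgA
      have h2 := key A' g hgA hg1 hle c' (fun y hy => by
        simpa using (Subgroup.mem_normalizer_iff.1 (Subgroup.inv_mem _ T'.c_mem) y).1 hy)
      exact T'.c_pow_not_mem (i := 2) (by norm_num) (by norm_num)
        (T'.mem_of_odd hn (Subgroup.pow_mem _ T'.c_mem 2) (hoddK _ h2))
    have hdvd : Nat.card K ∣ 2 ^ (2 * m + 1) - 1 := by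
      have h1 := K.card_subgroup_dvd_card
      rw [M0.card_G' Q] at h1
      have h2 := (htor _ (Or.inl rfl)).dvd_of_dvd_mul_right
        ((htor _ (Or.inr rfl)).dvd_of_dvd_mul_right h1)
      refine Nat.Coprime.dvd_of_dvd_mul_left ?_ h2
      exact ((Nat.coprime_two_right.2 (Nat.odd_iff.2 (by omega))).pow_right _).pow_right _
    have hcard : Nat.card K = 2 ^ (2 * m + 1) - 1 := by
      refine Nat.dvd_antisymm hdvd ?_
      have hK1 : Nat.card K ≠ 1 := by
        rw [Ne, Subgroup.card_eq_one]; intro h; rw [h] at hg0K; exact hg0 hg0K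
      obtain ⟨p, hp, hd⟩ := Nat.exists_prime_and_dvd (mt orderOf_eq_one_iff.1 hg0)
      have hH : Nat.card M0.H = 2 ^ (2 * m + 1) - 1 := by rw [M0.card_H, Q.card]
      obtain ⟨k, hk⟩ := M0.exists_conj_mem_cc Q M0.isCC_H (Or.inl hH) hp
        (hH ▸ (hd.trans (K.orderOf_dvd_natCard hg0K)).trans hdvd) hd
      have := hcc _ (M0.isCC_H.conj k⁻¹) (by rw [card_map_conj]; exact M0.odd_card_H) g0 hg0K hg0
        (by rw [mem_map_conj]; simpa using hk)
      rw [← hH, ← card_map_conj M0.H k⁻¹]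
      exact Subgroup.card_dvd_of_le this
    constructor
    · have h1 := K.index_mul_card
      rw [hidx, hcard, M0.card_G, Q.card] at h1
      have := Q.eight_le
      rw [Q.card] at this
      rw [hF]
      exact Nat.eq_of_mul_eq_mul_right (by omega) h1
    · intro β
      obtain ⟨g, rfl⟩ := MulAction.exists_smul_eq G α β
      rw [MulAction.stabilizer_smul_eq_stabilizer_map_conj, card_map_conj, hcard, hF]

end Cfsg.Agent.S3391
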