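import Cfsg.Statements.S3399
import Cfsg.Agent.PNF.Step

set_option autoImplicit false
open Cfsg

namespace Cfsg.Agent.S3399

open Classical Finset Cfsg.Agent.FPS Cfsg.Agent.PNF in
/-- Let G be a transitive permutation group of finite degree n and K a nontrivial subgroup of G that is pronormal in G (K and gKg⁻¹ are conjugate inside ⟨K, gKg⁻¹⟩ for every g ∈ G). If K fixes exactly f points, then f ≤ (n − 1)/2, that is, 2f + 1 ≤ n. -/
theorem result (n : ℕ) (G : Subgroup (Equiv.Perm (Fin n)))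
    (htrans : ∀ a b : Fin n, ∃ g ∈ G, g a = b)
    (K : Subgroup (Equiv.Perm (Fin n))) (hKG : K ≤ G) (hK : K ≠ ⊥)
    (hpro : ∀ g ∈ G, ∃ w ∈ K ⊔ K.map (MulAut.conj g).toMonoidHom,
      K.map (MulAut.conj w).toMonoidHom = K.map (MulAut.conj g).toMonoidHom) :
    2 * Nat.card {a : Fin n // ∀ k ∈ K, k a = a} + 1 ≤ n := by
  have hs : ∀ g : Equiv.Perm (Fin n), K.map (MulAut.conj g).toMonoidHom = g • K := by
    intro g
    ext x
    rw [mem_sm, Subgroup.mem_map]
    constructor
    · rintro ⟨y, hy, rfl⟩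
      simpa [mul_assoc] using hy
    · intro h
      exact ⟨_, h, by simp [mul_assoc]⟩
  have hP : PN G K := ⟨hKG, fun g hg => by simpa only [hs] using hpro g hg⟩
  obtain ⟨k, hk, hk1⟩ : ∃ k ∈ K, k ≠ 1 := by
    by_contra hc
    push Not at hc
    exact hK (eq_bot_iff.2 fun k hk => Subgroup.mem_bot.2 (hc k hk))
  obtain ⟨x, hx⟩ : ∃ x, k x ≠ x := by
    by_contra hc
    push Not at hc
    exact hk1 (Equiv.ext hc)
  have ho : orb G x = univ := eq_univ_of_forall fun y => mem_orb.2 (htrans x y)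
  have h1 := (st1 _ _ (Fin n) G K x hP rfl ⟨x, self_mem x, fun h => hx (h k hk)⟩).1
  have h2 : Nat.card {a : Fin n // ∀ k ∈ K, k a = a} = fx K (univ : Finset (Fin n)) := by
    unfold fx
    rw [← Nat.card_eq_finsetCard]
    exact Nat.card_congr (Equiv.subtypeEquivRight fun a => by simp [Fx])
  rw [ho, dd, card_univ, Fintype.card_fin] at h1
  omega

end Cfsg.Agent.S3399
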