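import Cfsg.Statements.S3410
import Cfsg.Agent.H26.OnAbel
import Cfsg.Agent.H44.Components

set_option autoImplicit false
open Cfsg

namespace Cfsg.Agent.S3410

/-- Let a finite group G act faithfully and 2-transitively on a finite set X, and let N be an abelian normal subgroup of the stabilizer of a point x which is not semiregular on the remaining points (some non-identity element of N fixes a second point). Then the generalized Fitting subgroup of G is isomorphic to PSL_n(F) for some n ≥ 3 and some finite field F. -/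
theorem result {G X : Type*} [Group G] [Finite G] [Fintype X]
    [MulAction G X] [FaithfulSMul G X] (h2 : MulAction.IsMultiplyPretransitive G X 2) (x : X)
    (N : Subgroup G) (hNle : N ≤ MulAction.stabilizer G x)
    (hNnormal : ∀ g ∈ MulAction.stabilizer G x, ∀ n ∈ N, g * n * g⁻¹ ∈ N) (hNab : IsMulCommutative N)
    (hnsr : ∃ n ∈ N, n ≠ 1 ∧ ∃ y : X, y ≠ x ∧ n • y = y) :
    ∃ (F : Type) (_ : Field F) (_ : Fintype F) (n : ℕ), 3 ≤ n ∧
      Nonempty (↥(Cfsg.generalizedFittingSubgroup G) ≃* Matrix.ProjectiveSpecialLinearGroup (Fin n) F) := by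
  obtain ⟨L, F, _, _, n, h3, hL, hc, ⟨e⟩, -⟩ := H26.psl_of_abelian (G := G) (X := X)
    (fun h1 h3 => MulAction.is_two_pretransitive_iff.1 h2 h1 h3)
    (fun g hg => FaithfulSMul.eq_of_smul_eq_smul (α := X) fun x => by rw [hg, one_smul])
    (x := x) (M := N) hNle hNnormal (fun a ha b hb =>
      congrArg Subtype.val (hNab.is_comm.comm (⟨a, ha⟩ : N) ⟨b, hb⟩)) hnsr
  have hs := H9.psl_isSimpleGroup (ι := Fin n) (F := F) (by simpa using h3)
  have hs' : IsSimpleGroup L := e.isSimpleGroup
  have h1 : H44.Comp ⊤ L := by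
    refine ⟨H44.SN.of_normal le_top, H44.qs_iff.2 (H44.isQuasisimple_iff.2 ⟨?_, inferInstance,
      fun M hM => (hM.eq_bot_or_eq_top.imp_left fun h => h.le.trans bot_le).symm⟩)⟩
    refine (Subgroup.Normal.eq_bot_or_eq_top inferInstance).resolve_left fun h => ?_
    obtain ⟨a, ha⟩ := exists_ne (1 : L)
    refine ha (Subtype.ext (Subgroup.mem_bot.1 (hc.le fun b hb => ?_)))
    have : (a : L) ∈ Subgroup.centralizer ((⊤ : Subgroup L) : Set L) :=
      Subgroup.commutator_eq_bot_iff_le_centralizer.1 h (Subgroup.mem_top _)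
    exact congrArg Subtype.val (this ⟨b, hb⟩ (Subgroup.mem_top _))
  have h4 : generalizedFittingSubgroup G = L := by
    rw [← H44.FSof_top, H44.FSof_eq]
    refine le_antisymm (sup_le (H44.Eof_le_iff.mpr fun K hK => ?_) ?_) (h1.le_Eof.trans le_sup_left)
    · rcases hK.eq_or_commutator_eq_bot h1 with h | h
      · exact h.le
      · exact (Subgroup.commutator_eq_bot_iff_le_centralizer.mp h).trans (hc.le.trans bot_le)
    · exact (Subgroup.commutator_eq_bot_iff_le_centralizer.mp
        ((Subgroup.commutator_comm _ _).trans h1.commutator_Fof)).trans (hc.le.trans bot_le)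
  exact ⟨F, inferInstance, inferInstance, n, h3, ⟨(MulEquiv.subgroupCongr h4).trans e⟩⟩

end Cfsg.Agent.S3410
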