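import Cfsg.Statements.S3413
import Cfsg.Agent.H76.CommGraph
import Cfsg.Agent.H14.MClasses
import Cfsg.Agent.H14.MathieuIso
import Cfsg.Agent.S0420

set_option autoImplicit false
open Cfsg

namespace Cfsg.Agent.S3413

open Cfsg.Agent.H49 Cfsg.Agent.H76 Subgroup

theorem exists_cent : ∃ g : Cfsg.Spor.M11, Nat.card 𝒞[g] = 11 := by
  have hm : H14.m11_11A ∈ H14.m11Cl := by simp [H14.m11Cl]
  have h1 := H14.m11_classes.card _ hm
  refine ⟨⟨_, H14.m11_classes.mem hm⟩, ?_⟩
  rw [show H14.m11_11A.c = 11 from rfl, inf_comm, ← card_subgroupOf] at h1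
  rw [← h1]
  congr 2
  ext y
  rw [mem_subgroupOf, mem_cent1, mem_cent1, Subtype.ext_iff]
  rfl


/-- Let H be a finite group whose commuting graph (vertices the non-identity elements, two joined when they commute) is isomorphic to that of the Mathieu group M_11: there is a bijection between the non-identity elements of H and of M_11 under which two elements commute exactly when their images do. Then H ≅ M_11. -/
theorem result {H : Type*} [Group H] [Finite H]
    (f : {h : H // h ≠ 1} ≃ {g : ↥Cfsg.Spor.M11 // g ≠ 1})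
    (hf : ∀ x y : {h : H // h ≠ 1}, (x : H) * y = y * x ↔ ((f x) : ↥Cfsg.Spor.M11) * (f y) = (f y) * (f x)) :
    Nonempty (H ≃* ↥Cfsg.Spor.M11) := by
  set e := extOne f
  have he := extOne_comm f hf
  have hc : Nat.card H = 7920 := (Nat.card_congr e).trans H14.card_M11
  obtain ⟨g, hg⟩ := exists_cent
  have hx : Nat.card 𝒞[e.symm g] = 11 := by
    rw [card_cent_of_comm e he, e.apply_symm_apply, hg]
  have hs : IsSimpleGroup H := simple_of_selfcent (p := 11) (e := 5) (r := 144) (by norm_num)
    (by norm_num) (by rw [hc]) (by norm_num) (by norm_num) (by norm_num)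
    (fun d hd => (by decide +kernel : ∀ d < 145, d ∣ 144 → 11 ∣ d - 1 → d = 1 ∨ 6 ∣ d) d
      (Nat.lt_succ_of_le (Nat.le_of_dvd (by norm_num) hd)) hd)
    hx (cent_le_cent1 (self_mem_cent1 _))
  obtain ⟨a⟩ := Cfsg.Agent.S0420.result ⟨hs, hc⟩ _ H14.squareDodecad_mem _ H14.zero_mem_squareDodecad
  obtain ⟨b⟩ := H14.isoM11 H14.squareDodecad_mem H14.zero_mem_squareDodecad
  exact ⟨a.trans b⟩

end Cfsg.Agent.S3413
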