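import Cfsg.Statements.S3493
import Cfsg.Agent.H77.ExtPrim
import Cfsg.Agent.H77.Kappa
import Cfsg.Agent.H77.PrimeMax
import Cfsg.Agent.H77.CentCount

set_option autoImplicit false
open Cfsg

namespace Cfsg.Agent.S3493

open Cfsg.Agent.H77 MulAction
open scoped Pointwise

variable {G Ω : Type*} [Group G] [MulAction G Ω]

/-- The holomorph and simple diagonal configurations are not extremely primitive. -/
theorem diag_false [Finite G] [Finite Ω] [FaithfulSMul G Ω] (hprim : IsPreprimitive G Ω) {α : Ω}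
    (hH : stabilizer G α ≠ ⊥)
    (hep : ∀ ω : Ω, IsPreprimitive (stabilizer G α) (orbit (stabilizer G α) ω)) {T : Subgroup G}
    [IsSimpleGroup T] (hc : ¬ IsMulCommutative T) (htr : ∀ ω : Ω, ∃ t ∈ T, t • α = ω)
    (hreg : ∀ t ∈ T, t • α = α → t = 1)
    (hconj : ∀ h : G, (∀ t ∈ T, h * t * h⁻¹ ∈ T) ∨
      ∀ t ∈ T, ∀ s ∈ T, (h * t * h⁻¹) * s = s * (h * t * h⁻¹))
    (hinn : ∀ t ∈ T, ∃ d : G, d • α = α ∧ ∀ s ∈ T, d * s * d⁻¹ = t * s * t⁻¹) : False := by
  have hinj : ∀ s ∈ T, ∀ t ∈ T, s • α = t • α → s = t := fun s hs t ht h =>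
    (inv_mul_eq_one.mp (hreg _ (T.mul_mem (T.inv_mem ht) hs)
      (by rw [mul_smul, h, inv_smul_smul]))).symm
  have hsm : ∀ h s : G, h • α = α → h • s • α = (h * s * h⁻¹) • α := fun h s hh => by
    rw [mul_smul, mul_smul, show h⁻¹ • α = α by rw [inv_smul_eq_iff, hh]]
  refine cent_count_false (T := T) (fun x i hi => ?_) hc (fun x hx => ?_)
  · refine le_antisymm (fun t ht => ?_) fun t ht => mem_cent_iff.mpr
      ((Commute.pow_left (mem_cent_iff.mp ht) i))
    have hxi : ((x : G) ^ i) • α ≠ α := fun h => hi (Subtype.ext (hreg _ (T.pow_mem x.2 i) h))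
    rcases max_two_point (hep ((x : G) • α)) (X := stabilizer G (((x : G) ^ i) • α)) (by
      intro h hh hx
      rw [mem_stabilizer_iff, hsm h _ hh, ← conj_pow]
      rw [hsm h _ hh] at hx
      rcases hconj h with h1 | h1
      · rw [hinj _ (h1 x x.2) x x.2 hx]
      · generalize i = j
        induction j with
        | zero => simp
        | succ j ih =>
          rw [pow_succ', mul_smul, ih, ← mul_smul, h1 x x.2 _ (T.pow_mem x.2 j), mul_smul, hx,
            ← mul_smul, ← pow_succ]) with h | h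
    · obtain ⟨d, hd, hdt⟩ := hinn t t.2
      have h1 : (t : G) * x ^ i * (t : G)⁻¹ = x ^ i := by
        have := congrArg Subtype.val (mem_cent_iff.mp ht)
        simp only [Subgroup.coe_mul, SubgroupClass.coe_pow] at this
        rw [← this]; group
      have h2 := h d (by rw [mem_stabilizer_iff, hsm d _ hd, hdt _ (T.pow_mem x.2 i), h1]) hd
      rw [hsm d _ hd, hdt _ x.2] at h2
      have h3 := hinj _ (T.mul_mem (T.mul_mem t.2 x.2) (T.inv_mem t.2)) x x.2 h2
      refine mem_cent_iff.mpr (Subtype.ext ?_)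
      simp only [Subgroup.coe_mul]
      conv_lhs => rw [← h3]
      group
    · exact absurd h (not_stabilizer_le hprim hH hxi)
  · let S : Set Ω := {ω | ∃ c ∈ T, (x : G) * c = c * x ∧ c • α = ω}
    have hS : ∀ h : G, (∀ c ∈ T, (x : G) * c = c * x → h • c • α ∈ S) → h ∈ stabilizer G S := by
      intro h hh
      rw [mem_stabilizer_set_iff_smul_set_subset (Set.toFinite _)]
      rintro _ ⟨_, ⟨c, hc, hxc, rfl⟩, rfl⟩
      exact hh c hc hxc
    rcases max_two_point (hep ((x : G) • α)) (X := stabilizer G S) (by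
      intro h hh hx
      apply hS
      intro c hc hxc
      rw [hsm h _ hh] at hx ⊢
      have h2 : (h * x * h⁻¹) * (h * c * h⁻¹) = (h * c * h⁻¹) * (h * x * h⁻¹) := by
        calc (h * x * h⁻¹) * (h * c * h⁻¹) = h * (x * c) * h⁻¹ := by group
          _ = (h * c * h⁻¹) * (h * x * h⁻¹) := by rw [hxc]; group
      rcases hconj h with h1 | h1
      · rw [hinj _ (h1 x x.2) x x.2 hx] at h2
        exact ⟨_, h1 c hc, h2, rfl⟩
      · obtain ⟨u, hu, huc⟩ := htr ((h * c * h⁻¹) • α)
        refine ⟨u, hu, hinj _ (T.mul_mem x.2 hu) _ (T.mul_mem hu x.2) ?_, huc⟩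
        rw [mul_smul, huc, ← mul_smul, ← h1 c hc x x.2, mul_smul, ← hx, ← mul_smul, ← h2, mul_smul,
          ← huc, ← mul_smul, h1 x x.2 u hu, mul_smul, hx, mul_smul]) with h | h
    · intro t ht
      obtain ⟨d, hd, hdt⟩ := hinn t t.2
      have h2 := h d (hS d fun c hc hxc => by
        rw [hsm d _ hd, hdt c hc]
        have h3 := (Subgroup.mem_normalizer_iff.mp ht ⟨c, hc⟩).mp
          (mem_cent_iff.mpr (Subtype.ext hxc))
        exact ⟨_, T.mul_mem (T.mul_mem t.2 hc) (T.inv_mem t.2),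
          congrArg Subtype.val (mem_cent_iff.mp h3), rfl⟩) hd
      rw [hsm d _ hd, hdt _ x.2] at h2
      have h3 := hinj _ (T.mul_mem (T.mul_mem t.2 x.2) (T.inv_mem t.2)) x x.2 h2
      refine mem_cent_iff.mpr (Subtype.ext ?_)
      simp only [Subgroup.coe_mul]
      conv_lhs => rw [← h3]
      group
    · exfalso
      have hn : (Subgroup.centralizer ({x} : Set T)).Normal := by
        refine ⟨fun c hc t => ?_⟩
        obtain ⟨d, hd, hdt⟩ := hinn t t.2
        have h1 : d • (c : G) • α ∈ d • S := Set.smul_mem_smul_set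
          ⟨c, c.2, congrArg Subtype.val (mem_cent_iff.mp hc), rfl⟩
        rw [show d • S = S from h hd, hsm d _ hd, hdt _ c.2] at h1
        obtain ⟨u, hu, hxu, hu2⟩ := h1
        rw [hinj _ hu _ (T.mul_mem (T.mul_mem t.2 c.2) (T.inv_mem t.2)) hu2] at hxu
        exact mem_cent_iff.mpr (Subtype.ext hxu)
      rcases hn.eq_bot_or_eq_top with h1 | h1
      · have : x ∈ Subgroup.centralizer ({x} : Set T) := mem_cent_iff.mpr rfl
        rw [h1, Subgroup.mem_bot] at this
        exact hx this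
      · rcases (inferInstance : (Subgroup.center T).Normal).eq_bot_or_eq_top with h2 | h2
        · have : x ∈ Subgroup.center T := Subgroup.mem_center_iff.mpr fun y =>
            (mem_cent_iff.mp (h1 ▸ Subgroup.mem_top y)).symm
          rw [h2, Subgroup.mem_bot] at this
          exact hx this
        · exact hc ⟨⟨fun a b => Subgroup.mem_center_iff.mp (h2 ▸ Subgroup.mem_top b) a⟩⟩

/-- A regular non-abelian minimal normal subgroup of an extremely primitive group is simple. -/
theorem regular_false [Finite G] [Finite Ω] [FaithfulSMul G Ω] (hprim : IsPreprimitive G Ω) {α : Ω}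
    (hH : stabilizer G α ≠ ⊥)
    (hep : ∀ ω : Ω, IsPreprimitive (stabilizer G α) (orbit (stabilizer G α) ω)) {N T : Subgroup G}
    (hN : MinNormal N) (hc : ¬ IsMulCommutative N) (hT : Factor N T) (hTN : T ≠ N)
    (hreg : ∀ t ∈ N, t • α = α → t = 1) : False := by
  have hn := hN.normal
  have hsm : ∀ h s : G, h • α = α → s ∈ N → (h • s • α = s • α ↔ h * s = s * h) := by
    intro h s hh hs
    refine ⟨fun h1 => ?_, fun h1 => by rw [← mul_smul, h1, mul_smul, hh]⟩
    have := hreg (s⁻¹ * (h * s * h⁻¹)) (N.mul_mem (N.inv_mem hs) (hn.conj_mem s hs h)) (by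
      rw [mul_smul, mul_smul, mul_smul, show h⁻¹ • α = α by rw [inv_smul_eq_iff, hh], h1,
        inv_smul_smul])
    calc h * s = s * (s⁻¹ * (h * s * h⁻¹)) * h := by group
      _ = s * h := by rw [this, mul_one]
  -- centralisers in `H` are constant along cyclic subgroups
  have ha : ∀ x ∈ N, ∀ i : ℕ, x ^ i ≠ 1 → ∀ h : G, h • α = α → h * x ^ i = x ^ i * h →
      h * x = x * h := by
    intro x hx i hi h hh hhx
    rcases max_two_point (hep (x • α)) (X := stabilizer G ((x ^ i) • α)) (fun k hk hkx =>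
      (hsm k _ hk (N.pow_mem hx i)).mpr (Commute.pow_right ((hsm k x hk hx).mp hkx) i)) with h1 | h1
    · exact (hsm h x hh hx).mp (h1 h ((hsm h _ hh (N.pow_mem hx i)).mpr hhx) hh)
    · exact absurd h1 (not_stabilizer_le hprim hH fun h2 => hi (hreg _ (N.pow_mem hx i) h2))
  have hb : ∀ x ∈ N, ∀ y ∈ N, (orderOf x).Prime → (orderOf y).Prime → orderOf x ≠ orderOf y →
      x * y = y * x → ∀ h : G, h • α = α → h * x = x * h → h * y = y * h := by
    intro u hu' v hv' hu hv hne huv h hh hhu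
    have h1 : (u * v) ^ orderOf v = u ^ orderOf v := by
      rw [Commute.mul_pow huv, pow_orderOf_eq_one, mul_one]
    have h3 : u ^ orderOf v ≠ 1 := fun h =>
      hne ((Nat.prime_dvd_prime_iff_eq hu hv).mp (orderOf_dvd_of_pow_eq_one h))
    have h4 := ha _ (N.mul_mem hu' hv') _ (h1 ▸ h3) h hh (by rw [h1]; exact Commute.pow_right hhu _)
    apply mul_left_cancel (a := u)
    rw [← mul_assoc, ← hhu, mul_assoc, h4, mul_assoc]
  -- an element centralising all elements of one prime order of a factor centralises the factor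
  have hgen : ∀ U, Factor N U → ∀ y ∈ U, y ≠ 1 → ∀ h : G,
      (∀ z ∈ U, orderOf z = orderOf y → h * z = z * h) → ∀ z ∈ U, h * z = z * h := by
    intro U hU y hy hy1 h hh z hz
    have hle : Subgroup.closure {z | z ∈ U ∧ orderOf z = orderOf y} ≤ U :=
      (Subgroup.closure_le _).mpr fun z hz => hz.1
    rcases hU.min _ hle (fun n hn' u hu => by
      induction hu using Subgroup.closure_induction with
      | mem x hx =>
        exact Subgroup.subset_closure ⟨hU.norm n hn' x hx.1,
          (orderOf_eq_of_isConj (isConj_iff.mpr ⟨n, rfl⟩)).symm.trans hx.2⟩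
      | one => simp
      | mul x y _ _ hx hy => simpa [mul_assoc] using Subgroup.mul_mem _ hx hy
      | inv x _ hx => simpa [mul_assoc] using Subgroup.inv_mem _ hx) with h1 | h1
    · have : y ∈ Subgroup.closure {z | z ∈ U ∧ orderOf z = orderOf y} :=
        Subgroup.subset_closure ⟨hy, rfl⟩
      rw [h1, Subgroup.mem_bot] at this
      exact absurd this hy1
    · have h2 : Subgroup.closure {z | z ∈ U ∧ orderOf z = orderOf y} ≤
          Subgroup.centralizer ({h} : Set G) :=
        (Subgroup.closure_le _).mpr fun z hz => mem_cent_iff.mpr (hh z hz.1 hz.2)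
      exact mem_cent_iff.mp (h2 (h1.ge hz))
  have hTs := hT.simple hN
  obtain ⟨x, hx, -⟩ := exists_prime_orderOf_ne (hT.not_comm hN hc) Nat.prime_two
  rw [← Subgroup.orderOf_coe] at hx
  have hother : ∀ U, Factor N U → U ≠ T → ∀ h : G, h • α = α → h * x = x * h →
      ∀ z ∈ U, h * z = z * h := by
    intro U hU hUT h hh hhx
    have := hU.simple hN
    obtain ⟨y, hy, hyx⟩ := exists_prime_orderOf_ne (hU.not_comm hN hc) hx
    rw [← Subgroup.orderOf_coe] at hy hyx
    refine hgen U hU y y.2 (ne_one_of_prime_orderOf hy) h fun z hz hzy => ?_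
    exact hb x (hT.le x.2) z (hU.le hz) hx (hzy ▸ hy) (hzy ▸ hyx.symm)
      ((hT.eq_or_comm hU).resolve_left hUT.symm x x.2 z hz) h hh hhx
  have hK : ∀ h : G, h • α = α → h * x = x * h → h = 1 := by
    intro h hh hhx
    refine eq_one_of_comm_of_trans (exists_smul_eq_of_normal hprim hn hN.ne_bot α)
      (fun n hn' => ?_) hh
    refine mem_cent_iff.mp (hT.le_of_conj hN (Subgroup.centralizer {h}) (fun g t ht => ?_) hn')
    by_cases hg : cj g T = T
    · obtain ⟨k, hk⟩ := hT.exists_cj_ne hN hTN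
      have hU := hT.conj hn k
      have := hU.simple hN
      obtain ⟨y, hy, hyx⟩ := exists_prime_orderOf_ne (hU.not_comm hN hc) hx
      rw [← Subgroup.orderOf_coe] at hy hyx
      refine mem_cent_iff.mpr (hgen T hT x x.2 (ne_one_of_prime_orderOf hx) h (fun z hz hzx => ?_)
        _ (hg.le (conj_mem_cj ht)))
      exact hb y (hU.le y.2) z (hT.le hz) hy (hzx ▸ hx) (hzx ▸ hyx)
        ((hU.eq_or_comm hT).resolve_left hk y y.2 z hz) h hh (hother _ hU hk h hh hhx y y.2)
    · exact mem_cent_iff.mpr (hother _ (hT.conj hn g) hg h hh hhx _ (conj_mem_cj ht))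
  obtain ⟨r, hr, h, hh, hhr⟩ := H2.exists_mem_prime_orderOf hH
  have hz : stabilizer G α = Subgroup.zpowers h := by
    refine le_antisymm ?_ ((Subgroup.zpowers_le).mpr hh)
    rcases max_two_point (hep ((x : G) • α)) (X := Subgroup.zpowers h) (fun k hk hkx => by
      rw [hK k hk ((hsm k x hk (hT.le x.2)).mp hkx)]; exact Subgroup.one_mem _) with h1 | h1
    · exact absurd (hK h hh ((hsm h x hh (hT.le x.2)).mp (h1 h (Subgroup.mem_zpowers h) hh)))
        (ne_one_of_prime_orderOf (hhr ▸ hr))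
    · exact h1
  have := nontrivial_of_ne_bot (Ω := Ω) hH
  exact not_isSolvable_of_simple_le hTs (hT.not_comm hN hc) (isSolvable_of_coatom_prime
    (IsPreprimitive.isCoatom_stabilizer_of_isPreprimitive G α) (by
      rw [hz, Nat.card_zpowers, hhr]; exact hr))

theorem result {G : Type*} [Group G] [Finite G] {Ω : Type*} [Fintype Ω] [MulAction G Ω] [FaithfulSMul G Ω] (hΩ : 2 ≤ Fintype.card Ω) (hprim : MulAction.IsPreprimitive G Ω) (hep : ∀ (α : Ω) (ω : Ω), MulAction.IsPreprimitive (MulAction.stabilizer G α) (MulAction.orbit (MulAction.stabilizer G α) ω)) :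
    (∃ N : Subgroup G, N.Normal ∧ N ≠ ⊥ ∧ IsMulCommutative N ∧ ∀ ω : Ω, MulAction.stabilizer N ω = ⊥) ∨ (∃ T : Subgroup G, T.Normal ∧ IsSimpleGroup T ∧ ¬ IsMulCommutative T ∧ Subgroup.centralizer (T : Set G) = ⊥) := by
  have hnt : Nontrivial Ω := Fintype.one_lt_card_iff_nontrivial.mp hΩ
  have hG : Nontrivial G := nontrivial_group (Ω := Ω)
  obtain ⟨N, hn, hN1, hmin⟩ := H2.exists_minimal_normal (G := G)
  have hN : MinNormal N := ⟨hn, hN1, hmin⟩
  by_cases hc : IsMulCommutative N
  · exact Or.inl ⟨N, hn, hN1, hc, stabilizer_eq_bot_of_comm hprim hn hN1 hc⟩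
  right
  obtain ⟨T, hT⟩ := exists_factor hN1
  obtain ⟨α⟩ : Nonempty Ω := inferInstance
  have hTs := hT.simple hN
  have hTc := hT.not_comm hN hc
  have hmax := IsPreprimitive.isCoatom_stabilizer_of_isPreprimitive G α
  have hH : stabilizer G α ≠ ⊥ := by
    intro h
    have : (stabilizer G α).Normal := h ▸ inferInstance
    exact not_isSolvable_of_simple_le hTs hTc
      (isSolvable_of_normal_coatom hmax (by rw [h]; infer_instance))
  have hconj : ∀ h : G, (∀ t ∈ T, h * t * h⁻¹ ∈ T) ∨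
      ∀ t ∈ T, ∀ s ∈ T, (h * t * h⁻¹) * s = s * (h * t * h⁻¹) := fun h =>
    ((hT.conj hn h).eq_or_comm hT).imp (fun h1 t ht => h1.le (conj_mem_cj ht))
      fun h1 t ht => h1 _ (conj_mem_cj ht)
  have hNn : ∀ h ∈ stabilizer G α, ∀ k ∈ N ⊓ stabilizer G α, h * k * h⁻¹ ∈ N ⊓ stabilizer G α :=
    fun h hh k hk => ⟨hn.conj_mem k hk.1 h, (stabilizer G α).mul_mem
      ((stabilizer G α).mul_mem hh hk.2) ((stabilizer G α).inv_mem hh)⟩
  have hcc : ∀ t c s : G, s ∈ T → (∀ s ∈ T, c * s = s * c) →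
      t * c * s * (t * c)⁻¹ = t * s * t⁻¹ := fun t c s hs hc => by
    rw [mul_assoc t c s, hc s hs]; group
  rcases ons_dichotomy hprim hN hc hT α with h' | ⟨⟨s, hs, hs1, hsα⟩, -, -⟩
  · have hreg : ∀ t ∈ T, t • α = α → t = 1 := fun t ht h => by_contra fun h1 => h' t ht h1 α h
    by_cases hTN : T = N
    · subst hTN
      by_cases hC : Subgroup.centralizer (T : Set G) = ⊥
      · exact ⟨T, hn, hTs, hc, hC⟩
      exfalso
      refine diag_false hprim hH (hep α) hc (exists_smul_eq_of_normal hprim hn hN1 α) hreg hconj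
        fun t ht => ?_
      obtain ⟨c, hc', hcα⟩ := exists_smul_eq_of_normal hprim inferInstance hC α (t⁻¹ • α)
      exact ⟨t * c, by rw [mul_smul, hcα, smul_inv_smul], fun s hs => hcc t c s hs fun s hs =>
        (Subgroup.mem_centralizer_iff.mp hc' s hs).symm⟩
    exfalso
    rcases projStab_eq_or_le hprim hN hc hT α with hR | hR
    · have hinn : ∀ t ∈ T, ∃ d ∈ N, d • α = α ∧ ∀ s ∈ T, d * s * d⁻¹ = t * s * t⁻¹ := by
        intro t ht
        obtain ⟨-, c, hcN, hcs, htc⟩ := hR.ge ht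
        exact ⟨t * c, N.mul_mem (hT.le ht) hcN, htc, fun s hs => hcc t c s hs hcs⟩
      have hK1 : N ⊓ stabilizer G α ≠ ⊥ := by
        intro h
        refine hTc (H2.isMulCommutative_of_forall fun t ht s hs => ?_)
        obtain ⟨d, hdN, hd, hdt⟩ := hinn t ht
        have : d ∈ N ⊓ stabilizer G α := ⟨hdN, hd⟩
        rw [h, Subgroup.mem_bot] at this
        have h2 := hdt s hs
        rw [this] at h2
        calc t * s = (t * s * t⁻¹) * t := by group
          _ = s * t := by rw [← h2]; group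
      refine diag_false hprim hH (hep α) hTc (fun ω => ?_) hreg hconj
        fun t ht => (hinn t ht).imp fun d hd => hd.2
      let S : Set Ω := {ω | ∃ t ∈ T, t • α = ω}
      have hS : ∀ h : G, (∀ t ∈ T, h • t • α ∈ S) → h ∈ stabilizer G S := by
        intro h hh
        rw [mem_stabilizer_set_iff_smul_set_subset (Set.toFinite _)]
        rintro _ ⟨_, ⟨c, hc, rfl⟩, rfl⟩
        exact hh c hc
      have h1 : stabilizer G α ≤ stabilizer G S := fun h hh => hS h fun t ht => by
        obtain ⟨k, hk, hkt⟩ := trans_on_orbit hprim (hep α) hK1 inf_le_right hNn (t • α)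
          (h • t • α) ⟨⟨h, hh⟩, rfl⟩
        refine ⟨k * t * k⁻¹, hT.norm k hk.1 t ht, ?_⟩
        rw [mul_smul, mul_smul, show k⁻¹ • α = α from (stabilizer G α).inv_mem hk.2, hkt]
      have h2 : T ≤ stabilizer G S := fun t ht => hS t fun s hs =>
        ⟨t * s, T.mul_mem ht hs, mul_smul _ _ _⟩
      have h3 : stabilizer G S = ⊤ := hmax.2 _ (lt_of_le_of_ne h1 fun h =>
        hT.not_le_stabilizer hprim hN α (h ▸ h2))
      obtain ⟨g, rfl⟩ := exists_smul_eq G α ω
      have h4 : g • α ∈ g • S := Set.smul_mem_smul_set ⟨1, T.one_mem, one_smul _ _⟩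
      rwa [show g • S = S from (h3 ▸ Subgroup.mem_top g : g ∈ stabilizer G S)] at h4
    · refine regular_false hprim hH (hep α) hN hc hT hTN fun n hnN hnα => ?_
      have hcent : ∀ n ∈ N, n • α = α → ∀ s ∈ T, n * s = s * n := by
        intro n hnN hnα
        obtain ⟨t, ht, c, hcN, hcs, rfl⟩ := hT.decomp hN hnN
        rw [hreg t ht (hR ⟨ht, c, hcN, hcs, hnα⟩), one_mul]
        exact hcs
      refine hN.eq_one_of_comm hc hnN fun m hm => mem_cent_iff.mp
        (hT.le_of_conj hN (Subgroup.centralizer {n}) (fun g t ht => mem_cent_iff.mpr ?_) hm)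
      obtain ⟨k, hk, hkα⟩ := exists_smul_eq_of_normal hprim hn hN1 α (g⁻¹ • α)
      have h1 : (g * k) • α = α := by rw [mul_smul, hkα, smul_inv_smul]
      have h2 := hcent ((g * k)⁻¹ * n * (g * k)) (by simpa using hn.conj_mem n hnN (g * k)⁻¹)
        (by rw [mul_smul, mul_smul, h1, hnα, inv_smul_eq_iff, h1]) _
        (hT.norm _ (N.inv_mem hk) t ht)
      calc n * (g * t * g⁻¹)
          = (g * k) * ((g * k)⁻¹ * n * (g * k) * (k⁻¹ * t * k⁻¹⁻¹)) * (g * k)⁻¹ := by group
        _ = g * t * g⁻¹ * n := by rw [h2]; group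
  by_cases hTN : T = N
  · subst hTN
    exact ⟨T, hn, hTs, hc, centralizer_eq_bot_of_fixed hprim hn hs hs1 hsα⟩
  exfalso
  obtain ⟨g, hg⟩ := hT.exists_cj_ne hN hTN
  have hU := hT.conj hn g
  have hcomm := (hT.eq_or_comm hU).resolve_left (Ne.symm hg)
  obtain ⟨u, hu, huα⟩ : ∃ u ∈ cj g T, u • α ≠ α := by
    by_contra h
    push Not at h
    exact hU.not_le_stabilizer hprim hN α h
  have hK1 : N ⊓ stabilizer G α ≠ ⊥ := fun h => hs1 (by
    have : s ∈ N ⊓ stabilizer G α := ⟨hT.le hs, hsα⟩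
    rwa [h, Subgroup.mem_bot] at this)
  refine hs1 (eq_one_of_conj_fix hprim (hep α) hK1 inf_le_right hNn huα hsα fun k hk => ?_)
  have h1 : k • u • α = (k * u * k⁻¹) • α := by
    rw [mul_smul, mul_smul, show k⁻¹ • α = α from (stabilizer G α).inv_mem hk.2]
  rw [h1, ← mul_smul, hcomm s hs _ (hU.norm k hk.1 u hu), mul_smul, hsα]

end Cfsg.Agent.S3493
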