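import Cfsg.Statements.S3495
import Cfsg.Agent.H77.ExtPrim

set_option autoImplicit false
open Cfsg

namespace Cfsg.Agent.S3495

open Cfsg.Agent.H77 MulAction

theorem result {G : Type*} [Group G] [Finite G] {Ω : Type*} [Fintype Ω] [MulAction G Ω] [FaithfulSMul G Ω] (hprim : MulAction.IsPreprimitive G Ω) (hH : ∀ α : Ω, MulAction.stabilizer G α ≠ ⊥) (hep : ∀ (α : Ω) (ω : Ω), MulAction.IsPreprimitive (MulAction.stabilizer G α) (MulAction.orbit (MulAction.stabilizer G α) ω))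
    (N : Subgroup G) [N.Normal] (hNc : IsMulCommutative N) (p : ℕ) (hp : p.Prime) (hNp : ∀ n ∈ N, n ^ p = 1)
    (hNtr : MulAction.IsPretransitive N Ω) (hNreg : ∀ ω : Ω, MulAction.stabilizer N ω = ⊥) (α : Ω) (M : Subgroup G) (hM : M ≠ ⊥) (hMle : M ≤ MulAction.stabilizer G α)
    (hMn : MulAction.stabilizer G α ≤ Subgroup.normalizer (M : Set G)) :
    (∀ ω : Ω, MulAction.orbit M ω = MulAction.orbit (MulAction.stabilizer G α) ω) ∧
    (∀ L : Subgroup G, L ≤ N → M ≤ Subgroup.normalizer (L : Set G) → L = ⊥ ∨ L = N) := by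
  have htr := trans_on_orbit hprim (hep α) hM hMle
    (fun h hh k hk => (Subgroup.mem_normalizer_iff.mp (hMn hh) k).mp hk)
  have hreg : ∀ n ∈ N, n • α = α → n = 1 := fun n hn h => by
    have : (⟨n, hn⟩ : N) ∈ stabilizer N α := h
    rw [hNreg, Subgroup.mem_bot] at this
    exact congrArg Subtype.val this
  refine ⟨fun ω => ?_, fun L hL hML => ?_⟩
  · ext x
    exact ⟨fun ⟨m, hm⟩ => ⟨⟨m, hMle m.2⟩, hm⟩, fun hx => by
      obtain ⟨k, hk, rfl⟩ := htr ω x hx
      exact ⟨⟨k, hk⟩, rfl⟩⟩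
  have := nontrivial_of_ne_bot (Ω := Ω) hM
  rcases coatom_normalized (Y := L) (IsPreprimitive.isCoatom_stabilizer_of_isPreprimitive G α) (by
    intro h hh l hl
    obtain ⟨m, hm, hml⟩ := htr (l • α) (h • l • α) ⟨⟨h, hh⟩, rfl⟩
    have h1 : m * l * m⁻¹ ∈ L := (Subgroup.mem_normalizer_iff.mp (hML hm) l).mp hl
    have h2 : (m * l * m⁻¹)⁻¹ * (h * l * h⁻¹) = 1 := by
      apply hreg _ (N.mul_mem (N.inv_mem (hL h1)) (‹N.Normal›.conj_mem l (hL hl) h))
      have h3 : h⁻¹ • α = α := (stabilizer G α).inv_mem hh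
      have h4 : m⁻¹ • α = α := (stabilizer G α).inv_mem (hMle hm)
      rw [mul_smul, inv_smul_eq_iff, mul_smul, mul_smul, mul_smul, mul_smul, h3, h4, hml]
    rw [← inv_mul_eq_one.mp h2]
    exact h1) with h | h
  · left
    rw [Subgroup.eq_bot_iff_forall]
    exact fun l hl => hreg l (hL hl) (h hl)
  · right
    refine le_antisymm hL fun n hn => ?_
    obtain ⟨l, hl, k, hk, rfl⟩ := h n
    have : k ∈ N := by simpa using N.mul_mem (N.inv_mem (hL hl)) hn
    rw [hreg k this hk, mul_one]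
    exact hl

end Cfsg.Agent.S3495
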