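import Cfsg.Statements.S3496
import Cfsg.Agent.H77.ExtPrim2
import Cfsg.Agent.H77.Kappa
import Cfsg.Agent.H77.IrrAbelian
import Cfsg.Agent.H21.ElemMod
import Cfsg.Agent.S3495

set_option autoImplicit false
open Cfsg

namespace Cfsg.Agent.S3496

open Cfsg.Agent.H77 MulAction

theorem result {G : Type*} [Group G] [Finite G] {Ω : Type*} [Fintype Ω] [MulAction G Ω] [FaithfulSMul G Ω] [Group.IsSolvable G] (p d : ℕ) (hp : p.Prime) (hcard : Fintype.card Ω = p ^ d)
    (hprim : MulAction.IsPreprimitive G Ω) (hH : ∀ α : Ω, MulAction.stabilizer G α ≠ ⊥) (hep : ∀ (α : Ω) (ω : Ω), MulAction.IsPreprimitive (MulAction.stabilizer G α) (MulAction.orbit (MulAction.stabilizer G α) ω)) (α : Ω) :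
    ∃ q : ℕ, q.Prime ∧ (∀ ω : Ω, ω ≠ α → Nat.card (MulAction.orbit (MulAction.stabilizer G α) ω) = q) ∧
      q ∣ p ^ d - 1 ∧ (∀ i : ℕ, 0 < i → i < d → ¬ q ∣ p ^ i - 1) ∧
      ∃ T : Subgroup G, T ≤ MulAction.stabilizer G α ∧ MulAction.stabilizer G α ≤ Subgroup.normalizer (T : Set G) ∧ Nat.card T = q ∧
        (∃ h : G, MulAction.stabilizer G α = T ⊔ Subgroup.zpowers h) ∧ Nat.card (MulAction.stabilizer G α) ∣ q * d := by
  have hnt := nontrivial_of_ne_bot (Ω := Ω) (hH α)
  have hG : Nontrivial G := nontrivial_group (Ω := Ω)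
  obtain ⟨N, r, hr, hn, hN1, hNc, hNr, hNp, -⟩ := H2.exists_minimal_normal_of_solvable (G := G)
  have hNtr : IsPretransitive N Ω := ⟨fun a b => by
    obtain ⟨n, hn, h⟩ := exists_smul_eq_of_normal hprim hn hN1 a b
    exact ⟨⟨n, hn⟩, h⟩⟩
  have hNreg := stabilizer_eq_bot_of_comm hprim hn hN1 hNc
  have hNcard : Nat.card N = p ^ d := by
    rw [← hcard, ← Nat.card_eq_fintype_card, ← Subgroup.index_bot, ← hNreg α, index_stabilizer,
      orbit_eq_univ, Set.ncard_univ]
  have hNnt : Nontrivial N := (Subgroup.nontrivial_iff_ne_bot N).mpr hN1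
  have hrp : r = p := by
    have := Fact.mk hr
    obtain ⟨k, hk, hk'⟩ := hNr.nontrivial_iff_card.mp hNnt
    have h1 : r ∣ p ^ d := by rw [← hNcard, hk']; exact dvd_pow_self r hk.ne'
    exact (Nat.prime_dvd_prime_iff_eq hr hp).mp (hr.dvd_of_dvd_pow h1)
  subst hrp
  have := Fact.mk hp
  have hV : IsElementaryAbelian r N := ⟨hNc, hNp⟩
  set H := stabilizer G α with hHdef
  have hHN : H ≤ Subgroup.normalizer (N : Set G) := Subgroup.le_normalizer_of_normal
  have hd : Module.finrank (ZMod r) (H21.EA N hV) = d := by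
    have := H21.EA.card_eq_pow_finrank (hV := hV)
    rw [hNcard] at this
    exact (Nat.pow_right_injective hp.two_le this).symm
  have hHnt : Nontrivial H := (Subgroup.nontrivial_iff_ne_bot H).mpr (hH α)
  obtain ⟨M, q, hq, hMn, hM1, hMc, -, hMq, -⟩ := H2.exists_minimal_normal_of_solvable (G := H)
  have hT1 : M.map H.subtype ≠ ⊥ := fun h =>
    hM1 ((Subgroup.map_eq_bot_iff_of_injective M H.subtype_injective).mp h)
  have hTn : ∀ h ∈ H, ∀ k ∈ M.map H.subtype, h * k * h⁻¹ ∈ M.map H.subtype := by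
    rintro h hh _ ⟨k, hk, rfl⟩
    exact ⟨_, hMn.conj_mem k hk ⟨h, hh⟩, rfl⟩
  have hTn' : H ≤ Subgroup.normalizer (M.map H.subtype : Set G) := fun h hh =>
    Subgroup.mem_normalizer_fintype (hTn h hh)
  have hTc : ∀ a ∈ M.map H.subtype, ∀ b ∈ M.map H.subtype, a * b = b * a := by
    rintro _ ⟨a, ha, rfl⟩ _ ⟨b, hb, rfl⟩
    exact congrArg Subtype.val (H2.mul_comm_of_mem hMc ha hb)
  have hirr := (S3495.result hprim hH hep N hNc r hp hNp hNtr hNreg α _ hT1
    (Subgroup.map_subtype_le _) hTn').2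
  have hVnt : Nontrivial (H21.EA N hV) := H21.EA.equiv.nontrivial
  obtain ⟨h1, h2, h3, h₀, h4⟩ := irr_abelian (H21.EA.rep hV hHN) (H21.EA.rep_injective hHN (by
      rw [Subgroup.eq_bot_iff_forall]
      exact fun x hx => eq_one_of_comm_of_trans (exists_smul_eq_of_normal hprim hn hN1 α)
        (fun n hn => (Subgroup.mem_centralizer_iff.mp hx.2 n hn).symm) hx.1)) M
    (fun a ha b hb => H2.mul_comm_of_mem hMc ha hb) (fun W hW => by
      rcases hirr (H21.EA.toSubgroup W) (H21.EA.toSubgroup_le W) (by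
        rintro _ ⟨m, hm, rfl⟩
        refine Subgroup.mem_normalizer_fintype ?_
        rintro _ ⟨x, hx, rfl⟩
        exact ⟨_, hW m hm x hx, rfl⟩) with h | h
      · left
        rw [← H21.EA.sub_toSubgroup W, h, H21.EA.sub_bot]
      · right
        rw [← H21.EA.sub_toSubgroup W, h, H21.EA.sub_self])
  rw [hd] at h2 h3
  have hMcard : Nat.card M = q := by
    obtain ⟨g, hg⟩ := IsCyclic.exists_ofOrder_eq_natCard (α := M)
    have h5 : orderOf g ∣ q := orderOf_dvd_of_pow_eq_one (Subtype.ext (by simpa using hMq g g.2))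
    rw [hg] at h5
    exact ((Nat.dvd_prime hq).mp h5).resolve_left fun h => hM1 (Subgroup.card_eq_one.mp h)
  have hTcard : Nat.card (M.map H.subtype) = q := by
    rw [Subgroup.card_map_of_injective H.subtype_injective, hMcard]
  have horb : ∀ ω : Ω, ω ≠ α → Nat.card (orbit H ω) = q := fun ω hω => by
    rw [card_orbit_eq_of_abelian hprim (hep α) hT1 (Subgroup.map_subtype_le _) hTn hTc hω, hTcard]
  have hcent : Subgroup.centralizer (M : Set H) = M := by
    refine le_antisymm (fun h hh => ?_) fun h hh => Subgroup.mem_centralizer_iff.mpr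
      fun m hm => H2.mul_comm_of_mem hMc hm hh
    obtain ⟨m, hm, hmh⟩ := mem_of_comm_abelian hprim (hep α) hT1
      (Subgroup.map_subtype_le _) hTn hTc h.2 (by
        rintro _ ⟨m, hm, rfl⟩
        exact congrArg Subtype.val (Subgroup.mem_centralizer_iff.mp hh m hm).symm)
    exact (Subtype.ext hmh : m = h) ▸ hm
  rw [hcent] at h3 h4
  refine ⟨q, hq, horb, ?_, fun i hi hid hqi => h2 i hi hid fun t ht => ?_, M.map H.subtype,
    Subgroup.map_subtype_le _, hTn', hTcard, ⟨h₀, le_antisymm (fun x hx => ?_)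
      (sup_le (Subgroup.map_subtype_le _) (Subgroup.zpowers_le.mpr h₀.2))⟩, ?_⟩
  · rw [← hcard, ← Nat.card_eq_fintype_card]
    exact dvd_card_sub_one (G := G) α q fun w hw => (horb w hw).symm ▸ dvd_rfl
  · obtain ⟨c, hc⟩ := hqi
    have h5 : r ^ i = q * c + 1 := by
      have := Nat.one_le_pow i r hp.pos
      omega
    rw [h5, pow_succ, pow_mul, hMq t ht, one_pow, one_mul]
  · obtain ⟨n, hn⟩ := h4 ⟨x, hx⟩
    have h5 : x = (x * ((h₀ : G) ^ n)⁻¹) * (h₀ : G) ^ n := by group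
    rw [h5]
    exact Subgroup.mul_mem _ (Subgroup.mem_sup_left ⟨_, hn, by simp⟩)
      (Subgroup.mem_sup_right (Subgroup.zpow_mem_zpowers _ _))
  · rw [← M.card_mul_index, hMcard]
    exact Nat.mul_dvd_mul_left q h3

end Cfsg.Agent.S3496
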