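import Cfsg.Statements.S3497
import Cfsg.Agent.H77.ExtPrim2
import Cfsg.Agent.H21.ElemMod
import Cfsg.Agent.H44.Cores

set_option autoImplicit false
open Cfsg

namespace Cfsg.Agent.S3497

open Cfsg.Agent.H77 MulAction

theorem result {G : Type*} [Group G] [Finite G] {Ω : Type*} [Fintype Ω] [MulAction G Ω] [FaithfulSMul G Ω] (hprim : MulAction.IsPreprimitive G Ω) (hep : ∀ (α : Ω) (ω : Ω), MulAction.IsPreprimitive (MulAction.stabilizer G α) (MulAction.orbit (MulAction.stabilizer G α) ω)) (α : Ω)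
    (hH1 : MulAction.stabilizer G α ≠ ⊥) (hHp : ¬ (Nat.card (MulAction.stabilizer G α)).Prime) :
    Subgroup.center (MulAction.stabilizer G α) = ⊥ ∧
    IsMulCommutative (Cfsg.fittingSubgroup (MulAction.stabilizer G α)) ∧
    ∃ p e : ℕ, p.Prime ∧ Nat.card (Cfsg.fittingSubgroup (MulAction.stabilizer G α)) = p ^ e ∧
      (∀ x ∈ Cfsg.fittingSubgroup (MulAction.stabilizer G α), x ^ p = 1) ∧
      (Cfsg.fittingSubgroup (MulAction.stabilizer G α) ≠ ⊥ →
        p ^ e ∣ Fintype.card Ω - 1 ∧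
        ∃ φ : MulAction.stabilizer G α →* GL (Fin e) (ZMod p), φ.ker = Cfsg.fittingSubgroup (MulAction.stabilizer G α)) := by
  set H := stabilizer G α with hH
  have hmap : ∀ A : Subgroup H, A.Normal → ∀ h ∈ H, ∀ k ∈ A.map H.subtype,
      h * k * h⁻¹ ∈ A.map H.subtype := by
    rintro A hA h hh _ ⟨k, hk, rfl⟩
    exact ⟨_, hA.conj_mem k hk ⟨h, hh⟩, rfl⟩
  have hmap1 : ∀ A : Subgroup H, A ≠ ⊥ → A.map H.subtype ≠ ⊥ := fun A hA h =>
    hA ((Subgroup.map_eq_bot_iff_of_injective A H.subtype_injective).mp h)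
  refine ⟨?_, ?_⟩
  · by_contra hZ
    have := nontrivial_of_ne_bot (Ω := Ω) hH1
    obtain ⟨w, hw⟩ := exists_ne α
    refine hHp (prime_card_of_two_point hH1 (hep α w) fun k hk hkw => ?_)
    refine eq_one_of_conj_fix hprim (hep α) (hmap1 _ hZ) (Subgroup.map_subtype_le _)
      (hmap _ inferInstance) hw hk ?_
    rintro _ ⟨z, hz, rfl⟩
    have := congrArg Subtype.val (Subgroup.mem_center_iff.mp hz ⟨k, hk⟩)
    simp only [Subgroup.coe_mul] at this
    rw [Subgroup.coe_subtype, ← mul_smul, this, mul_smul, hkw]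
  set F := fittingSubgroup H with hF
  by_cases hF1 : F = ⊥
  · rw [hF1]
    exact ⟨inferInstance, 2, 0, Nat.prime_two, by simp, fun x hx => by
      rw [Subgroup.mem_bot.mp hx, one_pow], fun h => absurd rfl h⟩
  have hFn : F.Normal := H44.fittingSubgroup_normal H
  have hnil : Group.IsNilpotent F := H44.fitting_isNilpotent
  have hnt : Nontrivial F := (Subgroup.nontrivial_iff_ne_bot F).mpr hF1
  have hZ1 : (Subgroup.center F).map F.subtype ≠ ⊥ := fun h =>
    (Group.IsNilpotent.center_ne_bot F)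
      ((Subgroup.map_eq_bot_iff_of_injective _ F.subtype_injective).mp h)
  obtain ⟨M, hMn, hM1, hMZ, hmin⟩ := H2.exists_minimal_normal_le
    ((Subgroup.center F).map F.subtype) inferInstance hZ1
  have hFM : ∀ f ∈ F, ∀ m ∈ M, f * m = m * f := by
    intro f hf m hm
    obtain ⟨z, hz, rfl⟩ := hMZ hm
    exact congrArg Subtype.val (Subgroup.mem_center_iff.mp hz ⟨f, hf⟩)
  have hMF : M ≤ F := hMZ.trans (Subgroup.map_subtype_le _)
  have hMc : IsMulCommutative M := H2.isMulCommutative_of_forall fun x hx => hFM x (hMF hx)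
  obtain ⟨p, hp, hMp⟩ := H2.minimal_normal_exponent_of_comm M hMc hM1 hmin
  have hAc : ∀ a ∈ M.map H.subtype, ∀ b ∈ M.map H.subtype, a * b = b * a := by
    rintro _ ⟨a, ha, rfl⟩ _ ⟨b, hb, rfl⟩
    exact congrArg Subtype.val (hFM a (hMF ha) b hb)
  have hcent : ∀ h : H, (∀ m ∈ M, h * m = m * h) → h ∈ M := by
    intro h hh
    obtain ⟨m, hm, hmh⟩ := mem_of_comm_abelian hprim (hep α) (hmap1 M hM1)
      (Subgroup.map_subtype_le _) (hmap M hMn) hAc h.2 (by
        rintro _ ⟨m, hm, rfl⟩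
        exact congrArg Subtype.val (hh m hm))
    exact (Subtype.ext hmh : m = h) ▸ hm
  have hFM' : F = M := le_antisymm (fun f hf => hcent f (hFM f hf)) hMF
  rw [hFM']
  have := Fact.mk hp
  obtain ⟨n, ρ, hn, hρ, -⟩ := H21.exists_matrix_rep_of_isElementaryAbelian (V := M) (H := ⊤)
    ⟨hMc, hMp⟩ Subgroup.le_normalizer_of_normal
  refine ⟨hMc, p, n, hp, hn, hMp, fun _ => ⟨?_, ?_⟩⟩
  · rw [← Nat.card_eq_fintype_card]
    refine dvd_card_sub_one (G := G) α _ fun w hw => ?_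
    rw [card_orbit_eq_of_abelian hprim (hep α) (hmap1 M hM1) (Subgroup.map_subtype_le _)
      (hmap M hMn) hAc hw, Subgroup.card_map_of_injective H.subtype_injective, hn]
  · refine ⟨(ρ.comp Subgroup.topEquiv.symm.toMonoidHom).toHomUnits, ?_⟩
    ext h
    rw [MonoidHom.mem_ker, Units.ext_iff]
    refine (hρ ⟨h, trivial⟩).trans ⟨fun h1 => hcent h fun m hm =>
      (Subgroup.mem_centralizer_iff.mp h1 m hm).symm, fun h1 =>
        Subgroup.mem_centralizer_iff.mpr fun m hm => hFM m (hMF hm) h h1⟩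

end Cfsg.Agent.S3497
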