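import Cfsg.Statements.S3498
import Cfsg.Agent.H77.PrimeMax

set_option autoImplicit false
open Cfsg

namespace Cfsg.Agent.S3498

theorem result {G : Type*} [Group G] [Finite G] (T : Subgroup G) [T.Normal] (hT : IsSimpleGroup T) (hTc : ¬ IsMulCommutative T)
    (hC : Subgroup.centralizer (T : Set G) = ⊥) (H : Subgroup G) (hmax : IsCoatom H) : ¬ (Nat.card H).Prime := fun hp =>
  H77.not_isSolvable_of_simple_le hT hTc (H77.isSolvable_of_coatom_prime hmax hp)

end Cfsg.Agent.S3498
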