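import Cfsg.Statements.S3504

set_option autoImplicit false
open Cfsg

namespace Cfsg.Agent.S3504

open Equiv.Perm

theorem cycleType_eq {n : ℕ} {g : Equiv.Perm (Fin n)} (hp : (orderOf g).Prime) (hd : ∀ i, g i ≠ i) :
    orderOf g ∣ n ∧ g.cycleType = Multiset.replicate (n / orderOf g) (orderOf g) := by
  obtain ⟨k, hk⟩ := cycleType_prime_order hp
  have h1 := sum_cycleType g
  have h2 : g.support = Finset.univ := by
    ext i; simp [hd i]
  rw [hk, h2] at h1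
  simp only [Multiset.sum_replicate, smul_eq_mul, Finset.card_univ, Fintype.card_fin] at h1
  refine ⟨Dvd.intro_left _ h1, ?_⟩
  rw [hk]
  congr 1
  exact (Nat.div_eq_of_eq_mul_left hp.pos h1.symm).symm

theorem exists_of_prime {n p : ℕ} (hn : 0 < n) (hp : p.Prime) (hd : p ∣ n) :
    ∃ g : Equiv.Perm (Fin n), orderOf g = p ∧ ∀ i, g i ≠ i := by
  have hs : (Multiset.replicate (n / p) p).sum = n := by
    simp [Nat.div_mul_cancel hd]
  obtain ⟨g, hg⟩ := (exists_with_cycleType_iff (Fin n) (m := Multiset.replicate (n / p) p)).mpr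
    ⟨by rw [hs]; simp, fun a ha => by rw [Multiset.eq_of_mem_replicate ha]; exact hp.two_le⟩
  have h1 := sum_cycleType g
  rw [hg, hs] at h1
  have h2 : g.support = Finset.univ := Finset.eq_univ_of_card _ (by simpa using h1.symm)
  have hd' : ∀ i, g i ≠ i := fun i => mem_support.mp (h2 ▸ Finset.mem_univ i)
  refine ⟨g, ?_, hd'⟩
  have := Fact.mk hp
  apply orderOf_eq_prime
  · rw [← orderOf_dvd_iff_pow_eq_one, ← lcm_cycleType, Multiset.lcm_dvd]
    intro b hb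
    rw [hg] at hb
    rw [Multiset.eq_of_mem_replicate hb]
  · rintro rfl
    exact hd' ⟨0, hn⟩ rfl

theorem result (n : ℕ) (hn : 5 ≤ n) :
    Nat.card {c : ConjClasses (Equiv.Perm (Fin n)) // ∃ g : Equiv.Perm (Fin n), ConjClasses.mk g = c ∧ (orderOf g).Prime ∧ ∀ i : Fin n, g i ≠ i} = 1 ↔ IsPrimePow n := by
  rw [isPrimePow_iff_unique_prime_dvd, Nat.card_eq_one_iff_exists]
  constructor
  · rintro ⟨⟨c, g, rfl, hg, hgd⟩, hc⟩
    refine ⟨orderOf g, ⟨hg, (cycleType_eq hg hgd).1⟩, ?_⟩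
    rintro q ⟨hq, hqd⟩
    obtain ⟨h, rfl, hd⟩ := exists_of_prime (by omega) hq hqd
    have := hc ⟨ConjClasses.mk h, h, rfl, hq, hd⟩
    rw [Subtype.ext_iff, ConjClasses.mk_eq_mk_iff_isConj] at this
    obtain ⟨u, hu⟩ := this
    exact SemiconjBy.orderOf_eq (u : Equiv.Perm (Fin n)) hu
  · rintro ⟨p, ⟨hp, hpd⟩, hu⟩
    obtain ⟨g, rfl, hd⟩ := exists_of_prime (by omega) hp hpd
    refine ⟨⟨ConjClasses.mk g, g, rfl, hp, hd⟩, ?_⟩
    rintro ⟨c, h, rfl, hh, hhd⟩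
    rw [Subtype.ext_iff, ConjClasses.mk_eq_mk_iff_isConj, isConj_iff_cycleType_eq,
      (cycleType_eq hp hd).2, (cycleType_eq hh hhd).2, hu _ ⟨hh, (cycleType_eq hh hhd).1⟩]

end Cfsg.Agent.S3504
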