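import Cfsg.Statements.S3508
import Cfsg.Agent.H21.ElemMod

set_option autoImplicit false
open Cfsg

namespace Cfsg.Agent.S3508

open Cfsg.Agent.H21

theorem geom_char {p : ℕ} [Fact p.Prime] {R : Type*} [Ring R] [Algebra (ZMod p) R] (A : R) (s : ℕ) :
    ∑ i ∈ Finset.range (p ^ s), A ^ i = (A - 1) ^ (p ^ s - 1) ∧ A ^ (p ^ s) - 1 = (A - 1) ^ (p ^ s) := by
  have hp : p.Prime := Fact.out
  have h2 : (Polynomial.X : Polynomial (ZMod p)) ^ (p ^ s) - 1 = (Polynomial.X - 1) ^ (p ^ s) := by
    rw [sub_pow_char_pow, one_pow]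
  have h1 : ∑ i ∈ Finset.range (p ^ s), (Polynomial.X : Polynomial (ZMod p)) ^ i =
      (Polynomial.X - 1) ^ (p ^ s - 1) := by
    have hne : (Polynomial.X : Polynomial (ZMod p)) - 1 ≠ 0 := by
      rw [← Polynomial.C_1]; exact Polynomial.X_sub_C_ne_zero 1
    apply mul_right_cancel₀ hne
    rw [geom_sum_mul, h2, ← pow_succ, Nat.sub_add_cancel (Nat.one_le_pow _ _ hp.pos)]
  constructor
  · simpa [map_sum] using congrArg (Polynomial.aeval A) h1
  · simpa using congrArg (Polynomial.aeval A) h2

theorem two_pow_le (m : ℕ) (h : 2 ^ (m - 1) ≤ m) : m ≤ 2 := by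
  by_contra hm
  obtain ⟨k, rfl⟩ : ∃ k, m = k + 3 := ⟨m - 3, by omega⟩
  have h1 : k + 3 - 1 = k + 2 := by omega
  have h2 : k < 2 ^ k := Nat.lt_two_pow_self
  rw [h1, pow_add] at h
  omega


/-- Let a finite group G act faithfully on a set Ω with p ^ m points (p prime) and have an elementary abelian normal p-subgroup N acting regularly on Ω (so G is a group of affine transformations of an m-dimensional space over the field with p elements). If G contains an element of order p ^ r with r ≥ 1, then p ^ (r − 1) ≤ m. In particular an element of order p ^ m forces m ≤ 2, and m ≤ 1 when p is odd. -/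
theorem result {G : Type*} [Group G] [Finite G] {Ω : Type*} [Fintype Ω] [MulAction G Ω] [FaithfulSMul G Ω] (p m : ℕ) (hp : p.Prime) (hcard : Fintype.card Ω = p ^ m)
    (N : Subgroup G) [N.Normal] (hNc : IsMulCommutative N) (hNp : ∀ n ∈ N, n ^ p = 1)
    (hNtr : MulAction.IsPretransitive N Ω) (hNreg : ∀ ω : Ω, MulAction.stabilizer N ω = ⊥)
    (g : G) (r : ℕ) (hr : 1 ≤ r) (hg : orderOf g = p ^ r) :
    p ^ (r - 1) ≤ m ∧ (r = m → m ≤ 2 ∧ (2 < p → m ≤ 1)) := by
  haveI : Fact p.Prime := ⟨hp⟩
  have main : p ^ (r - 1) ≤ m := by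
    by_contra hlt
    push Not at hlt
    have hV : IsElementaryAbelian p N := ⟨hNc, hNp⟩
    haveI : Nonempty Ω := Fintype.card_pos_iff.mp (by rw [hcard]; exact pow_pos hp.pos _)
    obtain ⟨ω⟩ := ‹Nonempty Ω›
    have hcN : Nat.card N = p ^ m := by
      have := MulAction.index_stabilizer_of_transitive N ω
      rw [hNreg ω, Subgroup.index_bot, Nat.card_eq_fintype_card (α := Ω), hcard] at this
      exact this
    have hfr : Module.finrank (ZMod p) (EA N hV) = m := by
      have := EA.card_eq_pow_finrank (hV := hV)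
      rw [hcN] at this
      exact (Nat.pow_right_injective hp.two_le this).symm
    have hnorm : (⊤ : Subgroup G) ≤ Subgroup.normalizer (N : Set G) := by
      rw [Subgroup.normalizer_eq_top]
    let ρ : G →* Module.End (ZMod p) (EA N hV) := (EA.rep hV hnorm).comp Subgroup.topEquiv.symm.toMonoidHom
    have hρ : ∀ (x : G) (v : EA N hV), EA.val (ρ x v) = x * EA.val v * x⁻¹ := fun x v => rfl
    obtain ⟨n, hn⟩ := MulAction.exists_smul_eq N ω (g • ω)
    set h : G := (n : G)⁻¹ * g with hh
    have hhω : h • ω = ω := by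
      rw [hh, mul_smul, ← hn]; exact inv_smul_smul (n : G) ω
    have hgh : g = n * h := by rw [hh]; group
    have hA : ρ h = ρ g := by
      ext v
      apply EA.val_injective
      rw [hρ, hρ, hgh]
      have h1 : h * EA.val v * h⁻¹ ∈ N := ‹N.Normal›.conj_mem _ (EA.val_mem v) _
      have h2 := congrArg Subtype.val (hNc.is_comm.comm n ⟨_, h1⟩)
      simp only [Subgroup.coe_mul] at h2
      calc h * EA.val v * h⁻¹ = (n * (h * EA.val v * h⁻¹)) * (n : G)⁻¹ := by rw [h2]; group
        _ = _ := by group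
    set A := ρ g with hAdef
    let v : EA N hV := EA.mk hV n n.2
    have hpow : ∀ k : ℕ, g ^ k = EA.val ((∑ i ∈ Finset.range k, A ^ i) v) * h ^ k := by
      intro k
      induction k with
      | zero => simp [EA.val_zero]
      | succ k ih =>
        rw [Finset.sum_range_succ, LinearMap.add_apply, EA.val_add, pow_succ, ih, ← hA, ← map_pow,
          hρ, pow_succ]
        show _ = _ * (h ^ k * n * (h ^ k)⁻¹) * _
        rw [hgh]; group
    have hnil : IsNilpotent (A - 1) := ⟨p ^ r, by
      rw [← (geom_char (p := p) A r).2, hAdef, ← map_pow, ← hg, pow_orderOf_eq_one, map_one, sub_self]⟩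
    have hm0 : (A - 1) ^ m = 0 := by
      have h1 := (LinearMap.isNilpotent_iff_charpoly (A - 1)).mp hnil
      have h2 := LinearMap.aeval_self_charpoly (A - 1)
      rw [h1, hfr] at h2
      simpa using h2
    have h3 : (A - 1) ^ (p ^ (r - 1) - 1) = 0 := pow_eq_zero_of_le (by omega) hm0
    have h4 : A ^ (p ^ (r - 1)) = 1 := by
      rw [← sub_eq_zero, (geom_char (p := p) A (r - 1)).2]
      exact pow_eq_zero_of_le (by omega) hm0
    have h5 : h ^ (p ^ (r - 1)) = 1 := by
      apply FaithfulSMul.eq_of_smul_eq_smul (α := Ω)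
      intro x
      obtain ⟨k, rfl⟩ := MulAction.exists_smul_eq N ω x
      have h6 := hρ (h ^ (p ^ (r - 1))) (EA.mk hV k k.2)
      rw [map_pow, hA, h4] at h6
      have h7 : (k : G) = h ^ (p ^ (r - 1)) * k * (h ^ (p ^ (r - 1)))⁻¹ := h6
      have h8 : h ^ (p ^ (r - 1)) • ω = ω :=
        (MulAction.stabilizer G ω).pow_mem (MulAction.mem_stabilizer_iff.mpr hhω) _
      rw [one_smul]
      show h ^ (p ^ (r - 1)) • (k : G) • ω = (k : G) • ω
      rw [← mul_smul, eq_mul_inv_iff_mul_eq.mp h7 |>.symm, mul_smul, h8]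
    have h9 := hpow (p ^ (r - 1))
    rw [(geom_char (p := p) A (r - 1)).1, h3, h5, LinearMap.zero_apply, EA.val_zero, one_mul] at h9
    have h10 := orderOf_dvd_of_pow_eq_one h9
    rw [hg, Nat.pow_dvd_pow_iff_le_right hp.one_lt] at h10
    omega
  refine ⟨main, fun hrm => ?_⟩
  subst hrm
  have h2 : r ≤ 2 := two_pow_le r ((Nat.pow_le_pow_left hp.two_le _).trans main)
  refine ⟨h2, fun hp2 => ?_⟩
  by_contra h
  have : r = 2 := by omega
  subst this
  simp at main
  omega

end Cfsg.Agent.S3508
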