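import Cfsg.Statements.S3511

set_option autoImplicit false
open Cfsg

namespace Cfsg.Agent.S3511

theorem result {G : Type*} [Group G] [Finite G] {Ω : Type*} [MulAction G Ω] [FaithfulSMul G Ω]
    (h : ∀ g : G, Squarefree (orderOf g) → ∃ ω : Ω, MulAction.stabilizer (Subgroup.zpowers g) ω = ⊥) (g : G) :
    ∃ ω : Ω, MulAction.stabilizer (Subgroup.zpowers g) ω = ⊥ := by
  have hm : 0 < orderOf g := orderOf_pos g
  set r := ∏ p ∈ (orderOf g).primeFactors, p with hr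
  have hrd : r ∣ orderOf g := Nat.prod_primeFactors_dvd _
  obtain ⟨k, hk⟩ := hrd
  have hk0 : k ≠ 0 := by rintro rfl; rw [mul_zero] at hk; omega
  have hord : orderOf (g ^ k) = r := by
    rw [orderOf_pow' g hk0, Nat.gcd_eq_right ⟨r, by rw [hk, mul_comm]⟩, hk,
      Nat.mul_div_cancel _ (Nat.pos_of_ne_zero hk0)]
  have hsq : Squarefree r := by
    apply Finset.squarefree_prod_of_pairwise_isCoprime
    · intro p hp q hq hpq
      exact Nat.coprime_iff_isRelPrime.mp ((Nat.coprime_primes (Nat.prime_of_mem_primeFactors hp)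
        (Nat.prime_of_mem_primeFactors hq)).mpr hpq)
    · intro p hp
      exact (Nat.prime_of_mem_primeFactors hp).prime.squarefree
  obtain ⟨ω, hω⟩ := h (g ^ k) (hord ▸ hsq)
  refine ⟨ω, ?_⟩
  by_contra hne
  have h1 : Nat.card (MulAction.stabilizer (Subgroup.zpowers g) ω) ≠ 1 :=
    fun h => hne (Subgroup.card_eq_one.mp h)
  obtain ⟨p, hp, hpd⟩ := Nat.exists_prime_and_dvd h1
  have := Fact.mk hp
  obtain ⟨⟨⟨x, hxg⟩, hxω⟩, hx⟩ := exists_prime_orderOf_dvd_card' p hpd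
  rw [← Subgroup.orderOf_coe, ← Subgroup.orderOf_coe] at hx
  dsimp only at hx
  obtain ⟨j, rfl⟩ := (mem_powers_iff_mem_zpowers.mpr hxg)
  dsimp only at hx hxg hxω
  have hpm : p ∣ orderOf g := hx ▸ orderOf_pow_dvd j
  have hpr : p ∣ r := Finset.dvd_prod_of_mem _ (Nat.mem_primeFactors.mpr ⟨hp, hpm, hm.ne'⟩)
  have h2 : orderOf g ∣ j * p := by
    rw [orderOf_dvd_iff_pow_eq_one, pow_mul, ← hx, pow_orderOf_eq_one]
  obtain ⟨s, hs⟩ := hpr
  have h3 : k ∣ j := by
    rw [hk, hs, mul_assoc, mul_comm j p] at h2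
    exact (Dvd.intro_left s rfl).trans (Nat.dvd_of_mul_dvd_mul_left hp.pos h2)
  obtain ⟨i, rfl⟩ := h3
  have h4 : (⟨g ^ (k * i), by rw [pow_mul]; exact Subgroup.npow_mem_zpowers _ _⟩ :
      Subgroup.zpowers (g ^ k)) ∈ MulAction.stabilizer (Subgroup.zpowers (g ^ k)) ω := hxω
  rw [hω, Subgroup.mem_bot, Subtype.ext_iff] at h4
  dsimp only at h4
  rw [h4] at hx
  simp at hx
  exact hp.one_lt.ne hx

end Cfsg.Agent.S3511
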