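import Cfsg.Statements.S3514
import Cfsg.Agent.H19.Basic
import Cfsg.Agent.H21.Basic

set_option autoImplicit false
open Cfsg

namespace Cfsg.Agent.S3514

theorem card_orb {p : ℕ} [Fact p.Prime] {V : Type*} [AddCommGroup V] [Module (ZMod p) V]
    (H : Subgroup (V ≃ₗ[ZMod p] V)) (v : V) :
    Nat.card {u : V | ∃ h ∈ H, h v = u} =
      (MulAction.stabilizer (V ≃ₗ[ZMod p] V) v).relIndex H := by
  have h1 : (MulAction.stabilizer (V ≃ₗ[ZMod p] V) v).subgroupOf H = MulAction.stabilizer H v := by
    ext x; rfl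
  rw [Subgroup.relIndex, h1, MulAction.index_stabilizer, Nat.card_coe_set_eq]
  congr 1
  ext u
  simp only [Set.mem_setOf_eq, MulAction.mem_orbit_iff, Subtype.exists]
  constructor
  · rintro ⟨h, hh, rfl⟩; exact ⟨h, hh, rfl⟩
  · rintro ⟨h, hh, rfl⟩; exact ⟨h, hh, rfl⟩


/-- Let p be a prime, V a finite vector space over the field with p elements, and H a group of linear transformations of V all of whose orbits on V have size coprime to p. (i) Every normal subgroup K of H has all its orbits on V of size coprime to p. (ii) If N is a group of linear transformations of V of order coprime to p that is normalized by H, then the group generated by N and H has all its orbits on V of size coprime to p. -/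
theorem result (p : ℕ) [Fact p.Prime] {V : Type*} [AddCommGroup V] [Module (ZMod p) V] [Finite V]
    (H : Subgroup (V ≃ₗ[ZMod p] V)) (hH : ∀ v : V, ¬ p ∣ Nat.card {u : V | ∃ h ∈ H, h v = u}) :
    (∀ K : Subgroup (V ≃ₗ[ZMod p] V), K ≤ H → H ≤ Subgroup.normalizer (K : Set (V ≃ₗ[ZMod p] V)) →
        ∀ v : V, ¬ p ∣ Nat.card {u : V | ∃ k ∈ K, k v = u}) ∧
    (∀ N : Subgroup (V ≃ₗ[ZMod p] V), ¬ p ∣ Nat.card N → H ≤ Subgroup.normalizer (N : Set (V ≃ₗ[ZMod p] V)) →
        ∀ v : V, ¬ p ∣ Nat.card {u : V | ∃ x ∈ N ⊔ H, x v = u}) := by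
  haveI : Finite (V ≃ₗ[ZMod p] V) :=
    Finite.of_injective (fun e : V ≃ₗ[ZMod p] V => (e : V → V)) DFunLike.coe_injective
  have hp : p.Prime := Fact.out
  simp only [card_orb] at hH ⊢
  refine ⟨fun K hK hN v hd => hH v (hd.trans ?_), fun N hN hHN v hd => ?_⟩
  · haveI : (K.subgroupOf H).Normal := (Subgroup.normal_subgroupOf_iff_le_normalizer hK).mpr hN
    have := Cfsg.Agent.H19.relIndex_dvd_index_of_normal_right
      ((MulAction.stabilizer (V ≃ₗ[ZMod p] V) v).subgroupOf H) (K.subgroupOf H)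
    rwa [Subgroup.relIndex_subgroupOf hK] at this
  · set S := MulAction.stabilizer (V ≃ₗ[ZMod p] V) v
    have h1 : S.relIndex (N ⊔ H) ∣ (S ⊓ H).relIndex (N ⊔ H) :=
      Subgroup.relIndex_dvd_of_le_left _ inf_le_left
    rw [← Subgroup.relIndex_mul_relIndex (S ⊓ H) H (N ⊔ H) inf_le_right le_sup_right,
      Subgroup.inf_relIndex_right] at h1
    rcases (Nat.Prime.dvd_mul hp).mp (hd.trans h1) with h | h
    · exact hH v h
    · apply hN
      refine h.trans ?_
      have h2 := Cfsg.Agent.H21.card_sup_mul_card_inf hHN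
      rw [← Cfsg.Agent.H21.card_mul_relIndex_of_le (le_sup_right : H ≤ N ⊔ H), mul_assoc,
        mul_comm (Nat.card N)] at h2
      exact Dvd.intro _ (Nat.eq_of_mul_eq_mul_left Nat.card_pos h2)

end Cfsg.Agent.S3514
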