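import Cfsg.Statements.S3515
import Cfsg.Agent.H77.AffClo

set_option autoImplicit false
open Cfsg

namespace Cfsg.Agent.S3515

open Cfsg.Agent.H77

theorem key2 : (∀ x : Fin 2 → ZMod 2, x = 0 ∨ x = Pi.single 0 1 ∨ x = Pi.single 1 1 ∨ x = ![1, 1]) ∧
    (![1, 1] : Fin 2 → ZMod 2) ≠ 0 ∧ (![1, 1] : Fin 2 → ZMod 2) ≠ Pi.single 0 1 ∧
    (![1, 1] : Fin 2 → ZMod 2) ≠ Pi.single 1 1 := by decide

/-- Every primitive affine permutation group of degree p² is 3-closed. Let p be a prime and G a group of permutations of the plane V = F_p² consisting of affine maps x ↦ Ax + b, containing all translations, and acting primitively on V. Then any permutation σ of V that agrees on every triple of points with some element of G (σ preserves every G-orbit on ordered triples) already lies in G. -/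
theorem result (p : ℕ) [Fact p.Prime] (G : Subgroup (Equiv.Perm (Fin 2 → ZMod p)))
    (haff : (G : Set (Equiv.Perm (Fin 2 → ZMod p))) ⊆ {τ : Equiv.Perm (Fin 2 → ZMod p) | ∃ (A : (Fin 2 → ZMod p) ≃ₗ[ZMod p] (Fin 2 → ZMod p)) (b : Fin 2 → ZMod p), ∀ x, τ x = A x + b})
    (htrans : ∀ b : Fin 2 → ZMod p, ∃ g ∈ G, ∀ x, g x = x + b) (hprim : MulAction.IsPreprimitive G (Fin 2 → ZMod p))
    (σ : Equiv.Perm (Fin 2 → ZMod p)) (hσ : (∀ t : Fin 3 → (Fin 2 → ZMod p), ∃ g ∈ G, ∀ i, σ (t i) = g (t i))) : σ ∈ G := by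
  obtain ⟨g, hg, hgt⟩ := hσ ![0, Pi.single 0 1, Pi.single 1 1]
  have h0 : σ 0 = g 0 := hgt 0
  have h1 : σ (Pi.single 0 1) = g (Pi.single 0 1) := hgt 1
  have h2 : σ (Pi.single 1 1) = g (Pi.single 1 1) := hgt 2
  suffices σ = g by rw [this]; exact hg
  by_cases hp : p = 2
  · subst hp
    have key : ∀ x : Fin 2 → ZMod 2, x = 0 ∨ x = Pi.single 0 1 ∨ x = Pi.single 1 1 ∨ x = ![1, 1] :=
      key2.1
    have h3 : σ ![1, 1] = g ![1, 1] := by
      rcases key (g.symm (σ ![1, 1])) with h | h | h | h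
      · rw [Equiv.symm_apply_eq, ← h0] at h
        exact absurd (σ.injective h) key2.2.1
      · rw [Equiv.symm_apply_eq, ← h1] at h
        exact absurd (σ.injective h) key2.2.2.1
      · rw [Equiv.symm_apply_eq, ← h2] at h
        exact absurd (σ.injective h) key2.2.2.2
      · rwa [Equiv.symm_apply_eq] at h
    ext1 x
    rcases key x with h | h | h | h <;> rw [h] <;> assumption
  · have h2' : (2 : ZMod p) ≠ 0 := by
      intro h
      have : (p : ℕ) ∣ 2 := (ZMod.natCast_eq_zero_iff 2 p).mp (by exact_mod_cast h)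
      exact hp ((Nat.prime_dvd_prime_iff_eq Fact.out Nat.prime_two).mp this)
    obtain ⟨A, b, hA⟩ := affine_of_three_closure h2' σ fun t => by
      obtain ⟨g, hg, hgt⟩ := hσ t
      obtain ⟨A, b, hA⟩ := haff hg
      exact ⟨A, b, fun i => by rw [hgt i, hA]⟩
    obtain ⟨B, c, hB⟩ := haff hg
    rw [hA, hB] at h0 h1 h2
    simp only [map_zero, zero_add] at h0
    subst h0
    have h1' := add_right_cancel h1
    have h2'' := add_right_cancel h2
    ext1 x
    rw [hA, hB]
    have hx : x = x 0 • (Pi.single 0 1 : Fin 2 → ZMod p) + x 1 • (Pi.single 1 1 : Fin 2 → ZMod p) := by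
      ext i; fin_cases i <;> simp
    rw [hx, map_add, map_add, map_smul, map_smul, map_smul, map_smul, h1', h2'']

end Cfsg.Agent.S3515
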