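import Cfsg.Statements.S3516
import Cfsg.Agent.H77.AffClo

set_option autoImplicit false
open Cfsg

namespace Cfsg.Agent.S3516

open Cfsg.Agent.H77

/-- Let p be an odd prime, d ≥ 3, and G a group of affine permutations x ↦ Ax + b of V = F_p^d containing all translations and all maps x ↦ Ax with A of determinant 1. Then the 3-closure of G is the full affine group: a permutation σ of V agrees on every triple of points with some element of G if and only if σ is an affine map. -/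
theorem result (p : ℕ) [Fact p.Prime] (hp : p ≠ 2) (d : ℕ) (hd : 3 ≤ d) (G : Subgroup (Equiv.Perm (Fin d → ZMod p)))
    (haff : (G : Set (Equiv.Perm (Fin d → ZMod p))) ⊆ {τ : Equiv.Perm (Fin d → ZMod p) | ∃ (A : (Fin d → ZMod p) ≃ₗ[ZMod p] (Fin d → ZMod p)) (b : Fin d → ZMod p), ∀ x, τ x = A x + b})
    (htrans : ∀ b : Fin d → ZMod p, ∃ g ∈ G, ∀ x, g x = x + b)
    (hsl : ∀ A : (Fin d → ZMod p) ≃ₗ[ZMod p] (Fin d → ZMod p), LinearMap.det (A : (Fin d → ZMod p) →ₗ[ZMod p] (Fin d → ZMod p)) = 1 → ∃ g ∈ G, ∀ x, g x = A x)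
    (σ : Equiv.Perm (Fin d → ZMod p)) :
    (∀ t : Fin 3 → (Fin d → ZMod p), ∃ g ∈ G, ∀ i, σ (t i) = g (t i)) ↔ σ ∈ {τ : Equiv.Perm (Fin d → ZMod p) | ∃ (A : (Fin d → ZMod p) ≃ₗ[ZMod p] (Fin d → ZMod p)) (b : Fin d → ZMod p), ∀ x, τ x = A x + b} := by
  have h2 : (2 : ZMod p) ≠ 0 := by
    intro h
    have : (p : ℕ) ∣ 2 := (ZMod.natCast_eq_zero_iff 2 p).mp (by exact_mod_cast h)
    exact hp ((Nat.prime_dvd_prime_iff_eq Fact.out Nat.prime_two).mp this)
  constructor
  · intro h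
    refine affine_of_three_closure h2 σ fun t => ?_
    obtain ⟨g, hg, hgt⟩ := h t
    obtain ⟨A, b, hA⟩ := haff hg
    exact ⟨A, b, fun i => by rw [hgt i, hA]⟩
  · rintro ⟨A, b, hA⟩ t
    let W : Submodule (ZMod p) (Fin d → ZMod p) :=
      Submodule.span (ZMod p) (Set.range ![t 1 - t 0, t 2 - t 0])
    have hW : W < ⊤ := by
      apply Submodule.lt_top_of_finrank_lt_finrank
      have := finrank_range_le_card (R := ZMod p) ![t 1 - t 0, t 2 - t 0]
      simp only [Fintype.card_fin, Module.finrank_fintype_fun_eq_card] at this ⊢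
      exact lt_of_le_of_lt this (by omega)
    obtain ⟨B, hB, hBW⟩ := exists_det_one_eq_on W hW A
    obtain ⟨g, hg, hgB⟩ := hsl B hB
    obtain ⟨k, hk, hkt⟩ := htrans (A (t 0) + b - B (t 0))
    have h1 : B (t 1 - t 0) = A (t 1 - t 0) := hBW _ (Submodule.subset_span ⟨0, rfl⟩)
    have h2 : B (t 2 - t 0) = A (t 2 - t 0) := hBW _ (Submodule.subset_span ⟨1, rfl⟩)
    rw [map_sub, map_sub] at h1 h2
    refine ⟨k * g, G.mul_mem hk hg, fun i => ?_⟩
    rw [Equiv.Perm.mul_apply, hkt, hgB, hA]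
    fin_cases i
    · simp
    · show A (t 1) + b = B (t 1) + (A (t 0) + b - B (t 0))
      rw [sub_eq_iff_eq_add.mp h1]; abel
    · show A (t 2) + b = B (t 2) + (A (t 0) + b - B (t 0))
      rw [sub_eq_iff_eq_add.mp h2]; abel

end Cfsg.Agent.S3516
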