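import Cfsg.Statements.S3517
import Cfsg.Agent.H77.AffClo

set_option autoImplicit false
open Cfsg

namespace Cfsg.Agent.S3517

open Cfsg.Agent.H77

theorem one_vec {V : Type*} [AddCommGroup V] [Module (ZMod 2) V] [Finite V] (u v : V)
    (h : u = 0 ↔ v = 0) : ∃ A : V ≃ₗ[ZMod 2] V, A u = v := by
  by_cases hu : u = 0
  · exact ⟨LinearEquiv.refl _ _, by rw [hu, h.mp hu]; rfl⟩
  · have hv : v ≠ 0 := fun h' => hu (h.mpr h')
    obtain ⟨A, hA⟩ := exists_equiv_of_li (K := ZMod 2) 1 ![u] ![v]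
      (linearIndependent_unique_iff.mpr (by simpa using hu))
      (linearIndependent_unique_iff.mpr (by simpa using hv))
    exact ⟨A, hA 0⟩

theorem li_two {V : Type*} [AddCommGroup V] [Module (ZMod 2) V] (u v : V) (hu : u ≠ 0) (hv : v ≠ 0)
    (huv : u ≠ v) : LinearIndependent (ZMod 2) ![u, v] := by
  rw [LinearIndependent.pair_iff' hu]
  intro a
  have : ∀ a : ZMod 2, a = 0 ∨ a = 1 := by decide
  rcases this a with rfl | rfl
  · simpa using hv.symm
  · simpa using huv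

theorem two_vec {V : Type*} [AddCommGroup V] [Module (ZMod 2) V] [Finite V] (u v u' v' : V)
    (h : u = 0 ↔ v = 0) (h' : u' = 0 ↔ v' = 0) (h2 : u = u' ↔ v = v') :
    ∃ A : V ≃ₗ[ZMod 2] V, A u = v ∧ A u' = v' := by
  by_cases hu : u = 0
  · obtain ⟨A, hA⟩ := one_vec u' v' h'
    exact ⟨A, by rw [hu, h.mp hu, map_zero], hA⟩
  by_cases hu' : u' = 0
  · obtain ⟨A, hA⟩ := one_vec u v h
    exact ⟨A, hA, by rw [hu', h'.mp hu', map_zero]⟩
  by_cases huu : u = u'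
  · obtain ⟨A, hA⟩ := one_vec u v h
    exact ⟨A, hA, by rw [← huu, ← h2.mp huu, hA]⟩
  obtain ⟨A, hA⟩ := exists_equiv_of_li (K := ZMod 2) 2 ![u, u'] ![v, v'] (li_two _ _ hu hu' huu)
    (li_two _ _ (fun e => hu (h.mpr e)) (fun e => hu' (h'.mpr e)) (fun e => huu (h2.mpr e)))
  exact ⟨A, hA 0, hA 1⟩


/-- For d ≥ 3, the 3-closure of the affine group AGL_d(2) acting on F_2^d is the full symmetric group: every permutation of F_2^d agrees on every ordered triple of points with some affine map (AGL_d(2) is 3-transitive). -/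
theorem result (d : ℕ) (hd : 3 ≤ d) (σ : Equiv.Perm (Fin d → ZMod 2)) (t : Fin 3 → (Fin d → ZMod 2)) :
    ∃ (A : (Fin d → ZMod 2) ≃ₗ[ZMod 2] (Fin d → ZMod 2)) (b : Fin d → ZMod 2), ∀ i, σ (t i) = A (t i) + b := by
  obtain ⟨A, h1, h2⟩ := two_vec (t 1 - t 0) (σ (t 1) - σ (t 0)) (t 2 - t 0) (σ (t 2) - σ (t 0))
    (by rw [sub_eq_zero, sub_eq_zero, σ.apply_eq_iff_eq])
    (by rw [sub_eq_zero, sub_eq_zero, σ.apply_eq_iff_eq])
    (by rw [sub_left_inj, sub_left_inj, σ.apply_eq_iff_eq])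
  refine ⟨A, σ (t 0) - A (t 0), fun i => ?_⟩
  rw [map_sub] at h1 h2
  fin_cases i
  · simp
  · show σ (t 1) = A (t 1) + (σ (t 0) - A (t 0))
    rw [sub_eq_iff_eq_add.mp h1]; abel
  · show σ (t 2) = A (t 2) + (σ (t 0) - A (t 0))
    rw [sub_eq_iff_eq_add.mp h2]; abel

end Cfsg.Agent.S3517
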