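import Cfsg.Statements.S3518
import Cfsg.Agent.H24.PrimeDegree2

set_option autoImplicit false
open Cfsg

namespace Cfsg.Agent.S3518

/-- The `k`-closure of a permutation group. -/
def clo {α : Type*} (G : Subgroup (Equiv.Perm α)) (k : ℕ) : Subgroup (Equiv.Perm α) where
  carrier := {σ | ∀ t : Fin k → α, ∃ g ∈ G, ∀ i, σ (t i) = g (t i)}
  one_mem' := fun _ => ⟨1, G.one_mem, fun _ => rfl⟩
  mul_mem' := by
    intro σ τ hσ hτ t
    obtain ⟨g2, hg2, h2⟩ := hτ t
    obtain ⟨g1, hg1, h1⟩ := hσ (fun i => τ (t i))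
    exact ⟨g1 * g2, G.mul_mem hg1 hg2, fun i => by
      simp only [Equiv.Perm.coe_mul, Function.comp_apply]; rw [h1 i, h2 i]⟩
  inv_mem' := by
    intro σ hσ t
    obtain ⟨g, hg, h⟩ := hσ (fun i => σ⁻¹ (t i))
    refine ⟨g⁻¹, G.inv_mem hg, fun i => ?_⟩
    have := h i
    simp only [Equiv.Perm.coe_inv, Equiv.apply_symm_apply] at this
    rw [Equiv.Perm.coe_inv, Equiv.Perm.coe_inv, Equiv.eq_symm_apply]
    exact this.symm

theorem aff_two (p : ℕ) [Fact p.Prime] (x y u v : ZMod p) (hxy : x ≠ y) (huv : u ≠ v) :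
    ∃ g ∈ Cfsg.affineGroup (ZMod p), g x = u ∧ g y = v := by
  have h1 : x - y ≠ 0 := sub_ne_zero.mpr hxy
  have h2 : u - v ≠ 0 := sub_ne_zero.mpr huv
  have ha : (u - v) / (x - y) ≠ 0 := div_ne_zero h2 h1
  refine ⟨(Equiv.mulLeft₀ _ ha).trans (Equiv.addRight (u - (u - v) / (x - y) * x)),
    ⟨Units.mk0 _ ha, u - (u - v) / (x - y) * x, fun z => rfl⟩, ?_, ?_⟩
  · show (u - v) / (x - y) * x + (u - (u - v) / (x - y) * x) = u
    ring
  · show (u - v) / (x - y) * y + (u - (u - v) / (x - y) * x) = v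
    field_simp
    ring

theorem aff_ext (p : ℕ) [Fact p.Prime] (g : Equiv.Perm (ZMod p)) (hg : g ∈ Cfsg.affineGroup (ZMod p))
    (x : ZMod p) : g x = (g 1 - g 0) * x + g 0 := by
  obtain ⟨a, b, h⟩ := hg
  rw [h x, h 1, h 0]; ring


/-- Closures of subgroups of the one-dimensional affine group. Let p be a prime and G a group of permutations of F_p lying in the affine group AGL₁(p) = {x ↦ ax + b, a ≠ 0} and containing all translations. (1) If G is a proper subgroup of AGL₁(p), then G is 2-closed: a permutation of F_p agreeing on every ordered pair of points with some element of G lies in G. (2) Every permutation of F_p agrees on every ordered pair with some element of AGL₁(p) (the 2-closure of AGL₁(p) is the symmetric group). (3) AGL₁(p) is 3-closed: a permutation agreeing on every ordered triple with some affine map is affine. -/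
theorem result (p : ℕ) [Fact p.Prime] (G : Subgroup (Equiv.Perm (ZMod p))) (hG : G ≤ Cfsg.affineGroup (ZMod p))
    (htrans : ∀ b : ZMod p, ∃ g ∈ G, ∀ x, g x = x + b) :
    (G ≠ Cfsg.affineGroup (ZMod p) → ∀ σ : Equiv.Perm (ZMod p), (∀ t : Fin 2 → ZMod p, ∃ g ∈ G, ∀ i, σ (t i) = g (t i)) → σ ∈ G) ∧
    (∀ σ : Equiv.Perm (ZMod p), (∀ t : Fin 2 → ZMod p, ∃ g ∈ Cfsg.affineGroup (ZMod p), ∀ i, σ (t i) = g (t i))) ∧
    (∀ σ : Equiv.Perm (ZMod p), (∀ t : Fin 3 → ZMod p, ∃ g ∈ Cfsg.affineGroup (ZMod p), ∀ i, σ (t i) = g (t i)) → σ ∈ Cfsg.affineGroup (ZMod p)) := by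
  refine ⟨fun hne σ hσ => ?_, fun σ t => ?_, fun σ hσ => ?_⟩
  · have hle : G ≤ clo G 2 := fun g hg _ => ⟨g, hg, fun _ => rfl⟩
    obtain ⟨s, hs, hs1⟩ := htrans 1
    haveI : MulAction.IsPretransitive (clo G 2) (ZMod p) := ⟨fun x y => by
      obtain ⟨g, hg, h⟩ := htrans (y - x)
      exact ⟨⟨g, hle hg⟩, by show g x = y; rw [h]; ring⟩⟩
    by_cases haff : ∀ g : clo G 2, ∃ a b : ZMod p, ∀ x, (Equiv.refl (ZMod p)) (g • x) = a * (Equiv.refl (ZMod p)) x + b
    · obtain ⟨a, b, h⟩ := haff ⟨σ, hσ⟩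
      obtain ⟨g, hg, h2⟩ := hσ ![0, 1]
      have h0 : σ 0 = g 0 := h2 0
      have h1 : σ 1 = g 1 := h2 1
      have hh : ∀ x, σ x = a * x + b := h
      have : σ = g := by
        ext x
        rw [aff_ext p g (hG hg) x, ← h0, ← h1, hh x, hh 1, hh 0]; ring
      rw [this]; exact hg
    · exfalso
      have h2 := Cfsg.Agent.H24.two_transitive_of_not_affine (G := clo G 2) (Equiv.refl (ZMod p))
        ⟨s, hle hs⟩ hs1 haff
      apply hne
      refine le_antisymm hG fun g hg => ?_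
      rw [MulAction.is_two_pretransitive_iff] at h2
      obtain ⟨c, hc0, hc1⟩ := h2 (zero_ne_one (α := ZMod p)) (g.injective.ne (zero_ne_one (α := ZMod p)))
      obtain ⟨k, hk, h3⟩ := c.2 ![0, 1]
      have h0 : k 0 = g 0 := (h3 0).symm.trans hc0
      have h1 : k 1 = g 1 := (h3 1).symm.trans hc1
      have : g = k := by
        ext x
        rw [aff_ext p g hg x, aff_ext p k (hG hk) x, h0, h1]
      rw [this]; exact hk
  · by_cases h : t 0 = t 1
    · refine ⟨Equiv.addRight (σ (t 0) - t 0), ⟨1, σ (t 0) - t 0, fun x => by simp⟩, fun i => ?_⟩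
      fin_cases i
      · simp
      · simp [h]
    · obtain ⟨g, hg, h0, h1⟩ := aff_two p _ _ _ _ h (σ.injective.ne h)
      refine ⟨g, hg, fun i => ?_⟩
      fin_cases i
      · exact h0.symm
      · exact h1.symm
  · have key : ∀ x, σ x = (σ 1 - σ 0) * x + σ 0 := by
      intro x
      obtain ⟨g, hg, h⟩ := hσ ![0, 1, x]
      have h0 : σ 0 = g 0 := h 0
      have h1 : σ 1 = g 1 := h 1
      have h2 : σ x = g x := h 2
      rw [h2, h1, h0]; exact aff_ext p g hg x
    have hne : σ 1 - σ 0 ≠ 0 := sub_ne_zero.mpr (σ.injective.ne one_ne_zero)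
    exact ⟨Units.mk0 _ hne, σ 0, key⟩

end Cfsg.Agent.S3518
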