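import Cfsg.Statements.S3547
import Cfsg.Agent.H77.Derange

set_option autoImplicit false
open Cfsg

namespace Cfsg.Agent.S3547

open Cfsg.Agent.H77 MulAction

theorem result {G Ω : Type*} [Group G] [Finite G] [MulAction G Ω] [FaithfulSMul G Ω] [Finite Ω]
    (htrans : MulAction.IsPretransitive G Ω) :
    Nat.card (MulAction.orbitRel.Quotient ↥(Subgroup.closure {g : G | ∀ ω : Ω, g • ω ≠ ω}) (Ω × Ω)) - 1 =
      (Nat.card (MulAction.orbitRel.Quotient G (Ω × Ω)) - 1) * (Subgroup.closure {g : G | ∀ ω : Ω, g • ω ≠ ω}).index := by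
  classical
  rcases isEmpty_or_nonempty Ω with h | h
  · simp
  set D := Subgroup.closure {g : G | ∀ ω : Ω, g • ω ≠ ω} with hD
  obtain ⟨-, h2⟩ := of_derangements_mem (Ω := Ω) D fun g hg => Subgroup.subset_closure hg
  have := Fintype.ofFinite G
  have h1 := sum_card_fixedBy (G := G) (Ω := Ω × Ω)
  rw [← Finset.sum_filter_add_sum_filter_not _ (· ∈ D), sum_filter_card_fixedBy] at h1
  have h3 : ∑ g ∈ Finset.univ.filter (fun g => ¬ g ∈ D), Nat.card (fixedBy (Ω × Ω) g) =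
      ∑ _g ∈ Finset.univ.filter (fun g => ¬ g ∈ D), 1 := by
    apply Finset.sum_congr rfl
    intro g hg
    rw [card_fixedBy_prod, h2 g (Finset.mem_filter.mp hg).2, one_pow]
  have h4 : Nat.card D + ∑ _g ∈ Finset.univ.filter (fun g => ¬ g ∈ D), 1 = Nat.card G := by
    rw [Nat.card_eq_fintype_card, Fintype.card_subtype, Nat.card_eq_fintype_card,
      ← Finset.card_eq_sum_ones, Finset.card_filter_add_card_filter_not, Finset.card_univ]
  have h5 : 0 < Nat.card (orbitRel.Quotient D (Ω × Ω)) := card_orbits_pos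
  have h5' : 0 < Nat.card (orbitRel.Quotient G (Ω × Ω)) := card_orbits_pos
  have h6 : 0 < Nat.card D := Nat.card_pos
  have h7 := D.card_mul_index
  rw [h3] at h1
  obtain ⟨a, ha⟩ : ∃ a, Nat.card (orbitRel.Quotient D (Ω × Ω)) = a + 1 := ⟨_, (Nat.succ_pred_eq_of_pos h5).symm⟩
  obtain ⟨b, hb⟩ : ∃ b, Nat.card (orbitRel.Quotient G (Ω × Ω)) = b + 1 := ⟨_, (Nat.succ_pred_eq_of_pos h5').symm⟩
  rw [ha, hb] at h1 ⊢
  simp only [Nat.add_sub_cancel]
  apply Nat.eq_of_mul_eq_mul_right h6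
  nlinarith

end Cfsg.Agent.S3547
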