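import Cfsg.Statements.S3560

set_option autoImplicit false
open Cfsg

namespace Cfsg.Agent.S3560

open Equiv MulAction Function

theorem exists_perm {β : Type*} {a b c d : β} (h : a ≠ b) (h' : c ≠ d) :
    ∃ σ : Perm β, σ a = c ∧ σ b = d := by
  classical
  refine ⟨swap (swap a c b) d * swap a c, ?_, by simp⟩
  rw [Perm.mul_apply, swap_apply_left, swap_apply_of_ne_of_ne _ h']
  exact fun e => h ((swap a c).injective ((swap_apply_left _ _).trans e))

variable {α ι β : Type*} (c : α ≃ (ι → β))

/-- the automorphism group of the Hamming graph -/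
def ham : Subgroup (Perm α) where
  carrier := {g | ∀ a b, (∃! i, c (g a) i ≠ c (g b) i) ↔ ∃! i, c a i ≠ c b i}
  one_mem' := fun _ _ => Iff.rfl
  mul_mem' := fun ha hb _ _ => (ha _ _).trans (hb _ _)
  inv_mem' := fun {g} hg a b => by simpa using (hg (g⁻¹ a) (g⁻¹ b)).symm

theorem mem_ham {g : Perm α} (π : Perm ι) (σ : ι → Perm β)
    (h : ∀ a k, c (g a) k = σ k (c a (π k))) : g ∈ ham c := fun a b =>
  π.existsUnique_congr fun k => by simp [h]

theorem exists_ham (π : Perm ι) (σ : ι → Perm β) :
    ∃ g : ham c, ∀ a k, c (g • a) k = σ k (c a (π k)) :=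
  have h : ∀ a k, c ((c.symm.permCongr ((arrowCongr π.symm (Equiv.refl β)).trans
    (piCongrRight σ))) a) k = σ k (c a (π k)) := by simp
  ⟨⟨_, mem_ham c π σ h⟩, h⟩

theorem ham_prim [Finite ι] (hβ : ∀ x y : β, ∃ z, x ≠ z ∧ y ≠ z) : IsPreprimitive (ham c) α := by
  classical
  refine { exists_smul_eq := fun x y => ?_, isTrivialBlock_of_isBlock := fun {B} hB => ?_ }
  · obtain ⟨g, hg⟩ := exists_ham c 1 fun k => swap (c x k) (c y k)
    exact ⟨g, c.injective (funext fun k => by simp [hg])⟩
  refine or_iff_not_imp_left.2 fun h => ?_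
  obtain ⟨x, hx, y, hy, hxy⟩ := Set.not_subsingleton_iff.1 h
  have key : ∀ (g : ham c) (u v : α), u ∈ B → g • u ∈ B → v ∈ B → g • v ∈ B :=
    fun g u v hu hg hv => hB.smul_eq_of_mem hu hg ▸ Set.smul_mem_smul_set hv
  obtain ⟨i, hi⟩ := Function.ne_iff.1 (c.injective.ne hxy)
  obtain ⟨z, h1, h2⟩ := hβ (c x i) (c y i)
  have h3 : c.symm (update (c y) i z) ∈ B := by
    obtain ⟨g, hg⟩ := exists_ham c 1 (update 1 i (swap (c y i) z))
    convert key g x y hx (by
      convert hx
      refine c.injective (funext fun k => ?_)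
      by_cases hk : k = i
      · simp [hg, hk, swap_apply_of_ne_of_ne hi h1]
      · simp [hg, hk]) hy
    refine c.injective (funext fun k => ?_)
    by_cases hk : k = i <;> simp [hg, hk]
  have h4 : ∀ w ∈ B, ∀ j u, c.symm (update (c w) j u) ∈ B := fun w hw j u => by
    by_cases hu : c w j = u
    · simpa [← hu] using hw
    obtain ⟨σ, s1, s2⟩ := exists_perm h2 hu
    obtain ⟨g, hg⟩ := exists_ham c (swap i j)
      (update (fun k => swap (c y (swap i j k)) (c w k)) j σ)
    convert key g y _ hy (by
      convert hw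
      refine c.injective (funext fun k => ?_)
      by_cases hk : k = j <;> simp [hg, hk, s1]) h3
    refine c.injective (funext fun k => ?_)
    by_cases hk : k = j
    · simp [hg, hk, s2]
    · have : swap i j k ≠ i := fun e => hk ((swap i j).injective (e.trans (by simp)))
      simp [hg, hk, this]
  have := Fintype.ofFinite ι
  refine Set.eq_univ_of_forall fun w => ?_
  have h5 : ∀ s : Finset ι, c.symm (s.piecewise (c w) (c x)) ∈ B := fun s => by
    induction s using Finset.induction_on with
    | empty => simpa using hx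
    | insert j s hj ih => simpa [Finset.piecewise_insert] using h4 _ ih j (c w j)
  simpa using h5 Finset.univ


/-- Let K be a finite group isomorphic to a direct product of r ≥ 2 groups all of the same order m ≥ 3. Then K is not a B-group: there is a primitive but not doubly transitive permutation group (on some finite set) containing a regular subgroup isomorphic to K. -/
theorem result {K : Type*} [Group K] [Finite K] {ι : Type*} [Fintype ι] (F : ι → Type*) [∀ i, Group (F i)]
    (hr : 2 ≤ Fintype.card ι) (m : ℕ) (hm : 3 ≤ m) (hcard : ∀ i, Nat.card (F i) = m) (e : K ≃* (∀ i, F i)) :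
    ∃ (n : ℕ) (G R : Subgroup (Equiv.Perm (Fin n))), R ≤ G ∧ Nonempty (↥R ≃* K) ∧
      MulAction.IsPretransitive ↥R (Fin n) ∧ (∀ a : Fin n, MulAction.stabilizer ↥R a = ⊥) ∧
      MulAction.IsPreprimitive ↥G (Fin n) ∧ ¬ MulAction.IsMultiplyPretransitive ↥G (Fin n) 2 := by
  classical
  have hF : ∀ i, Finite (F i) := fun i => Nat.finite_of_card_ne_zero (by rw [hcard]; omega)
  let b : ∀ i, F i ≃ Fin m := fun i => Finite.equivFinOfCardEq (hcard i)
  let d := (Finite.equivFin K).symm
  let c := d.trans (e.toEquiv.trans (piCongrRight b))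
  let ρ : K →* Perm (Fin (Nat.card K)) := d.symm.permCongrHom.toMonoidHom.comp (toPermHom K K)
  have hρ : ∀ k a, d (ρ k a) = k * d a := by simp [ρ]
  have hi : Injective ρ := fun k l h => by simpa [hρ] using congrArg (fun g => d (g (d.symm 1))) h
  refine ⟨_, ham c, ρ.range, ?_, ⟨(MonoidHom.ofInjective hi).symm⟩, ⟨fun x y =>
    ⟨⟨_, d y * (d x)⁻¹, rfl⟩, d.injective ((hρ _ _).trans (by simp))⟩⟩, fun a => ?_,
    ham_prim c fun x y => ?_, fun h => ?_⟩
  · rintro _ ⟨k, rfl⟩
    exact mem_ham c 1 (fun i => (b i).permCongr (Equiv.mulLeft (e k i))) (by simp [c, hρ])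
  · refine eq_bot_iff.2 ?_
    rintro ⟨_, k, rfl⟩ hk
    have := (hρ k a).symm.trans (congrArg d hk)
    simpa [mul_eq_right.1 this] using (Subgroup.mem_bot (x := (1 : ρ.range))).2 rfl
  · obtain ⟨z, -, hz⟩ := Finset.exists_mem_notMem_of_card_lt_card (s := {x, y}) (t := Finset.univ)
      (Finset.card_le_two.trans_lt (by rw [Finset.card_fin]; exact hm))
    exact ⟨z, by simpa [eq_comm] using hz⟩
  · obtain ⟨i, j, hij⟩ := Fintype.exists_pair_of_one_lt_card hr
    let u : Fin m := ⟨0, by omega⟩
    let v : Fin m := ⟨1, by omega⟩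
    have huv : u ≠ v := by simp [u, v]
    rw [is_two_pretransitive_iff] at h
    obtain ⟨g, h1, h2⟩ := @h (c.symm fun _ => u)
      (c.symm (update (fun _ => u) i v)) (c.symm fun _ => u) (c.symm fun _ => v)
      (c.symm.injective.ne fun h => huv (by simpa using congrFun h i))
      (c.symm.injective.ne fun h => huv (congrFun h i))
    have := (g.2 _ _).2 (⟨i, by simpa using huv, fun k hk => by
      by_contra h; simp [h] at hk⟩ : ∃! k, c (c.symm fun _ => u) k ≠
        c (c.symm (update (fun _ => u) i v)) k)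
    rw [show g.1 _ = _ from h1, show g.1 _ = _ from h2] at this
    exact hij (this.unique (by simpa using huv) (by simpa using huv))

end Cfsg.Agent.S3560
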