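import Cfsg.Statements.S3571
import Cfsg.Agent.H89.Der2
import Cfsg.Agent.S2119

set_option autoImplicit false
open Cfsg

namespace Cfsg.Agent.S3571

open scoped Pointwise

/-- Let G be an almost simple group whose socle is an alternating group of degree m ≥ 5 (G has a normal subgroup T isomorphic to that alternating group with trivial centralizer), acting faithfully and primitively on a finite set Ω with at least two points, and let r be the largest prime divisor of the number of points. Then G contains an element of order r fixing no point. -/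
theorem result {G Ω : Type*} [Group G] [Finite G] [MulAction G Ω] [FaithfulSMul G Ω] [Finite Ω]
    (T : Subgroup G) (hT : T.Normal) (hTc : Subgroup.centralizer (T : Set G) = ⊥) (m : ℕ) (hm : 5 ≤ m)
    (eT : ↥T ≃* ↥(alternatingGroup (Fin m))) (hprim : MulAction.IsPreprimitive G Ω) (hΩ : 2 ≤ Nat.card Ω)
    (r : ℕ) (hr : r.Prime) (hrd : r ∣ Nat.card Ω) (hmax : ∀ s : ℕ, s.Prime → s ∣ Nat.card Ω → s ≤ r) :
    ∃ g : G, orderOf g = r ∧ ∀ ω : Ω, g • ω ≠ ω := by
  classical
  have : Nontrivial Ω := Finite.one_lt_card_iff_nontrivial.1 hΩ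
  have : Nontrivial (Fin m) := Fin.nontrivial_iff_two_le.2 (by omega)
  obtain ⟨ω₀⟩ : Nonempty Ω := inferInstance
  let ψ : alternatingGroup (Fin m) →* G := T.subtype.comp eT.symm.toMonoidHom
  have ψi : Function.Injective ψ := T.subtype_injective.comp eT.symm.injective
  have hA : MulAction.IsPretransitive (alternatingGroup (Fin m)) (Fin m) :=
    alternatingGroup.isPretransitive_of_three_le_card _ (by simp; omega)
  have tr : MulAction.IsPretransitive T Ω :=
    MulAction.IsQuasiPreprimitive.isPretransitive_of_normal fun h => by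
      obtain ⟨a, b, hab⟩ := exists_pair_ne (Fin m)
      obtain ⟨g, hg⟩ := hA.exists_smul_eq a b
      have : ψ g = 1 := FaithfulSMul.eq_of_smul_eq_smul (α := Ω) fun ω => by
        rw [one_smul]
        exact (Set.eq_univ_iff_forall.1 h ω) (eT.symm g)
      rw [(map_eq_one_iff ψ ψi).1 this, one_smul] at hg
      exact hab hg
  have tr' : ∀ ω : Ω, ∃ c, ψ c • ω = ω₀ := fun ω => by
    obtain ⟨t, ht⟩ := tr.exists_smul_eq ω ω₀
    exact ⟨eT t, by simpa [ψ, Subgroup.smul_def] using ht⟩
  have hi : ((MulAction.stabilizer G ω₀).comap ψ).index = Nat.card Ω := by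
    let _ := MulAction.compHom Ω ψ
    have : MulAction.IsPretransitive (alternatingGroup (Fin m)) Ω := ⟨fun x y => by
      obtain ⟨t, ht⟩ := tr.exists_smul_eq x y
      refine ⟨eT t, ?_⟩
      change ψ (eT t) • x = y
      simpa [ψ, Subgroup.smul_def] using ht⟩
    exact MulAction.index_stabilizer_of_transitive (alternatingGroup (Fin m)) ω₀
  obtain ⟨g, g1, g2⟩ := H89.Der.core hm ((MulAction.stabilizer G ω₀).comap ψ) hr (hi ▸ hrd) (hi ▸ hmax) (by
    intro h6 J J0 J1 hJ g hg
    let e := MulEquiv.ofBijective _ (S2119.result m (by omega) h6)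
    let φ : G →* Equiv.Perm (Fin m) :=
      e.symm.toMonoidHom.comp ((MulAut.congr eT).toMonoidHom.comp MulAut.conjNormal)
    have φ1 : ∀ x a, ψ (MulAut.conjNormal (φ x) a) = x * ψ a * x⁻¹ := fun x a => by
      have : MulAut.conjNormal (φ x) = MulAut.congr eT (MulAut.conjNormal x) := e.apply_symm_apply _
      rw [this]
      simp [ψ]
    have φ2 : ∀ a, φ (ψ a) = a.1 := fun a => (S2119.result m (by omega) h6).1 (by
      ext1 b
      refine ψi ?_
      rw [φ1, ← map_inv, ← map_mul, ← map_mul]
      rfl)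
    have h1 : MulAction.stabilizer G ω₀ ≤ (MulAction.stabilizer (Equiv.Perm (Fin m)) J).comap φ :=
      fun x hx => MulAction.mem_stabilizer_finset.2 (hJ (φ x) fun h hh => by
        rw [Subgroup.mem_comap, φ1]
        exact mul_mem (mul_mem hx hh) (inv_mem hx))
    have h2 : (MulAction.stabilizer (Equiv.Perm (Fin m)) J).comap φ ≠ ⊤ := fun h => by
      obtain ⟨a, ha⟩ := J0
      refine J1 (Finset.eq_univ_of_forall fun b => ?_)
      obtain ⟨k, rfl⟩ := hA.exists_smul_eq a b
      have := h.ge (Subgroup.mem_top (ψ k))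
      rw [Subgroup.mem_comap, φ2] at this
      exact (MulAction.mem_stabilizer_finset.1 this a).2 ha
    have h3 := ((MulAction.IsPreprimitive.isCoatom_stabilizer_of_isPreprimitive G ω₀).le_iff.1 h1).resolve_left h2
    rw [Subgroup.mem_comap, ← h3, Subgroup.mem_comap, φ2]
    exact MulAction.mem_stabilizer_finset.2 hg)
  refine ⟨ψ g, by rw [orderOf_injective ψ ψi, g1], fun ω h => ?_⟩
  obtain ⟨c, rfl⟩ := tr' ω
  refine g2 c ?_
  rw [Subgroup.mem_comap, MulAction.mem_stabilizer_iff, map_mul, map_mul, map_inv, mul_smul, mul_smul,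
    inv_smul_smul, h]

end Cfsg.Agent.S3571
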