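import Cfsg.Statements.S3573
import Mathlib

set_option autoImplicit false
open Cfsg

namespace Cfsg.Agent.S3573


open Equiv Finset

theorem image_eq_of_maps {n : ℕ} {σ : Perm (Fin n)} {s : Finset (Fin n)}
    (h : ∀ x ∈ s, σ x ∈ s) : s.image σ = s :=
  Finset.eq_of_subset_of_card_le (by
    intro y hy
    obtain ⟨x, hx, rfl⟩ := Finset.mem_image.1 hy
    exact h x hx) (by rw [Finset.card_image_of_injective _ σ.injective])

theorem exists_inv {n r : ℕ} (hr : r.Prime) {σ : Perm (Fin n)} (hσ : orderOf σ = r) {a b : ℕ}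
    (ha : a ≤ σ.cycleType.card) (hb : b ≤ σ.supportᶜ.card) :
    ∃ s : Finset (Fin n), s.card = a * r + b ∧ s.image σ = s := by
  haveI : Fact r.Prime := ⟨hr⟩
  have h1 := Perm.cycleType_of_pow_prime_eq_one (σ := σ) (p := r)
    (by rw [← hσ, pow_orderOf_eq_one])
  have h2 : ∀ c ∈ σ.cycleFactorsFinset, c.support.card = r := by
    intro c hc
    apply Multiset.eq_of_mem_replicate (n := σ.cycleType.card)
    rw [← h1, Perm.cycleType_def]
    exact Multiset.mem_map.2 ⟨c, hc, rfl⟩
  have h3 : a ≤ σ.cycleFactorsFinset.card := by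
    rw [Perm.cycleType_def, Multiset.card_map] at ha
    exact ha
  obtain ⟨T, hT, hTc⟩ := Finset.exists_subset_card_eq h3
  obtain ⟨B, hB, hBc⟩ := Finset.exists_subset_card_eq hb
  refine ⟨T.biUnion Perm.support ∪ B, ?_, image_eq_of_maps ?_⟩
  · rw [Finset.card_union_of_disjoint, Finset.card_biUnion, hBc,
      Finset.sum_congr rfl fun c hc => h2 c (hT hc), Finset.sum_const, hTc, smul_eq_mul]
    · intro c hc d hd hcd
      exact (σ.cycleFactorsFinset_pairwise_disjoint (hT hc) (hT hd) hcd).disjoint_support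
    · rw [Finset.disjoint_left]
      intro x hx hxB
      obtain ⟨c, hc, hxc⟩ := Finset.mem_biUnion.1 hx
      exact Finset.mem_compl.1 (hB hxB) (Perm.mem_cycleFactorsFinset_support_le (hT hc) hxc)
  · intro x hx
    rcases Finset.mem_union.1 hx with hx | hx
    · obtain ⟨c, hc, hxc⟩ := Finset.mem_biUnion.1 hx
      refine Finset.mem_union_left _ (Finset.mem_biUnion.2 ⟨c, hc, ?_⟩)
      rw [← (Perm.mem_cycleFactorsFinset_iff.1 (hT hc)).2 x hxc]
      exact Perm.apply_mem_support.2 hxc
    · have := Finset.mem_compl.1 (hB hx)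
      rw [Perm.notMem_support] at this
      rw [this]
      exact Finset.mem_union_right _ hx

theorem mod_le {n r : ℕ} (hr : r.Prime) {σ : Perm (Fin n)} (hσ : orderOf σ = r)
    {s : Finset (Fin n)} (hs : s.image σ = s) : s.card % r ≤ σ.supportᶜ.card := by
  haveI : Fact r.Prime := ⟨hr⟩
  have h1 : ∀ x, σ x ∈ s ↔ x ∈ s := fun x => by
    conv_lhs => rw [← hs]
    simp
  have h2 : (σ.subtypePerm h1) ^ r ^ 1 = 1 := by
    rw [pow_one, Perm.subtypePerm_pow]
    ext x
    simp [← hσ]
  have h3 := Perm.card_compl_support_modEq h2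
  rw [Fintype.card_coe] at h3
  have h4 : (σ.subtypePerm h1).supportᶜ.card ≤ σ.supportᶜ.card := by
    refine Finset.card_le_card_of_injOn Subtype.val (fun x hx => ?_) Subtype.val_injective.injOn
    simp only [Finset.coe_compl, Set.mem_compl_iff, Finset.mem_coe, Perm.notMem_support] at hx ⊢
    exact congrArg Subtype.val hx
  rw [← h3]
  exact (Nat.mod_le _ _).trans h4

theorem key {n k r : ℕ} (hr : r.Prime) (hrn : r ≤ n) (hkn : k ≤ n) :
    (∀ σ : Perm (Fin n), orderOf σ = r → ∃ s : Finset (Fin n), s.card = k ∧ s.image σ = s) ↔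
      k % r ≤ n % r := by
  haveI : Fact r.Prime := ⟨hr⟩
  have hn := Nat.div_add_mod n r
  have hk := Nat.div_add_mod k r
  constructor
  · intro h
    have h0 : 0 < n / r := Nat.div_pos hrn hr.pos
    obtain ⟨σ, hσ⟩ := (Perm.exists_with_cycleType_iff (Fin n)
      (m := Multiset.replicate (n / r) r)).2 ⟨by
        rw [Multiset.sum_replicate, Fintype.card_fin, smul_eq_mul]; exact Nat.div_mul_le_self n r,
        fun a ha => Multiset.eq_of_mem_replicate ha ▸ hr.two_le⟩
    have h1 : orderOf σ = r := by
      refine orderOf_eq_prime (Perm.pow_prime_eq_one_iff.2 fun c hc => ?_) ?_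
      · rw [hσ] at hc; exact Multiset.eq_of_mem_replicate hc
      · rintro rfl
        have := congrArg Multiset.card hσ
        simp at this
        omega
    obtain ⟨s, hs, hs'⟩ := h σ h1
    have h2 := mod_le hr h1 hs'
    rw [Finset.card_compl, ← Perm.sum_cycleType, hσ, Multiset.sum_replicate, Fintype.card_fin,
      smul_eq_mul, hs, mul_comm] at h2
    omega
  · intro h σ hσ
    have h1 := Perm.cycleType_of_pow_prime_eq_one (σ := σ) (p := r)
      (by rw [← hσ, pow_orderOf_eq_one])
    set c := σ.cycleType.card with hc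
    have h2 : σ.supportᶜ.card + c * r = n := by
      have := Finset.card_le_univ σ.support
      rw [Finset.card_compl, ← Perm.sum_cycleType, h1, Multiset.sum_replicate, Fintype.card_fin,
        smul_eq_mul] at *
      omega
    by_cases h3 : k / r ≤ c
    · obtain ⟨s, hs, hs'⟩ := exists_inv hr hσ (a := k / r) (b := k % r) h3 (by
        refine h.trans ?_
        have h4 := congrArg (· % r) h2
        simp only [Nat.add_mul_mod_self_right] at h4
        exact h4 ▸ Nat.mod_le _ _)
      exact ⟨s, by rw [hs, mul_comm, hk], hs'⟩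
    · have h4 : c * r ≤ k := (Nat.le_div_iff_mul_le hr.pos).1 (by omega)
      obtain ⟨s, hs, hs'⟩ := exists_inv hr hσ (a := c) (b := k - c * r) le_rfl (by omega)
      exact ⟨s, by omega, hs'⟩


/-- Let 1 ≤ k with 2k < n and consider the symmetric group of degree n acting on the k-subsets of an n-set. Let r be a prime dividing the number C(n,k) of k-subsets. If r is odd, then every permutation of order r fixes some k-subset if and only if r ≤ k and the remainder of k modulo r is at most the remainder of n modulo r. If r = 2, then every involution fixes some k-subset if and only if k is even or n is odd. -/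
theorem result (n k : ℕ) (hk : 1 ≤ k) (hkn : 2 * k < n) (r : ℕ) (hr : r.Prime) (hrd : r ∣ Nat.choose n k) :
    (r ≠ 2 → ((∀ σ : Equiv.Perm (Fin n), orderOf σ = r → ∃ s : Finset (Fin n), s.card = k ∧ s.image σ = s) ↔
      (r ≤ k ∧ k % r ≤ n % r))) ∧
    (r = 2 → ((∀ σ : Equiv.Perm (Fin n), orderOf σ = 2 → ∃ s : Finset (Fin n), s.card = k ∧ s.image σ = s) ↔
      (Even k ∨ Odd n))) := by
  haveI : Fact r.Prime := ⟨hr⟩
  have hrn : r ≤ n := by
    have h1 : r ∣ n.factorial :=
      hrd.trans (Dvd.intro _ (by rw [← mul_assoc]; exact Nat.choose_mul_factorial_mul_factorial (by omega)))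
    exact hr.dvd_factorial.1 h1
  refine ⟨fun _ => ?_, ?_⟩
  · rw [key hr hrn (by omega)]
    refine ⟨fun h => ⟨?_, h⟩, fun h => h.2⟩
    by_contra h1
    push Not at h1
    have h2 := Choose.choose_modEq_choose_mod_mul_choose_div_nat (n := n) (k := k) (p := r)
    rw [Nat.div_eq_of_lt h1, Nat.choose_zero_right, mul_one] at h2
    have h3 : r ∣ (n % r).choose (k % r) := (h2.dvd_iff (dvd_refl r)).1 hrd
    have h4 : r ∣ (n % r).factorial :=
      h3.trans (Dvd.intro _ (by rw [← mul_assoc]; exact Nat.choose_mul_factorial_mul_factorial h))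
    exact absurd (hr.dvd_factorial.1 h4) (not_le.2 (Nat.mod_lt _ hr.pos))
  · rintro rfl
    rw [key hr hrn (by omega), Nat.even_iff, Nat.odd_iff]
    omega

end Cfsg.Agent.S3573
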