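import Cfsg.Statements.S3575

set_option autoImplicit false
open Cfsg

namespace Cfsg.Agent.S3575

open Equiv Equiv.Perm Finset

theorem dvd_supp {α : Type*} [Fintype α] [DecidableEq α] {r : ℕ} (hr : r.Prime) {σ : Perm α}
    (h : σ ^ r = 1) : σ.cycleType.card * r = #σ.support := by
  haveI := Fact.mk hr
  rw [← σ.sum_cycleType]
  conv_rhs => rw [cycleType_of_pow_prime_eq_one h]
  simp

theorem dvd_filter {α : Type*} [Fintype α] [DecidableEq α] {r : ℕ} (hr : r.Prime) {σ : Perm α}
    (h : σ ^ r = 1) (p : α → Prop) [DecidablePred p] (hp : ∀ x, p (σ x) ↔ p x) :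
    r ∣ #{x | p x ∧ σ x ≠ x} := by
  have h1 : (σ.subtypePerm hp) ^ r = 1 := by
    rw [subtypePerm_pow]; ext x; simp [h]
  have h2 : #(σ.subtypePerm hp).support = #{x | p x ∧ σ x ≠ x} := by
    refine card_bij (fun x _ => x.1) ?_ ?_ ?_
    · intro x hx
      simp only [mem_support] at hx
      simp only [mem_filter, mem_univ, true_and]
      exact ⟨x.2, fun h => hx (Subtype.ext h)⟩
    · intro x _ y _ h; exact Subtype.ext h
    · intro x hx
      simp only [mem_filter, mem_univ, true_and] at hx
      exact ⟨⟨x, hx.1⟩, mem_support.2 fun h => hx.2 (congrArg Subtype.val h), rfl⟩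
  rw [← h2, ← dvd_supp hr h1]; exact Dvd.intro_left _ rfl

theorem exists_perm (α : Type*) [Fintype α] [DecidableEq α] {r : ℕ} (hr : r.Prime) {c : ℕ}
    (hc : c * r ≤ Fintype.card α) : ∃ σ : Perm α, σ ^ r = 1 ∧ #σ.support = c * r := by
  haveI := Fact.mk hr
  obtain ⟨σ, hσ⟩ := (exists_with_cycleType_iff α (m := Multiset.replicate c r)).2
    ⟨by simpa using hc, fun a ha => by rw [Multiset.eq_of_mem_replicate ha]; exact hr.two_le⟩
  refine ⟨σ, pow_prime_eq_one_iff.2 fun a ha => ?_, ?_⟩
  · rw [hσ] at ha; exact Multiset.eq_of_mem_replicate ha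
  · rw [← σ.sum_cycleType, hσ]; simp

theorem distrib {ι : Type*} [DecidableEq ι] (s : Finset ι) (A : ℕ) :
    ∀ d, d ≤ #s * A → ∃ c : ι → ℕ, (∀ i, c i ≤ A) ∧ ∑ i ∈ s, c i = d := by
  induction s using Finset.induction_on with
  | empty => intro d hd; exact ⟨fun _ => 0, by simp, by simpa using hd.antisymm' (by simp)⟩
  | insert i s hi ih =>
    intro d hd
    rw [card_insert_of_notMem hi] at hd
    obtain ⟨c, hc, hs⟩ := ih (d - min d A) (by rw [add_mul] at hd; omega)
    refine ⟨Function.update c i (min d A), fun k => ?_, ?_⟩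
    · rcases eq_or_ne k i with rfl | h
      · simp
      · simp [h, hc]
    · rw [sum_insert hi, Function.update_self, sum_congr rfl (g := c), hs]
      · omega
      · intro k hk; rw [Function.update_of_ne]; rintro rfl; exact hi hk

theorem conj_of {α β : Type*} [Fintype α] [DecidableEq α] [Fintype β] [DecidableEq β] {r : ℕ}
    (hr : r.Prime) {σ : Perm α} {τ : Perm β} (hσ : σ ^ r = 1) (hτ : τ ^ r = 1)
    (hc : Fintype.card α = Fintype.card β) (hs : #σ.support = #τ.support) :
    ∃ e : α ≃ β, ∀ x, e (σ x) = τ (e x) := by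
  haveI := Fact.mk hr
  let e := Fintype.equivOfCardEq hc
  have h1 : (e.permCongr σ) ^ r = 1 := by
    have := map_pow e.permCongrHom σ r
    rw [hσ, map_one] at this; exact this.symm
  have h2 : #(e.permCongr σ).support = #σ.support := by
    refine card_bij' (fun x _ => e.symm x) (fun x _ => e x) ?_ ?_ (by simp) (by simp)
    · intro x hx
      rw [mem_support] at hx ⊢
      intro h; apply hx; simp [h]
    · intro x hx
      rw [mem_support] at hx ⊢
      simpa using hx
  have h3 : (e.permCongr σ).cycleType = τ.cycleType := by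
    rw [cycleType_of_pow_prime_eq_one h1, cycleType_of_pow_prime_eq_one hτ]
    congr 1
    apply Nat.eq_of_mul_eq_mul_right hr.pos
    rw [dvd_supp hr h1, dvd_supp hr hτ, h2, hs]
  obtain ⟨g, hg⟩ := isConj_iff.1 (isConj_of_cycleType_eq h3)
  refine ⟨e.trans g, fun x => ?_⟩
  rw [← hg]; simp

theorem construct {a b r : ℕ} (hr : r.Prime) {σ : Perm (Fin (a * b))} (hσ : σ ^ r = 1) {m j b' : ℕ}
    (hm : #σ.support = m * r) (hb : b = j * r + b') (h1 : j * a ≤ m)
    (h2 : m ≤ j * a + b' * (a / r)) :
    ∃ f : Fin (a * b) → Fin b, (∀ j : Fin b, Nat.card {x : Fin (a * b) // f x = j} = a) ∧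
      ∃ π : Perm (Fin b), ∀ x : Fin (a * b), f (σ x) = π (f x) := by
  obtain ⟨π, hπ, hπs⟩ := exists_perm (Fin b) hr (c := j) (by simp [hb])
  obtain ⟨c, hc, hcs⟩ := distrib π.supportᶜ (a / r) (m - j * a) (by
    rw [card_compl, hπs, Fintype.card_fin]
    have : b - j * r = b' := by omega
    rw [this]; omega)
  have : ∀ i, ∃ τ : Perm (Fin a), τ ^ r = 1 ∧ #τ.support = c i * r := fun i =>
    exists_perm (Fin a) hr (by
      rw [Fintype.card_fin]; exact (Nat.mul_le_mul_right _ (hc i)).trans (Nat.div_mul_le_self _ _))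
  choose τ hτ hτs using this
  let τ' : Fin b → Perm (Fin a) := fun i => if π i = i then τ i else 1
  let ρ : Perm (Fin b × Fin a) := Equiv.prodShear π τ'
  have hρ : ∀ i x, ρ (i, x) = (π i, τ' i x) := fun _ _ => rfl
  have hρr : ρ ^ r = 1 := by
    ext1 ⟨i, x⟩
    by_cases h : π i = i
    · have : ∀ k : ℕ, (ρ ^ k) (i, x) = (i, (τ i ^ k) x) := by
        intro k
        induction k with
        | zero => simp
        | succ k ih => rw [pow_succ', Perm.mul_apply, ih, hρ, h, pow_succ']; simp [τ', h]
      rw [this, hτ]; rfl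
    · have : ∀ k : ℕ, (ρ ^ k) (i, x) = ((π ^ k) i, x) := by
        intro k
        induction k with
        | zero => simp
        | succ k ih =>
          have h' : π ((π ^ k) i) ≠ (π ^ k) i :=
            mem_support.1 (pow_apply_mem_support.2 (mem_support.2 h))
          rw [pow_succ', Perm.mul_apply, ih, hρ, pow_succ']; simp [τ', h']
      rw [this, hπ]; rfl
  have hρs : #ρ.support = m * r := by
    rw [card_eq_sum_card_fiberwise (f := Prod.fst) (t := univ) (by simp),
      ← sum_add_sum_compl π.support, sum_congr rfl (g := fun _ => a),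
      sum_congr (s₁ := π.supportᶜ) rfl (g := fun i => c i * r), ← sum_mul, hcs]
    · rw [sum_const, hπs, smul_eq_mul]
      obtain ⟨d, rfl⟩ := Nat.exists_eq_add_of_le h1
      rw [Nat.add_sub_cancel_left]; ring
    · intro i hi
      rw [mem_compl, notMem_support] at hi
      rw [← hτs]
      refine card_bij' (fun x _ => x.2) (fun x _ => (i, x)) ?_ ?_ ?_ (by simp)
      · rintro ⟨i', x⟩ hx
        simp only [mem_filter, mem_support] at hx ⊢
        obtain ⟨hx, rfl⟩ := hx
        intro h; apply hx; rw [hρ, hi]; simp [τ', hi, h]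
      · intro x hx
        simp only [mem_filter, mem_support, and_true] at hx ⊢
        rw [hρ, hi]; simpa [τ', hi] using hx
      · rintro ⟨i', x⟩ hx
        simp only [mem_filter] at hx
        exact Prod.ext hx.2.symm rfl
    · intro i hi
      rw [mem_support] at hi
      conv_rhs => rw [← Fintype.card_fin a, ← card_univ]
      refine card_bij' (fun x _ => x.2) (fun x _ => (i, x)) (by simp) ?_ ?_ (by simp)
      · intro x _
        simp only [mem_filter, mem_support, and_true]
        rw [hρ]; intro h; exact hi (congrArg Prod.fst h)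
      · rintro ⟨i', x⟩ hx
        simp only [mem_filter] at hx
        exact Prod.ext hx.2.symm rfl
  obtain ⟨e, he⟩ := conj_of hr hσ hρr (by simp [mul_comm]) (by rw [hm, hρs])
  refine ⟨fun x => (e x).1, fun i => ?_, π, fun x => ?_⟩
  · conv_rhs => rw [← Nat.card_fin a]
    refine Nat.card_congr ⟨fun x => (e x.1).2, fun y => ⟨e.symm (i, y), by simp⟩, ?_, ?_⟩
    · rintro ⟨x, rfl⟩; simp
    · intro y; simp
  · show (e (σ x)).1 = _
    rw [he]; rfl

theorem necessary {a b r : ℕ} (ha : 0 < a) (hr : r.Prime) {σ : Perm (Fin (a * b))} (hσ : σ ^ r = 1)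
    {m : ℕ} (hm : #σ.support = m * r) {f : Fin (a * b) → Fin b}
    (hf : ∀ j : Fin b, Nat.card {x : Fin (a * b) // f x = j} = a) {π : Perm (Fin b)}
    (hπ : ∀ x, f (σ x) = π (f x)) :
    ∃ j b', b = j * r + b' ∧ j * a ≤ m ∧ m ≤ j * a + b' * (a / r) := by
  have hf' : ∀ j, #{x | f x = j} = a := fun j => by
    rw [← Fintype.card_subtype, ← Nat.card_eq_fintype_card, hf]
  have hπr : π ^ r = 1 := by
    ext1 i
    obtain ⟨x, hx⟩ : ({x | f x = i} : Finset _).Nonempty := card_pos.1 (by rw [hf']; exact ha)
    simp only [mem_filter, mem_univ, true_and] at hx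
    have : ∀ k : ℕ, f ((σ ^ k) x) = (π ^ k) (f x) := by
      intro k
      induction k with
      | zero => simp
      | succ k ih => rw [pow_succ', pow_succ', Perm.mul_apply, Perm.mul_apply, hπ, ih]
    rw [← hx, ← this, hσ]; rfl
  have h1 := dvd_supp hr hπr
  set j := π.cycleType.card
  have h2 : #π.support ≤ b := by simpa using card_le_univ π.support
  refine ⟨j, b - j * r, by omega, ?_⟩
  rw [card_eq_sum_card_fiberwise (f := f) (t := univ) (by simp), ← sum_add_sum_compl π.support,
    sum_congr rfl (g := fun _ => a)] at hm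
  · have h3 : ∑ i ∈ π.supportᶜ, #{x ∈ σ.support | f x = i} ≤ ∑ i ∈ π.supportᶜ, a / r * r := by
      refine sum_le_sum fun i hi => ?_
      rw [mem_compl, notMem_support] at hi
      obtain ⟨d, hd⟩ := dvd_filter hr hσ (fun x => f x = i) (fun x => by
        rw [hπ]; conv_lhs => rw [← hi]
        exact π.injective.eq_iff)
      have e : #{x ∈ σ.support | f x = i} = #{x | f x = i ∧ σ x ≠ x} := by
        congr 1; ext x; simp [and_comm]
      have h4 : #{x ∈ σ.support | f x = i} ≤ a :=
        (card_le_card (filter_subset_filter _ (subset_univ _))).trans (hf' i).le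
      rw [e, hd] at h4 ⊢
      rw [mul_comm]
      exact Nat.mul_le_mul_right _ ((Nat.le_div_iff_mul_le hr.pos).2 (by rwa [mul_comm]))
    rw [sum_const, card_compl, ← h1, smul_eq_mul, Fintype.card_fin] at h3
    rw [sum_const, ← h1, smul_eq_mul] at hm
    constructor
    · apply Nat.le_of_mul_le_mul_right _ hr.pos
      rw [← hm, mul_right_comm]; exact Nat.le_add_right _ _
    · apply Nat.le_of_mul_le_mul_right _ hr.pos; nlinarith
  · intro i hi
    refine Eq.trans ?_ (hf' i)
    congr 1
    ext x
    simp only [mem_filter, mem_support, mem_univ, true_and, and_iff_right_iff_imp]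
    intro hx h
    have := hπ x
    rw [h, hx] at this
    exact mem_support.1 hi this.symm

theorem arith {a b r A l B k : ℕ} (ha : 2 ≤ a) (hb : 2 ≤ b) (hr : 0 < r) (hrab : r ≤ a * b)
    (eA : a = r * A + l) (hl : l < r) (eB : b = r * B + k) (hk : k < r) :
    (∀ m, 1 ≤ m → m * r ≤ a * b → ∃ j b', b = j * r + b' ∧ j * a ≤ m ∧ m ≤ j * a + b' * A) ↔
      (r ≤ a ∧ (l = 0 ∨ (k = 0 ∧ l = 1) ∨
        (l ≠ 0 ∧ k ≠ 0 ∧ k * l < r ∧ (b < r ∨ (k + r) * l ≤ k * a + r)))) := by
  have hU : ∀ j b', b = j * r + b' → j * a + b' * A = j * l + b * A ∧ j ≤ B := by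
    intro j b' h
    refine ⟨by rw [h, eA]; ring, ?_⟩
    by_contra hh
    have : (B + 1) * r ≤ j * r := Nat.mul_le_mul_right _ (by omega)
    nlinarith
  have hab : a * b = (A * b + l * B) * r + k * l := by
    conv_lhs => rw [eA, add_mul]
    conv_lhs => enter [2]; rw [eB]
    ring
  constructor
  · intro h
    have hA : 1 ≤ A := by
      obtain ⟨j, b', -, h2, h3⟩ := h 1 le_rfl (by simpa using hrab)
      have : j = 0 := by
        by_contra hj
        have : 1 * a ≤ j * a := Nat.mul_le_mul_right _ (by omega)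
        omega
      subst this
      by_contra hA
      have : A = 0 := by omega
      subst this; simp at h3
    refine ⟨by nlinarith, ?_⟩
    by_cases hl0 : l = 0
    · exact Or.inl hl0
    right
    have hkl : k * l < r := by
      by_contra hh
      obtain ⟨j, b', h1, -, h3⟩ := h (A * b + l * B + 1) (by omega) (by rw [hab]; nlinarith)
      obtain ⟨e, hj⟩ := hU j b' h1
      have : j * l ≤ B * l := Nat.mul_le_mul_right _ hj
      nlinarith
    rcases Nat.eq_zero_or_pos B with rfl | hB
    · right; exact ⟨hl0, by omega, hkl, Or.inl (by omega)⟩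
    have hBa : 2 ≤ B * a := by nlinarith
    obtain ⟨m, hm⟩ : ∃ m, B * a = m + 1 := ⟨B * a - 1, by omega⟩
    obtain ⟨j, b', h1, h2, h3⟩ := h m (by omega) (by nlinarith)
    obtain ⟨e, -⟩ := hU j b' h1
    have hj : j + 1 ≤ B := by
      by_contra hh
      have : B * a ≤ j * a := Nat.mul_le_mul_right _ (by omega)
      omega
    have h4 : (j + 1) * l ≤ B * l := Nat.mul_le_mul_right _ hj
    have h5 : l ≤ k * A + 1 := by
      have e1 : B * a = B * r * A + B * l := by rw [eA]; ring
      have e2 : b * A = B * r * A + k * A := by rw [eB]; ring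
      nlinarith
    by_cases hk0 : k = 0
    · left; subst hk0; exact ⟨rfl, by omega⟩
    · right
      refine ⟨hl0, hk0, hkl, Or.inr ?_⟩
      have : r * l ≤ r * (k * A + 1) := Nat.mul_le_mul_left _ h5
      rw [eA]; nlinarith
  · rintro ⟨hra, h⟩ m _ hm
    have h1 : k * l < r ∧ (B = 0 ∨ l ≤ k * A + 1) := by
      rcases h with rfl | ⟨rfl, rfl⟩ | ⟨-, -, h1, h2 | h2⟩
      · exact ⟨by simpa using hr, Or.inr (by omega)⟩
      · exact ⟨by simpa using hr, Or.inr (by omega)⟩
      · refine ⟨h1, Or.inl ?_⟩
        by_contra hB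
        have : r * 1 ≤ r * B := Nat.mul_le_mul_left _ (by omega)
        omega
      · refine ⟨h1, Or.inr ?_⟩
        apply Nat.le_of_mul_le_mul_left _ hr
        rw [eA] at h2; nlinarith
    by_cases hj : B ≤ m / a
    · refine ⟨B, k, by rw [eB, mul_comm], (Nat.le_div_iff_mul_le (by omega)).1 hj, ?_⟩
      rw [(hU B k (by rw [eB, mul_comm])).1]
      by_contra hh
      have : (A * b + l * B + 1) * r ≤ m * r := Nat.mul_le_mul_right _ (by nlinarith)
      nlinarith [h1.1]
    · have h2 := h1.2.resolve_left (by rintro rfl; exact hj (Nat.zero_le _))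
      set j := m / a with hjd
      have hjb : j * r ≤ b := by
        have : j * r ≤ B * r := Nat.mul_le_mul_right _ (by omega)
        nlinarith
      refine ⟨j, b - j * r, by omega, Nat.div_mul_le_self _ _, ?_⟩
      rw [(hU j (b - j * r) (by omega)).1]
      have h3 : m < (j + 1) * a := by
        rw [mul_comm]; exact Nat.lt_mul_div_succ m (by omega)
      have h4 : (j + 1) * (r * A) ≤ B * (r * A) := Nat.mul_le_mul_right _ (by omega)
      have e1 : (j + 1) * a = (j + 1) * (r * A) + j * l + l := by rw [eA]; ring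
      have e2 : b * A = B * (r * A) + k * A := by rw [eB]; ring
      omega


/-- Let a, b ≥ 2 and consider the symmetric group of degree a·b acting on the partitions of an (a·b)-set into b parts of size a (encoded as maps onto a b-element set all of whose fibres have a elements; a permutation fixes such a partition when it permutes the fibres). Let r be a prime dividing the number (ab)!/((a!)^b·b!) of such partitions, and let ℓ and k be the remainders of a and b modulo r. Then every permutation of order r fixes some such partition if and only if r ≤ a and one of the following holds: ℓ = 0; or k = 0 and ℓ = 1; or ℓ and k are non-zero, k·ℓ < r, and either b < r or (k + r)·ℓ ≤ k·a + r. -/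
theorem result (a b : ℕ) (ha : 2 ≤ a) (hb : 2 ≤ b) (r : ℕ) (hr : r.Prime)
    (hrd : r ∣ (a * b).factorial / (a.factorial ^ b * b.factorial)) :
    (∀ σ : Equiv.Perm (Fin (a * b)), orderOf σ = r →
        ∃ f : Fin (a * b) → Fin b, (∀ j : Fin b, Nat.card {x : Fin (a * b) // f x = j} = a) ∧
          ∃ π : Equiv.Perm (Fin b), ∀ x : Fin (a * b), f (σ x) = π (f x)) ↔
      (r ≤ a ∧ (a % r = 0 ∨ (b % r = 0 ∧ a % r = 1) ∨
        (a % r ≠ 0 ∧ b % r ≠ 0 ∧ (b % r) * (a % r) < r ∧ (b < r ∨ (b % r + r) * (a % r) ≤ (b % r) * a + r)))) := by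
  haveI := Fact.mk hr
  have hrab : r ≤ a * b := by
    have h1 := Nat.uniformBell_mul_eq b (n := a) (by omega)
    have h2 : a.factorial ^ b * b.factorial ∣ (a * b).factorial := by
      rw [mul_comm a b, ← h1, mul_assoc]; exact Dvd.intro_left _ rfl
    exact hr.dvd_factorial.1 (hrd.trans (Nat.div_dvd_of_dvd h2))
  rw [← arith ha hb hr.pos hrab (Nat.div_add_mod a r).symm (Nat.mod_lt _ hr.pos)
    (Nat.div_add_mod b r).symm (Nat.mod_lt _ hr.pos)]
  constructor
  · intro h m hm1 hm
    obtain ⟨σ, hσ, hs⟩ := exists_perm (Fin (a * b)) hr (c := m) (by simpa using hm)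
    have hσ1 : σ ≠ 1 := by
      rintro rfl
      have : 0 < m * r := Nat.mul_pos hm1 hr.pos
      rw [← hs] at this; simp at this
    obtain ⟨f, hf, π, hπ⟩ := h σ (orderOf_eq_prime hσ hσ1)
    exact necessary (by omega) hr hσ hs hf hπ
  · intro h σ hσ
    have h1 : σ ^ r = 1 := by rw [← hσ, pow_orderOf_eq_one]
    have h2 := dvd_supp hr h1
    obtain ⟨j, b', e, h3, h4⟩ := h σ.cycleType.card (by
      rw [Nat.succ_le_iff, card_cycleType_pos]
      rintro rfl
      rw [orderOf_one] at hσ; exact hr.ne_one hσ.symm) (by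
      rw [h2]; simpa using card_le_univ σ.support)
    exact construct hr h1 h2.symm e h3 h4

end Cfsg.Agent.S3575
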