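import Cfsg.Statements.S3593
import Cfsg.Agent.S0421
import Cfsg.Agent.H16.Nse
import Cfsg.Agent.H14.MathieuIso

set_option autoImplicit false
open Cfsg

namespace Cfsg.Agent.S3593

/-- Let M be the Mathieu group M₁₂ (order 95040). If a finite group G has the same order as M and the same set of values of the function 'number of elements of order n' (taken over the element orders n that occur), then G is isomorphic to M. -/
theorem result {G : Type*} [Group G] [Finite G]
    (hcard : Nat.card G = Nat.card ↥Cfsg.Spor.M12)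
    (hnse : {c : ℕ | 0 < c ∧ ∃ n : ℕ, c = Nat.card {g : G // orderOf g = n}} =
      {c : ℕ | 0 < c ∧ ∃ n : ℕ, c = Nat.card {g : ↥Cfsg.Spor.M12 // orderOf g = n}}) :
    Nonempty (G ≃* ↥Cfsg.Spor.M12) := by
  have h := H16.simple_of_nse_M12 hcard hnse
  obtain ⟨e⟩ := S0421.result (G := G) ⟨h, hcard.trans H14.card_M12⟩ _ H14.squareDodecad_mem
  obtain ⟨e'⟩ := H14.isoM12 H14.squareDodecad_mem
  exact ⟨e.trans e'⟩

end Cfsg.Agent.S3593
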