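import Cfsg.Statements.S3599
import Cfsg.Agent.H78.FrobPQ

set_option autoImplicit false
open Cfsg

namespace Cfsg.Agent.S3599

theorem exists_critical (Ω : Set ℕ) (P : Set ℕ) (hP : ∀ p ∈ P, p.Prime)
    (h : ∃ (X : Type) (_ : Group X) (_ : Finite X), Set.range (orderOf : X → ℕ) = Ω ∧
      ∀ p ∈ P, H78.PE p X) :
    ∃ (X : Type) (_ : Group X) (_ : Fintype X), (Set.range (orderOf : X → ℕ) = Ω ∧
      ∀ p ∈ P, H78.PE p X) ∧ ∀ (H : Subgroup X) (N : Subgroup ↥H) [N.Normal],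
        (H ≠ ⊤ ∨ N ≠ ⊥) → Set.range (orderOf : (↥H ⧸ N) → ℕ) ≠ Ω := by
  classical
  have hex : ∃ n, ∃ (X : Type) (_ : Group X) (_ : Finite X), Nat.card X = n ∧
      Set.range (orderOf : X → ℕ) = Ω ∧ ∀ p ∈ P, H78.PE p X := by
    obtain ⟨X, i1, i2, h⟩ := h
    exact ⟨_, X, i1, i2, rfl, h⟩
  obtain ⟨X, i1, i2, hc, hX⟩ := Nat.find_spec hex
  refine ⟨X, i1, Fintype.ofFinite X, hX, fun H N _ hne hΩ => ?_⟩
  refine Nat.find_min hex (m := Nat.card (H ⧸ N)) ?_ ⟨_, inferInstance, inferInstance, rfl, hΩ,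
    fun p hp => H78.pe_of_surjective (hP p hp) (H78.pe_subgroup (hX.2 p hp) H)
      (QuotientGroup.mk' N) (QuotientGroup.mk'_surjective N)⟩
  rw [← hc]
  have h1 := Subgroup.card_eq_card_quotient_mul_card_subgroup N
  have h2 := H.card_mul_index
  have h3 : 0 < Nat.card (H ⧸ N) := Nat.card_pos
  have h4 : 0 < Nat.card N := Nat.card_pos
  have h5 : 0 < H.index := Nat.pos_of_ne_zero H.index_ne_zero_of_finite
  rw [← h2, h1, mul_assoc]
  apply lt_mul_of_one_lt_right h3
  rcases hne with h | h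
  · have : H.index ≠ 1 := mt Subgroup.index_eq_one.mp h
    exact lt_of_lt_of_le (by omega) (Nat.le_mul_of_pos_left _ h4)
  · have := (Subgroup.one_lt_card_iff_ne_bot N).mpr h
    exact lt_of_lt_of_le this (Nat.le_mul_of_pos_right _ h5)

/-- A finite group is critical with respect to a set Ω of natural numbers when its set of element orders is Ω while no proper section H/N (H a subgroup, N normal in H, (H, N) ≠ (whole group, 1)) has Ω as its set of element orders. Let s ≥ 1 and let p(j,0), p(j,1) (j < s) be 2s pairwise distinct primes, and let Ω be the set of all products c(0)·…·c(s−1) with each c(j) ∈ {1, p(j,0), p(j,1)}. Then there are 2^s pairwise non-isomorphic finite groups critical with respect to Ω. -/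
theorem result (s : ℕ) (hs : 1 ≤ s) (p : Fin s → Fin 2 → ℕ)
    (hp : ∀ j i, (p j i).Prime) (hinj : ∀ j i j' i', p j i = p j' i' → j = j' ∧ i = i') :
    ∃ (G : Fin (2 ^ s) → Type) (_ : ∀ a, Group (G a)) (_ : ∀ a, Fintype (G a)),
      (∀ a b, a ≠ b → ¬ Nonempty (G a ≃* G b)) ∧
      ∀ a, Set.range (orderOf : (G a) → ℕ) = {m : ℕ | ∃ c : Fin s → ℕ, (∀ j, c j = 1 ∨ c j = p j 0 ∨ c j = p j 1) ∧ m = ∏ j, c j} ∧
      ∀ (H : Subgroup (G a)) (N : Subgroup ↥H) [N.Normal], (H ≠ ⊤ ∨ N ≠ ⊥) → Set.range (orderOf : (↥H ⧸ N) → ℕ) ≠ {m : ℕ | ∃ c : Fin s → ℕ, (∀ j, c j = 1 ∨ c j = p j 0 ∨ c j = p j 1) ∧ m = ∏ j, c j} := by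
  classical
  set Ω := {m : ℕ | ∃ c : Fin s → ℕ, (∀ j, c j = 1 ∨ c j = p j 0 ∨ c j = p j 1) ∧ m = ∏ j, c j}
    with hΩ
  have hne : ∀ j, p j 0 ≠ p j 1 := fun j h => absurd (hinj _ _ _ _ h).2 (by decide)
  have hF : ∀ (j : Fin s) (i : Fin 2), ∃ (X : Type) (_ : Group X) (_ : Finite X),
      Set.range (orderOf : X → ℕ) = {1, p j 0, p j 1} ∧ H78.PE (p j i) X := by
    intro j i
    fin_cases i
    · obtain ⟨X, i1, i2, -, h⟩ := H78.exists_frob_pq (hp j 0) (hp j 1) (hne j) 0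
      exact ⟨X, i1, i2, h⟩
    · obtain ⟨X, i1, i2, -, h⟩ := H78.exists_frob_pq (hp j 1) (hp j 0) (hne j).symm 0
      exact ⟨X, i1, i2, by rw [h.1, Set.pair_comm], h.2⟩
  choose F iF fF hFs hFp using hF
  have hcop : ∀ c : Fin s → ℕ, (∀ j, c j = 1 ∨ c j = p j 0 ∨ c j = p j 1) →
      ∀ j j', j ≠ j' → (c j).Coprime (c j') := by
    intro c hc j j' hjj
    have key : ∀ i i', (p j i).Coprime (p j' i') := fun i i' =>
      (Nat.coprime_primes (hp _ _) (hp _ _)).mpr (fun h => hjj (hinj _ _ _ _ h).1)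
    rcases hc j with h | h | h <;> rcases hc j' with h' | h' | h' <;> rw [h, h'] <;>
      first | exact key _ _ | simp
  have hmain : ∀ c : Fin s → Fin 2, ∃ (X : Type) (_ : Group X) (_ : Fintype X),
      (Set.range (orderOf : X → ℕ) = Ω ∧ ∀ r ∈ Set.range (fun j => p j (c j)), H78.PE r X) ∧
      ∀ (H : Subgroup X) (N : Subgroup ↥H) [N.Normal],
        (H ≠ ⊤ ∨ N ≠ ⊥) → Set.range (orderOf : (↥H ⧸ N) → ℕ) ≠ Ω := by
    intro c
    apply exists_critical _ _ (by rintro _ ⟨j, rfl⟩; exact hp _ _)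
    have hord : ∀ (x : ∀ j, F j (c j)) (j : Fin s),
        orderOf (x j) = 1 ∨ orderOf (x j) = p j 0 ∨ orderOf (x j) = p j 1 := by
      intro x j
      have : orderOf (x j) ∈ Set.range (orderOf : F j (c j) → ℕ) := ⟨_, rfl⟩
      rwa [hFs] at this
    have hprod : ∀ x : ∀ j, F j (c j), orderOf x = ∏ j, orderOf (x j) := by
      intro x
      rw [Pi.orderOf, Finset.lcm_eq_prod]
      intro j _ j' _ hjj
      exact hcop _ (hord x) j j' hjj
    refine ⟨∀ j, F j (c j), inferInstance, inferInstance, ?_, ?_⟩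
    · ext m
      constructor
      · rintro ⟨x, rfl⟩
        exact ⟨fun j => orderOf (x j), hord x, hprod x⟩
      · rintro ⟨d, hd, rfl⟩
        have : ∀ j, ∃ y : F j (c j), orderOf y = d j := by
          intro j
          have : d j ∈ Set.range (orderOf : F j (c j) → ℕ) := by rw [hFs]; exact hd j
          exact this
        choose y hy using this
        exact ⟨y, by rw [hprod]; simp only [hy]⟩
    · rintro _ ⟨j, rfl⟩ x y ⟨k, hk⟩ ⟨l, hl⟩
      obtain ⟨m, hm⟩ := hFp j (c j) (x j) (y j) ⟨k, congrFun hk j⟩ ⟨l, congrFun hl j⟩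
      refine ⟨m, ?_⟩
      ext i
      by_cases hi : i = j
      · subst hi; exact hm
      · have key : ∀ (z : ∀ j, F j (c j)) (k : ℕ), z ^ p j (c j) ^ k = 1 → z i = 1 := by
          intro z k hz
          have h1 : orderOf (z i) ∣ p j (c j) ^ k := orderOf_dvd_of_pow_eq_one (congrFun hz i)
          rcases hord z i with h | h | h
          · exact orderOf_eq_one_iff.mp h
          all_goals
            rw [h] at h1
            exact absurd (hinj _ _ _ _ ((Nat.prime_dvd_prime_iff_eq (hp _ _) (hp _ _)).mp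
              ((hp _ _).dvd_of_dvd_pow h1))).1 hi
        simp [key x k hk, key y l hl]
  choose X iX fX hX hcrit using hmain
  refine ⟨fun a => X (finFunctionFinEquiv.symm a), fun a => iX _, fun a => fX _, ?_,
    fun a => ⟨(hX _).1, hcrit _⟩⟩
  intro a b hab ⟨e⟩
  obtain ⟨j, hj⟩ := Function.ne_iff.mp (finFunctionFinEquiv.symm.injective.ne hab)
  set c := finFunctionFinEquiv.symm a
  set c' := finFunctionFinEquiv.symm b
  have h1 : H78.PE (p j (c j)) (X c') :=
    H78.pe_of_surjective (hp _ _) ((hX c).2 _ ⟨j, rfl⟩) e.toMonoidHom e.surjective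
  have h2 : H78.PE (p j (c' j)) (X c') := (hX c').2 _ ⟨j, rfl⟩
  have hmem : ∀ i, p j i ∈ Set.range (orderOf : X c' → ℕ) := by
    intro i
    rw [(hX c').1]
    refine ⟨Function.update (fun _ => 1) j (p j i), fun k => ?_, ?_⟩
    · by_cases hk : k = j
      · subst hk; fin_cases i <;> simp
      · simp [hk]
    · rw [Finset.prod_update_of_mem (Finset.mem_univ _)]; simp
  obtain ⟨x, hx⟩ := hmem (c j)
  obtain ⟨y, hy⟩ := hmem (c' j)
  have hne' : p j (c j) ≠ p j (c' j) := fun h => hj (hinj _ _ _ _ h).2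
  have hcomm := H78.commute_of_pe (hp _ _) (hp _ _) hne' h1 h2 (x := x) (y := y)
    (by rw [← hx, pow_orderOf_eq_one]) (by rw [← hy, pow_orderOf_eq_one])
  obtain ⟨z, hz⟩ := H78.exists_orderOf_mul_of_commute hcomm
    ((Nat.coprime_primes (hp _ _) (hp _ _)).mpr hne') (by rw [hx]) (by rw [hy])
  have : orderOf z ∈ Ω := by rw [← (hX c').1]; exact ⟨z, rfl⟩
  obtain ⟨d, hd, hdz⟩ := this
  have key : ∀ i, p j i ∣ ∏ k, d k → d j = p j i := by
    intro i h
    obtain ⟨k, -, hk⟩ := (Nat.Prime.prime (hp j i)).exists_mem_finset_dvd h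
    rcases hd k with h | h | h
    · rw [h] at hk; exact absurd (Nat.dvd_one.mp hk) (hp j i).ne_one
    all_goals
      rw [h] at hk
      have h3 := (Nat.prime_dvd_prime_iff_eq (hp _ _) (hp _ _)).mp hk
      obtain ⟨rfl, -⟩ := hinj _ _ _ _ h3
      rw [h, h3]
  rw [hz] at hdz
  exact hne' ((key _ (hdz ▸ dvd_mul_right _ _)).symm.trans (key _ (hdz ▸ dvd_mul_left _ _)))

end Cfsg.Agent.S3599
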