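import Cfsg.Statements.S3639
import Cfsg.Agent.H78.PrimeGraph
import Cfsg.Agent.H78.SzQuad

set_option autoImplicit false
open Cfsg

namespace Cfsg.Agent.S3639

/-- Let S be the Suzuki group over the field with q = 2^(2m+1) ≥ 8 elements. Then there are finite groups of arbitrarily large order with the same prime graph as S. -/
theorem result {F : Type*} [Field F] [Fintype F] {m : ℕ} (hm : 1 ≤ m) (hF : Fintype.card F = 2 ^ (2 * m + 1)) (N : ℕ) :
    ∃ (H : Type) (_ : Group H) (_ : Fintype H), N < Fintype.card H ∧ ((∀ r : ℕ, r.Prime → (r ∣ Nat.card ↥(Cfsg.Lie.Sz F (2 ^ (m + 1))) ↔ r ∣ Nat.card H)) ∧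
      (∀ r s : ℕ, r.Prime → s.Prime → r ≠ s → ((∃ x : ↥(Cfsg.Lie.Sz F (2 ^ (m + 1))), orderOf x = r * s) ↔ (∃ y : H, orderOf y = r * s)))) := by
  let _ := H13.titsOfCard hF
  have := H13.charP_of_card hF
  let M := H13.lieModel (H13.titsOfCard_θ hF)
  have h2 : 2 ∣ Nat.card ↥(Cfsg.Lie.Sz F (2 ^ (m + 1))) := by
    obtain ⟨w, hw⟩ := M.surj _ H13.isSz_JM
    have : orderOf w = 2 := by
      apply orderOf_eq_prime
      · apply M.inj
        rw [map_pow, hw, pow_two, H13.JM_mul_JM, map_one]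
      · rintro rfl
        rw [map_one] at hw
        have := congrFun (congrFun hw 0) 0
        simp [H13.JM] at this
    have h := orderOf_dvd_natCard w
    rwa [this] at h
  obtain ⟨H, iH, fH, h1, h3⟩ := H78.exists_large_samePG (H78.matAct M.ρ) Nat.prime_two
    (fun v => by rw [two_nsmul]; ext i; exact CharTwo.add_self_eq_zero _) h2 (by
      intro r hr hr2 g hg v hv hgv
      exfalso
      have h4 := H78.sz_pow_four_of_fixed (M.isSz g) hv hgv
      have h5 : g ^ 4 = 1 := M.inj (by rw [map_pow, h4, map_one])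
      have h6 := orderOf_dvd_of_pow_eq_one h5
      rw [hg] at h6
      exact hr2 ((Nat.prime_dvd_prime_iff_eq hr Nat.prime_two).mp
        (hr.dvd_of_dvd_pow (show r ∣ 2 ^ 2 from h6)))) N
  exact ⟨H, iH, fH, by rwa [← Nat.card_eq_fintype_card], h3⟩

end Cfsg.Agent.S3639
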