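import Cfsg.Statements.S3648
import Cfsg.Agent.H73.PgC

set_option autoImplicit false
open Cfsg

namespace Cfsg.Agent.S3648

open Cfsg.Agent.H73.Pg Cfsg.Agent.H81
open scoped MatrixGroups

/-- For a finite group X let nse(X) be the set of values of the function 'number of elements of order k' over the element orders k that occur. Let F be a finite field of odd order q > 3 and P = PGL(2, F) = GL(2, F) modulo its centre. If G is a finite group with the same order as P and nse(G) = nse(P), then G is isomorphic to P. -/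
theorem result {F : Type*} [Field F] [Fintype F] (hodd : Odd (Fintype.card F)) (h3 : 3 < Fintype.card F)
    {G : Type*} [Group G] [Finite G] (hcard : Nat.card G = Nat.card (GL (Fin 2) F ⧸ Subgroup.center (GL (Fin 2) F)))
    (hnse : {c : ℕ | 0 < c ∧ ∃ n : ℕ, c = Nat.card {g : G // orderOf g = n}} = {c : ℕ | 0 < c ∧ ∃ n : ℕ, c = Nat.card {g : (GL (Fin 2) F ⧸ Subgroup.center (GL (Fin 2) F)) // orderOf g = n}}) :
    Nonempty (G ≃* (GL (Fin 2) F ⧸ Subgroup.center (GL (Fin 2) F))) := by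
  classical
  obtain ⟨p, hpF⟩ := CharP.exists F
  obtain ⟨f, hp, hf⟩ := FiniteField.card F p
  haveI := Fact.mk hp
  obtain ⟨k1, k2, k3⟩ := model (F := F) (p := p) Nat.card_eq_fintype_card hodd
  set q := Fintype.card F with hq
  have hm : q ^ 2 = q ^ 2 - 1 + 1 := (Nat.sub_add_cancel (Nat.pow_pos (by omega))).symm
  have hpq : p ∣ q := hf ▸ dvd_pow_self p f.ne_zero
  have hG : Nat.card G = q * (q ^ 2 - 1) := hcard.trans k1
  obtain ⟨h1, h2, h4⟩ := count hp (by omega) hodd hpq hm hG (fun n => by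
    rcases Nat.eq_zero_or_pos (so G n) with h | h
    · exact Or.inr (Or.inr (h ▸ dvd_zero q))
    · obtain ⟨-, k, hk⟩ := hnse.le (show so G n ∈ _ from ⟨h, n, rfl⟩)
      rw [hk]
      exact k3 k) (by
    obtain ⟨-, n, hn⟩ := hnse.ge (show q ^ 2 ∈ _ from ⟨by omega, 2, k2.symm⟩)
    exact ⟨n, hn.symm⟩)
  obtain ⟨K, _, _, h5, ⟨e⟩⟩ := recog (fun x hx => h4 x fun h =>
    hp.ne_one (Nat.eq_one_of_dvd_coprimes h hx hpq))
    (by rintro rfl; exact (Nat.not_even_iff_odd.2 hodd) (even_iff_two_dvd.2 hpq)) hf (by omega) hm hG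
    h1 h2
  obtain ⟨e'⟩ := pgl_congr (FiniteField.ringEquivOfCardEq (K := K) (K' := F)
    (by rw [← Nat.card_eq_fintype_card, h5]))
  exact ⟨e.trans e'⟩

end Cfsg.Agent.S3648
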