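import Cfsg.Statements.S3660
import Cfsg.Agent.H78.PrimeGraph
import Cfsg.Agent.H9.SLBasic

set_option autoImplicit false
open Cfsg

namespace Cfsg.Agent.S3660

open Matrix in
theorem sq_eq {F : Type*} [CommRing F] (g : Matrix (Fin 2) (Fin 2) F) (hg : g.det = 1) :
    g * g = g.trace • g - 1 := by
  rw [Matrix.det_fin_two] at hg
  ext i j
  fin_cases i <;> fin_cases j <;> simp [Matrix.mul_apply, Fin.sum_univ_two, Matrix.trace] <;>
    first | linear_combination -hg | ring

/-- The prime graph of a finite group has the prime divisors of its order as vertices, two distinct primes p, q being joined when the group has an element of order pq; two groups have the same prime graph when they have the same prime divisors and the same joined pairs. Let F be a finite field of characteristic 2 with at least 4 elements. Then there are finite groups of arbitrarily large order with the same prime graph as PSL(2,F); in particular PSL(2,F) is not determined by its prime graph. -/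
theorem result {F : Type*} [Field F] [Fintype F] [CharP F 2] (hF : 4 ≤ Fintype.card F) (N : ℕ) :
    ∃ (H : Type) (_ : Group H) (_ : Finite H), N < Nat.card H ∧
      ((∀ p : ℕ, p.Prime → (p ∣ Nat.card (Matrix.ProjectiveSpecialLinearGroup (Fin 2) F) ↔ p ∣ Nat.card H)) ∧
      (∀ p q : ℕ, p.Prime → q.Prime → p ≠ q → ((∃ g : (Matrix.ProjectiveSpecialLinearGroup (Fin 2) F), orderOf g = p * q) ↔ (∃ g : H, orderOf g = p * q)))) := by
  have := Fact.mk Nat.prime_two
  obtain ⟨n, -, hn⟩ := FiniteField.card F 2
  have hq : 2 ∣ Fintype.card F := by rw [hn]; exact dvd_pow_self _ n.ne_zero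
  have hZ : Subgroup.center (Matrix.SpecialLinearGroup (Fin 2) F) = ⊥ := by
    rw [← Subgroup.card_eq_one, H9.card_center_sl, Fintype.card_fin]
    apply Nat.Coprime.gcd_eq_one
    rw [Nat.coprime_two_left]
    exact Nat.Even.sub_odd (by omega) (even_iff_two_dvd.mpr hq) odd_one
  have e : Matrix.ProjectiveSpecialLinearGroup (Fin 2) F ≃* Matrix.SpecialLinearGroup (Fin 2) F :=
    (QuotientGroup.quotientMulEquivOfEq hZ).trans QuotientGroup.quotientBot
  have h2 : 2 ∣ Nat.card (Matrix.SpecialLinearGroup (Fin 2) F) := by
    rw [H9.card_sl_two]; exact hq.mul_right _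
  obtain ⟨H, iH, fH, h1, h3⟩ := H78.exists_large_samePG
    (H78.matAct (Matrix.SpecialLinearGroup.coeMonoidHom : Matrix.SpecialLinearGroup (Fin 2) F →* _)) Nat.prime_two
    (fun v => by rw [two_nsmul]; ext i; exact CharTwo.add_self_eq_zero _) h2 (by
      intro r hr hr2 g hg v hv hgv
      exfalso
      change (g : Matrix (Fin 2) (Fin 2) F).mulVec v = v at hgv
      have h4 := sq_eq (g : Matrix (Fin 2) (Fin 2) F) g.2
      have h5 := congrArg (fun A => Matrix.mulVec A v) h4
      simp only [← Matrix.mulVec_mulVec, hgv, Matrix.sub_mulVec, Matrix.smul_mulVec,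
        Matrix.one_mulVec] at h5
      have h6 : (g : Matrix (Fin 2) (Fin 2) F).trace • v = 0 := by
        rw [eq_sub_iff_add_eq] at h5
        rw [← h5]; ext i; exact CharTwo.add_self_eq_zero _
      have h7 : (g : Matrix (Fin 2) (Fin 2) F).trace = 0 := by simpa [hv] using h6
      have h8 : g ^ 2 = 1 := by
        apply Subtype.ext
        rw [pow_two, Matrix.SpecialLinearGroup.coe_mul, h4, h7, zero_smul, zero_sub]
        ext i j
        exact CharTwo.neg_eq _
      have h9 := orderOf_dvd_of_pow_eq_one h8
      rw [hg] at h9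
      exact hr2 ((Nat.prime_dvd_prime_iff_eq hr Nat.prime_two).mp h9)) N
  exact ⟨H, iH, inferInstance, h1, H78.samePG_trans (H78.samePG_of_equiv e) h3⟩

end Cfsg.Agent.S3660
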