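import Cfsg.Statements.S3662
import Cfsg.Agent.H56.Mod.G24R

set_option autoImplicit false
open Cfsg

namespace Cfsg.Agent.S3662

open H14 H56 H56.G24R

def w10 : List (ℕ × ℕ) := [(9, 3), (2, 2), (9, 2), (10, 3)]
def w6 : List (ℕ × ℕ) := [(1, 1), (7, 3), (7, 1), (5, 1), (6, 1)]
def w13 : List (ℕ × ℕ) := [(8, 1), (3, 2), (4, 3), (4, 1), (11, 1), (5, 2), (5, 1)]
def w7 : List (ℕ × ℕ) := [(10, 3), (1, 1), (9, 2), (5, 3), (3, 2), (2, 1)]
def y7 : ℕ := nat_lit 0x9d47d1e2581fe297b7
def y13 : ℕ := nat_lit 0x5ec097b2669b8b5a60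

theorem large (N : ℕ) : ∃ (H : Type) (_ : Group H) (_ : Fintype H), N < Nat.card H ∧
    H78.SamePG (Lie.chevG2.group (TF F4)) H := by
  obtain ⟨φ, hφ⟩ := rep
  have := (S1055.result (F := TF F4) ⟨TF.mk F4 2, by decide +kernel⟩).1
  have ho : ∀ w m, wdOK 12 w = true → ordM F4 6 m (cd w) = true → orderOf (φ (el w)) = m + 1 :=
    fun w m h1 h2 => orderOf_eq_of_ordM _ _ h2 (hφ w h1)
  have o7 := ho w7 6 (by decide +kernel) (by decide +kernel)
  have hi := injective_of_simple φ (g := el w7) fun h => by simp [h] at o7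
  simp only [orderOf_injective φ hi] at ho o7
  have hf : ∀ w y, wdOK 12 w = true → fpfOK F4 6 (cd w) y = true → ∀ v,
      H78.matAct ((Units.coeHom _).comp φ) (el w) v = v → v = 0 := fun w y h1 h2 v hv =>
    eq_zero_of_fpfOK (RingHom.id _) (Equiv.refl _) h2 v (by
      have h3 := hφ w h1
      rw [mat] at h3
      rw [← h3]; exact hv)
  refine H78.exists_large_samePG (H78.matAct ((Units.coeHom _).comp φ)) Nat.prime_two
    (fun v => funext fun i => ?_) (by rw [card]; norm_num) (fun r hr h2 g hg v hv h => ?_) N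
  · exact (by decide +kernel : ∀ a : TF F4, 2 • a = 0) _
  · have h1 : r ∈ Nat.primeFactors 251596800 :=
      Nat.mem_primeFactors.2 ⟨hr, by rw [← hg, ← card]; exact orderOf_dvd_natCard g, by norm_num⟩
    rw [show Nat.primeFactors 251596800 = {2, 3, 5, 7, 13} by decide +kernel] at h1
    simp only [Finset.mem_insert, Finset.mem_singleton] at h1
    rcases h1 with rfl | rfl | rfl | rfl | rfl
    · exact absurd rfl h2
    · exact ⟨_, ho w6 5 (by decide +kernel) (by decide +kernel)⟩
    · exact ⟨_, ho w10 9 (by decide +kernel) (by decide +kernel)⟩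
    · exact absurd (fpf_of_one _ hr (by rw [card]; norm_num) o7
        (hf w7 y7 (by decide +kernel) (by decide +kernel)) hg h) hv
    · exact absurd (fpf_of_one _ hr (by rw [card]; norm_num)
        (ho w13 12 (by decide +kernel) (by decide +kernel))
        (hf w13 y13 (by decide +kernel) (by decide +kernel)) hg h) hv

theorem aux {F K : Type*} [Field F] [Field K] (e : Lie.chevG2.group F ≃* Lie.chevG2.group K) :
    H78.SamePG (Lie.chevG2.group F) (Lie.chevG2.group K) := H78.samePG_of_equiv e

/-- The prime graph of a finite group has the prime divisors of its order as vertices, two distinct primes p, q being joined when the group has an element of order pq; two groups have the same prime graph when they have the same prime divisors and the same joined pairs. Let F be the field with 4 elements and L the Chevalley group of type G₂ over F. There are finite groups of arbitrarily large order with the same prime graph as L. -/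
theorem result {F : Type*} [Field F] [Fintype F] (hF : Fintype.card F = 4) (N : ℕ) :
    ∃ (H : Type) (_ : Group H) (_ : Finite H), N < Nat.card H ∧
      ((∀ p : ℕ, p.Prime → (p ∣ Nat.card ↥(Cfsg.Lie.chevG2.group F) ↔ p ∣ Nat.card H)) ∧
      (∀ p q : ℕ, p.Prime → q.Prime → p ≠ q → ((∃ g : ↥(Cfsg.Lie.chevG2.group F), orderOf g = p * q) ↔ (∃ g : H, orderOf g = p * q)))) := by
  obtain ⟨e⟩ := chev_equiv Lie.chevG2 F4 hF
  obtain ⟨H, _, _, h1, h2⟩ := large N
  have h3 := H78.samePG_trans (aux e) h2
  exact ⟨H, inferInstance, inferInstance, h1, h3.1, h3.2⟩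

end Cfsg.Agent.S3662
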