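import Cfsg.Statements.S3669
import Cfsg.Agent.S3378
import Cfsg.Agent.S0157
import Cfsg.Agent.S0169
import Cfsg.Agent.H1.Hall

set_option autoImplicit false
open Cfsg

namespace Cfsg.Agent.S3669

open MulAction in
theorem two_trans {G : Type*} [Group G] [Finite G] {p : ℕ} [Fact p.Prime] (P : Sylow p G)
    (hP : Nat.card P = p) (hn : Nat.card (Sylow p G) = p + 1) :
    IsMultiplyPretransitive G (Sylow p G) 2 := by
  rw [SubMulAction.ofStabilizer.isMultiplyPretransitive (a := P), is_one_pretransitive_iff]
  refine ⟨fun Q R => ?_⟩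
  have hne : ∀ S : Sylow p G, S ∈ fixedPoints (P : Subgroup G) (Sylow p G) → S = P := fun S hS =>
    Sylow.ext (P.3 S.2 (P.2.sylow_mem_fixedPoints_iff.1 hS))
  have hfix : ∀ g : (P : Subgroup G), g • P = P := P.2.sylow_mem_fixedPoints_iff.2 le_rfl
  have h1 : (orbit (P : Subgroup G) Q.1).ncard = p := by
    have h2 : (orbit (P : Subgroup G) Q.1).ncard ∣ p := by
      rw [← index_stabilizer]
      exact (Subgroup.index_dvd_card _).trans hP.dvd
    refine ((Nat.dvd_prime Fact.out).1 h2).resolve_left fun e => Q.2 (hne _ fun g => ?_)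
    exact (Set.ncard_le_one_iff_subsingleton.1 e.le) (mem_orbit _ g) (mem_orbit_self _)
  have h3 : orbit (P : Subgroup G) Q.1 = {P}ᶜ := by
    refine Set.eq_of_subset_of_ncard_le ?_ ?_
    · rintro _ ⟨g, rfl⟩ e
      exact Q.2 (MulAction.injective g (e.trans (hfix g).symm))
    · have := Set.ncard_add_ncard_compl ({P} : Set (Sylow p G))
      rw [Set.ncard_singleton] at this
      omega
  obtain ⟨g, hg⟩ : R.1 ∈ orbit (P : Subgroup G) Q.1 := h3 ▸ R.2
  exact ⟨⟨g, hfix g⟩, Subtype.ext hg⟩

theorem card_syl {G : Type*} [Group G] [Finite G] [Fact (Nat.Prime 5)] (h : Nat.card G = 60)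
    (P : Sylow 5 G) : Nat.card P = 5 ∧ (P.Normal ∨ Nat.card (Sylow 5 G) = 6) := by
  have h1 : Nat.card P = 5 := by
    rw [P.card_eq_multiplicity, h]; decide +kernel
  have h2 := (P : Subgroup G).card_mul_index
  have h3 := P.card_dvd_index
  have h4 := card_sylow_modEq_one 5 G
  rw [h1, h] at h2
  rw [show (P : Subgroup G).index = 12 by omega] at h3
  refine ⟨h1, ?_⟩
  by_cases e : Nat.card (Sylow 5 G) = 1
  · have := (Nat.card_eq_one_iff_unique.1 e).1
    exact Or.inl P.normal_of_subsingleton
  · have := Nat.le_of_dvd (by norm_num) h3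
    unfold Nat.ModEq at h4
    right
    generalize Nat.card (Sylow 5 G) = n at *
    interval_cases n <;> omega

theorem five_mem : 5 ∈ Cfsg.degreePrimes (alternatingGroup (Fin 5)) := by
  have : Fact (Nat.Prime 5) := ⟨Nat.prime_five⟩
  obtain ⟨P⟩ : Nonempty (Sylow 5 (alternatingGroup (Fin 5))) := inferInstance
  obtain ⟨h1, h2⟩ := card_syl H24.SL5.card_A5 P
  have h6 : Nat.card (Sylow 5 (alternatingGroup (Fin 5))) = 6 := h2.resolve_left fun h => by
    rcases h.eq_bot_or_eq_top with e | e
    · rw [e] at h1; simp at h1
    · rw [e, Subgroup.card_top, H24.SL5.card_A5] at h1; omega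
  refine ⟨Nat.prime_five, _, ⟨⟨_, (S0157.result (Sylow 5 (alternatingGroup (Fin 5)))
    (by omega)).2 (two_trans P h1 h6)⟩, rfl⟩, ?_⟩
  simp only [charDegree, MulAction.fixedBy_one_eq_univ, Nat.card_congr (Equiv.Set.univ _), h6]
  norm_num

/-- The character degree graph of a finite group has as vertices the primes dividing some irreducible complex character degree, two distinct primes being joined when their product divides some irreducible character degree; two groups have the same character degree graph when they have the same vertices and the same joined pairs. A finite group of order 60 with the same character degree graph as the alternating group A₅ (whose character degrees are 1, 3, 4, 5, so the graph has vertices 2, 3, 5 and no edges) is isomorphic to A₅. -/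
theorem result {G : Type*} [Group G] [Finite G] (hcard : Nat.card G = 60)
    (hΓ : Cfsg.degreePrimes G = Cfsg.degreePrimes (alternatingGroup (Fin 5)) ∧ Cfsg.degreeGraph G = Cfsg.degreeGraph (alternatingGroup (Fin 5))) : Nonempty (G ≃* alternatingGroup (Fin 5)) := by
  have : Fact (Nat.Prime 5) := ⟨Nat.prime_five⟩
  by_cases hs : Group.IsSolvable G
  swap
  · have := S3378.simple_of_card_60 hcard hs
    exact S0494.result hcard
  exfalso
  obtain ⟨H, hH⟩ := H1.hall_exists {p | ¬ p ∣ 4} G hs
  have h15 : Nat.card H = 15 := (H1.hall_iff_card (m := 15) hcard (by decide) H).1 hH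
  obtain ⟨R⟩ : Nonempty (Sylow 5 H) := inferInstance
  have r1 : Nat.card R = 5 := by
    rw [R.card_eq_multiplicity, h15]; decide +kernel
  have r2 : (R : Subgroup H).Normal := by
    have h2 := (R : Subgroup H).card_mul_index
    have h3 := R.card_dvd_index
    have h4 := card_sylow_modEq_one 5 H
    rw [r1, h15] at h2
    rw [show (R : Subgroup H).index = 3 by omega] at h3
    have : Nat.card (Sylow 5 H) = 1 := ((Nat.dvd_prime Nat.prime_three).1 h3).resolve_right
      fun e => by rw [e] at h4; exact absurd h4 (by decide)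
    have := (Nat.card_eq_one_iff_unique.1 this).1
    exact R.normal_of_subsingleton
  let P : Sylow 5 G := Sylow.ofCard ((R : Subgroup H).map H.subtype) (by
    rw [Subgroup.card_map_of_injective H.subtype_injective, r1, hcard]; decide +kernel)
  have hle : H ≤ Subgroup.normalizer (P : Set G) := by
    have := Subgroup.le_normalizer_map (H := (R : Subgroup H)) H.subtype
    rwa [Subgroup.normalizer_eq_top, ← MonoidHom.range_eq_map, Subgroup.range_subtype] at this
  obtain ⟨h1, h2 | h2⟩ := card_syl hcard P
  · obtain ⟨-, _, ⟨⟨χ, n, ρ, hρ, rfl⟩, rfl⟩, hd⟩ : 5 ∈ Cfsg.degreePrimes G := hΓ.1 ▸ five_mem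
    have : IsCyclic (P : Subgroup G) := isCyclic_of_prime_card h1
    have h3 := S0169.result ρ (P : Subgroup G) fun a ha b hb =>
      congrArg Subtype.val (mul_comm' (⟨a, ha⟩ : (P : Subgroup G)) ⟨b, hb⟩)
    have h4 := (P : Subgroup G).card_mul_index
    rw [h1, hcard] at h4
    rw [show (P : Subgroup G).index = 12 by omega] at h3
    simp only [charDegree, Representation.char_one, Complex.natCast_re, Nat.floor_natCast] at hd
    exact absurd (hd.trans h3) (by decide)
  · have h3 := Subgroup.index_dvd_of_le hle
    have h4 := H.card_mul_index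
    rw [h15, hcard] at h4
    rw [← P.card_eq_index_normalizer, h2, show H.index = 4 by omega] at h3
    omega

end Cfsg.Agent.S3669
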