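import Cfsg.Statements.S3678
import Cfsg.Agent.S3660

set_option autoImplicit false
open Cfsg

namespace Cfsg.Agent.S3678

section
variable {F : Type*} [Field F]

theorem step (g : Matrix (Fin 2) (Fin 2) F) (hg : g.det = 1) (n : ℕ) (a b : F)
    (h : g ^ n = a • g + b • (1 : Matrix (Fin 2) (Fin 2) F)) :
    g ^ (n + 1) = (a * g.trace + b) • g + (-a) • (1 : Matrix (Fin 2) (Fin 2) F) := by
  rw [pow_succ, h, add_mul, smul_mul_assoc, smul_mul_assoc, S3660.sq_eq g hg, one_mul]
  module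

theorem pow_eq_one_of (g : Matrix.SpecialLinearGroup (Fin 2) F) (n : ℕ) (a b : F)
    (h : (g : Matrix (Fin 2) (Fin 2) F) ^ n = a • (g : Matrix (Fin 2) (Fin 2) F) +
      b • (1 : Matrix (Fin 2) (Fin 2) F)) (ha : a = 0) :
    (QuotientGroup.mk g : Matrix.ProjectiveSpecialLinearGroup (Fin 2) F) ^ n = 1 := by
  rw [← QuotientGroup.mk_pow, QuotientGroup.eq_one_iff, Subgroup.mem_center_iff]
  intro x
  apply Subtype.ext
  rw [Matrix.SpecialLinearGroup.coe_mul, Matrix.SpecialLinearGroup.coe_mul,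
    Matrix.SpecialLinearGroup.coe_pow, h, ha]
  simp

theorem pows (g : Matrix.SpecialLinearGroup (Fin 2) F) :
    let t := (g : Matrix (Fin 2) (Fin 2) F).trace
    let x := (QuotientGroup.mk g : Matrix.ProjectiveSpecialLinearGroup (Fin 2) F)
    (t = 0 → x ^ 2 = 1) ∧ (t ^ 2 - 1 = 0 → x ^ 3 = 1) ∧ (t ^ 3 - 2 * t = 0 → x ^ 4 = 1) ∧
      (t ^ 6 - 5 * t ^ 4 + 6 * t ^ 2 - 1 = 0 → x ^ 7 = 1) ∧
      (t ^ 8 - 7 * t ^ 6 + 15 * t ^ 4 - 10 * t ^ 2 + 1 = 0 → x ^ 9 = 1) := by
  intro t x
  have h1 : (g : Matrix (Fin 2) (Fin 2) F) ^ 1 = (1 : F) • (g : Matrix (Fin 2) (Fin 2) F) +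
      (0 : F) • (1 : Matrix (Fin 2) (Fin 2) F) := by simp
  have h2 := step _ g.2 _ _ _ h1
  have h3 := step _ g.2 _ _ _ h2
  have h4 := step _ g.2 _ _ _ h3
  have h5 := step _ g.2 _ _ _ h4
  have h6 := step _ g.2 _ _ _ h5
  have h7 := step _ g.2 _ _ _ h6
  have h8 := step _ g.2 _ _ _ h7
  have h9 := step _ g.2 _ _ _ h8
  refine ⟨fun h => pow_eq_one_of g _ _ _ h2 ?_, fun h => pow_eq_one_of g _ _ _ h3 ?_,
    fun h => pow_eq_one_of g _ _ _ h4 ?_, fun h => pow_eq_one_of g _ _ _ h7 ?_,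
    fun h => pow_eq_one_of g _ _ _ h9 ?_⟩ <;> linear_combination h

theorem not_order {G : Type*} [Group G] {x : G} {p k r s : ℕ} (hp : p.Prime) (hx : x ^ p ^ k = 1)
    (hr : r.Prime) (hs : s.Prime) (hrs : r ≠ s) : orderOf x ≠ r * s := by
  intro h
  have h1 := orderOf_dvd_of_pow_eq_one hx
  rw [h] at h1
  have h2 := (Nat.prime_dvd_prime_iff_eq hr hp).mp
    (hr.dvd_of_dvd_pow ((dvd_mul_right _ _).trans h1))
  have h3 := (Nat.prime_dvd_prime_iff_eq hs hp).mp
    (hs.dvd_of_dvd_pow ((dvd_mul_left _ _).trans h1))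
  exact hrs (h2.trans h3.symm)

theorem seven [Fintype F] (hF : Fintype.card F = 7) {r s : ℕ} (hr : r.Prime) (hs : s.Prime)
    (hrs : r ≠ s) : ¬ ∃ x : Matrix.ProjectiveSpecialLinearGroup (Fin 2) F, orderOf x = r * s := by
  rintro ⟨x, hx⟩
  obtain ⟨g, rfl⟩ := QuotientGroup.mk_surjective x
  obtain ⟨-, h3, h4, h7, -⟩ := pows g
  set t := (g : Matrix (Fin 2) (Fin 2) F).trace
  have ht : t ^ 7 = t := by rw [← hF]; exact FiniteField.pow_card t
  have h0 : (7 : F) = 0 := by exact_mod_cast hF ▸ FiniteField.cast_card_eq_zero F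
  have : (t ^ 2 - 1) * (t ^ 3 - 2 * t) * (t ^ 2 - 4) = 0 := by
    linear_combination ht + (-t ^ 5 + 2 * t ^ 3 - t) * h0
  rcases mul_eq_zero.mp this with h | h
  · rcases mul_eq_zero.mp h with h | h
    · exact not_order (k := 1) Nat.prime_three (h3 h) hr hs hrs hx
    · exact not_order (k := 2) Nat.prime_two (h4 h) hr hs hrs hx
  · exact not_order (p := 7) (k := 1) (by norm_num)
      (h7 (by linear_combination (t ^ 4 - t ^ 2 + 2) * h + h0)) hr hs hrs hx

theorem eight [Fintype F] (hF : Fintype.card F = 8) {r s : ℕ} (hr : r.Prime) (hs : s.Prime)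
    (hrs : r ≠ s) : ¬ ∃ x : Matrix.ProjectiveSpecialLinearGroup (Fin 2) F, orderOf x = r * s := by
  rintro ⟨x, hx⟩
  obtain ⟨g, rfl⟩ := QuotientGroup.mk_surjective x
  obtain ⟨h2, -, -, h7, h9⟩ := pows g
  set t := (g : Matrix (Fin 2) (Fin 2) F).trace
  have ht : t ^ 8 = t := by rw [← hF]; exact FiniteField.pow_card t
  have h0 : (2 : F) = 0 := by
    have : (2 : F) ^ 3 = 0 := by
      have : ((8 : ℕ) : F) = 0 := hF ▸ FiniteField.cast_card_eq_zero F
      exact_mod_cast this
    exact pow_eq_zero_iff (by norm_num) |>.mp this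
  have : t * (t ^ 3 + t ^ 2 + 1) * (t ^ 4 + t ^ 3 + t ^ 2 + 1) = 0 := by
    grind
  rcases mul_eq_zero.mp this with h | h
  · rcases mul_eq_zero.mp h with h | h
    · exact not_order (k := 1) Nat.prime_two (h2 h) hr hs hrs hx
    · exact not_order (p := 7) (k := 1) (by norm_num) (h7 (by grind)) hr hs hrs hx
  · exact not_order (k := 2) Nat.prime_three (h9 (by grind)) hr hs hrs hx

end

/-- The prime graph of a finite group has the prime divisors of its order as vertices, two distinct primes p, q being joined when the group has an element of order pq; two groups have the same prime graph when they have the same prime divisors and the same joined pairs. Let F be the field with 7 elements. There are finite groups of arbitrarily large order with the same prime graph as PSL(2,F) (the graph on {2, 3, 7} with no edges, which is also the prime graph of PSL(2,8)). -/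
theorem result {F : Type*} [Field F] [Fintype F] (hF : Fintype.card F = 7) (N : ℕ) :
    ∃ (H : Type) (_ : Group H) (_ : Finite H), N < Nat.card H ∧
      ((∀ p : ℕ, p.Prime → (p ∣ Nat.card (Matrix.ProjectiveSpecialLinearGroup (Fin 2) F) ↔ p ∣ Nat.card H)) ∧
      (∀ p q : ℕ, p.Prime → q.Prime → p ≠ q → ((∃ g : (Matrix.ProjectiveSpecialLinearGroup (Fin 2) F), orderOf g = p * q) ↔ (∃ g : H, orderOf g = p * q)))) := by
  have := Fact.mk Nat.prime_two
  let K := GaloisField 2 3
  have := Fintype.ofFinite K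
  have hK : Fintype.card K = 8 := by
    rw [← Nat.card_eq_fintype_card]; exact GaloisField.card 2 3 (by norm_num)
  obtain ⟨H, iH, fH, h1, h2⟩ := S3660.result (F := K) (by omega) N
  refine ⟨H, iH, fH, h1, H78.samePG_trans ⟨?_, ?_⟩ h2⟩
  · intro p hp
    have h3 := H9.gcd_mul_card_psl_two (F := F)
    have h4 := H9.gcd_mul_card_psl_two (F := K)
    rw [hF] at h3
    rw [hK] at h4
    norm_num at h3 h4
    have h5 : Nat.card (Matrix.ProjectiveSpecialLinearGroup (Fin 2) F) = 168 := by omega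
    rw [h5, h4]
    refine ⟨fun h => h.trans (by norm_num), fun h => ?_⟩
    exact hp.dvd_of_dvd_pow (n := 2) (h.trans (by norm_num))
  · intro p q hp hq hpq
    exact iff_of_false (seven hF hp hq hpq) (eight hK hp hq hpq)

end Cfsg.Agent.S3678
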