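import Cfsg.Statements.S3681
import Cfsg.Agent.H78.PermSmall

set_option autoImplicit false
open Cfsg

namespace Cfsg.Agent.S3681

/-- Bochert's bound for primitive groups. Let a finite group G act faithfully and primitively on a finite set Ω with n elements, and suppose the image of G in the symmetric group of Ω does not contain the alternating group of Ω. Then |G| · ⌊(n + 1)/2⌋! ≤ n!, that is, the index of G in the symmetric group is at least ⌊(n + 1)/2⌋!. -/
theorem result {G Ω : Type*} [Group G] [Finite G] [MulAction G Ω] [FaithfulSMul G Ω] [Fintype Ω] [DecidableEq Ω]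
    (hprim : MulAction.IsPreprimitive G Ω) (hA : ¬ alternatingGroup Ω ≤ (MulAction.toPermHom G Ω).range) :
    Nat.card G * Nat.factorial ((Fintype.card Ω + 1) / 2) ≤ Nat.factorial (Fintype.card Ω) := by
  classical
  have hex : ∃ b, ∃ D : Finset Ω, D.card = b ∧ ∀ g : G, (∀ x ∈ D, g • x = x) → g = 1 :=
    ⟨_, Finset.univ, rfl, fun g hg => FaithfulSMul.eq_of_smul_eq_smul (α := Ω) fun x => by
      rw [hg x (Finset.mem_univ x), one_smul]⟩
  obtain ⟨D, hD, hbase⟩ := Nat.find_spec hex
  have hmin : ∀ E : Finset Ω, E.card < D.card → ∃ g : G, (∀ x ∈ E, g • x = x) ∧ g ≠ 1 := by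
    intro E hE
    by_contra hc
    push Not at hc
    exact Nat.find_min hex (hD ▸ hE) ⟨E, rfl, hc⟩
  have hle : D.card ≤ Fintype.card Ω := Finset.card_le_univ D
  have hb : 2 * D.card ≤ Fintype.card Ω := by
    by_contra hc
    obtain ⟨g, hg, hg1⟩ := hmin Dᶜ (by rw [Finset.card_compl]; omega)
    obtain ⟨a, ha, hga⟩ : ∃ a ∈ D, g • a ≠ a := by
      by_contra hc
      push Not at hc
      exact hg1 (hbase g hc)
    obtain ⟨h, hh, hh1⟩ := hmin (D.erase a) (Finset.card_erase_lt_of_mem ha)
    refine hA (H78.alt_le_of_support_inter hprim hga (h := h) (fun e => hh1 (hbase h fun x hx => ?_))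
      fun x h1 h2 => ?_)
    · by_cases e' : x = a
      · rw [e', e]
      · exact hh x (Finset.mem_erase.2 ⟨e', hx⟩)
    · by_contra e
      by_cases hx : x ∈ D
      · exact h2 (hh x (Finset.mem_erase.2 ⟨e, hx⟩))
      · exact h1 (hg x (Finset.mem_compl.2 hx))
  let f : G → (D ↪ Ω) := fun g => ⟨fun x => g • (x : Ω), fun x y e =>
    Subtype.ext (MulAction.injective g e)⟩
  have hf : Function.Injective f := fun g h e => by
    have := hbase (h⁻¹ * g) fun x hx => by
      rw [mul_smul, inv_smul_eq_iff]
      exact congrFun (congrArg DFunLike.coe e) ⟨x, hx⟩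
    exact (inv_mul_eq_one.1 this).symm
  have hc := Nat.card_le_card_of_injective f hf
  rw [Nat.card_eq_fintype_card (α := D ↪ Ω), Fintype.card_embedding_eq, Fintype.card_coe] at hc
  rw [← Nat.factorial_mul_descFactorial hle, mul_comm]
  exact Nat.mul_le_mul (Nat.factorial_le (by omega)) hc

end Cfsg.Agent.S3681
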