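import Cfsg.Statements.S3682
import Cfsg.Agent.H78.TW

set_option autoImplicit false
open Cfsg

namespace Cfsg.Agent.S3682

/-- Wielandt's bound toward the Sims conjecture. Let a finite group G act faithfully and primitively on a set Ω, let a and b be points, and suppose the orbit of b under the stabilizer of a has length d ≥ 2. Then there are a prime p and a normal p-subgroup P of the stabilizer of a, all of whose elements fix b, such that the index of P in the stabilizer of a divides d! · ((d - 1)!)^d. -/
theorem result {G Ω : Type*} [Group G] [Finite G] [MulAction G Ω] [FaithfulSMul G Ω] [Finite Ω]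
    (hprim : MulAction.IsPreprimitive G Ω) (a b : Ω) (d : ℕ) (hd : Nat.card (MulAction.orbit (MulAction.stabilizer G a) b) = d) (h2 : 2 ≤ d) :
    ∃ p : ℕ, p.Prime ∧ ∃ P : Subgroup (MulAction.stabilizer G a), P.Normal ∧ IsPGroup p P ∧ (∀ g : P, ((g : MulAction.stabilizer G a) : G) • b = b) ∧
      P.index ∣ Nat.factorial d * (Nat.factorial (d - 1)) ^ d := by
  obtain ⟨h1, hc, ⟨g, hg⟩, hne, hr⟩ := H78.stab_setup hprim a b hd h2
  rcases H78.card_dvd_or (H78.primSub_of_coatom h1 hc) hg hne hr with h | ⟨-, p, hp, h, -⟩
  · refine ⟨2, Nat.prime_two, ⊥, inferInstance, IsPGroup.of_bot, fun x => ?_, by rwa [Subgroup.index_bot]⟩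
    rw [Subgroup.mem_bot.1 x.2]
    exact one_smul _ _
  · refine ⟨p, hp, _, inferInstance, H70.isPGroup_map_subtype_iff.1 h, fun x => ?_,
      H78.index_core_core_dvd hr ((H78.relIndex_symm (by rw [hg, H70.card_cj])).trans hr)⟩
    exact H78.core_le_left _ _ (Subgroup.mem_subgroupOf.1 (Subgroup.normalCore_le _ x.2))

end Cfsg.Agent.S3682
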