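import Cfsg.Statements.S3683
import Cfsg.Agent.H78.Prim

set_option autoImplicit false
open Cfsg

namespace Cfsg.Agent.S3683

theorem card_prime_of_bot_coatom {G : Type*} [Group G] [Finite G] (h : IsCoatom (⊥ : Subgroup G)) :
    (Nat.card G).Prime := by
  have hnt : Nontrivial G := by
    by_contra hc
    rw [not_nontrivial_iff_subsingleton] at hc
    exact h.1 (Subsingleton.elim _ _)
  have h1 : Nat.card G ≠ 1 := (Finite.one_lt_card_iff_nontrivial.mpr hnt).ne'
  obtain ⟨p, hp, hpd⟩ := Nat.exists_prime_and_dvd h1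
  have : Fact p.Prime := ⟨hp⟩
  obtain ⟨x, hx⟩ := exists_prime_orderOf_dvd_card' p hpd
  have hx1 : x ≠ 1 := by
    rintro rfl
    rw [orderOf_one] at hx
    exact hp.one_lt.ne hx
  have htop : Subgroup.zpowers x = ⊤ := by
    refine h.2 _ (bot_lt_iff_ne_bot.mpr ?_)
    simpa using hx1
  have : Nat.card G = p := by
    rw [← hx, ← Nat.card_zpowers, htop, Subgroup.card_top]
  rw [this]; exact hp

/-- Let a finite group G act faithfully and primitively on a set Ω, and suppose the stabilizer of a point a fixes a second point b ≠ a (a suborbit of length 1 other than {a}). Then the stabilizer of a is trivial and G is cyclic of prime order. -/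
theorem result {G Ω : Type*} [Group G] [Finite G] [MulAction G Ω] [FaithfulSMul G Ω] [Finite Ω]
    (hprim : MulAction.IsPreprimitive G Ω) (a b : Ω) (hab : a ≠ b) (hfix : ∀ g : G, g • a = a → g • b = b) :
    MulAction.stabilizer G a = ⊥ ∧ IsCyclic G ∧ (Nat.card G).Prime := by
  have hbot : MulAction.stabilizer G a = ⊥ := H78.stab_eq_bot_of_le hprim hab (fun g hg => hfix g hg)
  have : Nontrivial Ω := ⟨⟨a, b, hab⟩⟩
  have hc := MulAction.IsPreprimitive.isCoatom_stabilizer_of_isPreprimitive G a
  rw [hbot] at hc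
  have hp := card_prime_of_bot_coatom hc
  have : Fact (Nat.card G).Prime := ⟨hp⟩
  exact ⟨hbot, isCyclic_of_prime_card rfl, hp⟩

end Cfsg.Agent.S3683
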