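import Cfsg.Statements.S3684
import Cfsg.Agent.H78.Prim
import Cfsg.Agent.S0206

set_option autoImplicit false
open Cfsg

namespace Cfsg.Agent.S3684

open MulAction in
theorem exists_gen {G : Type*} [Group G] [Finite G] (H : Subgroup G) (h : Nat.card H = 2) :
    ∃ s ∈ H, orderOf s = 2 ∧ ∀ x ∈ H, x = 1 ∨ x = s := by
  obtain ⟨y, hy, huniq⟩ := (Nat.card_eq_two_iff' (1 : H)).mp h
  have hall : ∀ x ∈ H, x = 1 ∨ x = y := by
    intro x hx
    by_cases h1 : (⟨x, hx⟩ : H) = 1
    · left; exact congrArg Subtype.val h1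
    · right; exact congrArg Subtype.val (huniq _ h1)
  refine ⟨y, y.2, ?_, hall⟩
  have hy1 : (y : G) ≠ 1 := fun h => hy (Subtype.ext h)
  apply orderOf_eq_prime
  · rcases hall ((y : G) ^ 2) (H.pow_mem y.2 2) with h | h
    · exact h
    · exfalso; apply hy1
      rw [pow_two] at h
      exact mul_left_cancel (h.trans (mul_one _).symm)
  · exact hy1

/-- Let a finite group G act faithfully and primitively on a set Ω, and suppose the stabilizer of a point a has an orbit of length 2. Then the stabilizer of a has order 2 and G is isomorphic to the dihedral group of order 2p for some prime p. -/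
theorem result {G Ω : Type*} [Group G] [Finite G] [MulAction G Ω] [FaithfulSMul G Ω] [Finite Ω]
    (hprim : MulAction.IsPreprimitive G Ω) (a b : Ω) (h2 : Nat.card (MulAction.orbit (MulAction.stabilizer G a) b) = 2) :
    Nat.card (MulAction.stabilizer G a) = 2 ∧ ∃ p : ℕ, p.Prime ∧ Nonempty (G ≃* DihedralGroup p) := by
  have := hprim.toIsPretransitive
  rw [H78.card_suborbit] at h2
  have h2' := h2
  rw [H78.relIndex_stab_comm] at h2'
  set A := MulAction.stabilizer G a with hA
  set B := MulAction.stabilizer G b with hB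
  have hnA : A ≤ Subgroup.normalizer ((A ⊓ B : Subgroup G) : Set G) := by
    have : (B.subgroupOf A).Normal := Subgroup.normal_of_index_eq_two h2
    rw [inf_comm, ← Subgroup.normal_subgroupOf_iff_le_normalizer inf_le_right,
      Subgroup.inf_subgroupOf_right]
    exact this
  have hnB : B ≤ Subgroup.normalizer ((A ⊓ B : Subgroup G) : Set G) := by
    have : (A.subgroupOf B).Normal := Subgroup.normal_of_index_eq_two h2'
    rw [← Subgroup.normal_subgroupOf_iff_le_normalizer inf_le_right,
      Subgroup.inf_subgroupOf_right]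
    exact this
  have hex : ∃ g ∈ B, g • a ≠ a := by
    by_contra hc
    push Not at hc
    have : B ≤ A := hc
    rw [← Subgroup.relIndex_eq_one] at this
    omega
  obtain ⟨g, hgB, hga⟩ := hex
  have hK : A ⊓ B = ⊥ := H78.eq_bot_of_normalized hprim inf_le_left hnA (hnB hgB) hga
  have hcA : Nat.card A = 2 := by
    rw [← h2, ← Subgroup.inf_relIndex_left, hK, Subgroup.relIndex_bot_left]
  have hcB : Nat.card B = 2 := by rw [← hcA]; exact H78.card_stab_eq b a
  refine ⟨hcA, ?_⟩
  obtain ⟨s, hsA, hs, hallA⟩ := exists_gen A hcA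
  obtain ⟨t, htB, ht, hallB⟩ := exists_gen B hcB
  have hs1 : s ≠ 1 := by rintro rfl; simp at hs
  have hst : s ≠ t := by
    rintro rfl
    have : s ∈ A ⊓ B := ⟨hsA, htB⟩
    rw [hK] at this
    exact hs1 this
  have hgt : g = t := by
    rcases hallB g hgB with h | h
    · rw [h, one_smul] at hga; exact absurd rfl hga
    · exact h
  subst hgt
  have htop : Subgroup.closure ({s, g} : Set G) = ⊤ := by
    refine H78.eq_top_of_stab_le hprim (a := a) ?_ (g := g) (Subgroup.subset_closure (by simp)) hga
    intro x hx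
    rcases hallA x hx with h | h
    · rw [h]; exact one_mem _
    · rw [h]; exact Subgroup.subset_closure (by simp)
  obtain ⟨e⟩ := S0206.result s g hs ht hst
  rw [htop] at e
  have e' : G ≃* DihedralGroup (orderOf (s * g)) := Subgroup.topEquiv.symm.trans e
  refine ⟨orderOf (s * g), ?_, ⟨e'⟩⟩
  set n := orderOf (s * g) with hn
  have hs2 : s * s = 1 := by rw [← pow_two, ← hs, pow_orderOf_eq_one]
  have hg2 : g * g = 1 := by rw [← pow_two, ← ht, pow_orderOf_eq_one]
  have hsi : s⁻¹ = s := inv_eq_of_mul_eq_one_right hs2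
  have hgi : g⁻¹ = g := inv_eq_of_mul_eq_one_right hg2
  have hn1 : n ≠ 1 := by
    intro h
    rw [hn, orderOf_eq_one_iff] at h
    exact hst (by rw [eq_inv_of_mul_eq_one_left h, hgi])
  have hnpos : 0 < n := orderOf_pos _
  have hcG : Nat.card G = 2 * n := by
    rw [Nat.card_congr e'.toEquiv, DihedralGroup.nat_card]
  set p := n.minFac with hp
  have hpp : p.Prime := Nat.minFac_prime hn1
  have hpn : p ∣ n := Nat.minFac_dvd n
  set z := (s * g) ^ (n / p) with hz
  have hzo : orderOf z = p := by
    rw [hz]; exact orderOf_pow_orderOf_div hnpos.ne' hpn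
  have hnorm : (Subgroup.zpowers z).Normal := by
    rw [← Subgroup.normalizer_eq_top_iff, eq_top_iff, ← htop, Subgroup.closure_le]
    have key : ∀ u : G, u⁻¹ = u → u * (s * g) * u⁻¹ = (s * g)⁻¹ →
        u ∈ Subgroup.normalizer ((Subgroup.zpowers z : Subgroup G) : Set G) := by
      intro u hu huc
      have h1 : ∀ x ∈ Subgroup.zpowers z, u * x * u⁻¹ ∈ Subgroup.zpowers z := by
        intro x hx
        obtain ⟨k, rfl⟩ := Subgroup.mem_zpowers_iff.mp hx
        rw [← conj_zpow, hz, ← conj_pow, huc, inv_pow]
        exact Subgroup.zpow_mem _ (Subgroup.inv_mem _ (Subgroup.mem_zpowers _)) _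
      rw [Subgroup.mem_normalizer_iff]
      intro x
      refine ⟨h1 x, fun hx => ?_⟩
      have := h1 _ hx
      rw [hu] at this
      have huu : u * u = 1 := by nth_rewrite 1 [← hu]; simp
      rwa [← mul_assoc, ← mul_assoc, huu, one_mul, mul_assoc, huu, mul_one] at this
    intro u hu
    rcases hu with rfl | rfl
    · apply key _ hsi
      rw [hsi, mul_inv_rev, hsi, hgi, ← mul_assoc, hs2, one_mul]
    · apply key _ hgi
      rw [hgi, mul_inv_rev, hsi, hgi, mul_assoc, mul_assoc, hg2, mul_one]
  have hz1 : z ≠ 1 := by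
    intro h; rw [h, orderOf_one] at hzo; exact hpp.one_lt.ne hzo
  have htr : MulAction.IsPretransitive (Subgroup.zpowers z) Ω := by
    apply MulAction.IsQuasiPreprimitive.isPretransitive_of_normal
    intro h
    apply hz1
    apply FaithfulSMul.eq_of_smul_eq_smul (α := Ω)
    intro c
    have : c ∈ MulAction.fixedPoints (Subgroup.zpowers z) Ω := by rw [h]; trivial
    rw [one_smul]
    exact this ⟨z, Subgroup.mem_zpowers z⟩
  have hΩ : Nat.card Ω ≤ p := by
    rw [← hzo, ← Nat.card_zpowers]
    exact Nat.card_le_card_of_surjective (fun x : Subgroup.zpowers z => x • a)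
      (fun c => MulAction.exists_smul_eq _ a c)
  have hidx : A.index = Nat.card Ω := MulAction.index_stabilizer_of_transitive G a
  have hmul := A.card_mul_index
  rw [hcA, hidx, hcG] at hmul
  have : n = p := le_antisymm (by omega) (Nat.le_of_dvd hnpos hpn)
  rw [this]; exact hpp

end Cfsg.Agent.S3684
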