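import Cfsg.Statements.S3687
import Cfsg.Agent.LW.SubC

set_option autoImplicit false
open Cfsg

namespace Cfsg.Agent.S3687

/-- Let a finite group G act faithfully and primitively on a set Ω, let a and b be points such that the orbit Δ of b under the stabilizer H of a has d ≥ 6 elements, and suppose that the permutation group induced by H on Δ contains the alternating group of Δ (the image of H in the symmetric group of Δ has index at most 2) while H does not act faithfully on Δ. Then either H induces exactly the alternating group of Δ and H is isomorphic to the direct product of the alternating groups of degrees d and d - 1; or H induces the full symmetric group of Δ and H is isomorphic to one of: the direct product of the symmetric groups of degrees d and d - 1, the direct product of the symmetric group of degree d with the alternating group of degree d - 1, or the subgroup of the direct product of the symmetric groups of degrees d and d - 1 consisting of the pairs of permutations with equal signs. -/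
theorem result {G Ω : Type*} [Group G] [Finite G] [MulAction G Ω] [FaithfulSMul G Ω] [Finite Ω]
    (hprim : MulAction.IsPreprimitive G Ω) (a b : Ω) (d : ℕ) (hd : Nat.card (MulAction.orbit (MulAction.stabilizer G a) b) = d) (h6 : 6 ≤ d)
    (halt : (MulAction.toPermHom (MulAction.stabilizer G a) (MulAction.orbit (MulAction.stabilizer G a) b)).range.index ≤ 2)
    (hunf : ¬ Function.Injective (MulAction.toPermHom (MulAction.stabilizer G a) (MulAction.orbit (MulAction.stabilizer G a) b))) :
    ((MulAction.toPermHom (MulAction.stabilizer G a) (MulAction.orbit (MulAction.stabilizer G a) b)).range.index = 2 ∧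
      Nonempty (MulAction.stabilizer G a ≃* alternatingGroup (Fin d) × alternatingGroup (Fin (d - 1)))) ∨
    ((MulAction.toPermHom (MulAction.stabilizer G a) (MulAction.orbit (MulAction.stabilizer G a) b)).range = ⊤ ∧
      (Nonempty (MulAction.stabilizer G a ≃* Equiv.Perm (Fin d) × Equiv.Perm (Fin (d - 1))) ∨
       Nonempty (MulAction.stabilizer G a ≃* Equiv.Perm (Fin d) × alternatingGroup (Fin (d - 1))) ∨
       Nonempty (MulAction.stabilizer G a ≃* ((Equiv.Perm.sign.comp (MonoidHom.fst (Equiv.Perm (Fin d)) (Equiv.Perm (Fin (d - 1))))) *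
         (Equiv.Perm.sign.comp (MonoidHom.snd (Equiv.Perm (Fin d)) (Equiv.Perm (Fin (d - 1)))))).ker))) := by
  classical
  obtain ⟨h1, h2, ⟨g, hg⟩, hne, h3⟩ := H78.stab_setup hprim a b hd (by omega)
  have := Fintype.ofFinite (MulAction.orbit (MulAction.stabilizer G a) b)
  have := Fintype.ofFinite (MulAction.orbit (MulAction.stabilizer G b) a)
  have hA := Equiv.Perm.alternatingGroup_le_of_index_le_two halt
  have hd' : Nat.card (MulAction.orbit (MulAction.stabilizer G b) a) = d := by
    rw [← h3, ← H78.relIndex_symm (by rw [hg, H70.card_cj]), Nat.card_coe_set_eq,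
      ← MulAction.index_stabilizer]
    rfl
  have s : LW.Sit _ _ g (MulAction.toPermHom (MulAction.stabilizer G a)
      (MulAction.orbit (MulAction.stabilizer G a) b)) ⟨b, MulAction.mem_orbit_self b⟩
      (MulAction.toPermHom (MulAction.stabilizer G b) (MulAction.orbit (MulAction.stabilizer G b) a))
      ⟨a, MulAction.mem_orbit_self a⟩ :=
    ⟨H78.primSub_of_coatom h1 h2, hg, hne,
      ⟨fun x => H78.mem_core_stab.symm, fun x => Subtype.ext_iff⟩,
      ⟨fun x => H78.mem_core_stab.symm, fun x => Subtype.ext_iff⟩, hd ▸ h6, hd'.trans hd.symm,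
      by rwa [LW.im_self], fun e => hunf ((injective_iff_map_eq_one _).2 fun x hx =>
        Subtype.ext (Subgroup.mem_bot.1 (e ▸ H78.mem_core_stab.2 hx)))⟩
  obtain ⟨ψ, p1, p2, p3, p4⟩ := s.exists_psi
  let e := Finite.equivFinOfCardEq hd
  let e' := Finite.equivFinOfCardEq ((LW.card_ne
    (⟨a, MulAction.mem_orbit_self a⟩ : MulAction.orbit (MulAction.stabilizer G b) a)).trans
      (congrArg (· - 1) hd'))
  set Φ := MulAction.toPermHom (MulAction.stabilizer G a)
    (MulAction.orbit (MulAction.stabilizer G a) b) with hΦ
  have q1 : ∀ x, Equiv.Perm.sign (e.permCongrHom.toMonoidHom.comp Φ x) = Equiv.Perm.sign (Φ x) :=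
    fun x => Equiv.Perm.sign_permCongr _ _
  have q2 : ∀ x, Equiv.Perm.sign (e'.permCongrHom.toMonoidHom.comp ψ x) = Equiv.Perm.sign (ψ x) :=
    fun x => Equiv.Perm.sign_permCongr _ _
  rcases LW.final (e.permCongrHom.toMonoidHom.comp Φ) (e'.permCongrHom.toMonoidHom.comp ψ)
    (fun x k1 k2 => p1 x ((map_eq_one_iff _ e.permCongrHom.injective).1 k1)
      ((map_eq_one_iff _ e'.permCongrHom.injective).1 k2))
    (fun σ hσ => by
      obtain ⟨x, k1, k2⟩ := p2 (e.symm.permCongr σ) ((Equiv.Perm.sign_permCongr _ _).trans hσ)
      exact ⟨x, by ext; simp [k1], by ext; simp [k2]⟩)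
    (fun σ hσ => by
      obtain ⟨x, k1, k2⟩ := p3 (e'.symm.permCongr σ) ((Equiv.Perm.sign_permCongr _ _).trans hσ)
      exact ⟨x, by ext; simp [k1], by ext; simp [k2]⟩)
    (fun k x => (q2 x).trans (p4 (fun y => (q1 y).symm.trans (k y)) x)) with ⟨k, k'⟩ | ⟨⟨x, k⟩, k'⟩
  · refine Or.inl ⟨?_, k'⟩
    have : Nontrivial (MulAction.orbit (MulAction.stabilizer G a) b) :=
      Finite.one_lt_card_iff_nontrivial.1 (by omega)
    rw [le_antisymm (by rintro _ ⟨x, rfl⟩; exact (q1 x).symm.trans (k x)) hA]
    exact alternatingGroup.index_eq_two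
  · exact Or.inr ⟨LW.eq_top_of_odd hA ⟨x, rfl⟩ (q1 x ▸ k), k'⟩

end Cfsg.Agent.S3687
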