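import Cfsg.Statements.S3693
import Cfsg.Agent.H78.TW

set_option autoImplicit false
open Cfsg

namespace Cfsg.Agent.S3693

/-- Let a finite group G act faithfully and primitively on a set Ω, let a and b be points such that the orbit Δ of b under the stabilizer H of a has length d ≥ 2, and consider the permutation group induced on Δ by the elements of H fixing b. If that induced group has trivial Fitting subgroup (no non-trivial nilpotent normal subgroup), then the two-point stabilizer of a and b has trivial Fitting subgroup and the order of H divides d! · ((d - 1)!)^d. -/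
theorem result {G Ω : Type*} [Group G] [Finite G] [MulAction G Ω] [FaithfulSMul G Ω] [Finite Ω]
    (hprim : MulAction.IsPreprimitive G Ω) (a b : Ω) (d : ℕ) (hd : Nat.card (MulAction.orbit (MulAction.stabilizer G a) b) = d) (h2 : 2 ≤ d)
    (hF : Cfsg.fittingSubgroup ↥(((MulAction.stabilizer G b).subgroupOf (MulAction.stabilizer G a)).map (MulAction.toPermHom (MulAction.stabilizer G a) (MulAction.orbit (MulAction.stabilizer G a) b))) = ⊥) :
    Cfsg.fittingSubgroup ↥(MulAction.stabilizer G a ⊓ MulAction.stabilizer G b) = ⊥ ∧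
      Nat.card (MulAction.stabilizer G a) ∣ Nat.factorial d * (Nat.factorial (d - 1)) ^ d := by
  obtain ⟨h1, hc, ⟨g, hg⟩, hne, hr⟩ := H78.stab_setup hprim a b hd h2
  have hM := H78.primSub_of_coatom h1 hc
  have key : ∀ (p : ℕ) [Fact p.Prime],
      pCoreOf p (MulAction.stabilizer G a ⊓ MulAction.stabilizer G b) = ⊥ := fun p _ => by
    refine H78.pCore_eq_bot_of_le_core hM hg hne fun x hx => ?_
    refine (H78.mem_core_stab (x := ⟨x, (H70.pCoreOf_le _ hx).1⟩)).2 (H78.pCore_le_ker _ ?_ hx)
    exact le_bot_iff.1 ((H59.Op_le_Fof _).trans (H70.map_subtype_eq_bot_iff.2 hF).le)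
  refine ⟨H70.map_subtype_eq_bot_iff.1 (le_bot_iff.1 (H59.Fof_le fun p _ => (key p).le)), ?_⟩
  rcases H78.card_dvd_or hM hg hne hr with h | ⟨h0, p, hp, h, -⟩
  · exact h
  · have := Fact.mk hp
    exact absurd (le_bot_iff.1 (key p ▸ H70.le_pCoreOf (le_inf (H78.core_le_left _ _)
      ((H78.core_le_right _ _).trans (H78.core_le_left _ _)))
      (inf_le_left.trans (H78.le_norm_core _ _)) h)) h0

end Cfsg.Agent.S3693
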