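import Cfsg.Statements.S3696

set_option autoImplicit false
open Cfsg

namespace Cfsg.Agent.S3696

open MulAction

theorem amgm (m r j k' : ℕ) :
    m ^ j * r ^ k' * (j + k') ^ (j + k') ≤ (m + r) ^ (j + k') * (j ^ j * k' ^ k') := by
  rcases Nat.eq_zero_or_pos j with rfl | hj
  · simp only [pow_zero, one_mul, zero_add]
    exact Nat.mul_le_mul_right _ (Nat.pow_le_pow_left (Nat.le_add_left _ _) _)
  rcases Nat.eq_zero_or_pos k' with rfl | hk
  · simp only [pow_zero, mul_one, add_zero]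
    exact Nat.mul_le_mul_right _ (Nat.pow_le_pow_left (Nat.le_add_right _ _) _)
  have hj' : (0 : ℝ) < j := by exact_mod_cast hj
  have hk' : (0 : ℝ) < k' := by exact_mod_cast hk
  have hs : (0 : ℝ) < (j : ℝ) + k' := by positivity
  have h := Real.geom_mean_le_arith_mean2_weighted (w₁ := j / (j + k')) (w₂ := k' / (j + k'))
    (p₁ := m / j) (p₂ := r / k') (by positivity) (by positivity) (by positivity) (by positivity)
    (by field_simp)
  have h2 := pow_le_pow_left₀ (by positivity) h (j + k')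
  rw [mul_pow, ← Real.rpow_natCast, ← Real.rpow_natCast ((_ : ℝ) ^ (_ : ℝ)),
    ← Real.rpow_mul (by positivity), ← Real.rpow_mul (by positivity)] at h2
  have e1 : (j : ℝ) / (j + k') * ((j + k' : ℕ) : ℝ) = j := by push_cast; field_simp
  have e2 : (k' : ℝ) / (j + k') * ((j + k' : ℕ) : ℝ) = k' := by push_cast; field_simp
  have e3 : (j : ℝ) / (j + k') * (m / j) + k' / (j + k') * (r / k') = (m + r) / (j + k') := by
    field_simp
  rw [e1, e2, e3, Real.rpow_natCast, Real.rpow_natCast, div_pow, div_pow, div_pow,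
    div_mul_div_comm, div_le_div_iff₀ (by positivity) (by positivity)] at h2
  exact_mod_cast h2

theorem small (p j m : ℕ) (hp : 2 ≤ p) (hj : 1 ≤ j) (hm : p ^ j ≤ m) : m * j ^ j ≤ m ^ j := by
  obtain ⟨i, rfl⟩ := Nat.exists_eq_add_of_le' hj
  have h2 : 2 ^ (i + 1) ≤ m := le_trans (Nat.pow_le_pow_left hp _) hm
  have h3 : i + 1 ≤ 2 ^ i := Nat.lt_two_pow_self
  calc m * (i + 1) ^ (i + 1) ≤ m * (2 ^ i) ^ (i + 1) :=
        Nat.mul_le_mul_left _ (Nat.pow_le_pow_left h3 _)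
    _ = m * (2 ^ (i + 1)) ^ i := by rw [← pow_mul, ← pow_mul, mul_comm i]
    _ ≤ m * m ^ i := Nat.mul_le_mul_left _ (Nat.pow_le_pow_left h2 _)
    _ = m ^ (i + 1) := by ring

/-- elements of order dividing `p` in an abelian subgroup -/
def om {G : Type*} [Group G] (p : ℕ) (A : Subgroup G) (hA : ∀ x ∈ A, ∀ y ∈ A, Commute x y) :
    Subgroup G where
  carrier := {x | x ∈ A ∧ x ^ p = 1}
  one_mem' := ⟨A.one_mem, one_pow _⟩
  mul_mem' := fun {x y} hx hy =>
    ⟨A.mul_mem hx.1 hy.1, by rw [(hA x hx.1 y hy.1).mul_pow, hx.2, hy.2, mul_one]⟩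
  inv_mem' := fun {x} hx => ⟨A.inv_mem hx.1, by rw [inv_pow, hx.2, inv_one]⟩

theorem card_eq_mul {G Ω : Type*} [Group G] [MulAction G Ω] (A : Subgroup G) (ω : Ω) :
    Nat.card A = Nat.card (A ⊓ stabilizer G ω : Subgroup G) * Nat.card (orbit A ω) := by
  rw [Nat.card_congr (orbitEquivQuotientStabilizer A ω)]
  have h1 : Nat.card ((stabilizer G ω).subgroupOf A) * ((stabilizer G ω).subgroupOf A).index =
      Nat.card A := Subgroup.card_mul_index _
  rw [← h1, ← Subgroup.inf_subgroupOf_left,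
    Nat.card_congr (Subgroup.subgroupOfEquivOfLe inf_le_left).toEquiv,
    Subgroup.inf_subgroupOf_left]
  rfl

theorem main {Ω : Type*} [Fintype Ω] [DecidableEq Ω] (p : ℕ) (hp : p.Prime) (n : ℕ) :
    ∀ (S : Set Ω), S.ncard = n → ∀ (A : Subgroup (Equiv.Perm Ω)) (_ : IsPGroup p A)
      (hA : ∀ x ∈ A, ∀ y ∈ A, Commute x y) (_ : ∀ a ∈ A, ∀ x, x ∉ S → a x = x) (k : ℕ),
      Nat.card (om p A hA) = p ^ k → Nat.card A * k ^ k ≤ n ^ k := by
  have : Fact p.Prime := ⟨hp⟩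
  induction n using Nat.strong_induction_on with
  | _ n ih =>
  intro S hS A hpA hA hfix k hk
  rcases Nat.eq_zero_or_pos k with rfl | hkpos
  · simp only [pow_zero, mul_one] at hk ⊢
    by_contra hc
    obtain ⟨e, he⟩ := hpA.exists_card_eq
    have he0 : e ≠ 0 := by rintro rfl; simp [he] at hc
    have hd : p ∣ Nat.card A := by rw [he]; exact dvd_pow_self _ he0
    obtain ⟨x, hx⟩ := exists_prime_orderOf_dvd_card' p hd
    have hx1 : (x : Equiv.Perm Ω) ∈ om p A hA := ⟨x.2, by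
      rw [← Subgroup.coe_pow, ← hx, pow_orderOf_eq_one, Subgroup.coe_one]⟩
    rw [Subgroup.card_eq_one.mp hk, Subgroup.mem_bot] at hx1
    have : x = 1 := Subtype.ext hx1
    rw [this, orderOf_one] at hx
    exact hp.one_lt.ne hx
  have hne : om p A hA ≠ ⊥ := by
    intro h
    rw [h, Subgroup.card_bot] at hk
    exact (Nat.one_lt_pow hkpos.ne' hp.one_lt).ne hk
  obtain ⟨⟨e, heE⟩, he1⟩ := Subgroup.ne_bot_iff_exists_ne_one.mp hne
  have he1' : e ≠ 1 := fun h => he1 (Subtype.ext h)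
  obtain ⟨ω, hω⟩ : ∃ ω, e ω ≠ ω := by
    by_contra hc
    push Not at hc
    exact he1' (Equiv.ext hc)
  set K : Subgroup (Equiv.Perm Ω) := A ⊓ stabilizer (Equiv.Perm Ω) ω with hK
  have hKc : ∀ x ∈ K, ∀ y ∈ K, Commute x y := fun x hx y hy => hA x hx.1 y hy.1
  set O : Set Ω := orbit A ω with hO
  have hOS : O ⊆ S := by
    rintro _ ⟨a, rfl⟩
    by_contra hc
    have h1 := hfix (e * (a : Equiv.Perm Ω)⁻¹) (A.mul_mem heE.1 (A.inv_mem a.2)) _ hc
    have h2 := hfix ((a : Equiv.Perm Ω)⁻¹) (A.inv_mem a.2) _ hc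
    apply hω
    change (e * (a : Equiv.Perm Ω)⁻¹) ((a : Equiv.Perm Ω) ω) = (a : Equiv.Perm Ω) ω at h1
    change ((a : Equiv.Perm Ω)⁻¹) ((a : Equiv.Perm Ω) ω) = (a : Equiv.Perm Ω) ω at h2
    simp only [Equiv.Perm.coe_mul, Function.comp_apply, Equiv.Perm.coe_inv,
      Equiv.symm_apply_apply] at h1 h2
    rw [h1, ← h2]
  have hOpos : 0 < O.ncard := by
    rw [Set.ncard_pos]; exact ⟨ω, mem_orbit_self ω⟩
  have hsum : (S \ O).ncard + O.ncard = n := by rw [Set.ncard_diff_add_ncard_of_subset hOS, hS]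
  have hEK : om p K hKc = om p A hA ⊓ stabilizer (Equiv.Perm Ω) ω := by
    ext x; constructor
    · rintro ⟨⟨h1, h2⟩, h3⟩; exact ⟨⟨h1, h3⟩, h2⟩
    · rintro ⟨⟨h1, h2⟩, h3⟩; exact ⟨⟨h1, h3⟩, h2⟩
  have hpK : IsPGroup p K := hpA.to_le inf_le_left
  have hpEK : IsPGroup p (om p K hKc) := hpK.to_le (fun x hx => hx.1)
  obtain ⟨k', hk'⟩ := hpEK.exists_card_eq
  have hIH := ih (S \ O).ncard (by omega) (S \ O) rfl K hpK hKc (by
    intro a ha x hx
    by_cases hxS : x ∈ S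
    · have hxO : x ∈ O := by by_contra h; exact hx ⟨hxS, h⟩
      obtain ⟨c, rfl⟩ := hxO
      change a ((c : Equiv.Perm Ω) ω) = (c : Equiv.Perm Ω) ω
      have h1 : a ω = ω := ha.2
      rw [← Equiv.Perm.mul_apply, (hA a ha.1 c c.2).eq, Equiv.Perm.mul_apply, h1]
    · exact hfix a ha.1 x hxS) k' hk'
  have hA1 := card_eq_mul A ω
  have hE1 := card_eq_mul (om p A hA) ω
  rw [← hEK, hk, hk'] at hE1
  rw [← hK, ← hO, Nat.card_coe_set_eq] at hA1
  have hle : Nat.card (orbit (om p A hA) ω) ≤ O.ncard := by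
    rw [Nat.card_coe_set_eq]
    apply Set.ncard_le_ncard _ (Set.toFinite _)
    rintro _ ⟨a, rfl⟩
    exact ⟨⟨a, a.2.1⟩, rfl⟩
  have hgt : 1 < Nat.card (orbit (om p A hA) ω) := by
    rw [Nat.card_coe_set_eq, Set.one_lt_ncard_iff]
    exact ⟨_, _, ⟨⟨e, heE⟩, rfl⟩, mem_orbit_self ω, hω⟩
  have hkk : k' < k := by
    have : p ^ k' < p ^ k := by
      rw [hE1]; exact lt_mul_of_one_lt_right (pow_pos hp.pos _) hgt
    exact (Nat.pow_lt_pow_iff_right hp.one_lt).mp this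
  obtain ⟨j, rfl⟩ := Nat.exists_eq_add_of_le' hkk.le
  have hj : 1 ≤ j := by omega
  have hpj : Nat.card (orbit (om p A hA) ω) = p ^ j := by
    rw [pow_add, mul_comm] at hE1
    exact (Nat.eq_of_mul_eq_mul_left (pow_pos hp.pos _) hE1).symm
  have h1 := small p j O.ncard hp.two_le hj (hpj ▸ hle)
  have h2 := amgm O.ncard (S \ O).ncard j k'
  rw [add_comm O.ncard, hsum] at h2
  have hpos : 0 < j ^ j * k' ^ k' := by
    apply Nat.mul_pos (pow_pos hj _)
    rcases Nat.eq_zero_or_pos k' with rfl | h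
    · simp
    · exact pow_pos h _
  refine Nat.le_of_mul_le_mul_right (le_trans ?_ h2) hpos
  rw [hA1]
  calc Nat.card K * O.ncard * (j + k') ^ (j + k') * (j ^ j * k' ^ k')
      = (O.ncard * j ^ j) * (Nat.card K * k' ^ k') * (j + k') ^ (j + k') := by ring
    _ ≤ _ := Nat.mul_le_mul_right _ (Nat.mul_le_mul h1 hIH)

/-- Let p be a prime, Ω a finite set with n ≥ p elements, and A an abelian p-subgroup of the symmetric group on Ω whose elements of order dividing p number p^k (so k is the rank of A). Then |A| · k^k ≤ n^k, that is, |A| ≤ (n/k)^k. -/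
theorem result {Ω : Type*} [Fintype Ω] [DecidableEq Ω]
    (p : ℕ) (hp : p.Prime) (hn : p ≤ Fintype.card Ω) (A : Subgroup (Equiv.Perm Ω)) (hA : IsPGroup p A) (hab : IsMulCommutative A)
    (k : ℕ) (hk : Nat.card {x : A // x ^ p = 1} = p ^ k) :
    Nat.card A * k ^ k ≤ Fintype.card Ω ^ k := by
  have hc : ∀ x ∈ A, ∀ y ∈ A, Commute x y := fun x hx y hy =>
    congrArg Subtype.val (hab.is_comm.comm (⟨x, hx⟩ : A) ⟨y, hy⟩)
  have := main p hp (Fintype.card Ω) Set.univ (by simp) A hA hc (by simp) k (by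
    rw [← hk]
    refine Nat.card_congr ⟨fun x => ⟨⟨x, x.2.1⟩, Subtype.ext x.2.2⟩,
      fun x => ⟨x.1, x.1.2, congrArg Subtype.val x.2⟩, fun x => rfl, fun x => rfl⟩)
  exact this

end Cfsg.Agent.S3696
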