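import Cfsg.Statements.S3708
import Cfsg.Agent.H77.UPos

set_option autoImplicit false
open Cfsg

namespace Cfsg.Agent.S3708

/-- Phan's recognition of unitary groups. Let F be a finite field with q² elements, q > 4, and n ≥ 2. Let G be a group generated by subgroups U_0, …, U_{n−1}, each isomorphic to the special unitary group SU(2, q²) (determinant-one isometries of the standard Hermitian form in two variables over F), and let D_i ≤ U_i be cyclic subgroups of order q + 1. Suppose that U_i and U_j commute elementwise whenever the indices differ by at least 2, that the subgroup generated by U_i and U_{i+1} is isomorphic to SU(3, q²) for each i, and that D_i and D_j commute elementwise for all i, j. Then G is a homomorphic image of SU(n+1, q²). (Generation of G by the U_i is part of the hypothesis; G is not assumed finite.) -/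
theorem result {G : Type*} [Group G] (n : ℕ) (hn : 2 ≤ n)
    (F : Type*) [Field F] [Fintype F] (q : ℕ) (hq : 4 < q) (hF : Fintype.card F = q ^ 2)
    (U : Fin n → Subgroup G) (e : ∀ i, ↥(Cfsg.SU 2 F q) ≃* ↥(U i)) (hgen : ⨆ i, U i = ⊤)
    (D : Fin n → Subgroup G) (hD : ∀ i, D i ≤ U i ∧ IsCyclic ↥(D i) ∧ Nat.card ↥(D i) = q + 1)
    (h1 : ∀ i j : Fin n, (i : ℕ) + 2 ≤ j → ∀ x ∈ U i, ∀ y ∈ U j, x * y = y * x)
    (h2 : ∀ i j : Fin n, (i : ℕ) + 1 = j → Nonempty (↥(U i ⊔ U j) ≃* ↥(Cfsg.SU 3 F q)))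
    (h3 : ∀ i j : Fin n, i ≠ j → ∀ x ∈ D i, ∀ y ∈ D j, x * y = y * x) :
    ∃ f : ↥(Cfsg.SU (n + 1) F q) →* G, Function.Surjective f := by
  haveI := Fact.mk hF
  obtain ⟨n, rfl⟩ : ∃ m, n = 0 + m + 2 := ⟨n - 2, by omega⟩
  have k : ∀ i, ∃ a ∈ D i, a ≠ 1 ∧ a ^ (q + 1) = 1 := fun i => by
    haveI : Finite (D i) := Nat.finite_of_card_ne_zero (by rw [(hD i).2.2]; omega)
    haveI : Nontrivial (D i) := Finite.one_lt_card_iff_nontrivial.1 (by rw [(hD i).2.2]; omega)
    obtain ⟨a, ha⟩ := exists_ne (1 : D i)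
    exact ⟨a, a.2, fun h => ha (Subtype.ext h), by
      rw [← (hD i).2.2, ← Subgroup.coe_pow, pow_card_eq_one', Subgroup.coe_one]⟩
  have sp : ∀ i j : Fin (0 + n + 2), (i : ℕ) + 1 = j → H77.SP F q (U i) (U j) := fun i j h => by
    obtain ⟨a, a1, a2, a3⟩ := k i
    obtain ⟨b, b1, b2, b3⟩ := k j
    exact H77.sp_of_tori (e i) (e j) (h2 i j h).some ((hD i).1 a1) ((hD j).1 b1) a2 b2 a3 b3
      (h3 i j (fun e => by simp [e] at h) a a1 b b1)
  obtain ⟨Φ, hΦ⟩ := H77.phan_fin (F := F) (q := q) (by omega) 0 (fun _ => by omega) n U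
    (fun i => (Nat.card_congr (e i).toEquiv).symm) h1 sp (by
      obtain ⟨ψ, -, b, c⟩ := sp ⟨0 + n, by omega⟩ ⟨1 + n, by omega⟩ (by simp; omega)
      refine ⟨ψ, fun i hi => ?_⟩
      obtain rfl | rfl : i = 0 ∨ i = 1 := by omega
      exacts [b, c])
  exact ⟨Φ, MonoidHom.range_eq_top.1 (top_le_iff.1 (hgen ▸ iSup_le hΦ))⟩

end Cfsg.Agent.S3708
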