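import Cfsg.Statements.S3713
import Cfsg.Agent.H77.SpAm

set_option autoImplicit false
open Cfsg

namespace Cfsg.Agent.S3713

/-- A presentation of the symplectic group as the universal completion of an amalgam of small subgroups. Let F be a field with more than two elements, n ≥ 2, and Sp the group of 2n × 2n matrices over F preserving the standard alternating form, acting on column vectors; write e_k, f_k for the standard basis vectors of the two halves (a hyperbolic basis). For each k let S_k be the subgroup of Sp fixing e_l and f_l for all l ≠ k (a copy of SL(2, F) on the plane of e_k, f_k), and for each i with i + 1 < n let M_i be the subgroup fixing every e_l and fixing f_l for all l other than i, i+1 (an abelian group isomorphic to the additive group of F³). Then Sp is the universal completion of the amalgam formed by the S_k, the M_i and the subgroups generated by two of them: for every group H and homomorphisms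 σ_k : S_k → H, μ_i : M_i → H such that for each pair of these subgroups some homomorphism on the subgroup they generate restricts to the given ones, there is exactly one homomorphism Sp → H restricting to every σ_k and μ_i. -/
theorem result
    (F : Type*) [Field F] (hF : ∃ a : F, a ≠ 0 ∧ a ≠ 1) (n : ℕ) (hn : 2 ≤ n)
    (S M : Fin n → Subgroup ↥(Matrix.symplecticGroup (Fin n) F))
    (hS : ∀ j : Fin n, S j = Subgroup.closure {A : ↥(Matrix.symplecticGroup (Fin n) F) | ∀ k : Fin n, k ≠ j →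
      ((A : ↥(Matrix.symplecticGroup (Fin n) F)) : Matrix (Fin n ⊕ Fin n) (Fin n ⊕ Fin n) F).mulVec (Pi.single (Sum.inl k) (1 : F)) = (Pi.single (Sum.inl k) (1 : F)) ∧ ((A : ↥(Matrix.symplecticGroup (Fin n) F)) : Matrix (Fin n ⊕ Fin n) (Fin n ⊕ Fin n) F).mulVec (Pi.single (Sum.inr k) (1 : F)) = (Pi.single (Sum.inr k) (1 : F))})
    (hM : ∀ i : Fin n, (i : ℕ) + 1 < n → M i = Subgroup.closure {A : ↥(Matrix.symplecticGroup (Fin n) F) |
      (∀ k : Fin n, ((A : ↥(Matrix.symplecticGroup (Fin n) F)) : Matrix (Fin n ⊕ Fin n) (Fin n ⊕ Fin n) F).mulVec (Pi.single (Sum.inl k) (1 : F)) = (Pi.single (Sum.inl k) (1 : F))) ∧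
        ∀ k : Fin n, (k : ℕ) ≠ i → (k : ℕ) ≠ (i : ℕ) + 1 → ((A : ↥(Matrix.symplecticGroup (Fin n) F)) : Matrix (Fin n ⊕ Fin n) (Fin n ⊕ Fin n) F).mulVec (Pi.single (Sum.inr k) (1 : F)) = (Pi.single (Sum.inr k) (1 : F))})
    {H : Type*} [Group H] (σ : ∀ j : Fin n, ↥(S j) →* H) (μ : ∀ i : Fin n, ↥(M i) →* H)
    (hSS : ∀ j l : Fin n, j ≠ l → ∃ Ψ : ↥(S j ⊔ S l) →* H,
      (∀ (g : ↥(Matrix.symplecticGroup (Fin n) F)) (hg : g ∈ S j), Ψ ⟨g, Subgroup.mem_sup_left hg⟩ = σ j ⟨g, hg⟩) ∧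
        (∀ (g : ↥(Matrix.symplecticGroup (Fin n) F)) (hg : g ∈ S l), Ψ ⟨g, Subgroup.mem_sup_right hg⟩ = σ l ⟨g, hg⟩))
    (hMM : ∀ i i' : Fin n, i ≠ i' → (i : ℕ) + 1 < n → (i' : ℕ) + 1 < n → ∃ Ψ : ↥(M i ⊔ M i') →* H,
      (∀ (g : ↥(Matrix.symplecticGroup (Fin n) F)) (hg : g ∈ M i), Ψ ⟨g, Subgroup.mem_sup_left hg⟩ = μ i ⟨g, hg⟩) ∧
        (∀ (g : ↥(Matrix.symplecticGroup (Fin n) F)) (hg : g ∈ M i'), Ψ ⟨g, Subgroup.mem_sup_right hg⟩ = μ i' ⟨g, hg⟩))
    (hMS : ∀ i j : Fin n, (i : ℕ) + 1 < n → ∃ Ψ : ↥(M i ⊔ S j) →* H,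
      (∀ (g : ↥(Matrix.symplecticGroup (Fin n) F)) (hg : g ∈ M i), Ψ ⟨g, Subgroup.mem_sup_left hg⟩ = μ i ⟨g, hg⟩) ∧
        (∀ (g : ↥(Matrix.symplecticGroup (Fin n) F)) (hg : g ∈ S j), Ψ ⟨g, Subgroup.mem_sup_right hg⟩ = σ j ⟨g, hg⟩)) :
    ∃! Φ : ↥(Matrix.symplecticGroup (Fin n) F) →* H,
      (∀ (j : Fin n) (g : ↥(Matrix.symplecticGroup (Fin n) F)) (hg : g ∈ S j), Φ g = σ j ⟨g, hg⟩) ∧
        (∀ (i : Fin n), (i : ℕ) + 1 < n → ∀ (g : ↥(Matrix.symplecticGroup (Fin n) F)) (hg : g ∈ M i), Φ g = μ i ⟨g, hg⟩) := by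
  have eS : ∀ j : Fin n, S j = H77.Fp F n (· ≠ j) := fun j => (hS j).trans (le_antisymm
    ((Subgroup.closure_le _).2 fun A h a ha => by
      rcases a with a | a
      exacts [(h a fun e => ha (congrArg Fin.val e)).1, (h a fun e => ha (congrArg Fin.val e)).2])
    fun A h => Subgroup.subset_closure fun k hk =>
      ⟨h (.inl k) fun e => hk (Fin.ext e), h (.inr k) fun e => hk (Fin.ext e)⟩)
  have eM : ∀ i : Fin n, (i : ℕ) + 1 < n → M i = H77.SM F n i := fun i hi => (hM i hi).trans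
    (le_antisymm ((Subgroup.closure_le _).2 fun A h a ha => by
      rcases a with a | a
      exacts [h.1 a, h.2 a (ha.resolve_left (by simp)).1 (ha.resolve_left (by simp)).2])
    fun A h => Subgroup.subset_closure
      ⟨fun k => h (.inl k) (Or.inl rfl), fun k h1 h2 => h (.inr k) (Or.inr ⟨h1, h2⟩)⟩)
  have cp : ∀ {L L' : Subgroup ↥(Matrix.symplecticGroup (Fin n) F)} {f : L →* H} {f' : L' →* H},
      (∃ Ψ : ↥(L ⊔ L') →* H, (∀ g (hg : g ∈ L), Ψ ⟨g, Subgroup.mem_sup_left hg⟩ = f ⟨g, hg⟩) ∧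
        ∀ g (hg : g ∈ L'), Ψ ⟨g, Subgroup.mem_sup_right hg⟩ = f' ⟨g, hg⟩) →
      H77.Cp L L' (H77.tot f) (H77.tot f') := fun ⟨Ψ, h1, h2⟩ => ⟨H77.tot Ψ, H77.ph_tot Ψ,
    fun g hg => by rw [H77.tot_eq _ hg, ← h1, H77.tot_eq], fun g hg => by
      rw [H77.tot_eq _ hg, ← h2, H77.tot_eq]⟩
  have top : ∀ g, g ∈ H77.Fp F n (n - 1 + 1 ≤ ·) := by
    rintro g (a | a) h <;> simp at h <;> omega
  obtain ⟨φ, h1, h2, h3⟩ := H77.sp_slim hF (fun j => if h : j < n then H77.tot (σ ⟨j, h⟩) else 1)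
    (fun j => if h : j < n then H77.tot (μ ⟨j, h⟩) else 1) hn (fun j a l b h => by
      rw [dif_pos a, dif_pos b, ← eS ⟨j, a⟩, ← eS ⟨l, b⟩]
      exact cp (hSS _ _ (by simpa))) (fun j l h a b => by
      rw [dif_pos (by omega), dif_pos (by omega), ← eM ⟨j, by omega⟩ a, ← eM ⟨l, by omega⟩ b]
      exact cp (hMM _ _ (by simpa) a b)) (fun j l a b => by
      rw [dif_pos (by omega), dif_pos b, ← eM ⟨j, by omega⟩ a, ← eS ⟨l, b⟩]
      exact cp (hMS _ _ a)) (n - 1) (by omega)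
  have k : ∀ Φ Φ' : ↥(Matrix.symplecticGroup (Fin n) F) →* H, (∀ j, ∀ g ∈ S j, Φ g = Φ' g) →
      (∀ i : Fin n, (i : ℕ) + 1 < n → ∀ g ∈ M i, Φ g = Φ' g) → Φ = Φ' := fun Φ Φ' a b =>
    MonoidHom.ext fun g => H77.genA hF (Φ.eqLocus Φ') (n - 1) (by omega) (fun j hj g hg =>
      a ⟨j, by omega⟩ g ((eS ⟨j, by omega⟩).ge hg)) (fun j hj g hg => b ⟨j, by omega⟩ (by simp; omega) g
        ((eM ⟨j, by omega⟩ (by simp; omega)).ge hg)) (top g)
  refine existsUnique_of_exists_of_unique ⟨MonoidHom.mk' φ fun x y => h1 x (top x) y (top y),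
    fun j g hg => ?_, fun i hi g hg => ?_⟩ fun Φ Φ' a b => k _ _ (fun j g hg => (a.1 j g hg).trans
      (b.1 j g hg).symm) fun i hi g hg => (a.2 i hi g hg).trans (b.2 i hi g hg).symm
  · exact (h2 j (by omega) g (eS j ▸ hg)).trans (by rw [dif_pos j.2]; exact H77.tot_eq _ hg)
  · exact (h3 i (by omega) g (eM i hi ▸ hg)).trans (by rw [dif_pos i.2]; exact H77.tot_eq _ hg)

end Cfsg.Agent.S3713
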