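import Cfsg.Statements.S3802
import Cfsg.Agent.H79.Conj
import Cfsg.Agent.S0538

set_option autoImplicit false
open Cfsg

namespace Cfsg.Agent.S3802

open Cfsg.Agent.H79

/-- a subnormal subgroup contained in a proper subgroup `M` lies in an `M`-invariant subnormal
subgroup `K ≤ M` whose normalizer is not contained in `M`. -/
theorem exists_invariant {G : Type*} [Group G] [Finite G] (M N : Subgroup G) (hM : M ≠ ⊤)
    (hN : N.IsSubnormal) (hNM : N ≤ M) :
    ∃ K : Subgroup G, N ≤ K ∧ K ≤ M ∧ K.IsSubnormal ∧ M ≤ Subgroup.normalizer (K : Set G) ∧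
      ¬ Subgroup.normalizer (K : Set G) ≤ M := by
  let S : Set (Subgroup G) := {U | U.IsSubnormal ∧ U ≤ M}
  have hK : (sSup S).IsSubnormal := S0538.sSup_isSubnormal S (fun U hU => hU.1)
  have hKM : sSup S ≤ M := sSup_le (fun U hU => hU.2)
  refine ⟨sSup S, le_sSup ⟨hN, hNM⟩, hKM, hK, ?_, ?_⟩
  · intro m hm
    apply mem_normalizer_of_cj_le
    exact le_sSup ⟨hK.map (MulAut.conj m).surjective, cj_le_of_mem hKM hm⟩
  · rcases Subgroup.IsSubnormal.iff_eq_top_or_exists.1 hK with h | ⟨L, hL, hLs, hLn⟩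
    · exact absurd (top_le_iff.1 (h ▸ hKM)) hM
    · intro h
      have h1 : L ≤ M := (Subgroup.le_normalizer_of_normal_subgroupOf hL.le).trans h
      have h2 : L ∈ S := ⟨hLs, h1⟩
      exact absurd (le_sSup h2) (not_le_of_gt hL)

/-- Let G be a finite group, M a maximal subgroup of G and N a subnormal subgroup of G contained in M. Then N is contained in every conjugate of M, that is, N lies in the core of M in G. -/
theorem result {G : Type*} [Group G] [Finite G] (M N : Subgroup G) (hM : IsCoatom M) (hN : N.IsSubnormal) (hNM : N ≤ M) :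
    N ≤ Subgroup.normalCore M := by
  obtain ⟨K, hNK, hKM, -, h1, h2⟩ := exists_invariant M N hM.1 hN hNM
  have : Subgroup.normalizer (K : Set G) = ⊤ := hM.2 _ (lt_of_le_not_ge h1 h2)
  haveI := Subgroup.normalizer_eq_top_iff.1 this
  exact hNK.trans (Subgroup.normal_le_normalCore.2 hKM)

end Cfsg.Agent.S3802
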