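import Cfsg.Statements.S3750
import Cfsg.Agent.S3748
import Cfsg.Agent.H44.Layer
import Cfsg.Agent.H79.Conj
import Cfsg.Agent.H1.NilComm

set_option autoImplicit false
open Cfsg

namespace Cfsg.Agent.S3750

open Subgroup H44

/-- Call a proper subgroup M of G primitive when M = N_G(N) for every non-trivial normal subgroup N of M. Let M be a primitive subgroup of the finite group G and N a normal subgroup of G with M ∩ F*(N) ≠ 1. Then F(G) = 1 and F*(N) = F*(G) = E(G); in particular every minimal normal subgroup of G is contained in N. -/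
theorem result {G : Type*} [Group G] [Finite G] (M : Subgroup G) (hM : M ≠ ⊤) (hprim : ∀ N : Subgroup G, N ≤ M → M ≤ Subgroup.normalizer (N : Set G) → N ≠ ⊥ → Subgroup.normalizer (N : Set G) = M) (N : Subgroup G) [N.Normal] (hMF : M ⊓ (Cfsg.generalizedFittingSubgroup ↥N).map N.subtype ≠ ⊥) : Cfsg.fittingSubgroup G = ⊥ ∧ (Cfsg.generalizedFittingSubgroup ↥N).map N.subtype = Cfsg.generalizedFittingSubgroup G ∧ Cfsg.generalizedFittingSubgroup G = Cfsg.layer G ∧ ∀ K : Subgroup G, K.Normal → K ≠ ⊥ → (∀ K' : Subgroup G, K'.Normal → K' ≤ K → K' = ⊥ ∨ K' = K) → K ≤ N := by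
  have hNn : (⊤ : Subgroup G) ≤ normalizer (FSof N : Set G) :=
    le_trans (normalizer_eq_top N).ge (normalizer_le_normalizer_FSof N)
  have hD := hprim (M ⊓ FSof N) inf_le_left
    (H79.le_normalizer_inf le_normalizer (le_top.trans hNn)) hMF
  haveI : (FSof N).Normal := normalizer_eq_top_iff.1 (top_le_iff.1 hNn)
  have hC : centralizer (FSof N : Set G) = ⊥ := by
    refine (S3748.result M hM hprim).1 _ (Subgroup.Normal.isSubnormal inferInstance) ?_
    rw [← hD]
    exact (centralizer_le (SetLike.coe_subset_coe.2 inf_le_right)).trans (centralizer_le_normalizer _)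
  have hsn : SN ⊤ N := SN.of_normal le_top
  have hFN : Fof N = ⊥ := by
    by_contra hne
    have h1 : Fof N ⊓ centralizer (Fof N : Set G) ≤ centralizer (FSof N : Set G) := by
      rw [FSof_eq, ← commutator_eq_bot_iff_le_centralizer']
      exact commutator_sup_left_eq_bot
        (eq_bot_iff.2 ((commutator_mono le_rfl inf_le_left).trans (commutator_Eof_Fof N).le))
        (commutator_eq_bot_iff_le_centralizer'.2 inf_le_right)
    rw [hC, le_bot_iff] at h1
    haveI := Fof_isNilpotent N
    haveI : Nontrivial (Fof N) := (Subgroup.nontrivial_iff_ne_bot _).2 hne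
    obtain ⟨⟨z, hz⟩, hz1⟩ := Subgroup.ne_bot_iff_exists_ne_one.1
      (Group.IsNilpotent.center_ne_bot (G := Fof N))
    have : (z : G) ∈ Fof N ⊓ centralizer (Fof N : Set G) :=
      ⟨z.2, fun g hg => congrArg Subtype.val (mem_center_iff.1 hz ⟨g, hg⟩)⟩
    rw [h1, mem_bot] at this
    exact hz1 (Subtype.ext (Subtype.ext this))
  have hE : FSof N = Eof N := by rw [FSof_eq, hFN, sup_bot_eq]
  have hF : Fof (⊤ : Subgroup G) = ⊥ := by
    rw [eq_bot_iff, ← hC, hE, ← commutator_eq_bot_iff_le_centralizer', eq_bot_iff]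
    exact (commutator_mono (Eof_le_Eof_of_sn hsn) le_rfl).trans (commutator_Eof_Fof ⊤).le
  have hcent : ∀ K : Subgroup G, ⁅K, N⁆ = ⊥ → K = ⊥ := fun K hK => by
    rw [eq_bot_iff, ← hC, ← commutator_eq_bot_iff_le_centralizer, eq_bot_iff]
    exact (commutator_mono le_rfl (FSof_le N)).trans hK.le
  have hEE : Eof N = Eof ⊤ := by
    refine Eof_eq_of_sn_of_le hsn (Eof_le_iff.2 fun K hK => ?_)
    rcases hK.le_or_commutator_eq_bot hsn with h | h
    · exact h
    · rw [hcent K h]; exact bot_le
  have hG : FSof (⊤ : Subgroup G) = Eof ⊤ := by rw [FSof_eq, hF, sup_bot_eq]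
  refine ⟨Fof_top.symm.trans hF, ?_, ?_, fun K hK hK1 hmin => ?_⟩
  · rw [← FSof_top (G := G), hG, ← hEE, ← hE]
  · rw [← FSof_top, hG, Eof_top]
  · rcases hmin (K ⊓ N) inferInstance inf_le_left with h | h
    · exact absurd (hcent K (eq_bot_iff.2 ((commutator_le_inf K N).trans h.le))) hK1
    · exact h.ge.trans inf_le_right

end Cfsg.Agent.S3750
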