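import Cfsg.Statements.S3761
import Cfsg.Agent.H64.PHall
import Cfsg.Agent.H64.SubSq
import Mathlib.RingTheory.ZMod.UnitsCyclic

set_option autoImplicit false
open Cfsg

namespace Cfsg.Agent.S3761

open Subgroup
open scoped commutatorElement

section
variable {G : Type*} [Group G] {p : ℕ} [hp : Fact p.Prime]

omit hp in
theorem omega_char (M : Subgroup G) [h : M.Characteristic] : (omegaOne p M).Characteristic :=
  characteristic_iff_le_comap.2 fun φ => H50.omega_le_iff.2 fun x hx k => H50.mem_omega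
    (characteristic_iff_le_comap.1 h φ hx) ((map_pow φ x p).symm.trans (by rw [k, map_one]))

theorem conj_iter {x a : G} {r : ℤ} (h : x * a * x⁻¹ = a ^ r) (k : ℕ) :
    x ^ k * a * (x ^ k)⁻¹ = a ^ r ^ k := by
  induction k with
  | zero => simp
  | succ k ih =>
    rw [pow_succ', show x * x ^ k * a * (x * x ^ k)⁻¹ = x * (x ^ k * a * (x ^ k)⁻¹) * x⁻¹ by group, ih,
      ← conj_zpow, h, ← zpow_mul, pow_succ']

theorem dvd_of_act (hG : IsPGroup p G) {x a : G} (h1 : a ≠ 1) {s : ℤ} (h : x * a * x⁻¹ = a ^ (1 + s)) :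
    (p : ℤ) ∣ s := by
  obtain ⟨k, hk⟩ := hG x
  obtain ⟨j, hj⟩ := IsPGroup.iff_orderOf.1 hG a
  have e := conj_iter h (p ^ k)
  rw [hk, one_mul, inv_one, mul_one, eq_comm, ← mul_inv_eq_one, ← zpow_sub_one,
    ← orderOf_dvd_iff_zpow_eq_one, hj] at e
  have := (Int.natCast_dvd_natCast.2 (dvd_pow_self p fun j0 => h1 (by simpa [j0] using hj))).trans e
  rw [← ZMod.intCast_zmod_eq_zero_iff_dvd] at this ⊢
  simpa using this

theorem lte (hG : IsPGroup p G) {x a : G} {s : ℤ} (h : x * a * x⁻¹ = a ^ (1 + s)) (h1 : (p : ℤ) ∣ s)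
    (h2 : (p : ℤ) ^ 2 ∣ s ^ (p - 1)) (hc : x ^ p * a = a * x ^ p) : a ^ (s * p) = 1 := by
  obtain ⟨y, hy⟩ := ZMod.exists_one_add_mul_pow_prime_eq hp.out h1 (by
    rw [← Nat.sub_add_cancel hp.out.one_le, pow_succ, Nat.sub_add_cancel hp.out.one_le, mul_right_comm, ← sq]
    exact mul_dvd_mul_right h2 s) 1
  have e := conj_iter h p
  rw [hc, mul_inv_cancel_right, ← mul_one s, hy, zpow_add, zpow_one, left_eq_mul, zpow_mul, mul_comm,
    ← orderOf_dvd_iff_zpow_eq_one] at e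
  obtain ⟨j, hj⟩ := IsPGroup.iff_orderOf.1 hG (a ^ (s * p))
  rcases j with _ | j
  · simpa using hj
  rw [hj] at e
  have := (dvd_add_left (dvd_mul_right _ y)).1 ((Int.natCast_dvd_natCast.2 (dvd_pow_self p j.succ_ne_zero)).trans e)
  exact absurd (Int.natCast_dvd_natCast.1 this) hp.out.not_dvd_one

end


/-- Let G be a finite non-abelian p-group with a cyclic normal subgroup U of order p^n such that C_G(U) = U. Then either p = 2 and G is dihedral, generalized quaternion or semidihedral of order 2^(n+1); or, writing U₁ for the subgroup generated by the p-th powers of elements of U and M = C_G(U₁), the subgroup U has index p in M and the subgroup Ω₁(M) generated by the elements of M of order dividing p is elementary abelian of order p² and characteristic in G. -/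
theorem result {G : Type*} [Group G] [Finite G] {p : ℕ} [Fact p.Prime] (hG : IsPGroup p G) (hna : ¬ IsMulCommutative G) (U : Subgroup G) [U.Normal] (hU : IsCyclic U) (n : ℕ) (hUn : Nat.card U = p ^ n) (hC : Subgroup.centralizer (U : Set G) = U) : (p = 2 ∧ Nat.card G = 2 ^ (n + 1) ∧ ((∃ m : ℕ, Nonempty (G ≃* DihedralGroup m)) ∨ (∃ m : ℕ, Nonempty (G ≃* QuaternionGroup m)) ∨ Cfsg.IsQuasiDihedral G)) ∨ (U.relIndex (Subgroup.centralizer (Cfsg.powerClosure p 1 U : Set G)) = p ∧ Cfsg.IsElementaryAbelian p (Cfsg.omegaOne p (Subgroup.centralizer (Cfsg.powerClosure p 1 U : Set G))) ∧ Nat.card ↥(Cfsg.omegaOne p (Subgroup.centralizer (Cfsg.powerClosure p 1 U : Set G))) = p ^ 2 ∧ (Cfsg.omegaOne p (Subgroup.centralizer (Cfsg.powerClosure p 1 U : Set G))).Characteristic) := by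
  have hp : p.Prime := Fact.out
  obtain ⟨a, -, rfl⟩ := H47.cyc_exists_gen hU
  rw [Nat.card_zpowers] at hUn
  have hc : ∀ g, Commute g a → g ∈ zpowers a := fun g h => hC ▸ fun b ⟨k, hk⟩ => hk ▸ (h.zpow_right k).symm.eq
  have act : ∀ g, ∃ s : ℤ, g * a * g⁻¹ = a ^ (1 + s) := fun g => by
    obtain ⟨k, hk⟩ := mem_zpowers_iff.1 ((inferInstance : (zpowers a).Normal).conj_mem a (mem_zpowers a) g)
    exact ⟨k - 1, by rw [add_sub_cancel, hk]⟩
  have nU : ¬ ⊤ ≤ zpowers a := fun h => hna ⟨⟨fun x y => H42.comm_of_mem_zpowers (h trivial) (h trivial)⟩⟩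
  have a1 : a ≠ 1 := fun h => nU fun g _ => hc g (h ▸ Commute.one_right g)
  have fix : ∀ {g : G} {s : ℤ} (k : ℕ), g * a * g⁻¹ = a ^ (1 + s) → (Commute g (a ^ k) ↔ a ^ (s * k) = 1) := by
    intro g s k h
    rw [commute_iff_eq, ← mul_inv_eq_iff_eq_mul, ← conj_pow, h, ← zpow_natCast, ← zpow_mul, add_mul, one_mul,
      zpow_add, zpow_natCast, mul_eq_left]
  have ord : ∀ {k : ℤ}, a ^ k = 1 ↔ (p : ℤ) ^ n ∣ k := by
    intro k; rw [← orderOf_dvd_iff_zpow_eq_one, hUn, Nat.cast_pow]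
  have n2 : 2 ≤ n := by
    by_contra h
    refine nU fun g _ => hc g ?_
    obtain ⟨s, hs⟩ := act g
    rw [← pow_one a, fix 1 hs, ord, Nat.cast_one, mul_one]
    exact ((pow_dvd_pow _ (by omega)).trans (pow_one _).dvd).trans (dvd_of_act hG a1 hs)
  obtain ⟨m, rfl⟩ : ∃ m, n = m + 2 := ⟨n - 2, by omega⟩
  have hV : powerClosure p 1 (zpowers a) = zpowers (a ^ p) := by
    refine le_antisymm ((closure_le _).2 ?_) (zpowers_le.2 (subset_closure ⟨a, mem_zpowers a, by rw [pow_one]⟩))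
    rintro _ ⟨_, ⟨k, rfl⟩, rfl⟩
    exact ⟨k, by simp only [pow_one, ← zpow_natCast, zpow_comm a]⟩
  set M := centralizer (powerClosure p 1 (zpowers a) : Set G) with hM0
  have hM : ∀ {g}, g ∈ M ↔ Commute g (a ^ p) := by
    intro g; rw [hM0, hV, H72.centralizer_zpowers, mem_centralizer_singleton_iff, commute_iff_eq]
  have UM : zpowers a ≤ M := zpowers_le.2 (hM.2 ((Commute.refl a).pow_right p))
  set z := a ^ p ^ (m + 1) with hz
  have oz : orderOf z = p := H42.orderOf_pow_of_eq_mul (pow_ne_zero _ hp.ne_zero) (hUn.trans (pow_succ _ _))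
  have zc : ∀ g ∈ M, ∀ c ∈ zpowers z, Commute g c := fun g hg c ⟨k, hk⟩ =>
    hk ▸ (by rw [hz, pow_succ', pow_mul]; exact (hM.1 hg).pow_right _ : Commute g z).zpow_right k
  have zU : zpowers z ≤ zpowers a := zpowers_le.2 (pow_mem (mem_zpowers a) _)
  have cz : ∀ g ∈ M, ⁅g, a⁆ ∈ zpowers z := fun g hg => by
    obtain ⟨s, hs⟩ := act g
    have e : ⁅g, a⁆ = a ^ s := by rw [commutatorElement_def, hs]; group
    refine H47.cyc_mem_zpowers hU (zU (mem_zpowers z)) (e ▸ zpow_mem_zpowers a s) ?_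
    rw [oz, e, ← zpow_natCast, ← zpow_mul, ← fix p hs]
    exact hM.1 hg
  have idx : ∀ x ∈ M, x ∉ zpowers a → (zpowers a).relIndex M = p := fun x hx n => by
    let φ : M →* G := MonoidHom.mk' (fun g => ⁅(g : G), a⁆) fun g h => by
      rw [coe_mul, H3.commutator_mul_left_of_commute (zc g g.2 _ (cz h h.2))]
      exact H42.comm_of_mem_zpowers (cz h h.2) (cz g g.2)
    have e : φ.ker = (zpowers a).subgroupOf M := Subgroup.ext fun g =>
      commutatorElement_eq_one_iff_commute.trans ⟨hc g, fun h => H42.comm_of_mem_zpowers h (mem_zpowers a)⟩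
    have d : Nat.card φ.range ∣ Nat.card (zpowers z) := card_dvd_of_le (by rintro _ ⟨g, rfl⟩; exact cz g g.2)
    rw [Nat.card_zpowers, oz, ← index_ker, e] at d
    exact ((Nat.dvd_prime hp).1 d).resolve_left fun h => n (relIndex_eq_one.1 h hx)
  have chM : M.Characteristic → (omegaOne p M).Characteristic := fun h => omega_char M
  have chT : (∀ x : G, x ^ p = 1 → x ∈ M) → (omegaOne p M).Characteristic := fun h => by
    rw [le_antisymm (H50.omega_mono (le_top (a := M))) (H50.omega_le_iff.2 fun x _ k => H50.mem_omega (h x k) k)]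
    exact omega_char ⊤
  by_cases h2 : p = 2
  swap
  · have key : ∀ x : G, x ^ p ∈ zpowers a → x ∈ M := fun x h => by
      obtain ⟨s, hs⟩ := act x
      have d := dvd_of_act hG a1 hs
      refine hM.2 ((fix p hs).2 (lte hG hs d ((pow_dvd_pow_of_dvd d 2).trans (pow_dvd_pow s ?_))
        (H42.comm_of_mem_zpowers h (mem_zpowers a))))
      have := hp.two_le; omega
    obtain ⟨x, -, x1, x2, -⟩ := H3.exists_mem_central_mod hG _ ⊤ nU
    have := S0127.result h2 (hG.to_subgroup M) (fun h => x1 (hc x (congrArg Subtype.val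
      (IsCyclic.isMulCommutative.is_comm.comm (⟨x, key x x2⟩ : M) ⟨a, UM (mem_zpowers a)⟩))))
      ((zpowers a).subgroupOf M) (isCyclic_of_surjective _ (subgroupOfEquivOfLe UM).symm.surjective)
      (idx x (key x x2) x1)
    refine Or.inr ⟨idx x (key x x2) x1, ?_, ?_, chT fun y h => key y (h ▸ one_mem _)⟩ <;>
      rw [← H50.map_subtype_closure_pow]
    · refine ⟨H2.isMulCommutative_of_forall ?_, ?_⟩
      · rintro _ ⟨b, hb, rfl⟩ _ ⟨c, hc, rfl⟩
        exact congrArg Subtype.val (H2.mul_comm_of_mem this.1.1 hb hc)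
      · rintro _ ⟨b, hb, rfl⟩
        exact congrArg Subtype.val (this.1.2 b hb)
    · rw [card_map_of_injective M.subtype_injective, this.2]
  subst h2
  have zz : z * z = 1 := by rw [← sq, ← oz, pow_orderOf_eq_one]
  have four : ∀ {g : G} {s : ℤ}, g * a * g⁻¹ = a ^ (1 + s) → (Commute g (a ^ 2 ^ m) ↔ 4 ∣ s) := by
    intro g s h
    rw [fix _ h, ord, pow_add, mul_comm s, Nat.cast_pow, mul_dvd_mul_iff_left (by positivity)]
    rfl
  set K := centralizer ({a ^ 2 ^ m} : Set G)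
  have hK : ∀ {g : G} {s : ℤ}, g * a * g⁻¹ = a ^ (1 + s) → (g ∈ K ↔ 4 ∣ s) := fun h =>
    mem_centralizer_singleton_iff.trans (four h)
  have mul : ∀ {g h : G} {s t : ℤ}, g * a * g⁻¹ = a ^ (1 + s) → h * a * h⁻¹ = a ^ (1 + t) →
      g * h * a * (g * h)⁻¹ = a ^ (1 + (s + t + s * t)) := by
    intro g h s t e f
    rw [show g * h * a * (g * h)⁻¹ = g * (h * a * h⁻¹) * g⁻¹ by group, f, ← conj_zpow, e, ← zpow_mul]
    congr 1; ring
  have Kmul : ∀ g h, g ∉ K → h ∉ K → g * h ∈ K := fun g h hg hh => by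
    obtain ⟨s, hs⟩ := act g
    obtain ⟨t, ht⟩ := act h
    obtain ⟨s, rfl⟩ := dvd_of_act hG a1 hs
    obtain ⟨t, rfl⟩ := dvd_of_act hG a1 ht
    rw [hK hs] at hg
    rw [hK ht] at hh
    rw [hK (mul hs ht), show ((2 : ℕ) : ℤ) * s * (((2 : ℕ) : ℤ) * t) = 4 * (s * t) by push_cast; ring]
    omega
  have key : ∀ x ∈ K, x ^ 2 ∈ zpowers a → x ∈ M := fun x hx h => by
    obtain ⟨s, hs⟩ := act x
    exact hM.2 ((fix 2 hs).2 (lte hG hs (dvd_of_act hG a1 hs) (by simpa using (hK hs).1 hx)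
      (H42.comm_of_mem_zpowers h (mem_zpowers a))))
  by_cases hKU : K ≤ zpowers a
  · obtain ⟨t, -, ht⟩ := SetLike.not_le_iff_exists.1 nU
    have i2 : (zpowers a).index = 2 := index_eq_two_iff.2 ⟨t, fun b => by
      by_cases hb : b ∈ zpowers a
      · exact Or.inr ⟨hb, fun k => ht ((mul_mem_cancel_left hb).1 k)⟩
      · have UK : zpowers a ≤ K := zpowers_le.2 (mem_centralizer_singleton_iff.2 ((Commute.refl a).pow_right _))
        exact Or.inl ⟨hKU (Kmul b t (fun k => hb (hKU k)) fun k => ht (hKU k)), hb⟩⟩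
    refine Or.inl ⟨rfl, by rw [← card_mul_index (zpowers a), i2, Nat.card_zpowers, hUn, pow_succ _ (m + 2)],
      H64.max_class hG hU i2 (u := a ^ 2 ^ m) (t := t) (pow_mem (mem_zpowers a) _) ?_
        fun k => ht (hKU (mem_centralizer_singleton_iff.2 k))⟩
    rw [← pow_mul, ← pow_orderOf_eq_one a, hUn, pow_add]
    rfl
  have Kn : K.Normal := ⟨fun k hk g => by
    obtain ⟨s, hs⟩ := act k
    obtain ⟨t, ht⟩ := act g⁻¹
    refine (hK (s := s) ?_).2 ((hK hs).1 hk)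
    rw [show g * k * g⁻¹ * a * (g * k * g⁻¹)⁻¹ = g * (k * (g⁻¹ * a * g⁻¹⁻¹) * k⁻¹) * g⁻¹ by group, ht,
      ← conj_zpow, hs, zpow_comm, ← ht, conj_zpow]
    group⟩
  obtain ⟨x, x0, x1, x2, -⟩ := H3.exists_mem_central_mod hG _ K hKU
  have xM := key x x0 x2
  have i2 := idx x xM x1
  obtain ⟨m, rfl⟩ : ∃ k, m = k + 1 := ⟨m - 1, by
    rcases m with _ | m
    · exact (x1 (hc x (by simpa [commute_iff_eq] using mem_centralizer_singleton_iff.1 x0))).elim
    · rfl⟩
  have sq' : ∀ y ∈ M, ∀ i : ℤ, (a ^ i * y) ^ 2 = ⁅y, a⁆ ^ i * (a ^ (i * 2) * y ^ 2) := fun y hy i => by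
    have c := zc a (UM (mem_zpowers a)) _ (cz y hy)
    have e := H3.commutator_zpow_right_of_commute c i
    rw [H3.mul_pow_of_commute_commutator (e ▸ c.zpow_zpow i i) (e ▸ (zc y hy _ (cz y hy)).zpow_right i), e,
      zpow_mul]
    simp [zpow_ofNat]
  have inU : ∀ y ∈ zpowers a, y ^ 2 = 1 → y ∈ zpowers z := fun y hy h =>
    H47.cyc_mem_zpowers hU (zU (mem_zpowers z)) hy (oz ▸ h)
  have cm : ∀ b ∈ M, ∀ c ∈ M, b ^ 2 = 1 → c ^ 2 = 1 → Commute b c := fun b hb c hc b2 c2 => by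
    by_cases h : b ∈ zpowers a
    · exact (zc c hc b (inU b h b2)).symm
    by_cases h' : c ∈ zpowers a
    · exact zc b hb c (inU c h' c2)
    obtain ⟨i, hi⟩ := mem_zpowers_iff.1 (H42.mul_inv_mem_of_relIndex_two i2 hb hc h h')
    obtain rfl := (eq_mul_inv_iff_mul_eq.1 hi).symm
    rw [sq' c hc, c2, mul_one, mul_eq_one_iff_inv_eq] at b2
    have e : (a ^ (i * 2)) ^ orderOf z = 1 := by
      rw [← Nat.card_zpowers, ← b2]
      exact congrArg Subtype.val (pow_card_eq_one' (x := (⟨_, inv_mem (zpow_mem (cz c hc) i)⟩ : zpowers z)))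
    rw [oz, ← zpow_natCast, ← zpow_mul, ord] at e
    obtain ⟨j, rfl⟩ : 2 ∣ i := by
      have := (pow_dvd_pow _ (show 3 ≤ m + 1 + 2 by omega)).trans e
      push_cast at this; omega
    rw [zpow_mul, zpow_ofNat]
    exact ((hM.1 hc).symm.zpow_left j).mul_left (Commute.refl c)
  have xz : ⁅x, a⁆ = z := ((H42.mem_zpowers_of_mul_self zz).1 (cz x xM)).resolve_left
    fun h => x1 (hc x (commutatorElement_eq_one_iff_commute.1 h))
  have zo : ∀ {k : ℤ}, z ^ k = 1 ↔ 2 ∣ k := by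
    intro k; rw [← orderOf_dvd_iff_zpow_eq_one, oz]; rfl
  obtain ⟨k, hk⟩ := mem_zpowers_iff.1 x2
  obtain ⟨s, rfl⟩ : 2 ∣ k := by
    rw [← zo, ← xz, ← H3.commutator_zpow_right_of_commute (zc a (UM (mem_zpowers a)) _ (cz x xM)), hk]
    exact ((Commute.refl x).pow_right 2).commutator_eq
  obtain ⟨j, hj⟩ : ∃ j : ℤ, (a ^ j * x) ^ 2 = 1 := by
    by_cases h : 2 ∣ s
    · exact ⟨-s, by rw [sq' x xM, xz, zo.2 (by omega), ← hk]; group⟩
    · refine ⟨2 * 2 ^ m - s, ?_⟩
      rw [sq' x xM, xz, ← hk, ← zpow_add, show (2 * 2 ^ m - s) * 2 + 2 * s = ((2 ^ (m + 1 + 1) : ℕ) : ℤ) by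
        push_cast; ring, zpow_natCast, ← hz, ← zpow_add_one, zo]
      omega
  have W : ∀ {y}, y ∈ omegaOne 2 M ↔ y ∈ M ∧ y ^ 2 = 1 := by
    refine fun {y} => ⟨fun h => ?_, fun h => H50.mem_omega h.1 h.2⟩
    exact (H50.omega_le_iff (K := H4.omegaOf M 2 fun b hb c hc b2 c2 => by
      rw [(cm b hb c hc b2 c2).mul_pow, b2, c2, one_mul])).2 (fun b hb b2 => ⟨hb, b2⟩) h
  refine Or.inr ⟨i2, ⟨H2.isMulCommutative_of_forall fun b hb c hc =>
    cm b (W.1 hb).1 c (W.1 hc).1 (W.1 hb).2 (W.1 hc).2, fun b hb => (W.1 hb).2⟩, ?_, ?_⟩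
  · rw [H42.card_eq_two_mul_card_inf i2 (H50.omega_le M)
      (W.2 ⟨mul_mem (UM (zpow_mem_zpowers a j)) xM, hj⟩)
      (fun h => x1 ((mul_mem_cancel_left (zpow_mem_zpowers a j)).1 h)),
      show omegaOne 2 M ⊓ zpowers a = zpowers z from le_antisymm (fun y hy => inU y hy.2 (W.1 hy.1).2)
        (le_inf (zpowers_le.2 (W.2 ⟨UM (zU (mem_zpowers z)), (sq z).trans zz⟩)) zU), Nat.card_zpowers, oz]
    rfl
  by_cases hT : ∀ t, t ∈ K
  · exact chT fun y h => key y (hT y) (h ▸ one_mem _)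
  obtain ⟨t, ht⟩ := not_forall.1 hT
  obtain ⟨s, hs⟩ := act t
  obtain ⟨w, rfl⟩ : ∃ w, s = 2 * (2 * w + 1) := by
    have := dvd_of_act hG a1 hs
    rw [hK hs] at ht
    exact ⟨s / 4, by push_cast at this; omega⟩
  have o2 : orderOf (a ^ 2) = 2 ^ (m + 1 + 1) := H42.orderOf_pow_of_eq_mul two_ne_zero (hUn.trans (pow_succ' _ _))
  have c1 : zpowers (a ^ 2) ≤ commutator G := zpowers_le.2 (H42.mem_of_odd_zpow_mem o2 (k := w) (by
    rw [← zpow_natCast, ← zpow_mul,
      show a ^ (((2 : ℕ) : ℤ) * (2 * w + 1)) = ⁅t, a⁆ by rw [commutatorElement_def, hs]; push_cast; group]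
    exact commutator_mem_commutator trivial trivial))
  have c2 : commutator G ≤ zpowers a := commutator_le.2 fun g _ h _ => hc _ (by
    obtain ⟨s, hs⟩ := act g
    obtain ⟨t, ht⟩ := act h
    obtain ⟨s', hs'⟩ := act (h * g)⁻¹
    have e : g * h * a * (g * h)⁻¹ = h * g * a * (h * g)⁻¹ := by
      rw [mul hs ht, mul ht hs, add_comm s, mul_comm s]
    rw [commute_iff_eq, ← mul_inv_eq_iff_eq_mul, show ⁅g, h⁆ * a * ⁅g, h⁆⁻¹ =
      g * h * ((h * g)⁻¹ * a * (h * g)⁻¹⁻¹) * (g * h)⁻¹ by group, hs', ← conj_zpow, e, conj_zpow, ← hs']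
    group)
  have : (powerClosure 2 1 (zpowers a)).Characteristic := by
    rcases H64.eq_or_eq_of_card (p := 2) c1 c2 (by rw [Nat.card_zpowers, Nat.card_zpowers, o2, hUn, pow_succ _ (m + 1 + 1)])
      with h | h
    · rw [hV, ← h]; infer_instance
    · rw [← h]
      refine characteristic_iff_le_comap.2 fun φ => (closure_le _).2 ?_
      rintro _ ⟨y, hy, rfl⟩
      exact subset_closure ⟨φ y, characteristic_iff_le_comap.1 inferInstance φ hy, map_pow φ y _⟩
  exact chM inferInstance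


end Cfsg.Agent.S3761
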