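import Cfsg.Statements.S3762
import Cfsg.Agent.H64.PHall
import Cfsg.Agent.H81.PSmall

set_option autoImplicit false
open Cfsg

namespace Cfsg.Agent.S3762

/-- Let G be a finite p-group of symplectic type: every characteristic abelian subgroup of G is cyclic. Then G = E ∗ R is a central product of subgroups E and R (they commute elementwise and generate G) where E is extraspecial or trivial, and R is cyclic, or p = 2 and R is dihedral, semidihedral or generalized quaternion of order at least 16. -/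
theorem result {G : Type*} [Group G] [Finite G] {p : ℕ} [Fact p.Prime] (hG : IsPGroup p G) (hsymp : ∀ A : Subgroup G, A.Characteristic → IsMulCommutative A → IsCyclic A) : ∃ E R : Subgroup G, (∀ e ∈ E, ∀ r ∈ R, e * r = r * e) ∧ E ⊔ R = ⊤ ∧ (E = ⊥ ∨ Cfsg.IsExtraspecial p ↥E) ∧ (IsCyclic R ∨ (p = 2 ∧ 16 ≤ Nat.card R ∧ ((∃ m : ℕ, Nonempty (↥R ≃* DihedralGroup m)) ∨ (∃ m : ℕ, Nonempty (↥R ≃* QuaternionGroup m)) ∨ Cfsg.IsQuasiDihedral ↥R))) := by
  rcases subsingleton_or_nontrivial G with h | h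
  · exact ⟨⊥, ⊤, fun _ _ _ _ => Subsingleton.elim _ _, bot_sup_eq _, Or.inl rfl, Or.inl inferInstance⟩
  obtain ⟨z, zc, hz⟩ := H81.exists_center_orderOf hG
  by_cases h2 : p = 2
  swap
  · obtain ⟨E, R, k⟩ := H64.hall_odd h2 hG hsymp zc hz
    exact ⟨E, R, k.1, k.2.1, k.2.2.1, Or.inl k.2.2.2⟩
  subst h2
  have h : SYM.HL.SP z := ⟨⟨hG, hsymp⟩, Subgroup.mem_center_iff.1 zc, fun e => by simp [e] at hz,
    by rw [← sq, ← hz, pow_orderOf_eq_one]⟩
  by_cases e : ∃ a ∈ SYM.HL.AA G, a * a ≠ 1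
  · obtain ⟨a, ha, e⟩ := e
    obtain ⟨n, hn⟩ := h.exists_four ha e
    obtain ⟨E, R, k⟩ := H64.hall_su ⟨h, pow_mem ha n, hn⟩
    exact ⟨E, R, k.1, k.2.1, k.2.2.1, k.2.2.2.imp id fun l => ⟨rfl, l⟩⟩
  push Not at e
  have a : SYM.HL.AA G ≤ Subgroup.zpowers z := fun a ha => h.mem_z.2 (h.AA_inv ha (e a ha))
  rcases H64.es_of hG (E := ⊤) hz trivial h.zc (fun x _ y _ => a (h.cmA x y))
    (fun x _ => sq x ▸ a (h.sqA x)) (fun x _ k => a (Subgroup.mem_sup_right
      (Subgroup.mem_center_iff.2 fun g => (k g trivial).symm))) with k | k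
  · exact ⟨⊥, Subgroup.zpowers z, by simp, by rw [bot_sup_eq, top_le_iff.1 k], Or.inl rfl, Or.inl inferInstance⟩
  · exact ⟨⊤, ⊥, by simp, by simp, Or.inr k, Or.inl inferInstance⟩


end Cfsg.Agent.S3762
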