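import Cfsg.Statements.S3781
import Cfsg.Agent.H83.Comm

set_option autoImplicit false
open Cfsg

namespace Cfsg.Agent.S3781

theorem eq_bot_of_le_commutator {G : Type*} [Group G] [Group.IsNilpotent G] {B : Subgroup G}
    (h : B ≤ ⁅B, ⊤⁆) : B = ⊥ := by
  have h1 : ∀ k, B ≤ (⊤ : Subgroup G).lowerCentralSeries k := by
    intro k
    induction k with
    | zero => exact le_top
    | succ k ih => exact h.trans (Subgroup.commutator_mono ih le_rfl)
  obtain ⟨n, hn⟩ := Subgroup.nilpotent_iff_lowerCentralSeries.mp ‹Group.IsNilpotent G›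
  rw [eq_bot_iff, ← hn]
  exact h1 n

theorem iterate_normal {G : Type*} [Group G] (m : ℕ) : ∀ (A : Subgroup G) [A.Normal],
    ((fun X : Subgroup G => ⁅X, (⊤ : Subgroup G)⁆)^[m] A).Normal := by
  induction m with
  | zero => intro A h; exact h
  | succ m ih => intro A _; rw [Function.iterate_succ_apply]; exact ih _

theorem iterate_eq_bot {G : Type*} [Group G] [Finite G] {p : ℕ} [hp : Fact p.Prime]
    (hG : IsPGroup p G) (m : ℕ) : ∀ (A : Subgroup G) [A.Normal], Nat.card A < p ^ (m + 1) →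
      (fun X : Subgroup G => ⁅X, (⊤ : Subgroup G)⁆)^[m] A = ⊥ := by
  haveI := hG.isNilpotent
  induction m with
  | zero =>
    intro A _ h
    obtain ⟨a, ha⟩ := (hG.to_subgroup A).exists_card_eq
    rw [ha, Nat.pow_lt_pow_iff_right hp.out.one_lt] at h
    have : a = 0 := by omega
    rw [this, pow_zero] at ha
    exact Subgroup.eq_bot_of_card_eq A ha
  | succ m ih =>
    intro A _ h
    rw [Function.iterate_succ_apply]
    apply ih
    have hle : ⁅A, (⊤ : Subgroup G)⁆ ≤ A := Subgroup.commutator_le_left A ⊤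
    by_cases hA : A ≤ ⁅A, ⊤⁆
    · have h1 := eq_bot_of_le_commutator hA
      subst h1
      rw [le_bot_iff.mp hle, Subgroup.card_bot]
      exact Nat.one_lt_pow (Nat.succ_ne_zero m) hp.out.one_lt
    · obtain ⟨a, ha⟩ := (hG.to_subgroup A).exists_card_eq
      have h1 : Nat.card (⁅A, (⊤ : Subgroup G)⁆ : Subgroup G) < Nat.card A :=
        lt_of_le_of_ne (Subgroup.card_le_of_le hle) fun h =>
          hA (Subgroup.eq_of_le_of_card_ge hle h.ge).ge
      rw [ha, Nat.pow_lt_pow_iff_right hp.out.one_lt] at h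
      exact h1.trans_le (ha ▸ Nat.pow_le_pow_right hp.out.pos (by omega))

theorem map_iterate {G H : Type*} [Group G] [Group H] (f : G →* H) (hf : Function.Surjective f)
    (m : ℕ) (A : Subgroup G) : ((fun X : Subgroup G => ⁅X, (⊤ : Subgroup G)⁆)^[m] A).map f =
      (fun X : Subgroup H => ⁅X, (⊤ : Subgroup H)⁆)^[m] (A.map f) := by
  induction m with
  | zero => rfl
  | succ m ih =>
    rw [Function.iterate_succ_apply', Function.iterate_succ_apply', Subgroup.map_commutator, ih,
      Subgroup.map_top_of_surjective f hf]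

theorem aux {G : Type*} [Group G] [Finite G] {p : ℕ} [Fact p.Prime] (hG : IsPGroup p G) (n : ℕ)
    (A N : Subgroup G) [A.Normal] [N.Normal] (hN : N ≤ (⊤ : Subgroup G).lowerCentralSeries n)
    (h : (⁅A, N⁆ : Subgroup G).relIndex A < p ^ (n + 1)) : ⁅A, N⁆ = ⊥ := by
  haveI := hG.isNilpotent
  apply eq_bot_of_le_commutator
  have hs := QuotientGroup.mk'_surjective ⁅A, N⁆
  haveI := Subgroup.Normal.map ‹A.Normal› _ hs
  have h1 := iterate_eq_bot (hG.to_quotient ⁅A, N⁆) n (A.map (QuotientGroup.mk' ⁅A, N⁆)) (by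
    rw [← Subgroup.relIndex_ker, QuotientGroup.ker_mk']
    exact h)
  rw [← map_iterate _ hs, Subgroup.map_eq_bot_iff, QuotientGroup.ker_mk'] at h1
  have h2 := H83.commutator_lowerCentralSeries_le
    (fun k => (fun X : Subgroup G => ⁅X, (⊤ : Subgroup G)⁆)^[k] A) (fun k => iterate_normal k A) ⊤
    (fun k => by rw [Function.iterate_succ_apply']) n 0
  rw [zero_add, Function.iterate_succ_apply'] at h2
  exact ((Subgroup.commutator_mono le_rfl hN).trans h2).trans (Subgroup.commutator_mono h1 le_rfl)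

/-- Let G be a finite p-group and n ≥ 1, and write γ_1(G) = G, γ_{k+1}(G) = [γ_k(G), G], and likewise γ_k(N) for a subgroup N. Let N be a normal subgroup of G contained in γ_n(G). If i > 1 and γ_{i+1}(N) ≠ 1, then |γ_i(N) : γ_{i+1}(N)| ≥ p^n. -/
theorem result {G : Type*} [Group G] [Finite G] {p : ℕ} [Fact p.Prime] (hG : IsPGroup p G) (n : ℕ) (hn : 1 ≤ n) (N : Subgroup G) [N.Normal] (hN : N ≤ (⊤ : Subgroup G).lowerCentralSeries (n - 1)) (i : ℕ) (hi : 1 < i) (hne : N.lowerCentralSeries i ≠ ⊥) : p ^ n ≤ (N.lowerCentralSeries i).relIndex (N.lowerCentralSeries (i - 1)) := by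
  by_contra h
  obtain ⟨n, rfl⟩ : ∃ m, n = m + 1 := ⟨n - 1, by omega⟩
  obtain ⟨i, rfl⟩ : ∃ m, i = m + 1 := ⟨i - 1, by omega⟩
  haveI := H83.lowerCentralSeries_normal N i
  exact hne (aux hG n (N.lowerCentralSeries i) N hN (not_le.mp h))

end Cfsg.Agent.S3781
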