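import Cfsg.Statements.S3803
import Cfsg.Agent.H73.HSub

set_option autoImplicit false
open Cfsg

namespace Cfsg.Agent.S3803



/-- Let P be a 2-subgroup and A a subgroup of odd order of a finite group, with A normalizing P. Let D ≤ P with 1 < |D| < |P|. If every subgroup of P of order |D|, and also every subgroup of P of order 4 in case |D| = 2, is normalized by A, then A centralizes P. -/
theorem result {X : Type*} [Group X] [Finite X] (P A D : Subgroup X) (hP : IsPGroup 2 P) (hA : Odd (Nat.card A))
    (hAP : A ≤ Subgroup.normalizer (P : Set X)) (hDP : D ≤ P) (hD1 : 1 < Nat.card D) (hD2 : Nat.card D < Nat.card P)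
    (hinv : ∀ E : Subgroup X, E ≤ P → (Nat.card E = Nat.card D ∨ (Nat.card D = 2 ∧ Nat.card E = 4)) → A ≤ Subgroup.normalizer (E : Set X)) :
    A ≤ Subgroup.centralizer (P : Set X) := by
  obtain ⟨d, hd⟩ := (hP.to_le hDP).exists_card_eq
  rw [hd] at hD1 hD2 hinv
  have hd0 : 0 < d := Nat.pos_of_ne_zero fun h0 => by simp [h0] at hD1
  intro g hg
  refine H73.mem_centralizer_of_normalizes_card hP hAP hd0 hD2
    (fun E hE h => hinv E hE (Or.inl h)) (fun h2 E hE h => hinv E hE (Or.inr ⟨h2, h⟩))
    (H73.mem_bigN_of_coprime hg (Nat.coprime_one_right _)) ?_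
  exact Nat.Coprime.coprime_dvd_left (A.orderOf_dvd_natCard hg) (Nat.coprime_two_right.2 hA)

end Cfsg.Agent.S3803
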