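import Cfsg.Statements.S3815
import Cfsg.Agent.H44.Cores

set_option autoImplicit false
open Cfsg

namespace Cfsg.Agent.S3815

open Subgroup

/-- Let G be a finite group, p a prime and d ∈ G an element of order prime to p. If dg has order prime to p for every element g ∈ G of order prime to p, then d ∈ O_{p'}(G). -/
theorem result {G : Type*} [Group G] [Finite G] {p : ℕ} [Fact p.Prime]
    (d : G) (hd : (orderOf d).Coprime p)
    (h : ∀ g : G, (orderOf g).Coprime p → (orderOf (d * g)).Coprime p) :
    d ∈ Cfsg.pPrimeCore p G := by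
  let K : Subgroup G :=
    { carrier := {d | ∀ g : G, (orderOf g).Coprime p → (orderOf (d * g)).Coprime p}
      one_mem' := fun g hg => by simpa using hg
      mul_mem' := fun {a b} ha hb g hg => by
        rw [mul_assoc]; exact ha _ (hb g hg)
      inv_mem' := fun {a} ha g hg => by
        have key : ∀ n : ℕ, (orderOf (a ^ n * g)).Coprime p := by
          intro n
          induction n with
          | zero => simpa using hg
          | succ n ih => rw [pow_succ', mul_assoc]; exact ha _ ih
        have hpos := orderOf_pos a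
        have : a⁻¹ = a ^ (orderOf a - 1) := by
          rw [eq_comm, ← mul_eq_one_iff_eq_inv, ← pow_succ, Nat.sub_add_cancel hpos, pow_orderOf_eq_one]
        rw [this]; exact key _ }
  have hK : ∀ x, x ∈ K ↔ ∀ g : G, (orderOf g).Coprime p → (orderOf (x * g)).Coprime p :=
    fun x => Iff.rfl
  have hconj : ∀ a b : G, orderOf (b * a * b⁻¹) = orderOf a := fun a b => by
    have := (MulAut.conj b).orderOf_eq a
    simpa using this
  have hn : K.Normal := ⟨fun x hx b => (hK _).2 fun g hg => by
    have h1 := (hK x).1 hx (b⁻¹ * g * b⁻¹⁻¹) (by rw [hconj]; exact hg)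
    rw [← hconj _ b] at h1
    have : b * (x * (b⁻¹ * g * b⁻¹⁻¹)) * b⁻¹ = b * x * b⁻¹ * g := by group
    rwa [this] at h1⟩
  have hcop : (Nat.card K).Coprime p := by
    rw [Nat.coprime_comm, (Fact.out : p.Prime).coprime_iff_not_dvd]
    intro hdv
    obtain ⟨x, hx⟩ := exists_prime_orderOf_dvd_card' p hdv
    have h1 := (hK x).1 x.2 1 (by simp)
    rw [mul_one, Subgroup.orderOf_coe, hx] at h1
    exact (Fact.out : p.Prime).one_lt.ne' (by simpa using h1)
  exact H44.le_pPrimeCore hn hcop ((hK d).2 h)

end Cfsg.Agent.S3815
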