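import Cfsg.Statements.S3819
import Cfsg.Agent.H44.LocalBal
import Cfsg.Agent.H49.Quot
import Cfsg.Agent.H48.Coprime
-- import your own Cfsg.Agent.* helpers here

set_option autoImplicit false
open Cfsg

namespace Cfsg.Agent.S3819
open Subgroup Cfsg.Agent.H49 Cfsg.Agent.H44

/-- Let G be a finite group with Sylow p-subgroup P and H = O_{p'}(G), and suppose G = PH and the commutator subgroup [H, P] is solvable. Let q be a prime and z an element of q-power order of C_H(P). Then (O_{q'}(C_H(z)) ∩ O_{q'}(C_H(P))) · [O_{q'}(C_H(z)), P] ≤ O_{q'}(H). -/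
theorem result {G : Type*} [Group G] [Finite G] {p : ℕ} [Fact p.Prime]
    (P : Sylow p G) (hPH : Cfsg.pPrimeCore p G ⊔ (P : Subgroup G) = ⊤)
    (hsol : Group.IsSolvable ↥⁅Cfsg.pPrimeCore p G, (P : Subgroup G)⁆)
    {q : ℕ} [Fact q.Prime] (z : G) (hzH : z ∈ Cfsg.pPrimeCore p G) (hzP : z ∈ Subgroup.centralizer ((P : Subgroup G) : Set G))
    (hz : ∃ k : ℕ, orderOf z = q ^ k) :
    ((Cfsg.pPrimeCore q ↥(Cfsg.pPrimeCore p G ⊓ Subgroup.centralizer ({z} : Set G))).map
        (Cfsg.pPrimeCore p G ⊓ Subgroup.centralizer ({z} : Set G)).subtype ⊓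
      (Cfsg.pPrimeCore q ↥(Cfsg.pPrimeCore p G ⊓ Subgroup.centralizer ((P : Subgroup G) : Set G))).map
        (Cfsg.pPrimeCore p G ⊓ Subgroup.centralizer ((P : Subgroup G) : Set G)).subtype) ⊔
    ⁅(Cfsg.pPrimeCore q ↥(Cfsg.pPrimeCore p G ⊓ Subgroup.centralizer ({z} : Set G))).map
        (Cfsg.pPrimeCore p G ⊓ Subgroup.centralizer ({z} : Set G)).subtype, (P : Subgroup G)⁆ ≤
    (Cfsg.pPrimeCore q ↥(Cfsg.pPrimeCore p G)).map (Cfsg.pPrimeCore p G).subtype := by
  set H := Cfsg.pPrimeCore p G with hH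
  have hp : p.Prime := Fact.out
  have hPH' : (P : Subgroup G) ≤ 𝒩(H) := le_top.trans (normal_iff_top_le_norm.1 inferInstance)
  set K := ⁅H, (P : Subgroup G)⁆ with hK
  set C := H ⊓ 𝒞((P : Subgroup G)) with hC
  set D := Oppof q C with hD
  set X := Oppof q (H ⊓ 𝒞[z]) with hX
  have hKH : K ≤ H := commutator_le_left_of_norm hPH'
  have hHK : H ≤ 𝒩(K) := normalizer_commutator_ge_left _ _
  have hDC : D ≤ C := Oppof_le _
  have hsup : K ⊔ C = H := by
    obtain ⟨n, hn⟩ := P.isPGroup'.exists_card_eq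
    haveI := P.isPGroup'.isNilpotent
    exact H48.coprime_comm_sup_cent hPH' (hn ▸ Nat.Coprime.pow_left n H22.coprime_card_pPrimeCore.symm)
      (Or.inl inferInstance)
  have hDK : D ≤ 𝒩(K) := (hDC.trans inf_le_left).trans hHK
  have hMH : K ⊔ D ≤ H := sup_le hKH (hDC.trans inf_le_left)
  have hHM : H ≤ 𝒩(K ⊔ D) := by
    rw [← hsup]
    exact sup_le (norm_of_le le_sup_left)
      (norm_sup (inf_le_left.trans hHK) (le_normalizer_pPrimeCoreOf _))
  have hzH' : zpowers z ≤ H := zpowers_le.2 hzH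
  have hLH : K ⊔ D ⊔ zpowers z ≤ H := sup_le hMH hzH'
  have hzq : IsPGroup q (zpowers z) := by
    obtain ⟨k, hk⟩ := hz
    exact IsPGroup.of_card (by rw [Nat.card_zpowers, hk])
  have hL : Lof q (K ⊔ D ⊔ zpowers z) = ⊥ := by
    refine le_bot_iff.1 (Lof_le_iff.2 fun J hJ => absurd ?_ (hJ.pqs.not_le_solvable hsol))
    have h1 : J ≤ K ⊔ D := by
      rw [← hJ.pqs.perfect]
      refine (commutator_mono hJ.le hJ.le).trans ((quo_abelian_iff (hLH.trans hHM)).1 ?_)
      rw [quo_ker_sup (hzH'.trans hHM)]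
      exact abelian_quo inferInstance _
    rw [← hJ.pqs.gen]
    refine (pGen_mono h1).trans (pGen_le_of_sn_of_coprime
      (SN.of_le_normalizer le_sup_left (hMH.trans hHK)) ?_)
    rw [← card_quo (hMH.trans hHK), quo_ker_sup hDK]
    refine Nat.Coprime.coprime_dvd_left (card_quo_dvd _ _) ?_
    rw [card_map_of_injective (subtype_injective _)]
    exact H22.coprime_card_pPrimeCore
  have h2 := (inf_centralizer_of_Lof_eq_bot hL hzq le_sup_right).2
  rw [cent_zpowers] at h2
  have hXle : X ≤ H ⊓ 𝒞[z] := Oppof_le _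
  have key : X ⊓ (K ⊔ D) ≤ Oppof q H := by
    refine le_trans ?_ (Oppof_le_Oppof_of_sn (SN.of_le_normalizer hMH hHM))
    rw [Oppof_eq_inf_of_sn (SN.of_le_normalizer (le_sup_left (b := zpowers z)) (hLH.trans hHM))]
    refine le_inf (le_trans ?_ h2) inf_le_right
    refine le_trans ?_ (Oppof_inf_le_Oppof (inf_le_inf_right _ hLH))
    exact le_inf inf_le_left (le_inf (inf_le_right.trans le_sup_left)
      (inf_le_left.trans (hXle.trans inf_le_right)))
  refine le_trans (sup_le (inf_le_inf_left _ le_sup_right) (le_inf ?_ ?_)) key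
  · refine commutator_le_left_of_norm (le_trans ?_ (normalizer_le_normalizer_pPrimeCoreOf _))
    refine norm_inf hPH' ?_
    rw [← cent_zpowers]
    exact norm_cent (norm_of_cent (cent_comm.1 (zpowers_le.2 hzP)))
  · exact (commutator_mono (hXle.trans inf_le_left) le_rfl).trans le_sup_left


end Cfsg.Agent.S3819
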