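import Cfsg.Statements.S3821
import Cfsg.Agent.H79.Conj

set_option autoImplicit false
open Cfsg

namespace Cfsg.Agent.S3821

open Cfsg.Agent.H79

theorem map_cj_subgroupOf {G : Type*} [Group G] {A H : Subgroup G} (hHA : H ≤ A) (a : A) :
    (cj a (H.subgroupOf A)).map A.subtype = cj (a : G) H := by
  rw [map_cj, Subgroup.subgroupOf_map_subtype, inf_eq_left.2 hHA]; rfl

/-- Let A be a normal subgroup of the finite group G and H a subgroup of A. Then H is pronormal in G (H and gHg⁻¹ conjugate inside ⟨H, gHg⁻¹⟩ for every g ∈ G) if and only if H is pronormal in A and G = A · N_G(H). -/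
theorem result {G : Type*} [Group G] [Finite G] (A H : Subgroup G) [A.Normal] (hHA : H ≤ A) :
    Cfsg.IsPronormal H ↔ (Cfsg.IsPronormal (H.subgroupOf A) ∧ A ⊔ Subgroup.normalizer (H : Set G) = ⊤) := by
  constructor
  · intro h
    refine ⟨fun a => ?_, ?_⟩
    · obtain ⟨x, hx, hxH⟩ := h a
      have hxA : x ∈ A := (sup_le hHA (cj_le_of_mem hHA a.2)) hx
      refine ⟨⟨x, hxA⟩, ?_, ?_⟩
      · have : (H.subgroupOf A ⊔ cj a (H.subgroupOf A)).map A.subtype = H ⊔ cj (a : G) H := by
          rw [Subgroup.map_sup, map_cj_subgroupOf hHA, Subgroup.subgroupOf_map_subtype,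
            inf_eq_left.2 hHA]
        rw [← this] at hx
        obtain ⟨y, hy, hyx⟩ := hx
        have : y = ⟨x, hxA⟩ := Subtype.ext hyx
        rw [← this]; exact hy
      · apply Subgroup.map_injective A.subtype_injective
        change (cj a (H.subgroupOf A)).map A.subtype = (cj ⟨x, hxA⟩ (H.subgroupOf A)).map A.subtype
        rw [map_cj_subgroupOf hHA, map_cj_subgroupOf hHA]
        exact hxH
    · rw [eq_top_iff]
      intro g _
      obtain ⟨x, hx, hxH⟩ := h g
      change cj g H = cj x H at hxH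
      have hxA : x ∈ A := (sup_le hHA (cj_le_of_normalizer hHA
        (by rw [Subgroup.normalizer_eq_top]; trivial))) hx
      have hn : x⁻¹ * g ∈ Subgroup.normalizer (H : Set G) := by
        rw [← cj_eq_self_iff, cj_mul, hxH, cj_inv_cj]
      have : g = x * (x⁻¹ * g) := by simp
      rw [this]
      exact Subgroup.mul_mem_sup hxA hn
  · rintro ⟨h1, h2⟩ g
    have hg : g ∈ A ⊔ Subgroup.normalizer (H : Set G) := by rw [h2]; trivial
    rw [← SetLike.mem_coe, Subgroup.normal_mul] at hg
    obtain ⟨a, ha, n, hn, rfl⟩ := hg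
    obtain ⟨x, hx, hxH⟩ := h1 ⟨a, ha⟩
    have e : cj (a * n) H = cj a H := by rw [cj_mul, cj_eq_self hn]
    refine ⟨x, ?_, ?_⟩
    · change (x : G) ∈ H ⊔ cj (a * n) H
      rw [e]
      have : (H.subgroupOf A ⊔ cj ⟨a, ha⟩ (H.subgroupOf A)).map A.subtype = H ⊔ cj a H := by
        rw [Subgroup.map_sup, map_cj_subgroupOf hHA, Subgroup.subgroupOf_map_subtype,
          inf_eq_left.2 hHA]
      rw [← this]
      exact ⟨x, hx, rfl⟩
    · change cj (a * n) H = cj (x : G) H
      rw [e, ← map_cj_subgroupOf hHA x]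
      change cj ((⟨a, ha⟩ : A) : G) H = _
      rw [← map_cj_subgroupOf hHA]
      exact congrArg _ hxH

end Cfsg.Agent.S3821
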