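import Cfsg.Statements.S3822
import Cfsg.Agent.H27.FlavA

set_option autoImplicit false
open Cfsg

namespace Cfsg.Agent.S3822

open Subgroup Cfsg.Agent.H49 in
theorem key {G : Type*} [Group G] [Finite G] {p : ℕ} [Fact p.Prime] (hp : 3 < p) {P A R : Subgroup G}
    (hP : Nat.card P = p) (sol : Group.IsSolvable A) {a : G} (ha : a ∈ A) (hgen : A = P ⊔ cj a P)
    (hmax : ∀ B : Subgroup G, A ≤ B → Group.IsSolvable B → (∃ b ∈ B, B = P ⊔ cj b P) → B = A)
    (RA : R ≤ A) (hR : A ≤ 𝒩(R)) (n : ℕ) : ∀ V : Subgroup G, Nat.card V ≤ n → Group.IsNilpotent V →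
      A ≤ 𝒩(V) → (Nat.card R).Coprime (Nat.card V) → R ≤ 𝒞(V) := by
  induction n with
  | zero => intro V hV; exact absurd hV (by have := card_pos' V; omega)
  | succ n ih =>
  intro V hn hV hA cop
  by_contra nc
  have solV := Or.inr (b := Group.IsSolvable V) (a := Group.IsSolvable R) (solvable_of_nilpotent hV)
  have sub : ∀ D, D ≤ V → A ≤ 𝒩(D) → D = V ∨ D ≤ V ⊓ 𝒞(R) := by
    intro D hD hAD
    rcases hD.eq_or_lt with e | e
    · exact Or.inl e
    · refine Or.inr (le_inf hD (cent_symm (ih D ?_ (nilpotent_of_le hV hD) hAD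
        (coprime_of_le cop le_rfl hD))))
      have := card_lt_of_lt e
      omega
  set W := V ⊓ 𝒞(R) with hW
  have WV : W < V := lt_of_le_of_ne inf_le_left fun e => nc (cent_symm (e.ge.trans inf_le_right))
  have AW : A ≤ 𝒩(W) := norm_inf hA (norm_cent hR)
  have VR : ⁅V, R⁆ = V := (sub _ (commutator_le_left_of_norm (RA.trans hA))
    (norm_commutator hA hR)).resolve_right fun h =>
      nc (coprime_cent_of_stable (RA.trans hA) cop solV (h.trans inf_le_right))
  have VW : V ≤ 𝒩(W) := by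
    refine ((sub (V ⊓ 𝒩(W)) inf_le_left (norm_inf hA (norm_norm ?_))).resolve_right fun h =>
      (lt_inf_norm_of_nilpotent hV WV).not_ge h).ge.trans inf_le_right
    exact AW
  have VC : V ≤ 𝒞(W) := by
    rw [← VR]
    exact (commutator_mono le_rfl (cent_symm inf_le_right)).trans
      (commutator_le_right_of_norm (norm_cent VW))
  have PA : P ≤ A := hgen ▸ le_sup_left
  have PW := PA.trans AW
  have cjW : ∀ g ∈ 𝒩(W), cj g P ≤ 𝒩(W) := fun g hg => cj_le_of_mem PW hg
  obtain ⟨_, ⟨v, hv, rfl⟩, hU⟩ := H27.Flav.core (P := quo P W) (A := quo A W) (U := quo V W)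
    (R := quo R W) (a := coset W ⟨a, AW ha⟩) hp (hP ▸ card_quo_dvd P W) (coset_mem_quo ha)
    (by rw [← quo_cj, ← quo_sup PW (cjW a (AW ha)), ← hgen]) (solvable_quo sol W)
    (nilpotent_quo hV W) (fun h => WV.not_ge ((quo_eq_bot_iff VW).1 h)) (quo_norm W hA)
    (fun D hD hAD => by
      rcases sub (quoPre W D) ((quoPre_le_iff WV.le VW).2 hD) (norm_quoPre AW hAD) with h | h
      · right; rw [← h, quo_quoPre]
      · left; rw [← quo_quoPre D]; exact quo_eq_bot_of_le h)
    (quo_mono W RA) (quo_norm W hR)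
    ((cop.coprime_dvd_left (card_quo_dvd R W)).coprime_dvd_right (card_quo_dvd V W))
    (by
      rw [← coprime_quo_cent (RA.trans hA) (RA.trans AW) (coprime_of_le cop le_rfl WV.le)
        (Or.inr (solvable_of_nilpotent (nilpotent_of_le hV WV.le))), quo_self])
  have hv' : (v : G) ∈ V := hv
  rw [← map_mul, ← quo_cj, ← quo_sup PW (cjW _ (Subtype.mem _))] at hU
  change quo V W ≤ quo (P ⊔ cj (v * a) P) W at hU
  set B := P ⊔ cj ((v : G) * a) P with hB
  have BY : B ≤ A ⊔ V := sup_le (PA.trans le_sup_left)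
    (cj_le_of_mem (PA.trans le_sup_left) (mul_mem (mem_sup_right hv') (mem_sup_left ha)))
  have YN : A ⊔ V ≤ 𝒩(V) := sup_le hA le_normalizer
  have BW : B ≤ 𝒩(W) := BY.trans (sup_le AW VW)
  have VB : V ≤ B ⊔ W := (quo_le_quo_iff' VW BW).1 hU
  have AB : A ≤ B ⊔ V := by
    refine hgen.le.trans (sup_le (le_sup_left.trans le_sup_left) ?_)
    have : cj a P = cj (v : G)⁻¹ (cj (v * a) P) := by rw [cj_cj, inv_mul_cancel_left]
    rw [this]
    exact cj_le_of_mem (le_sup_right.trans le_sup_left) (mem_sup_right (inv_mem hv'))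
  have VB' : V ≤ B := by
    refine ((sub (B ⊓ V) inf_le_right ((AB.trans (sup_le le_sup_left VB)).trans (sup_le
      (norm_inf le_normalizer (BY.trans YN))
      (norm_of_cent ((cent_symm VC).trans (cent_anti inf_le_right)))))).resolve_right
        fun h => WV.not_ge ?_).ge.trans inf_le_left
    have := le_inf VB le_rfl
    rw [modular_right (Or.inl BW) WV.le] at this
    exact this.trans (sup_le h le_rfl)
  have AB' : A ≤ B := AB.trans (sup_le le_rfl VB')
  have e := hmax B AB' (solvable_of_le (solvable_sup sol (solvable_of_nilpotent hV) (Or.inl hA)) BY)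
    ⟨_, mul_mem (VB' hv') (AB' ha), hB⟩
  exact nc (cent_of_norm_of_disjoint (RA.trans hA) ((VB'.trans e.le).trans hR)
    (H49.inf_eq_bot_of_coprime cop))


/-- Let G be a finite group and P a subgroup of prime order p > 3. Consider the solvable subgroups A of G of the form A = ⟨P, aPa⁻¹⟩ for some a ∈ A, and let A be maximal under inclusion among them. Then for every nilpotent subgroup V of G normalized by A, the subgroup F(A)V generated by the Fitting subgroup of A and V is nilpotent. -/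
theorem result {G : Type*} [Group G] [Finite G]
    {p : ℕ} [Fact p.Prime] (hp : 3 < p) (P : Subgroup G) (hP : Nat.card P = p) (A : Subgroup G)
    (hA : Group.IsSolvable ↥A ∧ ∃ a ∈ A, A = P ⊔ P.map (MulAut.conj a).toMonoidHom)
    (hmax : ∀ B : Subgroup G, A ≤ B → Group.IsSolvable ↥B → (∃ b ∈ B, B = P ⊔ P.map (MulAut.conj b).toMonoidHom) → B = A)
    (V : Subgroup G) (hV : Group.IsNilpotent ↥V) (hAV : A ≤ Subgroup.normalizer (V : Set G)) :
    Group.IsNilpotent ↥((Cfsg.fittingSubgroup ↥A).map A.subtype ⊔ V) := by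
  open Subgroup Cfsg.Agent.H49 in
  obtain ⟨sol, a, ha, hgen⟩ := hA
  change Group.IsNilpotent ↥(fittingOf A ⊔ V)
  have k : ∀ (π : Set ℕ), piCoreOf π (fittingOf A) ≤ 𝒞(piCoreOf πᶜ V) := fun π =>
    key hp hP sol ha hgen hmax ((piCoreOf_le _ _).trans (fittingOf_le A))
      (norm_piCoreOf π (le_norm_fittingOf A)) _ _ le_rfl (nilpotent_of_le hV (piCoreOf_le _ _))
      (norm_piCoreOf _ hAV) ((piCoreOf_pi _ _).coprime (piCoreOf_pi _ _))
  refine nilpotent_of_sylowOf_normal fun r _ _ => ?_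
  have d1 := nilpotent_isDp (fittingOf_nil A) {r}
  have d2 := nilpotent_isDp hV {r}
  have nrm : ∀ π ρ : Set ℕ, piCoreOf π (fittingOf A) ≤ 𝒩(piCoreOf ρ V) := fun π ρ =>
    ((piCoreOf_le _ _).trans (fittingOf_le A)).trans (norm_piCoreOf _ hAV)
  have k2 := k {r}ᶜ
  rw [compl_compl] at k2
  have cen : piCoreOf {r}ᶜ (fittingOf A) ⊔ piCoreOf {r}ᶜ V ≤
      𝒞(piCoreOf {r} (fittingOf A) ⊔ piCoreOf {r} V) := by
    rw [cent_sup]
    exact le_inf (sup_le d1.2.2 (cent_symm (k {r}))) (sup_le k2 d2.2.2)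
  have e : fittingOf A ⊔ V = (piCoreOf {r} (fittingOf A) ⊔ piCoreOf {r} V) ⊔
      (piCoreOf {r}ᶜ (fittingOf A) ⊔ piCoreOf {r}ᶜ V) := by
    rw [sup_sup_sup_comm, d1.1, d2.1]
  rw [e]
  exact ⟨_, hall_sup_left ((piCoreOf_pi _ _).sup (piCoreOf_pi _ _) (Or.inl (nrm _ _)))
    ((piCoreOf_pi _ _).sup (piCoreOf_pi _ _) (Or.inl (nrm _ _))) (Or.inr (norm_of_cent cen)),
    sup_le le_normalizer (norm_of_cent cen)⟩

end Cfsg.Agent.S3822
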