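import Cfsg.Statements.S3825
import Mathlib.GroupTheory.FixedPointFree

set_option autoImplicit false
open Cfsg

namespace Cfsg.Agent.S3825

open Subgroup

/-- Let U be a subgroup of a finite group H and w an involution of H normalizing U and commuting with exactly two elements of U, the identity and y. If V is a non-cyclic elementary abelian 2-subgroup of U containing y which is normal in U and invariant under w, then V is a Sylow 2-subgroup of U, V has order 4, and U/V is abelian. -/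
theorem result {H : Type*} [Group H] [Finite H] (U : Subgroup H) (w : H) (hw : orderOf w = 2)
    (hwU : w ∈ Subgroup.normalizer (U : Set H)) (y : H) (hy : y ≠ 1) (hyU : y ∈ U)
    (hfix : ∀ u ∈ U, w * u * w⁻¹ = u ↔ (u = 1 ∨ u = y))
    (V : Subgroup H) (hVU : V ≤ U) (hVn : (V.subgroupOf U).Normal) (hVw : ∀ v ∈ V, w * v * w⁻¹ ∈ V)
    (hVe : Cfsg.IsElementaryAbelian 2 V) (hVc : ¬ IsCyclic ↥V) (hyV : y ∈ V) :
    ¬ 2 ∣ V.relIndex U ∧ Nat.card ↥V = 4 ∧ ⁅U, U⁆ ≤ V := by
  have hw2 : w * w = 1 := by rw [← pow_two, ← hw, pow_orderOf_eq_one]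
  have hwi : w⁻¹ = w := inv_eq_of_mul_eq_one_right hw2
  have hcm : ∀ a ∈ V, ∀ b ∈ V, a * b = b * a := fun a ha b hb =>
    congrArg Subtype.val (hVe.1.is_comm.comm (⟨a, ha⟩ : V) ⟨b, hb⟩)
  have hsq : ∀ a ∈ V, a * a = 1 := fun a ha => by rw [← pow_two]; exact hVe.2 a ha
  have hww : ∀ a : H, w * (w * a * w⁻¹) * w⁻¹ = a := fun a => by
    calc _ = (w * w) * a * (w * w)⁻¹ := by group
      _ = a := by rw [hw2]; group
  -- the norm map on V
  let f : V →* H := MonoidHom.mk' (fun v => (v : H) * (w * v * w⁻¹)) fun a b => by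
    have h1 := hcm _ b.2 _ (hVw _ a.2)
    simp only [Subgroup.coe_mul]
    calc (a : H) * b * (w * (a * b) * w⁻¹) = a * (b * (w * a * w⁻¹)) * (w * b * w⁻¹) := by group
      _ = _ := by rw [h1]; group
  have hf : ∀ v : V, f v = (v : H) * (w * v * w⁻¹) := fun v => rfl
  have hyy : y * y = 1 := hsq y hyV
  have hY : Nat.card (zpowers y) = 2 := by
    rw [Nat.card_zpowers]; exact orderOf_eq_prime (by rw [pow_two, hyy]) hy
  have hfixY : ∀ u ∈ U, w * u * w⁻¹ = u → u ∈ zpowers y := fun u hu h => by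
    rcases (hfix u hu).1 h with rfl | rfl
    · exact one_mem _
    · exact mem_zpowers _
  have hYfix : ∀ u ∈ zpowers y, u = 1 ∨ u = y := fun u hu => by
    obtain ⟨k, rfl⟩ := mem_zpowers_iff.1 hu
    have h2 : y ^ (2 : ℤ) = 1 := by rw [zpow_two, hyy]
    rcases Int.even_or_odd' k with ⟨m, rfl | rfl⟩
    · left; rw [zpow_mul, h2, one_zpow]
    · right; rw [zpow_add, zpow_mul, h2, one_zpow, one_mul, zpow_one]
  have hr : f.range ≤ zpowers y := by
    rintro _ ⟨v, rfl⟩
    refine hfixY _ (hVU (V.mul_mem v.2 (hVw _ v.2))) ?_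
    rw [hf]
    calc _ = (w * v * w⁻¹) * (w * (w * v * w⁻¹) * w⁻¹) := by group
      _ = _ := by rw [hww, hcm _ v.2 _ (hVw _ v.2)]
  have hk : f.ker.map V.subtype = zpowers y := by
    refine le_antisymm ?_ (zpowers_le.2 ⟨⟨y, hyV⟩, ?_, rfl⟩)
    · rintro _ ⟨v, hv, rfl⟩
      refine hfixY _ (hVU v.2) ?_
      have h1 : (v : H) * (w * v * w⁻¹) = 1 := hv
      exact mul_left_cancel (h1.trans (hsq _ v.2).symm)
    · change y * (w * y * w⁻¹) = 1
      rw [(hfix y hyU).2 (Or.inr rfl), hyy]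
  have hkc : Nat.card f.ker = 2 := by
    rw [← hY, ← hk, Subgroup.card_map_of_injective V.subtype_injective]
  have hmul := f.ker.card_mul_index
  rw [hkc, Subgroup.index_ker] at hmul
  have hrc : Nat.card f.range = 2 := by
    have h1 : Nat.card f.range ∣ 2 := hY ▸ Subgroup.card_dvd_of_le hr
    rcases (Nat.dvd_prime Nat.prime_two).1 h1 with h2 | h2
    · rw [h2] at hmul
      exact absurd (isCyclic_of_prime_card (p := 2) hmul.symm) hVc
    · exact h2
  have hr' : f.range = zpowers y := Subgroup.eq_of_le_of_card_ge hr (by rw [hY, hrc])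
  obtain ⟨v0, hv0⟩ : y ∈ f.range := hr' ▸ mem_zpowers y
  rw [hf] at hv0
  -- action on the quotient
  let φ : U →* U := (U.normalizerMonoidHom ⟨w, hwU⟩).toMonoidHom
  have hφ : ∀ u : U, (φ u : H) = w * u * w⁻¹ := fun u => rfl
  let ψ : U ⧸ V.subgroupOf U →* U ⧸ V.subgroupOf U :=
    QuotientGroup.map _ _ φ fun v hv => by
      rw [mem_comap, mem_subgroupOf, hφ]; exact hVw _ hv
  have hinv : Function.Involutive ψ := fun x => by
    obtain ⟨u, rfl⟩ := QuotientGroup.mk_surjective x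
    change ((φ (φ u) : U) : U ⧸ V.subgroupOf U) = u
    congr 1
    exact Subtype.ext (by rw [hφ, hφ, hww])
  have hfpf : MonoidHom.FixedPointFree ψ := fun x hx => by
    obtain ⟨u, rfl⟩ := QuotientGroup.mk_surjective x
    change ((φ u : U) : U ⧸ V.subgroupOf U) = u at hx
    have h1 : (u : H)⁻¹ * (w * u * w⁻¹) ∈ V :=
      mem_subgroupOf.1 (QuotientGroup.eq.1 hx.symm)
    rw [QuotientGroup.eq_one_iff, mem_subgroupOf]
    set v := (u : H)⁻¹ * (w * u * w⁻¹) with hv
    have h2 : w * u * w⁻¹ = u * v := by rw [hv]; group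
    have h3 : v * (w * v * w⁻¹) = 1 := by
      have h4 := hww u
      rw [h2] at h4
      have h5 : w * (u * v) * w⁻¹ = (w * u * w⁻¹) * (w * v * w⁻¹) := by group
      rw [h5, h2, mul_assoc] at h4
      exact mul_left_cancel (h4.trans (mul_one _).symm)
    have h4 : v ∈ zpowers y := hk ▸ ⟨⟨v, h1⟩, h3, rfl⟩
    have hYV : zpowers y ≤ V := zpowers_le.2 hyV
    rcases hYfix v h4 with h5 | h5
    · rw [h5, mul_one] at h2
      exact hYV (hfixY _ u.2 h2)
    · have h6 : w * (u * v0) * w⁻¹ = u * v0 := by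
        calc _ = (w * u * w⁻¹) * (w * v0 * w⁻¹) := by group
          _ = u * (v0 * (w * v0 * w⁻¹) * (w * v0 * w⁻¹)) := by rw [h2, h5, hv0]; group
          _ = _ := by rw [mul_assoc (v0 : H), hsq _ (hVw _ v0.2), mul_one]
      have h7 := hYV (hfixY _ (U.mul_mem u.2 (hVU v0.2)) h6)
      exact (V.mul_mem_cancel_right v0.2).1 h7
  refine ⟨?_, by rw [← hmul, hrc], ?_⟩
  · have := hfpf.odd_card_of_involutive hinv
    exact fun h => (Nat.not_even_iff_odd.2 this) (even_iff_two_dvd.2 h)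
  · rw [commutator_le]
    intro a ha b hb
    have h1 := hfpf.commute_all_of_involutive hinv ((⟨a, ha⟩ : U) : U ⧸ V.subgroupOf U)
      ((⟨b, hb⟩ : U) : U ⧸ V.subgroupOf U)
    rw [← commutatorElement_eq_one_iff_commute, ← QuotientGroup.mk'_apply,
      ← QuotientGroup.mk'_apply, ← map_commutatorElement, QuotientGroup.mk'_apply,
      QuotientGroup.eq_one_iff, mem_subgroupOf] at h1
    exact h1

end Cfsg.Agent.S3825
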