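import Cfsg.Statements.S3835
import Cfsg.Agent.H60.QdNat
import Cfsg.Agent.H60.QdSylow
import Cfsg.Agent.H21.PStab

set_option autoImplicit false
open Cfsg

namespace Cfsg.Agent.S3835

open Subgroup Matrix H60
open scoped MatrixGroups commutatorElement

theorem comm_of_pgroup {P α : Type*} [Group P] [Finite P] [Finite α] {p : ℕ} [hp : Fact p.Prime]
    (hP : IsPGroup p P) (φ : P →* Equiv.Perm α) (hn : Nat.card α < p ^ 2) (a b : P) :
    φ a * φ b = φ b * φ a := by
  rw [← commute_iff_eq, ← commutatorElement_eq_one_iff_commute, ← map_commutatorElement]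
  ext x
  let _ : MulAction P α := MulAction.compHom α φ
  let S := MulAction.stabilizer P x
  change ⁅a, b⁆ ∈ S
  obtain ⟨k, hk⟩ := hP.index S
  have h1 : S.index < p ^ 2 := by
    rw [MulAction.index_stabilizer]
    exact lt_of_le_of_lt (Set.ncard_le_card _) hn
  rw [hk, Nat.pow_lt_pow_iff_right hp.out.one_lt] at h1
  interval_cases k
  · rw [pow_zero, index_eq_one] at hk
    rw [hk]; trivial
  rw [pow_one] at hk
  obtain ⟨m, hm⟩ := hP.exists_card_eq
  have h2 : m ≠ 0 := by
    rintro rfl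
    have := S.index_dvd_card
    rw [hk, hm, pow_zero, Nat.dvd_one] at this
    exact hp.out.one_lt.ne' this
  have : S.Normal := normal_of_index_eq_minFac_card (by rw [hk, hm, hp.out.pow_minFac h2])
  have : IsCyclic (P ⧸ S) := isCyclic_of_prime_card (p := p) (by rw [← hk]; rfl)
  rw [← QuotientGroup.eq_one_iff]
  change QuotientGroup.mk' S ⁅a, b⁆ = 1
  rw [map_commutatorElement, commutatorElement_eq_one_iff_commute]
  exact IsCyclic.isMulCommutative.is_comm.comm _ _

theorem not_surj {K α : Type*} [Group K] [Finite α] {p : ℕ} [hp : Fact p.Prime] (φ : K →* Equiv.Perm α)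
    (hφ : Function.Injective φ) (hn : Nat.card α < p ^ 2) (f : K →* qd p) : ¬ Function.Surjective f := by
  intro hf
  have : Finite K := Finite.of_injective φ hφ
  obtain ⟨T, hT⟩ := Sylow.mapSurjective_surjective hf p (qdSylow p)
  have h1 : ∀ b x y : ZMod p, ∃ t : T, f t = heis b x y := fun b x y => by
    have : heis b x y ∈ (T : Subgroup K).map f := by
      rw [← Sylow.coe_mapSurjective hf, hT]; exact heis_mem b x y
    obtain ⟨t, ht, e⟩ := this
    exact ⟨⟨t, ht⟩, e⟩
  obtain ⟨a, ha⟩ := h1 1 0 0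
  obtain ⟨b, hb⟩ := h1 0 0 1
  have h2 := comm_of_pgroup T.2 (φ.comp (T : Subgroup K).subtype) hn a b
  simp only [MonoidHom.comp_apply, ← map_mul] at h2
  have h3 := congrArg f (hφ h2)
  simp only [map_mul, subtype_apply, ha, hb, heis_mul, heis_inj] at h3
  simp at h3

theorem hom_trivial {p : ℕ} [hp : Fact p.Prime] (hp2 : p ≠ 2) (χ : qd p →* ℤˣ) (M : qd p) : χ M = 1 := by
  have h0 : ∀ M : qd p, M ^ p = 1 → χ M = 1 := fun M h => by
    have := congrArg χ h
    rw [map_pow, map_one] at this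
    rcases Int.units_eq_one_or (χ M) with e | e
    · exact e
    · rw [e, (hp.out.odd_of_ne_two hp2).neg_one_pow] at this
      exact absurd this (by decide)
  have h1 : ∀ A, χ (qdEmb p A) = 1 := fun A => by
    have : (χ.comp (qdEmb p)).ker = ⊤ := by
      rw [eq_top_iff, ← H21.closure_upperT_lowerT_zmod (p := p) one_ne_zero one_ne_zero, closure_le]
      rintro _ (rfl | rfl)
      · exact h0 _ (by rw [← map_pow, H21.upperT_pow_char, map_one])
      · exact h0 _ (by rw [← map_pow, H21.lowerT_pow_char, map_one])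
    exact (this.ge trivial : A ∈ _)
  have h2 : M = qdMk 1 0 0 1 (M.1.1 0 2) (M.1.1 1 2) (by simp) * qdEmb p (qdLin p M) := by
    rw [qdEmb_apply, qdMk_mul]
    conv_lhs => rw [qd_eq_mk M]
    rw [qdMk_inj]
    simp
    exact ⟨rfl, rfl, rfl, rfl⟩
  rw [h2, map_mul, h1, mul_one]
  exact h0 _ (by rw [qdMk_transl_pow, qdMk_one, qdMk_inj]; simp)

@[reducible] def act (p : ℕ) : MulAction (qd p) (Fin 2 → ZMod p) where
  smul M v := qdTr M + (qdLin p M).1 *ᵥ v
  one_smul v := by
    change qdTr 1 + (qdLin p 1).1 *ᵥ v = v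
    simp [qdTr_one]
  mul_smul M N v := by
    change qdTr (M * N) + (qdLin p (M * N)).1 *ᵥ v = qdTr M + (qdLin p M).1 *ᵥ (qdTr N + (qdLin p N).1 *ᵥ v)
    rw [qdTr_mul, map_mul, Matrix.SpecialLinearGroup.coe_mul, Matrix.mulVec_add, Matrix.mulVec_mulVec, add_assoc]

theorem exists_emb (p : ℕ) : ∃ φ : qd p →* Equiv.Perm (Fin 2 → ZMod p), Function.Injective φ := by
  let _ := act p
  refine ⟨MulAction.toPermHom _ _, (injective_iff_map_eq_one _).2 fun M h => ?_⟩
  have h1 : ∀ v, qdTr M + (qdLin p M).1 *ᵥ v = v := fun v => congrFun (congrArg DFunLike.coe h) v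
  have h2 : qdTr M = 0 := by simpa using h1 0
  exact qd_eq_one_of (sl2_eq_of_mulVec fun c => by simpa [h2] using h1 c) h2

/-- Let p be an odd prime and n a natural number. The alternating group of degree n has a subgroup isomorphic to Qd(p) (the natural semidirect product of an elementary abelian group of order p² by SL₂(p)) if and only if n ≥ p²; and if n < p² then Qd(p) is not even involved in it. -/
theorem result {p : ℕ} [Fact p.Prime] (hp : p ≠ 2) (n : ℕ) : ((∃ H : Subgroup (alternatingGroup (Fin n)), Nonempty (↥H ≃* ↥(Cfsg.qd p))) ↔ p ^ 2 ≤ n) ∧ (n < p ^ 2 → ¬ Cfsg.Involves ↥(Cfsg.qd p) ↥(alternatingGroup (Fin n))) := by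
  have h1 : n < p ^ 2 → ¬ Involves (qd p) (alternatingGroup (Fin n)) := by
    rintro hn ⟨K, R, _, ⟨e⟩⟩
    exact not_surj ((alternatingGroup (Fin n)).subtype.comp K.subtype)
      (Subtype.val_injective.comp Subtype.val_injective) (by simpa using hn)
      (e.toMonoidHom.comp (QuotientGroup.mk' _)) (e.surjective.comp (QuotientGroup.mk'_surjective _))
  refine ⟨⟨?_, fun hn => ?_⟩, h1⟩
  · rintro ⟨H, ⟨e⟩⟩
    by_contra hn
    exact not_surj ((alternatingGroup (Fin n)).subtype.comp H.subtype)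
      (Subtype.val_injective.comp Subtype.val_injective) (by simpa using hn) e.toMonoidHom e.surjective
  obtain ⟨φ, hφ⟩ := exists_emb p
  obtain ⟨ι⟩ : Nonempty ((Fin 2 → ZMod p) ↪ Fin n) := Function.Embedding.nonempty_of_card_le (by simpa using hn)
  let ψ := (Equiv.Perm.viaEmbeddingHom ι).comp φ
  have hψ : Function.Injective ψ := (Equiv.Perm.viaEmbeddingHom_injective ι).comp hφ
  let ρ := ψ.codRestrict (alternatingGroup (Fin n)) fun M =>
    Equiv.Perm.mem_alternatingGroup.2 (hom_trivial hp (Equiv.Perm.sign.comp ψ) M)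
  exact ⟨ρ.range, ⟨(MonoidHom.ofInjective (f := ρ) fun a b h => hψ (congrArg Subtype.val h)).symm⟩⟩

end Cfsg.Agent.S3835
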