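import Cfsg.Statements.S3836
import Cfsg.Agent.H44.Cores

set_option autoImplicit false
open Cfsg

namespace Cfsg.Agent.S3836

open Subgroup

/-- Let G be a finite group that is p-stable in the normalizer form: for every p-subgroup Q and every x ∈ N_G(Q) with [Q, x, x] = 1, the image of x in N_G(Q)/C_G(Q) lies in O_p(N_G(Q)/C_G(Q)). Then every subgroup of G is p-stable in the same sense. -/
theorem result {G : Type*} [Group G] [Finite G] {p : ℕ} [Fact p.Prime] (hst : Cfsg.IsNormalizerPStable p G) (H : Subgroup G) : Cfsg.IsNormalizerPStable p ↥H := by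
  intro P hP g hg hq
  let P' : Subgroup G := P.map H.subtype
  have hP' : IsPGroup p P' := hP.map _
  have hnorm : ∀ x : H, x ∈ normalizer (P : Set H) → (x : G) ∈ normalizer (P' : Set G) := by
    intro x hx
    exact le_normalizer_map H.subtype (mem_map_of_mem _ hx)
  let ι : normalizer (P : Set H) →* normalizer (P' : Set G) :=
    (H.subtype.comp (normalizer (P : Set H)).subtype).codRestrict _ (fun x => hnorm x x.2)
  have hι : ∀ x : normalizer (P : Set H), ι x ∈ (centralizer (P' : Set G)).subgroupOf (normalizer (P' : Set G)) ↔
      x ∈ (centralizer (P : Set H)).subgroupOf (normalizer (P : Set H)) := by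
    intro x
    rw [mem_subgroupOf, mem_subgroupOf, mem_centralizer_iff, mem_centralizer_iff]
    constructor
    · intro h y hy
      exact Subtype.ext (h _ (mem_map_of_mem H.subtype hy))
    · rintro h _ ⟨y, hy, rfl⟩
      exact congrArg Subtype.val (h y hy)
  let f := QuotientGroup.map ((centralizer (P : Set H)).subgroupOf (normalizer (P : Set H)))
    ((centralizer (P' : Set G)).subgroupOf (normalizer (P' : Set G))) ι (fun x hx => (hι x).2 hx)
  have hf : Function.Injective f := by
    rw [injective_iff_map_eq_one]
    intro x hx
    obtain ⟨x, rfl⟩ := QuotientGroup.mk_surjective x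
    rw [QuotientGroup.eq_one_iff]
    exact (hι x).1 ((QuotientGroup.eq_one_iff _).1 hx)
  have h1 := hst P' hP' g (hnorm g hg) (by
    have : zpowers (g : G) = (zpowers g).map H.subtype := by rw [MonoidHom.map_zpowers]; rfl
    rw [this, ← map_commutator, ← map_commutator, hq, Subgroup.map_bot])
  have hn : (Cfsg.pCore p (↥(normalizer (P' : Set G)) ⧸
      (centralizer (P' : Set G)).subgroupOf (normalizer (P' : Set G)))).Normal :=
    haveI := H44.pCore_characteristic (p := p) (G := ↥(normalizer (P' : Set G)) ⧸
      (centralizer (P' : Set G)).subgroupOf (normalizer (P' : Set G)))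
    inferInstance
  exact H44.le_pCore (hn.comap f) (H44.pCore_isPGroup.comap_of_injective f hf) h1

end Cfsg.Agent.S3836
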