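import Cfsg.Statements.S3838
import Cfsg.Agent.H80.Misc
import Cfsg.Agent.S0081
import Cfsg.Agent.H3.PComplement
import Cfsg.Agent.H31.PPart
import Cfsg.Agent.H3.PGroup

set_option autoImplicit false
open Cfsg

namespace Cfsg.Agent.S3838

open Subgroup
open scoped commutatorElement

theorem aux {G : Type*} [Group G] [Finite G] {p : ℕ} [hp : Fact p.Prime] (P : Sylow p G)
    (hN : ∀ g ∈ normalizer ((P : Subgroup G) : Set G), (orderOf g).Coprime p →
      g ∈ centralizer ((P : Subgroup G) : Set G))
    (Q : Subgroup G) [Q.Normal] (h1 : ⁅(P : Subgroup G), (P : Subgroup G)⁆ ≤ Q)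
    (h2 : Q ≤ (frattini ↥(P : Subgroup G)).map (P : Subgroup G).subtype) :
    Cfsg.HasNormalPComplement p G := by
  have hQP : Q ≤ P := h2.trans (map_subtype_le _)
  let π := QuotientGroup.mk' Q
  have hπ := QuotientGroup.mk'_surjective Q
  have h3 : Cfsg.HasNormalPComplement p (G ⧸ Q) := by
    apply H3.hasNormalPComplement_of_normalizer_le_centralizer (P.mapSurjective hπ)
    intro x hx
    obtain ⟨g, rfl⟩ := hπ x
    have hg : g ∈ normalizer ((P : Subgroup G) : Set G) := by
      have : g ∈ (normalizer ((P : Subgroup G).map π : Set (G ⧸ Q))).comap π := hx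
      rwa [comap_normalizer_eq_of_surjective _ hπ, comap_map_eq, QuotientGroup.ker_mk',
        sup_eq_left.2 hQP] at this
    obtain ⟨u, v, rfl, -, hu, hv, ⟨k, hk⟩, hvp⟩ := H31.exists_p_parts hp.out g
    have hu' : u ∈ (P : Subgroup G) := by
      have hz : IsPGroup p (zpowers u) := by
        obtain ⟨j, -, hj⟩ := (Nat.dvd_prime_pow hp.out).1 (orderOf_dvd_of_pow_eq_one hk)
        exact IsPGroup.of_card (by rw [Nat.card_zpowers, hj])
      have : zpowers u ⊓ normalizer ((P : Subgroup G) : Set G) = _ := hz.inf_normalizer_sylow P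
      rw [inf_eq_left.2 (zpowers_le.2 (zpowers_le.2 hg hu))] at this
      exact (this ▸ mem_zpowers u : u ∈ zpowers u ⊓ (P : Subgroup G)).2
    have hv' := hN v (zpowers_le.2 hg hv) hvp
    rw [map_mul]
    refine mul_mem ?_ ?_
    · rw [mem_centralizer_iff]
      rintro _ ⟨y, hy, rfl⟩
      rw [← commutatorElement_eq_one_iff_mul_comm, ← map_commutatorElement]
      exact (QuotientGroup.eq_one_iff _).2 (h1 (commutator_mem_commutator hy hu'))
    · rw [mem_centralizer_iff]
      rintro _ ⟨y, hy, rfl⟩
      rw [← map_mul, ← map_mul, hv' y hy]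
  let K := (pResidual p (G ⧸ Q)).comap π
  have h4 : K ⊓ (P : Subgroup G) ≤ Q := by
    rintro x ⟨hxK, hxP⟩
    have h5 := (H3.hasNormalPComplement_iff_inf_eq_bot (P.mapSurjective hπ)).1 h3
    have : π x ∈ ((P.mapSurjective hπ : Sylow p (G ⧸ Q)) : Subgroup (G ⧸ Q)) ⊓ pResidual p (G ⧸ Q) :=
      ⟨⟨x, hxP, rfl⟩, hxK⟩
    rw [h5] at this
    exact (QuotientGroup.eq_one_iff _).1 this
  have h6 := S0081.result P K (h4.trans h2)
  refine H3.hasNormalPComplement_of_pResidual_le ?_ h6
  exact map_le_iff_le_comap.1 (H3.map_pResidual_le π)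

/-- Let G be a finite group with Sylow p-subgroup P such that N_G(P) has a normal p-complement. Then N_G(Q) has a normal p-complement for every subgroup Q with [P, P] ≤ Q ≤ Φ(P). -/
theorem result {G : Type*} [Group G] [Finite G] {p : ℕ} [Fact p.Prime] (P : Sylow p G) (hN : Cfsg.HasNormalPComplement p ↥(Subgroup.normalizer ((P : Subgroup G) : Set G))) (Q : Subgroup G) (h1 : (commutator ↥(P : Subgroup G)).map (P : Subgroup G).subtype ≤ Q) (h2 : Q ≤ (frattini ↥(P : Subgroup G)).map (P : Subgroup G).subtype) : Cfsg.HasNormalPComplement p ↥(Subgroup.normalizer (Q : Set G)) := by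
  rw [map_subtype_commutator] at h1
  have hQP : Q ≤ P := h2.trans (map_subtype_le _)
  have hPN : (P : Subgroup G) ≤ normalizer (Q : Set G) := by
    intro g hg
    apply H4.mem_normalizer_of_conj_mem
    intro x hx
    have := mul_mem (h1 (commutator_mem_commutator hg (hQP hx))) hx
    simpa [commutatorElement_def] using this
  let H := normalizer (Q : Set G)
  have hinj := H.subtype_injective
  have hmap : ((P.subtype hPN : Sylow p H) : Subgroup H).map H.subtype = P := by
    rw [Sylow.coe_subtype, map_subgroupOf_eq_of_le hPN]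
  refine aux (P.subtype hPN) ?_ (Q.subgroupOf H) ?_ ?_
  · intro g hg hgp
    have hg' : (g : G) ∈ normalizer ((P : Subgroup G) : Set G) := by
      have := le_normalizer_map H.subtype (mem_map_of_mem _ hg)
      rwa [hmap] at this
    have h3 := H3.mem_centralizer_of_hasNormalPComplement hN
      (Q := (P : Subgroup G).subgroupOf (normalizer ((P : Subgroup G) : Set G)))
      (P.isPGroup'.comap_of_injective _ (subtype_injective _)) (g := ⟨g, hg'⟩)
      (normalizer_eq_top ((P : Subgroup G).subgroupOf (normalizer ((P : Subgroup G) : Set G))) ▸ mem_top _)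
      (by rw [← orderOf_coe]; rwa [← orderOf_coe] at hgp)
    rw [mem_centralizer_iff] at h3 ⊢
    intro y hy
    have h4 := congrArg Subtype.val (h3 ⟨y, le_normalizer hy⟩ hy)
    exact Subtype.ext h4
  · rw [subgroupOf, ← map_le_iff_le_comap, map_commutator, hmap]
    exact h1
  · rw [← map_le_map_iff_of_injective hinj, map_subgroupOf_eq_of_le le_normalizer]
    refine h2.trans ?_
    rw [H3.map_frattini_le_iff P.isPGroup']
    have h4 := (H3.map_frattini_le_iff (P.subtype hPN).isPGroup').1 le_rfl
    constructor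
    · have := map_mono (f := H.subtype) h4.1
      rwa [map_commutator, hmap] at this
    · intro x hx
      exact ⟨_, h4.2 ⟨x, hPN hx⟩ hx, rfl⟩

end Cfsg.Agent.S3838
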