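import Cfsg.Statements.S3857
import Cfsg.Agent.H1.Hall
import Cfsg.Agent.H2.MinNormal
import Cfsg.Agent.H2.FpfCyclic
import Cfsg.Agent.H19.Nilp
import Cfsg.Agent.H22.Core
import Cfsg.Agent.H84.SqFree
import Cfsg.Agent.S0035
import Cfsg.Agent.S0039

set_option autoImplicit false
open Cfsg

namespace Cfsg.Agent.S3857

open Subgroup H1

/-- No element has order divisible by a prime of `π` and by a prime outside `π`. -/
def Disc (π : Set ℕ) (G : Type*) [Group G] : Prop :=
  ∀ a ∈ π, ∀ b ∉ π, a.Prime → b.Prime → ∀ g : G, ¬ a * b ∣ orderOf g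

variable {G : Type*} [Group G] {π : Set ℕ}

theorem Disc.compl (h : Disc π G) : Disc πᶜ G :=
  fun a ha b hb hap hbp g => mul_comm a b ▸ h b (not_not.1 hb) a ha hbp hap g

theorem Disc.sub (h : Disc π G) (K : Subgroup G) : Disc π K :=
  fun a ha b hb hap hbp g => orderOf_coe g ▸ h a ha b hb hap hbp g

theorem Disc.quot (h : Disc π G) (N : Subgroup G) [N.Normal] : Disc π (G ⧸ N) := by
  intro a ha b hb hap hbp g hg
  obtain ⟨g, rfl⟩ := QuotientGroup.mk'_surjective N g
  exact h a ha b hb hap hbp g (hg.trans (orderOf_map_dvd _ g))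

theorem Disc.eq_one (h : Disc π G) {x y : G} (hxy : Commute x y) (hx : PiNum π (orderOf x))
    (hy : PiNum πᶜ (orderOf y)) (hx1 : x ≠ 1) : y = 1 := by
  by_contra hy1
  obtain ⟨a, ha, h1⟩ := Nat.exists_prime_and_dvd (mt orderOf_eq_one_iff.1 hx1)
  obtain ⟨b, hb, h2⟩ := Nat.exists_prime_and_dvd (mt orderOf_eq_one_iff.1 hy1)
  refine h a (hx a ha h1) b (hy b hb h2) ha hb (x * y) ?_
  rw [hxy.orderOf_mul_eq_mul_orderOf_of_coprime (hx.coprime hy)]
  exact mul_dvd_mul h1 h2

variable [Finite G]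

theorem exists_core (π : Set ℕ) (G : Type*) [Group G] [Finite G] : ∃ H : Subgroup G, H.Normal ∧
    PiNum π (Nat.card H) ∧ ∀ N : Subgroup G, N.Normal → PiNum π (Nat.card N) → N ≤ H := by
  obtain ⟨H, -, hH⟩ := Finite.exists_le_maximal
    (p := fun H : Subgroup G => H.Normal ∧ PiNum π (Nat.card H)) (a := ⊥)
    ⟨inferInstance, fun p hp h => absurd (Nat.dvd_one.1 (card_bot (G := G) ▸ h)) hp.ne_one⟩
  refine ⟨H, hH.1.1, hH.1.2, fun N hN h => le_sup_right.trans (hH.2 ⟨?_, ?_⟩ (le_sup_left : H ≤ H ⊔ N))⟩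
  · have := hH.1.1
    infer_instance
  · exact (hH.1.2.mul h).of_dvd (H22.card_sup_dvd H N)

theorem frob (h : Disc π G) (K : Subgroup G) [K.Normal] (hK : PiNum π (Nat.card K))
    (hi : PiNum πᶜ K.index) (h1 : K ≠ ⊥) (h2 : K ≠ ⊤) :
    ∃ C : Subgroup G, IsFrobeniusComplement C ∧ frobeniusKernel C = K := by
  obtain ⟨C, hC⟩ := exists_right_complement'_of_coprime (hK.coprime hi)
  have hF : IsFrobeniusComplement C := by
    refine (S0039.result K C hC h1 ?_).2 fun c hc hc1 => eq_bot_iff.2 fun x hx => ?_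
    · rintro rfl
      exact h2 (isComplement'_bot_right.1 hC)
    · by_contra hx1
      exact hc1 (h.eq_one (mem_centralizer_singleton_iff.1 hx.2) (hK.of_dvd (K.orderOf_dvd_natCard hx.1))
        (hi.of_dvd (hC.symm.index_eq_card ▸ C.orderOf_dvd_natCard hc)) hx1)
  obtain ⟨N, hN, hNn, hNC⟩ := S0035.result C hF
  refine ⟨C, hF, hN ▸ congrArg _ (eq_of_le_of_card_ge (H19.le_normal_of_coprime_index N K ?_) ?_)⟩
  · rw [← hNC.index_eq_card, hC.index_eq_card]
    exact hK.coprime hi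
  · rw [← hNC.index_eq_card, hC.index_eq_card]

theorem main [Group.IsSolvable G] (h : Disc π G) (h1 : ¬ PiNum π (Nat.card G)) {M : Subgroup G}
    (hMn : M.Normal) (hM1 : M ≠ ⊥) (hM : PiNum π (Nat.card M)) :
    (∃ C : Subgroup G, IsFrobeniusComplement C) ∨
    (∃ (H K : Subgroup G) (_ : H.Normal), K.Normal ∧ H < K ∧
      (∃ C : Subgroup K, IsFrobeniusComplement C ∧ frobeniusKernel C = (H.subgroupOf K : Set K)) ∧
      (∃ C : Subgroup (G ⧸ H), IsFrobeniusComplement C ∧
        frobeniusKernel C = (K.map (QuotientGroup.mk' H) : Set (G ⧸ H)))) := by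
  obtain ⟨H, hHn, hH, hHm⟩ := exists_core π G
  have hH1 : H ≠ ⊥ := fun e => hM1 (eq_bot_iff.2 (e ▸ hHm M hMn hM))
  have hH2 : H ≠ ⊤ := fun e => h1 (card_top (G := G) ▸ e ▸ hH)
  have key : ∀ N : Subgroup (G ⧸ H), N.Normal → PiNum π (Nat.card N) → N = ⊥ := fun N hN h => by
    have h2 := hHm (N.comap (QuotientGroup.mk' H)) inferInstance (card_comap_mk' H N ▸ h.mul hH)
    rw [← map_comap_eq_self_of_surjective (QuotientGroup.mk'_surjective H) N, Subgroup.map_eq_bot_iff,
      QuotientGroup.ker_mk']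
    exact h2
  obtain ⟨K, hKn, hK, hKm⟩ := exists_core πᶜ (G ⧸ H)
  have := QuotientGroup.nontrivial_iff.2 hH2
  obtain ⟨N, q, hq, hNn, hN1, hNc, hNq, -⟩ := H2.exists_minimal_normal_of_solvable (G := G ⧸ H)
  have hN : PiNum πᶜ (Nat.card N) := piNum_of_isPGroup hq
    (fun h => hN1 (key N hNn (piNum_of_isPGroup hq h hNq))) hNq
  have hK1 : K ≠ ⊥ := fun e => hN1 (eq_bot_iff.2 (e ▸ hKm N hNn hN))
  have hHK : H < K.comap (QuotientGroup.mk' H) := lt_of_le_of_ne (QuotientGroup.le_comap_mk' H K) fun e =>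
    hK1 (by rw [← map_comap_eq_self_of_surjective (QuotientGroup.mk'_surjective H) K, ← e,
      QuotientGroup.map_mk'_self])
  have hrel : ∀ L : Subgroup (G ⧸ H), (H.subgroupOf (L.comap (QuotientGroup.mk' H))).index = Nat.card L :=
    fun L => by
      have h2 := relIndex_ker (L.comap (QuotientGroup.mk' H)) (QuotientGroup.mk' H)
      rwa [QuotientGroup.ker_mk', map_comap_eq_self_of_surjective (QuotientGroup.mk'_surjective H)] at h2
  by_cases hK2 : K = ⊤
  · exact Or.inl ((frob h H hH (by rwa [hK2, card_top] at hK) hH1 hH2).imp fun _ h => h.1)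
  refine Or.inr ⟨H, K.comap (QuotientGroup.mk' H), hHn, inferInstance, hHK,
    frob (h.sub _) _ (H2.card_subgroupOf_of_le hHK.le ▸ hH) (hrel K ▸ hK)
      (by rwa [Ne, subgroupOf_eq_bot, disjoint_iff, inf_eq_left.2 hHK.le])
      (by rw [Ne, subgroupOf_eq_top]; exact hHK.not_ge), ?_⟩
  rw [map_comap_eq_self_of_surjective (QuotientGroup.mk'_surjective H)]
  refine frob (h.quot H).compl K hK ?_ hK1 hK2
  have hNcyc : IsCyclic N := by
    have hle := QuotientGroup.le_comap_mk' H N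
    obtain ⟨C, hC⟩ := exists_right_complement'_of_coprime (N := H.subgroupOf (N.comap (QuotientGroup.mk' H)))
      (PiNum.coprime (H2.card_subgroupOf_of_le hle ▸ hH) (hrel N ▸ hN))
    have hc : Nat.card C = Nat.card N := hC.symm.index_eq_card.symm.trans (hrel N)
    let f : C →* N := ((QuotientGroup.mk' H).comp ((Subgroup.subtype _).comp C.subtype)).codRestrict N
      fun c => c.1.2
    have hf : Function.Injective f := (injective_iff_map_eq_one f).2 fun c hc => Subtype.ext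
      (H2.eq_one_of_mem_of_isComplement' hC ((QuotientGroup.eq_one_iff (N := H) c.1.1).1 (congrArg Subtype.val hc)) c.2)
    have h2 : IsCyclic C := H2.isCyclic_of_fpf_of_comm (K := H.subgroupOf _)
      ⟨⟨fun a b => hf (by rw [map_mul, map_mul, hNc.is_comm.comm])⟩⟩
      (by rwa [Ne, subgroupOf_eq_bot, disjoint_iff, inf_eq_left.2 hle]) le_normalizer_of_normal
      fun c hc' hc1 => eq_bot_iff.2 fun x hx => by
        by_contra hx1
        exact hc1 ((h.sub _).eq_one (mem_centralizer_singleton_iff.1 hx.2)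
          (PiNum.of_dvd (H2.card_subgroupOf_of_le hle ▸ hH) (orderOf_dvd_natCard _ hx.1))
          (hN.of_dvd (hc ▸ C.orderOf_dvd_natCard hc')) hx1)
    exact isCyclic_of_surjective f ((Nat.bijective_iff_injective_and_card f).2 ⟨hf, hc⟩).2
  have hC : centralizer (N : Set (G ⧸ H)) ≤ K := hKm _ inferInstance fun r hr hrd hrπ => by
    have := Fact.mk hr
    obtain ⟨x, hx⟩ := exists_prime_orderOf_dvd_card' r hrd
    obtain ⟨⟨y, hy⟩, hy1⟩ := ne_bot_iff_exists_ne_one.1 hN1
    rw [← orderOf_coe] at hx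
    refine hy1 (Subtype.ext ((h.quot H).eq_one (x.2 y hy).symm (hx ▸ fun s hs h =>
      ((Nat.prime_dvd_prime_iff_eq hs hr).1 h).symm ▸ hrπ) (hN.of_dvd (N.orderOf_dvd_natCard hy)) fun e => ?_))
    rw [e, orderOf_one] at hx
    exact hr.ne_one hx.symm
  intro r hr hrd hrπ
  have := Fact.mk hr
  obtain ⟨R⟩ : Nonempty (Sylow r (G ⧸ H)) := inferInstance
  have h2 := hKm ((R : Subgroup (G ⧸ H)) ⊔ K) (Normal.of_commutator_le _
    (((H84.commutator_le_centralizer_of_cyclic N hNcyc).trans hC).trans le_sup_right))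
    (((piNum_of_isPGroup hr hrπ R.isPGroup').mul hK).of_dvd (H22.card_sup_dvd _ K))
  exact R.not_dvd_index (hrd.trans (index_dvd_of_le (le_sup_left.trans h2)))

/-- A finite solvable group whose prime graph (prime divisors of the order, two distinct primes joined when there is an element of order their product) is disconnected is a Frobenius group or a 2-Frobenius group (it has normal subgroups H < K with K a Frobenius group with kernel H and G/H a Frobenius group with kernel K/H). -/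
theorem result {G : Type*} [Group G] [Finite G] (hsol : Group.IsSolvable G)
    (hdisc : (∃ A : Set ℕ, (∃ a ∈ A, a.Prime ∧ a ∣ Nat.card G) ∧ (∃ b ∉ A, b.Prime ∧ b ∣ Nat.card G) ∧
      ∀ a ∈ A, ∀ b ∉ A, a.Prime → b.Prime → a ∣ Nat.card G → b ∣ Nat.card G → ¬ ∃ g : G, orderOf g = a * b)) :
    (∃ C : Subgroup G, Cfsg.IsFrobeniusComplement C) ∨
    (∃ (H K : Subgroup G) (_ : H.Normal), K.Normal ∧ H < K ∧
      (∃ C : Subgroup ↥K, Cfsg.IsFrobeniusComplement C ∧ Cfsg.frobeniusKernel C = (H.subgroupOf K : Set ↥K)) ∧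
      (∃ C : Subgroup (G ⧸ H), Cfsg.IsFrobeniusComplement C ∧ Cfsg.frobeniusKernel C = (K.map (QuotientGroup.mk' H) : Set (G ⧸ H)))) := by
  obtain ⟨A, ⟨a, ha, hap, had⟩, ⟨b, hb, hbp, hbd⟩, h⟩ := hdisc
  have hD : Disc A G := fun a ha b hb hap hbp g hg => by
    have h1 := hg.trans (orderOf_dvd_natCard g)
    refine h a ha b hb hap hbp (dvd_of_mul_right_dvd h1) (dvd_of_mul_left_dvd h1)
      ⟨g ^ (orderOf g / (a * b)), ?_⟩
    rw [orderOf_pow_orderOf_div (orderOf_pos g).ne' hg]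
  have : Nontrivial G := Finite.one_lt_card_iff_nontrivial.1
    (hap.one_lt.trans_le (Nat.le_of_dvd Nat.card_pos had))
  obtain ⟨M, p, hp, hMn, hM1, -, hM, -⟩ := H2.exists_minimal_normal_of_solvable (G := G)
  by_cases h1 : p ∈ A
  · exact main hD (fun h => hb (h b hbp hbd)) hMn hM1 (piNum_of_isPGroup hp h1 hM)
  · exact main hD.compl (fun h => h a hap had ha) hMn hM1 (piNum_of_isPGroup hp h1 hM)

end Cfsg.Agent.S3857
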