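import Cfsg.Statements.S3858
import Cfsg.Agent.S3859

set_option autoImplicit false
open Cfsg

namespace Cfsg.Agent.S3858

open Subgroup

/-- Let G be a finite group with a normal non-abelian simple subgroup T whose centralizer is trivial (G almost simple with socle T), r a prime and R a Sylow r-subgroup of G meeting T nontrivially. Then R lies in exactly one maximal subgroup of G if and only if G has exactly one conjugacy class of maximal subgroups whose index is prime to r. -/
theorem result {G : Type*} [Group G] [Finite G] (T : Subgroup G) [T.Normal] (hT : IsSimpleGroup T) (hna : ¬ IsMulCommutative T)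
    (hC : Subgroup.centralizer (T : Set G) = ⊥) {r : ℕ} [Fact r.Prime] (R : Sylow r G) (hR0 : (R : Subgroup G) ⊓ T ≠ ⊥) :
    (∃! M : Subgroup G, IsCoatom M ∧ (R : Subgroup G) ≤ M) ↔
      ((∃ M : Subgroup G, IsCoatom M ∧ ¬ r ∣ M.index) ∧
        ∀ M₁ M₂ : Subgroup G, IsCoatom M₁ → ¬ r ∣ M₁.index → IsCoatom M₂ → ¬ r ∣ M₂.index → ∃ g : G, M₂ = M₁.map (MulAut.conj g).toMonoidHom) := by
  constructor
  · rintro ⟨M, ⟨hM, hRM⟩, hu⟩
    refine ⟨⟨M, hM, H80.not_dvd_index_of_sylow_le R hRM⟩, fun M₁ M₂ h1 h2 h3 h4 => ?_⟩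
    obtain ⟨g, hg⟩ := H80.exists_conj_sylow_le R h2
    obtain ⟨k, hk⟩ := H80.exists_conj_sylow_le R h4
    have e1 := hu _ ⟨H80.isCoatom_map_conj h1 g, hg⟩
    have e2 := hu _ ⟨H80.isCoatom_map_conj h3 k, hk⟩
    refine ⟨k⁻¹ * g, ?_⟩
    rw [← H4.map_conj_map_conj, e1, ← e2, H4.map_conj_map_conj, inv_mul_cancel, H4.map_conj_one]
  · rintro ⟨-, hconj⟩
    have h1 : normalizer ((R : Subgroup G) : Set G) ≠ ⊤ := fun h =>
      S3859.normalizer_ne_top T hT hna R hR0 (top_le_iff.1 (h ▸ S3859.normalizer_le T R))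
    obtain ⟨M, hM, hNM⟩ := (eq_top_or_exists_le_coatom _).resolve_left h1
    have hRM : (R : Subgroup G) ≤ M := le_normalizer.trans hNM
    refine ⟨M, ⟨hM, hRM⟩, ?_⟩
    rintro M' ⟨hM', hRM'⟩
    obtain ⟨g, rfl⟩ := hconj M M' hM (H80.not_dvd_index_of_sylow_le R hRM) hM'
      (H80.not_dvd_index_of_sylow_le R hRM')
    have h2 : (R : Subgroup G).map (MulAut.conj g⁻¹).toMonoidHom ≤ M := by
      have := map_mono (f := (MulAut.conj g⁻¹).toMonoidHom) hRM'
      rwa [H4.map_conj_map_conj, inv_mul_cancel, H4.map_conj_one] at this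
    obtain ⟨m, hm, hm2⟩ := (H4.IsSylowIn.of_sylow_le R hRM).exists_conj (R.isPGroup'.map _) h2
    have h3 : m * g⁻¹ ∈ normalizer ((R : Subgroup G) : Set G) := by
      apply H4.mem_normalizer_of_conj_mem
      intro x hx
      have := hm2 _ (H4.conj_mem_map_conj g⁻¹ hx)
      simpa [mul_assoc] using this
    have h4 : g ∈ M := by
      have := (mul_mem_cancel_left hm).1 (hNM h3)
      exact inv_mem_iff.1 this
    exact H4.map_conj_eq_iff.2 (le_normalizer h4)

end Cfsg.Agent.S3858
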