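import Cfsg.Statements.S3864
import Cfsg.Agent.H80.Misc
import Cfsg.Agent.H43.Dih
import Cfsg.Agent.S0111
import Cfsg.Agent.H3.Frobenius
import Cfsg.Agent.H3.Fusion
import Cfsg.Agent.H42.Fusion
import Cfsg.Agent.H42.Isolated

set_option autoImplicit false
open Cfsg

namespace Cfsg.Agent.S3864

open Subgroup H42 H43

theorem card_congr' {G : Type*} [Group G] :
    Nat.card {C : ConjClasses G // ∃ g : G, ConjClasses.mk g = C ∧ orderOf g = 2} =
      Nat.card {C : ConjClasses G // ∃ t : G, orderOf t = 2 ∧ ConjClasses.mk t = C} :=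
  Nat.card_congr (Equiv.subtypeEquivRight fun _ => exists_congr fun _ => and_comm)

theorem orderOf_two {G : Type*} [Group G] {z : G} (h : z * z = 1) (h1 : z ≠ 1) : orderOf z = 2 :=
  orderOf_eq_prime (by rw [sq, h]) h1

theorem out_conj {G : Type*} [Group G] {S : Subgroup G} {x y t : G} (h : Dih S x y) (ht : t ∈ S)
    (htA : t ∉ zpowers x) : IsConj t y ∨ IsConj t (x * y) := by
  obtain ⟨i, rfl⟩ := h.form ht htA
  rcases Int.even_or_odd' i with ⟨k, rfl | rfl⟩
  · left
    refine (isConj_iff.2 ⟨x ^ k, ?_⟩).symm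
    rw [h.conj_out h.hy h.y_notMem (zpow_mem (mem_zpowers x) k), two_mul, zpow_add]
  · right
    refine (isConj_iff.2 ⟨x ^ k, ?_⟩).symm
    rw [h.conj_out (mul_mem h.hx h.hy) (h.mul_y_notMem (mem_zpowers x)) (zpow_mem (mem_zpowers x) k),
      two_mul, zpow_add, zpow_add, zpow_one, mul_assoc, mul_assoc, mul_assoc]

theorem case_two {G : Type*} [Group G] [Finite G] (P : Sylow 2 G) {x y u z : G} (h : Dih (P : Subgroup G) x y)
    (hz : z ∈ zpowers (x ^ 2)) (hzz : z * z = 1) (hz1 : z ≠ 1) (hu : u ∈ (P : Subgroup G)) (huA : u ∉ zpowers x)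
    (hzy : IsConj z y) (hzu : ¬ IsConj z u)
    (hall : ∀ t : G, orderOf t = 2 → IsConj t z ∨ IsConj t y ∨ IsConj t u) :
    Nat.card {C : ConjClasses G // ∃ g : G, ConjClasses.mk g = C ∧ orderOf g = 2} = 2 ∧
      (∃ N : Subgroup G, N.Normal ∧ N.index = 2) ∧ ∀ N : Subgroup G, N.Normal → N.index ≠ 4 := by
  have hu2 : orderOf u = 2 := orderOf_two (h.out_sq hu huA) (fun e => huA (e ▸ one_mem _))
  have hzx : z ∈ zpowers x := zpowers_le.2 (pow_mem (mem_zpowers x) 2) hz
  refine ⟨?_, ?_, ?_⟩
  · rw [card_congr']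
    refine card_classes_eq_two (orderOf_two hzz hz1) hu2 hzu fun t ht => ?_
    rcases hall t ht with h1 | h1 | h1
    · exact Or.inl h1
    · exact Or.inl (h1.trans hzy.symm)
    · exact Or.inr h1
  · rcases S0111.result P (zpowers x) h.A_le h.relIndex u hu2 hu huA with ⟨M, h1, h2, -⟩ | ⟨g, hg⟩
    · exact ⟨M, h1, h2⟩
    · exfalso
      apply hzu
      have := eq_of_inv_of_mem_zpowers hg hzx (conj_mul_self (h.out_sq hu huA) g) hzz
        (by rw [Ne, conj_eq_one_iff]; exact fun e => huA (e ▸ one_mem _)) hz1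
      exact (isConj_iff.2 ⟨g, this⟩).symm
  · intro N hN h4
    have hc : IsMulCommutative (G ⧸ N) := IsPGroup.isMulCommutative_of_card_eq_prime_sq (p := 2) h4
    have hx2 : x ^ 2 ∈ N := by
      rw [← QuotientGroup.eq_one_iff]
      have := congrArg (QuotientGroup.mk (s := N)) h.rel
      simp only [QuotientGroup.mk_mul, QuotientGroup.mk_inv] at this
      rw [hc.is_comm.comm (y : G ⧸ N), mul_inv_cancel_right] at this
      rw [QuotientGroup.mk_pow, sq]
      nth_rewrite 1 [this]; simp
    have hyN : y ∈ N := by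
      obtain ⟨g, rfl⟩ := isConj_iff.1 hzy
      exact hN.conj_mem _ (zpowers_le.2 hx2 hz) g
    have h5 : (P : Subgroup G) ≤ (zpowers (x : G ⧸ N)).comap (QuotientGroup.mk' N) :=
      h.le_of_mem (mem_zpowers _) h.hy h.y_notMem (by
        change (y : G ⧸ N) ∈ zpowers (x : G ⧸ N)
        rw [(QuotientGroup.eq_one_iff y).2 hyN]; exact one_mem _)
    have h6 := H80.not_dvd_index_of_sylow_le P h5
    rw [index_comap_of_surjective _ (QuotientGroup.mk'_surjective N)] at h6
    have h7 := (zpowers (x : G ⧸ N)).card_mul_index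
    have h8 : orderOf (x : G ⧸ N) ∣ 2 := by
      rw [orderOf_dvd_iff_pow_eq_one, ← QuotientGroup.mk_pow]
      exact (QuotientGroup.eq_one_iff _).2 hx2
    rw [Nat.card_zpowers, show Nat.card (G ⧸ N) = 4 from h4] at h7
    rcases (Nat.dvd_prime Nat.prime_two).1 h8 with h9 | h9 <;> rw [h9] at h7 <;> omega

/-- Let G be a finite group whose Sylow 2-subgroups are dihedral of order 2 ^ n with n ≥ 3, and count the conjugacy classes of involutions of G. Then exactly one of the following holds: there is one class of involutions and no normal subgroup of index 2; there are two classes of involutions, a normal subgroup of index 2 and none of index 4; there are three classes of involutions and G has a normal 2-complement. -/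
theorem result {G : Type*} [Group G] [Finite G] (P : Sylow 2 G) (n : ℕ) (hn : 3 ≤ n) (hdih : Nonempty (↥(P : Subgroup G) ≃* DihedralGroup (2 ^ (n - 1)))) : (Nat.card {C : ConjClasses G // ∃ g : G, ConjClasses.mk g = C ∧ orderOf g = 2} = 1 ∧ ∀ N : Subgroup G, N.Normal → N.index ≠ 2) ∨ (Nat.card {C : ConjClasses G // ∃ g : G, ConjClasses.mk g = C ∧ orderOf g = 2} = 2 ∧ (∃ N : Subgroup G, N.Normal ∧ N.index = 2) ∧ ∀ N : Subgroup G, N.Normal → N.index ≠ 4) ∨ (Nat.card {C : ConjClasses G // ∃ g : G, ConjClasses.mk g = C ∧ orderOf g = 2} = 3 ∧ Cfsg.HasNormalPComplement 2 G) := by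
  obtain ⟨e⟩ := hdih
  obtain ⟨x, y, h, hx⟩ := Dih.of_equiv e
  obtain ⟨m, rfl⟩ : ∃ m, n = m + 3 := ⟨n - 3, by omega⟩
  have hx' : orderOf x = 2 ^ (m + 1) * 2 := by rw [hx, ← pow_succ]; rfl
  set z := x ^ 2 ^ (m + 1) with hzdef
  have hz2 : orderOf z = 2 := orderOf_pow_of_eq_mul (by positivity) hx'
  have hzz : z * z = 1 := mul_self_of_orderOf_two hz2
  have hz1 : z ≠ 1 := by
    intro e; rw [e, orderOf_one] at hz2; exact absurd hz2 (by norm_num)
  have hz : z ∈ zpowers (x ^ 2) := by
    rw [hzdef, pow_succ' 2, pow_mul]; exact pow_mem (mem_zpowers _) _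
  have hzx : z ∈ zpowers x := pow_mem (mem_zpowers _) _
  have hxy : x * y ∈ (P : Subgroup G) := mul_mem h.hx h.hy
  have hxyA : x * y ∉ zpowers x := h.mul_y_notMem (mem_zpowers x)
  have hall : ∀ t : G, orderOf t = 2 → IsConj t z ∨ IsConj t y ∨ IsConj t (x * y) := by
    intro t ht
    obtain ⟨s, hs, hts, hso⟩ := exists_isConj_mem_sylow P (k := 1) (ht.trans (pow_one 2).symm)
    rw [ht] at hso
    by_cases hsA : s ∈ zpowers x
    · left
      rwa [eq_of_inv_of_mem_zpowers hsA hzx (mul_self_of_orderOf_two hso) hzz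
        (by intro e; rw [e, orderOf_one] at hso; exact absurd hso (by norm_num)) hz1] at hts
    · right
      exact (out_conj h hs hsA).imp hts.trans hts.trans
  by_cases h1 : IsConj z y
  · by_cases h2 : IsConj z (x * y)
    · left
      refine ⟨?_, fun N hN h3 => ?_⟩
      · rw [card_congr']
        refine card_classes_eq_one hz2 fun t ht => ?_
        rcases hall t ht with h3 | h3 | h3
        · exact h3
        · exact h3.trans h1.symm
        · exact h3.trans h2.symm
      · have hzN : z ∈ N := zpowers_le.2 (sq_mem_of_index_two h3 x) hz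
        have hc : ∀ t, IsConj z t → t ∈ N := by
          intro t ht
          obtain ⟨g, rfl⟩ := isConj_iff.1 ht
          exact hN.conj_mem _ hzN g
        have hxN : x ∈ N := (mul_mem_cancel_right (hc _ h1)).1 (hc _ h2)
        exact H80.not_dvd_index_of_sylow_le P (h.le_of_mem hxN h.hy h.y_notMem (hc _ h1)) h3.symm.dvd
    · exact Or.inr (Or.inl (case_two P h hz hzz hz1 hxy hxyA h1 h2 hall))
  · by_cases h2 : IsConj z (x * y)
    · have h' : Dih (P : Subgroup G) x (x * y) :=
        { hx := h.hx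
          hy := hxy
          yy := h.out_sq hxy hxyA
          rel := h.inverts hxy hxyA (mem_zpowers x)
          y_notMem := hxyA
          gen := le_antisymm (h.le_of_mem (mem_sup_left (mem_zpowers x)) hxy hxyA
            (mem_sup_right (mem_zpowers _))) (sup_le h.A_le (zpowers_le.2 hxy)) }
      exact Or.inr (Or.inl (case_two P h' hz hzz hz1 h.hy h.y_notMem h2 h1
        (fun t ht => (hall t ht).imp_right Or.symm)))
    · right; right
      have hG : Cfsg.HasNormalPComplement 2 G := by
        rw [H3.hasNormalPComplement_iff_frobenius_sylow P]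
        intro Q hQ g hg ho
        by_cases hK : IsKleinFour Q
        · by_contra hc
          obtain ⟨t, ht, htA, -⟩ := h.klein hK hQ
          have := klein_isConj_of_odd hK hg (Nat.coprime_two_right.1 ho) hc (h.klein_mem hK hQ hzx hzz) ht hz1
            (fun e => htA (e ▸ one_mem _))
          rcases out_conj h (hQ ht) htA with h3 | h3
          · exact h1 (this.trans h3)
          · exact h2 (this.trans h3)
        · exact mem_centralizer_iff.2 fun a ha =>
            (h.comm_of_odd P.2 hQ hK hg (Nat.coprime_two_right.1 ho) ha).symm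
      refine ⟨?_, hG⟩
      rw [card_congr']
      refine card_classes_eq_three hz2 (orderOf_two h.yy fun e => h.y_notMem (e ▸ one_mem _))
        (orderOf_two (h.out_sq hxy hxyA) fun e => hxyA (e ▸ one_mem _)) h1 h2 ?_ hall
      intro h3
      obtain ⟨g, hg⟩ := isConj_iff.1 h3
      obtain ⟨v, hv, hv2⟩ := (H3.hasNormalPComplement_iff_sylow_controls_fusion P).1 hG y h.hy g (hg ▸ hxy)
      rw [hg] at hv2
      apply h.x_notMem_sq P.2 (by intro e; rw [e, one_pow] at hzdef; exact hz1 hzdef)
      have key : ∀ a ∈ zpowers x, a * y * a⁻¹ = x * y → x ∈ zpowers (x ^ 2) := by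
        intro a ha e
        rw [h.conj_out h.hy h.y_notMem ha, mul_left_inj] at e
        obtain ⟨k, rfl⟩ := ha
        exact ⟨k, by simp only at e ⊢; nth_rewrite 2 [← e]; group⟩
      by_cases hvA : v ∈ zpowers x
      · exact key v hvA hv2
      · obtain ⟨i, rfl⟩ := h.form hv hvA
        exact key (x ^ i) (zpow_mem (mem_zpowers x) i) (by rw [← hv2]; group)

end Cfsg.Agent.S3864
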