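import Cfsg.Statements.S3866
import Cfsg.Agent.H80.Misc

set_option autoImplicit false
open Cfsg

namespace Cfsg.Agent.S3866

open Subgroup
open scoped commutatorElement

/-- Let A be a commutative normal subgroup of the finite group G with G generated by A and an element x. Then a ↦ x a x⁻¹ a⁻¹ is a surjective homomorphism from A onto the commutator subgroup of G whose kernel is the centralizer of x in A; in particular the commutator subgroup has order equal to the index in A of that centralizer. -/
theorem result {G : Type*} [Group G] [Finite G] (A : Subgroup G) [A.Normal] (hA : IsMulCommutative A) (x : G) (hgen : A ⊔ Subgroup.zpowers x = ⊤) : (∀ a ∈ A, x * a * x⁻¹ * a⁻¹ ∈ commutator G) ∧ (∀ c ∈ commutator G, ∃ a ∈ A, x * a * x⁻¹ * a⁻¹ = c) ∧ (∀ a ∈ A, ∀ b ∈ A, x * (a * b) * x⁻¹ * (a * b)⁻¹ = (x * a * x⁻¹ * a⁻¹) * (x * b * x⁻¹ * b⁻¹)) ∧ Nat.card (commutator G) * Nat.card ↥(A ⊓ Subgroup.centralizer ({x} : Set G)) = Nat.card A := by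
  have hc : ∀ a ∈ A, ∀ b ∈ A, a * b = b * a := fun a ha b hb =>
    congrArg Subtype.val (hA.is_comm.comm (⟨a, ha⟩ : A) ⟨b, hb⟩)
  have hmem : ∀ (g : G), ∀ a ∈ A, g * a * g⁻¹ ∈ A := fun g a ha => Normal.conj_mem inferInstance a ha g
  have hmul : ∀ a ∈ A, ∀ b ∈ A, x * (a * b) * x⁻¹ * (a * b)⁻¹ = (x * a * x⁻¹ * a⁻¹) * (x * b * x⁻¹ * b⁻¹) := by
    intro a ha b hb
    have h1 := hc _ (inv_mem ha) _ (mul_mem (hmem x b hb) (inv_mem hb))
    calc x * (a * b) * x⁻¹ * (a * b)⁻¹ = (x * a * x⁻¹) * ((x * b * x⁻¹ * b⁻¹) * a⁻¹) := by group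
      _ = _ := by rw [← h1]; group
  let θ : A →* G :=
    { toFun := fun a => x * a * x⁻¹ * (a : G)⁻¹
      map_one' := by simp
      map_mul' := fun a b => hmul a a.2 b b.2 }
  have hθ : ∀ a : A, θ a = x * a * x⁻¹ * (a : G)⁻¹ := fun _ => rfl
  have hrA : θ.range ≤ A := by
    rintro _ ⟨a, rfl⟩
    exact mul_mem (hmem x a a.2) (inv_mem a.2)
  have hn : θ.range.Normal := by
    rw [← normalizer_eq_top_iff, eq_top_iff, ← hgen, sup_le_iff]
    constructor
    · intro a ha
      rw [mem_normalizer_iff]
      intro y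
      constructor
      · intro hy
        rwa [hc a ha y (hrA hy), mul_inv_cancel_right]
      · intro hy
        have h1 : y ∈ A := by
          have := hmem a⁻¹ _ (hrA hy)
          simpa [mul_assoc] using this
        rwa [hc a ha y h1, mul_inv_cancel_right] at hy
    · rw [zpowers_le]
      apply mem_normalizer_fintype
      rintro _ ⟨a, rfl⟩
      exact ⟨⟨x * a * x⁻¹, hmem x a a.2⟩, by rw [hθ, hθ]; simp only; group⟩
  have hle : θ.range ≤ commutator G := by
    rintro _ ⟨a, rfl⟩
    exact commutator_mem_commutator (mem_top x) (mem_top (a : G))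
  have hge : commutator G ≤ θ.range := by
    let π := QuotientGroup.mk' θ.range
    have h1 : ∀ a ∈ A, π a ∈ center (G ⧸ θ.range) := by
      intro a ha
      rw [mem_center_iff]
      intro y
      obtain ⟨y, rfl⟩ := QuotientGroup.mk'_surjective _ y
      have : (⊤ : Subgroup G) ≤ (centralizer {π a}).comap π := by
        rw [← hgen, sup_le_iff]
        constructor
        · intro b hb
          rw [mem_comap, mem_centralizer_singleton_iff, ← map_mul, ← map_mul, hc b hb a ha]
        · rw [zpowers_le, mem_comap, mem_centralizer_singleton_iff, ← map_mul, ← map_mul,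
            ← mul_inv_eq_one, ← map_inv, ← map_mul]
          exact (QuotientGroup.eq_one_iff _).2 ⟨⟨a, ha⟩, by rw [hθ]; simp only; group⟩
      exact mem_centralizer_singleton_iff.1 (this (mem_top y))
    have h2 : π x ∈ center (G ⧸ θ.range) := by
      rw [mem_center_iff]
      intro y
      obtain ⟨y, rfl⟩ := QuotientGroup.mk'_surjective _ y
      have : (⊤ : Subgroup G) ≤ (centralizer {π x}).comap π := by
        rw [← hgen, sup_le_iff]
        constructor
        · intro b hb
          rw [mem_comap, mem_centralizer_singleton_iff]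
          exact (mem_center_iff.1 (h1 b hb) _).symm
        · rw [zpowers_le, mem_comap, mem_centralizer_singleton_iff]
      exact mem_centralizer_singleton_iff.1 (this (mem_top y))
    have h3 : (⊤ : Subgroup G) ≤ (center (G ⧸ θ.range)).comap π := by
      rw [← hgen, sup_le_iff]
      exact ⟨h1, zpowers_le.2 h2⟩
    rw [commutator_def, commutator_le]
    intro g _ h _
    rw [← QuotientGroup.eq_one_iff]
    change π _ = 1
    rw [map_commutatorElement, commutatorElement_eq_one_iff_mul_comm]
    exact mem_center_iff.1 (h3 (mem_top h)) _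
  refine ⟨fun a ha => hle ⟨⟨a, ha⟩, rfl⟩, fun c hc => ?_, hmul, ?_⟩
  · obtain ⟨a, ha⟩ := hge hc
    exact ⟨a, a.2, ha⟩
  · rw [← le_antisymm hle hge, ← index_ker, ← card_mul_index θ.ker, mul_comm]
    congr 1
    have : θ.ker = (A ⊓ centralizer ({x} : Set G)).subgroupOf A := by
      ext a
      rw [MonoidHom.mem_ker, hθ, mem_subgroupOf, mem_inf, mem_centralizer_singleton_iff,
        mul_inv_eq_one, mul_inv_eq_iff_eq_mul]
      simp [eq_comm]
    rw [this]
    exact (Nat.card_congr (subgroupOfEquivOfLe inf_le_left).toEquiv).symm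

end Cfsg.Agent.S3866
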