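import Cfsg.Statements.S3867
import Cfsg.Agent.H80.Misc
import Cfsg.Agent.H2.Basic

set_option autoImplicit false
open Cfsg

namespace Cfsg.Agent.S3867

open Subgroup

theorem card_sylow_quot {G : Type*} [Group G] [Finite G] {p : ℕ} [Fact p.Prime] (P : Sylow p G)
    (M : Subgroup G) [M.Normal] :
    Nat.card (Sylow p (G ⧸ M)) = (normalizer ((P : Subgroup G) : Set G) ⊔ M).index := by
  let π := QuotientGroup.mk' M
  have hπ := QuotientGroup.mk'_surjective M
  have h0 : Nat.card (Sylow p (G ⧸ M)) = (normalizer ((P : Subgroup G).map π : Set (G ⧸ M))).index :=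
    (P.mapSurjective hπ).card_eq_index_normalizer
  rw [h0, ← index_comap_of_surjective _ hπ, comap_normalizer_eq_of_surjective _ hπ, comap_map_eq,
    QuotientGroup.ker_mk']
  congr 1
  apply le_antisymm
  · intro g hg
    obtain ⟨n, hn, hng⟩ := (H4.IsSylowIn.of_sylow_le P (K := (P : Subgroup G) ⊔ M) le_sup_left).frattini hg
    have h1 : (P : Subgroup G) ⊔ M ≤ normalizer ((P : Subgroup G) : Set G) ⊔ M :=
      sup_le_sup_right le_normalizer _
    exact (mul_mem_cancel_left (h1 hn)).1 (mem_sup_left hng)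
  · refine sup_le ?_ (le_sup_right.trans le_normalizer)
    refine le_trans ?_ (normalizer_inf_normalizer_le_normalizer_sup _ _)
    rw [normalizer_eq_top M, inf_top_eq]

theorem card_inf_sup {G : Type*} [Group G] [Finite G] (H M N : Subgroup G) [M.Normal] [N.Normal]
    (hMN : M ⊓ N = ⊥) (h : ∀ m ∈ M, ∀ n ∈ N, m * n ∈ H → m ∈ H) :
    Nat.card ↥(H ⊓ (M ⊔ N)) = Nat.card ↥(H ⊓ M) * Nat.card ↥(H ⊓ N) := by
  rw [← Nat.card_prod]
  symm
  refine Nat.card_congr (Equiv.ofBijective (fun x => ⟨x.1 * x.2, mul_mem x.1.2.1 x.2.2.1,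
    mul_mem_sup x.1.2.2 x.2.2.2⟩) ⟨?_, ?_⟩)
  · rintro ⟨⟨a, ha⟩, ⟨b, hb⟩⟩ ⟨⟨c, hc⟩, ⟨d, hd⟩⟩ e
    have e1 : a * b = c * d := congrArg Subtype.val e
    have e2 : c⁻¹ * a = d * b⁻¹ := by rw [inv_mul_eq_iff_eq_mul, ← mul_assoc, ← e1]; simp
    have e3 : c⁻¹ * a ∈ M ⊓ N := mem_inf.2 ⟨M.mul_mem (M.inv_mem hc.2) ha.2, e2 ▸ N.mul_mem hd.2 (N.inv_mem hb.2)⟩
    rw [hMN, mem_bot, inv_mul_eq_one] at e3
    subst e3
    rw [mul_right_inj] at e1
    subst e1
    rfl
  · rintro ⟨x, hx, hx2⟩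
    obtain ⟨m, hm, n, hn, rfl⟩ := mem_sup_of_normal_right.1 hx2
    have h1 := h m hm n hn hx
    exact ⟨(⟨m, h1, hm⟩, ⟨n, (mul_mem_cancel_left h1).1 hx, hn⟩), rfl⟩

/-- Let M and N be nontrivial normal subgroups of the finite group G with M ⊓ N trivial, and let p be a prime. Writing n(X) for the number of Sylow p-subgroups of a group X, one has n(G) · n(G/MN) = n(G/M) · n(G/N). -/
theorem result {G : Type*} [Group G] [Finite G] (p : ℕ) [Fact p.Prime] (M N : Subgroup G) [M.Normal] [N.Normal] (hM : M ≠ ⊥) (hN : N ≠ ⊥) (hMN : M ⊓ N = ⊥) : Nat.card (Sylow p G) * Nat.card (Sylow p (G ⧸ (M ⊔ N))) = Nat.card (Sylow p (G ⧸ M)) * Nat.card (Sylow p (G ⧸ N)) := by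
  obtain ⟨P⟩ : Nonempty (Sylow p G) := inferInstance
  have hcomm : ∀ m ∈ M, ∀ n ∈ N, Commute m n := fun m hm n hn =>
    commute_of_normal_of_disjoint M N inferInstance inferInstance (disjoint_iff.2 hMN) m n hm hn
  have hP : ∀ (M N : Subgroup G) [M.Normal] [N.Normal], M ⊓ N = ⊥ → ∀ m ∈ M, ∀ n ∈ N,
      m * n ∈ (P : Subgroup G) → m ∈ (P : Subgroup G) := by
    intro M N _ _ hMN m hm n hn hx
    let π := QuotientGroup.mk' N
    have hS : H4.IsSylowIn p ((P : Subgroup G) ⊓ M) M :=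
      (H4.isSylowIn_top P).inf_of_normalizes le_top (by rw [normalizer_eq_top M])
    let Q : Subgroup G := ((P : Subgroup G).map π).comap π ⊓ M
    have hQ : IsPGroup p Q := by
      refine (P.isPGroup'.map π).of_injective
        ((π.comp Q.subtype).codRestrict _ (fun x => x.2.1)) ?_
      rw [injective_iff_map_eq_one]
      intro x hx
      have h1 : (x : G) ∈ N := (QuotientGroup.eq_one_iff _).1 (congrArg Subtype.val hx)
      have h2 : (x : G) ∈ M ⊓ N := ⟨x.2.2, h1⟩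
      rw [hMN] at h2
      exact Subtype.ext h2
    have h3 := hS.eq_of_le hQ inf_le_right (inf_le_inf_right _ (le_comap_map _ _))
    have h4 : m ∈ Q := ⟨⟨m * n, hx, by
      rw [map_mul, show π n = 1 from (QuotientGroup.eq_one_iff _).2 hn, mul_one]⟩, hm⟩
    rw [h3] at h4
    exact h4.1
  set H := normalizer ((P : Subgroup G) : Set G) with hH
  have h1 : ∀ m ∈ M, ∀ n ∈ N, m * n ∈ H → m ∈ H := by
    intro m hm n hn hx
    apply H4.mem_normalizer_of_conj_mem
    intro y hy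
    have e1 : y⁻¹ * (m * n * y * (m * n)⁻¹) ∈ (P : Subgroup G) :=
      mul_mem (inv_mem hy) ((mem_normalizer_iff.1 hx y).1 hy)
    have hm' : y⁻¹ * m * y * m⁻¹ ∈ M :=
      mul_mem (Normal.conj_mem' inferInstance _ hm y) (inv_mem hm)
    have hn' : y⁻¹ * n * y * n⁻¹ ∈ N :=
      mul_mem (Normal.conj_mem' inferInstance _ hn y) (inv_mem hn)
    have e2 : y⁻¹ * (m * n * y * (m * n)⁻¹) = (y⁻¹ * m * y * m⁻¹) * (y⁻¹ * n * y * n⁻¹) := by
      have := (hcomm _ (inv_mem hm) _ hn').eq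
      calc _ = (y⁻¹ * m * y) * ((y⁻¹ * n * y * n⁻¹) * m⁻¹) := by group
        _ = _ := by rw [← this]; group
    rw [e2] at e1
    have := mul_mem hy (hP M N hMN _ hm' _ hn' e1)
    simpa [mul_assoc] using this
  have h2 := card_inf_sup H M N hMN h1
  have h3 := H2.card_sup_mul_card_inf_of_normal M N
  rw [hMN, card_bot, mul_one] at h3
  rw [card_sylow_quot P, card_sylow_quot P, card_sylow_quot P, P.card_eq_index_normalizer, ← hH]
  have a1 := H.card_mul_index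
  have a2 := (H ⊔ M).card_mul_index
  have a3 := (H ⊔ N).card_mul_index
  have a4 := (H ⊔ (M ⊔ N)).card_mul_index
  have b2 := H2.card_sup_mul_card_inf_of_normal H M
  have b3 := H2.card_sup_mul_card_inf_of_normal H N
  have b4 := H2.card_sup_mul_card_inf_of_normal H (M ⊔ N)
  rw [h2, h3] at b4
  have c1 : Nat.card H * Nat.card ↥(H ⊔ (M ⊔ N)) = Nat.card ↥(H ⊔ M) * Nat.card ↥(H ⊔ N) := by
    apply Nat.eq_of_mul_eq_mul_right (Nat.mul_pos (Nat.card_pos (α := ↥(H ⊓ M))) (Nat.card_pos (α := ↥(H ⊓ N))))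
    rw [mul_assoc, b4, mul_mul_mul_comm, b2, b3]; ring
  apply Nat.eq_of_mul_eq_mul_left (Nat.mul_pos (Nat.card_pos (α := ↥(H ⊔ M))) (Nat.card_pos (α := ↥(H ⊔ N))))
  change _ * (H.index * _) = _
  rw [mul_mul_mul_comm _ _ (H ⊔ M).index, a2, a3, ← c1, mul_mul_mul_comm, a1, a4]

end Cfsg.Agent.S3867
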