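import Cfsg.Statements.S3878
import Cfsg.Agent.H36.Simple

set_option autoImplicit false
open Cfsg

namespace Cfsg.Agent.S3878

open Subgroup MulAction Equiv

theorem conj_mem {G : Type*} [Group G] [Finite G] {H : Subgroup G} {p : ℕ} (hp : p.Prime)
    (h : ¬ p ∣ H.index) {x : G} (hx : x ^ p = 1) : ∃ g : G, g * x * g⁻¹ ∈ H := by
  have := Fact.mk hp
  obtain ⟨a, ha⟩ := (H36.isPGroup_zpowers (k := 1) (by rwa [pow_one])).nonempty_fixed_point_of_prime_not_dvd_card
    (G ⧸ H) h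
  obtain ⟨g, rfl⟩ := QuotientGroup.mk_surjective a
  have h1 : ((x * g : G) : G ⧸ H) = g := ha ⟨x, mem_zpowers x⟩
  refine ⟨g⁻¹, ?_⟩
  simpa [mul_assoc] using QuotientGroup.eq.1 h1.symm

theorem exists_cycle {n s : ℕ} {H : Subgroup (Perm (Fin n))} (hs : s.Prime) (h : ¬ s ∣ H.index) (hn : s ≤ n) :
    ∃ g ∈ H, g.IsCycle ∧ g.support.card = s := by
  obtain ⟨c, hc⟩ := (Perm.exists_with_cycleType_iff (Fin n) (m := {s})).2 ⟨by simpa using hn, by simpa using hs.two_le⟩
  have h1 : c.IsCycle := Perm.card_cycleType_eq_one.1 (by simp [hc])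
  have h2 : c.support.card = s := by simpa [hc] using h1.cycleType.symm
  obtain ⟨g, hg⟩ := conj_mem hs h (x := c) (by rw [← h2, ← h1.orderOf, pow_orderOf_eq_one])
  exact ⟨_, hg, h1.conj, by rw [Perm.card_support_conj, h2]⟩

theorem prim {q : ℕ} {H : Subgroup (Perm (Fin q))} (hq : q.Prime) (h : ¬ q ∣ H.index) :
    IsPreprimitive H (Fin q) := by
  obtain ⟨g, hg, h1, h2⟩ := exists_cycle hq h le_rfl
  have h3 : g.support = Finset.univ := Finset.eq_univ_of_card _ (by simpa using h2)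
  have : IsPretransitive H (Fin q) := ⟨fun x y => by
    obtain ⟨i, hi⟩ := h1.sameCycle (Perm.mem_support.1 (h3 ▸ Finset.mem_univ x))
      (Perm.mem_support.1 (h3 ▸ Finset.mem_univ y))
    exact ⟨⟨g ^ i, zpow_mem hg i⟩, hi⟩⟩
  exact IsPreprimitive.of_prime_card (by simpa using hq)

theorem not_all {π : Set ℕ} (h : ∀ (G : Type) [Group G] [Finite G], IsEPiGroup π G) {p q r : ℕ}
    (hp : p.Prime) (hq : q.Prime) (hpq : p < q) (hpπ : p ∈ π) (hqπ : q ∈ π) (hr : r.Prime) : r ∈ π := by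
  classical
  have h2 : 2 ∈ π := by
    obtain ⟨H, h1, h2⟩ := h (Perm (Fin q))
    obtain ⟨g, hg, h3, h4⟩ := exists_cycle hp (h2 p hp hpπ) hpq.le
    have h5 := (prim hq (h2 q hq hqπ)).is_two_pretransitive (s := (g.support : Set (Fin q))ᶜ) (n := q - p - 1) (by
      have := Set.ncard_add_ncard_compl (g.support : Set (Fin q))
      rw [Set.ncard_coe_finset, h4, Nat.card_eq_fintype_card, Fintype.card_fin] at this
      omega) (by have := hp.two_le; simp; omega) (Perm.isPretransitive_of_isCycle_mem h3 hg)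
    obtain ⟨s, -, hs⟩ := Set.exists_subset_card_eq (s := (Set.univ : Set (Fin q))) (n := 2) (by
      simpa using hq.two_le)
    have h6 := IsMultiplyPretransitive.index_of_fixingSubgroup_eq s (hs ▸ h5)
    refine h1 2 Nat.prime_two (dvd_trans ?_ (fixingSubgroup H s).index_dvd_card)
    rw [h6, hs]
    exact Dvd.intro_left _ rfl
  have h3 : ∀ r q : ℕ, r.Prime → q.Prime → q ∈ π → r ≤ q → r ∈ π := fun r q hr hq hqπ hrq => by
    obtain ⟨H, h1, h3⟩ := h (Perm (Fin q))
    obtain ⟨g, hg, -, h4⟩ := exists_cycle Nat.prime_two (h3 2 Nat.prime_two h2) hq.two_le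
    rw [Perm.subgroup_eq_top_of_isPreprimitive_of_isSwap_mem (prim hq (h3 q hq hqπ)) g
      (Perm.card_support_eq_two.1 h4) hg] at h1
    exact h1 r hr (by simpa [Fintype.card_perm, hr.dvd_factorial] using hrq)
  by_contra hrπ
  have h4 : ∃ r : ℕ, r.Prime ∧ r ∉ π := ⟨r, hr, hrπ⟩
  obtain ⟨hr, hrπ⟩ := Nat.find_spec h4
  have h5 : ∀ s : ℕ, s.Prime → s ∉ π → Nat.find h4 ≤ s := fun s hs hs' => Nat.find_min' h4 ⟨hs, hs'⟩
  generalize Nat.find h4 = r at hr hrπ h5
  have h6 : 4 ≤ r := by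
    have := hp.two_le
    have : ¬ r ≤ q := fun e => hrπ (h3 r q hr hq hqπ e)
    omega
  have := alternatingGroup.isSimpleGroup (α := Fin (r + 1)) (by simp; omega)
  have : Nontrivial (Fin (r + 1)) := Fin.nontrivial_iff_two_le.2 (by omega)
  have h7 : 2 * Nat.card (alternatingGroup (Fin (r + 1))) = (r + 1).factorial := by
    rw [two_mul_nat_card_alternatingGroup]; simp [Fintype.card_perm]
  obtain ⟨H, h1, h8⟩ := h (alternatingGroup (Fin (r + 1)))
  have h9 : H.index ∣ (r + 1).factorial := h7 ▸ H.index_dvd_card.mul_left 2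
  have h10 : H ≠ ⊤ := by
    rintro rfl
    refine hrπ (h1 r hr ?_)
    rw [card_top]
    refine ((Nat.coprime_primes hr Nat.prime_two).2 (by omega)).dvd_of_dvd_mul_left ?_
    rw [h7, hr.dvd_factorial]; omega
  have h11 := Nat.eq_prime_pow_of_unique_prime_dvd (p := r) H.index_ne_zero_of_finite fun {s} hs hd => by
    have h12 := h5 s hs fun e => h8 s hs e hd
    have h13 := hs.dvd_factorial.1 (hd.trans h9)
    by_contra h14
    obtain rfl : s = r + 1 := by omega
    have := hs.eq_one_or_self_of_dvd 2 (hr.odd_of_ne_two (by omega)).add_one.two_dvd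
    omega
  generalize H.index.primeFactorsList.length = k at h11
  have h12 : H.index ≤ r := by
    rcases k with _ | _ | k
    · rw [h11]; simp; omega
    · rw [h11]; simp
    obtain ⟨m, rfl⟩ : ∃ m, r = m + 1 := ⟨r - 1, by omega⟩
    rw [h11, Nat.factorial_succ, Nat.factorial_succ, pow_succ, pow_succ, mul_left_comm, mul_comm _ (m + 1)] at h9
    rcases hr.dvd_mul.1 ((dvd_mul_left _ _).trans (Nat.dvd_of_mul_dvd_mul_left hr.pos h9)) with e | e
    · have := Nat.le_of_dvd one_pos ((Nat.dvd_add_right dvd_rfl).1 e); omega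
    · have := hr.dvd_factorial.1 e; omega
  have h13 := Nat.le_of_dvd r.factorial_pos
    ((H36.card_dvd_factorial_index h10).trans (Nat.factorial_dvd_factorial h12))
  rw [Nat.factorial_succ] at h7
  have := r.factorial_pos
  nlinarith

theorem E_of_D {π : Set ℕ} {G : Type*} [Group G] [Finite G] (h : IsDPiGroup π G) : IsEPiGroup π G := by
  obtain ⟨H, -, hH⟩ := Finite.exists_le_maximal (p := IsPiSubgroup π) (a := (⊥ : Subgroup G))
    (fun p hp hd => absurd (by simpa using hd) hp.one_lt.ne')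
  refine ⟨H, hH.1, fun p hp hpπ hd => ?_⟩
  have := Fact.mk hp
  obtain ⟨P⟩ : Nonempty (Sylow p G) := inferInstance
  obtain ⟨K, hPK, hK⟩ := Finite.exists_le_maximal (p := IsPiSubgroup π) (a := (P : Subgroup G)) (fun q hq hd => by
    obtain ⟨k, hk⟩ := P.2.exists_card_eq
    rwa [(Nat.prime_dvd_prime_iff_eq hq hp).1 (hq.dvd_of_dvd_pow (hk ▸ hd))])
  obtain ⟨g, rfl⟩ := h H K hH hK
  refine P.not_dvd_index (dvd_trans ?_ (index_dvd_of_le hPK))
  rwa [index_map_of_bijective (MulAut.conj g).bijective]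

theorem D_of {π : Set ℕ} (h : (∀ p q : ℕ, p.Prime → q.Prime → p ∈ π → q ∈ π → p = q) ∨ ∀ p : ℕ, p.Prime → p ∈ π)
    (G : Type*) [Group G] [Finite G] : IsDPiGroup π G := by
  intro H K hH hK
  rcases h with h | h
  · obtain ⟨p, hp, h1⟩ : ∃ p : ℕ, p.Prime ∧ ∀ q : ℕ, q.Prime → q ∈ π → q = p := by
      by_cases h0 : ∃ p : ℕ, p.Prime ∧ p ∈ π
      · obtain ⟨p, hp, hpπ⟩ := h0
        exact ⟨p, hp, fun q hq hqπ => h q p hq hp hqπ hpπ⟩
      · exact ⟨2, Nat.prime_two, fun q hq hqπ => absurd ⟨q, hq, hqπ⟩ h0⟩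
    have := Fact.mk hp
    have h2 : ∀ L : Subgroup G, IsPiSubgroup π L → IsPGroup p L := fun L hL => IsPGroup.of_card
      (Nat.eq_prime_pow_of_unique_prime_dvd Nat.card_pos.ne' fun {q} hq hd => h1 q hq (hL q hq hd))
    by_cases hpπ : p ∈ π
    · have h3 : ∀ L : Subgroup G, Maximal (IsPiSubgroup π) L → ∃ P : Sylow p G, L = P := fun L hL => by
        obtain ⟨P, hP⟩ := (h2 L hL.1).exists_le_sylow
        refine ⟨P, hL.eq_of_le (fun q hq hd => ?_) hP⟩
        obtain ⟨k, hk⟩ := P.2.exists_card_eq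
        rwa [(Nat.prime_dvd_prime_iff_eq hq hp).1 (hq.dvd_of_dvd_pow (hk ▸ hd))]
      obtain ⟨P, rfl⟩ := h3 H hH
      obtain ⟨Q, rfl⟩ := h3 K hK
      obtain ⟨g, rfl⟩ := exists_smul_eq G P Q
      exact ⟨g, rfl⟩
    · have h3 : ∀ L : Subgroup G, IsPiSubgroup π L → L = ⊥ := fun L hL => by
        rw [← card_eq_one]
        by_contra e
        obtain ⟨q, hq, hd⟩ := Nat.exists_prime_and_dvd e
        exact hpπ (h1 q hq (hL q hq hd) ▸ hL q hq hd)
      exact ⟨1, by rw [h3 H hH.1, h3 K hK.1, Subgroup.map_bot]⟩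
  · refine ⟨1, ?_⟩
    rw [hH.eq_of_le (fun p hp _ => h p hp) le_top, hK.eq_of_le (fun p hp _ => h p hp) le_top,
      map_top_of_surjective _ (MulAut.conj (1 : G)).surjective]

/-- For a set of primes π the following are equivalent: every finite group has a Hall π-subgroup; in every finite group the maximal π-subgroups are pairwise conjugate; π contains at most one prime or contains every prime. -/
theorem result (π : Set ℕ) :
    ((∀ (G : Type) [Group G] [Finite G], Cfsg.IsEPiGroup π G) ↔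
      ((∀ p q : ℕ, p.Prime → q.Prime → p ∈ π → q ∈ π → p = q) ∨ ∀ p : ℕ, p.Prime → p ∈ π)) ∧
    ((∀ (G : Type) [Group G] [Finite G], Cfsg.IsDPiGroup π G) ↔
      ((∀ p q : ℕ, p.Prime → q.Prime → p ∈ π → q ∈ π → p = q) ∨ ∀ p : ℕ, p.Prime → p ∈ π)) := by
  have h1 : (∀ (G : Type) [Group G] [Finite G], IsEPiGroup π G) →
      ((∀ p q : ℕ, p.Prime → q.Prime → p ∈ π → q ∈ π → p = q) ∨ ∀ p : ℕ, p.Prime → p ∈ π) := fun h => by
    refine or_iff_not_imp_left.2 fun h1 r hr => ?_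
    push Not at h1
    obtain ⟨p, q, hp, hq, hpπ, hqπ, hpq⟩ := h1
    rcases lt_or_gt_of_ne hpq with e | e
    · exact not_all h hp hq e hpπ hqπ hr
    · exact not_all h hq hp e hqπ hpπ hr
  exact ⟨⟨h1, fun h G _ _ => E_of_D (D_of h G)⟩, fun h => h1 fun G _ _ => E_of_D (h G), fun h G _ _ => D_of h G⟩

end Cfsg.Agent.S3878
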