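import Cfsg.Statements.S3881
import Cfsg.Agent.H80.MCSub

set_option autoImplicit false
open Cfsg

namespace Cfsg.Agent.S3881


/-- Let p be an odd prime and G a finite metacyclic p-group (G has a cyclic normal subgroup with cyclic quotient). Suppose G is non-abelian with |G'| = p^n. Then for 1 ≤ i ≤ n the number of elements of G whose conjugacy class has exactly p^i elements is |Z(G)| · (p^(2i) − p^(2i−2)). -/
theorem result {G : Type*} [Group G] [Finite G] {p : ℕ} [Fact p.Prime] (hp : p ≠ 2) (hG : IsPGroup p G) (hmc : Cfsg.IsMetacyclic G) (n : ℕ) (hn : n ≠ 0) (hGn : Nat.card ↥(commutator G) = p ^ n) (i : ℕ) (hi : 1 ≤ i) (hin : i ≤ n) :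
    Nat.card {g : G // (Subgroup.centralizer ({g} : Set G)).index = p ^ i} =
      Nat.card ↥(Subgroup.center G) * (p ^ (2 * i) - p ^ (2 * i - 2)) := by
  obtain ⟨M⟩ := H80.exists_MC hG hmc
  have hpp : p.Prime := Fact.out
  have hq : orderOf M.c = p ^ n := by rw [← M.card_commutator, hGn]
  have : NeZero (p ^ n) := ⟨pow_ne_zero _ hpp.ne_zero⟩
  simp only [M.index_centralizer hp hq]
  have h1 := M.card_preimage hp hq {v | addOrderOf v = p ^ i}
  refine h1.trans ?_
  congr 1
  obtain ⟨k, rfl⟩ : ∃ k, i = k + 1 := ⟨i - 1, by omega⟩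
  have h2 := H80.card_nsmul_eq_zero hpp hin
  have h3 := H80.card_nsmul_eq_zero hpp (show k ≤ n by omega)
  have h4 : ({v | addOrderOf v = p ^ (k + 1)} : Set (ZMod (p ^ n) × ZMod (p ^ n))) =
      {v | p ^ (k + 1) • v = 0} \ {v | p ^ k • v = 0} := by
    ext v
    simp only [Set.mem_setOf_eq, Set.mem_diff]
    constructor
    · intro h
      refine ⟨by rw [← h, addOrderOf_nsmul_eq_zero], fun h5 => ?_⟩
      have := addOrderOf_dvd_of_nsmul_eq_zero h5
      rw [h, pow_dvd_pow_iff hpp.ne_zero (by simpa using hpp.ne_one)] at this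
      omega
    · rintro ⟨h5, h6⟩
      exact addOrderOf_eq_prime_pow h6 h5
  rw [h4, Nat.card_coe_set_eq, Set.ncard_diff]
  · rw [← Nat.card_coe_set_eq, ← Nat.card_coe_set_eq]
    have : 2 * (k + 1) - 2 = 2 * k := by omega
    rw [this, ← h2, ← h3]
    rfl
  · intro v hv
    simp only [Set.mem_setOf_eq] at hv ⊢
    rw [pow_succ', mul_smul, hv, smul_zero]

end Cfsg.Agent.S3881
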