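import Cfsg.Statements.S3882
import Cfsg.Agent.H80.MCPow

set_option autoImplicit false
open Cfsg

namespace Cfsg.Agent.S3882


/-- Let p be an odd prime and G a finite metacyclic p-group (G has a cyclic normal subgroup with cyclic quotient). Suppose |G'| = p^n and 0 ≤ s ≤ n. Then an element g lies in the subgroup generated by the p^s-th powers if and only if its conjugacy class has at most p^(n−s) elements; in particular the subgroup generated by the p^n-th powers is the center of G. -/
theorem result {G : Type*} [Group G] [Finite G] {p : ℕ} [Fact p.Prime] (hp : p ≠ 2) (hG : IsPGroup p G) (hmc : Cfsg.IsMetacyclic G) (n : ℕ) (hGn : Nat.card ↥(commutator G) = p ^ n) (s : ℕ) (hs : s ≤ n) (g : G) :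
    (g ∈ Subgroup.closure {x : G | ∃ y : G, y ^ p ^ s = x} ↔ (Subgroup.centralizer ({g} : Set G)).index ≤ p ^ (n - s)) ∧
      Subgroup.closure {x : G | ∃ y : G, y ^ p ^ n = x} = Subgroup.center G := by
  obtain ⟨M⟩ := H80.exists_MC hG hmc
  have hpp : p.Prime := Fact.out
  have hq : orderOf M.c = p ^ n := by rw [← M.card_commutator, hGn]
  have : NeZero (p ^ n) := ⟨pow_ne_zero _ hpp.ne_zero⟩
  constructor
  · rw [M.mem_closure_pow_iff hp hq hs, M.index_centralizer hp hq, ← addOrderOf_dvd_iff_nsmul_eq_zero]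
    refine ⟨fun h => Nat.le_of_dvd (pow_pos hpp.pos _) h, fun h => ?_⟩
    have h1 : addOrderOf (M.phi (p ^ n) g) ∣ p ^ n := by
      rw [addOrderOf_dvd_iff_nsmul_eq_zero, ← Nat.cast_smul_eq_nsmul (ZMod (p ^ n)), ZMod.natCast_self, zero_smul]
    obtain ⟨k, -, hk⟩ := (Nat.dvd_prime_pow hpp).1 h1
    rw [hk] at h ⊢
    exact pow_dvd_pow _ ((Nat.pow_le_pow_iff_right hpp.one_lt).1 h)
  · ext x
    rw [M.mem_closure_pow_iff hp hq le_rfl, M.mem_center_iff hq, Nat.sub_self, pow_zero, one_smul]

end Cfsg.Agent.S3882
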