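import Cfsg.Statements.S3883
import Cfsg.Agent.H80.MCPow
import Cfsg.Agent.H3.PGroup

set_option autoImplicit false
open Cfsg

namespace Cfsg.Agent.S3883


/-- Let p be an odd prime and G a finite metacyclic p-group (G has a cyclic normal subgroup with cyclic quotient). Suppose G is non-abelian. Then an element g of G lies outside the Frattini subgroup if and only if its centralizer C_G(g) is abelian. -/
theorem result {G : Type*} [Group G] [Finite G] {p : ℕ} [Fact p.Prime] (hp : p ≠ 2) (hG : IsPGroup p G) (hmc : Cfsg.IsMetacyclic G) (hna : ¬ IsMulCommutative G) (g : G) :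
    g ∉ frattini G ↔ IsMulCommutative ↥(Subgroup.centralizer ({g} : Set G)) := by
  obtain ⟨M⟩ := H80.exists_MC hG hmc
  obtain ⟨n, hq⟩ := M.exists_orderOf_c hG
  have hpp : p.Prime := Fact.out
  have : NeZero (p ^ n) := ⟨pow_ne_zero _ hpp.ne_zero⟩
  have hn : 1 ≤ n := by
    by_contra h
    apply hna
    rw [M.comm_iff, hq, show n = 0 by omega, pow_zero]
  have hF : frattini G = Subgroup.closure {x : G | ∃ y : G, y ^ p ^ 1 = x} := by
    apply le_antisymm
    · rw [H3.frattini_le_iff hG]
      refine ⟨?_, fun x => Subgroup.subset_closure ⟨x, by rw [pow_one]⟩⟩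
      rw [M.commutator_eq, Subgroup.zpowers_le]
      obtain ⟨t, ht⟩ := M.dvd
      exact Subgroup.subset_closure ⟨M.a ^ t, by rw [pow_one, ← pow_mul, mul_comm, ← ht]; rfl⟩
    · rw [Subgroup.closure_le]
      rintro _ ⟨y, rfl⟩
      rw [pow_one]
      exact H3.pow_mem_frattini hG y
  rw [hF, M.mem_closure_pow_iff hp hq hn, M.comm_iff_card_le hp hG]
  have h1 := (Subgroup.centralizer ({g} : Set G)).card_mul_index
  rw [M.index_centralizer hp hq, ← M.index_commutator hq] at h1
  have h2 : addOrderOf (M.phi (p ^ n) g) ∣ p ^ n := by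
    rw [addOrderOf_dvd_iff_nsmul_eq_zero, ← Nat.cast_smul_eq_nsmul (ZMod (p ^ n)), ZMod.natCast_self, zero_smul]
  obtain ⟨k, hkn, hk⟩ := (Nat.dvd_prime_pow hpp).1 h2
  rw [← addOrderOf_dvd_iff_nsmul_eq_zero, hk, pow_dvd_pow_iff hpp.ne_zero (by simpa using hpp.ne_one)]
  rw [hk] at h1
  constructor
  · intro h
    obtain rfl : k = n := by omega
    exact (Nat.eq_of_mul_eq_mul_right (pow_pos hpp.pos _) h1).le
  · intro h h3
    have := Nat.mul_lt_mul_of_le_of_lt h (Nat.pow_lt_pow_right hpp.one_lt (show k < n by omega))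
      (Nat.pos_of_ne_zero Subgroup.index_ne_zero_of_finite)
    omega

end Cfsg.Agent.S3883
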