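import Cfsg.Statements.S3885
import Cfsg.Agent.H80.MCSub

set_option autoImplicit false
open Cfsg

namespace Cfsg.Agent.S3885


/-- Let p be an odd prime and G a finite metacyclic p-group (G has a cyclic normal subgroup with cyclic quotient). Then every abelian subgroup K of G containing the center of G is the center of its own centralizer: K = Z(C_G(K)). -/
theorem result {G : Type*} [Group G] [Finite G] {p : ℕ} [Fact p.Prime] (hp : p ≠ 2) (hG : IsPGroup p G) (hmc : Cfsg.IsMetacyclic G) (K : Subgroup G) (hK : IsMulCommutative ↥K) (hZ : Subgroup.center G ≤ K) :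
    K = Subgroup.centralizer (K : Set G) ⊓ Subgroup.centralizer (Subgroup.centralizer (K : Set G) : Set G) := by
  obtain ⟨M⟩ := H80.exists_MC hG hmc
  obtain ⟨n, hq⟩ := M.exists_orderOf_c hG
  have hpp : p.Prime := Fact.out
  have : NeZero (p ^ n) := ⟨pow_ne_zero _ hpp.ne_zero⟩
  have h1 : Subgroup.centralizer (Subgroup.centralizer (K : Set G) : Set G) = K := by
    rw [M.centralizer_eq hp hq K, M.centralizer_eq hp hq, M.img_pre, H80.perp_perp, M.pre_img hp hq hZ]
  rw [h1]
  exact (inf_eq_right.2 (Subgroup.le_centralizer K)).symm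

end Cfsg.Agent.S3885
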