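import Cfsg.Statements.S3886
import Cfsg.Agent.H80.MCSub

set_option autoImplicit false
open Cfsg

namespace Cfsg.Agent.S3886


/-- Let p be an odd prime and G a finite metacyclic p-group (G has a cyclic normal subgroup with cyclic quotient). Then the largest value of |R| · |Z(R)| over subgroups R of G is |G : G'|², and the subgroups attaining it (the centrally large subgroups) are exactly the non-abelian subgroups together with the maximal abelian subgroups of G. -/
theorem result {G : Type*} [Group G] [Finite G] {p : ℕ} [Fact p.Prime] (hp : p ≠ 2) (hG : IsPGroup p G) (hmc : Cfsg.IsMetacyclic G) : Cfsg.maxCentralProduct G = (commutator G).index ^ 2 ∧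
    ∀ R : Subgroup G, Cfsg.IsCentrallyLarge R ↔ (¬ IsMulCommutative ↥R ∨ Maximal (fun K : Subgroup G => IsMulCommutative ↥K) R) := by
  obtain ⟨M⟩ := H80.exists_MC hG hmc
  obtain ⟨n, hq⟩ := M.exists_orderOf_c hG
  have hpp : p.Prime := Fact.out
  have hna : ∀ R : Subgroup G, ¬ IsMulCommutative R →
      Nat.card R * Nat.card (Subgroup.center R) = (commutator G).index ^ 2 := by
    intro R hR
    obtain ⟨M', e, h1, h2⟩ := M.exists_sub hp hG hq R
    have h3 := M'.card_eq hp h2
    have h4 := M.index_commutator hq
    have he : e ≤ n := by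
      by_contra h
      apply hR
      rw [M'.comm_iff, h2, Nat.sub_eq_zero_of_le (by omega), pow_zero]
    obtain ⟨d, rfl⟩ := Nat.exists_eq_add_of_le he
    rw [Nat.add_sub_cancel_left] at h3
    rw [← h1, pow_add, mul_comm (p ^ e), ← mul_assoc] at h4
    have h5 := Nat.eq_of_mul_eq_mul_right (pow_pos hpp.pos _) h4
    apply Nat.eq_of_mul_eq_mul_right (pow_pos (pow_pos hpp.pos d) 2)
    rw [mul_assoc, ← h3, ← mul_pow, h5, sq]
  have hab : ∀ R : Subgroup G, IsMulCommutative R →
      Nat.card R * Nat.card (Subgroup.center R) = Nat.card R ^ 2 := by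
    intro R hR
    have : Subgroup.center R = ⊤ := by
      rw [eq_top_iff]
      intro x _
      rw [Subgroup.mem_center_iff]
      intro y
      exact hR.is_comm.comm y x
    rw [this, Subgroup.card_top, sq]
  have h1 : Cfsg.maxCentralProduct G = (commutator G).index ^ 2 := by
    apply IsGreatest.csSup_eq
    constructor
    · obtain ⟨R, -, hR⟩ := Finite.exists_le_maximal (p := fun K : Subgroup G => IsMulCommutative ↥K)
        (a := ⊥) inferInstance
      exact ⟨R, by rw [hab R hR.prop, (M.maximal_comm_iff hp hG R).1 hR]⟩
    · rintro _ ⟨L, rfl⟩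
      by_cases hL : IsMulCommutative L
      · rw [hab L hL]
        exact Nat.pow_le_pow_left ((M.comm_iff_card_le hp hG L).1 hL) _
      · exact (hna L hL).le
  refine ⟨h1, fun R => ?_⟩
  rw [Cfsg.IsCentrallyLarge, h1]
  by_cases hR : IsMulCommutative R
  · rw [hab R hR, M.maximal_comm_iff hp hG R]
    simp only [hR, not_true, false_or]
    exact Nat.pow_left_inj two_ne_zero
  · simp only [hR, not_false_iff, true_or, iff_true]
    exact hna R hR

end Cfsg.Agent.S3886
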