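import Cfsg.Statements.S3888
import Cfsg.Agent.H80.Rank2
import Cfsg.Agent.S0126

set_option autoImplicit false
open Cfsg

namespace Cfsg.Agent.S3888

open Subgroup H80

/-- The classification of the p-groups of rank at most two for odd p. Let p be an odd prime and G a group of order p^n with no elementary abelian subgroup of order p³. Then one of the following holds: G is metacyclic; n ≥ 3 and G is generated by elements x, y, z with x^p = y^p = z^(p^(n−2)) = 1, z commuting with x and y, and x⁻¹yx = y z^(p^(n−3)); n ≥ 4 and G is generated by elements x, y, z with x^p = y^p = z^(p^(n−2)) = 1, yz = zy, x⁻¹yx = y z^(s p^(n−3)) and x⁻¹zx = yz, where s = 1 or s is a quadratic non-residue modulo p; or p = 3 and G has maximal class (nilpotency class n − 1). -/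
theorem result {G : Type*} [Group G] [Finite G] {p : ℕ} [Fact p.Prime] (hp : p ≠ 2) (n : ℕ) (hG : Nat.card G = p ^ n)
    (hrk : Cfsg.PRankLE p 2 G) :
    Cfsg.IsMetacyclic G ∨
    (3 ≤ n ∧ ∃ x y z : G, Subgroup.closure ({x, y, z} : Set G) = ⊤ ∧ x ^ p = 1 ∧ y ^ p = 1 ∧ z ^ p ^ (n - 2) = 1 ∧
        x * z = z * x ∧ y * z = z * y ∧ x⁻¹ * y * x = y * z ^ p ^ (n - 3)) ∨
    (4 ≤ n ∧ ∃ (s : ℕ) (x y z : G), (s = 1 ∨ ¬ IsSquare (s : ZMod p)) ∧ Subgroup.closure ({x, y, z} : Set G) = ⊤ ∧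
        x ^ p = 1 ∧ y ^ p = 1 ∧ z ^ p ^ (n - 2) = 1 ∧ y * z = z * y ∧ x⁻¹ * y * x = y * z ^ (s * p ^ (n - 3)) ∧
        x⁻¹ * z * x = y * z) ∨
    (p = 3 ∧ 2 ≤ n ∧ (⊤ : Subgroup G).lowerCentralSeries (n - 2) ≠ ⊥) := by
  have hp' : IsPGroup p G := IsPGroup.of_card hG
  by_cases hc : IsCyclic G
  · exact Or.inl ⟨⊤, inferInstance, (topEquiv (G := G)).isCyclic.2 hc, by
      have := QuotientGroup.subsingleton_quotient_top (G := G)
      infer_instance⟩
  obtain ⟨A, hAn, hA, hAc⟩ := S0126.result hp hp' hc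
  have hAc' := hA.1
  have h1 : ∀ h ∈ centralizer (A : Set G), h ∈ A ↔ h ^ p = 1 := fun h hh => ⟨hA.2 h, fun h1 => by
    have h2 := hrk _ (H4.isMulCommutative_sup_zpowers hh) fun a ha => by
      obtain ⟨b, hb, k, rfl⟩ := H4.mem_sup_zpowers_iff.1 ha
      rw [(Commute.zpow_right (hh b hb) k).mul_pow, hA.2 b hb, ← zpow_natCast (h ^ k), zpow_comm,
        zpow_natCast, h1, one_zpow, one_mul]
    rw [eq_of_le_of_card_ge (le_sup_left : A ≤ A ⊔ zpowers h) (hAc ▸ h2)]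
    exact mem_sup_right (mem_zpowers h)⟩
  by_cases h2 : centralizer (A : Set G) = ⊤
  · refine Or.inl (huppert hp hp' (hAc ▸ pcentral_powIndexLE hp G hp' (fun a ha => ?_) A
      fun a => h1 a (h2 ▸ mem_top a)))
    exact mem_center_iff.2 fun g => (h2.ge (mem_top g) a ((h1 a (h2 ▸ mem_top a)).2 ha)).symm
  let R : R2 p G := ⟨A, hAn, hAc, le_centralizer A, h1, h2⟩
  obtain ⟨s, -, hs⟩ := SetLike.exists_of_lt (lt_top_iff_ne_top.2 h2)
  have hn : 2 ≤ n := by
    have := card_subgroup_dvd_card A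
    rwa [hAc, hG, Nat.pow_dvd_pow_iff_le_right (Fact.out : p.Prime).one_lt] at this
  by_cases h3 : ∀ d ∈ R.H, d ^ p ∈ R.A → d ^ p ∈ R.Z
  · obtain ⟨z, hz, hgen⟩ := R.case_two hp' hp h3
    rcases R.exists_orderOf hp' hp hz hgen hs with h | h | ⟨x, hx, hxp⟩
    · exact Or.inl h
    · exact Or.inr (Or.inr (Or.inr ⟨h.1, hn, lcs_ne_bot_of_card_centralizer hG hn h.2⟩))
    · by_cases hw : T x z ∈ R.Z
      · exact Or.inr (Or.inl (R.central_product hp' hp hz hgen hG hx hxp hw))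
      · exact Or.inr (Or.inr (Or.inl (R.exists_rel hp' hp hz hgen hG hx hxp hw)))
  · push Not at h3
    obtain ⟨d, hd, hdA, hdZ⟩ := h3
    rcases R.case_one hp' hp hs hd hdA hdZ with h | h
    · exact Or.inl (R.metacyclic_of_not_commute hp' hp hd hdA h)
    · exact Or.inr (Or.inr (Or.inr ⟨h.1, hn, lcs_ne_bot_of_card_centralizer hG hn h.2⟩))

end Cfsg.Agent.S3888
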