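import Cfsg.Statements.S3895
import Cfsg.Agent.H80.ClassBound

set_option autoImplicit false
open Cfsg

namespace Cfsg.Agent.S3895


/-- Let G be a finite group with Sylow 2-subgroup P, and write k₂(G) for the number of conjugacy classes of G consisting of 2-elements (elements of 2-power order, the identity included). Then k₂(G) > |P|/2 if and only if G has a normal 2-complement and P has more than |P|/2 conjugacy classes. -/
theorem result {G : Type*} [Group G] [Finite G] (P : Sylow 2 G) :
    Nat.card ↥(P : Subgroup G) < 2 * Nat.card {c : ConjClasses G // ∀ x ∈ c.carrier, ∃ k : ℕ, orderOf x = 2 ^ k} ↔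
      Cfsg.HasNormalPComplement 2 G ∧ Nat.card ↥(P : Subgroup G) < 2 * Nat.card (ConjClasses ↥(P : Subgroup G)) := by
  change _ < 2 * H80.kcl G (fun x : G => ∃ k : ℕ, orderOf x = 2 ^ k) ↔ _
  constructor
  · intro h
    refine ⟨?_, ?_⟩
    · by_contra hn
      obtain ⟨Q, hQP, hc, g, hg, hcop, hgn⟩ := H80.exists_centric_of_not_hasNormalPComplement P hn
      have := H80.two_mul_kcl_le (fun x : G => ∃ k : ℕ, orderOf x = 2 ^ k) hQP
        (P.isPGroup'.to_le hQP) hg (Nat.coprime_two_right.1 hcop) hcop hgn
        (H80.exists_isConj_mem_sylow' P) (by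
          intro x hx hxQ
          have : ¬ ∀ y ∈ Q, y * x = x * y := fun h => hxQ (hc ⟨hx, h⟩)
          push Not at this
          obtain ⟨y, hy, hne⟩ := this
          have hyP := hQP hy
          refine ⟨y * x * y⁻¹, (P : Subgroup G).mul_mem ((P : Subgroup G).mul_mem hyP hx)
            ((P : Subgroup G).inv_mem hyP), isConj_iff.2 ⟨y, rfl⟩, fun h => hne ?_⟩
          rw [eq_mul_inv_iff_mul_eq] at h; exact h.symm)
      omega
    · have := H80.kcl_le_card_conjClasses (fun x : G => ∃ k : ℕ, orderOf x = 2 ^ k) P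
        (H80.exists_isConj_mem_sylow' P)
      omega
  · rintro ⟨h1, h2⟩
    have h3 := H80.card_conjClasses_le_kcl (fun x : G => ∃ k : ℕ, orderOf x = 2 ^ k) P
      (fun x hx y hxy => by
        obtain ⟨k, hk⟩ := IsPGroup.iff_orderOf.1 P.isPGroup' ⟨x, hx⟩
        exact ⟨k, by rw [← H80.orderOf_eq_of_isConj hxy, ← hk, ← Subgroup.orderOf_coe]⟩)
      ((H3.hasNormalPComplement_iff_sylow_controls_fusion P).1 h1)
    omega

end Cfsg.Agent.S3895
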