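import Cfsg.Statements.S3897
import Cfsg.Agent.H80.ClassBound

set_option autoImplicit false
open Cfsg

namespace Cfsg.Agent.S3897


/-- Let p be an odd prime and G a finite group with Sylow p-subgroup P, and write k_p(G) for the number of conjugacy classes of G consisting of p-elements (elements of p-power order, the identity included). Then k_p(G) > (p + 1)|P|/(2p) if and only if G has a normal p-complement and P is abelian. -/
theorem result {G : Type*} [Group G] [Finite G] {p : ℕ} [Fact p.Prime] (hp : p ≠ 2) (P : Sylow p G) :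
    (p + 1) * Nat.card ↥(P : Subgroup G) < 2 * p * Nat.card {c : ConjClasses G // ∀ x ∈ c.carrier, ∃ k : ℕ, orderOf x = p ^ k} ↔
      Cfsg.HasNormalPComplement p G ∧ IsMulCommutative ↥(P : Subgroup G) := by
  have hp1 : 1 < p := (Fact.out : p.Prime).one_lt
  constructor
  · intro h
    have hN := H80.normalizer_le_centralizer_of_kcl P h
    refine ⟨H3.hasNormalPComplement_of_normalizer_le_centralizer P hN, ⟨⟨fun x y => Subtype.ext ?_⟩⟩⟩
    exact hN (Subgroup.le_normalizer (H := (P : Subgroup G)) y.2) x x.2
  · rintro ⟨h1, h2⟩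
    have h3 := H80.card_conjClasses_le_kcl (fun x : G => ∃ k : ℕ, orderOf x = p ^ k) P
      (fun x hx y hxy => by
        obtain ⟨k, hk⟩ := IsPGroup.iff_orderOf.1 P.isPGroup' ⟨x, hx⟩
        exact ⟨k, by rw [← H80.orderOf_eq_of_isConj hxy, ← hk, ← Subgroup.orderOf_coe]⟩)
      ((H3.hasNormalPComplement_iff_sylow_controls_fusion P).1 h1)
    have h4 : Nat.card P ≤ Nat.card (ConjClasses P) := by
      refine Nat.card_le_card_of_injective ConjClasses.mk ?_
      intro x y hxy
      obtain ⟨g, hg⟩ := isConj_iff.1 (ConjClasses.mk_eq_mk_iff_isConj.1 hxy)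
      rw [← hg, h2.is_comm.comm g x]; group
    have h5 : 0 < Nat.card P := Nat.card_pos
    change (p + 1) * Nat.card P < 2 * p * H80.kcl G (fun x : G => ∃ k : ℕ, orderOf x = p ^ k)
    have h6 := Nat.mul_le_mul_left (2 * p) (h4.trans h3)
    nlinarith

end Cfsg.Agent.S3897
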