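import Cfsg.Statements.S3898
import Cfsg.Agent.H80.ClassBound
import Cfsg.Agent.S3895

set_option autoImplicit false
open Cfsg

namespace Cfsg.Agent.S3898

open Subgroup

theorem four_le_index_center {R : Type*} [Group R] [Finite R] (h : ¬ ∀ x y : R, x * y = y * x) :
    4 ≤ (center R).index := by
  by_contra hlt
  apply h
  have h0 : (center R).index ≠ 0 := index_ne_zero_of_finite
  have : IsCyclic (R ⧸ center R) := by
    have h1 : (center R).index = 1 ∨ (center R).index = 2 ∨ (center R).index = 3 := by omega
    rcases h1 with h1 | h1 | h1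
    · exact isCyclic_of_card_dvd_prime (p := 2) (by rw [← index, h1]; norm_num)
    · exact isCyclic_of_prime_card (p := 2) h1
    · exact isCyclic_of_prime_card (p := 3) h1
  intro x y
  exact commutative_of_cyclic_center_quotient (QuotientGroup.mk' (center R))
    (by rw [QuotientGroup.ker_mk']) x y

/-- Let π be a finite set of primes containing 2 and G a finite group. Write k_π(G) for the number of conjugacy classes of G consisting of π-elements (elements all of whose order's prime divisors lie in π) and |G|_π for the π-part of the order of G. If k_π(G) > |G|_π/2, then G has a normal π-complement (a normal subgroup of order prime to π whose index is a π-number) and an abelian Hall subgroup for the set of odd primes in π. -/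
theorem result {G : Type*} [Group G] [Finite G] (π : Finset ℕ) (hπ : ∀ r ∈ π, r.Prime) (h2 : 2 ∈ π)
    (hk : π.prod (fun r => r ^ (Nat.card G).factorization r) < 2 * Nat.card {c : ConjClasses G // ∀ x ∈ c.carrier, ∀ r : ℕ, r.Prime → r ∣ orderOf x → r ∈ π}) :
    (∃ N : Subgroup G, N.Normal ∧ (∀ r : ℕ, r.Prime → r ∣ Nat.card ↥N → r ∉ π) ∧ ∀ r : ℕ, r.Prime → r ∣ N.index → r ∈ π) ∧ ∃ H : Subgroup G, Cfsg.IsPiHall ((↑π : Set ℕ) \ {2}) H ∧ IsMulCommutative ↥H := by
  change π.prod (fun r => r ^ (Nat.card G).factorization r) < 2 * H80.kcl G (H80.PiEl π) at hk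
  have key : ∀ (r : ℕ) [Fact r.Prime], r ∈ π → ∀ P : Sylow r G,
      Nat.card P < 2 * H80.kcl G (fun x => ∃ k : ℕ, orderOf x = r ^ k) := by
    intro r _ hr P
    have h4 := H80.kcl_pi_mul_le π hπ r hr P
    have h6 : 0 < Nat.card P := Nat.card_pos
    generalize π.prod (fun r => r ^ (Nat.card G).factorization r) = M at *
    generalize H80.kcl G (H80.PiEl π) = a at *
    generalize H80.kcl G (fun x => ∃ k : ℕ, orderOf x = r ^ k) = b at *
    generalize Nat.card P = c at *
    by_contra hle
    push Not at hle
    have e1 : M * c < 2 * a * c := Nat.mul_lt_mul_of_pos_right hk h6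
    have e2 := Nat.mul_le_mul_right M hle
    nlinarith
  obtain ⟨S⟩ : Nonempty (Sylow 2 G) := inferInstance
  have hS : HasNormalPComplement 2 G := ((S3895.result S).1 (key 2 h2 S)).1
  set K := pResidual 2 G with hK
  have hKodd : ∀ g ∈ K, Odd (orderOf g) := fun g hg =>
    Nat.coprime_two_right.1 (H3.hasNormalPComplement_iff_forall_mem.1 hS g hg)
  obtain ⟨N, hN, h1, h3, H, hH, hHc⟩ := H80.exists_normal_pi_complement (G := K)
    ((↑π : Set ℕ) \ {2}) (by
    intro r hr hrπ
    have hr2 : r ≠ 2 := hrπ.2
    obtain ⟨P⟩ : Nonempty (Sylow r G) := inferInstance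
    have hPodd : ∀ x ∈ (P : Subgroup G), Odd (orderOf x) := by
      intro x hx
      obtain ⟨k, hk⟩ := IsPGroup.iff_orderOf.1 P.isPGroup' ⟨x, hx⟩
      rw [← Subgroup.orderOf_coe] at hk
      simp only at hk
      rw [hk]
      exact (hr.out.odd_of_ne_two hr2).pow
    have hPK : (P : Subgroup G) ≤ K := fun x hx =>
      H3.mem_pResidual_of_coprime (Nat.coprime_two_right.2 (hPodd x hx))
    have hk := key r hrπ.1 P
    have hab : ∀ x ∈ (P : Subgroup G), ∀ y ∈ (P : Subgroup G), x * y = y * x := by
      by_contra hna
      have h4 := four_le_index_center (R := P) (fun h => hna (fun x hx y hy =>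
        congrArg Subtype.val (h ⟨x, hx⟩ ⟨y, hy⟩)))
      have h5 := H80.kcl_le_three (fun x : G => ∃ k : ℕ, orderOf x = r ^ k)
        ((center P).map (P : Subgroup G).subtype) P P (map_subtype_le _) le_rfl
        (H80.exists_isConj_mem_sylow' P) (by
          intro x hx hxC
          have : ¬ ∀ y ∈ (P : Subgroup G), x * y = y * x := by
            intro h
            refine hxC ⟨⟨x, hx⟩, mem_center_iff.2 (fun y => Subtype.ext (h y y.2).symm), rfl⟩
          push Not at this
          obtain ⟨y, hy, hne⟩ := this
          exact H80.three_conj hx (fun z hz => (P : Subgroup G).mul_mem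
            ((P : Subgroup G).mul_mem hy hz) ((P : Subgroup G).inv_mem hy)) (hPodd y hy) hne)
        (fun x hx hx' => absurd hx hx')
      rw [card_map_of_injective (P : Subgroup G).subtype_injective] at h5
      have h6 := (center P).card_mul_index
      have h7 := Nat.mul_le_mul_left (Nat.card (center P)) h4
      omega
    have hN : ∀ g ∈ normalizer ((P : Subgroup G) : Set G), g ∈ K →
        g ∈ centralizer ((P : Subgroup G) : Set G) := by
      intro g hg hgK
      obtain ⟨a, b, ha, hb, ⟨k, hak⟩, hb', rfl⟩ := H3.exists_p_part (p := r) g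
      have haN := (zpowers_le.2 hg) ha
      have hbN := (zpowers_le.2 hg) hb
      have hbK := (zpowers_le.2 hgK) hb
      refine mul_mem ?_ ?_
      · have haP : a ∈ (P : Subgroup G) := by
          have hz : IsPGroup r (zpowers a) := by
            rw [IsPGroup.iff_card, Nat.card_zpowers]
            obtain ⟨j, -, hj⟩ := (Nat.dvd_prime_pow hr.out).1 (orderOf_dvd_of_pow_eq_one hak)
            exact ⟨j, hj⟩
          have := hz.inf_normalizer_sylow P
          have h9 : a ∈ zpowers a ⊓ (P : Subgroup G) := by
            rw [← this]; exact ⟨mem_zpowers a, haN⟩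
          exact h9.2
        exact fun y hy => hab y hy a haP
      · by_contra hbn
        have := H80.two_mul_kcl_le (fun x : G => ∃ k : ℕ, orderOf x = r ^ k) le_rfl P.isPGroup'
          hbN (hKodd b hbK) hb' hbn (H80.exists_isConj_mem_sylow' P)
          (fun x hx hx' => absurd hx hx')
        omega
    refine ⟨P.subtype hPK, ?_⟩
    intro g hg x hx
    apply Subtype.ext
    refine hN g ?_ g.2 x hx
    apply H42.mem_normalizer_of_conj_mem
    intro y hy
    exact H42.conj_mem_of_mem_normalizer (X := (P.subtype hPK : Subgroup K)) (x := ⟨y, hPK hy⟩)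
      hg hy)
  obtain ⟨j, hj⟩ := H3.exists_index_pResidual_eq_pow (G := G) (p := 2)
  have hKc := H3.hasNormalPComplement_iff_coprime.1 hS
  refine ⟨⟨N.map K.subtype, inferInstance, ?_, ?_⟩, H.map K.subtype, ⟨?_, ?_⟩, ?_⟩
  · intro r hr hd hrπ
    rw [card_map_of_injective K.subtype_injective] at hd
    refine h1 r hr hd ⟨hrπ, ?_⟩
    rintro rfl
    exact absurd (Nat.Coprime.eq_one_of_dvd hKc.symm (hd.trans (card_subgroup_dvd_card N)))
      (by norm_num)
  · intro r hr hd
    rw [index_map_subtype, hj] at hd
    rcases (Nat.Prime.dvd_mul hr).1 hd with hd | hd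
    · exact (h3 r hr hd).1
    · rw [(Nat.prime_dvd_prime_iff_eq hr Nat.prime_two).1 (hr.dvd_of_dvd_pow hd)]; exact h2
  · intro r hr hd
    rw [card_map_of_injective K.subtype_injective] at hd
    exact hH.1 r hr hd
  · intro r hr hrπ hd
    rw [index_map_subtype, hj] at hd
    rcases (Nat.Prime.dvd_mul hr).1 hd with hd | hd
    · exact hH.2 r hr hrπ hd
    · exact hrπ.2 ((Nat.prime_dvd_prime_iff_eq hr Nat.prime_two).1 (hr.dvd_of_dvd_pow hd))
  · infer_instance

end Cfsg.Agent.S3898
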