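import Cfsg.Statements.S3899
import Cfsg.Agent.H80.ClassBound

set_option autoImplicit false
open Cfsg

namespace Cfsg.Agent.S3899


/-- Let π be a finite non-empty set of odd primes with smallest member p and G a finite group. Write k_π(G) for the number of conjugacy classes of G consisting of π-elements (elements all of whose order's prime divisors lie in π) and |G|_π for the π-part of the order of G. If k_π(G) > (p + 1)|G|_π/(2p), then G has a normal π-complement (a normal subgroup of order prime to π whose index is a π-number) and an abelian Hall π-subgroup. -/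
theorem result {G : Type*} [Group G] [Finite G] (π : Finset ℕ) (hπ : ∀ r ∈ π, r.Prime) (h2 : 2 ∉ π) (p : ℕ) (hp : p ∈ π)
    (hmin : ∀ r ∈ π, p ≤ r) (hk : (p + 1) * π.prod (fun r => r ^ (Nat.card G).factorization r) < 2 * p * Nat.card {c : ConjClasses G // ∀ x ∈ c.carrier, ∀ r : ℕ, r.Prime → r ∣ orderOf x → r ∈ π}) :
    (∃ N : Subgroup G, N.Normal ∧ (∀ r : ℕ, r.Prime → r ∣ Nat.card ↥N → r ∉ π) ∧ ∀ r : ℕ, r.Prime → r ∣ N.index → r ∈ π) ∧ ∃ H : Subgroup G, Cfsg.IsPiHall (↑π : Set ℕ) H ∧ IsMulCommutative ↥H := by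
  obtain ⟨N, hN, h1, h3, H⟩ := H80.exists_normal_pi_complement (G := G) (↑π : Set ℕ) (by
    intro r hr hrπ
    obtain ⟨P⟩ : Nonempty (Sylow r G) := inferInstance
    refine ⟨P, H80.normalizer_le_centralizer_of_kcl P ?_⟩
    have h4 := H80.kcl_pi_mul_le π hπ r hrπ P
    change (p + 1) * π.prod (fun r => r ^ (Nat.card G).factorization r) <
      2 * p * H80.kcl G (H80.PiEl π) at hk
    have h5 := hmin r hrπ
    have h6 : 0 < Nat.card P := Nat.card_pos
    generalize π.prod (fun r => r ^ (Nat.card G).factorization r) = M at *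
    generalize H80.kcl G (H80.PiEl π) = a at *
    generalize H80.kcl G (fun x => ∃ k : ℕ, orderOf x = r ^ k) = b at *
    generalize Nat.card P = c at *
    have hp0 : 0 < p := (hπ p hp).pos
    by_contra hle
    push Not at hle
    have e1 : (p + 1) * M * c < 2 * p * a * c := Nat.mul_lt_mul_of_pos_right hk h6
    have e2 : 2 * p * (a * c) ≤ 2 * p * (b * M) := Nat.mul_le_mul_left _ h4
    have e3 : (p + 1) * c < 2 * p * b := by
      by_contra h
      push Not at h
      have := Nat.mul_le_mul_right M h
      nlinarith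
    have e4 : r * ((p + 1) * c) < r * (2 * p * b) := Nat.mul_lt_mul_of_pos_left e3 (by omega)
    have e5 : p * (2 * r * b) ≤ p * ((r + 1) * c) := Nat.mul_le_mul_left _ hle
    have e6 : p * c ≤ r * c := Nat.mul_le_mul_right _ h5
    nlinarith)
  exact ⟨⟨N, inferInstance, fun r hr hd => h1 r hr hd, fun r hr hd => h3 r hr hd⟩, H⟩

end Cfsg.Agent.S3899
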