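import Cfsg.Statements.S3903
import Cfsg.Agent.H3.PResidual
import Cfsg.Agent.H2.Basic
import Cfsg.Agent.H81.Frob
import Cfsg.Agent.H80.ClassCount
import Cfsg.Agent.S0556

set_option autoImplicit false
open Cfsg

namespace Cfsg.Agent.S3903

open Subgroup

theorem isPGroup_centralizer {G : Type*} [Group G] [Finite G] (N : Subgroup G)
    (h : ∀ x : G, x ∉ N → IsPrimePow (orderOf x)) {p k : ℕ} [hp : Fact p.Prime] {x : G}
    (hx : x ∉ N) (hk : orderOf x = p ^ k) : IsPGroup p (centralizer ({x} : Set G)) := by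
  intro y
  obtain ⟨a, b, ha, hb, ⟨j, hj⟩, hbc, hab⟩ := H3.exists_p_part (p := p) (y : G)
  have hbC : b ∈ centralizer ({x} : Set G) := (zpowers_le.2 y.2) hb
  have hcomm : Commute x b := (mem_centralizer_singleton_iff.1 hbC).symm
  have hcop : (orderOf x).Coprime (orderOf b) := by
    rw [hk]; exact Nat.Coprime.pow_left _ hbc.symm
  have hord := hcomm.orderOf_mul_eq_mul_orderOf_of_coprime hcop
  have hk0 : k ≠ 0 := by
    rintro rfl
    rw [pow_zero, orderOf_eq_one_iff] at hk
    exact hx (hk ▸ N.one_mem)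
  have hxb : x * b ∉ N := by
    intro hxb
    apply hx
    have h1 : (x * b) ^ orderOf b ∈ N := N.pow_mem hxb _
    rw [hcomm.mul_pow, pow_orderOf_eq_one, mul_one] at h1
    obtain ⟨m, hm⟩ := exists_pow_eq_self_of_coprime hcop.symm
    rw [← hm]; exact N.pow_mem h1 _
  obtain ⟨q, i, hq, -, hqi⟩ := (isPrimePow_nat_iff _).1 (h _ hxb)
  rw [hord, hk] at hqi
  have hpq : p = q := by
    have : p ∣ q ^ i := hqi ▸ Dvd.dvd.mul_right (dvd_pow_self p hk0) _
    exact (Nat.prime_dvd_prime_iff_eq hp.out hq).1 (hp.out.dvd_of_dvd_pow this)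
  subst hpq
  have hb1 : orderOf b = 1 := by
    have : orderOf b ∣ p ^ i := hqi ▸ Dvd.intro_left _ rfl
    exact Nat.Coprime.eq_one_of_dvd (Nat.Coprime.pow_right _ hbc) this
  rw [orderOf_eq_one_iff.1 hb1, mul_one] at hab
  exact ⟨j, Subtype.ext (by simpa [hab] using hj)⟩

theorem solvable_of_normal_coatom {G : Type*} [Group G] (M : Subgroup G) [M.Normal]
    (hM : IsCoatom M) (hs : Group.IsSolvable M) : Group.IsSolvable G := by
  obtain ⟨g, hg⟩ : ∃ g, g ∉ M := by
    by_contra hh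
    push Not at hh
    exact hM.1 (eq_top_iff.2 (fun g _ => hh g))
  have htop : M ⊔ zpowers g = ⊤ := hM.2 _ (left_lt_sup.2 (fun h => hg (h (mem_zpowers g))))
  have : IsCyclic (G ⧸ M) := by
    refine ⟨⟨QuotientGroup.mk g, fun y => ?_⟩⟩
    obtain ⟨y, rfl⟩ := QuotientGroup.mk_surjective y
    have : y ∈ M ⊔ zpowers g := htop ▸ mem_top y
    rw [← SetLike.mem_coe, normal_mul] at this
    obtain ⟨m, hm, _, ⟨k, rfl⟩, rfl⟩ := this
    exact ⟨k, by simp [(QuotientGroup.eq_one_iff m).2 hm]⟩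
  have : Group.IsSolvable (G ⧸ M) := isSolvable_of_comm (fun a b => IsCyclic.commGroup.mul_comm a b)
  exact solvable_of_ker_le_range M.subtype (QuotientGroup.mk' M) (by simp)

/-- Let N be a proper normal subgroup of the finite group G such that every element x of G outside N has prime power order and has centralizer C_G(x) a maximal subgroup of G. Then N is solvable. -/
theorem result {G : Type*} [Group G] [Finite G] (N : Subgroup G) [N.Normal] (hN : N ≠ ⊤)
    (h : ∀ x : G, x ∉ N → IsPrimePow (orderOf x) ∧ IsCoatom (Subgroup.centralizer ({x} : Set G))) : Group.IsSolvable ↥N := by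
  classical
  suffices hG : Group.IsSolvable G ∨ Group.IsSolvable N by
    rcases hG with hG | hG <;> infer_instance
  obtain ⟨x0, hx0⟩ : ∃ g, g ∉ N := by
    by_contra hh
    push Not at hh
    exact hN (eq_top_iff.2 (fun g _ => hh g))
  obtain ⟨p, k, hp, -, hk⟩ := (isPrimePow_nat_iff _).1 (h x0 hx0).1
  have : Fact p.Prime := ⟨hp⟩
  set P := centralizer ({x0} : Set G) with hP
  have hPp : IsPGroup p P := isPGroup_centralizer N (fun x hx => (h x hx).1) hx0 hk.symm
  have hPc : IsCoatom P := (h x0 hx0).2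
  by_cases hGp : IsPGroup p G
  · have := hGp.isNilpotent; left; infer_instance
  by_cases hPn : P.Normal
  · have := hPp.isNilpotent
    exact Or.inl (solvable_of_normal_coatom P hPc inferInstance)
  by_cases hNP : N ≤ P
  · have hNp := (hPp.to_le hNP).isNilpotent
    right; infer_instance
  left
  have hsup : P ⊔ N = ⊤ := hPc.2 _ (left_lt_sup.2 hNP)
  have hsyl : ∀ C : Subgroup G, IsCoatom C → IsPGroup p C → ∃ S : Sylow p G, (S : Subgroup G) = C := by
    intro C hC hCp
    obtain ⟨S, hS⟩ := hCp.exists_le_sylow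
    refine ⟨S, ?_⟩
    by_contra hne
    have := hC.2 S (lt_of_le_of_ne hS (Ne.symm hne))
    exact hGp (IsPGroup.of_equiv (this ▸ S.isPGroup') topEquiv)
  obtain ⟨S, hS⟩ := hsyl P hPc hPp
  have hnorm : normalizer (P : Set G) = P := by
    by_contra hne
    exact hPn (normalizer_eq_top_iff.1 (hPc.2 _ (lt_of_le_of_ne le_normalizer (Ne.symm hne))))
  have hall : ∀ y, y ∉ N → ∃ g : G, centralizer ({g⁻¹ * y * g} : Set G) = P := by
    intro y hy
    obtain ⟨q, i, hq, hi, hqi⟩ := (isPrimePow_nat_iff _).1 (h y hy).1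
    have hpq : q = p := by
      have : y ∈ P ⊔ N := hsup ▸ mem_top y
      rw [← SetLike.mem_coe, mul_normal] at this
      obtain ⟨u, hu, n, hn, rfl⟩ := this
      obtain ⟨j, hj⟩ := hPp ⟨u, hu⟩
      have hj' : u ^ p ^ j = 1 := congrArg Subtype.val hj
      have h1 : orderOf (QuotientGroup.mk (u * n) : G ⧸ N) ∣ p ^ j := by
        apply orderOf_dvd_of_pow_eq_one
        rw [QuotientGroup.mk_mul, (QuotientGroup.eq_one_iff n).2 hn, mul_one,
          ← QuotientGroup.mk_pow, hj', QuotientGroup.mk_one]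
      have h2 : orderOf (QuotientGroup.mk (u * n) : G ⧸ N) ∣ q ^ i :=
        hqi ▸ orderOf_map_dvd (QuotientGroup.mk' N) (u * n)
      by_contra hne
      have hc : (q ^ i).Coprime (p ^ j) := Nat.coprime_pow_primes _ _ hq hp hne
      have := Nat.eq_one_of_dvd_one (hc ▸ Nat.dvd_gcd h2 h1)
      exact hy ((QuotientGroup.eq_one_iff _).1 (orderOf_eq_one_iff.1 this))
    subst hpq
    obtain ⟨T, hT⟩ := hsyl _ (h y hy).2
      (isPGroup_centralizer N (fun x hx => (h x hx).1) hy hqi.symm)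
    obtain ⟨g, hg⟩ := MulAction.exists_smul_eq G S T
    refine ⟨g, ?_⟩
    ext z
    rw [← hS, mem_centralizer_singleton_iff]
    have : g * z * g⁻¹ ∈ (T : Subgroup G) ↔ z ∈ (S : Subgroup G) := by
      rw [← hg, Sylow.coe_subgroup_smul, H2.mem_conj_smul]; simp [mul_assoc]
    rw [← this, hT, mem_centralizer_singleton_iff]
    constructor
    · intro e
      calc g * z * g⁻¹ * y = g * (z * (g⁻¹ * y * g)) * g⁻¹ := by group
        _ = _ := by rw [e]; group
    · intro e
      calc z * (g⁻¹ * y * g) = g⁻¹ * (g * z * g⁻¹ * y) * g := by group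
        _ = _ := by rw [e]; group
  set A : Set G := {x | x ∉ N ∧ centralizer ({x} : Set G) = P} with hA
  have hAP : ∀ x ∈ A, x ∈ P := fun x hx => hx.2 ▸ mem_centralizer_singleton_iff.2 rfl
  have c1 : Nat.card {y : G // y ∉ N} ≤ Nat.card (A × (G ⧸ P)) := by
    refine H80.card_subtype_le_of_cover _
      (fun s : A × (G ⧸ P) => s.2.out * s.1 * s.2.out⁻¹) ?_
    intro y hy
    obtain ⟨g, hg⟩ := hall y hy
    have hmem : g⁻¹ * y * g ∈ A := ⟨fun h' => hy (by
      simpa [mul_assoc] using (inferInstance : N.Normal).conj_mem _ h' g), hg⟩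
    refine ⟨(⟨_, hmem⟩, QuotientGroup.mk g), ?_⟩
    obtain ⟨u, hu⟩ := QuotientGroup.mk_out_eq_mul P g
    simp only [hu]
    have : (u : G) * (g⁻¹ * y * g) = (g⁻¹ * y * g) * u :=
      mem_centralizer_singleton_iff.1 (hg.symm ▸ u.2)
    calc g * u * (g⁻¹ * y * g) * (g * u)⁻¹ = g * (u * (g⁻¹ * y * g)) * (g * u)⁻¹ := by group
      _ = y := by rw [this]; group
  have c2 := H81.card_add_card_not (fun _ : G => True) (fun y => y ∈ N)
  have c3 := H81.card_add_card_not (fun y : G => y ∈ P) (fun y => y ∈ N)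
  simp only [true_and] at c2
  rw [Nat.card_subtype_true] at c2
  have c4 := H2.card_sup_mul_card_inf_of_normal P N
  rw [hsup, card_top, ← P.card_mul_index] at c4
  have c5 : Nat.card {x : G // x ∈ P ∧ x ∈ N} = Nat.card ↥(P ⊓ N) := rfl
  have c6 : Nat.card {x : G // x ∈ N} = Nat.card N := rfl
  have c7 : Nat.card {x : G // x ∈ P} = Nat.card P := rfl
  rw [Nat.card_prod, ← index] at c1
  rw [c6, ← P.card_mul_index] at c2
  rw [c5, c7] at c3
  have hPpos : 0 < Nat.card P := Nat.card_pos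
  have hipos : 0 < P.index := Nat.pos_of_ne_zero index_ne_zero_of_finite
  have c8 : P.index * Nat.card ↥(P ⊓ N) = Nat.card N := by
    apply Nat.eq_of_mul_eq_mul_left hPpos; rw [← c4]; ring
  have c9 : Nat.card {x : G // x ∈ P ∧ x ∉ N} ≤ Nat.card A := by
    apply Nat.le_of_mul_le_mul_right _ hipos
    rw [← c3, ← c8] at c2
    nlinarith
  have hAeq : A = {x : G | x ∈ P ∧ x ∉ N} :=
    Set.eq_of_subset_of_ncard_le (fun x hx => ⟨hAP x hx, hx.1⟩) c9
  have hcen : ∀ x ∈ P, x ∉ N → ∀ y ∈ P, y * x = x * y := by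
    intro x hx hxN y hy
    have : x ∈ A := hAeq ▸ ⟨hx, hxN⟩
    exact mem_centralizer_singleton_iff.1 (this.2.symm ▸ hy)
  have hx0P : x0 ∈ P := mem_centralizer_singleton_iff.2 rfl
  have : IsMulCommutative P := by
    refine ⟨⟨fun x y => Subtype.ext ?_⟩⟩
    by_cases hxN : (x : G) ∈ N
    · have h1 := hcen (x * x0) (P.mul_mem x.2 hx0P) (fun h' => hx0 (by
        simpa using N.mul_mem (N.inv_mem hxN) h')) y y.2
      have h2 := hcen x0 hx0P hx0 y y.2
      simp only [Subgroup.coe_mul]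
      calc (x : G) * y = x * (y * x0) * x0⁻¹ := by group
        _ = (x * x0 * y) * x0⁻¹ := by rw [h2]; group
        _ = y * x := by rw [← h1]; group
    · exact (hcen x x.2 hxN y y.2).symm
  exact ⟨⟨3, S0556.result P hPc⟩⟩

end Cfsg.Agent.S3903
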