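import Cfsg.Statements.S3906
import Cfsg.Agent.H59.WordNil
-- import your own Cfsg.Agent.* helpers here

set_option autoImplicit false
open Cfsg

namespace Cfsg.Agent.S3906
open Subgroup Cfsg.Agent.H49 Cfsg.Agent.H45 Cfsg.Agent.H59

/-- the special subgroups for the derived series -/
def D {X : Type*} [Group X] (p : ℕ) (A G : Subgroup X) : ℕ → Set (Subgroup X)
  | 0 => F0 p A G
  | n + 1 => FM p A (D p A G n) (D p A G n)

theorem ref {X : Type*} [Group X] (p : ℕ) (A G : Subgroup X) (n : ℕ) :
    Ref (D p A G (n + 1)) (D p A G n) := by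
  induction n with
  | zero => exact ref_F0
  | succ n ih => exact ih.mul ih

theorem fam {X : Type*} [Group X] [Finite X] {p : ℕ} {A G : Subgroup X} (hp : p.Prime)
    (hA : IsElementaryAbelian p A) (h0 : A ≠ ⊥) (hG : IsPi {p}ᶜ G) (hn : A ≤ 𝒩(G)) (n : ℕ) :
    Fam p A G (D p A G n) der^[n] (2 ^ n) := by
  induction n with
  | zero => exact fam_zero hp hA h0 hG hn
  | succ n ih =>
    rw [Function.iterate_succ', pow_succ, mul_two]
    exact ih.mul hp hA h0 hG ih (ref p A G n) (ref p A G n)

/-- Let p be a prime and let k ≥ 3, c ≥ 0 and d ≥ 0 be integers with 2^d + 2 ≤ k. There is a bound B depending only on p, k, c and d such that the following holds for every finite group G of order prime to p and every elementary abelian subgroup A of order p^k of the automorphism group of G: if, for every non-identity a ∈ A, the d-th derived subgroup of the fixed-point subgroup C_G(a) (the 0-th derived subgroup of a group being the group itself) is nilpotent of class at most c, then the d-th derived subgroup of G is nilpotent of class at most B.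 -/
theorem result (p k c d : ℕ) (hp : p.Prime) (hk : 3 ≤ k) (hd : 2 ^ d + 2 ≤ k) :
    ∃ B : ℕ, ∀ (G : Type) [Group G] [Finite G], (Nat.card G).Coprime p →
      ∀ A : Subgroup (MulAut G), Cfsg.IsElementaryAbelian p A → Nat.card ↥A = p ^ k →
        (∀ a ∈ A, a ≠ 1 → (derivedSeries ↥((a : MulAut G).toMonoidHom.eqLocus (MonoidHom.id G)) d).lowerCentralSeries c = ⊥) →
        (derivedSeries G d).lowerCentralSeries B = ⊥ := by
  refine ⟨wsB p k c (c + d), fun G _ _ hG A hA hc h => ?_⟩
  obtain ⟨X, _, _, i, j, hi, hj, hn, hfix⟩ := exists_hol G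
  have hA' : IsElementaryAbelian p (A.map j) := (IsElem.map_of_injective hj ⟨le_top, hA, hc⟩).elem
  have hc' : Nat.card (A.map j) = p ^ k := (IsElem.map_of_injective hj ⟨le_top, hA, hc⟩).card
  have hG' : IsPi {p}ᶜ i.range := (isPi_compl_singleton_iff_coprime hp).2
    (by rwa [← Nat.card_congr (MonoidHom.ofInjective hi).toEquiv])
  have hn' : A.map j ≤ 𝒩(i.range) := (map_le_range j A).trans hn
  have := word_bound hp hA' hc' hk hd hG' hn' (fam hp hA' (ne_bot_of_pow_le (n := 2) hp
    (hc' ▸ Nat.pow_le_pow_right hp.pos hk)) hG' hn' d) (ref p _ _ d) (fun _ => le_rfl) (c := c) (by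
      rintro _ ⟨a, ha, rfl⟩ a1
      rw [hfix, ← map_derivedSeries, ← map_lowerCentralSeries,
        h a ha fun e => a1 (by rw [e, map_one]), Subgroup.map_bot])
  rwa [← map_derivedSeries, ← map_lowerCentralSeries, map_eq_bot_iff_of_injective _ hi] at this


end Cfsg.Agent.S3906
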