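import Cfsg.Statements.S3908
import Cfsg.Agent.H80.BGroup2

set_option autoImplicit false
open Cfsg

namespace Cfsg.Agent.S3908

open Subgroup

/-- Let G be a finite group in which any two abelian subgroups of the same order are conjugate. Then a Sylow 2-subgroup of G is cyclic, elementary abelian or generalized quaternion, and for an odd prime p a Sylow p-subgroup of G is cyclic or has exponent dividing p. -/
theorem result {G : Type*} [Group G] [Finite G] (hB : ∀ A B : Subgroup G, IsMulCommutative ↥A → IsMulCommutative ↥B → Nat.card ↥A = Nat.card ↥B → ∃ g : G, B = A.map (MulAut.conj g).toMonoidHom) :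
    (∀ P : Sylow 2 G, IsCyclic ↥(P : Subgroup G) ∨ Cfsg.IsElementaryAbelian 2 (P : Subgroup G) ∨ ∃ k : ℕ, Nonempty (↥(P : Subgroup G) ≃* QuaternionGroup (2 ^ k))) ∧
    ∀ (p : ℕ) [Fact p.Prime], p ≠ 2 → ∀ P : Sylow p G, IsCyclic ↥(P : Subgroup G) ∨ ∀ x ∈ (P : Subgroup G), x ^ p = 1 := by
  constructor
  · intro P
    rcases H80.BG.sylow_cases hB P.isPGroup' with h | h
    · right; left
      refine ⟨H23.isMulCommutative_of_comm fun a ha b hb => ?_, h⟩
      have h1 := h _ (mul_mem ha hb)
      calc a * b = (a ^ 2)⁻¹ * (a * (a * b) ^ 2 * b) * (b ^ 2)⁻¹ * (a * b)⁻¹ * (a * b) := by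
            rw [h1, h a ha, h b hb]; group
        _ = _ := by simp only [sq]; group
    · rcases S0016.result 2 P.isPGroup' h with h1 | h1
      · exact Or.inl h1
      · exact Or.inr (Or.inr h1.2)
  · intro p _ hp P
    rcases H80.BG.sylow_cases hB P.isPGroup' with h | h
    · exact Or.inr h
    · exact Or.inl ((S0016.result p P.isPGroup' h).resolve_right fun h => hp h.1)

end Cfsg.Agent.S3908
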