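import Cfsg.Statements.S3910
import Cfsg.Agent.H80.BGroup
import Cfsg.Agent.H31.PPart
import Cfsg.Agent.H3.NilpotentHall

set_option autoImplicit false
open Cfsg

namespace Cfsg.Agent.S3910

open Subgroup

/-- A finite nilpotent group in which any two abelian subgroups of the same order are conjugate is cyclic. -/
theorem result {G : Type*} [Group G] [Finite G] (hB : ∀ A B : Subgroup G, IsMulCommutative ↥A → IsMulCommutative ↥B → Nat.card ↥A = Nat.card ↥B → ∃ g : G, B = A.map (MulAut.conj g).toMonoidHom) (hnil : Group.IsNilpotent G) : IsCyclic G := by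
  have : IsZGroup G := by
    constructor
    intro p hp P
    have := Fact.mk hp
    have hPn : (P : Subgroup G).Normal := Sylow.normal_of_normalizerCondition Group.normalizerCondition_of_isNilpotent P
    apply H80.isCyclic_of_BG_of_isPGroup P.isPGroup'
    apply H80.BG.of_sup_centralizer hB
    intro g
    obtain ⟨u, v, h1, -, -, -, ⟨k, hk⟩, hv⟩ := H31.exists_p_parts hp g
    refine ⟨u, ?_, v, ?_, h1⟩
    · have : IsPGroup p (zpowers u) := by
        obtain ⟨j, -, hj⟩ := (Nat.dvd_prime_pow hp).1 (orderOf_dvd_of_pow_eq_one hk)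
        exact IsPGroup.of_card (by rw [Nat.card_zpowers, hj])
      obtain ⟨Q, hQ⟩ := this.exists_le_sylow
      have := P.unique_of_normal hPn
      rw [Subsingleton.elim Q P] at hQ
      exact hQ (mem_zpowers u)
    · rw [mem_centralizer_iff]
      intro y hy
      obtain ⟨j, hj⟩ := IsPGroup.iff_orderOf.1 P.isPGroup' ⟨y, hy⟩
      rw [← orderOf_coe] at hj
      exact (H3.commute_of_coprime_orderOf y v (by
        simp only at hj; rw [hj]; exact Nat.Coprime.pow_left _ hv.symm)).eq
  infer_instance

end Cfsg.Agent.S3910
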