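import Cfsg.Statements.S3911
import Cfsg.Agent.H80.BGroup2

set_option autoImplicit false
open Cfsg

namespace Cfsg.Agent.S3911

open Subgroup

/-- Let G be a finite group in which any two abelian subgroups of the same order are conjugate. If M is a normal subgroup of G of odd order, then any two abelian subgroups of G/M of the same order are conjugate in G/M. -/
theorem result {G : Type*} [Group G] [Finite G] (hB : ∀ A B : Subgroup G, IsMulCommutative ↥A → IsMulCommutative ↥B → Nat.card ↥A = Nat.card ↥B → ∃ g : G, B = A.map (MulAut.conj g).toMonoidHom) (M : Subgroup G) [M.Normal] (hM : Odd (Nat.card ↥M)) :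
    ∀ A B : Subgroup (G ⧸ M), IsMulCommutative ↥A → IsMulCommutative ↥B → Nat.card ↥A = Nat.card ↥B →
      ∃ g : G ⧸ M, B = A.map (MulAut.conj g).toMonoidHom := by
  exact H80.BG.of_odd _ (QuotientGroup.mk' M) (QuotientGroup.mk'_surjective M) (by rw [QuotientGroup.ker_mk']) hM hB

end Cfsg.Agent.S3911
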