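import Cfsg.Statements.S3917
import Cfsg.Agent.H80.Misc
import Cfsg.Agent.H4.Omega
import Cfsg.Agent.H22.PGroupMisc

set_option autoImplicit false
open Cfsg

namespace Cfsg.Agent.S3917

open Subgroup

/-- Say that a group has self-centralizing non-cyclic subgroups when every non-cyclic subgroup H satisfies C_G(H) ≤ H. A finite abelian group with self-centralizing non-cyclic subgroups is cyclic or elementary abelian of order p² for a prime p. -/
theorem result {G : Type*} [CommGroup G] [Finite G] (hX : (∀ H : Subgroup G, ¬ IsCyclic ↥H → Subgroup.centralizer (H : Set G) ≤ H)) :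
    IsCyclic G ∨ ∃ p : ℕ, p.Prime ∧ Nat.card G = p ^ 2 ∧ Monoid.exponent G = p := by
  by_cases hc : IsCyclic G
  · exact Or.inl hc
  right
  have hz : ¬ IsZGroup G := fun h => hc inferInstance
  rw [isZGroup_iff] at hz
  push Not at hz
  obtain ⟨p, hp, P, hP⟩ := hz
  have := Fact.mk hp
  have htop : ∀ H : Subgroup G, ¬ IsCyclic H → H = ⊤ := by
    intro H hH
    rw [eq_top_iff]
    exact fun x _ => hX H hH (mem_centralizer_iff.2 fun y _ => mul_comm _ _)
  have hG : IsPGroup p G := by
    have := P.isPGroup'
    rw [htop _ hP] at this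
    exact this.of_equiv topEquiv
  have h1 : p ^ 2 ≤ Nat.card (powMonoidHom p : G →* G).ker := by
    by_contra h
    exact hc (H4.isCyclic_of_card_ker_pow_lt hG (not_le.1 h))
  obtain ⟨K, hK, hKc⟩ := H22.exists_le_card_eq_pow (hG.to_subgroup _) h1
  have h2 := htop K (H22.not_isCyclic_of_exponent (p := p) (by rw [hKc]; nlinarith [hp.two_le])
    (fun a ha => hK ha))
  subst h2
  rw [card_top] at hKc
  refine ⟨p, hp, hKc, ?_⟩
  have h3 : Monoid.exponent G ∣ p := Monoid.exponent_dvd_of_forall_pow_eq_one fun g => hK (mem_top g)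
  rcases (Nat.dvd_prime hp).1 h3 with h4 | h4
  · rw [Monoid.exp_eq_one_iff] at h4
    exact absurd (inferInstance : IsCyclic G) hc
  · exact h4

end Cfsg.Agent.S3917
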