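import Cfsg.Statements.S3918
import Cfsg.Agent.H80.Misc
import Cfsg.Agent.H4.Omega
import Cfsg.Agent.H22.PGroupMisc
import Cfsg.Agent.H4.SCN
import Cfsg.Agent.S0126
import Cfsg.Agent.H23.Basic

set_option autoImplicit false
open Cfsg

namespace Cfsg.Agent.S3918

open Subgroup

/-- Say that a group has self-centralizing non-cyclic subgroups when every non-cyclic subgroup H satisfies C_G(H) ≤ H. For an odd prime p, a finite non-abelian p-group has self-centralizing non-cyclic subgroups if and only if it has order p³. -/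
theorem result {G : Type*} [Group G] [Finite G] {p : ℕ} [Fact p.Prime] (hp : p ≠ 2) (hG : IsPGroup p G) (hna : ¬ IsMulCommutative G) :
    (∀ H : Subgroup G, ¬ IsCyclic ↥H → Subgroup.centralizer (H : Set G) ≤ H) ↔ Nat.card G = p ^ 3 := by
  have hpp : p.Prime := Fact.out
  obtain ⟨n, hn⟩ := IsPGroup.iff_card.1 hG
  constructor
  · intro h
    obtain ⟨A, hA, hE, hAc⟩ := S0126.result hp hG (fun h => hna inferInstance)
    have h1 := h A (H22.not_isCyclic_of_exponent (p := p) (by rw [hAc]; nlinarith [hpp.two_le]) hE.2)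
    have h2 := H4.index_centralizer_le hG 2 A hAc
    have h3 := (centralizer (A : Set G)).card_mul_index
    have h4 := Nat.mul_le_mul (card_le_of_le h1) h2
    rw [h3, hAc, hn, ← pow_add, Nat.pow_le_pow_iff_right hpp.one_lt] at h4
    rw [hn]
    congr 1
    by_contra h5
    apply hna
    have h6 : n = 0 ∨ n = 1 ∨ n = 2 := by simp at h4; omega
    rcases h6 with rfl | rfl | rfl
    · have := (Nat.card_eq_one_iff_unique.1 hn).1
      infer_instance
    · have := isCyclic_of_prime_card (hn.trans (pow_one p))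
      infer_instance
    · exact IsPGroup.isMulCommutative_of_card_eq_prime_sq hn
  · intro h H hH x hx
    by_contra hxH
    obtain ⟨k, hk3, hk⟩ := (Nat.dvd_prime_pow hpp).1 (h ▸ H.card_subgroup_dvd_card)
    have h6 : k = 0 ∨ k = 1 ∨ k = 2 ∨ k = 3 := by omega
    rcases h6 with rfl | rfl | rfl | rfl
    · have := (Nat.card_eq_one_iff_unique.1 hk).1
      exact hH inferInstance
    · exact hH (isCyclic_of_prime_card (hk.trans (pow_one p)))
    · have := IsPGroup.isMulCommutative_of_card_eq_prime_sq hk
      have h1 := H4.isMulCommutative_sup_zpowers hx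
      have h2 : H < H ⊔ zpowers x := lt_of_le_of_ne le_sup_left fun e =>
        hxH (e ▸ mem_sup_right (mem_zpowers x))
      have h3 := H22.pow_succ_le_card_of_lt (hG.to_subgroup (H ⊔ zpowers x)) (hk ▸ H23.card_lt_of_lt h2)
      have h4 : H ⊔ zpowers x = ⊤ := eq_top_of_le_card _ (h ▸ h3)
      rw [h4] at h1
      exact hna ⟨⟨fun a b => H23.comm_of_mem h1 (mem_top a) (mem_top b)⟩⟩
    · exact hxH (eq_top_of_card_eq H (hk.trans h.symm) ▸ mem_top x)

end Cfsg.Agent.S3918
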