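import Cfsg.Statements.S3920
import Cfsg.Agent.H80.Misc

set_option autoImplicit false
open Cfsg

namespace Cfsg.Agent.S3920

open Subgroup DihedralGroup

theorem inv_unique {n : ℕ} [NeZero n] {a b : ZMod n} (ha : -a = a) (hb : -b = b) (ha0 : a ≠ 0) (hb0 : b ≠ 0) :
    a = b := by
  have h1 := (ZMod.neg_eq_self_iff a).1 ha
  have h2 := (ZMod.neg_eq_self_iff b).1 hb
  apply ZMod.val_injective
  simp only [ha0, hb0, false_or] at h1 h2
  omega

/-- Say that a group has self-centralizing non-cyclic subgroups when every non-cyclic subgroup H satisfies C_G(H) ≤ H. For n ≥ 3, the dihedral group of order 2n has self-centralizing non-cyclic subgroups if and only if n is odd or a power of 2. -/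
theorem result (n : ℕ) (hn : 3 ≤ n) : (∀ H : Subgroup (DihedralGroup n), ¬ IsCyclic ↥H → Subgroup.centralizer (H : Set (DihedralGroup n)) ≤ H) ↔ (Odd n ∨ ∃ k : ℕ, n = 2 ^ k) := by
  have : NeZero n := ⟨by omega⟩
  constructor
  · intro h
    obtain ⟨k, m, hm, rfl⟩ := Nat.exists_eq_two_pow_mul_odd (n := n) (by omega)
    by_contra hc
    push Not at hc
    have hm1 : m ≠ 1 := by
      rintro rfl
      exact hc.2 k (mul_one _)
    obtain ⟨k, rfl⟩ : ∃ j, k = j + 1 := by
      rcases k with _ | k
      · exact absurd (by simpa using hm) hc.1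
      · exact ⟨k, rfl⟩
    let H : Subgroup (DihedralGroup (2 ^ (k + 1) * m)) :=
      { carrier := {x | ∃ i : ZMod (2 ^ (k + 1) * m), (m : ZMod (2 ^ (k + 1) * m)) * i = 0 ∧ (x = r i ∨ x = sr i)}
        one_mem' := ⟨0, mul_zero _, Or.inl rfl⟩
        mul_mem' := by
          rintro _ _ ⟨i, hi, rfl | rfl⟩ ⟨j, hj, rfl | rfl⟩
          · exact ⟨i + j, by rw [mul_add, hi, hj, add_zero], Or.inl rfl⟩
          · exact ⟨j - i, by rw [mul_sub, hi, hj, sub_zero], Or.inr rfl⟩
          · exact ⟨i + j, by rw [mul_add, hi, hj, add_zero], Or.inr rfl⟩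
          · exact ⟨j - i, by rw [mul_sub, hi, hj, sub_zero], Or.inl rfl⟩
        inv_mem' := by
          rintro _ ⟨i, hi, rfl | rfl⟩
          · exact ⟨-i, by rw [mul_neg, hi, neg_zero], Or.inl rfl⟩
          · exact ⟨i, hi, Or.inr rfl⟩ }
    have hH : ¬ IsCyclic H := by
      intro hcy
      have h1 : (r ((2 ^ (k + 1) : ℕ) : ZMod (2 ^ (k + 1) * m))) ∈ H :=
        ⟨_, by rw [← Nat.cast_mul, mul_comm m, ZMod.natCast_self], Or.inl rfl⟩
      have h2 : (sr 0) ∈ H := ⟨0, mul_zero _, Or.inr rfl⟩
      have h3 := congrArg Subtype.val (hcy.isMulCommutative.is_comm.comm (⟨_, h1⟩ : H) ⟨_, h2⟩)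
      simp only [coe_mul, r_mul_sr, sr_mul_r, sr.injEq, zero_sub, zero_add] at h3
      rw [neg_eq_iff_add_eq_zero, ← Nat.cast_add, ZMod.natCast_eq_zero_iff, ← mul_two] at h3
      have h4 := Nat.le_of_dvd two_pos (Nat.dvd_of_mul_dvd_mul_left (by positivity) h3)
      obtain ⟨t, rfl⟩ := hm
      omega
    have h5 : r ((2 ^ k * m : ℕ) : ZMod (2 ^ (k + 1) * m)) ∈ centralizer (H : Set (DihedralGroup (2 ^ (k + 1) * m))) := by
      rw [mem_centralizer_iff]
      have e : ((2 ^ k * m : ℕ) : ZMod (2 ^ (k + 1) * m)) + ((2 ^ k * m : ℕ) : ZMod (2 ^ (k + 1) * m)) = 0 := by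
        rw [← Nat.cast_add, ZMod.natCast_eq_zero_iff]
        exact Dvd.intro 1 (by ring)
      rintro _ ⟨i, -, rfl | rfl⟩
      · rw [r_mul_r, r_mul_r, add_comm i]
      · rw [r_mul_sr, sr_mul_r, sr.injEq]
        linear_combination e
    obtain ⟨i, hi, h6 | h6⟩ := h H hH h5
    · rw [r.injEq] at h6
      rw [← h6, ← Nat.cast_mul, ZMod.natCast_eq_zero_iff, show m * (2 ^ k * m) = 2 ^ k * m * m by ring,
        show 2 ^ (k + 1) * m = 2 ^ k * m * 2 by ring] at hi
      have h7 := Nat.dvd_of_mul_dvd_mul_left (Nat.mul_pos (by positivity) hm.pos) hi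
      exact (Nat.not_even_iff_odd.2 hm) (even_iff_two_dvd.2 h7)
    · cases h6
  · intro h H hH x hx
    obtain ⟨j, hj⟩ : ∃ j, sr j ∈ H := by
      by_contra h1
      push Not at h1
      apply hH
      have : H ≤ zpowers (r 1) := by
        rintro (i | i) hi
        · exact ⟨(i.val : ℤ), by simp⟩
        · exact absurd hi (h1 i)
      exact isCyclic_of_le this
    obtain ⟨i, hi, hi0⟩ : ∃ i, r i ∈ H ∧ i ≠ 0 := by
      by_contra h1
      push Not at h1
      apply hH
      have : H ≤ zpowers (sr j) := by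
        rintro (i | i) hi
        · rw [h1 i hi]; exact one_mem _
        · have := h1 _ (mul_mem hi hj)
          rw [sub_eq_zero] at this
          rw [← this]; exact mem_zpowers _
      exact isCyclic_of_le this
    have key : ∀ a : ZMod n, -a = a → r a ∈ H := by
      intro a ha
      by_cases ha0 : a = 0
      · rw [ha0]; exact one_mem _
      rcases h with h | ⟨k, rfl⟩
      · have := (ZMod.neg_eq_self_iff a).1 ha
        simp only [ha0, false_or] at this
        obtain ⟨t, rfl⟩ := h
        omega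
      · obtain ⟨s, -, hs⟩ := (Nat.dvd_prime_pow Nat.prime_two).1
          (show addOrderOf i ∣ 2 ^ k by simpa using addOrderOf_dvd_natCard i)
        rcases s with _ | s
        · rw [pow_zero, AddMonoid.addOrderOf_eq_one_iff] at hs
          exact absurd hs hi0
        have h1 : (2 ^ s : ℕ) • i ≠ 0 := by
          intro h1
          have := addOrderOf_dvd_of_nsmul_eq_zero h1
          rw [hs, pow_dvd_pow_iff two_ne_zero (by simp)] at this
          omega
        have h2 : -((2 ^ s : ℕ) • i) = ((2 ^ s : ℕ) • i : ZMod (2 ^ k)) := by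
          rw [neg_eq_iff_add_eq_zero, ← add_nsmul, ← mul_two, ← pow_succ, ← hs, addOrderOf_nsmul_eq_zero]
        have h3 := pow_mem hi (2 ^ s)
        rw [r_pow, mul_comm, ← nsmul_eq_mul] at h3
        rwa [inv_unique ha h2 ha0 h1]
    rw [mem_centralizer_iff] at hx
    rcases x with a | a
    · have := hx _ hj
      rw [r_mul_sr, sr_mul_r, sr.injEq] at this
      exact key a (by linear_combination -this)
    · have := hx _ hj
      rw [sr_mul_sr, sr_mul_sr, r.injEq] at this
      have h1 := mul_mem hj (key (a - j) (by linear_combination -this))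
      rwa [sr_mul_r, add_sub_cancel] at h1

end Cfsg.Agent.S3920
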