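import Cfsg.Statements.S3947
import Cfsg.Agent.H81.Flavell

set_option autoImplicit false
open Cfsg

namespace Cfsg.Agent.S3947

/-- Let G be a finite group and A a proper subgroup of G whose normal closure is G. Let Y be the join of all proper subgroups H of G that contain A and are generated by their own conjugates of A (the normal closure of A in H is H). Then either Y = G, or A is contained in exactly one maximal subgroup of G. -/
theorem result {G : Type*} [Group G] [Finite G] (A : Subgroup G) (hA : Subgroup.normalClosure (A : Set G) = ⊤) (hAG : A ≠ ⊤) :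
    sSup {H : Subgroup G | A ≤ H ∧ H ≠ ⊤ ∧ Subgroup.normalClosure ((A.subgroupOf H : Subgroup ↥H) : Set ↥H) = ⊤} = ⊤ ∨
      ∃! M : Subgroup G, IsCoatom M ∧ A ≤ M := by
  refine or_iff_not_imp_left.2 fun hY => ?_
  obtain ⟨M, hM, hAM⟩ := (eq_top_or_exists_le_coatom _).resolve_left hAG
  refine ⟨M, ⟨hM, hAM⟩, fun K hK => H81.unique_coatom_of_nc _ A _ rfl ⟨le_top, fun L hAL _ hL => ?_⟩
    hAG hY (fun H hH hc => le_sSup ⟨hc.1, hH, (H81.nc_iff hc.1).1 hc⟩) K M hK.1 hM hK.2 hAM⟩
  have := Subgroup.normalizer_eq_top_iff.1 (top_le_iff.1 hL)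
  rw [eq_top_iff, ← hA]
  exact Subgroup.normalClosure_le_normal hAL

end Cfsg.Agent.S3947
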