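import Cfsg.Statements.S3927
import Cfsg.Agent.S3947

set_option autoImplicit false
open Cfsg

namespace Cfsg.Agent.S3927

open Subgroup

universe u

theorem core (k n : ℕ) : ∀ (Γ : Type u) [Group Γ] [Finite Γ], Nat.card Γ = n → ∀ a : Γ,
    normalClosure (zpowers a : Set Γ) = ⊤ →
      closure (Set.range (fun c : Γ => c * (a * c * a⁻¹)⁻¹)^[k]) ⊔ zpowers a = ⊤ := by
  induction n using Nat.strong_induction_on with
  | _ n ih =>
  intro Γ _ _ hn a ha
  by_cases h0 : zpowers a = ⊤
  · rw [h0, sup_top_eq]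
  rcases S3947.result _ ha h0 with h | ⟨M, ⟨hM, haM⟩, hu⟩
  · refine eq_top_iff.2 (h.ge.trans (sSup_le fun H ⟨h1, h2, h3⟩ => ?_))
    have hz : (zpowers a).subgroupOf H = zpowers (⟨a, h1 (mem_zpowers a)⟩ : H) :=
      map_injective H.subtype_injective (by rw [subgroupOf_map_subtype, MonoidHom.map_zpowers, inf_eq_left.2 h1]; rfl)
    have := congrArg (map H.subtype) (ih _ (hn ▸ lt_of_not_ge fun e => h2 (eq_top_of_le_card H e)) H rfl _ (hz ▸ h3))
    rw [← MonoidHom.range_eq_map, range_subtype, Subgroup.map_sup, MonoidHom.map_zpowers, MonoidHom.map_closure] at this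
    refine this.ge.trans (sup_le_sup_right (Subgroup.closure_mono ?_) _)
    rintro _ ⟨_, ⟨c, rfl⟩, rfl⟩
    exact ⟨c, (Function.Semiconj.iterate_right (f := H.subtype) (fun _ => rfl) k c).symm⟩
  by_contra hne
  obtain ⟨M', hM', le⟩ := (eq_top_or_exists_le_coatom _).resolve_left hne
  obtain rfl := hu M' ⟨hM', le_sup_right.trans le⟩
  have a1 : a ∈ M' := haM (mem_zpowers a)
  have step : ∀ c, c * (a * c * a⁻¹)⁻¹ ∈ M' → c ∈ M' := fun c hc => by
    have h1 : c * a * c⁻¹ ∈ M' := by simpa [mul_assoc] using mul_mem hc a1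
    have h2 := hu (M'.comap (MulAut.conj c).toMonoidHom) ⟨(OrderIso.isCoatom_iff (MulAut.conj c).comapSubgroup M').2 hM,
      zpowers_le.2 h1⟩
    have h3 : c ∈ normalizer (M' : Set Γ) := fun x => ⟨fun h => h2.ge h, fun h => h2.le h⟩
    rcases (le_normalizer (H := M')).eq_or_lt with e | e
    · exact e ▸ h3
    · have : M'.Normal := normalizer_eq_top_iff.1 (hM.2 _ e)
      exact absurd (top_le_iff.1 (ha.ge.trans (normalClosure_le_normal haM))) hM.1
  have all : ∀ j c, (fun c : Γ => c * (a * c * a⁻¹)⁻¹)^[j] c ∈ M' → c ∈ M' := fun j => by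
    induction j with
    | zero => exact fun _ h => h
    | succ j ih => exact fun c h => step c (ih _ h)
  exact hM.1 (eq_top_iff.2 fun c _ => all k c (le (mem_sup_left (subset_closure ⟨c, rfl⟩))))

theorem key {H : Type*} [Group H] {x a b : H} (h : b * a = a * b) :
    x * b * (a * (x * b) * a⁻¹)⁻¹ = x * (a * x * a⁻¹)⁻¹ := by
  rw [← mul_assoc a, mul_assoc _ _ a⁻¹, (Commute.inv_right h).eq]; group

open SemidirectProduct in
/-- Let G be a finite group and α an automorphism of G with [G, α] = G, that is, the elements g·α(g)⁻¹ generate G. Then for every k ≥ 1 the iterated commutators [g, α, …, α] with k entries α — the values of the k-th iterate of the map c ↦ c·α(c)⁻¹ — also generate G. -/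
theorem result {G : Type*} [Group G] [Finite G] (α : MulAut G) (hG : Subgroup.closure (Set.range (fun c : G => c * (α c)⁻¹)) = ⊤) (k : ℕ) (hk : 1 ≤ k) :
    Subgroup.closure (Set.range ((fun c : G => c * (α c)⁻¹)^[k])) = ⊤ := by
  let Γ := G ⋊[(zpowers α).subtype] zpowers α
  have : Finite Γ := Finite.of_equiv _ equivProd.symm
  let a : Γ := inr ⟨α, mem_zpowers α⟩
  have cm : ∀ b, inr b * a = a * inr b := by
    rintro ⟨_, i, rfl⟩
    rw [← map_mul, ← map_mul]
    exact congrArg _ (Subtype.ext (Commute.zpow_self α i).eq)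
  have f0 : ∀ g, a * inl g * a⁻¹ = inl (α g) := fun g => by rw [← map_inv]; exact (inl_aut _ g).symm
  have f1 : ∀ c : Γ, c * (a * c * a⁻¹)⁻¹ = inl (c.left * (α c.left)⁻¹) := fun c => by
    rw [map_mul, map_inv, ← f0]
    nth_rw 1 2 [← inl_left_mul_inr_right c]
    exact key (cm _)
  have h1 : normalClosure (zpowers a : Set Γ) = ⊤ := by
    have ha : a ∈ normalClosure (zpowers a : Set Γ) := subset_normalClosure (mem_zpowers a)
    refine eq_top_iff.2 fun x _ => inl_left_mul_inr_right x ▸ mul_mem ?_ ?_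
    · refine ((closure_le ((normalClosure (zpowers a : Set Γ)).comap inl)).2 ?_) (hG.ge (mem_top _))
      rintro _ ⟨c, rfl⟩
      have := mul_mem (normalClosure_normal.conj_mem _ ha (inl c)) (inv_mem ha)
      rw [SetLike.mem_coe, mem_comap, map_mul, map_inv, ← f0]
      simpa [mul_assoc] using this
    · obtain ⟨_, i, rfl⟩ := x.right
      exact subset_normalClosure ⟨i, (map_zpow inr _ i).symm⟩
  set K := Subgroup.closure (Set.range ((fun c : G => c * (α c)⁻¹)^[k]))
  have hK : K ≤ K.comap α.toMonoidHom := (closure_le _).2 <| by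
    rintro _ ⟨c, rfl⟩
    exact subset_closure ⟨α c, (Function.Semiconj.iterate_right (f := α) (fun _ => by simp) k c).symm⟩
  have hK' : ∀ β ∈ zpowers α, ∀ g ∈ K, β g ∈ K := fun β hβ => by
    obtain ⟨m, rfl⟩ := mem_powers_iff_mem_zpowers.2 hβ
    induction m with
    | zero => exact fun _ h => h
    | succ m ih =>
      intro g hg
      beta_reduce
      rw [pow_succ]; exact ih (mem_zpowers_iff.2 ⟨m, by simp⟩) _ (hK hg)
  let L : Subgroup Γ :=
    { carrier := {x | x.left ∈ K}
      one_mem' := one_mem K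
      mul_mem' := fun {x _} hx hy => mul_mem hx (hK' _ x.right.2 _ hy)
      inv_mem' := fun {x} hx => hK' _ x.right⁻¹.2 _ (inv_mem hx) }
  have h2 : (⊤ : Subgroup Γ) ≤ L := (core k _ Γ rfl a h1).ge.trans <| sup_le ((closure_le _).2 <| by
    rintro _ ⟨c, rfl⟩
    obtain ⟨k, rfl⟩ := Nat.exists_eq_add_of_le' hk
    rw [Function.iterate_succ_apply, f1, ← Function.Semiconj.iterate_right (f := (inl : G → Γ))
      (ga := fun c => c * (α c)⁻¹) (gb := fun c => c * (a * c * a⁻¹)⁻¹) (fun g => (f1 (inl g)).symm) k]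
    exact subset_closure ⟨c.left, rfl⟩) (zpowers_le.2 (one_mem K))
  exact eq_top_iff.2 fun g _ => h2 (mem_top (inl g))

end Cfsg.Agent.S3927
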