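import Cfsg.Statements.S3949

set_option autoImplicit false
open Cfsg

namespace Cfsg.Agent.S3949

/-- Let G be a finite group and α an automorphism of G of order 2 such that the elements g·α(g)⁻¹ generate G. Let j be a positive integer such that 2^j divides the order of no element inverted by α. Then the set of values of the j-th iterate of the map c ↦ c·α(c)⁻¹ is exactly the set of elements of odd order inverted by α. -/
theorem result {G : Type*} [Group G] [Finite G] (α : MulAut G) (hα : orderOf α = 2) (hG : Subgroup.closure (Set.range (fun c : G => c * (α c)⁻¹)) = ⊤)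
    (j : ℕ) (hj : ∀ g : G, α g = g⁻¹ → ¬ 2 ^ j ∣ orderOf g) :
    Set.range ((fun c : G => c * (α c)⁻¹)^[j]) = {g : G | Odd (orderOf g) ∧ α g = g⁻¹} := by
  have h2 : ∀ c : G, α (α c) = c := fun c => by
    rw [← MulAut.mul_apply, ← pow_two, ← hα, pow_orderOf_eq_one, MulAut.one_apply]
  have key : ∀ (n : ℕ) (x : G), α x = x⁻¹ → (fun c : G => c * (α c)⁻¹)^[n] x = x ^ 2 ^ n := by
    intro n
    induction n with
    | zero => intro x _; simp
    | succ n ih =>
      intro x hx
      rw [Function.iterate_succ_apply]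
      simp only [hx, inv_inv]
      rw [ih _ (by rw [map_mul, hx, mul_inv_rev]), ← pow_two, ← pow_mul, pow_succ']
  obtain _ | j := j
  · exact absurd (by simp) (hj 1 (by simp))
  ext x
  constructor
  · rintro ⟨c, rfl⟩
    have h3 : α (c * (α c)⁻¹) = (c * (α c)⁻¹)⁻¹ := by
      rw [map_mul, map_inv, h2, mul_inv_rev, inv_inv]
    rw [Function.iterate_succ_apply, key _ _ h3]
    refine ⟨?_, by rw [map_pow, h3, inv_pow]⟩
    have h4 := hj _ h3
    set y := c * (α c)⁻¹
    obtain ⟨k, m, hm, hy⟩ := Nat.exists_eq_two_pow_mul_odd (orderOf_pos y).ne'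
    have hk : k ≤ j := by
      by_contra hk
      exact h4 (hy ▸ (pow_dvd_pow 2 (by omega)).mul_right m)
    refine hm.of_dvd_nat (orderOf_dvd_of_pow_eq_one ?_)
    rw [← pow_mul, ← orderOf_dvd_iff_pow_eq_one, hy]
    exact Nat.mul_dvd_mul_right (pow_dvd_pow 2 hk) m
  · rintro ⟨h3, h4⟩
    obtain ⟨m, hm⟩ := exists_pow_eq_self_of_coprime (x := x) (n := 2 ^ (j + 1))
      (Nat.Coprime.pow_left _ ((Nat.coprime_two_left).2 h3))
    refine ⟨x ^ m, ?_⟩
    rw [key _ _ (by rw [map_pow, h4, inv_pow]), ← pow_mul, mul_comm, pow_mul, hm]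

end Cfsg.Agent.S3949
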