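import Cfsg.Statements.S3928
import Cfsg.Agent.S3927
import Cfsg.Agent.S3949

set_option autoImplicit false
open Cfsg

namespace Cfsg.Agent.S3928

open Subgroup

variable {G : Type*} [Group G] [Finite G]

/-- a bound for the order -/
def bd (s k e : ℕ) : ℕ := s * (s * e) ^ (s * k)

open scoped IsMulCommutative in
theorem card_le_bd {X : Set G} (hX : closure X = ⊤) {s k e : ℕ} (hk : X.ncard ≤ k) (he : 0 < e)
    (hx : ∀ x ∈ X, x ^ e = 1) (hs : (center G).index ≤ s) : Nat.card G ≤ bd s k e := by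
  have s0 : 0 < (center G).index := Nat.pos_of_ne_zero index_ne_zero_of_finite
  have h1 : ∀ g : G, g ^ ((center G).index * e) = 1 := fun g => by
    have := (closure_le ((powMonoidHom e).comp (MonoidHom.transferCenterPow G)).ker).2 (fun x hx' => by
      rw [SetLike.mem_coe, MonoidHom.mem_ker, MonoidHom.comp_apply, powMonoidHom_apply, ← map_pow, hx x hx', map_one])
      (hX.ge (mem_top g))
    rw [pow_mul]
    exact congrArg Subtype.val (MonoidHom.mem_ker.1 this)
  have h2 : Group.rank G ≤ k := (Group.rank_le (S := X.toFinite.toFinset) (by simpa using hX)).trans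
    (by rwa [← Set.ncard_eq_toFinset_card])
  have h3 := Nat.le_of_dvd (by positivity) (card_dvd_exponent_pow_rank' (center G) fun g => Subtype.ext (h1 g))
  rw [← (center G).index_mul_card, bd]
  refine Nat.mul_le_mul hs (h3.trans ((Nat.pow_le_pow_left (Nat.mul_le_mul_right e hs) _).trans
    (Nat.pow_le_pow_right (Nat.mul_pos (s0.trans_le hs) he) ((rank_le_index_mul_rank _).trans (Nat.mul_le_mul hs h2)))))

theorem relIndex_le {X : Set G} {H : Subgroup G} (h : ∀ g ∈ H, ∀ x ∈ X, g * x * g⁻¹ ∈ X) {k : ℕ} (hk : X.ncard ≤ k) :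
    (centralizer X).relIndex H ≤ k.factorial := by
  let _ : MulAction H X :=
    { smul := fun g x => ⟨g * x * g⁻¹, h _ g.2 _ x.2⟩
      one_smul := fun x => Subtype.ext (show (1 : G) * x * 1⁻¹ = x by simp)
      mul_smul := fun a b x => Subtype.ext (show (a * b : G) * x * (a * b : G)⁻¹ = a * (b * x * (b : G)⁻¹) * (a : G)⁻¹ by
        group) }
  have e : (centralizer X).subgroupOf H = (MulAction.toPermHom H X).ker := by
    ext g
    rw [mem_subgroupOf, MonoidHom.mem_ker, Equiv.ext_iff, mem_centralizer_iff]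
    exact ⟨fun k x => Subtype.ext (mul_inv_eq_iff_eq_mul.2 (k x x.2).symm),
      fun k x hx => (mul_inv_eq_iff_eq_mul.1 (congrArg Subtype.val (k ⟨x, hx⟩))).symm⟩
  rw [relIndex, e, index_ker]
  exact (Nat.le_of_dvd Nat.card_pos (card_subgroup_dvd_card _)).trans (by
    rw [Nat.card_perm]; exact Nat.factorial_le hk)

theorem card_closure_le {X : Set G} (h : ∀ g, ∀ x ∈ X, g * x * g⁻¹ ∈ X) {k e : ℕ} (hk : X.ncard ≤ k) (he : 0 < e)
    (hx : ∀ x ∈ X, x ^ e = 1) : Nat.card (closure X) ≤ bd k.factorial k e := by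
  have h1 := closure_preimage_eq_top X
  have h2 : ((closure X).subtype ⁻¹' X).ncard ≤ k :=
    (Set.ncard_le_ncard_of_injOn (t := X) Subtype.val (fun _ h => h) Subtype.val_injective.injOn).trans hk
  refine card_le_bd h1 h2 he (fun x h => Subtype.ext (hx _ h)) ?_
  rw [← centralizer_univ, ← coe_top, ← h1, centralizer_closure, ← relIndex_top_right]
  exact relIndex_le (X := (closure X).subtype ⁻¹' X) (fun g _ x hx => h g x hx) h2

/-- the elements of odd order inverted by `α` -/
def Jv (α : MulAut G) : Set G := {g | Odd (orderOf g) ∧ α g = g⁻¹}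

/-- the fixed points -/
def Fx (α : MulAut G) : Subgroup G := α.toMonoidHom.eqLocus (MonoidHom.id G)

theorem count {α : MulAut G} (h2 : ∀ g, α (α g) = g) {c m : ℕ} (hc : Nat.card (Fx α) ≤ c) (hm : (Jv α).ncard ≤ m)
    (h : ∀ t, t ≠ 1 → t * t = 1 → α t = t → 2 * c * c ≤ (centralizer {t}).index) : Nat.card G ≤ 2 * c * m := by
  classical
  have := Fintype.ofFinite G
  have cs : ∀ K : Subgroup G, (Finset.univ.filter (· ∈ K)).card = Nat.card K := fun K => by
    rw [Nat.card_eq_fintype_card, Fintype.card_subtype]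
  have h1 : Nat.card G ≤ c * (Finset.univ.image fun g => g * (α g)⁻¹).card := by
    rw [Nat.card_eq_fintype_card]
    refine Finset.card_le_mul_card_image _ _ fun w hw => le_trans ?_ (cs _ ▸ hc)
    obtain ⟨g, -, rfl⟩ := Finset.mem_image.1 hw
    refine Finset.card_le_card_of_injOn (g⁻¹ * ·) (fun x hx => ?_) fun _ _ _ _ e => mul_left_cancel e
    have e : x * (α x)⁻¹ = g * (α g)⁻¹ := by simpa using hx
    simp only [Finset.coe_filter, Finset.mem_univ, true_and, Set.mem_ofPred_eq]
    change α (g⁻¹ * x) = g⁻¹ * x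
    rw [map_mul, map_inv, inv_mul_eq_iff_eq_mul, ← mul_assoc, ← mul_inv_eq_iff_eq_mul, ← inv_inj]
    simpa using e
  let S := Finset.univ.filter fun t : G => t ≠ 1 ∧ t * t = 1 ∧ α t = t
  have h3 : (Finset.univ.image fun g => g * (α g)⁻¹) ⊆ (Jv α).toFinset ∪
      S.biUnion fun t => Finset.univ.filter (· ∈ centralizer {t}) := fun w hw => by
    obtain ⟨g, -, e⟩ := Finset.mem_image.1 hw
    have e1 : α w = w⁻¹ := by rw [← e]; simp [h2]
    rcases Nat.even_or_odd (orderOf w) with ⟨r, hr⟩ | ho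
    · have e2 : w ^ r * w ^ r = 1 := by rw [← pow_add, ← hr, pow_orderOf_eq_one]
      have := orderOf_pos w
      refine Finset.mem_union_right _ (Finset.mem_biUnion.2 ⟨w ^ r, by
        simpa [S, e1, e2, eq_inv_of_mul_eq_one_left e2 |>.symm] using pow_ne_one_of_lt_orderOf (by omega) (by omega), ?_⟩)
      simpa using mem_centralizer_singleton_iff.2 (Commute.self_pow w r).eq
    · exact Finset.mem_union_left _ (Set.mem_toFinset.2 ⟨ho, e1⟩)
  have h4 : S.card ≤ c := le_trans (Finset.card_le_card fun t ht => by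
    simpa using show t ∈ Fx α from (Finset.mem_filter.1 ht).2.2.2) (cs _ ▸ hc)
  have h5 := (Finset.card_le_card h3).trans ((Finset.card_union_le ..).trans (Nat.add_le_add
    ((Set.ncard_eq_toFinset_card' _).symm.trans_le hm) Finset.card_biUnion_le))
  have h6 : 2 * c * c * ∑ t ∈ S, (Finset.univ.filter (· ∈ centralizer {t})).card ≤ c * Nat.card G := by
    rw [Finset.mul_sum]
    refine (Finset.sum_le_card_nsmul _ _ _ fun t ht => ?_).trans (Nat.mul_le_mul_right _ h4)
    obtain ⟨-, a1, a2, a3⟩ := Finset.mem_filter.1 ht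
    rw [cs, ← (centralizer {t}).index_mul_card]
    exact Nat.mul_le_mul_right _ (h t a1 a2 a3)
  have c0 : 0 < c := Nat.card_pos.trans_le hc
  refine Nat.le_of_mul_le_mul_left ?_ c0
  nlinarith [Nat.mul_le_mul_left (2 * c) h1, Nat.mul_le_mul_left (2 * c * c) h5]

theorem Jv_quot {α : MulAut G} (h2 : ∀ g, α (α g) = g) (N : Subgroup G) [N.Normal] (hN : N.map α = N) :
    Jv (QuotientGroup.congr N N α hN) = QuotientGroup.mk' N '' Jv α := by
  refine Set.Subset.antisymm (fun y ⟨⟨r, hr⟩, hy⟩ => ?_) ?_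
  · obtain ⟨g, hg⟩ := QuotientGroup.mk'_surjective N (y ^ (r + 1))
    have e1 : QuotientGroup.mk' N (g * (α g)⁻¹) = y := by
      rw [map_mul, map_inv, ← QuotientGroup.congr_mk' N N α hN, hg, map_pow, hy, inv_pow, inv_inv, ← pow_add,
        show r + 1 + (r + 1) = orderOf y + 1 by omega, pow_succ, pow_orderOf_eq_one, one_mul]
    have e2 : α (g * (α g)⁻¹) = (g * (α g)⁻¹)⁻¹ := by simp [h2]
    generalize g * (α g)⁻¹ = w at e1 e2
    obtain ⟨k, u, hu, e⟩ := Nat.exists_eq_two_pow_mul_odd (orderOf_pos w).ne'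
    obtain ⟨l, hl⟩ := Nat.exists_eq_add_of_le' (Nat.totient_pos.2 (orderOf_pos y))
    refine ⟨w ^ (2 ^ k) ^ (orderOf y).totient, ⟨hu.of_dvd_nat (orderOf_dvd_of_pow_eq_one ?_), by simp [e2]⟩, ?_⟩
    · rw [hl, pow_succ, ← pow_mul, mul_assoc, ← e, mul_comm, pow_mul, pow_orderOf_eq_one, one_pow]
    · rw [map_pow, e1]
      exact (pow_eq_pow_iff_modEq.2 (Nat.ModEq.pow_totient
        (Nat.Coprime.pow_left k (Nat.coprime_two_left.2 ⟨r, hr⟩)))).trans (pow_one y)
  · rintro _ ⟨g, ⟨h1, h3⟩, rfl⟩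
    exact ⟨h1.of_dvd_nat (orderOf_map_dvd _ g), by rw [QuotientGroup.congr_mk', h3, map_inv]⟩

theorem quot {α : MulAut G} (h2 : ∀ g, α (α g) = g) (hJ : closure (Jv α) = ⊤) (N : Subgroup G) [N.Normal]
    (hN : N.map α = N) : (∀ g, QuotientGroup.congr N N α hN (QuotientGroup.congr N N α hN g) = g) ∧
      closure (Jv (QuotientGroup.congr N N α hN)) = ⊤ :=
  ⟨fun g => by
    obtain ⟨g, rfl⟩ := QuotientGroup.mk'_surjective N g
    rw [QuotientGroup.congr_mk', QuotientGroup.congr_mk', h2], by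
    rw [Jv_quot h2, ← MonoidHom.map_closure, hJ, map_top_of_surjective _ (QuotientGroup.mk'_surjective N)]⟩

/-- the bound -/
def ff : ℕ → ℕ
  | 0 => 0
  | m + 1 => bd (2 * (m + 1).factorial * (m + 1) +
      ff m * bd (2 * (m + 1).factorial * (m + 1).factorial).factorial (2 * (m + 1).factorial * (m + 1).factorial) 2)
      (m + 1) (m + 1).factorial

theorem main (m : ℕ) : ∀ (G : Type) [Group G] [Finite G] (α : MulAut G), (∀ g, α (α g) = g) → closure (Jv α) = ⊤ →
    (Jv α).ncard ≤ m → Nat.card G ≤ ff m := by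
  induction m with
  | zero =>
    intro G _ _ α _ _ h
    exact absurd ((Set.ncard_pos (s := Jv α)).2 ⟨1, by simp [Jv]⟩) (by omega)
  | succ m ih =>
  intro G _ _ α h2 hJ hm
  have cJ : centralizer (Jv α) = center G := by rw [← centralizer_closure, hJ, coe_top, centralizer_univ]
  refine card_le_bd hJ hm (Nat.factorial_pos _) (fun x hx => orderOf_dvd_iff_pow_eq_one.1
    (Nat.dvd_factorial (orderOf_pos x) (le_trans ?_ hm))) ?_
  · rw [← Nat.card_zpowers]
    refine Set.ncard_le_ncard (s := (zpowers x : Set G)) ?_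
    rintro _ ⟨i, rfl⟩
    exact ⟨hx.1.of_dvd_nat (orderOf_dvd_of_mem_zpowers ⟨i, rfl⟩), by simp [hx.2]⟩
  have hZ : (center G).map α = center G := characteristic_iff_map_eq.1 inferInstance α
  obtain ⟨k2, kJ⟩ := quot h2 hJ _ hZ
  have kq := Jv_quot h2 _ hZ
  have kmk := QuotientGroup.congr_mk' _ _ α hZ
  generalize QuotientGroup.congr _ _ α hZ = β at k2 kJ kq kmk
  have km : (Jv β).ncard ≤ m + 1 := kq ▸ (Set.ncard_image_le).trans hm
  have kc : Nat.card (Fx β) ≤ (m + 1).factorial := by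
    rw [← map_comap_eq_self_of_surjective (QuotientGroup.mk'_surjective _) (Fx β), ← relIndex_ker,
      QuotientGroup.ker_mk']
    refine (congrArg (relIndex · _) cJ).ge.trans <| relIndex_le (X := Jv α) (fun g hg x hx => ⟨by rw [← MulAut.conj_apply, MulEquiv.orderOf_eq]; exact hx.1, ?_⟩) hm
    obtain ⟨z, hz, e⟩ := (QuotientGroup.mk'_eq_mk' _).1 ((kmk g).symm.trans hg).symm
    rw [map_mul, map_mul, map_inv, hx.2, ← e, mul_assoc g, ← mem_center_iff.1 hz]; group
  rw [index]
  by_cases h : ∀ t, t ≠ 1 → t * t = 1 → β t = t →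
    2 * (m + 1).factorial * (m + 1).factorial ≤ (centralizer {t}).index
  · exact (count k2 kc km h).trans (Nat.le_add_right ..)
  push Not at h
  obtain ⟨t, t1, t2, t3, t4⟩ := h
  have hT : (normalClosure {t}).map β = normalClosure {t} := by
    rw [map_normalClosure _ _ β.surjective, Set.image_singleton]; exact congrArg (normalClosure {·}) t3
  obtain ⟨l2, lJ⟩ := quot k2 kJ _ hT
  rw [← (normalClosure {t}).index_mul_card]
  refine (Nat.mul_le_mul (ih _ _ l2 lJ (Nat.le_of_lt_succ (lt_of_lt_of_le ?_ km))) ?_).trans (Nat.le_add_left ..)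
  · rw [Jv_quot k2]
    refine (Set.ncard_image_le).lt_of_ne fun e => t1 ?_
    obtain ⟨x, rfl⟩ := QuotientGroup.mk'_surjective _ t
    refine (QuotientGroup.eq_one_iff x).2 (cJ ▸ fun j hj => ?_)
    have hj' : QuotientGroup.mk' _ j ∈ Jv β := kq ▸ ⟨j, hj, rfl⟩
    have e0 : QuotientGroup.mk' (normalClosure {QuotientGroup.mk' (center G) x}) (QuotientGroup.mk' _ x) = 1 :=
      (QuotientGroup.eq_one_iff _).2 (subset_normalClosure rfl)
    have e1 := Set.injOn_of_ncard_image_eq e (Set.toFinite _)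
      (show QuotientGroup.mk' _ x * QuotientGroup.mk' _ j * (QuotientGroup.mk' _ x)⁻¹ ∈ Jv β from ⟨by
        rw [← MulAut.conj_apply, MulEquiv.orderOf_eq]; exact hj'.1, by
        rw [map_mul, map_mul, map_inv, t3, hj'.2]; group⟩) hj' (by
        rw [map_mul, map_mul, map_inv, e0, one_mul, inv_one, mul_one])
    rw [← map_inv, ← map_mul, ← map_mul] at e1
    obtain ⟨z, hz, e2⟩ := (QuotientGroup.mk'_eq_mk' _).1 e1.symm
    have e3 : x * x ∈ center G := (QuotientGroup.eq_one_iff _).1 t2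
    have e4 : z * z = 1 := by
      have : x * x * j * (x * x)⁻¹ = j * (z * z) := by
        rw [← mul_assoc j, e2, show x * x * j * (x * x)⁻¹ = x * (x * j * x⁻¹) * x⁻¹ by group]
        nth_rw 1 [← e2]
        rw [mul_assoc _ x⁻¹, mem_center_iff.1 hz x⁻¹]; group
      rwa [← mem_center_iff.1 e3, mul_inv_cancel_right, left_eq_mul] at this
    have e5 : z ^ orderOf j = 1 := by
      have := congrArg (· ^ orderOf j) e2
      simpa [conj_pow, (show Commute j z from mem_center_iff.1 hz j).mul_pow] using this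
    obtain ⟨r, hr⟩ := hj.1
    rw [hr, pow_succ, pow_mul, sq, e4, one_pow, one_mul] at e5
    rw [e5, mul_one] at e2
    exact mul_inv_eq_iff_eq_mul.1 e2.symm |>.symm
  · refine card_closure_le (fun g x hx => Group.conj_mem_conjugatesOfSet hx) (le_trans ?_ t4.le) two_pos fun x hx => ?_
    · refine (Set.ncard_le_ncard (t := (fun q : _ ⧸ centralizer {t} => q.out * t * q.out⁻¹) '' Set.univ)
        fun x hx => ?_).trans ((Set.ncard_image_le).trans (Set.ncard_univ _).le)
      obtain ⟨t, rfl, e⟩ := Group.mem_conjugatesOfSet_iff.1 hx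
      obtain ⟨g, rfl⟩ := isConj_iff.1 e
      obtain ⟨⟨c, hc⟩, e⟩ := QuotientGroup.mk_out_eq_mul (centralizer {t}) g
      exact ⟨g, trivial, by
        simp only [e]; rw [mul_assoc g, mem_centralizer_singleton_iff.1 hc]; group⟩
    · obtain ⟨_, rfl, e⟩ := Group.mem_conjugatesOfSet_iff.1 hx
      obtain ⟨g, rfl⟩ := isConj_iff.1 e
      rw [conj_pow, sq, t2]; simp

/-- There is a function f such that for every non-trivial finite group G and every automorphism α of G of order 2 with [G, α] = G (the elements g·α(g)⁻¹ generate G), the order of G is at most f(m), where m is the number of elements of odd order inverted by α. -/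
theorem result : ∃ f : ℕ → ℕ, ∀ (G : Type) [Group G] [Finite G] [Nontrivial G] (α : MulAut G), orderOf α = 2 →
    Subgroup.closure (Set.range (fun c : G => c * (α c)⁻¹)) = ⊤ →
      Nat.card G ≤ f (Nat.card {g : G // Odd (orderOf g) ∧ α g = g⁻¹}) := by
  refine ⟨ff, fun G _ _ _ α h2 hG => main _ G α (fun g => ?_) ?_ le_rfl⟩
  · rw [← MulAut.mul_apply, ← sq, ← h2, pow_orderOf_eq_one, MulAut.one_apply]
  · exact (congrArg Subgroup.closure (S3949.result α h2 hG (Nat.card G) fun g _ e => (Nat.le_of_dvd Nat.card_pos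
      (e.trans (orderOf_dvd_natCard g))).not_gt Nat.lt_two_pow_self)).symm.trans (S3927.result α hG _ Nat.card_pos)

end Cfsg.Agent.S3928
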