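import Cfsg.Statements.S3933
import Cfsg.Agent.H85.SylowCount
import Cfsg.Agent.H5.Burnside

set_option autoImplicit false
open Cfsg

namespace Cfsg.Agent.S3933

open Pointwise

universe u

theorem dvd_normal {G : Type*} [Group G] [Finite G] (N : Subgroup G) [N.Normal] (p : ℕ)
    [Fact p.Prime] : Nat.card (Sylow p N) ∣ Nat.card (Sylow p G) := by
  obtain ⟨P⟩ : Nonempty (Sylow p G) := inferInstance
  have hi : ¬ p ∣ ((P : Subgroup G) ⊓ N).relIndex N := by
    rw [Subgroup.inf_relIndex_right]
    exact H85.not_dvd_relIndex_sylow_normal P N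
  have hQ : IsPGroup p ((P : Subgroup G) ⊓ N : Subgroup G) := P.isPGroup'.to_le inf_le_left
  rw [H85.card_sylow_subgroup inf_le_right hQ hi, P.card_eq_index_normalizer]
  obtain ⟨R, hR⟩ := H85.exists_sylow_subgroupOf hQ hi
  have hF := R.normalizer_sup_eq_top
  rw [hR, Subgroup.subgroupOf_map_subtype, inf_assoc, inf_idem, sup_comm] at hF
  rw [← H85.relIndex_sup_of_normal, hF, Subgroup.relIndex_top_right]
  apply Subgroup.index_dvd_of_le
  intro g hg
  change g ∈ Subgroup.normalizer ((P : Subgroup G) : Set G) at hg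
  rw [Subgroup.mem_normalizer_iff] at hg ⊢
  intro x
  have h1 := hg x
  simp only [SetLike.mem_coe, Subgroup.mem_inf] at h1 ⊢
  constructor
  · rintro ⟨a, b⟩
    exact ⟨h1.1 a, Subgroup.Normal.conj_mem inferInstance _ b g⟩
  · rintro ⟨a, b⟩
    refine ⟨h1.2 a, ?_⟩
    have := Subgroup.Normal.conj_mem (inferInstance : N.Normal) _ b g⁻¹
    simpa [mul_assoc] using this

theorem dvd_quot {G : Type*} [Group G] [Finite G] (N : Subgroup G) [N.Normal] (p : ℕ)
    [Fact p.Prime] : Nat.card (Sylow p (G ⧸ N)) ∣ Nat.card (Sylow p G) := by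
  obtain ⟨P⟩ : Nonempty (Sylow p G) := inferInstance
  rw [H85.card_sylow_eq_mul (QuotientGroup.mk' N) (QuotientGroup.mk'_surjective N) P]
  exact Dvd.intro _ rfl

theorem pp_of_dvd {m n : ℕ} (h : n = 1 ∨ IsPrimePow n) (hd : m ∣ n) : m = 1 ∨ IsPrimePow m := by
  rcases h with rfl | h
  · exact Or.inl (Nat.dvd_one.1 hd)
  · obtain ⟨r, k, hr, hk, rfl⟩ := (isPrimePow_nat_iff _).1 h
    obtain ⟨j, -, rfl⟩ := (Nat.dvd_prime_pow hr).1 hd
    rcases Nat.eq_zero_or_pos j with rfl | hj
    · simp
    · exact Or.inr ((isPrimePow_nat_iff _).2 ⟨r, j, hr, hj, rfl⟩)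

/-- key step: in a simple group, coprime Sylow numbers force divisibility. -/
theorem key {G : Type*} [Group G] [Finite G] [IsSimpleGroup G] {p q : ℕ} [Fact p.Prime]
    [Fact q.Prime] (hp : p ∣ Nat.card G) (hq1 : Nat.card (Sylow q G) ≠ 1)
    (hc : (Nat.card (Sylow p G)).Coprime (Nat.card (Sylow q G))) :
    p ∣ Nat.card (Sylow q G) := by
  by_contra hnd
  obtain ⟨P⟩ : Nonempty (Sylow p G) := inferInstance
  obtain ⟨Q⟩ : Nonempty (Sylow q G) := inferInstance
  set A := Subgroup.normalizer ((P : Subgroup G) : Set G) with hA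
  set B := Subgroup.normalizer ((Q : Subgroup G) : Set G) with hB
  have hAi : Nat.card (Sylow p G) = A.index := P.card_eq_index_normalizer
  have hBi : Nat.card (Sylow q G) = B.index := Q.card_eq_index_normalizer
  -- B is transitive on Sylow p-subgroups, each of them lies in B
  have hPB : ∃ P' : Sylow p G, (P' : Subgroup G) ≤ B := by
    obtain ⟨R⟩ : Nonempty (Sylow p B) := inferInstance
    have hR : IsPGroup p ((R : Subgroup B).map B.subtype) := R.isPGroup'.map _
    have hidx : ¬ p ∣ ((R : Subgroup B).map B.subtype).index := by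
      rw [Subgroup.index_map_subtype]
      intro h
      rcases (Nat.Prime.dvd_mul Fact.out).1 h with h | h
      · exact R.not_dvd_index h
      · exact hnd (hBi ▸ h)
    exact ⟨hR.toSylow hidx, Subgroup.map_subtype_le _⟩
  obtain ⟨P', hP'⟩ := hPB
  set A' := Subgroup.normalizer ((P' : Subgroup G) : Set G) with hA'
  have hAi' : Nat.card (Sylow p G) = A'.index := P'.card_eq_index_normalizer
  have h1 : Nat.card (Sylow p B) = A'.relIndex B := H85.card_sylow_of_le P' hP'
  -- relIndex A' B = index A'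
  have h2 : A'.index ∣ A'.relIndex B := by
    have e1 : (A' ⊓ B).index = A'.relIndex B * B.index := by
      rw [← Subgroup.inf_relIndex_right, Subgroup.relIndex_mul_index inf_le_right]
    have e2 : A'.index ∣ A'.relIndex B * B.index := e1 ▸ Subgroup.index_dvd_of_le inf_le_left
    exact (Nat.Coprime.dvd_mul_right (hAi' ▸ hBi ▸ hc)).1 e2
  -- every Sylow p lies in B
  have hall : ∀ P'' : Sylow p G, (P'' : Subgroup G) ≤ B := by
    let f : B ⧸ A'.subgroupOf B → G ⧸ A' := fun x => Quotient.liftOn' x (fun b => ((b : G) : G ⧸ A')) (by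
      intro a b hab
      rw [QuotientGroup.leftRel_apply] at hab
      exact QuotientGroup.eq.2 hab)
    have hinj : Function.Injective f := by
      intro x y
      induction x using QuotientGroup.induction_on with
      | H a =>
      induction y using QuotientGroup.induction_on with
      | H b =>
      intro hxy
      have h3 : ((a : G) : G ⧸ A') = ((b : G) : G ⧸ A') := hxy
      have h4 : (a : G)⁻¹ * b ∈ A' := QuotientGroup.eq.1 h3
      exact QuotientGroup.eq.2 (Subgroup.mem_subgroupOf.2 h4)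
    have hle : A'.relIndex B ≤ A'.index := Nat.card_le_card_of_injective f hinj
    have hne : A'.relIndex B ≠ 0 := Subgroup.FiniteIndex.index_ne_zero
    have heq : Nat.card (B ⧸ A'.subgroupOf B) = Nat.card (G ⧸ A') :=
      le_antisymm hle (Nat.le_of_dvd (Nat.pos_of_ne_zero hne) h2)
    have hsurj : Function.Surjective f := ((Nat.bijective_iff_injective_and_card f).2 ⟨hinj, heq⟩).2
    intro P''
    obtain ⟨g, rfl⟩ := MulAction.exists_smul_eq G P' P''
    obtain ⟨x, hx⟩ := hsurj (g : G ⧸ A')
    induction x using QuotientGroup.induction_on with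
    | H b =>
    have hx' : ((b : G) : G ⧸ A') = (g : G ⧸ A') := hx
    have hb : (b : G)⁻¹ * g ∈ A' := QuotientGroup.eq.1 hx'
    have hg : g = b * ((b : G)⁻¹ * g) := by group
    rw [hg, mul_smul, Sylow.smul_eq_iff_mem_normalizer.2 hb]
    intro y hy
    rw [Sylow.coe_subgroup_smul, Subgroup.mem_pointwise_smul_iff_inv_smul_mem] at hy
    have := B.mul_mem (B.mul_mem b.2 (hP' hy)) (B.inv_mem b.2)
    simpa [mul_assoc] using this
  have hcore : (P' : Subgroup G) ≤ B.normalCore := by
    intro y hy g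
    apply hall (g • P')
    rw [Sylow.coe_subgroup_smul]
    exact Subgroup.smul_mem_pointwise_smul y (MulAut.conj g) _ hy
  rcases (inferInstance : B.normalCore.Normal).eq_bot_or_eq_top with h | h
  · have : (P' : Subgroup G) = ⊥ := le_bot_iff.1 (h ▸ hcore)
    exact P'.ne_bot_of_dvd_card hp this
  · have : B = ⊤ := top_le_iff.1 (h ▸ B.normalCore_le)
    rw [this, Subgroup.index_top] at hBi
    exact hq1 hBi

theorem simple_case {G : Type*} [Group G] [Finite G] [IsSimpleGroup G]
    (h : ∀ (r : ℕ) [Fact r.Prime], Nat.card (Sylow r G) = 1 ∨ IsPrimePow (Nat.card (Sylow r G))) :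
    Group.IsSolvable G := by
  by_contra hns
  -- Sylow numbers are not 1
  have hne : ∀ (r : ℕ) [Fact r.Prime], r ∣ Nat.card G → Nat.card (Sylow r G) ≠ 1 := by
    intro r _ hr h1
    obtain ⟨P⟩ : Nonempty (Sylow r G) := inferInstance
    rw [P.card_eq_index_normalizer, Subgroup.index_eq_one] at h1
    have hn : (P : Subgroup G).Normal := Subgroup.normalizer_eq_top_iff.1 h1
    rcases hn.eq_bot_or_eq_top with hb | ht
    · exact P.ne_bot_of_dvd_card hr hb
    · apply hns
      have hG : IsPGroup r G := by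
        have := P.isPGroup'
        rw [ht] at this
        exact this.of_equiv Subgroup.topEquiv
      obtain ⟨k, hk⟩ := IsPGroup.iff_card.1 hG
      exact H5.isSolvable_of_card_dvd_prime_pow_mul (p := r) (q := r) (a := k) (b := 0) Fact.out Fact.out
        (by simp [hk])
  have hdata : ∀ (r : ℕ), r.Prime → r ∣ Nat.card G → ∃ s k : ℕ, s.Prime ∧ 0 < k ∧ s ≠ r ∧
      s ∣ Nat.card G ∧ Nat.card (Sylow r G) = s ^ k := by
    intro r hr hd
    have : Fact r.Prime := ⟨hr⟩
    rcases h r with h1 | h1
    · exact absurd h1 (hne r hd)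
    · obtain ⟨s, k, hs, hk, he⟩ := (isPrimePow_nat_iff _).1 h1
      refine ⟨s, k, hs, hk, ?_, ?_, he.symm⟩
      · rintro rfl
        exact not_dvd_card_sylow s G (he ▸ dvd_pow_self s hk.ne')
      · obtain ⟨P⟩ : Nonempty (Sylow r G) := inferInstance
        have : Nat.card (Sylow r G) ∣ Nat.card G := by
          rw [P.card_eq_index_normalizer]; exact Subgroup.index_dvd_card _
        exact (dvd_pow_self s hk.ne').trans (he ▸ this)
  have hpair : ∀ (p q a b i j : ℕ), p.Prime → q.Prime → a.Prime → b.Prime → p ∣ Nat.card G →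
      q ∣ Nat.card G → Nat.card (Sylow p G) = a ^ i → Nat.card (Sylow q G) = b ^ j →
      a = b ∨ p = b := by
    intro p q a b i j hp hq ha hb hpd hqd e1 e2
    have : Fact p.Prime := ⟨hp⟩
    have : Fact q.Prime := ⟨hq⟩
    by_cases hab : a = b
    · exact Or.inl hab
    · right
      have := key (p := p) (q := q) hpd (hne q hqd)
        (by rw [e1, e2]; exact Nat.coprime_pow_primes _ _ ha hb hab)
      rw [e2] at this
      exact (Nat.prime_dvd_prime_iff_eq hp hb).1 (hp.dvd_of_dvd_pow this)
  have hG1 : Nat.card G ≠ 1 := Finite.one_lt_card.ne'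
  obtain ⟨p, hp, hpd⟩ := Nat.exists_prime_and_dvd hG1
  obtain ⟨a, i, ha, -, hap, had, e1⟩ := hdata p hp hpd
  obtain ⟨b, j, hb, -, hba, -, e2⟩ := hdata a ha had
  have hbp : p = b := by
    rcases hpair p a a b i j hp ha ha hb hpd had e1 e2 with h1 | h1
    · exact absurd h1.symm hba
    · exact h1
  subst hbp
  have hall : ∀ q : ℕ, q.Prime → q ∣ Nat.card G → q = p ∨ q = a := by
    intro q hq hqd
    by_contra hc
    push Not at hc
    obtain ⟨c, k, hc', -, -, -, e3⟩ := hdata q hq hqd
    rcases hpair q p c a k i hq hp hc' ha hqd hpd e3 e1 with h1 | h1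
    · rcases hpair q a c p k j hq ha hc' hp hqd had e3 e2 with h2 | h2
      · exact hap (h1.symm.trans h2)
      · exact hc.1 h2
    · exact hc.2 h1
  apply hns
  refine H5.isSolvable_of_card_dvd_prime_pow_mul hp ha (a := Nat.card G) (b := Nat.card G) ?_
  have h0 : Nat.card G ≠ 0 := Nat.card_pos.ne'
  refine (Nat.dvd_iff_prime_pow_dvd_dvd _ _).2 ?_
  intro q k hq hk
  rcases Nat.eq_zero_or_pos k with rfl | hk0
  · simp
  have hle : k ≤ Nat.card G :=
    ((Nat.lt_pow_self hq.one_lt).le).trans (Nat.le_of_dvd Nat.card_pos hk)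
  rcases hall q hq ((dvd_pow_self q hk0.ne').trans hk) with rfl | rfl
  · exact (pow_dvd_pow _ hle).trans (Dvd.intro _ rfl)
  · exact (pow_dvd_pow _ hle).trans (Dvd.intro_left _ rfl)
  
theorem main (n : ℕ) : ∀ (G : Type u) [Group G] [Finite G], Nat.card G = n →
    (∀ (r : ℕ) [Fact r.Prime], Nat.card (Sylow r G) = 1 ∨ IsPrimePow (Nat.card (Sylow r G))) →
    Group.IsSolvable G := by
  induction n using Nat.strong_induction_on with
  | _ n ih =>
  intro G _ _ hn h
  rcases subsingleton_or_nontrivial G with hs | hs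
  · infer_instance
  by_cases hsim : ∀ N : Subgroup G, N.Normal → N = ⊥ ∨ N = ⊤
  · have : IsSimpleGroup G := ⟨hsim⟩
    exact simple_case h
  push Not at hsim
  obtain ⟨N, hN, hb, ht⟩ := hsim
  have hmul := N.card_mul_index
  have hN1 : 1 < Nat.card N := (Subgroup.one_lt_card_iff_ne_bot N).2 hb
  have hI1 : 1 < N.index := Subgroup.one_lt_index_of_ne_top ht
  have h1 : Group.IsSolvable N := ih (Nat.card N) (by nlinarith) N rfl
    (fun r _ => pp_of_dvd (h r) (dvd_normal N r))
  have h2 : Group.IsSolvable (G ⧸ N) := ih (Nat.card (G ⧸ N)) (by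
      change N.index < n; nlinarith) (G ⧸ N) rfl
    (fun r _ => pp_of_dvd (h r) (dvd_quot N r))
  exact Group.isSolvable_of_ker_le_range N.subtype (QuotientGroup.mk' N) (by simp)


/-- If for every prime r the number of Sylow r-subgroups of the finite group G is a prime power or 1, then G is solvable. -/
theorem result {G : Type*} [Group G] [Finite G] (h : ∀ (r : ℕ) [Fact r.Prime], Nat.card (Sylow r G) = 1 ∨ IsPrimePow (Nat.card (Sylow r G))) :
    Group.IsSolvable G := by
  exact main _ G rfl h

end Cfsg.Agent.S3933
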