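import Cfsg.Statements.S3937
import Cfsg.Agent.H2.Zipper
import Cfsg.Agent.H44.Cores
import Cfsg.Agent.H48.Base
import Cfsg.Agent.H2.Basic

set_option autoImplicit false
open Cfsg

namespace Cfsg.Agent.S3937


open Subgroup

theorem isNilpotent_zpowers {G : Type*} [Group G] (x : G) : Group.IsNilpotent (zpowers x) :=
  letI := IsCyclic.commGroup (α := zpowers x)
  CommGroup.isNilpotent

theorem foldl_eq {G : Type*} [Group G] (g : G) (n : ℕ) (x : G) :
    (List.replicate n g).foldl (fun a b => a * b * a⁻¹ * b⁻¹) x =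
      (fun a => a * g * a⁻¹ * g⁻¹)^[n] x := by
  induction n generalizing x with
  | zero => rfl
  | succ n ih => rw [List.replicate_succ, List.foldl_cons, ih, Function.iterate_succ_apply]

theorem subnormal_of_mem_fitting {G : Type*} [Group G] [Finite G] {g : G}
    (h : g ∈ fittingSubgroup G) : (zpowers g).IsSubnormal :=
  IsSubnormal.trans (zpowers_le.2 h) (H48.isSubnormal_of_nil H44.fitting_isNilpotent)
    (Normal.isSubnormal inferInstance)

theorem baer {G : Type*} [Group G] [Finite G] : ∀ g : G,
    (∀ x : G, ∃ n : ℕ, (fun a => a * g * a⁻¹ * g⁻¹)^[n] x = 1) → g ∈ fittingSubgroup G := by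
  refine H2.card_induction (P := fun G _ _ => ∀ g : G,
    (∀ x : G, ∃ n : ℕ, (fun a => a * g * a⁻¹ * g⁻¹)^[n] x = 1) → g ∈ fittingSubgroup G) G ?_
  intro G _ _ ih g hg
  by_cases hS : (zpowers g).IsSubnormal
  · exact H44.le_fitting_of_subnormal hS (isNilpotent_zpowers g) (mem_zpowers g)
  exfalso
  have hsub : ∀ H : Subgroup G, H ≠ ⊤ → zpowers g ≤ H → ((zpowers g).subgroupOf H).IsSubnormal := by
    intro H hH hle
    have hgH : g ∈ H := hle (mem_zpowers g)
    have h1 := ih H (H2.card_lt_of_ne_top hH) ⟨g, hgH⟩ fun x => by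
      obtain ⟨n, hn⟩ := hg x
      refine ⟨n, Subtype.ext ?_⟩
      rw [OneMemClass.coe_one, ← hn]
      clear hn
      induction n with
      | zero => rfl
      | succ n ihn =>
        rw [Function.iterate_succ_apply', Function.iterate_succ_apply', ← ihn]
        rfl
    have h2 : (zpowers g).subgroupOf H = zpowers (⟨g, hgH⟩ : H) := by
      apply map_injective H.subtype_injective
      rw [map_subgroupOf_eq_of_le hle, MonoidHom.map_zpowers]
      rfl
    rw [h2]
    exact subnormal_of_mem_fitting h1
  have hne : zpowers g ≠ ⊤ := fun h => hS (h ▸ IsSubnormal.top)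
  obtain ⟨M, hM, hgM⟩ := (eq_top_or_exists_le_coatom (zpowers g)).resolve_left hne
  have hN : normalizer (M : Set G) = M := by
    rcases (le_normalizer (H := M)).lt_or_eq with h | h
    · exact absurd (IsSubnormal.trans hgM (hsub M hM.1 hgM)
        (normalizer_eq_top_iff.1 (hM.2 _ h)).isSubnormal) hS
    · exact h.symm
  have step : ∀ y : G, y * g * y⁻¹ * g⁻¹ ∈ M → y ∈ M := by
    intro y hy
    have h1 : y * g * y⁻¹ ∈ M := by simpa using M.mul_mem hy (hgM (mem_zpowers g))
    have h2 : M = M.comap (MulAut.conj y).toMonoidHom :=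
      H2.zipper _ hsub hS hM ((OrderIso.isCoatom_iff (MulAut.conj y).comapSubgroup M).2 hM) hgM
        (zpowers_le.2 h1)
    rw [← hN, mem_normalizer_iff]
    intro h
    exact SetLike.ext_iff.1 h2 h
  refine hM.1 (eq_top_iff.2 fun x _ => ?_)
  obtain ⟨n, hn⟩ := hg x
  have : (fun a => a * g * a⁻¹ * g⁻¹)^[n] x ∈ M := hn ▸ M.one_mem
  clear hn
  induction n with
  | zero => exact this
  | succ n ihn =>
    rw [Function.iterate_succ_apply'] at this
    exact ihn (step _ this)

/-- Baer's characterization of the Fitting subgroup: in a finite group G, an element g lies in the Fitting subgroup if and only if g is a left Engel element, that is, for every x there is n with [x, g, g, …, g] = 1 (n entries g, [a, b] = aba⁻¹b⁻¹). -/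
theorem result {G : Type*} [Group G] [Finite G] (g : G) :
    g ∈ Cfsg.fittingSubgroup G ↔ ∀ x : G, ∃ n : ℕ, (List.replicate n g).foldl (fun a b => a * b * a⁻¹ * b⁻¹) x = 1 := by
  simp only [foldl_eq]
  refine ⟨fun hg x => ?_, baer g⟩
  obtain ⟨n, hn⟩ := (isNilpotent_iff_lowerCentralSeries _).1 (H44.fitting_isNilpotent (G := G))
  have key : ∀ k, (fun a => a * g * a⁻¹ * g⁻¹)^[k + 1] x ∈
      (fittingSubgroup G).lowerCentralSeries k := by
    intro k
    induction k with
    | zero =>
      exact mul_mem ((inferInstance : (fittingSubgroup G).Normal).conj_mem g hg x) (inv_mem hg)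
    | succ k ih =>
      rw [Function.iterate_succ_apply', Subgroup.lowerCentralSeries_succ]
      exact commutator_mem_commutator ih hg
  exact ⟨n + 1, by simpa [hn] using key n⟩

end Cfsg.Agent.S3937
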