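import Cfsg.Statements.S3939
import Cfsg.Agent.H3.NilpotentHall
import Cfsg.Agent.H44.Cores
import Cfsg.Agent.H81.SubCount
import Cfsg.Agent.H81.Misc
import Cfsg.Agent.H2.Basic

set_option autoImplicit false
open Cfsg

namespace Cfsg.Agent.S3939


open Subgroup

universe u

theorem isNilpotent_zpowers {G : Type*} [Group G] (x : G) : Group.IsNilpotent (zpowers x) :=
  letI := IsCyclic.commGroup (α := zpowers x)
  CommGroup.isNilpotent

theorem nilpotent_of_mem (n : ℕ) : ∀ (G : Type u) [Group G] (g : G),
    g ∈ Subgroup.upperCentralSeries G n → ∀ x : G, Group.IsNilpotent ↥(closure ({x, g} : Set G)) := by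
  induction n with
  | zero =>
    intro G _ g hg x
    rw [Subgroup.upperCentralSeries_zero, mem_bot] at hg
    have : closure ({x, g} : Set G) = zpowers x := by
      rw [hg, Set.pair_comm, closure_insert_one, zpowers_eq_closure]
    rw [this]
    exact isNilpotent_zpowers x
  | succ n ih =>
    intro G _ g hg x
    rw [← Subgroup.comap_upperCentralSeries_quotient_center] at hg
    have h1 := ih _ _ hg (QuotientGroup.mk' (center G) x)
    have h2 : (closure ({x, g} : Set G)).map (QuotientGroup.mk' (center G)) =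
        closure {QuotientGroup.mk' (center G) x, QuotientGroup.mk' (center G) g} := by
      rw [MonoidHom.map_closure, Set.image_pair]
    rw [← h2] at h1
    refine Subgroup.isNilpotent_of_ker_le_center ((QuotientGroup.mk' (center G)).subgroupMap _) ?_
    intro y hy
    have h3 : (y : G) ∈ center G := (QuotientGroup.eq_one_iff _).1 (congrArg Subtype.val hy)
    exact mem_center_iff.2 fun z => Subtype.ext (mem_center_iff.1 h3 z)

theorem center_ne_bot {G : Type u} [Group G] [Finite G] {g : G} (hg1 : g ≠ 1)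
    (h : ∀ x : G, Group.IsNilpotent ↥(closure ({x, g} : Set G))) : center G ≠ ⊥ := by
  obtain ⟨p, hp, hd⟩ := Nat.exists_prime_and_dvd (mt orderOf_eq_one_iff.1 hg1)
  have := Fact.mk hp
  obtain ⟨y, hy, hyo⟩ := H81.exists_orderOf_eq_of_dvd hd
  let K := centralizer {x : G | Nat.Coprime (orderOf x) p}
  have hK : K.Normal := ⟨fun k hk a => mem_centralizer_iff.2 fun x hx => by
    have := mem_centralizer_iff.1 hk (a⁻¹ * x * a⁻¹⁻¹) (by
      rw [Set.mem_setOf_eq, H8.orderOf_conj']; exact hx)
    calc x * (a * k * a⁻¹) = a * (a⁻¹ * x * a⁻¹⁻¹ * k) * a⁻¹ := by group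
      _ = a * k * a⁻¹ * x := by rw [this]; group⟩
  have hyK : y ∈ K := mem_centralizer_iff.2 fun x hx => by
    have := h x
    have h1 : x ∈ closure ({x, g} : Set G) := subset_closure (by simp)
    have h2 : y ∈ closure ({x, g} : Set G) := zpowers_le.2 (subset_closure (by simp)) hy
    exact congrArg Subtype.val (H3.commute_of_coprime_orderOf (⟨x, h1⟩ : closure ({x, g} : Set G))
      ⟨y, h2⟩ (by rw [Subgroup.orderOf_mk, Subgroup.orderOf_mk, hyo]; exact hx)).eq
  obtain ⟨P, hP⟩ := (H81.isPGroup_zpowers_of_orderOf (k := 1) (hyo.trans (pow_one p).symm)).exists_le_sylow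
  obtain ⟨z, hzK, hz1, hzc⟩ := H81.exists_mem_center_of_normal P.isPGroup' (K.subgroupOf P) (by
    intro hb
    have : (⟨y, hP (mem_zpowers y)⟩ : (P : Subgroup G)) ∈ K.subgroupOf P := hyK
    rw [hb, mem_bot] at this
    rw [show y = 1 from congrArg Subtype.val this, orderOf_one] at hyo
    exact hp.one_lt.ne hyo)
  have htop : centralizer {(z : G)} = ⊤ := by
    refine H44.eq_top_of_sylow_le fun q hq _ => ?_
    by_cases hqp : q = p
    · subst hqp
      exact ⟨P, fun x hx => mem_centralizer_singleton_iff.2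
        (congrArg Subtype.val (mem_center_iff.1 hzc ⟨x, hx⟩))⟩
    · obtain ⟨Q⟩ : Nonempty (Sylow q G) := inferInstance
      refine ⟨Q, fun x hx => mem_centralizer_singleton_iff.2 (mem_centralizer_iff.1 hzK x ?_)⟩
      obtain ⟨k, hk⟩ := IsPGroup.iff_orderOf.1 Q.isPGroup' ⟨x, hx⟩
      rw [Subgroup.orderOf_mk] at hk
      rw [Set.mem_setOf_eq, hk]
      exact Nat.Coprime.pow_left _ ((Nat.coprime_primes hq.out hp).2 hqp)
  intro hb
  have : (z : G) ∈ center G :=
    mem_center_iff.2 fun x => mem_centralizer_singleton_iff.1 (htop ▸ mem_top x)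
  rw [hb, mem_bot] at this
  exact hz1 (Subtype.ext this)

theorem exists_mem {G : Type u} [Group G] [Finite G] : ∀ g : G,
    (∀ x : G, Group.IsNilpotent ↥(closure ({x, g} : Set G))) → ∃ n, g ∈ Subgroup.upperCentralSeries G n := by
  refine H2.card_induction (P := fun G _ _ => ∀ g : G,
    (∀ x : G, Group.IsNilpotent ↥(closure ({x, g} : Set G))) → ∃ n, g ∈ Subgroup.upperCentralSeries G n) G ?_
  intro G _ _ ih g hg
  by_cases hg1 : g = 1
  · exact ⟨0, hg1 ▸ one_mem _⟩
  obtain ⟨n, hn⟩ := ih (G ⧸ center G) (H2.card_quotient_lt _ (center_ne_bot hg1 hg))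
    (QuotientGroup.mk' (center G) g) fun x => by
      obtain ⟨x, rfl⟩ := QuotientGroup.mk'_surjective _ x
      have := hg x
      rw [← Set.image_pair, ← MonoidHom.map_closure]
      exact Group.nilpotent_of_surjective _ ((QuotientGroup.mk' (center G)).subgroupMap_surjective _)
  exact ⟨n + 1, by rw [← Subgroup.comap_upperCentralSeries_quotient_center]; exact hn⟩

/-- In a finite group G the set of elements g such that the subgroup generated by g and x is nilpotent for every x ∈ G is exactly the hypercenter of G (the last term of the upper central series). -/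
theorem result {G : Type*} [Group G] [Finite G] (g : G) :
    (∀ x : G, Group.IsNilpotent ↥(Subgroup.closure ({x, g} : Set G))) ↔ g ∈ ⨆ n : ℕ, Subgroup.upperCentralSeries G n := by
  rw [mem_iSup_of_directed (Subgroup.upperCentralSeries_mono G).directed_le]
  exact ⟨exists_mem g, fun ⟨n, hn⟩ => nilpotent_of_mem n G g hn⟩

end Cfsg.Agent.S3939
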