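import Cfsg.Statements.S3941
import Cfsg.Agent.H81.TI

set_option autoImplicit false
open Cfsg

namespace Cfsg.Agent.S3941

open Equiv Equiv.Perm

theorem card_alt (n : ℕ) (hn : 2 ≤ n) : 2 * Nat.card (alternatingGroup (Fin n)) = n.factorial := by
  have : Nontrivial (Fin n) := Fin.nontrivial_iff_two_le.2 hn
  rw [two_mul_nat_card_alternatingGroup, Nat.card_perm, Nat.card_eq_fintype_card, Fintype.card_fin]

theorem not_closed (m p : ℕ) (hm : 4 ≤ m) [Fact p.Prime] (hp : p ≠ 2) (hpm : p ≤ m) :
    ¬ Cfsg.IsPClosed p (alternatingGroup (Fin m)) := by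
  intro h
  have hpp : p.Prime := Fact.out
  obtain ⟨P⟩ : Nonempty (Sylow p (alternatingGroup (Fin m))) := inferInstance
  have hP := h P
  by_cases h5 : 5 ≤ m
  · have := alternatingGroup.isSimpleGroup (α := Fin m) (by simpa using h5)
    have hc := card_alt m (by omega)
    rcases hP.eq_bot_or_eq_top with h1 | h1
    · apply P.not_dvd_index
      rw [h1, Subgroup.index_bot]
      have h2 : p ∣ m.factorial := hpp.dvd_factorial.2 hpm
      rw [← hc] at h2
      exact ((Nat.coprime_primes hpp Nat.prime_two).2 hp).dvd_of_dvd_mul_left h2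
    · obtain ⟨k, hk⟩ := P.isPGroup'.exists_card_eq
      rw [h1, Subgroup.card_top] at hk
      have h2 : Nat.factorial 4 ∣ m.factorial := Nat.factorial_dvd_factorial hm
      rw [← hc, hk, show Nat.factorial 4 = 2 * 12 by decide] at h2
      have h3 : 2 ∣ p ^ k := (by norm_num : 2 ∣ 12).trans (Nat.dvd_of_mul_dvd_mul_left two_pos h2)
      exact hp ((Nat.prime_dvd_prime_iff_eq Nat.prime_two hpp).1
        (Nat.prime_two.dvd_of_dvd_pow h3)).symm
  · obtain rfl : m = 4 := by omega
    obtain rfl : p = 3 := by
      have := hpp.two_le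
      interval_cases p
      · exact absurd rfl hp
      · rfl
      · norm_num at hpp
    let a : alternatingGroup (Fin 4) := ⟨swap 0 1 * swap 1 2, by
      rw [mem_alternatingGroup]; decide⟩
    let b : alternatingGroup (Fin 4) := ⟨swap 1 2 * swap 2 3, by
      rw [mem_alternatingGroup]; decide⟩
    have key : ∀ x : alternatingGroup (Fin 4), x ^ 3 = 1 → x ∈ (P : Subgroup _) := fun x hx => by
      refine H81.mem_sylow_of_mem_normalizer P (by
        change x ∈ Subgroup.normalizer ((P : Subgroup (alternatingGroup (Fin 4))) : Set (alternatingGroup (Fin 4)))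
        rw [Subgroup.normalizer_eq_top]; trivial) ?_
      obtain ⟨i, -, hi⟩ := (Nat.dvd_prime_pow Nat.prime_three).1
        (orderOf_dvd_of_pow_eq_one (by rwa [pow_one] : x ^ 3 ^ 1 = 1))
      exact ⟨i, hi⟩
    have h1 := mul_mem (key a (Subtype.ext (by decide))) (key b (Subtype.ext (by decide)))
    obtain ⟨k, hk⟩ := (IsPGroup.iff_orderOf.1 P.isPGroup') ⟨_, h1⟩
    rw [Subgroup.orderOf_mk] at hk
    have h2 : orderOf (a * b) = 2 := orderOf_eq_prime (Subtype.ext (by decide))
      (fun e => absurd (congrArg Subtype.val e) (by decide))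
    rw [h2] at hk
    have := Nat.prime_two.dvd_of_dvd_pow hk.dvd
    omega

/-- Let n ≥ 5 and p an odd prime with p ≤ n, and suppose that every proper subgroup of the alternating group of degree n whose order is divisible by p has a normal Sylow p-subgroup. Then n = p. -/
theorem result (n p : ℕ) (hn : 5 ≤ n) [Fact p.Prime] (hp : p ≠ 2) (hpn : p ≤ n)
    (h : ∀ H : Subgroup ↥(alternatingGroup (Fin n)), H ≠ ⊤ → p ∣ Nat.card ↥H → Cfsg.IsPClosed p ↥H) : n = p := by
  by_contra hne
  obtain ⟨m, rfl⟩ : ∃ m, n = m + 1 := ⟨n - 1, by omega⟩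
  have hpp : p.Prime := Fact.out
  let s : Finset (Fin (m + 1)) := {0}ᶜ
  have hs : Fintype.card s = m := by simp [s, Finset.card_compl]
  let e := (Fintype.equivFinOfCardEq hs).symm.altCongrHom
  let φ := (alternatingGroup.ofSubtype s).comp e.toMonoidHom
  have hφ : Function.Injective φ := alternatingGroup.ofSubtype_injective.comp e.injective
  let f := MonoidHom.ofInjective hφ
  have hc : Nat.card φ.range = Nat.card (alternatingGroup (Fin m)) := (Nat.card_congr f.toEquiv).symm
  have h1 := card_alt m (by omega)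
  have h2 := card_alt (m + 1) (by omega)
  have h3 := h φ.range (fun e => by
    rw [e, Subgroup.card_top] at hc
    rw [hc, h1, Nat.factorial_succ] at h2
    have := Nat.factorial_pos m
    nlinarith) (by
    rw [hc]
    have h2 : p ∣ m.factorial := hpp.dvd_factorial.2 (by omega)
    rw [← h1] at h2
    exact ((Nat.coprime_primes hpp Nat.prime_two).2 hp).dvd_of_dvd_mul_left h2)
  refine not_closed m p (by omega) hp (by omega) fun P => ?_
  have h4 : (((P : Subgroup _).map f.toMonoidHom).comap f.toMonoidHom).Normal :=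
    (h3 (P.mapSurjective (f := f.toMonoidHom) f.surjective)).comap f.toMonoidHom
  rwa [Subgroup.comap_map_eq_self_of_injective (f := f.toMonoidHom) f.injective] at h4

end Cfsg.Agent.S3941
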