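import Cfsg.Statements.S3972
import Cfsg.Agent.H77.SRingAb

set_option autoImplicit false
open Cfsg

namespace Cfsg.Agent.S3972

open MulAction Pointwise

theorem pow_mem_of_ne_bot (p m : ℕ) (hp : p.Prime) {G : Type*} [Group G] [Finite G]
    (g : G) (hg : orderOf g = p ^ m) (K : Subgroup (Subgroup.zpowers g)) (hK : K ≠ ⊥) :
    (⟨g, Subgroup.mem_zpowers g⟩ : Subgroup.zpowers g) ^ (p ^ (m - 1)) ∈ K := by
  have hc : Nat.card (Subgroup.zpowers g) = p ^ m := by rw [Nat.card_zpowers, hg]
  have h1 : K.index ∣ p ^ m := hc ▸ Subgroup.index_dvd_card _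
  obtain ⟨j, hj, hji⟩ := (Nat.dvd_prime_pow hp).mp h1
  have hjm : j ≠ m := by
    rintro rfl
    have := K.card_mul_index
    rw [hji, hc] at this
    apply hK
    apply Subgroup.card_eq_one.mp
    exact Nat.eq_of_mul_eq_mul_right (pow_pos hp.pos j) (by rw [this, one_mul])
  haveI : K.Normal := Subgroup.normal_of_isMulCommutative _
  have h2 := Subgroup.pow_index_mem K ⟨g, Subgroup.mem_zpowers g⟩
  have h3 := Subgroup.pow_mem _ h2 (p ^ (m - 1 - j))
  rwa [hji, ← pow_mul, ← pow_add, show j + (m - 1 - j) = m - 1 by omega] at h3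

theorem regular_of_orderOf {Ω : Type*} [Fintype Ω] (p m : ℕ) (hp : p.Prime) (hm : 1 ≤ m)
    (hΩ : Fintype.card Ω = p ^ m) {G : Type*} [Group G] [Finite G] [MulAction G Ω] [FaithfulSMul G Ω]
    (g : G) (hg : orderOf g = p ^ m) :
    ∃ a : Ω, stabilizer (Subgroup.zpowers g) a = ⊥ ∧ IsPretransitive (Subgroup.zpowers g) Ω := by
  haveI : Fact p.Prime := ⟨hp⟩
  have hne : g ^ (p ^ (m - 1)) ≠ 1 := by
    intro h
    have := orderOf_dvd_of_pow_eq_one h
    rw [hg, Nat.pow_dvd_pow_iff_le_right hp.one_lt] at this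
    omega
  obtain ⟨a, ha⟩ : ∃ a : Ω, g ^ (p ^ (m - 1)) • a ≠ a := by
    by_contra h
    push Not at h
    exact hne (FaithfulSMul.eq_of_smul_eq_smul (α := Ω) fun a => by rw [h, one_smul])
  have hc : Nat.card (Subgroup.zpowers g) = p ^ m := by rw [Nat.card_zpowers, hg]
  have hb : stabilizer (Subgroup.zpowers g) a = ⊥ := by
    by_contra h
    exact ha (pow_mem_of_ne_bot p m hp g hg _ h)
  refine ⟨a, hb, ?_⟩
  rw [isPretransitive_iff_orbit_eq_univ a]
  have hji := index_stabilizer (Subgroup.zpowers g) a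
  rw [hb, Subgroup.index_bot, hc, ← hΩ, ← Nat.card_eq_fintype_card] at hji
  exact (Set.eq_univ_iff_ncard _).mpr hji.symm

/-- Let `p` be a prime, `m ≥ 2`, and `G` a transitive but not doubly transitive permutation group on `p ^ m` points containing a permutation of order `p ^ m` (necessarily a full cycle). Then `G` is imprimitive, and the normal closure in `G` of the `p ^ (m - 1)`-th power of that permutation is an intransitive normal subgroup. -/
theorem result {Ω : Type*} [Fintype Ω] [DecidableEq Ω] (p m : ℕ) (hp : p.Prime) (hm : 2 ≤ m) (hΩ : Fintype.card Ω = p ^ m) (G : Subgroup (Equiv.Perm Ω)) (htr : MulAction.IsPretransitive G Ω) (h2 : ¬ MulAction.IsMultiplyPretransitive G Ω 2) (g : G) (hg : orderOf g = p ^ m) : ¬ MulAction.IsPreprimitive G Ω ∧ ¬ MulAction.IsPretransitive (Subgroup.normalClosure ({g ^ (p ^ (m - 1))} : Set G)) Ω := by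
  haveI : Fact p.Prime := ⟨hp⟩
  obtain ⟨a, hreg, htr'⟩ := regular_of_orderOf p m hp (by omega) hΩ g hg
  have hnp : ¬ IsPreprimitive G Ω := by
    intro hprim
    apply h2
    refine Cfsg.Agent.H77.two_trans_of_cyclic_regular (Subgroup.zpowers g) a hreg ?_ ?_
    · rw [Nat.card_eq_fintype_card, hΩ]
      exact (Nat.one_lt_pow (by omega) hp.one_lt).ne'
    · rw [Nat.card_eq_fintype_card, hΩ]
      intro h
      have := h.eq_one_of_pow
      omega
  refine ⟨hnp, fun hN => hnp ?_⟩
  refine IsPreprimitive.of_isTrivialBlock_base a fun {B} haB hB => ?_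
  by_contra hnt
  rw [IsTrivialBlock, not_or] at hnt
  obtain ⟨b, hb, hba⟩ : ∃ b ∈ B, b ≠ a := by
    by_contra h
    push Not at h
    exact hnt.1 fun x hx y hy => (h x hx).trans (h y hy).symm
  obtain ⟨⟨c, hc⟩, hcb⟩ := exists_smul_eq (Subgroup.zpowers g) a b
  have hcb' : c • a = b := hcb
  have hcB : c • B = B := hB.smul_eq_of_mem haB (by rw [hcb']; exact hb)
  -- the element of order `p` stabilises `B`
  set z := g ^ (p ^ (m - 1)) with hz
  have hzB : z • B = B := by
    refine pow_mem_of_ne_bot p m hp g hg (stabilizer (Subgroup.zpowers g) B) fun h => ?_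
    have : (⟨c, hc⟩ : Subgroup.zpowers g) ∈ stabilizer (Subgroup.zpowers g) B := hcB
    rw [h, Subgroup.mem_bot] at this
    rw [this, one_smul] at hcb
    exact hba hcb.symm
  have hker : ∀ x : G, z • x • B = x • B := by
    intro x
    obtain ⟨⟨d, hd⟩, hda⟩ := exists_smul_eq (Subgroup.zpowers g) a (x • a)
    have hda' : d • a = x • a := hda
    have h1 : (d⁻¹ * x) • B = B := hB.smul_eq_of_mem haB (by
      rw [mul_smul, ← hda', inv_smul_smul]; exact haB)
    rw [mul_smul, inv_smul_eq_iff] at h1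
    have h3 : z * d = d * z := by
      obtain ⟨k, rfl⟩ := Subgroup.mem_zpowers_iff.mp hd
      exact (((Commute.refl g).pow_left _).zpow_right _).eq
    rw [h1, ← mul_smul, h3, mul_smul, hzB]
  have hle : Subgroup.normalClosure ({z} : Set G) ≤ (stabilizer G B).normalCore := by
    apply Subgroup.normalClosure_le_normal
    rintro _ rfl x
    show (x * z * x⁻¹) • B = B
    rw [mul_smul, mul_smul, hker, smul_inv_smul]
  apply hnt.2
  rw [Set.eq_univ_iff_forall]
  intro w
  obtain ⟨n, hn⟩ := exists_smul_eq (Subgroup.normalClosure ({z} : Set G)) a w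
  have h1 : (n : G) • B = B := Subgroup.normalCore_le _ (hle n.2)
  rw [← h1, ← hn]
  exact Set.smul_mem_smul_set haB

end Cfsg.Agent.S3972
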