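import Cfsg.Statements.S3982
import Cfsg.Agent.H81.TI
import Cfsg.Agent.H36.Prime

set_option autoImplicit false
open Cfsg

namespace Cfsg.Agent.S3982

open Subgroup

/-- Let p be an odd prime and G a finite group of even order divisible by p in which the centralizer of every non-identity p-element has odd order. If some nontrivial p-subgroup of G has a normalizer of even order, then the normalizer of every Sylow p-subgroup of G has even order. -/
theorem result {G : Type*} [Group G] [Finite G] (p : ℕ) [Fact p.Prime] (hp2 : p ≠ 2) (hpG : p ∣ Nat.card G) (h2G : 2 ∣ Nat.card G) (hC : ∀ g : G, g ≠ 1 → (∃ k : ℕ, orderOf g = p ^ k) → Odd (Nat.card ↥(Subgroup.centralizer ({g} : Set G)))) (Q : Subgroup G) (hQ : IsPGroup p ↥Q) (hQ1 : Q ≠ ⊥) (hev : Even (Nat.card ↥(Subgroup.normalizer (Q : Set G)))) (P : Sylow p G) : Even (Nat.card ↥(Subgroup.normalizer ((P : Subgroup G) : Set G))) := by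
  have hp : p.Prime := Fact.out
  have hord : ∀ {R : Subgroup G}, IsPGroup p R → ∀ x ∈ R, ∃ a, orderOf x = p ^ a :=
    fun hR x hx => by
      obtain ⟨b, hb⟩ := (IsPGroup.iff_orderOf.1 hR) ⟨x, hx⟩
      exact ⟨b, by rwa [Subgroup.orderOf_mk] at hb⟩
  have hwf : WellFoundedGT (Subgroup G) := inferInstance
  obtain ⟨R, ⟨hR, hR1, hRe⟩, hmax⟩ := hwf.wf.has_min
    {R : Subgroup G | IsPGroup p R ∧ R ≠ ⊥ ∧ Even (Nat.card (normalizer (R : Set G)))}
    ⟨Q, hQ, hQ1, hev⟩
  obtain ⟨y, hyN, hy⟩ := H36.exists_orderOf_eq_of_dvd _ Nat.prime_two hRe.two_dvd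
  have hy2 : y * y = 1 := by rw [← pow_two, ← hy, pow_orderOf_eq_one]
  have hyi : y⁻¹ = y := inv_eq_of_mul_eq_one_right hy2
  -- no nontrivial `p`-element commutes with an element of even order
  have hno : ∀ g u : G, (∃ k, orderOf g = p ^ k) → u * g = g * u → 2 ∣ orderOf u → g = 1 := by
    intro g u hg hu h2
    by_contra h1
    have h3 := hC g h1 hg
    have h4 := h2.trans (orderOf_dvd_natCard (centralizer ({g} : Set G))
      (mem_centralizer_singleton_iff.2 hu))
    exact (Nat.not_even_iff_odd.2 h3) (even_iff_two_dvd.2 h4)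
  -- `y` inverts `R`
  have hinv : ∀ x ∈ R, y * x * y⁻¹ = x⁻¹ := by
    let f : R → R := fun x => ⟨x⁻¹ * (y * x * y⁻¹),
      R.mul_mem (R.inv_mem x.2) (H72.conj_mem_of_mem_normalizer hyN x.2)⟩
    have hf : Function.Injective f := by
      intro a b hab
      have h1 : (a : G)⁻¹ * (y * a * y⁻¹) = (b : G)⁻¹ * (y * b * y⁻¹) := congrArg Subtype.val hab
      have h2 := hno ((b : G) * (a : G)⁻¹) y (hord hR _ (R.mul_mem b.2 (R.inv_mem a.2))) (by
        calc y * ((b : G) * (a : G)⁻¹)
            = b * ((b : G)⁻¹ * (y * b * y⁻¹)) * (y * (a : G)⁻¹) := by group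
          _ = b * ((a : G)⁻¹ * (y * a * y⁻¹)) * (y * (a : G)⁻¹) := by rw [h1]
          _ = _ := by group) (by rw [hy])
      exact Subtype.ext (mul_inv_eq_one.1 h2).symm
    intro x hx
    obtain ⟨a, ha⟩ := Finite.surjective_of_injective hf ⟨x, hx⟩
    have h1 : (a : G)⁻¹ * (y * a * y⁻¹) = x := congrArg Subtype.val ha
    rw [← h1]
    simp only [mul_inv_rev, inv_inv, hyi, mul_assoc, hy2, mul_one]
  have hRC : R ≤ centralizer (R : Set G) := by
    intro a ha b hb
    have h1 := hinv _ (R.mul_mem ha hb)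
    have h2 : y * (a * b) * y⁻¹ = (y * a * y⁻¹) * (y * b * y⁻¹) := by group
    rw [h2, hinv a ha, hinv b hb, ← mul_inv_rev, inv_inj] at h1
    exact h1
  obtain ⟨x0, hx0R, hx0⟩ := R.bot_or_exists_ne_one.resolve_left hR1
  have hCodd : ¬ 2 ∣ Nat.card (centralizer (R : Set G)) := fun h2 => by
    obtain ⟨u, hu, hu2⟩ := H36.exists_orderOf_eq_of_dvd _ Nat.prime_two h2
    exact hx0 (hno x0 u (hord hR x0 hx0R) (hu x0 hx0R).symm (by rw [hu2]))
  -- `R` is a Sylow subgroup of its centralizer
  obtain ⟨S, hS, hRS⟩ := H72.exists_isSylowIn_ge hR hRC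
  have hSR : S = R := by
    by_contra hne
    refine hmax S ⟨hS.isPGroup, fun e => hR1 (le_bot_iff.1 (e ▸ hRS)), ?_⟩
      (lt_of_le_of_ne hRS (Ne.symm hne))
    obtain ⟨c, hc, x, hx, h1⟩ := hS.frattini (H72.normalizer_le_normalizer_centralizer R) hyN
    by_contra hodd
    have h2 : ¬ 2 ∣ orderOf x := fun h2 =>
      hodd (even_iff_two_dvd.2 (h2.trans (orderOf_dvd_natCard _ hx)))
    have hxN : x ∈ normalizer (R : Set G) := by
      have : x = c⁻¹ * y := by rw [h1]; group
      rw [this]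
      exact mul_mem (inv_mem (centralizer_le_normalizer _ hc)) hyN
    have h3 : x * x0 * x⁻¹ = x0⁻¹ := by
      have h4 := hinv x0 hx0R
      have h5 := hc _ (H72.conj_mem_of_mem_normalizer hxN hx0R)
      rw [h1] at h4
      rw [← h4]
      calc x * x0 * x⁻¹ = c * (x * x0 * x⁻¹) * c⁻¹ := by rw [← h5]; group
        _ = _ := by group
    have h4 : ∀ n : ℕ, x ^ (2 * n + 1) * x0 * (x ^ (2 * n + 1))⁻¹ = x0⁻¹ := by
      intro n
      induction n with
      | zero => simpa using h3
      | succ n ih =>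
        have h5 : x * x0⁻¹ * x⁻¹ = x0 := by
          rw [show x * x0⁻¹ * x⁻¹ = (x * x0 * x⁻¹)⁻¹ by group, h3, inv_inv]
        calc x ^ (2 * (n + 1) + 1) * x0 * (x ^ (2 * (n + 1) + 1))⁻¹
            = x * (x * (x ^ (2 * n + 1) * x0 * (x ^ (2 * n + 1))⁻¹) * x⁻¹) * x⁻¹ := by group
          _ = _ := by rw [ih, h5, h3]
    obtain ⟨n, hn⟩ : Odd (orderOf x) := Nat.odd_iff.2 (by omega)
    have h5 := h4 n
    rw [← hn, pow_orderOf_eq_one, one_mul, inv_one, mul_one] at h5
    exact hx0 (hno x0 y (hord hR x0 hx0R) (by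
      have := hinv x0 hx0R
      rw [← h5] at this
      exact mul_inv_eq_iff_eq_mul.1 this) (by rw [hy]))
  -- `R` is a Sylow subgroup of `G`
  obtain ⟨T, hT⟩ := hR.exists_le_sylow
  have hTR : (T : Subgroup G) = R := by
    by_contra hne
    have hlt : R.subgroupOf T < ⊤ := by
      rw [lt_top_iff_ne_top, Ne, subgroupOf_eq_top]
      exact fun e => hne (le_antisymm e hT)
    have hnil := T.isPGroup'.isNilpotent
    obtain ⟨z, hzN, hzQ⟩ := SetLike.exists_of_lt
      ((normalizerCondition_of_isNilpotent (G := T)) _ hlt)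
    rw [← subgroupOf_normalizer_eq hT] at hzN
    have hzN' : (z : G) ∈ normalizer (R : Set G) := hzN
    obtain ⟨k, hk⟩ := hord T.isPGroup' z z.2
    have hzC : (z : G) ∉ centralizer (R : Set G) := fun hzC => by
      apply hzQ
      have h1 := hS.le_of_normalizes' (Q := zpowers (z : G))
        (T.isPGroup'.to_le (zpowers_le.2 z.2)) (zpowers_le.2 hzC) (by
          rw [hSR]; exact zpowers_le.2 hzN')
      rw [hSR] at h1
      exact h1 (mem_zpowers _)
    let φ := R.normalizerMonoidHom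
    let z' : normalizer (R : Set G) := ⟨z, hzN'⟩
    let y' : normalizer (R : Set G) := ⟨y, hyN⟩
    have hφy : ∀ a : R, φ y' a = a⁻¹ := fun a => Subtype.ext (hinv a a.2)
    have hcomm : Commute (φ z') (φ y') := by
      ext a
      simp only [MulAut.mul_apply, hφy, map_inv]
    have hz1 : φ z' ≠ 1 := fun e => hzC (by
      have : z' ∈ φ.ker := e
      rw [normalizerMonoidHom_ker] at this
      exact this)
    have hy1 : φ y' ≠ 1 := fun e => hCodd (by
      have : y' ∈ φ.ker := e
      rw [normalizerMonoidHom_ker] at this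
      rw [← hy]
      exact orderOf_dvd_natCard (centralizer (R : Set G)) this)
    have hoz : orderOf (φ z') ∣ p ^ k := by
      rw [← hk, ← Subgroup.orderOf_mk _ hzN']
      exact orderOf_map_dvd _ _
    have hoy : orderOf (φ y') = 2 := by
      have : orderOf (φ y') ∣ 2 := by
        rw [← hy, ← Subgroup.orderOf_mk _ hyN]
        exact orderOf_map_dvd _ _
      exact ((Nat.dvd_prime Nat.prime_two).1 this).resolve_left (by rwa [orderOf_eq_one_iff])
    obtain ⟨i, -, hi⟩ := (Nat.dvd_prime_pow hp).1 hoz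
    have hi0 : i ≠ 0 := by
      rintro rfl
      exact hz1 (orderOf_eq_one_iff.1 hi)
    have hco : (orderOf (φ z')).Coprime (orderOf (φ y')) := by
      rw [hi, hoy]
      exact Nat.Coprime.pow_left _ ((Nat.coprime_primes hp Nat.prime_two).2 hp2)
    have h1 := hcomm.orderOf_mul_eq_mul_orderOf_of_coprime hco
    have h2 : p ^ i * 2 ∣ orderOf ((z : G) * y) := by
      rw [← hi, ← hoy, ← h1, ← map_mul]
      exact (orderOf_map_dvd _ _).trans (by rw [← Subgroup.orderOf_coe]; rfl)
    set u := (z : G) * y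
    have hu0 : orderOf u ≠ 0 := (orderOf_pos u).ne'
    have hpu : p ∣ orderOf u := ((dvd_pow_self p hi0).mul_right 2).trans h2
    have h3 : orderOf (u ^ (orderOf u / p)) = p := orderOf_pow_orderOf_div hu0 hpu
    have h4 := hno (u ^ (orderOf u / p)) u ⟨1, by rw [h3, pow_one]⟩
      ((Commute.refl u).pow_right _).eq ((Dvd.intro_left _ rfl).trans h2)
    rw [h4, orderOf_one] at h3
    exact hp.one_lt.ne h3
  have := H36.card_normalizer_congr T P
  change Even (Nat.card (normalizer (P : Set G)))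
  rw [this]
  rw [← hTR] at hRe
  exact hRe

end Cfsg.Agent.S3982
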