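import Cfsg.Statements.S3983
import Cfsg.Agent.H81.TI

set_option autoImplicit false
open scoped Pointwise
open Cfsg

namespace Cfsg.Agent.S3983

/-- Let P be a Sylow p-subgroup of the finite group G that meets each conjugate g P g⁻¹ with g outside N_G(P) trivially, and let U be a subgroup of G of order divisible by p. Then a Sylow p-subgroup Q of U has the same property inside U: Q meets each conjugate u Q u⁻¹ with u ∈ U outside N_U(Q) trivially. -/
theorem result {G : Type*} [Group G] [Finite G] (p : ℕ) [Fact p.Prime] (P : Sylow p G) (hTI : ∀ g : G, g ∉ Subgroup.normalizer ((P : Subgroup G) : Set G) → (P : Subgroup G) ⊓ (MulAut.conj g • (P : Subgroup G)) = ⊥) (U : Subgroup G) (hU : p ∣ Nat.card ↥U) (Q : Sylow p ↥U) : ∀ u : ↥U, u ∉ Subgroup.normalizer ((Q : Subgroup ↥U) : Set ↥U) → (Q : Subgroup ↥U) ⊓ (MulAut.conj u • (Q : Subgroup ↥U)) = ⊥ := by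
  intro u hu
  rw [eq_bot_iff]
  rintro x ⟨hx1, hx2⟩
  by_contra hx
  apply hu
  obtain ⟨R, hR⟩ := Q.exists_comap_subtype_eq
  have h1 : (x : G) ∈ (R : Subgroup G) := by
    rw [← hR] at hx1
    exact hx1
  have h2 : (x : G) ∈ (((u : G) • R : Sylow p G) : Subgroup G) := by
    have h3 : u⁻¹ * x * u ∈ (Q : Subgroup U) := H72.mem_cj.1 hx2
    rw [← hR] at h3
    exact H72.mem_cj.2 h3
  have h3 := H81.sylow_eq_of_TI P hTI (fun e => hx (Subtype.ext e)) h1 h2
  have h4 := Sylow.smul_eq_iff_mem_normalizer.1 h3.symm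
  rw [← hR, Subgroup.mem_normalizer_iff]
  intro y
  exact Subgroup.mem_normalizer_iff.1 h4 y

end Cfsg.Agent.S3983
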