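import Cfsg.Statements.S3984
import Cfsg.Agent.H81.TI

set_option autoImplicit false
open scoped Pointwise
open Cfsg

namespace Cfsg.Agent.S3984

/-- Let P be a Sylow p-subgroup of the finite group G that meets each conjugate g P g⁻¹ with g outside N_G(P) trivially, and let N be a normal subgroup of G of order prime to p. Then every Sylow p-subgroup Q of G ⧸ N meets each conjugate x Q x⁻¹ with x outside its normalizer trivially. -/
theorem result {G : Type*} [Group G] [Finite G] (p : ℕ) [Fact p.Prime] (P : Sylow p G) (hTI : ∀ g : G, g ∉ Subgroup.normalizer ((P : Subgroup G) : Set G) → (P : Subgroup G) ⊓ (MulAut.conj g • (P : Subgroup G)) = ⊥) (N : Subgroup G) [N.Normal] (hN : (Nat.card ↥N).Coprime p) (Q : Sylow p (G ⧸ N)) : ∀ x : G ⧸ N, x ∉ Subgroup.normalizer ((Q : Subgroup (G ⧸ N)) : Set (G ⧸ N)) → (Q : Subgroup (G ⧸ N)) ⊓ (MulAut.conj x • (Q : Subgroup (G ⧸ N))) = ⊥ := by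
  intro x hx
  rw [eq_bot_iff]
  rintro a ⟨ha1, ha2⟩
  by_contra ha
  apply hx
  obtain ⟨R, rfl⟩ := Sylow.mapSurjective_surjective (QuotientGroup.mk'_surjective N) p Q
  obtain ⟨g, rfl⟩ := QuotientGroup.mk'_surjective N x
  obtain ⟨c, hc, hc'⟩ : (QuotientGroup.mk' N g)⁻¹ * a * QuotientGroup.mk' N g ∈
    (R : Subgroup G).map (QuotientGroup.mk' N) := H72.mem_cj.1 ha2
  have hb : QuotientGroup.mk' N (g * c * g⁻¹) = a := by
    rw [map_mul, map_mul, map_inv, hc']
    group
  have hb1 : g * c * g⁻¹ ≠ 1 := by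
    intro e
    rw [e, map_one] at hb
    exact ha hb.symm
  have hbR : g * c * g⁻¹ ∈ ((g • R : Sylow p G) : Subgroup G) := H72.conj_mem_cj hc
  have hS := H72.isSylowIn_sylow R
    (Subgroup.le_comap_map (QuotientGroup.mk' N) (R : Subgroup G))
  obtain ⟨k, hk, hle⟩ := hS.exists_cj_le (Q := Subgroup.zpowers (g * c * g⁻¹))
    ((g • R).isPGroup'.to_le (Subgroup.zpowers_le.2 hbR))
    (Subgroup.zpowers_le.2 (by
      rw [Subgroup.mem_comap, hb]
      exact ha1))
  have hbR' : g * c * g⁻¹ ∈ ((k⁻¹ • R : Sylow p G) : Subgroup G) :=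
    (H72.cj_le_iff k).1 hle (Subgroup.mem_zpowers _)
  have h3 := H81.sylow_eq_of_TI P hTI hb1 hbR hbR'
  rw [eq_inv_smul_iff, ← mul_smul] at h3
  have h4 := Subgroup.le_normalizer_map (QuotientGroup.mk' N)
    ⟨_, Sylow.smul_eq_iff_mem_normalizer.1 h3, rfl⟩
  rw [map_mul] at h4
  have h5 : QuotientGroup.mk' N k ∈ Subgroup.normalizer
      (((R : Subgroup G).map (QuotientGroup.mk' N) : Subgroup (G ⧸ N)) : Set (G ⧸ N)) :=
    Subgroup.le_normalizer hk
  exact (Subgroup.mul_mem_cancel_left _ h5).1 h4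

end Cfsg.Agent.S3984
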