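import Cfsg.Statements.S3985
import Cfsg.Agent.H81.TI

set_option autoImplicit false
open scoped Pointwise
open Cfsg

namespace Cfsg.Agent.S3985

/-- Let P be a cyclic Sylow p-subgroup of the finite group G. Then P meets each conjugate g P g⁻¹ with g outside N_G(P) trivially if and only if P is weakly self-centralizing: C_G(x) = C_G(P) for every non-identity x ∈ P. -/
theorem result {G : Type*} [Group G] [Finite G] (p : ℕ) [Fact p.Prime] (P : Sylow p G) (hcyc : IsCyclic ↥(P : Subgroup G)) : (∀ g : G, g ∉ Subgroup.normalizer ((P : Subgroup G) : Set G) → (P : Subgroup G) ⊓ (MulAut.conj g • (P : Subgroup G)) = ⊥) ↔ ∀ x : G, x ∈ (P : Subgroup G) → x ≠ 1 → Subgroup.centralizer ({x} : Set G) = Subgroup.centralizer ((P : Subgroup G) : Set G) := by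
  constructor
  · intro hTI x hx hx1
    refine le_antisymm (fun c hc => ?_) (Subgroup.centralizer_le (Set.singleton_subset_iff.2 hx))
    have hc' : c * x = x * c := Subgroup.mem_centralizer_singleton_iff.1 hc
    have h1 : x ∈ ((c • P : Sylow p G) : Subgroup G) := by
      apply H72.mem_cj.2
      rwa [mul_assoc, ← hc', inv_mul_cancel_left]
    have h2 := H81.sylow_eq_of_TI P hTI hx1 h1 hx
    exact H81.mem_centralizer_of_isCyclic_sylow P hcyc (Sylow.smul_eq_iff_mem_normalizer.1 h2)
      hx hx1 hc'
  · intro h g hg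
    rw [eq_bot_iff]
    rintro x ⟨hx1, hx2⟩
    by_contra hx
    apply hg
    have h1 := h x hx1 hx
    have h2 := h (g⁻¹ * x * g) (H72.mem_cj.1 hx2) (fun e => hx (by
      have : x = g * (g⁻¹ * x * g) * g⁻¹ := by group
      rw [this, e]
      simp))
    have h3 := congrArg (H72.cj g) h2
    rw [H72.cj_centralizer_singleton, H72.cj_centralizer,
      show g * (g⁻¹ * x * g) * g⁻¹ = x by group, h1] at h3
    have hP : (P : Subgroup G) ≤ Subgroup.centralizer ((P : Subgroup G) : Set G) :=
      Subgroup.le_centralizer _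
    have h4 : (P : Subgroup G) ≤ Subgroup.normalizer ((g • P : Sylow p G) : Set G) := by
      rw [h3] at hP
      exact hP.trans (Subgroup.centralizer_le_normalizer _)
    have h5 : (P : Subgroup G) ≤ ((g • P : Sylow p G) : Subgroup G) := fun y hy =>
      H81.mem_sylow_of_mem_normalizer _ (h4 hy) (by
        obtain ⟨b, hb⟩ := (IsPGroup.iff_orderOf.1 P.isPGroup') ⟨y, hy⟩
        exact ⟨b, by rwa [Subgroup.orderOf_mk] at hb⟩)
    exact Sylow.smul_eq_iff_mem_normalizer.1 (Sylow.ext (P.is_maximal' (g • P).isPGroup' h5))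

end Cfsg.Agent.S3985
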