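import Cfsg.Statements.S3987
import Cfsg.Agent.H81.TI

set_option autoImplicit false
open Cfsg

namespace Cfsg.Agent.S3987

/-- Let p be a prime and G a finite group. Then some Sylow p-subgroup of G is a direct factor of G (normal with a normal complement) if and only if for every element x of p-power order and every element y whose order is a power of a prime other than p, the conjugacy class of x y has as many elements as the product of the sizes of the classes of x and of y. -/
theorem result {G : Type*} [Group G] [Finite G] (p : ℕ) [Fact p.Prime] : (∃ (P : Sylow p G) (K : Subgroup G), (P : Subgroup G).Normal ∧ K.Normal ∧ (P : Subgroup G) ⊓ K = ⊥ ∧ (P : Subgroup G) ⊔ K = ⊤) ↔ ∀ x y : G, (∃ a : ℕ, orderOf x = p ^ a) → (∃ q b : ℕ, q.Prime ∧ q ≠ p ∧ orderOf y = q ^ b) → (Subgroup.centralizer ({x * y} : Set G)).index = (Subgroup.centralizer ({x} : Set G)).index * (Subgroup.centralizer ({y} : Set G)).index := by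
  constructor
  · intro h x y hx hy
    have hc : Commute x y := H81.directFactor_iff.1 h x y hx hy
    obtain ⟨P, K, hP, hK, h1, h2⟩ := h
    obtain ⟨a, ha⟩ := hx
    obtain ⟨q, b, hq, hqp, hb⟩ := hy
    have hp : p.Prime := Fact.out
    have hco : (orderOf x).Coprime (orderOf y) := by
      rw [ha, hb]
      exact Nat.Coprime.pow _ _ ((Nat.coprime_primes hp hq).2 hqp.symm)
    have h3 : Subgroup.centralizer ({x * y} : Set G) =
        Subgroup.centralizer ({x} : Set G) ⊓ Subgroup.centralizer ({y} : Set G) := by
      ext g
      simp only [Subgroup.mem_inf, Subgroup.mem_centralizer_singleton_iff]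
      constructor
      · intro hg
        have hg' : Commute g (x * y) := hg
        have e1 : (x * y) ^ orderOf y = x ^ orderOf y := by
          rw [hc.mul_pow, pow_orderOf_eq_one, mul_one]
        have e2 : (x * y) ^ orderOf x = y ^ orderOf x := by
          rw [hc.mul_pow, pow_orderOf_eq_one, one_mul]
        obtain ⟨m, hm⟩ := exists_pow_eq_self_of_coprime hco.symm
        obtain ⟨n, hn⟩ := exists_pow_eq_self_of_coprime hco
        constructor
        · rw [← hm, ← e1]
          exact ((hg'.pow_right _).pow_right _).eq
        · rw [← hn, ← e2]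
          exact ((hg'.pow_right _).pow_right _).eq
      · rintro ⟨h4, h5⟩
        exact (Commute.mul_right h4 h5).eq
    rw [h3]
    have hxP : x ∈ (P : Subgroup G) := H81.mem_sylow_of_mem_normalizer P (by
      change x ∈ Subgroup.normalizer ((P : Subgroup G) : Set G)
      rw [Subgroup.normalizer_eq_top]; trivial) ⟨a, ha⟩
    have hc' : Subgroup.IsComplement' (P : Subgroup G) K :=
      Subgroup.isComplement'_of_disjoint_and_mul_eq_univ (disjoint_iff.2 h1) (by
        rw [← Subgroup.normal_mul, h2, Subgroup.coe_top])
    have h4 : K ≤ Subgroup.centralizer ({x} : Set G) := fun k hk =>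
      Subgroup.mem_centralizer_singleton_iff.2
        (Subgroup.commute_of_normal_of_disjoint _ _ hP hK (disjoint_iff.2 h1) x k hxP hk).symm.eq
    have h5 : (P : Subgroup G) ≤ Subgroup.centralizer ({y} : Set G) := fun z hz =>
      Subgroup.mem_centralizer_singleton_iff.2
        (H81.directFactor_iff.1 ⟨P, K, hP, hK, h1, h2⟩ z y (by
          obtain ⟨b, hb⟩ := (IsPGroup.iff_orderOf.1 P.isPGroup') ⟨z, hz⟩
          exact ⟨b, by rwa [Subgroup.orderOf_mk] at hb⟩) ⟨q, b, hq, hqp, hb⟩)
    have h6 := Subgroup.index_dvd_of_le h4
    have h7 := Subgroup.index_dvd_of_le h5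
    rw [hc'.index_eq_card] at h6
    have h8 : (Subgroup.centralizer ({x} : Set G)).index.Coprime
        (Subgroup.centralizer ({y} : Set G)).index :=
      (P.card_coprime_index.coprime_dvd_left h6).coprime_dvd_right h7
    refine le_antisymm (Subgroup.index_inf_le) (Nat.le_of_dvd (Nat.pos_of_ne_zero
      Subgroup.index_ne_zero_of_finite) (h8.mul_dvd_of_dvd_of_dvd ?_ ?_))
    · exact Subgroup.index_dvd_of_le inf_le_left
    · exact Subgroup.index_dvd_of_le inf_le_right
  · intro h
    refine H81.directFactor_iff.2 fun x y hx hy => ?_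
    have h1 := h x y hx hy
    have h2 : Subgroup.centralizer ({x} : Set G) ⊓ Subgroup.centralizer ({y} : Set G) ≤
        Subgroup.centralizer ({x * y} : Set G) := by
      rintro g ⟨h4, h5⟩
      exact Subgroup.mem_centralizer_singleton_iff.2
        (Commute.mul_right (Subgroup.mem_centralizer_singleton_iff.1 h4)
          (Subgroup.mem_centralizer_singleton_iff.1 h5)).eq
    have h3 := Subgroup.index_inf_le (H := Subgroup.centralizer ({x} : Set G))
      (K := Subgroup.centralizer ({y} : Set G))
    rw [← h1, ← Subgroup.relIndex_mul_index h2] at h3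
    have h4 : (Subgroup.centralizer ({x} : Set G) ⊓ Subgroup.centralizer ({y} : Set G)).relIndex
        (Subgroup.centralizer ({x * y} : Set G)) = 1 := by
      have h5 := Nat.pos_of_ne_zero
        (Subgroup.index_ne_zero_of_finite (H := Subgroup.centralizer ({x * y} : Set G)))
      have h6 : (Subgroup.centralizer ({x} : Set G) ⊓ Subgroup.centralizer ({y} : Set G)).relIndex
        (Subgroup.centralizer ({x * y} : Set G)) ≠ 0 := Subgroup.index_ne_zero_of_finite
      have h7 := Nat.le_of_mul_le_mul_right (h3.trans_eq (one_mul _).symm) h5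
      omega
    rw [Subgroup.relIndex_eq_one] at h4
    have h5 := Subgroup.mem_centralizer_singleton_iff.1
      (h4 (Subgroup.mem_centralizer_singleton_iff.2 rfl)).1
    rw [mul_assoc] at h5
    exact (mul_left_cancel h5).symm

end Cfsg.Agent.S3987
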