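import Cfsg.Statements.S3989
import Cfsg.Agent.H22.PSolvable
import Cfsg.Agent.H81.Misc
import Cfsg.Agent.H2.MinNormal
import Cfsg.Agent.H3.Frobenius

set_option autoImplicit false
open Cfsg

namespace Cfsg.Agent.S3989

open Subgroup

theorem mem_of_primePow {G : Type*} [Group G] [Finite G] (C : Subgroup G) (g : G)
    (h : ∀ y ∈ zpowers g, ∀ q b : ℕ, q.Prime → q ∣ orderOf g → orderOf y = q ^ b → y ∈ C) : g ∈ C := by
  by_contra hg
  have h1 : (C.subgroupOf (zpowers g)).index ≠ 1 := fun e =>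
    hg (mem_subgroupOf.1 ((index_eq_one.1 e).ge (mem_top (⟨g, mem_zpowers g⟩ : zpowers g))))
  obtain ⟨q, hq, hd⟩ := Nat.exists_prime_and_dvd h1
  have := Fact.mk hq
  obtain ⟨P⟩ : Nonempty (Sylow q (zpowers g)) := inferInstance
  refine P.not_dvd_index (hd.trans (index_dvd_of_le fun y hy => ?_))
  obtain ⟨b, hb⟩ := (IsPGroup.iff_orderOf.1 P.isPGroup') ⟨y, hy⟩
  refine mem_subgroupOf.2 (h y y.2 q b hq ?_ ?_)
  · rw [← Nat.card_zpowers]; exact hd.trans (index_dvd_card _)
  · exact (orderOf_coe y).trans ((orderOf_coe (⟨y, hy⟩ : (P : Subgroup (zpowers g)))).trans hb)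

theorem step {G : Type*} [Group G] [Finite G] [Nontrivial G] (p : ℕ) [Fact p.Prime]
    (h : ∀ x y : G, (∃ a : ℕ, orderOf x = p ^ a) → (∃ q b : ℕ, q.Prime ∧ q ≠ p ∧ orderOf y = q ^ b) →
      ∀ a b : G, IsConj (x * y) (a * x * a⁻¹ * (b * y * b⁻¹))) : pCore p G ≠ ⊥ ∨ pPrimeCore p G ≠ ⊥ := by
  obtain ⟨M, hn, hM1, hmin⟩ := H2.exists_minimal_normal (G := G)
  have key : HasNormalPComplement p M := by
    refine H3.hasNormalPComplement_iff_frobenius.2 fun Q hQ g hg hc => mem_of_primePow _ g ?_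
    intro y hy q b hq hd ho
    have hyN : y ∈ normalizer (Q : Set M) := (zpowers_le.2 hg) hy
    have hqp : q ≠ p := by
      rintro rfl
      exact hq.one_lt.ne' (Nat.Coprime.eq_one_of_dvd hc.symm hd)
    intro u hu
    by_contra hne
    have hx : u * (y * u⁻¹ * y⁻¹) ∈ Q := mul_mem hu ((mem_normalizer_iff.1 hyN _).1 (inv_mem hu))
    obtain ⟨k, hk⟩ := (IsPGroup.iff_orderOf.1 hQ) ⟨_, hx⟩
    set x : G := ((u * (y * u⁻¹ * y⁻¹) : M) : G) with hxd
    have hx' : orderOf x = p ^ k := (orderOf_coe _).trans ((orderOf_coe (⟨_, hx⟩ : Q)).trans hk)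
    have e : x * y = u * y * (u : G)⁻¹ := by simp [hxd, mul_assoc]
    have hc1 : IsConj (y : G) (x * y) := isConj_iff.2 ⟨u, e.symm⟩
    let S : Submonoid G :=
      { carrier := {s | ∀ c, IsConj (y : G) c → IsConj (y : G) (s * c)}
        one_mem' := fun c hc => by rwa [one_mul]
        mul_mem' := fun {a b} ha hb c hc => by rw [mul_assoc]; exact ha _ (hb c hc) }
    have hS : ∀ s ∈ normalClosure ({x} : Set G), s ∈ S := by
      intro s hs
      refine closure_induction (p := fun s _ => s ∈ S) (fun s hs => ?_) S.one_mem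
        (fun a b _ _ ha hb => S.mul_mem ha hb) (fun a _ ha => ?_) hs
      · obtain ⟨_, rfl, e⟩ := Group.mem_conjugatesOfSet_iff.1 hs
        obtain ⟨a, rfl⟩ := isConj_iff.1 e
        intro c hc
        obtain ⟨b', rfl⟩ := isConj_iff.1 hc
        exact hc1.trans (h x y ⟨k, hx'⟩ ⟨q, b, hq, hqp, by rw [orderOf_coe, ho]⟩ a b')
      · have : a⁻¹ = a ^ (orderOf a - 1) := by
          rw [inv_eq_iff_mul_eq_one, ← pow_succ', Nat.sub_add_cancel (orderOf_pos a), pow_orderOf_eq_one]
        rw [this]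
        exact S.pow_mem ha _
    have hle : normalClosure ({x} : Set G) ≤ M := normalClosure_le_normal (by
      rintro _ rfl; exact (u * (y * u⁻¹ * y⁻¹) : M).2)
    rcases hmin _ inferInstance hle with h0 | h0
    · have : x = 1 := mem_bot.1 (h0 ▸ subset_normalClosure rfl)
      rw [this, one_mul] at e
      exact hne (Subtype.ext (eq_mul_inv_iff_mul_eq.1 e).symm)
    · have := hS (y : G)⁻¹ (h0.symm ▸ inv_mem y.2) y (IsConj.refl _)
      rw [inv_mul_cancel, isConj_one_left] at this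
      exact hne (by rw [show y = 1 from Subtype.ext this, mul_one, one_mul])
  rcases H22.inf_pCore_ne_bot_or_of_normal M hM1 (H22.isPSolvable_of_hasNormalPComplement key) with h1 | h1
  · exact Or.inl fun hb => h1 (by rw [hb, bot_inf_eq])
  · exact Or.inr fun hb => h1 (by rw [hb, bot_inf_eq])

/-- Let p be a prime and G a finite group such that for every element x of p-power order and every element y whose order is a power of a prime other than p, the conjugacy class of x y is the set of all products of a conjugate of x with a conjugate of y. Then G is p-solvable. -/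
theorem result {G : Type*} [Group G] [Finite G] (p : ℕ) [Fact p.Prime] (h : ∀ x y : G, (∃ a : ℕ, orderOf x = p ^ a) → (∃ q b : ℕ, q.Prime ∧ q ≠ p ∧ orderOf y = q ^ b) → ∀ z : G, IsConj (x * y) z ↔ ∃ a b : G, z = a * x * a⁻¹ * (b * y * b⁻¹)) : Cfsg.IsPSolvable p G := by
  refine H22.isPSolvable_of_quotients fun N _ hN => ?_
  have : Nontrivial (G ⧸ N) := QuotientGroup.nontrivial_iff.mpr hN
  have hs := QuotientGroup.mk'_surjective N
  refine step p fun x y hx ⟨q, b, hq, hqp, hy⟩ a c => ?_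
  obtain ⟨x, rfl, hx'⟩ := H81.exists_pElt_lift _ hs (Fact.out : p.Prime) hx
  obtain ⟨y, rfl, b', hy'⟩ := H81.exists_pElt_lift _ hs hq ⟨b, hy⟩
  obtain ⟨a, rfl⟩ := hs a
  obtain ⟨c, rfl⟩ := hs c
  simpa using (QuotientGroup.mk' N).map_isConj ((h x y hx' ⟨q, b', hq, hqp, hy'⟩ _).2 ⟨a, c, rfl⟩)

end Cfsg.Agent.S3989
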