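import Cfsg.Statements.S3992
import Cfsg.Agent.H81.Eppo
import Cfsg.Agent.H72.SylowIn
import Cfsg.Agent.H81.SubCount

set_option autoImplicit false
open Cfsg

namespace Cfsg.Agent.S3992


open Subgroup

theorem radical {G : Type*} [Group G] [Finite G] (hns : ¬ Group.IsSolvable G) (h : H81.Eppo G)
    (R : Subgroup G) [hRn : R.Normal] (hRs : Group.IsSolvable R) :
    ∃ p : ℕ, p.Prime ∧ IsPGroup p R := by
  by_cases hR : R = ⊥
  · exact ⟨2, Nat.prime_two, hR ▸ IsPGroup.of_bot⟩
  obtain ⟨M, p, hp, hMn, hM, hMR, hMc, hMp, -, -⟩ :=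
    H2.exists_minimal_normal_le_of_solvable R hRn hRs hR
  refine ⟨p, hp, ?_⟩
  refine IsPGroup.of_card (Nat.eq_prime_pow_of_unique_prime_dvd Nat.card_pos.ne' fun {q} hq hd => ?_)
  by_contra hqp
  have := Fact.mk hq
  obtain ⟨Q, hQ⟩ := H72.exists_isSylowIn q R
  have hQ1 : Q ≠ ⊥ := fun e => hQ.eq_bot_iff.1 e hd
  have : Nontrivial Q := (nontrivial_iff_ne_bot Q).2 hQ1
  obtain ⟨z, hzc, hz⟩ := H81.exists_center_orderOf hQ.isPGroup
  let Z := Q ⊓ centralizer (Q : Set G)
  have hzZ : (z : G) ∈ Z := ⟨z.2, mem_centralizer_iff.2 fun y hy =>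
    congrArg Subtype.val (mem_center_iff.1 hzc ⟨y, hy⟩)⟩
  have hZc : IsMulCommutative Z := H2.isMulCommutative_of_forall fun x hx y hy =>
    mem_centralizer_iff.1 hy.2 x hx.1
  have hcyc : IsCyclic Z := S0041.result Z M hM le_normalizer_of_normal (fun a ha ha1 =>
    h.inf_centralizer_eq_bot hp hMp ha1 fun hd' => hqp
      (H81.forall_prime_of_mem_isPGroup hq hQ.isPGroup ha.1 p hp hd').symm) (Or.inl hZc)
  have h1 : Group.IsSolvable (normalizer (Z : Set G)) :=
    H81.isSolvable_normalizer_of_isCyclic Z hcyc (H81.isSolvable_of_isPGroup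
      ((h.isPGroup_centralizer hq (b := (z : G)) (by rw [Subgroup.orderOf_coe, hz])).to_le
        (centralizer_le (Set.singleton_subset_iff.2 hzZ))))
  have h2 : normalizer (Q : Set G) ≤ normalizer (Z : Set G) :=
    H21.le_normalizer_inf le_rfl (H21.normalizer_le_normalizer_centralizer Q)
  apply hns
  refine (Group.isSolvable_iff_subgroup_quotient R).2 ⟨hRs, ?_⟩
  refine Group.isSolvable_of_surjective
    (f := (QuotientGroup.mk' R).comp (normalizer (Z : Set G)).subtype) fun x => ?_
  obtain ⟨g, rfl⟩ := QuotientGroup.mk'_surjective R x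
  obtain ⟨n, hn, y, hy, rfl⟩ := hQ.frattini (H := ⊤) le_normalizer_of_normal (mem_top g)
  exact ⟨⟨y, h2 hy⟩, by simp [(QuotientGroup.eq_one_iff n).2 hn]⟩

theorem socle {G : Type*} [Group G] [Finite G] [Nontrivial G] (h : H81.Eppo G)
    (hrad : ∀ N : Subgroup G, N.Normal → Group.IsSolvable N → N = ⊥) :
    ∃ M : Subgroup G, M.Normal ∧ IsSimpleGroup M ∧ ¬ IsMulCommutative M ∧
      ∀ N : Subgroup G, N.Normal → N ≠ ⊥ → M ≤ N := by
  obtain ⟨M, hMn, hM, hmin⟩ := H2.exists_minimal_normal (G := G)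
  have hcomm : ∀ A B : Subgroup G, B ≠ ⊥ → A ≤ normalizer (B : Set G) →
      B ≤ normalizer (A : Set G) → A ⊓ B = ⊥ → ∃ q : ℕ, q.Prime ∧ IsPGroup q A := by
    intro A B hB h1 h2 h3
    obtain ⟨⟨b, hb⟩, hb1⟩ := ne_bot_iff_exists_ne_one.1 hB
    obtain ⟨q, hq, hq'⟩ := h.exists_isPGroup_centralizer (b := b) fun e => hb1 (Subtype.ext e)
    refine ⟨q, hq, hq'.to_le ?_⟩
    have h4 := H72.commutator_le_inf_of_normalizes h1 h2
    rw [h3, le_bot_iff, commutator_eq_bot_iff_le_centralizer] at h4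
    exact h4.trans (centralizer_le (Set.singleton_subset_iff.2 hb))
  have hpg : ∀ (q : ℕ) (A : Subgroup G), q.Prime → IsPGroup q A → A ≤ M →
      M ≤ normalizer (A : Set G) → A = ⊥ := by
    intro q A hq hA h1 h2
    have := Fact.mk hq
    have h3 := H44.le_pCoreOf h1 h2 hA
    rwa [hrad _ (H44.pCoreOf_normal M) (H81.isSolvable_of_isPGroup (H44.pCoreOf_isPGroup M)),
      le_bot_iff] at h3
  refine ⟨M, hMn, ?_, fun hc => hM (hrad M hMn ?_), fun N hN hN1 => ?_⟩
  · have : Nontrivial M := (nontrivial_iff_ne_bot M).2 hM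
    refine ⟨fun K hK => ?_⟩
    by_cases hK1 : K = ⊥
    · exact Or.inl hK1
    right
    obtain ⟨L, hLn, hL, hLK, hLmin⟩ := H2.exists_minimal_normal_le K hK hK1
    have hL' : L.map M.subtype ≠ ⊥ := by
      rwa [Ne, map_eq_bot_iff_of_injective _ M.subtype_injective]
    have hn : M ≤ normalizer ((L.map M.subtype : Subgroup G) : Set G) := fun g hg =>
      mem_normalizer_fintype (by
        rintro _ ⟨x, hx, rfl⟩
        exact ⟨_, hLn.conj_mem x hx ⟨g, hg⟩, rfl⟩)
    have hle : L.map M.subtype ≤ M := map_subtype_le _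
    have hnorm : (L.map M.subtype).Normal := by
      rw [← normalizer_eq_top_iff, eq_top_iff]
      intro g _
      have hn' : M ≤ normalizer ((H72.cj g (L.map M.subtype) : Subgroup G) : Set G) := by
        rw [← H72.cj_normalizer]
        exact (H72.cj_eq_of_normal g M).ge.trans (H72.cj_mono g hn)
      have hle' : H72.cj g (L.map M.subtype) ≤ M :=
        H72.cj_le_of_mem_normalizer (le_normalizer_of_normal (mem_top g)) hle
      have h1 : ((H72.cj g (L.map M.subtype)).subgroupOf M).Normal :=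
        (normal_subgroupOf_iff_le_normalizer hle').2 hn'
      rcases hLmin (L ⊓ (H72.cj g (L.map M.subtype)).subgroupOf M) inferInstance inf_le_left
        with h2 | h2
      · exfalso
        obtain ⟨q, hq, hq'⟩ := hcomm _ (H72.cj g (L.map M.subtype))
          (by rwa [Ne, H72.cj_eq_bot_iff]) (hle.trans hn') (hle'.trans hn) (by
            rw [eq_bot_iff]
            rintro _ ⟨⟨x, hx, rfl⟩, hx'⟩
            have : x ∈ L ⊓ (H72.cj g (L.map M.subtype)).subgroupOf M := ⟨hx, hx'⟩
            rw [h2, mem_bot] at this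
            rw [this]; exact one_mem _)
        exact hL' (hpg q _ hq hq' hle hn)
      · rw [← H72.cj_eq_iff]
        symm
        refine eq_of_le_of_card_ge ?_ (H72.card_cj _ _).le
        rintro _ ⟨x, hx, rfl⟩
        exact inf_eq_left.1 h2 hx
    have h3 := (hmin _ hnorm hle).resolve_left hL'
    rw [eq_top_iff]
    intro x _
    obtain ⟨y, hy, hyx⟩ : (x : G) ∈ L.map M.subtype := h3.symm ▸ x.2
    exact hLK (Subtype.ext hyx ▸ hy)
  · exact Group.isSolvable_of_comm hc.is_comm.comm
  · rcases hmin (M ⊓ N) inferInstance inf_le_left with h1 | h1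
    · obtain ⟨q, hq, hq'⟩ := hcomm M N hN1 le_normalizer_of_normal le_normalizer_of_normal h1
      exact absurd (hpg q M hq hq' le_rfl le_normalizer) hM
    · exact inf_eq_left.1 h1

/-- Let G be a finite non-solvable group in which every element has prime-power order, and let R be its largest solvable normal subgroup. Then R is a p-group for some prime p; G/R has a non-abelian simple normal subgroup contained in every nontrivial normal subgroup of G/R (its unique minimal normal subgroup); and the order of every solvable subgroup of G has at most two prime divisors. -/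
theorem result {G : Type*} [Group G] [Finite G] (hns : ¬ Group.IsSolvable G) (hpp : ∀ g : G, g ≠ 1 → IsPrimePow (orderOf g))
    (R : Subgroup G) [R.Normal] (hRs : Group.IsSolvable ↥R) (hRmax : ∀ N : Subgroup G, N.Normal → Group.IsSolvable ↥N → N ≤ R) :
    (∃ p : ℕ, p.Prime ∧ IsPGroup p ↥R) ∧
      (∃ M : Subgroup (G ⧸ R), M.Normal ∧ IsSimpleGroup ↥M ∧ ¬ IsMulCommutative ↥M ∧
        ∀ N : Subgroup (G ⧸ R), N.Normal → N ≠ ⊥ → M ≤ N) ∧
      ∀ H : Subgroup G, Group.IsSolvable ↥H → (Nat.card ↥H).primeFactors.card ≤ 2 := by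
  have h := H81.eppo_of_isPrimePow hpp
  refine ⟨radical hns h R hRs, ?_, fun H hH => ?_⟩
  · have : Nontrivial (G ⧸ R) := QuotientGroup.nontrivial_iff.2 (by
      rintro rfl
      exact hns (Group.isSolvable_of_surjective (f := (⊤ : Subgroup G).subtype)
        fun x => ⟨⟨x, trivial⟩, rfl⟩))
    refine socle (h.of_surjective _ (QuotientGroup.mk'_surjective R)) fun N hN hs => ?_
    have h1 : Group.IsSolvable (N.comap (QuotientGroup.mk' R)) := by
      refine Group.isSolvable_of_ker_le_range (inclusion (QuotientGroup.le_comap_mk' R N))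
        ((QuotientGroup.mk' R).subgroupComap N) ?_
      intro x hx
      exact ⟨⟨x, (QuotientGroup.eq_one_iff _).1 (congrArg Subtype.val hx)⟩, rfl⟩
    have h2 := hRmax _ (hN.comap _) h1
    rw [← map_comap_eq_self_of_surjective (QuotientGroup.mk'_surjective R) N,
      Subgroup.map_eq_bot_iff,
      QuotientGroup.ker_mk']
    exact h2
  · by_contra hc
    obtain ⟨p, q, r, hp, hq, hr, hpq, hpr, hqr⟩ := Finset.two_lt_card_iff.1 (not_le.1 hc)
    rw [Nat.mem_primeFactors] at hp hq hr
    exact (h.subgroup H).not_three_primes hH hp.1 hq.1 hr.1 hpq hpr hqr hp.2.1 hq.2.1 hr.2.1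

end Cfsg.Agent.S3992
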