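import Cfsg.Statements.S3996
import Cfsg.Agent.H81.SameOrder
import Cfsg.Agent.H54.FT
import Cfsg.Agent.S0144

set_option autoImplicit false
open Cfsg

namespace Cfsg.Agent.S3996

open Cfsg.Agent.H81

theorem core {G : Type*} [Group G] [Finite G] {b : ℕ}
    (h : ∀ m, 2 < m → so G m = 0 ∨ so G m = so G 4 ∨ so G m = b) (h4 : ¬ 4 ∣ so G 4)
    {p q : ℕ} (hp : p.Prime) (hq : q.Prime) (hp2 : p ≠ 2) (hq2 : q ≠ 2) (h1 : p ∣ Nat.card G)
    (h2 : q ∣ Nat.card G) (hpq : p ≠ q) (hpa : so G p = so G 4) : False := by
  have := Fact.mk hp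
  have hp3 : 2 < p := lt_of_le_of_ne hp.two_le hp2.symm
  have hq3 : 2 < q := lt_of_le_of_ne hq.two_le hq2.symm
  have hco : p.Coprime q := (Nat.coprime_primes hp hq).2 hpq
  have hc4 : ∀ r : ℕ, r.Prime → r ≠ 2 → r.Coprime 4 := fun r hr hr2 =>
    Nat.Coprime.pow_right 2 ((Nat.coprime_primes hr Nat.prime_two).2 hr2)
  have key : ∀ m, 2 < m → 4 ∣ so G m → so G m = 0 ∨ so G m = b := fun m hm hd => by
    rcases h m hm with h5 | h5 | h5
    · exact Or.inl h5
    · exact absurd (h5 ▸ hd) h4
    · exact Or.inr h5
  have e1 := one_add_so hp h1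
  have e2 := so_add_eq_zero hp h1 (m := 4) (hp.coprime_iff_not_dvd.1 (hc4 p hp hp2))
  have e3 := so_add_eq_zero hp h1 (m := q) (hp.coprime_iff_not_dvd.1 hco)
  have e4 := so_add_eq_zero hp h1 (m := q * 4)
    (hp.coprime_iff_not_dvd.1 (hco.mul_right (hc4 p hp hp2)))
  have h20 := two_ne_zero_zmod hp hp2
  rw [hpa] at e1
  have f1 : so G (p * 4) = b := by
    refine (key _ (by omega) (four_dvd_so hp3 (by norm_num) (hc4 p hp hp2) dvd_rfl)).resolve_left
      fun e => ?_
    rw [e] at e2
    exact one_ne_zero (α := ZMod p) (by push_cast at e2; linear_combination e1 - e2)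
  rw [f1] at e2
  have f2 := key (p * q) (by nlinarith) (four_dvd_so hp3 hq3 hco dvd_rfl)
  have f3 := key (p * (q * 4)) (by nlinarith)
    (four_dvd_so hp3 hq3 hco (by rw [← mul_assoc]; exact Dvd.intro _ rfl))
  rcases h q hq3 with g1 | g1 | g1
  · exact so_prime_ne_zero hq h2 g1
  · have := Fact.mk hq
    have e5 := one_add_so hq h2
    have e6 := so_add_eq_zero hq h2 (m := 4) (hq.coprime_iff_not_dvd.1 (hc4 q hq hq2))
    rw [g1] at e5
    have f4 : so G (q * 4) = b := by
      refine (key _ (by omega) (four_dvd_so hq3 (by norm_num) (hc4 q hq hq2) dvd_rfl)).resolve_left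
        fun e => ?_
      rw [e] at e6
      exact one_ne_zero (α := ZMod q) (by push_cast at e6; linear_combination e5 - e6)
    rw [f4] at e4
    rcases f3 with f3 | f3 <;> rw [f3] at e4
    · exact one_ne_zero (α := ZMod p) (by push_cast at e4; linear_combination e1 - e2 + e4)
    · exact h20 (by linear_combination 2 * e1 - 2 * e2 + e4)
  · rw [g1] at e3
    rcases f2 with f2 | f2 <;> rw [f2] at e3
    · exact one_ne_zero (α := ZMod p) (by push_cast at e3; linear_combination e1 - e2 + e3)
    · exact h20 (by linear_combination 2 * e1 - 2 * e2 + e3)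

/-- A finite group in which the numbers of elements of each order that occurs (the numbers #{g : o(g) = m}, m ranging over the element orders) take exactly three different values is solvable. -/
theorem result {G : Type*} [Group G] [Finite G] (h : (((fun m : ℕ => Nat.card {g : G // orderOf g = m}) '' Set.range (orderOf : G → ℕ))).ncard = 3) : Group.IsSolvable G := by
  obtain ⟨a, b, hab⟩ := exists_values_of_ncard_three h
  by_cases hodd : Odd (Nat.card G)
  · exact H54.odd_order_solvable hodd
  have h2 : 2 ∣ Nat.card G := even_iff_two_dvd.1 (Nat.not_odd_iff_even.1 hodd)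
  have hs2 : 2 ∣ 1 + so G 2 := by
    have := pow_dvd_one_add_so (G := G) (k := 0) Nat.prime_two (by simp)
    have h3 := dvd_so_add Nat.prime_two h2 (m := 1) (by norm_num)
    rwa [so_one] at h3
  have burn : (∀ p q : ℕ, p.Prime → q.Prime → p ≠ 2 → q ≠ 2 → p ∣ Nat.card G → q ∣ Nat.card G →
      p = q) → Group.IsSolvable G := fun h => by
    obtain ⟨p, a, b, hp, -, hG⟩ := card_eq_of_odd_prime_unique h
    exact S0144.result 2 p a b Nat.prime_two hp hG
  by_cases h1 : so G 2 = 1
  · by_cases h4 : so G 4 = 0
    · obtain ⟨z, hz⟩ := so_ne_zero_iff.1 (so_prime_ne_zero Nat.prime_two h2)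
      have hn := normal_zpowers_of_mem_center (mem_center_of_so_two h1 hz)
      have h5 := not_four_dvd_card h1 h4
      have h6 := (Subgroup.zpowers z).card_eq_card_quotient_mul_card_subgroup
      rw [Nat.card_zpowers, hz] at h6
      have h7 := H54.odd_order_solvable (G := G ⧸ Subgroup.zpowers z)
        (Nat.odd_iff.2 (by omega))
      exact solvable_of_ker_le_range (Subgroup.zpowers z).subtype
        (QuotientGroup.mk' (Subgroup.zpowers z)) (by simp)
    · have h5 := four_dvd_so_add h4
      have h6 : ∃ c, ∀ m, 2 < m → so G m = 0 ∨ so G m = so G 4 ∨ so G m = c := by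
        have h7 := hab 4
        have h8 := two_dvd_so (G := G) (m := 4) (by norm_num)
        rcases (by omega : so G 4 = a ∨ so G 4 = b) with h9 | h9
        · exact ⟨b, fun m hm => by have := hab m; have := two_dvd_so (G := G) hm; omega⟩
        · exact ⟨a, fun m hm => by have := hab m; have := two_dvd_so (G := G) hm; omega⟩
      obtain ⟨c, hc⟩ := h6
      refine burn fun p q hp hq hp2 hq2 hpG hqG => ?_
      by_contra hpq
      have hp3 : 2 < p := lt_of_le_of_ne hp.two_le hp2.symm
      have hq3 : 2 < q := lt_of_le_of_ne hq.two_le hq2.symm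
      have h7 : ¬ 4 ∣ so G 4 := by omega
      have h8 : so G p = c := by
        rcases hc p hp3 with e | e | e
        · exact absurd e (so_prime_ne_zero hp hpG)
        · exact (core hc h7 hp hq hp2 hq2 hpG hqG hpq e).elim
        · exact e
      have h9 : so G q = c := by
        rcases hc q hq3 with e | e | e
        · exact absurd e (so_prime_ne_zero hq hqG)
        · exact (core hc h7 hq hp hq2 hp2 hqG hpG (Ne.symm hpq) e).elim
        · exact e
      have := Fact.mk hp
      have hco : p.Coprime q := (Nat.coprime_primes hp hq).2 hpq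
      have e1 := one_add_so hp hpG
      have e3 := so_add_eq_zero hp hpG (m := q) (hp.coprime_iff_not_dvd.1 hco)
      rw [h8] at e1
      rw [h9] at e3
      rcases hc (p * q) (by nlinarith) with e | e | e
      · rw [e] at e3
        exact one_ne_zero (α := ZMod p) (by push_cast at e3; linear_combination e1 - e3)
      · exact h7 (e ▸ four_dvd_so hp3 hq3 hco dvd_rfl)
      · rw [e] at e3
        exact two_ne_zero_zmod hp hp2 (by linear_combination 2 * e1 - e3)
  · have h6 : ∃ c, ∀ m, 2 < m → so G m = 0 ∨ so G m = c := by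
      have h7 := hab 2
      rcases (by omega : so G 2 = a ∨ so G 2 = b) with h9 | h9
      · exact ⟨b, fun m hm => by have := hab m; have := two_dvd_so (G := G) hm; omega⟩
      · exact ⟨a, fun m hm => by have := hab m; have := two_dvd_so (G := G) hm; omega⟩
    obtain ⟨c, hc⟩ := h6
    exact burn fun p q hp hq hp2 hq2 hpG hqG =>
      odd_prime_unique_of_two_values hc hp hq hp2 hq2 hpG hqG

end Cfsg.Agent.S3996
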