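import Cfsg.Statements.S4004
import Cfsg.Agent.H81.PrimeOrd
import Cfsg.Agent.H54.FT
import Cfsg.Agent.H81.PSmall

set_option autoImplicit false
open Cfsg

namespace Cfsg.Agent.S4004

open Cfsg.Agent.H81 Subgroup

section
variable {G : Type*} [Group G] [Finite G]

theorem distinct (hodd : ∀ r : ℕ, r.Prime → r ∣ Nat.card G → r ≠ 2) {c p q : ℕ}
    (hv : ∀ m, 2 < m → so G m = 0 ∨ so G m = so G p ∨ so G m = c)
    (hp : p.Prime) (hq : q.Prime) (hpG : p ∣ Nat.card G) (hqG : q ∣ Nat.card G) (hpq : p ≠ q) :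
    so G q ≠ so G p := by
  intro hqp
  have h3 : ∀ r : ℕ, r.Prime → r ∣ Nat.card G → 2 < r := fun r hr h =>
    lt_of_le_of_ne hr.two_le (hodd r hr h).symm
  have hnd : ∀ {r s : ℕ}, r.Prime → s.Prime → r ≠ s → ¬ r ∣ s := fun hr hs h e =>
    h ((Nat.prime_dvd_prime_iff_eq hr hs).1 e)
  have key : ∀ r s : ℕ, r.Prime → s.Prime → r ∣ Nat.card G → s ∣ Nat.card G → r ≠ s →
      so G r = so G p → so G s = so G p → so G (r * s) = c ∧ (c : ZMod r) = 1 := by
    intro r s hr hs hrG hsG hrs h1 h2
    have := Fact.mk hr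
    have e1 := one_add_so hr hrG
    have e2 := so_add_eq_zero hr hrG (hnd hr hs hrs)
    rw [h1] at e1
    rw [h2] at e2
    have := h3 r hr hrG
    have := h3 s hs hsG
    rcases hv (r * s) (by nlinarith) with e | e | e <;> rw [e] at e2
    · exact (one_ne_zero (α := ZMod r) (by push_cast at e2; linear_combination e1 - e2)).elim
    · exact (two_ne_zero_zmod hr (hodd r hr hrG) (by linear_combination 2 * e1 - e2)).elim
    · exact ⟨e, by linear_combination e2 - e1⟩
  obtain ⟨hpqc, hcp⟩ := key p q hp hq hpG hqG hpq rfl hqp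
  have hall : ∀ r : ℕ, r.Prime → r ∣ Nat.card G → so G r = so G p := by
    intro r hr hrG
    by_cases hrp : r = p
    · rw [hrp]
    by_cases hrq : r = q
    · rw [hrq, hqp]
    rcases hv r (h3 r hr hrG) with e | e | e
    · exact absurd e (so_prime_ne_zero hr hrG)
    · exact e
    exfalso
    have := Fact.mk hp
    have := Fact.mk hr
    have hp3 := h3 p hp hpG
    have hq3 := h3 q hq hqG
    have hr3 := h3 r hr hrG
    have e1 := one_add_so hp hpG
    have e2 := so_add_eq_zero hp hpG (hnd hp hr (Ne.symm hrp))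
    have e3 := one_add_so hr hrG
    have e4 := so_add_eq_zero hr hrG (hnd hr hp hrp)
    have e5 := so_add_eq_zero hr hrG (m := p * q)
      (fun h => ((hr.dvd_mul).1 h).elim (hnd hr hp hrp) (hnd hr hq hrq))
    rw [e] at e2 e3
    rw [hpqc] at e5
    have f1 : so G (p * r) = so G p := by
      rcases hv (p * r) (by nlinarith) with f | f | f
      · rw [f] at e2
        exact (one_ne_zero (α := ZMod p) (by push_cast at e2; linear_combination e2 - hcp)).elim
      · exact f
      · rw [f] at e2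
        exact (two_ne_zero_zmod hp (hodd p hp hpG) (by linear_combination e2 - 2 * hcp)).elim
    rw [mul_comm r p, f1] at e4
    have h20 := two_ne_zero_zmod hr (hodd r hr hrG)
    have hpq3 : 2 < p * q := by nlinarith
    rcases hv (r * (p * q)) (by nlinarith) with f | f | f <;> rw [f] at e5
    · exact one_ne_zero (α := ZMod r) (by push_cast at e5; linear_combination e3 - e5)
    · exact h20 (by linear_combination 2 * e3 - 2 * e5 + e4)
    · exact h20 (by linear_combination 2 * e3 - e5)
  have hdvd : Nat.card G ∣ 1 + so G p := by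
    rw [Nat.dvd_iff_prime_pow_dvd_dvd]
    intro r k hr hk
    rcases k with _ | k
    · simp
    have hrG : r ∣ Nat.card G := (dvd_pow_self r (by omega)).trans hk
    rw [← hall r hr hrG]
    refine pow_dvd_one_add_so hr hk ?_
    have := Fact.mk hr
    have hc : (c : ZMod r) = 1 := by
      by_cases hrp : r = p
      · subst hrp
        exact hcp
      · exact (key r p hr hp hrG hpG hrp (hall r hr hrG) rfl).2
    have e1 := one_add_so hr hrG
    have e2 := (ZMod.natCast_eq_zero_iff _ _).2 (dvd_so_of_sq_dvd (G := G) hr dvd_rfl)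
    have hr3 := h3 r hr hrG
    rw [hall r hr hrG] at e1
    rcases hv (r * r) (by nlinarith) with f | f | f
    · exact f
    · rw [f] at e2
      exact (one_ne_zero (α := ZMod r) (by linear_combination e1 - e2)).elim
    · rw [f] at e2
      exact (one_ne_zero (α := ZMod r) (by linear_combination e2 - hc)).elim
  have h1 : Nat.card {g : G // (orderOf g = 1 ∨ orderOf g = p) ∨ orderOf g = q} =
      1 + so G p + so G q := by
    rw [H36.card_subtype_or (fun _ h1 h2 => by
      have := hq.one_lt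
      omega), card_or_eq hp.one_lt.ne, so_one]
    rfl
  have h2 := H36.card_subtype_le fun g : G => (orderOf g = 1 ∨ orderOf g = p) ∨ orderOf g = q
  have h4 := Nat.le_of_dvd (by omega) hdvd
  have h5 := so_prime_ne_zero hq hqG
  omega

theorem mul_ne (hodd : ∀ r : ℕ, r.Prime → r ∣ Nat.card G → r ≠ 2) {p q : ℕ}
    (hp : p.Prime) (hq : q.Prime) (hpG : p ∣ Nat.card G) (hqG : q ∣ Nat.card G) (hpq : p ≠ q) :
    so G (p * q) ≠ so G p := by
  intro h
  have := Fact.mk hp
  have hco : p.Coprime q := (Nat.coprime_primes hp hq).2 hpq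
  have e1 := one_add_so hp hpG
  have e2 := so_add_eq_zero hp hpG (hp.coprime_iff_not_dvd.1 hco)
  rw [h] at e2
  have h1 : ¬ p ∣ so G q := fun e => by
    rw [← ZMod.natCast_eq_zero_iff] at e
    exact one_ne_zero (α := ZMod p) (by linear_combination e1 - e2 + e)
  have h2 : ∀ x : {x : G // orderOf x = p}, ∃ y : G, orderOf y = q ∧ Commute x.1 y := by
    intro x
    have h3 := card_modEq_fixed (p := p) (P := zpowers x.1)
      (IsPGroup.of_card (n := 1) (by rw [Nat.card_zpowers, x.2, pow_one]))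
      (fun g (y : G) => (g : G) * y * (g : G)⁻¹) (fun y => by simp)
      (fun g h y => by simp [mul_assoc]) (fun y => orderOf y = q)
      (fun g y hy => ((MulAut.conj (g : G)).orderOf_eq y).trans hy)
    have h4 : Nat.card {y : G // orderOf y = q ∧
        ∀ g : zpowers x.1, (g : G) * y * (g : G)⁻¹ = y} ≠ 0 := fun e => by
      rw [e] at h3
      exact h1 (Nat.modEq_zero_iff_dvd.1 h3)
    obtain ⟨⟨y, hy, hy'⟩⟩ := (Nat.card_ne_zero.1 h4).1
    exact ⟨y, hy, mul_inv_eq_iff_eq_mul.1 (hy' ⟨_, mem_zpowers _⟩)⟩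
  choose y hy hc using h2
  have hq3 : 2 < q := lt_of_le_of_ne hq.two_le (hodd q hq hqG).symm
  have hne : ∀ x, y x ≠ (y x)⁻¹ := fun x e => by
    have : y x ^ 2 = 1 := by rw [pow_two]; exact mul_eq_one_iff_eq_inv.2 e
    have := Nat.le_of_dvd two_pos (hy x ▸ orderOf_dvd_of_pow_eq_one this)
    omega
  have h5 := Nat.card_le_card_of_injective
    (fun z : {x : G // orderOf x = p} ⊕ {x : G // orderOf x = p} =>
      (z.elim (fun x => ⟨(x.1, y x), x.2, hy x, hc x⟩)
        (fun x => ⟨(x.1, (y x)⁻¹), x.2, by rw [orderOf_inv, hy x], (hc x).inv_right⟩) :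
        {z : G × G // orderOf z.1 = p ∧ orderOf z.2 = q ∧ Commute z.1 z.2})) (by
      rintro (x | x) (x' | x') e
      all_goals
        obtain ⟨e1, e2⟩ := Prod.ext_iff.1 (Subtype.mk.inj e)
        obtain rfl : x = x' := Subtype.ext e1
      · rfl
      · exact absurd e2 (hne x)
      · exact absurd e2.symm (hne x)
      · rfl)
  rw [← card_orderOf_mul_eq_pairs hco, Nat.card_sum] at h5
  have h6 := so_prime_ne_zero hp hpG
  change so G p + so G p ≤ so G (p * q) at h5
  omega

theorem sq_eq_zero (hodd : ∀ r : ℕ, r.Prime → r ∣ Nat.card G → r ≠ 2) {p q : ℕ}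
    (hv : ∀ m, 2 < m → so G m = 0 ∨ so G m = so G p ∨ so G m = so G q)
    (hp : p.Prime) (hq : q.Prime) (hpG : p ∣ Nat.card G) (hqG : q ∣ Nat.card G) (hpq : p ≠ q)
    (h0 : so G (p * q) = 0) : so G (p * p) = 0 := by
  have := Fact.mk hp
  have := Fact.mk hq
  have hp3 : 2 < p := lt_of_le_of_ne hp.two_le (hodd p hp hpG).symm
  have e1 := one_add_so hp hpG
  have e2 := (ZMod.natCast_eq_zero_iff _ _).2 (dvd_so_of_sq_dvd (G := G) hp dvd_rfl)
  have e3 := one_add_so hq hqG
  have e4 := so_add_eq_zero hq hqG (m := p * p) (fun h => hpq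
    ((Nat.prime_dvd_prime_iff_eq hq hp).1 (((hq.dvd_mul).1 h).elim id id)).symm)
  have e5 : so G (q * (p * p)) = 0 := by
    by_contra e
    exact so_ne_zero_of_dvd e (m := p * q) ⟨p, by ring⟩ h0
  rw [e5] at e4
  rcases hv (p * p) (by nlinarith) with f | f | f
  · exact f
  · rw [f] at e2
    exact (one_ne_zero (α := ZMod p) (by linear_combination e1 - e2)).elim
  · rw [f] at e4
    exact (one_ne_zero (α := ZMod q) (by push_cast at e4; linear_combination e3 - e4)).elim

end

/-- Let G be a finite group of odd order in which the numbers of elements of each order that occurs (the numbers #{g : o(g) = m}, m ranging over the element orders of G) take exactly three different values. Then the order of G has at most two prime divisors; and if it has exactly two, then every Sylow subgroup of G for a prime dividing its order has prime exponent, G is a Frobenius group, and some Frobenius complement of G has prime order. -/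
theorem result {G : Type*} [Group G] [Finite G] (hodd : Odd (Nat.card G)) (h : (((fun m : ℕ => Nat.card {g : G // orderOf g = m}) '' Set.range (orderOf : G → ℕ))).ncard = 3) :
    (Nat.card G).primeFactors.card ≤ 2 ∧
      ((Nat.card G).primeFactors.card = 2 →
        (∀ (p : ℕ) [Fact p.Prime] (P : Sylow p G), p ∣ Nat.card G → Monoid.exponent ↥(P : Subgroup G) = p) ∧
        ∃ C : Subgroup G, Cfsg.IsFrobeniusComplement C ∧ (Nat.card ↥C).Prime) := by
  obtain ⟨a, b, hab⟩ := exists_values_of_ncard_three h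
  have h2 : ∀ r : ℕ, r.Prime → r ∣ Nat.card G → r ≠ 2 := fun r _ hr e =>
    (Nat.not_even_iff_odd.2 hodd) (even_iff_two_dvd.2 (e ▸ hr))
  have hv : ∀ m, 2 < m → so G m = 0 ∨ so G m = a ∨ so G m = b := fun m hm => by
    have := hab m; have := two_dvd_so (G := G) hm; omega
  have hpr : ∀ r : ℕ, r.Prime → r ∣ Nat.card G → so G r = a ∨ so G r = b := fun r hr h =>
    (hv r (lt_of_le_of_ne hr.two_le (h2 r hr h).symm)).resolve_left (so_prime_ne_zero hr h)
  have hd : ∀ p q : ℕ, p.Prime → q.Prime → p ∣ Nat.card G → q ∣ Nat.card G → p ≠ q →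
      so G q ≠ so G p := by
    intro p q hp hq hpG hqG hpq
    rcases hpr p hp hpG with e | e
    · exact distinct h2 (c := b) (fun m hm => by have := hv m hm; omega) hp hq hpG hqG hpq
    · exact distinct h2 (c := a) (fun m hm => by have := hv m hm; omega) hp hq hpG hqG hpq
  constructor
  · by_contra hc
    obtain ⟨p, hp, q, hq, r, hr, h3, h4, h5⟩ := Finset.two_lt_card.1 (not_le.1 hc)
    rw [Nat.mem_primeFactors] at hp hq hr
    have := hd p q hp.1 hq.1 hp.2.1 hq.2.1 h3
    have := hd p r hp.1 hr.1 hp.2.1 hr.2.1 h4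
    have := hd q r hq.1 hr.1 hq.2.1 hr.2.1 h5
    have := hpr p hp.1 hp.2.1
    have := hpr q hq.1 hq.2.1
    have := hpr r hr.1 hr.2.1
    omega
  intro hc
  obtain ⟨p, q, hpq, hS⟩ := Finset.card_eq_two.1 hc
  have hp : p ∈ (Nat.card G).primeFactors := by rw [hS]; simp
  have hq : q ∈ (Nat.card G).primeFactors := by rw [hS]; simp
  have hpr2 : ∀ r : ℕ, r.Prime → r ∣ Nat.card G → r = p ∨ r = q := fun r hr h => by
    have : r ∈ (Nat.card G).primeFactors := Nat.mem_primeFactors.2 ⟨hr, h, Nat.card_pos.ne'⟩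
    rw [hS] at this
    simpa using this
  rw [Nat.mem_primeFactors] at hp hq
  obtain ⟨hp, hpG, -⟩ := hp
  obtain ⟨hq, hqG, -⟩ := hq
  have hv' : ∀ m, 2 < m → so G m = 0 ∨ so G m = so G p ∨ so G m = so G q := fun m hm => by
    have := hv m hm
    have := hd p q hp hq hpG hqG hpq
    have := hpr p hp hpG
    have := hpr q hq hqG
    omega
  have h0 : so G (p * q) = 0 := by
    have h3 := mul_ne h2 hp hq hpG hqG hpq
    have h4 := mul_ne h2 hq hp hqG hpG (Ne.symm hpq)
    rw [mul_comm] at h4
    have := hp.two_le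
    have := hq.two_le
    have := hv' (p * q) (by nlinarith)
    omega
  have h3 := sq_eq_zero h2 hv' hp hq hpG hqG hpq h0
  have h4 := sq_eq_zero h2 (fun m hm => by have := hv' m hm; omega) hq hp hqG hpG (Ne.symm hpq)
    (by rw [mul_comm, h0])
  have hprime : ∀ g : G, g ≠ 1 → (orderOf g).Prime := by
    intro g hg
    obtain ⟨r, hr, k, hk⟩ := Nat.exists_prime_and_dvd (mt orderOf_eq_one_iff.1 hg)
    by_cases hk1 : k = 1
    · rwa [hk, hk1, mul_one]
    exfalso
    obtain ⟨s, hs, hsk⟩ := Nat.exists_prime_and_dvd hk1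
    have h5 : r * s ∣ orderOf g := hk ▸ Nat.mul_dvd_mul_left r hsk
    have h6 := so_ne_zero_of_dvd (so_ne_zero_iff.2 ⟨g, rfl⟩) h5
    have h7 := h5.trans (orderOf_dvd_natCard g)
    rcases hpr2 r hr ((Dvd.intro _ rfl).trans h7) with rfl | rfl <;>
      rcases hpr2 s hs ((Dvd.intro_left _ rfl).trans h7) with rfl | rfl
    · exact h6 h3
    · exact h6 h0
    · exact h6 (by rw [mul_comm, h0])
    · exact h6 h4
  constructor
  · intro r hr P hrG
    obtain ⟨x, hx⟩ := exists_prime_orderOf_dvd_card' r (P.dvd_card_of_dvd_card hrG)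
    refine Nat.dvd_antisymm (Monoid.exponent_dvd_of_forall_pow_eq_one fun g => ?_)
      (hx.symm.dvd.trans (Monoid.order_dvd_exponent x))
    by_cases hg : g = 1
    · rw [hg, one_pow]
    obtain ⟨k, hk⟩ := IsPGroup.iff_orderOf.1 P.isPGroup' g
    have h5 := hprime g fun e => hg (Subtype.ext e)
    rw [Subgroup.orderOf_coe, hk] at h5
    rw [← orderOf_dvd_iff_pow_eq_one, hk, h5.eq_one_of_pow, pow_one]
  have := H54.odd_order_solvable hodd
  have : Nontrivial G := by
    rw [← Finite.one_lt_card_iff_nontrivial]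
    exact hp.one_lt.trans_le (Nat.le_of_dvd Nat.card_pos hpG)
  obtain ⟨V, r, hr, hVn, hV, hVc, hVr, hVe, -⟩ := H2.exists_minimal_normal_of_solvable (G := G)
  have := Fact.mk hr
  have hrG : r ∣ Nat.card G := (hVr.card_eq_or_dvd.resolve_left
    fun e => hV (card_eq_one.1 e)).trans (card_subgroup_dvd_card V)
  obtain ⟨s, hs, hsG, hsr⟩ : ∃ s : ℕ, s.Prime ∧ s ∣ Nat.card G ∧ s ≠ r := by
    rcases hpr2 r hr hrG with rfl | rfl
    · exact ⟨q, hq, hqG, Ne.symm hpq⟩
    · exact ⟨p, hp, hpG, hpq⟩
  obtain ⟨x, hx⟩ := so_ne_zero_iff.1 (so_prime_ne_zero hs hsG)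
  have hN := normalizer_le_of_prime_orders hprime V hV hs hr hsr hVe hx
  have hcard : Nat.card (zpowers x) = s := by rw [Nat.card_zpowers, hx]
  refine ⟨zpowers x, ⟨fun e => ?_, fun e => ?_, fun g hg => ?_⟩, hcard ▸ hs⟩
  · rw [e, card_bot] at hcard
    exact hs.one_lt.ne hcard
  · rw [e, card_top] at hcard
    rw [hcard] at hrG
    exact hsr ((Nat.prime_dvd_prime_iff_eq hr hs).1 hrG).symm
  · change zpowers x ⊓ H72.cj g (zpowers x) = ⊥
    rw [H72.cj_zpowers]
    refine inf_zpowers_eq_bot hs (((MulAut.conj g).orderOf_eq x).trans hx) fun e => hg ?_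
    exact hN (mem_normalizer_zpowers_of_conj_mem e)

end Cfsg.Agent.S4004
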