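import Cfsg.Statements.S4009
import Cfsg.Agent.S3781

set_option autoImplicit false
open Cfsg

namespace Cfsg.Agent.S4009

open Subgroup
open scoped commutatorElement

variable {G : Type*} [Group G]

noncomputable def lg (p : ℕ) (A : Subgroup G) : ℕ := Nat.log p (Nat.card A)

def it (N : Subgroup G) (k : ℕ) : Subgroup G := (fun X : Subgroup G => ⁅X, (⊤ : Subgroup G)⁆)^[k] N

theorem it_succ (N : Subgroup G) (k : ℕ) : it N (k + 1) = ⁅it N k, ⊤⁆ :=
  Function.iterate_succ_apply' _ _ _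

instance it_normal (N : Subgroup G) [N.Normal] (k : ℕ) : (it N k).Normal :=
  S3781.iterate_normal k N

theorem it_le (N : Subgroup G) [N.Normal] (k : ℕ) : it N (k + 1) ≤ it N k := by
  rw [it_succ]; exact commutator_le_left _ _

theorem it_anti (N : Subgroup G) [N.Normal] : Antitone (it N) := antitone_nat_of_succ_le (it_le N)

theorem it_comm (N : Subgroup G) [N.Normal] {n : ℕ} (hN : N ≤ (⊤ : Subgroup G).lowerCentralSeries n)
    (i : ℕ) : ⁅it N i, N⁆ ≤ it N (i + n + 1) :=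
  (commutator_mono le_rfl hN).trans (H83.commutator_lowerCentralSeries_le (it N) (it_normal N) ⊤
    (fun k => (it_succ N k).ge) n i)

theorem zz_le {K : Subgroup G} [K.Normal] {x y : G} (h : ⁅x, y⁆ ∈ K) : ⁅zpowers x, zpowers y⁆ ≤ K := by
  rw [H83.commutator_le_iff_map_eq_bot, MonoidHom.map_zpowers, MonoidHom.map_zpowers,
    commutator_eq_bot_iff_le_centralizer, zpowers_le, mem_centralizer_iff]
  rw [← QuotientGroup.eq_one_iff, ← QuotientGroup.mk'_apply, map_commutatorElement,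
    commutatorElement_eq_one_iff_commute] at h
  rintro _ ⟨k, rfl⟩
  exact (h.zpow_right k).symm

theorem cyc_le {K M N : Subgroup G} [K.Normal] {x : G} (e : N ≤ zpowers x ⊔ M) (hx : x ∈ N)
    (hM : M ≤ N) (h : ⁅M, N⁆ ≤ K) : ⁅N, N⁆ ≤ K := by
  refine (commutator_mono e le_rfl).trans (H83.commutator_sup_left_le ?_ h)
  refine (commutator_mono le_rfl e).trans (H83.commutator_sup_right_le (zz_le ?_) ?_)
  · rw [commutatorElement_self]; exact K.one_mem
  · rw [commutator_comm]; exact (commutator_mono le_rfl (zpowers_le.2 hx)).trans h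

section
variable [Finite G] {p : ℕ} [hp : Fact p.Prime] (hG : IsPGroup p G)
include hG

theorem card_eq (A : Subgroup G) : Nat.card A = p ^ lg p A := by
  obtain ⟨a, ha⟩ := (hG.to_subgroup A).exists_card_eq
  rw [lg, ha, Nat.log_pow hp.out.one_lt]

theorem lg_le {A B : Subgroup G} (h : A ≤ B) : lg p A ≤ lg p B := by
  have := card_le_of_le h
  rwa [card_eq hG, card_eq hG, Nat.pow_le_pow_iff_right hp.out.one_lt] at this

theorem le_of_lg {A B : Subgroup G} (h : A ≤ B) (e : lg p B ≤ lg p A) : B ≤ A :=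
  (eq_of_le_of_card_ge h (by
    rw [card_eq hG, card_eq hG]; exact Nat.pow_le_pow_right hp.out.pos e)).ge

theorem gen1 {M N : Subgroup G} (h : M ≤ N) {k : ℕ} (e : lg p N ≤ lg p M + (k + 1)) :
    ∃ x ∈ N, lg p N ≤ lg p (zpowers x ⊔ M) + k := by
  by_cases c : N ≤ M
  · exact ⟨1, N.one_mem, (lg_le hG (c.trans le_sup_right)).trans (Nat.le_add_right _ _)⟩
  · obtain ⟨x, hx, hx'⟩ := SetLike.not_le_iff_exists.1 c
    refine ⟨x, hx, ?_⟩
    have : ¬ lg p (zpowers x ⊔ M) ≤ lg p M := fun f =>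
      hx' (le_of_lg hG le_sup_right f (mem_sup_left (mem_zpowers x)))
    omega

theorem lg_it (N : Subgroup G) [N.Normal] (j : ℕ) : ∀ i, it N (j + i) ≠ ⊥ →
    lg p (it N (j + i)) + i ≤ lg p (it N j) := by
  have := hG.isNilpotent
  intro i
  induction i with
  | zero => intro _; rfl
  | succ i ih =>
    intro h
    have h' : it N (j + i) ≠ ⊥ := fun e => h (le_bot_iff.1 (e ▸ it_le N (j + i)))
    have := ih h'
    have : ¬ lg p (it N (j + i)) ≤ lg p (it N (j + (i + 1))) := fun f =>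
      h' (S3781.eq_bot_of_le_commutator ((le_of_lg hG (it_le N (j + i)) f).trans (it_succ N _).le))
    omega

theorem two {M N : Subgroup G} [N.Normal] (hM : M ≤ N) (e : lg p N ≤ lg p M + 2)
    (h : ⁅M, N⁆ ≤ ⁅⁅N, N⁆, ⊤⁆) : ⁅⁅N, N⁆, ⁅N, N⁆⁆ ≤ ⁅⁅⁅N, N⁆, (⊤ : Subgroup G)⁆, ⁅N, N⁆⁆ := by
  obtain ⟨x, hx, e1⟩ := gen1 hG hM e
  have l1 : zpowers x ⊔ M ≤ N := sup_le (zpowers_le.2 hx) hM
  obtain ⟨y, hy, e2⟩ := gen1 hG l1 e1
  have l2 := le_of_lg hG (sup_le (zpowers_le.2 hy) l1) e2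
  have hc : ⁅x, y⁆ ∈ ⁅N, N⁆ := commutator_mem_commutator hx hy
  have l3 : zpowers ⁅x, y⁆ ⊔ ⁅⁅N, N⁆, ⊤⁆ ≤ ⁅N, N⁆ :=
    sup_le (zpowers_le.2 hc) (commutator_le_left _ _)
  haveI : (zpowers ⁅x, y⁆ ⊔ ⁅⁅N, N⁆, ⊤⁆).Normal := ⟨fun a ha g => by
    have : ⁅a, g⁆ ∈ ⁅⁅N, N⁆, (⊤ : Subgroup G)⁆ := commutator_mem_commutator (l3 ha) (mem_top g)
    have := mul_mem (inv_mem (mem_sup_right (S := zpowers ⁅x, y⁆) this)) ha
    convert this using 1
    rw [commutatorElement_def]; group⟩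
  have h' : ⁅M, N⁆ ≤ zpowers ⁅x, y⁆ ⊔ ⁅⁅N, N⁆, ⊤⁆ := h.trans le_sup_right
  have h'' : ∀ z ∈ N, ⁅zpowers z, M⁆ ≤ zpowers ⁅x, y⁆ ⊔ ⁅⁅N, N⁆, ⊤⁆ := fun z hz => by
    rw [commutator_comm]; exact (commutator_mono le_rfl (zpowers_le.2 hz)).trans h'
  have l4 : ⁅N, N⁆ ≤ zpowers ⁅x, y⁆ ⊔ ⁅⁅N, N⁆, ⊤⁆ := by
    refine cyc_le l2 hy l1 (H83.commutator_sup_left_le ?_ h')
    refine (commutator_mono le_rfl l2).trans (H83.commutator_sup_right_le
      (zz_le (mem_sup_left (mem_zpowers _))) (H83.commutator_sup_right_le (zz_le ?_) (h'' x hx)))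
    rw [commutatorElement_self]; exact one_mem _
  exact cyc_le l4 hc (commutator_le_left _ _) le_rfl

theorem key (N : Subgroup G) [N.Normal] {n : ℕ} (hN : N ≤ (⊤ : Subgroup G).lowerCentralSeries n)
    (hD : ⁅N, N⁆ ≠ ⊥) : lg p ⁅N, N⁆ + (n + 2) ≤ lg p N ∧ (lg p ⁅N, N⁆ + (n + 3) ≤ lg p N ∨
      ⁅⁅N, N⁆, ⁅N, N⁆⁆ ≤ (⊤ : Subgroup G).lowerCentralSeries (4 * n + 4)) := by
  have fin : ⁅⁅⁅N, N⁆, (⊤ : Subgroup G)⁆, ⁅N, N⁆⁆ ≤ (⊤ : Subgroup G).lowerCentralSeries (4 * n + 4) := by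
    have a1 : ⁅N, N⁆ ≤ (⊤ : Subgroup G).lowerCentralSeries (n + n + 1) :=
      (commutator_mono hN hN).trans (H83.commutator_lcs_lcs_le ⊤ n n)
    have a2 : ⁅⁅N, N⁆, ⊤⁆ ≤ (⊤ : Subgroup G).lowerCentralSeries (n + n + 1 + 1) :=
      commutator_mono a1 le_rfl
    rw [show 4 * n + 4 = n + n + 1 + 1 + (n + n + 1) + 1 by ring]
    exact (commutator_mono a2 a1).trans (H83.commutator_lcs_lcs_le ⊤ _ _)
  have i0 : it N 0 = N := rfl
  have ne : ∀ {j}, ⁅N, N⁆ ≤ it N j → it N j ≠ ⊥ := fun h e => hD (le_bot_iff.1 (e ▸ h))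
  have l1 : it N 1 ≤ N := it_le N 0
  have main : ∀ j, ⁅N, N⁆ ≤ it N (j + 1 + n) → lg p (it N (j + 1)) + 2 ≤ lg p N →
      lg p ⁅N, N⁆ + (n + 2) ≤ lg p N ∧ (lg p ⁅N, N⁆ + (n + 3) ≤ lg p N ∨
      ⁅⁅N, N⁆, ⁅N, N⁆⁆ ≤ (⊤ : Subgroup G).lowerCentralSeries (4 * n + 4)) := by
    intro j d c
    have b1 := lg_le hG d
    have b2 := lg_it hG N (j + 1) n (ne d)
    refine ⟨by omega, ?_⟩
    by_cases f : lg p ⁅N, N⁆ + (n + 3) ≤ lg p N
    · exact Or.inl f
    refine Or.inr ((two hG (M := it N (j + 1)) (N := N) (it_anti N (Nat.zero_le _)) (by omega)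
      ?_).trans fin)
    refine (it_comm N hN (j + 1)).trans ?_
    rw [it_succ]
    exact commutator_mono (le_of_lg hG d (by omega)) le_rfl
  by_cases c : lg p N ≤ lg p (it N 1) + (0 + 1)
  · obtain ⟨x, hx, e⟩ := gen1 hG l1 c
    have d : ⁅N, N⁆ ≤ it N (1 + 1 + n) := by
      rw [show 1 + 1 + n = 1 + n + 1 by ring]
      exact cyc_le (le_of_lg hG (sup_le (zpowers_le.2 hx) l1) e) hx l1 (it_comm N hN 1)
    refine main 1 d ?_
    have := lg_it hG N 0 2 (ne (d.trans (it_anti N (by omega))))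
    exact this
  · refine main 0 ?_ (by simp only [zero_add] at c ⊢; omega)
    rw [show 0 + 1 + n = 0 + n + 1 by ring]
    exact it_comm N hN 0

theorem ind (i : ℕ) (hi : derivedSeries G i ≠ ⊥) :
    (∃ n, n + 1 = 2 ^ i ∧ derivedSeries G i ≤ (⊤ : Subgroup G).lowerCentralSeries n) ∧
    (lg p (derivedSeries G i) + 2 ^ i + 2 * i ≤ lg p (⊤ : Subgroup G) + 1 ∨
      (lg p (derivedSeries G i) + 2 ^ i + 2 * i ≤ lg p (⊤ : Subgroup G) + 2 ∧
        derivedSeries G (i + 1) ≤ (⊤ : Subgroup G).lowerCentralSeries (2 ^ (i + 1))) ∨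
      (lg p (derivedSeries G i) + 2 ^ i + 2 * i ≤ lg p (⊤ : Subgroup G) + 3 ∧
        derivedSeries G i ≤ (⊤ : Subgroup G).lowerCentralSeries (2 ^ i))) := by
  induction i with
  | zero => exact ⟨⟨0, rfl, le_top⟩, Or.inl (by simp)⟩
  | succ i ih =>
    obtain ⟨⟨n, hn, hN⟩, h⟩ := ih fun e => hi (by rw [derivedSeries_succ, e]; simp)
    have e2 : 2 ^ (i + 1) = 2 * 2 ^ i := by ring
    have e3 : 2 ^ (i + 1 + 1) = 4 * n + 4 := by rw [pow_succ, e2]; omega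
    refine ⟨⟨n + n + 1, by omega, (commutator_mono hN hN).trans (H83.commutator_lcs_lcs_le ⊤ n n)⟩, ?_⟩
    obtain ⟨k1, k2⟩ := key hG _ hN hi
    rw [← derivedSeries_succ] at k1 k2
    rcases h with h | ⟨h, h'⟩ | ⟨h, h'⟩
    · rcases k2 with k2 | k2
      · left; omega
      · right; left
        exact ⟨by omega, by rw [e3]; exact k2⟩
    · right; right
      exact ⟨by omega, h'⟩
    · right; right
      obtain ⟨k3, -⟩ := key hG _ h' hi
      rw [← derivedSeries_succ] at k3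
      refine ⟨by omega, ((commutator_mono h' h').trans (H83.commutator_lcs_lcs_le ⊤ _ _)).trans
        (Subgroup.lowerCentralSeries_antitone _ (by omega))⟩

end

/-- Let P be a finite p-group of order p^n whose derived length is exactly k + 1 (the k-th derived subgroup is nontrivial and the (k+1)-st is trivial). Then n ≥ 2^k + 2k − 2. -/
theorem result {P : Type*} [Group P] [Finite P] (p : ℕ) [Fact p.Prime] (n k : ℕ) (hcard : Nat.card P = p ^ n) (hk : derivedSeries P k ≠ ⊥) (hk' : derivedSeries P (k + 1) = ⊥) : 2 ^ k + 2 * k ≤ n + 2 := by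
  have hG : IsPGroup p P := IsPGroup.of_card hcard
  have e : lg p (⊤ : Subgroup P) = n := by
    rw [lg, Subgroup.card_top, hcard, Nat.log_pow (Fact.out : p.Prime).one_lt]
  have l : ¬ lg p (derivedSeries P k) ≤ lg p (⊥ : Subgroup P) := fun f =>
    hk (le_bot_iff.1 (le_of_lg hG bot_le f))
  have := (ind hG k hk).2
  omega

end Cfsg.Agent.S4009
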