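import Cfsg.Statements.S4010
import Cfsg.Agent.H73.DerLen
import Cfsg.Agent.H68.PLift

set_option autoImplicit false
open Cfsg

namespace Cfsg.Agent.S4010


open Subgroup Module
open scoped commutatorElement

section
variable {K P V : Type*} [Field K] [Group P] [AddCommGroup V] [Module K V]
  (ρ : Representation K P V)

/-- the ascending fixed-point flag -/
def U : ℕ → Submodule K V
  | 0 => ⊥
  | i + 1 => ⨅ g, (U i).comap (ρ g - 1)

theorem mem_U {i : ℕ} {v : V} : v ∈ U ρ (i + 1) ↔ ∀ g, ρ g v - v ∈ U ρ i := by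
  simp [U]

theorem U_mono : Monotone (U ρ) := by
  refine monotone_nat_of_le_succ fun i => ?_
  induction i with
  | zero => exact bot_le
  | succ i ih => exact fun v hv => (mem_U ρ).2 fun g => ih ((mem_U ρ).1 hv g)

theorem U_inv (i : ℕ) (g : P) {v : V} (hv : v ∈ U ρ i) : ρ g v ∈ U ρ i := by
  rcases i with _ | i
  · rw [(Submodule.mem_bot K).1 hv, map_zero]; exact Submodule.zero_mem _
  · simpa using Submodule.add_mem _ (U_mono ρ i.le_succ ((mem_U ρ).1 hv g)) hv

def L (m : ℕ) : Subgroup P where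
  carrier := {g | ∀ i, ∀ v ∈ U ρ (i + m), ρ g v - v ∈ U ρ i}
  one_mem' := fun i v _ => by simp
  mul_mem' := fun {a b} ha hb i v hv => by
    have := Submodule.add_mem _ (ha i _ (U_inv ρ _ b hv)) (hb i v hv)
    simpa using this
  inv_mem' := fun {a} ha i v hv => by
    have := Submodule.neg_mem _ (ha i _ (U_inv ρ _ a⁻¹ hv))
    rw [← End.mul_apply, ← map_mul, mul_inv_cancel, map_one, End.one_apply, neg_sub] at this
    exact this

theorem comm_L (a b : ℕ) : ⁅L ρ a, L ρ b⁆ ≤ L ρ (a + b) := by
  rw [commutator_le]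
  intro g hg h hh i v hv
  have hw := U_inv ρ _ (g⁻¹ * h⁻¹) hv
  set w := ρ (g⁻¹ * h⁻¹) v
  have e1 : ρ ⁅g, h⁆ v = ρ g (ρ h w) := by
    simp only [w, ← End.mul_apply, ← map_mul, commutatorElement_def, mul_assoc]
  have e2 : v = ρ h (ρ g w) := by
    simp only [w, ← End.mul_apply, ← map_mul]
    rw [show h * (g * (g⁻¹ * h⁻¹)) = 1 by group, map_one, End.one_apply]
  have h1 := hg i _ (hh (i + a) w (by rwa [add_assoc]))
  have h2 := hh i _ (hg (i + b) w (by rwa [add_assoc, add_comm b]))
  have := Submodule.sub_mem _ h1 h2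
  rw [e1]
  nth_rewrite 1 [e2]
  convert this using 1
  simp only [map_sub]; abel

theorem derived_le (k : ℕ) : derivedSeries P k ≤ L ρ (2 ^ k) := by
  induction k with
  | zero => exact fun g _ i v hv => (mem_U ρ).1 hv g
  | succ k ih =>
    rw [derivedSeries_succ, pow_succ, mul_two]
    exact (commutator_mono ih ih).trans (comm_L ρ _ _)

theorem U_top [Finite P] [FiniteDimensional K V] {p : ℕ} [Fact p.Prime] [CharP K p]
    (hP : IsPGroup p P) (i : ℕ) : U ρ i = ⊤ ∨ i ≤ finrank K (U ρ i) := by
  induction i with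
  | zero => exact Or.inr (Nat.zero_le _)
  | succ i ih =>
    by_cases h : U ρ i = ⊤
    · exact Or.inl (top_le_iff.1 (h.ge.trans (U_mono ρ i.le_succ)))
    obtain ⟨v, -, hv, h2⟩ := H68.exists_fixed_mod ρ (M := ⊤) (hP.to_subgroup _) (U ρ i) ⊤
      (fun g _ v hv => U_inv ρ i g hv) (fun _ _ _ _ => trivial) fun h1 => h (top_le_iff.1 h1)
    exact Or.inr ((ih.resolve_left h).trans_lt (Submodule.finrank_lt_finrank_of_lt
      (lt_of_le_of_ne (U_mono ρ i.le_succ)
      fun h3 => hv (h3.ge ((mem_U ρ).2 fun g => h2 g (mem_top g))))))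

end


/-- Let F be a field, n ≥ 1, and P a finite p-group (p a prime) admitting an injective homomorphism into the general linear group of degree n over F. Then the derived length of P is at most ⌊log₂ n⌋ + 1: that term of the derived series of P is trivial. -/
theorem result {P : Type*} [Group P] [Finite P] (p : ℕ) [Fact p.Prime] (hP : IsPGroup p P) (F : Type*) [Field F] (n : ℕ) (hn : 1 ≤ n) (ρ : P →* Matrix.GeneralLinearGroup (Fin n) F) (hρ : Function.Injective ρ) : derivedSeries P (Nat.log 2 n + 1) = ⊥ := by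
  rename_i hp _
  have h1 : n < 2 ^ (Nat.log 2 n + 1) := Nat.lt_pow_succ_log_self one_lt_two n
  let K := AlgebraicClosure F
  rw [eq_bot_iff, ← H73.extRep_ker K hρ]
  by_cases hK : (p : K) = 0
  · have : CharP K p := (CharP.charP_iff_prime_eq_zero hp.out).2 hK
    intro g hg
    have h2 : U (H73.extRep K ρ) (2 ^ (Nat.log 2 n + 1)) = ⊤ :=
      (U_top _ hP _).resolve_right fun h => by
        have := Submodule.finrank_le (U (H73.extRep K ρ) (2 ^ (Nat.log 2 n + 1)))
        simp only [finrank_fin_fun] at this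
        omega
    refine LinearMap.ext fun v => sub_eq_zero.1 ?_
    exact derived_le _ _ hg 0 v (by rw [zero_add, h2]; trivial)
  · exact H73.derived_le_ker hK _ P _ _ _ rfl hP (by
      simpa using h1.trans_le (Nat.pow_le_pow_left hp.out.two_le _))

end Cfsg.Agent.S4010
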