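import Cfsg.Statements.S4013
import Cfsg.Agent.H81.Frob

set_option autoImplicit false
open Cfsg

namespace Cfsg.Agent.S4013

/-- Let G be a finite p-group (p prime) and N < M normal subgroups of G such that for some g ∈ M ∖ N the conjugacy class of g is exactly M ∖ N. Then p = 2 and N has index 2 in M. -/
theorem result {G : Type*} [Group G] [Finite G] (p : ℕ) [Fact p.Prime] (hG : IsPGroup p G) (N M : Subgroup G) [N.Normal] [M.Normal] (hNM : N < M) (g : G) (hgM : g ∈ M) (hgN : g ∉ N) (hcl : {h : G | IsConj g h} = (M : Set G) \ (N : Set G)) : p = 2 ∧ N.relIndex M = 2 := by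
  have hp : p.Prime := Fact.out
  obtain ⟨a, ha⟩ := hG.index (Subgroup.centralizer {g})
  obtain ⟨n, hn⟩ := IsPGroup.iff_card.1 (hG.to_subgroup N)
  obtain ⟨k, hk⟩ := (hG.to_subgroup M).index (N.subgroupOf M)
  have h1 : Nat.card M = p ^ n * p ^ k := by
    rw [← (N.subgroupOf M).card_mul_index, hk,
      Nat.card_congr (Subgroup.subgroupOfEquivOfLe hNM.le).toEquiv, hn]
  have h2 := H81.card_add_card_not (fun x : G => x ∈ M) (fun x => x ∈ N)
  have h3 : Nat.card {x : G // x ∈ M ∧ x ∈ N} = p ^ n := by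
    rw [← hn]
    exact Nat.card_congr (Equiv.subtypeEquivRight fun x => ⟨fun h => h.2, fun h => ⟨hNM.le h, h⟩⟩)
  have h4 : Nat.card {x : G // x ∈ M ∧ x ∉ N} = p ^ a := by
    rw [← ha, ← H81.card_isConj_eq_index]
    exact Nat.card_congr (Equiv.subtypeEquivRight fun x => (Set.ext_iff.1 hcl x).symm)
  rw [h3, h4] at h2
  have h5 : p ^ n + p ^ a = p ^ n * p ^ k := h2.trans h1
  have hk0 : k ≠ 0 := by
    rintro rfl
    have := pow_pos hp.pos a
    rw [pow_zero, mul_one] at h5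
    omega
  have h6 : p ^ n ∣ p ^ a := (Nat.dvd_add_right dvd_rfl).1 (h5 ▸ Dvd.intro _ rfl)
  obtain ⟨b, rfl⟩ := Nat.exists_eq_add_of_le ((Nat.pow_dvd_pow_iff_le_right hp.one_lt).1 h6)
  have h7 : 1 + p ^ b = p ^ k := by
    apply Nat.eq_of_mul_eq_mul_left (pow_pos hp.pos n)
    rw [← h5]; ring
  have hb : b = 0 := by
    by_contra hb
    have h8 : p ∣ 1 := (Nat.dvd_add_left (dvd_pow_self p hb)).1 (h7 ▸ dvd_pow_self p hk0)
    exact hp.one_lt.ne' (Nat.dvd_one.1 h8)
  subst hb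
  have h8 := (Nat.Prime.pow_eq_iff Nat.prime_two).1 h7.symm
  exact ⟨h8.1, by rw [Subgroup.relIndex, hk, ← h7, pow_zero]; rfl⟩

end Cfsg.Agent.S4013
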