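import Cfsg.Statements.S4014
import Cfsg.Agent.H84.SymDer

set_option autoImplicit false
set_option linter.style.haveILetI false
open Cfsg

namespace Cfsg.Agent.S4014

/-- Let p be a prime, n ≥ 1, and P a Sylow p-subgroup of the symmetric group on n letters. Then the derived length of P is exactly k = ⌊log_p n⌋ (the largest k with p^k ≤ n): the k-th derived subgroup of P is trivial and, when k ≥ 1, the (k−1)-st is not. -/
theorem result (p : ℕ) [Fact p.Prime] (n : ℕ) (hn : 1 ≤ n) (P : Sylow p (Equiv.Perm (Fin n))) : derivedSeries ↥(P : Subgroup (Equiv.Perm (Fin n))) (Nat.log p n) = ⊥ ∧ (1 ≤ Nat.log p n → derivedSeries ↥(P : Subgroup (Equiv.Perm (Fin n))) (Nat.log p n - 1) ≠ ⊥) := by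
  have hp := (Fact.out : p.Prime).one_lt
  refine ⟨(H84.dS_eq_bot_iff _ _).1 (H84.dS_sylow_eq_bot _ n (Nat.lt_pow_succ_log_self hp n) P),
    fun h h1 => H84.dS_sylow_ne_bot ?_ P ((H84.dS_eq_bot_iff _ _).2 h1)⟩
  rw [Nat.sub_add_cancel h]
  exact Nat.pow_log_le_self p (by omega)

end Cfsg.Agent.S4014
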