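import Cfsg.Statements.S4015
import Cfsg.Agent.H73.DerLen

set_option autoImplicit false
open Cfsg

namespace Cfsg.Agent.S4015


open Subgroup Module RegularWreathProduct
open scoped commutatorElement

universe u

section
variable {F : Type u} [Field F] {D Q V : Type} [Group D] [Group Q]

/-- the natural representation of the wreath product -/
def wr {V : Type u} [AddCommGroup V] [Module F V] (Q : Type) [Group Q] (ρ : Representation F D V) :
    Representation F (D ≀ᵣ Q) (Q → V) where
  toFun w := LinearMap.pi fun x => ρ (w.left x) ∘ₗ LinearMap.proj (w.right⁻¹ * x)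
  map_one' := by ext; simp
  map_mul' a b := by ext; simp [mul_assoc]

theorem wr_apply {V : Type u} [AddCommGroup V] [Module F V] (ρ : Representation F D V)
    (w : D ≀ᵣ Q) (f : Q → V) (x : Q) : wr Q ρ w f x = ρ (w.left x) (f (w.right⁻¹ * x)) := rfl

theorem wr_inj {V : Type u} [AddCommGroup V] [Module F V] [Nontrivial V]
    {ρ : Representation F D V} (h : Function.Injective ρ) : Function.Injective (wr Q ρ) := by
  classical
  rw [injective_iff_map_eq_one]
  intro w hw
  have h1 : ∀ (f : Q → V) (x : Q), ρ (w.left x) (f (w.right⁻¹ * x)) = f x := fun f x => by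
    rw [← wr_apply, hw]; rfl
  obtain ⟨v, hv⟩ := exists_ne (0 : V)
  have h2 : w.right = 1 := by
    by_contra h2
    have := h1 (Pi.single 1 v) 1
    rw [Pi.single_eq_of_ne (by simpa using h2), map_zero, Pi.single_eq_same] at this
    exact hv this.symm
  refine RegularWreathProduct.ext (funext fun x => h ?_) h2
  rw [one_left, Pi.one_apply, map_one]
  exact LinearMap.ext fun u => h1 (fun _ => u) x

theorem derived_wr [Nontrivial Q] {k : ℕ} (h : derivedSeries D k ≠ ⊥) :
    derivedSeries (D ≀ᵣ Q) (k + 1) ≠ ⊥ := by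
  classical
  let A : Subgroup (D ≀ᵣ Q) := commutator _ ⊓ rightHom.ker
  let π : A →* D := MonoidHom.mk' (fun a => a.1.left 1) fun a b => by
    have : a.1.right = 1 := a.2.2
    simp [this]
  obtain ⟨s, hs⟩ := exists_ne (1 : Q)
  have hπ : Function.Surjective π := fun d => by
    refine ⟨⟨⁅(⟨Pi.mulSingle 1 d, 1⟩ : D ≀ᵣ Q), inl s⁆,
      commutator_mem_commutator (mem_top _) (mem_top _), ?_⟩, ?_⟩
    · change rightHom _ = 1
      rw [map_commutatorElement]; simp [commutatorElement_def]
    · change (⁅(⟨Pi.mulSingle 1 d, 1⟩ : D ≀ᵣ Q), inl s⁆).left 1 = d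
      simp [commutatorElement_def, Pi.mulSingle_eq_of_ne (inv_ne_one.2 hs)]
  have h1 : ∀ j, (derivedSeries A j).map A.subtype ≤ derivedSeries (D ≀ᵣ Q) (j + 1) := by
    intro j
    induction j with
    | zero => exact (map_subtype_le _).trans inf_le_left
    | succ j ih =>
      rw [derivedSeries_succ, derivedSeries_succ _ (j + 1), map_commutator]
      exact commutator_mono ih ih
  intro h2
  have h3 := (h1 k).trans h2.le
  rw [le_bot_iff, map_eq_bot_iff_of_injective _ A.subtype_injective] at h3
  apply h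
  rw [← map_derivedSeries_eq hπ, h3, Subgroup.map_bot]

end

theorem exists_rep {F : Type u} [Field F] [Fintype F] {p : ℕ} [hp : Fact p.Prime] {q : ℕ}
    (hq : Fintype.card F = q) (hpq : ¬ p ∣ q) (k : ℕ) :
    ∃ (D : Type) (_ : Group D) (_ : Finite D) (V : Type u) (_ : AddCommGroup V) (_ : Module F V)
      (_ : FiniteDimensional F V) (ρ : Representation F D V), Function.Injective ρ ∧ IsPGroup p D ∧
      finrank F V = orderOf (q : ZMod p) * p ^ k ∧ derivedSeries D k ≠ ⊥ := by
  have h0 : 0 < orderOf (q : ZMod p) := by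
    have : (q : ZMod p) ≠ 0 := by rwa [Ne, ZMod.natCast_eq_zero_iff]
    exact (isOfFinOrder_iff_pow_eq_one.2 ⟨p - 1, by have := hp.out.two_le; omega,
      ZMod.pow_card_sub_one_eq_one this⟩).orderOf_pos
  have hC : IsPGroup p (Multiplicative (ZMod p)) := IsPGroup.of_card (n := 1) (by simp)
  induction k with
  | zero =>
    set e := orderOf (q : ZMod p)
    have h1 : p ∣ Nat.card (GL (Fin e) F) := by
      rw [Matrix.card_GL_field, hq]
      refine dvd_trans ?_ (Finset.dvd_prod_of_mem _ (Finset.mem_univ ⟨0, h0⟩))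
      have hq0 : 0 < q := hq ▸ Fintype.card_pos
      rw [← ZMod.natCast_eq_zero_iff, Nat.cast_sub (Nat.pow_le_pow_right hq0 (Nat.zero_le _))]
      simp [e, pow_orderOf_eq_one]
    obtain ⟨g, hg⟩ := exists_prime_orderOf_dvd_card' p h1
    let φ : Multiplicative (ZMod p) →* GL (Fin e) F := (zpowers g).subtype.comp
      (zmodMulEquivOfGenerator (G := zpowers g) (g := ⟨g, mem_zpowers g⟩)
        (fun ⟨_, j, hj⟩ => ⟨j, Subtype.ext hj⟩) (by rw [Nat.card_zpowers, hg])).toMonoidHom
    refine ⟨Multiplicative (ZMod p), inferInstance, inferInstance, Fin e → F, inferInstance,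
      inferInstance, inferInstance, H73.extRep F φ, (MonoidHom.ker_eq_bot_iff _).1
        (H73.extRep_ker F ((zpowers g).subtype_injective.comp (MulEquiv.injective _))), hC,
      by simp, by simp⟩
  | succ k ih =>
    obtain ⟨D, _, _, V, _, _, _, ρ, h1, h2, h3, h4⟩ := ih
    have : Nontrivial V := Module.finrank_pos_iff.1 (h3 ▸ Nat.mul_pos h0 (pow_pos hp.out.pos k))
    refine ⟨D ≀ᵣ Multiplicative (ZMod p), inferInstance, inferInstance, Multiplicative (ZMod p) → V,
      inferInstance, inferInstance, inferInstance, wr _ ρ, wr_inj h1, ?_, ?_, derived_wr h4⟩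
    · obtain ⟨j, hj⟩ := h2.exists_card_eq
      refine IsPGroup.of_card (n := j * p + 1) ?_
      rw [RegularWreathProduct.card, hj]; simp [pow_succ, pow_mul]
    · rw [Module.finrank_pi_fintype]; simp [h3, pow_succ]; ring


/-- Let p be an odd prime, F a finite field with q elements where p does not divide q, and e the multiplicative order of q modulo p. Let n ≥ e and write w = ⌊n/e⌋ and k = ⌊log_p w⌋. Then a Sylow p-subgroup of GL(n, F) has derived length exactly k + 1: its (k+1)-st derived subgroup is trivial and its k-th is not. -/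
theorem result (p : ℕ) [Fact p.Prime] (hp : p ≠ 2) (F : Type*) [Field F] [Fintype F] (q : ℕ) (hq : Fintype.card F = q) (hpq : ¬ p ∣ q) (n : ℕ) (hn : orderOf (q : ZMod p) ≤ n) (P : Sylow p (Matrix.GeneralLinearGroup (Fin n) F)) : derivedSeries ↥(P : Subgroup (Matrix.GeneralLinearGroup (Fin n) F)) (Nat.log p (n / orderOf (q : ZMod p)) + 1) = ⊥ ∧ derivedSeries ↥(P : Subgroup (Matrix.GeneralLinearGroup (Fin n) F)) (Nat.log p (n / orderOf (q : ZMod p))) ≠ ⊥ := by
  rename_i hpp _ _
  have h0 : 0 < orderOf (q : ZMod p) := by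
    have : (q : ZMod p) ≠ 0 := by rwa [Ne, ZMod.natCast_eq_zero_iff]
    exact (isOfFinOrder_iff_pow_eq_one.2 ⟨p - 1, by have := hpp.out.two_le; omega,
      ZMod.pow_card_sub_one_eq_one this⟩).orderOf_pos
  constructor
  · refine H73.derived_eq_bot_finite hq hpq P.isPGroup' (P : Subgroup (GL (Fin n) F)).subtype
      (P : Subgroup (GL (Fin n) F)).subtype_injective ?_
    have h1 := Nat.lt_pow_succ_log_self hpp.out.one_lt (n / orderOf (q : ZMod p))
    rwa [Nat.div_lt_iff_lt_mul h0, mul_comm] at h1
  set k := Nat.log p (n / orderOf (q : ZMod p))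
  obtain ⟨D, _, _, V, _, _, _, ρ, h1, h2, h3, h4⟩ := exists_rep hq hpq k
  have h5 : finrank F V ≤ n := by
    rw [h3, mul_comm, ← Nat.le_div_iff_mul_le h0]
    exact Nat.pow_log_le_self p (Nat.div_pos hn h0).ne'
  let e : (V × (Fin (n - finrank F V) → F)) ≃ₗ[F] (Fin n → F) :=
    LinearEquiv.ofFinrankEq _ _ (by simp; omega)
  let τ := ρ.prod (Representation.trivial F D (Fin (n - finrank F V) → F))
  let φ : D →* Matrix (Fin n) (Fin n) F :=
    (LinearMap.toMatrixAlgEquiv' : _ ≃ₐ[F] Matrix (Fin n) (Fin n) F).toMonoidHom.comp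
      ((e.conjAlgEquiv F).toMonoidHom.comp τ)
  have hφ : Function.Injective φ.toHomUnits := by
    intro a b hab
    have h6 : φ a = φ b := congrArg Units.val hab
    have h7 : τ a = τ b := (e.conjAlgEquiv F).injective (LinearMap.toMatrixAlgEquiv'.injective h6)
    exact h1 (LinearMap.ext fun v => congrArg Prod.fst (LinearMap.congr_fun h7 (v, 0)))
  obtain ⟨Q, hQ⟩ := (h2.of_surjective _ φ.toHomUnits.rangeRestrict_surjective).exists_le_sylow
  let ψ : D →* (P : Subgroup (GL (Fin n) F)) := (Q.equiv P).toMonoidHom.comp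
    ((inclusion hQ).comp φ.toHomUnits.rangeRestrict)
  have hψ : Function.Injective ψ := (Q.equiv P).injective.comp ((inclusion_injective hQ).comp
    fun a b h => hφ (congrArg Subtype.val h))
  intro h6
  have h7 := (map_derivedSeries_le_derivedSeries ψ k).trans h6.le
  rw [le_bot_iff, map_eq_bot_iff_of_injective _ hψ] at h7
  exact h4 h7

end Cfsg.Agent.S4015
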