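import Cfsg.Statements.S4024
import Cfsg.Agent.S4023
import Cfsg.Agent.H81.OrderType
import Cfsg.Agent.H44.Cores
import Cfsg.Agent.H22.PSolvable
import Cfsg.Agent.H2.MinNormal

set_option autoImplicit false
open Cfsg

namespace Cfsg.Agent.S4024

/-- Let p be an odd prime and G a finite group in which any two p-subgroups of the same order are conjugate, with Sylow p-subgroup P. If H is a normal p-solvable subgroup of G whose order is divisible by p, then P is abelian, and either P ≤ H or P is cyclic. -/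
theorem result {G : Type*} [Group G] [Finite G]
    {p : ℕ} [Fact p.Prime] (hp : p ≠ 2) (hC : ∀ H K : Subgroup G, IsPGroup p H → IsPGroup p K → Nat.card H = Nat.card K →
      ∃ g : G, K = H.map (MulAut.conj g).toMonoidHom) (P : Sylow p G)
    (H : Subgroup G) [H.Normal] (hsolv : Cfsg.IsPSolvable p H) (hdiv : p ∣ Nat.card H) :
    IsMulCommutative P ∧ ((P : Subgroup G) ≤ H ∨ IsCyclic P) := by
  have hall : ∀ M : Subgroup G, M.Normal → p ∣ Nat.card M → ∀ x : G, x ^ p = 1 → x ∈ M := by
    intro M hM hd x hx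
    by_cases hx1 : x = 1
    · rw [hx1]; exact M.one_mem
    obtain ⟨y, hy⟩ := exists_prime_orderOf_dvd_card' p hd
    have hy' : orderOf (y : G) = p := by rw [← hy, Subgroup.orderOf_coe]
    have hx' : orderOf x = p := orderOf_eq_prime hx hx1
    have hzp : ∀ x : G, orderOf x = p → IsPGroup p (Subgroup.zpowers x) := fun x hx =>
      IsPGroup.of_card (n := 1) (by rw [Nat.card_zpowers, hx, pow_one])
    obtain ⟨g, hg⟩ := hC _ _ (hzp _ hy') (hzp _ hx')
      (by rw [Nat.card_zpowers, Nat.card_zpowers, hx', hy'])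
    have := Subgroup.mem_zpowers x
    rw [hg] at this
    obtain ⟨w, hw, rfl⟩ := this
    exact hM.conj_mem w (Subgroup.zpowers_le.2 y.2 hw) g
  have hexp : ¬ IsCyclic P → ∀ x ∈ (P : Subgroup G), x ^ p = 1 := by
    intro hc x hx
    rcases S4023.result hC P with h | h | h | h
    · exact absurd h hc
    · exact h.2 x hx
    · exact absurd h.1 hp
    · have := Monoid.pow_exponent_eq_one (⟨x, hx⟩ : (P : Subgroup G))
      rw [h.2.2.2] at this
      exact congrArg Subtype.val this
  by_cases hc : IsCyclic P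
  · exact ⟨inferInstance, Or.inr hc⟩
  refine ⟨?_, Or.inl fun x hx => hall H inferInstance hdiv x (hexp hc x hx)⟩
  let N := pPrimeCore p G
  have hN : (Nat.card N).Coprime p := H44.pPrimeCore_coprime
  have hpp : p.Prime := Fact.out
  have hne : H.map (QuotientGroup.mk' N) ≠ ⊥ := by
    rw [Ne, Subgroup.map_eq_bot_iff, QuotientGroup.ker_mk']
    intro h
    exact hpp.one_lt.ne' (Nat.eq_one_of_dvd_coprimes hN (hdiv.trans (Subgroup.card_dvd_of_le h))
      dvd_rfl)
  have := (inferInstance : H.Normal).map _ (QuotientGroup.mk'_surjective N)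
  have h1 := (H22.inf_pCore_ne_bot_or_of_normal _ hne (H22.IsPSolvable.map hsolv _)).resolve_right
    (by rw [H44.pPrimeCore_quotient_pPrimeCore]; simp)
  have h2 : pCore p (G ⧸ N) ≠ ⊥ := fun h => h1 (by rw [h, bot_inf_eq])
  obtain ⟨M, q, -, hMn, hM, hMle, hMc, -⟩ := H2.exists_minimal_normal_le_of_solvable _
    inferInstance (H81.isSolvable_of_isPGroup (H44.pCore_isPGroup (p := p))) h2
  have h3 : p ∣ Nat.card M := by
    rcases (H44.isPGroup_of_le_pCore hMle).card_eq_or_dvd with h | h
    · exact absurd (Subgroup.card_eq_one.1 h) hM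
    · exact h
  have h4 : p ∣ Nat.card (M.comap (QuotientGroup.mk' N)) := by
    refine h3.trans ?_
    have := Subgroup.card_map_dvd (H := M.comap (QuotientGroup.mk' N)) (QuotientGroup.mk' N)
    rwa [Subgroup.map_comap_eq_self_of_surjective (QuotientGroup.mk'_surjective N)] at this
  have h5 := hall _ (hMn.comap _) h4
  refine ⟨⟨fun a b => Subtype.ext ?_⟩⟩
  have h6 := H2.mul_comm_of_mem hMc (h5 a (hexp hc a a.2)) (h5 b (hexp hc b b.2))
  have h7 : (a : G) * b * ((b : G) * a)⁻¹ ∈ N := by
    rw [← QuotientGroup.eq_one_iff, ← QuotientGroup.mk'_apply, map_mul, map_inv, map_mul, map_mul,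
      h6, mul_inv_cancel]
  have h8 : (a : G) * b * ((b : G) * a)⁻¹ ∈ (P : Subgroup G) :=
    mul_mem (mul_mem a.2 b.2) (inv_mem (mul_mem b.2 a.2))
  have h9 := orderOf_eq_one_iff.1 (Nat.eq_one_of_dvd_coprimes hN (N.orderOf_dvd_natCard h7)
    (orderOf_dvd_of_pow_eq_one (hexp hc _ h8)))
  exact mul_inv_eq_one.1 h9

end Cfsg.Agent.S4024
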