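import Cfsg.Statements.S4027
import Cfsg.Agent.H81.Misc
import Cfsg.Agent.H22.CoprimeQuot

set_option autoImplicit false
open Cfsg

namespace Cfsg.Agent.S4027

/-- Let G be a finite group in which every element x of odd order satisfies N_G(⟨x⟩) = C_G(x). Then the Sylow 2-subgroups of G are normal. -/
theorem result {G : Type*} [Group G] [Finite G]
    (hirr : ∀ x : G, (∀ r : ℕ, r.Prime → r ∣ orderOf x → r ≠ 2) →
      Subgroup.normalizer ((Subgroup.zpowers x : Subgroup G) : Set G) ≤ Subgroup.centralizer {x}) (P : Sylow 2 G) :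
    (P : Subgroup G).Normal := by
  have hO : IsPGroup 2 (pCore 2 G) := H44.pCore_isPGroup
  have hodd : ¬ 2 ∣ (pCore 2 G).index := by
    intro h
    obtain ⟨t, ht⟩ := exists_prime_orderOf_dvd_card' (G := G ⧸ pCore 2 G) 2 h
    obtain ⟨x, r, hr, hr2, hx, htx⟩ := H81.exists_inverted_of_not_mem_pCore
      (H8.mul_self_of_orderOf_two ht)
      (by rw [H44.pCore_quotient_pCore]; exact H8.ne_one_of_orderOf_two ht)
    obtain ⟨y, rfl, k, hk⟩ := H81.exists_pElt_lift _ (QuotientGroup.mk'_surjective (pCore 2 G)) hr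
      (y := x) ⟨1, by rw [hx, pow_one]⟩
    have := Fact.mk hr
    have h1 := H22.map_normalizer_of_ker_coprime (p := r) _
      (QuotientGroup.mk'_surjective (pCore 2 G)) (by
        rw [QuotientGroup.ker_mk']
        obtain ⟨j, hj⟩ := IsPGroup.iff_card.1 hO
        rw [hj]
        exact Nat.Coprime.pow_left _ ((Nat.coprime_primes Nat.prime_two hr).2 hr2.symm))
      (H81.isPGroup_zpowers_of_orderOf hk)
    rw [MonoidHom.map_zpowers] at h1
    have h2 := H81.mem_normalizer_zpowers_of_conj_mem (g := t) (x := QuotientGroup.mk' _ y)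
      (by rw [htx]; exact inv_mem (Subgroup.mem_zpowers _))
    rw [← h1] at h2
    obtain ⟨n, hn, rfl⟩ := h2
    have h3 := Subgroup.mem_centralizer_singleton_iff.1 (hirr y (fun q hq hd hq2 => by
      rw [hk, hq2] at hd
      exact hr2 ((Nat.prime_dvd_prime_iff_eq Nat.prime_two hr).1
        (Nat.prime_two.dvd_of_dvd_pow hd)).symm) hn)
    rw [← map_inv, ← map_mul, ← map_mul, h3, mul_inv_cancel_right] at htx
    have h4 : r ∣ 2 := by
      rw [← hx, orderOf_dvd_iff_pow_eq_one, pow_two]
      nth_rewrite 1 [htx]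
      exact inv_mul_cancel _
    exact hr2 ((Nat.prime_dvd_prime_iff_eq hr Nat.prime_two).1 h4)
  have := (hO.toSylow hodd).is_maximal' P.isPGroup' (hO.le_sylow_of_normal P)
  rw [this]
  exact (inferInstance : (pCore 2 G).Normal)

end Cfsg.Agent.S4027
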