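import Cfsg.Statements.S4028
import Cfsg.Agent.H81.Misc
import Cfsg.Agent.H72.SylowIn
import Cfsg.Agent.H81.OrderType

set_option autoImplicit false
open Cfsg

namespace Cfsg.Agent.S4028

/-- Let G be a finite group with Sylow 2-subgroup P. Then N_G(⟨x⟩) = C_G(x) holds for every 2-element x of G if and only if N_P(⟨y⟩) = C_P(y) holds for every y ∈ P (computed inside P). -/
theorem result {G : Type*} [Group G] [Finite G] (P : Sylow 2 G) :
    (∀ x : G, (∀ r : ℕ, r.Prime → r ∣ orderOf x → r = 2) →
      Subgroup.normalizer ((Subgroup.zpowers x : Subgroup G) : Set G) ≤ Subgroup.centralizer {x}) ↔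
    (∀ y : ↥(P : Subgroup G), Subgroup.normalizer ((Subgroup.zpowers y : Subgroup ↥(P : Subgroup G)) : Set ↥(P : Subgroup G)) ≤
        Subgroup.centralizer {y}) := by
  constructor
  · intro h y g hg
    have h1 := h y (H81.forall_prime_of_mem_isPGroup Nat.prime_two P.isPGroup' y.2)
      (H81.mem_normalizer_zpowers_of_conj_mem (g := (g : G)) (by
        obtain ⟨k, hk⟩ := (Subgroup.mem_normalizer_iff.1 hg y).1 (Subgroup.mem_zpowers y)
        exact ⟨k, by simpa using congrArg Subtype.val hk⟩))
    rw [Subgroup.mem_centralizer_singleton_iff] at h1 ⊢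
    exact Subtype.ext h1
  · intro h x hx
    obtain ⟨k, hk⟩ := H81.exists_pow_eq_one_of_forall_prime Nat.prime_two hx
    obtain ⟨T, hT, hxT⟩ := H72.exists_isSylowIn_ge (H81.isPGroup_zpowers_of_orderOf hk)
      (Subgroup.le_normalizer (H := Subgroup.zpowers x))
    have hTC : T ≤ Subgroup.centralizer (Subgroup.zpowers x : Set G) := by
      obtain ⟨g, -, hg⟩ := (H72.isSylowIn_top P).exists_cj_le hT.isPGroup le_top
      intro t ht
      have h1 := hg (H72.conj_mem_cj ht)
      have h2 := hg (H72.conj_mem_cj (hxT (Subgroup.mem_zpowers x)))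
      have h3 := h ⟨_, h2⟩ (H81.mem_normalizer_zpowers_of_conj_mem (g := ⟨_, h1⟩) (by
        obtain ⟨j, hj⟩ := (Subgroup.mem_normalizer_iff.1 (hT.le ht) x).1 (Subgroup.mem_zpowers x)
        refine ⟨j, Subtype.ext ?_⟩
        simp only at hj
        simp only [Subgroup.coe_zpow, conj_zpow, hj, Subgroup.coe_mul, Subgroup.coe_inv]
        group))
      have h4 := congrArg Subtype.val (Subgroup.mem_centralizer_singleton_iff.1 h3)
      rw [H72.centralizer_zpowers, Subgroup.mem_centralizer_singleton_iff]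
      have h5 : g * t * g⁻¹ * (g * x * g⁻¹) = g * x * g⁻¹ * (g * t * g⁻¹) := h4
      calc t * x = g⁻¹ * (g * t * g⁻¹ * (g * x * g⁻¹)) * g := by group
        _ = x * t := by rw [h5]; group
    rw [← H72.centralizer_zpowers, ← Subgroup.relIndex_eq_one]
    have h1 := H81.relIndex_centralizer_dvd_card_mulAut (Subgroup.zpowers x)
    rw [IsCyclic.card_mulAut, Nat.card_zpowers, hk] at h1
    have h2 : Nat.totient (2 ^ k) ∣ 2 ^ k := by
      rcases k with _ | k
      · simp
      · rw [Nat.totient_prime_pow_succ Nat.prime_two, pow_succ]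
        simp
    obtain ⟨j, -, hj⟩ := (Nat.dvd_prime_pow Nat.prime_two).1 (h1.trans h2)
    rcases j with _ | j
    · exact hj
    · exact absurd ((hj ▸ dvd_pow_self 2 j.succ_ne_zero).trans
        (Subgroup.relIndex_dvd_of_le_left _ hTC)) hT.not_dvd_relIndex

end Cfsg.Agent.S4028
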