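import Cfsg.Statements.S4029
import Cfsg.Agent.H83.ClassCount
import Cfsg.Agent.H3.PGroup

set_option autoImplicit false
open Cfsg

namespace Cfsg.Agent.S4029

open Subgroup Cfsg.Agent.H83 Finset

/-- Let P be a finite 2-group in which N_P(⟨y⟩) = C_P(y) for every y ∈ P. If s is the number of conjugacy classes of involutions of P, then #(P/Φ(P)) ≤ s + 1; in particular the subgroup generated by the involutions of P has order at least #(P/Φ(P)). -/
theorem result {P : Type*} [Group P] [Finite P] (hP : IsPGroup 2 P)
    (hirr : ∀ y : P, Subgroup.normalizer ((Subgroup.zpowers y : Subgroup P) : Set P) ≤ Subgroup.centralizer {y}) :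
    Nat.card (P ⧸ frattini P) ≤ Nat.card {c : ConjClasses P // ∃ y : P, ConjClasses.mk y = c ∧ orderOf y = 2} + 1 ∧
    Nat.card (P ⧸ frattini P) ≤ Nat.card (Subgroup.closure {y : P | orderOf y = 2}) := by
  classical
  have := Fintype.ofFinite P
  have : Fact (Nat.Prime 2) := ⟨Nat.prime_two⟩
  set k := Nat.card {c : ConjClasses P // ∃ y : P, ConjClasses.mk y = c ∧ orderOf y = 2} with hk
  have h1 : Nat.card (P ⧸ frattini P) ≤ k + 1 := by
    let s : Finset P := univ.filter (· ∈ frattini P)
    have hs : s.card = Nat.card (frattini P) := by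
      rw [Nat.card_eq_fintype_card, Fintype.card_subtype]
    have h2 : Fintype.card P = ∑ a ∈ s, #{x : P | x ^ 2 = a} :=
      card_eq_sum_card_fiberwise (s := univ) (f := fun x : P => x ^ 2)
        (fun x _ => by simpa [s] using H3.pow_mem_frattini hP x)
    have h3 : #{t : P × P | t.1 ^ 2 = t.2 ^ 2} = ∑ a ∈ s, #{x : P | x ^ 2 = a} ^ 2 := by
      rw [card_eq_sum_card_fiberwise (t := s) (f := fun t : P × P => t.1 ^ 2)
        (fun x _ => by simpa [s] using H3.pow_mem_frattini hP x.1)]
      refine sum_congr rfl fun a _ => ?_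
      rw [sq (#_), ← card_product]
      congr 1
      ext ⟨x, y⟩
      simp only [mem_filter, mem_univ, true_and, mem_product]
      constructor
      · rintro ⟨h, h'⟩; exact ⟨h', h ▸ h'⟩
      · rintro ⟨h, h'⟩; exact ⟨h.trans h'.symm, h⟩
    have h4 := sq_sum_le_card_mul_sum_sq (s := s) (f := fun a => #{x : P | x ^ 2 = a})
    rw [← h2, ← h3, hs] at h4
    have h5 : #{t : P × P | t.1 ^ 2 = t.2 ^ 2}
        ≤ #((univ.filter fun u : P => u ^ 2 = 1).sigma fun u => univ.filter (· ∈ centralizer ({u} : Set P))) := by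
      refine card_le_card_of_injOn (fun t => ⟨t.1 * t.2⁻¹, t.2⟩) ?_ ?_
      · rintro ⟨x, y⟩ h
        simp only [coe_filter, mem_univ, true_and, Set.mem_ofPred_eq] at h
        have e : y⁻¹ * (x * y⁻¹) * y = (x * y⁻¹)⁻¹ := by
          calc y⁻¹ * (x * y⁻¹) * y = y⁻¹ * x ^ 2 * x⁻¹ := by rw [sq]; group
            _ = (x * y⁻¹)⁻¹ := by rw [h, sq]; group
        have hy : y⁻¹ ∈ normalizer ((zpowers (x * y⁻¹) : Subgroup P) : Set P) := by
          rw [mem_normalizer_iff_map_conj_eq, MonoidHom.map_zpowers]
          simp only [MonoidHom.coe_coe, MulAut.conj_apply, inv_inv]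
          rw [e, zpowers_inv]
        have hc : y ∈ centralizer ({x * y⁻¹} : Set P) := by simpa using inv_mem (hirr _ hy)
        simp only [coe_sigma, Set.mem_sigma_iff, coe_filter, mem_univ, true_and, Set.mem_ofPred_eq]
        refine ⟨?_, hc⟩
        have h6 := mem_cent.1 hc
        have h7 : x * y⁻¹ = (x * y⁻¹)⁻¹ := by
          rw [← e, mul_assoc, ← h6]; group
        rw [sq]; nth_rewrite 1 [h7]; group
      · rintro ⟨x, y⟩ _ ⟨x', y'⟩ _ h
        simp only [Sigma.mk.injEq, heq_eq_eq] at h
        obtain ⟨h, rfl⟩ := h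
        rw [mul_left_inj] at h
        rw [h]
    rw [card_sigma] at h5
    have h6 : (univ.filter fun u : P => u ^ 2 = 1) = insert 1
        (univ.filter fun x : P => ∃ y : P, ConjClasses.mk y = ConjClasses.mk x ∧ orderOf y = 2) := by
      ext u
      simp only [mem_filter, mem_univ, true_and, mem_insert]
      constructor
      · intro h
        by_cases hu : u = 1
        · exact Or.inl hu
        · exact Or.inr ⟨u, rfl, orderOf_eq_prime h hu⟩
      · rintro (rfl | ⟨y, hy, hy2⟩)
        · simp
        · obtain ⟨c, rfl⟩ := isConj_iff.1 (ConjClasses.mk_eq_mk_iff_isConj.1 hy)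
          rw [conj_pow, ← hy2, pow_orderOf_eq_one]; simp
    have h7 : k * Nat.card P = ∑ x ∈ (univ.filter fun x : P => ∃ y : P, ConjClasses.mk y = ConjClasses.mk x ∧ orderOf y = 2),
        Nat.card (centralizer ({x} : Set P)) := by
      convert card_classes_mul (G := P) (fun c => ∃ y : P, ConjClasses.mk y = c ∧ orderOf y = 2)
    rw [h6, sum_insert] at h5
    · have h8 : ∀ u : P, #(univ.filter (· ∈ centralizer ({u} : Set P))) = Nat.card (centralizer ({u} : Set P)) :=
        fun u => by rw [Nat.card_eq_fintype_card, Fintype.card_subtype]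
      simp only [h8] at h5
      have h9 : Nat.card (centralizer ({(1 : P)} : Set P)) = Nat.card P := by
        rw [← card_cent_mul_cs (1 : P), cs_one, mul_one]
      rw [h9, ← h7] at h5
      have h10 := (frattini P).card_eq_card_quotient_mul_card_subgroup
      rw [← Nat.card_eq_fintype_card] at h4
      have h11 : Nat.card P * Nat.card P ≤ Nat.card P * (Nat.card (frattini P) * (k + 1)) := by
        calc _ = Nat.card P ^ 2 := (sq _).symm
          _ ≤ Nat.card (frattini P) * (Nat.card P + k * Nat.card P) := h4.trans (Nat.mul_le_mul_left _ h5)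
          _ = _ := by ring
      have h12 := Nat.le_of_mul_le_mul_left h11 Nat.card_pos
      rw [h10, mul_comm] at h12
      exact Nat.le_of_mul_le_mul_left h12 Nat.card_pos
    · simp only [mem_filter, mem_univ, true_and, not_exists, not_and]
      intro y hy hy2
      rw [isConj_one_left.1 (ConjClasses.mk_eq_mk_iff_isConj.1 hy), orderOf_one] at hy2
      omega
  refine ⟨h1, h1.trans ?_⟩
  have h2 : k ≤ Nat.card {y : P // orderOf y = 2} := by
    refine Nat.card_le_card_of_surjective (fun y => ⟨ConjClasses.mk y.1, y.1, rfl, y.2⟩) ?_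
    rintro ⟨c, y, rfl, hy⟩
    exact ⟨⟨y, hy⟩, rfl⟩
  have h3 : Nat.card (Option {y : P // orderOf y = 2}) ≤ Nat.card (Subgroup.closure {y : P | orderOf y = 2}) := by
    refine Nat.card_le_card_of_injective (fun o => match o with
      | none => 1
      | some y => ⟨y.1, subset_closure y.2⟩) ?_
    rintro (_ | ⟨y, hy⟩) (_ | ⟨z, hz⟩) h
    · rfl
    · have : (1 : P) = z := congrArg Subtype.val h
      rw [← this, orderOf_one] at hz; omega
    · have : y = (1 : P) := congrArg Subtype.val h
      rw [this, orderOf_one] at hy; omega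
    · have : y = z := congrArg Subtype.val h
      subst this; rfl
  rw [Finite.card_option] at h3
  omega

end Cfsg.Agent.S4029
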