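import Cfsg.Statements.S4032
import Cfsg.Agent.H82.Coset

set_option autoImplicit false
open Cfsg

namespace Cfsg.Agent.S4032

/-- Let π be a set of primes and G a finite group in which N_G(⟨x⟩) = C_G(x) for every π-element x. If N is a normal subgroup of G whose order is divisible by no prime of π, then G/N has the same property: N_{G/N}(⟨y⟩) = C_{G/N}(y) for every π-element y of G/N. -/
theorem result {G : Type*} [Group G] [Finite G] (π : Set ℕ)
    (hirr : ∀ x : G, (∀ r : ℕ, r.Prime → r ∣ orderOf x → r ∈ π) →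
      Subgroup.normalizer ((Subgroup.zpowers x : Subgroup G) : Set G) ≤ Subgroup.centralizer {x})
    (N : Subgroup G) [N.Normal] (hN : ∀ r : ℕ, r.Prime → r ∣ Nat.card N → r ∉ π) :
    ∀ y : G ⧸ N, (∀ r : ℕ, r.Prime → r ∣ orderOf y → r ∈ π) →
      Subgroup.normalizer ((Subgroup.zpowers y : Subgroup (G ⧸ N)) : Set (G ⧸ N)) ≤ Subgroup.centralizer {y} := by
  intro y hy g hg
  obtain ⟨y, rfl⟩ := QuotientGroup.mk'_surjective N y
  obtain ⟨g, rfl⟩ := QuotientGroup.mk'_surjective N g
  obtain ⟨x, -, hxy, hx⟩ := H82.exists_pi_lift (QuotientGroup.mk' N) (fun r => r ∈ π) y hy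
  rw [← hxy] at hg ⊢
  obtain ⟨k, hk⟩ := H82.mem_normalizer_zpowers_iff.mp hg
  simp only at hk
  have hcx : (orderOf x).Coprime (Nat.card N) := H82.coprime_of_pi hx hN
  obtain ⟨n, hn, e⟩ := H82.conj_of_coset N (x := g * x * g⁻¹) (y := x ^ k)
    (by rw [← MulAut.conj_apply, MulEquiv.orderOf_eq]; exact hcx)
    (Nat.Coprime.coprime_dvd_left (orderOf_dvd_of_mem_zpowers (Subgroup.zpow_mem_zpowers x k)) hcx)
    (by
      rw [← QuotientGroup.eq]
      simpa using hk.symm)
  have h1 : n * g ∈ Subgroup.normalizer ((Subgroup.zpowers x : Subgroup G) : Set G) := by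
    rw [H82.mem_normalizer_zpowers_iff]
    refine ⟨k, ?_⟩
    simp only
    rw [← e]; group
  have h2 := Subgroup.mem_centralizer_singleton_iff.mp (hirr x hx h1)
  rw [Subgroup.mem_centralizer_singleton_iff]
  have h3 := congrArg (QuotientGroup.mk' N) h2
  have h4 : QuotientGroup.mk' N n = 1 := (QuotientGroup.eq_one_iff n).mpr hn
  simpa only [map_mul, h4, one_mul] using h3

end Cfsg.Agent.S4032
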