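import Cfsg.Statements.S4033
import Cfsg.Agent.H13.R2
import Cfsg.Agent.H36.Closed

set_option autoImplicit false
open Cfsg

namespace Cfsg.Agent.S4033

open Cfsg.Agent.H13
set_option linter.style.haveILetI false

open Subgroup H83 H8

/-- Let G be a finite group and p a prime, and suppose the conjugacy classes of p-regular elements of G (elements of order prime to p) have exactly two distinct sizes. Then either G has an abelian p-complement (an abelian subgroup of order prime to p and p-power index), or there are a prime q ≠ p, a Sylow p-subgroup P, a Sylow q-subgroup Q and a central subgroup A such that PQ is a normal subgroup of order #P·#Q and G is the internal direct product PQ × A. -/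
theorem result {G : Type*} [Group G] [Finite G] {p : ℕ} (hp : p.Prime)
    (h2 : Set.ncard (Set.range fun x : {x : G // (orderOf x).Coprime p} => (ConjClasses.mk (x : G)).carrier.ncard) = 2) :
    (∃ H : Subgroup G, IsMulCommutative H ∧ ¬ p ∣ Nat.card H ∧ ∃ k : ℕ, H.index = p ^ k) ∨
    (∃ (q : ℕ) (_ : Fact q.Prime) (P : Sylow p G) (Q : Sylow q G) (A : Subgroup G), q ≠ p ∧
        A ≤ Subgroup.center G ∧ Nat.card ↥((P : Subgroup G) ⊔ (Q : Subgroup G)) = Nat.card P * Nat.card Q ∧
        ((P : Subgroup G) ⊔ (Q : Subgroup G)).Normal ∧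
        ((P : Subgroup G) ⊔ (Q : Subgroup G)) ⊓ A = ⊥ ∧ ((P : Subgroup G) ⊔ (Q : Subgroup G)) ⊔ A = ⊤) := by
  obtain ⟨e, he⟩ : ∃ e, ∀ x : G, (orderOf x).Coprime p → cs(x) = 1 ∨ cs(x) = e := by
    obtain ⟨a, b, -, hab⟩ := Set.ncard_eq_two.1 h2
    have h1 : ∀ x : G, (orderOf x).Coprime p → cs(x) = a ∨ cs(x) = b := fun x hx => by
      have := hab.le ⟨⟨x, hx⟩, rfl⟩
      simp only at this
      rwa [H82.ncard_carrier_mk] at this
    rcases h1 1 (by simp) with c | c <;> rw [cs_one] at c <;> subst c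
    · exact ⟨b, h1⟩
    · exact ⟨a, fun x hx => (h1 x hx).symm⟩
  rcases r2 hp he with H | ⟨q, hq, hqp, H⟩
  · exact .inl ((S4034.result hp).1 fun x hx => by rw [H82.ncard_carrier_mk]; exact H x hx)
  have := Fact.mk hp
  have := Fact.mk hq
  obtain ⟨P⟩ : Nonempty (Sylow p G) := inferInstance
  obtain ⟨Q⟩ : Nonempty (Sylow q G) := inferInstance
  let A : Subgroup G :=
    { carrier := {z | z ∈ center G ∧ (orderOf z).Coprime (p * q)}
      one_mem' := ⟨one_mem _, by simp⟩
      mul_mem' := fun {a b} ha hb => ⟨mul_mem ha.1 hb.1, (ha.2.mul_left hb.2).coprime_dvd_left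
        (show Commute a b from mem_center_iff.1 hb.1 a).orderOf_mul_dvd_mul_orderOf⟩
      inv_mem' := fun {a} ha => ⟨inv_mem ha.1, by rw [orderOf_inv]; exact ha.2⟩ }
  have hAZ : A ≤ center G := fun z hz => hz.1
  have hAn : A.Normal := ⟨fun z hz g => by rwa [mem_center_iff.1 hz.1 g, mul_inv_cancel_right]⟩
  have h1 : ∀ t : ℕ, t.Prime → t ∣ Nat.card A → ¬ t ∣ p * q := fun t ht hd => by
    have := Fact.mk ht
    obtain ⟨z, hz⟩ := exists_prime_orderOf_dvd_card' t hd
    have h3 := z.2.2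
    rw [orderOf_coe, hz] at h3
    exact (Nat.Prime.coprime_iff_not_dvd ht).1 h3
  have h3 : ∀ t : ℕ, t.Prime → t ∣ A.index → t = p ∨ t = q := fun t ht hd => by
    by_contra c
    push Not at c
    obtain ⟨v, -, hv, hvA⟩ := exists_PE_of_dvd_relIndex (X := ⊤) (Y := A) ht
      (by rwa [relIndex_top_right])
    exact hvA ⟨H t ht c.1 c.2 v hv, hv.coprime (((Nat.coprime_primes ht hp).2 c.1).mul_right
      ((Nat.coprime_primes ht hq).2 c.2))⟩
  obtain ⟨K, hK⟩ := exists_right_complement'_of_coprime (N := A)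
    (Nat.coprime_of_dvd fun t ht a b => h1 t ht a (by
      rcases h3 t ht b with rfl | rfl <;> simp))
  have hKn : K.Normal := ⟨fun k hk g => by
    obtain ⟨a, ha, l, hl, rfl⟩ := H2.exists_mul_eq_of_isComplement' hK g
    rw [show a * l * k * (a * l)⁻¹ = a * (l * k * l⁻¹) * a⁻¹ by group,
      ← mem_center_iff.1 ha.1, mul_inv_cancel_right]
    exact mul_mem (mul_mem hl hk) (inv_mem hl)⟩
  have hKi : K.index = Nat.card A := hK.index_eq_card
  have hKc : A.index = Nat.card K := hK.symm.index_eq_card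
  have hP : (P : Subgroup G) ≤ K := H36.sylow_le_of_normal K
    (fun c => h1 p hp (hKi ▸ c) (dvd_mul_right _ _)) P
  have hQ : (Q : Subgroup G) ≤ K := H36.sylow_le_of_normal K
    (fun c => h1 q hq (hKi ▸ c) (dvd_mul_left _ _)) Q
  have e : (P : Subgroup G) ⊔ Q = K := le_antisymm (sup_le hP hQ) (relIndex_eq_one.1 (by
    by_contra c
    obtain ⟨t, ht, hd⟩ := Nat.exists_prime_and_dvd c
    have h4 := hd.trans (relIndex_dvd_index_of_le (sup_le hP hQ))
    rcases h3 t ht (hKc ▸ hd.trans (relIndex_dvd_card _ _)) with rfl | rfl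
    · exact not_dvd_index_iff.2 ⟨P, le_sup_left⟩ h4
    · exact not_dvd_index_iff.2 ⟨Q, le_sup_right⟩ h4))
  refine .inr ⟨q, this, P, Q, A, hqp, hAZ, ?_, e ▸ hKn, e ▸ hK.symm.disjoint.eq_bot,
    e ▸ hK.symm.sup_eq_top⟩
  obtain ⟨m, hm⟩ := Nat.Coprime.mul_dvd_of_dvd_of_dvd
    (IsPGroup.coprime_card_of_ne p q hqp.symm _ _ P.isPGroup' Q.isPGroup')
    (card_dvd_of_le hP) (card_dvd_of_le hQ)
  rw [e, hm]
  by_cases m1 : m = 1
  · rw [m1, mul_one]
  obtain ⟨t, ht, hd⟩ := Nat.exists_prime_and_dvd m1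
  have h5 := hm ▸ card_subgroup_dvd_card K
  rcases h3 t ht (hKc ▸ hm ▸ hd.mul_left _) with rfl | rfl
  · rw [← (P : Subgroup G).card_mul_index, mul_assoc] at h5
    exact absurd ((hd.mul_left _).trans (Nat.dvd_of_mul_dvd_mul_left Nat.card_pos h5))
      P.not_dvd_index
  · rw [← (Q : Subgroup G).card_mul_index, mul_comm (Nat.card P), mul_assoc] at h5
    exact absurd ((hd.mul_left _).trans (Nat.dvd_of_mul_dvd_mul_left Nat.card_pos h5))
      Q.not_dvd_index

end Cfsg.Agent.S4033
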