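import Cfsg.Statements.S4035
import Cfsg.Agent.H49.Hall
import Cfsg.Agent.H82.Conj
import Cfsg.Agent.H82.ClassSize

set_option autoImplicit false
open Cfsg

namespace Cfsg.Agent.S4035

open Subgroup Cfsg.Agent.H49

/-- Let G be a finite group and p a prime such that p divides the size of no conjugacy class of p-regular elements (elements of order prime to p). Then G is the internal direct product of a Sylow p-subgroup P and a normal subgroup H of order prime to p: P is normal, P ⊓ H = 1 and PH = G. -/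
theorem result {G : Type*} [Group G] [Finite G] {p : ℕ} [Fact p.Prime]
    (h : ∀ x : G, (orderOf x).Coprime p → ¬ p ∣ (ConjClasses.mk x).carrier.ncard) (P : Sylow p G) :
    (P : Subgroup G).Normal ∧ ∃ H : Subgroup G, H.Normal ∧ ¬ p ∣ Nat.card H ∧
      (P : Subgroup G) ⊓ H = ⊥ ∧ (P : Subgroup G) ⊔ H = ⊤ := by
  have hp : p.Prime := Fact.out
  have hP := sylowOf_top hp P
  have htop : (P : Subgroup G) ⊔ 𝒞((P : Subgroup G)) = ⊤ := by
    apply H82.eq_top_of_conj_cover
    intro g
    obtain ⟨u, hu, v, hv, rfl, hu', hv'⟩ := exists_pi_decomp {p} g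
    have hc : u ∈ 𝒞[v] := mem_cent1.2 (H82.commute_of_mem_zpowers hu hv).eq
    obtain ⟨S, hS, huS⟩ := exists_sylowOf_ge (isPi_zpowers.2 hu') (zpowers_le.2 hc)
    have hi := h v ((isPiNat_compl_singleton_iff_coprime hp).1 hv')
    rw [H82.ncard_carrier_mk] at hi
    have hS' : IsSylowOf p S ⊤ :=
      hS.of_index le_top (by rw [relIndex_top_right]; exact (isPiNat_compl_singleton hp).2 hi)
    obtain ⟨x, -, rfl⟩ := sylowOf_conj hP hS'
    refine ⟨x, ?_⟩
    have e : x⁻¹ * (u * v) * x = (x⁻¹ * u * x) * (x⁻¹ * v * x) := by group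
    rw [e]
    refine mul_mem_sup (mem_cj.1 (huS (mem_zpowers u))) ?_
    rw [← mem_cj, cj_centralizer]
    exact le_cent1_iff.1 hS.le
  have hPn : ⊤ ≤ 𝒩((P : Subgroup G)) := htop ▸ sup_le le_normalizer (cent_le_norm _)
  refine ⟨normal_iff_top_le_norm.2 hPn, ?_⟩
  have hZ : IsSylowOf p ((P : Subgroup G) ⊓ 𝒞((P : Subgroup G))) 𝒞((P : Subgroup G)) :=
    hP.inf_normal le_top (norm_cent hPn)
  obtain ⟨H, hH⟩ := exists_compl_of_coprime hZ.le
    (norm_inf (cent_le_norm _) le_normalizer) hZ.coprime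
  have hH' := hZ.compl_of_isComplIn hH.isComplIn
  have hsup : (P : Subgroup G) ⊔ H = ⊤ := by
    rw [← htop, ← hH.1, ← sup_assoc, sup_inf_self]
  refine ⟨H, normal_iff_top_le_norm.2 (hsup ▸ sup_le (norm_of_cent (cent_symm hH.right_le)) le_normalizer),
    (isPi_compl_singleton hp).1 hH'.pi, hP.pi.inf_eq_bot hH'.pi, hsup⟩

end Cfsg.Agent.S4035
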