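import Cfsg.Statements.S4036

set_option autoImplicit false
open Cfsg

namespace Cfsg.Agent.S4036

/-- Let P be a finite abelian p-group and K a group of automorphisms of P (a subgroup of Aut P) whose order is divisible by p. If all non-identity elements of K have the same fixed-point subgroup on P, then K has no non-trivial normal subgroup of order prime to p. -/
theorem result {P : Type*} [CommGroup P] [Finite P] {p : ℕ}
    [Fact p.Prime] (hP : IsPGroup p P) (K : Subgroup (MulAut P)) (hK : p ∣ Nat.card K)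
    (hfix : ∀ x y : MulAut P, x ∈ K → y ∈ K → x ≠ 1 → y ≠ 1 → ∀ v : P, x v = v ↔ y v = v) :
    ∀ N : Subgroup ↥K, N.Normal → ¬ p ∣ Nat.card N → N = ⊥ := by
  intro N hN hpN
  by_contra hne
  obtain ⟨⟨n₀, hn₀⟩, hn1⟩ := Subgroup.ne_bot_iff_exists_ne_one.mp hne
  have hn1' : (n₀ : MulAut P) ≠ 1 := fun h => hn1 (Subtype.ext (Subtype.ext h))
  have := Fintype.ofFinite N
  let ν : P →* P :=
    { toFun := fun v => ∏ n : N, ((n : K) : MulAut P) v
      map_one' := by simp
      map_mul' := by intro a b; simp [Finset.prod_mul_distrib] }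
  have hν : ∀ v, ν v = ∏ n : N, ((n : K) : MulAut P) v := fun v => rfl
  have h1 : ∀ (k : K) (v : P), ν ((k : MulAut P) v) = (k : MulAut P) (ν v) := by
    intro k v
    rw [hν, hν, map_prod]
    refine Fintype.prod_equiv (MulAut.conjNormal k⁻¹ : N ≃* N).toEquiv _ _ ?_
    intro n
    simp
  have h2 : ∀ v : P, ν ((n₀ : MulAut P) v) = ν v := by
    intro v
    rw [hν, hν]
    refine Fintype.prod_equiv (Equiv.mulRight (⟨n₀, hn₀⟩ : N)) _ _ ?_
    intro n
    simp
  obtain ⟨v, hv⟩ : ∃ v : P, (n₀ : MulAut P) v ≠ v := by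
    by_contra hc
    push Not at hc
    exact hn1' (MulEquiv.ext hc)
  have hW : ν.ker ≠ ⊥ := by
    intro h
    have : (n₀ : MulAut P) v * v⁻¹ ∈ ν.ker := by
      rw [MonoidHom.mem_ker, map_mul, map_inv, h2, mul_inv_cancel]
    rw [h, Subgroup.mem_bot, mul_inv_eq_one] at this
    exact hv this
  obtain ⟨x, hx⟩ := exists_prime_orderOf_dvd_card' (G := K) p hK
  have hmem : ∀ (k : K) (w : P), w ∈ ν.ker → (k : MulAut P) w ∈ ν.ker := by
    intro k w hw
    rw [MonoidHom.mem_ker] at hw ⊢
    rw [h1, hw, map_one]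
  let σ : Equiv.Perm ν.ker :=
    { toFun := fun w => ⟨(x : MulAut P) w, hmem x w w.2⟩
      invFun := fun w => ⟨((x⁻¹ : K) : MulAut P) w, hmem x⁻¹ w w.2⟩
      left_inv := fun w => Subtype.ext (by simp)
      right_inv := fun w => Subtype.ext (by simp) }
  have hσ : ∀ (k : ℕ) (w : ν.ker), (((σ ^ k) w : ν.ker) : P) = ((x ^ k : K) : MulAut P) w := by
    intro k
    induction k with
    | zero => intro w; simp
    | succ k ih =>
      intro w
      rw [pow_succ', Equiv.Perm.mul_apply, pow_succ']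
      change (x : MulAut P) (((σ ^ k) w : ν.ker) : P) = _
      rw [ih]; simp
  have hσp : σ ^ p ^ 1 = 1 := by
    ext w
    rw [pow_one, hσ, ← hx, pow_orderOf_eq_one]; simp
  have := Fintype.ofFinite ν.ker
  obtain ⟨w, hw, hw1⟩ := Equiv.Perm.exists_fixed_point_of_prime' (p := p) (n := 1) (σ := σ) (a := 1)
    (by
      rw [← Nat.card_eq_fintype_card]
      rcases (hP.to_subgroup ν.ker).card_eq_or_dvd with h | h
      · exact absurd (Subgroup.card_eq_one.mp h) hW
      · exact h) hσp (Subtype.ext (by simp [σ]))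
  have hw' : (x : MulAut P) w = w := congrArg Subtype.val hw
  have hx1 : (x : MulAut P) ≠ 1 := by
    intro h
    have : x = 1 := Subtype.ext h
    rw [this, orderOf_one] at hx
    exact (Fact.out : p.Prime).one_lt.ne hx
  have hall : ∀ n : N, ((n : K) : MulAut P) w = w := by
    intro n
    by_cases h : ((n : K) : MulAut P) = 1
    · rw [h]; rfl
    · exact (hfix _ _ x.2 (n : K).2 hx1 h w).mp hw'
  have h3 : (w : P) ^ Nat.card N = 1 := by
    have := w.2
    rw [MonoidHom.mem_ker, hν] at this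
    simp only [hall, Finset.prod_const, Finset.card_univ] at this
    rwa [Nat.card_eq_fintype_card]
  apply hw1
  apply Subtype.ext
  have h4 := hP.orderOf_coprime ((Nat.Prime.coprime_iff_not_dvd Fact.out).mpr hpN) (w : P)
  have h5 := orderOf_dvd_of_pow_eq_one h3
  exact orderOf_eq_one_iff.mp (Nat.Coprime.eq_one_of_dvd h4 h5)

end Cfsg.Agent.S4036
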