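import Cfsg.Statements.S4043
import Cfsg.Agent.H49.Hall

set_option autoImplicit false
open Cfsg

namespace Cfsg.Agent.S4043

open Subgroup Cfsg.Agent.H49

/-- Let G be a finite group that is the semidirect product of a normal p-subgroup N by a subgroup A, and also of N by a subgroup A₁, where p is a prime and A and A₁ both have normal p-complements. If C_N(A) = C_N(A₁) = 1, then A₁ is conjugate to A by an element of N. -/
theorem result {G : Type*} [Group G] [Finite G] {p : ℕ}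
    [Fact p.Prime] (N : Subgroup G) [N.Normal] (hN : IsPGroup p N) (A A₁ : Subgroup G)
    (hA : A.IsComplement' N) (hA₁ : A₁.IsComplement' N)
    (hAp : Cfsg.HasNormalPComplement p A) (hA₁p : Cfsg.HasNormalPComplement p A₁)
    (hC : ∀ n : G, n ∈ N → (∀ a : G, a ∈ A → a * n * a⁻¹ = n) → n = 1)
    (hC₁ : ∀ n : G, n ∈ N → (∀ a : G, a ∈ A₁ → a * n * a⁻¹ = n) → n = 1) :
    ∃ n : G, n ∈ N ∧ A₁ = A.map (MulAut.conj n).toMonoidHom := by
  have hp : p.Prime := Fact.out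
  have hNp : IsPi {p} N := isPi_of_isPGroup hp hN
  have hNn : ∀ X : Subgroup G, X ≤ 𝒩(N) := fun X => le_normalizer_of_normal
  have sdp : ∀ B : Subgroup G, B.IsComplement' N → IsSdp N B ⊤ := fun B hB =>
    IsSdp.of_isComplIn (isComplIn_top_iff.2 hB.symm) (hNn _)
  have hall : ∀ B : Subgroup G, B.IsComplement' N → HasNormalPComplement p B →
      IsPiHallOf {p}ᶜ (piCoreOf {p}ᶜ B) ⊤ := fun B hB hBp =>
    ((hasNormalPComplement_iff hp).1 hBp).of_index le_top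
      (by rw [(sdp B hB).relIndex_right]; exact hNp.compl_compl)
  have hQ := hall A hA hAp
  have hQ₁ := hall A₁ hA₁ hA₁p
  have hn : ⊤ ≤ 𝒩(N ⊔ piCoreOf {p}ᶜ A₁) := by
    rw [← (sdp A₁ hA₁).1]
    exact sup_le (norm_of_le le_sup_left) (norm_sup (hNn _) (le_norm_piCoreOf _ _))
  have hle : piCoreOf {p}ᶜ A ≤ N ⊔ piCoreOf {p}ᶜ A₁ :=
    hQ.pi.le_of_relIndex ((hQ₁.index_of_le le_sup_right).of_dvd (relIndex_dvd_of_norm hn le_top))
  obtain ⟨n, hn', hcj⟩ := sz_subJ (hNn _) (hQ.pi.coprime' hNp)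
    (Or.inr (solvable_of_nilpotent hNp.nilpotent)) (hNn _) hle
  refine ⟨n, hn', ?_⟩
  have hQe : cj n (piCoreOf {p}ᶜ A) = piCoreOf {p}ᶜ A₁ :=
    eq_of_le_of_card_eq hcj (by rw [card_cj]; exact hQ.card_eq hQ₁)
  set Q := piCoreOf {p}ᶜ A₁ with hQdef
  have hA₁Q : A₁ ≤ 𝒩(Q) := le_norm_piCoreOf _ _
  have hC' : N ⊓ 𝒩(Q) = ⊥ := by
    by_contra hne
    obtain ⟨P, hP⟩ := exists_sylowOf p A₁
    have hPn : P ≤ 𝒩(N ⊓ 𝒩(Q)) := norm_inf (hNn _) (norm_norm (hP.le.trans hA₁Q))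
    have hnil := ((hNp.inf_left 𝒩(Q)).sup hP.pi (Or.inr hPn)).nilpotent
    obtain ⟨c, ⟨hc1, hc2⟩, hc⟩ := ne_bot_iff_exists.1
      (inf_center_ne_bot_of_nilpotent hnil le_sup_left (sup_le le_normalizer hPn) hne)
    have hcQ : N ⊓ 𝒩(Q) ≤ 𝒞(Q) := by
      rw [← H49.commutator_eq_bot_iff, eq_bot_iff, ← hNp.inf_eq_bot hQ₁.pi]
      exact le_inf ((commutator_mono inf_le_left le_rfl).trans (commutator_le_left_of_norm (hNn _)))
        (commutator_le_right_of_norm inf_le_right)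
    have hcA : c ∈ 𝒞(A₁) := by
      rw [← (hP.isProd ((hasNormalPComplement_iff hp).1 hA₁p)).sup_eq, cent_sup]
      exact ⟨cent_anti le_sup_right hc2, hcQ hc1⟩
    refine hc (hC₁ c hc1.1 fun a ha => ?_)
    rw [hcA a ha]; group
  have hNQ : 𝒩(Q) = A₁ := by
    have := ((sdp A₁ hA₁).restrict_right hA₁Q le_top).1
    rw [hC', bot_sup_eq] at this
    exact this.symm
  symm
  apply eq_of_le_of_card_eq
  · rw [map_conj_eq_cj, ← hNQ, ← hQe, ← cj_normalizer]
    exact cj_mono n (le_norm_piCoreOf _ _)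
  · rw [map_conj_eq_cj, card_cj, ← (sdp A hA).relIndex_left, (sdp A₁ hA₁).relIndex_left]

end Cfsg.Agent.S4043
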