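import Cfsg.Statements.S4049
import Cfsg.Agent.H20.PiHom
import Cfsg.Agent.S0200

set_option autoImplicit false
open Cfsg

namespace Cfsg.Agent.S4049

open Subgroup Cfsg.Agent.H49

theorem odd_of {G : Type*} [Group G] [Finite G] (h : H20.PiHom {2} G)
    (hO : piCoreOf {2} (⊤ : Subgroup G) = ⊥) : IsPi {2}ᶜ (⊤ : Subgroup G) := by
  refine (isPi_compl_singleton Nat.prime_two).2 fun hd => ?_
  obtain ⟨t, -, ht⟩ := exists_orderOf_eq_of_dvd_card Nat.prime_two hd
  obtain ⟨x, hx1, hxo, hx⟩ := S0200.result t ht fun N hN h2 hm => by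
    have := le_piCoreOf le_top le_normalizer_of_normal (isPi_of_isPGroup Nat.prime_two h2) hm
    rw [hO, mem_bot] at this
    simp [this] at ht
  obtain ⟨q, hq, hqd⟩ := exists_prime_dvd_card (zpowers_ne_bot.2 hx1)
  obtain ⟨y, ⟨n, rfl⟩, hy⟩ := exists_orderOf_eq_of_dvd_card hq hqd
  have hq2 : q ≠ 2 := by
    rintro rfl
    rw [Nat.card_zpowers] at hqd
    exact (Nat.not_even_iff_odd.2 hxo) (even_iff_two_dvd.2 hqd)
  have e : t * x ^ n * t⁻¹ = (x ^ n)⁻¹ := by rw [← conj_zpow, hx, inv_zpow]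
  have h1 := h q hq hq2 (zpowers (x ^ n)) (isPi_of_card_eq_prime hq (by rw [Nat.card_zpowers]; exact hy))
    t (H82.mem_normalizer_zpowers_iff.2 (e ▸ inv_mem (mem_zpowers _)))
    (by rw [IsPiElt, ht]; exact (isPiNat_prime Nat.prime_two).2 rfl) _ (mem_zpowers _)
  rw [← h1, mul_inv_cancel_right, eq_inv_iff_mul_eq_one, ← pow_two] at e
  have := orderOf_dvd_of_pow_eq_one e
  rw [show orderOf (x ^ n) = q from hy] at this
  exact hq2 ((Nat.prime_dvd_prime_iff_eq hq Nat.prime_two).1 this)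

/-- Let G be a finite group such that N_G(H)/C_G(H) has odd order for every nontrivial subgroup H of odd order. Then the Sylow 2-subgroups of G are normal. -/
theorem result {G : Type*} [Group G] [Finite G]
    (hhom : ∀ H : Subgroup G, H ≠ ⊥ → ¬ 2 ∣ Nat.card ↥H →
        ¬ 2 ∣ (Subgroup.centralizer (H : Set G)).relIndex (Subgroup.normalizer (H : Set G))) (P : Sylow 2 G) :
    (P : Subgroup G).Normal := by
  have h : H20.PiHom {2} G := H20.piHom_of fun H h1 h2 p hp hd e =>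
    hhom H h1 (fun h => h2 2 Nat.prime_two h rfl) (e ▸ hd)
  have : (piCoreOf {2} (⊤ : Subgroup G)).Normal := normal_iff_top_le_norm.2 (le_norm_piCoreOf _ _)
  have h1 := H20.hall_piCoreOf_of_quotient (odd_of (h.quotient _ (piCoreOf_pi _ _))
    (H20.piCoreOf_quotient {2}))
  rwa [h1.eq_of_normal (le_norm_piCoreOf _ _) (sylowOf_top Nat.prime_two P)]

end Cfsg.Agent.S4049
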