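import Cfsg.Statements.S4050
import Cfsg.Agent.H20.PiHom

set_option autoImplicit false
open Cfsg

namespace Cfsg.Agent.S4050

open Subgroup Cfsg.Agent.H49

/-- Let π be a set of primes and G a finite group. The π-elements of G (elements whose order is divisible only by primes of π) form a subgroup if and only if G is π-separable (it has a chain of normal subgroups from 1 to G with each successive index divisible only by primes in π or only by primes outside π) and N_G(H)/C_G(H) is a π'-group for every nontrivial π'-subgroup H of G. -/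
theorem result {G : Type*} [Group G] [Finite G] (π : Set ℕ)
    (hπ : ∀ p ∈ π, p.Prime) :
    (∃ K : Subgroup G, ∀ x : G, x ∈ K ↔ ∀ p : ℕ, p.Prime → p ∣ orderOf x → p ∈ π) ↔
    ((∃ (n : ℕ) (H : Fin (n + 1) → Subgroup G), H 0 = ⊥ ∧ H (Fin.last n) = ⊤ ∧ Monotone H ∧ (∀ i, (H i).Normal) ∧
      ∀ i : Fin n, (∀ q : ℕ, q.Prime → q ∣ (H i.castSucc).relIndex (H i.succ) → q ∈ π) ∨
        (∀ q : ℕ, q.Prime → q ∣ (H i.castSucc).relIndex (H i.succ) → q ∉ π)) ∧
     (∀ H : Subgroup G, H ≠ ⊥ → (∀ p : ℕ, p.Prime → p ∣ Nat.card ↥H → p ∉ π) →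
        ∀ p : ℕ, p.Prime → p ∣ (Subgroup.centralizer (H : Set G)).relIndex (Subgroup.normalizer (H : Set G)) → p ∉ π)) := by
  refine H20.piClosed_iff.trans ⟨fun h => ⟨⟨2, ![⊥, piCoreOf π ⊤, ⊤], rfl, rfl, ?_, ?_, ?_⟩, ?_⟩, ?_⟩
  · refine Fin.monotone_iff_le_succ.2 fun i => ?_
    fin_cases i <;> simp
  · intro i
    fin_cases i
    · exact normal_bot
    · exact normal_iff_top_le_norm.2 (le_norm_piCoreOf _ _)
    · exact normal_top
  · intro i
    fin_cases i
    · exact Or.inl (h.pi.relIndex ⊥)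
    · exact Or.inr h.index
  · intro H _ hH
    have hn : 𝒩(H) ≤ 𝒩(piCoreOf π (⊤ : Subgroup G)) := le_top.trans (le_norm_piCoreOf _ _)
    refine (h.inf_of_norm le_top hn).index_of_le ?_
    rw [← H49.commutator_eq_bot_iff, eq_bot_iff, ← h.pi.inf_eq_bot hH]
    exact le_inf ((commutator_mono inf_le_left le_rfl).trans
      (commutator_le_left_of_norm (le_normalizer.trans hn))) (commutator_le_right_of_norm inf_le_right)
  · rintro ⟨⟨n, H, h0, h1, -, hn, h⟩, hhom⟩
    exact H20.hall_piCoreOf_of_piHom (H20.piHom_of hhom) (H20.piSep_of_chain h0 h1 hn h)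

end Cfsg.Agent.S4050
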