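import Cfsg.Statements.S4051
import Cfsg.Agent.H20.PiHom

set_option autoImplicit false
open Cfsg

namespace Cfsg.Agent.S4051

open Subgroup Cfsg.Agent.H49

/-- Let π be a set of primes and G a finite group such that N_G(H)/C_G(H) is a π'-group for every nontrivial π'-subgroup H of G. If K is a normal subgroup of G such that the π-elements of K form a subgroup and the π-elements of G/K form a subgroup, then the π-elements of G form a subgroup. -/
theorem result {G : Type*} [Group G] [Finite G] (π : Set ℕ)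
    (hπ : ∀ p ∈ π, p.Prime) (hhom : (∀ H : Subgroup G, H ≠ ⊥ → (∀ p : ℕ, p.Prime → p ∣ Nat.card ↥H → p ∉ π) →
        ∀ p : ℕ, p.Prime → p ∣ (Subgroup.centralizer (H : Set G)).relIndex (Subgroup.normalizer (H : Set G)) → p ∉ π))
    (K : Subgroup G) [K.Normal]
    (hK : ∃ L : Subgroup ↥K, ∀ x : ↥K, x ∈ L ↔ ∀ p : ℕ, p.Prime → p ∣ orderOf x → p ∈ π)
    (hQ : ∃ L : Subgroup (G ⧸ K), ∀ x : G ⧸ K, x ∈ L ↔ ∀ p : ℕ, p.Prime → p ∣ orderOf x → p ∈ π) :
    (∃ K : Subgroup G, ∀ x : G, x ∈ K ↔ ∀ p : ℕ, p.Prime → p ∣ orderOf x → p ∈ π) := by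
  refine H20.piClosed_iff.2 (H20.hall_piCoreOf_of_piHom (H20.piHom_of hhom) ?_)
  have h1 := (H20.piClosed_iff.1 hK).map K.subtype
  rw [piCoreOf_map_subtype, map_subtype_top] at h1
  have h2 := H20.piClosed_iff.1 hQ
  have n1 : (piCoreOf π K).Normal := normal_iff_top_le_norm.2 (norm_piCoreOf _ le_normalizer_of_normal)
  have n2 : (piCoreOf π (⊤ : Subgroup (G ⧸ K))).Normal := normal_iff_top_le_norm.2 (le_norm_piCoreOf _ _)
  have hs := QuotientGroup.mk'_surjective K
  refine H20.piSep_of_chain (n := 4)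
    (H := ![⊥, piCoreOf π K, K, (piCoreOf π ⊤).comap (QuotientGroup.mk' K), ⊤]) rfl rfl ?_ ?_
  · intro i
    fin_cases i
    · exact normal_bot
    · exact n1
    · assumption
    · exact n2.comap _
    · exact normal_top
  · intro i
    fin_cases i
    · exact Or.inl (h1.pi.relIndex ⊥)
    · exact Or.inr h1.index
    · refine Or.inl ?_
      change IsPiNat π (K.relIndex _)
      have := h2.pi.relIndex ⊥
      rwa [← map_comap_eq_self_of_surjective hs (piCoreOf π ⊤), ← relIndex_comap, MonoidHom.comap_bot,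
        QuotientGroup.ker_mk'] at this
    · refine Or.inr ?_
      change IsPiNat πᶜ (relIndex (comap _ _) ⊤)
      rw [relIndex_comap, map_top_of_surjective _ hs]
      exact h2.index

end Cfsg.Agent.S4051
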