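import Cfsg.Statements.S4056
import Cfsg.Agent.S0013

set_option autoImplicit false
open Cfsg

namespace Cfsg.Agent.S4056

open scoped commutatorElement

theorem comm_central {P : Type*} [Group P] [Group.IsNilpotent P]
    (hcl : Group.nilpotencyClass P ≤ 2) (x y : P) : ⁅x, y⁆ ∈ Subgroup.center P := by
  have h := Subgroup.upperCentralSeries_eq_top_iff_nilpotencyClass_le.mpr hcl
  have hx : x ∈ Subgroup.upperCentralSeries P (1 + 1) := by rw [h]; trivial
  have := Subgroup.mem_upperCentralSeries_succ_iff.mp hx y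
  rwa [Subgroup.upperCentralSeries_one] at this


/-- In a finite 2-group of nilpotency class at most 2 and exponent dividing 4, the Frattini subgroup lies in the centre and is elementary abelian. -/
theorem result {P : Type*} [Group P] [Finite P] (hP : IsPGroup 2 P)
    (hcl : Group.nilpotencyClass P ≤ 2) (hexp : Monoid.exponent P ∣ 4) :
    frattini P ≤ Subgroup.center P ∧ Cfsg.IsElementaryAbelian 2 (frattini P) := by
  have := hP.isNilpotent
  have h4 : ∀ x : P, x ^ 4 = 1 := Monoid.exponent_dvd_iff_forall_pow_eq_one.mp hexp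
  have hc := comm_central hcl
  have hc2 : ∀ x y : P, ⁅x, y⁆ ^ 2 = 1 := by
    intro x y
    set c := ⁅x, y⁆ with hcd
    have hz : ∀ g, g * c = c * g := Subgroup.mem_center_iff.mp (hc x y)
    have e : x * y = c * (y * x) := by rw [hcd, commutatorElement_def]; group
    -- (y x)^2 = c y^2 x^2
    have e2 : (y * x) ^ 2 = c * (y ^ 2 * x ^ 2) := by
      calc (y * x) ^ 2 = y * (x * y) * x := by rw [sq]; group
        _ = y * c * (y * x * x) := by rw [e]; group
        _ = c * (y ^ 2 * x ^ 2) := by rw [hz, sq, sq]; group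
    have e3 : x ^ 2 * y = c ^ 2 * (y * x ^ 2) := by
      calc x ^ 2 * y = x * (x * y) := by rw [sq]; group
        _ = x * c * y * x := by rw [e]; group
        _ = c * (x * y) * x := by rw [hz]; group
        _ = _ := by rw [e, sq, sq]; group
    have hz2 : ∀ g, g * c ^ 2 = c ^ 2 * g := Subgroup.mem_center_iff.mp (Subgroup.pow_mem _ (hc x y) 2)
    have e4 : x ^ 2 * y ^ 2 = y ^ 2 * x ^ 2 := by
      calc x ^ 2 * y ^ 2 = (x ^ 2 * y) * y := by rw [sq y]; group
        _ = c ^ 2 * (y * x ^ 2) * y := by rw [e3]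
        _ = c ^ 2 * y * (x ^ 2 * y) := by simp only [mul_assoc]
        _ = c ^ 2 * (y * c ^ 2) * y * x ^ 2 := by rw [e3]; simp only [mul_assoc]
        _ = c ^ 4 * (y ^ 2 * x ^ 2) := by rw [hz2, sq y]; group
        _ = _ := by rw [h4, one_mul]
    have e5 : (y * x) ^ 4 = c ^ 2 := by
      calc (y * x) ^ 4 = (y * x) ^ 2 * (y * x) ^ 2 := by group
        _ = c * ((y ^ 2 * x ^ 2) * c) * (y ^ 2 * x ^ 2) := by rw [e2]; group
        _ = c ^ 2 * y ^ 2 * (x ^ 2 * y ^ 2) * x ^ 2 := by rw [hz, sq c]; simp only [mul_assoc]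
        _ = c ^ 2 * y ^ 4 * x ^ 4 := by rw [e4]; group
        _ = c ^ 2 := by rw [h4, h4]; group
    rw [← e5, h4]
  have hsq : ∀ x : P, x ^ 2 ∈ Subgroup.center P := by
    intro x
    rw [Subgroup.mem_center_iff]
    intro y
    set c := ⁅x, y⁆ with hcd
    have hz : ∀ g, g * c = c * g := Subgroup.mem_center_iff.mp (hc x y)
    have e : x * y = c * (y * x) := by rw [hcd, commutatorElement_def]; group
    have e3 : x ^ 2 * y = c ^ 2 * (y * x ^ 2) := by
      calc x ^ 2 * y = x * (x * y) := by rw [sq]; group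
        _ = x * c * y * x := by rw [e]; group
        _ = c * (x * y) * x := by rw [hz]; group
        _ = _ := by rw [e, sq, sq]; group
    rw [e3, hc2, one_mul]
  let N : Subgroup P :=
    { carrier := {z | z ∈ Subgroup.center P ∧ z ^ 2 = 1}
      mul_mem' := by
        rintro a b ⟨ha, ha2⟩ ⟨hb, hb2⟩
        refine ⟨Subgroup.mul_mem _ ha hb, ?_⟩
        have : Commute a b := Subgroup.mem_center_iff.mp hb a
        rw [this.mul_pow, ha2, hb2, one_mul]
      one_mem' := ⟨Subgroup.one_mem _, by simp⟩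
      inv_mem' := by
        rintro a ⟨ha, ha2⟩
        exact ⟨Subgroup.inv_mem _ ha, by rw [inv_pow, ha2, inv_one]⟩ }
  have hNn : N.Normal := ⟨fun n hn g => by
    rw [Subgroup.mem_center_iff.mp hn.1 g, mul_inv_cancel_right]; exact hn⟩
  have hle : frattini P ≤ N := by
    apply S0013.result 2 hP N
    · rw [commutator_def, Subgroup.commutator_le]
      intro x _ y _
      exact ⟨hc x y, hc2 x y⟩
    · intro x
      exact ⟨hsq x, by rw [← pow_mul]; exact h4 x⟩
  refine ⟨fun x hx => (hle hx).1, ⟨⟨fun a b => Subtype.ext ?_⟩⟩, fun a ha => (hle ha).2⟩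
  exact Subgroup.mem_center_iff.mp (hle b.2).1 a

end Cfsg.Agent.S4056
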