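import Cfsg.Statements.S4057
import Cfsg.Agent.H72.Pat
import Cfsg.Agent.S0130

set_option autoImplicit false
open Cfsg

namespace Cfsg.Agent.S4057

/-- Let p be an odd prime and P a finite p-group in which every normal abelian subgroup can be generated by k elements. Then every subgroup of P can be generated by at most ⌊k(k+4)/4⌋ elements. -/
theorem result {P : Type*} [Group P] [Finite P] {p : ℕ} [Fact p.Prime]
    (hp : p ≠ 2) (hP : IsPGroup p P) (k : ℕ)
    (hab : ∀ A : Subgroup P, A.Normal → IsMulCommutative A → ∃ S : Finset P, S.card ≤ k ∧ Subgroup.closure (S : Set P) = A) :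
    ∀ H : Subgroup P, ∃ S : Finset P, S.card ≤ k * (k + 4) / 4 ∧ Subgroup.closure (S : Set P) = H := by
  classical
  intro H
  obtain ⟨A, ⟨hAn, hAc, hAe⟩, hmax⟩ := (Set.toFinite {B : Subgroup P | B.Normal ∧ IsMulCommutative B ∧
      ∀ b ∈ B, b ^ p = 1}).exists_maximal ⟨⊥, inferInstance, inferInstance, fun b hb => by
        rw [Subgroup.mem_bot.1 hb, one_pow]⟩
  have hcen : ∀ x ∈ Subgroup.centralizer (A : Set P), x ^ p = 1 → x ∈ A := fun x hx hxp =>
    S0130.result hP 1 (by simpa using hp) A hAc (by simpa using hAe)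
      (fun B h1 h2 h3 h4 => le_antisymm (hmax ⟨h1, h2, by simpa using h3⟩ h4) h4) x hx
      (by simpa using hxp)
  have hcomm : ∀ a b : A, a * b = b * a := fun a b => hAc.is_comm.comm a b
  have hpA : ∀ a : A, a ^ p = 1 := fun a => Subtype.ext (hAe a a.2)
  obtain ⟨n, e, ρ, hn, -, hρ, -⟩ := H51.exists_matrix_rep A p hcomm hpA
  have hAk : Nat.card A ≤ p ^ k := by
    obtain ⟨S, hS1, hS2⟩ := hab A hAn hAc
    let _ : CommGroup A := { (inferInstance : Group A) with mul_comm := hcomm }
    have h1 := card_dvd_exponent_pow_rank' A hpA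
    have h2 : Group.rank A ≤ k := by
      have := Subgroup.rank_closure_finset_le_card S
      rw [Subgroup.rank_congr hS2] at this
      exact this.trans hS1
    exact (Nat.le_of_dvd (pow_pos (Fact.out : p.Prime).pos _) h1).trans
      (Nat.pow_le_pow_right (Fact.out : p.Prime).pos h2)
  have hnk : n ≤ k := by
    rw [hn] at hAk
    exact (Nat.pow_le_pow_iff_right (Fact.out : p.Prime).one_lt).1 hAk
  let φ : H →* MulAut A := (MulAut.conjNormal : P →* MulAut A).comp H.subtype
  obtain ⟨S, hS1, hS2⟩ := H72.Pat.patterson (hP.to_subgroup H) (ρ.comp φ)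
  let D : Subgroup P := H ⊓ Subgroup.centralizer (A : Set P)
  obtain ⟨T, hT1, hT2⟩ := H72.Pat.gen_of_central hp _ D le_rfl (hP.to_subgroup D) (fun x hx => by
    have hxA := hcen x x.2.2 (congrArg Subtype.val hx)
    rw [Subgroup.mem_center_iff]
    intro g
    exact Subtype.ext (g.2.2 x hxA).symm) k (by
    refine le_trans ?_ hAk
    refine Nat.card_le_card_of_injective
      (fun y => (⟨y.1, hcen y.1 y.1.2.2 (congrArg Subtype.val y.2)⟩ : A)) ?_
    intro y z h
    exact Subtype.ext (Subtype.ext (congrArg (fun w : A => (w : P)) h)))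
  refine ⟨S.image H.subtype ∪ T.image D.subtype, (Finset.card_union_le _ _).trans ?_, ?_⟩
  · have h1 := Finset.card_image_le (s := S) (f := H.subtype)
    have h2 := Finset.card_image_le (s := T) (f := D.subtype)
    have h3 : n ^ 2 / 4 ≤ k ^ 2 / 4 := Nat.div_le_div_right (Nat.pow_le_pow_left hnk 2)
    have h4 : k * (k + 4) / 4 = k ^ 2 / 4 + k := by
      rw [show k * (k + 4) = k ^ 2 + 4 * k by ring, Nat.add_mul_div_left _ _ (by norm_num)]
    omega
  · apply le_antisymm
    · rw [Subgroup.closure_le, Finset.coe_union, Finset.coe_image, Finset.coe_image]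
      rintro _ (⟨x, -, rfl⟩ | ⟨x, -, rfl⟩)
      · exact x.2
      · exact x.2.1
    · intro g hg
      obtain ⟨u, hu, hug⟩ := hS2 ⟨g, hg⟩
      have h1 : φ u = φ ⟨g, hg⟩ := hρ hug
      have h2 : (u : P)⁻¹ * g ∈ D := by
        refine ⟨H.mul_mem (H.inv_mem u.2) hg, fun a ha => ?_⟩
        have := congrArg (fun σ : MulAut A => ((σ ⟨a, ha⟩ : A) : P)) h1
        simp only [φ, MonoidHom.comp_apply, Subgroup.coe_subtype, MulAut.conjNormal_apply] at this
        calc a * ((u : P)⁻¹ * g) = (u : P)⁻¹ * (u * a * (u : P)⁻¹) * g := by group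
          _ = (u : P)⁻¹ * g * a := by rw [this]; group
      have h3 : (u : P) ∈ (Subgroup.closure (S : Set H)).map H.subtype := ⟨u, hu, rfl⟩
      have h4 : (u : P)⁻¹ * g ∈ (Subgroup.closure (T : Set D)).map D.subtype :=
        ⟨⟨_, h2⟩, hT2 ▸ Subgroup.mem_top _, rfl⟩
      rw [MonoidHom.map_closure] at h3 h4
      have h5 : g = u * ((u : P)⁻¹ * g) := by group
      rw [h5, Finset.coe_union, Finset.coe_image, Finset.coe_image]
      exact Subgroup.mul_mem _ (Subgroup.closure_mono Set.subset_union_left h3)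
        (Subgroup.closure_mono Set.subset_union_right h4)

end Cfsg.Agent.S4057
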