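import Cfsg.Statements.S4065
import Cfsg.Agent.H66.PSL2Cent

set_option autoImplicit false
open Cfsg

namespace Cfsg.Agent.S4065

theorem aux {F : Type*} [Field F] (h2 : (2 : F) = 0)
    {x y : Matrix.ProjectiveSpecialLinearGroup (Fin 2) F} (hx : x ≠ 1) (hy : y ≠ 1)
    (h : y ∈ Subgroup.centralizer ({x} : Set (Matrix.ProjectiveSpecialLinearGroup (Fin 2) F))) :
    Subgroup.centralizer ({y} : Set (Matrix.ProjectiveSpecialLinearGroup (Fin 2) F)) =
      Subgroup.centralizer {x} := by
  obtain ⟨x, rfl⟩ := H66.toPSL_surjective x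
  obtain ⟨y, rfl⟩ := H66.toPSL_surjective y
  rw [Ne, H66.toPSL_eq_one_iff] at hx hy
  apply Subgroup.comap_injective H66.toPSL_surjective
  rw [← Subgroup.mem_comap, H66.comap_centralizer_psl_of_ne (Or.inl h2)] at h
  rw [H66.comap_centralizer_psl_of_ne (Or.inl h2), H66.comap_centralizer_psl_of_ne (Or.inl h2)]
  exact H66.centralizer_eq_of_mem ((H66.nonSc_iff _).2 (not_or.1 hx))
    ((H66.nonSc_iff _).2 (not_or.1 hy)) h


/-- Let F be a finite field with 2ⁿ elements, n ≥ 2. In PSL₂(F) the centralizer of every element meets each of its conjugates by elements outside its normalizer trivially. -/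
theorem result (n : ℕ) (hn : 2 ≤ n)
    (x : Matrix.ProjectiveSpecialLinearGroup (Fin 2) (GaloisField 2 n)) :
    Cfsg.IsTISubset (Subgroup.centralizer ({x} : Set (Matrix.ProjectiveSpecialLinearGroup (Fin 2) (GaloisField 2 n))) :
      Set (Matrix.ProjectiveSpecialLinearGroup (Fin 2) (GaloisField 2 n))) := by
  have h2 : (2 : GaloisField 2 n) = 0 := CharP.cast_eq_zero _ 2
  intro g hg y hy hgy
  by_contra hy1
  apply hg
  by_cases hx : x = 1
  · subst hx
    rw [Subgroup.mem_set_normalizer_iff]
    intro k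
    simp [Subgroup.mem_centralizer_singleton_iff]
  have e1 := aux h2 hx hy1 hy
  have e2 := aux h2 hx (by simpa using hy1) hgy
  rw [H66.centralizer_singleton_conj, e1] at e2
  rw [Subgroup.mem_normalizer_iff]
  intro k
  constructor
  · intro hk
    rw [← e2]; exact ⟨k, hk, rfl⟩
  · intro hk
    rw [← e2] at hk
    obtain ⟨k', hk', e'⟩ := hk
    have : k' = k := (MulAut.conj g).injective e'
    rwa [← this]

end Cfsg.Agent.S4065
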