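import Cfsg.Statements.S4066
import Cfsg.Agent.H82.Basic

set_option autoImplicit false
open Cfsg

namespace Cfsg.Agent.S4066

/-- Let G be a finite group in which the centralizer of every element meets each of its conjugates by elements outside its normalizer trivially. Then any two distinct Sylow p-subgroups of G, for any prime p, intersect trivially. -/
theorem result {G : Type*} [Group G] [Finite G] (hTI : ∀ x : G, Cfsg.IsTISubset (Subgroup.centralizer ({x} : Set G) : Set G))
    {p : ℕ} [Fact p.Prime] (P Q : Sylow p G) (hPQ : P ≠ Q) : (P : Subgroup G) ⊓ (Q : Subgroup G) = ⊥ := by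
  by_contra hne
  obtain ⟨⟨x, hx⟩, hx0⟩ := Subgroup.ne_bot_iff_exists_ne_one.mp hne
  have hx1 : x ≠ 1 := fun h => hx0 (Subtype.ext h)
  obtain ⟨hxP, hxQ⟩ := Subgroup.mem_inf.mp hx
  have hnt : Nontrivial (P : Subgroup G) := ⟨⟨⟨x, hxP⟩, 1, fun h => hx1 (congrArg Subtype.val h)⟩⟩
  have hnt2 := P.isPGroup'.center_nontrivial
  obtain ⟨⟨z, hz⟩, hz1⟩ := exists_ne (1 : Subgroup.center (P : Subgroup G))
  have hz1' : (z : G) ≠ 1 := fun h => hz1 (Subtype.ext (Subtype.ext h))
  set C := Subgroup.centralizer ({(z : G)} : Set G) with hC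
  have hPC : (P : Subgroup G) ≤ C := by
    intro y hy
    rw [hC, Subgroup.mem_centralizer_singleton_iff]
    exact congrArg Subtype.val ((Subgroup.mem_center_iff.mp hz) ⟨y, hy⟩)
  obtain ⟨g, rfl⟩ := MulAction.exists_smul_eq G P Q
  have hmem : ∀ y : G, y ∈ ((g • P : Sylow p G) : Subgroup G) ↔ g⁻¹ * y * g ∈ (P : Subgroup G) := by
    intro y
    rw [Sylow.coe_subgroup_smul, Subgroup.mem_pointwise_smul_iff_inv_smul_mem]
    simp
  have hg : g ∈ Subgroup.normalizer (C : Set G) := by
    by_contra hg
    have := hTI z g hg (g⁻¹ * x * g) (hPC ((hmem x).mp hxQ)) (by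
      have : g * (g⁻¹ * x * g) * g⁻¹ = x := by group
      rw [this]; exact hPC hxP)
    apply hx1
    have h2 : x = g * (g⁻¹ * x * g) * g⁻¹ := by group
    rw [h2, this]; simp
  -- elements of C commute with their C-conjugates
  have hcomm : ∀ y ∈ C, ∀ c ∈ C, Commute y (c * y * c⁻¹) := by
    intro y hy c hc
    have hzy : (z : G) ∈ Subgroup.centralizer ({y} : Set G) := by
      rw [Subgroup.mem_centralizer_singleton_iff]
      rw [hC, Subgroup.mem_centralizer_singleton_iff] at hy
      exact hy.symm
    have hcn : c ∈ Subgroup.normalizer ((Subgroup.centralizer ({y} : Set G) : Subgroup G) : Set G) := by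
      by_contra hcn
      apply hz1'
      apply hTI y c hcn z hzy
      rw [hC, Subgroup.mem_centralizer_singleton_iff] at hc
      rw [hc, mul_inv_cancel_right]
      exact hzy
    have := (Subgroup.mem_normalizer_iff.mp hcn y).mp
      (by simp [Subgroup.mem_centralizer_singleton_iff])
    rw [Subgroup.mem_centralizer_singleton_iff] at this
    exact this.symm
  apply hPQ
  apply Sylow.ext
  apply (g • P).is_maximal' P.isPGroup'
  intro y hy
  have hyC : y ∈ C := by
    have h1 := hPC ((hmem y).mp hy)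
    have h2 := (Subgroup.mem_normalizer_iff.mp hg (g⁻¹ * y * g)).mp h1
    have : g * (g⁻¹ * y * g) * g⁻¹ = y := by group
    rwa [this] at h2
  obtain ⟨k, hk⟩ := H82.orderOf_eq_pow_of_mem (g • P).isPGroup' hy
  -- the subgroup generated by the P-conjugates of y
  set S : Set G := {w | ∃ c ∈ (P : Subgroup G), w = c * y * c⁻¹} with hS
  have hScomm : ∀ a ∈ S, ∀ b ∈ S, a * b = b * a := by
    rintro _ ⟨c, hc, rfl⟩ _ ⟨d, hd, rfl⟩
    have h1 := hcomm (c * y * c⁻¹) (C.mul_mem (C.mul_mem (hPC hc) hyC) (C.inv_mem (hPC hc)))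
      (d * c⁻¹) (C.mul_mem (hPC hd) (C.inv_mem (hPC hc)))
    have : d * c⁻¹ * (c * y * c⁻¹) * (d * c⁻¹)⁻¹ = d * y * d⁻¹ := by group
    rw [this] at h1
    exact h1
  have hpS : IsPGroup p (Subgroup.closure S) := by
    rintro ⟨w, hw⟩
    refine ⟨k, Subtype.ext ?_⟩
    simp only [SubmonoidClass.coe_pow, OneMemClass.coe_one]
    induction hw using Subgroup.closure_induction with
    | mem w hw =>
      obtain ⟨c, -, rfl⟩ := hw
      rw [conj_pow, ← hk, pow_orderOf_eq_one]; simp
    | one => simp
    | mul a b ha hb iha ihb =>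
      have : Commute a b := by
        have := (Subgroup.isMulCommutative_closure hScomm).is_comm.comm ⟨a, ha⟩ ⟨b, hb⟩
        exact congrArg Subtype.val this
      rw [this.mul_pow, iha, ihb, one_mul]
    | inv a ha iha => rw [inv_pow, iha, inv_one]
  have hnorm : (P : Subgroup G) ≤ Subgroup.normalizer ((Subgroup.closure S : Subgroup G) : Set G) := by
    intro c hc
    apply Subgroup.mem_normalizer_fintype
    intro w hw
    induction hw using Subgroup.closure_induction with
    | mem w hw =>
      obtain ⟨d, hd, rfl⟩ := hw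
      exact Subgroup.subset_closure ⟨c * d, Subgroup.mul_mem _ hc hd, by group⟩
    | one => simp
    | mul a b ha hb iha ihb =>
      have : c * (a * b) * c⁻¹ = (c * a * c⁻¹) * (c * b * c⁻¹) := by group
      rw [this]; exact Subgroup.mul_mem _ iha ihb
    | inv a ha iha =>
      have : c * a⁻¹ * c⁻¹ = (c * a * c⁻¹)⁻¹ := by group
      rw [this]; exact Subgroup.inv_mem _ iha
  have h3 := P.is_maximal' (P.isPGroup'.to_sup_of_normal_right' hpS hnorm) le_sup_left
  rw [← h3]
  exact Subgroup.mem_sup_right (Subgroup.subset_closure ⟨1, Subgroup.one_mem _, by simp⟩)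

end Cfsg.Agent.S4066
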