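import Cfsg.Statements.S4067
import Cfsg.Agent.H5.ClassFn
import Cfsg.Agent.H5.Central
import Cfsg.Agent.H5.Linear
import Cfsg.Agent.H3.ClassTwo
import Cfsg.Agent.H70.Conj

set_option autoImplicit false
open Cfsg Subgroup
open scoped commutatorElement

namespace Cfsg.Agent.S4067

variable {G : Type*} [Group G]

theorem card_le_sum {α β : Type*} [Fintype α] [Finite β] (f : α → β) (hf : Function.Surjective f) (w : α → ℚ)
    (h : ∀ x, 1 ≤ w x * Nat.card {y // f y = f x}) : (Nat.card β : ℚ) ≤ ∑ x, w x := by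
  classical
  have := Fintype.ofFinite β
  rw [← Finset.sum_fiberwise (g := f), Nat.card_eq_fintype_card, Fintype.card, Finset.cast_card]
  refine Finset.sum_le_sum fun b _ => ?_
  obtain ⟨a, rfl⟩ := hf b
  have hc : (0 : ℚ) < (Finset.univ.filter fun y => f y = f a).card :=
    Nat.cast_pos.2 (Finset.card_pos.2 ⟨a, by simp⟩)
  refine le_of_mul_le_mul_right ?_ hc
  rw [one_mul, Finset.sum_mul, Finset.cast_card]
  refine Finset.sum_le_sum fun x hx => ?_
  have := h x
  rwa [(Finset.mem_filter.1 hx).2, Nat.card_eq_fintype_card, Fintype.card_subtype, Finset.cast_card] at this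

theorem classes_le [Finite G] {p : ℕ} (hp : ∀ d, d ∣ Nat.card G → d ≠ 1 → p ≤ d) (h0 : 0 < p)
    (h : p + 1 ≤ Nat.card (_root_.commutator G)) : Nat.card (ConjClasses G) * p ≤ Nat.card G := by
  classical
  have := Fintype.ofFinite (IrrCharacter G)
  choose d d0 hd using fun χ : IrrCharacter G => H5.exists_pos_nat_degree χ.2
  have e1 : ∑ χ, d χ ^ 2 = Nat.card G := by
    have := H5.sum_degree_sq (G := G)
    simp only [hd] at this
    exact_mod_cast this
  have e2 : (Finset.univ.filter fun χ => d χ = 1).card = (_root_.commutator G).index := by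
    rw [← H5.card_monoidHom_eq_index_commutator, Nat.card_congr (H5.linearCharEquiv G), Nat.card_eq_fintype_card,
      Fintype.card_subtype]
    simp only [hd, Nat.cast_eq_one]
  have e3 : ∑ _χ : IrrCharacter G, p ^ 2 ≤ ∑ χ, (d χ ^ 2 + if d χ = 1 then p ^ 2 - 1 else 0) :=
    Finset.sum_le_sum fun χ _ => by
      split_ifs with k
      · rw [k]; omega
      · exact Nat.pow_le_pow_left (hp _ (H5.degree_dvd_card χ.2 (hd χ)) k) 2
  rw [Finset.sum_add_distrib, e1, ← Finset.sum_filter, Finset.sum_const, Finset.sum_const, e2, Finset.card_univ,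
    ← Nat.card_eq_fintype_card, H5.card_irrCharacter, smul_eq_mul, smul_eq_mul] at e3
  have e4 := (_root_.commutator G).card_mul_index
  obtain ⟨q, rfl⟩ := Nat.exists_eq_add_of_le' h0
  rw [show (q + 1) ^ 2 - 1 = q * (q + 2) by rw [Nat.sub_eq_iff_eq_add (by nlinarith)]; ring] at e3
  have e5 := Nat.mul_le_mul_right (_root_.commutator G).index h
  exact Nat.le_of_mul_le_mul_right (c := q + 1) (by nlinarith) q.succ_pos

/-- The transvection automorphism. -/
theorem exists_aut [Finite G] {p : ℕ} {v s : G} (b : G → ℕ) (hb : ∀ x y, b (x * y) ≡ b x + b y [MOD p])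
    (hs : ∀ x, s * x = x * s) (sp : s ^ p = 1) (hv : ∀ y, v * y = s ^ b y * y * v)
    (vp : v ^ p * s ^ p.choose 2 = 1) (hM : ∀ a k, p ∣ b (v ^ a * s ^ k)⁻¹) :
    ∃ τ : MulAut G, ∀ x, τ x = x * (v ^ b x * s ^ (b x).choose 2) := by
  have cs : ∀ x, Commute s x := hs
  have ad : ∀ a c : ℕ, v ^ (a + c) * s ^ (a + c).choose 2 =
      s ^ (a * c) * (v ^ a * s ^ a.choose 2 * (v ^ c * s ^ c.choose 2)) := fun a c => by
    have e : (a + c).choose 2 = a * c + (a.choose 2 + c.choose 2) := by
      induction c with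
      | zero => simp
      | succ c ih =>
        rw [← add_assoc, Nat.choose_succ_succ' (a + c), Nat.choose_succ_succ' c, ih]
        simp only [Nat.choose_one_right]
        ring
    rw [e, pow_add, pow_add, pow_add, ← mul_assoc, ← ((cs _).pow_left (a * c)).eq, mul_assoc, mul_assoc,
      mul_assoc (v ^ a), ← mul_assoc (s ^ a.choose 2), ((cs _).pow_left (a.choose 2)).eq (b := v ^ c), mul_assoc]
  have pe : ∀ a k : ℕ, v ^ (a + p * k) * s ^ (a + p * k).choose 2 = v ^ a * s ^ a.choose 2 := fun a k => by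
    induction k with
    | zero => simp
    | succ k ih => rw [mul_add, mul_one, ← add_assoc, ad, vp, ih, mul_one, pow_mul', sp, one_pow, one_mul]
  have md : ∀ a c : ℕ, a ≡ c [MOD p] → v ^ a * s ^ a.choose 2 = v ^ c * s ^ c.choose 2 := fun a c e => by
    rw [← Nat.mod_add_div a p, pe, e, ← pe _ (c / p), Nat.mod_add_div]
  have vy : ∀ (a : ℕ) (y : G), v ^ a * y = s ^ (a * b y) * y * v ^ a := fun a y => by
    induction a with
    | zero => simp
    | succ a ih =>
      rw [pow_succ', mul_assoc, ih, ← mul_assoc, ← mul_assoc, ← ((cs v).pow_left _).eq, mul_assoc (s ^ _) v, hv,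
        add_mul, one_mul, pow_add]
      simp only [mul_assoc]
  let f : G →* G := MonoidHom.mk' (fun x => x * (v ^ b x * s ^ (b x).choose 2)) fun x y => by
    rw [md _ _ (hb x y), ad, mul_assoc x (_ * _), mul_assoc (v ^ b x) (s ^ _) (y * _), ← mul_assoc (s ^ _) y,
      ((cs y).pow_left _).eq, ← mul_assoc (v ^ b x) (_ * _), ← mul_assoc (v ^ b x) y, vy _ y,
      ((cs y).pow_left _).eq]
    simp only [mul_assoc]
  refine ⟨MulEquiv.ofBijective f (Finite.injective_iff_bijective.1 ((injective_iff_map_eq_one f).2 fun x hx => ?_)),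
    fun _ => rfl⟩
  have e : x * (v ^ b x * s ^ (b x).choose 2) = 1 := hx
  have h1 : p ∣ b x := by rw [eq_inv_of_mul_eq_one_left e]; exact hM _ _
  simpa [md _ 0 ((Nat.modEq_zero_iff_dvd).2 h1)] using e

theorem exists_v [Finite G] {p : ℕ} (hp : p.Prime) {z : G} (hz : orderOf z = p) (hD : _root_.commutator G = zpowers z)
    (hc : _root_.commutator G ≤ center G) (hZ : Nat.card (center G) * p < Nat.card G)
    (h : ∀ w ∈ center G, w ^ p = 1 → w ∈ zpowers z) : ∃ v ∉ center G, v ^ p * z ^ p.choose 2 = 1 := by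
  have zp : z ^ p = 1 := hz ▸ pow_orderOf_eq_one z
  have cp : ∀ x y : G, ⁅x, y⁆ ^ p = 1 := fun x y => by
    obtain ⟨k, hk⟩ := hD.le (commutator_mem_commutator (mem_top x) (mem_top y))
    rw [← hk, ← zpow_natCast, ← zpow_mul, mul_comm, zpow_mul, zpow_natCast, zp, one_zpow]
  have pc : ∀ x : G, x ^ p ∈ center G := fun x => mem_center_iff.2 fun y =>
    (commutatorElement_eq_one_iff_mul_comm.1 (by rw [H3.commutator_pow_left hc, cp])).symm
  have zc : z ∈ center G := hc (hD.ge (mem_zpowers z))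
  rcases hp.eq_two_or_odd' with rfl | ho
  · have hne : ¬ ∀ x y : G, ⁅y, x⁆ = 1 := fun k => by
      have : z ∈ (⊥ : Subgroup G) := (commutator_le.2 fun a _ b _ => k b a) (hD.ge (mem_zpowers z))
      simp [mem_bot.1 this] at hz
    obtain ⟨x, y, hxy⟩ : ∃ x y : G, ⁅y, x⁆ ≠ 1 := by simpa using hne
    have e : ⁅y, x⁆ = z := by
      classical
      have := hD.le (commutator_mem_commutator (mem_top y) (mem_top x))
      rw [mem_zpowers_iff_mem_range_orderOf, hz] at this
      simpa [Finset.range_add_one, eq_comm, hxy] using this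
    let φ : center G →* center G := MonoidHom.mk' (· ^ 2) fun a c =>
      (show Commute a c from Subtype.ext (mem_center_iff.1 c.2 a)).mul_pow 2
    have hk : φ.ker = (zpowers z).subgroupOf _ := Subgroup.ext fun w =>
      ⟨fun k => h w w.2 (congrArg Subtype.val k), fun ⟨k, hk⟩ => Subtype.ext (by
        change (w : G) ^ 2 = 1
        rw [← show z ^ k = w from hk, ← zpow_natCast, ← zpow_mul, mul_comm, zpow_mul, zpow_natCast, zp, one_zpow])⟩
    have hi : φ.range.index = 2 := by
      have h1 := φ.range.card_mul_index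
      rw [← φ.ker.index_mul_card, index_ker, hk, Nat.card_congr (subgroupOfEquivOfLe (zpowers_le.2 zc)).toEquiv,
        Nat.card_zpowers, hz] at h1
      exact Nat.eq_of_mul_eq_mul_left Nat.card_pos h1
    have k : ∀ x ∉ center G, (⟨x ^ 2 * z, mul_mem (pc x) zc⟩ : center G) ∈ φ.range →
        ∃ v ∉ center G, v ^ 2 * z ^ Nat.choose 2 2 = 1 := by
      rintro x hx ⟨w, hw⟩
      refine ⟨x * (w : G)⁻¹, fun k => hx (by simpa using mul_mem k w.2), ?_⟩
      have e2 : (w : G) ^ 2 = x ^ 2 * z := congrArg Subtype.val hw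
      rw [(show Commute x w from mem_center_iff.1 w.2 x).inv_right.mul_pow, inv_pow, e2, mem_center_iff.1 zc]
      simp
    have nc : ∀ a c : G, ⁅y, x⁆ = ⁅a, c⁆ → a ∉ center G ∧ c ∉ center G := fun a c e =>
      ⟨fun k => hxy (e.trans (commutatorElement_eq_one_iff_mul_comm.2 (mem_center_iff.1 k c).symm)),
        fun k => hxy (e.trans (commutatorElement_eq_one_iff_mul_comm.2 (mem_center_iff.1 k a)))⟩
    by_contra hn
    refine hn (k (x * y) (nc (x * y) x (by simp [H3.commutator_mul_left hc])).1 ?_)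
    convert (mul_mem_iff_of_index_two hi).2 (iff_of_false (mt (k x (nc y x rfl).2) hn) (mt (k y (nc y x rfl).1) hn))
      using 1
    refine Subtype.ext ?_
    change (x * y) ^ 2 * z = x ^ 2 * z * (y ^ 2 * z)
    rw [H3.mul_pow_of_class_two hc, e, Nat.choose_self, pow_one, ← mem_center_iff.1 zc, mul_assoc (x ^ 2) z,
      ← mul_assoc z, ← mem_center_iff.1 zc]
    simp only [mul_assoc]
  · let ψ : G →* G := MonoidHom.mk' (fun x => x ^ p) fun x y =>
      H3.mul_pow_of_odd_of_commute_commutator (H3.commute_commutator hc _ _ _) (H3.commute_commutator hc _ _ _) ho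
        (cp _ _)
    by_contra! hn
    have h1 : ψ.ker ≤ zpowers z := fun x hx => h x (by
      by_contra k
      obtain ⟨c, hc⟩ := H3.dvd_choose_two_of_odd ho
      exact hn x k (by rw [hc, pow_mul, zp, one_pow, mul_one]; exact hx)) hx
    have h2 : ψ.range ≤ center G := by rintro _ ⟨x, rfl⟩; exact pc x
    have h3 := Nat.mul_le_mul (card_le_of_le h2) (card_le_of_le h1)
    rw [← index_ker, ψ.ker.index_mul_card, Nat.card_zpowers, hz] at h3
    omega

theorem exists_tau [Finite G] {p : ℕ} (hp : p.Prime) {z : G} (hz : orderOf z = p)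
    (hD : _root_.commutator G = zpowers z) (hc : _root_.commutator G ≤ center G)
    (hZ : Nat.card (center G) * p < Nat.card G) : ∃ v₀ ∉ center G, ∃ τ : MulAut G,
      ∀ x, x * v₀ ≠ v₀ * x → x⁻¹ * τ x ∉ zpowers z := by
  have zp : z ^ p = 1 := hz ▸ pow_orderOf_eq_one z
  have zc : z ∈ center G := hc (hD.ge (mem_zpowers z))
  have key : ∀ v₀ v : G, ∀ ε : ℕ, v * v₀ = v₀ * v → v ∉ zpowers z → (∀ y : G, ⁅v, y⁆ = ⁅v₀, y⁆ ^ ε) →
      v ^ p * (z ^ ε) ^ p.choose 2 = 1 → ∃ τ : MulAut G, ∀ x, x * v₀ ≠ v₀ * x → x⁻¹ * τ x ∉ zpowers z := by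
    intro v₀ v ε c0 hv h1 h2
    have hb : ∀ y : G, ∃ n : ℕ, z ^ n = ⁅v₀, y⁆ := fun y => mem_powers_iff_mem_zpowers.2
      (hD.le (commutator_mem_commutator (mem_top v₀) (mem_top y)))
    choose b hb using hb
    have hM : ∀ y, p ∣ b y ↔ v₀ * y = y * v₀ := fun y => by
      rw [← hz, orderOf_dvd_iff_pow_eq_one, hb, commutatorElement_eq_one_iff_mul_comm]
    obtain ⟨τ, hτ⟩ := exists_aut (p := p) (v := v) (s := z ^ ε) b (fun x y => by
        rw [← hz, ← pow_eq_pow_iff_modEq, pow_add, hb, hb, hb, H3.commutator_mul_right hc])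
      (fun x => (mem_center_iff.1 (pow_mem zc ε) x).symm) (by rw [← pow_mul, pow_mul', zp, one_pow])
      (fun y => by rw [← pow_mul, pow_mul', hb, ← h1, commutatorElement_def]; group) h2
      (fun a k => (hM _).2 (((show Commute v₀ v from c0.symm).pow_right a).mul_right
        (((show Commute v₀ z from mem_center_iff.1 zc v₀).pow_right ε).pow_right k)).inv_right.eq)
    refine ⟨τ, fun x hx k => hv ?_⟩
    have m : ∀ n, (z ^ ε) ^ n ∈ zpowers z := fun n => pow_mem (pow_mem (mem_zpowers z) ε) n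
    rw [hτ, inv_mul_cancel_left, mul_mem_cancel_right (m _)] at k
    exact H70.mem_of_pow_mem_coprime (hp.coprime_iff_not_dvd.2 fun e => hx ((hM x).1 e).symm)
      ((mul_mem_cancel_right (m _)).1 (h2 ▸ one_mem _)) k
  by_cases h : ∀ w ∈ center G, w ^ p = 1 → w ∈ zpowers z
  · obtain ⟨v, hv, e⟩ := exists_v hp hz hD hc hZ h
    exact ⟨v, hv, key v v 1 rfl (fun k => hv (zpowers_le.2 zc k)) (by simp) (by simpa using e)⟩
  · push Not at h
    obtain ⟨w, hw, e, hw'⟩ := h
    obtain ⟨v, -, hv⟩ := SetLike.exists_of_lt (lt_top_iff_ne_top.2 (show center G ≠ ⊤ from fun k => by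
      rw [k, card_top] at hZ
      exact absurd hZ (not_lt.2 (Nat.le_mul_of_pos_right _ hp.pos))))
    exact ⟨v, hv, key v w 0 (mem_center_iff.1 hw v).symm hw' (fun y => by
      rw [pow_zero, commutatorElement_eq_one_iff_mul_comm, mem_center_iff.1 hw y]) (by simpa using e)⟩

/-- Let G be a finite non-abelian group and p the least prime dividing its order. Then the automorphism group of G has at most #G/p orbits on G. -/
theorem result {G : Type*} [Group G] [Finite G] (hna : ¬ IsMulCommutative G) :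
    Nat.card (MulAction.orbitRel.Quotient (MulAut G) G) ≤ Nat.card G / (Nat.card G).minFac := by
  classical
  have hD1 : _root_.commutator G ≠ ⊥ := fun e => hna ⟨⟨fun a b => commutatorElement_eq_one_iff_mul_comm.1
    (mem_bot.1 (e.le (commutator_mem_commutator (mem_top a) (mem_top b))))⟩⟩
  have hn : Nat.card G ≠ 1 := fun e => hD1 (eq_bot_of_card_eq _ (Nat.dvd_one.1 (e ▸ card_subgroup_dvd_card _)))
  have hp := Nat.minFac_prime hn
  have hle : ∀ d, d ∣ Nat.card G → d ≠ 1 → (Nat.card G).minFac ≤ d := fun d hd h1 => Nat.minFac_le_of_dvd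
    ((Nat.two_le_iff d).2 ⟨fun e => Nat.card_pos.ne' (zero_dvd_iff.1 (e ▸ hd)), h1⟩) hd
  have hco : ∀ m, m ≠ 0 → m < (Nat.card G).minFac → (Nat.card G).Coprime m := fun m => Nat.coprime_of_lt_minFac
  generalize (Nat.card G).minFac = p at *
  rw [Nat.le_div_iff_mul_le hp.pos]
  let π : G → MulAction.orbitRel.Quotient (MulAut G) G := Quotient.mk''
  have hπ : ∀ (σ : MulAut G) (x : G), π (σ x) = π x := fun σ x => Quotient.sound' ⟨σ, rfl⟩
  rcases (hle _ (card_subgroup_dvd_card (_root_.commutator G)) (mt (eq_bot_of_card_eq _) hD1)).eq_or_lt with e | e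
  swap
  · refine le_trans (Nat.mul_le_mul_right p ?_) (classes_le hle hp.pos e)
    refine Nat.card_le_card_of_surjective (fun c : ConjClasses G => Quotient.liftOn' c π fun a b k => ?_) fun q => ?_
    · obtain ⟨g, rfl⟩ := isConj_iff.1 k
      exact (hπ (MulAut.conj g) a).symm
    · obtain ⟨x, rfl⟩ := Quotient.mk''_surjective q
      exact ⟨ConjClasses.mk x, rfl⟩
  have := Fact.mk hp
  have hcyc := isCyclic_of_prime_card e.symm
  have hc : _root_.commutator G ≤ center G := fun d hd => mem_center_iff.2 fun g => by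
    have h1 := orderOf_dvd_natCard (MulAut.conjNormal (H := _root_.commutator G) g)
    rw [IsCyclic.card_mulAut, ← e, Nat.totient_prime hp] at h1
    have h2 := orderOf_eq_one_iff.1 (Nat.eq_one_of_dvd_coprimes
      (hco _ (by have := hp.two_le; omega) (by have := hp.two_le; omega))
      ((orderOf_map_dvd MulAut.conjNormal g).trans (orderOf_dvd_natCard g)) h1)
    have h3 := congrArg Subtype.val (DFunLike.congr_fun h2 ⟨d, hd⟩)
    exact mul_inv_eq_iff_eq_mul.1 h3
  obtain ⟨z, hD⟩ := (Subgroup.isCyclic_iff_exists_zpowers_eq_top _).1 hcyc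
  have hz : orderOf z = p := by rw [← Nat.card_zpowers, hD, e]
  have hi : ∀ A B : Subgroup G, A < B → Nat.card A * p ≤ Nat.card B := fun A B k => by
    have h1 := (A.subgroupOf B).card_mul_index
    rw [Nat.card_congr (subgroupOfEquivOfLe k.le).toEquiv] at h1
    rw [← h1]
    exact Nat.mul_le_mul_left _ (hle _ ((index_dvd_card _).trans (card_subgroup_dvd_card B))
      fun e => k.not_ge (subgroupOf_eq_top.1 (index_eq_one.1 e)))
  have hM : ∀ v ∉ center G, Nat.card (center G) * p ≤ Nat.card (centralizer ({v} : Set G)) ∧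
      Nat.card (centralizer ({v} : Set G)) * p ≤ Nat.card G := fun v hv =>
    ⟨hi _ _ (lt_of_le_of_ne (center_le_centralizer _) fun e => hv (e.ge (mem_centralizer_singleton_iff.2 rfl))),
      card_top (G := G) ▸ hi _ ⊤ (lt_top_iff_ne_top.2 fun e => hv (mem_center_iff.2 fun g =>
        mem_centralizer_singleton_iff.1 (e.ge (mem_top g))))⟩
  obtain ⟨v, hv, τ, hτ⟩ := exists_tau hp hz hD.symm hc (by
    obtain ⟨v, -, hv⟩ := SetLike.exists_of_lt (lt_top_iff_ne_top.2 (show center G ≠ ⊤ from fun k =>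
      hna ⟨⟨fun a b => mem_center_iff.1 (k.ge (mem_top b)) a⟩⟩))
    exact ((hM v hv).1.trans_lt (lt_mul_of_one_lt_right Nat.card_pos hp.one_lt)).trans_le (hM v hv).2)
  have cl : ∀ x ∉ center G, ∀ d : zpowers z, π (x * d) = π x := fun x hx d => by
    obtain ⟨y, hy⟩ : ∃ y : G, ⁅x⁻¹, y⁆ ≠ 1 := by
      by_contra! k
      exact hx (inv_mem_iff.1 (mem_center_iff.2 fun y => (commutatorElement_eq_one_iff_mul_comm.1 (k y)).symm))
    have m := hD.ge (commutator_mem_commutator (mem_top x⁻¹) (mem_top y))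
    obtain ⟨n, hn⟩ := mem_powers_iff_mem_zpowers.2 (mem_zpowers_of_prime_card (p := p) (g := ⟨_, m⟩) (g' := d)
      (by rw [Nat.card_zpowers, hz]) fun e => hy (congrArg Subtype.val e))
    have e1 : ⁅x⁻¹, y ^ n⁆ = d := by rw [H3.commutator_pow_right hc]; exact congrArg Subtype.val hn
    rw [← hπ (MulAut.conj (y ^ n)) x, ← e1, commutatorElement_def]
    simp only [MulAut.conj_apply, mul_assoc, inv_inv, mul_inv_cancel_left]
  have := Fintype.ofFinite G
  have p0 : (0 : ℚ) < p := by exact_mod_cast hp.pos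
  have p2 : (2 : ℚ) ≤ p := by exact_mod_cast hp.two_le
  have h := card_le_sum π Quotient.mk''_surjective (fun x => 1 / (2 * p) +
    (if x ∈ centralizer ({v} : Set G) then 1 / (2 * p : ℚ) else 0) + if x ∈ center G then 1 - 1 / (p : ℚ) else 0) fun x => by
    by_cases h1 : x ∈ center G
    · have : (1 : ℚ) ≤ Nat.card {y // π y = π x} := by
        exact_mod_cast (Nat.card_pos_iff (α := {y // π y = π x})).2 ⟨⟨⟨x, rfl⟩⟩, inferInstance⟩
      rw [if_pos h1, if_pos (center_le_centralizer _ h1), show 1 / (2 * (p : ℚ)) + 1 / (2 * p) + (1 - 1 / p) = 1 by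
        field_simp; ring, one_mul]
      exact this
    by_cases h2 : x ∈ centralizer ({v} : Set G)
    · have : (p : ℚ) ≤ Nat.card {y // π y = π x} := by
        rw [← hz, ← Nat.card_zpowers, Nat.cast_le]
        exact Nat.card_le_card_of_injective (fun d => ⟨x * d, cl x h1 d⟩) fun a b e => by simpa using e
      rw [if_pos h2, if_neg h1, show 1 / (2 * (p : ℚ)) + 1 / (2 * p) + 0 = 1 / p by field_simp; ring,
        one_div, ← div_eq_inv_mul, one_le_div p0]
      exact this
    · have h3 := hτ x fun e => h2 (mem_centralizer_singleton_iff.2 e)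
      have h4 : τ x ∉ center G := fun k => h1 (mem_center_iff.2 fun g => τ.injective (by
        rw [map_mul, map_mul, mem_center_iff.1 k]))
      have : (2 * p : ℚ) ≤ Nat.card {y // π y = π x} := by
        have := Nat.card_le_card_of_injective (β := {y // π y = π x}) (Sum.elim
          (fun d : zpowers z => ⟨x * d, cl x h1 d⟩) fun d : zpowers z => ⟨τ x * d, (cl _ h4 d).trans (hπ τ x)⟩) (by
          have k : ∀ a b : zpowers z, x * a ≠ τ x * b := fun a b e => h3 (by
            rw [show τ x = x * a * (b : G)⁻¹ by rw [e, mul_inv_cancel_right], mul_assoc, inv_mul_cancel_left]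
            exact mul_mem a.2 (inv_mem b.2))
          rintro (a | a) (b | b) e
          · simpa using e
          · exact absurd (congrArg Subtype.val e) (k a b)
          · exact absurd (congrArg Subtype.val e).symm (k b a)
          · simpa using e)
        rw [Nat.card_sum, Nat.card_zpowers, hz, ← two_mul] at this
        exact_mod_cast this
      rw [if_neg h2, if_neg h1, add_zero, add_zero, one_div, ← div_eq_inv_mul, one_le_div (by positivity)]
      exact this
  have cs : ∀ (A : Subgroup G) [DecidablePred (· ∈ A)], (Finset.univ.filter (· ∈ A)).card = Nat.card A :=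
    fun A _ => by rw [Nat.card_eq_fintype_card, Fintype.card_subtype]
  simp only [Finset.sum_add_distrib, ← Finset.sum_filter, Finset.sum_const, cs, Finset.card_univ,
    ← Nat.card_eq_fintype_card, nsmul_eq_mul] at h
  obtain ⟨k1, k2⟩ := hM v hv
  have k1' : (Nat.card (center G) : ℚ) * p ≤ Nat.card (centralizer ({v} : Set G)) := by exact_mod_cast k1
  have k2' : (Nat.card (centralizer ({v} : Set G)) : ℚ) * p ≤ Nat.card G := by exact_mod_cast k2
  have z0 : (0 : ℚ) ≤ Nat.card (center G) := Nat.cast_nonneg _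
  have h' := mul_le_mul_of_nonneg_right h p0.le
  rw [show ∀ a b c : ℚ, (a * (1 / (2 * p)) + b * (1 / (2 * p)) + c * (1 - 1 / p)) * p = a / 2 + b / 2 + c * p - c from
    fun a b c => by field_simp; ring] at h'
  have : (Nat.card (MulAction.orbitRel.Quotient (MulAut G) G) : ℚ) * p ≤ Nat.card G := by
    nlinarith [mul_le_mul_of_nonneg_right k1' (by linarith : (0 : ℚ) ≤ p - 1),
      mul_nonneg z0 (mul_nonneg (by linarith : (0 : ℚ) ≤ p - 1) (by linarith : (0 : ℚ) ≤ p - 2))]
  exact_mod_cast this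

end Cfsg.Agent.S4067
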