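import Cfsg.Statements.S4072
import Cfsg.Agent.H3.PGroup
import Cfsg.Agent.H3.Transfer2
import Cfsg.Agent.H1.NilComm
import Cfsg.Agent.H82.Basic

set_option autoImplicit false
open Cfsg

namespace Cfsg.Agent.S4072

open Subgroup
open scoped commutatorElement

theorem minab {P : Type*} [Group P] [Finite P] {p : ℕ} [Fact p.Prime] (hP : IsPGroup p P)
    (h : ∀ H : Subgroup P, H ≠ ⊤ → IsMulCommutative H) :
    ∃ c : P, c ^ p = 1 ∧ commutator P ≤ zpowers c := by
  by_cases hab : ∀ a b : P, a * b = b * a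
  · refine ⟨1, one_pow _, commutator_le.2 fun a _ b _ => ?_⟩
    rw [commutatorElement_eq_one_iff_mul_comm.2 (hab a b)]; exact one_mem _
  push Not at hab
  obtain ⟨a, b, hab⟩ := hab
  have hc : ∀ (H : Subgroup P) x y, H ≠ ⊤ → x ∈ H → y ∈ H → x * y = y * x := fun H x y hH hx hy =>
    haveI := h H hH
    congrArg Subtype.val (mul_comm' (⟨x, hx⟩ : H) ⟨y, hy⟩)
  have hg : closure {a, b} = ⊤ := by
    by_contra hg
    exact hab (hc _ a b hg (subset_closure (by simp)) (subset_closure (by simp)))
  have h1 : ∀ y x, x ∈ frattini P → x * y = y * x := fun y x hx => hc (zpowers y ⊔ frattini P) x y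
    (fun e => hab (H82.commute_of_mem_zpowers (g := y) (frattini_nongenerating e ▸ mem_top a)
      (frattini_nongenerating e ▸ mem_top b))) (mem_sup_right hx) (mem_sup_left (mem_zpowers y))
  have h2 := fun y => h1 y _ (H3.commutator_le_frattini hP
    (commutator_mem_commutator (mem_top a) (mem_top b)))
  refine ⟨⁅a, b⁆, ?_, ?_⟩
  · have h3 : b * a * b⁻¹ = ⁅a, b⁆⁻¹ * a := by rw [commutatorElement_def]; group
    have h4 := congrArg (· ^ p) h3
    simp only [conj_pow] at h4
    rw [← h1 b _ (H3.pow_mem_frattini hP a), mul_inv_cancel_right,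
      (show Commute ⁅a, b⁆ a from h2 a).inv_left.mul_pow, inv_pow] at h4
    exact inv_eq_one.1 (mul_eq_right.1 h4.symm)
  · haveI : (zpowers ⁅a, b⁆).Normal := ⟨fun x hx g => by
      obtain ⟨i, rfl⟩ := mem_zpowers_iff.1 hx
      rwa [← ((show Commute ⁅a, b⁆ g from h2 g).zpow_left i).eq, mul_inv_cancel_right]⟩
    have h5 : Commute (a : P ⧸ zpowers ⁅a, b⁆) b := by
      rw [← commutatorElement_eq_one_iff_commute]
      exact (QuotientGroup.eq_one_iff ⁅a, b⁆).2 (mem_zpowers _)
    have h6 : ∀ z : P, Commute (a : P ⧸ zpowers ⁅a, b⁆) z → Commute (b : P ⧸ zpowers ⁅a, b⁆) z →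
        ∀ y : P, Commute (y : P ⧸ zpowers ⁅a, b⁆) z := fun z h1 h2 y => by
      have : closure {a, b} ≤ (centralizer {(z : P ⧸ zpowers ⁅a, b⁆)}).comap (QuotientGroup.mk' _) := by
        rw [closure_le, Set.insert_subset_iff, Set.singleton_subset_iff]
        exact ⟨mem_centralizer_singleton_iff.2 h1, mem_centralizer_singleton_iff.2 h2⟩
      exact mem_centralizer_singleton_iff.1 (this (hg ▸ mem_top y))
    refine commutator_le.2 fun x _ y _ => (QuotientGroup.eq_one_iff ⁅x, y⁆).1 ?_
    exact commutatorElement_eq_one_iff_commute.2 (h6 y (h6 a (Commute.refl _) h5.symm y).symm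
      (h6 b h5 (Commute.refl _) y).symm x)

theorem burn {G : Type*} [Group G] [Finite G] (hG : commutator G = ⊤) {p : ℕ} [Fact p.Prime]
    (P : Sylow p G) (M : Subgroup G) [M.Normal] (h1 : ⁅(P : Subgroup G), (P : Subgroup G)⁆ ≤ M)
    (h2 : normalizer (((P : Subgroup G) ⊔ M : Subgroup G) : Set G) = (P : Subgroup G) ⊔ M) :
    (P : Subgroup G) ≤ M := by
  let Q := P.mapSurjective (QuotientGroup.mk'_surjective M)
  have hQ : (Q : Subgroup (G ⧸ M)) ≤ centralizer (Q : Set (G ⧸ M)) := by
    rintro _ ⟨x, hx, rfl⟩ _ ⟨y, hy, rfl⟩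
    rw [← commutatorElement_eq_one_iff_mul_comm]
    exact (QuotientGroup.eq_one_iff ⁅y, x⁆).2 (h1 (commutator_mem_commutator hy hx))
  have h3 : (Q : Subgroup (G ⧸ M)).comap (QuotientGroup.mk' M) = (P : Subgroup G) ⊔ M := by
    rw [Sylow.coe_mapSurjective, comap_map_eq, QuotientGroup.ker_mk']
  have h4 : normalizer (Q : Set (G ⧸ M)) = Q := comap_injective (QuotientGroup.mk'_surjective M) (by
    rw [h3, ← h2, ← h3]
    exact comap_normalizer_eq_of_surjective _ (QuotientGroup.mk'_surjective M))
  have h5 := MonoidHom.ker_transferSylow_isComplement' Q (h4.le.trans hQ)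
  have h6 := Normal.commutator_le_of_self_sup_commutative_eq_top h5.sup_eq_top
    (le_centralizer_iff_isMulCommutative.1 hQ)
  have h7 : commutator (G ⧸ M) = ⊤ := by
    rw [commutator_def, ← map_top_of_surjective _ (QuotientGroup.mk'_surjective M),
      ← map_commutator, ← commutator_def, hG]
  rw [h7, top_le_iff] at h6
  have h8 := h5.disjoint
  rw [h6, top_disjoint] at h8
  rw [h8, MonoidHom.comap_bot, QuotientGroup.ker_mk'] at h3
  exact le_sup_left.trans h3.ge

/-- A finite group in which every non-abelian subgroup is self-normalizing is solvable or simple. -/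
theorem result {G : Type*} [Group G] [Finite G] (hS : ∀ H : Subgroup G, ¬ IsMulCommutative H → Subgroup.normalizer (H : Set G) = H) :
    Group.IsSolvable G ∨ IsSimpleGroup G := by
  by_contra hcon
  obtain ⟨h1, h2⟩ := not_or.1 hcon
  haveI : Nontrivial G := not_subsingleton_iff_nontrivial.1 fun _ => h1 inferInstance
  obtain ⟨N, hN, hN1, hN2⟩ : ∃ N : Subgroup G, N.Normal ∧ N ≠ ⊥ ∧ N ≠ ⊤ := by
    by_contra h
    push Not at h
    exact h2 ⟨fun N hN => or_iff_not_imp_left.2 (h N hN)⟩
  have hab : ∀ M : Subgroup G, M.Normal → M ≠ ⊤ → IsMulCommutative M := fun M _ hM => by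
    by_contra h
    exact hM ((hS M h).symm.trans (normalizer_eq_top M))
  have hG : commutator G = ⊤ := by
    by_contra h
    haveI := hab _ inferInstance h
    haveI : Group.IsSolvable (commutator G) := Group.isSolvable_of_comm mul_comm'
    exact h1 (Group.isSolvable_of_ker_le_range (commutator G).subtype Abelianization.of (by simp))
  by_cases hC : centralizer (N : Set G) = ⊤
  · obtain ⟨p, hp, hpN⟩ := Nat.exists_prime_and_dvd fun e => hN1 (card_eq_one.1 e)
    haveI := Fact.mk hp
    obtain ⟨⟨z, hzN⟩, hz⟩ := exists_prime_orderOf_dvd_card' p hpN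
    replace hz : orderOf z = p := (Subgroup.orderOf_coe _).trans hz
    have hz1 : z ≠ 1 := fun e => hp.one_lt.ne' (by rw [← hz, e, orderOf_one])
    obtain ⟨P, hzP⟩ := H82.exists_sylow_mem (p := p) (k := 1) (hz.trans (pow_one p).symm)
    have hzZ : z ∈ center G := mem_center_iff.2 fun g =>
      ((hC.ge (mem_top g) : g ∈ centralizer _) z hzN).symm
    have h3 := H3.center_inf_commutator_inf_sylow_le P ⟨⟨hzZ, hG ▸ mem_top z⟩, hzP⟩
    have hP : ¬ IsMulCommutative (P : Subgroup G) := fun h => by
      rw [commutator_eq_bot_iff_le_centralizer.2 (le_centralizer_iff_isMulCommutative.2 h)] at h3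
      exact hz1 h3
    obtain ⟨c, hc, h4⟩ := minab P.isPGroup' fun H hH => by
      by_contra h
      haveI := P.isPGroup'.isNilpotent
      obtain ⟨x, hx, hx'⟩ := SetLike.exists_of_lt
        (Group.normalizerCondition_of_isNilpotent H (lt_top_iff_ne_top.2 hH))
      have h5 := le_normalizer_map (P : Subgroup G).subtype ⟨x, hx, rfl⟩
      rw [hS (H.map (P : Subgroup G).subtype) fun h' => h ⟨⟨fun a b => Subtype.ext (Subtype.ext
        (setLike_mul_comm (mem_map_of_mem (P : Subgroup G).subtype a.2)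
          (mem_map_of_mem _ b.2)))⟩⟩] at h5
      obtain ⟨y, hy, e⟩ := h5
      exact hx' (Subtype.ext e ▸ hy)
    have h5 : ⁅(P : Subgroup G), (P : Subgroup G)⁆ ≤ zpowers (c : G) := by
      rw [← map_subtype_commutator]
      exact (map_mono h4).trans (MonoidHom.map_zpowers _ _).le
    have h6 : (c : G) ∈ zpowers z := H82.mem_zpowers_of_orderOf_dvd (mem_zpowers _) (h5 h3)
      (by rw [hz]; exact orderOf_dvd_of_pow_eq_one (congrArg Subtype.val hc))
    haveI : (zpowers z).Normal := ⟨fun x hx g => by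
      rwa [mem_center_iff.1 (zpowers_le.2 hzZ hx) g, mul_inv_cancel_right]⟩
    have h7 := burn hG P (zpowers z) (h5.trans (zpowers_le.2 h6)) (by
      rw [sup_eq_left.2 (zpowers_le.2 hzP)]; exact hS _ hP)
    exact hP ⟨⟨fun a b => Subtype.ext (H82.commute_of_mem_zpowers (h7 a.2) (h7 b.2))⟩⟩
  · have hNC : N ≤ centralizer (N : Set G) := le_centralizer_iff_isMulCommutative.2 (hab N hN hN2)
    have key : ∀ H : Subgroup G, ¬ H ≤ centralizer (N : Set G) →
        normalizer ((H ⊔ centralizer (N : Set G) : Subgroup G) : Set G) =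
          H ⊔ centralizer (N : Set G) := fun H hH => hS _ fun h => hH fun x hx y hy =>
      congrArg Subtype.val (h.is_comm.comm ⟨y, mem_sup_right (hNC hy)⟩ ⟨x, mem_sup_left hx⟩)
    obtain ⟨p, hp, hpN⟩ := Nat.exists_prime_and_dvd fun e => hC (index_eq_one.1 e)
    haveI := Fact.mk hp
    obtain ⟨P⟩ : Nonempty (Sylow p G) := inferInstance
    have hP : ¬ (P : Subgroup G) ≤ centralizer (N : Set G) := fun h =>
      P.not_dvd_index (hpN.trans (index_dvd_of_le h))
    refine hP (burn hG P _ ?_ (key _ hP))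
    by_contra h
    have h3 : (P : Subgroup G) ≤ ⁅(P : Subgroup G), (P : Subgroup G)⁆ ⊔ centralizer (N : Set G) := by
      rw [← key _ h]
      refine le_trans ?_ (normalizer_inf_normalizer_le_normalizer_sup _ _)
      rw [normalizer_eq_top (centralizer _), inf_top_eq, ← map_subtype_commutator]
      refine le_trans ?_ (le_normalizer_map _)
      rw [normalizer_eq_top, ← MonoidHom.range_eq_map, range_subtype]
    have h4 := H1.eq_bot_of_le_commutator_of_nilpotent
      (P.isPGroup'.map (QuotientGroup.mk' (centralizer (N : Set G)))).isNilpotent le_rfl (by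
        rw [← map_commutator, map_le_iff_le_comap, comap_map_eq, QuotientGroup.ker_mk']
        exact h3)
    rw [Subgroup.map_eq_bot_iff, QuotientGroup.ker_mk'] at h4
    exact hP h4

end Cfsg.Agent.S4072
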