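import Cfsg.Statements.S4074
import Mathlib

set_option autoImplicit false
open Cfsg

namespace Cfsg.Agent.S4074

open DihedralGroup in
def par (n : ℕ) (h : 2 ∣ n) : DihedralGroup n →* Multiplicative (ZMod 2) :=
  MonoidHom.mk' (fun x => match x with
    | r i => Multiplicative.ofAdd (ZMod.castHom h (ZMod 2) i)
    | sr i => Multiplicative.ofAdd (ZMod.castHom h (ZMod 2) i)) (by
    have key : ∀ a b : ZMod 2, b - a = a + b := by decide
    rintro (i | i) (j | j) <;> simp only [r_mul_r, r_mul_sr, sr_mul_r, sr_mul_sr, map_add, map_sub,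
      ← ofAdd_add, key])

/-- For n > 2, every non-abelian subgroup of the dihedral group of order 2n is self-normalizing if and only if n = 4 or n is odd. -/
theorem result (n : ℕ) (hn : 2 < n) :
    (∀ H : Subgroup (DihedralGroup n), ¬ IsMulCommutative H → Subgroup.normalizer (H : Set (DihedralGroup n)) = H) ↔
    (n = 4 ∨ Odd n) := by
  have : NeZero n := ⟨by omega⟩
  constructor
  · intro h
    by_contra hcon
    rw [not_or, Nat.not_odd_iff_even, even_iff_two_dvd] at hcon
    have h1 := h (par n hcon.2).ker (fun hc => by
      have e := congrArg Subtype.val (hc.1.1 (⟨DihedralGroup.r 2, by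
        show Multiplicative.ofAdd (ZMod.castHom hcon.2 (ZMod 2) 2) = 1
        rw [map_ofNat]; decide⟩ : (par n hcon.2).ker) ⟨DihedralGroup.sr 0, by
        show Multiplicative.ofAdd (ZMod.castHom hcon.2 (ZMod 2) 0) = 1
        simp⟩)
      simp only [Subgroup.coe_mul, DihedralGroup.r_mul_sr, DihedralGroup.sr_mul_r,
        DihedralGroup.sr.injEq] at e
      have e2 : ((4 : ℕ) : ZMod n) = 0 := by push_cast; linear_combination -e
      rw [ZMod.natCast_eq_zero_iff] at e2
      have := Nat.le_of_dvd (by norm_num) e2
      have h4 := hcon.1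
      interval_cases n <;> omega)
    rw [Subgroup.normalizer_eq_top] at h1
    have h2 : DihedralGroup.r 1 ∈ (par n hcon.2).ker := h1 ▸ Subgroup.mem_top _
    have h3 : Multiplicative.ofAdd (ZMod.castHom hcon.2 (ZMod 2) 1) = 1 := h2
    rw [map_one] at h3
    exact absurd h3 (by decide)
  · rintro (rfl | hodd) H hH
    · have : Fact (Nat.Prime 2) := ⟨Nat.prime_two⟩
      have hc : Nat.card (DihedralGroup 4) = 2 ^ 3 := by rw [DihedralGroup.nat_card]; norm_num
      obtain ⟨k, hk, e⟩ := (Nat.dvd_prime_pow Nat.prime_two).1 (hc ▸ H.card_subgroup_dvd_card)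
      have : H = ⊤ := by
        interval_cases k
        · exact absurd (by rw [Subgroup.card_eq_one.1 e]; infer_instance) hH
        · exact absurd (isCyclic_of_prime_card (e.trans (pow_one 2))).isMulCommutative hH
        · exact absurd (IsPGroup.isMulCommutative_of_card_eq_prime_sq e) hH
        · exact Subgroup.eq_top_of_card_eq H (e.trans hc.symm)
      subst this
      exact Subgroup.normalizer_eq_top _
    · obtain ⟨i, hi⟩ : ∃ i, DihedralGroup.sr i ∈ H := by
        by_contra hcon
        push Not at hcon
        refine hH ⟨⟨?_⟩⟩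
        rintro ⟨a | a, ha⟩ ⟨b | b, hb⟩
        · apply Subtype.ext
          simp [add_comm]
        · exact absurd hb (hcon b)
        · exact absurd ha (hcon a)
        · exact absurd ha (hcon a)
      have key : ∀ k, DihedralGroup.r k ∈ Subgroup.normalizer (H : Set (DihedralGroup n)) →
          DihedralGroup.r k ∈ H := by
        intro k hk
        have h1 := H.mul_mem ((Subgroup.mem_normalizer_iff.1 hk _).1 hi) hi
        obtain ⟨m, hm⟩ := hodd
        have h2 := H.pow_mem h1 (m + 1)
        simp only [DihedralGroup.inv_r, DihedralGroup.r_mul_sr, DihedralGroup.sr_mul_r,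
          DihedralGroup.sr_mul_sr, DihedralGroup.r_pow] at h2
        have h3 : ((2 * m + 1 : ℕ) : ZMod n) = 0 := by rw [← hm]; simp
        convert h2 using 2
        push_cast at h3 ⊢
        linear_combination -k * h3
      refine le_antisymm ?_ Subgroup.le_normalizer
      rintro (k | k) hk
      · exact key k hk
      · have := key _ (mul_mem hk (Subgroup.le_normalizer hi))
        simpa using H.mul_mem this hi

end Cfsg.Agent.S4074
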