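import Cfsg.Statements.S4075

set_option autoImplicit false
open Cfsg

namespace Cfsg.Agent.S4075

/-- Let G be a finite nilpotent group. Every non-abelian subgroup of G is self-normalizing if and only if G is abelian or G is a minimal non-abelian p-group for some prime p (non-abelian of prime-power order with every proper subgroup abelian). -/
theorem result {G : Type*} [Group G] [Finite G]
    [Group.IsNilpotent G] :
    (∀ H : Subgroup G, ¬ IsMulCommutative H → Subgroup.normalizer (H : Set G) = H) ↔
    (IsMulCommutative G ∨ (IsPrimePow (Nat.card G) ∧ ¬ IsMulCommutative G ∧ ∀ H : Subgroup G, H ≠ ⊤ → IsMulCommutative H)) := by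
  constructor
  · intro h
    by_cases hc : IsMulCommutative G
    · exact Or.inl hc
    right
    have hprop : ∀ H : Subgroup G, H ≠ ⊤ → IsMulCommutative H := by
      intro H hH
      by_contra hn
      have h1 := Group.normalizerCondition_of_isNilpotent (G := G) H (lt_top_iff_ne_top.mpr hH)
      rw [h H hn] at h1
      exact lt_irrefl _ h1
    refine ⟨?_, hc, hprop⟩
    by_contra hpp
    apply hc
    -- every Sylow subgroup is proper, hence abelian
    have hnt : Nontrivial G := by
      by_contra hnt
      rw [not_nontrivial_iff_subsingleton] at hnt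
      exact hc ⟨⟨fun a b => Subsingleton.elim _ _⟩⟩
    have hS : ∀ (p : ℕ) [Fact p.Prime] (P : Sylow p G), IsMulCommutative (P : Subgroup G) := by
      intro p hp P
      apply hprop
      intro htop
      apply hpp
      obtain ⟨n, hn⟩ := IsPGroup.iff_card.mp P.isPGroup'
      rw [htop, Subgroup.card_top] at hn
      refine (isPrimePow_nat_iff _).mpr ⟨p, n, hp.out, ?_, hn.symm⟩
      rcases Nat.eq_zero_or_pos n with rfl | h0
      · have := Finite.one_lt_card (α := G)
        simp at hn
        omega
      · exact h0
    have e := Sylow.directProductOfNormal (G := G) (fun P => inferInstance)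
    refine ⟨⟨fun a b => ?_⟩⟩
    obtain ⟨a, rfl⟩ := e.surjective a
    obtain ⟨b, rfl⟩ := e.surjective b
    rw [← map_mul, ← map_mul]
    congr 1
    funext p P
    have : Fact p.1.Prime := ⟨Nat.prime_of_mem_primeFactors p.2⟩
    exact (hS p P).is_comm.comm _ _
  · rintro (hc | ⟨-, -, h⟩) H hH
    · exact absurd ⟨⟨fun a b => Subtype.ext (hc.is_comm.comm _ _)⟩⟩ hH
    · by_cases ht : H = ⊤
      · subst ht
        exact le_antisymm le_top Subgroup.le_normalizer
      · exact absurd (h H ht) hH

end Cfsg.Agent.S4075
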