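import Cfsg.Statements.S4080
import Mathlib

set_option autoImplicit false
open Cfsg

namespace Cfsg.Agent.S4080

theorem binom4 {R : Type*} [Ring R] (M : R) (h : M ^ 4 = 0) (k : ℕ) :
    (1 + M) ^ k = 1 + k • M + k.choose 2 • M ^ 2 + k.choose 3 • M ^ 3 := by
  induction k with
  | zero => simp
  | succ k ih =>
    have h' : M ^ 3 * M = 0 := by rw [← pow_succ, h]
    rw [pow_succ, ih, Nat.choose_succ_succ' k 1, Nat.choose_succ_succ' k 2, Nat.choose_one_right]
    simp only [mul_add, add_mul, mul_one, one_mul, smul_mul_assoc, add_smul, one_smul, h',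
      smul_zero, ← pow_two, ← pow_succ]
    abel

theorem exists_mul_of_cast {p : ℕ} [hp : Fact p.Prime] (x : ZMod (p ^ 2))
    (h : ZMod.castHom (dvd_pow_self p two_ne_zero) (ZMod p) x = 0) : ∃ y : ZMod (p ^ 2), x = (p : ZMod (p ^ 2)) * y := by
  have : NeZero (p ^ 2) := ⟨pow_ne_zero _ hp.out.ne_zero⟩
  obtain ⟨n, rfl⟩ := ZMod.natCast_zmod_surjective x
  rw [map_natCast, ZMod.natCast_eq_zero_iff] at h
  obtain ⟨m, rfl⟩ := h
  exact ⟨m, by push_cast; rfl⟩

theorem exists_mul_of_mul {p : ℕ} [hp : Fact p.Prime] (x : ZMod (p ^ 2))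
    (h : (p : ZMod (p ^ 2)) * x = 0) : ∃ y : ZMod (p ^ 2), x = (p : ZMod (p ^ 2)) * y := by
  have : NeZero (p ^ 2) := ⟨pow_ne_zero _ hp.out.ne_zero⟩
  obtain ⟨n, rfl⟩ := ZMod.natCast_zmod_surjective x
  rw [← Nat.cast_mul, ZMod.natCast_eq_zero_iff, pow_two] at h
  obtain ⟨m, rfl⟩ := Nat.dvd_of_mul_dvd_mul_left hp.out.pos h
  exact ⟨m, by push_cast; rfl⟩

theorem key {p : ℕ} [hp : Fact p.Prime] (h3 : 3 < p) (M : Matrix (Fin 2) (Fin 2) (ZMod (p ^ 2)))
    (h : (1 + M) ^ p = 1) : p • M = 0 := by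
  let φ := ZMod.castHom (dvd_pow_self p two_ne_zero) (ZMod p)
  have h1 : (φ.mapMatrix M) ^ p = 0 := by
    have := congrArg φ.mapMatrix h
    rw [map_pow, map_add, map_one, add_pow_char_of_commute _ (Commute.one_left _), one_pow] at this
    simpa using this
  have h2 : φ M.trace = 0 := by
    have := (Matrix.isNilpotent_trace_of_isNilpotent ⟨p, h1⟩).eq_zero
    simpa [Matrix.trace] using this
  have h4 : φ M.det = 0 := by
    have := congrArg Matrix.det h1
    rw [Matrix.det_pow, Matrix.det_zero, pow_eq_zero_iff hp.out.ne_zero,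
      ← RingHom.map_det] at this
    exact this
  obtain ⟨τ, hτ⟩ := exists_mul_of_cast _ h2
  obtain ⟨δ, hδ⟩ := exists_mul_of_cast _ h4
  have hpp : (p : ZMod (p ^ 2)) * p = 0 := by rw [← pow_two, ← Nat.cast_pow, ZMod.natCast_self]
  have h5 : M ^ 2 = (p : ZMod (p ^ 2)) • (τ • M - δ • 1) := by
    rw [smul_sub, smul_smul, smul_smul, ← hτ, ← hδ]
    ext i j
    fin_cases i <;> fin_cases j <;>
      simp [pow_two, Matrix.mul_apply, Matrix.trace, Matrix.det_fin_two] <;> ring
  have h6 : (p : ZMod (p ^ 2)) • M ^ 2 = 0 := by rw [h5, smul_smul, hpp, zero_smul]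
  have h7 : M ^ 4 = 0 := by
    rw [show 4 = 2 + 2 from rfl, pow_add]
    nth_rewrite 1 [h5]
    rw [smul_mul_assoc, ← mul_smul_comm, h6, mul_zero]
  rw [Nat.cast_smul_eq_nsmul] at h6
  rw [binom4 M h7] at h
  obtain ⟨u, hu⟩ := hp.out.dvd_choose_self two_ne_zero (by omega : 2 < p)
  obtain ⟨v, hv⟩ := hp.out.dvd_choose_self three_ne_zero h3
  rw [hu, hv, mul_comm p u, mul_comm p v, mul_smul, mul_smul, h6, pow_succ M 2, ← smul_mul_assoc,
    h6] at h
  simpa using h

/-- Let p > 3 be a prime and L the direct product of two cyclic groups of order p². Every automorphism of L of order p fixes every element of order p of L. -/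
theorem result {p : ℕ} [Fact p.Prime] (hp : 3 < p)
    (a : MulAut (Multiplicative (ZMod (p ^ 2) × ZMod (p ^ 2)))) (ha : orderOf a = p)
    (x : Multiplicative (ZMod (p ^ 2) × ZMod (p ^ 2))) (hx : orderOf x = p) : a x = x := by
  let f : (ZMod (p ^ 2) × ZMod (p ^ 2)) →ₗ[ZMod (p ^ 2)] (ZMod (p ^ 2) × ZMod (p ^ 2)) :=
    (AddMonoidHom.mk' (fun y => (a (Multiplicative.ofAdd y)).toAdd)
      (fun y z => by rw [ofAdd_add, map_mul, toAdd_mul])).toZModLinearMap (p ^ 2)
  have hf : ∀ (k : ℕ) y, (f ^ k) y = ((a ^ k) (Multiplicative.ofAdd y)).toAdd := by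
    intro k
    induction k with
    | zero => intro y; rfl
    | succ k ih => intro y; rw [pow_succ f, pow_succ a, Module.End.mul_apply, ih]; rfl
  have h1 : f ^ p = 1 := by
    refine LinearMap.ext fun y => ?_
    rw [hf, orderOf_dvd_iff_pow_eq_one.1 ha.dvd]; rfl
  let e := LinearMap.toMatrixAlgEquiv (Module.Basis.finTwoProd (ZMod (p ^ 2)))
  have h2 := key hp (e (f - 1)) (by rw [map_sub, map_one, add_sub_cancel, ← map_pow, h1, map_one])
  rw [← map_nsmul, map_eq_zero_iff _ e.injective] at h2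
  have h3 : p • x.toAdd = 0 := by
    rw [← toAdd_pow, orderOf_dvd_iff_pow_eq_one.1 hx.dvd]; rfl
  obtain ⟨y1, h4⟩ := exists_mul_of_mul x.toAdd.1 (by simpa using congrArg Prod.fst h3)
  obtain ⟨y2, h5⟩ := exists_mul_of_mul x.toAdd.2 (by simpa using congrArg Prod.snd h3)
  have h6 : x.toAdd = p • (y1, y2) := Prod.ext (by simpa using h4) (by simpa using h5)
  have h7 := LinearMap.congr_fun h2 (y1, y2)
  rw [LinearMap.smul_apply, ← map_nsmul, ← h6, LinearMap.sub_apply, LinearMap.zero_apply,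
    sub_eq_zero] at h7
  exact h7

end Cfsg.Agent.S4080
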