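import Cfsg.Statements.S4082
import Cfsg.Agent.H73.PByCyc
import Cfsg.Agent.H43.Dih
import Cfsg.Agent.H3.Frobenius

set_option autoImplicit false
open Cfsg

namespace Cfsg.Agent.S4082


open Subgroup H73

variable {G : Type*} [Group G] [Finite G] {p : ℕ} [hp : Fact p.Prime]

theorem inverts (h : ∀ H : Subgroup G, PByCyc p H →
      IsCyclic H ∨ (∃ n : ℕ, Nonempty (H ≃* DihedralGroup (p ^ n)))) (hp2 : p ≠ 2)
    {T : Subgroup G} (hT : IsPGroup p T) {g : G} (hg : g ∈ normalizer (T : Set G))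
    (hc : g ∉ centralizer (T : Set G)) : g * g = 1 ∧ ∀ t ∈ T, g * t * g⁻¹ = t⁻¹ := by
  rcases h _ (pByCyc_sup hT hg) with h1 | ⟨n, ⟨e⟩⟩
  · exact absurd (fun t ht => congrArg Subtype.val (mul_comm' (⟨t, mem_sup_left ht⟩ : ↥(T ⊔ zpowers g))
      ⟨g, mem_sup_right (mem_zpowers g)⟩)) hc
  obtain ⟨x, y, hD, -⟩ := H43.Dih.of_equiv e
  have hTx : T ≤ zpowers x := by
    intro t ht
    by_contra h2
    have h3 := hD.out_sq (mem_sup_left ht) h2
    have h4 : orderOf t ∣ 2 := orderOf_dvd_of_pow_eq_one (by rw [_root_.sq, h3])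
    obtain ⟨k, hk⟩ := hT.exists_card_eq
    have h5 : orderOf t ∣ p ^ k := hk ▸ T.orderOf_dvd_natCard ht
    have h6 := Nat.eq_one_of_dvd_coprimes
      (Nat.Coprime.pow_right k ((Nat.coprime_primes Nat.prime_two hp.out).2 hp2.symm)) h4 h5
    exact h2 (by rw [orderOf_eq_one_iff.1 h6]; exact one_mem _)
  have hgx : g ∉ zpowers x := fun h2 => hc fun t ht => H42.comm_of_mem_zpowers (hTx ht) h2
  have hgH : g ∈ T ⊔ zpowers g := mem_sup_right (mem_zpowers g)
  exact ⟨hD.out_sq hgH hgx, fun t ht => hD.inverts hgH hgx (hTx ht)⟩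

omit [Finite G] in
theorem eq_one_of_inv (hp2 : p ≠ 2) {T : Subgroup G} [Finite T] (hT : IsPGroup p T) {t : G}
    (ht : t ∈ T) (h : t = t⁻¹) : t = 1 := by
  have h4 : orderOf t ∣ 2 := orderOf_dvd_of_pow_eq_one (by
    rw [_root_.sq]; nth_rewrite 1 [h]; simp)
  obtain ⟨k, hk⟩ := hT.exists_card_eq
  have h5 : orderOf t ∣ p ^ k := hk ▸ T.orderOf_dvd_natCard ht
  exact orderOf_eq_one_iff.1 (Nat.eq_one_of_dvd_coprimes
    (Nat.Coprime.pow_right k ((Nat.coprime_primes Nat.prime_two hp.out).2 hp2.symm)) h4 h5)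


/-- Let p be an odd prime and G a finite group with Sylow p-subgroup P. Say that G has restricted p-by-cyclic subgroups when every subgroup H of G whose Sylow p-subgroup is normal in H with cyclic quotient is itself cyclic or dihedral of order 2pⁿ for some n. Then G has restricted p-by-cyclic subgroups if and only if P is cyclic and one of the following holds: (1) N_G(P) = C_G(P); or (2) N_G(P)/C_G(P) has order 2 and, for the subgroup Q of order p of P, the centralizer C_G(Q) is abelian and every element of N_G(Q) outside C_G(Q) is an involution inverting every element of C_G(Q). -/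
theorem result {G : Type*} [Group G] [Finite G] {p : ℕ}
    [Fact p.Prime] (hp : p ≠ 2) (P : Sylow p G) :
    (∀ H : Subgroup G, (∀ S : Sylow p ↥H, (S : Subgroup ↥H).Normal) →
        (∀ (S : Sylow p ↥H) [(S : Subgroup ↥H).Normal], IsCyclic (↥H ⧸ (S : Subgroup ↥H))) →
        IsCyclic H ∨ (∃ n : ℕ, Nonempty (H ≃* DihedralGroup (p ^ n)))) ↔
    (IsCyclic P ∧
      (Subgroup.normalizer ((P : Subgroup G) : Set G) = Subgroup.centralizer ((P : Subgroup G) : Set G) ∨
       ((Subgroup.centralizer ((P : Subgroup G) : Set G)).relIndex (Subgroup.normalizer ((P : Subgroup G) : Set G)) = 2 ∧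
        ∀ Q : Subgroup G, Q ≤ P → Nat.card Q = p →
          IsMulCommutative ↥(Subgroup.centralizer (Q : Set G)) ∧
          ∀ x : G, x ∈ Subgroup.normalizer (Q : Set G) → x ∉ Subgroup.centralizer (Q : Set G) →
            orderOf x = 2 ∧ ∀ c : G, c ∈ Subgroup.centralizer (Q : Set G) → x * c * x⁻¹ = c⁻¹))) := by
  rename_i hpp
  constructor
  · intro h0
    have h : ∀ H : Subgroup G, PByCyc p H →
        IsCyclic H ∨ (∃ n : ℕ, Nonempty (H ≃* DihedralGroup (p ^ n))) :=
      fun H hH => h0 H hH.1 hH.2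
    have hP := P.isPGroup'
    constructor
    · have h1 := h _ (pByCyc_sup hP (one_mem _))
      rw [zpowers_one_eq_bot, sup_bot_eq] at h1
      rcases h1 with h1 | ⟨n, ⟨e⟩⟩
      · exact h1
      exfalso
      obtain ⟨k, hk⟩ := hP.exists_card_eq
      have h2 := Nat.card_congr e.toEquiv
      rw [hk, DihedralGroup.nat_card] at h2
      exact hp ((Nat.prime_dvd_prime_iff_eq Nat.prime_two hpp.out).1
        (Nat.prime_two.dvd_of_dvd_pow (Dvd.intro _ h2.symm))).symm
    by_cases hN : normalizer ((P : Subgroup G) : Set G) ≤ centralizer ((P : Subgroup G) : Set G)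
    · exact Or.inl (le_antisymm hN (centralizer_le_normalizer _))
    right
    obtain ⟨a, ha, haC⟩ := SetLike.not_le_iff_exists.1 hN
    obtain ⟨-, ha2⟩ := inverts h hp hP ha haC
    constructor
    · rw [relIndex, index_eq_two_iff]
      refine ⟨⟨a, ha⟩, fun b => ?_⟩
      simp only [mem_subgroupOf, coe_mul]
      by_cases hb : (b : G) ∈ centralizer ((P : Subgroup G) : Set G)
      · exact Or.inr ⟨hb, fun h1 => haC ((mul_mem_cancel_left hb).1 h1)⟩
      · refine Or.inl ⟨fun t ht => ?_, hb⟩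
        have h1 := (inverts h hp hP b.2 hb).2 t ht
        calc t * (b * a) = (b * t * (b : G)⁻¹)⁻¹⁻¹⁻¹ * (b * a) := by rw [h1]; simp
          _ = b * (a * t * a⁻¹) * a := by rw [ha2 t ht]; group
          _ = b * a * t := by group
    intro Q hQP hQ
    have hQp : IsPGroup p Q := hP.to_le hQP
    have key : ∀ x ∈ normalizer (Q : Set G), x ∉ centralizer (Q : Set G) →
        orderOf x = 2 ∧ ∀ c ∈ centralizer (Q : Set G), x * c * x⁻¹ = c⁻¹ := by
      intro x hx hxC
      have h1 := (inverts h hp hQp hx hxC).1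
      refine ⟨orderOf_eq_prime (by rw [_root_.sq, h1]) (by rintro rfl; exact hxC (one_mem _)),
        fun c hc => ?_⟩
      have h2 := (inverts h hp hQp (mul_mem hx (centralizer_le_normalizer _ hc))
        (fun h3 => hxC ((mul_mem_cancel_right hc).1 h3))).1
      calc x * c * x⁻¹ = x * c * (x * c) * c⁻¹ * (x * x)⁻¹ := by group
        _ = c⁻¹ := by rw [h1, h2]; group
    refine ⟨?_, key⟩
    have haQ : a ∈ normalizer (Q : Set G) := H70.mem_normalizer_of_cj_le (H70.cj_le_iff.2
      fun t ht => by rw [ha2 t (hQP ht)]; exact Q.inv_mem ht)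
    have haQC : a ∉ centralizer (Q : Set G) := fun h1 => by
      have : Q = ⊥ := by
        rw [eq_bot_iff]
        intro t ht
        refine mem_bot.2 (eq_one_of_inv hp hQp ht ?_)
        rw [← ha2 t (hQP ht), ← h1 t ht, mul_inv_cancel_right]
      rw [this, card_bot] at hQ
      exact hpp.out.one_lt.ne hQ
    have h3 := (key a haQ haQC).2
    refine ⟨⟨fun c d => Subtype.ext ?_⟩⟩
    have h4 := h3 _ (mul_mem c.2 d.2)
    rw [← conj_mul, h3 c c.2, h3 d d.2, ← mul_inv_rev, inv_inj] at h4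
    exact h4.symm
  · rintro ⟨hc, h⟩ H h1 h2
    obtain ⟨T, g, hT, hg, ho, rfl⟩ := PByCyc.exists_gen (H := H) ⟨h1, h2⟩
    have hTc := isCyclic_of_pgroup P hc hT
    by_cases hgC : g ∈ centralizer (T : Set G)
    · exact Or.inl (isCyclic_sup_of_cent hT hTc hgC ho)
    right
    rcases h with h | ⟨-, h⟩
    · exact absurd (H3.mem_centralizer_of_hasNormalPComplement
        (H3.hasNormalPComplement_of_normalizer_le_centralizer P h.le) hT hg ho) hgC
    obtain ⟨z, hz, hzp, hzg⟩ : ∃ z ∈ T, z ^ p = 1 ∧ g * z ≠ z * g := by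
      by_contra h3
      push Not at h3
      exact hgC (H4.mem_centralizer_of_omega_fixed hp hT ho hg h3)
    have hz1 : z ≠ 1 := by rintro rfl; simp at hzg
    have hzo : orderOf z = p := orderOf_eq_prime hzp hz1
    obtain ⟨t, rfl⟩ := T.isCyclic_iff_exists_zpowers_eq_top.1 hTc
    have hgz : g ∈ normalizer ((zpowers z : Subgroup G) : Set G) := by
      apply H70.mem_normalizer_of_cj_le
      exact (H42.eq_of_le_zpowers_of_card (x := t)
        (H70.cj_le_of_mem_norm hg (zpowers_le.2 hz)) (zpowers_le.2 hz) (H70.card_cj _ _)).le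
    obtain ⟨u, hu⟩ := exists_cj_le_sylow P (hT.to_le (zpowers_le.2 hz))
    obtain ⟨h3, h4⟩ := (h _ hu (by rw [H70.card_cj, Nat.card_zpowers, hzo])).2 (u * g * u⁻¹)
      (by rw [← H70.cj_normalizer]; exact H70.conj_mem_cj u hgz) (by
        rw [← H70.cj_centralizer, H70.mem_cj]
        intro h5
        exact hzg (by simpa [mul_assoc] using (h5 z (mem_zpowers z)).symm))
    have h5 := h4 (u * t * u⁻¹) (by
      rw [← H70.cj_centralizer]
      exact H70.conj_mem_cj u fun w hw =>
        H42.comm_of_mem_zpowers ((zpowers_le.2 hz) hw) (mem_zpowers t))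
    have h6 : g * t * g⁻¹ = t⁻¹ := by
      calc g * t * g⁻¹ = u⁻¹ * (u * g * u⁻¹ * (u * t * u⁻¹) * (u * g * u⁻¹)⁻¹) * u := by group
        _ = t⁻¹ := by rw [h5]; group
    have h7 : g * g = 1 := by
      have := pow_orderOf_eq_one (u * g * u⁻¹)
      rw [h3, conj_pow, conj_eq_one_iff, _root_.sq] at this
      exact this
    have h8 : g ∉ zpowers t := fun h9 => hgC fun w hw => H42.comm_of_mem_zpowers hw h9
    obtain ⟨k, hk⟩ := hT.exists_card_eq
    rw [Nat.card_zpowers] at hk
    have h9 : zpowers g = zpowers g := rfl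
    exact ⟨k, H42.dihedral_recog (pow_ne_zero _ hpp.out.ne_zero) hk h7 h6 h8⟩

end Cfsg.Agent.S4082
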