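import Cfsg.Statements.S4083
import Cfsg.Agent.H73.PByCyc
import Cfsg.Agent.H43.Dih
import Cfsg.Agent.S0228
import Cfsg.Agent.S0992
import Cfsg.Agent.H35.Simple
import Cfsg.Agent.H49.Prod
import Cfsg.Agent.H22.Core

set_option autoImplicit false
open Cfsg

namespace Cfsg.Agent.S4083


open Subgroup H73


/-- Let G be a finite group with Sylow 2-subgroup P. Every subgroup H of G whose Sylow 2-subgroup is normal in H with cyclic quotient is cyclic, dihedral of 2-power order, or isomorphic to the alternating group of degree 4, if and only if either P is cyclic, or P is dihedral (of order at least 4) and every elementary abelian subgroup K of order 4 of P satisfies C_G(K) = K. -/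
theorem result {G : Type*} [Group G] [Finite G] (P : Sylow 2 G) :
    (∀ H : Subgroup G, (∀ S : Sylow 2 ↥H, (S : Subgroup ↥H).Normal) →
        (∀ (S : Sylow 2 ↥H) [(S : Subgroup ↥H).Normal], IsCyclic (↥H ⧸ (S : Subgroup ↥H))) →
        IsCyclic H ∨ (∃ n : ℕ, Nonempty (H ≃* DihedralGroup (2 ^ n))) ∨ Nonempty (H ≃* alternatingGroup (Fin 4))) ↔
    (IsCyclic P ∨
      ((∃ n : ℕ, 1 ≤ n ∧ Nonempty ((P : Subgroup G) ≃* DihedralGroup (2 ^ n))) ∧
        ∀ K : Subgroup G, K ≤ P → Nat.card K = 4 → (∀ k ∈ K, k ^ 2 = 1) → Subgroup.centralizer (K : Set G) = K)) := by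
  have hP := P.isPGroup'
  constructor
  · intro h0
    have h : ∀ H : Subgroup G, PByCyc 2 H → IsCyclic H ∨
        (∃ n : ℕ, Nonempty (H ≃* DihedralGroup (2 ^ n))) ∨ Nonempty (H ≃* alternatingGroup (Fin 4)) :=
      fun H hH => h0 H hH.1 hH.2
    have h1 := h _ (pByCyc_sup hP (one_mem _))
    rw [zpowers_one_eq_bot, sup_bot_eq] at h1
    rcases h1 with h1 | ⟨n, ⟨e⟩⟩ | ⟨⟨e⟩⟩
    · exact Or.inl h1
    · rcases Nat.eq_zero_or_pos n with rfl | hn
      · refine Or.inl (isCyclic_of_prime_card (p := 2) ?_)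
        rw [Nat.card_congr e.toEquiv, DihedralGroup.nat_card]; rfl
      refine Or.inr ⟨⟨n, hn, ⟨e⟩⟩, fun K hKP hK hk => ?_⟩
      have hK4 : IsKleinFour K := H42.isKleinFour_of_card hK fun g hg => by
        rw [← _root_.sq]; exact hk g hg
      have hKC : K ≤ centralizer (K : Set G) := fun a ha b hb => H42.klein_comm hK4 hb ha
      refine le_antisymm (fun g hg => ?_) hKC
      have hgH : g ∈ K ⊔ zpowers g := mem_sup_right (mem_zpowers g)
      rcases h _ (pByCyc_sup (hP.to_le hKP) (centralizer_le_normalizer _ hg)) with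
        h2 | ⟨m, ⟨e⟩⟩ | ⟨⟨e⟩⟩
      · obtain ⟨x, hx⟩ := (K ⊔ zpowers g).isCyclic_iff_exists_zpowers_eq_top.1 h2
        exact absurd (le_sup_left.trans hx.ge) (H42.klein_not_le_zpowers hK4 x)
      · obtain ⟨x, y, hD, -⟩ := H43.Dih.of_equiv e
        exact (hD.klein_centralizer hK4 le_sup_left).le ⟨hgH, hg⟩
      · exfalso
        have h3 : K ⊔ zpowers g ≤ centralizer ((K ⊔ zpowers g : Subgroup G) : Set G) := by
          rw [H70.cent_sup]
          exact sup_le (le_inf hKC (H70.cent_comm.1 (zpowers_le.2 hg)))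
            (le_inf (zpowers_le.2 hg) (le_centralizer _))
        have h4 : ∀ a b : alternatingGroup (Fin 4), a * b = b * a := fun a b => by
          obtain ⟨a, rfl⟩ := e.surjective a
          obtain ⟨b, rfl⟩ := e.surjective b
          rw [← map_mul, ← map_mul]
          exact congrArg e (Subtype.ext (h3 b.2 a a.2))
        revert h4
        decide
    · exfalso
      obtain ⟨k, hk⟩ := hP.exists_card_eq
      have h2 := Nat.card_congr e.toEquiv
      rw [hk, Nat.card_eq_fintype_card (α := alternatingGroup (Fin 4))] at h2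
      have h3 : (3 : ℕ) ∣ 2 ^ k := by rw [h2]; decide
      exact absurd (Nat.prime_three.dvd_of_dvd_pow h3) (by decide)
  · intro h H h1 h2
    obtain ⟨T, g, hT, hg, ho, rfl⟩ := PByCyc.exists_gen (H := H) ⟨h1, h2⟩
    by_cases hTc : IsCyclic T
    · exact Or.inl (isCyclic_sup_of_cent hT hTc (cent_of_cyclic_two hT hTc hg ho) ho)
    right
    rcases h with h | ⟨⟨n, -, ⟨e⟩⟩, h⟩
    · exact absurd (isCyclic_of_pgroup P h hT) hTc
    have hodd : Odd (orderOf g) := Nat.coprime_two_right.1 ho
    have hall : ∀ K : Subgroup G, IsKleinFour K → centralizer (K : Set G) = K := by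
      intro K hK
      obtain ⟨u, hu⟩ := exists_cj_le_sylow P (T := K)
        (IsPGroup.of_card (n := 2) (by rw [hK.card_four]; rfl))
      have hK' := H42.isKleinFour_cj hK u
      have := h _ hu hK'.card_four fun k hk => by rw [_root_.sq]; exact H42.klein_mul_self hK' hk
      rwa [← H70.cj_centralizer, H70.cj_inj] at this
    have hone : ∀ K : Subgroup G, IsKleinFour K → g ∈ centralizer (K : Set G) → g = 1 := by
      intro K hK hgK
      rw [hall K hK] at hgK
      have h3 : orderOf g ∣ 2 := orderOf_dvd_of_pow_eq_one (by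
        rw [_root_.sq]; exact H42.klein_mul_self hK hgK)
      exact orderOf_eq_one_iff.1 (Nat.eq_one_of_dvd_coprimes ho dvd_rfl h3)
    by_cases hK : IsKleinFour T
    · by_cases hg1 : g = 1
      · rw [hg1, zpowers_one_eq_bot, sup_bot_eq]
        exact Or.inl ⟨1, IsKleinFour.nonempty_mulEquiv (G₂ := DihedralGroup 2)⟩
      right
      have hp := H49.isProd_sup_of_norm_left (H := T) (K := zpowers g) (zpowers_le.2 hg)
      have hb : T ⊓ zpowers g = ⊥ :=
        H22.inf_eq_bot_of_pgroup_coprime hT (by rwa [Nat.card_zpowers])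
      have hc := hp.card_mul
      rw [hb, card_bot, mul_one, hK.card_four, Nat.card_zpowers] at hc
      have h3 : T.relIndex (T ⊔ zpowers g) = orderOf g := by
        have := H49.card_mul_relIndex (le_sup_left : T ≤ T ⊔ zpowers g)
        rw [hK.card_four] at this
        omega
      have h4 : orderOf g ∣ 6 := by
        have h5 := (H35.relIndex_dvd_card_mulAut T).trans S0992.card_mulAut_dvd
        rw [hall T hK] at h5
        rw [← h3]
        refine dvd_trans ?_ h5
        exact Dvd.intro _ (relIndex_mul_relIndex _ _ _ le_sup_left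
          (sup_le le_normalizer (zpowers_le.2 hg)))
      have h6 : orderOf g = 3 := by
        have h7 : orderOf g ≠ 1 := fun h => hg1 (orderOf_eq_one_iff.1 h)
        have := Nat.le_of_dvd (by norm_num) h4
        obtain ⟨c, hc⟩ := hodd
        interval_cases orderOf g <;> omega
      refine S0228.result (by rw [hc, h6]) fun z hz hzc => hg1 (hone T hK fun w hw => ?_)
      have hzT : (z : G) ∈ T := (hall T hK).le
        fun w hw => congrArg Subtype.val (mem_center_iff.1 hzc ⟨w, mem_sup_left hw⟩)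
      exact (H43.klein_comm_of_odd hK hg hodd hzT
        (fun h => by rw [show z = 1 from Subtype.ext h, orderOf_one] at hz; omega)
        (congrArg Subtype.val (mem_center_iff.1 hzc ⟨g, mem_sup_right (mem_zpowers g)⟩)) hw).symm
    obtain ⟨Q, hQ⟩ := hT.exists_le_sylow
    obtain ⟨x, y, hD, -⟩ := H43.Dih.of_equiv ((Q.equiv P).trans e)
    have hgC : g ∈ centralizer (T : Set G) := fun w hw =>
      (hD.comm_of_odd Q.isPGroup' hQ hK hg hodd hw).symm
    have hTx : ¬ T ≤ zpowers x := fun h => hTc (isCyclic_of_le h)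
    obtain ⟨t, ht, htx⟩ := SetLike.not_le_iff_exists.1 hTx
    have hT2 := H42.eq_inf_sup_zpowers hD.relIndex hQ ht htx
    obtain ⟨a, ha⟩ := (T ⊓ zpowers x).isCyclic_iff_exists_zpowers_eq_top.1
      (isCyclic_of_le inf_le_right)
    have hax : a ∈ T ⊓ zpowers x := ha.le (mem_zpowers a)
    rw [← ha] at hT2
    have hDa : H43.Dih T a t := ⟨hax.1, ht, hD.out_sq (hQ ht) htx, hD.inverts (hQ ht) htx hax.2,
      fun h => htx (ha.le h).2, hT2⟩
    have ha1 : a ≠ 1 := by
      rintro rfl
      rw [zpowers_one_eq_bot, bot_sup_eq] at hT2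
      exact hTc (hT2 ▸ inferInstance)
    obtain ⟨z, hz, hz2, hz1⟩ := hDa.exists_inv hT ha1
    have hg1 := hone _ (hDa.isKleinFour_sup_out hz hz2 hz1 ht hDa.y_notMem)
      (H70.cent_anti (sup_le (zpowers_le.2 (hDa.A_le hz)) (zpowers_le.2 ht)) hgC)
    obtain ⟨k, hk⟩ := (hT.to_le hDa.A_le).exists_card_eq
    rw [Nat.card_zpowers] at hk
    rw [hg1, zpowers_one_eq_bot, sup_bot_eq, hT2]
    exact Or.inl ⟨k, H42.dihedral_recog (pow_ne_zero _ two_ne_zero) hk hDa.yy hDa.rel hDa.y_notMem⟩

end Cfsg.Agent.S4083
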