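import Mathlib
import Cfsg.Statements.S4084

set_option autoImplicit false
open Cfsg

namespace Cfsg.Agent.S4084

theorem aux {G H : Type*} [Group G] [Finite G] [Group H] [Finite H] (e : G ≃ H)
    (he : ∀ x y : G, Commute x y ↔ Commute (e x) (e y))
    {p q : ℕ} (hp : p.Prime) (hq : q.Prime) (hpq : p ≠ q) :
    (∃ g : G, orderOf g = p * q) → (∃ h : H, orderOf h = p * q) := by
  rintro ⟨g, hg⟩
  let A : Subgroup G := Subgroup.centralizer (Subgroup.centralizer ({g} : Set G) : Set G)
  let B : Subgroup H := Subgroup.centralizer (Subgroup.centralizer ({e g} : Set H) : Set H)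
  have hA : ∀ x, x ∈ A ↔ ∀ y, Commute y g → Commute y x := by
    intro x
    simp only [A, Subgroup.mem_centralizer_iff, SetLike.mem_coe, Set.mem_singleton_iff,
      forall_eq]
    exact forall_congr' fun y => imp_congr ⟨fun h => h.symm, fun h => h.symm⟩ Iff.rfl
  have hB : ∀ x, x ∈ B ↔ ∀ y, Commute y (e g) → Commute y x := by
    intro x
    simp only [B, Subgroup.mem_centralizer_iff, SetLike.mem_coe, Set.mem_singleton_iff,
      forall_eq]
    exact forall_congr' fun y => imp_congr ⟨fun h => h.symm, fun h => h.symm⟩ Iff.rfl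
  have hAB : ∀ x, x ∈ A ↔ e x ∈ B := by
    intro x
    rw [hA, hB]
    constructor
    · intro h y hy
      obtain ⟨y, rfl⟩ := e.surjective y
      exact (he _ _).mp (h y ((he _ _).mpr hy))
    · intro h y hy
      exact (he _ _).mpr (h _ ((he _ _).mp hy))
  have hcard : Nat.card A = Nat.card B := Nat.card_congr (e.subtypeEquiv hAB)
  have hgA : g ∈ A := (hA g).mpr fun y hy => hy
  have hdvd : p * q ∣ Nat.card B := by
    rw [← hcard, ← hg]; exact Subgroup.orderOf_dvd_natCard A hgA
  have := Fact.mk hp
  have := Fact.mk hq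
  obtain ⟨a, ha⟩ := exists_prime_orderOf_dvd_card' (G := B) p ((dvd_mul_right p q).trans hdvd)
  obtain ⟨b, hb⟩ := exists_prime_orderOf_dvd_card' (G := B) q ((dvd_mul_left q p).trans hdvd)
  have h1 : Commute (a : H) (e g) := ((hB a).mp a.2 (e g) (Commute.refl _)).symm
  have h2 : Commute (a : H) (b : H) := (hB b).mp b.2 a h1
  refine ⟨a * b, ?_⟩
  rw [h2.orderOf_mul_eq_mul_orderOf_of_coprime, Subgroup.orderOf_coe, Subgroup.orderOf_coe, ha, hb]
  rw [Subgroup.orderOf_coe, Subgroup.orderOf_coe, ha, hb]
  exact (Nat.coprime_primes hp hq).mpr hpq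


/-- Let G and H be finite groups whose commuting graphs are isomorphic: there is a bijection e : G → H with x, y commuting exactly when e(x), e(y) commute. Then G and H have the same prime graph: for distinct primes p, q, G has an element of order pq if and only if H does (and #G = #H, so the prime divisors agree). -/
theorem result {G H : Type*} [Group G] [Finite G] [Group H] [Finite H] (e : G ≃ H)
    (he : ∀ x y : G, Commute x y ↔ Commute (e x) (e y))
    {p q : ℕ} (hp : p.Prime) (hq : q.Prime) (hpq : p ≠ q) :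
    (∃ g : G, orderOf g = p * q) ↔ (∃ h : H, orderOf h = p * q) := by
  refine ⟨aux e he hp hq hpq, aux e.symm (fun x y => ?_) hp hq hpq⟩
  rw [he]; simp

end Cfsg.Agent.S4084
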