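import Cfsg.Statements.S4085
import Cfsg.Agent.H81.Miller
import Cfsg.Agent.H82.Basic

set_option autoImplicit false
open Cfsg

namespace Cfsg.Agent.S4085

open Subgroup

/-- adjacency in the power graph -/
def Adj {G : Type*} [Group G] (x y : G) : Prop := x ∈ zpowers y ∨ y ∈ zpowers x

theorem twin {K : Type*} [Group K] {x y : K} (h : zpowers x = zpowers y) (z : K) :
    Adj x z ↔ Adj y z := by rw [Adj, Adj, ← zpowers_le (g := x), ← zpowers_le (g := y), h]

theorem ncard_gens {G : Type*} [Group G] [Finite G] (x : G) :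
    {y | zpowers y = zpowers x}.ncard = (orderOf x).totient := by
  rw [← Nat.card_zpowers, ← H81.card_generators inferInstance]; rfl

theorem exists_max {G : Type*} [Group G] [Finite G] {B : Set G} (h : B.Nonempty) :
    ∃ a ∈ B, ∀ y ∈ B, Adj a y → y ∈ zpowers a := by
  obtain ⟨a, ha, hm⟩ := B.exists_max_image orderOf (Set.toFinite _) h
  refine ⟨a, ha, fun y hy h => h.elim (fun h => ?_) id⟩
  exact (eq_of_le_of_card_ge (zpowers_le.2 h)
    (by rw [Nat.card_zpowers, Nat.card_zpowers]; exact hm y hy)).ge (mem_zpowers y)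

theorem exists_top {G : Type*} [Group G] [Finite G] (g : G) :
    ∃ a, g ∈ zpowers a ∧ ∀ y, Adj a y ↔ y ∈ zpowers a := by
  obtain ⟨a, ha, hm⟩ := exists_max (B := {a | g ∈ zpowers a}) ⟨g, mem_zpowers g⟩
  exact ⟨a, ha, fun y => ⟨fun h => h.elim (fun h' => hm y (zpowers_le.2 h' ha) h) id, .inr⟩⟩

theorem tot {d m : ℕ} (h : d ∣ m) (hne : d ≠ m) (hm : 0 < m) :
    2 * d.totient ≤ m.totient ∨ (Odd d ∧ ¬ Odd m ∧ d.totient ≤ m.totient) := by
  have hp := Nat.totient_pos.2 hm
  obtain ⟨t, rfl⟩ := h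
  obtain ⟨r, hr, s, rfl⟩ := Nat.exists_prime_and_dvd (n := t) (by rintro rfl; simp at hne)
  have h1 := Nat.le_of_dvd hp (Nat.totient_dvd_of_dvd (a := r * d) ⟨s, by ring⟩)
  have h2 := hr.two_le
  by_cases h3 : r ∣ d
  · rw [Nat.totient_mul_of_prime_of_dvd hr h3] at h1
    exact .inl ((Nat.mul_le_mul_right _ h2).trans h1)
  rw [Nat.totient_mul_of_prime_of_not_dvd hr h3] at h1
  rcases h2.eq_or_lt with rfl | h4
  · exact .inr ⟨Nat.odd_iff.2 (by omega), by simp [Nat.odd_mul], by simpa using h1⟩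
  · exact .inl ((Nat.mul_le_mul_right _ (by omega)).trans h1)

theorem chain {G : Type*} [Group G] [Finite G] (y : G) (B : Set G)
    (h1 : ∀ b ∈ B, b ∈ zpowers y ∧ zpowers b ≠ zpowers y) (h2 : ∀ b ∈ B, ∀ c ∈ B, Adj b c) :
    B.ncard < 2 * (orderOf y).totient ∧ (Odd (orderOf y) → B.ncard < (orderOf y).totient) := by
  induction hn : orderOf y using Nat.strong_induction_on generalizing y B with
  | _ n ih =>
  subst hn
  have hp := Nat.totient_pos.2 (orderOf_pos y)
  rcases B.eq_empty_or_nonempty with rfl | h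
  · simp [hp]
  obtain ⟨a, ha, hm⟩ := exists_max h
  have hd := orderOf_dvd_of_mem_zpowers (h1 a ha).1
  have hne : orderOf a ≠ orderOf y := fun e => (h1 a ha).2 (eq_of_le_of_card_ge
    (zpowers_le.2 (h1 a ha).1) (by rw [Nat.card_zpowers, Nat.card_zpowers, e]))
  obtain ⟨h3, h4⟩ := ih _ ((Nat.le_of_dvd (orderOf_pos y) hd).lt_of_ne hne) a
    (B \ {y | zpowers y = zpowers a}) (fun b hb => ⟨hm b hb.1 (h2 a ha b hb.1), hb.2⟩)
    (fun b hb c hc => h2 b hb.1 c hc.1) rfl
  have h5 := Set.ncard_le_ncard_sdiff_add_ncard B (t := {y | zpowers y = zpowers a})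
  rw [ncard_gens] at h5
  rcases tot hd hne (orderOf_pos y) with h6 | ⟨h6, h7, h8⟩
  · exact ⟨by omega, fun h => by have := h4 (h.of_dvd_nat hd); omega⟩
  · exact ⟨by have := h4 h6; omega, fun h => absurd h h7⟩

theorem aux {G H : Type*} [Group G] [Finite G] [Group H] [Finite H] (e : G ≃ H)
    (he : ∀ x y : G, Adj x y ↔ Adj (e x) (e y)) {p q : ℕ} (hp : p.Prime) (hq : q.Prime)
    (hpq : p ≠ q) (hq2 : q ≠ 2) {g : G} (hg : orderOf g = p * q) :
    ∃ h : H, orderOf h = p * q := by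
  obtain ⟨a, hga, ha⟩ := exists_top g
  have adj : ∀ x ∈ zpowers a, ∀ y ∈ zpowers a, Adj x y ↔
      orderOf x ∣ orderOf y ∨ orderOf y ∣ orderOf x := fun x hx y hy =>
    or_congr ⟨orderOf_dvd_of_mem_zpowers, H82.mem_zpowers_of_orderOf_dvd hx hy⟩
      ⟨orderOf_dvd_of_mem_zpowers, H82.mem_zpowers_of_orderOf_dvd hy hx⟩
  have hx : orderOf (g ^ q) = p := by
    rw [orderOf_pow_of_dvd hq.ne_zero (hg ▸ dvd_mul_left q p), hg, Nat.mul_div_cancel _ hq.pos]
  have hy : orderOf (g ^ p) = q := by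
    rw [orderOf_pow_of_dvd hp.ne_zero (hg ▸ dvd_mul_right p q), hg,
      Nat.mul_div_cancel_left _ hp.pos]
  have hxa := pow_mem hga q
  have hya := pow_mem hga p
  generalize g ^ q = x at hx hxa
  generalize g ^ p = y at hy hya
  have hn : p * q ∣ orderOf a := hg ▸ orderOf_dvd_of_mem_zpowers hga
  have hco := (Nat.coprime_primes hp hq).2 hpq
  have hxy : ¬ Adj x y := by
    rw [adj x hxa y hya, hx, hy, Nat.prime_dvd_prime_iff_eq hp hq, Nat.prime_dvd_prime_iff_eq hq hp]
    omega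
  have both : ∀ c ∈ zpowers a, c ≠ 1 → Adj c x → Adj c y → p ∣ orderOf c ∧ q ∣ orderOf c :=
    fun c hc c1 h1 h2 => by
      rw [adj c hc x hxa, hx] at h1
      rw [adj c hc y hya, hy] at h2
      have := mt orderOf_eq_one_iff.1 c1
      exact ⟨h1.elim (fun h => ((Nat.dvd_prime hp).1 h).resolve_left this ▸ dvd_rfl) id,
        h2.elim (fun h => ((Nat.dvd_prime hq).1 h).resolve_left this ▸ dvd_rfl) id⟩
  have hB : ∀ b, zpowers b = zpowers a → ∀ z, Adj (e b) (e z) ↔ z ∈ zpowers a := fun b hb z =>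
    (he b z).symm.trans ((twin hb z).trans (ha z))
  by_cases h : ∀ b, zpowers b = zpowers a → e x ∉ zpowers (e b)
  · have h1 := (chain (e x) (e '' {b | zpowers b = zpowers a}) (by
        rintro _ ⟨b, hb, rfl⟩
        exact ⟨((hB b hb x).2 hxa).resolve_right (h b hb),
          fun e' => h b hb (e' ▸ mem_zpowers _)⟩) (by
        rintro _ ⟨b, hb, rfl⟩ _ ⟨c, hc, rfl⟩
        exact (hB b hb c).2 (hc ▸ mem_zpowers c))).1
    have h2 : {u | zpowers u = zpowers (e x)} ⊆ e '' {u | zpowers u = zpowers x} := fun u hu => by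
      obtain ⟨u, rfl⟩ := e.surjective u
      have h3 : ∀ z, Adj u z ↔ Adj x z := fun z => by rw [he, he, twin hu]
      have h4 : u ∈ zpowers a := (ha u).1 (Or.symm ((h3 a).2 (.inl hxa)))
      have h5 := (h3 g).2 ((adj x hxa g hga).2 (.inl (by rw [hx, hg]; exact dvd_mul_right p q)))
      have h6 := mt (h3 y).1 hxy
      rw [adj u h4 g hga, hg] at h5
      rw [adj u h4 y hya, hy, not_or] at h6
      have h7 : orderOf u = p := ((Nat.dvd_prime hp).1 (Nat.Coprime.dvd_of_dvd_mul_right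
        ((hq.coprime_iff_not_dvd).2 h6.2).symm (h5.resolve_right fun h =>
          h6.2 ((dvd_mul_left q p).trans h)))).resolve_left fun h => h6.1 (h ▸ one_dvd q)
      exact ⟨u, eq_of_le_of_card_ge (zpowers_le.2 (H82.mem_zpowers_of_orderOf_dvd h4 hxa
        (by rw [h7, hx]))) (by rw [Nat.card_zpowers, Nat.card_zpowers, h7, hx]), rfl⟩
    have h3 := Set.ncard_le_ncard h2
    rw [Set.ncard_image_of_injective _ e.injective, ncard_gens] at h1 h3
    rw [ncard_gens, hx, Nat.totient_prime hp] at h3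
    have h4 := Nat.le_of_dvd (Nat.totient_pos.2 (orderOf_pos a)) (Nat.totient_dvd_of_dvd hn)
    rw [Nat.totient_mul hco, Nat.totient_prime hp, Nat.totient_prime hq] at h4
    have h5 : 2 ≤ q - 1 := by have := hq.two_le; omega
    nlinarith
  push Not at h
  obtain ⟨b, hb, hxb⟩ := h
  have hyb : e y ∈ zpowers (e b) := ((hB b hb y).2 hya).resolve_left fun h =>
    hxy ((he x y).2 (.inl (zpowers_le.2 h hxb)))
  obtain ⟨w, hbw, hw⟩ := exists_top (e b)
  obtain ⟨c, rfl⟩ := e.surjective w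
  have hc : c ∈ zpowers a := (hB b hb c).1 (.inl hbw)
  suffices p * q ∣ orderOf (e c) from ⟨_, orderOf_pow_orderOf_div (orderOf_pos _).ne' this⟩
  have card : ∀ K : Subgroup G, (∀ z, Adj c z ↔ z ∈ K) → orderOf (e c) = Nat.card K := fun K h => by
    rw [← Nat.card_zpowers]
    exact (Nat.card_congr (e.subtypeEquiv fun z => (h z).symm.trans ((he c z).trans (hw _)))).symm
  by_cases c1 : c = 1
  · rw [card ⊤ fun z => ⟨fun _ => trivial, fun _ => .inl (c1 ▸ one_mem _)⟩, card_top]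
    exact hg ▸ orderOf_dvd_natCard g
  by_cases h1 : zpowers c = zpowers a
  · rwa [card _ fun z => (twin h1 z).trans (ha z), Nat.card_zpowers]
  obtain ⟨h2, h3⟩ := both c hc c1 ((he _ _).2 (.inr (zpowers_le.2 hbw hxb)))
    ((he _ _).2 (.inr (zpowers_le.2 hbw hyb)))
  obtain ⟨s, hs⟩ := orderOf_dvd_of_mem_zpowers hc
  obtain ⟨t, ht, s, rfl⟩ := Nat.exists_prime_and_dvd (n := s) (by
    rintro rfl
    exact h1 (eq_of_le_of_card_ge (zpowers_le.2 hc)
      (by rw [Nat.card_zpowers, Nat.card_zpowers, hs, mul_one])))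
  obtain ⟨k, m, hm, hk⟩ := Nat.exists_eq_pow_mul_and_not_dvd (orderOf_pos a).ne' t ht.ne_one
  have m0 : 0 < m := Nat.pos_of_ne_zero fun e => hm (e ▸ dvd_zero t)
  have hz : orderOf (a ^ m) = t ^ k := by
    rw [orderOf_pow_of_dvd m0.ne' (hk ▸ dvd_mul_left _ _), hk, Nat.mul_div_cancel _ m0]
  have hza := pow_mem (mem_zpowers a) m
  have h4 : ¬ (p ∣ t ^ k ∧ q ∣ t ^ k) := fun h => hpq
    (((Nat.prime_dvd_prime_iff_eq hp ht).1 (hp.dvd_of_dvd_pow h.1)).trans
      ((Nat.prime_dvd_prime_iff_eq hq ht).1 (hq.dvd_of_dvd_pow h.2)).symm)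
  have h5 : ¬ Adj c (a ^ m) := by
    rw [adj c hc _ hza, hz]
    rintro (h | ⟨u, h⟩)
    · exact h4 ⟨h2.trans h, h3.trans h⟩
    · rw [hk, h, mul_assoc] at hs
      exact hm ⟨u * s, by rw [Nat.eq_of_mul_eq_mul_left (pow_pos ht.pos k) hs]; ring⟩
  rcases (hB b hb _).2 hza with h | h
  · exact absurd (hz ▸ both _ hza (fun e => h5 (.inr (e ▸ one_mem _)))
      ((he _ _).2 (.inr (zpowers_le.2 h hxb))) ((he _ _).2 (.inr (zpowers_le.2 h hyb)))) h4
  · exact absurd ((he _ _).2 (.inr (zpowers_le.2 hbw h))) h5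

/-- Let G and H be finite groups whose power graphs are isomorphic: there is a bijection e : G → H such that, for all x, y, one of x, y is a power of the other exactly when one of e(x), e(y) is a power of the other. Then G and H have the same prime graph: for distinct primes p, q, G has an element of order pq if and only if H does. -/
theorem result {G H : Type*} [Group G] [Finite G] [Group H] [Finite H] (e : G ≃ H)
    (he : ∀ x y : G, (x ∈ Subgroup.zpowers y ∨ y ∈ Subgroup.zpowers x) ↔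
      (e x ∈ Subgroup.zpowers (e y) ∨ e y ∈ Subgroup.zpowers (e x)))
    {p q : ℕ} (hp : p.Prime) (hq : q.Prime) (hpq : p ≠ q) :
    (∃ g : G, orderOf g = p * q) ↔ (∃ h : H, orderOf h = p * q) := by
  have he' : ∀ x y : H, Adj x y ↔ Adj (e.symm x) (e.symm y) := fun x y => by
    have := he (e.symm x) (e.symm y)
    rw [e.apply_symm_apply, e.apply_symm_apply] at this
    exact this.symm
  by_cases h2 : q = 2
  · rw [mul_comm]
    have h3 : p ≠ 2 := h2 ▸ hpq
    exact ⟨fun ⟨_, h⟩ => aux e he hq hp hpq.symm h3 h, fun ⟨_, h⟩ => aux e.symm he' hq hp hpq.symm h3 h⟩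
  · exact ⟨fun ⟨_, h⟩ => aux e he hp hq hpq h2 h, fun ⟨_, h⟩ => aux e.symm he' hp hq hpq h2 h⟩

end Cfsg.Agent.S4085
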