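import Cfsg.Statements.S4086
import Cfsg.Agent.H82.Basic

set_option autoImplicit false
open Cfsg

namespace Cfsg.Agent.S4086

/-- For a finite group G the following are equivalent: every non-identity element has prime-power order; whenever two elements generate a cyclic subgroup, one of them is a power of the other (the enhanced power graph of G coincides with its power graph). -/
theorem result {G : Type*} [Group G] [Finite G] :
    (∀ g : G, g ≠ 1 → IsPrimePow (orderOf g)) ↔
    (∀ x y : G, IsCyclic ↥(Subgroup.closure ({x, y} : Set G)) → (x ∈ Subgroup.zpowers y ∨ y ∈ Subgroup.zpowers x)) := by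
  constructor
  · intro h x y hc
    obtain ⟨g, hg⟩ := (Subgroup.isCyclic_iff_exists_zpowers_eq_top _).mp hc
    have hx : x ∈ Subgroup.zpowers g := by rw [hg]; exact Subgroup.subset_closure (by simp)
    have hy : y ∈ Subgroup.zpowers g := by rw [hg]; exact Subgroup.subset_closure (by simp)
    by_cases h1 : g = 1
    · subst h1
      left
      rw [Subgroup.zpowers_one_eq_bot, Subgroup.mem_bot] at hx
      rw [hx]; exact Subgroup.one_mem _
    obtain ⟨p, k, hp, -, hk⟩ := (isPrimePow_nat_iff _).mp (h g h1)
    have h2 := orderOf_dvd_of_mem_zpowers hx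
    have h3 := orderOf_dvd_of_mem_zpowers hy
    rw [← hk, Nat.dvd_prime_pow hp] at h2 h3
    obtain ⟨i, -, hi⟩ := h2
    obtain ⟨j, -, hj⟩ := h3
    rcases le_total i j with hij | hij
    · left
      exact H82.mem_zpowers_of_orderOf_dvd hx hy (by rw [hi, hj]; exact pow_dvd_pow _ hij)
    · right
      exact H82.mem_zpowers_of_orderOf_dvd hy hx (by rw [hi, hj]; exact pow_dvd_pow _ hij)
  · intro h g hg
    have h1 : orderOf g ≠ 1 := by simpa using hg
    obtain ⟨p, hp, hpd⟩ := Nat.exists_prime_and_dvd h1
    obtain ⟨u, v, hu, hv, e, ⟨k, hk⟩, hvp⟩ := H82.exists_p_parts hp g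
    have hc : IsCyclic (Subgroup.closure ({u, v} : Set G)) := by
      have : Subgroup.closure ({u, v} : Set G) ≤ Subgroup.zpowers g := by
        rw [Subgroup.closure_le]
        rintro z (rfl | rfl)
        · exact hu
        · exact hv
      exact Subgroup.isCyclic_of_le this
    have hcop : (orderOf u).Coprime (orderOf v) := by
      rw [hk]; exact Nat.Coprime.pow_left _ hvp.symm
    rcases h u v hc with h2 | h2
    · have h3 := orderOf_dvd_of_mem_zpowers h2
      have h4 : orderOf u = 1 := Nat.Coprime.eq_one_of_dvd hcop h3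
      rw [orderOf_eq_one_iff] at h4
      rw [h4, one_mul] at e
      rw [e] at hpd
      exact absurd hpd ((Nat.Prime.coprime_iff_not_dvd hp).mp hvp.symm)
    · have h3 := orderOf_dvd_of_mem_zpowers h2
      have h4 : orderOf v = 1 := Nat.Coprime.eq_one_of_dvd hcop.symm h3
      rw [orderOf_eq_one_iff] at h4
      rw [h4, mul_one] at e
      rw [e, hk]
      rw [e, hk] at h1
      refine (isPrimePow_nat_iff _).mpr ⟨p, k, hp, ?_, rfl⟩
      rcases Nat.eq_zero_or_pos k with rfl | h0
      · simp at h1
      · exact h0

end Cfsg.Agent.S4086
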