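import Cfsg.Statements.S4088
import Cfsg.Agent.H8.Casolo

set_option autoImplicit false
open Cfsg

namespace Cfsg.Agent.S4088

open Subgroup

/-- Let G be a finite group, p a prime dividing the order of G, H a p-subgroup of G and P a Sylow p-subgroup of G. Call the subnormalizer of H the set of elements g of G such that H is subnormal in the subgroup generated by H and g. Then the number of elements of the subnormalizer of H equals the number of Sylow p-subgroups of G containing H times the order of N_G(P), and also equals the number of conjugates of H contained in P times the order of N_G(H). -/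
theorem result {G : Type*} [Group G] [Finite G] (p : ℕ) [Fact p.Prime]
    (hp : p ∣ Nat.card G) (H : Subgroup G) (hH : IsPGroup p H) (P : Sylow p G) :
    Nat.card {g : G // ((H).subgroupOf (H ⊔ Subgroup.zpowers g)).IsSubnormal} =
        Nat.card {Q : Sylow p G // H ≤ (Q : Subgroup G)} * Nat.card (Subgroup.normalizer ((P : Subgroup G) : Set G)) ∧
    Nat.card {g : G // ((H).subgroupOf (H ⊔ Subgroup.zpowers g)).IsSubnormal} =
        Nat.card {K : Subgroup G // K ≤ (P : Subgroup G) ∧ ∃ g : G, K = H.map (MulAut.conj g).toMonoidHom} *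
          Nat.card (Subgroup.normalizer (H : Set G)) := by
  refine ⟨by rw [H8.card_subnormalizer hH P, H8.card_conj_le_sylow], ?_⟩
  rw [H8.card_subnormalizer hH P]
  refine H8.card_eq_of_fibers (fun g => ⟨H.map (MulAut.conj g.1).toMonoidHom, ?_, g.1, rfl⟩) ?_
  · rintro _ ⟨h, hh, rfl⟩
    exact g.2 h hh
  rintro ⟨K, hK, c, rfl⟩
  have hm : ∀ (g x : G), x ∈ H.map (MulAut.conj g).toMonoidHom ↔ g⁻¹ * x * g ∈ H := fun g x => by
    rw [mem_map_equiv]
    simp
  refine ⟨⟨fun s => ⟨c⁻¹ * s.1.1, ?_⟩, fun n => ⟨⟨c * n, fun h hh => hK ((hm _ _).2 ?_)⟩, Subtype.ext ?_⟩,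
    fun s => ?_, fun n => ?_⟩⟩
  · have h1 : H.map (MulAut.conj s.1.1).toMonoidHom = H.map (MulAut.conj c).toMonoidHom :=
      congrArg Subtype.val s.2
    rw [mem_normalizer_iff]
    intro x
    have h2 := ((hm _ _).symm.trans (SetLike.ext_iff.1 h1 (s.1.1 * x * s.1.1⁻¹))).trans (hm _ _)
    simpa [mul_assoc] using h2
  · simpa [mul_assoc] using H21.conj_mem_of_mem_normalizer n.2 hh
  · ext x
    change x ∈ H.map (MulAut.conj (c * n)).toMonoidHom ↔ x ∈ H.map (MulAut.conj c).toMonoidHom
    rw [hm, hm]
    have := (mem_normalizer_iff.1 (inv_mem n.2) (c⁻¹ * x * c)).symm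
    simpa [mul_assoc] using this
  · exact Subtype.ext (Subtype.ext (by simp))
  · exact Subtype.ext (by simp)

end Cfsg.Agent.S4088
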