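import Cfsg.Statements.S4089
import Cfsg.Agent.H44.Subnormal
import Cfsg.Agent.H92.SylIn
import Cfsg.Agent.H4.Basic
import Cfsg.Agent.S0010
import Cfsg.Agent.S0064

set_option autoImplicit false
open Cfsg

namespace Cfsg.Agent.S4089

section
open Subgroup
variable {G : Type*} [Group G] [Finite G] {p : ℕ} [Fact p.Prime]

theorem main (H : Subgroup G) (hH : IsPGroup p H) (g : G) :
    (H.subgroupOf (H ⊔ zpowers g)).IsSubnormal ↔ ∃ R : Subgroup G, H ≤ R ∧
      (pCore p (normalizer (R : Set G))).map (normalizer (R : Set G)).subtype = R ∧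
      g ∈ normalizer (R : Set G) := by
  constructor
  · intro h
    obtain ⟨R, ⟨h1, h2, h3⟩, hmax⟩ := Set.Finite.exists_maximal
      (s := {R : Subgroup G | IsPGroup p R ∧ H ≤ R ∧ H ⊔ zpowers g ≤ normalizer (R : Set G)})
      (Set.toFinite _) ⟨_, H44.pCoreOf_isPGroup (H ⊔ zpowers g),
        H44.le_pCoreOf_of_subnormal le_sup_left h hH, H44.le_normalizer_pCoreOf _⟩
    have h4 := H44.le_pCoreOf le_normalizer le_rfl h1
    exact ⟨R, h2, le_antisymm (hmax ⟨H44.pCoreOf_isPGroup _, h2.trans h4,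
      h3.trans (H44.le_normalizer_pCoreOf _)⟩ h4) h4, h3 (mem_sup_right (mem_zpowers g))⟩
  · rintro ⟨R, h1, h2, h3⟩
    have hR : IsPGroup p R := h2 ▸ H44.pCoreOf_isPGroup _
    have h4 : H44.SN R H := H44.sn_iff.2 ⟨h1, (S0064.result.1 hR.isNilpotent) _⟩
    have h5 : H44.SN (normalizer (R : Set G)) H :=
      (H44.SN.of_le_normalizer le_normalizer le_rfl).trans h4
    exact (h5.mono le_sup_left (sup_le (h1.trans le_normalizer) (zpowers_le.2 h3))).isSubnormal_subgroupOf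

theorem sInf_le_of (R : Subgroup G)
    (h2 : (pCore p (normalizer (R : Set G))).map (normalizer (R : Set G)).subtype = R) :
    sInf {K : Subgroup G | ∃ Q : Sylow p G, R ≤ (Q : Subgroup G) ∧ K = (Q : Subgroup G)} ≤ R := by
  have hR : IsPGroup p R := h2 ▸ H44.pCoreOf_isPGroup _
  set I := sInf {K : Subgroup G | ∃ Q : Sylow p G, R ≤ (Q : Subgroup G) ∧ K = (Q : Subgroup G)}
  obtain ⟨Q, hQ⟩ := hR.exists_le_sylow
  have hI : IsPGroup p I := Q.isPGroup'.to_le (sInf_le ⟨Q, hQ, rfl⟩)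
  have hRI : R ≤ I := le_sInf (by rintro _ ⟨Q, hQ, rfl⟩; exact hQ)
  by_contra hcon
  refine (H4.lt_inf_normalizer hI (lt_of_le_of_ne hRI fun e => hcon e.ge)).not_ge fun x hx => ?_
  rw [← h2]
  refine ⟨⟨x, hx.2⟩, ?_, rfl⟩
  rw [S0010.result, SetLike.mem_coe, mem_iInf]
  intro S
  have hS := H92.sylIn_of_sylow S
  obtain ⟨Q', hQ'⟩ := hS.pgroup.exists_le_sylow
  have h3 := hS.max (Q' ⊓ normalizer (R : Set G)) inf_le_right
    (Q'.isPGroup'.to_le inf_le_left) (le_inf hQ' hS.le)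
  have h4 : x ∈ (S : Subgroup _).map (normalizer (R : Set G)).subtype := by
    rw [← h3]
    exact ⟨(sInf_le ⟨Q', (hS.le_of_normal le_normalizer hR le_rfl).trans hQ', rfl⟩ : I ≤ Q') hx.1, hx.2⟩
  obtain ⟨y, hy, e⟩ := h4
  rwa [show y = ⟨x, hx.2⟩ from Subtype.ext e] at hy

end

/-- Let G be a finite group, p a prime and H a p-subgroup of G. Then the set of elements g of G such that H is subnormal in the subgroup generated by H and g is the union of the normalizers N_G(R) over the subgroups R of G containing H with R = O_p(N_G(R)); and this set does not change when H is replaced by the intersection of all Sylow p-subgroups of G containing H. -/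
theorem result {G : Type*} [Group G] [Finite G] (p : ℕ) [Fact p.Prime]
    (H : Subgroup G) (hH : IsPGroup p H) :
    {g : G | ((H).subgroupOf (H ⊔ Subgroup.zpowers g)).IsSubnormal} =
      {g : G | ∃ R : Subgroup G, H ≤ R ∧ (Cfsg.pCore p (Subgroup.normalizer (R : Set G))).map (Subgroup.normalizer (R : Set G)).subtype = R ∧ g ∈ Subgroup.normalizer (R : Set G)} ∧
    ∀ g : G, (((H).subgroupOf (H ⊔ Subgroup.zpowers g)).IsSubnormal ↔
      (((sInf {K : Subgroup G | ∃ Q : Sylow p G, H ≤ (Q : Subgroup G) ∧ K = (Q : Subgroup G)})).subgroupOf ((sInf {K : Subgroup G | ∃ Q : Sylow p G, H ≤ (Q : Subgroup G) ∧ K = (Q : Subgroup G)}) ⊔ Subgroup.zpowers g)).IsSubnormal) := by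
  refine ⟨Set.ext fun g => main H hH g, fun g => ?_⟩
  obtain ⟨Q, hQ⟩ := hH.exists_le_sylow
  have hI : IsPGroup p ↥(sInf {K : Subgroup G | ∃ Q : Sylow p G, H ≤ (Q : Subgroup G) ∧
      K = (Q : Subgroup G)}) := Q.isPGroup'.to_le (sInf_le ⟨Q, hQ, rfl⟩)
  rw [main H hH, main _ hI]
  constructor
  · rintro ⟨R, h1, h2, h3⟩
    refine ⟨R, le_trans (sInf_le_sInf ?_) (sInf_le_of R h2), h2, h3⟩
    rintro _ ⟨Q, hQ, rfl⟩
    exact ⟨Q, h1.trans hQ, rfl⟩
  · rintro ⟨R, h1, h2, h3⟩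
    exact ⟨R, le_trans (le_sInf (by rintro _ ⟨Q, hQ, rfl⟩; exact hQ)) h1, h2, h3⟩

end Cfsg.Agent.S4089
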