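import Cfsg.Statements.S4090
import Cfsg.Agent.H8.Casolo2

set_option autoImplicit false
open scoped BigOperators
open Cfsg

namespace Cfsg.Agent.S4090

open Subgroup

/-- Let G be a finite p-solvable group, H a p-subgroup of G and P a Sylow p-subgroup, and fix a chain of normal subgroups 1 = M₀ ≤ M₁ ≤ ⋯ ≤ Mₙ = G of G each of whose factors is a p-group or a p'-group. Then the number of elements g of G such that H is subnormal in the subgroup generated by H and g equals the order of P times the product, over the factors Mᵢ₊₁/Mᵢ of order prime to p, of the order of the centralizer of H in Mᵢ₊₁/Mᵢ (counted as the number of u ∈ Mᵢ₊₁ with [h, u] ∈ Mᵢ for all h ∈ H, divided by the order of Mᵢ). -/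
theorem result {G : Type*} [Group G] [Finite G] (p : ℕ) [Fact p.Prime]
    (hG : Cfsg.IsPSolvable p G) (H : Subgroup G) (hH : IsPGroup p H) (P : Sylow p G)
    (n : ℕ) (M : Fin (n + 1) → Subgroup G) (h0 : M 0 = ⊥) (hn : M (Fin.last n) = ⊤) (hmono : Monotone M)
    (hnormal : ∀ i, (M i).Normal)
    (hfac : ∀ i : Fin n, (∃ m : ℕ, (M i.castSucc).relIndex (M i.succ) = p ^ m) ∨ ((M i.castSucc).relIndex (M i.succ)).Coprime p) :
    Nat.card {g : G // ((H).subgroupOf (H ⊔ Subgroup.zpowers g)).IsSubnormal} =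
      Nat.card (P : Subgroup G) *
        ∏ i : Fin n, (if ((M i.castSucc).relIndex (M i.succ)).Coprime p then
          Nat.card {u : G // u ∈ M i.succ ∧ ∀ h ∈ H, h * u * h⁻¹ * u⁻¹ ∈ M i.castSucc} / Nat.card (M i.castSucc)
          else 1) := by
  rw [H8.card_subnormalizer hH P]
  have key : ∀ i : Fin n, H8.casF H ((P : Subgroup G) ⊔ M i.castSucc) * Nat.card ↥((P : Subgroup G) ⊔ M i.succ)
      = H8.casF H ((P : Subgroup G) ⊔ M i.succ) * Nat.card ↥((P : Subgroup G) ⊔ M i.castSucc) *
        (if ((M i.castSucc).relIndex (M i.succ)).Coprime p then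
          Nat.card {u : G // u ∈ M i.succ ∧ ∀ h ∈ H, h * u * h⁻¹ * u⁻¹ ∈ M i.castSucc} / Nat.card (M i.castSucc)
          else 1) := by
    intro i
    have := hnormal i.castSucc
    have := hnormal i.succ
    have hle : M i.castSucc ≤ M i.succ := hmono (Fin.castSucc_lt_succ).le
    split_ifs with hc
    · have h1 := H8.casF_mul_of_coprime P hH hle hc
      have h2 := H8.card_sup_mul_of_coprime P.isPGroup' hle hc
      have h3 := H8.casC_eq H _ _ hle
      change _ = _ * (H8.casC H (M i.castSucc) (M i.succ) / _)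
      rw [h3] at h1 ⊢
      rw [Nat.mul_div_cancel_left _ Nat.card_pos]
      refine Nat.eq_of_mul_eq_mul_right (Nat.card_pos (α := M i.castSucc)) ?_
      rw [mul_assoc, h2, mul_left_comm, h1]; ring
    · obtain ⟨m, hm⟩ := (hfac i).resolve_right hc
      rw [H8.sylow_sup_eq_of_relIndex_pow P hle hm, mul_one]
  have h1 := Finset.prod_congr (s₁ := Finset.univ) rfl fun i _ => key i
  rw [Finset.prod_mul_distrib, Finset.prod_mul_distrib, Finset.prod_mul_distrib] at h1
  have h2 := (Fin.prod_univ_succ fun i => H8.casF H ((P : Subgroup G) ⊔ M i)).symm.trans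
    (Fin.prod_univ_castSucc fun i => H8.casF H ((P : Subgroup G) ⊔ M i))
  have h3 := (Fin.prod_univ_succ fun i => Nat.card ↥((P : Subgroup G) ⊔ M i)).symm.trans
    (Fin.prod_univ_castSucc fun i => Nat.card ↥((P : Subgroup G) ⊔ M i))
  rw [h0, hn, sup_bot_eq, sup_top_eq] at h2 h3
  rw [H8.casF_top] at h2
  rw [card_top] at h3
  have h4 : 0 < ∏ i : Fin n, H8.casF H ((P : Subgroup G) ⊔ M i.succ) := by
    refine Finset.prod_pos fun i _ => ?_
    obtain ⟨g, -, hg⟩ := (H92.sylIn_top P).exists_conj le_top hH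
    have : Nonempty {g : G // ∀ h ∈ H, g * h * g⁻¹ ∈ (P : Subgroup G) ⊔ M i.succ} :=
      ⟨⟨g, fun h hh => mem_sup_left (hg h hh)⟩⟩
    exact Nat.card_pos
  have h5 : 0 < ∏ i : Fin n, Nat.card ↥((P : Subgroup G) ⊔ M i.succ) :=
    Finset.prod_pos fun i _ => Nat.card_pos
  change H8.casF H P = _
  refine Nat.eq_of_mul_eq_mul_right (Nat.mul_pos h4 h5) ?_
  have h6 := congrArg (· * Nat.card G) h1
  rw [← mul_assoc, h2, mul_right_comm, h6, mul_right_comm _ _ (Nat.card G), mul_assoc _ _ (Nat.card G), ← h3]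
  ring

end Cfsg.Agent.S4090
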