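import Cfsg.Statements.S4091
import Cfsg.Agent.H8.Casolo2
import Cfsg.Agent.H82.Basic

set_option autoImplicit false
open Cfsg

namespace Cfsg.Agent.S4091

open Subgroup Finset

theorem amgm {ι : Type*} [Fintype ι] [Nonempty ι] (z : ι → ℝ) (hz : ∀ i, 0 ≤ z i) :
    (Fintype.card ι : ℝ) ^ Fintype.card ι * ∏ i, z i ≤ (∑ i, z i) ^ Fintype.card ι := by
  have hn : (0 : ℝ) < Fintype.card ι := by exact_mod_cast Fintype.card_pos
  have h := Real.geom_mean_le_arith_mean_weighted univ (fun _ : ι => (Fintype.card ι : ℝ)⁻¹) z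
    (fun _ _ => inv_nonneg.2 hn.le) (by simp) (fun i _ => hz i)
  rw [Real.finsetProd_rpow _ _ (fun i _ => hz i), ← mul_sum] at h
  have h2 := pow_le_pow_left₀ (Real.rpow_nonneg (prod_nonneg fun i _ => hz i) _) h (Fintype.card ι)
  rw [Real.rpow_inv_natCast_pow (prod_nonneg fun i _ => hz i) Fintype.card_ne_zero, mul_pow, inv_pow,
    le_inv_mul_iff₀ (pow_pos hn _)] at h2
  exact h2

theorem chain_ineq {G : Type*} [Group G] [Finite G] (p : ℕ) [hp : Fact p.Prime]
    (hG : Cfsg.IsPSolvable p G) (P : Sylow p G) [Fintype (P : Subgroup G)] :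
    ∏ x : (P : Subgroup G), H8.casF (zpowers (x : G)) (P : Subgroup G) ^ p
      ≤ Nat.card G ^ Nat.card (P : Subgroup G) * H8.casF (P : Subgroup G) (P : Subgroup G) ^ ((p - 1) * Nat.card (P : Subgroup G)) := by
  obtain ⟨n, M, h0, hn, hmono, hnormal, hfac⟩ := hG
  have key : ∀ i : Fin (n + 1), ∏ x : (P : Subgroup G), H8.casF (zpowers (x : G)) ((P : Subgroup G) ⊔ M i) ^ p
      ≤ Nat.card G ^ Nat.card (P : Subgroup G) *
        H8.casF (P : Subgroup G) ((P : Subgroup G) ⊔ M i) ^ ((p - 1) * Nat.card (P : Subgroup G)) := by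
    obtain ⟨s, hs⟩ : ∃ s, p = s + 1 := ⟨p - 1, (Nat.succ_pred_eq_of_pos hp.out.pos).symm⟩
    have hs' : p - 1 = s := by omega
    have hs2 : ∀ a b : ℕ, (a ^ p) ^ b = a ^ (s * b) * a ^ b := fun a b => by rw [hs]; ring
    intro i
    induction i using Fin.reverseInduction with
    | last =>
      simp only [hn, sup_top_eq, H8.casF_top, prod_const, card_univ, ← Nat.card_eq_fintype_card]
      rw [hs', hs2]
      exact le_of_eq (by ring)
    | cast i ih =>
      have := hnormal i.castSucc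
      have := hnormal i.succ
      have hle : M i.castSucc ≤ M i.succ := hmono (Fin.castSucc_lt_succ).le
      rcases hfac i with ⟨m, hm⟩ | hc
      · rw [H8.sylow_sup_eq_of_relIndex_pow P hle hm]; exact ih
      · have h1 := fun x : (P : Subgroup G) => H8.casF_mul_of_coprime P
          (P.isPGroup'.to_le ((zpowers_le).2 x.2)) hle hc
        have h2 := H8.casF_mul_of_coprime P P.isPGroup' hle hc
        have h3 := H8.prod_casC_le P.isPGroup' hle hc
        refine Nat.le_of_mul_le_mul_right ?_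
          (pow_pos (pow_pos (Nat.card_pos (α := M i.succ)) p) (Nat.card (P : Subgroup G)))
        have e : (Nat.card (M i.succ) ^ p) ^ Nat.card (P : Subgroup G)
            = ∏ _x : (P : Subgroup G), Nat.card (M i.succ) ^ p := by
          rw [prod_const, card_univ, ← Nat.card_eq_fintype_card]
        conv_lhs => rw [e, ← prod_mul_distrib]
        simp only [← mul_pow, h1]
        simp only [mul_pow, prod_mul_distrib]
        refine (Nat.mul_le_mul ih h3).trans_eq ?_
        have h4 := congrArg (· ^ (s * Nat.card (P : Subgroup G))) h2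
        simp only [mul_pow] at h4
        rw [hs']
        conv_rhs => rw [hs2, ← mul_assoc, mul_assoc (_ ^ _), h4]
        ring
  have := key 0
  rwa [h0, sup_bot_eq] at this

/-- Let G be a finite p-solvable group, P a Sylow p-subgroup of G, u the number of p-elements of G (elements of p-power order, the identity included) and n the number of Sylow p-subgroups of G. Then u/#P ≥ n^((p−1)/p), stated as u^p ≥ #P^p · n^(p−1). -/
theorem result {G : Type*} [Group G] [Finite G] (p : ℕ) [Fact p.Prime]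
    (hG : Cfsg.IsPSolvable p G) (P : Sylow p G) :
    Nat.card (P : Subgroup G) ^ p * Nat.card (Sylow p G) ^ (p - 1) ≤ Nat.card {g : G // ∃ k : ℕ, orderOf g = p ^ k} ^ p := by
  classical
  have hp : p.Prime := Fact.out
  have := Fintype.ofFinite G
  have h1 := chain_ineq p hG P
  have hF : ∀ x : G, H8.casF (zpowers x) (P : Subgroup G) = #{g : G | g * x * g⁻¹ ∈ P} := by
    intro x
    rw [H8.casF, ← Fintype.card_subtype, ← Nat.card_eq_fintype_card]
    refine Nat.card_congr (Equiv.subtypeEquivRight fun g => ⟨fun h => h x (mem_zpowers x), ?_⟩)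
    rintro h _ ⟨k, rfl⟩
    simp only [← conj_zpow]
    exact zpow_mem h k
  have hFc : ∀ x c : G, #{g : G | g * (c⁻¹ * x * c) * g⁻¹ ∈ P} = #{g : G | g * x * g⁻¹ ∈ P} := by
    intro x c
    refine card_equiv (Equiv.mulRight c⁻¹) fun g => ?_
    simp [mul_assoc]
  have hpos : ∀ x : G, (∃ k, orderOf x = p ^ k) → 0 < #{g : G | g * x * g⁻¹ ∈ P} := by
    rintro x ⟨k, hk⟩
    obtain ⟨g, -, hg⟩ := (H92.sylIn_top P).exists_conj le_top (H82.isPGroup_zpowers hk)
    exact card_pos.2 ⟨g, mem_filter.2 ⟨mem_univ _, hg x (mem_zpowers x)⟩⟩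
  have h2 : (Nat.card {g : G // ∃ k : ℕ, orderOf g = p ^ k} : ℝ)
      = Nat.card G * ∑ x : (P : Subgroup G), ((#{g : G | g * x * g⁻¹ ∈ P} : ℕ) : ℝ)⁻¹ := by
    have e1 : (Nat.card {g : G // ∃ k : ℕ, orderOf g = p ^ k} : ℝ)
        = ∑ y : G, ∑ g : G, if g * y * g⁻¹ ∈ P then ((#{g : G | g * y * g⁻¹ ∈ P} : ℕ) : ℝ)⁻¹ else 0 := by
      rw [Nat.card_eq_fintype_card, Fintype.card_subtype, card_filter, Nat.cast_sum]
      refine sum_congr rfl fun y _ => ?_
      rw [← sum_filter, sum_const, nsmul_eq_mul]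
      split_ifs with hy
      · rw [mul_inv_cancel₀ (by exact_mod_cast (hpos y hy).ne'), Nat.cast_one]
      · have : #{g : G | g * y * g⁻¹ ∈ P} = 0 := by
          rw [card_eq_zero, filter_eq_empty_iff]
          intro g _ hg
          obtain ⟨k, hk⟩ := H82.orderOf_eq_pow_of_mem P.isPGroup' hg
          exact hy ⟨k, ((MulAut.conj g).orderOf_eq y).symm.trans hk⟩
        rw [this]; simp
    rw [e1, sum_comm, Nat.card_eq_fintype_card (α := G), ← nsmul_eq_mul, ← card_univ, ← sum_const]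
    refine sum_congr rfl fun c _ => ?_
    rw [← Equiv.sum_comp (MulAut.conj c).symm.toEquiv, ← sum_filter]
    refine (sum_congr rfl fun x _ => congrArg (fun t : ℕ => (t : ℝ)⁻¹) (hFc x c)).trans ?_
    refine sum_subtype _ (fun x => ?_) (fun x : G => ((#{g : G | g * x * g⁻¹ ∈ P} : ℕ) : ℝ)⁻¹)
    simp only [mem_filter, mem_univ, true_and]
    change c * (c⁻¹ * x * c) * c⁻¹ ∈ (P : Subgroup G) ↔ _
    simp [mul_assoc]
  have h3 := amgm (fun x : (P : Subgroup G) => ((#{g : G | g * x * g⁻¹ ∈ P} : ℕ) : ℝ)⁻¹)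
    (fun x => by positivity)
  have h4 : H8.casF (P : Subgroup G) (P : Subgroup G) = Nat.card (normalizer ((P : Subgroup G) : Set G)) := by
    have := H8.card_conj_le_sylow (P : Subgroup G) P
    rw [show Nat.card {Q : Sylow p G // (P : Subgroup G) ≤ Q} = 1 from
      Nat.card_eq_one_iff_unique.2 ⟨⟨fun a b => Subtype.ext (Sylow.ext
        ((P.is_maximal' a.1.isPGroup' a.2).trans (P.is_maximal' b.1.isPGroup' b.2).symm))⟩, ⟨⟨P, le_rfl⟩⟩⟩,
      one_mul] at this
    exact this
  have h5 : Nat.card G = Nat.card (normalizer ((P : Subgroup G) : Set G)) * Nat.card (Sylow p G) := by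
    rw [Sylow.card_eq_index_normalizer P]; exact (card_mul_index _).symm
  simp only [hF, h4, prod_pow] at h1
  rw [← Nat.card_eq_fintype_card, prod_inv_distrib, ← Nat.cast_prod] at h3
  have h6 : 0 < ∏ x : (P : Subgroup G), #{g : G | g * x * g⁻¹ ∈ P} :=
    prod_pos fun x _ => hpos x (H82.orderOf_eq_pow_of_mem P.isPGroup' x.2)
  set Φ := ∏ x : (P : Subgroup G), #{g : G | g * x * g⁻¹ ∈ P}
  set n := Nat.card (P : Subgroup G)
  set u := Nat.card {g : G // ∃ k : ℕ, orderOf g = p ^ k}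
  have h7 : (Nat.card G * n) ^ n ≤ u ^ n * Φ := by
    have h8 : ((Nat.card G * n : ℕ) : ℝ) ^ n ≤ (u : ℝ) ^ n * Φ := by
      rw [h2, Nat.cast_mul, mul_pow, mul_pow, mul_assoc]
      refine mul_le_mul_of_nonneg_left ?_ (by positivity)
      rwa [← div_eq_mul_inv, div_le_iff₀ (by exact_mod_cast h6)] at h3
    exact_mod_cast h8
  have h9 := (Nat.pow_le_pow_left h7 p).trans
    ((mul_pow _ _ _).le.trans (Nat.mul_le_mul_left _ h1))
  obtain ⟨s, rfl⟩ : ∃ s, p = s + 1 := ⟨p - 1, (Nat.succ_pred_eq_of_pos hp.pos).symm⟩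
  rw [Nat.add_sub_cancel] at h9 ⊢
  refine (Nat.pow_le_pow_iff_left (n := n) Nat.card_pos.ne').1 ?_
  refine Nat.le_of_mul_le_mul_right ?_ (Nat.mul_pos (pow_pos (Nat.card_pos (α := G)) n)
    (pow_pos (Nat.card_pos (α := normalizer ((P : Subgroup G) : Set G))) (s * n)))
  refine le_trans (le_of_eq ?_) (h9.trans_eq (by ring))
  rw [h5]; ring

end Cfsg.Agent.S4091
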