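import Cfsg.Statements.S4092
import Cfsg.Agent.H82.Basic
import Cfsg.Agent.H2.Basic

set_option autoImplicit false
open Cfsg

namespace Cfsg.Agent.S4092

/-- Let G be a finite group, p a prime and P a Sylow p-subgroup of G that is not normal in G. Then G has at least p·#P elements of p-power order (the identity included). -/
theorem result {G : Type*} [Group G] [Finite G] (p : ℕ) [Fact p.Prime]
    (P : Sylow p G) (hP : ¬ (P : Subgroup G).Normal) :
    p * Nat.card (P : Subgroup G) ≤ Nat.card {g : G // ∃ k : ℕ, orderOf g = p ^ k} := by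
  classical
  have := Fintype.ofFinite G
  have := Fintype.ofFinite (Sylow p G)
  have hp : p.Prime := Fact.out
  -- a pair of distinct Sylow subgroups with largest intersection
  have hne : ∃ Q : Sylow p G, Q ≠ P := by
    by_contra h
    push Not at h
    have : Subsingleton (Sylow p G) := ⟨fun a b => (h a).trans (h b).symm⟩
    exact hP P.normal_of_subsingleton
  obtain ⟨Q₀, hQ₀⟩ := hne
  obtain ⟨⟨A, B⟩, hAB, hmax⟩ := Finset.exists_max_image
    ((Finset.univ : Finset (Sylow p G × Sylow p G)).filter fun t => t.1 ≠ t.2)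
    (fun t => Nat.card ((t.1 : Subgroup G) ⊓ (t.2 : Subgroup G) : Subgroup G))
    ⟨(Q₀, P), by simpa using hQ₀⟩
  simp only [Finset.mem_filter, Finset.mem_univ, true_and, Prod.forall] at hAB hmax
  set D : Subgroup G := (A : Subgroup G) ⊓ (B : Subgroup G) with hD
  have hDp : IsPGroup p D := A.isPGroup'.to_inf_left
  let T : Finset (Sylow p G) := Finset.univ.filter fun Q => D ≤ (Q : Subgroup G)
  have hT : ∀ Q, Q ∈ T ↔ D ≤ (Q : Subgroup G) := by simp [T]
  have hTcard : p + 1 ≤ T.card := by
    have h1 := hDp.card_modEq_card_fixedPoints (Sylow p G)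
    have h2 : Nat.card (MulAction.fixedPoints D (Sylow p G)) = T.card := by
      rw [← Nat.card_eq_finsetCard]
      apply Nat.card_congr
      exact Equiv.subtypeEquivRight fun Q => by
        rw [hDp.sylow_mem_fixedPoints_iff, hT]
    have h3 : T.card ≡ 1 [MOD p] := by
      rw [← h2]; exact h1.symm.trans (card_sylow_modEq_one p G)
    have h4 : 1 < T.card := Finset.one_lt_card.mpr
      ⟨A, (hT A).mpr inf_le_left, B, (hT B).mpr inf_le_right, hAB⟩
    have h5 := (Nat.modEq_iff_dvd' h4.le).mp h3.symm
    have h6 := Nat.le_of_dvd (by omega) h5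
    omega
  have hinter : ∀ Q ∈ T, ∀ R ∈ T, Q ≠ R → (Q : Subgroup G) ⊓ (R : Subgroup G) = D := by
    intro Q hQ R hR hQR
    exact (Subgroup.eq_of_le_of_card_ge (le_inf ((hT Q).mp hQ) ((hT R).mp hR)) (hmax Q R hQR)).symm
  have hcardS : ∀ Q : Sylow p G, Nat.card (Q : Subgroup G) = Nat.card (P : Subgroup G) := fun Q => by
    rw [Sylow.card_eq_multiplicity, Sylow.card_eq_multiplicity]
  have hDle : p * Nat.card D ≤ Nat.card (P : Subgroup G) := by
    have hlt : D < (A : Subgroup G) := by
      refine lt_of_le_of_ne inf_le_left fun h => hAB ?_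
      have : (A : Subgroup G) ≤ B := h ▸ inf_le_right
      exact Sylow.ext (A.is_maximal' B.isPGroup' this).symm
    obtain ⟨a, ha⟩ := IsPGroup.iff_card.mp hDp
    obtain ⟨b, hb⟩ := IsPGroup.iff_card.mp A.isPGroup'
    have h7 := H2.card_lt_of_lt hlt
    rw [← hcardS A, ha, hb, ← pow_succ']
    rw [ha, hb] at h7
    exact Nat.pow_le_pow_right hp.pos ((Nat.pow_lt_pow_iff_right hp.one_lt).mp h7)
  let F : Subgroup G → Finset G := fun H => Finset.univ.filter fun g => g ∈ H
  have hF : ∀ H : Subgroup G, (F H).card = Nat.card H := fun H => by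
    rw [← Nat.card_eq_finsetCard]
    exact Nat.card_congr (Equiv.subtypeEquivRight fun g => by simp [F])
  let U : Finset G := F D ∪ T.biUnion fun Q => F Q \ F D
  have hU : U.card = Nat.card D + T.card * (Nat.card (P : Subgroup G) - Nat.card D) := by
    rw [Finset.card_union_of_disjoint, Finset.card_biUnion, hF]
    · congr 1
      rw [Finset.sum_const_nat]
      intro Q hQ
      rw [Finset.card_sdiff_of_subset, hF, hF, hcardS]
      intro g hg
      simp only [F, Finset.mem_filter, Finset.mem_univ, true_and] at hg ⊢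
      exact (hT Q).mp hQ hg
    · intro Q hQ R hR hQR
      rw [Function.onFun, Finset.disjoint_left]
      intro g h1 h2
      simp only [F, Finset.mem_sdiff, Finset.mem_filter, Finset.mem_univ, true_and] at h1 h2
      apply h1.2
      rw [← hinter Q hQ R hR hQR]
      exact ⟨h1.1, h2.1⟩
    · rw [Finset.disjoint_left]
      intro g h1 h2
      simp only [F, Finset.mem_biUnion, Finset.mem_sdiff, Finset.mem_filter, Finset.mem_univ,
        true_and] at h1 h2
      obtain ⟨Q, -, -, h3⟩ := h2
      exact h3 h1
  have hsub : U.card ≤ Nat.card {g : G // ∃ k : ℕ, orderOf g = p ^ k} := by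
    rw [← Nat.card_eq_finsetCard]
    refine Nat.card_le_card_of_injective (fun g => ⟨g.1, ?_⟩) ?_
    · have h1 := g.2
      simp only [U, F, Finset.mem_union, Finset.mem_biUnion, Finset.mem_sdiff, Finset.mem_filter,
        Finset.mem_univ, true_and] at h1
      rcases h1 with h1 | ⟨Q, -, h1, -⟩
      · exact H82.orderOf_eq_pow_of_mem hDp h1
      · exact H82.orderOf_eq_pow_of_mem Q.isPGroup' h1
    · intro a b h
      exact Subtype.ext (by simpa using h)
  refine le_trans ?_ hsub
  rw [hU]
  set d := Nat.card D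
  set m := Nat.card (P : Subgroup G)
  have h8 : d ≤ m := le_trans (Nat.le_mul_of_pos_left d hp.pos) hDle
  obtain ⟨e, he⟩ := Nat.exists_eq_add_of_le h8
  rw [he, Nat.add_sub_cancel_left]
  rw [he] at hDle
  nlinarith [Nat.mul_le_mul_right e hTcard]

end Cfsg.Agent.S4092
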