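import Cfsg.Statements.S4093
import Cfsg.Agent.H82.Coset
import Cfsg.Agent.H2.Basic
import Cfsg.Agent.H82.ClassSize

set_option autoImplicit false
open scoped BigOperators
open Cfsg

namespace Cfsg.Agent.S4093

/-- Let G be a finite group with a normal subgroup N complementing a Sylow p-subgroup P (a normal p-complement). Then the number of elements of G of p-power order equals the sum over x ∈ P of the index of C_N(x) in N. -/
theorem result {G : Type*} [Group G] [Finite G] (p : ℕ) [Fact p.Prime]
    (P : Sylow p G) (N : Subgroup G) [N.Normal] (hNP : N.IsComplement' (P : Subgroup G)) :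
    Nat.card {g : G // ∃ k : ℕ, orderOf g = p ^ k} =
      ∑ᶠ x : (P : Subgroup G), Nat.card N / Nat.card ↥(N ⊓ Subgroup.centralizer ({(x : G)} : Set G)) := by
  classical
  have hp : p.Prime := Fact.out
  have := Fintype.ofFinite (P : Subgroup G)
  rw [finsum_eq_sum_of_fintype]
  have hcop : p.Coprime (Nat.card N) := by
    rw [Nat.Prime.coprime_iff_not_dvd hp, ← hNP.index_eq_card]
    exact P.not_dvd_index
  -- the P-component
  let f : {g : G // ∃ k : ℕ, orderOf g = p ^ k} → (P : Subgroup G) :=
    fun g => (hNP.equiv g.1).2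
  have hf : ∀ g (x : (P : Subgroup G)), f g = x ↔ g.1 * (x : G)⁻¹ ∈ N := by
    intro g x
    have h1 := hNP.equiv_fst_mul_equiv_snd g.1
    constructor
    · rintro rfl
      have : g.1 * ((f g : (P : Subgroup G)) : G)⁻¹ = (hNP.equiv g.1).1 := by
        rw [mul_inv_eq_iff_eq_mul]; exact h1.symm
      rw [this]; exact (hNP.equiv g.1).1.2
    · intro h
      have h2 : ((f g : (P : Subgroup G)) : G) * (x : G)⁻¹ ∈ N := by
        have : ((f g : (P : Subgroup G)) : G) * (x : G)⁻¹ =
            ((hNP.equiv g.1).1 : G)⁻¹ * (g.1 * (x : G)⁻¹) := by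
          rw [← mul_assoc, eq_comm, mul_left_inj, inv_mul_eq_iff_eq_mul]
          exact h1.symm
        rw [this]
        exact N.mul_mem (N.inv_mem (hNP.equiv g.1).1.2) h
      have h3 := H2.eq_one_of_mem_of_isComplement' hNP h2
        (Subgroup.mul_mem _ (f g).2 (Subgroup.inv_mem _ x.2))
      exact Subtype.ext (mul_inv_eq_one.mp h3)
  rw [← Nat.card_congr (Equiv.sigmaFiberEquiv f), Nat.card_sigma]
  refine Finset.sum_congr rfl fun x _ => ?_
  obtain ⟨j, hj⟩ := H82.orderOf_eq_pow_of_mem P.isPGroup' x.2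
  have e1 : Nat.card {g // f g = x} = Nat.card {y : G | ∃ n ∈ N, n * x * n⁻¹ = y} := by
    refine Nat.card_congr
      { toFun := fun g => ⟨g.1.1, ?_⟩
        invFun := fun y => ⟨⟨y.1, ?_⟩, ?_⟩
        left_inv := fun g => rfl
        right_inv := fun y => rfl }
    · obtain ⟨k, hk⟩ := g.1.2
      exact H82.conj_of_coset N (x := (x : G)) (y := g.1.1)
        (by rw [hj]; exact hcop.pow_left _) (by rw [hk]; exact hcop.pow_left _)
        (by
          have := (hf g.1 x).mp g.2
          exact (Subgroup.Normal.mem_comm_iff inferInstance).mp this)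
    · obtain ⟨y, n, hn, rfl⟩ := y
      refine ⟨j, ?_⟩
      rw [← hj]
      exact (MulAut.conj n).orderOf_eq x
    · obtain ⟨y, n, hn, rfl⟩ := y
      rw [hf]
      change n * x * n⁻¹ * (x : G)⁻¹ ∈ N
      have : n * x * n⁻¹ * (x : G)⁻¹ = n * (x * n⁻¹ * (x : G)⁻¹) := by group
      rw [this]
      exact N.mul_mem hn (Subgroup.Normal.conj_mem inferInstance _ (N.inv_mem hn) _)
  rw [e1, Nat.card_coe_set_eq, H82.ncard_conj_under, inf_comm, ← H2.card_inf_mul_relIndex _ N,
    Nat.mul_div_cancel_left _ Nat.card_pos]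

end Cfsg.Agent.S4093
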