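import Cfsg.Statements.S4100
import Cfsg.Agent.H61.AltG
import Cfsg.Agent.H61.AltM2
import Cfsg.Agent.H61.AltM5

set_option autoImplicit false
open Cfsg

namespace Cfsg.Agent.S4100

/-- Let G be a finite group and p a prime other than 3 such that the centralizer of every non-central element of p-power order is solvable. Then every alternating group of degree at least 5 involved in G (as a section) has degree at most p + 4, or at most p + 6 = 8 when p = 2. -/
theorem result {G : Type*} [Group G] [Finite G] (p : ℕ) [Fact p.Prime] (hp3 : p ≠ 3)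
    (h : ∀ x : G, x ∉ Subgroup.center G → (∃ k : ℕ, orderOf x = p ^ k) → Group.IsSolvable (Subgroup.centralizer ({x} : Set G)))
    (d : ℕ) (hd : 5 ≤ d) (hinv : Cfsg.Involves (alternatingGroup (Fin d)) G) :
    d ≤ p + 4 + (if p = 2 then 2 else 0) := by
  by_contra hlt
  obtain ⟨K, R, _, ⟨e⟩⟩ := hinv
  have hs : ∀ x : Equiv.Perm (Fin d), Equiv.Perm.sign x = 1 → ∃ k, ((alternatingGroup (Fin d)).subtype.comp
      (e.toMonoidHom.comp (QuotientGroup.mk' _))) k = x := fun x hx => by
    obtain ⟨y, hy⟩ := e.surjective ⟨x, hx⟩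
    obtain ⟨k, rfl⟩ := QuotientGroup.mk_surjective y
    exact ⟨k, congrArg Subtype.val hy⟩
  have key : ∀ m : ℕ, 5 + m ≤ d → ∀ c : Equiv.Perm (Fin m), c ≠ 1 → c ^ p = 1 → Equiv.Perm.sign c = 1 →
      (p.Coprime 120 ∨ ∀ (V : Type _) [AddCommGroup V] [DistribMulAction (Equiv.Perm (Fin (5 + m))) V] [Finite V],
        (∀ v : V, p • v = 0) → H61.AM.Good (Equiv.Perm (Fin (5 + m))) V → Subsingleton V) → False := by
    intro m hm c c1 c2 c3 hc
    obtain ⟨H, π, hπ⟩ := H61.AM.of_section (α := Fin 5 ⊕ Fin m) (by simpa using hm) _ hs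
    refine H61.AM.red (p := p) (fun H _ _ π hs hP => ?_) _ H π rfl hπ
      (H61.AM.Hyp.inj h (K.subtype.comp H.subtype) (K.subtype_injective.comp H.subtype_injective))
    by_cases hZ : π.ker ≤ Subgroup.center H
    · exact H61.AM.sumc c1 c2 c3 π hs hP (.inl hZ)
    rcases hc with hc | hc
    · exact H61.AM.sumc c1 c2 c3 π hs hP (.inr hc)
    have hk : (finSumFinEquiv.permCongrHom.toMonoidHom.comp π).ker = π.ker := by
      ext; simp
    refine H61.AM.modc hc (finSumFinEquiv.permCongrHom.toMonoidHom.comp π) (fun x hx => ?_) (hk ▸ hP) (hk ▸ hZ)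
    obtain ⟨g, hg⟩ := hs (finSumFinEquiv.symm.permCongr x) (by simpa using hx)
    exact ⟨g, by ext; simp [hg]⟩
  have hp := (Fact.out : p.Prime)
  by_cases h2 : p = 2
  · subst h2
    exact key 4 (by simp at hlt; omega) (Equiv.swap 0 1 * Equiv.swap 2 3) (by decide) (by decide) (by decide)
      (.inr H61.AM.M2.main)
  rw [if_neg h2] at hlt
  obtain ⟨m, rfl⟩ : ∃ m, p = m + 2 := ⟨p - 2, by have := hp.two_le; omega⟩
  refine key (m + 2) (by omega) (finRotate _) isCycle_finRotate.ne_one ?_ ?_ ?_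
  · have := pow_orderOf_eq_one (finRotate (m + 2))
    rwa [isCycle_finRotate.orderOf, support_finRotate, Finset.card_univ, Fintype.card_fin] at this
  · obtain ⟨j, hj⟩ := hp.odd_of_ne_two h2
    rw [sign_finRotate, show m + 2 - 1 = 2 * j by omega, pow_mul]
    simp
  by_cases h5 : m = 3
  · subst h5
    exact .inr H61.AM.M5.main
  refine .inl ((Nat.Prime.coprime_iff_not_dvd hp).2 fun hd => ?_)
  have : m + 2 ∣ 2 ^ 3 * 3 * 5 := hd
  rcases (Nat.Prime.dvd_mul hp).1 this with a | a
  · rcases (Nat.Prime.dvd_mul hp).1 a with a | a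
    · exact h2 ((Nat.prime_dvd_prime_iff_eq hp Nat.prime_two).1 (hp.dvd_of_dvd_pow a))
    · exact hp3 ((Nat.prime_dvd_prime_iff_eq hp Nat.prime_three).1 a)
  · have := (Nat.prime_dvd_prime_iff_eq hp Nat.prime_five).1 a
    omega

end Cfsg.Agent.S4100
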