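import Cfsg.Statements.S4106
import Cfsg.Agent.H83.ClassCount
import Cfsg.Agent.H82.Basic
import Cfsg.Agent.H4.Basic

set_option autoImplicit false
open Cfsg

namespace Cfsg.Agent.S4106

section
open Subgroup Classical

universe u

/-- `x` is an `s`-element -/
def PiE {G : Type*} [Group G] (s : Finset ℕ) (x : G) : Prop :=
  ∀ q : ℕ, q.Prime → q ∣ orderOf x → q ∈ s

theorem pbound {G : Type*} [Group G] [Fintype G] (p : ℕ) [hp : Fact p.Prime] :
    ∑ x ∈ Finset.univ.filter (fun x : G => ∃ k, orderOf x = p ^ k),
      Nat.card (centralizer ({x} : Set G)) ≤ p ^ (Nat.card G).factorization p * Nat.card G := by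
  obtain ⟨P⟩ := (inferInstance : Nonempty (Sylow p G))
  have h := H83.card_classes_mul (G := G) (fun C => ∃ x ∈ (P : Subgroup G), ConjClasses.mk x = C)
  have h2 : Nat.card {C : ConjClasses G // ∃ x ∈ (P : Subgroup G), ConjClasses.mk x = C} ≤
      Nat.card (P : Subgroup G) := Nat.card_le_card_of_surjective
    (fun x : (P : Subgroup G) => ⟨ConjClasses.mk (x : G), x, x.2, rfl⟩)
    (by rintro ⟨_, x, hx, rfl⟩; exact ⟨⟨x, hx⟩, rfl⟩)
  rw [← P.card_eq_multiplicity]
  refine le_trans (Finset.sum_le_sum_of_subset fun x hx => ?_) (h.ge.trans (Nat.mul_le_mul_right _ h2))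
  simp only [Finset.mem_filter, Finset.mem_univ, true_and] at hx ⊢
  obtain ⟨k, hk⟩ := hx
  obtain ⟨g, hg⟩ := H4.exists_conj_mem_sylow (H82.isPGroup_zpowers hk) P
  exact ⟨_, hg x (mem_zpowers x), ConjClasses.mk_eq_mk_iff_isConj.2 (isConj_iff.2 ⟨g, rfl⟩).symm⟩

theorem main (s : Finset ℕ) (hs : ∀ q ∈ s, q.Prime) : ∀ (G : Type u) [Group G] [Fintype G],
    ∑ x ∈ Finset.univ.filter (fun x : G => PiE s x), Nat.card (centralizer ({x} : Set G)) ≤
      (∏ q ∈ s, q ^ (Nat.card G).factorization q) * Nat.card G := by
  induction s using Finset.induction_on with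
  | empty =>
    intro G _ _
    have : Finset.univ.filter (fun x : G => PiE ∅ x) ⊆ {1} := fun x hx => by
      rw [Finset.mem_singleton, ← orderOf_eq_one_iff]
      by_contra h
      exact Finset.notMem_empty _ ((Finset.mem_filter.1 hx).2 _ (Nat.minFac_prime h) (Nat.minFac_dvd _))
    refine (Finset.sum_le_sum_of_subset this).trans ?_
    rw [Finset.sum_singleton, Finset.prod_empty, one_mul]
    exact card_le_card_group _
  | insert p s hps ih =>
    intro G _ _
    have hp : Fact p.Prime := ⟨hs p (Finset.mem_insert_self _ _)⟩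
    have ih' := ih fun q hq => hs q (Finset.mem_insert_of_mem hq)
    choose u v hu hv e hu' hv' using fun g : G => H82.exists_p_parts hp.out g
    have hc : ∀ g, v g ∈ centralizer ({u g} : Set G) := fun g =>
      mem_centralizer_singleton_iff.2 (H82.commute_of_mem_zpowers (hv g) (hu g)).eq
    let T := (Finset.univ.filter (fun x : G => ∃ k, orderOf x = p ^ k)).sigma
      (fun a => Finset.univ.filter (fun y : centralizer ({a} : Set G) => PiE s y))
    let φ : G → Σ a : G, centralizer ({a} : Set G) := fun g => ⟨u g, v g, hc g⟩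
    have hφ : Function.Injective φ := fun x y h => by
      have h1 := congrArg (fun w : Σ a : G, centralizer ({a} : Set G) => w.1 * w.2) h
      exact (e x).trans (h1.trans (e y).symm)
    let F : (Σ a : G, centralizer ({a} : Set G)) → ℕ := fun w =>
      Nat.card (centralizer ({w.2} : Set (centralizer ({w.1} : Set G))))
    calc _ ≤ ∑ x ∈ Finset.univ.filter (fun x : G => PiE (insert p s) x), F (φ x) := by
          refine Finset.sum_le_sum fun x _ => ?_
          show _ ≤ Nat.card (centralizer ({(⟨v x, hc x⟩ : centralizer ({u x} : Set G))} : Set _))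
          rw [H83.card_cent_subgroup]
          exact card_le_of_le (le_inf (H83.cent_le_cent_of_mem_zpowers (hu x))
            (H83.cent_le_cent_of_mem_zpowers (hv x)))
      _ = ∑ w ∈ (Finset.univ.filter (fun x : G => PiE (insert p s) x)).map ⟨φ, hφ⟩, F w := by
          rw [Finset.sum_map]; rfl
      _ ≤ ∑ w ∈ T, F w := by
          refine Finset.sum_le_sum_of_subset fun w hw => ?_
          obtain ⟨x, hx, rfl⟩ := Finset.mem_map.1 hw
          simp only [Finset.mem_filter, Finset.mem_univ, true_and] at hx
          simp only [T, Finset.mem_sigma, Finset.mem_filter, Finset.mem_univ, true_and]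
          refine ⟨hu' x, fun q hq hd => ?_⟩
          have hd' : q ∣ orderOf (v x) := by rwa [← orderOf_coe] at hd
          refine (Finset.mem_insert.1 (hx q hq (hd'.trans (orderOf_dvd_of_mem_zpowers (hv x))))).resolve_left ?_
          rintro rfl
          exact hq.one_lt.ne' (Nat.eq_one_of_dvd_coprimes (hv' x) hd' dvd_rfl)
      _ ≤ ∑ a ∈ Finset.univ.filter (fun x : G => ∃ k, orderOf x = p ^ k),
            (∏ q ∈ s, q ^ (Nat.card G).factorization q) * Nat.card (centralizer ({a} : Set G)) := by
          rw [Finset.sum_sigma]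
          refine Finset.sum_le_sum fun a _ => (le_of_eq_of_le (by congr) (ih' _)).trans
            (Nat.mul_le_mul_right _ (Finset.prod_le_prod' fun q hq => ?_))
          exact Nat.pow_le_pow_right (hs q (Finset.mem_insert_of_mem hq)).pos
            ((Nat.factorization_le_iff_dvd Nat.card_pos.ne' Nat.card_pos.ne').2
              (card_subgroup_dvd_card _) q)
      _ ≤ _ := by
          rw [← Finset.mul_sum, Finset.prod_insert hps, mul_comm (p ^ _), mul_assoc]
          exact Nat.mul_le_mul_left _ (pbound p)

end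

/-- Let G be a finite group, π a set of primes and m the π-part of the order of G. Then the number of conjugacy classes of G consisting of π-elements (elements whose order is divisible only by primes in π) is at most m. -/
theorem result {G : Type*} [Group G] [Finite G]
    (π : Set ℕ) (hπ : ∀ q ∈ π, q.Prime)
    (m : ℕ) (hm : m ∣ Nat.card G) (hmπ : ∀ q : ℕ, q.Prime → q ∣ m → q ∈ π)
    (hm' : ∀ q ∈ π, ¬ q ∣ Nat.card G / m) :
    Nat.card {C : ConjClasses G // ∀ q : ℕ, q.Prime → (∃ g : G, ConjClasses.mk g = C ∧ q ∣ orderOf g) → q ∈ π} ≤ m := by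
  classical
  have := Fintype.ofFinite G
  have hm0 : m ≠ 0 := ne_zero_of_dvd_ne_zero Nat.card_pos.ne' hm
  have h1 := main m.primeFactors (fun q hq => Nat.prime_of_mem_primeFactors hq) G
  have h2 : ∏ q ∈ m.primeFactors, q ^ (Nat.card G).factorization q = m := by
    conv_rhs => rw [← Nat.prod_factorization_pow_eq_self hm0]
    refine Finset.prod_congr rfl fun q hq => ?_
    have hq' := Nat.prime_of_mem_primeFactors hq
    have h3 := hm' q (hmπ q hq' (Nat.dvd_of_mem_primeFactors hq))
    obtain ⟨c, hc⟩ := hm
    rw [hc, Nat.mul_div_cancel_left _ (Nat.pos_of_ne_zero hm0)] at h3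
    rw [hc, Nat.factorization_mul hm0 (by rintro rfl; simp at h3), Finsupp.add_apply,
      Nat.factorization_eq_zero_of_not_dvd h3, add_zero]
  rw [h2] at h1
  refine Nat.le_of_mul_le_mul_right ?_ (Nat.card_pos (α := G))
  rw [H83.card_classes_mul]
  refine le_trans (Finset.sum_le_sum_of_subset fun x hx => ?_) h1
  simp only [Finset.mem_filter, Finset.mem_univ, true_and] at hx ⊢
  intro q hq hd
  have h3 := hm' q (hx q hq ⟨x, rfl, hd⟩)
  have h4 : q ∣ m * (Nat.card G / m) := by
    rw [Nat.mul_div_cancel' hm]; exact hd.trans (orderOf_dvd_natCard x)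
  exact Nat.mem_primeFactors.2 ⟨hq, ((Nat.Prime.dvd_mul hq).1 h4).resolve_right h3, hm0⟩

end Cfsg.Agent.S4106
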