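import Cfsg.Statements.S4107
import Cfsg.Agent.H49.Hall
import Cfsg.Agent.H48.Base

set_option autoImplicit false
open Cfsg

namespace Cfsg.Agent.S4107

open Subgroup Cfsg.Agent.H49

/-- Let G be a finite group and N a proper non-trivial normal subgroup such that for every x outside N all elements of the coset xN have the same order as x. Then N ≤ F(G) or F(G) ≤ N, where F(G) is the Fitting subgroup; and if N is properly contained in F(G) then F(G) has prime-power order. -/
theorem result {G : Type*} [Group G] [Finite G] (N : Subgroup G) [N.Normal] (hN1 : N ≠ ⊥) (hN2 : N ≠ ⊤)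
    (heq : ∀ x : G, x ∉ N → ∀ n ∈ N, orderOf (x * n) = orderOf x) :
    (N ≤ Cfsg.fittingSubgroup G ∨ Cfsg.fittingSubgroup G ≤ N) ∧
    (N < Cfsg.fittingSubgroup G → IsPrimePow (Nat.card (Cfsg.fittingSubgroup G))) := by
  rw [← fittingOf_top]
  set F := fittingOf (⊤ : Subgroup G) with hF
  have hFn : ⊤ ≤ 𝒩(F) := le_norm_fittingOf _
  have key : ∀ q : ℕ, q.Prime → ¬ piCoreOf {q} F ≤ N → IsPi {q} N := by
    intro q hq h
    obtain ⟨x, hx, hxN⟩ := SetLike.not_le_iff_exists.1 h
    haveI : (piCoreOf {q} F).Normal := normal_iff_top_le_norm.2 (norm_piCoreOf _ hFn)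
    refine isPi_of_elt fun n hn => ?_
    have h1 : IsPiElt {q} (x * n) := by
      rw [IsPiElt, heq x hxN n hn]; exact (piCoreOf_pi _ _).elt hx
    have h2 : n ^ orderOf (x * n) ∈ piCoreOf {q} F := by
      rw [← QuotientGroup.eq_one_iff, QuotientGroup.mk_pow]
      have : ((x * n : G) : G ⧸ piCoreOf {q} F) = n := by
        rw [QuotientGroup.mk_mul, (QuotientGroup.eq_one_iff x).2 hx, one_mul]
      rw [← this, ← QuotientGroup.mk_pow, pow_orderOf_eq_one, QuotientGroup.mk_one]
    refine IsPiNat.of_dvd (IsPiNat.mul h1 ((piCoreOf_pi _ _).elt h2)) ?_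
    rw [orderOf_dvd_iff_pow_eq_one, pow_mul, pow_orderOf_eq_one]
  have key2 : ¬ F ≤ N → ∃ q : ℕ, q.Prime ∧ IsPi {q} N := by
    intro h
    by_contra hc
    push Not at hc
    exact h (H48.le_of_nil_of_pcore_le (fittingOf_nil _) fun q hq _ => by
      by_contra h'; exact hc q hq (key q hq h'))
  constructor
  · by_cases h : F ≤ N
    · exact Or.inr h
    obtain ⟨q, -, hq⟩ := key2 h
    exact Or.inl (le_fittingOf le_top le_normalizer_of_normal hq.nilpotent)
  · intro hlt
    obtain ⟨q, hq, hqN⟩ := key2 hlt.not_ge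
    have hFq : F ≤ piCoreOf {q} F := by
      refine H48.le_of_nil_of_pcore_le (fittingOf_nil _) fun r hr _ => ?_
      by_cases e : r = q
      · rw [e]
      by_cases h' : piCoreOf {r} F ≤ N
      · rw [(piCoreOf_pi {r} F).eq_bot ((hqN.of_le h').compl_singleton_of_ne (Ne.symm e))]
        exact bot_le
      · exact absurd ((key r hr h').eq_bot (hqN.compl_singleton_of_ne (Ne.symm e))) hN1
    obtain ⟨k, hk⟩ := ((piCoreOf_pi {q} F).of_le hFq).exists_card_eq_pow hq
    refine ⟨q, k, hq.prime, Nat.pos_of_ne_zero ?_, hk.symm⟩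
    rintro rfl
    rw [pow_zero, card_eq_one] at hk
    exact not_lt_bot (hk ▸ hlt)

end Cfsg.Agent.S4107
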