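import Cfsg.Statements.S4115
import Cfsg.Agent.H20.TIHall
import Cfsg.Agent.H20.FrobBridge
import Cfsg.Agent.S0877

set_option autoImplicit false
universe u
open Cfsg

namespace Cfsg.Agent.S4115

open Subgroup Cfsg.Agent.H49

theorem hall_top {G : Type u} [Group G] [Finite G] {H : Subgroup G}
    (hTI : Cfsg.IsTISubset (H : Set G)) (h : IsPiHallOf (primesOf H) H 𝒩(H)) :
    IsPiHallOf (primesOf H) H ⊤ := by
  refine hall_mk le_top h.pi (isPiNat_compl_iff.2 fun p hp hd => ?_)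
  obtain ⟨P, hP⟩ := exists_sylowOf p H
  obtain ⟨x, hx, hx1⟩ := ne_bot_iff_exists.1 (hP.ne_bot hp rfl hd.2)
  have hP' : IsSylowOf p P ⊤ := by
    refine sylowOf_of_norm_le (hP.trans_sylow h hd) le_top fun g hg => ?_
    by_contra hn
    exact hx1 (hTI g hn x (hP.le hx) (hP.le (conj_mem_of_norm le_rfl hg.2 hx)))
  exact (hP'.index_of_le hP.le).not_dvd hp rfl

theorem frob_section {G : Type u} [Group G] [Finite G] {H N : Subgroup G}
    (hTI : Cfsg.IsTISubset (H : Set G)) (hH : IsPiHallOf (primesOf H) H ⊤) (hs : IsSdp N H ⊤)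
    (hn : ¬ H.Normal) :
    ∃ (F : Type u) (_ : Group F) (_ : Finite F) (C : Subgroup F),
      Cfsg.IsFrobeniusComplement C ∧ Nonempty (H ≃* C) := by
  have hN := hH.compl_of_isComplIn (isComplIn_symm hs.isComplIn)
  have hlt : ¬ N ≤ 𝒩(H) := fun h => hn (normal_iff_top_le_norm.2 (hs.1 ▸ sup_le h le_normalizer))
  obtain ⟨q, hq, hqd⟩ := Nat.exists_prime_and_dvd (n := (N ⊓ 𝒩(H)).relIndex N)
    (fun h => hlt ((relIndex_eq_one.1 h).trans inf_le_right))
  obtain ⟨Q, hQ, hHQ⟩ : ∃ Q, IsSylowOf q Q N ∧ H ≤ 𝒩(Q) := by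
    obtain ⟨Q, hQ⟩ := exists_sylowOf q N
    have hp := frattini_arg le_top hs.norm hQ
    rw [top_inf_eq] at hp
    have h1 : IsPiHallOf (primesOf H)ᶜ (N ⊓ 𝒩(Q)) 𝒩(Q) := hN.inf_of_norm le_top (le_top.trans hs.norm)
    obtain ⟨H₁, hH₁⟩ := exists_hall_compl h1 (norm_inf (le_top.trans hs.norm) le_normalizer)
    rw [compl_compl] at hH₁
    obtain ⟨g, hg⟩ := H20.ti_hall_Jsub hH hTI hH₁.pi
    have h2 : IsPiHallOf (primesOf H) H₁ ⊤ := hH₁.of_index le_top (by
      rw [← hp.relIndex_eq]; exact hN.pi.relIndex _)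
    have e : H₁ = cj g H := h2.eq_of_le hg le_top (hH.pi.cj g)
    refine ⟨cj g⁻¹ Q, hQ.cj_of_mem_norm (hs.norm (mem_top _)), ?_⟩
    rw [← cj_normalizer, le_cj_iff, inv_inv, ← e]
    exact hH₁.le
  set Q₀ := Q ⊓ 𝒩(H) with hQ₀
  have hlt₀ : Q₀ < Q := lt_of_le_of_ne inf_le_left fun h =>
    (hQ.index_of_le (le_inf hQ.le (inf_eq_left.1 h))).not_dvd hq rfl hqd
  have hlt₁ := lt_inf_norm_of_nilpotent hQ.pi.nilpotent hlt₀
  set Q₁ := Q ⊓ 𝒩(Q₀) with hQ₁
  have hH₀ : H ≤ 𝒩(Q₀) := norm_inf hHQ (norm_norm le_normalizer)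
  have hH₁ : H ≤ 𝒩(Q₁) := norm_inf hHQ (norm_norm hH₀)
  have hπ₁ : IsPi (primesOf H)ᶜ Q₁ := hN.pi.of_le (inf_le_left.trans hQ.le)
  have hπ₀ : IsPi (primesOf H)ᶜ Q₀ := hπ₁.of_le hlt₁.le
  have hd : H ⊓ Q₀ = ⊥ := hH.pi.inf_eq_bot hπ₀
  have hfrob : IsFrob (quo Q₁ Q₀) (quo H Q₀) (quo Q₁ Q₀ ⊔ quo H Q₀) := by
    refine ⟨⟨rfl, (hπ₁.quo _).inf_eq_bot' (hH.pi.quo _), quo_norm _ hH₁⟩, ?_, ?_, ?_⟩
    · rw [Ne, quo_eq_bot_iff inf_le_right]; exact hlt₁.not_ge
    · rw [Ne, quo_eq_bot_iff hH₀, ← inf_eq_left, hd]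
      rintro rfl
      exact hn inferInstance
    · intro y hy h1
      obtain ⟨x, hx, rfl⟩ := mem_quo.1 hy
      have hx1 : (x : G) ≠ 1 := fun e => h1 (by rw [show x = 1 from Subtype.ext e, map_one])
      have hX : zpowers (x : G) ≤ H := zpowers_le.2 hx
      rw [← cent_zpowers, ← quo_zpowers, ← coprime_quo_cent (hX.trans hH₁) (hX.trans hH₀)
        ((hH.pi.of_le hX).coprime hπ₀)
        (Or.inl (solvable_of_abelian (abelian_of_cyclic inferInstance))), cent_zpowers]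
      refine quo_eq_bot_of_le fun z hz => ⟨hz.1.1, ?_⟩
      by_contra hzn
      refine hx1 (hTI z hzn x hx ?_)
      rw [mem_cent1.1 hz.2, mul_inv_cancel_right]; exact hx
  exact ⟨_, inferInstance, inferInstance, _, H20.isFrobeniusComplement_of_isFrob hfrob,
    ⟨(quoEquivOfDisjoint hH₀ hd).trans (subgroupOfEquivOfLe le_sup_right).symm⟩⟩

/-- Let G be a finite group and H a subgroup that meets each of its conjugates by elements outside N_G(H) trivially and whose order is coprime to its index in N_G(H). Then H has a normal complement in N_G(H) if and only if H has a normal complement in G. Moreover, if H is not normal in G and has a normal complement in N_G(H), then H is isomorphic to a Frobenius complement of some finite Frobenius group. -/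
theorem result {G : Type u} [Group G] [Finite G] (H : Subgroup G)
    (hTI : Cfsg.IsTISubset (H : Set G)) (hHall : (Nat.card H).Coprime (H.subgroupOf (Subgroup.normalizer (H : Set G))).index) :
    ((∃ K : Subgroup (Subgroup.normalizer (H : Set G)), K.Normal ∧ K.IsComplement' (H.subgroupOf (Subgroup.normalizer (H : Set G)))) ↔
      (∃ N : Subgroup G, N.Normal ∧ N.IsComplement' H)) ∧
    (¬ H.Normal → (∃ K : Subgroup (Subgroup.normalizer (H : Set G)), K.Normal ∧ K.IsComplement' (H.subgroupOf (Subgroup.normalizer (H : Set G)))) →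
      ∃ (F : Type u) (_ : Group F) (_ : Finite F) (C : Subgroup F), Cfsg.IsFrobeniusComplement C ∧ Nonempty (H ≃* C)) := by
  have hH : IsPiHallOf (primesOf H) H ⊤ := hall_top hTI (IsHallOf.hall ⟨le_normalizer, by
    exact hHall⟩)
  have h1 : (∃ K : Subgroup (Subgroup.normalizer (H : Set G)), K.Normal ∧
      K.IsComplement' (H.subgroupOf (Subgroup.normalizer (H : Set G)))) → ∃ N, IsSdp N H ⊤ := by
    rintro ⟨K, hKn, hK⟩
    have hc : IsComplIn (K.map 𝒩(H).subtype) H 𝒩(H) :=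
      (isComplIn_iff_isComplement' (map_subtype_le K) le_normalizer).2 (by
        rwa [subgroupOf, comap_map_eq_self_of_injective 𝒩(H).subtype_injective])
    have hcent : K.map 𝒩(H).subtype ≤ 𝒞(H) := cent_of_norm_of_disjoint (map_subtype_le K)
      (le_normalizer.trans (norm_map_subtype K)) (isComplIn_iff.1 hc).2
    obtain ⟨N, hNn, h1, h2⟩ := S0877.result H (by simpa using hH.coprime) (by
      intro x hx y hy hxy
      obtain ⟨g, rfl⟩ := isConj_iff.1 hxy
      by_cases hx1 : x = 1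
      · exact ⟨1, one_mem _, by simp [hx1]⟩
      have hg : g ∈ 𝒩(H) := by
        by_contra hn
        exact hx1 (hTI g hn x hx hy)
      obtain ⟨h, hh, k, hk, rfl⟩ := (isComplIn_iff.1 hc).1.symm.2.2 g hg
      refine ⟨h, hh, ?_⟩
      calc h * x * h⁻¹ = h * (x * k) * k⁻¹ * h⁻¹ := by group
        _ = _ := by rw [hcent hk x hx]; group) (by
      intro E p _ _ hE
      obtain ⟨g, hg⟩ := H20.ti_hall_Jsub hH hTI (K := E) (IsPiNat.of_dvd hH.pi hE)
      exact ⟨g⁻¹, le_cj_iff.1 hg⟩)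
    exact ⟨N, h1, h2, le_normalizer_of_normal⟩
  refine ⟨⟨fun h => ?_, ?_⟩, fun hn h => ?_⟩
  · obtain ⟨N, hN⟩ := h1 h
    exact ⟨N, normal_iff_top_le_norm.2 hN.norm, isComplIn_top_iff.1 hN.isComplIn⟩
  · rintro ⟨N, hNn, hN⟩
    have hs := (IsSdp.of_isComplIn (isComplIn_top_iff.2 hN) le_normalizer_of_normal).restrict_right
      (L := 𝒩(H)) le_normalizer le_top
    exact ⟨_, normal_subgroupOf hs.norm,
      (isComplIn_iff_isComplement' hs.left_le hs.right_le).1 hs.isComplIn⟩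
  · obtain ⟨N, hN⟩ := h1 h
    exact frob_section hTI hH hN hn

end Cfsg.Agent.S4115
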