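import Cfsg.Statements.S4117
import Cfsg.Agent.H85.Action
import Cfsg.Agent.H50.Section
import Cfsg.Agent.H47.Cyc
import Cfsg.Agent.H49.Hall

set_option autoImplicit false
open Cfsg

namespace Cfsg.Agent.S4117

open Subgroup Cfsg.Agent.H49

theorem ambient {X : Type*} [Group X] [Finite X] {K B : Subgroup X} [IsZGroup K] (hn : B ≤ 𝒩(K))
    (hc : (Nat.card B).Coprime (Nat.card K)) :
    IsCyclic ↥⁅K, B⁆ ∧ ⁅K, B⁆ ⊓ (K ⊓ 𝒞(B)) = ⊥ ∧ ⁅K, B⁆ ⊔ (K ⊓ 𝒞(B)) = K ∧
      (Nat.card ↥(K ⊓ 𝒞(B))).Coprime (Nat.card ↥⁅K, B⁆) := by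
  have hs : Group.IsSolvable K := inferInstance
  have hD : ⁅K, B⁆ ≤ K := commutator_le_left_of_norm hn
  have h1 : IsCyclic ↥⁅K, K⁆ := by
    rw [← map_subtype_commutator]
    exact cyclic_map (IsZGroup.isCyclic_commutator K) _
  have h2 : ⁅K, B⁆ ≤ 𝒞(⁅K, K⁆) := (commutator_mono le_sup_left le_sup_right).trans
    (H50.der_cent_cyclic (A := K ⊔ B) h1 (sup_le norm_der (norm_commutator hn hn)))
  have h3 : IsCyclic ↥⁅K, B⁆ := by
    have : IsZGroup ↥⁅K, B⁆ := IsZGroup.of_injective (inclusion_injective hD)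
    have : Group.IsNilpotent ↥⁅K, B⁆ := by
      refine ⟨2, ?_⟩
      rw [← Subgroup.lowerCentralSeries_eq_bot_iff_upperCentralSeries_eq_top]
      apply map_injective (subtype_injective _)
      change map _ ⁅⁅⊤, ⊤⁆, ⊤⁆ = _
      rw [Subgroup.map_commutator, Subgroup.map_commutator, map_subtype_top, Subgroup.map_bot,
        H49.commutator_eq_bot_iff]
      exact (der_mono hD).trans (cent_symm h2)
    infer_instance
  have h4 : ⁅K, B⁆ ⊓ (K ⊓ 𝒞(B)) = ⊥ := by
    have := (coprime_abelian_dp (abelian_of_cyclic h3) (le_norm_commutator_right K B)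
      (coprime_of_le hc le_rfl hD)).2.1
    rw [coprime_comm_comm hn hc (Or.inr hs)] at this
    rw [eq_bot_iff, ← this]
    exact le_inf (inf_le_inf_left _ inf_le_right) inf_le_left
  refine ⟨h3, h4, coprime_comm_sup_cent hn hc (Or.inr hs), ?_⟩
  refine Nat.Coprime.symm (Nat.coprime_of_dvd fun p hp hd1 hd2 => ?_)
  have := Fact.mk hp
  obtain ⟨Y, hY, hYp⟩ := exists_card_eq_prime hp hd2
  obtain ⟨P, hP, hYP⟩ := exists_sylowOf_ge (isPi_of_card_eq_prime hp hYp) (hY.trans inf_le_left)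
  have hPc : IsCyclic P := by
    obtain ⟨Q, rfl⟩ := exists_sylow_of hp hP
    exact cyclic_map inferInstance _
  have h5 := H47.cyc_prime_le hPc hYP inf_le_left hYp
    ((hP.inf_normal hD (le_norm_commutator_left K B)).dvd_card hp rfl hd1)
  exact ne_bot_of_prime_card (hYp ▸ hp) (le_bot_iff.1 (h4 ▸ le_inf (h5.trans inf_le_right) hY))

/-- Let A be a finite group acting on the finite group G by automorphisms with the orders of A and G coprime, and suppose every Sylow subgroup of G is cyclic. Then the fixed-point subgroup C_G(A) is a Hall subgroup of G (its order is coprime to its index), the subgroup [G, A] generated by the elements g⁻¹·a(g) is cyclic and normal with [G, A] ∩ C_G(A) = 1 and [G, A]·C_G(A) = G. -/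
theorem result {G A : Type*} [Group G] [Finite G] [Group A] [Finite A]
    [MulDistribMulAction A G] (hcop : (Nat.card A).Coprime (Nat.card G))
    (hcyc : ∀ (p : ℕ) [Fact p.Prime] (P : Sylow p G), IsCyclic (P : Subgroup G)) :
    (Nat.card (MulAction.fixedPoints A G : Set G)).Coprime (Nat.card G / Nat.card (MulAction.fixedPoints A G : Set G)) ∧
    IsCyclic (Subgroup.closure {y : G | ∃ (a : A) (g : G), y = g⁻¹ * a • g}) ∧
    (Subgroup.closure {y : G | ∃ (a : A) (g : G), y = g⁻¹ * a • g}).Normal ∧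
    (Subgroup.closure {y : G | ∃ (a : A) (g : G), y = g⁻¹ * a • g} : Set G) ∩ MulAction.fixedPoints A G = {1} ∧
    Subgroup.closure {y : G | ∃ (a : A) (g : G), y = g⁻¹ * a • g} ⊔ Subgroup.closure (MulAction.fixedPoints A G) = ⊤ := by
  have := H85.finite_SD (A := A) (G := G)
  have hZ : IsZGroup G := ⟨fun p hp P => by have := Fact.mk hp; exact hcyc p P⟩
  let f : G →* H85.SD A G := SemidirectProduct.inl
  have hf : Function.Injective f := SemidirectProduct.inl_injective
  let K : Subgroup (H85.SD A G) := (⊤ : Subgroup G).map f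
  let B : Subgroup (H85.SD A G) := (⊤ : Subgroup A).map SemidirectProduct.inr
  have : IsZGroup K := IsZGroup.of_surjective (f := f.subgroupMap ⊤) (f.subgroupMap_surjective ⊤)
  have hn : B ≤ 𝒩(K) := (H85.SD_le_normalizer_iff ⊤ ⊤).2 fun _ _ _ _ => trivial
  obtain ⟨h1, h2, h3, h4⟩ := ambient hn (by
    rwa [H85.SD_card_left, H85.SD_card_right, card_top, card_top])
  set D := Subgroup.closure {y : G | ∃ (a : A) (g : G), y = g⁻¹ * a • g} with hD
  let C : Subgroup G := FixedPoints.subgroup A G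
  have hC : MulAction.fixedPoints A G = C := rfl
  have eD : ⁅K, B⁆ = D.map f := by
    apply le_antisymm
    · rw [commutator_le]
      rintro _ ⟨g, -, rfl⟩ _ ⟨a, -, rfl⟩
      refine ⟨_, subset_closure ⟨a, g⁻¹, rfl⟩, ?_⟩
      rw [map_mul, ← H85.SD_conj, commutatorElement_def]
      simp [f, mul_assoc]
    · rw [map_le_iff_le_comap, closure_le]
      rintro _ ⟨a, g, rfl⟩
      have := commutator_mem_commutator (H₁ := K) (H₂ := B) ⟨g⁻¹, mem_top _, rfl⟩ ⟨a, mem_top _, rfl⟩
      convert this using 1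
      rw [SetLike.mem_coe, mem_comap, map_mul, ← H85.SD_conj, commutatorElement_def]
      simp [f, mul_assoc]
  have eC : K ⊓ 𝒞(B) = C.map f := by
    apply le_antisymm
    · rintro _ ⟨⟨g, -, rfl⟩, hg⟩
      exact ⟨g, fun a => (H85.SD_mem_centralizer_iff ⊤ g).1 hg a trivial, rfl⟩
    · rintro _ ⟨g, hg, rfl⟩
      exact ⟨⟨g, trivial, rfl⟩, (H85.SD_mem_centralizer_iff ⊤ g).2 fun a _ => hg a⟩
  have h5 := le_norm_commutator_left K B
  rw [eD] at h1 h5
  rw [eD, eC] at h2 h3 h4
  rw [← map_inf _ _ _ hf, map_eq_bot_iff_of_injective _ hf] at h2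
  rw [← Subgroup.map_sup] at h3
  replace h3 := map_injective hf h3
  rw [card_map_of_injective hf, card_map_of_injective hf] at h4
  have hDn : D.Normal := ⟨fun x hx g => (mem_map_iff_mem hf).1 (by
    rw [map_mul, map_mul, map_inv]
    exact conj_mem_of_norm h5 ⟨g, trivial, rfl⟩ ⟨x, hx, rfl⟩)⟩
  rw [hC, closure_eq]
  refine ⟨?_, (D.equivMapOfInjective f hf).isCyclic.2 h1, hDn, ?_, h3⟩
  · have := card_sup_of_disjoint (Or.inr (le_normalizer_of_normal (H := D))) h2
    rw [h3, card_top] at this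
    rw [this]
    change (Nat.card C).Coprime (_ / Nat.card C)
    rwa [Nat.mul_div_cancel _ Nat.card_pos]
  · rw [← coe_inf, h2, coe_bot]

end Cfsg.Agent.S4117
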