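import Cfsg.Statements.S4126
import Cfsg.Agent.H3.Frobenius
import Cfsg.Agent.H22.Core
import Cfsg.Agent.H4.CoprimeAut
import Cfsg.Agent.H20.Frattini
import Cfsg.Agent.H69.Cores
import Cfsg.Agent.H49.Prod

set_option autoImplicit false
open Cfsg

namespace Cfsg.Agent.S4126


open Subgroup
open scoped commutatorElement

variable {G : Type*} [Group G] [Finite G] {p : ℕ} [hp : Fact p.Prime]

theorem index_eq_one_of {K : Subgroup G} (P : Sylow p G) (h : (P : Subgroup G) ≤ K) {a : ℕ}
    (hK : K.index ∣ p ^ a) : K = ⊤ := by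
  rw [← index_eq_one]
  obtain ⟨i, -, hi⟩ := (Nat.dvd_prime_pow hp.out).1 hK
  rcases i with _ | i
  · simpa using hi
  · exact absurd ((Dvd.intro_left _ (by rw [hi, pow_succ])).trans (index_dvd_of_le h)) P.not_dvd_index

theorem key (N : Subgroup G) : N.Normal → IsPGroup p N →
    (∀ x ∈ N, (x ^ p = 1 ∨ (p = 2 ∧ x ^ 4 = 1)) → ∃ a : ℕ, (centralizer ({x} : Set G)).index = p ^ a) →
    N ≤ centralizer (pResidual p G : Set G) := by
  induction N using WellFoundedLT.induction with
  | ind N ih =>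
  intro hNn hN hx
  by_contra hcon
  set R := pResidual p G with hR
  set B := N ⊓ centralizer (R : Set G) with hB
  have hBn : B.Normal := inferInstance
  have IH : ∀ M : Subgroup G, M.Normal → M ≤ N → M ≠ N → M ≤ B := fun M hM h1 h2 =>
    le_inf h1 (ih M (lt_of_le_of_ne h1 h2) hM (hN.to_le h1) fun x hxM => hx x (h1 hxM))
  have hcm : ∀ y : G, ∀ x ∈ N, x⁻¹ * (y * x * y⁻¹) ∈ N := fun y x hxN =>
    N.mul_mem (N.inv_mem hxN) (hNn.conj_mem x hxN y)
  have star : ¬ ∀ y ∈ R, ∀ x ∈ N, x⁻¹ * (y * x * y⁻¹) ∈ B := by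
    intro h
    apply hcon
    rw [le_centralizer_iff, hR, H3.pResidual_le_iff]
    intro y hy
    have hyR : y ∈ R := H3.mem_pResidual_of_coprime hy
    exact H4.mem_centralizer_of_stabilizes (N := B) (hN.to_le inf_le_left) hy
      (fun b hb => (hb.2 y hyR).symm) (h y hyR)
  -- a normal subgroup of `N` containing all `[x, y]` is `N`
  have full : ∀ M : Subgroup G, M.Normal → M ≤ N →
      (∀ y ∈ R, ∀ x ∈ N, x⁻¹ * (y * x * y⁻¹) ∈ M) → M = N := fun M hM h1 h2 => by
    by_contra hne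
    exact star fun y hy x hxN => IH M hM h1 hne (h2 y hy x hxN)
  have hNb : N ≠ ⊥ := by rintro rfl; exact hcon bot_le
  have hΦ : (frattini N).map N.subtype ≤ B := by
    refine IH _ (H20.map_frattini_normal N) (map_subtype_le _) fun h => ?_
    have h1 : frattini N = ⊤ := by
      apply map_injective N.subtype_injective
      rw [h, ← MonoidHom.range_eq_map, range_subtype]
    haveI := (nontrivial_iff_ne_bot N).2 hNb
    obtain ⟨M, hM, -⟩ := (eq_top_or_exists_le_coatom (⊥ : Subgroup N)).resolve_left bot_ne_top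
    exact hM.1 (top_le_iff.1 (h1.ge.trans (frattini_le_coatom hM)))
  obtain ⟨hcomm, hpow⟩ := (H3.map_frattini_le_iff hN).1 hΦ
  have hBC : ∀ b ∈ B, ∀ x ∈ N, x * b = b * x := by
    have := full (N ⊓ centralizer (B : Set G)) inferInstance inf_le_left fun y hy x hxN =>
      ⟨hcm y x hxN, fun b hb => by
        have h1 : y * (x * b * x⁻¹) = (x * b * x⁻¹) * y := (hBn.conj_mem b hb x).2 y hy
        have h2 : y * b = b * y := hb.2 y hy
        calc b * (x⁻¹ * (y * x * y⁻¹)) = x⁻¹ * ((x * b * x⁻¹) * y) * x * y⁻¹ := by group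
          _ = x⁻¹ * (y * (x * b * x⁻¹)) * x * y⁻¹ := by rw [h1]
          _ = x⁻¹ * (y * x * y⁻¹) * (y * b) * y⁻¹ := by group
          _ = x⁻¹ * (y * x * y⁻¹) * b := by rw [h2]; group⟩
    intro b hb x hxN
    exact ((this.ge hxN).2 b hb).symm
  obtain ⟨e, he1, he2, he3⟩ : ∃ e : ℕ, p ∣ e ∧ p ∣ e.choose 2 ∧ (e = p ∨ (p = 2 ∧ e = 4)) := by
    rcases hp.out.eq_two_or_odd' with h | h
    · exact ⟨4, by rw [h]; norm_num, by rw [h]; decide, Or.inr ⟨h, rfl⟩⟩
    · exact ⟨p, dvd_rfl, H3.dvd_choose_two_of_odd h, Or.inl rfl⟩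
  have hmul : ∀ x ∈ N, ∀ y ∈ N, (x * y) ^ e = x ^ e * y ^ e := by
    intro x hxN y hy
    have hc : ⁅y, x⁆ ∈ B := hcomm (commutator_mem_commutator hy hxN)
    have c1 : Commute x ⁅y, x⁆ := hBC _ hc x hxN
    have c2 : Commute y ⁅y, x⁆ := hBC _ hc y hy
    have h1 : ⁅y, x⁆ ^ p = 1 := by
      rw [← H3.commutator_pow_left_of_commute c2, commutatorElement_eq_one_iff_mul_comm]
      exact (hBC _ (hpow y hy) x hxN).symm
    obtain ⟨k, hk⟩ := he2
    rw [H3.mul_pow_of_commute_commutator c1 c2, hk, pow_mul, h1, one_pow, one_mul]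
  let E : Subgroup G :=
    { carrier := {x | x ∈ N ∧ x ^ e = 1}
      one_mem' := ⟨N.one_mem, one_pow _⟩
      mul_mem' := fun {a b} ha hb => ⟨N.mul_mem ha.1 hb.1, by rw [hmul a ha.1 b hb.1, ha.2, hb.2, one_mul]⟩
      inv_mem' := fun {a} ha => ⟨N.inv_mem ha.1, by rw [inv_pow, ha.2, inv_one]⟩ }
  have hE : E = N := by
    refine full E ⟨fun x hxE g => ⟨hNn.conj_mem x hxE.1 g, by rw [conj_pow, hxE.2]; group⟩⟩
      (fun x hxE => hxE.1) fun y hy x hxN => ⟨hcm y x hxN, ?_⟩
    obtain ⟨k, hk⟩ := he1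
    have h1 : x ^ e ∈ B := by rw [hk, pow_mul]; exact B.pow_mem (hpow x hxN) k
    have h2 : y * x ^ e = x ^ e * y := h1.2 y hy
    rw [hmul _ (N.inv_mem hxN) _ (hNn.conj_mem x hxN y), conj_pow, h2, inv_pow]
    group
  have hall : ∀ x ∈ N, ∃ a : ℕ, (centralizer ({x} : Set G)).index = p ^ a := by
    intro x hxN
    have h1 : x ^ e = 1 := (hE.ge hxN).2
    refine hx x hxN ?_
    rcases he3 with rfl | ⟨h2, rfl⟩
    · exact Or.inl h1
    · exact Or.inr ⟨h2, h1⟩
  set f := QuotientGroup.mk' B with hf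
  have hfs : Function.Surjective f := QuotientGroup.mk'_surjective B
  obtain ⟨P⟩ : Nonempty (Sylow p (G ⧸ B)) := inferInstance
  haveI : (N.map f).Normal := hNn.map f hfs
  have hne : N.map f ≠ ⊥ := by
    rw [Ne, Subgroup.map_eq_bot_iff, QuotientGroup.ker_mk']
    exact fun h => hcon (h.trans inf_le_right)
  have h3 := H69.inf_centralizer_ne_bot (T := (P : Subgroup (G ⧸ B))) (N := N.map f) P.isPGroup'
    (hN.map f) (by rw [normalizer_eq_top]; exact le_top) hne
  obtain ⟨⟨w, ⟨z, hz, rfl⟩, hw⟩, hw1⟩ := ne_bot_iff_exists_ne_one.1 h3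
  have hzB : z ∉ B := fun h => hw1 (Subtype.ext ((QuotientGroup.eq_one_iff z).2 h))
  obtain ⟨a, ha⟩ := hall z hz
  have h4 : centralizer ({f z} : Set (G ⧸ B)) = ⊤ := by
    refine index_eq_one_of P (a := a) (fun u hu => mem_centralizer_singleton_iff.2 (hw u hu)) ?_
    rw [← ha]
    refine (index_dvd_of_le ?_).trans ((centralizer ({z} : Set G)).index_map_dvd hfs)
    rintro _ ⟨u, hu, rfl⟩
    rw [mem_centralizer_singleton_iff, ← map_mul, ← map_mul, mem_centralizer_singleton_iff.1 hu]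
  have h5 : N ⊓ (center (G ⧸ B)).comap f = N := by
    by_contra h
    refine hzB (IH _ inferInstance inf_le_left h ⟨hz, ?_⟩)
    change f z ∈ center _
    rw [mem_center_iff]
    exact fun u => mem_centralizer_singleton_iff.1 (h4.ge (mem_top u))
  refine star fun y _ x hxN => ?_
  have h6 : f y * f x = f x * f y := mem_center_iff.1 (h5.ge hxN).2 (f y)
  rw [← QuotientGroup.eq_one_iff]
  change f _ = 1
  simp only [map_mul, map_inv]
  rw [h6]; group

theorem mem_pCore {x : G} (hx : IsPGroup p (zpowers x)) {a : ℕ}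
    (h : (centralizer ({x} : Set G)).index = p ^ a) : x ∈ pCore p G := by
  obtain ⟨P, hP⟩ := hx.exists_le_sylow
  have hpr := H49.isProd_of_coprime_relIndex (H := (P : Subgroup G))
    (K := centralizer ({x} : Set G)) (M := ⊤) le_top le_top (by
      rw [relIndex_top_right, relIndex_top_right, h]
      exact Nat.Coprime.pow_right _ ((hp.out.coprime_iff_not_dvd.2 P.not_dvd_index).symm))
  have h1 : normalClosure ({x} : Set G) ≤ P := by
    rw [normalClosure, closure_le]
    intro y hy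
    obtain ⟨w, hw, hy2⟩ := Group.mem_conjugatesOfSet_iff.1 hy
    rw [Set.mem_singleton_iff.1 hw] at hy2
    obtain ⟨g, rfl⟩ := isConj_iff.1 hy2
    obtain ⟨u, hu, c, hc, rfl⟩ := hpr.2.2 g (mem_top g)
    have : u * c * x * (u * c)⁻¹ = u * x * u⁻¹ := by
      rw [mul_assoc u c, mem_centralizer_singleton_iff.1 hc]; group
    rw [this]
    exact (P : Subgroup G).mul_mem ((P : Subgroup G).mul_mem hu (hP (mem_zpowers _)))
      ((P : Subgroup G).inv_mem hu)
  exact H22.le_pCore inferInstance (P.isPGroup'.to_le h1) (subset_normalClosure rfl)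


/-- Let G be a finite group and p a prime. Suppose every element of order p, and when p = 2 also every element of order 4, has a conjugacy class of p-power size. Then G has a normal p-complement. -/
theorem result {G : Type*} [Group G] [Finite G] (p : ℕ) [Fact p.Prime]
    (h : ∀ x : G, (orderOf x = p ∨ (p = 2 ∧ orderOf x = 4)) → ∃ a : ℕ, (Subgroup.centralizer ({x} : Set G)).index = p ^ a) :
    Cfsg.HasNormalPComplement p G := by
  rename_i hp
  have h0 : ∀ x : G, (x ^ p = 1 ∨ (p = 2 ∧ x ^ 4 = 1)) →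
      ∃ a : ℕ, (centralizer ({x} : Set G)).index = p ^ a := by
    intro x hx
    by_cases h1 : x = 1
    · exact ⟨0, by
        rw [pow_zero, index_eq_one, eq_top_iff]
        intro u _
        rw [mem_centralizer_singleton_iff, h1]; simp⟩
    apply h
    rcases hx with hx | ⟨rfl, hx⟩
    · exact Or.inl (orderOf_eq_prime hx h1)
    · obtain ⟨i, hi, hi2⟩ := (Nat.dvd_prime_pow Nat.prime_two).1
        (show orderOf x ∣ 2 ^ 2 from orderOf_dvd_of_pow_eq_one hx)
      interval_cases i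
      · exact absurd (orderOf_eq_one_iff.1 hi2) h1
      · exact Or.inl hi2
      · exact Or.inr ⟨rfl, hi2⟩
  have h1 := key (pCore p G) inferInstance H22.isPGroup_pCore fun x _ hx => h0 x hx
  have h2 : ∀ x : G, (x ^ p = 1 ∨ (p = 2 ∧ x ^ 4 = 1)) → x ∈ centralizer (pResidual p G : Set G) := by
    intro x hx
    obtain ⟨a, ha⟩ := h0 x hx
    refine h1 (mem_pCore ?_ ha)
    have : ∃ k, x ^ p ^ k = 1 := by
      rcases hx with hx | ⟨rfl, hx⟩
      · exact ⟨1, by simpa using hx⟩
      · exact ⟨2, hx⟩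
    obtain ⟨k, hk⟩ := this
    rintro ⟨_, n, rfl⟩
    exact ⟨k, Subtype.ext (by
      simp only [SubmonoidClass.coe_pow, OneMemClass.coe_one]
      rw [← zpow_natCast, ← zpow_mul, mul_comm, zpow_mul, zpow_natCast, hk, one_zpow])⟩
  rw [H3.hasNormalPComplement_iff_frobenius]
  intro Q hQ g hg hc
  set H := normalizer (Q : Set G)
  have h3 := key (p := p) (Q.subgroupOf H) inferInstance (hQ.comap_subtype) (by
    intro x _ hx
    have hx' : (x : G) ∈ centralizer (pResidual p G : Set G) := h2 x (by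
      rcases hx with hx | ⟨h4, hx⟩
      · exact Or.inl (by simpa using congrArg Subtype.val hx)
      · exact Or.inr ⟨h4, by simpa using congrArg Subtype.val hx⟩)
    have h5 : pResidual p H ≤ centralizer ({x} : Set H) := by
      rw [H3.pResidual_le_iff]
      intro y hy
      rw [mem_centralizer_singleton_iff]
      exact Subtype.ext (hx' y (H3.mem_pResidual_of_coprime (by simpa using hy)))
    obtain ⟨k, hk⟩ := H3.exists_index_pResidual_eq_pow (p := p) (G := H)
    obtain ⟨i, -, hi⟩ := (Nat.dvd_prime_pow hp.out).1 (hk ▸ index_dvd_of_le h5)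
    exact ⟨i, hi⟩)
  intro x hx
  have h6 := h3 (x := ⟨x, le_normalizer hx⟩) hx ⟨g, hg⟩
    (H3.mem_pResidual_of_coprime (by simpa using hc))
  exact (congrArg Subtype.val h6).symm

end Cfsg.Agent.S4126
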