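import Cfsg.Statements.S4127
import Cfsg.Agent.H8.ClsSz
import Cfsg.Agent.S0028

set_option autoImplicit false
open Cfsg

namespace Cfsg.Agent.S4127

open Subgroup Cfsg.Agent.H83

/-- Let G be a finite group, p a prime and p^a the largest power of p dividing the size of any conjugacy class of G. If some element of p-power order has a conjugacy class of size exactly p^a, then G has a normal p-complement. -/
theorem result {G : Type*} [Group G] [Finite G] (p : ℕ) [Fact p.Prime]
    (a : ℕ) (hmax : ∀ y : G, ¬ p ^ (a + 1) ∣ (Subgroup.centralizer ({y} : Set G)).index)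
    (hx : ∃ x : G, (∃ k : ℕ, orderOf x = p ^ k) ∧ (Subgroup.centralizer ({x} : Set G)).index = p ^ a) :
    Cfsg.HasNormalPComplement p G := by
  obtain ⟨x, ⟨k, hk⟩, ha⟩ := hx
  have hp : p.Prime := Fact.out
  set C := centralizer ({x} : Set G) with hC
  have h1 : ∀ y : C, (orderOf y).Coprime p → ¬ p ∣ cs(y) := by
    intro y hy hd
    rw [cs_subgroup] at hd
    have hc : Commute x (y : G) := (mem_cent.1 y.2).symm
    have hcop : (orderOf x).Coprime (orderOf (y : G)) := by
      rw [hk, orderOf_coe]; exact (hy.pow_right k).symm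
    apply hmax (x * y)
    rw [H8.cs_mul_of_coprime hc hcop, ← hC, ha, pow_succ']
    exact Nat.mul_dvd_mul_right hd _
  have h2 := H8.hasNormalPComplement_of_cs_not_dvd h1
  set K := (pResidual p C).map C.subtype with hK
  have hKc : (Nat.card K).Coprime p := by
    rw [hK, card_map_of_injective C.subtype_injective]
    exact H3.hasNormalPComplement_iff_coprime.1 h2
  have hKo : ∀ g ∈ K, (orderOf g).Coprime p := (H3.coprime_card_subgroup_iff K).1 hKc
  have hKC : K ≤ C := H3.map_subtype_pResidual_le_self C
  have hxU : x ∈ pCore p G := H8.mem_pCore_of_cs_pow hk ha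
  have := H44.pCore_characteristic (G := G) (p := p)
  have hKU : K ≤ centralizer (pCore p G : Set G) := by
    apply S0028.result p (zpowers x) K (pCore p G) (H82.isPGroup_zpowers hk) hKc H44.pCore_isPGroup
    · rw [zpowers_le, mem_centralizer_iff]
      intro g hg
      exact mem_cent.1 (hKC hg)
    · rw [normalizer_eq_top]; exact le_top
    · rw [normalizer_eq_top]; exact le_top
    · intro u hu
      rw [H21.centralizer_zpowers] at hu
      obtain ⟨j, hj⟩ := H82.orderOf_eq_pow_of_mem H44.pCore_isPGroup hu.1
      rw [mem_centralizer_iff]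
      intro g hg
      have h3 : Commute (⟨u, hu.2⟩ : C) ⟨g, hKC hg⟩ :=
        H8.commute_of_cs_not_dvd h1 (k := j) (by rw [← hj, ← orderOf_coe])
          (by rw [← orderOf_coe]; exact hKo g hg)
      exact (congrArg Subtype.val h3.eq).symm
  rw [H3.hasNormalPComplement_iff_exists_normal]
  refine ⟨K, ⟨fun g hg c => ?_⟩, hKc, ?_⟩
  · apply H3.mem_map_subtype_pResidual_of_coprime
    · have h4 : c * g * c⁻¹ ∈ centralizer (pCore p G : Set G) :=
        (inferInstance : (centralizer (pCore p G : Set G)).Normal).conj_mem _ (hKU hg) c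
      exact mem_cent.2 (mem_centralizer_iff.1 h4 x hxU).symm
    · have : orderOf (c * g * c⁻¹) = orderOf g := (MulAut.conj c).orderOf_eq g
      rw [this]; exact hKo g hg
  · obtain ⟨j, hj⟩ := H3.exists_index_pResidual_eq_pow (G := C) (p := p)
    refine ⟨j + a, ?_⟩
    rw [hK, index_map_subtype, hj, ha, pow_add]

end Cfsg.Agent.S4127
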