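import Cfsg.Statements.S4139
import Cfsg.Agent.H8.ClsSz
import Cfsg.Agent.H8.Shintani
import Cfsg.Agent.H3.NilpotentHall

set_option autoImplicit false
open Cfsg

namespace Cfsg.Agent.S4139

open Subgroup Cfsg.Agent.H83
open scoped commutatorElement

theorem card_cs_eq {G : Type*} [Group G] [Finite G] (k : ℕ) :
    Nat.card {x : G // cs(x) = k} = Nat.card {C : ConjClasses G // Nat.card C.carrier = k} * k := by
  have := H8.card_eq_of_fibers (S := {x : G // cs(x) = k})
    (A := {C : ConjClasses G // Nat.card C.carrier = k}) (B := Fin k)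
    (fun x => ⟨ConjClasses.mk x.1, by rw [card_carrier_mk, x.2]⟩) (by
      rintro ⟨C, hC⟩
      have e1 : C.carrier ≃ Fin k := (Finite.equivFinOfCardEq hC)
      refine ⟨Equiv.trans ?_ e1⟩
      refine ⟨fun s => ⟨s.1.1, ?_⟩, fun c => ⟨⟨c.1, ?_⟩, ?_⟩, fun s => rfl, fun c => rfl⟩
      · have := congrArg Subtype.val s.2
        exact ConjClasses.mem_carrier_iff_mk_eq.2 this
      · rw [← card_carrier_mk, ConjClasses.mem_carrier_iff_mk_eq.1 c.2, hC]
      · exact Subtype.ext (ConjClasses.mem_carrier_iff_mk_eq.1 c.2))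
  rw [this, Nat.card_eq_fintype_card (α := Fin k), Fintype.card_fin]

theorem pow_iff {G : Type*} [Group G] [Finite G] (p : ℕ) [hp : Fact p.Prime] (x : G) :
    (∃ k, cs(x) = p ^ k) ↔ ∃ k, (centralizer ({x} : Set G)).relIndex (pResidual p G) = p ^ k := by
  constructor
  · rintro ⟨k, hk⟩
    have := H3.relIndex_dvd_index_of_normal_right (centralizer ({x} : Set G)) (pResidual p G)
    rw [hk] at this
    obtain ⟨j, -, hj⟩ := (Nat.dvd_prime_pow hp.out).1 this
    exact ⟨j, hj⟩
  · rintro ⟨k, hk⟩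
    obtain ⟨j, hj⟩ := H3.exists_index_pResidual_eq_pow (G := G) (p := p)
    have h1 : (centralizer ({x} : Set G) ⊓ pResidual p G).index = p ^ (k + j) := by
      rw [← relIndex_mul_index inf_le_right, inf_relIndex_right, hk, hj, pow_add]
    have h2 : cs(x) ∣ p ^ (k + j) := h1 ▸ index_dvd_of_le inf_le_left
    obtain ⟨i, -, hi⟩ := (Nat.dvd_prime_pow hp.out).1 h2
    exact ⟨i, hi⟩

theorem mul_pow_cs {G : Type*} [Group G] [Finite G] (p : ℕ) [hp : Fact p.Prime] {x d : G}
    (hx : ∃ k, cs(x) = p ^ k) (hd : d ∈ centralizer (pResidual p G : Set G)) :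
    ∃ k, cs(x * d) = p ^ k := by
  rw [pow_iff] at hx ⊢
  have : centralizer ({x * d} : Set G) ⊓ pResidual p G = centralizer ({x} : Set G) ⊓ pResidual p G := by
    ext g
    simp only [mem_inf, mem_cent, and_congr_left_iff]
    intro hg
    have h := mem_centralizer_iff.1 hd g hg
    rw [← mul_assoc, mul_assoc x d g, ← h, ← mul_assoc, mul_left_inj]
  rw [← inf_relIndex_right, this, inf_relIndex_right]
  exact hx

theorem mem_cent_of_central {G : Type*} [Group G] [Finite G] (p : ℕ) [hp : Fact p.Prime] {x : G}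
    (hx : ∃ k, cs(x) = p ^ k)
    (h : ∀ g : G, g * x * g⁻¹ * x⁻¹ ∈ centralizer (pResidual p G : Set G)) :
    x ∈ centralizer (pResidual p G : Set G) := by
  rw [pow_iff] at hx
  obtain ⟨k, hk⟩ := hx
  set K := pResidual p G with hK
  have hn : ((centralizer ({x} : Set G)).subgroupOf K).Normal := by
    refine ⟨fun c hc g => ?_⟩
    rw [mem_subgroupOf, mem_cent] at hc ⊢
    have h1 := mem_centralizer_iff.1 (h (g : G)⁻¹) c c.2
    simp only [coe_mul, InvMemClass.coe_inv, inv_inv] at h1 ⊢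
    have h2 : (c : G) * ((g : G)⁻¹ * x * g) = (g : G)⁻¹ * x * g * c := by
      calc (c : G) * ((g : G)⁻¹ * x * g) = (c : G) * ((g : G)⁻¹ * x * g * x⁻¹) * x := by group
        _ = ((g : G)⁻¹ * x * g * x⁻¹) * (c * x) := by rw [h1]; group
        _ = (g : G)⁻¹ * x * g * c := by rw [hc]; group
    calc (g : G) * c * (g : G)⁻¹ * x = g * ((c : G) * ((g : G)⁻¹ * x * g)) * (g : G)⁻¹ := by group
      _ = x * (g * c * (g : G)⁻¹) := by rw [h2]; group
  have h3 := H3.pResidual_le_of_index_eq_pow ((centralizer ({x} : Set G)).subgroupOf K) hk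
  rw [hK, H3.pResidual_pResidual] at h3
  rw [mem_centralizer_iff]
  intro g hg
  exact mem_cent.1 (mem_subgroupOf.1 (h3 (mem_top (⟨g, hg⟩ : pResidual p G))))

theorem key {G : Type*} [Group G] [Finite G] (p : ℕ) [hp : Fact p.Prime] :
    ∃ t, ¬ p ∣ t ∧ Nat.card {x : G // ∃ k, cs(x) = p ^ k}
      = t * Nat.card (centralizer (pResidual p G : Set G)) := by
  set D := centralizer (pResidual p G : Set G) with hD
  have hDn : D.Normal := inferInstance
  let T := {y : G ⧸ D // ∃ x : G, (x : G ⧸ D) = y ∧ ∃ k, cs(x) = p ^ k}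
  refine ⟨Nat.card T, ?_, ?_⟩
  · obtain ⟨R⟩ : Nonempty (Sylow p (G ⧸ D)) := inferInstance
    let : MulAction (R : Subgroup (G ⧸ D)) T :=
      { smul := fun r y => ⟨r * y.1 * (r : G ⧸ D)⁻¹, by
          obtain ⟨x, hx, hk⟩ := y.2
          obtain ⟨g, hg⟩ := QuotientGroup.mk_surjective (r : G ⧸ D)
          refine ⟨g * x * g⁻¹, ?_, by rw [cs_conj]; exact hk⟩
          rw [← hx, ← hg]; rfl⟩
        one_smul := fun y => Subtype.ext (by
          change ((1 : (R : Subgroup (G ⧸ D))) : G ⧸ D) * y.1 * ((1 : (R : Subgroup (G ⧸ D))) : G ⧸ D)⁻¹ = y.1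
          simp)
        mul_smul := fun a b y => Subtype.ext (by
          change ((a * b : (R : Subgroup (G ⧸ D))) : G ⧸ D) * y.1 * ((a * b : (R : Subgroup (G ⧸ D))) : G ⧸ D)⁻¹
            = a * (b * y.1 * (b : G ⧸ D)⁻¹) * (a : G ⧸ D)⁻¹
          simp [mul_assoc]) }
    have hsm : ∀ (r : (R : Subgroup (G ⧸ D))) (y : T), (r • y).1 = r * y.1 * (r : G ⧸ D)⁻¹ :=
      fun _ _ => rfl
    have hmod := R.isPGroup'.card_modEq_card_fixedPoints T
    have h1 : Nat.card (MulAction.fixedPoints (R : Subgroup (G ⧸ D)) T) = 1 := by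
      have hone : ∀ y : MulAction.fixedPoints (R : Subgroup (G ⧸ D)) T, y.1.1 = 1 := by
        rintro ⟨⟨y, x, rfl, k, hk⟩, hy⟩
        have h2 : ¬ p ∣ cs((x : G ⧸ D)) := by
          rw [not_dvd_index_iff]
          refine ⟨R, fun r hr => mem_cent'.2 ?_⟩
          exact (hsm ⟨r, hr⟩ _).symm.trans (congrArg Subtype.val (hy ⟨r, hr⟩))
        have h3 := cs_quotient_dvd D x
        rw [hk] at h3
        obtain ⟨i, -, hi⟩ := (Nat.dvd_prime_pow hp.out).1 h3
        have h4 : cs((x : G ⧸ D)) = 1 := by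
          rcases i with _ | i
          · simpa using hi
          · exact absurd (hi ▸ dvd_pow_self p (Nat.succ_ne_zero i)) h2
        rw [cs_eq_one_iff, mem_center_iff] at h4
        change (x : G ⧸ D) = 1
        rw [QuotientGroup.eq_one_iff]
        apply mem_cent_of_central p ⟨k, hk⟩
        intro g
        rw [← hD, ← QuotientGroup.eq_one_iff]
        simp [h4 (g : G ⧸ D)]
      rw [Nat.card_eq_one_iff_unique]
      refine ⟨⟨fun a b => Subtype.ext (Subtype.ext ((hone a).trans (hone b).symm))⟩,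
        ⟨⟨⟨1, 1, rfl, 0, by rw [cs_one, pow_zero]⟩, fun r => Subtype.ext ?_⟩⟩⟩
      rw [hsm]; simp
    rw [h1] at hmod
    intro hd
    exact hp.out.one_lt.ne' (Nat.dvd_one.1 ((Nat.ModEq.dvd_iff hmod dvd_rfl).1 hd))
  · refine H8.card_eq_of_fibers (fun s => (⟨(s.1 : G ⧸ D), s.1, rfl, s.2⟩ : T)) ?_
    rintro ⟨y, x, rfl, hx⟩
    refine ⟨⟨fun s => ⟨x⁻¹ * s.1.1, ?_⟩, fun d => ⟨⟨x * d, mul_pow_cs p hx d.2⟩, ?_⟩, fun s => ?_, fun d => ?_⟩⟩
    · have := congrArg Subtype.val s.2
      exact QuotientGroup.eq.1 this.symm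
    · exact Subtype.ext (QuotientGroup.mk_mul_of_mem x d.2)
    · exact Subtype.ext (Subtype.ext (by simp))
    · exact Subtype.ext (by simp)

/-- Let G and H be finite groups such that for every natural number k, G and H have the same number of conjugacy classes of size k. If H is nilpotent then G is nilpotent. -/
theorem result {G H : Type*} [Group G] [Finite G] [Group H] [Finite H]
    (hH : Group.IsNilpotent H)
    (h : ∀ k : ℕ, Nat.card {C : ConjClasses G // Nat.card C.carrier = k} = Nat.card {C : ConjClasses H // Nat.card C.carrier = k}) :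
    Group.IsNilpotent G := by
  have e0 : ∀ k, Nonempty ({x : G // cs(x) = k} ≃ {x : H // cs(x) = k}) := fun k =>
    Finite.card_eq.1 (by rw [card_cs_eq, card_cs_eq, h])
  let e : G ≃ H := Equiv.ofFiberEquiv (f := fun x : G => cs(x)) (g := fun x : H => cs(x))
    fun k => (e0 k).some
  have he : ∀ x, cs(e x) = cs(x) := fun x =>
    Equiv.ofFiberEquiv_map (f := fun x : G => cs(x)) (g := fun x : H => cs(x)) (fun k => (e0 k).some) x
  have hGH : Nat.card G = Nat.card H := Nat.card_congr e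
  refine ((Group.isNilpotent_of_finite_tfae (G := G)).out 0 3).2 ?_
  intro p hp P
  have h1 : Nat.card {x : G // ∃ k, cs(x) = p ^ k} = Nat.card {x : H // ∃ k, cs(x) = p ^ k} :=
    Nat.card_congr (e.subtypeEquiv fun x => by rw [he])
  obtain ⟨s, hs, hs'⟩ := key (G := G) p
  obtain ⟨t, ht, ht'⟩ := key (G := H) p
  obtain ⟨Q⟩ : Nonempty (Sylow p H) := inferInstance
  have h2 : (Q : Subgroup H) ≤ centralizer (pResidual p H : Set H) := by
    rw [le_centralizer_iff, H3.pResidual_le_iff]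
    intro g hg
    rw [mem_centralizer_iff]
    intro u hu
    obtain ⟨j, hj⟩ := H82.orderOf_eq_pow_of_mem Q.isPGroup' hu
    exact (H3.commute_of_coprime_orderOf u g (by rw [hj]; exact (hg.pow_right j).symm)).eq
  have h3 : Nat.card (P : Subgroup G) ∣ s * Nat.card (centralizer (pResidual p G : Set G)) := by
    rw [← hs', h1, ht', P.card_eq_multiplicity, hGH, ← Q.card_eq_multiplicity]
    exact Dvd.dvd.mul_left (card_dvd_of_le h2) _
  have h4 : Nat.card (P : Subgroup G) ∣ Nat.card (centralizer (pResidual p G : Set G)) := by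
    refine Nat.Coprime.dvd_of_dvd_mul_left ?_ h3
    rw [P.card_eq_multiplicity]
    exact Nat.Coprime.pow_left _ ((Nat.Prime.coprime_iff_not_dvd hp.out).2 hs)
  have h5 : ¬ p ∣ (centralizer (pResidual p G : Set G)).index := by
    intro hd
    apply P.not_dvd_index
    obtain ⟨c, hc⟩ := h4
    have h6 := (centralizer (pResidual p G : Set G)).card_mul_index
    rw [← (P : Subgroup G).card_mul_index, hc, mul_assoc] at h6
    rw [← Nat.eq_of_mul_eq_mul_left Nat.card_pos h6]
    exact Dvd.dvd.mul_left hd _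
  apply H8.sylow_normal_of_sup_cent
  apply H8.sylow_sup_cent_eq_top
  intro y hy hd
  apply h5
  refine hd.trans (index_dvd_of_le fun g hg => ?_)
  exact mem_cent.2 (mem_centralizer_iff.1 hg y (H3.mem_pResidual_of_coprime hy)).symm

end Cfsg.Agent.S4139
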