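import Cfsg.Statements.S4144
import Cfsg.Agent.H84.Engel

set_option autoImplicit false
set_option linter.style.haveILetI false
open Cfsg

namespace Cfsg.Agent.S4144

/-- Let X be a finite p-group of order p^n, n ≥ 2, of nilpotency class n − 1 (maximal class), and H any subgroup of X. Then the index in H of the subgroup generated by the p-th powers of elements of H is at most p^p. -/
theorem result {X : Type*} [Group X] [Finite X] {p : ℕ} [Fact p.Prime] (n : ℕ) (hn : 2 ≤ n) (hX : Nat.card X = p ^ n)
    (hmax : Group.nilpotencyClass X = n - 1) (H : Subgroup X) :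
    (Subgroup.closure {y : X | ∃ h ∈ H, y = h ^ p}).relIndex H ≤ p ^ p := by
  have hp := (Fact.out : p.Prime).two_le
  have h0 : ∀ K : Subgroup X, K.index ≤ p ^ n := fun K =>
    hX ▸ Nat.le_of_dvd Nat.card_pos K.index_dvd_card
  set U := Subgroup.closure {y : X | ∃ h ∈ H, y = h ^ p}
  have hU : ∀ x ∈ H, x ^ p ∈ U := fun x hx => Subgroup.subset_closure ⟨x, hx, rfl⟩
  have hUH : U ≤ H := (Subgroup.closure_le _).2 (by rintro _ ⟨h, hh, rfl⟩; exact pow_mem hh p)
  have e : U.relIndex H * Nat.card U = Nat.card H := by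
    rw [← Nat.card_congr (Subgroup.subgroupOfEquivOfLe hUH).toEquiv]
    exact Subgroup.index_mul_card _
  rcases le_or_gt n p with hnp | hnp
  · exact (Nat.le_of_dvd Nat.card_pos ⟨_, e.symm⟩).trans ((Subgroup.card_le_card_group H).trans
      (hX ▸ Nat.pow_le_pow_right (by omega) hnp))
  have h := H62.mc_of_class hX (by omega) hmax
  by_cases hH : H = ⊤
  swap
  · exact Nat.le_of_mul_le_mul_right (e ▸ h.card_le_of_ne_top hH hU) Nat.card_pos
  subst hH
  have : U.Normal := ⟨fun y hy g => by
    refine (Subgroup.closure_le (U.comap (MulAut.conj g).toMonoidHom)).2 ?_ hy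
    rintro _ ⟨x, -, rfl⟩
    change MulAut.conj g (x ^ p) ∈ U
    rw [map_pow]
    exact hU _ trivial⟩
  obtain ⟨r, hr⟩ := h.isPGroup.index U
  rw [Subgroup.relIndex_top_right, hr]
  refine Nat.pow_le_pow_right (by omega) (not_lt.1 fun hpr => ?_)
  obtain ⟨g, hg⟩ := H84.exists_pow_not_mem h hnp
  have h1 := hU g trivial
  rw [(S0662.result n hX hmax (by omega)).1 U r (by omega) hr] at h1
  exact hg (H62.LL_anti (by omega) h1)

end Cfsg.Agent.S4144
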