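import Cfsg.Statements.S4153
import Cfsg.Agent.H83.ClassCount

set_option autoImplicit false
open Cfsg

namespace Cfsg.Agent.S4153

open Cfsg.Agent.H83 Subgroup

/-- Let G be a finite group, p a prime, N a normal subgroup, P a Sylow p-subgroup of G and P̄ a Sylow p-subgroup of G/N. Count the elements of p-power order, the identity included. Then (number of such elements of G/N)/#P̄ ≤ (number of such elements of G)/#P, stated as a cross-multiplied inequality, with equality when N is central. -/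
theorem result {G : Type*} [Group G] [Finite G] (p : ℕ) [Fact p.Prime] (N : Subgroup G) [N.Normal]
    (P : Sylow p G) (Pbar : Sylow p (G ⧸ N)) :
    Nat.card {g : (G ⧸ N) // ∃ k : ℕ, orderOf g = p ^ k} * Nat.card (P : Subgroup G) ≤ Nat.card {g : G // ∃ k : ℕ, orderOf g = p ^ k} * Nat.card (Pbar : Subgroup (G ⧸ N)) ∧
    (N ≤ Subgroup.center G → Nat.card {g : (G ⧸ N) // ∃ k : ℕ, orderOf g = p ^ k} * Nat.card (P : Subgroup G) = Nat.card {g : G // ∃ k : ℕ, orderOf g = p ^ k} * Nat.card (Pbar : Subgroup (G ⧸ N))) := by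
  classical
  have hs := QuotientGroup.mk'_surjective N
  have hcard : ∀ Q : Sylow p G, Nat.card (P : Subgroup G) =
      Nat.card (Pbar : Subgroup (G ⧸ N)) * Nat.card (N ⊓ Q : Subgroup G) := by
    intro Q
    rw [Nat.card_congr (P.equiv Q).toEquiv, Nat.card_congr (Pbar.equiv (Q.mapSurjective hs)).toEquiv,
      card_eq_card_map_mul (QuotientGroup.mk' N), QuotientGroup.ker_mk']
    rfl
  have hpos : 0 < Nat.card (Pbar : Subgroup (G ⧸ N)) := Nat.card_pos
  have hNQ : ∀ Q : Sylow p G, Nat.card (N ⊓ Q : Subgroup G) = Nat.card (N ⊓ P : Subgroup G) :=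
    fun Q => Nat.eq_of_mul_eq_mul_left hpos ((hcard Q).symm.trans (hcard P))
  have hex : ∀ a : {g : (G ⧸ N) // ∃ k : ℕ, orderOf g = p ^ k}, ∃ (Q : Sylow p G) (r : G),
      r ∈ (Q : Subgroup G) ∧ (r : G ⧸ N) = a := by
    rintro ⟨a, k, hk⟩
    obtain ⟨R, hR⟩ := H82.exists_sylow_mem hk
    obtain ⟨Q, rfl⟩ := Sylow.mapSurjective_surjective hs p R
    obtain ⟨r, hr, rfl⟩ := hR
    exact ⟨Q, r, hr, rfl⟩
  choose Q r hr hra using hex
  let f : (Σ a : {g : (G ⧸ N) // ∃ k : ℕ, orderOf g = p ^ k}, (N ⊓ Q a : Subgroup G)) →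
      {g : G // ∃ k : ℕ, orderOf g = p ^ k} := fun x =>
    ⟨r x.1 * x.2, H82.orderOf_eq_pow_of_mem (Q x.1).isPGroup' (mul_mem (hr _) x.2.2.2)⟩
  have hf : Function.Injective f := by
    rintro ⟨a, x⟩ ⟨b, y⟩ hab
    have h1 : r a * x = r b * y := congrArg Subtype.val hab
    have h2 : a = b := by
      apply Subtype.ext
      rw [← hra a, ← hra b, ← QuotientGroup.mk_mul_of_mem (r a) x.2.1, h1,
        QuotientGroup.mk_mul_of_mem (r b) y.2.1]
    subst h2
    rw [Subtype.ext (mul_left_cancel h1)]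
  have := Fintype.ofFinite {g : (G ⧸ N) // ∃ k : ℕ, orderOf g = p ^ k}
  have hsig : Nat.card (Σ a : {g : (G ⧸ N) // ∃ k : ℕ, orderOf g = p ^ k}, (N ⊓ Q a : Subgroup G)) =
      Nat.card {g : (G ⧸ N) // ∃ k : ℕ, orderOf g = p ^ k} * Nat.card (N ⊓ P : Subgroup G) := by
    rw [Nat.card_sigma]
    simp only [hNQ]
    simp
  constructor
  · rw [hcard P, mul_comm (Nat.card (Pbar : Subgroup (G ⧸ N))), ← mul_assoc, ← hsig]
    exact Nat.mul_le_mul_right _ (Nat.card_le_card_of_injective f hf)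
  · intro hZ
    rw [hcard P, mul_comm (Nat.card (Pbar : Subgroup (G ⧸ N))), ← mul_assoc, ← hsig]
    congr 1
    refine Nat.card_congr (Equiv.ofBijective f ⟨hf, ?_⟩)
    rintro ⟨g, k, hk⟩
    have hg : ∃ j, orderOf (g : G ⧸ N) = p ^ j := by
      have : orderOf (g : G ⧸ N) ∣ p ^ k := hk ▸ orderOf_map_dvd (QuotientGroup.mk' N) g
      obtain ⟨j, -, hj⟩ := (Nat.dvd_prime_pow Fact.out).mp this
      exact ⟨j, hj⟩
    set a : {g : (G ⧸ N) // ∃ k : ℕ, orderOf g = p ^ k} := ⟨g, hg⟩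
    have hn : (r a)⁻¹ * g ∈ N := QuotientGroup.eq.mp (hra a)
    have hc : Commute (r a)⁻¹ g := by
      have := mem_center_iff.mp (hZ hn) (r a)
      calc (r a)⁻¹ * g = (r a)⁻¹ * g * r a * (r a)⁻¹ := by group
        _ = g * (r a)⁻¹ := by rw [← this]; group
    obtain ⟨j, hj⟩ := H82.orderOf_eq_pow_of_mem (Q a).isPGroup' (inv_mem (hr a))
    have h1 : orderOf ((r a)⁻¹ * g) ∣ p ^ (j + k) := by
      rw [pow_add, ← hj, ← hk]; exact hc.orderOf_mul_dvd_mul_orderOf
    obtain ⟨i, -, hi⟩ := (Nat.dvd_prime_pow Fact.out).mp h1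
    have : (zpowers ((r a)⁻¹ * g)).Normal := by
      constructor
      intro x hx y
      rw [mem_center_iff.mp (zpowers_le.mpr (hZ hn) hx) y]
      simpa using hx
    have h2 := (H82.isPGroup_zpowers hi).le_sylow_of_normal (Q a) (mem_zpowers _)
    exact ⟨⟨a, ⟨_, hn, h2⟩⟩, Subtype.ext (by simp [f])⟩

end Cfsg.Agent.S4153
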