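import Cfsg.Statements.S4154
import Cfsg.Agent.H19.Basic

set_option autoImplicit false
open Cfsg

namespace Cfsg.Agent.S4154

/-- Let G be a finite group and α an automorphism of G such that every element of G is the product of an element fixed by α and an element of the form g⁻¹α(g). If N is a normal α-invariant subgroup, then the automorphism ᾱ induced on G/N has the same property, and every coset fixed by ᾱ contains an element fixed by α (so the fixed points of ᾱ are the images of the fixed points of α). -/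
theorem result {G : Type*} [Group G] [Finite G] (α : MulAut G)
    (hccp : ∀ x : G, ∃ c g : G, α c = c ∧ x = c * (g⁻¹ * α g))
    (N : Subgroup G) [N.Normal] (hN : ∀ n ∈ N, α n ∈ N) :
    (∀ x : G, ∃ c g : G, c⁻¹ * α c ∈ N ∧ x⁻¹ * (c * (g⁻¹ * α g)) ∈ N) ∧
    (∀ x : G, x⁻¹ * α x ∈ N → ∃ c : G, α c = c ∧ c⁻¹ * x ∈ N) := by
  have hNn : N.Normal := inferInstance
  refine ⟨fun x => ?_, ?_⟩
  · obtain ⟨c, g, hc, hx⟩ := hccp x
    exact ⟨c, g, by rw [hc]; simp, by rw [← hx]; simp⟩
  let D : Subgroup G :=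
    { carrier := {x | x⁻¹ * α x ∈ N}
      one_mem' := by simp
      mul_mem' := by
        intro a b ha hb
        have := N.mul_mem (hNn.conj_mem _ ha b⁻¹) hb
        simp only [Set.mem_setOf_eq, map_mul]
        convert this using 1
        group
      inv_mem' := by
        intro a ha
        have := hNn.conj_mem _ (N.inv_mem ha) a
        have h2 := hNn.conj_mem _ (N.inv_mem ha) (α a)
        simp only [Set.mem_setOf_eq, map_inv]
        convert h2 using 1
        group }
  let C : Subgroup G :=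
    { carrier := {x | α x = x}
      one_mem' := by simp
      mul_mem' := by
        intro a b ha hb
        simp only [Set.mem_setOf_eq, map_mul] at *
        rw [ha, hb]
      inv_mem' := by
        intro a ha
        simp only [Set.mem_setOf_eq, map_inv] at *
        rw [ha] }
  have hle : C ⊔ N ≤ D := by
    refine sup_le (fun x hx => ?_) (fun x hx => ?_)
    · change x⁻¹ * α x ∈ N
      rw [show α x = x from hx]; simp
    · exact N.mul_mem (N.inv_mem hx) (hN x hx)
  have hsurj : Function.Surjective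
      (fun y : ↥(C ⊔ N) × (G ⧸ D) => (y.1 : G) * (y.2.out * (α y.2.out)⁻¹)) := by
    intro x
    obtain ⟨c, g, hc, hx⟩ := hccp x
    obtain ⟨d, hd⟩ := QuotientGroup.mk_out_eq_mul D g⁻¹
    have h1 : (d : G)⁻¹⁻¹ * α (d : G)⁻¹ ∈ N := D.inv_mem d.2
    refine ⟨⟨⟨c * (g⁻¹ * ((d : G)⁻¹⁻¹ * α (d : G)⁻¹)⁻¹ * g⁻¹⁻¹), ?_⟩, (g⁻¹ : G)⟩, ?_⟩
    · exact Subgroup.mul_mem_sup hc (hNn.conj_mem _ (N.inv_mem h1) _)
    · simp only [hd, map_mul, map_inv, hx]
      group
  have h1 := Nat.card_le_card_of_surjective _ hsurj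
  rw [Nat.card_prod, ← D.card_mul_index] at h1
  have h2 : Nat.card D ≤ Nat.card ↥(C ⊔ N) :=
    Nat.le_of_mul_le_mul_right h1 (Nat.pos_of_ne_zero Subgroup.index_ne_zero_of_finite)
  have h3 := Subgroup.eq_of_le_of_card_ge hle h2
  intro x hx
  have : x ∈ C ⊔ N := h3 ▸ hx
  obtain ⟨c, hc, n, hn, rfl⟩ := H19.mem_sup_normal_right.mp this
  exact ⟨c, hc, by simpa using hn⟩

end Cfsg.Agent.S4154
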