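import Cfsg.Statements.S4155
import Cfsg.Agent.H94.EqOrd
import Cfsg.Agent.H3.NilpotentHall
import Cfsg.Agent.H1.NilCompl

set_option autoImplicit false
open Cfsg

namespace Cfsg.Agent.S4155

/-- Let G be a finite group and N a proper non-trivial normal nilpotent subgroup whose order is not a prime power, such that for every x outside N all elements of the coset xN have the same order as x. Then N is the Fitting subgroup of G, and for every prime q every Sylow q-subgroup of G/N is cyclic or generalized quaternion. -/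
theorem result {G : Type*} [Group G] [Finite G] (N : Subgroup G) [N.Normal] (hN1 : N ≠ ⊥) (hN2 : N ≠ ⊤)
    (heq : ∀ x : G, x ∉ N → ∀ n ∈ N, orderOf (x * n) = orderOf x)
    (hnil : Group.IsNilpotent N) (hnpp : ¬ IsPrimePow (Nat.card N)) :
    N = Cfsg.fittingSubgroup G ∧
    ∀ (q : ℕ) [Fact q.Prime] (Q : Sylow q (G ⧸ N)), IsCyclic (Q : Subgroup (G ⧸ N)) ∨ ∃ n : ℕ, Nonempty ((Q : Subgroup (G ⧸ N)) ≃* QuaternionGroup (2 ^ n)) := by
  have h1 : Nat.card N ≠ 1 := fun h => hN1 (Subgroup.card_eq_one.1 h)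
  have hNF := H44.le_fitting ‹_› hnil
  refine ⟨le_antisymm hNF ?_, fun q _ Q => ?_⟩
  · rw [H44.fitting_eq_iSup_pCore] at hNF ⊢
    refine iSup_le fun p x hx => ?_
    by_contra hxN
    haveI := Fact.mk (Nat.prime_of_mem_primeFactors p.2)
    obtain ⟨s, hs, hsN, hsq⟩ := H94.exists_two_primes h1 Nat.card_pos.ne' hnpp p
    haveI := Fact.mk hs
    obtain ⟨n, hn⟩ := exists_prime_orderOf_dvd_card' s hsN
    obtain ⟨k, hk⟩ := H82.orderOf_eq_pow_of_mem H44.pCore_isPGroup hx
    have hc : (orderOf x).Coprime (orderOf (n : G)) := by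
      rw [hk, Subgroup.orderOf_coe, hn]
      exact Nat.Coprime.pow_left _ ((Nat.coprime_primes Fact.out hs).2 hsq.symm)
    haveI := H44.isNilpotent_iSup_pCore (G := G)
    have h2 := H3.commute_of_coprime_orderOf
      (G := ↥(⨆ p : (Nat.card G).primeFactors, pCore p G)) ⟨x, le_iSup (fun p :
        (Nat.card G).primeFactors => pCore p G) p hx⟩ ⟨n, hNF n.2⟩ (by simpa using hc)
    have h3 := H94.eqOrd_eq_one heq hxN n.2 (congrArg Subtype.val h2.eq) hc (orderOf_pos x)
    rw [show n = 1 from Subtype.ext h3, orderOf_one] at hn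
    exact hs.one_lt.ne hn
  · obtain ⟨s, hs, hsN, hsq⟩ := H94.exists_two_primes h1 Nat.card_pos.ne' hnpp q
    haveI := Fact.mk hs
    obtain ⟨P, rfl⟩ := Sylow.mapSurjective_surjective (QuotientGroup.mk'_surjective N) q Q
    exact (H94.eqOrd_cyclic_or_quaternion heq hsq hsN (H1.hasNormalPComplement_of_nilpotent hnil s)
      P.isPGroup').imp id And.right

end Cfsg.Agent.S4155
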