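import Cfsg.Statements.S4156
import Cfsg.Agent.H11.Deleted

set_option autoImplicit false
open Cfsg

namespace Cfsg.Agent.S4156

/-- Let n ≥ 5 and F a finite field. Then the projective special linear group PSL_n(F) contains a subgroup isomorphic to the alternating group of degree n + 1. -/
theorem result (n : ℕ) (hn : 5 ≤ n) (F : Type*) [Field F] [Finite F] :
    ∃ f : alternatingGroup (Fin (n + 1)) →* Matrix.ProjectiveSpecialLinearGroup (Fin n) F, Function.Injective f := by
  let ρ : alternatingGroup (Fin (n + 1)) →* Matrix (Fin n) (Fin n) F :=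
    (Matrix.toLinAlgEquiv' : _ ≃ₐ[F] _).symm.toMulEquiv.toMonoidHom.comp
      ((H11.delRep F n).comp (Subgroup.subtype _))
  have hd : ∀ g, (ρ g).det = 1 := fun g => by
    have := Abelianization.commutator_subset_ker (Matrix.detMonoidHom.comp ρ).toHomUnits
    rw [commutator_alternatingGroup_eq_top (by simp; omega)] at this
    exact congrArg Units.val (this (Subgroup.mem_top g))
  let f : alternatingGroup (Fin (n + 1)) →* Matrix.SpecialLinearGroup (Fin n) F :=
    MonoidHom.mk' (fun g => ⟨ρ g, hd g⟩) fun a b => Subtype.ext (map_mul ρ a b)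
  refine ⟨(QuotientGroup.mk' _).comp f, (injective_iff_map_eq_one _).2 fun g hg => ?_⟩
  obtain ⟨c, -, hc⟩ := Matrix.SpecialLinearGroup.mem_center_iff.1 ((QuotientGroup.eq_one_iff _).1 hg)
  refine Subtype.ext (H11.eq_one_of_delRep (F := F) (c := c) (by omega) fun i j => ?_)
  rw [← LinearMap.toMatrix'_mulVec, show LinearMap.toMatrix' (H11.delRep F n g) = _ from hc.symm]
  simp [Matrix.scalar_apply, ← Matrix.smul_one_eq_diagonal, Matrix.smul_mulVec]

end Cfsg.Agent.S4156
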