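import Cfsg.Statements.S4163
import Cfsg.Agent.H85.Mann

set_option autoImplicit false
open Cfsg

namespace Cfsg.Agent.S4163

open Cfsg.Agent.H85

/-- Let G be a finite group with a normal abelian subgroup A satisfying C_G(A) = A. Suppose some conjugacy class of G has size greater than 1, let m be the smallest such size, and let M be the subgroup generated by the elements whose class has size 1 or m. Then M is nilpotent of class at most 3. -/
theorem result {G : Type*} [Group G] [Finite G]
    (A : Subgroup G) [A.Normal] (hA : IsMulCommutative A) (hCA : Subgroup.centralizer (A : Set G) = A)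
    (m : ℕ) (hm1 : 1 < m) (hm : ∃ x : G, (Subgroup.centralizer ({x} : Set G)).index = m) (hmin : ∀ x : G, 1 < (Subgroup.centralizer ({x} : Set G)).index → m ≤ (Subgroup.centralizer ({x} : Set G)).index) :
    Subgroup.upperCentralSeries ↥(Subgroup.closure {x : G | (Subgroup.centralizer ({x} : Set G)).index = 1 ∨ (Subgroup.centralizer ({x} : Set G)).index = m}) 3 = ⊤ := by
  have hc : ∀ a ∈ A, ∀ b ∈ A, a * b = b * a := fun a ha b hb =>
    congrArg Subtype.val (hA.is_comm.comm (⟨a, ha⟩ : A) ⟨b, hb⟩)
  have hle : Subgroup.closure {x : G | (Subgroup.centralizer ({x} : Set G)).index = 1 ∨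
      (Subgroup.centralizer ({x} : Set G)).index = m} ≤ centMod A := by
    rw [Subgroup.closure_le]
    intro x hx t ht
    apply commutator_mem_center_of_min A hc ht
    intro y hy
    rcases hx with hx | hx
    · omega
    · rw [hx]; exact hmin y hy
  rw [eq_top_iff]
  intro x _
  rw [Subgroup.mem_upperCentralSeries_succ_iff]
  intro y
  rw [Subgroup.mem_upperCentralSeries_succ_iff]
  intro w
  rw [Subgroup.upperCentralSeries_one, Subgroup.mem_center_iff]
  intro z
  have h1 := commutator_mem_centralizer_of_mem_centMod (hle x.2) (hle y.2)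
  rw [hCA] at h1
  have h2 := hle w.2 _ h1
  exact Subtype.ext (Subgroup.mem_center_iff.mp h2 z)

end Cfsg.Agent.S4163
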