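import Cfsg.Statements.S4168
import Cfsg.Agent.H4.Basic
import Cfsg.Agent.H83.ClassSize

set_option autoImplicit false
open Cfsg

namespace Cfsg.Agent.S4168

/-- Let L be a finite quasisimple group (perfect with L/Z(L) simple). Then every prime dividing the order of the centre Z(L) also divides the order of L/Z(L). -/
theorem result {L : Type*} [Group L] [Finite L] (hL : Cfsg.IsQuasisimple L)
    (p : ℕ) (hp : p.Prime) (hdiv : p ∣ Nat.card (Subgroup.center L)) : p ∣ (Subgroup.center L).index := by
  have : Fact p.Prime := ⟨hp⟩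
  by_contra h
  obtain ⟨P, hP⟩ := H83.not_dvd_index_iff.1 h
  have hc : IsMulCommutative (P : Subgroup L) :=
    ⟨⟨fun a b => Subtype.ext (Subgroup.mem_center_iff.1 (hP b.2) a)⟩⟩
  have hne : (P : Subgroup L) ≠ ⊥ := P.ne_bot_of_dvd_card (hdiv.trans (Subgroup.card_subgroup_dvd_card _))
  apply hne
  rw [eq_bot_iff]
  intro z hz
  refine H4.eq_one_of_mem_commutator_of_abelian_sylow P hz
    (fun a _ => Subgroup.mem_center_iff.1 (hP hz) a) ?_
  rw [hL.1.commutator_eq_top]; trivial

end Cfsg.Agent.S4168
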