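import Cfsg.Statements.S4169
import Cfsg.Agent.H85.Mann
import Cfsg.Agent.S0015

set_option autoImplicit false
open Cfsg

namespace Cfsg.Agent.S4169

open Cfsg.Agent.H85

/-- Let P be a finite p-group whose conjugacy classes have exactly two sizes (1 and one other value). Then P has nilpotency class at most 3. -/
theorem result {P : Type*} [Group P] [Finite P] {p : ℕ} [Fact p.Prime] (hP : IsPGroup p P)
    (m : ℕ) (hm : 1 < m) (h : ∀ x : P, (Subgroup.centralizer ({x} : Set P)).index = 1 ∨ (Subgroup.centralizer ({x} : Set P)).index = m) :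
    upperCentralSeries P 3 = ⊤ := by
  have := hP.isNilpotent
  obtain ⟨A, hAn, hA, hmax⟩ := exists_maximal_abelian_normal P
  have hCA := S0015.result A hmax
  have hc : ∀ a ∈ A, ∀ b ∈ A, a * b = b * a := fun a ha b hb =>
    congrArg Subtype.val (hA.is_comm.comm (⟨a, ha⟩ : A) ⟨b, hb⟩)
  have hle : ∀ x, x ∈ centMod A := by
    intro x t ht
    apply commutator_mem_center_of_min A hc ht
    intro y hy
    rcases h x with hx | hx <;> rcases h y with hy' | hy' <;> omega
  show Subgroup.upperCentralSeries P 3 = ⊤
  rw [eq_top_iff]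
  intro x _
  rw [Subgroup.mem_upperCentralSeries_succ_iff]
  intro y
  rw [Subgroup.mem_upperCentralSeries_succ_iff]
  intro w
  rw [Subgroup.upperCentralSeries_one]
  have h1 := commutator_mem_centralizer_of_mem_centMod (hle x) (hle y)
  rw [hCA] at h1
  exact hle w _ h1

end Cfsg.Agent.S4169
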