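import Cfsg.Statements.S4170
import Cfsg.Agent.FPS.Bas

set_option autoImplicit false
open scoped Pointwise
open Cfsg

namespace Cfsg.Agent.S4170

/-- Let p be an odd prime and G a nontrivial group of permutations of a finite set Ω that is generated by its elements of p-power order. Then Ω has two disjoint nonempty subsets Δ₁ and Δ₂ such that the index in G of the subgroup of elements mapping Δ₁ onto Δ₁ and Δ₂ onto Δ₂ (and hence also the complement of their union onto itself) is divisible by p. -/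
theorem result {Ω : Type*} [Fintype Ω] (p : ℕ) [Fact p.Prime] (hp : p ≠ 2) (G : Subgroup (Equiv.Perm Ω)) (hG : G ≠ ⊥) (hgen : Subgroup.closure {g : G | ∃ k : ℕ, orderOf g = p ^ k} = ⊤) :
    ∃ Δ₁ Δ₂ : Set Ω, Δ₁.Nonempty ∧ Δ₂.Nonempty ∧ Disjoint Δ₁ Δ₂ ∧ p ∣ (MulAction.stabilizer G Δ₁ ⊓ MulAction.stabilizer G Δ₂).index := by
  classical
  let := Fintype.ofFinite G
  obtain ⟨Q⟩ : Nonempty (Sylow p G) := inferInstance
  have hm : ∃ γ : Ω, ¬ FPS.Fx (Q : Subgroup G) γ := by
    by_contra hcon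
    push Not at hcon
    have hQ : (Q : Subgroup G) = ⊥ := eq_bot_iff.2 fun g hg =>
      Subtype.ext (Equiv.ext fun x => hcon x g hg)
    have h1 : (⊤ : Subgroup G) ≤ ⊥ := by
      rw [← hgen, Subgroup.closure_le]
      rintro g ⟨k, hk⟩
      have : IsPGroup p (Subgroup.zpowers g) :=
        IsPGroup.of_card (n := k) (by rw [Nat.card_zpowers, hk])
      obtain ⟨Q', hQ'⟩ := this.exists_le_sylow
      obtain ⟨u, rfl⟩ := MulAction.exists_smul_eq G Q Q'
      have h2 := hQ' (Subgroup.mem_zpowers g)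
      rw [FPS.coe_sm, hQ, FPS.mem_sm, Subgroup.mem_bot] at h2
      have h3 : g = 1 := by
        have := congrArg (fun x => u * x * u⁻¹) h2
        simpa [mul_assoc] using this
      exact h3
    refine hG (eq_bot_iff.2 fun g hg => ?_)
    have : (⟨g, hg⟩ : G) = 1 := h1 (Subgroup.mem_top _)
    exact congrArg Subtype.val this
  obtain ⟨γ, hγ⟩ := hm
  have hγ' := hγ
  unfold FPS.Fx at hγ'
  push Not at hγ'
  obtain ⟨z, hz, hzγ⟩ := hγ'
  refine ⟨{γ}, {x | ¬ FPS.Fx (Q : Subgroup G) x ∧ x ≠ γ}, ⟨γ, rfl⟩, ⟨z • γ, fun h => hγ ?_, hzγ⟩,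
    Set.disjoint_singleton_left.2 fun h => h.2 rfl, ?_⟩
  · rwa [← FPS.Fx_sm z, FPS.sm_self hz]
  · by_contra hnd
    set S := MulAction.stabilizer G ({γ} : Set Ω) ⊓
      MulAction.stabilizer G {x | ¬ FPS.Fx (Q : Subgroup G) x ∧ x ≠ γ} with hS
    obtain ⟨T⟩ : Nonempty (Sylow p S) := inferInstance
    have hT : ¬ p ∣ ((T : Subgroup S).map S.subtype).index := by
      rw [Subgroup.index_map_subtype]
      exact fun h => ((Fact.out : p.Prime).dvd_mul.1 h).elim T.not_dvd_index hnd
    let Q' : Sylow p G := (T.isPGroup'.map S.subtype).toSylow hT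
    have hQ' : (Q' : Subgroup G) ≤ S := Subgroup.map_subtype_le _
    have f1 : FPS.Fx (Q' : Subgroup G) γ := fun g hg => by
      have := (hQ' hg).1
      rwa [MulAction.stabilizer_singleton] at this
    -- the stabilizer of the moved set
    let M : Set Ω := {x | ¬ FPS.Fx (Q : Subgroup G) x}
    have hQM : (Q : Subgroup G) ≤ MulAction.stabilizer G M := fun g hg => by
      rw [MulAction.mem_stabilizer_set]
      intro x
      change ¬ _ ↔ ¬ _
      conv_rhs => rw [← FPS.Fx_sm g, FPS.sm_self hg]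
    have hQM' : (Q' : Subgroup G) ≤ MulAction.stabilizer G M := fun g hg => by
      rw [MulAction.mem_stabilizer_set]
      intro x
      have h2 := MulAction.mem_stabilizer_set.1 (hQ' hg).2 x
      by_cases e : x = γ
      · rw [e, f1 g hg]
      · have e' : g • x ≠ γ := fun k => e (MulAction.injective g (k.trans (f1 g hg).symm))
        simpa [e, e', M] using h2
    obtain ⟨g, hg, e⟩ := FPS.syl_conj hQM hQM'
    rw [← e, FPS.coe_sm, ← smul_inv_smul g γ, FPS.Fx_sm] at f1
    exact (MulAction.mem_stabilizer_set.1 (Subgroup.inv_mem _ hg) γ).2 hγ f1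

end Cfsg.Agent.S4170
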