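import Cfsg.Statements.S4172
import Cfsg.Agent.H76.TwoGen

set_option autoImplicit false
open Cfsg

namespace Cfsg.Agent.S4172

open Subgroup H76.TG

/-- Let p be a prime and G a finite group with a non-commutative Sylow p-subgroup P whose Frattini subgroup has index p² in P (P is generated by two elements). Suppose G has no nontrivial normal subgroup of order prime to p and the Frattini subgroup of P contains no nontrivial normal subgroup of G. Then the generalized Fitting subgroup F*(G) is the unique minimal normal subgroup of G, the image of P in G/F*(G) is cyclic, and if F*(G) is not commutative then P permutes the components of G transitively by conjugation. -/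
theorem result {G : Type*} [Group G] [Finite G] (p : ℕ) [Fact p.Prime] (P : Sylow p G) (hna : ¬ IsMulCommutative (P : Subgroup G)) (hgen : (frattini ↥(P : Subgroup G)).index = p ^ 2) (hcore : Cfsg.pPrimeCore p G = ⊥) (hfrat : ((frattini ↥(P : Subgroup G)).map (P : Subgroup G).subtype).normalCore = ⊥) [hFn : (Cfsg.generalizedFittingSubgroup G).Normal] :
    (Cfsg.generalizedFittingSubgroup G ≠ ⊥ ∧ ∀ K : Subgroup G, K.Normal → K ≠ ⊥ → Cfsg.generalizedFittingSubgroup G ≤ K) ∧
      IsCyclic ↥((P : Subgroup G).map (QuotientGroup.mk' (Cfsg.generalizedFittingSubgroup G))) ∧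
      (¬ IsMulCommutative (Cfsg.generalizedFittingSubgroup G) → ∀ K L : Subgroup G, Cfsg.IsComponent K → Cfsg.IsComponent L → ∃ x ∈ (P : Subgroup G), L = K.map (MulAut.conj x).toMonoidHom) := by
  have hPP : ⁅(P : Subgroup G), (P : Subgroup G)⁆ ≠ ⊥ := fun h =>
    hna (H2.isMulCommutative_of_forall fun x hx y hy =>
      commutator_eq_bot_iff_le_centralizer.1 h hy x hx)
  set N := normalClosure ((⁅(P : Subgroup G), (P : Subgroup G)⁆ : Subgroup G) : Set G) with hNdef
  have hN : N ≠ ⊥ := fun h => hPP (le_bot_iff.1 (h ▸ le_normalClosure))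
  have hmin : ∀ K : Subgroup G, K.Normal → K ≠ ⊥ → N ≤ K := fun K hK hne =>
    normalClosure_le_normal (comm_le_of_normal P hgen hcore hfrat K hne)
  have hF0 : generalizedFittingSubgroup G ≠ ⊥ := by
    intro h
    have h1 : (⊤ : Subgroup G) = ⊥ := H44.eq_bot_of_FSof_eq_bot (H44.FSof_top.trans h)
    exact hN (le_bot_iff.1 (h1 ▸ le_top))
  -- when `F(G) ≠ 1`, `N` lies in the centre of `F(G)`
  have hFit : fittingSubgroup G ≠ ⊥ →
      N ≤ fittingSubgroup G ⊓ centralizer (fittingSubgroup G : Set G) := by
    intro h
    refine hmin _ (normal_inf_normal _ _) ?_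
    rw [← H44.map_center_subtype]
    haveI := H44.fitting_isNilpotent (G := G)
    haveI := (nontrivial_iff_ne_bot _).2 h
    intro h1
    rw [map_eq_bot_iff_of_injective _ (subtype_injective _)] at h1
    exact Group.IsNilpotent.center_ne_bot _ h1
  have hab : fittingSubgroup G ≠ ⊥ → IsMulCommutative N := fun h =>
    H2.isMulCommutative_of_forall fun x hx y hy => (hFit h hy).2 x (hFit h hx).1
  have hFN : generalizedFittingSubgroup G ≤ N := by
    by_cases hc : IsMulCommutative N
    · refine le_trans ?_ (cent_le P hgen hcore hfrat N hN hmin hc)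
      refine sup_le ?_ ?_
      · rw [← H44.Eof_top]
        exact commutator_eq_bot_iff_le_centralizer.1 (H44.commutator_Eof_eq_bot_of_sn_of_solvable
          (H44.SN.of_normal le_top) (by
            haveI := H44.isNilpotent_of_commutator_eq_bot (K := N)
              (commutator_eq_bot_iff_le_centralizer.2 fun x hx y hy => H2.mul_comm_of_mem hc hy hx)
            infer_instance))
      · by_cases h : fittingSubgroup G = ⊥
        · exact h.le.trans bot_le
        · exact fun x hx y hy => ((hFit h hy).2 x hx).symm
    · refine sup_le ?_ ((not_not.1 fun h => hc (hab h)).le.trans bot_le)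
      rw [← H44.Eof_top, H44.Eof_le_iff]
      intro K hK
      refine (hK.le_or_commutator_eq_bot (H44.SN.of_normal le_top)).resolve_right fun h => hc ?_
      have h1 := commutator_eq_bot_iff_le_centralizer.1 h
      have h2 := hmin (centralizer (N : Set G)) normal_centralizer
        (fun h3 => hK.qs.ne_bot (le_bot_iff.1 (h3 ▸ h1)))
      exact H2.isMulCommutative_of_forall fun x hx y hy => h2 hy x hx
  refine ⟨⟨hF0, fun K hK hne => hFN.trans (hmin K hK hne)⟩, ?_, fun hnc K L hK hL => ?_⟩
  · obtain ⟨y, hy, h⟩ := gen_of_normal P hgen hcore hfrat _ hF0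
    have h1 : (P : Subgroup G).map (QuotientGroup.mk' (generalizedFittingSubgroup G)) =
        zpowers (QuotientGroup.mk' (generalizedFittingSubgroup G) y) := by
      refine le_antisymm ?_ (zpowers_le.2 ⟨y, hy, rfl⟩)
      rintro _ ⟨x, hx, rfl⟩
      obtain ⟨n, hn, k, rfl⟩ := h x hx
      refine ⟨k, ?_⟩
      have : QuotientGroup.mk' (generalizedFittingSubgroup G) n = 1 :=
        (QuotientGroup.eq_one_iff n).2 hn
      simp only [map_mul, map_zpow, this, one_mul]
    rw [h1]
    infer_instance
  · have hF1 : fittingSubgroup G = ⊥ := by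
      by_contra h
      exact hnc (H2.isMulCommutative_of_forall fun x hx y hy =>
        H2.mul_comm_of_mem (hab h) (hFN hx) (hFN hy))
    by_contra hcon
    push Not at hcon
    -- the product of the `P`-conjugates of a component
    have key : ∀ M : Subgroup G, H44.Comp ⊤ M →
        H44.SN ⊤ (⨆ x : (P : Subgroup G), M.map (MulAut.conj (x : G)).toMonoidHom) ∧
        ⁅(P : Subgroup G), (P : Subgroup G)⁆ ≤
          ⨆ x : (P : Subgroup G), M.map (MulAut.conj (x : G)).toMonoidHom := by
      intro M hM
      have c : ∀ g : G, H44.Comp ⊤ (M.map (MulAut.conj g).toMonoidHom) := fun g =>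
        hM.conj ((normalizer_eq_top (⊤ : Subgroup G)).ge (mem_top _))
      have s : H44.SN ⊤ (⨆ x : (P : Subgroup G), M.map (MulAut.conj (x : G)).toMonoidHom) := by
        refine (H44.sn_Eof ⊤).trans (H44.SN.of_le_normalizer (iSup_le fun x => (c x).le_Eof) ?_)
        refine le_trans (le_iInf fun x : (P : Subgroup G) => (c x).Eof_le_normalizer) ?_
        exact iInf_normalizer_le_normalizer_iSup _
      have n : (P : Subgroup G) ≤ normalizer
          ((⨆ x : (P : Subgroup G), M.map (MulAut.conj (x : G)).toMonoidHom : Subgroup G) :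
            Set G) := by
        have n1 : ∀ g ∈ (P : Subgroup G),
            (⨆ x : (P : Subgroup G), M.map (MulAut.conj (x : G)).toMonoidHom).map
              (MulAut.conj g).toMonoidHom ≤
            ⨆ x : (P : Subgroup G), M.map (MulAut.conj (x : G)).toMonoidHom := by
          intro g hg
          rw [Subgroup.map_iSup]
          refine iSup_le fun x => le_iSup_of_le (⟨g, hg⟩ * x) ?_
          rintro _ ⟨_, ⟨m, hm, rfl⟩, rfl⟩
          exact ⟨m, hm, by simp [mul_assoc]⟩
        intro g hg
        rw [mem_normalizer_iff]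
        refine fun z => ⟨fun hz => n1 g hg ⟨z, hz, rfl⟩, fun hz => ?_⟩
        have := n1 g⁻¹ (inv_mem hg) ⟨_, hz, rfl⟩
        simpa [mul_assoc] using this
      refine ⟨s, ?_⟩
      obtain ⟨y, hy, h⟩ := exists_gen' _ _ hgen n (fun h => by
        have h1 := pgrp_of_inf_le P hcore _ (H44.sn_top_iff.1 s) n h
        haveI := h1.isNilpotent
        exact (c (1 : (P : Subgroup G))).qs.not_le_solvable (H := ⨆ x : (P : Subgroup G),
          M.map (MulAut.conj (x : G)).toMonoidHom) inferInstance
          (le_iSup (fun x : (P : Subgroup G) => M.map (MulAut.conj (x : G)).toMonoidHom) 1))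
      exact comm_le_of_gen n hy h
    obtain ⟨s1, t1⟩ := key K (H44.comp_top_iff.2 hK)
    obtain ⟨s2, t2⟩ := key L (H44.comp_top_iff.2 hL)
    have hcomm : ⁅⨆ x : (P : Subgroup G), K.map (MulAut.conj (x : G)).toMonoidHom,
        ⨆ x : (P : Subgroup G), L.map (MulAut.conj (x : G)).toMonoidHom⁆ = ⊥ := by
      rw [commutator_eq_bot_iff_le_centralizer]
      refine iSup_le fun x => le_centralizer_iff.1 (iSup_le fun y => le_centralizer_iff.1 ?_)
      refine commutator_eq_bot_iff_le_centralizer.1 (H44.Comp.commutator_eq_bot_of_ne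
        ((H44.comp_top_iff.2 hK).conj ((normalizer_eq_top (⊤ : Subgroup G)).ge (mem_top _)))
        ((H44.comp_top_iff.2 hL).conj ((normalizer_eq_top (⊤ : Subgroup G)).ge (mem_top _))) fun h => ?_)
      refine hcon ((y : G)⁻¹ * x) (mul_mem (inv_mem y.2) x.2) ?_
      have h1 := congrArg (Subgroup.map (MulAut.conj (y : G)⁻¹).toMonoidHom) h
      rw [Subgroup.map_map, Subgroup.map_map] at h1
      have e1 : (MulAut.conj (y : G)⁻¹).toMonoidHom.comp (MulAut.conj (y : G)).toMonoidHom =
          MonoidHom.id G := by ext z; simp [mul_assoc]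
      have e2 : (MulAut.conj (y : G)⁻¹).toMonoidHom.comp (MulAut.conj (x : G)).toMonoidHom =
          (MulAut.conj ((y : G)⁻¹ * x)).toMonoidHom := by ext z; simp [mul_assoc]
      rw [e1, e2, Subgroup.map_id] at h1
      exact h1.symm
    have h1 := H44.le_fitting_of_subnormal (H44.sn_top_iff.1 (s1.inf s2))
      (H44.isNilpotent_of_commutator_eq_bot
        (H44.commutator_eq_bot_mono hcomm inf_le_left inf_le_right))
    exact hPP (le_bot_iff.1 (hF1 ▸ (le_inf t1 t2).trans h1))

end Cfsg.Agent.S4172
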