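import Cfsg.Statements.S4176
import Cfsg.Agent.H22.PSolvable
import Cfsg.Agent.H70.Conj
import Cfsg.Agent.H49.Prod
import Cfsg.Agent.H2.Basic
import Cfsg.Agent.H3.PComplement

set_option autoImplicit false
open Cfsg

namespace Cfsg.Agent.S4176


open Subgroup

universe u v

variable {k : Type*} [Field k] {p : ℕ} [hp : Fact p.Prime] [CharP k p]

section
variable {V : Type v} {H : Type u} [AddCommGroup V] [Module k V] [Group H] (ρ : Representation k H V)

def St (a : V) : Subgroup H where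
  carrier := {h | ρ h a = a}
  one_mem' := by simp
  mul_mem' := fun {x y} hx hy => by
    simp only [Set.mem_setOf_eq] at *
    rw [map_mul, Module.End.mul_apply, hy, hx]
  inv_mem' := fun {x} hx => by
    simp only [Set.mem_setOf_eq] at *
    nth_rewrite 1 [← hx]
    rw [← Module.End.mul_apply, ← map_mul, inv_mul_cancel, map_one, Module.End.one_apply]

theorem mem_St {a : V} {h : H} : h ∈ St ρ a ↔ ρ h a = a := Iff.rfl

def Orb (a : V) : Submodule k V := Submodule.span k {u : V | ∃ h : H, ρ h a = u}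

def Q (a : V) : Prop :=
  (∃ w : V, ∀ u ∈ Orb ρ a, (∀ h, ρ h u = u) → ∃ c : k, c • w = u) ∧
  ∀ b ∈ Orb ρ a, (St ρ a).index.Coprime (St ρ b).index → ∀ h, ρ h b = b

theorem map_mem_Orb {W : Type v} [AddCommGroup W] [Module k W] {H' : Type u} [Group H']
    (σ : Representation k H' W) (e : V →ₗ[k] W) {a : V}
    (he : ∀ h, ∃ h', e (ρ h a) = σ h' (e a)) {u : V} (hu : u ∈ Orb ρ a) : e u ∈ Orb σ (e a) := by
  have : Orb ρ a ≤ (Orb σ (e a)).comap e := by
    rw [Orb, Submodule.span_le]
    rintro _ ⟨h, rfl⟩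
    obtain ⟨h', hh⟩ := he h
    exact Submodule.subset_span ⟨h', hh.symm⟩
  exact this hu

variable [Finite H]

noncomputable def Sm (K : Subgroup H) : V →ₗ[k] V :=
  let _ := Fintype.ofFinite K
  ∑ x : K, ρ x

theorem Sm_apply (K : Subgroup H) [Fintype K] (v : V) : Sm ρ K v = ∑ x : K, ρ x v := by
  rw [Sm, LinearMap.sum_apply]; congr!

theorem Sm_right {K : Subgroup H} {x : H} (hx : x ∈ K) (v : V) : Sm ρ K (ρ x v) = Sm ρ K v := by
  let _ := Fintype.ofFinite K
  rw [Sm_apply, Sm_apply, ← Equiv.sum_comp (Equiv.mulRight (⟨x, hx⟩ : K)) (fun y : K => ρ y v)]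
  simp

theorem Sm_left {K : Subgroup H} {x : H} (hx : x ∈ K) (v : V) : ρ x (Sm ρ K v) = Sm ρ K v := by
  let _ := Fintype.ofFinite K
  rw [Sm_apply, map_sum, ← Equiv.sum_comp (Equiv.mulLeft (⟨x, hx⟩ : K)) (fun y : K => ρ y v)]
  simp

theorem Sm_comm {K : Subgroup H} {x : H} (hx : x ∈ normalizer (K : Set H)) (v : V) :
    Sm ρ K (ρ x v) = ρ x (Sm ρ K v) := by
  let _ := Fintype.ofFinite K
  let e : K ≃ K :=
    { toFun := fun y => ⟨x * y * x⁻¹, H70.conj_mem_of_mem_norm hx y.2⟩
      invFun := fun y => ⟨x⁻¹ * y * x, H70.conj_mem_of_mem_norm' hx y.2⟩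
      left_inv := fun y => Subtype.ext (by simp [mul_assoc])
      right_inv := fun y => Subtype.ext (by simp [mul_assoc]) }
  rw [Sm_apply, Sm_apply, map_sum, ← Equiv.sum_comp e (fun y : K => ρ y (ρ x v))]
  refine Finset.sum_congr rfl fun y _ => ?_
  change ρ (x * y * x⁻¹) (ρ x v) = _
  rw [← Module.End.mul_apply, ← map_mul, ← Module.End.mul_apply, ← map_mul]
  simp

theorem Sm_fixed {K : Subgroup H} {v : V} (hv : K ≤ St ρ v) : Sm ρ K v = (Nat.card K : k) • v := by
  let _ := Fintype.ofFinite K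
  rw [Sm_apply, Finset.sum_congr rfl fun (y : K) _ => (hv y.2 : ρ y v = v)]
  simp [Nat.cast_smul_eq_nsmul]

theorem cast_ne_zero {n : ℕ} (h : n.Coprime p) : (n : k) ≠ 0 := by
  rw [Ne, CharP.cast_eq_zero_iff k p]
  exact fun h1 => hp.out.one_lt.ne' (Nat.eq_one_of_dvd_coprimes h h1 dvd_rfl)

end

theorem key (H : Type u) [Group H] [Finite H] : IsPSolvable p H →
    ∀ (V : Type v) [AddCommGroup V] [Module k V] (ρ : Representation k H V) (a : V)
      (P : Sylow p H), (P : Subgroup H) ≤ St ρ a → Q ρ a := by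
  refine H2.card_induction (P := fun H _ _ => IsPSolvable p H →
    ∀ (V : Type v) [AddCommGroup V] [Module k V] (ρ : Representation k H V) (a : V)
      (P : Sylow p H), (P : Subgroup H) ≤ St ρ a → Q ρ a) H ?_
  intro H _ _ ih hs V _ _ ρ
  have step : ∀ (N : Subgroup H) [N.Normal], N ≠ ⊥ → ∀ (a : V) (P : Sylow p H),
      (P : Subgroup H) ≤ St ρ a → N ≤ St ρ a → Q ρ a := by
    intro N _ hN a P hP hNa
    set U := Representation.invariants (ρ.comp N.subtype)
    set σ := ρ.quotientToInvariants N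
    have hσ : ∀ (h : H) (u : U), (σ (h : H ⧸ N) u : V) = ρ h u := fun h u => rfl
    have hf := QuotientGroup.mk'_surjective N
    let a' : U := ⟨a, fun n => hNa n.2⟩
    have hSt : ∀ u : U, (St σ u).comap (QuotientGroup.mk' N) = St ρ u := fun u => by
      ext h
      exact ⟨fun hh => congrArg Subtype.val hh, fun hh => Subtype.ext hh⟩
    have hI : ∀ u : U, (St σ u).index = (St ρ (u : V)).index := fun u => by
      rw [← hSt, index_comap_of_surjective _ hf]
    obtain ⟨⟨w, hw⟩, h2⟩ := ih (H ⧸ N) (by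
      rw [← index_eq_card, ← N.card_mul_index]
      exact lt_mul_of_one_lt_left (Nat.pos_of_ne_zero N.index_ne_zero_of_finite)
        ((one_lt_card_iff_ne_bot N).2 hN)) (H22.IsPSolvable.quotient hs N) U σ a'
        (P.mapSurjective hf) (by
          rintro _ ⟨x, hx, rfl⟩
          exact Subtype.ext (hP hx))
    have hO : ∀ u ∈ Orb ρ a, ∃ u' ∈ Orb σ a', (u' : V) = u := by
      intro u hu
      have : Orb ρ a ≤ (Orb σ a').map U.subtype := by
        rw [Orb, Submodule.span_le]
        rintro _ ⟨h, rfl⟩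
        exact ⟨σ h a', Submodule.subset_span ⟨h, rfl⟩, rfl⟩
      exact this hu
    refine ⟨⟨w, fun u hu hfix => ?_⟩, fun b hb hc h => ?_⟩
    · obtain ⟨u', hu', rfl⟩ := hO u hu
      obtain ⟨c, hc⟩ := hw u' hu' fun h => by
        obtain ⟨h, rfl⟩ := QuotientGroup.mk_surjective h
        exact Subtype.ext (hfix h)
      exact ⟨c, congrArg Subtype.val hc⟩
    · obtain ⟨b', hb', rfl⟩ := hO b hb
      exact congrArg Subtype.val (h2 b' hb' (by rw [hI, hI]; exact hc) h)
  intro a P hP
  rcases subsingleton_or_nontrivial H with hH | hH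
  · refine ⟨⟨a, fun u hu _ => ?_⟩, fun b _ _ h => by rw [Subsingleton.elim h 1]; simp⟩
    have : Orb ρ a ≤ Submodule.span k {a} := by
      rw [Orb, Submodule.span_le]
      rintro _ ⟨h, rfl⟩
      rw [Subsingleton.elim h 1]
      exact Submodule.subset_span (by simp)
    exact Submodule.mem_span_singleton.1 (this hu)
  rcases H22.IsPSolvable.pCore_ne_bot_or hs with hN | hN
  · exact step _ hN a P hP ((H22.pCore_le_sylow P).trans hP)
  set N := pPrimeCore p H
  have hNc : (Nat.card N).Coprime p := H22.coprime_card_pPrimeCore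
  have hN0 : (Nat.card N : k) ≠ 0 := cast_ne_zero hNc
  set e : V →ₗ[k] V := (Nat.card N : k)⁻¹ • Sm ρ N with he
  have hn : ∀ h : H, h ∈ normalizer (N : Set H) := fun h => by rw [normalizer_eq_top]; trivial
  have e1 : ∀ h v, e (ρ h v) = ρ h (e v) := fun h v => by
    simp [he, Sm_comm ρ (hn h)]
  have e2 : ∀ v, St ρ v ≤ St ρ (e v) := fun v h hh => by
    rw [mem_St, ← e1, hh]
  have e3 : ∀ v, N ≤ St ρ (e v) := fun v h hh => by
    simp [mem_St, he, Sm_left ρ hh]
  have e4 : ∀ v, N ≤ St ρ v → e v = v := fun v hv => by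
    simp [he, Sm_fixed ρ hv, smul_smul, inv_mul_cancel₀ hN0]
  obtain ⟨⟨w, hw⟩, h2⟩ := step N hN (e a) P (hP.trans (e2 a)) (e3 a)
  have hO : ∀ u ∈ Orb ρ a, e u ∈ Orb ρ (e a) := fun u hu =>
    map_mem_Orb ρ ρ e (fun h => ⟨h, e1 h a⟩) hu
  refine ⟨⟨w, fun u hu hfix => ?_⟩, fun b hb hc => ?_⟩
  · have := hO u hu
    rw [e4 u fun h _ => hfix h] at this
    exact hw u this hfix
  have h3 := h2 (e b) (hO b hb) (Nat.Coprime.coprime_dvd_left (index_dvd_of_le (e2 a))
    (Nat.Coprime.coprime_dvd_right (index_dvd_of_le (e2 b)) hc))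
  suffices h : b = e b by rw [h]; exact h3
  set K := St ρ b ⊓ N
  set d : V →ₗ[k] V := LinearMap.id - e with hd
  have d1 : ∀ h v, d (ρ h v) = ρ h (d v) := fun h v => by simp [hd, e1]
  have d2 : ∀ v, St ρ v ≤ St ρ (d v) := fun v h hh => by rw [mem_St, ← d1, hh]
  have d3 : ∀ v, Sm ρ N (d v) = 0 := fun v => by
    have : e (d v) = 0 := by simp [hd, e4 _ (e3 v)]
    simpa [he, hN0] using this
  have p1 := H49.isProd_of_coprime_relIndex (H := St ρ b) (K := St ρ a) (M := ⊤) le_top le_top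
    (by rw [relIndex_top_right, relIndex_top_right]; exact hc.symm)
  have p2 := H49.isProd_of_coprime_relIndex (H := K) (K := St ρ a ⊓ N) (M := N)
    inf_le_right inf_le_right (by
      rw [inf_relIndex_right, inf_relIndex_right]
      exact Nat.Coprime.coprime_dvd_left (H3.relIndex_dvd_index_of_normal_right _ _)
        (Nat.Coprime.coprime_dvd_right (H3.relIndex_dvd_index_of_normal_right _ _) hc.symm))
  have k1 : Sm ρ K (d a) = 0 := by
    let _ := Fintype.ofFinite N
    have t1 : ∀ n : N, Sm ρ K (ρ n (d a)) = Sm ρ K (d a) := fun n => by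
      obtain ⟨x, hx, y, hy, h⟩ := p2.2.2 n n.2
      rw [h, map_mul, Module.End.mul_apply, d2 a hy.1, Sm_right ρ hx]
    have t2 : ∑ n : N, Sm ρ K (ρ n (d a)) = 0 := by
      rw [← map_sum, ← Sm_apply, d3, map_zero]
    rw [Finset.sum_congr rfl fun n _ => t1 n, Finset.sum_const, Finset.card_univ,
      ← Nat.card_eq_fintype_card, ← Nat.cast_smul_eq_nsmul k] at t2
    exact (smul_eq_zero.1 t2).resolve_left hN0
  have k2 : Orb ρ a ≤ LinearMap.ker (Sm ρ K ∘ₗ d) := by
    rw [Orb, Submodule.span_le]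
    rintro _ ⟨h, rfl⟩
    obtain ⟨x, hx, y, hy, rfl⟩ := p1.2.2 h (mem_top h)
    change Sm ρ K (d _) = 0
    rw [map_mul, Module.End.mul_apply, hy, d1, Sm_comm ρ, k1, map_zero]
    exact H70.norm_inf le_normalizer H70.norm_of_normal hx
  have k3 : Sm ρ K (d b) = 0 := k2 hb
  rw [Sm_fixed ρ (inf_le_left.trans (d2 b))] at k3
  have k4 := (smul_eq_zero.1 k3).resolve_left
    (cast_ne_zero (H22.coprime_card_of_le inf_le_right hNc))
  exact sub_eq_zero.1 k4

theorem card_orbit {V H : Type*} [AddCommGroup V] [Module k V] [Group H] (ρ : Representation k H V)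
    (a : V) : Nat.card {u : V | ∃ h : H, ρ h a = u} = (St ρ a).index := by
  let _ : MulAction H V := MulAction.compHom V ρ
  exact (MulAction.index_stabilizer H a).symm


/-- Let k be a field of prime characteristic p, H a finite p-soluble group and ρ a k-linear representation of H on V. Let a be a vector that is fixed by some Sylow p-subgroup of H and whose H-orbit spans V. Then the space of H-fixed vectors has dimension at most 1, and every vector b whose H-orbit has size coprime to the size of the orbit of a is fixed by H. -/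
theorem result {k V H : Type*} [Field k] (p : ℕ) [Fact p.Prime] [CharP k p] [AddCommGroup V] [Module k V]
    [Group H] [Finite H] (hsol : Cfsg.IsPSolvable p H) (ρ : Representation k H V) (a : V)
    (hfix : ∃ P : Sylow p H, ∀ x : H, x ∈ (P : Subgroup H) → ρ x a = a)
    (hspan : Submodule.span k {u : V | ∃ h : H, ρ h a = u} = ⊤) :
    Module.finrank k ρ.invariants ≤ 1 ∧
    ∀ b : V, (Nat.card {u : V | ∃ h : H, ρ h a = u}).Coprime (Nat.card {u : V | ∃ h : H, ρ h b = u}) → ∀ h : H, ρ h b = b := by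
  obtain ⟨P, hP⟩ := hfix
  obtain ⟨⟨w, hw⟩, h2⟩ := key H hsol V ρ a P hP
  have ho : ∀ u, u ∈ Orb ρ a := fun u => hspan.ge Submodule.mem_top
  refine ⟨?_, fun b hb => h2 b (ho b) (by rwa [card_orbit, card_orbit] at hb)⟩
  have : ρ.invariants ≤ Submodule.span k {w} := fun u hu =>
    Submodule.mem_span_singleton.2 (hw u (ho u) hu)
  exact (Submodule.finrank_mono this).trans ((finrank_span_le_card _).trans (by simp))

end Cfsg.Agent.S4176
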