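import Cfsg.Statements.S4177
import Mathlib
import Cfsg.Agent.S0007

set_option autoImplicit false
open Cfsg

namespace Cfsg.Agent.S4177

section
variable {k V H : Type*} [Field k] [AddCommGroup V] [Module k V] [Group H]
  (ρ : Representation k H V)

/-- stabiliser of a vector -/
def stab (a : V) : Subgroup H where
  carrier := {h | ρ h a = a}
  one_mem' := by simp
  mul_mem' := fun {x y} hx hy => by
    simp only [Set.mem_setOf_eq, map_mul, Module.End.mul_apply] at *
    rw [hy, hx]
  inv_mem' := fun {x} hx => by
    simp only [Set.mem_setOf_eq] at *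
    conv_lhs => rw [← hx]
    rw [← Module.End.mul_apply, ← map_mul, inv_mul_cancel, map_one, Module.End.one_apply]

theorem card_orb (a : V) : Nat.card {u : V | ∃ h : H, ρ h a = u} = (stab ρ a).index := by
  letI : MulAction H V :=
    { smul := fun h v => ρ h v
      one_smul := fun v => by show ρ 1 v = v; simp
      mul_smul := fun x y v => by show ρ (x * y) v = ρ x (ρ y v); simp }
  exact (MulAction.index_stabilizer H a).symm ▸ (Nat.card_coe_set_eq _)

end

/-- Let k be a field whose characteristic does not divide the order of the finite group H (for instance a field of characteristic zero), and ρ a k-linear representation of H on V. Let a be a vector whose H-orbit spans V. Then the space of H-fixed vectors has dimension at most 1, and every vector b whose H-orbit has size coprime to the size of the orbit of a is fixed by H. -/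
theorem result {k V H : Type*} [Field k] [AddCommGroup V] [Module k V] [Group H] [Finite H]
    (hchar : ¬ ringChar k ∣ Nat.card H) (ρ : Representation k H V) (a : V)
    (hspan : Submodule.span k {u : V | ∃ h : H, ρ h a = u} = ⊤) :
    Module.finrank k ρ.invariants ≤ 1 ∧
    ∀ b : V, (Nat.card {u : V | ∃ h : H, ρ h a = u}).Coprime (Nat.card {u : V | ∃ h : H, ρ h b = u}) → ∀ h : H, ρ h b = b := by
  classical
  have := Fintype.ofFinite H
  have hne : ∀ B : Subgroup H, ((Nat.card B : ℕ) : k) ≠ 0 := fun B h =>
    hchar (((ringChar.spec k _).1 h).trans B.card_subgroup_dvd_card)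
  have hneH : ((Nat.card H : ℕ) : k) ≠ 0 := fun h => hchar ((ringChar.spec k _).1 h)
  let S : Subgroup H → V →ₗ[k] V := fun B => ∑ h : B, ρ h
  have hS1 : ∀ (B : Subgroup H) (g : H), g ∈ B → ∀ v, S B (ρ g v) = S B v := fun B g hg v => by
    simp only [S, LinearMap.sum_apply, ← Module.End.mul_apply, ← map_mul]
    exact Fintype.sum_equiv (Equiv.mulRight (⟨g, hg⟩ : B)) _ _ fun x => rfl
  have hS2 : ∀ (B : Subgroup H) (g : H), g ∈ B → ∀ v, ρ g (S B v) = S B v := fun B g hg v => by
    simp only [S, LinearMap.sum_apply, map_sum, ← Module.End.mul_apply, ← map_mul]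
    exact Fintype.sum_equiv (Equiv.mulLeft (⟨g, hg⟩ : B)) _ _ fun x => rfl
  have hS3 : ∀ (B : Subgroup H) (v : V), (∀ g ∈ B, ρ g v = v) → S B v = (Nat.card B : k) • v :=
    fun B v hv => by
      simp only [S, LinearMap.sum_apply]
      rw [Finset.sum_congr rfl fun (x : B) _ => hv x x.2, Finset.sum_const, Finset.card_univ,
        Nat.card_eq_fintype_card, Nat.cast_smul_eq_nsmul]
  constructor
  · have h1 : ρ.invariants ≤ Submodule.span k {S ⊤ a} := by
      intro v hv
      have h2 : (⊤ : Submodule k V) ≤ (Submodule.span k {S ⊤ a}).comap (S ⊤) := by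
        rw [← hspan, Submodule.span_le]
        rintro _ ⟨h, rfl⟩
        show S ⊤ (ρ h a) ∈ Submodule.span k {S ⊤ a}
        rw [hS1 ⊤ h trivial]
        exact Submodule.subset_span rfl
      have h3 : S ⊤ v ∈ Submodule.span k {S ⊤ a} := h2 Submodule.mem_top
      rw [hS3 ⊤ v fun g _ => hv g] at h3
      exact (Submodule.smul_mem_iff _ (hne ⊤)).1 h3
    exact (Submodule.finrank_mono h1).trans ((finrank_span_le_card _).trans (by simp))
  · intro b hb
    rw [card_orb, card_orb] at hb
    have h1 := (S0007.result (stab ρ b) (stab ρ a) hb.symm).2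
    have h2 : ∀ h, S (stab ρ b) (ρ h a) = S (stab ρ b) a := fun h => by
      obtain ⟨x, hx, y, hy, rfl⟩ := h1 h
      rw [map_mul, Module.End.mul_apply, hS1 _ x hx, show ρ y a = a from hy]
    have h3 : (Nat.card (⊤ : Subgroup H) : k) • S (stab ρ b) a =
        (Nat.card (stab ρ b) : k) • S ⊤ a := by
      rw [← hS3 (stab ρ b) (S ⊤ a) fun g _ => hS2 ⊤ g trivial a]
      conv_rhs => simp only [S, LinearMap.sum_apply (f := fun h : (⊤ : Subgroup H) => ρ h), map_sum]
      rw [Finset.sum_congr rfl fun (x : (⊤ : Subgroup H)) _ => h2 x, Finset.sum_const,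
        Finset.card_univ, Nat.card_eq_fintype_card, Nat.cast_smul_eq_nsmul]
    have h4 : (Nat.card (⊤ : Subgroup H) : k) • S (stab ρ b) = (Nat.card (stab ρ b) : k) • S ⊤ := by
      apply LinearMap.ext_on hspan
      rintro _ ⟨h, rfl⟩
      simp only [LinearMap.smul_apply]
      rw [h2, hS1 ⊤ h trivial, h3]
    have h5 := LinearMap.congr_fun h4 b
    simp only [LinearMap.smul_apply] at h5
    rw [hS3 _ b fun g hg => hg, smul_comm] at h5
    have h6 := smul_right_injective V (hne _) h5
    intro h
    apply smul_right_injective V (hne ⊤)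
    simp only
    rw [← map_smul, h6, hS2 ⊤ h trivial]

end Cfsg.Agent.S4177
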