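import Cfsg.Statements.S4178
import Mathlib

set_option autoImplicit false
open Cfsg

namespace Cfsg.Agent.S4178


open Module

theorem index_le {G X : Type*} [Group G] [Finite X] (R : Subgroup G) (f : G → X)
    (h : ∀ a b, f a = f b → a⁻¹ * b ∈ R) : R.index ≤ Nat.card X := by
  refine Nat.card_le_card_of_injective (fun x : G ⧸ R => f x.out) fun x y hxy => ?_
  rw [← x.out_eq, ← y.out_eq]
  exact Quotient.sound (QuotientGroup.leftRel_apply.2 (h _ _ hxy))

theorem card_ne_zero (F U : Type*) [Field F] [Fintype F] [AddCommGroup U] [Module F U]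
    [FiniteDimensional F U] : Nat.card {u : U // u ≠ 0} = Fintype.card F ^ finrank F U - 1 := by
  classical
  haveI : Finite U := Module.finite_of_finite F
  haveI := Fintype.ofFinite U
  rw [Nat.card_eq_fintype_card, Fintype.card_subtype_compl, Fintype.card_subtype_eq,
    Module.card_eq_pow_finrank (K := F)]

theorem real_le {q k d r : ℕ} (hq : 1 ≤ q) (h : r ≤ q ^ k - 1) (hk : 2 * k ≤ d) :
    (r : ℝ) ≤ Real.sqrt ((q : ℝ) ^ d) - 1 := by
  have h1 : 1 ≤ q ^ k := Nat.one_le_pow _ _ hq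
  have h2 : (r : ℝ) + 1 ≤ (q : ℝ) ^ k := by
    have : r + 1 ≤ q ^ k := by omega
    exact_mod_cast this
  have h3 : (q : ℝ) ^ k ≤ Real.sqrt ((q : ℝ) ^ d) := by
    apply Real.le_sqrt_of_sq_le
    rw [← pow_mul]
    exact pow_le_pow_right₀ (by exact_mod_cast hq) (by omega)
  linarith


/-- Let F be a finite field with q elements, V a non-zero finite-dimensional F-space of dimension d, H a group of invertible linear maps of V, and R the subgroup of H generated by the elements of H that fix some non-zero vector (have eigenvalue 1). Then the index of R in H is at most q^d − 1; and if H leaves invariant some proper non-zero subspace, the index is at most q^(d/2) − 1. -/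
theorem result {F V : Type*} [Field F] [Fintype F] [AddCommGroup V] [Module F V] [FiniteDimensional F V] [Nontrivial V]
    (H : Subgroup (V ≃ₗ[F] V)) :
    (Subgroup.closure {h : ↥H | ∃ v : V, v ≠ 0 ∧ (h : V ≃ₗ[F] V) v = v}).index ≤ Fintype.card F ^ Module.finrank F V - 1 ∧
    ((∃ W : Submodule F V, W ≠ ⊥ ∧ W ≠ ⊤ ∧ ∀ h ∈ H, ∀ w ∈ W, h w ∈ W) →
      ((Subgroup.closure {h : ↥H | ∃ v : V, v ≠ 0 ∧ (h : V ≃ₗ[F] V) v = v}).index : ℝ) ≤ Real.sqrt ((Fintype.card F : ℝ) ^ Module.finrank F V) - 1) := by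
  classical
  haveI : Finite V := Module.finite_of_finite F
  set R := Subgroup.closure {h : ↥H | ∃ v : V, v ≠ 0 ∧ (h : V ≃ₗ[F] V) v = v} with hR
  have hq : 1 ≤ Fintype.card F := Fintype.card_pos
  have hfix : ∀ (a b : H) (v : V), (a : V ≃ₗ[F] V) v = (b : V ≃ₗ[F] V) v →
      ((a⁻¹ * b : H) : V ≃ₗ[F] V) v = v := by
    intro a b v h
    rw [Subgroup.coe_mul, LinearEquiv.mul_apply, ← h, ← LinearEquiv.mul_apply, ← Subgroup.coe_mul,
      inv_mul_cancel]
    rfl
  refine ⟨?_, ?_⟩
  · obtain ⟨v, hv⟩ := exists_ne (0 : V)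
    rw [← card_ne_zero F V]
    refine index_le R (fun a => (⟨(a : V ≃ₗ[F] V) v, by simpa using hv⟩ : {u : V // u ≠ 0}))
      fun a b hab => Subgroup.subset_closure ⟨v, hv, hfix a b v (congrArg Subtype.val hab)⟩
  rintro ⟨W, hW0, hW1, hW⟩
  have hdim := W.finrank_quotient_add_finrank
  by_cases hk : 2 * finrank F W ≤ finrank F V
  · obtain ⟨v, hvW, hv⟩ := Submodule.exists_mem_ne_zero_of_ne_bot hW0
    refine real_le hq ?_ hk
    rw [← card_ne_zero F W]
    refine index_le R (fun a => (⟨⟨(a : V ≃ₗ[F] V) v, hW _ a.2 v hvW⟩, by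
      intro h; apply hv; simpa using congrArg Subtype.val h⟩ : {u : W // u ≠ 0}))
      fun a b hab => Subgroup.subset_closure ⟨v, hv, hfix a b v
        (congrArg (fun x : {u : W // u ≠ 0} => (x.1 : V)) hab)⟩
  · obtain ⟨v, hv⟩ : ∃ v, v ∉ W := by
      by_contra h
      push Not at h
      exact hW1 (eq_top_iff.2 fun x _ => h x)
    haveI : Finite (V ⧸ W) := Module.finite_of_finite F
    refine real_le (k := finrank F (V ⧸ W)) hq ?_ (by omega)
    rw [← card_ne_zero F (V ⧸ W)]
    have hinv : ∀ (a : H) (x : V), (a : V ≃ₗ[F] V) x ∈ W → x ∈ W := by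
      intro a x hx
      have := hW _ (a⁻¹).2 _ hx
      rwa [← LinearEquiv.mul_apply, ← Subgroup.coe_mul, inv_mul_cancel] at this
    refine index_le R (fun a => (⟨W.mkQ ((a : V ≃ₗ[F] V) v), fun h => hv (hinv a v
      ((Submodule.Quotient.mk_eq_zero W).1 h))⟩ : {u : V ⧸ W // u ≠ 0}))
      fun a b hab => Subgroup.subset_closure ?_
    have h1 : (b : V ≃ₗ[F] V) v - (a : V ≃ₗ[F] V) v ∈ W :=
      (Submodule.Quotient.eq W).1 (congrArg Subtype.val hab).symm
    set g : V ≃ₗ[F] V := ((a⁻¹ * b : H) : V ≃ₗ[F] V) with hg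
    have h2 : g v - v ∈ W := by
      apply hinv a
      rw [map_sub, hg, ← LinearEquiv.mul_apply, ← Subgroup.coe_mul, mul_inv_cancel_left]
      exact h1
    have h3 : ∀ w ∈ W, g w ∈ W := hW _ (a⁻¹ * b).2
    by_contra hcon
    have hinj : Function.Injective (g.toLinearMap - LinearMap.id : V →ₗ[F] V) := by
      rw [← LinearMap.ker_eq_bot, eq_bot_iff]
      intro x hx
      by_contra hx0
      exact hcon ⟨x, hx0, (show g x = x by simpa [sub_eq_zero] using hx)⟩
    have hmap : W.map (g.toLinearMap - LinearMap.id : V →ₗ[F] V) = W := by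
      apply Submodule.eq_of_le_of_finrank_eq
      · rintro _ ⟨w, hw, rfl⟩
        exact W.sub_mem (h3 w hw) hw
      · exact (Submodule.equivMapOfInjective _ hinj W).finrank_eq.symm
    have h4 : (g.toLinearMap - LinearMap.id : V →ₗ[F] V) v ∈
        W.map (g.toLinearMap - LinearMap.id : V →ₗ[F] V) := by
      rw [hmap]; exact h2
    obtain ⟨w, hw, hwv⟩ := h4
    exact hv (hinj hwv ▸ hw)

end Cfsg.Agent.S4178
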