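import Cfsg.Statements.S4182


set_option autoImplicit false
open Cfsg

namespace Cfsg.Agent.S4182

open scoped Pointwise

universe u

theorem pgroup_cover {G : Type u} [Group G] [Finite G] (p : ℕ) [hp : Fact p.Prime] (hG : IsPGroup p G)
    {ι : Type*} [Fintype ι] (K : ι → Subgroup G) (hK : ∀ i, K i ≠ ⊤) (hcov : ∀ g : G, ∃ i, g ∈ K i) :
    p + 1 ≤ Fintype.card ι := by
  classical
  by_contra hlt
  have hm : Fintype.card ι ≤ p := by omega
  haveI := Fintype.ofFinite G
  obtain ⟨i₀, -⟩ := hcov 1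
  have hind : ∀ i, p * Nat.card (K i) ≤ Nat.card G := by
    intro i
    obtain ⟨k, hk⟩ := hG.index (K i)
    have hk0 : k ≠ 0 := by
      rintro rfl
      exact hK i (Subgroup.index_eq_one.1 (by simpa using hk))
    have h1 : p ≤ (K i).index := by
      rw [hk]; exact Nat.le_self_pow hk0 p
    rw [← (K i).index_mul_card]
    exact Nat.mul_le_mul_right _ h1
  let S : ι → Finset G := fun i => (Finset.univ.filter (· ∈ K i)).erase 1
  have hS : ∀ i, (S i).card + 1 = Nat.card (K i) := by
    intro i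
    have : (Finset.univ.filter (· ∈ K i)).card = Nat.card (K i) := by
      rw [Nat.card_eq_fintype_card, Fintype.card_subtype]
    rw [← this]
    exact Finset.card_erase_add_one (by simp [(K i).one_mem])
  have hsub : (Finset.univ : Finset G).erase 1 ⊆ Finset.univ.biUnion S := by
    intro g hg
    obtain ⟨i, hi⟩ := hcov g
    simp only [Finset.mem_biUnion, Finset.mem_univ, true_and]
    exact ⟨i, by simpa [S, hi] using hg⟩
  have h1 := (Finset.card_le_card hsub).trans Finset.card_biUnion_le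
  have h2 : ((Finset.univ : Finset G).erase 1).card + 1 = Nat.card G := by
    rw [Finset.card_erase_add_one (Finset.mem_univ _), Nat.card_eq_fintype_card, Finset.card_univ]
  have h3 : ∑ i, p * ((S i).card + 1) ≤ Fintype.card ι * Nat.card G := by
    calc ∑ i, p * ((S i).card + 1) ≤ ∑ _i : ι, Nat.card G :=
          Finset.sum_le_sum fun i _ => by rw [hS]; exact hind i
      _ = _ := by simp
  rw [← Finset.mul_sum, Finset.sum_add_distrib] at h3
  simp only [Finset.sum_const, Finset.card_univ, smul_eq_mul, mul_one] at h3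
  have hpos : 1 ≤ Fintype.card ι := Fintype.card_pos_iff.2 ⟨i₀⟩
  have hp2 := hp.out.two_le
  set s := ∑ i, (S i).card
  set m := Fintype.card ι
  set N := Nat.card G
  have h4 : p * (s + m) ≤ p * N := h3.trans (Nat.mul_le_mul_right _ hm)
  have h5 : s + m ≤ N := Nat.le_of_mul_le_mul_left h4 (by omega)
  have hm1 : m = 1 := by omega
  rw [hm1] at h3
  have : 2 * (s + 1) ≤ p * (s + 1) := Nat.mul_le_mul_right _ hp2
  omega

theorem main (p : ℕ) [hp : Fact p.Prime] {ι : Type*} [Fintype ι] (hm : Fintype.card ι ≤ p) (n : ℕ) :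
    ∀ (G : Type u) [Group G] [Finite G], Nat.card G = n →
      Subgroup.closure {g : G | ∃ k : ℕ, orderOf g = p ^ k} = ⊤ → ∀ (K : ι → Subgroup G),
      (∀ g : G, (∃ k : ℕ, orderOf g = p ^ k) → ∃ i, g ∈ K i) → ∃ i, K i = ⊤ := by
  classical
  induction n using Nat.strong_induction_on with
  | _ n ih =>
  intro G _ _ hn hgen K hcov
  by_contra hK
  push Not at hK
  -- proper subgroups generated by `p`-elements lie in some `K i`
  have hprop : ∀ s : Set G, (∀ g ∈ s, ∃ k : ℕ, orderOf g = p ^ k) → Subgroup.closure s ≠ ⊤ →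
      ∃ i, Subgroup.closure s ≤ K i := by
    intro s hs hne
    have hlt : Nat.card (Subgroup.closure s) < n := by
      rw [← hn]
      refine lt_of_le_of_ne (Subgroup.card_le_card_group _) fun h => hne ?_
      exact Subgroup.eq_top_of_card_eq _ h
    refine (ih _ hlt (Subgroup.closure s) rfl ?_
      (fun i => (K i).subgroupOf (Subgroup.closure s)) ?_).imp
      fun i hi => Subgroup.subgroupOf_eq_top.1 hi
    · rw [eq_top_iff, ← Subgroup.closure_preimage_eq_top s]
      apply Subgroup.closure_mono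
      intro g hg
      obtain ⟨k, hk⟩ := hs _ hg
      exact ⟨k, by rw [← hk]; exact (Subgroup.orderOf_coe g).symm⟩
    · rintro g ⟨k, hk⟩
      exact hcov g ⟨k, by rw [← hk]; exact Subgroup.orderOf_coe g⟩
  let T : ι → Set G := fun i => {g | g ∈ K i ∧ ∃ k : ℕ, orderOf g = p ^ k}
  let Y : ι → Subgroup G := fun i => Subgroup.closure (T i)
  have hYK : ∀ i, Y i ≤ K i := fun i => (Subgroup.closure_le _).2 fun g hg => hg.1
  have hprop' : ∀ s : Set G, (∀ g ∈ s, ∃ k : ℕ, orderOf g = p ^ k) → Subgroup.closure s ≠ ⊤ →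
      ∃ i, Subgroup.closure s ≤ Y i := by
    intro s hs hne
    obtain ⟨i, hi⟩ := hprop s hs hne
    exact ⟨i, Subgroup.closure_mono fun g hg => ⟨hi (Subgroup.subset_closure hg), hs g hg⟩⟩
  have hSyl : ∀ P : Sylow p G, ∀ g ∈ (P : Subgroup G), ∃ k : ℕ, orderOf g = p ^ k := by
    intro P g hg
    obtain ⟨k, hk⟩ := IsPGroup.iff_orderOf.1 P.isPGroup' ⟨g, hg⟩
    exact ⟨k, by rw [← hk]; exact Subgroup.orderOf_coe (⟨g, hg⟩ : (P : Subgroup G))⟩
  obtain ⟨P₀⟩ : Nonempty (Sylow p G) := inferInstance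
  have hP₀ : (P₀ : Subgroup G) ≠ ⊤ := by
    intro h
    have hG : IsPGroup p G := IsPGroup.iff_orderOf.2 fun g => hSyl P₀ g (h ▸ Subgroup.mem_top g)
    have := pgroup_cover p hG K hK fun g => hcov g (IsPGroup.iff_orderOf.1 hG g)
    omega
  obtain ⟨i₀, hi₀⟩ := hprop' (P₀ : Subgroup G) (hSyl P₀) (by rwa [Subgroup.closure_eq])
  rw [Subgroup.closure_eq] at hi₀
  obtain ⟨i, hi, hmax⟩ := Finset.exists_max_image
    (Finset.univ.filter fun i => ∃ P : Sylow p G, (P : Subgroup G) ≤ Y i) (fun i => Nat.card (Y i))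
    ⟨i₀, by simpa using ⟨P₀, hi₀⟩⟩
  obtain ⟨P, hP⟩ := (Finset.mem_filter.1 hi).2
  have hconj : ∀ g : G, ∃ j, (MulAut.conj g • Y i : Subgroup G) = Y j := by
    intro g
    have he : (MulAut.conj g • Y i : Subgroup G) = Subgroup.closure (MulAut.conj g • T i) :=
      Subgroup.smul_closure _ _
    have hcard : Nat.card (MulAut.conj g • Y i : Subgroup G) = Nat.card (Y i) :=
      Nat.card_congr (Subgroup.equivSMul _ _).toEquiv.symm
    obtain ⟨j, hj⟩ := hprop' (MulAut.conj g • T i) (by
      rintro _ ⟨x, ⟨-, k, hk⟩, rfl⟩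
      exact ⟨k, by rw [← hk]; exact MulEquiv.orderOf_eq (MulAut.conj g) x⟩) (by
      rw [← he]
      intro h
      apply hK i
      rw [eq_top_iff]
      refine le_trans ?_ (hYK i)
      apply le_of_eq
      refine (Subgroup.eq_top_of_card_eq _ ?_).symm
      rw [← hcard, h, Subgroup.card_top])
    rw [← he] at hj
    refine ⟨j, Subgroup.eq_of_le_of_card_ge hj ?_⟩
    rw [hcard]
    refine hmax j (Finset.mem_filter.2 ⟨Finset.mem_univ _, g • P, ?_⟩)
    refine le_trans ?_ hj
    rw [Sylow.coe_subgroup_smul]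
    exact Subgroup.pointwise_smul_le_pointwise_smul_iff.2 hP
  -- the number of conjugates
  let N := Subgroup.normalizer (Y i : Set G)
  have hidx : N.index ≤ p := by
    refine le_trans ?_ hm
    choose f hf using hconj
    rw [← Nat.card_eq_fintype_card]
    refine Nat.card_le_card_of_injective (fun x : G ⧸ N => f x.out) ?_
    intro x y hxy
    have h1 : (MulAut.conj x.out • Y i : Subgroup G) = MulAut.conj y.out • Y i := by
      rw [hf, hf]; exact congrArg Y hxy
    rw [← x.out_eq, ← y.out_eq]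
    apply QuotientGroup.eq.2
    have h2 : (MulAut.conj (x.out⁻¹ * y.out) • Y i : Subgroup G) = Y i := by
      rw [map_mul, mul_smul, ← h1, map_inv, inv_smul_smul]
    exact Subgroup.mem_normalizer_iff_map_conj_eq.2 h2
  have hndvd : ¬ p ∣ N.index := fun h =>
    P.not_dvd_index (h.trans (Subgroup.index_dvd_of_le (hP.trans Subgroup.le_normalizer)))
  have hlt : N.index < p := lt_of_le_of_ne hidx fun h => hndvd (h ▸ dvd_rfl)
  have hNtop : N = ⊤ := by
    rw [eq_top_iff, ← hgen, Subgroup.closure_le]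
    rintro g ⟨k, hk⟩
    have hz : IsPGroup p (Subgroup.zpowers g) := by
      apply IsPGroup.of_card (n := k)
      rw [Nat.card_zpowers, hk]
    obtain ⟨m, hm'⟩ := hz.card_orbit ((1 : G) : G ⧸ N)
    have hle : Nat.card (MulAction.orbit (Subgroup.zpowers g) ((1 : G) : G ⧸ N)) ≤ N.index :=
      Finite.card_subtype_le _
    have hm0 : m = 0 := by
      by_contra h
      have := Nat.le_self_pow h p
      omega
    rw [hm0, pow_zero] at hm'
    have hsub := (Nat.card_eq_one_iff_unique.1 hm').1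
    have h1 : (⟨_, MulAction.mem_orbit _ (⟨g, Subgroup.mem_zpowers g⟩ : Subgroup.zpowers g)⟩ :
        MulAction.orbit (Subgroup.zpowers g) ((1 : G) : G ⧸ N)) = ⟨_, MulAction.mem_orbit_self _⟩ :=
      Subsingleton.elim _ _
    have h2 : g • ((1 : G) : G ⧸ N) = ((1 : G) : G ⧸ N) := congrArg Subtype.val h1
    rw [← MulAction.mem_stabilizer_iff, MulAction.stabilizer_quotient] at h2
    exact h2
  haveI : (Y i).Normal := Subgroup.normalizer_eq_top_iff.1 hNtop
  apply hK i
  rw [eq_top_iff, ← hgen, Subgroup.closure_le]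
  rintro g ⟨k, hk⟩
  have hz : IsPGroup p (Subgroup.zpowers g) := by
    apply IsPGroup.of_card (n := k)
    rw [Nat.card_zpowers, hk]
  obtain ⟨Q, hQ⟩ := hz.exists_le_sylow
  obtain ⟨x, hx⟩ := MulAction.exists_smul_eq G P Q
  apply hYK i
  have hgQ : g ∈ (Q : Subgroup G) := hQ (Subgroup.mem_zpowers g)
  rw [← hx, Sylow.coe_subgroup_smul] at hgQ
  obtain ⟨y, hy, rfl⟩ := hgQ
  exact Subgroup.Normal.conj_mem inferInstance y (hP hy) x


/-- Let p be a prime and G a finite group generated by its p-elements. If a finite family of proper subgroups of G covers the set of p-elements of G (every element of p-power order lies in one of them), then the family has at least p + 1 members. -/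
theorem result {G : Type*} [Group G] [Finite G] (p : ℕ) [Fact p.Prime] (hgen : Subgroup.closure {g : G | ∃ k : ℕ, orderOf g = p ^ k} = ⊤)
    {ι : Type*} [Fintype ι] (K : ι → Subgroup G) (hK : ∀ i, K i ≠ ⊤)
    (hcov : ∀ g : G, (∃ k : ℕ, orderOf g = p ^ k) → ∃ i, g ∈ K i) :
    p + 1 ≤ Fintype.card ι := by
  by_contra h
  obtain ⟨i, hi⟩ := main p (ι := ι) (by omega) _ G rfl hgen K hcov
  exact hK i hi

end Cfsg.Agent.S4182
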