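import Cfsg.Statements.S4184
import Cfsg.Agent.H83.ClassSize

set_option autoImplicit false
open Cfsg

namespace Cfsg.Agent.S4184

open Cfsg.Agent.H83 Subgroup

theorem exists_dvd_cs {G : Type*} [Group G] [Finite G] (hZ : center G = ⊥) {p : ℕ}
    (hp : p.Prime) (h : p ∣ Nat.card G) : ∃ x : G, p ∣ cs(x) := by
  have := Fact.mk hp
  by_contra hcon
  push Not at hcon
  obtain ⟨P⟩ : Nonempty (Sylow p G) := inferInstance
  have htop : centralizer ((P : Subgroup G) : Set G) = ⊤ := by
    apply eq_top_of_forall_conj_mem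
    intro x
    obtain ⟨Q, hQ⟩ := not_dvd_index_iff.mp (hcon x)
    obtain ⟨g, rfl⟩ := MulAction.exists_smul_eq G Q P
    refine ⟨g, fun s hs => ?_⟩
    have := mem_cent.mp (hQ (H2.mem_conj_smul.mp hs))
    calc s * (g * x * g⁻¹) = g * (g⁻¹ * s * g * x) * g⁻¹ := by group
      _ = _ := by rw [this]; group
  rw [centralizer_eq_top_iff_subset, hZ] at htop
  exact P.ne_bot_of_dvd_card h (eq_bot_iff.mpr htop)

/-- a nontrivial `p`-central `p`-element -/
theorem exists_pcentral {G : Type*} [Group G] [Finite G] {p : ℕ} [Fact p.Prime] (R : Subgroup G)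
    (hR : IsPGroup p R) (h : R ≠ ⊥) : ∃ z ∈ R, z ≠ 1 ∧ R ≤ centralizer ({z} : Set G) := by
  have : Nontrivial R := (Subgroup.nontrivial_iff_ne_bot R).mpr h
  have := hR.center_nontrivial
  obtain ⟨⟨z, hz⟩, hz1⟩ := exists_ne (1 : center R)
  refine ⟨z, z.2, fun h1 => hz1 (Subtype.ext (Subtype.ext h1)), fun y hy => ?_⟩
  rw [mem_cent]
  exact congrArg Subtype.val (mem_center_iff.mp hz ⟨y, hy⟩)

theorem half {G : Type*} [Group G] [Finite G] (hZ : center G = ⊥) (m : ℕ) (hm : m ≠ 0)
    (A : ℕ → Prop)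
    (hdvd : ∀ x : G, cs(x) ∣ m) (hne : ∀ x : G, cs(x) ≠ m)
    (hfull : ∀ x : G, x ≠ 1 → (∀ r : ℕ, r.Prime → A r → m.factorization r ≤ (cs(x)).factorization r) ∨
      (∀ r : ℕ, r.Prime → ¬ A r → m.factorization r ≤ (cs(x)).factorization r))
    {q : ℕ} (hq : q.Prime) (hqA : ¬ A q) (hqG : q ∣ Nat.card G) (hqm : q ∣ m)
    {p : ℕ} (hp : p.Prime) (hpA : A p) :
    (Nat.card G).factorization p = m.factorization p := by
  have := Fact.mk hp
  have := Fact.mk hq
  have hnot : ∀ x : G, ¬ ((∀ r : ℕ, r.Prime → A r → m.factorization r ≤ (cs(x)).factorization r) ∧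
      (∀ r : ℕ, r.Prime → ¬ A r → m.factorization r ≤ (cs(x)).factorization r)) := by
    rintro x ⟨h1, h2⟩
    apply hne x
    apply Nat.dvd_antisymm (hdvd x)
    rw [← Nat.factorization_prime_le_iff_dvd hm (cs_ne_zero x)]
    intro r hr
    by_cases h : A r
    · exact h1 r hr h
    · exact h2 r hr h
  have hmono : ∀ {x y : G}, cs(x) ∣ cs(y) → ∀ r : ℕ,
      (cs(x)).factorization r ≤ (cs(y)).factorization r := fun {x y} h r =>
    (Nat.factorization_le_iff_dvd (cs_ne_zero x) (cs_ne_zero y)).mpr h r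
  have hle : ∀ (x : G) (r : ℕ), (cs(x)).factorization r ≤ m.factorization r := fun x r =>
    (Nat.factorization_le_iff_dvd (cs_ne_zero x) hm).mpr (hdvd x) r
  have hfac : ∀ (x : G) (r : ℕ), (Nat.card G).factorization r =
      (Nat.card (centralizer ({x} : Set G))).factorization r + (cs(x)).factorization r := by
    intro x r
    rw [← card_cent_mul_cs x, Nat.factorization_mul Nat.card_pos.ne' (cs_ne_zero x)]
    rfl
  obtain ⟨Q⟩ : Nonempty (Sylow q G) := inferInstance
  obtain ⟨w, hwQ, hw1, hw⟩ := exists_pcentral (Q : Subgroup G) Q.isPGroup' (Q.ne_bot_of_dvd_card hqG)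
  obtain ⟨kw, hkw⟩ := H82.orderOf_eq_pow_of_mem Q.isPGroup' hwQ
  have hwA : ∀ r : ℕ, r.Prime → A r → m.factorization r ≤ (cs(w)).factorization r := by
    refine (hfull w hw1).resolve_right fun h => ?_
    have h1 := h q hq hqA
    rw [Nat.factorization_eq_zero_of_not_dvd (not_dvd_index_iff.mpr ⟨Q, hw⟩)] at h1
    have := hq.factorization_pos_of_dvd hm hqm
    omega
  have hpq : p ≠ q := fun h => hqA (h ▸ hpA)
  -- any nontrivial `p`-element commuting with `w` is `A`-full
  have hkey : ∀ y : G, y ≠ 1 → (∃ k, orderOf y = p ^ k) → y ∈ centralizer ({w} : Set G) →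
      (cs(y)).factorization p = m.factorization p := by
    rintro y hy1 ⟨k, hk⟩ hyw
    have hc : Commute y w := mem_cent.mp hyw
    have hcop : (orderOf y).Coprime (orderOf w) := by
      rw [hk, hkw]; exact Nat.coprime_pow_primes _ _ hp hq hpq
    refine le_antisymm (hle y p) ?_
    refine (hfull y hy1).resolve_right (fun h => hnot (y * w) ⟨fun r hr hA => ?_, fun r hr hA => ?_⟩)
      p hp hpA
    · exact (hwA r hr hA).trans (hmono (cs_dvd_cs_mul_right hc hcop) r)
    · exact (h r hr hA).trans (hmono (cs_dvd_cs_mul_left hc hcop) r)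
  have hw2 : (cs(w)).factorization p = m.factorization p := le_antisymm (hle w p) (hwA p hp hpA)
  by_contra hcon
  have h1 := hfac w p
  have hpC : p ∣ Nat.card (centralizer ({w} : Set G)) := by
    apply Nat.dvd_of_factorization_pos
    omega
  obtain ⟨R0⟩ : Nonempty (Sylow p (centralizer ({w} : Set G))) := inferInstance
  set R : Subgroup G := (R0 : Subgroup (centralizer ({w} : Set G))).map (Subgroup.subtype _) with hRdef
  have hRp : IsPGroup p R := R0.isPGroup'.map _
  have hRc : Nat.card R = p ^ (Nat.card (centralizer ({w} : Set G))).factorization p := by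
    rw [hRdef, card_map_of_injective (Subgroup.subtype_injective _)]
    exact R0.card_eq_multiplicity
  have hRw : R ≤ centralizer ({w} : Set G) := map_subtype_le _
  have hRne : R ≠ ⊥ := by
    intro h
    rw [h, card_bot] at hRc
    have := Nat.one_lt_pow (n := (Nat.card (centralizer ({w} : Set G))).factorization p)
      (by omega) hp.one_lt
    omega
  obtain ⟨y, hyR, hy1, hy⟩ := exists_pcentral R hRp hRne
  have hy2 := hkey y hy1 (H82.orderOf_eq_pow_of_mem hRp hyR) (hRw hyR)
  obtain ⟨P, hP⟩ := hRp.exists_le_sylow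
  have hpG : p ∣ Nat.card G := hpC.trans (Subgroup.card_subgroup_dvd_card _)
  obtain ⟨z, hzP, hz1, hz⟩ := exists_pcentral (P : Subgroup G) P.isPGroup' (P.ne_bot_of_dvd_card hpG)
  have hzR : z ∈ R := by
    have h2 : (P : Subgroup G) ⊓ centralizer ({y} : Set G) = R := by
      symm
      apply eq_of_le_of_card_ge (le_inf hP hy)
      obtain ⟨k, hk⟩ := (P.isPGroup'.to_inf_left (K := centralizer ({y} : Set G))).exists_card_eq
      have h3 : p ^ k ∣ Nat.card (centralizer ({y} : Set G)) := hk ▸ card_dvd_of_le inf_le_right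
      rw [hk, hRc]
      apply Nat.pow_le_pow_right hp.pos
      have h4 := (hp.pow_dvd_iff_le_factorization Nat.card_pos.ne').mp h3
      have h5 := hfac y p
      omega
    rw [← h2]
    exact ⟨hzP, mem_cent_comm.mp (hz (hP hyR))⟩
  have hz2 := hkey z hz1 (H82.orderOf_eq_pow_of_mem P.isPGroup' hzP) (hRw hzR)
  rw [Nat.factorization_eq_zero_of_not_dvd (not_dvd_index_iff.mpr ⟨P, hz⟩)] at hz2
  obtain ⟨x, hx⟩ := exists_dvd_cs hZ hp hpG
  have := hp.factorization_pos_of_dvd hm (hx.trans (hdvd x))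
  omega

/-- Let G and M be finite groups with trivial centres and the same set of conjugacy class sizes, and suppose the prime graph of M is disconnected: the prime divisors of #M split into two non-empty parts such that M has no element of order pq with p in one part and q in the other. Then #G = #M. -/
theorem result {G M : Type*}
    [Group G] [Finite G] [Group M] [Finite M] (hZG : Subgroup.center G = ⊥) (hZM : Subgroup.center M = ⊥)
    (h : Set.range (fun g : G => (Subgroup.centralizer ({g} : Set G)).index) = Set.range (fun g : M => (Subgroup.centralizer ({g} : Set M)).index))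
    (hdisc : ∃ A : Set ℕ, (∃ a ∈ A, a.Prime ∧ a ∣ Nat.card M) ∧ (∃ b ∉ A, b.Prime ∧ b ∣ Nat.card M) ∧
      ∀ a ∈ A, ∀ b ∉ A, a.Prime → b.Prime → a ∣ Nat.card M → b ∣ Nat.card M → ¬ ∃ x : M, orderOf x = a * b) :
    Nat.card G = Nat.card M := by
  obtain ⟨A, ⟨a, haA, ha, haM⟩, ⟨b, hbA, hb, hbM⟩, hA⟩ := hdisc
  have hGM : ∀ x : G, ∃ y : M, cs(y) = cs(x) := fun x => by
    have : cs(x) ∈ Set.range (fun g : G => cs(g)) := ⟨x, rfl⟩
    rw [h] at this; exact this
  have hMG : ∀ y : M, ∃ x : G, cs(x) = cs(y) := fun x => by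
    have : cs(x) ∈ Set.range (fun g : M => cs(g)) := ⟨x, rfl⟩
    rw [← h] at this; exact this
  have hm : Nat.card M ≠ 0 := Nat.card_pos.ne'
  have hdvd : ∀ x : G, cs(x) ∣ Nat.card M := fun x => by
    obtain ⟨y, hy⟩ := hGM x
    rw [← hy]; exact cs_dvd_card y
  have hne : ∀ x : G, cs(x) ≠ Nat.card M := fun x hx => by
    obtain ⟨y, hy⟩ := hGM x
    have h1 := card_cent_mul_cs y
    rw [hy, hx] at h1
    have h2 : Nat.card (centralizer ({y} : Set M)) = 1 :=
      Nat.eq_of_mul_eq_mul_right Nat.card_pos (h1.trans (one_mul _).symm)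
    rw [card_eq_one] at h2
    have h3 : y = 1 := by
      have := self_mem_cent y
      rwa [h2, mem_bot] at this
    rw [h3, cs_one, hx] at hy
    rw [← hy, Nat.dvd_one] at haM
    exact ha.ne_one haM
  have hfull : ∀ x : G, x ≠ 1 →
      (∀ r : ℕ, r.Prime → r ∈ A → (Nat.card M).factorization r ≤ (cs(x)).factorization r) ∨
      (∀ r : ℕ, r.Prime → r ∉ A → (Nat.card M).factorization r ≤ (cs(x)).factorization r) := by
    intro x hx
    obtain ⟨y, hy⟩ := hGM x
    rw [← hy]
    have hy1 : y ≠ 1 := by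
      rintro rfl
      rw [cs_one, eq_comm, cs_eq_one_iff, hZG, mem_bot] at hy
      exact hx hy
    have ho : orderOf y ≠ 1 := fun h => hy1 (orderOf_eq_one_iff.mp h)
    obtain ⟨s, hs, hsy⟩ := Nat.exists_prime_and_dvd ho
    set u := y ^ (orderOf y / s) with hu
    have hus : orderOf u = s := orderOf_pow_orderOf_div (orderOf_pos y).ne' hsy
    have hsM : s ∣ Nat.card M := hus ▸ orderOf_dvd_natCard u
    have key : ∀ r : ℕ, r.Prime → r ≠ s → (¬ ∃ v : M, orderOf v = s * r) →
        (Nat.card M).factorization r ≤ (cs(y)).factorization r := by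
      intro r hr hrs hno
      have := Fact.mk hr
      have h1 : ¬ r ∣ Nat.card (centralizer ({y} : Set M)) := by
        intro hd
        obtain ⟨v, hv⟩ := exists_prime_orderOf_dvd_card' r hd
        apply hno
        have hc : Commute u v := (mem_cent.mp (cent_le_cent_pow y _ v.2)).symm
        refine ⟨u * v, ?_⟩
        rw [hc.orderOf_mul_eq_mul_orderOf_of_coprime, hus, Subgroup.orderOf_coe, hv]
        rw [hus, Subgroup.orderOf_coe, hv]
        exact (Nat.coprime_primes hs hr).mpr hrs.symm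
      rw [← card_cent_mul_cs y, Nat.factorization_mul Nat.card_pos.ne' (cs_ne_zero y)]
      simp [Nat.factorization_eq_zero_of_not_dvd h1]
    by_cases hsA : s ∈ A
    · right
      intro r hr hrA
      by_cases hrM : r ∣ Nat.card M
      · exact key r hr (fun h => hrA (h ▸ hsA)) (hA s hsA r hrA hs hr hsM hrM)
      · simp [Nat.factorization_eq_zero_of_not_dvd hrM]
    · left
      intro r hr hrA
      by_cases hrM : r ∣ Nat.card M
      · exact key r hr (fun h => hsA (h ▸ hrA)) (mul_comm r s ▸ hA r hrA s hsA hr hs hrM hsM)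
      · simp [Nat.factorization_eq_zero_of_not_dvd hrM]
  have hG : ∀ r : ℕ, r.Prime → r ∣ Nat.card M → r ∣ Nat.card G := by
    intro r hr hd
    obtain ⟨y, hy⟩ := exists_dvd_cs hZM hr hd
    obtain ⟨x, hx⟩ := hMG y
    exact (hx ▸ hy).trans (cs_dvd_card x)
  apply Nat.eq_of_factorization_eq Nat.card_pos.ne' hm
  intro p
  by_cases hp : p.Prime
  · by_cases hpA : p ∈ A
    · exact half hZG _ hm (· ∈ A) hdvd hne hfull hb hbA (hG b hb hbM) hbM hp hpA
    · exact half hZG _ hm (· ∉ A) hdvd hne (by simpa only [not_not, or_comm] using hfull) ha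
        (not_not.mpr haA) (hG a ha haM) haM hp hpA
  · simp [Nat.factorization_eq_zero_of_not_prime _ hp]

end Cfsg.Agent.S4184
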