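import Cfsg.Statements.S4186


set_option autoImplicit false
open Cfsg

namespace Cfsg.Agent.S4186

/-- Let T and X be subgroups of a group with T a finite 2-group normalizing X but not centralizing it. Then some element of T inverts some non-identity element of X under conjugation. -/
theorem result {G : Type*} [Group G] (T X : Subgroup G) [Finite ↥T] (hT : IsPGroup 2 ↥T) (hTN : T ≤ Subgroup.normalizer (X : Set G)) (hTC : ¬ T ≤ Subgroup.centralizer (X : Set G)) : ∃ t ∈ T, ∃ x ∈ X, x ≠ 1 ∧ t * x * t⁻¹ = x⁻¹ := by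
  classical
  -- pick t ∈ T not centralizing X of minimal order
  have hex : ∃ n : ℕ, ∃ t ∈ T, t ∉ Subgroup.centralizer (X : Set G) ∧ t ^ (2 ^ n) = 1 := by
    obtain ⟨t, ht, htc⟩ := SetLike.not_le_iff_exists.mp hTC
    obtain ⟨k, hk⟩ := hT ⟨t, ht⟩
    exact ⟨k, t, ht, htc, by simpa using congrArg Subtype.val hk⟩
  obtain ⟨t, ht, htc, htn⟩ := Nat.find_spec hex
  have hsq : t ^ 2 ∈ Subgroup.centralizer (X : Set G) := by
    by_contra hcon
    rcases hn : Nat.find hex with _ | n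
    · rw [hn] at htn
      simp at htn
      exact htc (htn ▸ Subgroup.one_mem _)
    · have := Nat.find_min hex (m := n) (by omega)
      apply this
      refine ⟨t ^ 2, T.pow_mem ht 2, hcon, ?_⟩
      rw [← pow_mul, ← pow_succ', ← hn, htn]
  rw [Subgroup.mem_centralizer_iff] at htc
  push Not at htc
  obtain ⟨y, hy, hyt⟩ := htc
  have hty : t * y * t⁻¹ ∈ X := (Subgroup.mem_normalizer_iff.mp (hTN ht) y).mp hy
  refine ⟨t, ht, y⁻¹ * (t * y * t⁻¹), X.mul_mem (X.inv_mem hy) hty, ?_, ?_⟩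
  · intro h
    apply hyt
    have : t * y * t⁻¹ = y := by
      rw [inv_mul_eq_one] at h; exact h.symm
    calc y * t = t * y * t⁻¹ * t := by rw [this]
      _ = t * y := by group
  · have h2 := hsq y hy
    have : t * (t * y * t⁻¹) * t⁻¹ = y := by
      calc t * (t * y * t⁻¹) * t⁻¹ = t ^ 2 * y * (t ^ 2)⁻¹ := by rw [pow_two]; group
        _ = y := by rw [← h2]; group
    calc t * (y⁻¹ * (t * y * t⁻¹)) * t⁻¹ = t * y⁻¹ * t⁻¹ * (t * (t * y * t⁻¹) * t⁻¹) := by group
      _ = t * y⁻¹ * t⁻¹ * y := by rw [this]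
      _ = (y⁻¹ * (t * y * t⁻¹))⁻¹ := by group

end Cfsg.Agent.S4186
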