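import Cfsg.Statements.S4188
import Cfsg.Agent.H6.TwoOdd

set_option autoImplicit false
open Cfsg

namespace Cfsg.Agent.S4188

open Subgroup Cfsg.Agent.H49 Cfsg.Agent.H6
open scoped commutatorElement

/-- Let G be a finite group that is the semidirect product of a normal abelian subgroup N of odd order by a 2-subgroup P, and suppose N is the unique minimal normal subgroup of G. Then the index of the Frattini subgroup of P in P is at most #N − 1. -/
theorem result {G : Type*} [Group G] [Finite G] (N P : Subgroup G) (hN : N.Normal) (hNab : IsMulCommutative ↥N) (hNodd : Odd (Nat.card ↥N)) (hP : IsPGroup 2 ↥P) (hdisj : N ⊓ P = ⊥) (hprod : N ⊔ P = ⊤) (hmin : N ≠ ⊥ ∧ ∀ M : Subgroup G, M.Normal → M ≠ ⊥ → N ≤ M) : (frattini ↥P).index ≤ Nat.card ↥N - 1 := by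
  have hn : P ≤ 𝒩(N) := le_normalizer_of_normal
  have h1 : 1 < Nat.card N := (one_lt_card_iff_ne_bot _).2 hmin.1
  have hnm : ∀ X : Subgroup G, P ≤ 𝒩(X) → N ≤ 𝒞(X) → X ≠ ⊥ → N ≤ X := fun X h2 h3 =>
    hmin.2 X (normal_iff_top_le_norm.2 (hprod.ge.trans (sup_le (norm_of_cent h3) h2)))
  have hf : P ⊓ 𝒞(N) = ⊥ := by_contra fun e => hmin.1 (eq_bot_iff.2 (hdisj.le.trans' (le_inf le_rfl
    ((hnm _ (norm_inf le_normalizer (norm_cent hn)) (cent_symm inf_le_right) e).trans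
      inf_le_left))))
  have hfix : ∀ a : P, a ∈ center P → a ≠ 1 → N ⊓ 𝒞[(a : G)] = ⊥ := fun a ha a1 =>
    by_contra fun e => by
      have h2 : P ≤ 𝒞[(a : G)] := fun x hx =>
        mem_cent1.2 (congrArg Subtype.val (mem_center_iff.1 ha ⟨x, hx⟩))
      have h3 := hnm _ (norm_inf hn (h2.trans le_normalizer))
        (le_cent_of_abelian hNab le_rfl inf_le_left) e
      exact a1 (Subtype.ext (mem_bot.1 (hf.le ⟨a.2, le_cent1_iff.1 (h3.trans inf_le_right)⟩)))
  have h2 := (frattini P).index_mul_card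
  by_cases hP1 : P = ⊥
  · have := Nat.le_of_dvd Nat.card_pos (frattini P).index_dvd_card
    rw [card_eq_one.2 hP1] at this
    omega
  have := (nontrivial_iff_ne_bot P).2 hP1
  obtain ⟨z, hc, hz⟩ := exists_inv_of_two (hP.to_subgroup (center P))
    ((nontrivial_iff_ne_bot _).1 hP.center_nontrivial)
  have hzN := hfix z hc fun e => by simp [e] at hz
  rcases two_dich' hP hn hf hmin.1 hz hc hzN with ⟨a, h3, h4, h5, h6⟩ | h3
  swap
  · omega
  obtain ⟨t, ht⟩ : ∃ t, ⁅a, t⁆ = z := by_contra fun e => h5 (hfix a (mem_center_iff.2 fun t =>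
    (commutatorElement_eq_one_iff_mul_comm.1 (((mem_zp2 hz).1 (h6 t)).resolve_right
      fun e' => e ⟨t, e'⟩)).symm) h4)
  have h7 : ∀ s : P, s * a * s⁻¹ = a ∨ s * a * s⁻¹ = t * a * t⁻¹ := fun s =>
    ((mem_zp2 hz).1 (h6 s)).imp (fun e => by
      rw [← commutatorElement_eq_one_iff_mul_comm.1 e, mul_inv_cancel_right]) fun e => by
      rw [← ht, commutatorElement_def, commutatorElement_def] at e
      calc s * a * s⁻¹ = (a * s * a⁻¹ * s⁻¹)⁻¹ * a := by group
        _ = _ := by rw [e]; group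
  set W := N ⊓ 𝒞[(a : G)] with hW
  have h8 : ∀ s : P, cj (s : G) W ≤ W ⊔ cj (t : G) W := fun s => by
    simp only [hW, cj_inf, cj_cent1, fun s : P => cj_eq_of_mem_norm (hn s.2)]
    rcases h7 s with e | e
    · rw [show (s : G) * a * (s : G)⁻¹ = a from congrArg Subtype.val e]; exact le_sup_left
    · rw [show (s : G) * a * (s : G)⁻¹ = _ from congrArg Subtype.val e]; exact le_sup_right
  have h9 : cj (t : G) W ≤ N := (cj_mono _ inf_le_left).trans (cj_eq_of_mem_norm (hn t.2)).le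
  have h10 : N ≤ W ⊔ cj (t : G) W := hnm _ (fun s hs => mem_norm_of_cj_le (by
      rw [cj_sup, ← cj_mul]
      exact sup_le (h8 ⟨s, hs⟩) (h8 (⟨s, hs⟩ * t))))
    (le_cent_of_abelian hNab le_rfl (sup_le inf_le_left h9)) fun e => h5 (le_bot_iff.1
      (le_sup_left.trans e.le))
  have h11 : W ⊓ cj (t : G) W = ⊥ := eq_bot_iff.2 fun w hw => hzN.le ⟨hw.1.1, by
    have h12 := hw.2
    rw [hW, cj_inf, cj_cent1] at h12
    have h13 : (z : G) = a * (t * a * (t : G)⁻¹)⁻¹ := by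
      rw [← ht]; simp only [commutatorElement_def, coe_mul, coe_inv]; group
    exact mem_cent1_comm.1 (h13 ▸ mul_mem (mem_cent1_comm.1 hw.1.2)
      (inv_mem (mem_cent1_comm.1 h12.2)))⟩
  have h12 : Nat.card W ^ 2 ≤ Nat.card N := by
    have h12 := card_mul_le (inf_le_left : W ≤ N) h9
    rwa [h11, card_bot, card_cj, mul_one, ← sq] at h12
  have := abelian_of_le hNab (inf_le_left : W ≤ N)
  have h13 := two_mul_relIndex_le _ (W := W) rfl (hP.to_inf_left (K := 𝒞[(a : G)]))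
    (norm_inf (inf_le_left.trans hn) (inf_le_right.trans le_normalizer))
    (hNodd.of_dvd_nat (card_dvd_of_le inf_le_left)) h5
  have h14 : 𝒞[(a : G)].relIndex P ≤ 2 := by
    rw [← hz, ← orderOf_coe, ← Nat.card_zpowers]
    refine H4.relIndex_centralizer_le fun c hc => ?_
    obtain ⟨k, hk⟩ := h6 ⟨c, hc⟩
    exact ⟨k, congrArg Subtype.val hk⟩
  have h15 := card_inf_mul_relIndex 𝒞[(a : G)] P
  have h16 := card_inf_mul_relIndex 𝒞(W) (P ⊓ 𝒞[(a : G)])
  have h17 := H4.relIndex_centralizer_le (C := 𝒞(W) ⊓ (P ⊓ 𝒞[(a : G)])) (x := (t : G))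
    (M := (frattini P).map P.subtype) fun c hc => ⟨⁅t, ⟨c, hc.2.1⟩⁆,
      H1.commutator_le_frattini hP (commutator_mem_commutator trivial trivial), rfl⟩
  have h18 : 𝒞[(t : G)] ⊓ (𝒞(W) ⊓ (P ⊓ 𝒞[(a : G)])) = ⊥ := eq_bot_iff.2 fun m hm =>
    hf.le ⟨hm.2.2.1, cent_anti h10 ((cent_sup _ _).ge ⟨hm.2.1, by
      change m ∈ 𝒞(cj (t : G) W)
      rw [← cj_centralizer, show m = t * m * (t : G)⁻¹ by
        rw [← mem_cent1.1 hm.1, mul_inv_cancel_right]]
      exact conj_mem_cj.2 hm.2.1⟩)⟩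
  rw [← inf_relIndex_right, h18, relIndex_bot_left, card_map_of_injective P.subtype_injective]
    at h17
  rw [inf_comm] at h15
  have h19 : (frattini P).index ≤ Nat.card N := Nat.le_of_mul_le_mul_right (c := Nat.card
      (frattini P)) (by
    rw [h2, ← h15, ← h16]
    nlinarith [Nat.mul_le_mul h17 (h13.trans h12), Nat.mul_le_mul_left (Nat.card ↥(𝒞(W) ⊓ (P ⊓
      𝒞[(a : G)])) * 𝒞(W).relIndex (P ⊓ 𝒞[(a : G)])) h14]) Nat.card_pos
  refine Nat.le_sub_one_of_lt (h19.lt_of_ne fun e => h1.ne' ?_)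
  obtain ⟨k, hk⟩ := hP.exists_card_eq
  exact Nat.eq_one_of_dvd_coprimes ((Nat.coprime_two_right.2 hNodd).pow_right k) dvd_rfl
    (hk ▸ e ▸ (frattini P).index_dvd_card)

end Cfsg.Agent.S4188
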