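import Cfsg.Statements.S4196
import Cfsg.Agent.H83.ClassSize

set_option autoImplicit false
open Cfsg

namespace Cfsg.Agent.S4196

/-- A finite group G has elementary abelian Sylow 2-subgroups (commutative with every element squaring to the identity) if and only if every 2-element of G has a Sylow 2-subgroup in its centralizer and is conjugate to its inverse. -/
theorem result {G : Type*} [Group G] [Finite G] (P : Sylow 2 G) :
    (IsMulCommutative (P : Subgroup G) ∧ ∀ x ∈ (P : Subgroup G), x ^ 2 = 1) ↔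
      ∀ x : G, (∃ k : ℕ, orderOf x = 2 ^ k) → (∃ Q : Sylow 2 G, (Q : Subgroup G) ≤ Subgroup.centralizer ({x} : Set G)) ∧ IsConj x x⁻¹ := by
  constructor
  · rintro ⟨hc, h2⟩ x ⟨k, hk⟩
    obtain ⟨Q, hQ⟩ := H82.exists_sylow_mem hk
    obtain ⟨g, rfl⟩ := MulAction.exists_smul_eq G P Q
    have hx : g⁻¹ * x * g ∈ (P : Subgroup G) := H2.mem_conj_smul.mp hQ
    refine ⟨⟨g • P, ?_⟩, ?_⟩
    · intro y hy
      have hy' : g⁻¹ * y * g ∈ (P : Subgroup G) := H2.mem_conj_smul.mp hy
      have := congrArg Subtype.val (hc.is_comm.comm ⟨_, hy'⟩ ⟨_, hx⟩)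
      simp only [Subgroup.coe_mul] at this
      rw [H83.mem_cent]
      calc y * x = g * (g⁻¹ * y * g * (g⁻¹ * x * g)) * g⁻¹ := by group
        _ = x * y := by rw [this]; group
    · have h3 := h2 _ hx
      have h4 : x ^ 2 = 1 := by
        have : (g⁻¹ * x * g⁻¹⁻¹) ^ 2 = 1 := by simpa using h3
        rw [conj_pow] at this
        calc x ^ 2 = g * (g⁻¹ * x ^ 2 * g⁻¹⁻¹) * g⁻¹ := by group
          _ = 1 := by rw [this]; group
      have : x⁻¹ = x := by
        rw [inv_eq_iff_mul_eq_one, ← pow_two, h4]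
      rw [this]
  · intro h
    have h2 : ∀ x ∈ (P : Subgroup G), x ^ 2 = 1 := by
      intro x hx
      obtain ⟨h3, h4⟩ := h x (H82.orderOf_eq_pow_of_mem P.isPGroup' hx)
      exact H83.sq_eq_one_of_isConj_inv (H83.not_dvd_index_iff.mpr h3) h4
    refine ⟨⟨⟨fun a b => Subtype.ext ?_⟩⟩, h2⟩
    have ha := h2 a a.2
    have hb := h2 b b.2
    have hab := h2 (a * b) (mul_mem a.2 b.2)
    rw [pow_two] at ha hb hab
    simp only [Subgroup.coe_mul]
    calc (a : G) * b = a * (a * b * (a * b)) * b := by rw [hab]; group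
      _ = (a * a) * (b * a) * (b * b) := by group
      _ = b * a := by rw [ha, hb]; group

end Cfsg.Agent.S4196
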