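import Cfsg.Statements.S4213
import Cfsg.Agent.H81.Frob
import Cfsg.Agent.H2.Basic
import Cfsg.Agent.H2.MinNormal
import Cfsg.Agent.H82.Coset
import Cfsg.Agent.H1.Hall

set_option autoImplicit false
open Cfsg

namespace Cfsg.Agent.S4213

open Subgroup

theorem of_subgroup {G : Type*} [Group G] [Finite G] {n : ℕ}
    (hcount : Nat.card {x : G // x ^ n = 1} = n) (L : Subgroup G) (hL : Nat.card L = n) :
    ∃ H : Subgroup G, H.Normal ∧ (H : Set G) = {x : G | x ^ n = 1} := by
  have e : (L : Set G) = {x : G | x ^ n = 1} := by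
    apply Set.eq_of_subset_of_ncard_le _ _ (Set.toFinite _)
    · intro x hx
      have := pow_card_eq_one' (x := (⟨x, hx⟩ : L))
      rw [hL] at this
      exact congrArg Subtype.val this
    · rw [← Nat.card_coe_set_eq, ← Nat.card_coe_set_eq]
      exact (hcount.trans hL.symm).le
  refine ⟨L, ⟨fun x hx g => ?_⟩, e⟩
  have hx' : x ∈ (L : Set G) := hx
  change _ ∈ (L : Set G)
  rw [e] at hx' ⊢
  change _ ^ n = 1
  rw [conj_pow, hx']; group

/-- If `G` is a finite solvable group and `n` divides the order of `G` and exactly `n` elements `x` of `G` satisfy `x^n = 1`, then these elements form a normal subgroup. -/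
theorem result {G : Type*} [Group G] [Finite G] [Group.IsSolvable G] (n : ℕ) (hn : n ∣ Nat.card G) (hcount : Nat.card {x : G // x ^ n = 1} = n) : ∃ H : Subgroup G, H.Normal ∧ (H : Set G) = {x : G | x ^ n = 1} := by
  rename_i hs
  refine H2.card_induction (P := fun G _ _ => Group.IsSolvable G → ∀ n : ℕ, n ∣ Nat.card G →
    Nat.card {x : G // x ^ n = 1} = n →
    ∃ H : Subgroup G, H.Normal ∧ (H : Set G) = {x : G | x ^ n = 1}) G ?_ hs n hn hcount
  clear hs hn hcount n
  intro G _ _ ih hs n hn hcount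
  rcases subsingleton_or_nontrivial G with hG | hG
  · exact of_subgroup hcount ⊥ (by
      rw [Nat.card_of_subsingleton (1 : G), Nat.dvd_one] at hn
      rw [hn, card_bot])
  obtain ⟨K, p, hp, hKn, hK1, -, hKp, hKe, -⟩ := H2.exists_minimal_normal_of_solvable (G := G)
  have := Fact.mk hp
  have hn0 : 0 < n := Nat.pos_of_dvd_of_pos hn Nat.card_pos
  obtain ⟨d, u, v, hd, rfl, hv, huv⟩ : ∃ d u v, d = n.gcd (Nat.card K) ∧ n = d * u ∧
      Nat.card K = d * v ∧ u.Coprime v :=
    ⟨_, n / n.gcd (Nat.card K), Nat.card K / n.gcd (Nat.card K), rfl,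
      (Nat.mul_div_cancel' (Nat.gcd_dvd_left _ _)).symm,
      (Nat.mul_div_cancel' (Nat.gcd_dvd_right _ _)).symm,
      Nat.coprime_div_gcd_div_gcd (Nat.gcd_pos_of_pos_left _ hn0)⟩
  have hd0 : 0 < d := Nat.pos_of_mul_pos_right hn0
  have hu0 : 0 < u := Nat.pos_of_mul_pos_left hn0
  have hu : u ∣ Nat.card (G ⧸ K) := by
    rw [card_eq_card_quotient_mul_card_subgroup K, hv, mul_comm, mul_comm d v, ← mul_assoc] at hn
    exact huv.dvd_of_dvd_mul_right (Nat.dvd_of_mul_dvd_mul_right hd0 hn)
  have hle : u ≤ Nat.card {z : G ⧸ K // z ^ u = 1} :=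
    Nat.le_of_dvd (Nat.card_pos_iff.2 ⟨⟨⟨1, one_pow _⟩⟩, inferInstance⟩) (H81.dvd_card_pow_eq_one hu)
  have key : Nat.card {z : G ⧸ K // z ^ u = 1} ≤ u → ∃ H : Subgroup G, K ≤ H ∧
      Nat.card H = u * Nat.card K := by
    intro h
    obtain ⟨H, -, hH⟩ := ih _ (H2.card_quotient_lt K hK1) inferInstance u hu (le_antisymm h hle)
    refine ⟨H.comap (QuotientGroup.mk' K), QuotientGroup.le_comap_mk' K H, ?_⟩
    rw [H1.card_comap_mk', ← le_antisymm h hle]
    congr 1
    exact Nat.card_congr (Equiv.setCongr hH)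
  by_cases hpn : p ∣ d * u
  · have hpd : p ∣ d := by
      rw [hd]
      exact Nat.dvd_gcd hpn ((hKp.card_eq_or_dvd).resolve_left fun h => hK1 (card_eq_one.1 h))
    have h1 : Nat.card K * Nat.card {z : G ⧸ K // z ^ u = 1} ≤ d * u := by
      refine le_of_eq_of_le (QuotientGroup.card_preimage_mk K {z | z ^ u = 1}).symm
        (le_of_le_of_eq (Nat.card_le_card_of_injective (Set.inclusion (t := {x : G | x ^ (d * u) = 1}) ?_)
          (Set.inclusion_injective _)) hcount)
      intro x hx
      obtain ⟨c, rfl⟩ := hpd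
      change x ^ _ = 1
      rw [mul_comm, pow_mul, pow_mul, hKe _ ((QuotientGroup.eq_one_iff _).1 hx), one_pow]
    have hv0 : 0 < v := Nat.pos_of_mul_pos_left (hv ▸ Nat.card_pos)
    rw [hv, mul_assoc] at h1
    have h2 := Nat.le_of_mul_le_mul_left h1 hd0
    have h3 : v = 1 := by
      have : v * u ≤ 1 * u := by rw [one_mul]; exact (Nat.mul_le_mul_left v hle).trans h2
      have := Nat.le_of_mul_le_mul_right this hu0
      omega
    obtain ⟨H, -, hH⟩ := key (by rwa [h3, one_mul] at h2)
    exact of_subgroup hcount H (by rw [hH, hv, h3, mul_one, mul_comm])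
  · obtain ⟨k, hk⟩ := hKp.exists_card_eq
    have hcop : (d * u).Coprime (Nat.card K) := by
      rw [hk]; exact ((Nat.Prime.coprime_iff_not_dvd hp).2 hpn).symm.pow_right k
    have hd1 : d = 1 := hd.trans hcop
    subst hd1
    rw [one_mul] at hcount hcop hpn ⊢
    obtain ⟨H, hKH, hH⟩ := key (by
      refine le_of_le_of_eq (Nat.card_le_card_of_surjective (α := {x : G // x ^ u = 1})
        (fun x => ⟨(x.1 : G ⧸ K), by rw [← QuotientGroup.mk_pow, x.2]; rfl⟩) ?_) hcount
      rintro ⟨z, hz⟩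
      obtain ⟨g, rfl⟩ := QuotientGroup.mk_surjective z
      obtain ⟨x, -, hx, hxo⟩ := H82.exists_coprime_lift (QuotientGroup.mk' K) (n := p) g
        (Nat.Coprime.coprime_dvd_left (orderOf_dvd_of_pow_eq_one hz)
          ((Nat.Prime.coprime_iff_not_dvd hp).2 hpn).symm)
      have hx' : (x : G ⧸ K) = g := hx
      refine ⟨⟨x, ?_⟩, Subtype.ext hx'⟩
      have h1 : x ^ (u * p) = 1 := by
        rw [pow_mul]
        exact hKe _ ((QuotientGroup.eq_one_iff _).1 (by rw [QuotientGroup.mk_pow, hx', hz]))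
      exact orderOf_dvd_iff_pow_eq_one.1 (hxo.dvd_of_dvd_mul_right (orderOf_dvd_of_pow_eq_one h1)))
    have hc : Nat.card (K.subgroupOf H) = Nat.card K := H2.card_subgroupOf_of_le hKH
    have hi : (K.subgroupOf H).index = u := by
      have := (K.subgroupOf H).index_mul_card
      rw [hH, hc] at this
      exact Nat.eq_of_mul_eq_mul_right Nat.card_pos this
    obtain ⟨L, hL⟩ := exists_right_complement'_of_coprime (N := K.subgroupOf H)
      (by rw [hc, hi]; exact hcop.symm)
    exact of_subgroup hcount (L.map H.subtype) (by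
      rw [card_map_of_injective H.subtype_injective, ← hi, hL.symm.index_eq_card])

end Cfsg.Agent.S4213
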