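import Cfsg.Statements.S4226
import Cfsg.Agent.H23.Petrescu
import Cfsg.Agent.S2807
import Cfsg.Agent.H3.Tate

set_option autoImplicit false
open Cfsg

namespace Cfsg.Agent.S4226

section
variable {A : Type*} [AddCommGroup A]

/-- Permutations `(i, j) ↦ (i + c, j + f i)`. -/
def wr (c : A) (f : A → A) : Equiv.Perm (A × A) where
  toFun x := (x.1 + c, x.2 + f x.1)
  invFun x := (x.1 - c, x.2 - f (x.1 - c))
  left_inv x := by simp
  right_inv x := by simp

theorem wr_pow (c : A) (f : A → A) (n : ℕ) :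
    wr c f ^ n = wr (n • c) fun i => ∑ k ∈ Finset.range n, f (i + k • c) := by
  induction n with
  | zero => ext x <;> simp [wr]
  | succ n ih =>
    rw [pow_succ', ih]
    ext x <;> simp [wr, Finset.sum_range_succ, succ_nsmul, add_assoc]

def wrT (A : Type*) [AddCommGroup A] : Subgroup (Equiv.Perm (A × A)) where
  carrier := {g | ∃ c f, g = wr c f}
  one_mem' := ⟨0, 0, by ext x <;> simp [wr]⟩
  mul_mem' := by
    rintro _ _ ⟨c, f, rfl⟩ ⟨d, g, rfl⟩
    exact ⟨d + c, fun i => g i + f (i + d), by ext x <;> simp [wr, add_assoc]⟩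
  inv_mem' := by
    rintro _ ⟨c, f, rfl⟩
    exact ⟨-c, fun i => -f (i - c), by ext x <;> simp [wr, Equiv.Perm.inv_def, sub_eq_add_neg]⟩

theorem not_reg {p : ℕ} [hp : Fact p.Prime] (W : Sylow p (Equiv.Perm (Fin (p ^ 2)))) :
    ¬ H23.Reg1 p W := fun h => by
  classical
  have hz : ∀ x : ZMod p, p • x = 0 := fun x => by simp
  have hT : IsPGroup p (wrT (ZMod p)) := by
    rintro ⟨_, c, f, rfl⟩
    refine ⟨2, Subtype.ext ?_⟩
    rw [Subgroup.coe_pow, pow_two, pow_mul, wr_pow, wr_pow]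
    ext x <;> simp [wr]
  obtain ⟨e⟩ : Nonempty (ZMod p × ZMod p ≃ Fin (p ^ 2)) :=
    Fintype.card_eq.1 (by simp [pow_two])
  obtain ⟨Q, hQ⟩ := (hT.map e.permCongrHom.toMonoidHom).exists_le_sylow
  have h1 := h.of_surjective (Sylow.equiv W Q).toMonoidHom (Sylow.equiv W Q).surjective
  have h2 := h1.pow_eq_iff_one Q.isPGroup' ⟨_, hQ ⟨wr 1 0, ⟨_, _, rfl⟩, rfl⟩⟩
    ⟨_, hQ ⟨wr 0 (-Pi.single 0 1), ⟨_, _, rfl⟩, rfl⟩⟩
  simp only [Subtype.ext_iff, Subgroup.coe_pow, Subgroup.coe_mul, Subgroup.coe_inv,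
    Subgroup.coe_one, ← map_pow, ← map_inv, ← map_mul, MulEquiv.coe_toMonoidHom,
    EmbeddingLike.apply_eq_iff_eq, EmbeddingLike.map_eq_one_iff] at h2
  have h3 : wr (1 : ZMod p) 0 * (wr 0 (-Pi.single 0 1))⁻¹ = wr 1 (Pi.single 0 1) := by
    ext x <;> simp [wr, Equiv.Perm.inv_def]
  rw [h3, wr_pow, wr_pow, wr_pow] at h2
  have h4 := congrArg (fun g : Equiv.Perm _ => (g (0, 0)).2) (h2.1 (by ext x <;> simp [wr]))
  simp only [wr, Equiv.coe_fn_mk, zero_add, Equiv.Perm.one_apply] at h4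
  rw [Finset.sum_eq_single_of_mem 0 (Finset.mem_range.2 hp.out.pos) fun k hk h0 => by
    rw [Pi.single_eq_of_ne]
    rw [nsmul_one, Ne, ZMod.natCast_eq_zero_iff]
    exact Nat.not_dvd_of_pos_of_lt (Nat.pos_of_ne_zero h0) (Finset.mem_range.1 hk)] at h4
  simp at h4

end

/-- Let `P` be a Sylow `p`-subgroup of the finite group `G` with nilpotency class less than `p` (the term of index `p - 1` of the lower central series of `P`, indexed from `0`, is trivial), and let `N` be its normalizer. Then `O^p(N) = O^p(G) ∩ N`, where `O^p` denotes the subgroup generated by the elements of order prime to `p`; so the largest `p`-factor groups of `G` and of `N` are isomorphic. -/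
theorem result {G : Type*} [Group G] [Finite G] {p : ℕ} [Fact p.Prime] (P : Sylow p G) (hcl : (P : Subgroup G).lowerCentralSeries (p - 1) = ⊥) : Cfsg.pResidualOf p (Subgroup.normalizer ((P : Subgroup G) : Set G)) = Cfsg.pResidual p G ⊓ Subgroup.normalizer ((P : Subgroup G) : Set G) := by
  have h : (P : Subgroup G) ⊓ commutator G = (P : Subgroup G) ⊓
      ⁅Subgroup.normalizer ((P : Subgroup G) : Set G), Subgroup.normalizer ((P : Subgroup G) : Set G)⁆ := by
    by_contra hne
    obtain ⟨W, f, hf⟩ := S2807.result P hne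
    rw [← Subgroup.top_subtype_lowerCentralSeries,
      Subgroup.map_eq_bot_iff_of_injective _ (Subgroup.subtype_injective _)] at hcl
    exact not_reg W ((H23.reg1_of_class_lt hcl).of_surjective f hf)
  rw [pResidualOf, ← H3.inf_pResidual_eq_of_commutator_inf_eq P Subgroup.le_normalizer
    (((inf_comm _ _).trans h).trans_le inf_le_right), Subgroup.subgroupOf_map_subtype]

end Cfsg.Agent.S4226
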