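import Cfsg.Statements.S4230

set_option autoImplicit false
set_option linter.style.haveILetI false
open Cfsg

namespace Cfsg.Agent.S4230

/-- Let p be an odd prime, q a natural number not divisible by p, and e the multiplicative order of q modulo p. For a natural number f, p divides the value at q of the f-th cyclotomic polynomial if and only if f = e·p^j for some j ≥ 0. -/
theorem result (p q f : ℕ) (hp : p.Prime) (hp2 : p ≠ 2) (hpq : ¬ p ∣ q) :
    ((p : ℤ) ∣ (Polynomial.cyclotomic f ℤ).eval (q : ℤ)) ↔ ∃ j : ℕ, f = orderOf (q : ZMod p) * p ^ j := by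
  haveI := Fact.mk hp
  have hq : (q : ZMod p) ≠ 0 := by rwa [Ne, ZMod.natCast_eq_zero_iff]
  have hord : orderOf (q : ZMod p) ∣ p - 1 := ZMod.orderOf_dvd_card_sub_one hq
  have hp1 : 0 < p - 1 := by have := hp.two_le; omega
  have hpos : 0 < orderOf (q : ZMod p) := Nat.pos_of_dvd_of_pos hord hp1
  have hnd : ¬ p ∣ orderOf (q : ZMod p) := fun h => by
    have := Nat.le_of_dvd hp1 (h.trans hord)
    omega
  have key : ((p : ℤ) ∣ (Polynomial.cyclotomic f ℤ).eval (q : ℤ)) ↔
      (Polynomial.cyclotomic f (ZMod p)).IsRoot (q : ZMod p) := by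
    rw [← ZMod.intCast_zmod_eq_zero_iff_dvd, Polynomial.IsRoot.def,
      ← Polynomial.map_cyclotomic_int f (ZMod p), Polynomial.eval_map]
    have : (q : ZMod p) = (Int.castRingHom (ZMod p)) (q : ℤ) := by simp
    rw [this, Polynomial.eval₂_at_apply]
    simp
  rw [key]
  rcases Nat.eq_zero_or_pos f with rfl | hf
  · simp only [Polynomial.cyclotomic_zero, Polynomial.IsRoot.def, Polynomial.eval_one,
      one_ne_zero, false_iff]
    rintro ⟨j, hj⟩
    exact (Nat.mul_pos hpos (pow_pos hp.pos j)).ne hj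
  · obtain ⟨k, m, hm, rfl⟩ := Nat.exists_eq_pow_mul_and_not_dvd hf.ne' p hp.ne_one
    haveI : NeZero (m : ZMod p) := ⟨by rwa [Ne, ZMod.natCast_eq_zero_iff]⟩
    rw [Polynomial.isRoot_cyclotomic_prime_pow_mul_iff_of_charP]
    constructor
    · intro h
      exact ⟨k, by rw [← h.eq_orderOf, mul_comm]⟩
    · rintro ⟨j, hj⟩
      have h1 : m = orderOf (q : ZMod p) := by
        have c1 : m.Coprime (p ^ j) :=
          Nat.Coprime.pow_right _ ((Nat.Prime.coprime_iff_not_dvd hp).2 hm).symm
        have c2 : (orderOf (q : ZMod p)).Coprime (p ^ k) :=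
          Nat.Coprime.pow_right _ ((Nat.Prime.coprime_iff_not_dvd hp).2 hnd).symm
        apply Nat.dvd_antisymm
        · exact c1.dvd_of_dvd_mul_right (hj ▸ Dvd.intro_left _ rfl)
        · exact c2.dvd_of_dvd_mul_left (hj ▸ Dvd.intro _ rfl)
      rw [h1]
      exact IsPrimitiveRoot.orderOf _

end Cfsg.Agent.S4230
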