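import Cfsg.Statements.S4236
import Cfsg.Agent.S4303
import Cfsg.Agent.H84.SylowSmall

set_option autoImplicit false
set_option linter.style.haveILetI false
open Cfsg

namespace Cfsg.Agent.S4236

theorem exists_mem_dvd_of_prod {l : List ℕ} {n : ℕ} (hl : l.prod = n) (hn : n ≠ 1)
    (h : ∀ m ∈ l, m = 1 ∨ m = n) : n ∈ l := by
  by_contra hc
  apply hn
  rw [← hl]
  exact List.prod_eq_one fun m hm => (h m hm).resolve_right (fun e => hc (e ▸ hm))


/-- No finite group has exactly 35 Sylow 17-subgroups. -/
theorem result {G : Type*} [Group G] [Finite G] : Nat.card (Sylow 17 G) ≠ 35 := by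
  intro h
  haveI : Fact (Nat.Prime 17) := ⟨by norm_num⟩
  obtain ⟨l, hl, hm⟩ := S4303.result (G := G) 17
  rw [h] at hl
  have h35 : 35 ∈ l := by
    apply exists_mem_dvd_of_prod hl (by norm_num)
    intro m hml
    have h1 : m ∣ 35 := hl ▸ List.dvd_prod hml
    have h2 : m % 17 = 1 := by
      rcases hm m hml with h2 | ⟨S, _, _, _, rfl⟩
      · exact h2.2
      · exact card_sylow_modEq_one 17 S
    have h3 := Nat.le_of_dvd (by norm_num) h1
    revert h1 h2; interval_cases m <;> decide
  rcases hm 35 h35 with h2 | ⟨S, _, _, _, h2⟩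
  · exact absurd h2.1 (by decide +kernel)
  · obtain ⟨e, -, he1, he2, he3⟩ := H84.simple_two_mul_add_one (G := S) (p := 17) (by norm_num)
      h2.symm
    have h3 := Nat.le_of_dvd (by norm_num) he1
    revert he1 he2 he3
    interval_cases e <;> decide

end Cfsg.Agent.S4236
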