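import Cfsg.Statements.S4238
import Cfsg.Agent.H3.Frobenius
import Cfsg.Agent.H22.Core
import Cfsg.Agent.H49.Prod
import Cfsg.Agent.H42.Index2

set_option autoImplicit false
open Cfsg

namespace Cfsg.Agent.S4238

open Subgroup Function Cfsg.Agent.H49

universe u

variable {p : ℕ} [hp : Fact p.Prime]

theorem isPGroup_of {G : Type*} [Group G] [Finite G] (hO : pPrimeCore p G = ⊥)
    (h : HasNormalPComplement p G) : IsPGroup p G := by
  obtain ⟨K, _, h1, k, h2⟩ := H3.hasNormalPComplement_iff_exists_normal.1 h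
  rw [eq_bot_iff.2 ((H22.le_pPrimeCore inferInstance h1).trans hO.le), index_bot] at h2
  exact IsPGroup.of_card h2

def Sec (p : ℕ) (G : Type u) [Group G] : Prop :=
  ∀ (H : Subgroup G) (K : Type u) [Group K] (f : H →* K), Surjective f → pPrimeCore p K = ⊥ →
    ∃ k : K, orderOf k = Monoid.exponent K

theorem aux (n : ℕ) : ∀ (G : Type u) [Group G] [Finite G], Nat.card G = n → Sec p G →
    HasNormalPComplement p G := by
  induction n using Nat.strong_induction_on with
  | _ n ih =>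
  intro G _ _ hn hG
  by_contra hc
  have sub : ∀ H : Subgroup G, H ≠ ⊤ → HasNormalPComplement p H := fun H hH =>
    ih _ (hn ▸ Finite.card_subtype_lt (SetLike.exists_of_lt hH.lt_top).choose_spec.2) H rfl
      fun L K _ f hf => hG (L.map H.subtype) K
        (f.comp (L.equivMapOfInjective _ H.subtype_injective).symm.toMonoidHom)
        (hf.comp (MulEquiv.surjective _))
  have quot : ∀ (N : Subgroup G) [N.Normal], N ≠ ⊥ → HasNormalPComplement p (G ⧸ N) :=
    fun N _ hN => ih _ (by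
      rw [← hn, card_eq_card_quotient_mul_card_subgroup N]
      exact lt_mul_of_one_lt_right Nat.card_pos ((one_lt_card_iff_ne_bot N).2 hN)) _ rfl
      fun L K _ f hf => hG (L.comap (QuotientGroup.mk' N)) K
        (f.comp ((QuotientGroup.mk' N).subgroupComap L))
        (hf.comp (MonoidHom.subgroupComap_surjective_of_surjective _ _
          (QuotientGroup.mk'_surjective N)))
  have hO : pPrimeCore p G = ⊥ := by_contra fun h => hc
    (H3.hasNormalPComplement_of_quotient_coprime _ H22.coprime_card_pPrimeCore (quot _ h))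
  have cent : ∀ {Q : Subgroup G} {g : G}, IsPGroup p Q → g ∈ 𝒩(Q) → (orderOf g).Coprime p →
      Q ⊔ zpowers g ≠ ⊤ → g ∈ 𝒞(Q) := fun {Q g} hQ hg ho h x hx => congrArg Subtype.val
    (H3.mem_centralizer_of_hasNormalPComplement (sub _ h) (Q := Q.subgroupOf _) hQ.comap_subtype
      (g := ⟨g, mem_sup_right (mem_zpowers g)⟩) (le_normalizer_comap _ hg)
      (by rwa [← orderOf_coe]) ⟨x, mem_sup_left hx⟩ hx)
  obtain ⟨k, hk⟩ := hG ⊤ G (Subgroup.subtype ⊤) (fun x => ⟨⟨x, mem_top x⟩, rfl⟩) hO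
  rw [H3.hasNormalPComplement_iff_frobenius] at hc
  push Not at hc
  obtain ⟨Q, hQ, g, hg, ho, hgQ⟩ := hc
  have htop : Q ⊔ zpowers g = ⊤ := by_contra fun h => hgQ (cent hQ hg ho h)
  have hQn : Q.Normal := normalizer_eq_top_iff.1
    (top_le_iff.1 (htop.ge.trans (sup_le le_normalizer (zpowers_le.2 hg))))
  obtain ⟨z, h, hz, hh, ⟨a, ha⟩, hho, e⟩ := H3.exists_p_part (p := p) k
  have hzh : Commute z h := by
    obtain ⟨i, rfl⟩ := hz
    obtain ⟨j, rfl⟩ := hh
    exact Commute.zpow_zpow_self k i j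
  have hexp : ∀ x : G, orderOf x ∣ p ^ a * orderOf h := fun x =>
    (Monoid.order_dvd_exponent x).trans (hk ▸ e ▸ hzh.orderOf_mul_dvd_mul_orderOf.trans
      (Nat.mul_dvd_mul_right (orderOf_dvd_of_pow_eq_one ha) _))
  have hcard : ∀ x : G, (orderOf x).Coprime p →
      Nat.card ↥(Q ⊔ zpowers x) = Nat.card Q * orderOf x := fun x hx => by
    rw [card_sup_of_disjoint (Or.inr le_normalizer_of_normal)
      (H22.inf_eq_bot_of_pgroup_coprime hQ (by rwa [Nat.card_zpowers])), Nat.card_zpowers]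
  have htop' : Q ⊔ zpowers h = ⊤ := eq_of_le_of_card_ge le_top (by
    rw [← htop, hcard g ho, hcard h hho]
    exact Nat.mul_le_mul_left _ (Nat.le_of_dvd (orderOf_pos h)
      ((ho.pow_right a).dvd_of_dvd_mul_left (hexp g))))
  have hQ1 : Q ≠ ⊥ := fun c => hgQ (by rw [c, cent_bot]; exact mem_top g)
  have hhQ : h ∉ 𝒞(Q) := fun c => by
    have : (zpowers h).Normal := normalizer_eq_top_iff.1 (top_le_iff.1 (htop'.ge.trans
      (sup_le (norm_of_cent (cent_symm (zpowers_le.2 c))) le_normalizer)))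
    rw [eq_bot_iff.2 ((H22.le_pPrimeCore this (by rwa [Nat.card_zpowers])).trans hO.le),
      sup_bot_eq] at htop'
    obtain ⟨j, hj⟩ := hQ ⟨g, htop'.ge (mem_top g)⟩
    rw [orderOf_eq_one_iff.1 ((ho.pow_right j).eq_one_of_dvd
      (orderOf_dvd_of_pow_eq_one (congrArg Subtype.val hj)))] at hgQ
    exact hgQ (one_mem _)
  have stab : ∀ (N : Subgroup G) [N.Normal], N ≠ ⊥ → IsPGroup p N → h ∉ 𝒞(N) := by
    intro N _ hN hNp c
    refine hhQ fun x hx => ?_
    have h1 := H3.mem_centralizer_of_hasNormalPComplement (quot N hN)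
      (hQ.map (QuotientGroup.mk' N)) (g := QuotientGroup.mk' N h)
      (le_normalizer_map _ (mem_map_of_mem _ (le_normalizer_of_normal (mem_top h))))
      (hho.coprime_dvd_left (orderOf_map_dvd _ h)) _ (mem_map_of_mem _ hx)
    have h2 : x⁻¹ * h * x * h⁻¹ ∈ N := by
      rw [← QuotientGroup.eq_one_iff, ← QuotientGroup.mk'_apply]
      simp only [map_mul, map_inv, mul_assoc (QuotientGroup.mk' N x)⁻¹, ← h1]
      group
    have h3 : Commute (x⁻¹ * h * x * h⁻¹) h := c _ h2
    obtain ⟨j, hj⟩ := hNp ⟨_, h2⟩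
    have h4 : (x⁻¹ * h * x * h⁻¹) ^ orderOf h = 1 := by
      have := h3.mul_pow (orderOf h)
      rw [inv_mul_cancel_right, pow_orderOf_eq_one, mul_one] at this
      rw [← this, show x⁻¹ * h * x = x⁻¹ * h * x⁻¹⁻¹ by rw [inv_inv], conj_pow, pow_orderOf_eq_one,
        mul_one, mul_inv_cancel]
    have h5 := orderOf_eq_one_iff.1 (Nat.eq_one_of_dvd_coprimes (hho.pow_right j)
      (orderOf_dvd_of_pow_eq_one h4) (orderOf_dvd_of_pow_eq_one (congrArg Subtype.val hj)))
    rw [mul_inv_eq_one, mul_assoc, inv_mul_eq_iff_eq_mul] at h5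
    exact h5.symm
  have hZ : (Q ⊓ 𝒞(Q)) ⊔ zpowers h = ⊤ := by_contra fun c =>
    stab (Q ⊓ 𝒞(Q)) (by
      rw [← H42.map_center_eq, Ne, map_eq_bot_iff_of_injective _ Q.subtype_injective]
      have := (nontrivial_iff_ne_bot Q).2 hQ1
      exact hQ.bot_lt_center.ne') (hQ.to_le inf_le_left)
      (cent (hQ.to_le inf_le_left) (le_normalizer_of_normal (mem_top h)) hho c)
  have hzQ : z ∈ Q := by
    rw [← QuotientGroup.eq_one_iff, ← orderOf_eq_one_iff]
    refine Nat.eq_one_of_dvd_coprimes (hho.pow_right a) ((_root_.orderOf_dvd_natCard _).trans ?_)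
      (orderOf_dvd_of_pow_eq_one (by rw [← QuotientGroup.mk_pow, ha, QuotientGroup.mk_one]))
    have := hcard h hho
    rw [htop', card_top, card_eq_card_quotient_mul_card_subgroup Q, mul_comm] at this
    exact (Nat.eq_of_mul_eq_mul_left Nat.card_pos this).dvd
  have hzc : ⊤ ≤ 𝒞(zpowers z) := hZ.ge.trans (sup_le (inf_le_right.trans
    (cent_anti (zpowers_le.2 hzQ))) (zpowers_le.2 (by rw [cent_zpowers]; exact mem_cent1.2 hzh.symm)))
  have : (zpowers z).Normal := normal_iff_top_le_norm.2 (norm_of_cent hzc)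
  refine stab (zpowers z) (fun c => hQ1 (eq_bot_iff.2 fun x hx => ?_))
    (hQ.to_le (zpowers_le.2 hzQ)) (hzc (mem_top h))
  rw [zpowers_eq_bot.1 c, one_mul] at e
  obtain ⟨j, hj⟩ := hQ ⟨x, hx⟩
  exact orderOf_eq_one_iff.1 (Nat.eq_one_of_dvd_coprimes (hho.pow_right j)
    (e ▸ hk ▸ Monoid.order_dvd_exponent x) (orderOf_dvd_of_pow_eq_one (congrArg Subtype.val hj)))

/-- Let G be a finite group and p a prime. Then G has a normal p-complement if and only if every section K = H/N of G (N a normal subgroup of a subgroup H) whose largest normal subgroup of order prime to p is trivial contains an element whose order equals the exponent of K. -/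
theorem result {G : Type*} [Group G] [Finite G] (p : ℕ) [Fact p.Prime] :
    Cfsg.HasNormalPComplement p G ↔
      ∀ (H : Subgroup G) (N : Subgroup H) [N.Normal], Cfsg.pPrimeCore p (H ⧸ N) = ⊥ →
        ∃ k : H ⧸ N, orderOf k = Monoid.exponent (H ⧸ N) := by
  refine ⟨fun h H N _ hO => ?_, fun h => aux _ G rfl fun H K _ f hf hO => ?_⟩
  · obtain ⟨n, hn⟩ := IsPGroup.iff_card.1 (isPGroup_of hO (H3.hasNormalPComplement_quotient
      (H3.hasNormalPComplement_subgroup h H) N))
    obtain ⟨j, -, hj⟩ := (Nat.dvd_prime_pow Fact.out).1 (hn ▸ Group.exponent_dvd_nat_card)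
    obtain ⟨k, hk⟩ := Nat.Prime.exists_orderOf_eq_pow_factorization_exponent (H ⧸ N)
      (Fact.out : p.Prime)
    exact ⟨k, by rw [hk, hj, Nat.Prime.factorization_pow Fact.out, Finsupp.single_eq_same]⟩
  · let e := QuotientGroup.quotientKerEquivOfSurjective f hf
    obtain ⟨k, hk⟩ := h H f.ker (by rw [← H22.comap_pPrimeCore_equiv e, hO]; exact e.toMonoidHom.ker_eq_bot e.injective)
    exact ⟨e k, by rw [e.orderOf_eq, hk, Monoid.exponent_eq_of_mulEquiv e]⟩

end Cfsg.Agent.S4238
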