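import Cfsg.Statements.S4242
import Cfsg.Agent.H3.Frobenius
import Cfsg.Agent.H3.NilpotentHall
import Cfsg.Agent.H22.Core
import Cfsg.Agent.H49.Core
import Cfsg.Agent.S0536

set_option autoImplicit false
open Cfsg

namespace Cfsg.Agent.S4242

open Subgroup Cfsg.Agent.H49

variable {G : Type*} [Group G] [Finite G] {p : ℕ} [hp : Fact p.Prime]

theorem exists_normal (hpG : p ∣ Nat.card G)
    (h : ∀ M : Subgroup G, M ≠ ⊤ → p ∣ Nat.card M → Group.IsNilpotent M) {K : Subgroup G}
    (hK : ¬ Group.IsNilpotent K) (hpK : ¬ p ∣ Nat.card K) :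
    ∃ Q : Subgroup G, IsPGroup p Q ∧ Q ≠ ⊥ ∧ Q.Normal := by
  by_contra! hc
  obtain ⟨L, _, h1, k, h2⟩ := H3.hasNormalPComplement_iff_exists_normal.1
    (H3.hasNormalPComplement_iff_local.2 fun Q hQ hQ1 => by
      have := h _ (fun c => hc Q hQ hQ1 (normalizer_eq_top_iff.1 c))
        ((hQ.card_eq_or_dvd.resolve_left fun c => hQ1 (card_eq_one.1 c)).trans
          (card_dvd_of_le le_normalizer))
      exact H3.hasNormalPComplement_of_isNilpotent)
  obtain ⟨P⟩ : Nonempty (Sylow p G) := inferInstance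
  refine hc P P.isPGroup' (P.ne_bot_of_dvd_card hpG) (normalizer_eq_top_iff.1
    (S0536.eq_top_of_forall_sylow _ fun q hq => ?_))
  by_cases hqp : q = p
  · subst hqp
    exact ⟨P, le_normalizer⟩
  obtain ⟨R⟩ : Nonempty (Sylow q G) := inferInstance
  have h3 : ¬ p ∣ 𝒩((R : Subgroup G)).index := by
    have h0 : 𝒩((R : Subgroup G)) ⊔ L = ⊤ := R.normalizer_sup_eq_top'
      (S0536.le_of_not_dvd_index R.isPGroup' fun c => hqp
        ((Nat.prime_dvd_prime_iff_eq hq.out hp.out).1 (hq.out.dvd_of_dvd_pow (h2 ▸ c))))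
    rw [← relIndex_top_right, ← h0, sup_comm,
      relIndex_sup_of_norm (Or.inr le_normalizer_of_normal)]
    exact fun c => (hp.out.coprime_iff_not_dvd.1 h1.symm) (c.trans (relIndex_dvd_card _ _))
  obtain ⟨P0⟩ : Nonempty (Sylow p 𝒩((R : Subgroup G))) := inferInstance
  let P' : Sylow p G := (P0.isPGroup'.map (Subgroup.subtype _)).toSylow (by
    rw [index_map_subtype]
    exact hp.out.not_dvd_mul P0.not_dvd_index h3)
  have h4 : (P' : Subgroup G) ≤ 𝒩((R : Subgroup G)) := map_subtype_le _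
  have h5 := h (P' ⊔ R) (fun c => hK (by
    obtain ⟨a, ha⟩ := P'.isPGroup'.exists_card_eq
    obtain ⟨b, hb⟩ := R.isPGroup'.exists_card_eq
    have h6 := (card_dvd_of_le (le_top (a := K))).trans (c ▸ card_sup_dvd (Or.inl h4))
    rw [ha, hb] at h6
    exact (IsPGroup.of_card_dvd_pow (((hp.out.coprime_iff_not_dvd.2 hpK).symm.pow_right a
      ).dvd_of_dvd_mul_left h6)).isNilpotent))
    ((P'.dvd_card_of_dvd_card hpG).trans (card_dvd_of_le le_sup_left))
  obtain ⟨g, rfl⟩ := MulAction.exists_smul_eq G P' P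
  refine ⟨g • R, ?_⟩
  change cj g R ≤ 𝒩(cj g P')
  rw [← cj_normalizer]
  exact cj_mono g (norm_of_cent fun x hx y hy => S0536.commute_of_nilpotent _ _ _ h5 le_sup_left
    le_sup_right (Ne.symm hqp) P'.isPGroup' R.isPGroup' hy hx)

/-- Let G be a finite group and p a prime dividing its order. Every maximal subgroup of G of order divisible by p is nilpotent if and only if G is nilpotent, or G is a minimal non-nilpotent group, or G is the internal direct product of a normal subgroup of order p and a normal minimal non-nilpotent subgroup of order prime to p. -/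
theorem result {G : Type*} [Group G] [Finite G] (p : ℕ) (hp : p.Prime) (hpG : p ∣ Nat.card G) :
    (∀ M : Subgroup G, IsCoatom M → p ∣ Nat.card M → Group.IsNilpotent M) ↔
      (Group.IsNilpotent G ∨ Cfsg.IsMinimalNonNilpotent G ∨
        ∃ Z K : Subgroup G, Z.Normal ∧ K.Normal ∧ Z ⊓ K = ⊥ ∧ Z ⊔ K = ⊤ ∧ Nat.card Z = p ∧
          Cfsg.IsMinimalNonNilpotent K ∧ ¬ p ∣ Nat.card K) := by
  have := Fact.mk hp
  constructor
  · intro h0
    have h : ∀ M : Subgroup G, M ≠ ⊤ → p ∣ Nat.card M → Group.IsNilpotent M := fun M hM hd => by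
      obtain ⟨N, hN, hle⟩ := (eq_top_or_exists_le_coatom M).resolve_left hM
      exact nilpotent_of_le (h0 N hN (hd.trans (card_dvd_of_le hle))) hle
    by_contra! hc
    obtain ⟨K, hK, hKn⟩ : ∃ K : Subgroup G, IsCoatom K ∧ ¬ Group.IsNilpotent K := by
      by_contra! c
      exact hc.2.1 ⟨hc.1, S0046.nilpotent_of_ne_top c⟩
    have hpK : ¬ p ∣ Nat.card K := fun c => hKn (h0 K hK c)
    obtain ⟨Q, hQ, hQ1, _⟩ := exists_normal hpG h hKn hpK
    have hd : ∀ {X : Subgroup G}, IsPGroup p X → X ⊓ K = ⊥ := fun hX =>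
      H22.inf_eq_bot_of_pgroup_coprime hX (hp.coprime_iff_not_dvd.2 hpK).symm
    have hpQ : p ∣ Nat.card Q := hQ.card_eq_or_dvd.resolve_left fun c => hQ1 (card_eq_one.1 c)
    have htop : Q ⊔ K = ⊤ := hK.2 _ (right_lt_sup.2 fun c => hQ1 (by rw [← hd hQ, inf_eq_left.2 c]))
    have h1 : ∀ X < K, Group.IsNilpotent ↥(Q ⊔ X) := fun X hX => h _ (fun c => by
      have h2 := card_sup_of_disjoint (Or.inr le_normalizer_of_normal) (hd hQ)
      rw [htop, ← c, card_sup_of_disjoint (Or.inr le_normalizer_of_normal)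
        (eq_bot_iff.2 ((inf_le_inf_left Q hX.le).trans (hd hQ).le))] at h2
      exact (card_lt_of_lt hX).ne (Nat.eq_of_mul_eq_mul_left Nat.card_pos h2))
      (hpQ.trans (card_dvd_of_le le_sup_left))
    have h2 : K ≤ 𝒞(Q) := fun x hx => zpowers_le.1 (nilpotent_cent_of_coprime
      (h1 (zpowers x) (lt_of_le_of_ne (zpowers_le.2 hx) fun c => hKn
        (c ▸ nilpotent_of_abelian inferInstance))) le_sup_right le_sup_left (by
          obtain ⟨a, ha⟩ := hQ.exists_card_eq
          exact ha ▸ ((hp.coprime_iff_not_dvd.2 hpK).symm.coprime_dvd_left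
            (card_dvd_of_le (zpowers_le.2 hx))).pow_right a))
    obtain ⟨z, hz⟩ := exists_prime_orderOf_dvd_card' p hpQ
    have h3 : Nat.card (zpowers (z : G)) = p := by rw [Nat.card_zpowers, orderOf_coe, hz]
    have h4 : zpowers (z : G) ≤ Q := zpowers_le.2 z.2
    have h5 : zpowers (z : G) ⊔ K = ⊤ := by_contra fun c => hKn
      (nilpotent_of_le (h _ c (h3 ▸ card_dvd_of_le le_sup_left)) le_sup_right)
    have h6 := h2.trans (cent_anti h4)
    refine hpK <| hc.2.2 (zpowers (z : G)) K (normal_iff_top_le_norm.2 (h5.ge.trans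
      (sup_le le_normalizer (norm_of_cent h6)))) (normal_iff_top_le_norm.2 (h5.ge.trans
      (sup_le (norm_of_cent (cent_symm h6)) le_normalizer))) (hd (hQ.to_le h4)) h5 h3
      ⟨hKn, fun X hX => (nilpotent_map_iff K.subtype_injective).1
        (nilpotent_of_le (h1 _ (lt_of_le_of_ne (map_subtype_le X) fun c => hX ?_)) le_sup_right)⟩
    rw [← map_subtype_inj, c, ← MonoidHom.range_eq_map, range_subtype]
  · rintro (h | h | ⟨Z, K, _, _, h1, h2, h3, h4, h5⟩) M hM hd
    · infer_instance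
    · exact h.2 M hM.1
    obtain ⟨z, hz⟩ := exists_prime_orderOf_dvd_card' p hd
    have hZ : Z ≤ M := by
      have h6 : zpowers (z : G) ≤ Z := S0536.le_of_not_dvd_index (p := p)
        (IsPGroup.of_card (n := 1) (by rw [Nat.card_zpowers, orderOf_coe, hz, pow_one])) fun c =>
        h5 (c.trans (by
          rw [← relIndex_top_right, ← h2, relIndex_sup_left]
          exact relIndex_dvd_card _ _))
      rw [← eq_of_le_of_card_eq h6 (by rw [Nat.card_zpowers, orderOf_coe, hz, h3])]
      exact zpowers_le.2 z.2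
    have hc : Z ≤ 𝒞(K) :=
      cent_of_norm_of_disjoint le_normalizer_of_normal le_normalizer_of_normal h1
    refine nilpotent_of_le (nilpotent_sup_of_cent (H := Z) (K := M ⊓ K)
      (IsPGroup.of_card (n := 1) (h3.trans (pow_one p).symm)).isNilpotent ?_
      (hc.trans (cent_anti inf_le_right))) fun m hm => ?_
    · have := h4.2 (M.subgroupOf K) fun c => hM.1 (top_le_iff.1 (h2.ge.trans
        (sup_le hZ (subgroupOf_eq_top.1 c))))
      rw [← subgroupOf_map_subtype]
      exact nilpotent_map this _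
    · obtain ⟨a, ha, b, hb, rfl⟩ := mem_sup_of_normal_left.1 (h2.ge (mem_top m))
      exact mul_mem (mem_sup_left ha) (mem_sup_right ⟨(mul_mem_cancel_left (hZ ha)).1 hm, hb⟩)

end Cfsg.Agent.S4242
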