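import Cfsg.Statements.S4245
import Cfsg.Agent.S0143
import Cfsg.Agent.S0563
import Cfsg.Agent.S0007
import Cfsg.Agent.H83.ClassSize
import Cfsg.Agent.H35.Simple
import Cfsg.Agent.H19.Basic

set_option autoImplicit false
set_option linter.style.haveILetI false
open Cfsg

namespace Cfsg.Agent.S4245

open Subgroup

/-- cyclic-by-(cyclic 2-group) -/
def CB (A : Type*) [Group A] : Prop :=
  ∃ (B : Subgroup A) (_ : B.Normal), IsCyclic B ∧ IsCyclic (A ⧸ B) ∧ IsPGroup 2 (A ⧸ B)

theorem CB.of_injective {A A' : Type*} [Group A] [Group A'] (h : CB A) (f : A' →* A)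
    (hf : Function.Injective f) : CB A' := by
  obtain ⟨B, hB, h1, h2, h3⟩ := h
  have hinj : Function.Injective (QuotientGroup.map (B.comap f) B f le_rfl) := by
    rw [← MonoidHom.ker_eq_bot_iff, QuotientGroup.ker_map, eq_bot_iff]
    rintro _ ⟨x, hx, rfl⟩
    exact (QuotientGroup.eq_one_iff x).2 hx
  refine ⟨B.comap f, inferInstance, ?_, isCyclic_of_injective _ hinj, h3.of_injective _ hinj⟩
  exact isCyclic_of_injective (f.subgroupComap B) (fun x y hxy =>
    Subtype.ext (hf (congrArg Subtype.val hxy)))

theorem CB.of_surjective {A A' : Type*} [Group A] [Group A'] (h : CB A) (f : A →* A')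
    (hf : Function.Surjective f) : CB A' := by
  obtain ⟨B, hB, h1, h2, h3⟩ := h
  haveI : (B.map f).Normal := hB.map f hf
  have hs : Function.Surjective (QuotientGroup.map B (B.map f) f (le_comap_map f B)) :=
    QuotientGroup.map_surjective_of_surjective _ _ _ (QuotientGroup.mk_surjective.comp hf) _
  exact ⟨B.map f, inferInstance, isCyclic_of_surjective _ (f.subgroupMap_surjective B),
    isCyclic_of_surjective _ hs, h3.of_surjective _ hs⟩

theorem simple_case {G : Type*} [Group G] [Finite G] [IsSimpleGroup G] (A : Subgroup G) (p s : ℕ)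
    (hp : p.Prime) (hA : A.index = p ^ s) (h : CB A) : Group.IsSolvable G := by
  by_contra hns
  have hpg : ∀ q : ℕ, q.Prime → ¬ IsPGroup q G := fun q hq hG => by
    haveI := Fact.mk hq
    haveI := hG.isNilpotent
    exact hns inferInstance
  have hZ : ∀ z : A, (∀ a : A, a * z = z * a) → z = 1 := by
    intro z hz
    by_contra hz1
    have hle : A ≤ centralizer ({(z : G)} : Set G) := fun a ha =>
      mem_centralizer_singleton_iff.2 (congrArg Subtype.val (hz ⟨a, ha⟩))
    obtain ⟨k, -, hk⟩ := (Nat.dvd_prime_pow hp).1 (hA ▸ index_dvd_of_le hle)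
    have hpr := S0143.result p k hp (z : G) (fun e => hz1 (Subtype.ext e)) hk
    exact hpg _ hpr (IsPGroup.of_card (n := 1) (pow_one _).symm)
  obtain ⟨B, hB, h1, h2, h3⟩ := h
  have hBodd : ¬ 2 ∣ Nat.card B := by
    intro h2B
    obtain ⟨z, hz⟩ := exists_prime_orderOf_dvd_card' (G := B) 2 h2B
    have huniq : ∀ w : B, orderOf w = 2 → w = z := by
      intro w hw
      haveI := Fintype.ofFinite B
      classical
      have := IsCyclic.card_orderOf_eq_totient (α := B) (d := 2) (by
        rwa [← Nat.card_eq_fintype_card])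
      rw [Nat.totient_two, Finset.card_eq_one] at this
      obtain ⟨a, ha⟩ := this
      have e1 : w ∈ ({a} : Finset B) := ha ▸ (by simpa using hw)
      have e2 : z ∈ ({a} : Finset B) := ha ▸ (by simpa using hz)
      rw [Finset.mem_singleton] at e1 e2
      rw [e1, e2]
    have hz1 : (z : A) = 1 := by
      apply hZ
      intro a
      have := huniq (MulAut.conjNormal a z) (by rw [MulEquiv.orderOf_eq, hz])
      have := congrArg Subtype.val this
      rw [MulAut.conjNormal_apply, mul_inv_eq_iff_eq_mul] at this
      exact this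
    rw [show z = 1 from Subtype.ext hz1, orderOf_one] at hz
    exact absurd hz (by decide)
  obtain ⟨r, hr⟩ := IsPGroup.iff_card.1 h3
  by_cases hp2 : p = 2
  · subst hp2
    obtain ⟨S⟩ : Nonempty (Sylow 2 G) := inferInstance
    have hidx : (B.map A.subtype).index = 2 ^ (r + s) := by
      rw [index_map_subtype, hA, pow_add, ← hr]; rfl
    have hcB : Nat.card (B.map A.subtype) = Nat.card B := card_subtype _ _
    haveI : IsCyclic (B.map A.subtype) :=
      isCyclic_of_surjective _ (A.subtype.subgroupMap_surjective B)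
    obtain ⟨k, hk⟩ := IsPGroup.iff_card.1 S.isPGroup'
    refine hns (S0563.result (B.map A.subtype) S (by
      letI := IsCyclic.commGroup (α := B.map A.subtype); exact CommGroup.isNilpotent)
      S.isPGroup'.isNilpotent ?_
      (S0007.result _ _ ?_).2).1
    · rw [hcB, hk]
      exact Nat.Coprime.pow_right _ ((Nat.Prime.coprime_iff_not_dvd Nat.prime_two).2 hBodd).symm
    · rw [hidx]
      exact Nat.Coprime.pow_left _
        ((Nat.Prime.coprime_iff_not_dvd Nat.prime_two).2 S.not_dvd_index)
  · have hidx : ¬ 2 ∣ A.index := by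
      rw [hA]
      intro h
      exact hp2 ((Nat.prime_dvd_prime_iff_eq Nat.prime_two hp).1
        (Nat.prime_two.dvd_of_dvd_pow h)).symm
    obtain ⟨T, hT⟩ := H83.not_dvd_index_iff.1 hidx
    have hinj : Function.Injective ((QuotientGroup.mk' B).comp (inclusion hT)) := by
      rw [← MonoidHom.ker_eq_bot_iff, eq_bot_iff]
      intro t ht
      have h4 : inclusion hT t ∈ B := (QuotientGroup.eq_one_iff _).1 ht
      have h5 : orderOf t ∣ Nat.card B := by
        rw [← orderOf_injective _ (inclusion_injective hT)]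
        exact Subgroup.orderOf_dvd_natCard _ h4
      obtain ⟨k, hk⟩ := IsPGroup.iff_orderOf.1 T.isPGroup' t
      rw [mem_bot, ← orderOf_eq_one_iff]
      rcases k with _ | k
      · simpa using hk
      · exact absurd ((hk ▸ dvd_pow_self 2 (Nat.succ_ne_zero k)).trans h5) hBodd
    have hTc : IsCyclic (T : Subgroup G) := isCyclic_of_injective _ hinj
    by_cases h2G : 2 ∣ Nat.card G
    · refine H35.not_normalizer_le_centralizer T h2G ?_
        (hTc.normalizer_le_centralizer ((Nat.minFac_eq_two_iff _).2 h2G))
      intro h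
      obtain ⟨k, hk⟩ := IsPGroup.iff_card.1 T.isPGroup'
      exact hpg 2 Nat.prime_two (IsPGroup.of_card (h ▸ hk))
    · have hr0 : r = 0 := by
        by_contra hr0
        apply h2G
        exact ((dvd_pow_self 2 hr0).trans (hr ▸ card_quotient_dvd_card B)).trans
          (card_subgroup_dvd_card A)
      have hBt : B = ⊤ := by
        rw [← index_eq_one, index, hr, hr0, pow_zero]
      have hA1 : A = ⊥ := by
        rw [eq_bot_iff]
        intro z hz
        have := hZ ⟨z, hz⟩ (fun a => by
          haveI := h1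
          have := mul_comm' (⟨a, hBt ▸ mem_top _⟩ : B) ⟨⟨z, hz⟩, hBt ▸ mem_top _⟩
          exact congrArg Subtype.val this)
        exact mem_bot.2 (congrArg Subtype.val this)
      rw [hA1, index_bot] at hA
      exact hpg p hp (IsPGroup.of_card hA)

theorem main {G : Type*} [Group G] [Finite G] (A : Subgroup G) (p s : ℕ)
    (hp : p.Prime) (hA : A.index = p ^ s) (h : CB A) : Group.IsSolvable G := by
  induction hn : Nat.card G using Nat.strong_induction_on generalizing G s with
  | _ n ih =>
  subst hn
  by_cases hs : IsSimpleGroup G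
  · exact simple_case A p s hp hA h
  rcases subsingleton_or_nontrivial G with hG | hG
  · infer_instance
  have : ∃ N : Subgroup G, N.Normal ∧ N ≠ ⊥ ∧ N ≠ ⊤ := by
    by_contra h
    apply hs
    refine ⟨fun N hN => ?_⟩
    by_contra h2
    push Not at h2
    exact h ⟨N, hN, h2.1, h2.2⟩
  obtain ⟨N, hN, hN1, hN2⟩ := this
  obtain ⟨a, -, ha⟩ := (Nat.dvd_prime_pow hp).1 (hA ▸ H19.relIndex_dvd_index_of_normal_right A N)
  obtain ⟨b, -, hb⟩ := (Nat.dvd_prime_pow hp).1
    (hA ▸ index_map_dvd A (QuotientGroup.mk'_surjective N))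
  haveI : Group.IsSolvable N := ih _ (H19.card_lt_of_ne_top hN2) (A.subgroupOf N) a ha
    (h.of_injective (N.subtype.subgroupComap A) (fun x y hxy =>
      Subtype.ext (Subtype.ext (congrArg (fun z : A => (z : G)) hxy)))) rfl
  haveI : Group.IsSolvable (G ⧸ N) := ih _ (H19.card_quotient_lt hN1) _ b hb
    (h.of_surjective _ ((QuotientGroup.mk' N).subgroupMap_surjective A)) rfl
  exact Group.isSolvable_of_ker_le_range N.subtype (QuotientGroup.mk' N) (by simp)


/-- Let G be a finite group with a subgroup A of prime-power index. Suppose A has a normal cyclic subgroup B such that A/B is cyclic of order a power of 2. Then G is solvable. -/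
theorem result {G : Type*} [Group G] [Finite G] (A : Subgroup G) (p s : ℕ) (hp : p.Prime) (hA : A.index = p ^ s)
    (B : Subgroup A) [B.Normal] (hB : IsCyclic B) (hAB : IsCyclic (A ⧸ B)) (r : ℕ) (hr : Nat.card (A ⧸ B) = 2 ^ r) :
    Group.IsSolvable G := by
  exact main A p s hp hA ⟨B, inferInstance, hB, hAB, IsPGroup.of_card hr⟩

end Cfsg.Agent.S4245
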