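import Cfsg.Statements.S4251
import Cfsg.Agent.S0116
import Cfsg.Agent.H3.Fusion
import Cfsg.Agent.H85.SylowCount

set_option autoImplicit false
set_option linter.style.haveILetI false
open Cfsg

namespace Cfsg.Agent.S4251

open Subgroup

/-- Tame intersection condition. -/
def Tame {G : Type*} [Group G] {p : ℕ} (P Q : Sylow p G) : Prop :=
  ¬ p ∣ ((P : Subgroup G) ⊓ Subgroup.normalizer (((P : Subgroup G) ⊓ (Q : Subgroup G) : Subgroup G) : Set G)).relIndex (Subgroup.normalizer (((P : Subgroup G) ⊓ (Q : Subgroup G) : Subgroup G) : Set G)) ∧ ¬ p ∣ ((Q : Subgroup G) ⊓ Subgroup.normalizer (((P : Subgroup G) ⊓ (Q : Subgroup G) : Subgroup G) : Set G)).relIndex (Subgroup.normalizer (((P : Subgroup G) ⊓ (Q : Subgroup G) : Subgroup G) : Set G))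

/-- Relation form of the Alperin fusion theorem with tame intersections. -/
theorem alperin_rel {G : Type*} [Group G] [Finite G] {p : ℕ} [Fact p.Prime] (P : Sylow p G)
    (A : Subgroup G) (g : G) (hA : A ≤ P) (hAg : ∀ a ∈ A, g⁻¹ * a * g ∈ (P : Subgroup G))
    (r : G → G → Prop) (hrefl : ∀ a, r a a) (htrans : ∀ a b c, r a b → r b c → r a c)
    (hstep : ∀ Q : Sylow p G, Tame P Q →
      Nat.card A ≤ Nat.card ((P : Subgroup G) ⊓ (Q : Subgroup G) : Subgroup G) →
      ∀ x ∈ normalizer (((P : Subgroup G) ⊓ (Q : Subgroup G) : Subgroup G) : Set G),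
      ∀ d ∈ (P : Subgroup G) ⊓ (Q : Subgroup G), r d (x⁻¹ * d * x)) :
    ∀ a ∈ A, r a (g⁻¹ * a * g) := by
  obtain ⟨n, Q, x, hprod, hx, h0, hs⟩ := S0116.result P (A : Set G) g hA (by
    rintro _ ⟨a, ha, rfl⟩; exact hAg a ha)
  have hin : ∀ i (hi : i < n), ∀ a ∈ A, (((List.ofFn x).take i).prod)⁻¹ * a *
      ((List.ofFn x).take i).prod ∈ (P : Subgroup G) ⊓ (Q ⟨i, hi⟩ : Subgroup G) := by
    intro i hi a ha
    rcases i with _ | i
    · rw [List.take_zero, List.prod_nil, inv_one, one_mul, mul_one]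
      exact h0 hi ha
    · exact hs ⟨i, by omega⟩ hi ⟨a, ha, rfl⟩
  have key : ∀ i ≤ n, ∀ a ∈ A, r a ((((List.ofFn x).take i).prod)⁻¹ * a *
      ((List.ofFn x).take i).prod) := by
    intro i
    induction i with
    | zero => intro _ a _; simpa using hrefl a
    | succ i ih =>
      intro hi a ha
      have hi' : i < n := by omega
      refine htrans _ _ _ (ih hi'.le a ha) ?_
      have h1 := hstep (Q ⟨i, hi'⟩) (hx ⟨i, hi'⟩).2 ?_ _ (hx ⟨i, hi'⟩).1 _ (hin i hi' a ha)
      · have h2 : ((List.ofFn x).take (i + 1)).prod = ((List.ofFn x).take i).prod * x ⟨i, hi'⟩ := by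
          rw [List.prod_take_succ _ _ (by simpa using hi')]
          simp
        rw [h2]
        convert h1 using 1
        group
      · refine Nat.card_le_card_of_injective (fun a : A => (⟨_, hin i hi' a a.2⟩ :
          ((P : Subgroup G) ⊓ (Q ⟨i, hi'⟩ : Subgroup G) : Subgroup G))) ?_
        intro a b hab
        have := congrArg Subtype.val hab
        simp only [mul_left_inj, mul_right_inj] at this
        exact Subtype.ext this
  intro a ha
  have := key n le_rfl a ha
  rwa [List.take_of_length_le (by simp), hprod] at this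


/-- Let P be a Sylow p-subgroup of a finite group G. Call an intersection H = P ∩ Q with a Sylow p-subgroup Q tame when N_P(H) and N_Q(H) are Sylow p-subgroups of N_G(H). If N_G(H)/C_G(H) is a p-group for every nontrivial tame intersection H = P ∩ Q, then G has a normal p-complement. -/
theorem result {G : Type*} [Group G] [Finite G] (p : ℕ) [Fact p.Prime] (P : Sylow p G)
    (h : ∀ Q : Sylow p G, (P : Subgroup G) ⊓ (Q : Subgroup G) ≠ ⊥ → (¬ p ∣ ((P : Subgroup G) ⊓ Subgroup.normalizer (((P : Subgroup G) ⊓ (Q : Subgroup G) : Subgroup G) : Set G)).relIndex (Subgroup.normalizer (((P : Subgroup G) ⊓ (Q : Subgroup G) : Subgroup G) : Set G)) ∧ ¬ p ∣ ((Q : Subgroup G) ⊓ Subgroup.normalizer (((P : Subgroup G) ⊓ (Q : Subgroup G) : Subgroup G) : Set G)).relIndex (Subgroup.normalizer (((P : Subgroup G) ⊓ (Q : Subgroup G) : Subgroup G) : Set G))) →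
      IsPGroup p (Subgroup.normalizer (((P : Subgroup G) ⊓ (Q : Subgroup G) : Subgroup G) : Set G) ⧸
        (Subgroup.centralizer (((P : Subgroup G) ⊓ (Q : Subgroup G) : Subgroup G) : Set G)).subgroupOf
          (Subgroup.normalizer (((P : Subgroup G) ⊓ (Q : Subgroup G) : Subgroup G) : Set G)))) :
    Cfsg.HasNormalPComplement p G := by
  rw [H3.hasNormalPComplement_iff_sylow_controls_fusion P]
  intro y hy g hg
  have key := alperin_rel P (zpowers y) g⁻¹ (by rwa [zpowers_le]) (by
      rintro _ ⟨k, rfl⟩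
      have := (P : Subgroup G).zpow_mem hg k
      simpa using this)
    (fun a b => ∃ v ∈ (P : Subgroup G), v * a * v⁻¹ = b) (fun a => ⟨1, one_mem _, by simp⟩)
    (by
      rintro a _ _ ⟨v, hv, rfl⟩ ⟨w, hw, rfl⟩
      exact ⟨w * v, mul_mem hw hv, by group⟩)
    (by
      intro Q hQ _ x hx d hd
      by_cases hD : (P : Subgroup G) ⊓ (Q : Subgroup G) = ⊥
      · rw [hD, mem_bot] at hd
        exact ⟨1, one_mem _, by simp [hd]⟩
      have h1 := h Q hD hQ
      set D := (P : Subgroup G) ⊓ (Q : Subgroup G) with hDdef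
      set N := normalizer (D : Set G) with hN
      set C := (centralizer (D : Set G)).subgroupOf N with hC
      obtain ⟨k, hk⟩ := IsPGroup.iff_card.1 h1
      have h2 : ((P : Subgroup G).subgroupOf N ⊔ C) = ⊤ := by
        rw [← index_eq_one]
        have d1 : ((P : Subgroup G).subgroupOf N ⊔ C).index ∣ p ^ k :=
          hk ▸ index_dvd_of_le le_sup_right
        have d2 : ((P : Subgroup G).subgroupOf N ⊔ C).index ∣ (P : Subgroup G).relIndex N :=
          index_dvd_of_le le_sup_left
        have d3 := hQ.1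
        rw [inf_relIndex_right] at d3
        exact Nat.eq_one_of_dvd_coprimes (Nat.Coprime.pow_left k
          ((Nat.Prime.coprime_iff_not_dvd Fact.out).2 d3)) d1 d2
      obtain ⟨b, hb, c, hc, hbc⟩ := H85.mem_sup_normal_right
        (h2 ▸ mem_top (⟨x, hx⟩ : N)⁻¹ : (⟨x, hx⟩ : N)⁻¹ ∈ (P : Subgroup G).subgroupOf N ⊔ C)
      refine ⟨b, hb, ?_⟩
      have e1 : x⁻¹ = (b : G) * c := congrArg Subtype.val hbc
      have e2 : d * c = c * d := (mem_subgroupOf.1 hc) d hd
      rw [← inv_inv x, e1, inv_inv, mul_assoc (b : G) c d, ← e2]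
      group) y (mem_zpowers y)
  rw [inv_inv] at key
  exact key

end Cfsg.Agent.S4251
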