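import Cfsg.Statements.S4250
import Cfsg.Agent.S4251
import Cfsg.Agent.H92.SylIn
import Cfsg.Agent.H46.Generation

set_option autoImplicit false
set_option linter.style.haveILetI false
open Cfsg

namespace Cfsg.Agent.S4250

open Subgroup


/-- Let P be a Sylow p-subgroup of a finite group G. Call an intersection H = P ∩ Q with a Sylow p-subgroup Q tame when N_P(H) and N_Q(H) are Sylow p-subgroups of N_G(H). Then P ∩ G′ is generated by [P, N_G(P)] together with the commutator subgroups [P ∩ Q, ⟨x⟩] for all tame intersections P ∩ Q and all p-elements x of N_G(P ∩ Q). -/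
theorem result {G : Type*} [Group G] [Finite G] (p : ℕ) [Fact p.Prime] (P : Sylow p G) :
    (P : Subgroup G) ⊓ commutator G =
      ⁅(P : Subgroup G), Subgroup.normalizer ((P : Subgroup G) : Set G)⁆ ⊔
        ⨆ (Q : Sylow p G) (_ : (¬ p ∣ ((P : Subgroup G) ⊓ Subgroup.normalizer (((P : Subgroup G) ⊓ (Q : Subgroup G) : Subgroup G) : Set G)).relIndex (Subgroup.normalizer (((P : Subgroup G) ⊓ (Q : Subgroup G) : Subgroup G) : Set G)) ∧ ¬ p ∣ ((Q : Subgroup G) ⊓ Subgroup.normalizer (((P : Subgroup G) ⊓ (Q : Subgroup G) : Subgroup G) : Set G)).relIndex (Subgroup.normalizer (((P : Subgroup G) ⊓ (Q : Subgroup G) : Subgroup G) : Set G))))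
          (x : G) (_ : x ∈ Subgroup.normalizer (((P : Subgroup G) ⊓ (Q : Subgroup G) : Subgroup G) : Set G) ∧ ∃ k : ℕ, orderOf x = p ^ k),
          ⁅(P : Subgroup G) ⊓ (Q : Subgroup G), Subgroup.zpowers x⁆ := by
  apply le_antisymm
  · set R := ⁅(P : Subgroup G), Subgroup.normalizer ((P : Subgroup G) : Set G)⁆ ⊔
        ⨆ (Q : Sylow p G) (_ : S4251.Tame P Q)
          (x : G) (_ : x ∈ Subgroup.normalizer (((P : Subgroup G) ⊓ (Q : Subgroup G) : Subgroup G) : Set G) ∧ ∃ k : ℕ, orderOf x = p ^ k),
          ⁅(P : Subgroup G) ⊓ (Q : Subgroup G), Subgroup.zpowers x⁆ with hR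
    show (P : Subgroup G) ⊓ commutator G ≤ R
    have main : ∀ (n : ℕ) (A : Subgroup G), Nat.card G - Nat.card A = n → A ≤ P → ∀ g : G,
        (∀ a ∈ A, g⁻¹ * a * g ∈ (P : Subgroup G)) → ∀ a ∈ A, a⁻¹ * (g⁻¹ * a * g) ∈ R := by
      intro n
      induction n using Nat.strong_induction_on with
      | _ n ih =>
      intro A hn hA g hg
      refine S4251.alperin_rel P A g hA hg (fun a b => a⁻¹ * b ∈ R) (fun a => by simp)
        (fun a b c h1 h2 => by simpa [mul_assoc] using R.mul_mem h1 h2) ?_
      intro Q hQ hcard x hx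
      set D := (P : Subgroup G) ⊓ (Q : Subgroup G) with hD
      set N := normalizer (D : Set G) with hN
      by_cases hDP : D = P
      · intro d hd
        apply mem_sup_left
        have := commutator_mem_commutator (H₁ := (P : Subgroup G))
          (H₂ := normalizer ((P : Subgroup G) : Set G)) (inv_mem (hDP ▸ hd))
          (inv_mem (hDP ▸ hx : x ∈ normalizer ((P : Subgroup G) : Set G)))
        simpa [commutatorElement_def, mul_assoc] using this
      have hlt : D < (P : Subgroup G) ⊓ N :=
        H46.lt_inf_normalizer_of_isPGroup P.isPGroup' (lt_of_le_of_ne inf_le_left hDP)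
      let X : Subgroup G :=
        { carrier := {y | y ∈ N ∧ ∀ d ∈ D, d⁻¹ * (y⁻¹ * d * y) ∈ R}
          one_mem' := ⟨one_mem _, fun d _ => by simp⟩
          mul_mem' := by
            rintro y z ⟨hy, hy'⟩ ⟨hz, hz'⟩
            refine ⟨mul_mem hy hz, fun d hd => ?_⟩
            have h1 : y⁻¹ * d * y ∈ D := by
              simpa using (mem_normalizer_iff.1 (inv_mem hy) d).1 hd
            have := R.mul_mem (hy' d hd) (hz' _ h1)
            convert this using 1
            group
          inv_mem' := by
            rintro y ⟨hy, hy'⟩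
            refine ⟨inv_mem hy, fun d hd => ?_⟩
            have h1 : y * d * y⁻¹ ∈ D := (mem_normalizer_iff.1 hy d).1 hd
            have := R.inv_mem (hy' _ h1)
            convert this using 1
            group }
      let K : Subgroup G := closure {y | y ∈ N ∧ ∃ k : ℕ, orderOf y = p ^ k}
      have hKX : K ≤ X := by
        rw [closure_le]
        rintro y ⟨hy, hk⟩
        refine ⟨hy, fun d hd => mem_sup_right ?_⟩
        refine mem_iSup_of_mem Q (mem_iSup_of_mem hQ (mem_iSup_of_mem y
          (mem_iSup_of_mem ⟨hy, hk⟩ ?_)))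
        have := commutator_mem_commutator (H₁ := D) (H₂ := zpowers y) (inv_mem hd)
          (inv_mem (mem_zpowers y))
        simpa [commutatorElement_def, mul_assoc] using this
      have hKN : K ≤ N := hKX.trans fun y hy => hy.1
      have hPK : (P : Subgroup G) ⊓ N ≤ K := by
        rintro y ⟨hyP, hyN⟩
        apply Subgroup.subset_closure
        obtain ⟨k, hk⟩ := IsPGroup.iff_orderOf.1 P.isPGroup' ⟨y, hyP⟩
        exact ⟨hyN, k, by rw [← hk, ← Subgroup.orderOf_coe]⟩
      have hsyl : H92.SylIn p ((P : Subgroup G) ⊓ N) K :=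
        (H92.sylIn_of_not_dvd_relIndex inf_le_right P.isPGroup'.to_inf_left hQ.1).mono hPK hKN
      have hNK : N ≤ normalizer (K : Set G) := by
        have : ∀ y ∈ N, ∀ z ∈ K, y * z * y⁻¹ ∈ K := by
          intro y hy z hz
          have : K.map (MulAut.conj y).toMonoidHom ≤ K := by
            rw [MonoidHom.map_closure, closure_le]
            rintro _ ⟨w, ⟨hw, k, hk⟩, rfl⟩
            apply Subgroup.subset_closure
            refine ⟨mul_mem (mul_mem hy hw) (inv_mem hy), k, ?_⟩
            rw [← hk]
            exact (MulAut.conj y).orderOf_eq w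
          exact this ⟨z, hz, rfl⟩
        intro y hy
        rw [mem_normalizer_iff]
        intro z
        exact ⟨this y hy z, fun hz => by simpa [mul_assoc] using this y⁻¹ (inv_mem hy) _ hz⟩
      obtain ⟨m, hm, hmx⟩ := hsyl.frattini (hNK hx)
      have hmxX : m * x ∈ X := by
        refine ⟨mul_mem (hKN hm) hx, fun d hd => ?_⟩
        have hc : Nat.card D < Nat.card ((P : Subgroup G) ⊓ N : Subgroup G) :=
          Set.ncard_lt_ncard (SetLike.coe_ssubset_coe.2 hlt)
        have hc2 : Nat.card ((P : Subgroup G) ⊓ N : Subgroup G) ≤ Nat.card G :=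
          card_le_card_group _
        refine ih _ (by omega) ((P : Subgroup G) ⊓ N) rfl inf_le_left (m * x) ?_ d (hlt.le hd)
        intro a ha
        have := (mem_normalizer_iff.1 (inv_mem hmx) a).1 ha
        rw [inv_inv] at this
        exact this.1
      have : x ∈ X := by
        simpa using X.mul_mem (X.inv_mem (hKX hm)) hmxX
      exact this.2
    rw [inf_comm, H3.commutator_inf_sylow_le_iff]
    intro y hy g hg
    have := main _ (zpowers y) rfl (by rwa [zpowers_le]) g⁻¹ (by
      rintro _ ⟨k, rfl⟩
      have := (P : Subgroup G).zpow_mem hg k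
      simpa using this) y (mem_zpowers y)
    rwa [inv_inv] at this
  · refine sup_le (le_inf ?_ (commutator_mono le_top le_top)) ?_
    · exact le_normalizer_iff_commutator_le_left.1 le_rfl
    · refine iSup_le fun Q => iSup_le fun _ => iSup_le fun x => iSup_le fun hx =>
        le_inf ?_ (commutator_mono le_top le_top)
      refine le_trans (le_normalizer_iff_commutator_le_left.1 ?_) inf_le_left
      rw [zpowers_le]; exact hx.1

end Cfsg.Agent.S4250
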