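import Cfsg.Statements.S4261
import Cfsg.Agent.S0048
import Cfsg.Agent.H3.PResidual

set_option autoImplicit false
set_option linter.style.haveILetI false
open Cfsg

namespace Cfsg.Agent.S4261

/-- Let M be a maximal subgroup of a finite solvable group G such that x^[G : M] lies in M for every x in G. Then M is normal in G. -/
theorem result {G : Type*} [Group G] [Finite G] (hG : Group.IsSolvable G) (M : Subgroup G) (hM : IsCoatom M)
    (hexp : ∀ x : G, x ^ M.index ∈ M) : M.Normal := by
  obtain ⟨p, k, hp, hk, hpk⟩ := (isPrimePow_nat_iff _).1 (S0048.result M hM)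
  haveI := Fact.mk hp
  have hle : pResidual p G ≤ M := by
    rw [H3.pResidual_le_iff]
    intro g hg
    have hcop : M.index.Coprime (orderOf g) := by
      rw [← hpk]; exact Nat.Coprime.pow_left _ hg.symm
    obtain ⟨n, hn⟩ := exists_pow_eq_self_of_coprime hcop
    rw [← hn]
    exact M.pow_mem (hexp _) n
  haveI : (pResidual p G).Normal := H3.pResidual_normal
  haveI : Group.IsNilpotent (G ⧸ pResidual p G) :=
    (H3.isPGroup_quotient_pResidual (p := p) (G := G)).isNilpotent
  have hker : (QuotientGroup.mk' (pResidual p G)).ker ≤ M := by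
    rwa [QuotientGroup.ker_mk']
  have hco : IsCoatom (M.map (QuotientGroup.mk' (pResidual p G))) := by
    refine ⟨fun h => hM.1 ?_, fun K hK => ?_⟩
    · rw [← Subgroup.comap_map_eq_self hker, h, Subgroup.comap_top]
    · have h1 : M < K.comap (QuotientGroup.mk' (pResidual p G)) := by
        rw [← Subgroup.comap_map_eq_self hker]
        exact (Subgroup.comap_lt_comap_of_surjective (QuotientGroup.mk'_surjective _)).2 hK
      have h2 := hM.2 _ h1
      rw [← Subgroup.map_comap_eq_self_of_surjective (QuotientGroup.mk'_surjective _) K, h2,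
        Subgroup.map_top_of_surjective _ (QuotientGroup.mk'_surjective _)]
  have hn := Subgroup.NormalizerCondition.normal_of_coatom _ normalizerCondition_of_isNilpotent hco
  rw [← Subgroup.comap_map_eq_self hker]
  exact hn.comap _

end Cfsg.Agent.S4261
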