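import Cfsg.Statements.S4263
import Cfsg.Agent.S4244
import Cfsg.Agent.S0541
import Cfsg.Agent.S0010
import Cfsg.Agent.H44.Cores

set_option autoImplicit false
set_option linter.style.haveILetI false
open Cfsg

namespace Cfsg.Agent.S4263

/-- Let G be a finite group. An element x lies in the Fitting subgroup F(G) if and only if, for every subgroup H of G, the power x^[G : H] lies in H. -/
theorem result {G : Type*} [Group G] [Finite G] (x : G) :
    x ∈ Cfsg.fittingSubgroup G ↔ ∀ H : Subgroup G, x ^ H.index ∈ H := by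
  constructor
  · intro hx H
    haveI := H44.fitting_isNilpotent (G := G)
    haveI : (fittingSubgroup G).Normal := by
      haveI := H44.fitting_characteristic (G := G)
      infer_instance
    have hle : Subgroup.zpowers x ≤ fittingSubgroup G := by rwa [Subgroup.zpowers_le]
    have hsn : (Subgroup.zpowers x).IsSubnormal :=
      Subgroup.IsSubnormal.trans hle (S0541.isSubnormal_of_isNilpotent _)
        (Subgroup.Normal.isSubnormal inferInstance)
    have hd := S4244.result _ hsn H
    rw [Subgroup.inf_relIndex_left] at hd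
    obtain ⟨k, hk⟩ := hd
    have h1 : (⟨x, Subgroup.mem_zpowers x⟩ : Subgroup.zpowers x) ^
        (H.subgroupOf (Subgroup.zpowers x)).index ∈ H.subgroupOf (Subgroup.zpowers x) :=
      Subgroup.pow_index_mem _ _
    rw [Subgroup.mem_subgroupOf] at h1
    rw [hk, pow_mul]
    exact H.pow_mem h1 k
  · intro h
    rw [← Subgroup.zpowers_le]
    apply H44.le_of_sylow_le
    intro p _ _
    obtain ⟨P⟩ := (inferInstance : Nonempty (Sylow p (Subgroup.zpowers x)))
    refine ⟨P, le_trans ?_ (H44.pCore_le_fitting (p := p))⟩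
    rw [S0010.result p, le_iInf_iff]
    rintro Q _ ⟨⟨y, hy⟩, hyP, rfl⟩
    obtain ⟨k, rfl⟩ := hy
    obtain ⟨m, hm⟩ := IsPGroup.iff_orderOf.1 P.isPGroup' ⟨_, hyP⟩
    have hord : orderOf (x ^ k) = p ^ m := by
      rw [← hm, ← Subgroup.orderOf_coe, ← Subgroup.orderOf_coe]
    have hcop : (Q : Subgroup G).index.Coprime (orderOf (x ^ k)) := by
      rw [hord]
      exact Nat.Coprime.pow_right _
        ((Nat.Prime.coprime_iff_not_dvd Fact.out).2 Q.not_dvd_index).symm
    obtain ⟨n, hn⟩ := exists_pow_eq_self_of_coprime hcop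
    show x ^ k ∈ (Q : Subgroup G)
    rw [← hn, ← zpow_natCast (x ^ k), ← zpow_mul, mul_comm, zpow_mul, zpow_natCast]
    exact Subgroup.pow_mem _ (Subgroup.zpow_mem _ (h _) _) _

end Cfsg.Agent.S4263
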