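import Cfsg.Statements.S4269
import Cfsg.Agent.H84.Pronormal

set_option autoImplicit false
set_option linter.style.haveILetI false
open Cfsg

namespace Cfsg.Agent.S4269

open Subgroup Cfsg.Agent.H84 Cfsg.Agent.H4 Pointwise
open scoped commutatorElement


/-- Let G be a finite group, V an abelian normal subgroup and H a subgroup with HV = G. Then H is pronormal in G (H and gHg⁻¹ are conjugate inside the subgroup they generate, for every g) if and only if every H-invariant subgroup U of V satisfies U = N_U(H)·[H, U], that is, U is the join of U ∩ N_G(H) and the commutator subgroup [H, U]. -/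
theorem result {G : Type*} [Group G] [Finite G]
    (V : Subgroup G) [V.Normal] (hV : IsMulCommutative ↥V) (H : Subgroup G) (hHV : H ⊔ V = ⊤) :
    Cfsg.IsPronormal H ↔
      ∀ U : Subgroup G, U ≤ V → (∀ h ∈ H, U.map (MulAut.conj h).toMonoidHom = U) →
        U = (U ⊓ Subgroup.normalizer (H : Set G)) ⊔ ⁅H, U⁆ := by
  have hcomm : ∀ a ∈ V, ∀ b ∈ V, a * b = b * a := fun a ha b hb =>
    congrArg Subtype.val (hV.is_comm.comm (⟨a, ha⟩ : V) ⟨b, hb⟩)
  have hVn : V.Normal := inferInstance
  rw [isPronormal_iff]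
  constructor
  · intro h U hUV hU
    have hU' : ∀ h ∈ H, ∀ u ∈ U, h * u * h⁻¹ ∈ U := fun h hh u hu =>
      hU h hh ▸ conj_mem_map_conj h hu
    have hWU : ⁅H, U⁆ ≤ U := commutator_le.2 fun h hh u hu => by
      rw [commutatorElement_def]
      exact mul_mem (hU' h hh u hu) (inv_mem hu)
    refine le_antisymm (fun u hu => ?_) (sup_le inf_le_left hWU)
    obtain ⟨x, hx, hxu⟩ := h u
    -- the subgroup [H,U] H
    have hn : H ≤ normalizer ((⁅H, U⁆ : Subgroup G) : Set G) := by
      intro h hh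
      rw [← map_conj_eq_iff, map_commutator, hU h hh, map_conj_eq_iff.2 (le_normalizer hh)]
    have hle : H ⊔ H.map (MulAut.conj u).toMonoidHom ≤ H ⊔ ⁅H, U⁆ := by
      refine sup_le le_sup_left ?_
      rintro _ ⟨h, hh, rfl⟩
      have h1 : ⁅h, u⁆ ∈ ⁅H, U⁆ := commutator_mem_commutator hh hu
      have h2 : (MulAut.conj u).toMonoidHom h = ⁅h, u⁆⁻¹ * h := by
        simp [commutatorElement_def, mul_assoc]
      rw [h2]
      exact mul_mem (mem_sup_right (inv_mem h1)) (mem_sup_left hh)
    have hx' : x ∈ ((H ⊔ ⁅H, U⁆ : Subgroup G) : Set G) := hle hx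
    rw [coe_mul_of_left_le_normalizer_right _ _ hn] at hx'
    obtain ⟨h, hh, w, hw, rfl⟩ := hx'
    have hw' : h * w * h⁻¹ ∈ ⁅H, U⁆ := (mem_normalizer_iff.1 (hn hh) w).1 hw
    have h3 : (h * w * h⁻¹)⁻¹ * u ∈ normalizer (H : Set G) := by
      have := mul_mem (le_normalizer hh) hxu
      simpa [mul_assoc] using this
    have h4 : u = (h * w * h⁻¹) * ((h * w * h⁻¹)⁻¹ * u) := by group
    rw [h4]
    exact mul_mem (mem_sup_right hw') (mem_sup_left
      (mem_inf.2 ⟨mul_mem (inv_mem (hWU hw')) hu, h3⟩))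
  · intro hyp g
    have hg : g ∈ ((V ⊔ H : Subgroup G) : Set G) := by rw [sup_comm, hHV]; trivial
    rw [normal_mul] at hg
    obtain ⟨v, hv, h, hh, rfl⟩ := hg
    refine PnGood.mul_right ?_ (le_normalizer hh)
    set K := H ⊔ H.map (MulAut.conj v).toMonoidHom with hK
    let U : Subgroup G :=
      { carrier := {u | u ∈ V ∧ ∀ h ∈ H, ⁅h, u⁆ ∈ K}
        one_mem' := ⟨one_mem _, fun h _ => by simp⟩
        mul_mem' := by
          rintro a b ⟨ha, ha'⟩ ⟨hb, hb'⟩
          refine ⟨mul_mem ha hb, fun h hh => ?_⟩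
          have h1 := hcomm _ (mul_mem (hVn.conj_mem b hb h) (inv_mem hb)) _ (inv_mem ha)
          have : ⁅h, a * b⁆ = ⁅h, a⁆ * ⁅h, b⁆ := by
            simp only [commutatorElement_def]
            calc h * (a * b) * h⁻¹ * (a * b)⁻¹ = h * a * h⁻¹ * (h * b * h⁻¹ * b⁻¹ * a⁻¹) := by group
              _ = _ := by rw [h1]; group
          rw [this]
          exact mul_mem (ha' h hh) (hb' h hh)
        inv_mem' := by
          rintro a ⟨ha, ha'⟩
          refine ⟨inv_mem ha, fun h hh => ?_⟩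
          have h1 := hcomm _ (hVn.conj_mem _ (inv_mem ha) h) _ ha
          have : ⁅h, a⁻¹⁆ = ⁅h, a⁆⁻¹ := by
            simp only [commutatorElement_def, inv_inv]
            rw [h1]; group
          rw [this]
          exact inv_mem (ha' h hh) }
    have hUV : U ≤ V := fun u hu => hu.1
    have hUinv : ∀ h ∈ H, U.map (MulAut.conj h).toMonoidHom = U := by
      intro h hh
      rw [map_conj_eq_iff]
      refine mem_normalizer_of_conj_mem fun u hu => ⟨hVn.conj_mem u hu.1 h, fun k hk => ?_⟩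
      have : ⁅k, h * u * h⁻¹⁆ = h * ⁅h⁻¹ * k * h, u⁆ * h⁻¹ := by
        simp only [commutatorElement_def]; group
      rw [this]
      exact mul_mem (mul_mem (mem_sup_left hh)
        (hu.2 _ (mul_mem (mul_mem (inv_mem hh) hk) hh))) (mem_sup_left (inv_mem hh))
    have hvU : v ∈ U := ⟨hv, fun k hk => by
      have : ⁅k, v⁆ = k * (v * k⁻¹ * v⁻¹) := by simp only [commutatorElement_def]; group
      rw [this]
      exact mul_mem (mem_sup_left hk) (mem_sup_right (conj_mem_map_conj v (inv_mem hk)))⟩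
    have hWK : ⁅H, U⁆ ≤ K := commutator_le.2 fun h hh u hu => hu.2 h hh
    have hWV : ⁅H, U⁆ ≤ V := commutator_le.2 fun h hh u hu => by
      rw [commutatorElement_def]
      exact mul_mem (hVn.conj_mem u hu.1 h) (inv_mem hu.1)
    have hn : U ⊓ normalizer (H : Set G) ≤ normalizer ((⁅H, U⁆ : Subgroup G) : Set G) := by
      intro a ha
      refine mem_normalizer_of_conj_mem fun w hw => ?_
      rwa [hcomm a ha.1.1 w (hWV hw), mul_inv_cancel_right]
    have hv' : v ∈ ((U ⊓ normalizer (H : Set G) ⊔ ⁅H, U⁆ : Subgroup G) : Set G) :=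
      hyp U hUV hUinv ▸ hvU
    rw [coe_mul_of_left_le_normalizer_right _ _ hn] at hv'
    obtain ⟨n, hn', w, hw, hnw⟩ := hv'
    refine ⟨w, hWK hw, ?_⟩
    have : w⁻¹ * v = n := by
      rw [← hnw]
      simp only
      rw [hcomm n hn'.1.1 w (hWV hw), inv_mul_cancel_left]
    rw [this]
    exact hn'.2

end Cfsg.Agent.S4269
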