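import Cfsg.Statements.S4270
import Cfsg.Agent.H84.Pronormal

set_option autoImplicit false
set_option linter.style.haveILetI false
open Cfsg

namespace Cfsg.Agent.S4270

open Subgroup Cfsg.Agent.H84 Cfsg.Agent.H4 Pointwise

theorem normalizer_map_eq {G : Type*} [Group G] (A : Subgroup G) [A.Normal] {K : Subgroup G}
    (hK : Cfsg.IsPronormal K) :
    (normalizer (K : Set G)).map (QuotientGroup.mk' A) =
      normalizer ((K.map (QuotientGroup.mk' A) : Subgroup (G ⧸ A)) : Set (G ⧸ A)) := by
  refine le_antisymm (le_normalizer_map _) fun g hg => ?_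
  obtain ⟨g, rfl⟩ := QuotientGroup.mk'_surjective A g
  obtain ⟨x, hx, hxg⟩ := isPronormal_iff.1 hK g
  have h1 := mem_map_of_mem (QuotientGroup.mk' A) hx
  rw [Subgroup.map_sup, map_map_conj, map_conj_eq_iff.2 hg, sup_idem] at h1
  have h2 : g = x * (x⁻¹ * g) := by group
  rw [h2, map_mul]
  exact mul_mem (map_mono le_normalizer h1) (mem_map_of_mem _ hxg)

theorem main {G : Type*} [Group G] [Finite G] {p : ℕ} [Fact p.Prime]
    (A : Subgroup G) [A.Normal]
    (hA : (∀ K : Subgroup ↥A, ¬ p ∣ K.index → Cfsg.IsPronormal K))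
    (T : Subgroup G) (hN : ∀ K : Subgroup (normalizer (T : Set G)), ¬ p ∣ K.index →
      T.subgroupOf _ ≤ K → Cfsg.IsPronormal K)
    (S : Sylow p G) (hST : (S : Subgroup G) ⊓ A = T) (H : Subgroup G) (hSH : (S : Subgroup G) ≤ H)
    (a : G) (ha : a ∈ A) : PnGood H a := by
  have hAn : A.Normal := inferInstance
  have hT : IsSylowIn p T A := hST ▸ (isSylowIn_top S).inf_of_normalizes le_top
    (by rw [normalizer_eq_top])
  have hTH : T ≤ H ⊓ A := hST ▸ inf_le_inf_right _ hSH
  have hT0 : IsSylowIn p T (H ⊓ A) := hT.mono hTH inf_le_right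
  have hHn : H ≤ normalizer ((H ⊓ A : Subgroup G) : Set G) := fun h hh =>
    mem_normalizer_of_conj_mem fun x hx =>
      mem_inf.2 ⟨mul_mem (mul_mem hh hx.1) (inv_mem hh), hAn.conj_mem x hx.2 h⟩
  have hSN : (S : Subgroup G) ≤ normalizer (T : Set G) := fun h hh =>
    mem_normalizer_of_conj_mem fun x hx => by
      rw [← hST] at hx ⊢
      exact mem_inf.2 ⟨mul_mem (mul_mem hh hx.1) (inv_mem hh), hAn.conj_mem x hx.2 h⟩
  obtain ⟨y, hy, hb⟩ := pnGood_of_subgroupOf (H := H ⊓ A) inf_le_right (hA _ fun h =>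
    hT.not_dvd (h.trans (relIndex_dvd_of_le_left A hTH))) ha
  refine PnGood.of_mul (x := y) (sup_le_sup inf_le_left (map_mono inf_le_left) hy) ?_
  generalize y⁻¹ * a = b at hb
  obtain ⟨z, hz, hc⟩ := hT0.frattini hb
  refine PnGood.of_mul (x := z⁻¹) (mem_sup_left (inv_mem hz.1)) ?_
  rw [inv_inv]
  have hc' : z * b ∈ normalizer ((H ⊓ A : Subgroup G) : Set G) := mul_mem (le_normalizer hz) hb
  generalize z * b = c at hc hc'
  obtain ⟨w, hw, hd⟩ := pnGood_of_subgroupOf (H := H ⊓ normalizer (T : Set G)) inf_le_right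
    (hN _ (fun h => ((isSylowIn_top S).mono hSN le_top).not_dvd
      (h.trans (relIndex_dvd_of_le_left _ (le_inf hSH hSN))))
      (comap_mono (le_inf (hTH.trans inf_le_left) le_normalizer))) hc
  have hw' : w ∈ normalizer ((H ⊓ A : Subgroup G) : Set G) :=
    (sup_le (inf_le_left.trans hHn) (map_conj_le_of_mem hc' (inf_le_left.trans hHn)) :) hw
  refine ⟨w, sup_le_sup inf_le_left (map_mono inf_le_left) hw, ?_⟩
  have hd' := mul_mem (inv_mem hw') hc'
  generalize w⁻¹ * c = d at hd hd'
  refine mem_normalizer_of_conj_mem fun h hh => ?_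
  obtain ⟨n, hn, hnh⟩ := hT0.frattini (hHn hh)
  have h1 := (mem_normalizer_iff.1 hd' _).1 hn
  have h2 := (mem_normalizer_iff.1 hd _).1 (mem_inf.2 ⟨mul_mem hn.1 hh, hnh⟩)
  have h3 : d * h * d⁻¹ = (d * n * d⁻¹)⁻¹ * (d * (n * h) * d⁻¹) := by group
  rw [h3]
  exact mul_mem (inv_mem h1.1) h2.1


/-- Let p be a prime and G a finite group with a normal subgroup A such that, both in A and in G/A, every subgroup containing a Sylow p-subgroup of that group is pronormal in that group. Let T be a Sylow p-subgroup of A. Then every subgroup of G containing a Sylow p-subgroup of G is pronormal in G if and only if (i) every subgroup of N_G(T)/T containing a Sylow p-subgroup of N_G(T)/T is pronormal there, and (ii) for every subgroup H of G containing a Sylow p-subgroup of G, the image of N_G(H) in G/A is the full normalizer of the image of H. (Pronormal: H and gHg⁻¹ are conjugate inside the subgroup they generate, for every g.) -/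
theorem result {G : Type*} [Group G] [Finite G] {p : ℕ} [Fact p.Prime]
    (A : Subgroup G) [A.Normal] (hA : (∀ K : Subgroup ↥A, (∃ P : Sylow p ↥A, (P : Subgroup ↥A) ≤ K) → Cfsg.IsPronormal K)) (hQ : (∀ K : Subgroup (G ⧸ A), (∃ P : Sylow p (G ⧸ A), (P : Subgroup (G ⧸ A)) ≤ K) → Cfsg.IsPronormal K))
    (T : Subgroup G) (hT : ∃ P : Sylow p ↥A, (P : Subgroup ↥A).map A.subtype = T) [(T.subgroupOf (Subgroup.normalizer (T : Set G))).Normal] :
    (∀ K : Subgroup G, (∃ P : Sylow p G, (P : Subgroup G) ≤ K) → Cfsg.IsPronormal K) ↔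
      ((∀ K : Subgroup (↥(Subgroup.normalizer (T : Set G)) ⧸ T.subgroupOf (Subgroup.normalizer (T : Set G))), (∃ P : Sylow p (↥(Subgroup.normalizer (T : Set G)) ⧸ T.subgroupOf (Subgroup.normalizer (T : Set G))), (P : Subgroup (↥(Subgroup.normalizer (T : Set G)) ⧸ T.subgroupOf (Subgroup.normalizer (T : Set G)))) ≤ K) → Cfsg.IsPronormal K) ∧
        ∀ K : Subgroup G, (∃ P : Sylow p G, (P : Subgroup G) ≤ K) →
          (Subgroup.normalizer (K : Set G)).map (QuotientGroup.mk' A) = Subgroup.normalizer ((K.map (QuotientGroup.mk' A) : Subgroup (G ⧸ A)) : Set (G ⧸ A))) := by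
  simp only [exists_sylow_le_iff] at hA hQ ⊢
  obtain ⟨P, hP⟩ := hT
  have hT : IsSylowIn p T A := hP ▸ IsSylowIn.of_sylow P
  have hAn : (⊤ : Subgroup G) ≤ normalizer (A : Set G) := by rw [normalizer_eq_top]
  constructor
  · intro h
    refine ⟨fun K hK => ?_, fun K hK => normalizer_map_eq A (h K hK)⟩
    obtain ⟨S, hS⟩ := hT.isPGroup.exists_le_sylow
    have hST : (S : Subgroup G) ⊓ A = T :=
      hT.eq_of_le S.isPGroup'.to_inf_left inf_le_right (le_inf hS hT.le)
    have hSN : (S : Subgroup G) ≤ normalizer (T : Set G) := fun h hh =>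
      mem_normalizer_of_conj_mem fun x hx => by
        rw [← hST] at hx ⊢
        exact mem_inf.2 ⟨mul_mem (mul_mem hh hx.1) (inv_mem hh),
          (inferInstance : A.Normal).conj_mem x hx.2 h⟩
    have h1 := h ((K.comap (QuotientGroup.mk' _)).map (normalizer (T : Set G)).subtype) (by
      rw [index_map_subtype, index_comap_of_surjective _ (QuotientGroup.mk'_surjective _)]
      exact Nat.Prime.not_dvd_mul Fact.out hK (exists_sylow_le_iff.1 ⟨S, hSN⟩))
    have h2 := isPronormal_subgroupOf (map_subtype_le _) h1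
    rw [subgroupOf, comap_map_eq_self_of_injective (Subgroup.subtype_injective _)] at h2
    have h3 := isPronormal_map (QuotientGroup.mk' (T.subgroupOf (normalizer (T : Set G))))
      (QuotientGroup.mk'_surjective _) h2
    rwa [map_comap_eq_self_of_surjective (QuotientGroup.mk'_surjective _)] at h3
  · rintro ⟨h1, h2⟩ H hH
    have hN : ∀ K : Subgroup (normalizer (T : Set G)), ¬ p ∣ K.index →
        T.subgroupOf _ ≤ K → Cfsg.IsPronormal K := by
      intro K hK hTK
      rw [isPronormal_iff]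
      intro g
      refine PnGood.of_map (QuotientGroup.mk' (T.subgroupOf (normalizer (T : Set G))))
        (by rwa [QuotientGroup.ker_mk']) (isPronormal_iff.1 (h1 _ fun h => hK (h.trans ?_)) _)
      exact index_map_dvd _ (QuotientGroup.mk'_surjective _)
    have key : ∀ a ∈ A, PnGood H a := by
      intro a ha
      obtain ⟨S, hS⟩ := exists_sylow_le_iff.2 hH
      have hT' : IsSylowIn p ((S : Subgroup G) ⊓ A) A :=
        (isSylowIn_top S).inf_of_normalizes le_top hAn
      obtain ⟨t, ht, htc⟩ := hT.exists_conj hT'.isPGroup hT'.le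
      have hT'' : IsSylowIn p ((t • S : Sylow p G) ⊓ A) A :=
        (isSylowIn_top (t • S)).inf_of_normalizes le_top hAn
      have h3 : ((t • S : Sylow p G) : Subgroup G) ⊓ A = T := by
        refine (hT''.eq_of_le hT.isPGroup hT.le fun x hx => ?_).symm
        have := htc (t⁻¹ * x * t) (mem_inf.2 ⟨mem_sylow_smul.1 hx.1,
          mul_mem (mul_mem (inv_mem ht) hx.2) ht⟩)
        simpa [mul_assoc] using this
      have h4 := main A hA T hN (t • S) h3 (H.map (MulAut.conj t).toMonoidHom) (map_mono hS)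
        (t * a * t⁻¹) (mul_mem (mul_mem ht ha) (inv_mem ht))
      have h5 := h4.map (MulAut.conj t⁻¹).toMonoidHom
      rw [map_conj_map_conj, inv_mul_cancel, map_conj_one] at h5
      simpa [mul_assoc] using h5
    rw [isPronormal_iff]
    intro g
    obtain ⟨x, hx, hxg⟩ := PnGood.exists_of_map (QuotientGroup.mk' A) (H := H) (g := g)
      (isPronormal_iff.1 (hQ _ fun h => hH (h.trans
        (index_map_dvd _ (QuotientGroup.mk'_surjective _)))) _)
    refine PnGood.of_mul hx ?_
    rw [← h2 H hH] at hxg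
    obtain ⟨n, hn, hng⟩ := hxg
    have h3 : x⁻¹ * g * n⁻¹ ∈ A := by
      rw [← QuotientGroup.eq_one_iff, QuotientGroup.mk_mul, ← QuotientGroup.mk'_apply, ← hng]
      simp
    simpa using (key _ h3).mul_right hn

end Cfsg.Agent.S4270
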