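import Cfsg.Statements.S4271
import Cfsg.Agent.S4270

set_option autoImplicit false
set_option linter.style.haveILetI false
open Cfsg

namespace Cfsg.Agent.S4271

open Subgroup Cfsg.Agent.H84 Cfsg.Agent.H4 Pointwise

theorem abnormal {G : Type*} [Group G] [Finite G] {p : ℕ} [Fact p.Prime]
    (hQ : ∀ P : Sylow p G, normalizer ((P : Subgroup G) : Set G) = P) (P : Sylow p G)
    (K : Subgroup G) (hK : (P : Subgroup G) ≤ K) (g : G) :
    g ∈ K ⊔ K.map (MulAut.conj g).toMonoidHom := by
  have h1 : IsSylowIn p (P : Subgroup G) (K ⊔ K.map (MulAut.conj g).toMonoidHom) :=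
    IsSylowIn.of_sylow_le P (hK.trans le_sup_left)
  obtain ⟨x, hx, hc⟩ := h1.exists_conj (P.isPGroup'.map (MulAut.conj g).toMonoidHom)
    ((map_mono hK).trans le_sup_right)
  have h2 : x * g ∈ normalizer ((P : Subgroup G) : Set G) :=
    mem_normalizer_of_conj_mem fun y hy => by
      simpa [mul_assoc] using hc _ (conj_mem_map_conj g hy)
  rw [hQ] at h2
  simpa using mul_mem (inv_mem hx) (mem_sup_left (hK h2))


/-- Let p be a prime and G a finite group with a normal subgroup A such that every subgroup of A containing a Sylow p-subgroup of A is pronormal in A, and the Sylow p-subgroups of G/A are self-normalizing. Let T be a Sylow p-subgroup of A. Then every subgroup of G containing a Sylow p-subgroup of G is pronormal in G if and only if every subgroup of N_G(T)/T containing a Sylow p-subgroup of N_G(T)/T is pronormal in N_G(T)/T. (Pronormal: H and gHg⁻¹ are conjugate inside the subgroup they generate, for every g.) -/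
theorem result {G : Type*} [Group G] [Finite G] {p : ℕ} [Fact p.Prime]
    (A : Subgroup G) [A.Normal] (hA : (∀ K : Subgroup ↥A, (∃ P : Sylow p ↥A, (P : Subgroup ↥A) ≤ K) → Cfsg.IsPronormal K))
    (hQ : ∀ P : Sylow p (G ⧸ A), Subgroup.normalizer ((P : Subgroup (G ⧸ A)) : Set (G ⧸ A)) = P)
    (T : Subgroup G) (hT : ∃ P : Sylow p ↥A, (P : Subgroup ↥A).map A.subtype = T) [(T.subgroupOf (Subgroup.normalizer (T : Set G))).Normal] :
    (∀ K : Subgroup G, (∃ P : Sylow p G, (P : Subgroup G) ≤ K) → Cfsg.IsPronormal K) ↔ (∀ K : Subgroup (↥(Subgroup.normalizer (T : Set G)) ⧸ T.subgroupOf (Subgroup.normalizer (T : Set G))), (∃ P : Sylow p (↥(Subgroup.normalizer (T : Set G)) ⧸ T.subgroupOf (Subgroup.normalizer (T : Set G))), (P : Subgroup (↥(Subgroup.normalizer (T : Set G)) ⧸ T.subgroupOf (Subgroup.normalizer (T : Set G)))) ≤ K) → Cfsg.IsPronormal K) := by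
  rw [S4270.result A hA ?_ T hT]
  · refine ⟨fun h => h.1, fun h => ⟨h, fun K hK => ?_⟩⟩
    refine le_antisymm (le_normalizer_map _) fun g hg => ?_
    obtain ⟨P, hP⟩ := hK
    have := abnormal hQ (P.mapSurjective (QuotientGroup.mk'_surjective A))
      (K.map (QuotientGroup.mk' A)) (map_mono hP) g
    rw [map_conj_eq_iff.2 hg, sup_idem] at this
    exact map_mono le_normalizer this
  · rintro K ⟨P, hP⟩
    rw [isPronormal_iff]
    intro g
    exact ⟨g, abnormal hQ P K hP g, by simp⟩

end Cfsg.Agent.S4271
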