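import Cfsg.Statements.S4293
import Cfsg.Agent.H84.FrobFpf

set_option autoImplicit false
open Cfsg

namespace Cfsg.Agent.S4293

/-- A nontrivial finite subgroup of the multiplicative group of a division ring occurs as a Frobenius complement of some finite Frobenius group. -/
theorem result {D : Type*} [DivisionRing D] (H : Subgroup Dˣ) [Finite H] (hH : H ≠ ⊥) :
    ∃ (L : Type) (_ : Group L) (_ : Finite L) (C : Subgroup L), Cfsg.IsFrobeniusComplement C ∧ Nonempty (H ≃* C) := by
  haveI : Nontrivial H := (Subgroup.nontrivial_iff_ne_bot H).2 hH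
  apply H84.exists_frob_of_fpf_distrib (M := D)
  intro c hc v hv
  by_contra hv0
  apply hc
  have : ((c : Dˣ) : D) * v = v := hv
  have h2 : ((c : Dˣ) : D) = 1 := mul_right_cancel₀ hv0 (by rw [this, one_mul])
  exact Subtype.ext (Units.ext h2)

end Cfsg.Agent.S4293
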