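import Cfsg.Statements.S4294
import Cfsg.Agent.H66.DivMain
import Cfsg.Agent.S3359
import Cfsg.Agent.S4293

set_option autoImplicit false
open Cfsg

namespace Cfsg.Agent.S4294


/-- A finite non-solvable subgroup of the multiplicative group of a division ring is isomorphic to the binary icosahedral group SL(2,5). -/
theorem result {D : Type*} [DivisionRing D] (H : Subgroup Dˣ) [Finite H] (hH : ¬ Group.IsSolvable H) :
    Nonempty (H ≃* Matrix.SpecialLinearGroup (Fin 2) (ZMod 5)) := by
  have hne : H ≠ ⊥ := by
    rintro rfl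
    exact hH inferInstance
  obtain ⟨G₀, -, hi, S, M, hSM, -, hc, ⟨e⟩, -, h30⟩ := S3359.result hH (S4293.result H hne)
  let φ : H →* D := (Units.coeHom D).comp H.subtype
  have hφ : Function.Injective φ := Units.val_injective.comp H.subtype_injective
  let f : H66.Div.SL5 →* H := S.subtype.comp e.symm.toMonoidHom
  have hf : Function.Injective f := S.subtype_injective.comp e.symm.injective
  have hr : f.range = S := by
    ext x
    constructor
    · rintro ⟨y, rfl⟩
      exact (e.symm y).2
    · intro hx
      exact ⟨e ⟨x, hx⟩, by simp [f]⟩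
  have hM : M = ⊥ := by
    by_contra hn
    have h1 : Nat.card M ≠ 1 := fun h => hn (Subgroup.card_eq_one.1 h)
    obtain ⟨p, hp, hpd⟩ := Nat.exists_prime_and_dvd h1
    haveI : Fact p.Prime := ⟨hp⟩
    obtain ⟨m, hm⟩ := exists_prime_orderOf_dvd_card' p hpd
    refine H66.Div.no_cent (φ.comp f) (hφ.comp hf) (m := φ m) hp (h30.coprime_dvd_left hpd) ?_ ?_ ?_
    · rw [← map_pow, ← Subgroup.coe_pow, ← hm, pow_orderOf_eq_one]; simp
    · intro h
      have h2 : m = 1 := Subtype.ext (hφ (h.trans φ.map_one.symm))
      rw [h2, orderOf_one] at hm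
      exact hp.one_lt.ne hm
    · intro x
      show φ m * φ (f x) = φ (f x) * φ m
      rw [← map_mul, ← map_mul, hc (f x) (e.symm x).2 m m.2]
  rw [hM, sup_bot_eq] at hSM
  subst hSM
  rcases hi with hi | hi
  · rw [Subgroup.index_eq_one] at hi
    subst hi
    exact ⟨Subgroup.topEquiv.symm.trans e⟩
  · exact (H66.Div.no_index_two φ hφ f hf (hr.symm ▸ hi)).elim

end Cfsg.Agent.S4294
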