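import Cfsg.Statements.S4304
import Cfsg.Agent.S4236

set_option autoImplicit false
set_option linter.style.haveILetI false
open Cfsg

namespace Cfsg.Agent.S4304

/-- No finite group has exactly 15 Sylow 7-subgroups. -/
theorem result {G : Type*} [Group G] [Finite G] : Nat.card (Sylow 7 G) ≠ 15 := by
  intro h
  haveI : Fact (Nat.Prime 7) := ⟨by norm_num⟩
  obtain ⟨l, hl, hm⟩ := S4303.result (G := G) 7
  rw [h] at hl
  have h15 : 15 ∈ l := by
    apply S4236.exists_mem_dvd_of_prod hl (by norm_num)
    intro m hml
    have h1 : m ∣ 15 := hl ▸ List.dvd_prod hml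
    have h2 : m % 7 = 1 := by
      rcases hm m hml with h2 | ⟨S, _, _, _, rfl⟩
      · exact h2.2
      · exact card_sylow_modEq_one 7 S
    have h3 := Nat.le_of_dvd (by norm_num) h1
    revert h1 h2; interval_cases m <;> decide
  rcases hm 15 h15 with h2 | ⟨S, _, _, _, h2⟩
  · exact absurd h2.1 (by decide +kernel)
  · obtain ⟨e, he0, he1, he2, he3⟩ := H84.simple_two_mul_add_one (G := S) (p := 7) (by norm_num)
      h2.symm
    have h3 := Nat.le_of_dvd (by norm_num) he1
    have he : e = 3 := by
      revert he1 he2 he3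
      interval_cases e <;> decide
    subst he
    haveI : Fact (Nat.Prime 5) := ⟨by norm_num⟩
    obtain ⟨n, e, -, -, -, h4, h5, h6⟩ := H35.simple_prime_sylow (G := S) (p := 5) (m := 63)
      (by rw [he0]) (by norm_num) (by norm_num)
    have h7 : e ∣ 63 := (Dvd.intro_left _ rfl).trans h6
    have h8 := Nat.le_of_dvd (by norm_num) h5
    revert h4 h5 h7
    interval_cases e <;> decide

end Cfsg.Agent.S4304
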