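import Cfsg.Statements.S4310
import Cfsg.Agent.H84.OddCoprime
import Cfsg.Agent.H4.Basic

set_option autoImplicit false
set_option linter.style.haveILetI false
open Cfsg

namespace Cfsg.Agent.S4310

open Subgroup Cfsg.Agent.H84 Cfsg.Agent.H1 Pointwise


/-- Let `π` be a set of primes and `A` a normal subgroup of the finite group `G`. Suppose `A` has a Hall `π`-subgroup and all Hall `π`-subgroups of `A` are conjugate in `A`, and likewise for `G/A`. Then `G` has a Hall `π`-subgroup and all Hall `π`-subgroups of `G` are conjugate. (The conjugacy of complements of coprime order that the usual proof uses rests, in general, on the odd order Theorem.) -/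
theorem result {G : Type*} [Group G] [Finite G] (π : Set ℕ) (A : Subgroup G) [A.Normal]
    (hA : Cfsg.IsCPiGroup π ↥A) (hQ : Cfsg.IsCPiGroup π (G ⧸ A)) : Cfsg.IsCPiGroup π G := by
  obtain ⟨⟨H₀, hH₀⟩, hA2⟩ := hA
  rw [← hallProp_true_iff] at hQ ⊢
  rw [← hall_iff_isPiHall] at hH₀
  set H₁ := H₀.map A.subtype with hH₁
  set N := normalizer (H₁ : Set G) with hN
  have hAn : A.Normal := inferInstance
  -- every Hall subgroup of `A` is conjugate to `H₀`
  have hconj : ∀ K : Subgroup G, Hall π (K.subgroupOf A) → ∃ a ∈ A,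
      ∀ x ∈ A, x ∈ K ↔ a⁻¹ * x * a ∈ H₁ := by
    intro K hK
    obtain ⟨a, ha⟩ := hA2 H₀ _ (hall_iff_isPiHall.1 hH₀) (hall_iff_isPiHall.1 hK)
    refine ⟨a, a.2, fun x hx => ?_⟩
    have h1 : (⟨x, hx⟩ : A) ∈ K.subgroupOf A ↔ a⁻¹ * ⟨x, hx⟩ * a ∈ H₀ := by
      rw [ha, H4.mem_map_conj]
    rw [mem_subgroupOf] at h1
    rw [h1]
    exact ⟨fun h => ⟨_, h, rfl⟩, fun ⟨y, hy, h⟩ => by
      rwa [show a⁻¹ * ⟨x, hx⟩ * a = y from Subtype.ext h.symm]⟩
  have hH₁A : H₁ ≤ A := map_subtype_le _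
  have hfr : ∀ g : G, ∃ a ∈ A, a⁻¹ * g ∈ N := by
    intro g
    obtain ⟨a, ha, h⟩ := hconj (H₁.map (MulAut.conj g).toMonoidHom) (hH₀.of_card_eq (by
      rw [H2.card_subgroupOf_of_le, H4.card_map_conj, card_map_of_injective A.subtype_injective]
      rintro _ ⟨y, hy, rfl⟩
      exact hAn.conj_mem y (hH₁A hy) g))
    refine ⟨a, ha, H4.mem_normalizer_of_conj_mem fun x hx => ?_⟩
    have := (h _ (hAn.conj_mem x (hH₁A hx) g)).1 (H4.conj_mem_map_conj g hx)
    simpa [mul_assoc] using this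
  have hsurj : Function.Surjective ((QuotientGroup.mk' A).comp N.subtype) := by
    intro g
    obtain ⟨g, rfl⟩ := QuotientGroup.mk'_surjective A g
    obtain ⟨a, ha, h⟩ := hfr g
    exact ⟨⟨_, h⟩, by simp [(QuotientGroup.eq_one_iff a).2 ha]⟩
  have hker : ((QuotientGroup.mk' A).comp N.subtype).ker = A.subgroupOf N := by
    rw [← MonoidHom.comap_ker, QuotientGroup.ker_mk']; rfl
  have hi : H₁.relIndex A = H₀.index := by
    rw [relIndex, hH₁, subgroupOf, comap_map_eq_self_of_injective A.subtype_injective]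
  have h1 : HallProp True π (N ⧸ A.subgroupOf N) := hQ.of_equiv
    ((QuotientGroup.quotientMulEquivOfEq hker.symm).trans
      (QuotientGroup.quotientKerEquivOfSurjective _ hsurj)).symm
  haveI : (H₁.subgroupOf N).Normal := normal_in_normalizer
  have h2 : HallProp True π (N ⧸ H₁.subgroupOf N) := by
    refine h1.of_le (comap_mono hH₁A) (Or.inr (PiNum.of_dvd hH₀.2 ?_))
    change (H₁.subgroupOf N).relIndex (A.subgroupOf N) ∣ _
    rw [← inf_subgroupOf_right A N, relIndex_subgroupOf inf_le_right, ← hi]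
    exact Dvd.intro _ (relIndex_mul_relIndex H₁ (A ⊓ N) A (le_inf hH₁A le_normalizer) inf_le_left)
  have h3 : HallProp True π N := by
    refine HallProp.of_quotient _ (Or.inl ?_) h2
    rw [H2.card_subgroupOf_of_le le_normalizer, card_map_of_injective A.subtype_injective]
    exact hH₀.1
  have hNi : PiNum πᶜ N.index := by
    refine PiNum.of_dvd hH₀.2 ?_
    have h4 : N ⊔ A = ⊤ := eq_top_iff.2 fun g _ => by
      obtain ⟨a, ha, h⟩ := hfr g
      simpa using mul_mem (mem_sup_right ha : a ∈ N ⊔ A) (mem_sup_left h)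
    have h5 : N.relIndex A = N.index := by
      have h6 := relIndex_mul_index (inf_le_right : N ⊓ A ≤ A)
      have h7 := relIndex_mul_index (inf_le_left : N ⊓ A ≤ N)
      rw [inf_relIndex_right] at h6
      rw [inf_relIndex_left, ← relIndex_sup_right N A, h4, relIndex_top_right, ← h6,
        mul_comm] at h7
      exact (Nat.eq_of_mul_eq_mul_right (Nat.pos_of_ne_zero index_ne_zero_of_finite) h7).symm
    rw [← h5, ← hi]
    exact relIndex_dvd_of_le_left A le_normalizer
  obtain ⟨⟨L, hL⟩, h4⟩ := h3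
  have hL' : Hall π (L.map N.subtype) := by
    refine ⟨?_, ?_⟩
    · rw [card_map_of_injective N.subtype_injective]; exact hL.1
    · rw [index_map_subtype]; exact PiNum.mul (π := πᶜ) hL.2 hNi
  have h5 : ∀ K : Subgroup G, Hall π K → ∃ a : G, MulAut.conj a • K ≤ N ∧
      Hall π ((MulAut.conj a • K).subgroupOf N) := by
    intro K hK
    obtain ⟨a, ha, h⟩ := hconj K (hall_subgroupOf_normal hK A)
    have h6 : MulAut.conj a⁻¹ • K ≤ N := by
      rintro _ ⟨k, hk, rfl⟩
      refine H4.mem_normalizer_of_conj_mem fun x hx => ?_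
      have h7 : a * x * a⁻¹ ∈ A := mul_mem (mul_mem ha (hH₁A hx)) (inv_mem ha)
      have h8 : a * x * a⁻¹ ∈ K := (h _ h7).2 (by simpa [mul_assoc] using hx)
      have := (h _ (hAn.conj_mem _ h7 k)).1 (mul_mem (mul_mem hk h8) (inv_mem hk))
      simpa [mul_assoc] using this
    refine ⟨a⁻¹, h6, hL.of_card_eq ?_⟩
    rw [H2.card_subgroupOf_of_le h6, card_conj_smul, hK.card_eq hL',
      card_map_of_injective N.subtype_injective]
  refine ⟨⟨_, hL'⟩, fun H K hH _ hK => ?_⟩
  obtain ⟨a, -, ha⟩ := h5 H hH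
  obtain ⟨b, hb', hb⟩ := h5 K (hK trivial)
  obtain ⟨g, hg⟩ := h4 _ _ ha hb.1 fun _ => hb
  refine ⟨b⁻¹ * g * a, fun k hk => ?_⟩
  have h6 : b * k * b⁻¹ ∈ MulAut.conj b • K := ⟨k, hk, rfl⟩
  have := H2.mem_conj_smul.1 (mem_subgroupOf.1 (hg ⟨_, hb' h6⟩ h6))
  simpa [mul_assoc] using this

end Cfsg.Agent.S4310
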