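import Cfsg.Statements.S4321
import Cfsg.Agent.H6.CSGraph
import Cfsg.Agent.H1.Product

set_option autoImplicit false
open Cfsg

namespace Cfsg.Agent.S4321

open Subgroup Cfsg.Agent.H49 Cfsg.Agent.H83 Cfsg.Agent.H6
open scoped Pointwise

section
variable {G : Type*} [Group G] [Finite G]

theorem exists_stab (y : G) : ∃ K : Subgroup G, K.Normal ∧ Nat.card K ∣ cs(y) ∧
    ∀ x : G, cs(x).Coprime cs(y) → cs(x * y) ≤ cs(y) → ∀ g, x⁻¹ * (g * x * g⁻¹) ∈ K := by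
  let S : G → Set G := fun y => {u | IsConj y u}
  have hS : ∀ y, (S y).ncard = cs(y) := fun y => card_isConj y
  have hm : ∀ k, k ∈ MulAction.stabilizer G (S y) ↔ ∀ u, IsConj y u → IsConj y (k * u) := fun k =>
    MulAction.mem_stabilizer_set' (Set.toFinite _)
  refine ⟨MulAction.stabilizer G (S y), ⟨fun k hk g => (hm _).2 fun u hu => ?_⟩, hS y ▸
    H91.card_dvd_ncard_free _ (fun k u hu => (hm _).1 k.2 u hu)
      fun k u _ e => Subtype.ext (mul_eq_right.1 e), fun x hx hy g => ?_⟩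
  · exact ((hm k).1 hk _ (hu.trans (isConj_iff.2 ⟨g⁻¹, rfl⟩))).trans
      (isConj_iff.2 ⟨g, by group⟩)
  have key : ∀ g, (g * x * g⁻¹) • S y = S (x * y) := fun g => Set.eq_of_subset_of_ncard_le (by
      rintro _ ⟨u, hu, rfl⟩
      obtain ⟨k, rfl⟩ := isConj_iff.1 hu
      obtain ⟨c, h1, h2⟩ := exists_conj_pair hx g k
      exact isConj_iff.2 ⟨c, by simp only [smul_eq_mul]; rw [h1, h2]; group⟩)
    (by rw [Set.ncard_smul_set, hS, hS]; exact hy)
  have h1 := key 1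
  rw [one_mul, inv_one, mul_one] at h1
  rw [MulAction.mem_stabilizer_iff, mul_smul, key, ← h1, inv_smul_smul]

theorem cover {O T : Subgroup G} [O.Normal]
    (h : ∀ w ∈ O, w ∉ 𝒞(O) → ∃ n ∈ O, n⁻¹ * w * n ∈ 𝒞(T)) : O ≤ 𝒞(O) ∨ O ≤ 𝒞(T) := by
  have h1 : O ≤ 𝒞(O) ⊔ 𝒞(T) := subgroupOf_eq_top.1 (eq_top_of_forall_conj_mem fun w => by
    by_cases h1 : (w : G) ∈ 𝒞(O)
    · exact ⟨1, mem_sup_left (by simpa using h1)⟩
    · obtain ⟨n, hn, h2⟩ := h w w.2 h1
      exact ⟨⟨n, hn⟩⁻¹, mem_sup_right (by simpa using h2)⟩)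
  have h2 : ∀ w ∈ O, w ∉ 𝒞(O) → w ∈ 𝒞(T) := fun w hw h2 => by
    obtain ⟨n, hn, h3⟩ := h w hw h2
    obtain ⟨a, ha, c, hc, rfl⟩ := (mem_sup_of_norm_left (norm_cent le_normalizer_of_normal)).1
      (h1 hn)
    have h4 := mul_mem (mul_mem hc h3) (inv_mem hc)
    rwa [show c * ((a * c)⁻¹ * w * (a * c)) * c⁻¹ = a⁻¹ * (w * a) by group, ha w hw,
      inv_mul_cancel_left] at h4
  refine or_iff_not_imp_left.2 fun h3 x hx => ?_
  obtain ⟨w, hw, h3⟩ := SetLike.not_le_iff_exists.1 h3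
  by_cases h4 : x ∈ 𝒞(O)
  · simpa using mul_mem (inv_mem (h2 w hw h3)) (h2 _ (mul_mem hw hx) fun e => h3 (by
      simpa using mul_mem e (inv_mem h4)))
  · exact h2 x hx h4

variable {p : ℕ} [hp : Fact p.Prime]

omit [Finite G] in
theorem piElt {w : G} (hw : orderOf w = p) : IsPiElt {p} w := by
  rw [IsPiElt, hw]; exact (isPiNat_prime (π := {p}) hp.out).2 rfl

theorem commute_of_coprime {u w : G} (hu : IsPiElt {p} u) (hw : ¬ p ∣ cs(w))
    (h : cs(u).Coprime cs(w)) : Commute u w := by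
  obtain ⟨P, hP⟩ := not_dvd_index_iff.1 hw
  obtain ⟨g, -, hg⟩ := sylowOf_subJ (sylowOf_top hp.out P) le_top (isPi_zpowers.2 hu)
  exact commute_of_conj h (mem_cent1.1 (hP (hg (conj_mem_cj.2 (mem_zpowers u)))))

theorem bad_case {w w' : G} (hw : orderOf w = p) (hw' : orderOf w' = p) (hZ : w ∉ center G)
    (hc : cs(w).Coprime cs(w')) (hle : cs(w * w') ≤ cs(w')) : p ∣ cs(w') ∧
      ∃ (g : G) (t : ℕ), p ∣ orderOf g ∧ t.Prime ∧ t ∣ cs(w) ∧ t ∣ cs(g) ∧ p ∣ cs(g) := by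
  have hwp : IsPiElt {p} w := (piElt hw)
  obtain ⟨K, _, h1, h2⟩ := exists_stab w'
  replace h2 := h2 w hc hle
  have hK : K ≤ 𝒞[w] := le_of_normal_pi (isPi_primesOf K) fun r hr h3 h4 =>
    hr.one_lt.ne' (Nat.eq_one_of_dvd_coprimes hc h3 (h4.2.trans h1))
  have hp' : p ∣ cs(w') := by
    obtain ⟨g, hg⟩ : ∃ g, w⁻¹ * (g * w * g⁻¹) ≠ 1 := by
      by_contra! h
      exact hZ (mem_center_iff.2 fun g => mul_inv_eq_iff_eq_mul.1 (inv_mul_eq_one.1 (h g)).symm)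
    have h3 : Commute w⁻¹ (g * w * g⁻¹) := by
      have := mem_cent1.1 (hK (h2 g))
      refine (Commute.inv_left_iff).2 (mul_left_cancel (a := w⁻¹) ?_)
      rw [← mul_assoc, ← mul_assoc w⁻¹, this]; group
    have h4 : (w⁻¹ * (g * w * g⁻¹)) ^ p = 1 := by
      rw [h3.mul_pow, conj_pow, inv_pow, ← hw, pow_orderOf_eq_one]; simp
    rw [← orderOf_eq_prime h4 hg]
    exact (K.orderOf_dvd_natCard (h2 g)).trans h1
  refine ⟨hp', by_contra fun h => ?_⟩
  have hpw : ¬ p ∣ cs(w) := fun e => hp.out.one_lt.ne' (Nat.eq_one_of_dvd_coprimes hc e hp')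
  have h3 : ∀ g, p ∣ orderOf g → p ∣ cs(g) → cs(g).Coprime cs(w) := fun g h4 h5 =>
    Nat.coprime_of_dvd fun t ht h6 h7 => h ⟨g, t, h4, ht, h7, h6, h5⟩
  have h4 : ∀ P : Sylow p G, w ∈ P.1 := fun P => by
    have h5 : (zpowers w ⊔ K).Normal := normal_iff_top_le_norm.2 fun g _ => mem_norm_of_cj_le (by
      rw [cj_sup, cj_zpowers, cj_eq_of_mem_norm (X := K) (le_normalizer_of_normal (mem_top g))]
      refine sup_le (zpowers_le.2 ?_) le_sup_right
      simpa using mul_mem_sup (mem_zpowers w) (h2 g))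
    exact (sylowOf_top hp.out P).normal_le le_top (norm_piCoreOf _ le_normalizer_of_normal)
      (piCoreOf_pi _ _) (le_piCoreOf (H := zpowers w ⊔ K) le_sup_left (norm_of_cent (by
        rw [cent_zpowers]; exact sup_le (zpowers_le_cent w) hK)) (isPi_zpowers.2 hwp)
        (mem_zpowers w))
  have hdvd : ∀ u : G, IsPiElt {p} u → u ≠ 1 → p ∣ orderOf u := fun u hu u1 => by
    obtain ⟨r, hr, h5⟩ := Nat.exists_prime_and_dvd (mt orderOf_eq_one_iff.1 u1)
    exact (hu r hr h5 : r = p) ▸ h5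
  have h5 : ∀ P : Sylow p G, P.1 ≤ 𝒞[w] := fun P u hu => by
    have h6 := (sylowOf_top hp.out P).pi.elt hu
    by_cases u1 : u = 1
    · exact u1 ▸ one_mem _
    by_cases h7 : p ∣ cs(u)
    · exact mem_cent1.2 (commute_of_coprime h6 hpw (h3 u (hdvd u h6 u1) h7))
    · obtain ⟨Q, hQ⟩ := not_dvd_index_iff.1 h7
      exact mem_cent1_comm.1 (hQ (h4 Q))
  obtain ⟨P⟩ : Nonempty (Sylow p G) := inferInstance
  have hP := sylowOf_top hp.out P
  have h6 : 𝒞[w] ≤ P.1 ⊔ 𝒞(P.1) := by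
    have h7 := H8.sylow_sup_cent_eq_top (G := 𝒞[w]) (fun y hy e => by
      have h7 : Commute w y := (mem_cent1.1 y.2).symm
      have h8 : (orderOf w).Coprime (orderOf (y : G)) := by rw [hw, orderOf_coe]; exact hy.symm
      have h9 := H8.cs_mul_of_coprime h7 h8
      have h10 := h3 (w * y) (by rw [h7.orderOf_mul_eq_mul_orderOf_of_coprime h8, hw]; simp)
        (by rw [h9, ← cs_subgroup]; exact e.mul_right _)
      rw [h9] at h10
      exact hZ (cs_eq_one_iff.1 (Nat.eq_one_of_dvd_coprimes h10 (dvd_mul_left _ _) dvd_rfl))) (P.subtype (h5 P))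
    intro g hg
    obtain ⟨a, ha, c, hc, e⟩ := (mem_sup_of_norm_left (cent_le_norm _)).1 (h7.ge (mem_top ⟨g, hg⟩))
    rw [show g = a * c from congrArg Subtype.val e]
    exact mul_mem_sup ha fun v hv => congrArg Subtype.val (hc ⟨v, h5 P hv⟩ hv)
  have : P.1.Normal := normal_iff_top_le_norm.2 fun g _ => mem_norm_of_cj_le
    ((hP.sub (h5 P) le_top).le_of_normal (h6.trans (sup_le le_normalizer (cent_le_norm _)))
      (h5 (g • P)) (hP.pi.cj g))
  obtain ⟨T, hT⟩ := exists_hall_compl hP le_normalizer_of_normal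
  have hS := hP.isSdp le_normalizer_of_normal hT
  rcases cover (O := P.1) (T := T) fun u hu h7 => by
    have h8 : p ∣ cs(u) := by_contra fun e => by
      obtain ⟨Q, hQ⟩ := not_dvd_index_iff.1 e
      exact h7 (le_cent1_iff.1 (((sylowOf_top hp.out Q).normal_le le_top le_normalizer_of_normal
        hP.pi).trans hQ))
    have h9 := (isProd_cent (h3 u (hdvd u (hP.pi.elt hu) fun e => h7 (e ▸ one_mem _)) h8)).sup_eq
    obtain ⟨n, hn, h1⟩ := sz_subJ (A := T) (N := P.1) (H := 𝒞[u]) le_normalizer_of_normal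
      (hT.pi.coprime' hP.pi) (.inr (solvable_of_nilpotent hP.pi.nilpotent)) le_normalizer_of_normal
      (le_top.trans (h9.ge.trans (sup_le le_sup_right
        (h6.trans (sup_le_sup_left (cent_le_cent1 hu) _)))))
    refine ⟨n, hn, le_cent1_iff.1 (cj_le_iff.1 h1 |>.trans ?_)⟩
    rw [cj_cent1, inv_inv]
    with h7 | h7
  · exact not_dvd_index_iff.2 ⟨P, h7.trans (cent_le_cent1 (hP.mem_of_normal le_normalizer_of_normal
      trivial (piElt hw')))⟩ hp'
  · apply hZ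
    rw [← centralizer_univ, ← coe_top, ← hS.1, cent_sup]
    exact ⟨le_cent1_iff.1 (h5 P), h7 (h4 P)⟩

theorem link {w w' : G} (hw : orderOf w = p) (hw' : orderOf w' = p) (hZ : w ∉ center G)
    (hZ' : w' ∉ center G) : ∃ (g : G) (t u : ℕ), p ∣ orderOf g ∧ t.Prime ∧ u.Prime ∧
      t ∣ cs(w) ∧ u ∣ cs(w') ∧ t ∣ cs(g) ∧ u ∣ cs(g) := by
  by_cases hc : cs(w).Coprime cs(w')
  swap
  · obtain ⟨t, ht, h1, h2⟩ := Nat.Prime.not_coprime_iff_dvd.1 hc
    exact ⟨w, t, t, hw ▸ dvd_rfl, ht, ht, h1, h2, h1, h1⟩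
  have h1 : Commute w w' := by
    by_cases h : p ∣ cs(w')
    · exact (commute_of_coprime (piElt hw')
        (fun e => hp.out.one_lt.ne' (Nat.eq_one_of_dvd_coprimes hc e h)) hc.symm).symm
    · exact commute_of_coprime (piElt hw) h hc
  have h2 : cs(w * w') ∣ cs(w) * cs(w') := by
    rw [← H1.index_inf_of_coprime _ _ hc]
    exact index_dvd_of_le fun g hg =>
      mem_cent1.2 (Commute.mul_right (mem_cent1.1 hg.1) (mem_cent1.1 hg.2))
  have h0 := Nat.mul_pos (cs_pos w) (cs_pos w')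
  by_cases h3 : cs(w * w').Coprime cs(w)
  · obtain ⟨h4, g, t, h5, h6, h7, h8, h9⟩ := bad_case hw hw' hZ hc
      (Nat.le_of_dvd (cs_pos _) (h3.dvd_of_dvd_mul_left h2))
    exact ⟨g, t, p, h5, h6, hp.out, h7, h4, h8, h9⟩
  by_cases h4 : cs(w * w').Coprime cs(w')
  · obtain ⟨h4, g, t, h5, h6, h7, h8, h9⟩ := bad_case hw' hw hZ' hc.symm
      (h1.eq ▸ Nat.le_of_dvd (cs_pos _) (h4.dvd_of_dvd_mul_right h2))
    exact ⟨g, p, t, h5, hp.out, h6, h4, h7, h9, h8⟩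
  obtain ⟨t, ht, h5, h6⟩ := Nat.Prime.not_coprime_iff_dvd.1 h3
  obtain ⟨u, hu, h7, h8⟩ := Nat.Prime.not_coprime_iff_dvd.1 h4
  refine ⟨w * w', t, u, ?_, ht, hu, h6, h8, h5, h7⟩
  have h9 : (w * w') ^ p = 1 := by
    rw [h1.mul_pow, ← hw, pow_orderOf_eq_one, hw, ← hw', pow_orderOf_eq_one, one_mul]
  rw [orderOf_eq_prime h9 fun e => h3 (by rw [e, cs_one]; simp)]

end

/-- equal or adjacent -/
def R (G : Type*) [Group G] (p a b : ℕ) : Prop := a = b ∨ ∃ x : G, p ∣ orderOf x ∧ a * b ∣ cs(x)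

theorem R.of_dvd {G : Type*} [Group G] {p a b : ℕ} (ha : a.Prime) (hb : b.Prime) {g : G}
    (h : p ∣ orderOf g) (h1 : a ∣ cs(g)) (h2 : b ∣ cs(g)) : R G p a b :=
  (eq_or_ne a b).imp_right fun e =>
    ⟨g, h, ((Nat.coprime_primes ha hb).2 e).mul_dvd_of_dvd_of_dvd h1 h2⟩

/-- Let `G` be a finite group and `p` a prime not dividing the order of the centre of `G`. Consider the primes dividing the size of some conjugacy class of a `p`-singular element (an element of order divisible by `p`), two of them adjacent when their product divides such a class size. Then any two distinct such primes are joined by a path with at most 3 edges (the graph is connected of diameter at most 3). -/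
theorem result {G : Type*} [Group G] [Finite G] (p : ℕ) [Fact p.Prime]
    (hZ : ¬ p ∣ Nat.card ↥(Subgroup.center G)) (r s : ℕ) (hr : (r.Prime ∧ ∃ x : G, p ∣ orderOf x ∧ r ∣ (Subgroup.centralizer ({x} : Set G)).index)) (hs : (s.Prime ∧ ∃ x : G, p ∣ orderOf x ∧ s ∣ (Subgroup.centralizer ({x} : Set G)).index)) (hrs : r ≠ s) :
    (∃ x : G, p ∣ orderOf x ∧ r * s ∣ (Subgroup.centralizer ({x} : Set G)).index) ∨ (∃ t : ℕ, (t.Prime ∧ ∃ x : G, p ∣ orderOf x ∧ t ∣ (Subgroup.centralizer ({x} : Set G)).index) ∧ t ≠ r ∧ t ≠ s ∧ (∃ x : G, p ∣ orderOf x ∧ r * t ∣ (Subgroup.centralizer ({x} : Set G)).index) ∧ (∃ x : G, p ∣ orderOf x ∧ t * s ∣ (Subgroup.centralizer ({x} : Set G)).index)) ∨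
      (∃ t u : ℕ, (t.Prime ∧ ∃ x : G, p ∣ orderOf x ∧ t ∣ (Subgroup.centralizer ({x} : Set G)).index) ∧ (u.Prime ∧ ∃ x : G, p ∣ orderOf x ∧ u ∣ (Subgroup.centralizer ({x} : Set G)).index) ∧ t ≠ r ∧ u ≠ s ∧ t ≠ u ∧ (∃ x : G, p ∣ orderOf x ∧ r * t ∣ (Subgroup.centralizer ({x} : Set G)).index) ∧ (∃ x : G, p ∣ orderOf x ∧ t * u ∣ (Subgroup.centralizer ({x} : Set G)).index) ∧ (∃ x : G, p ∣ orderOf x ∧ u * s ∣ (Subgroup.centralizer ({x} : Set G)).index)) := by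
  obtain ⟨hr, x, hx, hrx⟩ := hr
  obtain ⟨hs, y, hy, hsy⟩ := hs
  have hw := orderOf_pow_orderOf_div (orderOf_pos x).ne' hx
  have hw' := orderOf_pow_orderOf_div (orderOf_pos y).ne' hy
  obtain ⟨g, t, u, hg, ht, hu, h1, h2, h3, h4⟩ := link hw hw'
    (fun e => hZ (hw ▸ (center G).orderOf_dvd_natCard e))
    (fun e => hZ (hw' ▸ (center G).orderOf_dvd_natCard e))
  have a := R.of_dvd hr ht hx hrx (h1.trans (cs_dvd_of_mem_zpowers (npow_mem_zpowers x _)))
  have b := R.of_dvd ht hu hg h3 h4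
  have c := R.of_dvd hu hs hy (h2.trans (cs_dvd_of_mem_zpowers (npow_mem_zpowers y _))) hsy
  by_cases h' : R G p r s
  · exact .inl (h'.resolve_left hrs)
  right
  by_cases h5 : R G p r u
  · exact .inl ⟨u, ⟨hu, g, hg, h4⟩, fun e => h' (e ▸ c), fun e => h' (e ▸ h5),
      h5.resolve_left fun e => h' (e ▸ c), c.resolve_left fun e => h' (e ▸ h5)⟩
  by_cases h6 : R G p t s
  · exact .inl ⟨t, ⟨ht, g, hg, h3⟩, fun e => h' (e ▸ h6), fun e => h' (e ▸ a),
      a.resolve_left fun e => h' (e ▸ h6), h6.resolve_left fun e => h' (e ▸ a)⟩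
  exact .inr ⟨t, u, ⟨ht, g, hg, h3⟩, ⟨hu, g, hg, h4⟩, fun e => h5 (e ▸ b), fun e => h6 (e ▸ b),
    fun e => h5 (e ▸ a), a.resolve_left fun e => h5 (e ▸ b), b.resolve_left fun e => h5 (e ▸ a),
    c.resolve_left fun e => h6 (e ▸ b)⟩

end Cfsg.Agent.S4321
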