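import Cfsg.Statements.S4330
import Cfsg.Agent.H79.Orb4
import Cfsg.Agent.H44.Cores
import Cfsg.Agent.H2.MinNormal
import Cfsg.Agent.S0064

set_option autoImplicit false
open Pointwise
open Cfsg

namespace Cfsg.Agent.S4330


open Subgroup

universe u

/-- Conjugation action on a normal abelian subgroup. -/
@[reducible] def cjAct {G : Type u} [Group G] (V : Subgroup G) [V.Normal] :
    DistribMulAction G (Additive V) where
  smul g v := Additive.ofMul (MulAut.conjNormal g v.toMul)
  one_smul v := by change Additive.ofMul (MulAut.conjNormal 1 v.toMul) = v; simp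
  mul_smul a b v := by
    change Additive.ofMul (MulAut.conjNormal (a * b) v.toMul) =
      Additive.ofMul (MulAut.conjNormal a (MulAut.conjNormal b v.toMul))
    simp
  smul_zero g := congrArg Additive.ofMul (map_one (MulAut.conjNormal g : MulAut V))
  smul_add g a b := congrArg Additive.ofMul (map_mul (MulAut.conjNormal g : MulAut V) a.toMul b.toMul)

theorem aux {p : ℕ} [hp : Fact p.Prime] (hp2 : p ≠ 2) (n : ℕ) : ∀ (G : Type u) [Group G] [Finite G]
    [Group.IsSolvable G], Nat.card G = n → ∀ A : Subgroup G, IsPGroup p A →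
    (∀ c : G, ∃ g : G, IsConj c g ∧ ∃ O : Subgroup G, IsPGroup p O ∧ A ≤ O ∧
      MulAut.conj g • A ≤ normalizer (O : Set G)) → A ≤ pCore p G := by
  induction n using Nat.strong_induction_on with
  | _ n ih =>
  intro G _ _ _ hn A hA h
  rcases subsingleton_or_nontrivial G with hG | hG
  · exact fun x _ => Subsingleton.elim x 1 ▸ one_mem _
  obtain ⟨V, q, hq, hVn, hV0, hVc, hVq, hVe, -⟩ := H2.exists_minimal_normal_of_solvable (G := G)
  set π := QuotientGroup.mk' V
  have h1 : A.map π ≤ pCore p (G ⧸ V) := by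
    refine ih _ ?_ (G ⧸ V) rfl _ (hA.map π) fun c => ?_
    · rw [← hn, card_eq_card_quotient_mul_card_subgroup V]
      exact lt_mul_of_one_lt_right Nat.card_pos ((one_lt_card_iff_ne_bot V).2 hV0)
    · obtain ⟨c, rfl⟩ := QuotientGroup.mk'_surjective V c
      obtain ⟨g, hg, O, h1, h2, h3⟩ := h c
      refine ⟨π g, π.map_isConj hg, O.map π, h1.map π, map_mono h2, ?_⟩
      rintro _ ⟨_, ⟨a, ha, rfl⟩, rfl⟩
      refine le_normalizer_map π ⟨_, h3 ⟨a, ha, rfl⟩, ?_⟩
      simp
  haveI := H44.pCore_characteristic (p := p) (G := G ⧸ V)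
  set K := (pCore p (G ⧸ V)).comap π
  have hAK : A ≤ K := map_le_iff_le_comap.1 h1
  have hK : ∀ x ∈ K, ∃ k : ℕ, x ^ p ^ k ∈ V := fun x hx => by
    obtain ⟨k, hk⟩ := H44.pCore_isPGroup (p := p) (⟨π x, hx⟩ : pCore p (G ⧸ V))
    exact ⟨k, (QuotientGroup.eq_one_iff _).1 (congrArg Subtype.val hk)⟩
  by_cases hpq : q = p
  · subst hpq
    exact hAK.trans (H44.le_pCore inferInstance (H44.pCore_isPGroup.comap_of_ker_isPGroup π
      (by rwa [QuotientGroup.ker_mk'])))
  haveI := Fact.mk hq
  have dis : ∀ Y : Subgroup G, IsPGroup p Y → ∀ x ∈ Y, x ∈ V → x = 1 := fun Y hY x h1 h2 =>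
    mem_bot.1 ((IsPGroup.disjoint_of_ne p q (Ne.symm hpq) Y V hY hVq).le_bot ⟨h1, h2⟩)
  have hC : A ≤ centralizer (V : Set G) := by
    intro a ha
    by_contra hc
    letI : CommGroup V := { (inferInstance : Group V) with mul_comm := hVc.is_comm.comm }
    letI := cjAct V
    letI := H79.rangeAct G (Additive V)
    set φ := (MulAction.toPermHom G (Additive V)).rangeRestrict
    have act : ∀ (g : G) (v : Additive V), ((φ g • v).toMul : G) = g * v.toMul * g⁻¹ := fun _ _ => rfl
    obtain ⟨v, hv⟩ := H79.xp (V := Additive V) hp2 (fun v hv => by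
      refine Subtype.ext (dis (zpowers (v.toMul : G)) ?_ _ (mem_zpowers _) v.toMul.2)
      have hd : Nat.card (zpowers (v.toMul : G)) ∣ p ^ 1 := by
        rw [Nat.card_zpowers, pow_one]
        exact orderOf_dvd_of_pow_eq_one (congrArg Subtype.val hv)
      obtain ⟨i, -, hi⟩ := (Nat.dvd_prime_pow hp.out).1 hd
      exact IsPGroup.of_card hi) _ (K.map φ)
      (Normal.map inferInstance φ (MulAction.toPermHom G (Additive V)).rangeRestrict_surjective)
      (by
        rintro ⟨_, x, hx, rfl⟩
        obtain ⟨k, hk⟩ := hK x hx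
        refine ⟨k, Subtype.ext ?_⟩
        change φ x ^ p ^ k = 1
        rw [← map_pow]
        refine Subtype.ext (Equiv.ext fun v => Subtype.ext ?_)
        change x ^ p ^ k * v.toMul * (x ^ p ^ k)⁻¹ = v.toMul
        rw [mul_inv_eq_iff_eq_mul]
        exact congrArg Subtype.val (hVc.is_comm.comm (⟨_, hk⟩ : V) v.toMul))
      (φ a) (mem_map_of_mem φ (hAK ha)) (by
        by_contra h'
        push Not at h'
        refine hc fun v hv => ?_
        have := act a (Additive.ofMul ⟨v, hv⟩)
        rw [h'] at this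
        exact (mul_inv_eq_iff_eq_mul.1 this.symm).symm)
    obtain ⟨g, hg, O, o1, o2, o3⟩ := h v.toMul
    obtain ⟨c, rfl⟩ := isConj_iff.1 hg
    set g := c * (v.toMul : G) * c⁻¹ with hgd
    have gV : g ∈ V := hVn.conj_mem _ v.toMul.2 c
    have cV : g * a * g⁻¹ * a⁻¹ ∈ V := by
      rw [show g * a * g⁻¹ * a⁻¹ = g * (a * g⁻¹ * a⁻¹) by group]
      exact V.mul_mem gV (hVn.conj_mem _ (V.inv_mem gV) a)
    have e := dis _ (o1.to_sup_of_normal_left' (hA.map (MulAut.conj g).toMonoidHom) o3) _
      (mul_mem (mem_sup_right ⟨a, ha, rfl⟩) (inv_mem (mem_sup_left (o2 ha)))) cV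
    refine hv (φ c⁻¹) (Subtype.ext ?_)
    rw [← map_inv, ← map_mul, ← map_mul]
    refine (act _ v).trans ?_
    have e' : g * a = a * g := by
      rw [← mul_inv_eq_one]
      rw [← e]; change _ = g * a * g⁻¹ * a⁻¹; group
    calc _ = c⁻¹ * (a * g) * a⁻¹ * c := by rw [hgd]; group
      _ = (v.toMul : G) := by rw [← e', hgd]; group
  set L := K ⊓ centralizer (V : Set G)
  haveI := (H44.pCore_isPGroup (p := p) (G := G ⧸ V)).isNilpotent
  haveI : Group.IsNilpotent L := Subgroup.isNilpotent_of_ker_le_center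
    ((π.comp L.subtype).codRestrict (pCore p (G ⧸ V)) fun x => x.2.1) fun x hx =>
      mem_center_iff.2 fun y => Subtype.ext (y.2.2 x ((QuotientGroup.eq_one_iff _).1
        (congrArg Subtype.val hx))).symm
  exact H44.le_pCore_of_subnormal (IsSubnormal.trans (le_inf hAK hC) (S0064.result.1 ‹_› _)
    (Normal.isSubnormal inferInstance)) hA

/-- Let G be a finite solvable group, p an odd prime and A a p-subgroup of G such that every conjugacy class of G contains an element g for which A is subnormal in the subgroup generated by A and its conjugate by g. Then A is contained in O_p(G). (The hypothesis that p is odd is needed.) -/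
theorem result {G : Type*} [Group G] [Finite G]
    (hG : Group.IsSolvable G) (p : ℕ) [Fact p.Prime] (hp : p ≠ 2) (A : Subgroup G) (hA : IsPGroup p A)
    (h : ∀ c : G, ∃ g : G, IsConj c g ∧ (A.subgroupOf (A ⊔ MulAut.conj g • A)).IsSubnormal) :
    A ≤ Cfsg.pCore p G := by
  refine aux hp _ G rfl A hA fun c => ?_
  obtain ⟨g, hg, hs⟩ := h c
  exact ⟨g, hg, _, H44.pCoreOf_isPGroup _, H44.le_pCoreOf_of_subnormal le_sup_left hs hA,
    le_sup_right.trans (H44.le_normalizer_pCoreOf _)⟩

end Cfsg.Agent.S4330
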