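import Cfsg.Statements.S4331
import Cfsg.Agent.S0541


set_option autoImplicit false
open Cfsg

namespace Cfsg.Agent.S4331

abbrev F := ZMod 3

/-- The semilinear affine maps `x ↦ a x^e + b` of the field with nine elements. -/
def AG : Type := {x : F × F × F × F × F // x.1 * x.1 + x.2.1 * x.2.1 ≠ 0 ∧ x.2.2.2.2 * x.2.2.2.2 = 1}

instance instDecEq : DecidableEq AG := inferInstanceAs (DecidableEq {_x : F × F × F × F × F // _})
instance instFintype : Fintype AG := inferInstanceAs (Fintype {_x : F × F × F × F × F // _})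

lemma norm_mul : ∀ a b c d e : F, a * a + b * b ≠ 0 → c * c + d * d ≠ 0 → e * e = 1 →
    (a * c - b * e * d) * (a * c - b * e * d) + (a * e * d + b * c) * (a * e * d + b * c) ≠ 0 := by
  decide +kernel

lemma norm_inv : ∀ a b e : F, a * a + b * b ≠ 0 → e * e = 1 →
    ((a * a + b * b) * a) * ((a * a + b * b) * a) +
      (-(a * a + b * b) * e * b) * (-(a * a + b * b) * e * b) ≠ 0 := by
  decide +kernel

def mul (x y : AG) : AG :=
  ⟨(x.1.1 * y.1.1 - x.1.2.1 * x.1.2.2.2.2 * y.1.2.1,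
    x.1.1 * x.1.2.2.2.2 * y.1.2.1 + x.1.2.1 * y.1.1,
    x.1.1 * y.1.2.2.1 - x.1.2.1 * x.1.2.2.2.2 * y.1.2.2.2.1 + x.1.2.2.1,
    x.1.1 * x.1.2.2.2.2 * y.1.2.2.2.1 + x.1.2.1 * y.1.2.2.1 + x.1.2.2.2.1,
    x.1.2.2.2.2 * y.1.2.2.2.2),
   norm_mul _ _ _ _ _ x.2.1 y.2.1 x.2.2, by
     show x.1.2.2.2.2 * y.1.2.2.2.2 * (x.1.2.2.2.2 * y.1.2.2.2.2) = 1
     rw [mul_mul_mul_comm, x.2.2, y.2.2, mul_one]⟩

def one : AG := ⟨(1, 0, 0, 0, 1), by decide⟩

def inv (x : AG) : AG :=
  let n := x.1.1 * x.1.1 + x.1.2.1 * x.1.2.1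
  let a := n * x.1.1
  let b := -n * x.1.2.2.2.2 * x.1.2.1
  let e := x.1.2.2.2.2
  ⟨(a, b, -(a * x.1.2.2.1 - b * e * x.1.2.2.2.1), -(a * e * x.1.2.2.2.1 + b * x.1.2.2.1), e),
    norm_inv _ _ _ x.2.1 x.2.2, x.2.2⟩

instance instMul : Mul AG := ⟨mul⟩
instance instOne : One AG := ⟨one⟩
instance instInv : Inv AG := ⟨inv⟩

lemma assoc (x y z : AG) : x * y * z = x * (y * z) := by
  obtain ⟨⟨a, b, c, d, e⟩, h1, h2⟩ := x
  obtain ⟨⟨a', b', c', d', e'⟩, h1', h2'⟩ := y
  obtain ⟨⟨a'', b'', c'', d'', e''⟩, h1'', h2''⟩ := z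
  apply Subtype.ext
  simp only at h2
  show (mul (mul _ _) _).1 = (mul _ (mul _ _)).1
  simp only [mul, Prod.mk.injEq]
  refine ⟨?_, ?_, ?_, ?_, ?_⟩
  · linear_combination (-a * b' * e' * b'') * h2
  · linear_combination (-b * b' * e' * b'') * h2
  · linear_combination (-a * b' * e' * d'') * h2
  · linear_combination (-b * b' * e' * d'') * h2
  · ring

instance instGroup : Group AG :=
  Group.ofLeftAxioms assoc (by decide +kernel) (by decide +kernel)

/-- The linear part. -/
def lin : AG →* AG where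
  toFun x := ⟨(x.1.1, x.1.2.1, 0, 0, x.1.2.2.2.2), x.2⟩
  map_one' := rfl
  map_mul' x y := by
    apply Subtype.ext
    show _ = (mul _ _).1
    simp only [mul, Prod.mk.injEq]
    refine ⟨rfl, rfl, by simp, by simp, rfl⟩

def a : AG := ⟨(1, 0, 0, 0, -1), by decide⟩
def t : AG := ⟨(1, 0, 0, 1, 1), by decide⟩

lemma lin_pow : ∀ x : AG, lin x ^ 2 ^ 3 = 1 := by decide +kernel

lemma ker_comm : ∀ x : AG, lin x = 1 → ∀ y : AG, lin y = 1 → x * y = y * x := by decide +kernel

lemma key : ∀ c : AG, ∃ x : AG, lin (x * c * x⁻¹) = x * c * x⁻¹ ∨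
    (x * c * x⁻¹) * a = a * (x * c * x⁻¹) := by decide +kernel

lemma isPGroup_range : IsPGroup 2 lin.range := by
  rintro ⟨_, x, rfl⟩
  exact ⟨3, Subtype.ext (lin_pow x)⟩

lemma solvable : Group.IsSolvable AG := by
  have h1 : Group.IsSolvable lin.ker :=
    Group.isSolvable_of_comm fun x y => Subtype.ext (ker_comm x x.2 y y.2)
  have := isPGroup_range.isNilpotent
  exact Group.isSolvable_of_ker_le_range lin.ker.subtype lin.rangeRestrict (by simp)

/-- There is a finite solvable group G with a subgroup A of order 2 such that every conjugacy class of G contains an element g for which A is subnormal in the subgroup generated by A and g, and yet A is not contained in O_2(G). (So the corresponding criteria for odd primes fail at the prime 2, even for solvable groups.) -/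
theorem result :
    ∃ (G : Type) (_ : Group G) (_ : Finite G) (A : Subgroup G), Group.IsSolvable G ∧ Nat.card A = 2 ∧
      (∀ c : G, ∃ g : G, IsConj c g ∧ (A.subgroupOf (A ⊔ Subgroup.zpowers g)).IsSubnormal) ∧
      ¬ A ≤ Cfsg.pCore 2 G := by
  have ha : orderOf a = 2 := orderOf_eq_prime (by decide +kernel) (by decide +kernel)
  refine ⟨AG, inferInstance, inferInstance, Subgroup.zpowers a, solvable,
    by rw [Nat.card_zpowers, ha], fun c => ?_, fun h => ?_⟩
  · obtain ⟨x, hx⟩ := key c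
    refine ⟨x * c * x⁻¹, isConj_iff.mpr ⟨x, rfl⟩, ?_⟩
    rcases hx with hx | hx
    · have h1 : Subgroup.zpowers a ⊔ Subgroup.zpowers (x * c * x⁻¹) ≤ lin.range := by
        refine sup_le (Subgroup.zpowers_le.mpr ⟨a, by decide +kernel⟩)
          (Subgroup.zpowers_le.mpr ⟨_, hx⟩)
      have := (isPGroup_range.to_le h1).isNilpotent
      exact S0541.isSubnormal_of_isNilpotent _
    · apply Subgroup.Normal.isSubnormal
      rw [Subgroup.normal_subgroupOf_iff_le_normalizer le_sup_left]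
      refine sup_le Subgroup.le_normalizer ?_
      refine le_trans ?_ (Subgroup.centralizer_le_normalizer _)
      rw [Subgroup.zpowers_le, Subgroup.mem_centralizer_iff]
      rintro _ ⟨m, rfl⟩
      exact (Commute.zpow_right hx m).eq.symm
  · have hO : IsPGroup 2 (Cfsg.pCore 2 AG) :=
      Sylow.sSup_of_normal _ (fun H hH => hH.2) (fun H hH => hH.1)
    have hOn : (Cfsg.pCore 2 AG).Normal := Subgroup.sSup_normal _ (fun _ h => h.1)
    have h1 := h (Subgroup.mem_zpowers a)
    have h2 := (Cfsg.pCore 2 AG).mul_mem h1 (hOn.conj_mem a h1 t)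
    obtain ⟨k, hk⟩ := hO ⟨_, h2⟩
    have h3 : (a * (t * a * t⁻¹)) ^ 2 ^ k = 1 := congrArg Subtype.val hk
    have h4 : orderOf (a * (t * a * t⁻¹)) = 3 :=
      haveI : Fact (Nat.Prime 3) := ⟨Nat.prime_three⟩
      orderOf_eq_prime (by decide +kernel) (by decide +kernel)
    have h5 := orderOf_dvd_of_pow_eq_one h3
    rw [h4] at h5
    have := Nat.prime_three.dvd_of_dvd_pow h5
    omega

end Cfsg.Agent.S4331
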