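import Cfsg.Statements.S4332
import Cfsg.Agent.H85.Swaps
import Cfsg.Agent.H2.Basic

set_option autoImplicit false
open Pointwise
open Cfsg

namespace Cfsg.Agent.S4332

open Cfsg.Agent.H85 Equiv Equiv.Perm

lemma subnormal_of_commute {G : Type*} [Group G] {a g : G} (h : Commute a (g * a * g⁻¹)) :
    ((Subgroup.zpowers a).subgroupOf
      (Subgroup.zpowers a ⊔ MulAut.conj g • Subgroup.zpowers a)).IsSubnormal := by
  apply Subgroup.Normal.isSubnormal
  rw [Subgroup.normal_subgroupOf_iff_le_normalizer le_sup_left]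
  refine sup_le Subgroup.le_normalizer ?_
  refine le_trans ?_ (Subgroup.centralizer_le_normalizer _)
  intro y hy
  rw [H2.mem_conj_smul] at hy
  obtain ⟨n, hn⟩ := hy
  have h1 : y = (g * a * g⁻¹) ^ n := by
    rw [conj_zpow]; simp only at hn; rw [hn]; group
  rw [Subgroup.mem_centralizer_iff]
  rintro _ ⟨m, rfl⟩
  rw [h1]
  exact (h.zpow_zpow m n).eq

lemma exists_notMem {S T : Finset (Fin 8)} (h : T.card < S.card) : ∃ z ∈ S, z ∉ T := by
  by_contra hc
  push Not at hc
  exact absurd (Finset.card_le_card hc) (by omega)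

lemma commute_of_disjoint (c : Perm (Fin 8)) {x y z : Fin 8}
    (h1 : c x ≠ x) (h2 : c x ≠ y) (h3 : c x ≠ z) (h4 : c y ≠ x) (h5 : c y ≠ y) (h6 : c y ≠ z)
    (h7 : c z ≠ x) (h8 : c z ≠ y) (h9 : c z ≠ z) :
    Commute (swap x y * swap x z) (c * (swap x y * swap x z) * c⁻¹) := by
  have : c * (swap x y * swap x z) * c⁻¹ = swap (c x) (c y) * swap (c x) (c z) := by
    rw [swap_apply_apply, swap_apply_apply]; group
  rw [this]
  have k : ∀ a b a' b' : Fin 8, a' ≠ a → a' ≠ b → b' ≠ a → b' ≠ b →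
      Commute (swap a b) (swap a' b') := by
    intro a b a' b' e1 e2 e3 e4
    apply Perm.Disjoint.commute
    intro w
    by_cases hw : w = a' ∨ w = b'
    · left
      rcases hw with rfl | rfl
      · exact swap_apply_of_ne_of_ne e1 e2
      · exact swap_apply_of_ne_of_ne e3 e4
    · right
      push Not at hw
      exact swap_apply_of_ne_of_ne hw.1 hw.2
  exact Commute.mul_left (Commute.mul_right (k _ _ _ _ h1 h2 h4 h5) (k _ _ _ _ h1 h2 h7 h8))
    (Commute.mul_right (k _ _ _ _ h1 h3 h4 h6) (k _ _ _ _ h1 h3 h7 h9))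

lemma swap_three {x y z : Fin 8} (h1 : y ≠ x) (h2 : z ≠ x) (h3 : z ≠ y) :
    swap y z * swap y x = swap x y * swap x z := by
  ext w
  simp only [Perm.mul_apply, swap_apply_def]
  split_ifs <;> simp_all

lemma exists_three (c : Perm (Fin 8)) :
    ∃ τ : Perm (Fin 8), τ.IsThreeCycle ∧ Commute τ (c * τ * c⁻¹) := by
  by_cases hS : c.support.card ≤ 5
  · have h1 : 2 < (c.supportᶜ).card := by rw [Finset.card_compl]; simp; omega
    obtain ⟨x, hx, y, hy, z, hz, hxy, hxz, hyz⟩ := Finset.two_lt_card.mp h1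
    simp only [Finset.mem_compl, Perm.mem_support, not_not] at hx hy hz
    refine ⟨_, isThreeCycle_swap_mul_swap_same hxy hxz hyz, ?_⟩
    have : c * (swap x y * swap x z) * c⁻¹ = swap (c x) (c y) * swap (c x) (c z) := by
      rw [swap_apply_apply, swap_apply_apply]; group
    rw [this, hx, hy, hz]
  by_cases h2 : ∀ x, c (c x) = x
  · obtain ⟨x, hx, -⟩ := exists_notMem (S := c.support) (T := ∅) (by rw [Finset.card_empty]; omega)
    obtain ⟨y, hy, hy'⟩ := exists_notMem (S := c.support) (T := {x, c x})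
      (lt_of_le_of_lt Finset.card_le_two (by omega))
    obtain ⟨z, hz, hz'⟩ := exists_notMem (S := c.support) (T := {x, c x, y, c y})
      (lt_of_le_of_lt Finset.card_le_four (by omega))
    simp only [Finset.mem_insert, Finset.mem_singleton, not_or, Perm.mem_support] at hx hy hz hy' hz'
    refine ⟨_, isThreeCycle_swap_mul_swap_same (Ne.symm hy'.1) (Ne.symm hz'.1) (Ne.symm hz'.2.2.1),
      commute_of_disjoint c hx (Ne.symm hy'.2) (Ne.symm hz'.2.1) ?_ hy (Ne.symm hz'.2.2.2) ?_ ?_ hz⟩
    · intro h; exact hy'.2 (by rw [← h, h2])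
    · intro h; exact hz'.2.1 (by rw [← h, h2])
    · intro h; exact hz'.2.2.2 (by rw [← h, h2])
  push Not at h2
  obtain ⟨x, hx⟩ := h2
  have hx1 : c x ≠ x := fun h => hx (by rw [h, h])
  have hx2 : c (c x) ≠ c x := fun h => hx1 (c.injective h)
  by_cases h3 : c (c (c x)) = x
  · refine ⟨_, isThreeCycle_swap_mul_swap_same hx1.symm hx.symm hx2.symm, ?_⟩
    have : c * (swap x (c x) * swap x (c (c x))) * c⁻¹ =
        swap (c x) (c (c x)) * swap (c x) (c (c (c x))) := by
      rw [swap_apply_apply c x, swap_apply_apply c x]; group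
    rw [this, h3]
    have h4 : swap (c x) (c (c x)) * swap (c x) x = swap x (c x) * swap x (c (c x)) := by
      exact swap_three hx1 hx hx2
    rw [h4]
  · obtain ⟨z, hz, hz'⟩ := exists_notMem (S := c.support) (T := {c⁻¹ x, x, c x, c (c x), c (c (c x))})
      (lt_of_le_of_lt Finset.card_le_five (by omega))
    simp only [Finset.mem_insert, Finset.mem_singleton, not_or, Perm.mem_support] at hz hz'
    refine ⟨_, isThreeCycle_swap_mul_swap_same hx.symm (Ne.symm hz'.2.1) (Ne.symm hz'.2.2.2.1),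
      commute_of_disjoint c hx1 hx2.symm (Ne.symm hz'.2.2.1) h3 (fun h => hx2 (c.injective h))
      (Ne.symm hz'.2.2.2.2) ?_ ?_ hz⟩
    · intro h; exact hz'.1 (by rw [← h]; simp)
    · intro h; exact hz'.2.2.1 (c.injective h)

/-- In the symmetric group of degree 8, let A be the subgroup generated by a 3-cycle. Then every conjugacy class contains an element g for which A is subnormal in the subgroup generated by A and its conjugate by g, although O_3 of the symmetric group of degree 8 is trivial. -/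
theorem result
    (σ : Equiv.Perm (Fin 8)) (hσ : σ.IsThreeCycle) :
    (∀ c : Equiv.Perm (Fin 8), ∃ g : Equiv.Perm (Fin 8), IsConj c g ∧
      ((Subgroup.zpowers σ).subgroupOf (Subgroup.zpowers σ ⊔ MulAut.conj g • Subgroup.zpowers σ)).IsSubnormal) ∧
    Cfsg.pCore 3 (Equiv.Perm (Fin 8)) = ⊥ := by
  constructor
  · intro c
    obtain ⟨τ, hτ, hc⟩ := exists_three c
    have h1 : IsConj τ σ := isConj_iff_cycleType_eq.mpr (hτ.cycleType.trans hσ.cycleType.symm)
    obtain ⟨w, rfl⟩ := isConj_iff.mp h1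
    refine ⟨w * c * w⁻¹, isConj_iff.mpr ⟨w, rfl⟩, subnormal_of_commute ?_⟩
    have h2 := hc.map (MulAut.conj w)
    simpa [mul_assoc] using h2
  · rw [Cfsg.pCore, sSup_eq_bot]
    rintro N ⟨hN, hN3⟩
    by_contra hne
    have := isPretransitive_of_normal_perm N hne
    have h1 := card_dvd_of_isPretransitive (G := N) (α := Fin 8)
    have : Fact (Nat.Prime 3) := ⟨Nat.prime_three⟩
    obtain ⟨k, hk⟩ := IsPGroup.iff_card.mp hN3
    rw [Nat.card_fin, hk] at h1
    have h2 : 2 ∣ 3 ^ k := (by norm_num : 2 ∣ 8).trans h1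
    have := Nat.prime_two.dvd_of_dvd_pow h2
    omega

end Cfsg.Agent.S4332
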