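import Cfsg.Statements.S4333
import Cfsg.Agent.H2.Zipper

set_option autoImplicit false
open Pointwise
open Cfsg

namespace Cfsg.Agent.S4333



/-- Let A be a subgroup of a finite group G. If A is subnormal in the subgroup generated by A and its conjugate by g⁻¹ a g, for every a ∈ A and every g ∈ G, then A is subnormal in G. (A sharpening of Wielandt's subnormality criterion: only conjugates of A by conjugates of elements of A are needed.) -/
theorem result {G : Type*} [Group G] [Finite G]
    (A : Subgroup G)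
    (h : ∀ a ∈ A, ∀ g : G, (A.subgroupOf (A ⊔ MulAut.conj (g⁻¹ * a * g) • A)).IsSubnormal) :
    A.IsSubnormal := by
  revert A
  refine H2.card_induction (P := fun G _ _ => ∀ (A : Subgroup G),
    (∀ a ∈ A, ∀ g : G, (A.subgroupOf (A ⊔ MulAut.conj (g⁻¹ * a * g) • A)).IsSubnormal) →
      A.IsSubnormal) G ?_
  intro G _ _ ih A h
  have hprop : ∀ H : Subgroup G, H ≠ ⊤ → A ≤ H → (A.subgroupOf H).IsSubnormal := by
    intro H hH hAH
    apply ih H (H2.card_lt_of_ne_top hH)
    intro a ha g
    set x : H := g⁻¹ * a * g with hxdef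
    have hx : MulAut.conj (x : G) • A ≤ H := Subgroup.conj_smul_le_of_le hAH x
    rw [← H2.subgroupOf_conj_smul, ← H2.subgroupOf_sup_of_le hAH hx]
    have h1 := (h a ha g).comap (Subgroup.subgroupOfEquivOfLe (sup_le hAH hx)).toMonoidHom
    convert h1 using 1
    ext y
    rfl
  by_contra hA
  have hne : ∀ a ∈ A, ∀ g : G, A ⊔ MulAut.conj (g⁻¹ * a * g) • A ≠ ⊤ := by
    intro a ha g hg
    apply hA
    exact (h a ha g).trans le_sup_left (hg ▸ Subgroup.IsSubnormal.top)
  obtain ⟨M, hM, hAM⟩ := (eq_top_or_exists_le_coatom _).resolve_left (hne 1 A.one_mem 1)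
  have hAM' : A ≤ M := le_sup_left.trans hAM
  have hconj : ∀ a ∈ A, ∀ g : G, MulAut.conj (g⁻¹ * a * g) • A ≤ M := by
    intro a ha g
    obtain ⟨K, hK, hAK⟩ := (eq_top_or_exists_le_coatom _).resolve_left (hne a ha g)
    rw [H2.zipper A hprop hA hM hK hAM' (le_sup_left.trans hAK)]
    exact le_sup_right.trans hAK
  have hnorm : ∀ a ∈ A, ∀ g : G, g⁻¹ * a * g ∈ Subgroup.normalizer (M : Set G) := by
    intro a ha g
    set x := g⁻¹ * a * g with hxdef
    have h1 : IsCoatom (MulAut.conj x⁻¹ • M) :=
      H2.isCoatom_map_of_surjective (f := (MulAut.conj x⁻¹).toMonoidHom)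
        (MulAut.conj x⁻¹).surjective hM (by
          rw [(MonoidHom.ker_eq_bot_iff _).mpr (MulAut.conj x⁻¹).injective]; exact bot_le)
    have h2 : A ≤ MulAut.conj x⁻¹ • M := by
      intro y hy
      rw [H2.mem_conj_smul, inv_inv]
      exact hconj a ha g (H2.conj_mem_conj_smul x hy)
    have h3 := H2.zipper A hprop hA hM h1 hAM' h2
    rw [← Subgroup.inv_mem_iff, ← H2.conj_smul_eq_iff_mem_normalizer]
    exact h3.symm
  rcases hM.le_iff.mp (Subgroup.le_normalizer (H := M)) with h4 | h4
  · have : M.Normal := Subgroup.normalizer_eq_top_iff.mp h4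
    exact hA ((hprop _ hM.1 hAM').trans hAM' (Subgroup.Normal.isSubnormal inferInstance))
  · have hcore : A ≤ M.normalCore := by
      intro a ha g
      have := hnorm a ha g⁻¹
      rw [h4] at this
      simpa using this
    have hcore_ne : M.normalCore ≠ ⊤ := fun h' => hM.1 (top_le_iff.mp (h' ▸ M.normalCore_le))
    exact hA ((hprop _ hcore_ne hcore).trans hcore (Subgroup.Normal.isSubnormal inferInstance))

end Cfsg.Agent.S4333
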