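import Cfsg.Statements.S4334
import Cfsg.Agent.H20.PiHom
import Cfsg.Agent.S0581
import Cfsg.Agent.H3.Frobenius

set_option autoImplicit false
open Cfsg

namespace Cfsg.Agent.S4334

open Subgroup Cfsg.Agent.H49

theorem maximal_of_hall {G : Type*} [Group G] [Finite G] {π : Set ℕ} {H : Subgroup G}
    (h : IsPiHallOf π H ⊤) : Maximal (IsPiSubgroup π) H :=
  ⟨h.pi, fun _ hK hle => (h.eq_of_le hle le_top hK).ge⟩

/-- Let σ and τ be disjoint sets of primes with union π. Suppose a finite group G has a Hall π-subgroup H which is the direct product of a nilpotent σ-subgroup and a τ-subgroup (two elementwise-commuting subgroups generating H), and that the maximal τ-subgroups of G are pairwise conjugate. Then the maximal π-subgroups of G are pairwise conjugate. -/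
theorem result {G : Type*} [Group G] [Finite G]
    (σ τ π : Set ℕ) (hπ : π = σ ∪ τ) (hd : Disjoint σ τ) (H Hs Ht : Subgroup G) (hH : Cfsg.IsPiHall π H)
    (hs : Cfsg.IsPiSubgroup σ Hs) (ht : Cfsg.IsPiSubgroup τ Ht) (hsn : Group.IsNilpotent Hs)
    (hjoin : Hs ⊔ Ht = H) (hcomm : ∀ a ∈ Hs, ∀ b ∈ Ht, a * b = b * a) (hD : Cfsg.IsDPiGroup τ G) :
    Cfsg.IsDPiGroup π G := by
  have hH' := hall_top_iff.2 hH
  have hc : Ht ≤ 𝒞(Hs) := fun b hb a ha => hcomm a ha b hb
  have hσ : σ ⊆ π := hπ ▸ Set.subset_union_left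
  have hτ : τ ⊆ π := hπ ▸ Set.subset_union_right
  have hs' : IsPiHallOf σ Hs ⊤ := (hjoin ▸ hall_sup_left (π := σ) hs
    (IsPi.mono ht hd.subset_compl_left) (Or.inr (norm_of_cent hc))).trans hH' hσ
  have ht' : IsPiHallOf τ Ht ⊤ := (hjoin ▸ hall_sup_right (π := τ)
    (IsPi.mono hs hd.subset_compl_right) ht (Or.inr (norm_of_cent hc))).trans hH' hτ
  have key : ∀ K : Subgroup G, IsPi π K → ∃ g, K ≤ cj g H := by
    intro K hK
    have h1 : ∀ p : ℕ, p.Prime → p ∈ σ → HasNormalPComplement p K := by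
      intro p hp hpσ
      have := Fact.mk hp
      refine H3.hasNormalPComplement_iff_frobenius.2 fun Q hQ g hg hgp => ?_
      have hQ' : IsPi {p} (Q.map K.subtype) := (isPi_of_isPGroup hp hQ).map _
      obtain ⟨P, hP⟩ := exists_sylowOf p Hs
      obtain ⟨x, -, hx⟩ := sylowOf_Jsub (hP.trans_sylow hs' hpσ) le_top hQ'
      have hi : IsPiNat (π \ {p})ᶜ (𝒞(Q.map K.subtype).relIndex ⊤) := by
        refine isPiNat_compl_iff.2 fun q hq hq' => ?_
        obtain ⟨R, hR, hRP⟩ : ∃ R, IsSylowOf q R ⊤ ∧ R ≤ 𝒞(P) := by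
          rcases (hπ ▸ hq'.1 : q ∈ σ ∪ τ) with h | h
          · obtain ⟨R, hR⟩ := exists_sylowOf q Hs
            exact ⟨R, hR.trans_sylow hs' h,
              nilpotent_cent hsn hR.le hP.le hR.pi (hP.pi.compl_singleton_of_ne (Ne.symm hq'.2))⟩
          · obtain ⟨R, hR⟩ := exists_sylowOf q Ht
            exact ⟨R, hR.trans_sylow ht' h, hR.le.trans (hc.trans (cent_anti hP.le))⟩
        refine ((hR.cj_of_mem (mem_top x)).index_of_le ?_).not_dvd hq rfl
        exact (cj_mono x hRP).trans (by rw [cj_centralizer]; exact cent_anti hx)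
      have hg' : (g : G) ∈ 𝒩(Q.map K.subtype) := le_normalizer_map _ ⟨g, hg, rfl⟩
      have hi' : IsPiNat (π \ {p})ᶜ (𝒞(Q.map K.subtype).relIndex 𝒩(Q.map K.subtype)) := by
        rw [relIndex_top_right] at hi
        exact hi.of_dvd ⟨_, (relIndex_mul_index (cent_le_norm _)).symm⟩
      have hgπ : IsPiElt (π \ {p}) (g : G) :=
        IsPiNat.inter (hK.elt g.2) ((isPiNat_compl_singleton_iff_coprime hp).2 (by simpa using hgp))
      have := zpowers_le.1 ((isPi_zpowers.2 hgπ).le_of_relIndex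
        (hi'.of_dvd (relIndex_dvd_of_norm (norm_cent le_rfl) (zpowers_le.2 hg'))))
      exact fun y hy => Subtype.ext (this y ⟨y, hy, rfl⟩)
    have h2 : IsPiHallOf τ (piCoreOf τ K) K := by
      have := (H20.piClosed_iff (G := K) (π := τ)).1
        ⟨⨅ p : {p : ℕ // p.Prime ∧ p ∈ σ}, pResidual p K, fun x => ?_⟩ |>.map K.subtype
      · rwa [piCoreOf_map_subtype, map_subtype_top] at this
      rw [mem_iInf]
      constructor
      · intro h q hq hqd
        have := Fact.mk hq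
        rcases (hπ ▸ hK q hq (hqd.trans (orderOf_dvd_natCard x)) : q ∈ σ ∪ τ) with h' | h'
        · exact absurd hqd ((Nat.Prime.coprime_iff_not_dvd hq).1
            ((H3.mem_pResidual_iff_of_hasNormalPComplement (h1 q hq h') x).1 (h ⟨q, hq, h'⟩)).symm)
        · exact h'
      · intro h q
        exact H3.mem_pResidual_of_coprime ((Nat.Prime.coprime_iff_not_dvd q.2.1).2 fun hd' =>
          Set.disjoint_left.1 hd q.2.2 (h q q.2.1 hd')).symm
    obtain ⟨T, hT, hTm⟩ := Finite.exists_le_maximal (p := IsPiSubgroup τ) h2.pi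
    obtain ⟨g, hg⟩ := hD T Ht hTm (maximal_of_hall ht')
    have h3 := h2.cj g
    have h4 : cj g K ≤ 𝒩(cj g (piCoreOf τ K)) := by
      rw [← cj_normalizer]; exact cj_mono g (le_norm_piCoreOf _ _)
    have h5 : cj g (piCoreOf τ K) ≤ Ht := hg ▸ cj_mono g hT
    obtain ⟨S, hS⟩ := exists_hall_compl h3 h4
    have hSσ : IsPi σ S := fun q hq hqd =>
      (hπ ▸ ((hK.cj g).of_le hS.le) q hq hqd : q ∈ σ ∪ τ).resolve_right (hS.pi q hq hqd)
    obtain ⟨n, hn, h6⟩ := S0581.nil_hall_Jsub S σ Hs _ hsn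
      (hs'.sub (norm_of_cent ((cent_symm hc).trans (cent_anti h5))) le_top) (hS.le.trans h4) hSσ
    refine ⟨g⁻¹ * n, ?_⟩
    rw [cj_mul, ← cj_le_iff, ← (h3.isProd hS).sup_eq, ← hjoin, cj_sup, sup_comm]
    exact sup_le_sup h6 (by rw [← cj_eq_of_mem_norm hn]; exact cj_mono n h5)
  intro K L hK hL
  obtain ⟨g, hg⟩ := key K hK.1
  obtain ⟨h, hh⟩ := key L hL.1
  refine ⟨h * g⁻¹, ?_⟩
  rw [map_conj_eq_cj, hK.eq_of_le (hH'.pi.cj g) hg, hL.eq_of_le (hH'.pi.cj h) hh, cj_cj,
    inv_mul_cancel_right]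

end Cfsg.Agent.S4334
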