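import Cfsg.Statements.S4337
import Cfsg.Agent.H85.Swaps

set_option autoImplicit false
open Cfsg

namespace Cfsg.Agent.S4337

open Cfsg.Agent.H85

/-- Restriction of fibre-preserving permutations to one fibre. -/
def resHom {α β : Type*} (f : α → β) (H : Subgroup (Equiv.Perm α))
    (h : ∀ t ∈ H, ∀ x, f (t x) = f x) (y : β) : H →* Equiv.Perm {x // f x = y} where
  toFun t := Equiv.Perm.subtypePerm (t : Equiv.Perm α) fun x => by rw [h t t.2]
  map_one' := by ext; simp
  map_mul' a b := by ext; rfl

/-- In a finite symmetric group, any three transpositions generate a solvable subgroup. -/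
theorem result (n : ℕ) (a b c : Equiv.Perm (Fin n))
    (ha : a.IsSwap) (hb : b.IsSwap) (hc : c.IsSwap) :
    Group.IsSolvable (Subgroup.closure ({a, b, c} : Set (Equiv.Perm (Fin n)))) := by
  obtain ⟨f, hf, hc⟩ := exists_invariant_of_swaps [a, b, c] (by simp [ha, hb, hc])
  have hinv := invariant_closure (S := {a, b, c}) (f := f) (by
    intro s hs
    exact hf s (by simpa using hs))
  have h1 : ∀ y : Fin n, ∃ k, derivedSeries (Equiv.Perm {x // f x = y}) k = ⊥ := by
    intro y
    refine (isSolvable_perm_of_card_le_four ?_).solvable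
    have := card_fiber_add_card_image_le f y
    rw [Fintype.card_subtype]
    simp only [List.length_cons, List.length_nil] at hc
    omega
  choose k hk using h1
  refine ⟨⟨Finset.univ.sup k, ?_⟩⟩
  rw [eq_bot_iff]
  intro g hg
  rw [Subgroup.mem_bot]
  ext x
  have h2 : g ∈ derivedSeries _ (k (f x)) :=
    derivedSeries_antitone _ (Finset.le_sup (f := k) (Finset.mem_univ (f x))) hg
  have h3 := map_derivedSeries_le_derivedSeries (resHom f _ hinv (f x)) _ ⟨g, h2, rfl⟩
  rw [hk, Subgroup.mem_bot] at h3
  have h4 := congrArg (fun s : Equiv.Perm {z // f z = f x} => ((s ⟨x, rfl⟩ : _) : Fin n)) h3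
  simpa [resHom] using congrArg Fin.val h4

end Cfsg.Agent.S4337
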