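import Cfsg.Statements.S4342
import Cfsg.Agent.H85.SylowCount

set_option autoImplicit false
open Cfsg

namespace Cfsg.Agent.S4342

open Cfsg.Agent.H85

lemma card_sylow_quot_center {H : Type*} [Group H] [Finite H] (p : ℕ) [Fact p.Prime] :
    Nat.card (Sylow p (H ⧸ Subgroup.center H)) = Nat.card (Sylow p H) := by
  obtain ⟨P⟩ : Nonempty (Sylow p H) := inferInstance
  rw [card_sylow_eq_mul (QuotientGroup.mk' (Subgroup.center H)) (QuotientGroup.mk'_surjective _) P,
    card_sylow_of_le P le_sup_left, Subgroup.relIndex_eq_one.mpr, mul_one]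
  rw [QuotientGroup.ker_mk']
  exact sup_le Subgroup.le_normalizer (Subgroup.center_le_normalizer _)

/-- Let H be a normal subgroup of a finite group G and p a prime not dividing the index of H. Then the number of Sylow p-subgroups of H/Z(H) equals the number of Sylow p-subgroups of G. -/
theorem result {G : Type*} [Group G] [Finite G]
    (p : ℕ) [Fact p.Prime] (H : Subgroup G) [H.Normal] (hp : ¬ p ∣ H.index) :
    Nat.card (Sylow p (H ⧸ Subgroup.center H)) = Nat.card (Sylow p G) := by
  rw [card_sylow_quot_center]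
  obtain ⟨P⟩ : Nonempty (Sylow p G) := inferInstance
  have hP : (P : Subgroup G) ≤ H := by
    rw [← Subgroup.relIndex_eq_one]
    obtain ⟨k, hk⟩ := IsPGroup.iff_card.mp P.isPGroup'
    have h1 : H.relIndex P ∣ p ^ k := hk ▸ Subgroup.relIndex_dvd_card H P
    obtain ⟨j, hj, hj2⟩ := (Nat.dvd_prime_pow Fact.out).mp h1
    rcases Nat.eq_zero_or_pos j with rfl | hj0
    · simpa using hj2
    · exfalso
      apply hp
      exact (dvd_pow_self p hj0.ne').trans (hj2 ▸ Subgroup.relIndex_dvd_index_of_normal H P)
  rw [card_sylow_of_le P hP, Sylow.card_eq_index_normalizer P, ← Subgroup.relIndex_top_right]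
  symm
  refine relIndex_eq_of_mul le_top fun g _ => frattini_normalizer P hP ?_
  rw [Subgroup.normalizer_eq_top]; trivial

end Cfsg.Agent.S4342
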