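import Cfsg.Statements.S4344


set_option autoImplicit false
open Cfsg

namespace Cfsg.Agent.S4344



/-- Let S be a finite non-abelian simple group, M a maximal subgroup of S and C a cyclic normal subgroup of M. If a Sylow p-subgroup P of S (for a prime p dividing the order of S) is contained in C, then the number of Sylow p-subgroups of S equals the index of M. -/
theorem result {S : Type*} [Group S] [Finite S]
    [IsSimpleGroup S] (hS : ¬ IsMulCommutative S) (p : ℕ) [Fact p.Prime] (hp : p ∣ Nat.card S)
    (M : Subgroup S) (hM : IsCoatom M) (C : Subgroup S) (hCM : C ≤ M) (hCn : (C.subgroupOf M).Normal)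
    (hC : IsCyclic C) (P : Sylow p S) (hP : (P : Subgroup S) ≤ C) :
    Nat.card (Sylow p S) = M.index := by
  rw [Sylow.card_eq_index_normalizer P]
  congr 1
  have hle : M ≤ Subgroup.normalizer (P : Set S) := by
    intro m hm
    rw [← Sylow.smul_eq_iff_mem_normalizer]
    have h1 : ((m • P : Sylow p S) : Subgroup S) ≤ C := by
      intro y hy
      rw [Sylow.coe_subgroup_smul, Subgroup.mem_pointwise_smul_iff_inv_smul_mem] at hy
      have h2 := hP hy
      have h3 := hCn.conj_mem ⟨_, hCM h2⟩ (by simpa [Subgroup.mem_subgroupOf] using h2) ⟨m, hm⟩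
      simpa [Subgroup.mem_subgroupOf, mul_assoc] using h3
    have hcomm : IsMulCommutative C := hC.isMulCommutative
    have hn : ((P.subtype hP : Sylow p C) : Subgroup C).Normal := ⟨fun a ha g => by
      rw [mul_comm' g a, mul_inv_cancel_right]; exact ha⟩
    have := Sylow.unique_of_normal (P.subtype hP) hn
    exact Sylow.subtype_injective (hP := h1) (hQ := hP) (Subsingleton.elim _ _)
  rcases hM.le_iff.mp hle with h | h
  · exfalso
    have hPn : (P : Subgroup S).Normal := Subgroup.normalizer_eq_top_iff.mp h
    rcases hPn.eq_bot_or_eq_top with h1 | h1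
    · exact P.ne_bot_of_dvd_card hp h1
    · have : C = ⊤ := top_le_iff.mp (h1 ▸ hP)
      have h2 : M = ⊤ := top_le_iff.mp (this ▸ hCM)
      exact hM.1 h2
  · exact h

end Cfsg.Agent.S4344
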