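import Cfsg.Statements.S4345
import Cfsg.Agent.H85.SylowCount
import Cfsg.Agent.H2.MinNormal

set_option autoImplicit false
open Cfsg

namespace Cfsg.Agent.S4345

open Cfsg.Agent.H85

/-- Let G be a finite solvable group and p, ℓ primes. Then the largest power of ℓ dividing the number of Sylow p-subgroups of G is congruent to 1 modulo p. -/
theorem result {G : Type*} [Group G] [Finite G]
    (hG : Group.IsSolvable G) (p ℓ : ℕ) [Fact p.Prime] (hℓ : ℓ.Prime) :
    ℓ ^ (Nat.card (Sylow p G)).factorization ℓ ≡ 1 [MOD p] := by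
  induction h : Nat.card G using Nat.strong_induction_on generalizing G with
  | _ n ih =>
    rcases subsingleton_or_nontrivial G with hs | hs
    · have : Nat.card (Sylow p G) = 1 := by
        obtain ⟨P⟩ : Nonempty (Sylow p G) := inferInstance
        have h1 := P.card_dvd_index
        have h2 := Subgroup.index_dvd_card (P : Subgroup G)
        rw [Nat.card_of_subsingleton (1 : G)] at h2
        exact Nat.dvd_one.mp (h1.trans h2)
      rw [this]; simp [Nat.ModEq]
    obtain ⟨M, q, hq, hMn, hM, -, hMq, -⟩ := H2.exists_minimal_normal_of_solvable (G := G)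
    have hlt : Nat.card (G ⧸ M) < n := by
      rw [← h, ← Subgroup.index_eq_card, ← Subgroup.index_mul_card M]
      have h1 : 1 < Nat.card M := (Subgroup.one_lt_card_iff_ne_bot M).mpr hM
      have h2 : 0 < M.index := Nat.pos_of_ne_zero Subgroup.index_ne_zero_of_finite
      nlinarith
    have h1 := ih _ hlt (G := G ⧸ M) inferInstance rfl
    obtain ⟨P⟩ : Nonempty (Sylow p G) := inferInstance
    have h2 := card_sylow_eq_mul (QuotientGroup.mk' M) (QuotientGroup.mk'_surjective M) P
    rw [QuotientGroup.ker_mk'] at h2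
    have h3 : Nat.card (Sylow p ((P : Subgroup G) ⊔ M : Subgroup G)) ∣ Nat.card M := by
      rw [card_sylow_of_le P le_sup_left]
      have h4 : (Subgroup.normalizer (P : Set G)).relIndex ((P : Subgroup G) ⊔ M) ∣
          (P : Subgroup G).relIndex ((P : Subgroup G) ⊔ M) :=
        Subgroup.relIndex_dvd_of_le_left _ Subgroup.le_normalizer
      refine h4.trans ?_
      rw [sup_comm, relIndex_sup_of_normal]
      exact Subgroup.relIndex_dvd_card _ _
    have := Fact.mk hq
    obtain ⟨k, hk⟩ := IsPGroup.iff_card.mp hMq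
    rw [hk] at h3
    obtain ⟨j, -, hj⟩ := (Nat.dvd_prime_pow hq).mp h3
    have h5 : q ^ j ≡ 1 [MOD p] := hj ▸ card_sylow_modEq_one p _
    rw [h2, hj, Nat.factorization_mul Nat.card_pos.ne' (pow_pos hq.pos j).ne', Finsupp.add_apply,
      pow_add]
    have h6 : ℓ ^ (q ^ j).factorization ℓ ≡ 1 [MOD p] := by
      rw [hq.factorization_pow]
      by_cases hql : q = ℓ
      · subst hql; simpa using h5
      · simp [Finsupp.single_apply, hql, Nat.ModEq]
    simpa using h1.mul h6

end Cfsg.Agent.S4345
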