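import Cfsg.Statements.S4346
import Cfsg.Agent.H36.Closed
import Cfsg.Agent.H36.More
import Cfsg.Agent.S0720
import Cfsg.Agent.S0985
import Cfsg.Agent.S0144
import Cfsg.Agent.H81.CycSyl
import Cfsg.Agent.H81.Frob
import Cfsg.Agent.H2.MinNormal
import Cfsg.Agent.H78.PermSmall

set_option autoImplicit false
open Cfsg

namespace Cfsg.Agent.S4346

open MulAction Subgroup

universe u

variable {G : Type u} [Group G] [Finite G]

theorem exists_smul_eq_of_le {p : ℕ} [Fact p.Prime] {P Q : Sylow p G} {K : Subgroup G}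
    (hP : (P : Subgroup G) ≤ K) (hQ : (Q : Subgroup G) ≤ K) : ∃ g ∈ K, g • P = Q := by
  obtain ⟨g, hg⟩ := exists_smul_eq K (P.subtype hP) (Q.subtype hQ)
  rw [Sylow.smul_subtype] at hg
  exact ⟨g, g.2, Sylow.subtype_injective hg⟩

theorem two_trans [Fact (Nat.Prime 3)] (h : Nat.card (Sylow 3 G) = 22) {a b c d : Sylow 3 G}
    (hab : a ≠ b) (hcd : c ≠ d) : ∃ g : G, g • a = c ∧ g • b = d := by
  classical
  have := Fintype.ofFinite (Sylow 3 G)
  have hnt : Nontrivial (Sylow 3 G) := ⟨a, b, hab⟩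
  have hi : (normalizer (a : Set G)).index = 22 := a.card_eq_index_normalizer.symm.trans h
  have hprim : IsPreprimitive G (Sylow 3 G) := by
    rw [← isCoatom_stabilizer_iff_preprimitive G a, Sylow.stabilizer_eq_normalizer]
    refine ⟨fun e => by rw [e, index_top] at hi; exact absurd hi (by decide), fun L hL => ?_⟩
    have h1 := card_sylow_modEq_one 3 L
    have h2 := relIndex_mul_index hL.le
    rw [(a.subtype (le_normalizer.trans hL.le)).card_eq_index_normalizer] at h1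
    change (normalizer ((a : Subgroup G).subgroupOf L : Set L)).index ≡ 1 [MOD 3] at h1
    rw [← subgroupOf_normalizer_eq (le_normalizer.trans hL.le)] at h1
    change (normalizer (a : Set G)).relIndex L ≡ 1 [MOD 3] at h1
    have h3 : (normalizer (a : Set G)).relIndex L ≠ 1 := fun e =>
      hL.not_ge (relIndex_eq_one.1 e)
    rw [hi] at h2
    rw [← index_eq_one]
    have h4 : L.index ∈ Nat.divisors 22 := Nat.mem_divisors.2 ⟨Dvd.intro_left _ h2, by decide⟩
    rw [show Nat.divisors 22 = {1, 2, 11, 22} by decide] at h4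
    simp only [Finset.mem_insert, Finset.mem_singleton] at h4
    unfold Nat.ModEq at h1
    rcases h4 with h4 | h4 | h4 | h4 <;> rw [h4] at h2 ⊢ <;> omega
  rcases S0720.result (p := 11) (by decide) (by rw [← Nat.card_eq_fintype_card, h]) _
    (H78.preprimitive_range hprim) a with h1 | ⟨-, n, h1, h2, -⟩
  · obtain ⟨⟨_, g, rfl⟩, h2⟩ := is_two_pretransitive_iff.1 h1 hab hcd
    exact ⟨g, h2⟩
  · rcases n with _ | _ | n <;> nlinarith

theorem card_three [Fact (Nat.Prime 3)] [FaithfulSMul G (Sylow 3 G)]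
    (h : Nat.card (Sylow 3 G) = 22) (P : Sylow 3 G) : Nat.card (P : Subgroup G) = 3 := by
  obtain ⟨A, B, hAB, h1⟩ := S0985.result (G := G) 3 2 (by rw [h]; decide)
  have h2 : (B : Subgroup G).relIndex A = 3 := by
    obtain ⟨k, hk⟩ := A.isPGroup'.index ((B : Subgroup G).subgroupOf A)
    change (B : Subgroup G).relIndex A ≤ 3 at h1
    change (B : Subgroup G).relIndex A = _ at hk
    rcases k with _ | _ | k
    · exact absurd (Sylow.ext (A.is_maximal' B.isPGroup' (relIndex_eq_one.1 hk)).symm) hAB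
    · exact hk
    · rw [hk, pow_succ, pow_succ] at h1
      have := Nat.one_le_pow k 3 (by decide)
      omega
  have h3 : ∀ Q R : Sylow 3 G, Q ≠ R →
      Nat.card ↥((Q : Subgroup G) ⊓ R) = Nat.card ↥((A : Subgroup G) ⊓ B) ∧
      Nat.card {S : Sylow 3 G // (Q : Subgroup G) ⊓ R ≤ S} =
        Nat.card {S : Sylow 3 G // (A : Subgroup G) ⊓ B ≤ S} := by
    intro Q R hQR
    obtain ⟨g, rfl, rfl⟩ := two_trans h hAB hQR
    rw [H72.cj_sylow, H72.cj_sylow, ← H72.cj_inf, H72.card_cj]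
    refine ⟨rfl, (Nat.card_congr (Equiv.subtypeEquiv (MulAction.toPerm g) fun S => ?_)).symm⟩
    rw [MulAction.toPerm_apply, H72.cj_sylow, H72.cj_le_cj_iff]
  have h4 : ∀ Q R S T : Sylow 3 G, Q ≠ R → S ≠ T → ((S : Subgroup G) ⊓ T = (Q : Subgroup G) ⊓ R ↔
      (Q : Subgroup G) ⊓ R ≤ S ∧ (Q : Subgroup G) ⊓ R ≤ T) := fun Q R S T h5 h6 =>
    ⟨fun e => e ▸ ⟨inf_le_left, inf_le_right⟩, fun e => (eq_of_le_of_card_ge (le_inf e.1 e.2)
      ((h3 S T h6).1.trans (h3 Q R h5).1.symm).le).symm⟩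
  have hsub : ∀ (D : Subgroup G) (Q : Sylow 3 G), D ≤ Q →
      Nat.card {S : Sylow 3 G // Q ≠ S ∧ D ≤ S} + 1 = Nat.card {S : Sylow 3 G // D ≤ S} := by
    intro D Q hD
    rw [← H81.card_add_card_not (fun S : Sylow 3 G => D ≤ S) (fun S => Q ≠ S)]
    congr 1
    · exact Nat.card_congr (Equiv.subtypeEquivRight fun S => and_comm)
    · rw [eq_comm, Nat.card_eq_one_iff_exists]
      exact ⟨⟨Q, hD, fun e => e rfl⟩, fun S => Subtype.ext (not_not.1 S.2.2).symm⟩
  obtain ⟨k, hk⟩ : ∃ k, k + 1 = Nat.card {S : Sylow 3 G // (A : Subgroup G) ⊓ B ≤ S} :=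
    ⟨_, hsub _ A inf_le_left⟩
  have hk' : ∀ Q R S : Sylow 3 G, Q ≠ R → (Q : Subgroup G) ⊓ R ≤ S →
      Nat.card {T : Sylow 3 G // S ≠ T ∧ (Q : Subgroup G) ⊓ R ≤ T} = k := fun Q R S h5 h6 =>
    Nat.add_right_cancel ((hsub _ S h6).trans ((h3 Q R h5).2.trans hk.symm))
  have h21 : ∀ Q : Sylow 3 G, Nat.card {S : Sylow 3 G // Q ≠ S} = 21 := by
    intro Q
    have h5 := hsub ⊥ Q bot_le
    simp only [bot_le, and_true] at h5
    rw [Nat.card_congr (Equiv.subtypeUnivEquiv fun _ => trivial), h] at h5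
    omega
  have h5 : k ∣ 21 := by
    rw [← h21 A]
    refine H81.dvd_card_of_fibers _ (fun S : Sylow 3 G => (A : Subgroup G) ⊓ S) k fun R hR => ?_
    rw [← hk' A R A hR inf_le_left]
    exact (Nat.card_congr (Equiv.subtypeEquivRight fun T => and_congr_right fun hT => by
      rw [h4 A R A T hR hT, and_iff_right inf_le_left])).dvd
  have hprod : ∀ (S : Sylow 3 G → Prop) (T : Sylow 3 G → Sylow 3 G → Prop) (m : ℕ),
      (∀ Q, S Q → Nat.card {R // T Q R} = m) →
      Nat.card {x : Sylow 3 G × Sylow 3 G // S x.1 ∧ T x.1 x.2} = Nat.card {Q // S Q} * m := by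
    intro S T m hm
    rw [← H81.card_preimage_eq_mul (α := {x : Sylow 3 G × Sylow 3 G // T x.1 x.2}) S
      (fun x => x.1.1) m fun Q hQ => ?_]
    · exact Nat.card_congr ⟨fun x => ⟨⟨x.1, x.2.2⟩, x.2.1⟩, fun x => ⟨x.1.1, x.2, x.1.2⟩,
        fun _ => rfl, fun _ => rfl⟩
    · rw [← hm Q hQ]
      exact Nat.card_congr ⟨fun x => ⟨x.1.1.2, Eq.mp (congrArg (T · x.1.1.2) x.2) x.1.2⟩, fun R => ⟨⟨(Q, R.1), R.2⟩, rfl⟩,
        fun ⟨⟨⟨_, _⟩, _⟩, e⟩ => by subst e; rfl, fun _ => rfl⟩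
  have h6 : (k + 1) * k ∣ 22 * 21 := by
    have h7 := hprod (fun _ => True) (fun Q R => Q ≠ R) 21 fun Q _ => h21 Q
    rw [Nat.card_congr (Equiv.subtypeUnivEquiv fun _ => trivial), h] at h7
    rw [← h7]
    refine H81.dvd_card_of_fibers _
      (fun x : Sylow 3 G × Sylow 3 G => (x.1 : Subgroup G) ⊓ x.2) _ fun ⟨Q, R⟩ hR => ?_
    rw [hk, ← (h3 Q R hR.2).2, ← hprod _ (fun S T => S ≠ T ∧ (Q : Subgroup G) ⊓ R ≤ T) k
      fun S hS => hk' Q R S hR.2 hS]
    refine (Nat.card_congr (Equiv.subtypeEquivRight fun x => ?_)).dvd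
    exact ⟨fun e => ⟨⟨trivial, e.2.1⟩, (h4 Q R _ _ hR.2 e.2.1).2 ⟨e.1, e.2.2⟩⟩, fun e =>
      ⟨((h4 Q R _ _ hR.2 e.1.2).1 e.2).1, e.1.2, ((h4 Q R _ _ hR.2 e.1.2).1 e.2).2⟩⟩
  have h7 : k ≠ 1 := by
    rintro rfl
    have h8 : ¬ (A : Subgroup G) ≤ normalizer (B : Set G) := fun e => hAB
      (Sylow.ext (A.is_maximal' B.isPGroup' fun x hx => H81.mem_sylow_of_mem_normalizer B (e hx)
        (H81.exists_pow_eq_one_of_forall_prime Nat.prime_three
          (H81.forall_prime_of_mem_isPGroup Nat.prime_three A.isPGroup' hx))).symm)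
    obtain ⟨g, hg, hg'⟩ := SetLike.not_le_iff_exists.1 h8
    have h9 := (Nat.card_eq_one_iff_unique.1 (hk' A B A hAB inf_le_left)).1
    have hgA : g • A = A := Sylow.smul_eq_iff_mem_normalizer.2 (le_normalizer hg)
    refine hg' (Sylow.smul_eq_iff_mem_normalizer.1 (congrArg Subtype.val (h9.elim
      ⟨g • B, fun e => hAB (smul_left_cancel g (hgA.trans e)), fun x hx => ?_⟩
      ⟨B, hAB, inf_le_right⟩)))
    have h10 := H36.commutator_mem_of_index_dvd_prime A.isPGroup' ((B : Subgroup G).subgroupOf A)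
      h2.dvd ⟨g, hg⟩⁻¹ ⟨x, hx.1⟩
    rw [H72.cj_sylow, H72.mem_cj]
    simpa using mul_mem (mem_subgroupOf.1 h10) hx.2
  have h8 : k = 21 := by
    have h9 : k ∈ Nat.divisors 21 := Nat.mem_divisors.2 ⟨h5, by decide⟩
    rw [show Nat.divisors 21 = {1, 3, 7, 21} by decide] at h9
    simp only [Finset.mem_insert, Finset.mem_singleton] at h9
    rcases h9 with rfl | rfl | rfl | rfl
    · exact absurd rfl h7
    · exact absurd h6 (by decide)
    · exact absurd h6 (by decide)
    · rfl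
  have h9 : (A : Subgroup G) ⊓ B = ⊥ := by
    have h10 := H36.forall_of_card_subtype_ge (p := fun S : Sylow 3 G => (A : Subgroup G) ⊓ B ≤ S)
      (by rw [← hk, h8, h])
    refine eq_bot_iff.2 fun x hx => mem_bot.2 (eq_of_smul_eq_smul fun S : Sylow 3 G => ?_)
    rw [one_smul]
    exact Sylow.smul_eq_iff_mem_normalizer.2 (le_normalizer (h10 S hx))
  rw [H36.card_sylow_congr A P, ← H36.relIndex_mul_card_inf (B : Subgroup G) A, h2, inf_comm, h9, card_bot]

theorem arith : ∀ f < 22, ∀ r < 22, 5 ≤ r → ¬ 2 ∣ r → ¬ 3 ∣ r → f % 3 = 1 → r ∣ 22 - f →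
    (r = 5 ∧ f = 7) ∨ (r = 7 ∧ f = 1) := by
  intro f hf r hr h5
  interval_cases r <;> omega

theorem fix [Fact (Nat.Prime 3)] [FaithfulSMul G (Sylow 3 G)] (h : Nat.card (Sylow 3 G) = 22)
    (Q : Sylow 3 G) {r : ℕ} {x : G} (hr : r.Prime) (hr5 : 5 ≤ r) (hx : orderOf x = r)
    (hxQ : x ∈ normalizer (Q : Set G)) : r = 7 ∧ Nat.card (fixedBy (Sylow 3 G) x) = 1 := by
  have h3 := card_three h
  have hC : ∀ (Q : Sylow 3 G) (r : ℕ) (x : G), r.Prime → 5 ≤ r → orderOf x = r →
      x ∈ normalizer (Q : Set G) → x ∈ centralizer (Q : Set G) := fun Q r x hr hr5 hx hxQ =>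
    H36.mem_centralizer_of_coprime (h3 Q) hxQ (by
      rw [hx]; exact (Nat.coprime_primes Nat.prime_two hr).2 (by omega))
  have hpre : ∀ (Q : Sylow 3 G) (r : ℕ) (x : G), r.Prime → 5 ≤ r → orderOf x = r →
      x ∈ normalizer (Q : Set G) → (r = 5 ∧ Nat.card (fixedBy (Sylow 3 G) x) = 7) ∨
        (r = 7 ∧ Nat.card (fixedBy (Sylow 3 G) x) = 1) := by
    intro Q r x hr hr5 hx hxQ
    have h1 := H36.card_fixedBy_sylow_mod Q (h3 Q) (hC Q r x hr hr5 hx hxQ)
    have h2 := H36.card_modEq_card_fixedBy_prime (X := Sylow 3 G) hr x hx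
    have h4 := H36.card_fixedBy_lt (X := Sylow 3 G) (H36.ne_one_of_orderOf_prime hr hx)
    rw [h] at h2 h4
    have h5 := (Nat.modEq_iff_dvd' h4.le).1 h2.symm
    have h6 := Nat.le_of_dvd (by omega) h5
    refine arith _ h4 r (by omega) hr5 (fun e => ?_) (fun e => ?_) h1 h5
    · have := (Nat.prime_dvd_prime_iff_eq Nat.prime_two hr).1 e
      omega
    · have := (Nat.prime_dvd_prime_iff_eq Nat.prime_three hr).1 e
      omega
  refine (hpre Q r x hr hr5 hx hxQ).resolve_left fun ⟨h5, h7⟩ => ?_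
  have hle : ∀ S ∈ fixedBy (Sylow 3 G) x, (S : Subgroup G) ≤ centralizer ({x} : Set G) :=
    fun S hS y hy => mem_centralizer_singleton_iff.2
      (hC S r x hr hr5 hx (Sylow.smul_eq_iff_mem_normalizer.1 hS) y hy)
  have hQ : Q ∈ fixedBy (Sylow 3 G) x := Sylow.smul_eq_iff_mem_normalizer.2 hxQ
  have h1 : orbit (centralizer ({x} : Set G)) Q = fixedBy (Sylow 3 G) x := by
    ext S
    constructor
    · rintro ⟨g, rfl⟩
      exact H36.smul_mem_fixedBy_of_commute (mem_centralizer_singleton_iff.1 g.2) Q hQ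
    · intro hS
      obtain ⟨g, hg, e⟩ := exists_smul_eq_of_le (hle Q hQ) (hle S hS)
      exact ⟨⟨g, hg⟩, e⟩
  have h2 := (stabilizer (centralizer ({x} : Set G)) Q).index_dvd_card
  rw [index_stabilizer, h1, ← Nat.card_coe_set_eq, h7] at h2
  obtain ⟨u, hu, hu7⟩ := H36.exists_orderOf_eq_of_dvd _ (by decide) h2
  have h4 := H36.card_modEq_card_fixedBy_prime (X := Sylow 3 G) (by decide) u hu7
  rw [h] at h4
  have h6 : Nat.card (fixedBy (Sylow 3 G) u) ≠ 0 := fun e => absurd (e ▸ h4) (by decide)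
  obtain ⟨⟨S, hS⟩⟩ := (Nat.card_ne_zero.1 h6).1
  rcases hpre S 7 u (by decide) (by decide) hu7 (Sylow.smul_eq_iff_mem_normalizer.1 hS) with h8 | h8
  · exact absurd h8.1 (by decide)
  · have h9 := H36.card_fixedBy_modEq_one_of_commute (X := Sylow 3 G) (by decide) hu7
      (mem_centralizer_singleton_iff.1 hu) h8.2
    exact absurd (h7 ▸ h9) (by decide)

theorem main [Fact (Nat.Prime 3)] [FaithfulSMul G (Sylow 3 G)] (h : Nat.card (Sylow 3 G) = 22) :
    False := by
  have h3 := card_three h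
  have : Fact (Nat.Prime 7) := ⟨by decide⟩
  have : Fact (Nat.Prime 11) := ⟨by decide⟩
  have : Nontrivial (Sylow 3 G) := Finite.one_lt_card_iff_nontrivial.1 (by rw [h]; decide)
  obtain ⟨P, R, hPR⟩ := exists_pair_ne (Sylow 3 G)
  let N := normalizer (P : Set G)
  have hN : ∀ {g : G}, g ∈ N ↔ g • P = P := Sylow.smul_eq_iff_mem_normalizer.symm
  have h7 : 7 ∣ Nat.card N := by
    have h1 : orbit N R = {P}ᶜ := by
      ext S
      constructor
      · rintro ⟨g, rfl⟩ e
        exact hPR (smul_left_cancel g.1 ((hN.1 g.2).trans e.symm))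
      · intro hS
        obtain ⟨g, hg, e⟩ := two_trans h hPR (Ne.symm hS)
        exact ⟨⟨g, hN.2 hg⟩, e⟩
    have h2 := (stabilizer N R).index_dvd_card
    rw [index_stabilizer, h1, Set.ncard_compl, h, Set.ncard_singleton] at h2
    exact Dvd.dvd.trans (by decide) h2
  -- the normal `3`-complement of `C(P)`
  let C : Subgroup N := (centralizer (P : Set G)).subgroupOf N
  have : C.Normal := normal_subgroupOf_centralizer_normalizer _
  have hPC : (P : Subgroup G).subgroupOf N ≤ C := fun x hx =>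
    H36.le_centralizer_of_card_prime (h3 P) hx
  have hnpc : HasNormalPComplement 3 C :=
    H3.hasNormalPComplement_of_normalizer_le_centralizer ((P.subtype le_normalizer).subtype hPC)
      fun g _ x hx => Subtype.ext (Subtype.ext (g.2 x hx))
  let K : Subgroup N := (pResidual 3 C).map C.subtype
  have hK3 : Nat.Coprime (Nat.card K) 3 := by
    rw [card_map_of_injective C.subtype_injective]
    exact H3.hasNormalPComplement_iff_coprime.1 hnpc
  have hprime : ∀ r : ℕ, r.Prime → r ∣ Nat.card K → r = 2 ∨ r = 7 := by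
    intro r hr hd
    obtain ⟨x, hx, hxr⟩ := H36.exists_orderOf_eq_of_dvd N hr (hd.trans (card_subgroup_dvd_card K))
    by_cases h5 : 5 ≤ r
    · exact Or.inr (fix h P hr h5 hxr hx).1
    · have h2 := hr.two_le
      have h4 : r ≠ 3 := fun e => absurd (Nat.eq_one_of_dvd_coprimes hK3 (e ▸ hd) dvd_rfl) (by decide)
      have h5 : r ≠ 4 := fun e => absurd (e ▸ hr) (by decide)
      omega
  obtain ⟨a, b, hab⟩ := H81.exists_eq_pow_mul_pow (Nat.card_pos (α := K)).ne' Nat.prime_two hprime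
  have hKne : K ≠ ⊥ := by
    obtain ⟨u, hu, hu7⟩ := H36.exists_orderOf_eq_of_dvd N (by decide) h7
    have h1 : (⟨u, hu⟩ : N) ∈ K := H3.mem_map_subtype_pResidual_of_coprime
      (H36.mem_centralizer_of_coprime (g := u) (h3 P) hu (by rw [hu7]; decide))
      (by rw [Subgroup.orderOf_mk, hu7]; decide)
    intro e
    rw [e, mem_bot] at h1
    exact H36.ne_one_of_orderOf_prime (by decide) hu7 (congrArg Subtype.val h1)
  obtain ⟨M₀, r, hr, hM₀, hM1, hM2, -, hM3, hM4, -⟩ := H2.exists_minimal_normal_le_of_solvable K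
    inferInstance (S0144.result _ _ a b Nat.prime_two (by decide) hab) hKne
  let M : Subgroup G := M₀.map N.subtype
  have hMN : N ≤ normalizer (M : Set G) := by
    rw [← normal_subgroupOf_iff_le_normalizer (map_subtype_le _), subgroupOf,
      comap_map_eq_self_of_injective N.subtype_injective]
    exact hM₀
  have hM : M ≠ ⊥ := fun e =>
    hM1 ((Subgroup.map_eq_bot_iff_of_injective _ N.subtype_injective).1 e)
  have hMp : IsPGroup r M := hM3.map _
  have := Fact.mk hr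
  rcases hprime r hr ((hM3.card_eq_or_dvd.resolve_left fun e => hM1 (card_eq_one.1 e)).trans
    (card_dvd_of_le hM2)) with rfl | rfl
  · obtain ⟨S, hS, hPS⟩ := hMp.exists_fixed_point_of_prime_dvd_card_of_fixed_point (Sylow 3 G)
      (by rw [h]; decide) (a := P) fun g => hN.1 (map_subtype_le _ g.2)
    refine hM (eq_bot_iff.2 fun x hx => mem_bot.2 (eq_of_smul_eq_smul fun T : Sylow 3 G => ?_))
    rw [one_smul]
    by_cases hT : P = T
    · exact hT ▸ hN.1 (map_subtype_le _ hx)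
    obtain ⟨g, hg, rfl⟩ := two_trans h hPS hT
    have h1 : (g⁻¹ * x * g) • S = S :=
      hS ⟨_, H72.conj_mem_of_mem_normalizer' (hMN (hN.2 hg)) hx⟩
    rw [mul_assoc, mul_smul, inv_smul_eq_iff, mul_smul] at h1
    exact h1
  have hM7 : ∀ x ∈ M, x ≠ 1 → orderOf x = 7 := by
    rintro _ ⟨x, hx, rfl⟩ hx1
    exact orderOf_eq_prime (congrArg Subtype.val (hM4 x hx)) hx1
  have hsemi : ∀ D : Subgroup G, (∀ x ∈ D, x ≠ 1 → Nat.card (fixedBy (Sylow 3 G) x) = 1) →
      Nat.card D ∣ 21 := by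
    intro D hD
    have h1 := H36.card_dvd_of_card_fixedBy D 1 hD
    have h2 : 0 < Nat.card D := Nat.card_pos
    rw [h, mul_one, show 22 + (Nat.card D - 1) = 21 + Nat.card D by omega] at h1
    exact (Nat.dvd_add_left dvd_rfl).1 h1
  have hMc : Nat.card M = 7 := by
    have h1 := hsemi M fun x hx hx1 =>
      (fix h P (by decide) (by decide) (hM7 x hx hx1) (map_subtype_le _ hx)).2
    obtain ⟨k, hk⟩ := IsPGroup.iff_card.1 hMp
    rcases k with _ | _ | k
    · exact absurd (card_eq_one.1 hk) hM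
    · exact hk
    · exact absurd ((pow_dvd_pow 7 (by omega : 2 ≤ k + 1 + 1)).trans (hk ▸ h1)) (by decide)
  obtain ⟨u, hu, hu7, -⟩ := H36.exists_generator_prime hMc
  have hu1 := (fix h P (by decide) (by decide) hu7 (map_subtype_le _ hu)).2
  have hD := hsemi (centralizer (M : Set G) ⊓ centralizer (P : Set G)) fun x hx hx1 => by
    have h1 := H36.card_fixedBy_sylow_mod P (h3 P) hx.2
    have h2 := H36.card_fixedBy_modEq_one_of_commute (X := Sylow 3 G) (by decide) hu7
      (hx.1 u hu) hu1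
    have h4 := H36.card_fixedBy_lt (X := Sylow 3 G) hx1
    unfold Nat.ModEq at h2
    omega
  have hNc : Nat.card N ∣ 6 * 21 * 2 := by
    have h1 := H36.relIndex_centralizer_dvd (h3 P)
    have h2 : (centralizer (M : Set G)).relIndex (centralizer (P : Set G)) ∣ 6 := by
      refine Dvd.dvd.trans ?_ (H36.relIndex_centralizer_dvd hMc)
      have h4 := (centralizer_le_normalizer (P : Set G)).trans hMN
      have := normal_subgroupOf_centralizer_normalizer (M : Set G)
      rw [← relIndex_subgroupOf h4]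
      exact relIndex_dvd_index_of_normal _ _
    rw [← H36.relIndex_mul_card (centralizer_le_normalizer (P : Set G)),
      ← H36.relIndex_mul_card_inf (centralizer (M : Set G)) (centralizer (P : Set G)), mul_comm]
    exact mul_dvd_mul (mul_dvd_mul h2 hD) h1
  obtain ⟨Q⟩ : Nonempty (Sylow 11 G) := inferInstance
  have hG := H36.card_sylow_mul_card_normalizer P
  have hn11 : ¬ 11 ∣ 2 * Nat.card N := fun e =>
    absurd (e.trans (mul_dvd_mul_left 2 hNc)) (by decide)
  have hG' : Nat.card G = 11 * (2 * Nat.card N) := by rw [← hG, h]; ring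
  have hQ := H36.card_sylow_eq_prime Q hG' hn11
  obtain ⟨x, hx, hx11, -⟩ := H36.exists_generator_prime hQ
  have hx1 := H36.card_modEq_card_fixedBy_prime (X := Sylow 3 G) (by decide) x hx11
  have hx2 := H36.card_fixedBy_lt (X := Sylow 3 G) (H36.ne_one_of_orderOf_prime (by decide) hx11)
  rw [h] at hx1 hx2
  have hGQ := H36.card_sylow_mul_card_normalizer Q
  have key : ∀ r : ℕ, r.Prime → r.Coprime 10 → r ∣ Nat.card N →
      (∀ y : G, orderOf y = r → Nat.card (fixedBy (Sylow 3 G) y) = 1) →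
      ¬ Nat.card (fixedBy (Sylow 3 G) x) ≡ 1 [MOD r] → r ∣ Nat.card (Sylow 11 G) := by
    intro r hr hc hd hy hn
    refine (hr.dvd_mul.1 (hGQ ▸ hd.trans (card_subgroup_dvd_card N))).resolve_right fun e => ?_
    obtain ⟨y, hyQ, hyr⟩ := H36.exists_orderOf_eq_of_dvd _ hr e
    exact hn (H36.card_fixedBy_modEq_one_of_commute hr hyr
      (H36.mem_centralizer_of_coprime hQ hyQ (hyr ▸ hc.symm) x hx).symm (hy y hyr))
  have k3 := key 3 Nat.prime_three (by decide) (h3 P ▸ card_dvd_of_le le_normalizer)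
    (fun y hy => H36.card_fixedBy_sylow P (h3 P) hy) (by unfold Nat.ModEq at hx1 ⊢; omega)
  have k7 := key 7 (by decide) (by decide) h7 (fun y hy => by
    have h4 := H36.card_modEq_card_fixedBy_prime (X := Sylow 3 G) (by decide) y hy
    rw [h] at h4
    have h6 : Nat.card (fixedBy (Sylow 3 G) y) ≠ 0 := fun e => absurd (e ▸ h4) (by decide)
    obtain ⟨⟨S, hS⟩⟩ := (Nat.card_ne_zero.1 h6).1
    exact (fix h S (by decide) (by decide) hy (Sylow.smul_eq_iff_mem_normalizer.1 hS)).2)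
    (by unfold Nat.ModEq at hx1 ⊢; omega)
  have k11 := card_sylow_modEq_one 11 G
  have kd : Nat.card (Sylow 11 G) ∣ 2 * (6 * 21 * 2) := by
    refine Dvd.dvd.trans ?_ (mul_dvd_mul_left 2 hNc)
    exact (Nat.Coprime.symm ((Nat.Prime.coprime_iff_not_dvd (by decide)).2
      (not_dvd_card_sylow 11 G))).dvd_of_dvd_mul_left (hG' ▸ Dvd.intro _ hGQ)
  obtain ⟨m, hm⟩ := Nat.Coprime.mul_dvd_of_dvd_of_dvd (by decide) k3 k7
  rw [hm] at k11 kd
  have k1 : m ∣ 24 := Nat.dvd_of_mul_dvd_mul_left (by decide : 0 < 3 * 7) kd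
  have k2 := Nat.le_of_dvd (by decide) k1
  unfold Nat.ModEq at k11
  interval_cases m <;> omega

theorem aux (n : ℕ) : ∀ (G : Type u) [Group G] [Finite G], Nat.card G = n →
    Nat.card (Sylow 3 G) ≠ 22 := by
  have : Fact (Nat.Prime 3) := ⟨Nat.prime_three⟩
  induction n using Nat.strong_induction_on with
  | _ n ih =>
  intro G _ _ hn h
  have h1 : (toPermHom G (Sylow 3 G)).ker = ⊥ := by
    by_contra hne
    exact ih _ (hn ▸ H2.card_quotient_lt _ hne) _ rfl ((H36.card_sylow_quotient _ fun Q g hg =>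
      Sylow.smul_eq_iff_mem_normalizer.1
        (congrArg (fun σ : Equiv.Perm (Sylow 3 G) => σ Q) (MonoidHom.mem_ker.1 hg))).trans h)
  have hi := (MonoidHom.ker_eq_bot_iff _).1 h1
  have : FaithfulSMul G (Sylow 3 G) := ⟨fun {x y} hxy => hi (Equiv.ext hxy)⟩
  exact main h

/-- No finite group has exactly 22 Sylow 3-subgroups. -/
theorem result {G : Type*} [Group G] [Finite G] : Nat.card (Sylow 3 G) ≠ 22 := by
  exact aux _ G rfl

end Cfsg.Agent.S4346
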