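import Cfsg.Statements.S4354
import Cfsg.Agent.H8.ClsSz
import Cfsg.Agent.H92.SylIn

set_option autoImplicit false
open Cfsg

namespace Cfsg.Agent.S4354

open Subgroup Cfsg.Agent.H83

theorem lift_p {G H : Type*} [Group G] [Finite G] [Group H] {p : ℕ} [hp : Fact p.Prime] (f : G →* H)
    (hf : Function.Surjective f) {y : H} {k : ℕ} (hy : orderOf y = p ^ k) :
    ∃ x : G, f x = y ∧ ∃ j, orderOf x = p ^ j := by
  obtain ⟨g, rfl⟩ := hf y
  obtain ⟨u, v, hu, hv, rfl, hu', hv'⟩ := H82.exists_p_parts hp.out g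
  refine ⟨u, ?_, hu'⟩
  have h1 : f v ∈ zpowers (f (u * v)) := by
    rw [← MonoidHom.map_zpowers]; exact mem_map_of_mem f hv
  have h2 : orderOf (f v) ∣ p ^ k := hy ▸ orderOf_dvd_of_mem_zpowers h1
  have h3 : orderOf (f v) = 1 :=
    Nat.Coprime.eq_one_of_dvd (Nat.Coprime.coprime_dvd_left (orderOf_map_dvd f v) (hv'.pow_right k)) h2
  rw [map_mul, orderOf_eq_one_iff.1 h3, mul_one]

/-- Let G be a finite group and p a prime such that the Sylow p-subgroups of G are non-abelian while every element of p-power order has conjugacy class size prime to p, and suppose no nontrivial proper normal subgroup N of G has this property and no quotient G/N by such an N has it. Then G is simple. -/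
theorem result {G : Type*} [Group G] [Finite G]
    (p : ℕ) [Fact p.Prime] (h : ((∃ P : Sylow p G, ¬ IsMulCommutative P) ∧ ∀ x : G, (∃ k : ℕ, orderOf x = p ^ k) → ¬ p ∣ (Subgroup.centralizer ({x} : Set G)).index))
    (hmin : ∀ (N : Subgroup G) [N.Normal], N ≠ ⊥ → N ≠ ⊤ →
      ¬ ((∃ P : Sylow p N, ¬ IsMulCommutative P) ∧ ∀ x : N, (∃ k : ℕ, orderOf x = p ^ k) → ¬ p ∣ (Subgroup.centralizer ({x} : Set N)).index) ∧
      ¬ ((∃ P : Sylow p (G ⧸ N), ¬ IsMulCommutative P) ∧ ∀ x : (G ⧸ N), (∃ k : ℕ, orderOf x = p ^ k) → ¬ p ∣ (Subgroup.centralizer ({x} : Set (G ⧸ N))).index)) :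
    IsSimpleGroup G := by
  obtain ⟨⟨P, hP⟩, hcl⟩ := h
  have hnt : Nontrivial G := by
    by_contra hn
    rw [not_nontrivial_iff_subsingleton] at hn
    exact hP ⟨⟨fun a b => Subsingleton.elim _ _⟩⟩
  refine ⟨fun N hN => ?_⟩
  by_contra hc
  rw [not_or] at hc
  obtain ⟨h1, h2⟩ := hmin N hc.1 hc.2
  have hA : ∀ Q : Sylow p N, IsMulCommutative Q := by
    by_contra hq
    push Not at hq
    refine h1 ⟨hq, fun x ⟨k, hk⟩ hd => hcl x ⟨k, by rw [orderOf_coe, hk]⟩ (hd.trans (cs_normal_dvd N x))⟩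
  have hB : ∀ Q : Sylow p (G ⧸ N), IsMulCommutative Q := by
    by_contra hq
    push Not at hq
    refine h2 ⟨hq, fun y ⟨k, hk⟩ hd => ?_⟩
    obtain ⟨x, rfl, hx⟩ := lift_p (QuotientGroup.mk' N) (QuotientGroup.mk'_surjective N) hk
    exact hcl x hx (hd.trans (cs_quotient_dvd N x))
  let f := QuotientGroup.mk' N
  let Pb : Sylow p (G ⧸ N) := P.mapSurjective (QuotientGroup.mk'_surjective N)
  have hPb : (Pb : Subgroup (G ⧸ N)) = (P : Subgroup G).map f := rfl
  have hcomm := hB Pb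
  have key : ∀ x ∈ (P : Subgroup G), ∃ z ∈ centralizer ((P : Subgroup G) : Set G),
      z ∈ (P : Subgroup G) ∧ z⁻¹ * x ∈ N := by
    intro x hx
    obtain ⟨k, hk⟩ := H82.orderOf_eq_pow_of_mem P.isPGroup' hx
    obtain ⟨g, hg⟩ := H8.exists_conj_mem_cent_sylow P (hcl x ⟨k, hk⟩)
    have hz : f (g * x * g⁻¹) ∈ centralizer ((Pb : Subgroup (G ⧸ N)) : Set (G ⧸ N)) := by
      rw [mem_centralizer_iff]
      rintro _ ⟨u, hu, rfl⟩
      rw [← map_mul, ← map_mul, mem_centralizer_iff.1 hg u hu]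
    have hx' : (f g)⁻¹ * f (g * x * g⁻¹) * f g ∈ centralizer ((Pb : Subgroup (G ⧸ N)) : Set (G ⧸ N)) := by
      have : (f g)⁻¹ * f (g * x * g⁻¹) * f g = f x := by simp [mul_assoc]
      rw [this]
      exact (Pb : Subgroup (G ⧸ N)).le_centralizer ⟨x, hx, rfl⟩
    obtain ⟨n, hn, hn'⟩ := Pb.conj_eq_normalizer_conj_of_mem_centralizer _ _ hz hx'
    obtain ⟨n0, rfl⟩ := QuotientGroup.mk'_surjective N n
    have hK : (P : Subgroup G) ⊔ N = (Pb : Subgroup (G ⧸ N)).comap f := by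
      rw [hPb, comap_map_eq, QuotientGroup.ker_mk']
    have hn0 : n0 ∈ normalizer (((P : Subgroup G) ⊔ N : Subgroup G) : Set G) := by
      rw [hK]
      exact le_normalizer_comap f (mem_comap.2 hn)
    obtain ⟨m, hm, hm'⟩ := ((H92.sylIn_top P).mono le_sup_left le_top).frattini hn0
    have hc : (m * n0)⁻¹ * (g * x * g⁻¹) * (m * n0) ∈ centralizer ((P : Subgroup G) : Set G) :=
      H21.conj_mem_of_mem_normalizer' (H21.normalizer_le_normalizer_centralizer _ hm') hg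
    refine ⟨_, hc, ?_, ?_⟩
    · have ho : orderOf ((m * n0)⁻¹ * (g * x * g⁻¹) * (m * n0)) = p ^ k := by
        rw [← hk]
        have := (MulAut.conj ((m * n0)⁻¹ * g)).orderOf_eq x
        rw [← this]; congr 1; simp [mul_assoc]
      have h3 := (H82.isPGroup_zpowers ho).inf_normalizer_sylow P
      exact (h3.le ⟨mem_zpowers _, centralizer_le_normalizer _ hc⟩).2
    · rw [← QuotientGroup.eq]
      change f _ = f x
      rw [hK] at hm
      have h4 := mem_centralizer_iff.1 hz (f m) hm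
      have h5 : (f g)⁻¹ * f (g * x * g⁻¹) * f g = f x := by simp [mul_assoc]
      rw [← h5, hn']
      simp only [map_mul, map_inv, mul_inv_rev] at h4 ⊢
      change (f n0)⁻¹ * (f m)⁻¹ * (f g * f x * (f g)⁻¹) * (f m * f n0) = (f n0)⁻¹ * (f g * f x * (f g)⁻¹) * f n0
      calc _ = (f n0)⁻¹ * (f m)⁻¹ * ((f g * f x * (f g)⁻¹) * f m) * f n0 := by group
        _ = _ := by rw [← h4]; group
  apply hP
  refine ⟨⟨fun a b => Subtype.ext ?_⟩⟩
  obtain ⟨z, hz, hzP, hzN⟩ := key a a.2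
  obtain ⟨w, hw, hwP, hwN⟩ := key b b.2
  have ha : z⁻¹ * a ∈ (P : Subgroup G) := mul_mem (inv_mem hzP) a.2
  have hb : w⁻¹ * b ∈ (P : Subgroup G) := mul_mem (inv_mem hwP) b.2
  have := hA (H3.sylowInf P N)
  have h6 : (⟨_, hzN⟩ : N) * ⟨_, hwN⟩ = ⟨_, hwN⟩ * ⟨_, hzN⟩ :=
    H21.mul_comm_of_mem (V := (H3.sylowInf P N : Subgroup N)) ha hb
  have h7 : (z⁻¹ * a) * (w⁻¹ * b) = (w⁻¹ * b) * (z⁻¹ * a) := congrArg Subtype.val h6
  have h8 := mem_centralizer_iff.1 hz _ hb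
  have h9 := mem_centralizer_iff.1 hw _ ha
  have h10 := mem_centralizer_iff.1 hw _ hzP
  change (a : G) * b = b * a
  calc (a : G) * b = z * ((z⁻¹ * a) * w) * (w⁻¹ * b) := by group
    _ = (z * w) * ((z⁻¹ * a) * (w⁻¹ * b)) := by rw [h9]; group
    _ = w * ((w⁻¹ * b) * z) * (z⁻¹ * a) := by rw [h7, h8, h10]; group
    _ = b * a := by group

end Cfsg.Agent.S4354
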