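import Cfsg.Statements.S4359
import Cfsg.Agent.H13.Sims

set_option autoImplicit false
open Pointwise
open Cfsg

namespace Cfsg.Agent.S4359

open Cfsg.Agent.H13
set_option linter.style.haveILetI false

/-- Let P be a subgroup of a finite group G and g an element such that P ∩ g⁻¹Pg is a normal subgroup of prime index p in g⁻¹Pg. Let n ≥ 1 and let K be the subgroup generated by P and its conjugates g⁻ⁱPgⁱ for i ≤ n. Suppose that g normalizes no non-identity normal subgroup of P and that P meets the center of K trivially. Then the order of P is pᵗ for some t with 1 ≤ t ≤ 3n and t ≠ 3n - 1. -/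
theorem result {G : Type*} [Group G] [Finite G]
    (P : Subgroup G) (g : G) (p : ℕ) (hp : p.Prime)
    (hN : ((P ⊓ MulAut.conj g⁻¹ • P).subgroupOf (MulAut.conj g⁻¹ • P)).Normal)
    (hidx : (P ⊓ MulAut.conj g⁻¹ • P).relIndex (MulAut.conj g⁻¹ • P) = p)
    (n : ℕ) (hn : 1 ≤ n) (K : Subgroup G) (hK : K = ⨆ i ∈ Finset.range (n + 1), MulAut.conj (g ^ i)⁻¹ • P)
    (h1 : ∀ Q : Subgroup G, Q ≤ P → (Q.subgroupOf P).Normal → MulAut.conj g • Q = Q → Q = ⊥)
    (h2 : P ⊓ (Subgroup.center K).map K.subtype = ⊥) :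
    ∃ t : ℕ, Nat.card P = p ^ t ∧ 1 ≤ t ∧ t ≤ 3 * n ∧ t ≠ 3 * n - 1 := by
  rw [← H49.cj_eq_smul] at hN hidx
  rw [inf_comm] at hN hidx
  refine Sims.main (g := g) hp ⟨(Subgroup.normal_subgroupOf_iff_le_normalizer inf_le_left).1 hN, hidx⟩ hn
    (fun R hR hP hg => h1 R hR (H49.normal_subgroupOf hP)
      (by rw [← H49.cj_eq_smul]; exact H49.cj_eq_of_mem_norm hg)) fun z hz hc => ?_
  rw [← Subgroup.mem_bot, ← h2]
  have hzK : z ∈ K := by
    rw [hK]
    refine (le_iSup₂_of_le (f := fun i (_ : i ∈ Finset.range (n + 1)) => MulAut.conj (g ^ i)⁻¹ • P)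
      0 (by simp) le_rfl) ?_
    simpa using hz
  have hKc : K ≤ Subgroup.centralizer {z} := by
    rw [hK]
    refine iSup₂_le fun i hi x hx => H49.mem_cent1.2 ?_
    rw [← H49.cj_eq_smul] at hx
    exact hc i (by simpa [Nat.lt_succ_iff] using hi) x hx
  exact ⟨hz, ⟨z, hzK⟩, Subgroup.mem_center_iff.2 fun k => Subtype.ext (H49.mem_cent1.1 (hKc k.2)), rfl⟩

end Cfsg.Agent.S4359
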