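import Cfsg.Statements.S4370
import Cfsg.Agent.S0016
import Cfsg.Agent.H3.NilpotentHall
import Cfsg.Agent.H69.UniqueP

set_option autoImplicit false
open Cfsg

namespace Cfsg.Agent.S4370

open Subgroup

theorem nonempty_prod {G : Type*} [Group G] (A B : Subgroup G) [A.Normal] [B.Normal]
    (h : A.IsComplement' B) : Nonempty (G ≃* A × B) := by
  have hc : ∀ (a : A) (b : B), Commute (A.subtype a) (B.subtype b) := fun a b =>
    commute_of_normal_of_disjoint A B inferInstance inferInstance h.disjoint a b a.2 b.2
  exact ⟨(MulEquiv.ofBijective (MonoidHom.noncommCoprod A.subtype B.subtype hc) h).symm⟩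

theorem pgroup_cases {P : Type*} [Group P] [Finite P] {p : ℕ} [hp : Fact p.Prime]
    (hP : IsPGroup p P) (h : ∀ A : Subgroup P, IsMulCommutative A → IsCyclic A) :
    IsCyclic P ∨ (p = 2 ∧ ∃ n : ℕ, Nonempty (P ≃* QuaternionGroup (2 ^ n))) := by
  refine S0016.result p hP ?_
  rcases subsingleton_or_nontrivial P with h1 | h1
  · intro H K _ _
    exact Subsingleton.elim _ _
  have := hP.center_nontrivial
  obtain ⟨z, hz⟩ : ∃ z : center P, orderOf z = p := by
    have := Fintype.ofFinite (center P)
    refine exists_prime_orderOf_dvd_card' p ?_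
    obtain ⟨k, hk⟩ := (hP.to_subgroup (center P)).nontrivial_iff_card.mp inferInstance
    rw [hk.2]
    exact dvd_pow_self p hk.1.ne'
  rw [← Subgroup.orderOf_coe] at hz
  suffices key : ∀ H : Subgroup P, Nat.card H = p → H = zpowers (z : P) from
    fun H K hH hK => (key H hH).trans (key K hK).symm
  intro H hH
  refine eq_of_le_of_card_ge (fun y hy => ?_) (by rw [Nat.card_zpowers, hz, hH])
  have hA : IsMulCommutative (closure {(z : P), y}) := by
    refine isMulCommutative_closure ?_
    have hzy : (z : P) * y = y * z := (mem_center_iff.mp z.2 y).symm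
    rintro a (rfl | rfl) b (rfl | rfl)
    · rfl
    · exact hzy
    · exact hzy.symm
    · rfl
  have := h _ hA
  have h2 := H69.mem_zpowers_of_isCyclic (T := closure {(z : P), y})
    (x := ⟨z, subset_closure (by simp)⟩) (y := ⟨y, subset_closure (by simp)⟩) (by
      rw [← Subgroup.orderOf_coe]
      apply Subtype.ext
      change y ^ orderOf (z : P) = 1
      rw [hz, ← hH]
      exact congrArg Subtype.val (pow_card_eq_one' (G := H) (x := ⟨y, hy⟩)))
  obtain ⟨k, hk⟩ := h2
  exact ⟨k, congrArg Subtype.val hk⟩

theorem quat_cent {k : ℕ} (hk : 1 ≤ k) (q : QuaternionGroup (2 ^ k))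
    (hq : q ∉ center (QuaternionGroup (2 ^ k))) :
    ∃ g : QuaternionGroup (2 ^ k), centralizer {q} ≤ zpowers g := by
  have : NeZero (2 * 2 ^ k) := ⟨by positivity⟩
  have ha : ∀ j : ZMod (2 * 2 ^ k), QuaternionGroup.a j ∈ zpowers (QuaternionGroup.a 1) := fun j =>
    ⟨(j.val : ℕ), by
      simp only [zpow_natCast, QuaternionGroup.a_one_pow, ZMod.natCast_zmod_val]⟩
  rcases q with i | i
  · refine ⟨.a 1, fun y hy => ?_⟩
    rcases y with j | j
    · exact ha j
    · exfalso
      apply hq
      rw [mem_centralizer_singleton_iff] at hy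
      simp only [QuaternionGroup.a_mul_xa, QuaternionGroup.xa_mul_a,
        QuaternionGroup.xa.injEq] at hy
      rw [mem_center_iff]
      rintro (l | l)
      · simp [add_comm]
      · simp only [QuaternionGroup.a_mul_xa, QuaternionGroup.xa_mul_a, QuaternionGroup.xa.injEq]
        linear_combination hy
  · refine ⟨.xa i, fun y hy => ?_⟩
    rw [mem_centralizer_singleton_iff] at hy
    have key : ∀ j : ZMod (2 * 2 ^ k), j + j = 0 →
        QuaternionGroup.a j ∈ zpowers (QuaternionGroup.xa i) := fun j hj => by
      have h1 : j = 0 ∨ j = (2 ^ k : ℕ) := by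
        have h2 : ((j.val + j.val : ℕ) : ZMod (2 * 2 ^ k)) = 0 := by simpa using hj
        rw [ZMod.natCast_eq_zero_iff, ← two_mul] at h2
        obtain ⟨c, hc⟩ := Nat.dvd_of_mul_dvd_mul_left two_pos h2
        have h3 := j.val_lt
        have h4 : c < 2 := by
          rw [hc, mul_comm 2] at h3
          exact lt_of_mul_lt_mul_left h3 (Nat.zero_le _)
        rw [← ZMod.natCast_zmod_val j, hc]
        interval_cases c <;> simp
      rcases h1 with rfl | rfl
      · exact one_mem _
      · rw [← QuaternionGroup.xa_sq i]
        exact pow_mem (mem_zpowers _) 2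
    rcases y with j | j
    · simp only [QuaternionGroup.a_mul_xa, QuaternionGroup.xa_mul_a,
        QuaternionGroup.xa.injEq] at hy
      exact key j (by linear_combination -hy)
    · simp only [QuaternionGroup.xa_mul_xa, QuaternionGroup.a.injEq] at hy
      have := key (j - i) (by linear_combination -hy)
      have h2 : QuaternionGroup.xa j = QuaternionGroup.xa i * QuaternionGroup.a (j - i) := by simp
      rw [h2]
      exact mul_mem (mem_zpowers _) this

/-- Let G be a finite non-abelian nilpotent group. Then the centralizer of every non-central element of G is cyclic if and only if G is isomorphic to the direct product of a generalized quaternion group and a cyclic group of odd order. -/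
theorem result {G : Type*} [Group G] [Finite G] (hG : Group.IsNilpotent G)
    (hna : ¬ IsMulCommutative G) :
    (∀ x : G, x ∉ Subgroup.center G → IsCyclic (Subgroup.centralizer ({x} : Set G))) ↔
      ∃ (k m : ℕ), 1 ≤ k ∧ Odd m ∧ Nonempty (G ≃* QuaternionGroup (2 ^ k) × Multiplicative (ZMod m)) := by
  constructor
  · intro h
    have hZ : IsCyclic (center G) := by
      obtain ⟨x, hx⟩ : ∃ x, x ∉ center G := by
        by_contra h1
        push Not at h1
        exact hna ⟨⟨fun a b => mem_center_iff.mp (h1 b) a⟩⟩
      have := h x hx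
      exact Subgroup.isCyclic_of_le (center_le_centralizer {x})
    have hab : ∀ A : Subgroup G, IsMulCommutative A → IsCyclic A := fun A hA => by
      by_cases h1 : A ≤ center G
      · exact Subgroup.isCyclic_of_le h1
      · obtain ⟨x, hxA, hx⟩ := SetLike.not_le_iff_exists.mp h1
        have := h x hx
        refine Subgroup.isCyclic_of_le (H' := centralizer {x}) fun y hy => ?_
        rw [mem_centralizer_singleton_iff]
        exact congrArg Subtype.val (hA.is_comm.comm ⟨y, hy⟩ ⟨x, hxA⟩)
    have hab' : ∀ {H : Type _} [Group H] (f : H →* G), Function.Injective f →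
        ∀ A : Subgroup H, IsMulCommutative A → IsCyclic A := fun f hf A hA => by
      have := hab (A.map f) inferInstance
      exact (A.equivMapOfInjective f hf).isCyclic.mpr this
    obtain ⟨P, N, hN, hc⟩ := H3.hasNormalPComplement_of_isNilpotent (G := G) (p := 2)
    have hPn : (P : Subgroup G).Normal := Sylow.normal_of_normalizerCondition
      Group.normalizerCondition_of_isNilpotent P
    have hodd : ¬ 2 ∣ Nat.card N := by
      rw [← hc.index_eq_card]
      exact P.not_dvd_index
    have hNZ : IsZGroup N := ⟨fun p hp Q => by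
      have := Fact.mk hp
      rcases pgroup_cases Q.isPGroup' (hab' (N.subtype.comp (Q : Subgroup N).subtype)
        (N.subtype_injective.comp (Q : Subgroup N).subtype_injective)) with h1 | ⟨rfl, n, ⟨e⟩⟩
      · exact h1
      · exfalso
        apply hodd
        refine Dvd.dvd.trans ?_ (card_subgroup_dvd_card (Q : Subgroup N))
        have : NeZero (2 ^ n) := ⟨by positivity⟩
        rw [Nat.card_congr e.toEquiv, Nat.card_eq_fintype_card, QuaternionGroup.card]
        omega⟩
    have hNc : IsCyclic N := inferInstance
    obtain ⟨e⟩ := nonempty_prod _ _ hc.symm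
    have hPc : ¬ IsCyclic P := fun h1 => hna (by
      have : IsCyclic (P × N) := Group.isCyclic_prod_iff.mpr ⟨h1, hNc, by
        obtain ⟨k, hk⟩ := IsPGroup.iff_card.mp P.isPGroup'
        rw [hk]
        exact ((Nat.Prime.coprime_iff_not_dvd Nat.prime_two).mpr hodd).pow_left k⟩
      have := e.isCyclic.mpr this
      infer_instance)
    rcases pgroup_cases P.isPGroup' (hab' _ (P : Subgroup G).subtype_injective) with
      h1 | ⟨-, n, ⟨f⟩⟩
    · exact (hPc h1).elim
    refine ⟨n, Nat.card N, ?_, Nat.odd_iff.mpr (by omega),
      ⟨e.trans (f.prodCongr (zmodCyclicMulEquiv hNc).symm)⟩⟩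
    rcases n with _ | n
    · exact (hPc (f.isCyclic.mpr QuaternionGroup.quaternionGroup_one_isCyclic)).elim
    · omega
  · rintro ⟨k, m, hk, hm, ⟨e⟩⟩ x hx
    have : NeZero m := ⟨by rintro rfl; simp at hm⟩
    have : NeZero (2 ^ k) := ⟨by positivity⟩
    obtain ⟨g, hg⟩ := quat_cent hk (e x).1 (fun h1 => hx (by
      rw [mem_center_iff] at h1 ⊢
      intro y
      apply e.injective
      rw [map_mul, map_mul]
      exact Prod.ext (h1 _) (mul_comm _ _)))
    have h1 : IsCyclic ((zpowers g).prod (⊤ : Subgroup (Multiplicative (ZMod m)))) := by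
      refine (prodEquiv _ _).isCyclic.mpr (Group.isCyclic_prod_iff.mpr ⟨inferInstance,
        inferInstance, ?_⟩)
      refine Nat.Coprime.coprime_dvd_left (card_subgroup_dvd_card _) ?_
      rw [Nat.card_eq_fintype_card, QuaternionGroup.card, card_top, Nat.card_congr Multiplicative.toAdd,
        Nat.card_zmod, show 4 * 2 ^ k = 2 ^ (k + 2) by ring]
      exact (Nat.coprime_two_left.mpr hm).pow_left _
    refine ((centralizer {x}).equivMapOfInjective e.toMonoidHom e.injective).isCyclic.mpr ?_
    refine Subgroup.isCyclic_of_le (H' := (zpowers g).prod ⊤) ?_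
    rintro _ ⟨y, hy, rfl⟩
    refine ⟨hg ?_, mem_top _⟩
    rw [SetLike.mem_coe, mem_centralizer_singleton_iff] at hy
    rw [mem_centralizer_singleton_iff]
    have := congrArg (fun t => (e t).1) hy
    simpa using this

end Cfsg.Agent.S4370
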