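import Cfsg.Statements.S4377


set_option autoImplicit false
open Cfsg

namespace Cfsg.Agent.S4377



/-- Two finite groups have the same number of elements of each order if and only if, for every n, they have the same number of elements g with gⁿ = 1. -/
theorem result {G H : Type*} [Group G] [Finite G] [Group H] [Finite H] :
    (∀ n : ℕ, Nat.card {g : G // orderOf g = n} = Nat.card {h : H // orderOf h = n}) ↔
      ∀ n : ℕ, Nat.card {g : G // g ^ n = 1} = Nat.card {h : H // h ^ n = 1} := by
  classical
  have := Fintype.ofFinite G
  have := Fintype.ofFinite H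
  constructor
  · intro h n
    have e : ∀ n : ℕ, {g : G // orderOf g = n} ≃ {h : H // orderOf h = n} := fun n =>
      (Finite.card_eq.mp (h n)).some
    let E : G ≃ H := Equiv.ofFiberEquiv (f := orderOf) (g := orderOf) e
    have hE : ∀ g, orderOf (E g) = orderOf g := fun g => Equiv.ofFiberEquiv_map e g
    refine Nat.card_congr (E.subtypeEquiv fun g => ?_)
    rw [← orderOf_dvd_iff_pow_eq_one, ← orderOf_dvd_iff_pow_eq_one, hE]
  · intro h n
    simp only [Nat.card_eq_fintype_card, Fintype.card_subtype] at h ⊢
    induction n using Nat.strong_induction_on with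
    | _ n ih =>
      rcases Nat.eq_zero_or_pos n with rfl | hn
      · rw [Finset.card_eq_zero.mpr, Finset.card_eq_zero.mpr]
        · ext x; simp [isOfFinOrder_of_finite x]
        · ext x; simp [isOfFinOrder_of_finite x]
      · have h1 := sum_card_orderOf_eq_card_pow_eq_one (G := G) hn.ne'
        have h2 := sum_card_orderOf_eq_card_pow_eq_one (G := H) hn.ne'
        have h3 := h n
        rw [← h1, ← h2, ← Nat.cons_self_properDivisors hn.ne', Finset.sum_cons, Finset.sum_cons] at h3
        have h4 : ∑ m ∈ n.properDivisors, (Finset.univ.filter fun x : G => orderOf x = m).card =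
            ∑ m ∈ n.properDivisors, (Finset.univ.filter fun x : H => orderOf x = m).card :=
          Finset.sum_congr rfl fun m hm => ih m (Nat.mem_properDivisors.mp hm).2
        omega

end Cfsg.Agent.S4377
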