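import Cfsg.Statements.S4379
import Cfsg.Agent.H6.MaxPN

set_option autoImplicit false
open Cfsg

namespace Cfsg.Agent.S4379

/-- Let p be an odd prime and G a finite p-solvable group in which every maximal subgroup either has a normal p-complement or has prime index. Then G has a chain of normal subgroups 1 ≤ A ≤ B ≤ C ≤ D ≤ G in which A, C/B and G/D have order prime to p and B/A and D/C are p-groups (so the p-length of G is at most 2). -/
theorem result {G : Type*} [Group G] [Finite G]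
    (p : ℕ) [Fact p.Prime] (hp : p ≠ 2) (hG : Cfsg.IsPSolvable p G)
    (hmax : ∀ M : Subgroup G, IsCoatom M → (∃ K : Subgroup ↥M, K.Normal ∧ ¬ p ∣ Nat.card K ∧ ∃ k : ℕ, K.index = p ^ k) ∨ (M.index).Prime) :
    ∃ A B C D : Subgroup G, A.Normal ∧ B.Normal ∧ C.Normal ∧ D.Normal ∧ A ≤ B ∧ B ≤ C ∧ C ≤ D ∧ ¬ p ∣ Nat.card A ∧
      (∃ k : ℕ, A.relIndex B = p ^ k) ∧ ¬ p ∣ B.relIndex C ∧ (∃ k : ℕ, C.relIndex D = p ^ k) ∧ ¬ p ∣ D.index := by
  have hp' : p.Prime := Fact.out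
  obtain ⟨A, B, C, h1, h2, h3, h4, h5, h6, h7, h8, h9⟩ := H6.ch_of_max hG
    fun M hM => (hmax M hM).imp_left fun ⟨K, a, b, k, c⟩ =>
      ⟨K, a, (H49.isPi_compl_singleton hp').2 b, c ▸ H49.isPiNat_singleton_pow hp' k⟩
  exact ⟨A, B, C, ⊤, h1, h2, h3, inferInstance, h4, h5, le_top,
    (H49.isPi_compl_singleton hp').1 h6, (H49.isPiNat_singleton hp' (H49.relIndex_pos _ _).ne').1 h7,
    (H49.isPiNat_compl_singleton hp').1 h8,
    (H49.isPiNat_singleton hp' (H49.relIndex_pos _ _).ne').1 (Subgroup.relIndex_top_right C ▸ h9),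
    by rw [Subgroup.index_top]; exact hp'.one_lt.ne' ∘ Nat.dvd_one.1⟩

end Cfsg.Agent.S4379
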