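import Cfsg.Statements.S4381
import Cfsg.Agent.H85.Action
import Cfsg.Agent.H2.Basic
import Cfsg.Agent.S0012
import Cfsg.Agent.H85.SylowCount

set_option autoImplicit false
open Pointwise
open Cfsg

namespace Cfsg.Agent.S4381

open Cfsg.Agent.H85

lemma exists_max {A G : Type*} [Group A] [Group G] [Finite G] [MulDistribMulAction A G]
    (H : Subgroup G) (hH : H ≠ ⊤) (hA : ∀ a : A, ∀ x ∈ H, a • x ∈ H) :
    ∃ M : Subgroup G, H ≤ M ∧ (M ≠ ⊤ ∧ (∀ a : A, ∀ x ∈ M, a • x ∈ M) ∧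
      ∀ L : Subgroup G, M < L → (∀ a : A, ∀ x ∈ L, a • x ∈ L) → L = ⊤) := by
  obtain ⟨M, hM, hmax⟩ := Set.Finite.exists_maximal
    (Set.toFinite {M : Subgroup G | H ≤ M ∧ M ≠ ⊤ ∧ ∀ a : A, ∀ x ∈ M, a • x ∈ M})
    ⟨H, le_rfl, hH, hA⟩
  refine ⟨M, hM.1, hM.2.1, hM.2.2, fun L hL hLA => ?_⟩
  by_contra hne
  exact not_le_of_gt hL (hmax ⟨hM.1.trans hL.le, hne, hLA⟩ hL.le)

lemma frattini_le {A G : Type*} [Group A] [Group G] [Finite G] [MulDistribMulAction A G]
    (M : Subgroup G) (hM : M ≠ ⊤ ∧ (∀ a : A, ∀ x ∈ M, a • x ∈ M) ∧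
      ∀ L : Subgroup G, M < L → (∀ a : A, ∀ x ∈ L, a • x ∈ L) → L = ⊤) : frattini G ≤ M := by
  by_contra h
  apply hM.1
  apply frattini_nongenerating
  apply hM.2.2 _ (lt_of_le_of_ne le_sup_left fun h' => h (h' ▸ le_sup_right))
  intro a x hx
  obtain ⟨m, hm, f, hf, rfl⟩ := mem_sup_normal_right hx
  rw [smul_mul']
  exact Subgroup.mul_mem_sup (hM.2.1 a m hm) (smul_mem_of_characteristic _ a f hf)

/-- Let the finite group A act by automorphisms on the finite group G with the orders of A and G coprime, and assume that A or G is solvable. Call a proper A-invariant subgroup of G maximal A-invariant when no A-invariant subgroup lies strictly between it and G. Then all maximal A-invariant subgroups of G are conjugate under elements of the fixed-point subgroup C_G(A) if and only if G is a p-group for some prime p and A leaves invariant no subgroup strictly between the Frattini subgroup of G and G. In that case, if G is nontrivial, the Frattini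 subgroup is the only maximal A-invariant subgroup (a trivial G has none). -/
theorem result {A G : Type*} [Group A] [Finite A]
    [Group G] [Finite G] [MulDistribMulAction A G] (hcop : (Nat.card A).Coprime (Nat.card G)) (hsol : Group.IsSolvable A ∨ Group.IsSolvable G) :
    ((∀ M N : Subgroup G, (M ≠ ⊤ ∧ (∀ a : A, ∀ x ∈ M, a • x ∈ M) ∧ ∀ L : Subgroup G, M < L → (∀ a : A, ∀ x ∈ L, a • x ∈ L) → L = ⊤) → (N ≠ ⊤ ∧ (∀ a : A, ∀ x ∈ N, a • x ∈ N) ∧ ∀ L : Subgroup G, N < L → (∀ a : A, ∀ x ∈ L, a • x ∈ L) → L = ⊤) →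
        ∃ c : G, (∀ a : A, a • c = c) ∧ N = MulAut.conj c • M) ↔
      ((∃ p : ℕ, p.Prime ∧ IsPGroup p G) ∧ ∀ L : Subgroup G, frattini G < L → (∀ a : A, ∀ x ∈ L, a • x ∈ L) → L = ⊤)) ∧
    (((∃ p : ℕ, p.Prime ∧ IsPGroup p G) ∧ ∀ L : Subgroup G, frattini G < L → (∀ a : A, ∀ x ∈ L, a • x ∈ L) → L = ⊤) →
      ∀ M : Subgroup G, (M ≠ ⊤ ∧ (∀ a : A, ∀ x ∈ M, a • x ∈ M) ∧ ∀ L : Subgroup G, M < L → (∀ a : A, ∀ x ∈ L, a • x ∈ L) → L = ⊤) ↔ (M = frattini G ∧ M ≠ ⊤)) := by
  have h2 : ((∃ p : ℕ, p.Prime ∧ IsPGroup p G) ∧ ∀ L : Subgroup G, frattini G < L → (∀ a : A, ∀ x ∈ L, a • x ∈ L) → L = ⊤) →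
      ∀ M : Subgroup G, (M ≠ ⊤ ∧ (∀ a : A, ∀ x ∈ M, a • x ∈ M) ∧ ∀ L : Subgroup G, M < L → (∀ a : A, ∀ x ∈ L, a • x ∈ L) → L = ⊤) ↔ (M = frattini G ∧ M ≠ ⊤) := by
    rintro ⟨-, h⟩ M
    constructor
    · intro hM
      refine ⟨?_, hM.1⟩
      by_contra hne
      exact hM.1 (h M (lt_of_le_of_ne (frattini_le M hM) (Ne.symm hne)) hM.2.1)
    · rintro ⟨rfl, hM⟩
      exact ⟨hM, fun a x hx => smul_mem_of_characteristic _ a x hx, h⟩
  refine ⟨⟨fun h => ?_, fun h M N hM hN => ⟨1, fun a => smul_one a, ?_⟩⟩, h2⟩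
  · have hp : ∃ p : ℕ, p.Prime ∧ IsPGroup p G := by
      by_contra hcon
      push Not at hcon
      have hnt : (⊥ : Subgroup G) ≠ ⊤ := by
        intro hb
        apply hcon 2 Nat.prime_two
        intro g
        exact ⟨0, by simpa using (hb ▸ Subgroup.mem_top g : g ∈ (⊥ : Subgroup G))⟩
      obtain ⟨M, -, hM⟩ := exists_max (A := A) (⊥ : Subgroup G) hnt (by simp)
      obtain ⟨p, hp, hpd⟩ := Nat.exists_prime_and_dvd (Subgroup.one_lt_index_of_ne_top hM.1).ne'
      have := Fact.mk hp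
      obtain ⟨P, hP⟩ := exists_invariant_sylow hcop hsol p
      have hPt : (P : Subgroup G) ≠ ⊤ := fun ht =>
        hcon p hp (P.isPGroup'.of_equiv (ht ▸ Subgroup.topEquiv))
      obtain ⟨N, hPN, hN⟩ := exists_max _ hPt hP
      obtain ⟨c, -, rfl⟩ := h M N hM hN
      apply P.not_dvd_index
      refine dvd_trans ?_ (Subgroup.index_dvd_of_le hPN)
      exact (Subgroup.index_map_equiv M (MulAut.conj c)).symm ▸ hpd
    refine ⟨hp, fun L hL hLA => ?_⟩
    obtain ⟨p, hp, hG⟩ := hp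
    have := Fact.mk hp
    obtain ⟨hc, hpow⟩ := S0012.result p hG
    by_contra hLt
    have hΦ : ∀ a : A, ∀ x ∈ frattini G, a • x ∈ frattini G := fun a x hx =>
      smul_mem_of_characteristic _ a x hx
    have hcomm : IsMulCommutative (G ⧸ frattini G) :=
      Subgroup.Normal.quotient_commutative_iff_commutator_le.mpr hc
    let : CommGroup (G ⧸ frattini G) := { (inferInstance : Group (G ⧸ frattini G)) with
      mul_comm := hcomm.is_comm.comm }
    let := quotAction (frattini G) hΦ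
    have hexp : ∀ v : G ⧸ frattini G, v ^ p = 1 := by
      intro v
      obtain ⟨g, rfl⟩ := QuotientGroup.mk_surjective v
      exact (QuotientGroup.eq_one_iff _).mpr (hpow g)
    obtain ⟨W, hW⟩ := exists_isCompl_of_exponent hp hexp (L.map (QuotientGroup.mk' (frattini G)))
    obtain ⟨W', hW', hW'A⟩ := exists_invariant_isCompl (A := A)
      (hcop.coprime_dvd_right (Subgroup.card_quotient_dvd_card _)) _ (by
        rintro a _ ⟨x, hx, rfl⟩
        exact ⟨a • x, hLA a x hx, rfl⟩) W hW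
    have hW't : W'.comap (QuotientGroup.mk' (frattini G)) ≠ ⊤ := by
      intro ht
      apply not_le_of_gt hL
      intro x hx
      have h1 : QuotientGroup.mk' (frattini G) x ∈ W' := (ht ▸ Subgroup.mem_top x :
        x ∈ W'.comap (QuotientGroup.mk' (frattini G)))
      exact (QuotientGroup.eq_one_iff _).mp
        (Subgroup.disjoint_def.mp hW'.disjoint ⟨x, hx, rfl⟩ h1)
    obtain ⟨M, hLM, hM⟩ := exists_max L hLt hLA
    obtain ⟨N, hWN, hN⟩ := exists_max (A := A) _ hW't fun a x hx => hW'A a _ hx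
    obtain ⟨c, -, rfl⟩ := h M N hM hN
    have hMn : M.Normal := Subgroup.Normal.of_commutator_le G (hc.trans (frattini_le M hM))
    have h3 : MulAut.conj c • M = M := by
      rw [H2.conj_smul_eq_iff_mem_normalizer, Subgroup.normalizer_eq_top]; trivial
    rw [h3] at hWN
    apply hM.1
    rw [Subgroup.eq_top_iff']
    intro g
    have h4 : QuotientGroup.mk' (frattini G) g ∈ L.map (QuotientGroup.mk' (frattini G)) ⊔ W' :=
      codisjoint_iff.mp hW'.codisjoint ▸ Subgroup.mem_top _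
    obtain ⟨_, ⟨l, hl, rfl⟩, w, hw, hlw⟩ := Subgroup.mem_sup.mp h4
    have h5 : l⁻¹ * g ∈ W'.comap (QuotientGroup.mk' (frattini G)) := by
      rw [Subgroup.mem_comap, map_mul, map_inv, ← hlw, inv_mul_cancel_left]; exact hw
    simpa using M.mul_mem (hLM hl) (hWN h5)
  · rw [((h2 h M).mp hM).1, ((h2 h N).mp hN).1, H2.conj_one_smul]

end Cfsg.Agent.S4381
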