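import Cfsg.Statements.S4383
import Cfsg.Agent.H92.SylIn
import Cfsg.Agent.H2.Basic
import Cfsg.Agent.H2.MinNormal
import Cfsg.Agent.H72.Conj
import Cfsg.Agent.S0003

set_option autoImplicit false
open Pointwise
open Cfsg

namespace Cfsg.Agent.S4383

open Subgroup MulAction H92

lemma card_modEq_one {P X : Type*} [Group P] [MulAction P X] [Finite X] (x₀ : X) (d : ℕ)
    (h0 : ∀ g : P, g • x₀ = x₀) (h : ∀ x, x ≠ x₀ → d ∣ (stabilizer P x).index) :
    d ∣ Nat.card X - 1 := by
  classical
  have := Fintype.ofFinite X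
  have h1 : Nat.card X = ∑ ω : orbitRel.Quotient P X, Nat.card ω.orbit := by
    rw [Nat.card_congr (selfEquivSigmaOrbits' P X), Nat.card_sigma]
  rw [h1, ← Finset.add_sum_erase _ _ (Finset.mem_univ (Quotient.mk _ x₀ : orbitRel.Quotient P X))]
  have h2 : Nat.card (orbitRel.Quotient.orbit (Quotient.mk _ x₀ : orbitRel.Quotient P X)) = 1 := by
    rw [orbitRel.Quotient.orbit_mk, Nat.card_coe_set_eq, Set.ncard_eq_one]
    refine ⟨x₀, ?_⟩
    ext y
    simp only [mem_orbit_iff, h0, exists_const, Set.mem_singleton_iff, eq_comm]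
  rw [h2, Nat.add_sub_cancel_left]
  apply Finset.dvd_sum
  intro ω hω
  obtain ⟨x, rfl⟩ := Quotient.exists_rep ω
  have hx : x ≠ x₀ := fun h => (Finset.mem_erase.mp hω).1 (by rw [h])
  have := h x hx
  rw [index_stabilizer] at this
  rw [orbitRel.Quotient.orbit_mk, Nat.card_coe_set_eq]
  exact this

section
variable {G : Type*} [Group G] [Finite G]

omit [Finite G] in
lemma smul_top' (g : G) : MulAut.conj g • (⊤ : Subgroup G) = ⊤ := by
  ext; simp [H2.mem_conj_smul]

omit [Finite G] in
lemma index_conj (g : G) (M : Subgroup G) : (MulAut.conj g • M).index = M.index :=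
  Subgroup.index_map_equiv M (MulAut.conj g)

lemma inter_small {A B : Subgroup G}
    (hall : ∀ M : Subgroup G, IsCoatom M → ∃ g : G, M = MulAut.conj g • A ∨ M = MulAut.conj g • B)
    {p : ℕ} [Fact p.Prime] (hN : ∀ R : Subgroup G, IsPGroup p R → R ≠ ⊥ → ¬ R.Normal)
    (R : Subgroup G) : IsPGroup p R → ∀ g₁ g₂ : G, MulAut.conj g₁ • B ≠ MulAut.conj g₂ • B →
      R ≤ MulAut.conj g₁ • B → R ≤ MulAut.conj g₂ • B → Nat.card R ∣ Nat.card A := by
  induction R using WellFoundedGT.induction with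
  | _ R ih =>
  intro hR g₁ g₂ hne h₁ h₂
  by_contra hnd
  have hR1 : R ≠ ⊥ := by rintro rfl; simp at hnd
  obtain ⟨H, hH, hNH⟩ := (eq_top_or_exists_le_coatom (normalizer (R : Set G))).resolve_left
    fun h => hN R hR hR1 (normalizer_eq_top_iff.mp h)
  have hRH : R ≤ H := le_normalizer.trans hNH
  obtain ⟨g, rfl | rfl⟩ := hall H hH
  · exact hnd (H2.card_conj_smul A g ▸ card_dvd_of_le hRH)
  have key : ∀ k : G, R ≤ MulAut.conj k • B → MulAut.conj k • B = MulAut.conj g • B := by
    intro k hk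
    obtain ⟨S, hS, hRS⟩ := exists_sylIn_ge hk hR
    rcases hRS.lt_or_eq with hlt | rfl
    · by_contra hne'
      have h3 := H72.lt_inf_normalizer_of_isPGroup hS.pgroup hlt
      exact hnd ((card_dvd_of_le h3.le).trans
        (ih _ h3 (hS.pgroup.to_le inf_le_left) k g hne' (inf_le_left.trans hS.le)
          (inf_le_right.trans hNH)))
    · -- `R` is a Sylow subgroup of both conjugates
      have h3 : MulAut.conj (k * g⁻¹) • R ≤ MulAut.conj k • B := by
        intro y hy
        rw [H2.mem_conj_smul] at hy ⊢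
        have := H2.mem_conj_smul.mp (hRH hy)
        simpa [mul_assoc] using this
      obtain ⟨m, hm, hmR⟩ := hS.exists_conj h3 (hR.map _)
      have h4 : m * (k * g⁻¹) ∈ normalizer (R : Set G) := by
        apply mem_normalizer_fintype
        intro y hy
        have := hmR _ (H2.conj_mem_conj_smul (k * g⁻¹) hy)
        simpa [mul_assoc] using this
      have h5 : MulAut.conj (m * (k * g⁻¹)) • MulAut.conj g • B = MulAut.conj g • B :=
        H2.conj_smul_eq_iff_mem_normalizer.mpr (le_normalizer (hNH h4))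
      have h6 : MulAut.conj m • MulAut.conj k • B = MulAut.conj k • B :=
        H2.conj_smul_eq_iff_mem_normalizer.mpr (le_normalizer hm)
      rw [← h5, ← h6, H2.conj_smul_conj_smul, H2.conj_smul_conj_smul]
      congr 2
      group
  exact hne ((key g₁ h₁).trans (key g₂ h₂).symm)

lemma index_dvd {A B : Subgroup G}
    (hall : ∀ M : Subgroup G, IsCoatom M → ∃ g : G, M = MulAut.conj g • A ∨ M = MulAut.conj g • B)
    (hN : ∀ p : ℕ, p.Prime → ∀ R : Subgroup G, IsPGroup p R → R ≠ ⊥ → ¬ R.Normal) :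
    A.index ∣ B.index - 1 ∧ (A ≠ ⊤ → B ≠ ⊤) := by
  have main : ∀ p k : ℕ, p.Prime → k ≠ 0 → p ^ k ∣ A.index → p ^ k ∣ B.index - 1 ∧ B ≠ ⊤ := by
    intro p k hp hk hpk
    have := Fact.mk hp
    obtain ⟨P⟩ : Nonempty (Sylow p G) := inferInstance
    have hdiv : ∀ R : Subgroup G, IsPGroup p R → Nat.card R ∣ Nat.card A →
        Nat.card R * p ^ k ∣ Nat.card P := by
      intro R hR h
      obtain ⟨j, hj⟩ := IsPGroup.iff_card.mp hR
      have h1 := Nat.mul_dvd_mul h hpk
      rw [card_mul_index, hj, ← pow_add] at h1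
      rw [hj, ← pow_add]
      exact P.pow_dvd_card_of_pow_dvd_card h1
    have hPA : ¬ Nat.card P ∣ Nat.card A := by
      intro h
      have h1 := hdiv P P.isPGroup' h
      have h2 := Nat.le_of_dvd Nat.card_pos h1
      have h3 : 1 < p ^ k := Nat.one_lt_pow hk hp.one_lt
      have h4 : 0 < Nat.card P := Nat.card_pos
      nlinarith
    have hP1 : (P : Subgroup G) ≠ ⊥ := fun h => hPA (by rw [h]; simp)
    obtain ⟨H, hH, hNH⟩ := (eq_top_or_exists_le_coatom (normalizer ((P : Subgroup G) : Set G))).resolve_left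
      fun h => hN p hp P P.isPGroup' hP1 (normalizer_eq_top_iff.mp h)
    have hPH : (P : Subgroup G) ≤ H := le_normalizer.trans hNH
    obtain ⟨g, rfl | rfl⟩ := hall H hH
    · exact absurd (H2.card_conj_smul A g ▸ card_dvd_of_le hPH) hPA
    refine ⟨?_, fun h => hH.1 (by rw [h]; exact smul_top' _)⟩
    rw [← index_conj g B]
    apply card_modEq_one (P := (P : Subgroup G)) ((1 : G) : G ⧸ (MulAut.conj g • B))
    · intro y
      show ((y : G) • ((1 : G) : G ⧸ (MulAut.conj g • B))) = _
      rw [Quotient.smul_mk, QuotientGroup.eq]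
      simpa using hPH y.2
    · intro x hx
      obtain ⟨w, rfl⟩ := QuotientGroup.mk_surjective x
      have hw : w ∉ MulAut.conj g • B := fun h => hx (QuotientGroup.eq.mpr (by simpa using h))
      have hst : (stabilizer (P : Subgroup G) (w : G ⧸ (MulAut.conj g • B))).map
          (P : Subgroup G).subtype ≤ MulAut.conj (w * g) • B := by
        rintro _ ⟨y, hy, rfl⟩
        have h1 : ((y : G) • (w : G ⧸ (MulAut.conj g • B))) = w := hy
        rw [Quotient.smul_mk, eq_comm, QuotientGroup.eq, H2.mem_conj_smul] at h1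
        rw [H2.mem_conj_smul]
        simpa [mul_assoc] using h1
      have hne : MulAut.conj g • B ≠ MulAut.conj (w * g) • B := by
        intro h
        apply hw
        have h1 : w ∈ normalizer ((MulAut.conj g • B : Subgroup G) : Set G) := by
          rw [← H2.conj_smul_eq_iff_mem_normalizer, H2.conj_smul_conj_smul]; exact h.symm
        obtain ⟨n, hn, hn2⟩ := ((sylIn_top P).mono hPH le_top).frattini h1
        have := (MulAut.conj g • B).mul_mem ((MulAut.conj g • B).inv_mem hn) (hNH hn2)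
        simpa using this
      have h2 := inter_small hall (hN p hp) _ ((P.isPGroup'.to_subgroup _).map _) _ _ hne
        ((map_subtype_le _).trans hPH) hst
      have h3 := hdiv _ ((P.isPGroup'.to_subgroup _).map _) h2
      rw [card_map_of_injective (subtype_injective _),
        ← card_mul_index (stabilizer (P : Subgroup G) (w : G ⧸ (MulAut.conj g • B)))] at h3
      exact Nat.dvd_of_mul_dvd_mul_left Nat.card_pos h3
  constructor
  · rw [Nat.dvd_iff_prime_pow_dvd_dvd]
    intro p k hp hpk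
    rcases Nat.eq_zero_or_pos k with rfl | hk
    · simp
    · exact (main p k hp hk.ne' hpk).1
  · intro hA
    obtain ⟨p, hp, hpd⟩ := Nat.exists_prime_and_dvd (one_lt_index_of_ne_top hA).ne'
    exact (main p 1 hp one_ne_zero (by simpa using hpd)).2

lemma not_proper_normal {A B N : Subgroup G} [N.Normal]
    (hall : ∀ M : Subgroup G, IsCoatom M → ∃ g : G, M = MulAut.conj g • A ∨ M = MulAut.conj g • B)
    (hN : ∀ p : ℕ, p.Prime → ∀ R : Subgroup G, R ≤ N → IsPGroup p R → R ≠ ⊥ → ¬ R.Normal)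
    (hN1 : N ≠ ⊥) (hNB : N ≤ B) : False := by
  have hconj : ∀ (g : G) (C : Subgroup G), N ≤ C → N ≤ MulAut.conj g • C := by
    intro g C hC y hy
    rw [H2.mem_conj_smul]
    apply hC
    simpa using Normal.conj_mem (H := N) inferInstance y hy g⁻¹
  have main : ∀ p : ℕ, p.Prime → p ∣ Nat.card N → ¬ N ≤ A ∧ ¬ p ∣ A.relIndex N := by
    intro p hp hd
    have := Fact.mk hp
    obtain ⟨R, hR⟩ := exists_sylIn p N
    have hR1 : R ≠ ⊥ := by
      intro h
      apply hR.not_dvd_relIndex
      rwa [h, relIndex_bot_left]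
    obtain ⟨H, hH, hNH⟩ := (eq_top_or_exists_le_coatom (normalizer (R : Set G))).resolve_left
      fun h => hN p hp R hR.le hR.pgroup hR1 (normalizer_eq_top_iff.mp h)
    have hNH' : ¬ N ≤ H := by
      intro h
      apply hH.1
      rw [eq_top_iff']
      intro g
      obtain ⟨n, hn, hn2⟩ := hR.frattini (g := g) (by rw [normalizer_eq_top]; trivial)
      simpa using H.mul_mem (H.inv_mem (h hn)) (hNH hn2)
    obtain ⟨g, rfl | rfl⟩ := hall H hH
    · refine ⟨fun h => hNH' (hconj g A h), fun h => hR.not_dvd_relIndex ?_⟩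
      have h1 : (MulAut.conj g • A).relIndex N = A.relIndex N := by
        conv_lhs => rw [← H2.conj_smul_eq_iff_mem_normalizer.mpr
          (show g ∈ normalizer (N : Set G) by rw [normalizer_eq_top]; trivial)]
        exact Subgroup.relIndex_pointwise_smul _ _ _
      rw [← h1] at h
      exact h.trans (relIndex_dvd_of_le_left _ (le_normalizer.trans hNH))
    · exact absurd (hconj g B hNB) hNH'
  obtain ⟨p, hp, hpd⟩ := Nat.exists_prime_and_dvd ((one_lt_card_iff_ne_bot N).mpr hN1).ne'
  apply (main p hp hpd).1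
  rw [← relIndex_eq_one]
  by_contra h
  obtain ⟨q, hq, hqd⟩ := Nat.exists_prime_and_dvd h
  exact (main q hq (hqd.trans (relIndex_dvd_card _ _))).2 hqd

end

lemma solvable (G : Type*) [Group G] [Finite G] : ∀ A B : Subgroup G,
    (∀ M : Subgroup G, IsCoatom M → ∃ g : G, M = MulAut.conj g • A ∨ M = MulAut.conj g • B) →
      Group.IsSolvable G := by
  refine H2.card_induction (P := fun G _ _ => ∀ A B : Subgroup G,
    (∀ M : Subgroup G, IsCoatom M → ∃ g : G, M = MulAut.conj g • A ∨ M = MulAut.conj g • B) →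
      Group.IsSolvable G) G ?_
  intro G _ _ ih A B hall
  rcases subsingleton_or_nontrivial G with hs | hs
  · infer_instance
  have hall' : ∀ M : Subgroup G, IsCoatom M →
      ∃ g : G, M = MulAut.conj g • B ∨ M = MulAut.conj g • A := fun M hM =>
    (hall M hM).imp fun _ h => h.symm
  obtain ⟨N, hNn, hN1, hmin⟩ := H2.exists_minimal_normal (G := G)
  have hq : Group.IsSolvable (G ⧸ N) := by
    refine ih _ (H2.card_quotient_lt N hN1) (A.map (QuotientGroup.mk' N))
      (B.map (QuotientGroup.mk' N)) fun M hM => ?_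
    obtain ⟨g, hg⟩ := hall _ (isCoatom_comap_of_surjective (QuotientGroup.mk'_surjective N) hM)
    refine ⟨QuotientGroup.mk' N g, ?_⟩
    rw [← H2.map_conj_smul, ← H2.map_conj_smul]
    refine hg.imp (fun h => ?_) (fun h => ?_) <;>
      rw [← h, map_comap_eq_self_of_surjective (QuotientGroup.mk'_surjective N)]
  by_contra hG
  have hN : ∀ p : ℕ, p.Prime → ∀ R : Subgroup G, R ≤ N → IsPGroup p R → R ≠ ⊥ → ¬ R.Normal := by
    intro p hp R hRN hR hR1 hRn
    have := Fact.mk hp
    obtain rfl := (hmin R hRn hRN).resolve_left hR1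
    have := hR.isNilpotent
    exact hG ((Group.isSolvable_iff_subgroup_quotient R).mpr ⟨inferInstance, hq⟩)
  have hback : ∀ (g : G) (C : Subgroup G), N ≤ MulAut.conj g • C → N ≤ C := by
    intro g C hC y hy
    have := H2.mem_conj_smul.mp (hC (hNn.conj_mem y hy g))
    simpa [mul_assoc] using this
  rcases eq_top_or_exists_le_coatom N with rfl | ⟨K, hK, hNK⟩
  · have hN' := fun p hp R => hN p hp R le_top
    have h1 := index_dvd hall hN'
    have h2 := index_dvd hall' hN'
    have h3 : A ≠ ⊤ ∧ B ≠ ⊤ := by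
      obtain ⟨K, hK, -⟩ := (eq_top_or_exists_le_coatom (⊥ : Subgroup G)).resolve_left bot_ne_top
      obtain ⟨g, rfl | rfl⟩ := hall K hK
      · have : A ≠ ⊤ := fun h => hK.1 (by rw [h]; exact smul_top' _)
        exact ⟨this, h1.2 this⟩
      · have : B ≠ ⊤ := fun h => hK.1 (by rw [h]; exact smul_top' _)
        exact ⟨h2.2 this, this⟩
    have h4 := one_lt_index_of_ne_top h3.1
    have h5 := one_lt_index_of_ne_top h3.2
    have h6 := Nat.le_of_dvd (by omega) h1.1
    have h7 := Nat.le_of_dvd (by omega) h2.1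
    omega
  · obtain ⟨g, rfl | rfl⟩ := hall K hK
    · exact not_proper_normal hall' hN hN1 (hback g A hNK)
    · exact not_proper_normal hall hN hN1 (hback g B hNK)

/-- A finite group with exactly two conjugacy classes of maximal subgroups is solvable and its order has exactly two prime divisors. -/
theorem result {G : Type*} [Group G] [Finite G]
    (M₁ M₂ : Subgroup G) (h1 : IsCoatom M₁) (h2 : IsCoatom M₂) (hne : ∀ g : G, M₂ ≠ MulAut.conj g • M₁)
    (hall : ∀ M : Subgroup G, IsCoatom M → ∃ g : G, M = MulAut.conj g • M₁ ∨ M = MulAut.conj g • M₂) :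
    Group.IsSolvable G ∧ (Nat.card G).primeFactors.card = 2 := by
  have hs := solvable G M₁ M₂ hall
  refine ⟨hs, ?_⟩
  have hle : ∀ p ∈ (Nat.card G).primeFactors, (∃ k, k ≠ 0 ∧ M₁.index = p ^ k) ∨
      (∃ k, k ≠ 0 ∧ M₂.index = p ^ k) := by
    intro p hp
    have hpp := Nat.prime_of_mem_primeFactors hp
    obtain ⟨H, hH⟩ := S0003.result (G := G) (ordCompl[p] (Nat.card G)) (ordProj[p] (Nat.card G))
      (by rw [mul_comm, Nat.ordProj_mul_ordCompl_eq_self])
      (Nat.Coprime.pow_right _ (Nat.coprime_ordCompl hpp Nat.card_pos.ne').symm)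
    have h3 : H.index = ordProj[p] (Nat.card G) := by
      have h4 := H.card_mul_index
      rw [hH, mul_comm] at h4
      exact Nat.eq_of_mul_eq_mul_right (Nat.ordCompl_pos p Nat.card_pos.ne')
        (h4.trans (Nat.ordProj_mul_ordCompl_eq_self _ p).symm)
    have h5 : H ≠ ⊤ := by
      intro h
      rw [h, index_top] at h3
      have h6 := hpp.factorization_pos_of_dvd Nat.card_pos.ne' (Nat.dvd_of_mem_primeFactors hp)
      have := Nat.one_lt_pow h6.ne' hpp.one_lt
      omega
    obtain ⟨M, hM, hHM⟩ := (eq_top_or_exists_le_coatom H).resolve_left h5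
    have h7 := index_dvd_of_le hHM
    rw [h3] at h7
    obtain ⟨k, -, hk⟩ := (Nat.dvd_prime_pow hpp).mp h7
    have hk0 : k ≠ 0 := by
      rintro rfl
      exact hM.1 (index_eq_one.mp hk)
    obtain ⟨g, rfl | rfl⟩ := hall M hM
    · exact Or.inl ⟨k, hk0, (index_conj g M₁).symm.trans hk⟩
    · exact Or.inr ⟨k, hk0, (index_conj g M₂).symm.trans hk⟩
  have hsub : (Nat.card G).primeFactors ⊆ {M₁.index.minFac, M₂.index.minFac} := by
    intro p hp
    have hpp := Nat.prime_of_mem_primeFactors hp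
    rcases hle p hp with ⟨k, hk0, hk⟩ | ⟨k, hk0, hk⟩
    · simp [hk, hpp.pow_minFac hk0]
    · simp [hk, hpp.pow_minFac hk0]
  have h3 : (Nat.card G).primeFactors.card ≤ 2 :=
    (Finset.card_le_card hsub).trans Finset.card_le_two
  by_contra hcon
  have h4 : (Nat.card G).primeFactors.card ≤ 1 := by omega
  obtain ⟨p, hp, hpd⟩ := Nat.exists_prime_and_dvd (one_lt_index_of_ne_top h1.1).ne'
  have := Fact.mk hp
  have hpG : IsPGroup p G := by
    rw [IsPGroup.iff_card]
    refine ⟨_, Nat.eq_prime_pow_of_unique_prime_dvd Nat.card_pos.ne' fun {d} hd hdd => ?_⟩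
    exact Finset.card_le_one.mp h4 _ (Nat.mem_primeFactors.mpr ⟨hd, hdd, Nat.card_pos.ne'⟩) _
      (Nat.mem_primeFactors.mpr ⟨hp, hpd.trans (index_dvd_card _), Nat.card_pos.ne'⟩)
  have := hpG.isNilpotent
  have hnorm : ∀ M : Subgroup G, IsCoatom M → ∀ g : G, MulAut.conj g • M = M := by
    intro M hM g
    have : M.Normal := Subgroup.NormalizerCondition.normal_of_coatom M
      (Group.normalizerCondition_of_isNilpotent (G := G)) hM
    rw [H2.conj_smul_eq_iff_mem_normalizer, normalizer_eq_top]; trivial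
  have h12 : M₁ ≠ M₂ := fun h => hne 1 (by rw [hnorm M₁ h1, h])
  obtain ⟨x, hx1, hx2⟩ : ∃ x ∈ M₁, x ∉ M₂ := by
    by_contra hc
    push Not at hc
    exact h12 ((h1.le_iff.mp hc).resolve_left h2.1).symm
  obtain ⟨y, hy2, hy1⟩ : ∃ y ∈ M₂, y ∉ M₁ := by
    by_contra hc
    push Not at hc
    exact h12 ((h2.le_iff.mp hc).resolve_left h1.1)
  have hxy : zpowers (x * y) = ⊤ := by
    by_contra hc
    obtain ⟨M, hM, hle⟩ := (eq_top_or_exists_le_coatom _).resolve_left hc
    have hm := hle (mem_zpowers _)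
    obtain ⟨g, rfl | rfl⟩ := hall M hM
    · rw [hnorm M₁ h1] at hm
      exact hy1 (by simpa using M₁.mul_mem (M₁.inv_mem hx1) hm)
    · rw [hnorm M₂ h2] at hm
      exact hx2 (by simpa using M₂.mul_mem hm (M₂.inv_mem hy2))
  have hpow : ∀ M : Subgroup G, IsCoatom M → M ≤ zpowers ((x * y) ^ p) := by
    intro M hM m hm
    obtain ⟨n, rfl⟩ : m ∈ zpowers (x * y) := hxy ▸ mem_top m
    by_cases hn : (p : ℤ) ∣ n
    · obtain ⟨c, rfl⟩ := hn
      exact ⟨c, by simp [zpow_mul]⟩
    · exfalso
      apply hM.1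
      rw [eq_top_iff, ← hxy, zpowers_le]
      obtain ⟨k, hk⟩ := hpG (x * y)
      have hc : IsCoprime n ((p : ℤ) ^ k) :=
        (((Nat.prime_iff_prime_int.mp hp).irreducible.coprime_iff_not_dvd).mpr hn).symm.pow_right
      obtain ⟨a, b, hab⟩ := hc
      have h8 : x * y = ((x * y) ^ n) ^ a := by
        conv_lhs => rw [← zpow_one (x * y), ← hab, zpow_add, mul_comm b, zpow_mul _ _ b]
        rw [← Nat.cast_pow, zpow_natCast, hk, one_zpow, mul_one, mul_comm a, zpow_mul]
      rw [h8]
      exact M.zpow_mem hm a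
  have h9 : zpowers ((x * y) ^ p) = ⊤ :=
    top_le_iff.mp ((codisjoint_iff.mp (h1.codisjoint_of_ne h2 h12)).ge.trans
      (sup_le (hpow _ h1) (hpow _ h2)))
  obtain ⟨c, hc⟩ : x * y ∈ zpowers ((x * y) ^ p) := h9 ▸ mem_top _
  have h10 : ∀ k : ℕ, (x * y) ^ ((p * c) ^ k : ℤ) = x * y := by
    intro k
    induction k with
    | zero => simp
    | succ k ih => rw [pow_succ, zpow_mul, ih, zpow_mul, zpow_natCast]; exact hc
  obtain ⟨k, hk⟩ := hpG (x * y)
  have h11 := h10 k
  rw [mul_pow, zpow_mul, ← Nat.cast_pow, zpow_natCast, hk, one_zpow] at h11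
  rw [← h11, zpowers_one_eq_bot] at hxy
  exact h1.1 (top_le_iff.mp (hxy ▸ bot_le))

end Cfsg.Agent.S4383
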