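import Cfsg.Statements.S4385
import Cfsg.Agent.H27.SimsF
import Cfsg.Agent.H44.Cores

set_option autoImplicit false
open Pointwise
open Cfsg

namespace Cfsg.Agent.S4385

open Subgroup Cfsg.Agent.H49 in
theorem odd_n {X : Type*} [Group X] [Finite X] {n : ℕ} (hn : 2 ≤ n) {π : X →* DihedralGroup n}
    (hs : Function.Surjective π) (hk : π.ker = pCore 2 X) : Odd n := by
  refine Nat.not_even_iff_odd.1 fun ⟨m, hm⟩ => ?_
  have e : (m : ZMod n) + m = 0 := by rw [← Nat.cast_add, ← hm, ZMod.natCast_self]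
  have c : DihedralGroup.r (m : ZMod n) ∈ center (DihedralGroup n) := mem_center_iff.2 fun g => by
    rcases g with j | j
    · simp [add_comm]
    · simp [sub_eq_add_neg, ← eq_neg_of_add_eq_zero_left e]
  have := H8.normal_zpowers_of_central c
  have p : IsPGroup 2 (zpowers (DihedralGroup.r (m : ZMod n))) := fun ⟨g, k, hk⟩ => ⟨1, Subtype.ext (by
    subst hk
    change (DihedralGroup.r (m : ZMod n) ^ k) ^ 2 ^ 1 = 1
    rw [← zpow_natCast, ← zpow_mul, mul_comm, zpow_mul, pow_one, zpow_natCast, pow_two,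
      DihedralGroup.r_mul_r, e, ← DihedralGroup.one_def, one_zpow])⟩
  obtain ⟨x, hx⟩ := hs (DihedralGroup.r m)
  have := H44.le_pCore (this.comap π) (p.comap_of_ker_isPGroup π (hk ▸ H44.pCore_isPGroup))
    (show π x ∈ zpowers _ from hx ▸ mem_zpowers _)
  rw [← hk, MonoidHom.mem_ker, hx, DihedralGroup.one_def, DihedralGroup.r.injEq,
    ZMod.natCast_eq_zero_iff] at this
  have := Nat.le_of_dvd (by omega) this
  omega

theorem rot_one {X : Type*} [Group X] {n : ℕ} (hn : Odd n) {π : X →* DihedralGroup n} {x : X} {k : ℕ}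
    (hx : x ^ 2 ^ k = 1) {j : ZMod n} (e : π x = DihedralGroup.r j) : π x = 1 := by
  have e1 : π x ^ 2 ^ k = 1 := by rw [← map_pow, hx, map_one]
  have e2 : π x ^ n = 1 := by rw [e, DihedralGroup.r_pow]; simp
  have := pow_gcd_eq_one.2 ⟨e1, e2⟩
  rwa [(Nat.Coprime.pow_left k (Nat.coprime_two_left.2 hn)).gcd_eq_one, pow_one] at this

/-- Let H be a subgroup of a finite group G whose largest normal 2-subgroup O_2(H) is nontrivial and such that H/O_2(H) is a dihedral group of order at least 4. Let P be a Sylow 2-subgroup of H and S a Sylow 2-subgroup of G containing P. Suppose y ∈ S lies outside P, normalizes P, has y² in the product of P with the centralizer of P in G, and normalizes no non-identity normal subgroup of H contained in P. Then P has order 4, 8 or 16, and H modulo its largest normal subgroup of odd order is isomorphic to the four-group, to the symmetric group of degree 4, or to the direct product of the symmetric group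 of degree 4 with a group of order 2. -/
theorem result {G : Type*} [Group G] [Finite G]
    (H : Subgroup G) (hO : Cfsg.pCore 2 ↥H ≠ ⊥) (n : ℕ) (hn : 2 ≤ n) (hdih : Nonempty (↥H ⧸ Cfsg.pCore 2 ↥H ≃* DihedralGroup n))
    (P : Subgroup G) (hPH : P ≤ H) (hP : IsPGroup 2 P) (hPsyl : ¬ 2 ∣ P.relIndex H)
    (S : Sylow 2 G) (hPS : P ≤ (S : Subgroup G)) (y : G) (hyS : y ∈ (S : Subgroup G)) (hyP : y ∉ P)
    (hy2 : y ^ 2 ∈ P ⊔ Subgroup.centralizer (P : Set G)) (hyN : MulAut.conj y • P = P)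
    (hyQ : ∀ Q : Subgroup G, Q ≤ P → (Q.subgroupOf H).Normal → MulAut.conj y • Q = Q → Q = ⊥) :
    (Nat.card P = 4 ∨ Nat.card P = 8 ∨ Nat.card P = 16) ∧
    (Nonempty (↥H ⧸ Cfsg.oddCore ↥H ≃* Multiplicative (ZMod 2) × Multiplicative (ZMod 2)) ∨
     Nonempty (↥H ⧸ Cfsg.oddCore ↥H ≃* Equiv.Perm (Fin 4)) ∨
     Nonempty (↥H ⧸ Cfsg.oddCore ↥H ≃* Equiv.Perm (Fin 4) × Multiplicative (ZMod 2))) := by
  open Subgroup Cfsg.Agent.H49 Cfsg.Agent.H27.Sims in
  obtain ⟨ε⟩ := hdih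
  have : NeZero n := ⟨by omega⟩
  obtain ⟨π, hs, hk⟩ : ∃ π : H →* DihedralGroup n, Function.Surjective π ∧ π.ker = pCore 2 H :=
    ⟨ε.toMonoidHom.comp (QuotientGroup.mk' _), ε.surjective.comp (QuotientGroup.mk'_surjective _), by
      rw [← MonoidHom.comap_ker, (MonoidHom.ker_eq_bot_iff _).2 ε.injective, MonoidHom.comap_bot,
        QuotientGroup.ker_mk']⟩
  have on := odd_n hn hs hk
  have mQ : ∀ x : H, (x : G) ∈ (pCore 2 H).map H.subtype ↔ π x = 1 := fun x => by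
    rw [← MonoidHom.mem_ker, hk]; exact mem_map_iff_mem H.subtype_injective
  have QP : (pCore 2 H).map H.subtype ≤ P := map_le_iff_le_comap.2
    (H44.pCore_isPGroup.le_sylow_of_normal ((hP.comap_subtype (K := H)).toSylow hPsyl))
  have refl : ∀ g (hg : g ∈ P), g ∉ (pCore 2 H).map H.subtype →
      ∃ j, π ⟨g, hPH hg⟩ = DihedralGroup.sr j := fun g hg hg' => by
    obtain ⟨k, e⟩ := hP ⟨g, hg⟩
    rcases e1 : π ⟨g, hPH hg⟩ with j | j
    · exact absurd ((mQ ⟨g, hPH hg⟩).2 (rot_one on (k := k)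
        (Subtype.ext (show g ^ 2 ^ k = 1 from congrArg Subtype.val e)) e1)) hg'
    · exact ⟨j, rfl⟩
  have yN := mem_norm_iff_cj.2 ((cj_eq_smul y P).trans hyN)
  have star : ∀ X ≤ P, H ≤ 𝒩(X) → y ∈ 𝒩(X) → X = ⊥ := fun X a b c =>
    hyQ X a (normal_subgroupOf b) ((cj_eq_smul y X).symm.trans (mem_norm_iff_cj.1 c))
  have Q0 : (pCore 2 H).map H.subtype ≠ ⊥ := fun e =>
    hO ((map_eq_bot_iff_of_injective _ H.subtype_injective).1 e)
  obtain ⟨t, tP, tQ⟩ : ∃ t ∈ P, t ∉ (pCore 2 H).map H.subtype := by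
    by_contra hc
    have e : (pCore 2 H).map H.subtype = P :=
      le_antisymm QP fun g hg => by_contra fun k => hc ⟨g, hg, k⟩
    exact Q0 (star _ QP (norm_map_subtype _) (by rwa [e]))
  obtain ⟨d, od, hd⟩ : ∃ d : H, Odd (orderOf d) ∧ π d = DihedralGroup.r 1 := by
    obtain ⟨x, hx⟩ := hs (DihedralGroup.r 1)
    obtain ⟨a, b, hb, e⟩ := Nat.exists_eq_two_pow_mul_odd (orderOf_pos x).ne'
    obtain ⟨m, hm⟩ := (ZMod.isUnit_iff_coprime (2 ^ a) n).2
      (Nat.Coprime.pow_left a (Nat.coprime_two_left.2 on))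
    refine ⟨(x ^ 2 ^ a) ^ (m⁻¹ : (ZMod n)ˣ).val.val, hb.of_dvd_nat ((orderOf_pow_dvd _).trans
      (orderOf_dvd_of_pow_eq_one (by rw [← pow_mul, ← e, pow_orderOf_eq_one]))), ?_⟩
    rw [map_pow, map_pow, hx, DihedralGroup.r_pow, DihedralGroup.r_pow, ← hm]
    simp
  have rot : ∀ (x : H) (j : ZMod n), π x = DihedralGroup.r j →
      ∃ i : ℕ, ∃ p ∈ P, (x : G) = d ^ i * p := fun x j e =>
    ⟨j.val, _, QP ((mQ ((d ^ j.val)⁻¹ * x)).2 (by
      rw [map_mul, map_inv, map_pow, hd, e, DihedralGroup.r_one_pow, ZMod.natCast_zmod_val,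
        inv_mul_cancel])), by simp⟩
  have h : Am H ((pCore 2 H).map H.subtype) P y d := by
    refine ⟨QP, hPH, hP, norm_map_subtype _, fun g hg g' hg' a b => by_contra fun c => ?_, yN,
      by rwa [← pow_two], star, Q0, d.2, by rwa [orderOf_coe], fun g hg a => ?_, fun x hx => ?_⟩
    · obtain ⟨i, e1⟩ := refl g hg a
      obtain ⟨j, e2⟩ := refl g' hg' b
      obtain ⟨k, e3⟩ := refl _ (mul_mem hg hg') c
      have := map_mul π ⟨g, hPH hg⟩ ⟨g', hPH hg'⟩
      rw [e1, e2, DihedralGroup.sr_mul_sr] at this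
      cases e3.symm.trans this
    · obtain ⟨i, e1⟩ := refl g hg a
      refine (mQ (⟨g, hPH hg⟩ * d * ⟨g, hPH hg⟩⁻¹ * d)).2 ?_
      rw [map_mul, map_mul, map_mul, map_inv, e1, hd]
      simp
    · rcases e1 : π ⟨x, hx⟩ with j | j
      · exact rot _ j e1
      · obtain ⟨i, e2⟩ := refl t tP tQ
        obtain ⟨k, p, hp, e3⟩ := rot (⟨x, hx⟩ * ⟨t, hPH tP⟩) _ (by
          rw [map_mul, e1, e2, DihedralGroup.sr_mul_sr])
        exact ⟨k, p * t⁻¹, mul_mem hp (inv_mem tP), by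
          rw [← mul_assoc, ← e3]; simp⟩
  by_cases c : (d : G) ∈ 𝒞((pCore 2 H).map H.subtype)
  · exact (h.caseA c).imp Or.inl Or.inl
  · rcases h.caseB c hPsyl with k | k
    · exact ⟨Or.inr (Or.inl k.1), Or.inr (Or.inl k.2)⟩
    · exact ⟨Or.inr (Or.inr k.1), Or.inr (Or.inr k.2)⟩

end Cfsg.Agent.S4385
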