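import Cfsg.Statements.S4387
import Cfsg.Agent.H85.Cover
import Cfsg.Agent.H2.Basic

set_option autoImplicit false
open Pointwise
open Cfsg

namespace Cfsg.Agent.S4387

open Cfsg.Agent.H85

lemma isCoatom_of_index_prime {G : Type*} [Group G] {H : Subgroup G} (h : H.index.Prime) :
    IsCoatom H := by
  refine ⟨fun ht => ?_, fun K hK => ?_⟩
  · rw [ht, Subgroup.index_top] at h; exact Nat.not_prime_one h
  · have h1 := Subgroup.relIndex_mul_index hK.le
    rcases (Nat.dvd_prime h).mp (Subgroup.index_dvd_of_le hK.le) with h2 | h2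
    · exact Subgroup.index_eq_one.mp h2
    · rw [h2] at h1
      have h3 : H.relIndex K = 1 := by
        have := h.pos
        nlinarith
      exact absurd (Subgroup.relIndex_eq_one.mp h3) (not_le_of_gt hK)

/-- Let G be a non-trivial finite group in which any two maximal subgroups are conjugate. Then G is cyclic of prime-power order. -/
theorem result {G : Type*} [Group G] [Finite G] [Nontrivial G]
    (h : ∀ M N : Subgroup G, IsCoatom M → IsCoatom N → ∃ g : G, N = MulAut.conj g • M) :
    IsCyclic G ∧ IsPrimePow (Nat.card G) := by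
  obtain ⟨M, hM, -⟩ := (eq_top_or_exists_le_coatom (⊥ : Subgroup G)).resolve_left bot_ne_top
  obtain ⟨x, hx⟩ := exists_forall_conj_notMem hM.1
  have hxt : Subgroup.zpowers x = ⊤ := by
    by_contra hne
    obtain ⟨N, hN, hle⟩ := (eq_top_or_exists_le_coatom _).resolve_left hne
    obtain ⟨g, rfl⟩ := h M N hM hN
    exact hx g (H2.mem_conj_smul.mp (hle (Subgroup.mem_zpowers x)))
  have hc : IsCyclic G := isCyclic_iff_exists_zpowers_eq_top.mpr ⟨x, hxt⟩
  refine ⟨hc, ?_⟩
  have hidx : ∀ p : ℕ, p.Prime → p ∣ Nat.card G → M.index = p := by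
    intro p hp hd
    have h1 : (Subgroup.zpowers (x ^ p)).index = p := by
      have h2 := (Subgroup.zpowers (x ^ p)).card_mul_index
      have h3 : orderOf x = Nat.card G := by rw [← Nat.card_zpowers, hxt, Subgroup.card_top]
      rw [Nat.card_zpowers, orderOf_pow' x hp.ne_zero, h3, Nat.gcd_eq_right hd] at h2
      obtain ⟨m, hm⟩ := hd
      have hm0 : 0 < m := Nat.pos_of_ne_zero fun h0 => by
        rw [h0, mul_zero] at hm; exact Nat.card_pos.ne' hm
      rw [hm, Nat.mul_div_cancel_left _ hp.pos, mul_comm p m] at h2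
      exact Nat.eq_of_mul_eq_mul_left hm0 h2
    obtain ⟨g, hg⟩ := h M _ hM (isCoatom_of_index_prime (h1.symm ▸ hp))
    rw [← h1, hg]
    exact (Subgroup.index_map_equiv M (MulAut.conj g)).symm
  rw [isPrimePow_iff_unique_prime_dvd]
  obtain ⟨p, hp, hpd⟩ := Nat.exists_prime_and_dvd (Finite.one_lt_card (α := G)).ne'
  exact ⟨p, ⟨hp, hpd⟩, fun q hq => (hidx q hq.1 hq.2).symm.trans (hidx p hp hpd)⟩

end Cfsg.Agent.S4387
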