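import Cfsg.Statements.S4392
import Cfsg.Agent.NF.Act

set_option autoImplicit false
open Cfsg

namespace Cfsg.Agent.S4392

/-- Let a finite nilpotent group F act faithfully by automorphisms on a finite group G so that F fixes only the identity of G, and let N be an F-invariant normal subgroup of G. Then F fixes only the identity coset of G/N: an element g with g⁻¹·f(g) ∈ N for every f ∈ F lies in N. (The orders of F and G need not be coprime.) -/
theorem result {G F : Type*} [Group G] [Finite G] [Group F] [Finite F] [MulDistribMulAction F G] [FaithfulSMul F G]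
    (hF : Group.IsNilpotent F) (hCF : ∀ g : G, (∀ f : F, f • g = g) → g = 1) (N : Subgroup G) [N.Normal] (hN : ∀ (f : F) (n : G), n ∈ N → f • n ∈ N)
    (g : G) (hg : ∀ f : F, g⁻¹ * f • g ∈ N) : g ∈ N := by
  obtain ⟨c, hc, h⟩ := NF.coset (φ := MulDistribMulAction.toMulAut F G) (F := ⊤) (M := N)
    (Group.nilpotent_of_mulEquiv Subgroup.topEquiv.symm) (fun f _ x hx => hN f x hx)
    (fun x _ h => hCF x fun f => h f trivial) (g := g) fun f _ => hg f
  simpa [hCF c fun f => hc f trivial] using h

end Cfsg.Agent.S4392
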