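import Cfsg.Statements.S4396
import Cfsg.Agent.H48.FreeM
import Cfsg.Agent.H81.FrobKit
import Cfsg.Agent.H24.PermModule
import Cfsg.Agent.H2.Carter

set_option autoImplicit false
open Cfsg

namespace Cfsg.Agent.S4396

/-- Let the finite group A act faithfully and linearly on a finite-dimensional vector space V over a field k, and suppose A is a Frobenius group with nilpotent kernel F (every Frobenius kernel is nilpotent) and complement H such that F fixes no nonzero vector. Then V is free as a module for H: there is a subspace W with V the direct sum of the translates hW, h ∈ H. (No assumption on the characteristic of k.) -/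
theorem result {k V A : Type*} [Field k] [AddCommGroup V] [Module k V] [FiniteDimensional k V] [Group A] [Finite A] [DecidableEq A]
    (ρ : Representation k A V) (hρ : Function.Injective ρ)
    (Fk Hc : Subgroup A) [Fk.Normal] (hHc : Cfsg.IsFrobeniusComplement Hc) (hker : Cfsg.frobeniusKernel Hc = (Fk : Set A)) (hnil : Group.IsNilpotent ↥Fk)
    (hCF : ∀ v : V, (∀ f ∈ Fk, ρ f v = v) → v = 0) :
    ∃ W : Submodule k V, DirectSum.IsInternal (fun h : ↥Hc => W.map (ρ (h : A))) := by
  have h3 : ∀ h ∈ Hc, h ≠ 1 → ∀ f ∈ Fk, h * f = f * h → f = 1 := fun h hh n f hf e =>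
    Subgroup.mem_bot.1 ((H81.frob_kit hHc hker).2.2.2.2.1 h hh n ▸
      Subgroup.mem_inf.2 ⟨hf, Subgroup.mem_centralizer_singleton_iff.2 e.symm⟩)
  obtain ⟨p, hp⟩ := CharP.exists k
  rcases CharP.char_is_prime_or_zero k p with hq | rfl
  · have : Fact p.Prime := ⟨hq⟩
    have := H44.pPrimeCoreOf_normal (p := p) Fk
    have le := H44.pPrimeCoreOf_le (p := p) Fk
    refine H48.NB.free ρ ((pPrimeCore p Fk).map Fk.subtype) Hc
      (Group.nilpotent_of_mulEquiv (Subgroup.equivMapOfInjective _ _ Fk.subtype_injective))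
      (fun e => hq.coprime_iff_not_dvd.1 (H44.pPrimeCoreOf_coprime Fk).symm
        ((CharP.cast_eq_zero_iff k p _).1 e)) (fun v hv => ?_) fun h hh n f hf => h3 h hh n f (le hf)
    by_contra v0
    obtain ⟨w, w1, w2, w3⟩ := H24.exists_fixed_vector (H44.pCore_isPGroup (p := p) (G := Fk))
      (ρ.comp (Fk.subtype.comp (pCore p Fk).subtype))
      (Representation.invariants (ρ.comp ((pPrimeCore p Fk).map Fk.subtype).subtype))
      (fun g u hu x => by
        have := congrArg (ρ g) (hu ⟨_, this.conj_mem _ x.2 (g : A)⁻¹⟩)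
        simpa using this)
      ((Submodule.ne_bot_iff _).2 ⟨v, fun x => hv _ x.2, v0⟩)
    refine w2 (hCF w fun f hf => ?_)
    have h1 : (⟨f, hf⟩ : Fk) ∈ pCore p Fk ⊔ pPrimeCore p Fk :=
      H44.fitting_le_pCore_sup_pPrimeCore (H44.fitting_eq_top_iff.2 hnil ▸ Subgroup.mem_top _)
    have := H44.pPrimeCore_characteristic (p := p) (G := Fk)
    obtain ⟨a, ha, b, hb, e⟩ := Subgroup.mem_sup_of_normal_right.1 h1
    rw [← show (a : A) * b = f from congrArg Subtype.val e, map_mul, Module.End.mul_apply,
      show ρ b w = w from w1 ⟨b, b, hb, rfl⟩]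
    exact w3 ⟨a, ha⟩
  · have := CharP.charP_to_charZero k
    exact H48.NB.free ρ Fk Hc hnil (Nat.cast_ne_zero.2 Nat.card_pos.ne') hCF h3

end Cfsg.Agent.S4396
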