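import Cfsg.Statements.S4400
import Cfsg.Agent.H85.SecRank

set_option autoImplicit false
open Cfsg

namespace Cfsg.Agent.S4400

open Subgroup

theorem inf_cent_eq {S : Type*} [Group S] (P : Subgroup S) :
    (center P).map P.subtype = P ⊓ centralizer (P : Set S) := by
  ext g
  constructor
  · rintro ⟨c, hc, rfl⟩
    exact ⟨c.2, mem_centralizer_iff.mpr fun x hx =>
      congrArg Subtype.val (mem_center_iff.mp hc ⟨x, hx⟩)⟩
  · rintro ⟨hx, hx'⟩
    exact ⟨⟨g, hx⟩, mem_center_iff.mpr fun y =>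
      Subtype.ext (mem_centralizer_iff.mp hx' y y.2), rfl⟩

theorem card_inf_cent {S : Type*} [Group S] (P : Subgroup S) :
    Nat.card ↥(P ⊓ centralizer (P : Set S)) = Nat.card (center P) := by
  rw [← inf_cent_eq, card_map_of_injective P.subtype_injective]

/-- ambient form: `P`, `Q` normalize each other. -/
theorem aux {S : Type*} [Group S] [Finite S] (h2 : IsPGroup 2 S) (hr : Cfsg.SectionalPRankLE 2 4 S)
    (P Q : Subgroup S) (hPQ : P ≤ normalizer (Q : Set S)) (hQP : Q ≤ normalizer (P : Set S))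
    (hP : ¬ IsMulCommutative P) (hQ : ¬ IsMulCommutative Q)
    (hZP : Nat.card ↥(P ⊓ centralizer (P : Set S)) = 2)
    (hZQ : Nat.card ↥(Q ⊓ centralizer (Q : Set S)) = 2)
    (hne : P ⊓ centralizer (P : Set S) ≠ Q ⊓ centralizer (Q : Set S)) :
    (∀ x ∈ P, ∀ y ∈ Q, x * y = y * x) ∧ P ⊓ Q = ⊥ ∧
      centralizer ((P ⊔ Q : Subgroup S) : Set S) ≤ P ⊔ Q := by
  have hbot : P ⊓ Q = ⊥ := by
    by_contra h
    have hn : P ⊔ Q ≤ normalizer ((P ⊓ Q : Subgroup S) : Set S) :=
      le_trans (le_inf (sup_le le_normalizer hQP) (sup_le hPQ le_normalizer))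
        (inf_normalizer_le_normalizer_inf)
    have hle : P ⊓ Q ≤ P ⊔ Q := inf_le_sup
    have := (normal_subgroupOf_iff_le_normalizer hle).mpr hn
    obtain ⟨z, hz, hzc, ho⟩ := H3.exists_mem_center_orderOf_eq (h2.to_subgroup (P ⊔ Q))
      ((P ⊓ Q).subgroupOf (P ⊔ Q)) (by
        rw [Ne, subgroupOf_eq_bot, disjoint_iff, inf_eq_left.mpr hle]; exact h)
    rw [← Subgroup.orderOf_coe] at ho
    have key : ∀ R : Subgroup S, R ≤ P ⊔ Q → (z : S) ∈ R →
        Nat.card ↥(R ⊓ centralizer (R : Set S)) = 2 →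
        zpowers (z : S) = R ⊓ centralizer (R : Set S) := fun R hR hzR hc =>
      eq_of_le_of_card_ge (zpowers_le.mpr ⟨hzR, mem_centralizer_iff.mpr fun y hy =>
        congrArg Subtype.val (mem_center_iff.mp hzc ⟨y, hR hy⟩)⟩)
        (by rw [Nat.card_zpowers, ho, hc])
    exact hne ((key P le_sup_left hz.1 hZP).symm.trans (key Q le_sup_right hz.2 hZQ))
  have hc : ∀ x ∈ P, ∀ y ∈ Q, x * y = y * x := fun x hx y hy => by
    rw [← commutatorElement_eq_one_iff_mul_comm, ← mem_bot, ← hbot]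
    exact ⟨H21.commutatorElement_mem_left (hQP hy) hx, H21.commutatorElement_mem_right (hPQ hx) hy⟩
  refine ⟨hc, hbot, ?_⟩
  obtain ⟨N, hN, hZ, hi⟩ := H85.exists_elemSec_of_not_comm (h2.to_subgroup P) hP
  obtain ⟨M, hM, hZ', hi'⟩ := H85.exists_elemSec_of_not_comm (h2.to_subgroup Q) hQ
  refine (hN.sup hM hc).centralizer_le h2 hr ?_ ?_
  · rintro w ⟨hw, hw'⟩
    obtain ⟨x, hx, y, hy, rfl⟩ :=
      (H21.mem_sup_of_le_normalizer (H85.le_normalizer_of_commute hc)).mp hw
    refine mul_mem (mem_sup_left (hZ ⟨hx, mem_centralizer_iff.mpr fun a ha => ?_⟩))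
      (mem_sup_right (hZ' ⟨hy, mem_centralizer_iff.mpr fun a ha => ?_⟩))
    · have := mem_centralizer_iff.mp hw' a (mem_sup_left ha)
      rw [mul_assoc, ← hc a ha y hy, ← mul_assoc, ← mul_assoc] at this
      exact mul_right_cancel this
    · have := mem_centralizer_iff.mp hw' a (mem_sup_right ha)
      rw [← mul_assoc, ← hc x hx a ha, mul_assoc, mul_assoc] at this
      exact mul_left_cancel this
  · rw [H85.relIndex_sup_sup_of_commute hN.le hM.le hc (hbot ▸ bot_le) (hbot ▸ bot_le)]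
    nlinarith

/-- Let S be a finite 2-group of sectional 2-rank at most 4, and let P and Q be normal non-abelian subgroups of S whose centres have order 2 and are different. Then P and Q commute elementwise and intersect trivially, and PQ contains its own centralizer in S. -/
theorem result {S : Type*} [Group S] [Finite S] (h2 : IsPGroup 2 S) (hr : Cfsg.SectionalPRankLE 2 4 S)
    (P Q : Subgroup S) [P.Normal] [Q.Normal] (hP : ¬ IsMulCommutative ↥P) (hQ : ¬ IsMulCommutative ↥Q)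
    (hZP : Nat.card ↥(Subgroup.center ↥P) = 2) (hZQ : Nat.card ↥(Subgroup.center ↥Q) = 2)
    (hne : (Subgroup.center ↥P).map P.subtype ≠ (Subgroup.center ↥Q).map Q.subtype) :
    ⁅P, Q⁆ = ⊥ ∧ P ⊓ Q = ⊥ ∧ Subgroup.centralizer ((P ⊔ Q : Subgroup S) : Set S) ≤ P ⊔ Q := by
  obtain ⟨h1, h3, h4⟩ := aux h2 hr P Q (by rw [normalizer_eq_top]; exact le_top)
    (by rw [normalizer_eq_top]; exact le_top) hP hQ (by rw [card_inf_cent, hZP])
    (by rw [card_inf_cent, hZQ]) (by rwa [← inf_cent_eq, ← inf_cent_eq])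
  refine ⟨?_, h3, h4⟩
  rw [commutator_eq_bot_iff_le_centralizer]
  exact fun x hx => mem_centralizer_iff.mpr fun y hy => (h1 x hx y hy).symm

end Cfsg.Agent.S4400
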