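import Cfsg.Statements.S4401
import Cfsg.Agent.S4400
import Cfsg.Agent.H72.Conj

set_option autoImplicit false
open Cfsg

namespace Cfsg.Agent.S4401

open Subgroup H72

theorem comm_cj {S : Type*} [Group S] (g : S) (P : Subgroup S) (h : IsMulCommutative (cj g P)) :
    IsMulCommutative P :=
  ⟨⟨fun a b => Subtype.ext (by
    have := congrArg Subtype.val (h.is_comm.comm ⟨_, conj_mem_cj (g := g) a.2⟩ ⟨_, conj_mem_cj b.2⟩)
    simp only [Subgroup.coe_mul, conj_mul] at this
    exact mul_left_cancel (mul_right_cancel this))⟩⟩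

/-- Let S be a finite 2-group of sectional 2-rank at most 4 and P a proper non-abelian subgroup whose centre has order 2. Let S₀ be the centralizer in S of Z(P) and suppose P is normal in S₀. Then either S₀ = S, or P has sectional 2-rank at most 2 and S₀ has index 2 in S. -/
theorem result {S : Type*} [Group S] [Finite S] (h2 : IsPGroup 2 S) (hr : Cfsg.SectionalPRankLE 2 4 S)
    (P : Subgroup S) (hPlt : P ≠ ⊤) (hP : ¬ IsMulCommutative ↥P) (hZP : Nat.card ↥(Subgroup.center ↥P) = 2)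
    (S₀ : Subgroup S) (hS₀ : S₀ = Subgroup.centralizer (((Subgroup.center ↥P).map P.subtype : Subgroup S) : Set S))
    (hPn : ∀ s ∈ S₀, ∀ x ∈ P, s * x * s⁻¹ ∈ P) :
    S₀ = ⊤ ∨ (Cfsg.SectionalPRankLE 2 2 ↥P ∧ S₀.index = 2) := by
  rw [S4400.inf_cent_eq] at hS₀
  rw [← S4400.card_inf_cent] at hZP
  obtain ⟨z, hz1, hzZ, hZ⟩ : ∃ z : S, z ≠ 1 ∧ z ∈ P ⊓ centralizer (P : Set S) ∧
      ∀ y ∈ P ⊓ centralizer (P : Set S), y = 1 ∨ y = z := by
    obtain ⟨z, hz, hu⟩ := (Nat.card_eq_two_iff' (1 : ↥(P ⊓ centralizer (P : Set S)))).mp hZP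
    refine ⟨z, fun h => hz (Subtype.ext h), z.2, fun y hy => ?_⟩
    by_cases h : y = 1
    · exact Or.inl h
    · exact Or.inr (congrArg Subtype.val (hu ⟨y, hy⟩ fun h' => h (congrArg Subtype.val h')))
  have hzz : z * z = 1 := by
    rcases hZ _ (mul_mem hzZ hzZ) with h | h
    · exact h
    · exact (hz1 (mul_left_cancel (h.trans (mul_one z).symm))).elim
  have hmem : ∀ s, s ∈ S₀ ↔ s * z * s⁻¹ = z := fun s => by
    rw [hS₀, mem_centralizer_iff, mul_inv_eq_iff_eq_mul]
    refine ⟨fun h => (h z hzZ).symm, fun h y hy => ?_⟩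
    rcases hZ y hy with rfl | rfl
    · simp
    · exact h.symm
  have hP0 : P ≤ S₀ := fun x hx => (hmem x).mpr (by
    rw [mul_inv_eq_iff_eq_mul]; exact mem_centralizer_iff.mp hzZ.2 x hx)
  have hN0 : S₀ ≤ normalizer (P : Set S) := fun s hs => mem_normalizer_iff.mpr fun x =>
    ⟨hPn s hs x, fun h => by simpa [mul_assoc] using hPn s⁻¹ (inv_mem hs) _ h⟩
  by_cases htop : S₀ = ⊤
  · exact Or.inl htop
  right
  have := h2.isNilpotent
  set S₁ := normalizer (S₀ : Set S) with hS₁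
  have h01 : S₀ ≤ S₁ := le_normalizer
  have hQ0 : ∀ g ∈ S₁, cj g P ≤ S₀ := fun g hg => by
    rw [← cj_eq_of_mem_normalizer hg]; exact cj_mono g hP0
  have hQN : ∀ g ∈ S₁, S₀ ≤ normalizer (cj g P : Set S) := fun g hg => by
    rw [← cj_normalizer, ← cj_eq_of_mem_normalizer hg]; exact cj_mono g hN0
  have key : ∀ g ∈ S₁, g ∉ S₀ → (∀ x ∈ P, ∀ y ∈ cj g P, x * y = y * x) ∧ P ⊓ cj g P = ⊥ ∧
      centralizer ((P ⊔ cj g P : Subgroup S) : Set S) ≤ P ⊔ cj g P := fun g hg hg0 => by
    refine S4400.aux h2 hr P (cj g P) (hP0.trans (hQN g hg)) ((hQ0 g hg).trans hN0) hP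
      (fun h => hP (comm_cj g P h)) hZP (by rw [← cj_centralizer, ← cj_inf, card_cj, hZP]) ?_
    intro h
    rw [← cj_centralizer, ← cj_inf] at h
    rcases hZ _ (h.ge (conj_mem_cj (g := g) hzZ)) with h1 | h1
    · exact hz1 (by simpa using h1)
    · exact hg0 ((hmem g).mpr h1)
  obtain ⟨g, hg, hg0⟩ := SetLike.exists_of_lt
    (Group.normalizerCondition_of_isNilpotent S₀ (lt_top_iff_ne_top.mpr htop))
  obtain ⟨k1, k2, k3⟩ := key g hg hg0
  have hA : ∀ g' ∈ S₁, g' ∉ S₀ → g⁻¹ * g' ∈ S₀ := fun g' hg' hg'0 => by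
    by_contra hu
    obtain ⟨l1, -, -⟩ := key _ (mul_mem (inv_mem hg) hg') hu
    obtain ⟨m1, -, -⟩ := key g' hg' hg'0
    have h1 : cj g' P ≤ centralizer ((P ⊔ cj g P : Subgroup S) : Set S) := by
      rw [le_centralizer_iff, sup_le_iff]
      refine ⟨fun x hx => mem_centralizer_iff.mpr fun y hy => (m1 x hx y hy).symm,
        fun x hx => mem_centralizer_iff.mpr fun y hy => ?_⟩
      have := l1 _ (mem_cj.mp hx) (g⁻¹ * y * g) (by
        rw [mem_cj]
        have := mem_cj.mp hy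
        simpa [mul_assoc] using this)
      have e : ∀ u v : S, g⁻¹ * u * g * (g⁻¹ * v * g) = g⁻¹ * (u * v) * g := fun u v => by group
      rw [e, e] at this
      exact (mul_left_cancel (mul_right_cancel this)).symm
    exact hP (comm_cj g' P ⟨⟨fun a b => Subtype.ext
      (mem_centralizer_iff.mp (h1 b.2) a (k3 (h1 a.2)))⟩⟩)
  have hcj : ∀ s ∈ S₁, s ∉ S₀ → s * z * s⁻¹ = g * z * g⁻¹ := fun s hs hs0 => by
    have := (hmem _).mp (hA s hs hs0)
    conv_rhs => rw [← this]
    group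
  have hB : S₁ = ⊤ := by
    by_contra hB
    obtain ⟨h, hh, hh1⟩ := SetLike.exists_of_lt
      (Group.normalizerCondition_of_isNilpotent S₁ (lt_top_iff_ne_top.mpr hB))
    have hz2 : g * z * g⁻¹ ∈ S₀ := hQ0 g hg (conj_mem_cj hzZ.1)
    have hc : ∀ s ∈ S₁, s * (z * (g * z * g⁻¹)) * s⁻¹ = z * (g * z * g⁻¹) := fun s hs => by
      have e : s * (z * (g * z * g⁻¹)) * s⁻¹ = (s * z * s⁻¹) * ((s * g) * z * (s * g)⁻¹) := by group
      rw [e]
      by_cases hs0 : s ∈ S₀
      · rw [(hmem s).mp hs0, hcj _ (mul_mem hs hg) fun h' => hg0 ((S₀.mul_mem_cancel_left hs0).mp h')]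
      · have h3 : s * g ∈ S₀ := by
          have := inv_mem (hA s⁻¹ (inv_mem hs) (by rwa [inv_mem_iff]))
          simpa using this
        rw [hcj s hs hs0, (hmem _).mp h3, ← mul_inv_eq_iff_eq_mul.mp ((hmem _).mp hz2)]
    set c := h * (z * (g * z * g⁻¹)) * h⁻¹ with hcdef
    set w := h * z * h⁻¹ with hw
    have hconj : ∀ s ∈ S₁, h⁻¹ * s * h ∈ S₁ := fun s hs =>
      H21.conj_mem_of_mem_normalizer' hh hs
    have hc' : ∀ s ∈ S₁, s * c = c * s := fun s hs => by
      have := hc _ (hconj s hs)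
      rw [← mul_inv_eq_iff_eq_mul, hcdef]
      conv_rhs => rw [← this]
      group
    have hw' : ∀ s ∈ S₁, s * w * s⁻¹ = w ∨ s * w * s⁻¹ = w * c := fun s hs => by
      have e : s * w * s⁻¹ = h * ((h⁻¹ * s * h) * z * (h⁻¹ * s * h)⁻¹) * h⁻¹ := by rw [hw]; group
      rw [e]
      by_cases h0 : h⁻¹ * s * h ∈ S₀
      · left; rw [(hmem _).mp h0]
      · right
        rw [hcj _ (hconj s hs) h0, hw, hcdef]
        calc h * (g * z * g⁻¹) * h⁻¹ = h * ((z * z) * (g * z * g⁻¹)) * h⁻¹ := by rw [hzz, one_mul]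
          _ = _ := by group
    have hcP : c ∉ P := fun hcP => by
      rcases hZ c ⟨hcP, mem_centralizer_iff.mpr fun y hy => hc' y (h01 (hP0 hy))⟩ with h1 | h1
      · apply hg0
        rw [hmem]
        have h3 : z * (g * z * g⁻¹) = 1 := by simpa [hcdef] using h1
        exact mul_left_cancel (h3.trans hzz.symm)
      · apply hg0
        rw [hmem, mul_inv_eq_iff_eq_mul, ← h1]
        exact hc' g hg
    have hw1 : w ∈ S₁ := H21.conj_mem_of_mem_normalizer hh (h01 (hP0 hzZ.1))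
    by_cases hw0 : w ∈ S₀
    · have h3 : ∀ R : Subgroup S, R ≤ S₀ → S₀ ≤ normalizer (R : Set S) → c ∉ R →
          ∀ x ∈ R, x * w = w * x := fun R hR hRN hcR x hx => by
        rcases hw' x (h01 (hR hx)) with h1 | h1
        · exact mul_inv_eq_iff_eq_mul.mp h1
        · refine (hcR ?_).elim
          have : c = (w⁻¹ * x * w) * x⁻¹ := by
            rw [mul_assoc, mul_assoc, ← mul_assoc x, h1]; group
          rw [this]
          exact mul_mem (H21.conj_mem_of_mem_normalizer' (hRN hw0) hx) (inv_mem hx)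
      have h4 := h3 P hP0 hN0 hcP
      have h5 := h3 _ (hQ0 g hg) (hQN g hg) (fun h' => hcP (by
        have := mem_cj.mp h'
        rwa [hc' _ (inv_mem hg), inv_mul_cancel_right] at this))
      have h6 : w ∈ P ⊔ cj g P := k3 (by
        have : P ⊔ cj g P ≤ centralizer {w} := sup_le
          (fun x hx => mem_centralizer_singleton_iff.mpr (h4 x hx))
          (fun x hx => mem_centralizer_singleton_iff.mpr (h5 x hx))
        exact mem_centralizer_iff.mpr fun x hx => mem_centralizer_singleton_iff.mp (this hx))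
      obtain ⟨a, ha, b, hb, hab⟩ :=
        (H21.mem_sup_of_le_normalizer (H85.le_normalizer_of_commute k1)).mp h6
      have ha' : a ∈ P ⊓ centralizer (P : Set S) := ⟨ha, mem_centralizer_iff.mpr fun y hy => by
        have := h4 y hy
        rw [← hab, mul_assoc, ← k1 y hy b hb, ← mul_assoc, ← mul_assoc] at this
        exact mul_right_cancel this⟩
      have hb' : b ∈ cj g (P ⊓ centralizer (P : Set S)) := by
        rw [cj_inf, cj_centralizer]
        refine ⟨hb, mem_centralizer_iff.mpr fun y hy => ?_⟩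
        have := h5 y hy
        rw [← hab, ← mul_assoc, ← k1 a ha y hy, mul_assoc, mul_assoc] at this
        exact mul_left_cancel this
      have h7 : S₀ ≤ cj h S₀ := fun s hs => by
        have e1 : a * s = s * a := mem_centralizer_iff.mp (hS₀ ▸ hs) a ha'
        have e2 : b * s = s * b := by
          have hs' : s ∈ cj g S₀ := by rwa [cj_eq_of_mem_normalizer hg]
          rw [hS₀, cj_centralizer] at hs'
          exact mem_centralizer_iff.mp hs' b hb'
        have e3 : s * w = w * s := by rw [← hab, ← mul_assoc, ← e1, mul_assoc, ← e2, mul_assoc]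
        rw [mem_cj, hmem]
        calc h⁻¹ * s * h * z * (h⁻¹ * s * h)⁻¹ = h⁻¹ * (s * w * s⁻¹) * h := by rw [hw]; group
          _ = z := by rw [e3, hw]; group
      exact hh1 (cj_eq_iff.mp (eq_of_le_of_card_ge h7 (card_cj h S₀).le).symm)
    · obtain ⟨l1, -, -⟩ := key w hw1 hw0
      refine hP ⟨⟨fun x y => Subtype.ext ?_⟩⟩
      have h3 := l1 y y.2 _ (conj_mem_cj x.2)
      have hx1 := h01 (hP0 x.2)
      have e : w * x * w⁻¹ = x * ((x : S)⁻¹ * w * (x : S)⁻¹⁻¹) * w⁻¹ := by group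
      rcases hw' _ (inv_mem hx1) with h1 | h1
      · rw [e, h1, mul_inv_cancel_right] at h3
        exact h3.symm
      · rw [e, h1, hc' w hw1, ← mul_assoc (x : S) c w, mul_inv_cancel_right, mul_assoc (x : S) c,
          ← hc' _ (h01 (hP0 y.2)), ← mul_assoc (x : S) y c, ← mul_assoc (y : S) x c] at h3
        exact (mul_right_cancel h3).symm
  refine ⟨H85.sectionalPRankLE_subgroup_of_forall P fun K N hK hKN => ?_, ?_⟩
  · have hc : ∀ x ∈ K, ∀ y ∈ cj g K, x * y = y * x := fun x hx y hy =>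
      k1 x (hK hx) y (cj_mono g hK hy)
    have hb : K ⊓ cj g K ≤ ⊥ := k2 ▸ inf_le_inf hK (cj_mono g hK)
    have h1 := (hKN.sup (hKN.map (MulAut.conj g).toMonoidHom) hc).relIndex_le hr
    rw [H85.relIndex_sup_sup_of_commute hKN.le (map_mono hKN.le) hc (hb.trans bot_le)
      (hb.trans bot_le), relIndex_map_map_of_injective _ _ (MulAut.conj g).injective] at h1
    nlinarith
  · rw [index_eq_two_iff]
    refine ⟨g, fun b => ?_⟩
    by_cases hb : b ∈ S₀
    · exact Or.inr ⟨hb, fun h' => hg0 ((S₀.mul_mem_cancel_left hb).mp h')⟩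
    · refine Or.inl ⟨?_, hb⟩
      have := inv_mem (hA b⁻¹ (hB ▸ mem_top _) (by rwa [inv_mem_iff]))
      simpa using this

end Cfsg.Agent.S4401
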