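import Cfsg.Statements.S4402
import Cfsg.Agent.H14.W128
import Cfsg.Agent.SR4.IDefs

set_option autoImplicit false
open Cfsg

namespace Cfsg.Agent.S4402

open Cfsg.Agent.H14.W128 Cfsg.Agent.SR4 Subgroup

variable {S : Type*} [Group S]

/-- a subgroup of a 2-group not contained in `P` has an element outside `P` with square in `P` -/
theorem exists_sq (h2 : IsPGroup 2 S) {K P : Subgroup S} (h : ¬ K ≤ P) :
    ∃ y ∈ K, y ∉ P ∧ y * y ∈ P := by
  obtain ⟨x, hx, hxP⟩ := SetLike.not_le_iff_exists.1 h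
  obtain ⟨k, hk⟩ := h2 x
  have : x ^ 2 ^ k ∈ P := by rw [hk]; exact P.one_mem
  clear hk
  induction k with
  | zero => exact absurd (by simpa using this) hxP
  | succ k ih =>
    by_cases h1 : x ^ 2 ^ k ∈ P
    · exact ih h1
    · exact ⟨_, K.pow_mem hx _, h1, by rwa [← pow_two, ← pow_mul, ← pow_succ]⟩

theorem e32 [Finite S] (h4 : S4 S) (φ : W →* S) (hφ : Function.Injective φ) (y : S) (ψ : MulAut W)
    (hy : ∀ t, φ (ψ t) = y * φ t * y⁻¹) (hP : y ∉ φ.range) (hs : y * y ∈ φ.range)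
    (h1 : ∀ j ∈ J, j⁻¹ * ψ j ∈ Z0) (h2 : ∀ u ∈ Z0, ψ u = u) : False := by
  obtain ⟨t, ht⟩ := hs
  have hc : ∀ j ∈ J, t * j = j * t := fun j hj => by
    have e1 : ψ (ψ j) = j := by
      have k := h1 j hj
      calc ψ (ψ j) = ψ (j * (j⁻¹ * ψ j)) := by rw [mul_inv_cancel_left]
        _ = j * ((j⁻¹ * ψ j) * (j⁻¹ * ψ j)) := by rw [map_mul, h2 _ k]; group
        _ = j := by rw [Z0_sq _ k, mul_one]
    apply hφ
    have e2 := congrArg φ e1
    rw [hy, hy] at e2
    rw [map_mul, map_mul, ht]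
    calc y * y * φ j = y * (y * φ j * y⁻¹) * y⁻¹ * (y * y) := by group
      _ = _ := by rw [e2]
  obtain ⟨-, -, -, -, -, -, -, -, s1, s2, s3, s4, -⟩ := rels
  have tZ : t ∈ Z0 := d4 t (hc _ (V1_le s1)) (hc _ (V2_le s3)) (hc _ (V1_le s2)) (hc _ (V2_le s4))
  have hy' : ∀ t, y * φ t = φ (ψ t) * y := fun t => by rw [hy]; group
  have hyi : y⁻¹ = φ t⁻¹ * y := by rw [map_inv, ht]; group
  let H : Subgroup S :=
    { carrier := {s | ∃ j ∈ J, s = φ j ∨ s = φ j * y}
      one_mem' := ⟨1, J.one_mem, Or.inl (map_one φ).symm⟩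
      mul_mem' := by
        rintro _ _ ⟨j, hj, rfl | rfl⟩ ⟨k, hk, rfl | rfl⟩
        · exact ⟨j * k, J.mul_mem hj hk, Or.inl (map_mul φ j k).symm⟩
        · exact ⟨j * k, J.mul_mem hj hk, Or.inr (by rw [map_mul, mul_assoc])⟩
        · exact ⟨j * ψ k, J.mul_mem hj (aut_J ψ hk), Or.inr (by rw [map_mul, mul_assoc, hy', mul_assoc])⟩
        · exact ⟨j * ψ k * t, J.mul_mem (J.mul_mem hj (aut_J ψ hk)) (Z0_le tZ), Or.inl (by
            rw [map_mul, map_mul, ht, hy]; group)⟩
      inv_mem' := by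
        rintro _ ⟨j, hj, rfl | rfl⟩
        · exact ⟨j⁻¹, J.inv_mem hj, Or.inl (map_inv φ j).symm⟩
        · exact ⟨t⁻¹ * ψ j⁻¹, J.mul_mem (J.inv_mem (Z0_le tZ)) (aut_J ψ (J.inv_mem hj)), Or.inr (by
            rw [mul_inv_rev, hyi, ← map_inv, mul_assoc, hy', map_mul, mul_assoc])⟩ }
  have hJH : J.map φ ≤ H := by
    rintro _ ⟨j, hj, rfl⟩
    exact ⟨j, hj, Or.inl rfl⟩
  have hZJ : Z0.map φ ≤ J.map φ := map_mono Z0_le
  have hcomm : ∀ s ∈ H, ∀ u ∈ Z0, s * φ u = φ u * s := by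
    rintro _ ⟨j, hj, rfl | rfl⟩ u hu
    · rw [← map_mul, ← map_mul, Z0_comm u hu j hj]
    · rw [mul_assoc, hy', h2 u hu, ← mul_assoc, ← mul_assoc, ← map_mul, ← map_mul, Z0_comm u hu j hj]
  have hle := h4 H (Z0.map φ) (hZJ.trans hJH) (fun s hs => by
      rw [mem_normalizer_iff]
      intro n
      constructor
      · rintro ⟨u, hu, rfl⟩
        exact ⟨u, hu, by rw [hcomm s hs u hu]; group⟩
      · rintro ⟨u, hu, e⟩
        refine ⟨u, hu, ?_⟩
        calc φ u = s⁻¹ * (s * φ u) := by group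
          _ = n := by rw [hcomm s hs u hu, e]; group)
    (by
      rintro _ ⟨j, hj, rfl | rfl⟩
      · exact ⟨j * j, sq_J j hj, map_mul φ j j⟩
      · refine ⟨j * j * (j⁻¹ * ψ j) * t, Z0.mul_mem (Z0.mul_mem (sq_J j hj) (h1 j hj)) tZ, ?_⟩
        rw [show j * j * (j⁻¹ * ψ j) = j * ψ j by group, map_mul, map_mul, ht, hy]; group)
  rw [← relIndex_mul_relIndex _ _ _ hZJ hJH, relIndex_map_map_of_injective _ _ hφ] at hle
  have e16 : Z0.relIndex J = 16 := by
    have := (Z0.subgroupOf J).card_mul_index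
    rw [Nat.card_congr (subgroupOfEquivOfLe Z0_le).toEquiv, card_Z0, card_J] at this
    unfold relIndex; omega
  have n0 : (J.map φ).relIndex H ≠ 0 := index_ne_zero_of_finite
  have n1 : (J.map φ).relIndex H ≠ 1 := fun k => by
    have := relIndex_eq_one.1 k (⟨1, J.one_mem, Or.inr (by simp)⟩ : y ∈ H)
    obtain ⟨j, -, rfl⟩ := this
    exact hP ⟨j, rfl⟩
  rw [e16] at hle
  omega

/-- the automorphisms of the model induced by the normaliser -/
theorem exists_theta (φ : W →* S) (hφ : Function.Injective φ) :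
    ∃ Θ : normalizer (φ.range : Set S) →* MulAut W, ∀ x t, φ (Θ x t) = x * φ t * (x : S)⁻¹ := by
  let e := MonoidHom.ofInjective hφ
  refine ⟨(MulAut.congr e.symm).toMonoidHom.comp φ.range.normalizerMonoidHom, fun x t => ?_⟩
  have k : ∀ s : φ.range, φ (e.symm s) = s := fun s => by
    conv_rhs => rw [← e.apply_symm_apply s]
    rfl
  exact k _

theorem fix_mem [Finite S] (h2 : IsPGroup 2 S) (h4 : S4 S) (φ : W →* S) (hφ : Function.Injective φ)
    (Θ : normalizer (φ.range : Set S) →* MulAut W) (hΘ : ∀ x t, φ (Θ x t) = x * φ t * (x : S)⁻¹)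
    (x : normalizer (φ.range : Set S)) (hx : V1.map (Θ x).toMonoidHom = V1) : (x : S) ∈ φ.range := by
  let K : Subgroup (MulAut W) :=
    { carrier := {θ | V1.map θ.toMonoidHom = V1}
      one_mem' := map_id _
      mul_mem' := fun {θ η} h1 h2 => by
        change V1.map (θ.toMonoidHom.comp η.toMonoidHom) = V1
        rw [← map_map, h2, h1]
      inv_mem' := fun {θ} h1 => by
        change V1.map θ.symm.toMonoidHom = V1
        conv_lhs => rw [← h1, map_map]
        simp }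
  by_contra hxP
  obtain ⟨_, ⟨y, hy, rfl⟩, hyP, hys⟩ := exists_sq h2 (K := (K.comap Θ).map (Subgroup.subtype _))
    (P := φ.range) fun k => hxP (k ⟨x, hx, rfl⟩)
  obtain ⟨e, e1, e2⟩ := aut_fix (Θ y) hy
  have hyN : ∀ t, (y : S) * φ t * (y : S)⁻¹ ∈ φ.range := fun t => ⟨_, hΘ y t⟩
  refine e32 h4 φ hφ (φ e * y) _ (fun t => ?_) (fun k => hyP ?_) ?_ e1 e2
  · change φ (e * Θ y t * e⁻¹) = _
    rw [map_mul, map_mul, hΘ, map_inv]; group
  · have := φ.range.mul_mem (φ.range.inv_mem ⟨e, rfl⟩) k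
    rwa [inv_mul_cancel_left] at this
  · have := φ.range.mul_mem (φ.range.mul_mem ⟨e, rfl⟩ (hyN e)) hys
    rwa [show φ e * ((y : S) * φ e * (y : S)⁻¹) * (Subgroup.subtype _ y * Subgroup.subtype _ y) =
      φ e * y * (φ e * y) by simp only [coe_subtype]; group] at this

theorem swap_of [Finite S] (h2 : IsPGroup 2 S) (h4 : S4 S) (φ : W →* S) (hφ : Function.Injective φ)
    (Θ : normalizer (φ.range : Set S) →* MulAut W) (hΘ : ∀ x t, φ (Θ x t) = x * φ t * (x : S)⁻¹)
    (x : normalizer (φ.range : Set S)) (hx : (x : S) ∉ φ.range) :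
    V1.map (Θ x).toMonoidHom = V2 ∧ V2.map (Θ x).toMonoidHom = V1 :=
  (aut_cases _).resolve_left fun k => hx (fix_mem h2 h4 φ hφ Θ hΘ x k.1)

theorem exists_not_mem [Finite S] (h2 : IsPGroup 2 S) {P K : Subgroup S} (hle : P ≤ K) (hne : K ≠ P) :
    ∃ x ∈ K, x ∈ normalizer (P : Set S) ∧ x ∉ P := by
  have : Fact (Nat.Prime 2) := ⟨Nat.prime_two⟩
  have : Group.IsNilpotent K := (h2.to_subgroup K).isNilpotent
  have hlt := Group.normalizerCondition_of_isNilpotent (G := K) (P.subgroupOf K)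
    (lt_top_iff_ne_top.2 fun k => hne (le_antisymm (subgroupOf_eq_top.1 k) hle))
  obtain ⟨x, hx, hxP⟩ := SetLike.exists_of_lt hlt
  rw [← subgroupOf_normalizer_eq hle] at hx
  exact ⟨x, x.2, hx, hxP⟩


/-- Let S be a finite 2-group of sectional 2-rank at most 4 and P a proper subgroup isomorphic to the wreath product of the dihedral group of order 8 by a group of order 2 (equivalently, to a Sylow 2-subgroup of the symmetric group of degree 8; order 128). Then Z(S) = Z(P) has order 2, P has index 2 in its normalizer N_S(P), N_S(P)/Z(S) is again isomorphic to that wreath product, and every elementary abelian subgroup V of order 16 that is normal in P satisfies N_S(V) = P. -/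
theorem result {S : Type*} [Group S] [Finite S] (h2 : IsPGroup 2 S) (hr : Cfsg.SectionalPRankLE 2 4 S)
    (P : Subgroup S) (hPlt : P ≠ ⊤) (hP : ∃ T : Sylow 2 (Equiv.Perm (Fin 8)), Nonempty (↥P ≃* ↥(T : Subgroup (Equiv.Perm (Fin 8))))) :
    Subgroup.center S = (Subgroup.center ↥P).map P.subtype ∧ Nat.card ↥(Subgroup.center S) = 2 ∧
    P.relIndex (Subgroup.normalizer (P : Set S)) = 2 ∧
    (∃ (_ : ((Subgroup.center S).subgroupOf (Subgroup.normalizer (P : Set S))).Normal) (T : Sylow 2 (Equiv.Perm (Fin 8))),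
      Nonempty (↥(Subgroup.normalizer (P : Set S)) ⧸ (Subgroup.center S).subgroupOf (Subgroup.normalizer (P : Set S)) ≃*
        ↥(T : Subgroup (Equiv.Perm (Fin 8))))) ∧
    ∀ V : Subgroup S, V ≤ P → (∀ g ∈ P, ∀ v ∈ V, g * v * g⁻¹ ∈ V) → Cfsg.IsElementaryAbelian 2 V → Nat.card ↥V = 16 →
      Subgroup.normalizer (V : Set S) = P := by
  have : Fact (Nat.Prime 2) := ⟨Nat.prime_two⟩
  have h4 := S4.of_sec hr
  obtain ⟨T, ⟨eP⟩⟩ := hP
  obtain ⟨eT⟩ := equiv_sylow T
  obtain ⟨φ, hφ, rfl⟩ : ∃ φ : W →* S, Function.Injective φ ∧ φ.range = P := by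
    refine ⟨P.subtype.comp (eT.trans eP.symm).toMonoidHom,
      P.subtype_injective.comp (eT.trans eP.symm).injective, ?_⟩
    rw [MonoidHom.range_comp, MonoidHom.range_eq_top.2 (eT.trans eP.symm).surjective,
      ← MonoidHom.range_eq_map, range_subtype]
  obtain ⟨Θ, hΘ⟩ := exists_theta φ hφ
  obtain ⟨r1, -, -, -, -, -, r7, -, r9, r10, r11, -, -, -, r15, r16, r17, r18, r19, r20, -⟩ := rels
  have cP : Nat.card φ.range = 128 := by
    rw [← Nat.card_congr (MonoidHom.ofInjective hφ).toEquiv, card_W]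
  -- the centre
  have hZ : ∀ s : S, s ∈ center S → s = 1 ∨ s = φ z := fun s hs => by
    have hsN : s ∈ normalizer (φ.range : Set S) := center_le_normalizer _ hs
    have h1 : Θ ⟨s, hsN⟩ = 1 := MulEquiv.ext fun t => hφ (by
      rw [hΘ, ← mem_center_iff.1 hs]; simp)
    obtain ⟨t, rfl⟩ := fix_mem h2 h4 φ hφ Θ hΘ ⟨s, hsN⟩ (by rw [h1]; exact map_id _)
    rcases (mem_center t).1 fun g => hφ (by rw [map_mul, map_mul]; exact mem_center_iff.1 hs _) with rfl | rfl
    · exact Or.inl (map_one φ)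
    · exact Or.inr rfl
  have hz1 : φ z ≠ 1 := fun k => r7 (hφ (k.trans (map_one φ).symm))
  have hzZ : φ z ∈ center S := by
    have : Nontrivial S := ⟨_, _, hz1⟩
    have := h2.center_nontrivial
    obtain ⟨s, hs⟩ := exists_ne (1 : center S)
    rcases hZ s s.2 with k | k
    · exact absurd (Subtype.ext k) hs
    · exact k ▸ s.2
  have cZ : Nat.card (center S) = 2 := by
    rw [Nat.card_eq_two_iff]
    refine ⟨1, ⟨_, hzZ⟩, fun k => hz1 (congrArg Subtype.val k).symm, ?_⟩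
    ext s
    simp only [Set.mem_insert_iff, Set.mem_singleton_iff, Set.mem_univ, iff_true]
    exact (hZ s s.2).imp Subtype.ext Subtype.ext
  -- the index
  obtain ⟨x, -, hxN, hxP⟩ := exists_not_mem h2 (le_top : φ.range ≤ ⊤) (Ne.symm hPlt)
  have hidx : φ.range.relIndex (normalizer (φ.range : Set S)) = 2 := by
    rw [relIndex, index_eq_two_iff]
    refine ⟨⟨x, hxN⟩, fun y => ?_⟩
    simp only [mem_subgroupOf, coe_mul]
    by_cases hy : (y : S) ∈ φ.range
    · exact Or.inr ⟨hy, fun k => hxP (by simpa using φ.range.mul_mem (φ.range.inv_mem hy) k)⟩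
    · refine Or.inl ⟨fix_mem h2 h4 φ hφ Θ hΘ (y * ⟨x, hxN⟩) ?_, hy⟩
      rw [map_mul]
      change V1.map ((Θ y).toMonoidHom.comp (Θ ⟨x, hxN⟩).toMonoidHom) = V1
      rw [← map_map, (swap_of h2 h4 φ hφ Θ hΘ ⟨x, hxN⟩ hxP).1, (swap_of h2 h4 φ hφ Θ hΘ y hy).2]
  refine ⟨?_, cZ, hidx, ?_, ?_⟩
  · ext s
    constructor
    · intro hs
      have hsP : s ∈ φ.range := by
        rcases hZ s hs with rfl | rfl
        exacts [one_mem _, ⟨z, rfl⟩]
      exact ⟨⟨s, hsP⟩, mem_center_iff.2 fun g => Subtype.ext (mem_center_iff.1 hs g), rfl⟩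
    · rintro ⟨⟨_, t, rfl⟩, ht, rfl⟩
      rcases (mem_center t).1 fun g => hφ (by
        rw [map_mul, map_mul]
        exact congrArg Subtype.val (mem_center_iff.1 ht ⟨φ g, g, rfl⟩)) with rfl | rfl
      · simpa using one_mem _
      · exact hzZ
  · obtain ⟨eO⟩ : Nonempty (Om ≃ Fin 8) := ⟨Finite.equivFinOfCardEq card_Om⟩
    let Ψ := eO.permCongrHom.toMonoidHom.comp (omHom.comp Θ)
    have hker : Ψ.ker = (center S).subgroupOf (normalizer (φ.range : Set S)) := by
      ext y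
      rw [MonoidHom.mem_ker, mem_subgroupOf]
      have k0 : Ψ y = 1 ↔ ∀ v : W, v * v = 1 → v ∉ J → Θ y v = v := by
        refine (map_eq_one_iff _ eO.permCongrHom.injective).trans ⟨fun k v h1 h2 => ?_, fun k => ?_⟩
        · exact congrArg Subtype.val (Equiv.congr_fun k ⟨v, h1, h2⟩)
        · exact Equiv.ext fun v => Subtype.ext (k v.1 v.2.1 v.2.2)
      rw [k0]
      refine ⟨fun k => ?_, fun k v _ _ => hφ (by rw [hΘ, ← mem_center_iff.1 k]; simp)⟩
      by_cases hy : (y : S) ∈ φ.range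
      · obtain ⟨t, ht⟩ := hy
        rcases cent_Om t fun v h1 h2 => hφ (by
          rw [map_mul, map_mul, map_inv, ht, ← hΘ, k v h1 h2]) with rfl | rfl
        · rw [← ht, map_one]; exact one_mem _
        · rw [← ht]; exact hzZ
      · exfalso
        have k1 : Θ y (a * a') = a * a' := by
          have e : a * a' = p * (p * (a * a')) := by rw [← mul_assoc, r1, one_mul]
          rw [e, map_mul, k p r1 r17, k _ r19 r18]
        have k2 : Θ y (a * a') ∈ V1.map (Θ y).toMonoidHom := ⟨_, V1.mul_mem r9 r10, rfl⟩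
        rw [(swap_of h2 h4 φ hφ Θ hΘ y hy).1, k1] at k2
        exact r20 k2
    have cN : Nat.card (normalizer (φ.range : Set S)) = 256 := by
      have := (φ.range.subgroupOf (normalizer (φ.range : Set S))).card_mul_index
      rw [Nat.card_congr (subgroupOfEquivOfLe le_normalizer).toEquiv, cP] at this
      rw [← this]; exact congrArg (128 * ·) hidx
    have cR : Nat.card Ψ.range = 128 := by
      have := Ψ.ker.card_mul_index
      rw [Subgroup.index_ker, hker,
        Nat.card_congr (subgroupOfEquivOfLe (center_le_normalizer _)).toEquiv, cZ, cN] at this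
      omega
    obtain ⟨T0, hT0⟩ := exists_sylow Ψ.range cR
    have hn : ((center S).subgroupOf (normalizer (φ.range : Set S))).Normal := hker ▸ Ψ.normal_ker
    exact ⟨hn, T0, ⟨((QuotientGroup.quotientMulEquivOfEq hker.symm).trans
      (QuotientGroup.quotientKerEquivRange Ψ)).trans (MulEquiv.subgroupCongr hT0.symm)⟩⟩
  · intro V hV hn he hc
    have hPV : φ.range ≤ normalizer (V : Set S) := fun g hg => by
      rw [mem_normalizer_iff]
      refine fun v => ⟨hn g hg v, fun k => ?_⟩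
      simpa [mul_assoc] using hn g⁻¹ (inv_mem hg) _ k
    by_contra hne
    obtain ⟨y, hyV, hyN, hyP⟩ := exists_not_mem h2 hPV hne
    obtain ⟨s1, s2⟩ := swap_of h2 h4 φ hφ Θ hΘ ⟨y, hyN⟩ hyP
    have hst : ∀ v ∈ V.comap φ, Θ ⟨y, hyN⟩ v ∈ V.comap φ := fun v hv => by
      rw [mem_comap, hΘ]; exact (mem_normalizer_iff.1 hyV _).1 hv
    rcases e16 (V.comap φ) (fun g v hv => by
        rw [mem_comap, map_mul, map_mul, map_inv]; exact hn _ ⟨g, rfl⟩ _ hv)
      (fun v hv => hφ (by rw [map_mul, map_one, ← pow_two]; exact he.2 _ hv))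
      (fun v hv w hw => hφ (by
        rw [map_mul, map_mul]
        exact congrArg Subtype.val (he.1.1.1 ⟨_, hv⟩ ⟨_, hw⟩)))
      (by rw [← card_map_of_injective hφ, map_comap_eq_self hV, hc]) with k | k <;> rw [k] at hst
    · obtain ⟨v, hv, e⟩ : b ∈ V1.map (Θ ⟨y, hyN⟩).toMonoidHom := s1 ▸ r11
      exact r16 (e ▸ hst v hv)
    · obtain ⟨v, hv, e⟩ : a ∈ V2.map (Θ ⟨y, hyN⟩).toMonoidHom := s2 ▸ r9
      exact r15 (e ▸ hst v hv)

end Cfsg.Agent.S4402
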