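import Cfsg.Statements.S4403
import Cfsg.Agent.H85.AlmostSimple
import Cfsg.Agent.H85.SylowCount
import Cfsg.Agent.H3.Transfer2
import Cfsg.Agent.H42.Index2
import Cfsg.Agent.H35.Simple
import Cfsg.Agent.H35.PrimeOrder
import Cfsg.Agent.S0082

set_option autoImplicit false
open Cfsg

namespace Cfsg.Agent.S4403

open Subgroup
open scoped commutatorElement

theorem cyclic_subtype {K : Type*} [Group K] {p : ℕ} (P : Sylow p K) (hP : IsCyclic (P : Subgroup K))
    {H : Subgroup K} (h : (P : Subgroup K) ≤ H) : IsCyclic (P.subtype h : Subgroup H) :=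
  isCyclic_of_surjective (subgroupOfEquivOfLe h).symm (subgroupOfEquivOfLe h).symm.surjective

theorem not_central {K : Type*} [Group K] [Finite K] {p : ℕ} [Fact p.Prime] (P : Sylow p K)
    (hP : IsCyclic (P : Subgroup K)) {z : K} (hz : z ∈ (P : Subgroup K)) (hc : z ∈ center K)
    (hd : z ∈ commutator K) : z = 1 := by
  have := H3.center_inf_commutator_inf_sylow_le P ⟨⟨hc, hd⟩, hz⟩
  rwa [commutator_self_eq_bot_iff.mpr inferInstance, mem_bot] at this

theorem quot_cyclic {K : Type*} [Group K] [Finite K] {p : ℕ} (hp : p.Prime) (Ω P : Subgroup K)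
    [Ω.Normal] [P.Normal] (hcard : Nat.card Ω = p) (hC : centralizer (Ω : Set K) = P) :
    IsCyclic (K ⧸ P) := by
  have := Fact.mk hp
  have hk : P = (MulAut.conjNormal (H := Ω)).ker := by
    rw [← hC]
    ext a
    rw [MonoidHom.mem_ker, mem_centralizer_iff]
    constructor
    · intro h
      refine MulEquiv.ext fun y => Subtype.ext ?_
      exact mul_inv_eq_iff_eq_mul.mpr (h y y.2).symm
    · intro h y hy
      have : a * y * a⁻¹ = y := congrArg Subtype.val (DFunLike.congr_fun h (⟨y, hy⟩ : Ω))
      exact (mul_inv_eq_iff_eq_mul.mp this).symm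
  have hc : IsCyclic (MulAut Ω) := by
    have := isCyclic_of_prime_card hcard
    have e := IsCyclic.mulAutMulEquiv Ω
    rw [hcard] at e
    have := ZMod.isCyclic_units_prime hp
    exact isCyclic_of_surjective e.symm e.symm.surjective
  subst hk
  exact isCyclic_of_injective _ (QuotientGroup.kerLift_injective (MulAut.conjNormal (H := Ω)))

/-- Let K be a finite group, p a prime dividing its order with O_{p'}(K) = 1 (no nontrivial normal subgroup of order prime to p), and P a cyclic Sylow p-subgroup of K. Then either P is normal and self-centralizing in K with K/P cyclic of order dividing p − 1 (so K is the semidirect product of P by a group of automorphisms of P of order dividing p − 1), or the generalized Fitting subgroup F*(K) is a non-abelian simple group and p does not divide the index of F*(K) in K. -/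
theorem result {K : Type*} [Group K] [Finite K] (p : ℕ) [Fact p.Prime] (hp : p ∣ Nat.card K) (hO : Cfsg.pPrimeCore p K = ⊥)
    (P : Sylow p K) (hP : IsCyclic ↥(P : Subgroup K)) :
    ((P : Subgroup K).Normal ∧ Subgroup.centralizer ((P : Subgroup K) : Set K) = (P : Subgroup K) ∧
      (∀ (_ : (P : Subgroup K).Normal), IsCyclic (K ⧸ (P : Subgroup K))) ∧ (P : Subgroup K).index ∣ p - 1) ∨
    (IsSimpleGroup ↥(Cfsg.generalizedFittingSubgroup K) ∧ ¬ IsMulCommutative ↥(Cfsg.generalizedFittingSubgroup K) ∧
      ¬ p ∣ (Cfsg.generalizedFittingSubgroup K).index) := by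
  have hpp : p.Prime := Fact.out
  obtain ⟨g, hg⟩ : ∃ g : K, (P : Subgroup K) = zpowers g := by
    obtain ⟨g, hg⟩ := (isCyclic_iff_exists_zpowers_eq_top (α := (P : Subgroup K))).mp hP
    refine ⟨g, ?_⟩
    have := congrArg (Subgroup.map (P : Subgroup K).subtype) hg
    rw [MonoidHom.map_zpowers, ← MonoidHom.range_eq_map, range_subtype] at this
    exact this.symm
  obtain ⟨z, hz⟩ := exists_prime_orderOf_dvd_card' (G := (P : Subgroup K)) p
    (P.dvd_card_of_dvd_card hp)
  have hzo : orderOf (z : K) = p := by rw [orderOf_coe, hz]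
  have hz1 : (z : K) ≠ 1 := by
    intro h; rw [h, orderOf_one] at hzo; exact hpp.one_lt.ne hzo
  have huniq : ∀ y ∈ (P : Subgroup K), orderOf y = p → zpowers y = zpowers (z : K) := by
    intro y hy hyo
    refine H42.eq_of_le_zpowers_of_card (x := g) (zpowers_le.mpr (hg ▸ hy))
      (zpowers_le.mpr (hg ▸ z.2)) ?_
    rw [Nat.card_zpowers, Nat.card_zpowers, hyo, hzo]
  have hmem : ∀ A : Subgroup K, (P : Subgroup K) ⊓ A ≠ ⊥ → (z : K) ∈ A := by
    intro A hA
    have h1 : IsPGroup p ((P : Subgroup K) ⊓ A : Subgroup K) := P.isPGroup'.to_le inf_le_left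
    obtain ⟨y, hy⟩ := exists_prime_orderOf_dvd_card' (G := ((P : Subgroup K) ⊓ A : Subgroup K)) p
      ((h1.card_eq_or_dvd).resolve_left (mt card_eq_one.mp hA))
    have h2 := huniq y y.2.1 (by rw [orderOf_coe, hy])
    exact zpowers_le.mpr y.2.2 (h2 ▸ mem_zpowers _)
  have hF := H85.fitting_eq_pCore hO
  have hPc : (P : Subgroup K) ≤ centralizer ((P : Subgroup K) : Set K) := le_centralizer _
  by_cases hE : ∃ L : Subgroup K, H44.Comp ⊤ L
  · right
    have hzL : ∀ L : Subgroup K, H44.Comp ⊤ L → (z : K) ∈ L := fun L hL =>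
      hmem L (H85.sylow_inf_ne_bot_of_sn hO P hL.sn hL.qs.ne_bot)
    have hnc : ∀ L : Subgroup K, H44.Comp ⊤ L → (z : K) ∉ centralizer (L : Set K) := by
      intro L hL hc
      obtain ⟨R, hR⟩ := H85.exists_sylow_subgroupOf P.isPGroup' (H85.not_dvd_relIndex_of_sn P hL.sn)
      have hRc : IsCyclic (R : Subgroup L) := by
        rw [hR]
        exact isCyclic_of_injective ((P : Subgroup K).subgroupOf L |>.subtype |> L.subtype.comp
          |>.codRestrict (P : Subgroup K) fun x => x.2)
          fun a b h => Subtype.ext (Subtype.ext (congrArg Subtype.val h :))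
      have := not_central R hRc (z := ⟨z, hzL L hL⟩) (hR ▸ z.2)
        (mem_center_iff.mpr fun y => Subtype.ext (hc y y.2))
        (by rw [(H44.isQuasisimple_iff.mp (H44.qs_iff.mp hL.qs)).1]; exact mem_top _)
      exact hz1 (congrArg Subtype.val this)
    have hF' : fittingSubgroup K = ⊥ := by
      by_contra h
      obtain ⟨L, hL⟩ := hE
      have h1 := H44.commutator_eq_bot_iff_le_centralizer'.mp hL.commutator_Fof
      rw [H44.Fof_top] at h1
      refine hnc L hL (h1 (hmem _ ?_))
      rwa [hF, inf_eq_right.mpr (H22.pCore_le_sylow P), ← hF]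
    have : Nontrivial K := ⟨⟨z, 1, hz1⟩⟩
    obtain ⟨h1, h2, h3, -, -⟩ := H85.almostSimple hF' fun L M hL hM => by
      by_contra hne
      exact hnc L hL (H44.commutator_eq_bot_iff_le_centralizer'.mp
        (hL.commutator_eq_bot_of_ne hM hne) (hzL M hM))
    refine ⟨h2, h3, ?_⟩
    set L := generalizedFittingSubgroup K
    have hN : L.Normal := by have := H44.gfitting_characteristic (G := K); infer_instance
    have hle : (P : Subgroup K) ≤ (P : Subgroup K) ⊔ L := le_sup_left
    rcases S0082.result (P.subtype hle) (cyclic_subtype P hP hle) with h | h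
    · exfalso
      have h4 := H3.hasNormalPComplement_iff_coprime.mp
        (H3.hasNormalPComplement_of_le le_sup_right h)
      rcases (inferInstance : (pResidual p L).Normal).eq_bot_or_eq_top with h5 | h5
      · have h6 : IsPGroup p L := H3.isPGroup_quotient_pResidual.of_equiv
          (QuotientGroup.quotientMulEquivOfEq h5 |>.trans QuotientGroup.quotientBot)
        have := h6.isNilpotent
        exact h1.qs.not_solvable inferInstance
      · rw [h5, card_top] at h4
        refine (Nat.Prime.coprime_iff_not_dvd hpp).mp h4.symm ?_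
        rw [← hzo, ← Nat.card_zpowers]
        exact card_dvd_of_le (zpowers_le.mpr (hzL L h1))
    · have h4 : IsPGroup p (↥((P : Subgroup K) ⊔ L) ⧸ L.subgroupOf ((P : Subgroup K) ⊔ L)) := by
        obtain ⟨k, hk⟩ := P.isPGroup'.exists_card_eq
        have h5 : L.relIndex ((P : Subgroup K) ⊔ L) ∣ p ^ k := by
          rw [relIndex_sup_right, ← hk]; exact relIndex_dvd_card _ _
        obtain ⟨j, -, hj⟩ := (Nat.dvd_prime_pow hpp).mp h5
        exact IsPGroup.of_card hj
      have h5 := H3.pResidual_le_of_isPGroup_quotient _ h4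
      rw [h, top_le_iff, subgroupOf_eq_top, sup_le_iff] at h5
      exact fun hd => P.not_dvd_index (hd.trans (index_dvd_of_le h5.1))
  · left
    rw [not_exists, ← H44.Eof_eq_bot_iff] at hE
    have h1 := H44.inf_centralizer_Fof_le_of_Eof_eq_bot hE
    rw [H44.Fof_top, top_inf_eq, hF] at h1
    have h2 : (P : Subgroup K) = pCore p K := le_antisymm
      ((hPc.trans (centralizer_le (H22.pCore_le_sylow P))).trans h1) (H22.pCore_le_sylow P)
    have hN : (P : Subgroup K).Normal := h2 ▸ inferInstance
    have hC : centralizer ((P : Subgroup K) : Set K) = P := le_antisymm (h2 ▸ h1) hPc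
    have hΩ : (zpowers (z : K)).Normal := by
      rw [← normalizer_eq_top_iff, eq_top_iff]
      intro a _
      rw [H35.mem_normalizer_zpowers_iff, ← huniq _ (hN.conj_mem _ z.2 a)
        (((MulAut.conj a).orderOf_eq z).trans hzo)]
      exact mem_zpowers _
    have hCΩ : centralizer ((zpowers (z : K) : Subgroup K) : Set K) = P := by
      have hle : (P : Subgroup K) ≤ centralizer ((zpowers (z : K) : Subgroup K) : Set K) :=
        hPc.trans (centralizer_le (zpowers_le.mpr z.2))
      refine le_antisymm (fun a ha => ?_) hle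
      have := cyclic_subtype P hP hle
      rcases (P.subtype hle).normalizer_le_centralizer_or_le_commutator with h | h
      · have h0 : a ∈ normalizer ((P : Subgroup K) : Set K) := by
          rw [normalizer_eq_top]; exact mem_top a
        have h3 := h (x := ⟨a, ha⟩) fun y => mem_normalizer_iff.mp h0 y
        rw [← hC]
        intro y hy
        exact congrArg Subtype.val (h3 ⟨y, hle hy⟩ hy)
      · exfalso
        have := not_central (P.subtype hle) this (z := ⟨z, hle z.2⟩) z.2
          (mem_center_iff.mpr fun y => Subtype.ext (y.2 z (mem_zpowers _)).symm) (h z.2)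
        exact hz1 (congrArg Subtype.val this)
    have hcard : Nat.card (zpowers (z : K)) = p := by rw [Nat.card_zpowers, hzo]
    refine ⟨hN, hC, fun _ => ?_, ?_⟩
    · exact quot_cyclic hpp _ _ hcard hCΩ
    · have := H35.relIndex_dvd_pred hpp _ hcard
      rw [normalizer_eq_top, relIndex_top_right] at this
      exact (congrArg Subgroup.index hCΩ).symm.dvd.trans this

end Cfsg.Agent.S4403
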