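import Cfsg.Statements.S4404
import Cfsg.Agent.H72.T3B
import Cfsg.Agent.H49.Hall

set_option autoImplicit false
open Cfsg

namespace Cfsg.Agent.S4404

/-- Let S be a finite solvable group and M a normal elementary abelian 2-subgroup of S. Suppose S contains an elementary abelian subgroup of order p³ for some odd prime p, and a cyclic 3-subgroup Q such that the cubes of the elements of Q centralize M and the commutator subgroup [Q, M] has order 4 (a four-group inside M). Then S contains an elementary abelian subgroup F of order r³, for some odd prime r, whose centralizer of [Q, M] in F — the subgroup C_F([Q, M]) — is not cyclic. -/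
theorem result {S : Type*} [Group S] [Finite S]
    [Group.IsSolvable S] (M : Subgroup S) [M.Normal] (hM : Cfsg.IsElementaryAbelian 2 M)
    (p : ℕ) (hp : p.Prime) (hp2 : p ≠ 2) (E : Subgroup S) (hE : Cfsg.IsElementaryAbelian p E) (hE3 : Nat.card ↥E = p ^ 3)
    (Q : Subgroup S) (hQc : IsCyclic ↥Q) (hQ3 : IsPGroup 3 ↥Q)
    (hQ1 : ∀ x ∈ Q, x ^ 3 ∈ Subgroup.centralizer (M : Set S)) (hQM : Nat.card ↥⁅Q, M⁆ = 4) :
    ∃ (r : ℕ) (F : Subgroup S), r.Prime ∧ r ≠ 2 ∧ Cfsg.IsElementaryAbelian r F ∧ Nat.card ↥F = r ^ 3 ∧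
      ¬ IsCyclic ↥(F ⊓ Subgroup.centralizer ((⁅Q, M⁆ : Subgroup S) : Set S)) := by
  have hcomm : ∀ a b : M, a * b = b * a := fun a b => hM.1.is_comm.comm a b
  let _ : CommGroup M := { (inferInstance : Group M) with mul_comm := hcomm }
  let ρ : S →* MulAut M := MulAut.conjNormal
  have hsq : ∀ v : M, v * v = 1 := fun v => Subtype.ext (by simpa [pow_two] using hM.2 v v.2)
  obtain ⟨x₀, hx₀⟩ := (Subgroup.isCyclic_iff_exists_zpowers_eq_top Q).1 hQc
  have hxQ : x₀ ∈ Q := hx₀ ▸ Subgroup.mem_zpowers x₀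
  have c3 : ρ x₀ ^ 3 = 1 := by
    rw [← map_pow]
    ext v
    simp only [ρ, MulAut.conjNormal_apply, MulAut.one_apply]
    rw [← hQ1 x₀ hxQ v v.2, mul_inv_cancel_right]
  have hW : (H72.T3.W (ρ x₀)).map M.subtype = ⁅Q, M⁆ := by
    apply le_antisymm
    · rintro _ ⟨v, hv, rfl⟩
      have e : v = ρ x₀ (ρ x₀ v) * (ρ x₀ v)⁻¹ := by
        have h1 := H72.T3.mem_W.1 hv
        rw [inv_eq_of_mul_eq_one_right (hsq _), mul_comm (ρ x₀ (ρ x₀ v))]
        rw [mul_assoc] at h1
        rw [← inv_eq_of_mul_eq_one_right h1, inv_eq_of_mul_eq_one_right (hsq v)]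
      rw [e]
      exact Subgroup.commutator_mem_commutator hxQ (ρ x₀ v).2
    · rw [Subgroup.commutator_le]
      intro q hq m hm
      have key : ∀ q ∈ Q, ∀ v : M, ρ q v * v⁻¹ ∈ H72.T3.W (ρ x₀) := by
        intro q hq
        rw [← hx₀, ← mem_powers_iff_mem_zpowers] at hq
        obtain ⟨n, rfl⟩ := hq
        induction n with
        | zero => intro v; simp
        | succ n ih =>
          intro v
          have := (H72.T3.W (ρ x₀)).mul_mem (ih (ρ x₀ v)) (H72.T3.comm_mem c3 v)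
          simpa [pow_succ] using this
      exact ⟨_, key q hq ⟨m, hm⟩, rfl⟩
  have hEpi : H49.IsPi {2}ᶜ E := (H49.isPiNat_compl_singleton Nat.prime_two).2 fun h => by
    rw [hE3] at h
    exact hp2 ((Nat.prime_dvd_prime_iff_eq Nat.prime_two hp).1 (Nat.prime_two.dvd_of_dvd_pow h)).symm
  have hQpi : H49.IsPi {2}ᶜ Q := (H49.isPiNat_compl_singleton Nat.prime_two).2 fun h => by
    have := Fact.mk Nat.prime_three
    obtain ⟨n, hn⟩ := IsPGroup.iff_card.1 hQ3
    rw [hn] at h
    exact absurd (Nat.prime_two.dvd_of_dvd_pow h) (by norm_num)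
  obtain ⟨H, hH, hQH⟩ := H49.exists_hall_ge (M := ⊤) inferInstance hQpi le_top
  obtain ⟨g, -, hg⟩ := H49.hall_subJ (M := ⊤) inferInstance hH le_top hEpi
  have hodd : Odd (Nat.card H) := by
    rw [← Nat.not_even_iff_odd, even_iff_two_dvd]
    exact (H49.isPiNat_compl_singleton Nat.prime_two).1 hH.2.1
  have hs : H72.T3.Su ρ H x₀ :=
    ⟨hsq, hodd, hQH hxQ, (hQ3 ⟨x₀, hxQ⟩).imp fun k hk => congrArg Subtype.val hk, c3, by
      rw [← hQM, ← hW, Subgroup.card_map_of_injective M.subtype_injective]⟩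
  obtain ⟨r, F, C, h1, h2, h3, h4, h5, h6, h7⟩ := hs.main hp hp2 hg (H50.elem_map hE _)
    (by rw [H49.card_cj, hE3])
  refine ⟨r, F, h1, h2, h3, h4, fun hc => h6 ?_⟩
  have hle : C ≤ F ⊓ Subgroup.centralizer ((⁅Q, M⁆ : Subgroup S) : Set S) := fun c hc =>
    ⟨h5 hc, fun w hw => by
      rw [← hW] at hw
      obtain ⟨v, hv, rfl⟩ := hw
      have := congrArg Subtype.val (h7 c hc v hv)
      simp only [ρ, MulAut.conjNormal_apply] at this
      rw [mul_inv_eq_iff_eq_mul] at this
      exact this.symm⟩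
  exact Subgroup.isCyclic_of_le hle

end Cfsg.Agent.S4404
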