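import Cfsg.Statements.S4405
import Cfsg.Agent.H85.OutES
import Cfsg.Agent.S1893

set_option autoImplicit false
open Cfsg

namespace Cfsg.Agent.S4405

theorem aux0 : ∀ c : Equiv.Perm (Fin 5), c ^ 5 = 1 → c ≠ 1 → ∀ i j, (∃ m : Fin 5, (c ^ (m : ℕ)) i = j) ∧
    ∀ k : Fin 5, (∀ m : Fin 5, (c ^ (m : ℕ)) i = j → ((c ^ (k : ℕ)) ^ (m : ℕ)) i = j) → i = j ∨ k = 1 := by
  decide +kernel

theorem aux (c : Equiv.Perm (Fin 5)) (h5 : c ^ 5 = 1) (h1 : c ≠ 1) (t : Equiv.Perm (Fin 5)) (k : Fin 5)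
    (hk : t * c * t⁻¹ = c ^ (k : ℕ)) (i j : Fin 5) (hi : t i = i) (hj : t j = j) : i = j ∨ t = 1 := by
  have h2 : ∀ m : ℕ, t ((c ^ m) i) = ((c ^ (k : ℕ)) ^ m) i := fun m => by
    rw [← hk, conj_pow]
    conv_rhs => rw [← hi]
    simp
  refine ((aux0 c h5 h1 i j).2 k fun m hm => by rw [← h2, hm, hj]).imp_right fun h => ?_
  ext l
  obtain ⟨m, rfl⟩ := (aux0 c h5 h1 i l).1
  rw [h2, h]; simp

set_option synthInstance.maxSize 1000 in
theorem model : ∀ w : (Fin 1 ⊕ Fin 1) ⊕ Fin 2 → ZMod 2, H11.qMinus 1 (1 : ZMod 2) 1 w ≠ 0 →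
    ∃ a, (a ≠ 0 ∧ H11.qMinus 1 (1 : ZMod 2) 1 a = 0) ∧
      (w - a ≠ 0 ∧ H11.qMinus 1 (1 : ZMod 2) 1 (w - a) = 0) ∧ a ≠ w - a ∧
      ∀ c, H11.qMinus 1 (1 : ZMod 2) 1 c = 0 → H11.qMinus 1 (1 : ZMod 2) 1 (w - c) = 0 →
        c = a ∨ c = w - a := by
  simp only [H11.qMinus_apply]
  decide +kernel

open Subgroup

/-- Let G be a finite group of order 320 = 64·5 whose largest normal 2-subgroup H = O₂(G) equals the Fitting subgroup F(G) and is extraspecial of order 32 containing no elementary abelian subgroup of order 8 (so H is the central product of a quaternion group and a dihedral group of order 8). If T is an involution of G outside H whose centralizer in H contains an elementary abelian subgroup of order 4, then C_H(T) itself is elementary abelian of order 4. -/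
theorem result {G : Type*} [Group G] [Finite G]
    (hG : Nat.card G = 320) (hHF : Cfsg.pCore 2 G = Cfsg.fittingSubgroup G)
    (hex : Cfsg.IsExtraspecial 2 ↥(Cfsg.pCore 2 G)) (h32 : Nat.card ↥(Cfsg.pCore 2 G) = 32)
    (hminus : ∀ A : Subgroup G, A ≤ Cfsg.pCore 2 G → Cfsg.IsElementaryAbelian 2 A → Nat.card ↥A ≤ 4)
    (T : G) (hT : orderOf T = 2) (hTH : T ∉ Cfsg.pCore 2 G)
    (V : Subgroup G) (hV : V ≤ Cfsg.pCore 2 G ⊓ Subgroup.centralizer ({T} : Set G)) (hV4 : Nat.card ↥V = 4) (hVe : Cfsg.IsElementaryAbelian 2 V) :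
    Nat.card ↥(Cfsg.pCore 2 G ⊓ Subgroup.centralizer ({T} : Set G)) = 4 ∧
      Cfsg.IsElementaryAbelian 2 (Cfsg.pCore 2 G ⊓ Subgroup.centralizer ({T} : Set G)) := by
  have hp2 : IsPGroup 2 (pCore 2 G) := H44.pCore_isPGroup
  have hq : Nat.card (G ⧸ pCore 2 G) = 10 := by
    have := card_eq_card_quotient_mul_card_subgroup (pCore 2 G)
    rw [hG, h32] at this
    omega
  have hsol : Group.IsSolvable G := by
    have := hp2.isNilpotent
    have : IsZGroup (G ⧸ pCore 2 G) := IsZGroup.of_squarefree (by rw [hq]; decide +kernel)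
    exact Group.isSolvable_of_ker_le_range (pCore 2 G).subtype (QuotientGroup.mk' (pCore 2 G))
      (by simp)
  have hC := S1893.centralizer_fitting_le (S := G)
  rw [← hHF] at hC
  obtain ⟨W, _, _, _, _, D, hD, -⟩ := H3.exists_esData_of_isExtraspecial hex
  obtain ⟨ρ, -, h2, h3⟩ := H85.exists_out_hom D hD
  rcases S3763.main D hD 2 h32 with ⟨h4, -⟩ | ⟨-, φ, hφ⟩
  · refine (h4.2 fun A a b => ?_).elim
    have := hminus _ (map_subtype_le A) ⟨inferInstance, by
      rintro _ ⟨x, hx, rfl⟩; rw [← map_pow, b x hx, map_one]⟩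
    rwa [card_map_of_injective (subtype_injective _)] at this
  obtain ⟨ψ, hψ, hψ2, hc⟩ := H85.exists_og_perm_five
  have hφ' : ∀ x, H11.qMinus 1 (1 : ZMod 2) 1 (φ x) = D.quad x :=
    fun x => (H11.qMinus_eq _ _ _ _).symm.trans (hφ x).symm
  let e := H11.OGcongr φ hφ'
  let ε := Fintype.equivFinOfCardEq hc
  let κ : G →* H11.OG (H11.qMinus 1 (1 : ZMod 2) 1) :=
    e.toMonoidHom.comp (ρ.comp (MulAut.conjNormal (H := pCore 2 G)))
  have hκ : ∀ g a, H11.ap (κ g) (φ (D.π a)) = φ (D.π (MulAut.conjNormal g a)) := fun g a => by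
    rw [← h3]
    exact congrArg (fun v => φ (H11.ap _ v)) (φ.symm_apply_apply _)
  let Φ : G →* Equiv.Perm (Fin 5) := ε.permCongrHom.toMonoidHom.comp (ψ.comp κ)
  have hker : Φ.ker = pCore 2 G := by
    ext g
    have : g ∈ Φ.ker ↔ MulAut.conjNormal (H := pCore 2 G) g ∈ ρ.ker := by
      simp only [Φ, κ, MonoidHom.mem_ker, MonoidHom.comp_apply, MulEquiv.coe_toMonoidHom,
        map_eq_one_iff _ ε.permCongrHom.injective, map_eq_one_iff _ hψ.1,
        map_eq_one_iff _ e.injective]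
    rw [this, h2]
    constructor
    · rintro ⟨h, hh⟩
      have h5 : (h : G)⁻¹ * g ∈ centralizer (pCore 2 G : Set G) := fun x hx => by
        have h6 : h * x * (h : G)⁻¹ = g * x * g⁻¹ := by
          have := congrArg Subtype.val (DFunLike.congr_fun hh (⟨x, hx⟩ : pCore 2 G))
          rw [MulAut.conjNormal_apply] at this
          exact this
        calc x * ((h : G)⁻¹ * g) = (h : G)⁻¹ * (h * x * (h : G)⁻¹) * g := by group
          _ = _ := by rw [h6]; group
      simpa using mul_mem h.2 (hC h5)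
    · exact fun h => ⟨⟨g, h⟩, MulEquiv.ext fun x => Subtype.ext (MulAut.conjNormal_apply g x).symm⟩
  have hR : Nat.card Φ.range = 10 := by rw [← index_ker, hker]; exact hq
  have : Fact (Nat.Prime 5) := ⟨by decide⟩
  obtain ⟨c, hc5⟩ := exists_prime_orderOf_dvd_card' (G := Φ.range) 5 (by rw [hR]; decide)
  have hn : (zpowers c).Normal := normal_of_index_eq_two (by
    have := (zpowers c).index_mul_card
    rw [Nat.card_zpowers, hc5, hR] at this
    omega)
  obtain ⟨k, hk⟩ : ∃ k : Fin 5, Φ T * c * (Φ T)⁻¹ = (c : Equiv.Perm (Fin 5)) ^ (k : ℕ) := by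
    have := (mem_zpowers_iff_mem_range_orderOf).1 (hn.conj_mem c (mem_zpowers c) ⟨Φ T, T, rfl⟩)
    obtain ⟨k, hk, hk2⟩ := Finset.mem_image.1 this
    rw [hc5, Finset.mem_range] at hk
    exact ⟨⟨k, hk⟩, (congrArg Subtype.val hk2).symm⟩
  have hfix := aux c (congrArg Subtype.val (orderOf_dvd_iff_pow_eq_one.1 hc5.dvd : c ^ 5 = 1))
    (fun h => by rw [show c = 1 from Subtype.ext h, orderOf_one] at hc5; omega) _ k hk
  have hT2 : T * T = 1 := by rw [← pow_two, ← hT, pow_orderOf_eq_one]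
  have key : ∀ x ∈ pCore 2 G ⊓ centralizer ({T} : Set G), x ^ 2 = 1 := by
    rintro x ⟨hx, hxT⟩
    have hxT' : MulAut.conjNormal T (⟨x, hx⟩ : pCore 2 G) = ⟨x, hx⟩ := Subtype.ext (by
      rw [MulAut.conjNormal_apply, hxT T rfl, mul_inv_cancel_right])
    by_contra hx2
    obtain ⟨a, ha, hb, hab, hu⟩ := model (φ (D.π ⟨x, hx⟩)) (by
      rw [hφ', D.quad_apply, Ne, ← D.pow_eq_one_iff]
      exact fun h => hx2 (congrArg Subtype.val h))
    have hw := hκ T ⟨x, hx⟩
    rw [hxT'] at hw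
    rcases hu (H11.ap (κ T) a) (by rw [H11.Q_ap, ha.2])
      (by rw [← hw, ← H11.ap_sub, H11.Q_ap, hb.2]) with h | h
    · have hf : ∀ v, H11.ap (κ T) v.1 = v.1 → Φ T (ε v) = ε v := fun v hv => by
        change ε (ψ (κ T) (ε.symm (ε _))) = _
        rw [ε.symm_apply_apply]
        exact congrArg ε (Subtype.ext ((hψ2 _ _).trans hv))
      rcases hfix _ _ (hf ⟨_, ha⟩ h) (hf ⟨_, hb⟩ (by rw [H11.ap_sub, hw, h])) with h5 | h5
      · exact hab (congrArg Subtype.val (ε.injective h5))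
      · exact hTH (hker ▸ h5)
    · obtain ⟨a, rfl⟩ := φ.surjective a
      obtain ⟨a, rfl⟩ := D.π_surj a
      rw [hκ] at h
      obtain ⟨s, hs⟩ := (D.π_eq_iff ⟨x, hx⟩ (a * MulAut.conjNormal T a)).1 (φ.injective (by
        rw [D.π_mul, map_add, h]; abel))
      have h5 : MulAut.conjNormal T (MulAut.conjNormal T a) = a := by
        rw [← MulAut.mul_apply, ← map_mul, hT2, map_one, MulAut.one_apply]
      have h6 := hxT'
      rw [hs, map_mul, H85.aut_ζ D hD, map_mul, h5] at h6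
      have h7 := (D.commute_iff a (MulAut.conjNormal T a)).1 (mul_left_cancel h6).symm
      rw [← D.polar_quad, QuadraticMap.polar, ← D.π_mul, ← zero_add (D.π (a * _)), ← D.π_ζ s,
        ← D.π_mul, ← hs, ← hφ' (D.π a), ha.2, ← hφ' (D.π (MulAut.conjNormal T a)), h, hb.2,
        sub_zero, sub_zero, D.quad_apply, ← D.pow_eq_one_iff] at h7
      exact hx2 (congrArg Subtype.val h7)
  have hel : IsElementaryAbelian 2 (pCore 2 G ⊓ centralizer ({T} : Set G)) := by
    refine ⟨⟨⟨fun a b => Subtype.ext ?_⟩⟩, key⟩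
    have h1 : ∀ a ∈ pCore 2 G ⊓ centralizer ({T} : Set G), a⁻¹ = a := fun a ha =>
      inv_eq_of_mul_eq_one_left (by rw [← pow_two, key a ha])
    change (a : G) * b = b * a
    rw [← h1 _ (mul_mem a.2 b.2), mul_inv_rev, h1 _ a.2, h1 _ b.2]
  exact ⟨le_antisymm (hminus _ inf_le_left hel) (hV4 ▸ card_le_of_le hV), hel⟩

end Cfsg.Agent.S4405
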