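import Cfsg.Statements.S4406
import Cfsg.Agent.H85.SylowCount
import Cfsg.Agent.H2.Basic

set_option autoImplicit false
open Cfsg

namespace Cfsg.Agent.S4406

abbrev A4 := ↥(alternatingGroup (Fin 4))

set_option synthInstance.maxSize 4000 in
lemma key1 : ∀ a : A4, a ^ 3 = 1 → a ≠ 1 → ∀ u₁ u₂ : A4,
    u₁ ^ 2 = 1 → u₁ ≠ 1 → u₂ ^ 2 = 1 → u₂ ≠ 1 → u₁ * u₂ ≠ 1 →
    ((a * u₁ * a⁻¹ = u₂ ∧ a * u₂ * a⁻¹ = u₁ * u₂) ∧ (a⁻¹ * u₁ * a⁻¹⁻¹ = u₁ * u₂ ∧ a⁻¹ * u₂ * a⁻¹⁻¹ = u₁)) ∨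
    ((a * u₁ * a⁻¹ = u₁ * u₂ ∧ a * u₂ * a⁻¹ = u₁) ∧ (a⁻¹ * u₁ * a⁻¹⁻¹ = u₂ ∧ a⁻¹ * u₂ * a⁻¹⁻¹ = u₁ * u₂)) := by
  decide +kernel

lemma key2 : ∀ a : A4, a ^ 16 = 1 → a ^ 2 = 1 := by
  decide +kernel

lemma key3 : ∀ a : A4, a ^ 9 = 1 → a ^ 3 = 1 := by
  decide +kernel

lemma card_A4 : Nat.card A4 = 12 := alternatingGroup.card_of_card_eq_four (by simp)

lemma card_P : Nat.card (A4 × A4) = 144 := by rw [Nat.card_prod, card_A4]

lemma norm_of {G : Type*} [Group G] [Finite G] (B : Subgroup G) (hB : Nat.card B = 4) {x y g : G}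
    (hx : x ∈ B) (hy : y ∈ B) (hx1 : x ≠ 1) (hy1 : y ≠ 1) (hxy : x ≠ y)
    (h1 : g * x * g⁻¹ ∈ B) (h2 : g * y * g⁻¹ ∈ B) : g ∈ Subgroup.normalizer (B : Set G) := by
  classical
  let D := B ⊓ B.comap (MulAut.conj g).toMonoidHom
  have hD : Nat.card D ∣ 2 ^ 2 := by
    have := Subgroup.card_dvd_of_le (inf_le_left : D ≤ B)
    rwa [hB] at this
  have h3 : 3 ≤ Nat.card D := by
    have h4 : ({1, x, y} : Set G) ⊆ D := by
      rintro z (rfl | rfl | rfl)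
      · exact D.one_mem
      · exact ⟨hx, h1⟩
      · exact ⟨hy, h2⟩
    have h5 := Set.ncard_le_ncard h4
    rw [Set.ncard_eq_three.mpr ⟨1, x, y, hx1.symm, hy1.symm, hxy, rfl⟩] at h5
    exact h5
  have h6 : Nat.card D = 4 := by
    obtain ⟨k, hk, hk2⟩ := (Nat.dvd_prime_pow Nat.prime_two).mp hD
    interval_cases k <;> omega
  have h7 : D = B := Subgroup.eq_of_le_of_card_ge inf_le_left (by omega)
  apply Subgroup.mem_normalizer_fintype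
  intro n hn
  have : n ∈ D := h7 ▸ hn
  exact this.2

/-- In the direct product P = A₄ × A₄, let X be the Sylow 2-subgroup, X₁ and X₂ its intersections with the two direct factors, Q a Sylow 3-subgroup and Q₁, Q₂ its intersections with the two factors. Then every subgroup B of X of order 4 either meets X₁ or X₂ nontrivially, or is normalized by one of the two subgroups of Q of order 3 other than Q₁ and Q₂. -/
theorem result
    (X : Sylow 2 (↥(alternatingGroup (Fin 4)) × ↥(alternatingGroup (Fin 4))))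
    (Q : Sylow 3 (↥(alternatingGroup (Fin 4)) × ↥(alternatingGroup (Fin 4))))
    (B : Subgroup (↥(alternatingGroup (Fin 4)) × ↥(alternatingGroup (Fin 4)))) (hBX : B ≤ (X : Subgroup _)) (hB4 : Nat.card ↥B = 4) :
    B ⊓ ((X : Subgroup _) ⊓ Subgroup.prod ⊤ ⊥) ≠ ⊥ ∨ B ⊓ ((X : Subgroup _) ⊓ Subgroup.prod ⊥ ⊤) ≠ ⊥ ∨
      ∃ R : Subgroup (↥(alternatingGroup (Fin 4)) × ↥(alternatingGroup (Fin 4))), R ≤ (Q : Subgroup _) ∧ Nat.card ↥R = 3 ∧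
        R ≠ (Q : Subgroup _) ⊓ Subgroup.prod ⊤ ⊥ ∧ R ≠ (Q : Subgroup _) ⊓ Subgroup.prod ⊥ ⊤ ∧ R ≤ Subgroup.normalizer (B : Set _) := by
  by_contra hcon
  push Not at hcon
  obtain ⟨hB1, hB2, hR⟩ := hcon
  have hX : Nat.card (X : Subgroup (A4 × A4)) = 16 := by
    rw [Sylow.card_eq_multiplicity, card_P, show 144 = 2 ^ 4 * 3 ^ 2 by norm_num,
      Nat.factorization_mul (by norm_num) (by norm_num), Nat.prime_two.factorization_pow,
      Nat.prime_three.factorization_pow]; simp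
  have hQ : Nat.card (Q : Subgroup (A4 × A4)) = 9 := by
    rw [Sylow.card_eq_multiplicity, card_P, show 144 = 2 ^ 4 * 3 ^ 2 by norm_num,
      Nat.factorization_mul (by norm_num) (by norm_num), Nat.prime_two.factorization_pow,
      Nat.prime_three.factorization_pow]; simp
  have hXe : ∀ x ∈ B, x.1 ^ 2 = 1 ∧ x.2 ^ 2 = 1 := by
    intro x hx
    have h1 : x ^ 16 = 1 := by
      have := pow_card_eq_one' (x := (⟨x, hBX hx⟩ : (X : Subgroup (A4 × A4))))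
      rw [hX] at this
      exact congrArg Subtype.val this
    exact ⟨key2 _ (congrArg Prod.fst h1), key2 _ (congrArg Prod.snd h1)⟩
  have hQe : ∀ x ∈ (Q : Subgroup (A4 × A4)), x.1 ^ 3 = 1 ∧ x.2 ^ 3 = 1 := by
    intro x hx
    have h1 : x ^ 9 = 1 := by
      have := pow_card_eq_one' (x := (⟨x, hx⟩ : (Q : Subgroup (A4 × A4))))
      rw [hQ] at this
      exact congrArg Subtype.val this
    exact ⟨key3 _ (congrArg Prod.fst h1), key3 _ (congrArg Prod.snd h1)⟩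
  have hBe : ∀ x ∈ B, x ≠ 1 → x.1 ≠ 1 ∧ x.2 ≠ 1 := by
    intro x hx hx1
    constructor
    · intro h
      apply hx1
      rw [← Subgroup.mem_bot, ← hB2]
      exact ⟨hx, hBX hx, h, trivial⟩
    · intro h
      apply hx1
      rw [← Subgroup.mem_bot, ← hB1]
      exact ⟨hx, hBX hx, trivial, h⟩
  have hQK : ∀ K : Subgroup (A4 × A4), K.Normal → Nat.card K = 12 →
      ∃ x ∈ (Q : Subgroup (A4 × A4)) ⊓ K, x ≠ 1 := by
    intro K hK hc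
    refine (Subgroup.bot_or_exists_ne_one _).resolve_left fun h => ?_
    have h1 := H85.not_dvd_relIndex_sylow_normal Q K
    have h2 := H2.card_inf_mul_relIndex (Q : Subgroup (A4 × A4)) K
    rw [h, Subgroup.card_bot, one_mul, hc] at h2
    rw [h2] at h1
    exact h1 (by norm_num)
  obtain ⟨⟨a, a'⟩, ⟨haQ, -, ha'⟩, ha1⟩ := hQK (Subgroup.prod ⊤ ⊥) inferInstance (by
    rw [Nat.card_congr (Subgroup.prodEquiv ⊤ ⊥).toEquiv, Nat.card_prod, Subgroup.card_top,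
      Subgroup.card_bot, card_A4])
  obtain ⟨⟨b', b⟩, ⟨hbQ, hb', -⟩, hb1⟩ := hQK (Subgroup.prod ⊥ ⊤) inferInstance (by
    rw [Nat.card_congr (Subgroup.prodEquiv ⊥ ⊤).toEquiv, Nat.card_prod, Subgroup.card_top,
      Subgroup.card_bot, card_A4])
  obtain rfl : a' = 1 := ha'
  obtain rfl : b' = 1 := hb'
  have ha1' : a ≠ 1 := fun h => ha1 (by rw [h]; rfl)
  have hb1' : b ≠ 1 := fun h => hb1 (by rw [h]; rfl)
  have ha3 : a ^ 3 = 1 := (hQe _ haQ).1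
  have hb3 : b ^ 3 = 1 := (hQe _ hbQ).2
  have hfin : ∀ c : A4, c ≠ 1 → (a, c) ∈ (Q : Subgroup (A4 × A4)) →
      (a, c) ∉ Subgroup.normalizer (B : Set (A4 × A4)) := by
    intro c hc hcQ hn
    refine hR (Subgroup.zpowers (a, c)) ((Subgroup.zpowers_le).mpr hcQ) ?_ ?_ ?_
      ((Subgroup.zpowers_le).mpr hn)
    · rw [Nat.card_zpowers]
      apply orderOf_eq_prime
      · exact Prod.ext (hQe _ hcQ).1 (hQe _ hcQ).2
      · exact fun h => hc (congrArg Prod.snd h)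
    · intro h
      have : (a, c) ∈ (Q : Subgroup (A4 × A4)) ⊓ Subgroup.prod ⊤ ⊥ := h ▸ Subgroup.mem_zpowers _
      exact hc this.2.2
    · intro h
      have : (a, c) ∈ (Q : Subgroup (A4 × A4)) ⊓ Subgroup.prod ⊥ ⊤ := h ▸ Subgroup.mem_zpowers _
      exact ha1' this.2.1
  have hab : (a, b) ∈ (Q : Subgroup (A4 × A4)) := by
    simpa using (Q : Subgroup (A4 × A4)).mul_mem haQ hbQ
  have hab' : (a, b⁻¹) ∈ (Q : Subgroup (A4 × A4)) := by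
    simpa using (Q : Subgroup (A4 × A4)).mul_mem haQ ((Q : Subgroup (A4 × A4)).inv_mem hbQ)
  obtain ⟨x, y, hx, hy, hx1, hy1, hxy⟩ : ∃ x y, x ∈ B ∧ y ∈ B ∧ x ≠ 1 ∧ y ≠ 1 ∧ x ≠ y := by
    have h1 : 2 < (B : Set (A4 × A4)).ncard := by
      have : (B : Set (A4 × A4)).ncard = 4 := hB4
      omega
    obtain ⟨x, y, z, hx, hy, hz, hxy, hxz, hyz⟩ := (Set.two_lt_ncard_iff).mp h1
    by_cases h2 : x = 1
    · exact ⟨y, z, hy, hz, h2 ▸ hxy.symm, h2 ▸ hxz.symm, hyz⟩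
    by_cases h3 : y = 1
    · exact ⟨x, z, hx, hz, h2, h3 ▸ hyz.symm, hxz⟩
    · exact ⟨x, y, hx, hy, h2, h3, hxy⟩
  have hxy1 : x * y ≠ 1 := by
    intro h
    apply hxy
    have h2 : x * x = 1 := by
      rw [← pow_two]; exact Prod.ext (hXe x hx).1 (hXe x hx).2
    exact mul_left_cancel (h2.trans h.symm)
  have hm := B.mul_mem hx hy
  have k1 := key1 a ha3 ha1' x.1 y.1 (hXe x hx).1 (hBe x hx hx1).1 (hXe y hy).1 (hBe y hy hy1).1
    (hBe _ hm hxy1).1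
  have k2 := key1 b hb3 hb1' x.2 y.2 (hXe x hx).2 (hBe x hx hx1).2 (hXe y hy).2 (hBe y hy hy1).2
    (hBe _ hm hxy1).2
  rcases k1 with ⟨⟨k1, k1'⟩, -⟩ | ⟨⟨k1, k1'⟩, -⟩ <;>
    rcases k2 with ⟨⟨k2, k2'⟩, k3, k3'⟩ | ⟨⟨k2, k2'⟩, k3, k3'⟩
  · exact hfin b hb1' hab (norm_of B hB4 hx hy hx1 hy1 hxy
      ((Prod.ext k1 k2 : (a, b) * x * (a, b)⁻¹ = y) ▸ hy)
      ((Prod.ext k1' k2' : (a, b) * y * (a, b)⁻¹ = x * y) ▸ hm))
  · exact hfin b⁻¹ (inv_ne_one.mpr hb1') hab' (norm_of B hB4 hx hy hx1 hy1 hxy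
      ((Prod.ext k1 k3 : (a, b⁻¹) * x * (a, b⁻¹)⁻¹ = y) ▸ hy)
      ((Prod.ext k1' k3' : (a, b⁻¹) * y * (a, b⁻¹)⁻¹ = x * y) ▸ hm))
  · exact hfin b⁻¹ (inv_ne_one.mpr hb1') hab' (norm_of B hB4 hx hy hx1 hy1 hxy
      ((Prod.ext k1 k3 : (a, b⁻¹) * x * (a, b⁻¹)⁻¹ = x * y) ▸ hm)
      ((Prod.ext k1' k3' : (a, b⁻¹) * y * (a, b⁻¹)⁻¹ = x) ▸ hx))
  · exact hfin b hb1' hab (norm_of B hB4 hx hy hx1 hy1 hxy
      ((Prod.ext k1 k2 : (a, b) * x * (a, b)⁻¹ = x * y) ▸ hm)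
      ((Prod.ext k1' k2' : (a, b) * y * (a, b)⁻¹ = x) ▸ hx))

end Cfsg.Agent.S4406
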