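import Cfsg.Statements.S4407
import Cfsg.Agent.H53.D8Mod

set_option autoImplicit false
open Cfsg

namespace Cfsg.Agent.S4407

/-- Let S be a finite group with a normal elementary abelian subgroup A of order 9 that is self-centralizing (C_S(A) = A), and a dihedral subgroup X of order 8 with S = AX. Let M be a finite-dimensional module for S over the field with two elements that is faithful and irreducible. Then M has 16 elements, and X contains exactly one subgroup B of order 4 and exponent 2 whose fixed points on M form a subspace with exactly 2 elements (equivalently, M is free of rank one over the group algebra of B). -/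
theorem result {S : Type*} [Group S] [Finite S]
    (A : Subgroup S) [A.Normal] (hA : Cfsg.IsElementaryAbelian 3 A) (hA9 : Nat.card ↥A = 9)
    (hAC : Subgroup.centralizer (A : Set S) = A) (X : Subgroup S) (hX : Nonempty (↥X ≃* DihedralGroup 4)) (hAX : A ⊔ X = ⊤)
    {M : Type*} [AddCommGroup M] [Module (ZMod 2) M] [Finite M] (ρ : Representation (ZMod 2) S M)
    (hfaith : Function.Injective ρ)
    (hirr : ∀ N : Submodule (ZMod 2) M, (∀ s : S, ∀ m ∈ N, ρ s m ∈ N) → N = ⊥ ∨ N = ⊤) (hM : Nontrivial M) :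
    Nat.card M = 16 ∧
      ∃! B : Subgroup S, B ≤ X ∧ Nat.card ↥B = 4 ∧ (∀ b ∈ B, b ^ 2 = 1) ∧
        Nat.card {m : M // ∀ b ∈ B, ρ b m = m} = 2 := by
  classical
  obtain ⟨φ⟩ := hX
  let ψ : DihedralGroup 4 →* S := X.subtype.comp φ.symm.toMonoidHom
  have hψi : Function.Injective ψ := X.subtype_injective.comp φ.symm.injective
  have hψX : ∀ d, ψ d ∈ X := fun d => (φ.symm d).2
  have hXψ : ∀ x ∈ X, ∃ d, ψ d = x := fun x hx => ⟨φ ⟨x, hx⟩, by simp [ψ]⟩
  have mul : ∀ (g h : S) (v : M), ρ (g * h) v = ρ g (ρ h v) := by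
    intro g h v; rw [map_mul]; rfl
  have one : ∀ v : M, ρ 1 v = v := by intro v; rw [map_one]; rfl
  have comm : ∀ x ∈ A, ∀ y ∈ A, x * y = y * x := by
    intro x hx y hy
    exact congrArg Subtype.val (hA.1.is_comm.comm (⟨x, hx⟩ : A) ⟨y, hy⟩)
  have conj : ∀ (g : S), ∀ x ∈ A, g * x * g⁻¹ ∈ A := fun g x hx => (inferInstance : A.Normal).conj_mem x hx g
  have faith : ∀ d : DihedralGroup 4, d ≠ 1 → ∃ x ∈ A, ψ d * x * (ψ d)⁻¹ ≠ x := by
    intro d hd
    by_contra hcon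
    push Not at hcon
    have h1 : ψ d ∈ Subgroup.centralizer (A : Set S) := by
      rw [Subgroup.mem_centralizer_iff]
      intro x hx
      have := hcon x hx
      calc x * ψ d = (ψ d * x * (ψ d)⁻¹) * ψ d := by rw [this]
        _ = ψ d * x := by group
    rw [hAC] at h1
    have h3 : d ^ 3 = 1 := hψi (by rw [map_pow, map_one]; exact hA.2 _ h1)
    revert hd h3
    generalize d = d
    revert d
    decide
  obtain ⟨r, hr⟩ : ∃ r, r = ψ (DihedralGroup.r 1) := ⟨_, rfl⟩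
  obtain ⟨s, hs⟩ : ∃ s, s = ψ (DihedralGroup.sr 0) := ⟨_, rfl⟩
  have hr4 : r ^ 4 = 1 := by rw [hr, ← map_pow, ← map_one ψ]; congr 1
  have hs2 : s ^ 2 = 1 := by rw [hs, ← map_pow, ← map_one ψ]; congr 1
  have hsr : s * r = r⁻¹ * s := by rw [hr, hs, ← map_inv, ← map_mul, ← map_mul]; congr 1
  have hz2 : ψ (DihedralGroup.r 2) = r ^ 2 := by rw [hr, ← map_pow]; congr 1
  have hzz : r ^ 2 * r ^ 2 = 1 := by rw [← hr4]; group
  have inv_ne : ∀ x ∈ A, x ≠ 1 → x⁻¹ ≠ x := by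
    intro x hx h1 h
    apply h1
    have h3 := hA.2 x hx
    have h2 : x * x = 1 := by rw [← mul_inv_cancel x, h]
    rw [pow_succ, sq, h2, one_mul] at h3
    exact h3
  -- z inverts A
  have hz : ∀ x ∈ A, r ^ 2 * x = x⁻¹ * r ^ 2 := by
    obtain ⟨d, hd, hd'⟩ := faith (DihedralGroup.r 2) (by decide)
    rw [hz2] at hd'
    obtain ⟨e, he⟩ : ∃ e, e = d * (r ^ 2 * d * (r ^ 2)⁻¹)⁻¹ := ⟨_, rfl⟩
    have heA : e ∈ A := he ▸ A.mul_mem hd (A.inv_mem (conj _ _ hd))
    have he1 : e ≠ 1 := by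
      intro h; apply hd'
      rw [he, mul_inv_eq_one] at h
      exact h.symm
    have hzi : (r ^ 2)⁻¹ = r ^ 2 := by rw [inv_eq_iff_mul_eq_one, hzz]
    have hze : r ^ 2 * e * (r ^ 2)⁻¹ = e⁻¹ := by
      rw [he, mul_inv_rev d, inv_inv]
      calc r ^ 2 * (d * (r ^ 2 * d * (r ^ 2)⁻¹)⁻¹) * (r ^ 2)⁻¹
          = (r ^ 2 * d * (r ^ 2)⁻¹) * ((r ^ 2 * r ^ 2) * d⁻¹ * (r ^ 2 * r ^ 2)⁻¹) := by group
        _ = _ := by rw [hzz]; group
    obtain ⟨e', he'⟩ : ∃ e', e' = r * e * r⁻¹ := ⟨_, rfl⟩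
    have he'A : e' ∈ A := he' ▸ conj _ _ heA
    have hre' : r * e' * r⁻¹ = e⁻¹ := by rw [← hze, he', sq]; group
    have hze' : r ^ 2 * e' * (r ^ 2)⁻¹ = e'⁻¹ := by
      calc r ^ 2 * e' * (r ^ 2)⁻¹ = r * (r ^ 2 * e * (r ^ 2)⁻¹) * r⁻¹ := by rw [he']; group
        _ = _ := by rw [hze, he']; group
    have h1 : e' ≠ 1 := by
      intro h; apply he1
      rw [h] at hre'
      simpa using hre'.symm
    have h2 : e' ≠ e := by
      intro h
      apply inv_ne e heA he1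
      rw [← hre', h, ← he', h]
    have h3 : e' ≠ e⁻¹ := by
      intro h
      apply inv_ne e heA he1
      have : r * e⁻¹ * r⁻¹ = e'⁻¹ := by rw [he']; group
      rw [← hre', h, this, h, inv_inv]
    intro x hx
    obtain ⟨i, j, rfl⟩ := H53.D8Mod.span9 A hA hA9 heA he'A he1 h1 h2 h3 x hx
    have : r ^ 2 * (e ^ i * e' ^ j) * (r ^ 2)⁻¹ = (e ^ i * e' ^ j)⁻¹ := by
      calc r ^ 2 * (e ^ i * e' ^ j) * (r ^ 2)⁻¹
          = (r ^ 2 * e * (r ^ 2)⁻¹) ^ i * (r ^ 2 * e' * (r ^ 2)⁻¹) ^ j := by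
            rw [conj_pow, conj_pow]; group
        _ = _ := by
            rw [hze, hze', comm _ (A.pow_mem heA i) _ (A.pow_mem he'A j), mul_inv_rev, inv_pow, inv_pow]
    rw [← this]; group
  -- an element fixed by s
  obtain ⟨a, ha, ha1, hsa⟩ : ∃ a ∈ A, a ≠ 1 ∧ s * a = a * s := by
    obtain ⟨d, hd, hd'⟩ := faith (DihedralGroup.sr 2) (by decide)
    have h1 : ψ (DihedralGroup.sr 2) = s * r ^ 2 := by rw [← hz2, hs, ← map_mul]; congr 1
    rw [h1] at hd'
    have hss : s * s = 1 := by rw [← sq, hs2]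
    have hsi : s⁻¹ = s := by rw [inv_eq_iff_mul_eq_one, hss]
    refine ⟨d * (s * d * s⁻¹), A.mul_mem hd (conj _ _ hd), ?_, ?_⟩
    · intro h; apply hd'
      have h2 := hz d hd
      have h3 : s * d * s⁻¹ = d⁻¹ := (inv_eq_of_mul_eq_one_right h).symm
      calc s * r ^ 2 * d * (s * r ^ 2)⁻¹ = s * (r ^ 2 * d) * (r ^ 2)⁻¹ * s⁻¹ := by group
        _ = (s * d * s⁻¹)⁻¹ := by rw [h2]; group
        _ = d := by rw [h3, inv_inv]
    · rw [comm d hd _ (conj _ _ hd)]
      have h4 := comm d hd _ (conj s _ hd)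
      calc s * (s * d * s⁻¹ * d) = (s * s) * (d * (s⁻¹ * d * s⁻¹)) * s := by
            rw [hsi]
            calc s * (s * d * s * d) = s * (s * d * s * d) * (s * s) := by rw [hss, mul_one]
              _ = _ := by group
        _ = (d * (s * d * s⁻¹)) * s := by rw [hss, one_mul, hsi]
        _ = _ := by rw [h4]
  have hirr' : ∀ N : Submodule (ZMod 2) M, (∀ x ∈ A, ∀ m ∈ N, ρ x m ∈ N) → (∀ m ∈ N, ρ r m ∈ N) →
      (∀ m ∈ N, ρ s m ∈ N) → N = ⊥ ∨ N = ⊤ := by
    intro N h1 h2 h3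
    apply hirr
    have pw : ∀ g : S, (∀ v ∈ N, ρ g v ∈ N) → ∀ k : ℕ, ∀ v ∈ N, ρ (g ^ k) v ∈ N := by
      intro g h k
      induction k with
      | zero => intro v hv; rwa [pow_zero, one]
      | succ k ih => intro v hv; rw [pow_succ, mul]; exact ih _ (h v hv)
    let H : Subgroup S :=
      { carrier := {g | ∀ v ∈ N, ρ g v ∈ N}
        mul_mem' := by intro g h hg hh v hv; rw [mul]; exact hg _ (hh v hv)
        one_mem' := by intro v hv; rwa [one]
        inv_mem' := by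
          intro g hg
          have : g⁻¹ = g ^ (orderOf g - 1) := by
            rw [inv_eq_iff_mul_eq_one, ← pow_succ', Nat.sub_add_cancel (orderOf_pos g), pow_orderOf_eq_one]
          rw [this]; exact pw g hg _ }
    have hH : (⊤ : Subgroup S) ≤ H := by
      rw [← hAX]
      refine sup_le (fun x hx => h1 x hx) ?_
      intro x hx
      obtain ⟨d, rfl⟩ := hXψ x hx
      have hd : ∃ i j : Fin 4, d = (DihedralGroup.sr 0) ^ (i : ℕ) * (DihedralGroup.r 1) ^ (j : ℕ) := by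
        generalize d = d
        revert d
        decide
      obtain ⟨i, j, rfl⟩ := hd
      rw [map_mul, map_pow, map_pow, ← hr, ← hs]
      exact H.mul_mem (H.pow_mem (show s ∈ H from h3) _) (H.pow_mem (show r ∈ H from h2) _)
    exact fun g => hH (Subgroup.mem_top g)
  have hCA : ∀ m : M, (∀ x ∈ A, ρ x m = m) → m = 0 := by
    let N : Submodule (ZMod 2) M :=
      { carrier := {m | ∀ x ∈ A, ρ x m = m}
        add_mem' := by intro u v hu hv x hx; rw [map_add, hu x hx, hv x hx]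
        zero_mem' := by intro x _; rw [map_zero]
        smul_mem' := by intro c v hv x hx; rw [map_smul, hv x hx] }
    rcases hirr N (by
      intro g m hm x hx
      have h1 : x * g = g * (g⁻¹ * x * g⁻¹⁻¹) := by group
      rw [← mul, h1, mul, hm _ (conj _ _ hx)]) with h | h
    · intro m hm
      have : m ∈ N := hm
      rwa [h, Submodule.mem_bot] at this
    · exfalso; apply ha1
      apply hfaith
      ext v
      have : v ∈ N := h ▸ Submodule.mem_top
      rw [this a ha, one]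
  -- the two four-groups
  let V1 : Subgroup (DihedralGroup 4) :=
    { carrier := {d | d = 1 ∨ d = DihedralGroup.r 2 ∨ d = DihedralGroup.sr 0 ∨ d = DihedralGroup.sr 2}
      mul_mem' := by intro u v; simp only [Set.mem_ofPred_eq]; revert u v; decide
      one_mem' := Or.inl rfl
      inv_mem' := by intro u; simp only [Set.mem_ofPred_eq]; revert u; decide }
  let V2 : Subgroup (DihedralGroup 4) :=
    { carrier := {d | d = 1 ∨ d = DihedralGroup.r 2 ∨ d = DihedralGroup.sr 1 ∨ d = DihedralGroup.sr 3}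
      mul_mem' := by intro u v; simp only [Set.mem_ofPred_eq]; revert u v; decide
      one_mem' := Or.inl rfl
      inv_mem' := by intro u; simp only [Set.mem_ofPred_eq]; revert u; decide }
  have mV1 : ∀ d, d ∈ V1 ↔ d = 1 ∨ d = DihedralGroup.r 2 ∨ d = DihedralGroup.sr 0 ∨ d = DihedralGroup.sr 2 :=
    fun _ => Iff.rfl
  have mV2 : ∀ d, d ∈ V2 ↔ d = 1 ∨ d = DihedralGroup.r 2 ∨ d = DihedralGroup.sr 1 ∨ d = DihedralGroup.sr 3 :=
    fun _ => Iff.rfl
  have cV1 : Nat.card V1 = 4 := by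
    have : Nat.card {d : DihedralGroup 4 // d = 1 ∨ d = DihedralGroup.r 2 ∨ d = DihedralGroup.sr 0 ∨
      d = DihedralGroup.sr 2} = 4 := by rw [Nat.card_eq_fintype_card]; decide
    exact this
  have cV2 : Nat.card V2 = 4 := by
    have : Nat.card {d : DihedralGroup 4 // d = 1 ∨ d = DihedralGroup.r 2 ∨ d = DihedralGroup.sr 1 ∨
      d = DihedralGroup.sr 3} = 4 := by rw [Nat.card_eq_fintype_card]; decide
    exact this
  have good : ∀ V : Subgroup (DihedralGroup 4), Nat.card V = 4 → (∀ d ∈ V, d ^ 2 = 1) →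
      V.map ψ ≤ X ∧ Nat.card ↥(V.map ψ) = 4 ∧ ∀ b ∈ V.map ψ, b ^ 2 = 1 := by
    intro V h1 h2
    refine ⟨?_, ?_, ?_⟩
    · rintro _ ⟨d, -, rfl⟩; exact hψX d
    · rw [Subgroup.card_map_of_injective hψi, h1]
    · rintro _ ⟨d, hd, rfl⟩; rw [← map_pow, h2 d hd, map_one]
  have g1 := good V1 cV1 (by intro d; rw [mV1]; revert d; decide)
  have g2 := good V2 cV2 (by intro d; rw [mV2]; revert d; decide)
  have dich : ∀ B : Subgroup S, B ≤ X → Nat.card ↥B = 4 → (∀ b ∈ B, b ^ 2 = 1) →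
      B = V1.map ψ ∨ B = V2.map ψ := by
    intro B h1 h2 h3
    have hB : (B.comap ψ).map ψ = B := by
      apply Subgroup.map_comap_eq_self
      intro x hx
      exact hXψ x (h1 hx)
    have hc : Nat.card (B.comap ψ) = 4 := by rw [← Subgroup.card_map_of_injective hψi, hB, h2]
    have hsq : ∀ d ∈ B.comap ψ, d ^ 2 = 1 := by
      intro d hd; apply hψi; rw [map_pow, map_one]; exact h3 _ hd
    have hle : B.comap ψ ≤ V1 ∨ B.comap ψ ≤ V2 := by
      by_contra hcon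
      push Not at hcon
      obtain ⟨u, hu, hu'⟩ := SetLike.not_le_iff_exists.1 hcon.1
      obtain ⟨v, hv, hv'⟩ := SetLike.not_le_iff_exists.1 hcon.2
      have e1 := hsq u hu
      have e2 := hsq v hv
      have e3 := hsq _ (Subgroup.mul_mem _ hu hv)
      rw [mV1] at hu'
      rw [mV2] at hv'
      revert e1 e2 e3 hu' hv'
      generalize u = u
      generalize v = v
      revert u v
      decide
    rcases hle with h | h
    · left; rw [← hB, Subgroup.eq_of_le_of_card_ge h (by rw [hc, cV1])]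
    · right; rw [← hB, Subgroup.eq_of_le_of_card_ge h (by rw [hc, cV2])]
  have fin : ∀ B1 B2 : Subgroup S, (∀ B : Subgroup S, B ≤ X → Nat.card ↥B = 4 → (∀ b ∈ B, b ^ 2 = 1) →
      B = B1 ∨ B = B2) → (B2 ≤ X ∧ Nat.card ↥B2 = 4 ∧ ∀ b ∈ B2, b ^ 2 = 1) →
      Nat.card {m : M // ∀ b ∈ B1, ρ b m = m} = 4 → Nat.card {m : M // ∀ b ∈ B2, ρ b m = m} = 2 →
      ∃! B : Subgroup S, B ≤ X ∧ Nat.card ↥B = 4 ∧ (∀ b ∈ B, b ^ 2 = 1) ∧
        Nat.card {m : M // ∀ b ∈ B, ρ b m = m} = 2 := by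
    intro B1 B2 h1 h2 h3 h4
    refine ⟨B2, ⟨h2.1, h2.2.1, h2.2.2, h4⟩, ?_⟩
    rintro B ⟨a1, a2, a3, a4⟩
    rcases h1 B a1 a2 a3 with rfl | rfl
    · omega
    · rfl
  have fx : ∀ (V : Subgroup (DihedralGroup 4)) (t : DihedralGroup 4) (t' : S), ψ t = t' → DihedralGroup.r 2 ∈ V → t ∈ V →
      (∀ d ∈ V, d = 1 ∨ d = DihedralGroup.r 2 ∨ d = t ∨ d = t * DihedralGroup.r 2) →
      Nat.card {m : M // ∀ b ∈ V.map ψ, ρ b m = m} = Nat.card {m : M // ρ (r ^ 2) m = m ∧ ρ t' m = m} := by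
    intro V t t' ht h1 h2 h3
    refine Nat.card_congr (Equiv.subtypeEquivRight ?_)
    intro m
    constructor
    · intro h
      exact ⟨h _ ⟨_, h1, hz2⟩, h _ ⟨_, h2, ht⟩⟩
    · rintro ⟨a1, a2⟩ _ ⟨d, hd, rfl⟩
      rcases h3 d hd with rfl | rfl | rfl | rfl
      · rw [map_one, one]
      · rw [hz2, a1]
      · rw [ht, a2]
      · rw [map_mul, hz2, ht, mul, a1, a2]
  obtain ⟨b, hbd⟩ : ∃ b, b = r * a * r⁻¹ := ⟨_, rfl⟩
  have hb : b ∈ A := hbd ▸ conj _ _ ha
  have hrb : r * b * r⁻¹ = a⁻¹ := by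
    calc r * b * r⁻¹ = (r ^ 2 * a) * (r ^ 2)⁻¹ := by rw [hbd, sq]; group
      _ = _ := by rw [hz a ha]; group
  have tr : ∀ (u : S) (v : M), v ≠ 0 → ρ (r * u * r⁻¹) v = v → ρ r⁻¹ v ≠ 0 ∧ ρ u (ρ r⁻¹ v) = ρ r⁻¹ v := by
    intro u v hv h
    constructor
    · intro h'; apply hv
      rw [← one v, ← mul_inv_cancel r, mul, h', map_zero]
    · conv_rhs => rw [← h]
      rw [← mul, ← mul]; congr 2; group
  have case1 : ∀ v : M, v ≠ 0 → ρ a v = v → Nat.card M = 16 ∧
      ∃! B : Subgroup S, B ≤ X ∧ Nat.card ↥B = 4 ∧ (∀ b ∈ B, b ^ 2 = 1) ∧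
        Nat.card {m : M // ∀ b ∈ B, ρ b m = m} = 2 := by
    intro v hv h
    obtain ⟨c1, c2, c3⟩ := H53.D8Mod.core ρ A hA hA9 hr4 hs2 hsr hz hirr' hCA ha ha1 hsa v hv h
    refine ⟨c1, fin _ _ dich g2 ?_ ?_⟩
    · rw [fx V1 (DihedralGroup.sr 0) s hs.symm (by rw [mV1]; decide) (by rw [mV1]; decide)
        (by intro d; rw [mV1]; revert d; decide), c2]
    · rw [fx V2 (DihedralGroup.sr 1) (s * r) (by rw [hs, hr, ← map_mul]; congr 1) (by rw [mV2]; decide)
        (by rw [mV2]; decide) (by intro d; rw [mV2]; revert d; decide), c3]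
  have case2 : ∀ v : M, v ≠ 0 → ρ (a * b) v = v → Nat.card M = 16 ∧
      ∃! B : Subgroup S, B ≤ X ∧ Nat.card ↥B = 4 ∧ (∀ b ∈ B, b ^ 2 = 1) ∧
        Nat.card {m : M // ∀ b ∈ B, ρ b m = m} = 2 := by
    intro v hv h
    have hs' : ψ (DihedralGroup.sr 3) = r * s := by rw [hs, hr, ← map_mul]; congr 1
    have e1 : (r * s) ^ 2 = 1 := by rw [← hs', ← map_pow, ← map_one ψ]; congr 1
    have e2 : r * s * r = r⁻¹ * (r * s) := by rw [mul_assoc, hsr]; group
    have e3 : r * s * r = s := by rw [e2]; group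
    have hsb : s * b * s⁻¹ = b⁻¹ := by
      have h2 : s * r⁻¹ = r * s := by
        calc s * r⁻¹ = r * (r⁻¹ * s) * r⁻¹ := by group
          _ = r * s := by rw [← hsr]; group
      have hri : r⁻¹ = r * r ^ 2 := by rw [inv_eq_iff_mul_eq_one, ← hr4]; group
      calc s * b * s⁻¹ = (s * r) * a * r⁻¹ * s⁻¹ := by rw [hbd]; group
        _ = r⁻¹ * (s * a) * r⁻¹ * s⁻¹ := by rw [hsr]; group
        _ = r⁻¹ * a * (s * r⁻¹) * s⁻¹ := by rw [hsa]; group
        _ = r⁻¹ * a * r := by rw [h2]; group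
        _ = r * (r ^ 2 * a) * r := by rw [hri]; group
        _ = r * a⁻¹ * (r * r ^ 2) := by rw [hz a ha]; group
        _ = b⁻¹ := by rw [← hri, hbd]; group
    have e4 : r * s * (a * b) = a * b * (r * s) := by
      calc r * s * (a * b) = r * (s * a) * b := by group
        _ = (r * a * r⁻¹) * (r * (s * b * s⁻¹) * r⁻¹) * (r * s) := by rw [hsa]; group
        _ = b * (r * b * r⁻¹)⁻¹ * (r * s) := by rw [hsb, ← hbd]; group
        _ = _ := by rw [hrb, inv_inv, comm b hb a ha]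
    have e5 : a * b ≠ 1 := by
      intro h'
      have h1 : b = a⁻¹ := (inv_eq_of_mul_eq_one_right h').symm
      apply inv_ne a ha ha1
      have : r * a⁻¹ * r⁻¹ = b⁻¹ := by rw [hbd]; group
      rw [← hrb, h1, this, h1, inv_inv]
    obtain ⟨c1, c2, c3⟩ := H53.D8Mod.core ρ A hA hA9 hr4 e1 e2 hz (by
      intro N h1 h2 h3
      refine hirr' N h1 h2 ?_
      intro m hm
      rw [← e3, mul]; exact h3 _ (h2 m hm)) hCA (A.mul_mem ha hb) e5 e4 v hv h
    rw [e3] at c3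
    refine ⟨c1, fin _ _ (fun B a1 a2 a3 => (dich B a1 a2 a3).symm) g1 ?_ ?_⟩
    · rw [fx V2 (DihedralGroup.sr 3) (r * s) hs' (by rw [mV2]; decide)
        (by rw [mV2]; decide) (by intro d; rw [mV2]; revert d; decide), c2]
    · rw [fx V1 (DihedralGroup.sr 0) s hs.symm (by rw [mV1]; decide) (by rw [mV1]; decide)
        (by intro d; rw [mV1]; revert d; decide), c3]
  obtain ⟨m, hm⟩ := exists_ne (0 : M)
  obtain ⟨v, hv, h | h | h | h⟩ := H53.D8Mod.exists_fixed ρ (hA.2 a ha) (hA.2 b hb) (comm a ha b hb) m hm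
  · exact case1 v hv h
  · rw [hbd] at h
    exact case1 _ (tr a v hv h).1 (tr a v hv h).2
  · exact case2 v hv h
  · have : b * a⁻¹ = r * (a * b) * r⁻¹ := by rw [← hrb, hbd]; group
    rw [this] at h
    exact case2 _ (tr _ v hv h).1 (tr _ v hv h).2

end Cfsg.Agent.S4407
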