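import Cfsg.Statements.S4408
import Cfsg.Agent.S0044
import Cfsg.Agent.H44.Cores
import Cfsg.Agent.H70.Conj
import Cfsg.Agent.H1.NilComm
import Cfsg.Agent.H49.Prod
import Cfsg.Agent.H35.PrimeOrder

set_option autoImplicit false
open Cfsg

namespace Cfsg.Agent.S4408


open Subgroup
open scoped commutatorElement

variable {G : Type*} [Group G] [Finite G]

theorem sq_inj {N : Subgroup G} (hN : Odd (Nat.card N)) {x : G} (hx : x ∈ N) (h : x * x = 1) :
    x = 1 := by
  have h1 : orderOf x ∣ 2 := orderOf_dvd_of_pow_eq_one (by rw [_root_.sq, h])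
  have h2 : orderOf x ∣ Nat.card N := N.orderOf_dvd_natCard hx
  exact orderOf_eq_one_iff.1 (Nat.eq_one_of_dvd_coprimes (Nat.coprime_two_left.2 hN) h1 h2)

theorem decomp {N : Subgroup G} (hN : Odd (Nat.card N)) {t : G} (ht : t * t = 1)
    (htN : t ∈ normalizer (N : Set G)) {x : G} (hx : x ∈ N) :
    ∃ i ∈ N, t * i * t⁻¹ = i⁻¹ ∧ t * (x * i⁻¹) * t⁻¹ = x * i⁻¹ := by
  obtain ⟨k, hk⟩ := hN
  set w := x⁻¹ * (t * x * t⁻¹) with hw
  have hwN : w ∈ N := N.mul_mem (N.inv_mem hx) (H70.conj_mem_of_mem_norm htN hx)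
  have h1 : t * w * t⁻¹ = w⁻¹ := by
    have h0 : t⁻¹ = t := inv_eq_of_mul_eq_one_right ht
    calc t * w * t⁻¹ = t * x⁻¹ * t⁻¹ * (t * t) * x * (t⁻¹ * t⁻¹) := by rw [hw]; group
      _ = w⁻¹ := by rw [h0, ht, hw, h0]; simp [h0, mul_assoc]
  have h2 : w ^ (2 * k + 1) = 1 := by
    rw [← hk]; exact orderOf_dvd_iff_pow_eq_one.1 (N.orderOf_dvd_natCard hwN)
  refine ⟨w ^ k, N.pow_mem hwN k, by rw [← conj_pow, h1, inv_pow], ?_⟩
  calc t * (x * (w ^ k)⁻¹) * t⁻¹ = x * w * (t * w ^ k * t⁻¹)⁻¹ := by rw [hw]; group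
    _ = x * w ^ (2 * k + 1) * (w ^ k)⁻¹ := by rw [← conj_pow, h1]; group
    _ = x * (w ^ k)⁻¹ := by rw [h2, mul_one]

theorem eigen {I A : Subgroup G} (hI : IsElementaryAbelian 2 I) (N : Subgroup G) :
    Odd (Nat.card N) → I ≤ normalizer (N : Set G) → N ≤ normalizer (A : Set G) → ¬ N ≤ A →
    ∃ x ∈ N, x ∉ A ∧ ∀ t ∈ I, t * x * t⁻¹ * x⁻¹ ∈ A ∨ t * x * t⁻¹ * x ∈ A := by
  induction N using WellFoundedLT.induction with
  | ind N ih =>
  intro hN hIN hNA hn
  by_cases h : ∃ t ∈ I, ¬ N ≤ centralizer {t} ∧ ¬ N ⊓ centralizer {t} ≤ A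
  · obtain ⟨t, ht, h1, h2⟩ := h
    obtain ⟨x, hx, hx2⟩ := ih (N ⊓ centralizer {t})
      (lt_of_le_of_ne inf_le_left fun h => h1 (h.ge.trans inf_le_right))
      (hN.of_dvd_nat (card_dvd_of_le inf_le_left))
      (H70.norm_inf hIN (le_trans (fun s hs => mem_centralizer_singleton_iff.2
        (congrArg Subtype.val (hI.1.is_comm.comm (⟨s, hs⟩ : I) ⟨t, ht⟩))) le_normalizer))
      (inf_le_left.trans hNA) h2
    exact ⟨x, hx.1, hx2⟩
  push Not at h
  obtain ⟨x, hx, hxA⟩ := SetLike.not_le_iff_exists.1 hn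
  refine ⟨x, hx, hxA, fun t ht => ?_⟩
  by_cases h1 : N ≤ centralizer {t}
  · left
    rw [← mem_centralizer_singleton_iff.1 (h1 hx)]; simp [A.one_mem]
  right
  obtain ⟨i, hi, h2, h3⟩ := decomp hN (by rw [← _root_.sq]; exact hI.2 t ht) (hIN ht) hx
  have hc : x * i⁻¹ ∈ A := h t ht h1 ⟨N.mul_mem hx (N.inv_mem hi), mem_centralizer_singleton_iff.2 (by
    calc x * i⁻¹ * t = t * (x * i⁻¹) * t⁻¹ * t := by rw [h3]
      _ = _ := by group)⟩
  have : t * x * t⁻¹ * x = (x * i⁻¹) * (i⁻¹ * (x * i⁻¹) * i) := by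
    calc t * x * t⁻¹ * x = t * (x * i⁻¹) * t⁻¹ * (t * i * t⁻¹) * x := by group
      _ = _ := by rw [h2, h3]; group
  rw [this]
  exact A.mul_mem hc (H70.conj_mem_of_mem_norm' (hNA hi) hc)

theorem exists_scn {I F : Subgroup G} (hI : IsElementaryAbelian 2 I) (hF : Group.IsNilpotent F)
    (ho : Odd (Nat.card F)) (hIF : I ≤ normalizer (F : Set G)) :
    ∃ A : Subgroup G, A ≤ F ∧ A ≤ centralizer (A : Set G) ∧ I ≤ normalizer (A : Set G) ∧
      F ≤ normalizer (A : Set G) ∧ F ⊓ centralizer (A : Set G) ≤ A := by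
  obtain ⟨A, ⟨h1, h2, h3, h4⟩, hmax⟩ := Set.Finite.exists_maximal
    (Set.toFinite {A : Subgroup G | A ≤ F ∧ A ≤ centralizer (A : Set G) ∧
      I ≤ normalizer (A : Set G) ∧ F ≤ normalizer (A : Set G)})
    ⟨⊥, bot_le, bot_le, H70.norm_of_normal, H70.norm_of_normal⟩
  refine ⟨A, h1, h2, h3, h4, ?_⟩
  by_contra hc
  obtain ⟨N, ⟨n1, n2, n3, n4⟩, hmin⟩ := Set.Finite.exists_minimal
    (Set.toFinite {N : Subgroup G | N ≤ F ⊓ centralizer (A : Set G) ∧ ¬ N ≤ A ∧
      I ≤ normalizer (N : Set G) ∧ F ≤ normalizer (N : Set G)})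
    ⟨_, le_rfl, hc, H70.norm_inf hIF (H70.norm_centralizer h3),
      H70.norm_inf le_normalizer (H70.norm_centralizer h4)⟩
  have hNF : N ≤ F := n1.trans inf_le_left
  have hlt : ⁅N, F⁆ < N := H1.commutator_lt_of_nilpotent hF hNF le_rfl n4
    (by rintro rfl; exact n2 bot_le)
  have hNA : ⁅N, F⁆ ≤ A := by
    by_contra h
    exact hlt.not_ge (hmin ⟨hlt.le.trans n1, h, H70.norm_commutator n3 hIF,
      H70.norm_commutator n4 le_normalizer⟩ hlt.le)
  obtain ⟨x, hx, hxA, hxI⟩ := eigen (A := A) hI N (ho.of_dvd_nat (card_dvd_of_le hNF)) n3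
    (hNF.trans h4) n2
  have hxB : x ∈ A ⊔ zpowers x := mem_sup_right (mem_zpowers x)
  have key : ∀ g ∈ normalizer (A : Set G), g * x * g⁻¹ ∈ A ⊔ zpowers x →
      g ∈ normalizer ((A ⊔ zpowers x : Subgroup G) : Set G) := by
    intro g hg h
    apply H70.mem_normalizer_of_cj_le
    rw [H70.cj_sup, H70.cj_eq_self hg]
    refine sup_le le_sup_left (H70.cj_le_iff.2 ?_)
    rintro _ ⟨k, rfl⟩
    simp only
    rw [← conj_zpow]
    exact zpow_mem h k
  refine hxA (hmax (y := A ⊔ zpowers x) ⟨sup_le h1 (zpowers_le.2 (hNF hx)), ?_, fun t ht => ?_,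
    fun f hf => ?_⟩ le_sup_left hxB)
  · have e1 : zpowers x ≤ centralizer (A : Set G) := zpowers_le.2 (n1 hx).2
    have e2 : zpowers x ≤ centralizer ((zpowers x : Subgroup G) : Set G) := le_centralizer _
    refine sup_le ?_ ?_ <;> rw [le_centralizer_iff] <;> refine sup_le ?_ ?_
    · exact h2
    · exact e1
    · exact le_centralizer_iff.1 e1
    · exact e2
  · refine key t (h3 ht) ?_
    rcases hxI t ht with h | h
    · have : t * x * t⁻¹ = t * x * t⁻¹ * x⁻¹ * x := by group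
      rw [this]; exact mul_mem (mem_sup_left h) hxB
    · have : t * x * t⁻¹ = t * x * t⁻¹ * x * x⁻¹ := by group
      rw [this]; exact mul_mem (mem_sup_left h) (inv_mem hxB)
  · refine key f (h4 hf) ?_
    have : f * x * f⁻¹ = ⁅x, f⁆⁻¹ * x := by rw [commutatorElement_def]; group
    rw [this]
    exact mul_mem (mem_sup_left (A.inv_mem (hNA (commutator_mem_commutator hx hf)))) hxB

theorem greedy {I A : Subgroup G} (hI : IsElementaryAbelian 2 I) (ho : Odd (Nat.card A))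
    (hA : A ≤ centralizer (A : Set G)) (hIA : I ≤ normalizer (A : Set G))
    (hf : I ⊓ centralizer (A : Set G) = ⊥) (k : ℕ) : ∀ m : ℕ, Nat.card I = 2 ^ (m + k) →
    ∃ f : Fin k → Subgroup G, (∀ i, (Nat.card (f i)).Prime) ∧ (∀ i, f i ≤ A) ∧
      (∀ i, I ≤ normalizer ((f i) : Set G)) ∧ Nat.card ↥(⨆ i, f i) = ∏ i, Nat.card (f i) ∧
      Nat.card ↥(I ⊓ centralizer ((⨆ i, f i : Subgroup G) : Set G)) = 2 ^ m := by
  induction k with
  | zero =>
    intro m hm
    refine ⟨Fin.elim0, fun i => i.elim0, fun i => i.elim0, fun i => i.elim0, by simp, ?_⟩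
    have : centralizer ((⨆ i : Fin 0, (Fin.elim0 i : Subgroup G) : Subgroup G) : Set G) = ⊤ := by
      rw [iSup_of_empty, eq_top_iff, le_centralizer_iff]; exact bot_le
    rw [this, inf_top_eq, hm, add_zero]
  | succ k ih =>
    intro m hm
    obtain ⟨f, f1, f2, f3, f4, f5⟩ := ih (m + 1) (by rw [hm]; congr 1; omega)
    set U := ⨆ i, f i with hU
    have hUA : U ≤ A := iSup_le f2
    set D := I ⊓ centralizer (U : Set G) with hD
    have hD0 : D ≠ ⊥ := by
      intro h; rw [h, card_bot] at f5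
      exact (Nat.one_lt_pow (Nat.succ_ne_zero m) one_lt_two).ne f5
    obtain ⟨⟨t, ht⟩, ht1⟩ := ne_bot_iff_exists_ne_one.1 hD0
    have htt : t * t = 1 := by rw [← _root_.sq]; exact hI.2 t ht.1
    let N : Subgroup G :=
      { carrier := {a | a ∈ A ∧ t * a * t⁻¹ = a⁻¹}
        one_mem' := ⟨A.one_mem, by simp⟩
        mul_mem' := fun {a b} ha hb => ⟨A.mul_mem ha.1 hb.1, by
          rw [← hA ha.1 b hb.1, ← conj_mul, ha.2, hb.2, hA ha.1 b hb.1, mul_inv_rev]⟩
        inv_mem' := fun {a} ha => ⟨A.inv_mem ha.1, by rw [← conj_inv, ha.2]⟩ }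
    have hNA : N ≤ A := fun a ha => ha.1
    have hN0 : ¬ N ≤ ⊥ := by
      intro h
      refine ht1 (Subtype.ext (mem_bot.1 (hf.le ⟨ht.1, fun a ha => ?_⟩)))
      obtain ⟨i, hi, h2, h3⟩ := decomp ho htt (hIA ht.1) ha
      have : i = 1 := mem_bot.1 (h ⟨hi, h2⟩)
      rw [this, inv_one, mul_one] at h3
      calc a * t = t * a * t⁻¹ * t := by rw [h3]
        _ = _ := by group
    have hIN : I ≤ normalizer (N : Set G) := H70.le_norm_iff_cj.2 fun s hs => H70.cj_le_iff.2
      fun a ha => ⟨H70.conj_mem_of_mem_norm (hIA hs) ha.1, by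
        have e : s * t = t * s := congrArg Subtype.val (hI.1.is_comm.comm (⟨s, hs⟩ : I) ⟨t, ht.1⟩)
        calc t * (s * a * s⁻¹) * t⁻¹ = (t * s) * a * (t * s)⁻¹ := by group
          _ = s * (t * a * t⁻¹) * s⁻¹ := by rw [← e]; group
          _ = _ := by rw [ha.2]; group⟩
    obtain ⟨x, hx, hx1, hxI⟩ := eigen (A := ⊥) hI N (ho.of_dvd_nat (card_dvd_of_le hNA)) hIN
      H70.norm_of_normal hN0
    have hx0 : orderOf x ≠ 1 := fun h => hx1 (mem_bot.2 (orderOf_eq_one_iff.1 h))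
    obtain ⟨q, hq, c, hc⟩ := Nat.exists_prime_and_dvd hx0
    have hc0 : c ≠ 0 := by rintro rfl; exact (orderOf_pos x).ne' (by simpa using hc)
    set y := x ^ c with hy
    have hyo : orderOf y = q := by
      rw [hy, orderOf_pow_of_dvd hc0 (Dvd.intro_left _ hc.symm), hc,
        Nat.mul_div_cancel _ (Nat.pos_of_ne_zero hc0)]
    have hyN : y ∈ N := N.pow_mem hx c
    have hyI : ∀ s ∈ I, s * y * s⁻¹ = y ∨ s * y * s⁻¹ = y⁻¹ := by
      intro s hs
      rcases hxI s hs with h | h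
      · left; rw [hy, ← conj_pow, mul_inv_eq_one.1 (mem_bot.1 h)]
      · right; rw [hy, ← conj_pow, eq_inv_of_mul_eq_one_left (mem_bot.1 h), inv_pow]
    have hyy : y⁻¹ ≠ y := fun h => by
      have : y = 1 := sq_inj ho hyN.1 (by nth_rewrite 1 [← h]; simp)
      rw [this, orderOf_one] at hyo
      exact hq.one_lt.ne hyo
    have hsup : ⨆ i, (Fin.cons (zpowers y) f : Fin (k + 1) → Subgroup G) i = zpowers y ⊔ U := by
      apply le_antisymm
      · refine iSup_le fun i => Fin.cases le_sup_left (fun j => ?_) i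
        exact (le_iSup f j).trans le_sup_right
      · exact sup_le (le_iSup (Fin.cons (zpowers y) f : Fin (k + 1) → Subgroup G) 0)
          (iSup_le fun j => le_iSup (Fin.cons (zpowers y) f : Fin (k + 1) → Subgroup G) j.succ)
    refine ⟨Fin.cons (zpowers y) f, ?_, ?_, ?_, ?_, ?_⟩
    · exact fun i => Fin.cases (by simpa [hyo] using hq) f1 i
    · exact fun i => Fin.cases (zpowers_le.2 hyN.1) f2 i
    · refine fun i => Fin.cases (fun s hs => H35.mem_normalizer_zpowers_iff.2 ?_) f3 i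
      rcases hyI s hs with h | h <;> rw [h]
      · exact mem_zpowers y
      · exact inv_mem (mem_zpowers y)
    · rw [hsup, Fin.prod_univ_succ]
      have hp := H49.isProd_sup_of_norm_right (H := zpowers y) (K := U)
        ((zpowers_le.2 (centralizer_le hUA (hA hyN.1))).trans (centralizer_le_normalizer _))
      have hb : zpowers y ⊓ U = ⊥ := by
        rw [eq_bot_iff]
        intro u hu
        have e1 : t * u * t⁻¹ = u⁻¹ := ((zpowers_le.2 hyN : zpowers y ≤ N) hu.1).2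
        rw [← ht.2 u hu.2, mul_inv_cancel_right] at e1
        exact mem_bot.2 (sq_inj ho (hUA hu.2) (by nth_rewrite 1 [e1]; simp))
      have := hp.card_mul
      rw [hb, card_bot, mul_one, f4] at this
      simpa using this
    · rw [hsup]
      have e1 : I ⊓ centralizer ((zpowers y ⊔ U : Subgroup G) : Set G) = centralizer {y} ⊓ D := by
        apply le_antisymm
        · exact le_inf (inf_le_right.trans (centralizer_le (by
            simpa using (mem_sup_left (mem_zpowers y) : y ∈ zpowers y ⊔ U))))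
            (inf_le_inf_left _ (centralizer_le (le_sup_right : U ≤ zpowers y ⊔ U)))
        · refine le_inf (inf_le_right.trans inf_le_left) ?_
          rw [le_centralizer_iff]
          refine sup_le ?_ ?_ <;> rw [← le_centralizer_iff]
          · rw [H35.centralizer_zpowers]; exact inf_le_left
          · exact inf_le_right.trans inf_le_right
      have e2 : (centralizer {y}).relIndex D = 2 := by
        rw [relIndex, index_eq_two_iff]
        refine ⟨⟨t, ht⟩, fun b => ?_⟩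
        simp only [mem_subgroupOf, mem_centralizer_singleton_iff, coe_mul]
        have e3 : t * y * t⁻¹ = y⁻¹ := hyN.2
        have e4 : ∀ s : G, s * y = y * s ↔ s * y * s⁻¹ = y := fun s => by
          rw [mul_inv_eq_iff_eq_mul]
        rw [e4, e4]
        have e5 : b * t * y * (b * t)⁻¹ = (b * y * (b : G)⁻¹)⁻¹ := by
          calc b * t * y * (b * t)⁻¹ = b * (t * y * t⁻¹) * (b : G)⁻¹ := by group
            _ = _ := by rw [e3]; group
        rw [e5]
        rcases hyI b b.2.1 with h | h <;> rw [h]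
        · exact Or.inr ⟨rfl, hyy⟩
        · exact Or.inl ⟨inv_inv y, hyy⟩
      have e6 := H49.card_inf_mul_relIndex (centralizer {y}) D
      rw [e2, f5, pow_succ] at e6
      rw [e1]
      omega


/-- Let S be a finite solvable group whose Fitting subgroup F(S) has odd order, and let I be an elementary abelian 2-subgroup of S of order 2ⁿ with n ≥ 1. Then F(S) contains subgroups A₁, …, Aₙ of prime order, each normalized by I, pairwise commuting and generating a subgroup A of order |A₁|⋯|Aₙ| (their internal direct product), such that no non-identity element of I centralizes A. -/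
theorem result {S : Type*} [Group S] [Finite S]
    [Group.IsSolvable S] (hF : Odd (Nat.card ↥(Cfsg.fittingSubgroup S)))
    (I : Subgroup S) (hI : Cfsg.IsElementaryAbelian 2 I) (n : ℕ) (hn : 1 ≤ n) (hIn : Nat.card ↥I = 2 ^ n) :
    ∃ f : Fin n → Subgroup S, (∀ i, (Nat.card ↥(f i)).Prime) ∧ (∀ i, f i ≤ Cfsg.fittingSubgroup S) ∧
      (∀ i, I ≤ Subgroup.normalizer ((f i) : Set S)) ∧ (∀ i j, i ≠ j → ∀ a ∈ f i, ∀ b ∈ f j, a * b = b * a) ∧
      Nat.card ↥(⨆ i, f i) = ∏ i, Nat.card ↥(f i) ∧ I ⊓ Subgroup.centralizer ((⨆ i, f i : Subgroup S) : Set S) = ⊥ := by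
  obtain ⟨A, h1, h2, h3, h4, h5⟩ := exists_scn hI (H44.fitting_isNilpotent (G := S)) hF
    H70.norm_of_normal
  have hf : I ⊓ centralizer (A : Set S) = ⊥ := by
    rw [eq_bot_iff]
    intro t ht
    have htt : t * t = 1 := by rw [← _root_.sq]; exact hI.2 t ht.1
    refine mem_bot.2 (sq_inj hF (S0044.result fun x hx => ?_) htt)
    have hw : x⁻¹ * (t * x * t⁻¹) ∈ A := h5 ⟨(fittingSubgroup S).mul_mem ((fittingSubgroup S).inv_mem hx)
      ((inferInstance : (fittingSubgroup S).Normal).conj_mem x hx t), fun b hb => by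
        have e1 : (x * b * x⁻¹) * t = t * (x * b * x⁻¹) := ht.2 _ (H70.conj_mem_of_mem_norm (h4 hx) hb)
        have e2 : b * t = t * b := ht.2 b hb
        calc b * (x⁻¹ * (t * x * t⁻¹)) = x⁻¹ * ((x * b * x⁻¹) * t) * x * t⁻¹ := by group
          _ = x⁻¹ * (t * (x * b * x⁻¹)) * x * t⁻¹ := by rw [e1]
          _ = x⁻¹ * (t * x * t⁻¹) * (t * b) * t⁻¹ := by group
          _ = x⁻¹ * (t * x * t⁻¹) * b := by rw [← e2]; group⟩
    have e3 := ht.2 _ hw
    have h0 : t⁻¹ = t := inv_eq_of_mul_eq_one_right htt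
    have e4 : x⁻¹ * (t * x * t⁻¹) = 1 := sq_inj hF (h1 hw) (by
      calc x⁻¹ * (t * x * t⁻¹) * (x⁻¹ * (t * x * t⁻¹))
          = x⁻¹ * (t * x * t⁻¹) * (x⁻¹ * (t * x * t⁻¹) * t) * t⁻¹ := by group
        _ = x⁻¹ * (t * x * t⁻¹) * (t * (x⁻¹ * (t * x * t⁻¹))) * t⁻¹ := by rw [e3]
        _ = x⁻¹ * (t * t) * x * (t * t)⁻¹ := by group
        _ = 1 := by rw [htt]; group)
    calc x * t = x * (x⁻¹ * (t * x * t⁻¹)) * t := by rw [e4, mul_one]
      _ = t * x := by group
  obtain ⟨f, f1, f2, f3, f4, f5⟩ := greedy hI (hF.of_dvd_nat (card_dvd_of_le h1)) h2 h3 hf n 0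
    (by rw [zero_add, hIn])
  exact ⟨f, f1, fun i => (f2 i).trans h1, f3, fun i j _ a ha b hb => h2 (f2 j hb) a (f2 i ha), f4,
    card_eq_one.1 f5⟩

end Cfsg.Agent.S4408
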