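import Cfsg.Statements.S4410
import Cfsg.Agent.H44.Cores
import Cfsg.Agent.S0044

set_option autoImplicit false
open Cfsg

namespace Cfsg.Agent.S4410


section
variable {V : Type*} [AddCommGroup V] [Module (ZMod 2) V]

/-- `t` moves vectors only by `c`. -/
def Tv (t : V ≃ₗ[ZMod 2] V) (c : V) : Prop := (∀ v, t v = v ∨ t v = v + c) ∧ t c = c

theorem two (v : V) : v + v = 0 := by
  rw [← two_smul (ZMod 2) v, show (2 : ZMod 2) = 0 from rfl, zero_smul]

theorem Tv.conj {t : V ≃ₗ[ZMod 2] V} {c : V} (h : Tv t c) (g : V ≃ₗ[ZMod 2] V) :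
    Tv (g * t * g⁻¹) (g c) := by
  have e : ∀ v, g (g⁻¹ v) = v := fun v => g.apply_symm_apply v
  have e' : ∀ v, g⁻¹ (g v) = v := fun v => g.symm_apply_apply v
  refine ⟨fun v => ?_, ?_⟩
  · rcases h.1 (g⁻¹ v) with h1 | h1
    · left; simp only [LinearEquiv.mul_apply, h1, e]
    · right; simp only [LinearEquiv.mul_apply, h1, map_add, e]
  · simp only [LinearEquiv.mul_apply, e', h.2]

theorem Tv.comm {t u : V ≃ₗ[ZMod 2] V} {c : V} (h : Tv t c) (h' : Tv u c) : t * u = u * t := by
  ext v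
  simp only [LinearEquiv.mul_apply]
  rcases h.1 v with h1 | h1 <;> rcases h'.1 v with h2 | h2 <;>
    simp only [h1, h2, map_add, h.2, h'.2]

theorem key {s t : V ≃ₗ[ZMod 2] V} {a b : V} (hs : Tv s a) (ht : Tv t b) (s2 : s * s = 1)
    (t2 : t * t = 1) (ho : Odd (orderOf (s * t))) (hne : s ≠ t) : s b = b + a ∧ s b ≠ b := by
  have h : s b ≠ b := by
    intro hb
    have si : s⁻¹ = s := inv_eq_of_mul_eq_one_right s2
    have hu := ht.conj s
    rw [hb, si] at hu
    have hc := ht.comm hu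
    have h4 : (s * t) ^ 4 = 1 := by
      have : (s * t) ^ 4 = (s * t * s) * (t * (s * t * s)) * t := by simp only [pow_succ]; group
      rw [this, hc]
      calc _ = s * t * (s * s) * t * s * (t * t) := by group
        _ = 1 := by rw [s2, t2, mul_one, mul_one, mul_assoc s, t2, mul_one, s2]
    have h1 : orderOf (s * t) = 1 := by
      have hd := orderOf_dvd_of_pow_eq_one h4
      have hco : (orderOf (s * t)).Coprime 4 :=
        Nat.Coprime.pow_right 2 (Nat.coprime_two_right.2 ho)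
      exact Nat.Coprime.eq_one_of_dvd hco hd
    apply hne
    have := orderOf_eq_one_iff.1 h1
    calc s = s * (t * t) := by rw [t2, mul_one]
      _ = t := by rw [← mul_assoc, this, one_mul]
  exact ⟨(hs.1 b).resolve_left h, h⟩

theorem main {N : Subgroup (V ≃ₗ[ZMod 2] V)} (hN : ∀ x ∈ N, Odd (orderOf x))
    {P : V ≃ₗ[ZMod 2] V} (hP : ∀ x ∈ N, P * x * P⁻¹ ∈ N) (h4 : P ^ 4 = 1) {c : V}
    (hT : Tv (P * P) c) {g : V ≃ₗ[ZMod 2] V} (hg : g ∈ N) : g * (P * P) * g⁻¹ = P * P := by
  by_contra hne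
  set τ := P * P with hτ
  have τ2 : τ * τ = 1 := by rw [← h4, hτ]; simp only [pow_succ, pow_zero, one_mul, mul_assoc]
  have τi : τ⁻¹ = τ := inv_eq_of_mul_eq_one_right τ2
  have hτN : ∀ x ∈ N, τ * x * τ⁻¹ ∈ N := fun x hx => by
    have := hP _ (hP x hx)
    rwa [show P * (P * x * P⁻¹) * P⁻¹ = τ * x * τ⁻¹ by rw [hτ]; group] at this
  have sq : ∀ x : V ≃ₗ[ZMod 2] V, (x * τ * x⁻¹) * (x * τ * x⁻¹) = 1 := fun x => by
    calc _ = x * (τ * τ) * x⁻¹ := by group
      _ = 1 := by rw [τ2]; group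
  have K : ∀ x ∈ N, ∀ y ∈ N, x * τ * x⁻¹ ≠ y * τ * y⁻¹ →
      (x * τ * x⁻¹) (y c) = y c + x c ∧ (x * τ * x⁻¹) (y c) ≠ y c := by
    intro x hx y hy h
    refine key (hT.conj x) (hT.conj y) (sq x) (sq y) (hN _ ?_) h
    have := N.mul_mem (N.mul_mem hx (hτN _ (N.mul_mem (N.inv_mem hx) hy))) (N.inv_mem hy)
    rwa [show x * (τ * (x⁻¹ * y) * τ⁻¹) * y⁻¹ = x * τ * x⁻¹ * (y * τ⁻¹ * y⁻¹) by group, τi] at this
  have cP : P⁻¹ * τ * P = τ := by rw [hτ]; group
  set t := g * τ * g⁻¹ with ht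
  have e3 : (P * g * P⁻¹) * τ * (P * g * P⁻¹)⁻¹ = P * t * P⁻¹ := by
    rw [ht]; conv_rhs => rw [← cP]
    group
  have e4 : (τ * g * τ⁻¹) * τ * (τ * g * τ⁻¹)⁻¹ = τ * t * τ⁻¹ := by rw [ht]; group
  have e1 : (1 : V ≃ₗ[ZMod 2] V) * τ * 1⁻¹ = τ := by group
  have k21 := K g hg 1 N.one_mem (by rw [e1]; exact hne)
  have k12 := K 1 N.one_mem g hg (by rw [e1]; exact Ne.symm hne)
  rw [e1] at k12
  have n32 : t ≠ P * t * P⁻¹ := by
    intro h
    have h' : τ * t * τ⁻¹ = t := by
      calc τ * t * τ⁻¹ = P * (P * t * P⁻¹) * P⁻¹ := by rw [hτ]; group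
        _ = t := by rw [← h, ← h]
    have a1 : (τ * t * τ⁻¹) c = t c := by rw [h']
    have tc : τ c = c := hT.2
    rw [τi] at a1
    simp only [LinearEquiv.mul_apply, tc] at a1
    have b1 : t c = c + g c := k21.1
    have b2 : τ (g c) = g c + c := k12.1
    rw [b1, map_add, tc, b2] at a1
    apply k12.2
    change τ (g c) = g c
    rw [b2]
    exact add_left_cancel a1
  have k13 := K 1 N.one_mem _ (hP g hg) (by
    rw [e1, e3]; intro h; apply hne
    calc t = P⁻¹ * (P * t * P⁻¹) * P := by group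
      _ = τ := by rw [← h, cP])
  have k23 := K g hg _ (hP g hg) (by rw [e3]; exact n32)
  have k43 := K _ (hτN g hg) _ (hP g hg) (by
    rw [e3, e4]; intro h; apply n32
    calc t = P⁻¹ * (P * t * P⁻¹) * P := by group
      _ = P⁻¹ * (τ * t * τ⁻¹) * P := by rw [h]
      _ = P * t * P⁻¹ := by
        rw [hτ]; simp only [mul_inv_rev, mul_assoc, inv_mul_cancel_left, inv_mul_cancel, mul_one])
  rw [e1] at k13
  rw [e4, τi] at k43
  set d := (P * g * P⁻¹) c
  have b1 : t c = c + g c := k21.1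
  have b3 : τ d = d + c := k13.1
  have b4 : t d = d + g c := k23.1
  apply k43.2
  simp only [LinearEquiv.mul_apply]
  rw [b3, map_add, b4, b1, show d + g c + (c + g c) = d + c + (g c + g c) by abel, two, add_zero,
    map_add, b3, hT.2, add_assoc, two, add_zero]

end

/-- Let V be a finite-dimensional vector space over the field with two elements and S a solvable group of linear automorphisms of V with O₂(S) = 1. If P ∈ S has order 4 and (P − 1)³ = 0 on V, then the image of (P − 1)² has at least 4 elements; equivalently, in the decomposition of V into indecomposable modules for the cyclic group generated by P, at least two summands have dimension 3. -/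
theorem result
    {V : Type*} [AddCommGroup V] [Module (ZMod 2) V] [Finite V]
    (S : Subgroup (V ≃ₗ[ZMod 2] V)) (hS : Group.IsSolvable ↥S) (hO2 : Cfsg.pCore 2 ↥S = ⊥)
    (P : V ≃ₗ[ZMod 2] V) (hPS : P ∈ S) (hP4 : orderOf P = 4)
    (hcub : ((P : V →ₗ[ZMod 2] V) - LinearMap.id) ^ 3 = 0) :
    4 ≤ Nat.card ↥(LinearMap.range (((P : V →ₗ[ZMod 2] V) - LinearMap.id) ^ 2)) := by
  classical
  by_contra hlt
  haveI : Finite (V ≃ₗ[ZMod 2] V) :=
    Finite.of_injective (fun e : V ≃ₗ[ZMod 2] V => (e : V → V)) DFunLike.coe_injective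
  have h4 : P ^ 4 = 1 := by rw [← hP4]; exact pow_orderOf_eq_one P
  have hne : P * P ≠ 1 := fun h => by
    have := orderOf_dvd_of_pow_eq_one (n := 2) (x := P) (by rw [pow_two, h])
    rw [hP4] at this; omega
  set R := LinearMap.range (((P : V →ₗ[ZMod 2] V) - LinearMap.id) ^ 2) with hR
  have hm : ∀ v, (P * P) v + v ∈ R := fun v => ⟨v, by
    simp only [pow_two, Module.End.mul_apply, LinearMap.sub_apply, LinearMap.id_apply,
      LinearEquiv.coe_coe, map_sub, LinearEquiv.mul_apply]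
    have := two (P v)
    rw [show P (P v) - P v - (P v - v) = P (P v) + v - (P v + P v) by abel, this, sub_zero]⟩
  obtain ⟨v₀, hv₀⟩ : ∃ v, (P * P) v ≠ v := by
    by_contra h
    push Not at h
    exact hne (LinearEquiv.ext h)
  set c := (P * P) v₀ + v₀ with hc
  have c0 : c ≠ 0 := fun h => hv₀ (by
    rw [← add_zero ((P * P) v₀), ← two v₀, ← add_assoc, ← hc, h, zero_add])
  have hT : Tv (P * P) c := by
    refine ⟨fun v => ?_, ?_⟩
    · by_contra h
      push Not at h
      set d := (P * P) v + v with hd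
      have d0 : d ≠ 0 := fun h' => h.1 (by
        rw [← add_zero ((P * P) v), ← two v, ← add_assoc, ← hd, h', zero_add])
      have dc : d ≠ c := fun h' => h.2 (by
        rw [← h', hd, add_comm, add_assoc, two, add_zero])
      apply hlt
      have hcd : c + d ∈ R := R.add_mem (hm v₀) (hm v)
      let T : Finset R := {0, ⟨c, hm v₀⟩, ⟨d, hm v⟩, ⟨c + d, hcd⟩}
      have hcd0 : c + d ≠ 0 := fun h' => dc (by
        rw [← add_zero d, ← h', add_comm c d, ← add_assoc, two, zero_add])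
      have hT : T.card = 4 := by
        rw [Finset.card_insert_of_notMem, Finset.card_insert_of_notMem,
          Finset.card_pair]
        · simpa using c0
        · simpa using ⟨dc.symm, d0⟩
        · simpa [Subtype.ext_iff] using ⟨c0.symm, d0.symm, hcd0.symm⟩
      haveI := Fintype.ofFinite R
      rw [← hT, Nat.card_eq_fintype_card]
      exact Finset.card_le_univ T
    · have : (P * P) ((P * P) v₀) = v₀ := by
        rw [← LinearEquiv.mul_apply, show P * P * (P * P) = P ^ 4 by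
          simp only [pow_succ, pow_zero, one_mul, mul_assoc], h4]
        rfl
      rw [hc, map_add, this, add_comm]
  set N := (pPrimeCore 2 ↥S).map S.subtype with hN
  have hodd : ∀ x ∈ N, Odd (orderOf x) := fun x hx =>
    Nat.coprime_two_right.1
      (Nat.Coprime.coprime_dvd_left (N.orderOf_dvd_natCard hx) (H44.pPrimeCoreOf_coprime S))
  have hPN : ∀ x ∈ N, P * x * P⁻¹ ∈ N := fun x hx =>
    (Subgroup.mem_normalizer_iff.1 (H44.le_normalizer_pPrimeCoreOf S hPS) x).1 hx
  haveI : Fact (Nat.Prime 2) := ⟨Nat.prime_two⟩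
  have hF : fittingSubgroup ↥S ≤ pPrimeCore 2 ↥S := by
    have := H44.fitting_le_pCore_sup_pPrimeCore (G := ↥S) (p := 2)
    rwa [hO2, bot_sup_eq] at this
  have hτ : (⟨P * P, S.mul_mem hPS hPS⟩ : S) ∈ pPrimeCore 2 ↥S := by
    refine hF (S0044.result ?_)
    intro g hg
    have := main hodd hPN h4 hT (g := (g : V ≃ₗ[ZMod 2] V)) ⟨g, hF hg, rfl⟩
    apply Subtype.ext
    change (g : V ≃ₗ[ZMod 2] V) * (P * P) = P * P * g
    exact mul_inv_eq_iff_eq_mul.1 this
  have ho := hodd (P * P) ⟨_, hτ, rfl⟩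
  have h2 : orderOf (P * P) = 2 :=
    orderOf_eq_prime (by rw [← h4]; simp only [pow_succ, pow_zero, one_mul, mul_assoc]) hne
  rw [h2] at ho
  exact absurd ho (by decide)

end Cfsg.Agent.S4410
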