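import Cfsg.Statements.S4411
import Cfsg.Agent.H73.HallPQ
import Cfsg.Agent.H21.FF4
import Cfsg.Agent.H69.Cores
import Cfsg.Agent.H44.Cores
import Cfsg.Agent.H4.CoprimeAut
import Cfsg.Agent.H3.PComplement

set_option autoImplicit false
open Cfsg

namespace Cfsg.Agent.S4411

open Subgroup H92

universe u

def Sol (p : ℕ) (G : Type*) [Group G] : Prop :=
  ∀ H L : Subgroup G, IsPGroup p H → L ≤ normalizer (H : Set G) →
    IsPSolvable p ↥(L ⊓ centralizer (H : Set G)) → IsPSolvable p L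

def Bad (q : ℕ) {G : Type*} [Group G] (H : Subgroup G) : Prop :=
  ∃ Q : Subgroup G, IsPGroup q Q ∧ Q ≤ normalizer (H : Set G) ∧ ¬ Q ≤ centralizer (H : Set G)

section
variable {G : Type*} [Group G] [Finite G] {p q : ℕ} [hp : Fact p.Prime] [hq : Fact q.Prime]

theorem exists_q {C L : Subgroup G} (h : q ∣ C.relIndex L) :
    ∃ Q : Subgroup G, IsPGroup q Q ∧ Q ≤ L ∧ ¬ Q ≤ C := by
  obtain ⟨Q, hQ⟩ := exists_sylIn q L
  refine ⟨Q, hQ.pgroup, hQ.le, fun hc => hQ.not_dvd_relIndex (h.trans ?_)⟩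
  exact relIndex_dvd_of_le_left L hc

theorem dvd_of_q {C Q : Subgroup G} (hQ : IsPGroup q Q) (h : ¬ Q ≤ C) : q ∣ C.relIndex Q := by
  obtain ⟨k, hk⟩ := hQ.index (C.subgroupOf Q)
  change C.relIndex Q = _ at hk
  rw [hk]
  refine dvd_pow_self q ?_
  rintro rfl
  exact h (relIndex_eq_one.1 hk)

theorem Bad.dvd {H : Subgroup G} (h : Bad q H) :
    q ∣ (centralizer (H : Set G)).relIndex (normalizer (H : Set G)) := by
  obtain ⟨Q, h1, h2, h3⟩ := h
  exact (dvd_of_q h1 h3).trans (H49.relIndex_dvd_of_norm (H70.norm_centralizer le_rfl) h2)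

theorem bad_of_dvd {H L : Subgroup G} (hL : L ≤ normalizer (H : Set G))
    (h : q ∣ (centralizer (H : Set G)).relIndex L) : Bad q H := by
  obtain ⟨Q, h1, h2, h3⟩ := exists_q h
  exact ⟨Q, h1, h2.trans hL, h3⟩

theorem Sol.sub (h : Sol p G) (M : Subgroup G) : Sol p M := by
  intro H L hH hL hs
  have := h (H.map M.subtype) (L.map M.subtype) (hH.map _) (H70.norm_map _ hL) (by
    refine H22.IsPSolvable.of_le (H22.IsPSolvable.map hs M.subtype) ?_
    rintro _ ⟨⟨x, hx, rfl⟩, hc⟩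
    exact ⟨x, ⟨hx, fun y hy => Subtype.ext (hc _ ⟨y, hy, rfl⟩)⟩, rfl⟩)
  exact H22.IsPSolvable.of_equiv this (L.equivMapOfInjective _ M.subtype_injective).symm

omit [Finite G] in
theorem psol_comap {G' : Type*} [Group G'] [Finite G] (f : G →* G') (hk : IsPGroup p f.ker)
    {L : Subgroup G'} (hL : IsPSolvable p L) : IsPSolvable p (L.comap f) := by
  refine H22.isPSolvable_of_ker_of_range (f.subgroupComap L) ?_ (H22.IsPSolvable.subgroup hL _)
  refine H22.isPSolvable_of_isPGroup fun x => ?_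
  have hx : (x.1 : G) ∈ f.ker := congrArg Subtype.val (MonoidHom.mem_ker.1 x.2)
  obtain ⟨k, hk⟩ := hk ⟨_, hx⟩
  have h2 : (x.1 : G) ^ p ^ k = 1 := congrArg Subtype.val hk
  exact ⟨k, Subtype.ext (Subtype.ext h2)⟩

theorem Sol.quot {G' : Type*} [Group G'] (h : Sol p G) (f : G →* G') (hf : Function.Surjective f)
    (hk : IsPGroup p f.ker) : Sol p G' := by
  intro H L hH hL hs
  have := h (H.comap f) (L.comap f) (hH.comap_of_ker_isPGroup f hk)
    ((comap_mono hL).trans (le_normalizer_comap f)) (by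
      refine H22.IsPSolvable.of_le (psol_comap f hk hs) ?_
      rintro x ⟨hx, hc⟩
      refine ⟨hx, fun y hy => ?_⟩
      obtain ⟨y, rfl⟩ := hf y
      rw [← map_mul, ← map_mul, hc y hy])
  have h2 := H22.IsPSolvable.map this f
  rwa [map_comap_eq_self_of_surjective hf] at h2

theorem factorizable (hpq : p ≠ q) (h23 : ¬ ((p = 2 ∧ q = 3) ∨ (p = 3 ∧ q = 2)))
    (hs : IsPSolvable p G) (hn : H1.PiNum {p, q} (Nat.card G)) : IsThompsonFactorizable p G := by
  rw [H21.isThompsonFactorizable_iff_quotient]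
  by_contra hnf
  obtain ⟨h, E, hE⟩ := H21.exists_sl2Factor_of_not_factorizable (H22.IsPSolvable.quotient hs _)
    H22.pPrimeCore_quotient_pPrimeCore hnf
  obtain ⟨f, hf, -⟩ := hE.hom
  have h1 := ((card_dvd_of_surjective f hf).trans (card_subgroup_dvd_card E)).trans
    (card_quotient_dvd_card _)
  rcases h with rfl | rfl
  · have : Nat.card (Matrix.SpecialLinearGroup (Fin 2) (ZMod 2)) = 6 := by
      rw [Nat.card_eq_fintype_card]; decide +kernel
    rcases hn 3 Nat.prime_three (Dvd.dvd.trans (by rw [this]; norm_num) h1) with h | h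
    · omega
    · exact h23 (Or.inl ⟨rfl, h.symm⟩)
  · have : Nat.card (Matrix.SpecialLinearGroup (Fin 2) (ZMod 3)) = 24 := by
      rw [Nat.card_eq_fintype_card]; decide +kernel
    rcases hn 2 Nat.prime_two (Dvd.dvd.trans (by rw [this]; norm_num) h1) with h | h
    · omega
    · exact h23 (Or.inr ⟨rfl, h.symm⟩)

theorem inner (hpq : p ≠ q) (h23 : ¬ ((p = 2 ∧ q = 3) ∨ (p = 3 ∧ q = 2))) {H T L : Subgroup G}
    (hH : IsPGroup p H) (hHT : H ≤ T) (hT : SylIn p T L) (hL : L ≤ normalizer (H : Set G))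
    (hs : IsPSolvable p L) (hn : H1.PiNum {p, q} (Nat.card L))
    (hd : q ∣ (centralizer (H : Set G)).relIndex L) :
    q ∣ (centralizer (H : Set G)).relIndex
        (L ⊓ normalizer (omegaOne p (T ⊓ centralizer (T : Set G)) : Set G)) ∨
      q ∣ (centralizer (H : Set G)).relIndex (L ⊓ normalizer (thompsonSubgroupOf p T : Set G)) := by
  have hf := factorizable hpq h23 hs hn hT.toSylow
  set C := centralizer (H : Set G) with hC
  set A := L ⊓ normalizer (omegaOne p (T ⊓ centralizer (T : Set G)) : Set G) with hA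
  set B := L ⊓ normalizer (thompsonSubgroupOf p T : Set G) with hB
  have hdisj : (hT.toSylow : Subgroup L) ⊓ L.subtype.ker = ⊥ := by rw [ker_subtype, inf_bot_eq]
  have hTm : (hT.toSylow : Subgroup L).map L.subtype = T := by
    rw [SylIn.coe_toSylow, map_subgroupOf_eq_of_le hT.le]
  have hLY : L ≤ normalizer ((C ⊓ L : Subgroup G) : Set G) :=
    H70.norm_inf (H70.norm_centralizer hL) le_normalizer
  have hprod : H49.IsProd (C ⊓ L ⊔ A) B L := by
    refine ⟨sup_le inf_le_right inf_le_left, inf_le_left, fun g hg => ?_⟩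
    obtain ⟨x, hx, c, hc, n, hn, e⟩ := hf ⟨g, hg⟩
    refine ⟨x * c, mul_mem (mem_sup_left ⟨?_, x.2⟩) (mem_sup_right ⟨c.2, ?_⟩), n, ⟨n.2, ?_⟩,
      congrArg Subtype.val e⟩
    · intro h hh
      have h1 : (⟨h, hT.le (hHT hh)⟩ : L) ∈ pCore p L := by
        obtain ⟨y, hy, e⟩ := H22.le_map_pCore (hHT.trans hT.le) hL hH hh
        exact (show y = ⟨h, _⟩ from Subtype.ext e) ▸ hy
      have := commutator_mem_commutator h1 hx
      rw [H44.commutator_pCore_pPrimeCore, mem_bot, commutatorElement_eq_one_iff_mul_comm] at this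
      exact congrArg Subtype.val this
    · apply centralizer_le_normalizer
      rw [← hTm, ← H21.omegaOne_center_map_of_disjoint p hdisj]
      exact H22.map_centralizer_le _ _ ⟨c, hc, rfl⟩
    · rw [← hTm, ← H21.thompsonSubgroupOf_map_of_disjoint p hdisj]
      exact le_normalizer_map _ ⟨n, hn, rfl⟩
  rw [← inf_relIndex_right, ← relIndex_mul_relIndex (C ⊓ L) (C ⊓ L ⊔ A) L le_sup_left hprod.1,
    hq.out.dvd_mul] at hd
  rcases hd with hd | hd
  · left
    rw [sup_comm, H49.relIndex_sup_of_norm (Or.inl (inf_le_left.trans hLY))] at hd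
    rwa [← inf_relIndex_right, inf_assoc, inf_eq_right.2 (inf_le_left : A ≤ L),
      inf_relIndex_right] at hd
  · right
    rw [← hprod.symm.relIndex_eq] at hd
    refine (hd.trans (relIndex_dvd_of_le_left B le_sup_left)).trans (dvd_of_eq ?_)
    rw [← inf_relIndex_right, inf_assoc, inf_eq_right.2 (inf_le_left : B ≤ L), inf_relIndex_right]

end

theorem main {p q : ℕ} [hp : Fact p.Prime] [hq : Fact q.Prime] (hpq : p ≠ q)
    (h23 : ¬ ((p = 2 ∧ q = 3) ∨ (p = 3 ∧ q = 2))) (G : Type u) [Group G] [Finite G] :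
    Sol p G → (∃ H : Subgroup G, IsPGroup p H ∧ Bad q H) →
      ∃ K P : Subgroup G, K ≤ P ∧ SylIn p P ⊤ ∧ P ≤ normalizer (K : Set G) ∧ Bad q K := by
  refine H2.card_induction (P := fun G _ _ => Sol p G → (∃ H : Subgroup G, IsPGroup p H ∧ Bad q H) →
      ∃ K P : Subgroup G, K ≤ P ∧ SylIn p P ⊤ ∧ P ≤ normalizer (K : Set G) ∧ Bad q K) G ?_
  intro G _ _ ih hS ⟨H0, hH0, hB0⟩
  let X : Set (Subgroup G × Subgroup G) :=
    {x | x.1 ≤ x.2 ∧ IsPGroup p x.2 ∧ x.2 ≤ normalizer (x.1 : Set G) ∧ Bad q x.1}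
  obtain ⟨⟨H1, T⟩, h1, hmaxT⟩ := Set.exists_max_image X (fun x => Nat.card x.2) (Set.toFinite _)
    ⟨(H0, H0), le_rfl, hH0, le_normalizer, hB0⟩
  obtain ⟨H, ⟨hHT, hTp, hTN, hB⟩, hmaxH⟩ := (Set.toFinite {H | (H, T) ∈ X}).exists_maximal ⟨H1, h1⟩
  simp only at hHT hTp hTN hB hmaxT
  have hH : IsPGroup p H := hTp.to_le hHT
  set N := normalizer (H : Set G) with hN
  set C := centralizer (H : Set G) with hC
  have hT : SylIn p T N := ⟨hTN, hTp, fun Q h1 h2 h3 =>
    (eq_of_le_of_card_ge h3 (hmaxT (H, Q) ⟨hHT.trans h3, h2, h1, hB⟩)).symm⟩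
  have hCN : C ≤ N := centralizer_le_normalizer _
  have hNC : N ≤ normalizer (C : Set G) := H70.norm_centralizer le_rfl
  have hTD : T ⊓ (H ⊔ C) ≤ H := by
    have hD : N ≤ normalizer ((H ⊔ C : Subgroup G) : Set G) := H70.norm_sup le_rfl hNC
    have h0 := hT.inf_normal' (sup_le le_normalizer hCN) hD
    have hF := H70.frattini_arg h0 (sup_le le_normalizer hCN) hD
    have hH0 : H ≤ T ⊓ (H ⊔ C) := le_inf hHT le_sup_left
    refine hmaxH ⟨inf_le_left, hTp, H70.norm_inf le_normalizer (hTN.trans hD), ?_⟩ hH0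
    refine bad_of_dvd (L := N ⊓ normalizer ((T ⊓ (H ⊔ C) : Subgroup G) : Set G)) inf_le_right ?_
    refine Dvd.dvd.trans ?_ (relIndex_dvd_of_le_left _ (H70.cent_anti hH0))
    have hHL : H ≤ N ⊓ normalizer ((T ⊓ (H ⊔ C) : Subgroup G) : Set G) :=
      le_inf le_normalizer (hH0.trans le_normalizer)
    rw [sup_comm H C, sup_assoc, sup_comm C H, sup_eq_right.2 hHL, sup_comm] at hF
    rw [← H49.relIndex_sup_of_norm (Or.inl (inf_le_left.trans hNC)), hF]
    exact hB.dvd
  have hCs : IsPSolvable p C := by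
    have h0 := hT.inf_normal' hCN hNC
    refine H22.isPSolvable_of_hasNormalPComplement
      (H3.hasNormalPComplement_of_normalizer_le_centralizer h0.toSylow fun x _ y hy => ?_)
    have : (y : G) ∈ H := hTD ⟨hy.1, mem_sup_right hy.2⟩
    exact Subtype.ext (x.2 _ this)
  have hNs : IsPSolvable p N := hS H N hH le_rfl (by rwa [inf_eq_right.2 hCN])
  obtain ⟨L, hTL, hLN, hLi, hLn⟩ := H73.exists_hall_pq_ge q hNs hT
  have hd : q ∣ C.relIndex L := by
    have h0 := hB.dvd
    rw [← relIndex_mul_relIndex C (L ⊔ C) N le_sup_right (sup_le hLN hCN), hq.out.dvd_mul,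
      H49.relIndex_sup_of_norm (Or.inl (hLN.trans hNC))] at h0
    exact h0.resolve_right fun h => hLi (h.trans (relIndex_dvd_of_le_left N le_sup_left))
  have hT1 : T ≠ ⊥ := by
    rintro rfl
    obtain ⟨Q, -, -, h⟩ := hB
    apply h
    rw [le_bot_iff.1 hHT]
    exact H49.le_cent_bot Q
  obtain ⟨W, hW1, hWT, hWN, hW⟩ : ∃ W : Subgroup G, W ≠ ⊥ ∧ W ≤ T ∧
      normalizer (T : Set G) ≤ normalizer (W : Set G) ∧
      q ∣ C.relIndex (L ⊓ normalizer (W : Set G)) := by
    rcases inner hpq h23 hH hHT (hT.mono hTL hLN) hLN (H22.IsPSolvable.of_le hNs hLN) hLn hd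
      with h | h
    · refine ⟨_, H69.omegaOne_ne_bot (hTp.to_le inf_le_left)
        (H70.inf_cent_ne_bot hTp hTp le_normalizer hT1), (H21.omegaOne_le _ _).trans inf_le_left,
        (H70.norm_inf le_rfl (H70.norm_centralizer le_rfl)).trans
          (H21.normalizer_le_normalizer_omegaOne _ _), h⟩
    · refine ⟨_, H21.thompsonSubgroupOf_ne_bot ?_, H21.thompsonSubgroupOf_le _ _,
        H21.normalizer_le_normalizer_thompsonSubgroupOf _ _, h⟩
      obtain ⟨k, hk⟩ := hTp.exists_card_eq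
      rw [hk]
      refine dvd_pow_self p ?_
      rintro rfl
      exact hT1 (card_eq_one.1 hk)
  obtain ⟨Q, hQ, hQL, hQC⟩ := exists_q hW
  have hQN : Q ≤ N := hQL.trans (inf_le_left.trans hLN)
  by_cases hM : normalizer (W : Set G) = ⊤
  · haveI := normalizer_eq_top_iff.1 hM
    have hWp : IsPGroup p W := hTp.to_le hWT
    by_cases hQW : Q ≤ centralizer (W : Set G)
    swap
    · obtain ⟨P, hP, hWP⟩ := exists_sylIn_ge (le_top : W ≤ ⊤) hWp
      exact ⟨W, P, hWP, hP, H70.norm_of_normal, Q, hQ, H70.norm_of_normal, hQW⟩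
    let f := QuotientGroup.mk' W
    have hs : Function.Surjective f := QuotientGroup.mk'_surjective _
    have hker : f.ker = W := QuotientGroup.ker_mk' _
    obtain ⟨K, P, hKP, hP, hPK, R, hR, hRK, hRC⟩ := ih (G ⧸ W) (H73.card_quot_lt hW1)
      (hS.quot f hs (by rw [hker]; exact hWp)) ⟨H.map f, hH.map _, Q.map f, hQ.map _, H70.norm_map f hQN, by
        intro hc
        refine hQC fun x hx => H4.mem_centralizer_of_stabilizes hWp ?_ (hQW hx) fun h hh => ?_
        · obtain ⟨k, hk⟩ := hQ ⟨x, hx⟩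
          exact Nat.Coprime.coprime_dvd_left (orderOf_dvd_of_pow_eq_one (congrArg Subtype.val hk))
            (Nat.Coprime.pow_left k ((Nat.coprime_primes hq.out hp.out).2 hpq.symm))
        · rw [← hker, MonoidHom.mem_ker]
          have := hc ⟨x, hx, rfl⟩ _ ⟨h, hh, rfl⟩
          simp only [map_mul, map_inv, ← this]
          group⟩
    refine ⟨K.comap f, P.comap f, comap_mono hKP, ?_, (comap_mono hPK).trans (le_normalizer_comap f), ?_⟩
    · refine sylIn_of_not_dvd_relIndex le_top (hP.pgroup.comap_of_ker_isPGroup f (by rw [hker]; exact hWp)) ?_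
      rw [relIndex_top_right, index_comap_of_surjective _ hs, ← relIndex_top_right]
      exact hP.not_dvd_relIndex
    · refine bad_of_dvd ((comap_mono hRK).trans (le_normalizer_comap f)) ?_
      have h0 := dvd_of_q hR hRC
      rw [← map_comap_eq_self_of_surjective hs R, ← relIndex_comap] at h0
      refine h0.trans (relIndex_dvd_of_le_left _ fun x hx y hy => ?_)
      obtain ⟨y, rfl⟩ := hs y
      rw [← map_mul, ← map_mul, hx y hy]
  set M := normalizer (W : Set G) with hMdef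
  have hTM : T ≤ M := le_normalizer.trans hWN
  have hQM : Q ≤ M := hQL.trans inf_le_right
  obtain ⟨K, P, hKP, hP, hPK, R, hR, hRK, hRC⟩ := ih M
    (by have := H49.card_lt_of_lt (lt_top_iff_ne_top.2 hM); rwa [card_top] at this) (hS.sub M)
    ⟨H.subgroupOf M, isPGroup_subgroupOf hH M, Q.subgroupOf M, isPGroup_subgroupOf hQ M,
      (comap_mono hQN).trans (le_normalizer_comap _), fun hc => hQC fun x hx y hy =>
        congrArg Subtype.val (hc (show (⟨x, hQM hx⟩ : M) ∈ _ from hx) ⟨y, hTM (hHT hy)⟩ hy)⟩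
  have hmem : (K.map M.subtype, P.map M.subtype) ∈ X :=
    ⟨map_mono hKP, hP.pgroup.map _, H70.norm_map _ hPK, R.map M.subtype, hR.map _,
      H70.norm_map _ hRK, fun hc => hRC fun x hx y hy =>
        Subtype.ext (hc ⟨x, hx, rfl⟩ _ ⟨y, hy, rfl⟩)⟩
  have hle := hmaxT _ hmem
  obtain ⟨S, hS', hTS⟩ := exists_sylIn_ge (le_top : T ≤ ⊤) hTp
  have hP' := hP.map M.subtype
  rw [← MonoidHom.range_eq_map, range_subtype] at hP'
  have hle2 := hP'.card_le (inf_le_right.trans hWN : S ⊓ normalizer (T : Set G) ≤ M)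
    (hS'.pgroup.to_le inf_le_left)
  have e : T = S := H70.eq_of_inf_norm_le hS'.pgroup hTS
    (eq_of_le_of_card_ge (le_inf hTS le_normalizer) (hle2.trans hle)).ge
  exact ⟨H, T, hHT, e ▸ hS', hTN, hB⟩


/-- Let p and q be distinct primes with {p, q} ≠ {2, 3}, and let G be a finite group such that for every p-subgroup H of G the automizer N_G(H)/C_G(H) is p-solvable. If q divides the order of N_G(H)/C_G(H) for some p-subgroup H, then a Sylow p-subgroup of G has a normal subgroup K (normal in the Sylow subgroup) such that q divides the order of N_G(K)/C_G(K). -/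
theorem result {G : Type*} [Group G] [Finite G]
    (p q : ℕ) [Fact p.Prime] [Fact q.Prime] (hpq : p ≠ q) (h23 : ¬ ((p = 2 ∧ q = 3) ∨ (p = 3 ∧ q = 2)))
    (hsol : ∀ H : Subgroup G, IsPGroup p ↥H →
      Cfsg.IsPSolvable p (↥(Subgroup.normalizer (H : Set G)) ⧸ (Subgroup.centralizer (H : Set G)).subgroupOf (Subgroup.normalizer (H : Set G))))
    (H : Subgroup G) (hH : IsPGroup p ↥H)
    (hq : q ∣ ((Subgroup.centralizer (H : Set G)).subgroupOf (Subgroup.normalizer (H : Set G))).index)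
    (Gp : Sylow p G) :
    ∃ K : Subgroup G, K ≤ (Gp : Subgroup G) ∧ (Gp : Subgroup G) ≤ Subgroup.normalizer (K : Set G) ∧
      q ∣ ((Subgroup.centralizer (K : Set G)).subgroupOf (Subgroup.normalizer (K : Set G))).index := by
  have hS : Sol p G := by
    intro H L hH hL hs
    let f : L →* _ := (QuotientGroup.mk' ((Subgroup.centralizer (H : Set G)).subgroupOf
      (Subgroup.normalizer (H : Set G)))).comp (inclusion hL)
    refine H22.isPSolvable_of_ker_of_range f ?_ (H22.IsPSolvable.subgroup (hsol H hH) _)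
    have : f.ker = (L ⊓ centralizer (H : Set G)).subgroupOf L := by
      ext x
      rw [MonoidHom.mem_ker, MonoidHom.comp_apply, QuotientGroup.mk'_apply, QuotientGroup.eq_one_iff]
      exact ⟨fun h => ⟨x.2, h⟩, fun h => h.2⟩
    rw [this]
    exact H22.IsPSolvable.of_equiv hs (subgroupOfEquivOfLe inf_le_left).symm
  obtain ⟨K, P, hKP, hP, hPK, Q, hQ, hQK, hQC⟩ := main hpq h23 G hS ⟨H, hH, bad_of_dvd le_rfl hq⟩
  obtain ⟨g, -, e⟩ := H70.sylIn_exists_cj_eq hP (sylIn_top Gp)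
  refine ⟨H70.cj g K, e ▸ H70.cj_mono g hKP, ?_, Bad.dvd ⟨H70.cj g Q, H70.isPGroup_cj g hQ, ?_, ?_⟩⟩
  · rw [← e, ← H70.cj_normalizer]; exact H70.cj_mono g hPK
  · rw [← H70.cj_normalizer]; exact H70.cj_mono g hQK
  · rwa [← H70.cj_centralizer, H70.cj_le_cj_iff]

end Cfsg.Agent.S4411
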