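import Cfsg.Statements.S4412
import Cfsg.Agent.H13.EigInv

set_option autoImplicit false
open Cfsg

namespace Cfsg.Agent.S4412

open Cfsg.Agent.H13
set_option linter.style.haveILetI false

/-- Let p be an odd prime, P a finite p-group and I an elementary abelian subgroup of order 8 of Aut(P). Call T ∈ I, T ≠ 1, broad when its fixed-point subgroup C_P(T) is not cyclic. Suppose I has a proper subgroup I₀ containing no broad element such that the product of any two broad elements lies in I₀. Then P is abelian of rank exactly 3 (generated by three elements but not by two), there are exactly three broad elements and they generate I, and I₀ is exactly the set of products of two broad elements. -/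
theorem result
    {P : Type*} [Group P] [Finite P] (p : ℕ) (hp : p.Prime) (hp2 : p ≠ 2) (hP : IsPGroup p P)
    (I : Subgroup (MulAut P)) (hI : Cfsg.IsElementaryAbelian 2 I) (hI8 : Nat.card ↥I = 8)
    (I₀ : Subgroup (MulAut P)) (hI₀ : I₀ < I)
    (hdisj : ∀ T ∈ I₀, T ≠ 1 → ∃ g : P, ∀ x : P, (T x = x ↔ x ∈ Subgroup.zpowers g))
    (hprod : ∀ T ∈ I, ∀ T' ∈ I, T ≠ 1 → T' ≠ 1 → (¬ ∃ g : P, ∀ x : P, (T x = x ↔ x ∈ Subgroup.zpowers g)) →
      (¬ ∃ g : P, ∀ x : P, (T' x = x ↔ x ∈ Subgroup.zpowers g)) → T * T' ∈ I₀) :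
    IsMulCommutative P ∧ (∃ a b c : P, Subgroup.closure {a, b, c} = ⊤) ∧ (¬ ∃ a b : P, Subgroup.closure {a, b} = ⊤) ∧
      Nat.card {T : MulAut P // T ∈ I ∧ T ≠ 1 ∧ ¬ ∃ g : P, ∀ x : P, (T x = x ↔ x ∈ Subgroup.zpowers g)} = 3 ∧
      Subgroup.closure {T : MulAut P | T ∈ I ∧ T ≠ 1 ∧ ¬ ∃ g : P, ∀ x : P, (T x = x ↔ x ∈ Subgroup.zpowers g)} = I ∧
      (I₀ : Set (MulAut P)) = {S : MulAut P | ∃ T T' : MulAut P, T ∈ I ∧ T' ∈ I ∧ T ≠ 1 ∧ T' ≠ 1 ∧
        (¬ ∃ g : P, ∀ x : P, (T x = x ↔ x ∈ Subgroup.zpowers g)) ∧ (¬ ∃ g : P, ∀ x : P, (T' x = x ↔ x ∈ Subgroup.zpowers g)) ∧ S = T * T'} := by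
  open Eig Subgroup in
  have := Fact.mk hp
  have ho : Odd (Nat.card P) := by
    obtain ⟨k, hk⟩ := IsPGroup.iff_card.1 hP
    exact hk ▸ (hp.odd_of_ne_two hp2).pow
  have := hP.isNilpotent
  have hc : ∀ S ∈ I, ∀ T ∈ I, S * T = T * S := fun S hS T hT =>
    congrArg Subtype.val (hI.1.is_comm.comm (⟨S, hS⟩ : I) ⟨T, hT⟩)
  have h2 := hI.2
  obtain ⟨T₁, m1, T₂, m2, T₃, m3, x₁, x₂, x₃, hD⟩ := exists_du ho hI8 hc h2
  have b1 := hD.broad hp hP ho
  have b2 := hD.rot.broad hp hP ho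
  have b3 := hD.rot.rot.broad hp hP ho
  have n1 := hD.ne_one ho
  have n2 := hD.rot.ne_one ho
  have n3 := hD.rot.rot.ne_one ho
  have u1 := hprod _ m2 _ m3 n2 n3 b2 b3
  have u2 := hprod _ m3 _ m1 n3 n1 b3 b1
  have u3 := hprod _ m1 _ m2 n1 n2 b1 b2
  obtain ⟨g₁, c1⟩ := hdisj _ u1 (hD.mul_ne_one ho)
  obtain ⟨g₂, c2⟩ := hdisj _ u2 (hD.rot.mul_ne_one ho)
  obtain ⟨g₃, c3⟩ := hdisj _ u3 (hD.rot.rot.mul_ne_one ho)
  have e1 := eg_of_cyc hp hP ho hc h2 (hI₀.le u1) c1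
  have e2 := eg_of_cyc hp hP ho hc h2 (hI₀.le u2) c2
  have e3 := eg_of_cyc hp hP ho hc h2 (hI₀.le u3) c3
  have hG : Du T₁ T₂ T₃ g₁ g₂ g₃ :=
    (((hD.repl ho m1 m2 m3 e1 ((c1 _).1 (by rw [MulAut.mul_apply, hD.a31, hD.a21]))).rot.repl ho
      m2 m3 m1 e2 ((c2 _).1 (by rw [MulAut.mul_apply, hD.a12, hD.a32]))).rot.repl ho
      m3 m1 m2 e3 ((c3 _).1 (by rw [MulAut.mul_apply, hD.a23, hD.a13]))).rot
  have hmem : ∀ x, Eg I x → x ∈ zpowers g₁ ∨ x ∈ zpowers g₂ ∨ x ∈ zpowers g₃ := fun x hx => by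
    rw [← c1, ← c2, ← c3]
    simp only [MulAut.mul_apply]
    rcases hx _ m1 with a | a <;> rcases hx _ m2 with b | b <;> rcases hx _ m3 with c | c <;>
      simp [a, b, c]
  have hgen : closure {g₁, g₂, g₃} = ⊤ := by
    rw [eq_top_iff, ← gen_top ho hc h2, closure_le]
    intro x hx
    rcases hmem x hx with h | h | h <;>
      exact (zpowers_le.2 (subset_closure (by simp)) : _ ≤ closure {g₁, g₂, g₃}) h
  have w1 : (T₁ * T₂ * T₃) g₁ = g₁⁻¹ := by simp only [MulAut.mul_apply, hG.a31, hG.a21, hG.a11]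
  have w2 : (T₁ * T₂ * T₃) g₂ = g₂⁻¹ := by
    simp only [MulAut.mul_apply, hG.a32, hG.a22, map_inv, hG.a12]
  have w3 : (T₁ * T₂ * T₃) g₃ = g₃⁻¹ := by
    simp only [MulAut.mul_apply, hG.a33, map_inv, hG.a23, hG.a13]
  have mW : T₁ * T₂ * T₃ ∈ I := mul_mem (mul_mem m1 m2) m3
  have hW : ∀ x, (T₁ * T₂ * T₃) x = x → x = 1 := fun x hx => by
    have h3 := gen ho hc h2 (Q := (T₁ * T₂ * T₃).toMonoidHom.eqLocus (MonoidHom.id P))
      (fun T hT y hy => by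
        have hy : (T₁ * T₂ * T₃) y = y := hy
        change (T₁ * T₂ * T₃) (T y) = T y
        rw [← MulAut.mul_apply, hc _ mW T hT, MulAut.mul_apply, hy]) hx
    refine mem_bot.1 ((closure_le ⊥).2 (fun y hy => ?_) h3)
    have h4 : (T₁ * T₂ * T₃) y = y := hy.1
    refine eq_one_of_inv ho (h4.symm.trans ?_)
    rcases hmem y hy.2 with h | h | h
    exacts [inv_zpowers w1 h, inv_zpowers w2 h, inv_zpowers w3 h]
  have hW' : ∀ x, (T₁ * T₂ * T₃) x = x⁻¹ := fun x => by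
    obtain ⟨f, -, h3, h4⟩ := sqrt_step ho (h2 _ mW) x
    rw [eq_inv_of_mul_eq_one_left (hW _ h3), map_inv, h4]
  have hab : ∀ x y : P, x * y = y * x := fun x y => by
    have h3 := hW' (x * y)
    rw [map_mul, hW', hW', ← mul_inv_rev] at h3
    exact (inv_injective h3).symm
  have hext : ∀ S S' : MulAut P, S g₁ = S' g₁ → S g₂ = S' g₂ → S g₃ = S' g₃ → S = S' :=
    fun S S' a b c => ext_of_closure hgen fun x hx => by
      rcases hx with rfl | rfl | rfl <;> assumption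
  have hall : ∀ S ∈ I, S = 1 ∨ S = T₁ ∨ S = T₂ ∨ S = T₃ ∨ S = T₂ * T₃ ∨ S = T₃ * T₁ ∨
      S = T₁ * T₂ ∨ S = T₁ * T₂ * T₃ := fun S hS => by
    obtain ⟨-, -, -, a11, a12, a13, a21, a22, a23, a31, a32, a33⟩ := hG
    rcases e1 S hS with a | a <;> rcases e2 S hS with b | b <;> rcases e3 S hS with c | c
    · exact Or.inl (hext _ _ a b c)
    · refine Or.inr (Or.inr (Or.inr (Or.inl (hext _ _ ?_ ?_ ?_)))) <;> simp [*]
    · refine Or.inr (Or.inr (Or.inl (hext _ _ ?_ ?_ ?_))) <;> simp [*]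
    · refine Or.inr (Or.inr (Or.inr (Or.inr (Or.inl (hext _ _ ?_ ?_ ?_))))) <;> simp [*]
    · refine Or.inr (Or.inl (hext _ _ ?_ ?_ ?_)) <;> simp [*]
    · refine Or.inr (Or.inr (Or.inr (Or.inr (Or.inr (Or.inl (hext _ _ ?_ ?_ ?_)))))) <;> simp [*]
    · refine Or.inr (Or.inr (Or.inr (Or.inr (Or.inr (Or.inr (Or.inl (hext _ _ ?_ ?_ ?_))))))) <;>
        simp [*]
    · refine Or.inr (Or.inr (Or.inr (Or.inr (Or.inr (Or.inr (Or.inr (hext _ _ ?_ ?_ ?_))))))) <;>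
        simp [*]
  have hB : {T : MulAut P | T ∈ I ∧ T ≠ 1 ∧ ¬ ∃ g : P, ∀ x : P, (T x = x ↔ x ∈ zpowers g)} =
      {T₁, T₂, T₃} := by
    ext S
    constructor
    · rintro ⟨h3, h4, h5⟩
      rcases hall S h3 with h | h | h | h | h | h | h | h
      · exact absurd h h4
      · exact Or.inl h
      · exact Or.inr (Or.inl h)
      · exact Or.inr (Or.inr h)
      · exact absurd ⟨g₁, h ▸ c1⟩ h5
      · exact absurd ⟨g₂, h ▸ c2⟩ h5
      · exact absurd ⟨g₃, h ▸ c3⟩ h5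
      · exact absurd ⟨1, fun x => ⟨fun e => by rw [hW x (h ▸ e)]; exact one_mem _, fun e => by
          rw [zpowers_one_eq_bot, mem_bot] at e; rw [e, map_one]⟩⟩ h5
    · rintro (rfl | rfl | rfl)
      exacts [⟨m1, n1, b1⟩, ⟨m2, n2, b2⟩, ⟨m3, n3, b3⟩]
  refine ⟨⟨⟨hab⟩⟩, ⟨g₁, g₂, g₃, hgen⟩, ?_, ?_, ?_, ?_⟩
  · letI : CommGroup P := { (inferInstance : Group P) with mul_comm := hab }
    exact hG.not_two hp hP ho hgen
  · refine (Nat.card_coe_set_eq _).trans ((congrArg Set.ncard hB).trans ?_)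
    exact Set.ncard_eq_three.2 ⟨T₁, T₂, T₃, hD.ne ho, (hD.rot.rot.ne ho).symm, hD.rot.ne ho, rfl⟩
  · rw [hB]
    refine le_antisymm ((closure_le _).2 (by rintro _ (rfl | rfl | rfl) <;> assumption))
      fun S hS => ?_
    have k1 : T₁ ∈ closure {T₁, T₂, T₃} := subset_closure (by simp)
    have k2 : T₂ ∈ closure {T₁, T₂, T₃} := subset_closure (by simp)
    have k3 : T₃ ∈ closure {T₁, T₂, T₃} := subset_closure (by simp)
    rcases hall S hS with h | h | h | h | h | h | h | h <;> rw [h]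
    exacts [one_mem _, k1, k2, k3, mul_mem k2 k3, mul_mem k3 k1, mul_mem k1 k2,
      mul_mem (mul_mem k1 k2) k3]
  · ext S
    constructor
    · intro hS
      rcases hall S (hI₀.le hS) with h | h | h | h | h | h | h | h
      · exact ⟨T₁, T₁, m1, m1, n1, n1, b1, b1, by rw [h, ← pow_two, h2 _ m1]⟩
      · exact absurd (hdisj _ (h ▸ hS) n1) b1
      · exact absurd (hdisj _ (h ▸ hS) n2) b2
      · exact absurd (hdisj _ (h ▸ hS) n3) b3
      · exact ⟨_, _, m2, m3, n2, n3, b2, b3, h⟩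
      · exact ⟨_, _, m3, m1, n3, n1, b3, b1, h⟩
      · exact ⟨_, _, m1, m2, n1, n2, b1, b2, h⟩
      · refine absurd (hdisj _ ?_ n3) b3
        simpa [mul_assoc] using mul_mem (inv_mem u3) (h ▸ hS : T₁ * T₂ * T₃ ∈ I₀)
    · rintro ⟨T, T', h3, h4, h5, h6, h7, h8, rfl⟩
      exact hprod T h3 T' h4 h5 h6 h7 h8

end Cfsg.Agent.S4412
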