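import Cfsg.Statements.S4413
import Cfsg.Agent.H85.OutES

set_option autoImplicit false
open Cfsg

namespace Cfsg.Agent.S4413



/-- Let P be an extraspecial 2-group of order 32 with no elementary abelian subgroup of order 8 (the central product of a dihedral and a quaternion group of order 8). Then the inner automorphism group of P has order 16 and the outer automorphism group Aut(P)/Inn(P) is isomorphic to the symmetric group of degree 5; in particular Aut(P) has order 1920. -/
theorem result {P : Type*} [Group P] [Finite P]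
    (hex : Cfsg.IsExtraspecial 2 P) (h32 : Nat.card P = 32)
    (hminus : ∀ A : Subgroup P, Cfsg.IsElementaryAbelian 2 A → Nat.card ↥A ≤ 4)
    [(MulAut.conj : P →* MulAut P).range.Normal] :
    Nat.card ↥(MulAut.conj : P →* MulAut P).range = 16 ∧ Nat.card (MulAut P) = 1920 ∧
      Nonempty ((MulAut P ⧸ (MulAut.conj : P →* MulAut P).range) ≃* Equiv.Perm (Fin 5)) := by
  obtain ⟨V, _, _, _, _, D, hD, -⟩ := H3.exists_esData_of_isExtraspecial hex
  obtain ⟨ρ, h1, h2, -⟩ := H85.exists_out_hom D hD
  have e : (MulAut P ⧸ (MulAut.conj : P →* MulAut P).range) ≃* H11.OG D.quad :=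
    (QuotientGroup.quotientMulEquivOfEq h2.symm).trans (QuotientGroup.quotientKerEquivOfSurjective ρ h1)
  rcases S3763.main D hD 2 h32 with ⟨h3, -⟩ | ⟨-, φ, hφ⟩
  · exact (h3.2 fun A a b => hminus A ⟨a, b⟩).elim
  obtain ⟨ψ, hψ, -, hc⟩ := H85.exists_og_perm_five
  have e2 := e.trans ((H11.OGcongr φ fun x => (H11.qMinus_eq _ _ _ _).symm.trans (hφ x).symm).trans
    ((MulEquiv.ofBijective ψ hψ).trans (Fintype.equivFinOfCardEq hc).permCongrHom))
  have h4 : Nat.card (MulAut.conj : P →* MulAut P).range = 16 := by
    have h5 : (MulAut.conj : P →* MulAut P).ker = Subgroup.center P := by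
      ext x
      simp only [MonoidHom.mem_ker, Subgroup.mem_center_iff, MulEquiv.ext_iff, MulAut.conj_apply,
        MulAut.one_apply, mul_inv_eq_iff_eq_mul]
      exact forall_congr' fun _ => eq_comm
    have h6 := (MulAut.conj : P →* MulAut P).ker.index_mul_card
    rw [Subgroup.index_ker, h5, hex.2, h32] at h6
    omega
  refine ⟨h4, ?_, ⟨e2⟩⟩
  rw [Subgroup.card_eq_card_quotient_mul_card_subgroup (MulAut.conj : P →* MulAut P).range, h4,
    Nat.card_congr e2.toEquiv, Nat.card_perm]
  simp [Nat.factorial]

end Cfsg.Agent.S4413
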