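import Cfsg.Statements.S4414
import Cfsg.Agent.H64.WtOrb

set_option autoImplicit false
open Cfsg

namespace Cfsg.Agent.S4414

open Module TensorProduct

theorem mem_range {F K E : Type*} [Field F] [Field K] [Algebra F K] [AddCommGroup E] [Module F E]
    {ι : Type*} (f : ι → E →ₗ[F] E) (N : Submodule F E) (hN : ∀ v, (∀ i, f i v = v) → v ∈ N)
    (v : K ⊗[F] E) (hv : ∀ i, (f i).baseChange K v = v) :
    v ∈ LinearMap.range (N.subtype.baseChange K) := by
  classical
  let b := Basis.ofVectorSpace F K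
  let e := TensorProduct.equivFinsuppOfBasisLeft (N := E) b
  have k : ∀ i j (w : K ⊗[F] E), e ((f i).baseChange K w) j = f i (e w j) := fun i j w => by
    induction w using TensorProduct.induction_on with
    | zero => simp
    | tmul a x => simp [e]
    | add x y hx hy => simp [hx, hy]
  rw [← e.symm_apply_apply v, TensorProduct.equivFinsuppOfBasisLeft_symm_apply]
  refine Submodule.sum_mem _ fun j _ => ⟨b j ⊗ₜ ⟨e v j, hN _ fun i => ?_⟩, by simp⟩
  rw [← k, hv]


/-- Let S be a finite solvable group whose order is divisible only by the primes 2, p, q (p, q distinct odd primes), with a Sylow system S₂, S_p, S_q (pairwise permutable Sylow subgroups) such that: S_p is a minimal normal subgroup of S of order p or p²; S_q has order q and [S_p, S_q] = S_p; and O₂(S) = 1. Let E be an irreducible module for S over the field with two elements on which S_p acts faithfully, and E₀ the subspace of fixed points of S₂. Then either E₀ has at least 8 elements, or E₀ has exactly 4 elements and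 S_q does not leave E₀ invariant. -/
theorem result {S : Type*} [Group S] [Finite S]
    [Group.IsSolvable S] (p q : ℕ) (hp : p.Prime) (hq : q.Prime) (hp2 : p ≠ 2) (hq2 : q ≠ 2) (hpq : p ≠ q)
    (hπ : ∀ r : ℕ, r.Prime → r ∣ Nat.card S → r = 2 ∨ r = p ∨ r = q)
    (S₂ : Sylow 2 S) (Sp : Sylow p S) (Sq : Sylow q S)
    (h2q : Nat.card ↥((S₂ : Subgroup S) ⊔ (Sq : Subgroup S)) = Nat.card ↥S₂ * Nat.card ↥Sq)
    (h2p : Nat.card ↥((S₂ : Subgroup S) ⊔ (Sp : Subgroup S)) = Nat.card ↥S₂ * Nat.card ↥Sp)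
    (hpq' : Nat.card ↥((Sp : Subgroup S) ⊔ (Sq : Subgroup S)) = Nat.card ↥Sp * Nat.card ↥Sq)
    (hSpN : (Sp : Subgroup S).Normal) (hSpmin : ∀ N : Subgroup S, N.Normal → N ≤ (Sp : Subgroup S) → N = ⊥ ∨ N = (Sp : Subgroup S))
    (hSpcard : Nat.card ↥Sp = p ∨ Nat.card ↥Sp = p ^ 2)
    (hSq : Nat.card ↥Sq = q) (hcomm : ⁅(Sp : Subgroup S), (Sq : Subgroup S)⁆ = (Sp : Subgroup S))
    (hO2 : Cfsg.pCore 2 S = ⊥)
    {E : Type*} [AddCommGroup E] [Module (ZMod 2) E] [Finite E] (ρ : Representation (ZMod 2) S E) (hE : Nontrivial E)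
    (hirr : ∀ N : Submodule (ZMod 2) E, (∀ s : S, ∀ m ∈ N, ρ s m ∈ N) → N = ⊥ ∨ N = ⊤)
    (hfaith : ∀ x ∈ (Sp : Subgroup S), ρ x = 1 → x = 1) :
    8 ≤ Nat.card {v : E // ∀ s ∈ (S₂ : Subgroup S), ρ s v = v} ∨
      (Nat.card {v : E // ∀ s ∈ (S₂ : Subgroup S), ρ s v = v} = 4 ∧
        ∃ x ∈ (Sq : Subgroup S), ∃ v : E, (∀ s ∈ (S₂ : Subgroup S), ρ s v = v) ∧ ¬ ∀ s ∈ (S₂ : Subgroup S), ρ s (ρ x v) = ρ x v) := by
  classical
  replace hSpcard : Nat.card (Sp : Subgroup S) = p ∨ Nat.card (Sp : Subgroup S) = p ^ 2 := hSpcard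
  have := Fact.mk hp
  have := Fact.mk hq
  have := Fintype.ofFinite (Sp : Subgroup S)
  let K := AlgebraicClosure (ZMod 2)
  let σ : Representation K S (K ⊗[ZMod 2] E) :=
    (Module.End.baseChangeHom (ZMod 2) K E).toMonoidHom.comp ρ
  have hσ : ∀ s, σ s = (ρ s).baseChange K := fun _ => rfl
  let N : Submodule (ZMod 2) E :=
    { carrier := {v | ∀ s ∈ (S₂ : Subgroup S), ρ s v = v}
      add_mem' := fun ha hb s hs => by rw [map_add, ha s hs, hb s hs]
      zero_mem' := fun s _ => map_zero _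
      smul_mem' := fun c v hv s hs => by rw [map_smul, hv s hs] }
  have hcN : Nat.card {v : E // ∀ s ∈ (S₂ : Subgroup S), ρ s v = v} = 2 ^ finrank (ZMod 2) N := by
    change Nat.card N = _
    rw [Module.natCard_eq_pow_finrank (K := ZMod 2), Nat.card_zmod]
  have hA : ∀ x ∈ (Sp : Subgroup S), ∀ y ∈ (Sp : Subgroup S), x * y = y * x := by
    have : IsMulCommutative (Sp : Subgroup S) := by
      rcases hSpcard with h | h
      · have := isCyclic_of_prime_card h
        infer_instance
      · exact IsPGroup.isMulCommutative_of_card_eq_prime_sq h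
    intro x hx y hy
    exact congrArg Subtype.val (mul_comm' (⟨x, hx⟩ : (Sp : Subgroup S)) ⟨y, hy⟩)
  have hp0 : (p : K) ≠ 0 := fun k => hp2
    ((Nat.prime_dvd_prime_iff_eq Nat.prime_two hp).1 ((CharP.cast_eq_zero_iff K 2 p).1 k)).symm
  have hc : (Nat.card (Sp : Subgroup S) : K) ≠ 0 := by
    rcases hSpcard with h | h <;> rw [h]
    · exact hp0
    · rw [Nat.cast_pow]; exact pow_ne_zero _ hp0
  have hsum : ∑ a : (Sp : Subgroup S), ρ a = 0 := by
    let M : Submodule (ZMod 2) E :=
      { carrier := {v | ∀ s ∈ (Sp : Subgroup S), ρ s v = v}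
        add_mem' := fun ha hb s hs => by rw [map_add, ha s hs, hb s hs]
        zero_mem' := fun s _ => map_zero _
        smul_mem' := fun c v hv s hs => by rw [map_smul, hv s hs] }
    rcases hirr M (fun g m hm s hs => by
      have := hm _ (hSpN.conj_mem' s hs g)
      conv_rhs => rw [← this]
      simp only [← Module.End.mul_apply, ← map_mul]
      congr 2; group) with h | h
    · ext v
      have : (∑ a : (Sp : Subgroup S), ρ a) v ∈ M := fun s hs => by
        simp only [LinearMap.sum_apply, map_sum]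
        refine Fintype.sum_equiv (Equiv.mulLeft (⟨s, hs⟩ : (Sp : Subgroup S))) _ _ fun a => ?_
        rw [← Module.End.mul_apply, ← map_mul]; rfl
      rw [h] at this
      exact this
    · exfalso
      have : (Sp : Subgroup S) = ⊥ := eq_bot_iff.2 fun x hx => hfaith x hx (LinearMap.ext fun v =>
        (show v ∈ M from h ▸ Submodule.mem_top) x hx)
      have h1 : Nat.card (Sp : Subgroup S) = 1 := by
        rw [this]; simp
      rcases hSpcard with h | h <;> rw [h1] at h
      · exact hp.ne_one h.symm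
      · exact hp.ne_one (Nat.pow_eq_one.1 h.symm |>.resolve_right two_ne_zero)
  have hfix : ∀ χ : H64.Ch (Sp : Subgroup S) K, (∀ x ∈ (Sq : Subgroup S), x • χ = χ) →
      H64.wpr σ χ = 0 := fun χ h => by
    have h1 : ∀ a : (Sp : Subgroup S), χ.f a = 1 := by
      have : (Sp : Subgroup S) ≤ χ.f.ker.map (Sp : Subgroup S).subtype := by
        conv_lhs => rw [← hcomm]
        rw [Subgroup.commutator_le]
        intro a ha x hx
        refine ⟨⟨a, ha⟩ * (MulAut.conjNormal x (⟨a, ha⟩ : (Sp : Subgroup S)))⁻¹, ?_, by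
          simp [commutatorElement_def, mul_assoc]⟩
        have e := congrArg (fun ψ : H64.Ch (Sp : Subgroup S) K => ψ.f ⟨a, ha⟩) (h _ (inv_mem hx))
        simp only [H64.Ch.smul_f, inv_inv] at e
        rw [SetLike.mem_coe, MonoidHom.mem_ker, map_mul, ← e, ← map_mul, mul_inv_cancel, map_one]
      intro a
      obtain ⟨b, hb, e⟩ := this a.2
      rw [← show b = a from Subtype.ext e]; exact hb
    simp only [H64.wpr, h1, one_smul]
    change ∑ a : (Sp : Subgroup S), Module.End.baseChangeHom (ZMod 2) K E (ρ a) = 0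
    rw [← map_sum, hsum, map_zero]
  have : Nontrivial (K ⊗[ZMod 2] E) := Module.nontrivial_of_finrank_pos (R := K) (by
    rw [Module.finrank_baseChange]; exact Module.finrank_pos)
  obtain ⟨h2, h3⟩ := H64.two_three σ hA hc S₂.isPGroup' hq2 Sq.isPGroup' hfix
    (LinearMap.range (N.subtype.baseChange K)) fun v hv =>
      mem_range (fun s : (S₂ : Subgroup S) => ρ s) N (fun v h s hs => h ⟨s, hs⟩) v fun s => hv s s.2
  have hle : finrank K (LinearMap.range (N.subtype.baseChange K)) ≤ finrank (ZMod 2) N := by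
    exact (LinearMap.finrank_range_le _).trans_eq Module.finrank_baseChange
  rw [hcN]
  by_cases h : 3 ≤ finrank (ZMod 2) N
  · exact Or.inl (Nat.pow_le_pow_right two_pos h)
  refine Or.inr ⟨by rw [show finrank (ZMod 2) N = 2 by omega]; rfl, ?_⟩
  by_contra! k
  refine h ((h3 fun x hx v hv => ?_).trans hle)
  obtain ⟨w, rfl⟩ := mem_range (fun s : (S₂ : Subgroup S) => ρ s) N (fun v h s hs => h ⟨s, hs⟩) v
    fun s => hv s s.2
  clear hv
  induction w using TensorProduct.induction_on with
  | zero => simp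
  | tmul a y => exact ⟨a ⊗ₜ ⟨ρ x y, k x hx y y.2⟩, by simp [hσ]⟩
  | add y z hy hz => rw [map_add, map_add]; exact add_mem hy hz

end Cfsg.Agent.S4414
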