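import Cfsg.Statements.S4417
import Cfsg.Agent.H73.DerLen

set_option autoImplicit false
open Cfsg

namespace Cfsg.Agent.S4417


open Subgroup


/-- Let F be a field with q elements, p a prime not dividing q, and e the multiplicative order of q modulo p; assume e ≤ n. Then every p-subgroup of GL_n(F) has derived length at most ⌊log₂(n/e)⌋ + 1: that term of its derived series is trivial (n/e is the integer quotient). -/
theorem result {F : Type*} [Field F] [Fintype F] (q : ℕ) (hF : Fintype.card F = q) (p : ℕ) [Fact p.Prime] (hpq : ¬ p ∣ q) (n e : ℕ) (he : e = orderOf (q : ZMod p)) (hen : e ≤ n) (P : Subgroup (GL (Fin n) F)) (hP : IsPGroup p P) : derivedSeries ↥P (Nat.log 2 (n / e) + 1) = ⊥ := by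
  rename_i hp
  subst he
  have h0 : 0 < orderOf (q : ZMod p) := by
    have : (q : ZMod p) ≠ 0 := by rwa [Ne, ZMod.natCast_eq_zero_iff]
    exact (isOfFinOrder_iff_pow_eq_one.2 ⟨p - 1, by have := hp.out.two_le; omega,
      ZMod.pow_card_sub_one_eq_one this⟩).orderOf_pos
  refine H73.derived_eq_bot_finite hF hpq hP P.subtype P.subtype_injective ?_
  have h1 := Nat.lt_pow_succ_log_self one_lt_two (n / orderOf (q : ZMod p))
  rw [Nat.div_lt_iff_lt_mul h0, mul_comm] at h1
  exact h1.trans_le (Nat.mul_le_mul_left _ (Nat.pow_le_pow_left hp.out.two_le _))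

end Cfsg.Agent.S4417
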