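import Cfsg.Statements.S4420


set_option autoImplicit false
open Cfsg

namespace Cfsg.Agent.S4420



/-- Structure of groups in which every element outside some proper subgroup has square 1. Let H be a finite group with a proper subgroup A such that every element outside A has square 1. Then H has an abelian normal subgroup B of index 2 such that every element outside B is an involution inverting every element of B; and if H is not an elementary abelian 2-group, B is the only abelian normal subgroup of index 2 with this property. -/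
theorem result {H : Type*} [Group H] [Finite H] (A : Subgroup H) (hA : A ≠ ⊤) (hD : ∀ x : H, x ∉ A → x ^ 2 = 1) :
    ∃ B : Subgroup H, B.Normal ∧ IsMulCommutative ↥B ∧ B.index = 2 ∧
      (∀ x : H, x ∉ B → x ^ 2 = 1 ∧ ∀ b ∈ B, x * b * x⁻¹ = b⁻¹) ∧
      (¬ (IsMulCommutative H ∧ ∀ x : H, x ^ 2 = 1) →
        ∀ B' : Subgroup H, B'.Normal → IsMulCommutative ↥B' → B'.index = 2 →
          (∀ x : H, x ∉ B' → x ^ 2 = 1 ∧ ∀ b ∈ B', x * b * x⁻¹ = b⁻¹) → B' = B) := by
  obtain ⟨M, hM, hAM⟩ := (eq_top_or_exists_le_coatom A).resolve_left hA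
  have hsq : ∀ x : H, x ∉ M → x ^ 2 = 1 := fun x hx => hD x fun h => hx (hAM h)
  have hinv : ∀ x : H, x ∉ M → ∀ b ∈ M, x * b * x⁻¹ = b⁻¹ := by
    intro x hx b hb
    have h1 := hsq x hx
    have h2 := hsq (x * b) fun h => hx (by simpa using M.mul_mem h (M.inv_mem hb))
    rw [pow_two] at h1 h2
    rw [eq_inv_iff_mul_eq_one, ← h2, inv_eq_of_mul_eq_one_right h1]; group
  obtain ⟨x, hx⟩ : ∃ x, x ∉ M := by
    by_contra hc; push Not at hc; exact hM.1 ((Subgroup.eq_top_iff' M).mpr hc)
  have hx1 : x * x = 1 := by rw [← pow_two]; exact hsq x hx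
  have hxi : x⁻¹ = x := inv_eq_of_mul_eq_one_right hx1
  have hcomm : ∀ a ∈ M, ∀ b ∈ M, a * b = b * a := by
    intro a ha b hb
    have h1 := hinv x hx (a * b) (M.mul_mem ha hb)
    have h2 : x * (a * b) * x⁻¹ = (x * a * x⁻¹) * (x * b * x⁻¹) := by group
    rw [h2, hinv x hx a ha, hinv x hx b hb, ← mul_inv_rev] at h1
    exact (inv_injective h1).symm
  have hconj : ∀ b ∈ M, x * b * x ∈ M := fun b hb => by
    have := hinv x hx b hb
    rw [hxi] at this
    rw [this]; exact M.inv_mem hb
  let K : Subgroup H :=
    { carrier := {g | g ∈ M ∨ g * x ∈ M}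
      one_mem' := Or.inl M.one_mem
      mul_mem' := by
        rintro a b (ha | ha) (hb | hb)
        · exact Or.inl (M.mul_mem ha hb)
        · exact Or.inr (by simpa [mul_assoc] using M.mul_mem ha hb)
        · right
          have := M.mul_mem ha (hconj b hb)
          have h2 : a * x * (x * b * x) = a * (x * x) * b * x := by group
          rwa [h2, hx1, mul_one] at this
        · left
          have := M.mul_mem ha (hconj _ hb)
          have h2 : a * x * (x * (b * x) * x) = a * (x * x) * b * (x * x) := by group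
          rwa [h2, hx1, mul_one, mul_one] at this
      inv_mem' := by
        rintro a (ha | ha)
        · exact Or.inl (M.inv_mem ha)
        · right
          have := hconj _ (M.inv_mem ha)
          have h2 : x * (a * x)⁻¹ * x = a⁻¹ * x := by group
          rwa [h2] at this }
  have hK : K = ⊤ := hM.2 K (lt_of_le_of_ne (fun g hg => Or.inl hg) fun h => hx (by
    rw [h]; exact Or.inr (by rw [hx1]; exact M.one_mem)))
  have hidx : M.index = 2 := by
    rw [Subgroup.index_eq_two_iff_exists_notMem_and]
    refine ⟨x, hx, fun b => ?_⟩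
    have : b ∈ K := hK ▸ Subgroup.mem_top b
    exact Or.symm this
  refine ⟨M, Subgroup.normal_of_index_eq_two hidx, ⟨⟨fun a b => Subtype.ext (hcomm a a.2 b b.2)⟩⟩,
    hidx, fun y hy => ⟨hsq y hy, hinv y hy⟩, fun hne B' _ _ hB'i hB' => ?_⟩
  by_contra hBM
  apply hne
  have hall : ∀ g : H, g ^ 2 = 1 := by
    intro g
    by_contra hg
    have hgM : g ∈ M := by by_contra h; exact hg (hsq g h)
    have hgB : g ∈ B' := by by_contra h; exact hg (hB' g h).1
    obtain ⟨y, hyM, hyB⟩ : ∃ y ∈ M, y ∉ B' := by
      by_contra hc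
      push Not at hc
      have hle : M ≤ B' := hc
      rcases hM.le_iff.mp hle with h | h
      · rw [h, Subgroup.index_top] at hB'i; omega
      · exact hBM h
    have h1 := (hB' y hyB).2 g hgB
    rw [hcomm y hyM g hgM, mul_inv_cancel_right] at h1
    apply hg
    rw [pow_two]; nth_rewrite 2 [h1]; exact mul_inv_cancel g
  refine ⟨⟨⟨fun a b => ?_⟩⟩, hall⟩
  have h1 := hall (a * b)
  have ha := hall a
  have hb := hall b
  rw [pow_two] at h1 ha hb
  have h2 := inv_eq_of_mul_eq_one_right h1
  rw [mul_inv_rev, inv_eq_of_mul_eq_one_right ha, inv_eq_of_mul_eq_one_right hb] at h2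
  exact h2.symm

end Cfsg.Agent.S4420
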