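import Cfsg.Statements.S4455
import Cfsg.Agent.H88.Deg3

set_option autoImplicit false
open Cfsg

namespace Cfsg.Agent.S4455

open Cfsg.Agent.H5 Cfsg.Agent.H6 Cfsg.Agent.H88

/-- Fix a prime p and a finite group G. Let s be the sum of χ(1)² over the irreducible characters χ of G whose degree is not divisible by p and whose determinantal order o(χ) is not divisible by p. Then the order of O^p(G), the subgroup generated by the elements of order prime to p, is congruent to s modulo p. -/
theorem result {G : Type*} [Group G] [Finite G] (p : ℕ) (hp : p.Prime) : (Nat.card (Cfsg.pResidual p G) : ℤ) ≡ (∑ᶠ χ ∈ {χ : Cfsg.IrrCharacter G | ¬ p ∣ Cfsg.charDegree (χ : G → ℂ) ∧ ¬ p ∣ Cfsg.detOrder (χ : G → ℂ)}, (Cfsg.charDegree (χ : G → ℂ) : ℤ) ^ 2) [ZMOD p] := by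
  classical
  have := Fact.mk hp
  have := Fintype.ofFinite G
  set N := pResidual p G
  have := Fintype.ofFinite N
  obtain ⟨P⟩ : Nonempty (Sylow p G) := inferInstance
  obtain ⟨k, hk⟩ : ∃ k, N.index = p ^ k := H3.exists_index_pResidual_eq_pow
  have hcop : ∀ {n : ℕ}, ¬ p ∣ n → Nat.Coprime N.index n := fun h => by
    rw [hk]; exact ((Nat.Prime.coprime_iff_not_dvd hp).mpr h).pow_left _
  have htop : ∀ θ : IrrCharacter N, (P : Subgroup G) ≤ inertia N θ → inertia N θ = ⊤ :=
    fun θ h => by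
      rw [eq_top_iff, ← H3.sylow_sup_pResidual P]
      exact sup_le h (le_inertia N (isClassFunction_of_isIrr θ.2))
  rw [← ZMod.intCast_eq_intCast_iff, H33.finsum_mem_irr]
  push_cast
  rw [card_eq_sum_invariant N P.isPGroup',
    ← Finset.sum_filter_add_sum_filter_not _ (fun θ : IrrCharacter N => p ∣ charDegree (θ : N → ℂ)),
    Finset.sum_eq_zero (fun θ hθ => by
      rw [(ZMod.natCast_eq_zero_iff _ _).mpr (Finset.mem_filter.mp hθ).2]; simp), zero_add]
  symm
  refine Finset.sum_bij (fun χ hχ => ⟨fun n : N => (χ : G → ℂ) n, isIrr_restrict_of_coprime N χ.2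
    (hcop (Finset.mem_filter.mp hχ).2.1).symm⟩) (fun χ hχ => ?_) (fun χ hχ ψ hψ e => ?_)
    (fun θ hθ => ?_) fun χ _ => rfl
  · simp only [Finset.mem_filter, Finset.mem_univ, true_and]
    exact ⟨fun g _ => conjChar_res N (isClassFunction_of_isIrr χ.2) g,
      (Finset.mem_filter.mp hχ).2.1⟩
  · have h1 := (Finset.mem_filter.mp hχ).2
    have h2 := (Finset.mem_filter.mp hψ).2
    obtain ⟨η, -, hη⟩ := H30.exists_canonical_extension
      (isIrr_restrict_of_coprime N χ.2 (hcop h1.1).symm)
      (fun g n => isClassFunction_of_isIrr χ.2 n g) (irr_charDegree_cast χ).symm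
      (Nat.Coprime.mul_right
        (hcop (not_dvd_detOrder_of_pResidual_eq_top hp H3.pResidual_pResidual _)) (hcop h1.1))
    exact Subtype.ext ((hη χ χ.2 (fun _ => rfl) (hcop h1.2)).trans
      (hη ψ ψ.2 (fun n => (congrFun (congrArg Subtype.val e) n).symm) (hcop h2.2)).symm)
  · simp only [Finset.mem_filter, Finset.mem_univ, true_and] at hθ
    have h3 := not_dvd_detOrder_of_pResidual_eq_top hp (H3.pResidual_pResidual (G := G)) θ
    obtain ⟨η, ⟨hη, he, ho⟩, -⟩ := H30.exists_canonical_extension θ.2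
      (invariant_of_inertia_eq_top (htop θ hθ.1)) (irr_charDegree_cast θ).symm
      (Nat.Coprime.mul_right (hcop h3) (hcop hθ.2))
    refine ⟨⟨η, hη⟩, ?_, Subtype.ext (funext he)⟩
    simp only [Finset.mem_filter, Finset.mem_univ, true_and, Set.mem_setOf_eq]
    refine ⟨?_, ho ▸ h3⟩
    rw [charDegree_congr (θ := (θ : N → ℂ)) (he 1)]
    exact hθ.2

end Cfsg.Agent.S4455
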