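import Cfsg.Statements.S4456
import Cfsg.Agent.H88.Deg3
import Cfsg.Agent.S4455

set_option autoImplicit false
open Cfsg

namespace Cfsg.Agent.S4456

open Cfsg.Agent.H5 Cfsg.Agent.H6 Cfsg.Agent.H88

/-- Let p be a prime and G a finite group such that p divides the degree of every irreducible character of G of degree greater than one. Then G has a normal p-complement: a normal subgroup of order prime to p whose index is a power of p. -/
theorem result {G : Type*} [Group G] [Finite G] (p : ℕ) (hp : p.Prime) (hdeg : ∀ χ : Cfsg.IrrCharacter G, Cfsg.charDegree (χ : G → ℂ) ≠ 1 → p ∣ Cfsg.charDegree (χ : G → ℂ)) : ∃ N : Subgroup G, N.Normal ∧ (Nat.card N).Coprime p ∧ ∃ k : ℕ, N.index = p ^ k := by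
  classical
  have := Fact.mk hp
  refine ⟨pResidual p G, inferInstance, ?_, H3.exists_index_pResidual_eq_pow⟩
  have h := S4455.result (G := G) p hp
  rw [H33.finsum_mem_irr] at h
  have hfin : Finite (G →* ℂˣ) := Nat.finite_of_card_ne_zero (by
    rw [card_monoidHom_eq_index_commutator]; exact Subgroup.index_ne_zero_of_finite)
  let A : Subgroup (G →* ℂˣ) := (powMonoidHom (ordCompl[p] (Nat.card G))).ker
  have hA : ∀ μ, μ ∈ A ↔ ¬ p ∣ orderOf μ := fun μ => by
    rw [MonoidHom.mem_ker, powMonoidHom_apply, ← orderOf_dvd_iff_pow_eq_one]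
    refine ⟨fun h1 h2 => Nat.not_dvd_ordCompl hp Nat.card_pos.ne' (h2.trans h1), fun h1 => ?_⟩
    refine Nat.Coprime.dvd_of_dvd_mul_left (((Nat.Prime.coprime_iff_not_dvd hp).mpr h1).symm.pow_right
      ((Nat.card G).factorization p)) ?_
    rw [Nat.ordProj_mul_ordCompl_eq_self]
    exact orderOf_dvd_of_pow_eq_one (H30.hom_pow_card μ)
  have hA' : ¬ p ∣ Nat.card A := fun h1 => by
    obtain ⟨μ, hμ⟩ := exists_prime_orderOf_dvd_card' p h1
    exact (hA μ).mp μ.2 (by rw [Subgroup.orderOf_coe, hμ])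
  have := Fintype.ofFinite A
  have hdo : ∀ μ : G →* ℂˣ, detOrder (fun g => (μ g : ℂ)) = orderOf μ := fun μ => by
    rw [detOrder, H30.detChar_hom, H30.orderOf_hom_coe]
  have h2 : ∑ μ : A, (1 : ℤ) = ∑ χ ∈ Finset.univ.filter (· ∈ {χ : IrrCharacter G |
      ¬ p ∣ charDegree (χ : G → ℂ) ∧ ¬ p ∣ detOrder (χ : G → ℂ)}),
      (charDegree (χ : G → ℂ) : ℤ) ^ 2 := by
    refine Finset.sum_bij (fun μ _ => ⟨_, isIrrCharacter_monoidHom μ.1⟩) (fun μ _ => ?_)
      (fun μ _ ν _ e => Subtype.ext (H30.homCoe_injective (congrArg Subtype.val e)))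
      (fun χ hχ => ?_) fun μ _ => ?_
    · simp only [Finset.mem_filter, Finset.mem_univ, true_and, Set.mem_setOf_eq]
      rw [charDegree_monoidHom, hdo]
      exact ⟨hp.not_dvd_one, (hA _).mp μ.2⟩
    · simp only [Finset.mem_filter, Finset.mem_univ, true_and, Set.mem_setOf_eq] at hχ
      have h1 : charDegree (χ : G → ℂ) = 1 := by
        by_contra hc; exact hχ.1 (hdeg χ hc)
      obtain ⟨μ, hμ⟩ := exists_monoidHom_of_degree_one (isCharacter_of_isIrr χ.2)
        ((charDegree_eq_one_iff (isCharacter_of_isIrr χ.2)).mp h1)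
      refine ⟨⟨μ, (hA μ).mpr ?_⟩, Finset.mem_univ _, Subtype.ext hμ.symm⟩
      rw [← hdo, ← hμ]; exact hχ.2
    · simp only
      rw [charDegree_monoidHom]; simp
  rw [← h2, Finset.sum_const, Finset.card_univ, ← Nat.card_eq_fintype_card, nsmul_eq_mul, mul_one,
    Int.natCast_modEq_iff] at h
  exact ((Nat.Prime.coprime_iff_not_dvd hp).mpr fun h3 =>
    hA' ((Nat.ModEq.dvd_iff h dvd_rfl).mp h3)).symm

end Cfsg.Agent.S4456
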