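import Cfsg.Statements.S4466
import Cfsg.Agent.H88.Deg5
import Cfsg.Agent.H35.Principal

set_option autoImplicit false
open Cfsg

namespace Cfsg.Agent.S4466

open Cfsg.Agent.H5 Cfsg.Agent.H6 Cfsg.Agent.H88

universe u

theorem aux (n : ℕ) : ∀ (G : Type u) [Group G] [Finite G], Nat.card G = n →
    (∀ χ, IsIrrCharacter G χ → charDegree χ ≠ 1 → (charDegree χ).Prime) → Group.IsSolvable G := by
  induction n using Nat.strong_induction_on with
  | _ n ih =>
  intro G _ _ hn h
  subst hn
  by_cases hs : ∃ N : Subgroup G, N.Normal ∧ N ≠ ⊥ ∧ N ≠ ⊤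
  · obtain ⟨N, _, h1, h2⟩ := hs
    have := ih _ (card_subgroup_lt N h2) N rfl fun θ hθ h3 => by
      obtain ⟨χ, hχ, hd⟩ := exists_charDegree_dvd_of_normal N hθ
      have h4 := h χ hχ fun e => h3 (Nat.dvd_one.mp (e ▸ hd))
      rw [((Nat.dvd_prime h4).mp hd).resolve_left h3]
      exact h4
    have := ih _ (card_quotient_lt N h1) (G ⧸ N) rfl fun φ hφ =>
      h _ (isIrrCharacter_inflate N hφ)
    exact solvable_of_ker_le_range N.subtype (QuotientGroup.mk' N) (by simp)
  push Not at hs
  by_contra hG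
  have h1 : commutator G = ⊤ := hs _ inferInstance fun e =>
    hG (isSolvable_of_comm (commutator_eq_bot_iff_comm.mp e))
  have h2 : Subgroup.center G = ⊥ := by
    by_contra e
    exact hG (isSolvable_of_comm fun a b => Subgroup.mem_center_iff.mp
      (hs _ inferInstance e ▸ Subgroup.mem_top b) a)
  have h3 : ∀ χ, IsIrrCharacter G χ → charDegree χ ≠ 1 → ∀ g, χ g = χ 1 → g = 1 :=
    fun χ hχ e g hg => by
      by_contra hg1
      refine e ((commutator_le_charKer_iff hχ).mp fun x _ => ?_)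
      exact (hs (charKer (isCharacter_of_isIrr hχ)) inferInstance fun e =>
        hg1 (Subgroup.mem_bot.mp (e ▸ hg))).ge (Subgroup.mem_top x)
  obtain ⟨χ, -, hmax⟩ := Finset.exists_max_image Finset.univ
    (fun χ : IrrCharacter G => charDegree (χ : G → ℂ)) Finset.univ_nonempty
  have hχ1 : charDegree (χ : G → ℂ) ≠ 1 := fun e => hG (isSolvable_of_comm
    (comm_of_forall_charDegree_eq_one fun ψ hψ => le_antisymm
      (e ▸ hmax ⟨ψ, hψ⟩ (Finset.mem_univ _)) (charDegree_pos hψ)))
  have hq := h _ χ.2 hχ1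
  have := Fact.mk hq
  obtain ⟨x, hx⟩ := exists_prime_orderOf_dvd_card' _ (H32.charDegree_dvd_card χ)
  obtain ⟨S, rfl⟩ := H35.exists_setup hx fun e =>
    center_ne_bot_of_degree_prime hq χ.2 rfl (h3 _ χ.2 hχ1) e h2
  obtain ⟨B, hB⟩ := S.exists_principal
  have h4 : B.X = {H35.triv G} := Finset.eq_singleton_iff_unique_mem.mpr ⟨hB, fun ψ hψ => by
    refine Subtype.ext (eq_one_of_charDegree_eq_one_of_perfect h1 ψ.2 ?_)
    by_contra e
    have h5 := h _ ψ.2 e
    have h6 := hmax ψ (Finset.mem_univ _)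
    have h7 := (B.degX' hψ).symm.dvd
    have h8 := h5.two_le
    have h9 : charDegree (ψ : G → ℂ) = 2 := by
      rcases B.δ_sign ψ hψ with h10 | h10
      · have := Int.le_of_dvd (by omega) h7
        omega
      · rw [h10, sub_neg_eq_add] at h7
        have h11 : charDegree (χ : G → ℂ) ∣ charDegree (ψ : G → ℂ) + 1 := by exact_mod_cast h7
        have h12 := Nat.le_of_dvd (by omega) h11
        rcases h6.eq_or_lt with h13 | h13
        · exact absurd ((Nat.dvd_add_right (dvd_of_eq h13.symm)).mp h11) hq.not_dvd_one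
        · refine h5.eq_two_or_odd'.resolve_right fun h14 => ?_
          have := hq.even_iff.mp (by
            rw [show charDegree (χ : G → ℂ) = charDegree (ψ : G → ℂ) + 1 by omega]
            exact h14.add_one)
          omega
    obtain ⟨t, ht⟩ := exists_prime_orderOf_dvd_card' 2 (h9 ▸ H32.charDegree_dvd_card ψ)
    have h10 := mem_center_of_degree_two (isCharacter_of_isIrr ψ.2) h9 (h3 _ ψ.2 e)
      (H43.mul_self_of_orderOf ht) (h1 ▸ Subgroup.mem_top t)
    exact H43.ne_one_of_orderOf ht (Subgroup.mem_bot.mp (h2 ▸ h10))⟩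
  obtain ⟨ψ, hψ⟩ := B.nonempty_Y
  have h5 := B.degree_eq hψ
  rw [h4, Finset.sum_singleton, B.δ_triv hB, H35.degree_triv] at h5
  have h6 : charDegree (ψ : G → ℂ) = 1 := by
    rcases B.ε_sign with e | e <;> rw [e] at h5 <;> omega
  obtain rfl : ψ = H35.triv G := Subtype.ext (eq_one_of_charDegree_eq_one_of_perfect h1 ψ.2 h6)
  exact Finset.disjoint_left.mp B.disj hB hψ

/-- If every irreducible character of the finite group G of degree greater than one has prime degree, then G is solvable. -/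
theorem result {G : Type*} [Group G] [Finite G] (h : ∀ χ : Cfsg.IrrCharacter G, Cfsg.charDegree (χ : G → ℂ) ≠ 1 → (Cfsg.charDegree (χ : G → ℂ)).Prime) : Group.IsSolvable G := by
  exact aux _ G rfl fun χ hχ => h ⟨χ, hχ⟩

end Cfsg.Agent.S4466
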