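import Cfsg.Statements.S4479
import Cfsg.Agent.H34.Klein

set_option autoImplicit false
open Cfsg

namespace Cfsg.Agent.S4479

open H34 H86
open scoped ComplexConjugate

theorem sum_block {G : Type*} [Group G] [Finite G] {B : Set (IrrCharacter G)}
    {χ₁ χ₂ χ₃ : IrrCharacter G}
    (hB : B = {χ : IrrCharacter G | (χ : G → ℂ) = (fun _ => 1) ∨ χ = χ₁ ∨ χ = χ₂ ∨ χ = χ₃})
    (hdist : (χ₁ : G → ℂ) ≠ (fun _ => 1) ∧ (χ₂ : G → ℂ) ≠ (fun _ => 1) ∧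
      (χ₃ : G → ℂ) ≠ (fun _ => 1) ∧ χ₁ ≠ χ₂ ∧ χ₁ ≠ χ₃ ∧ χ₂ ≠ χ₃) (w : IrrCharacter G → ℂ) :
    ∑ χ ∈ fs B, w χ = w (H33.oneIrr G) + w χ₁ + w χ₂ + w χ₃ := by
  classical
  obtain ⟨h1, h2, h3, h12, h13, h23⟩ := hdist
  have hone : ∀ χ : IrrCharacter G, ((χ : G → ℂ) = fun _ => 1) ↔ χ = H33.oneIrr G := fun χ =>
    ⟨fun e => Subtype.ext e, fun e => by rw [e]; rfl⟩
  rw [Ne, hone] at h1 h2 h3
  have : fs B = {H33.oneIrr G, χ₁, χ₂, χ₃} := by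
    ext χ
    simp [mem_fs, hB, hone]
  rw [this, Finset.sum_insert (by simp [Ne.symm h1, Ne.symm h2, Ne.symm h3]),
    Finset.sum_insert (by simp [h12, h13]), Finset.sum_pair h23]
  ring

theorem degree_eq {G : Type*} [Group G] [Finite G] {M : Ideal AlgInt} (hM : IsPModular 2 M)
    {J : G} (hJ2 : orderOf J = 2) {χ₁ χ₂ χ₃ : IrrCharacter G} {ε₁ ε₂ ε₃ : ℤ}
    (hB : principalBlock M G =
      {χ : IrrCharacter G | (χ : G → ℂ) = (fun _ => 1) ∨ χ = χ₁ ∨ χ = χ₂ ∨ χ = χ₃})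
    (hdist : (χ₁ : G → ℂ) ≠ (fun _ => 1) ∧ (χ₂ : G → ℂ) ≠ (fun _ => 1) ∧
      (χ₃ : G → ℂ) ≠ (fun _ => 1) ∧ χ₁ ≠ χ₂ ∧ χ₁ ≠ χ₃ ∧ χ₂ ≠ χ₃)
    (hval : (χ₁ : G → ℂ) J = ε₁ ∧ (χ₂ : G → ℂ) J = ε₂ ∧ (χ₃ : G → ℂ) J = ε₃) :
    1 + ε₁ * charDegree (χ₁ : G → ℂ) + ε₂ * charDegree (χ₂ : G → ℂ) +
      ε₃ * charDegree (χ₃ : G → ℂ) = 0 := by
  have := hM.2.1
  have h1 := colS_eq_zero hM (H33.isPBlock_principalBlock (G := G))
    (H33.isPPart_self Nat.prime_two ⟨1, hJ2⟩) (H33.isPPart_one_of_regular (y := 1) (by simp))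
    fun h => by simp [isConj_one_left.mp h] at hJ2
  rw [colS, sum_block hB hdist] at h1
  simp only [map_one, hval.1, hval.2.1, hval.2.2, H33.oneIrr_apply,
    ← irr_degree_cast χ₁, ← irr_degree_cast χ₂, ← irr_degree_cast χ₃, map_natCast] at h1
  apply Int.cast_injective (α := ℂ)
  push_cast
  linear_combination h1

/-- An order formula from the principal 2-block. Let G be a finite group of order 4·g₀ with g₀ odd having no normal 2-complement (no normal subgroup of order g₀); let P be a Sylow 2-subgroup, J an involution of P, and fix a maximal ideal M of the algebraic integers containing 2. Suppose the principal 2-block consists of the principal character and three further distinct characters χ₁, χ₂, χ₃ of degrees x₁, x₂, x₃, with χ_i(J) = ε_i = ±1. Then, writing c(J) and c(P) for the orders of the centralizers of J and of P, the order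 of G equals 8·α·c(J)³/c(P)² with α = x₁x₂x₃ / ((x₁ + ε₁)(x₂ + ε₂)(x₃ + ε₃)). -/
theorem result {G : Type*} [Group G] [Finite G] (M : Ideal Cfsg.AlgInt) (hM : Cfsg.IsPModular 2 M) (g₀ : ℕ) (hg₀ : Odd g₀) (hG : Nat.card G = 4 * g₀) (hnc : ¬ ∃ N : Subgroup G, N.Normal ∧ Nat.card N = g₀) (P : Sylow 2 G) (J : G) (hJ : J ∈ (P : Subgroup G)) (hJ2 : orderOf J = 2) (χ₁ χ₂ χ₃ : Cfsg.IrrCharacter G) (ε₁ ε₂ ε₃ : ℤ) (hB : Cfsg.principalBlock M G = {χ : Cfsg.IrrCharacter G | (χ : G → ℂ) = (fun _ => 1) ∨ χ = χ₁ ∨ χ = χ₂ ∨ χ = χ₃}) (hdist : (χ₁ : G → ℂ) ≠ (fun _ => 1) ∧ (χ₂ : G → ℂ) ≠ (fun _ => 1) ∧ (χ₃ : G → ℂ) ≠ (fun _ => 1) ∧ χ₁ ≠ χ₂ ∧ χ₁ ≠ χ₃ ∧ χ₂ ≠ χ₃) (hε : (ε₁ = 1 ∨ ε₁ = -1) ∧ (ε₂ = 1 ∨ ε₂ = -1) ∧ (ε₃ = 1 ∨ ε₃ = -1)) (hval : (χ₁ : G → ℂ) J = ε₁ ∧ (χ₂ : G → ℂ) J = ε₂ ∧ (χ₃ : G → ℂ) J = ε₃) : (Nat.card G : ℚ) = 8 * (((Cfsg.charDegree (χ₁ : G →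 ℂ) : ℚ) * Cfsg.charDegree (χ₂ : G → ℂ) * Cfsg.charDegree (χ₃ : G → ℂ)) / ((Cfsg.charDegree (χ₁ : G → ℂ) + ε₁) * (Cfsg.charDegree (χ₂ : G → ℂ) + ε₂) * (Cfsg.charDegree (χ₃ : G → ℂ) + ε₃))) * (Nat.card (Subgroup.centralizer ({J} : Set G)) : ℚ) ^ 3 / (Nat.card (Subgroup.centralizer ((P : Subgroup G) : Set G)) : ℚ) ^ 2 := by
  obtain ⟨hK, h, hconj⟩ := klein_setup (P := P) hg₀ hG hnc
  have e1 := klein_order_formula hM hK h hconj hJ hJ2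
  have e2 := degree_eq hM hJ2 hB hdist hval
  rw [sum_block hB hdist] at e1
  simp only [hval.1, hval.2.1, hval.2.2, H33.oneIrr_apply, ← irr_degree_cast χ₁,
    ← irr_degree_cast χ₂, ← irr_degree_cast χ₃, map_div₀, map_mul, map_natCast, map_intCast,
    map_one] at e1
  have p1 := irr_degree_ne_zero χ₁
  have p2 := irr_degree_ne_zero χ₂
  have p3 := irr_degree_ne_zero χ₃
  have pc : Nat.card (Cg J) ≠ 0 := Nat.card_pos.ne'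
  have pP : Nat.card (Subgroup.centralizer ((P : Subgroup G) : Set G)) ≠ 0 := Nat.card_pos.ne'
  generalize charDegree (χ₁ : G → ℂ) = x₁ at *
  generalize charDegree (χ₂ : G → ℂ) = x₂ at *
  generalize charDegree (χ₃ : G → ℂ) = x₃ at *
  generalize Nat.card (Subgroup.centralizer ((P : Subgroup G) : Set G)) = cP at *
  change _ = 8 * _ * (Nat.card (Cg J) : ℚ) ^ 3 / _
  generalize Nat.card (Cg J) = c at *
  generalize Nat.card G = g at *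
  have e3 : (g : ℚ) * (1 + ε₁ * (ε₁ * ε₁ / x₁) + ε₂ * (ε₂ * ε₂ / x₂) + ε₃ * (ε₃ * ε₃ / x₃)) *
      cP ^ 2 = 8 * c ^ 3 := by
    apply Rat.cast_injective (α := ℂ)
    push_cast
    linear_combination e1
  have e4 : (1 : ℚ) + ε₁ * x₁ + ε₂ * x₂ + ε₃ * x₃ = 0 := by exact_mod_cast e2
  have s1 : (ε₁ : ℚ) * ε₁ = 1 := by rcases hε.1 with e | e <;> simp [e]
  have s2 : (ε₂ : ℚ) * ε₂ = 1 := by rcases hε.2.1 with e | e <;> simp [e]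
  have s3 : (ε₃ : ℚ) * ε₃ = 1 := by rcases hε.2.2 with e | e <;> simp [e]
  rw [s1, s2, s3] at e3
  have e5 : (g : ℚ) * ((x₁ + ε₁) * (x₂ + ε₂) * (x₃ + ε₃)) * cP ^ 2 = 8 * c ^ 3 * (x₁ * x₂ * x₃) := by
    field_simp at e3
    linear_combination e3 + (g : ℚ) * cP ^ 2 * (ε₁ * ε₂ * ε₃ * e4 - ε₂ * ε₃ * x₁ * s1 -
      ε₁ * ε₃ * x₂ * s2 - ε₁ * ε₂ * x₃ * s3)
  have e6 : ((x₁ : ℚ) + ε₁) * (x₂ + ε₂) * (x₃ + ε₃) ≠ 0 := fun e => by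
    rw [e] at e5
    have : (8 : ℚ) * c ^ 3 * (x₁ * x₂ * x₃) ≠ 0 := by positivity
    exact this (by rw [← e5]; ring)
  rw [eq_div_iff (by positivity), mul_assoc, div_mul_eq_mul_div, ← mul_div_assoc, eq_div_iff e6]
  linear_combination e5

end Cfsg.Agent.S4479
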