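import Cfsg.Statements.S4517
import Cfsg.Agent.H33.Princ

set_option autoImplicit false
open Cfsg

namespace Cfsg.Agent.S4517

/-- Let G be a finite group, M a maximal ideal of the algebraic integers containing 2, and k a natural number coprime to the order of G with g ^ k = g⁻¹ for every element g of odd order (so that g ↦ g ^ k induces a field automorphism of the character values inverting the roots of unity of odd order). If B is a 2-block of full defect (its defect equals the exponent of 2 in the order of G) that is stable under χ ↦ χ ∘ (· ^ k), then B is the principal 2-block. -/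
theorem result {G : Type*} [Group G] [Finite G] (M : Ideal Cfsg.AlgInt) (hM : Cfsg.IsPModular 2 M) (k : ℕ) (hk : Nat.Coprime k (Nat.card G)) (hk₂ : ∀ g : G, Odd (orderOf g) → g ^ k = g⁻¹) (B : Set (Cfsg.IrrCharacter G)) (hB : Cfsg.IsPBlock M B) (hdef : Cfsg.blockDefect 2 B = (Nat.card G).factorization 2) (hstab : ∀ χ ∈ B, ∃ ψ ∈ B, ∀ g : G, (ψ : G → ℂ) g = (χ : G → ℂ) (g ^ k)) : B = Cfsg.principalBlock M G := by
  have := hM.2.1
  have := Fintype.ofFinite G
  have : Fact (Nat.Prime 2) := ⟨Nat.prime_two⟩
  obtain ⟨P⟩ : Nonempty (Sylow 2 G) := inferInstance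
  obtain ⟨χ, hχ, h0⟩ := H33.exists_minVal_eq (p := 2) (H33.block_nonempty hB)
  have h1 := H33.blockDefect_add_minVal (p := 2) (H33.block_nonempty hB)
  have hodd : ¬ 2 ∣ charDegree (χ : G → ℂ) := by
    intro h
    have := (Nat.prime_two.dvd_iff_one_le_factorization (H33.charDegree_ne_zero χ)).1 h
    omega
  obtain ⟨ψ, hψ, hψχ⟩ := hstab χ hχ
  refine H33.block_eq_of_mem hB H33.isPBlock_principalBlock hχ
    (H33.mem_principalBlock_of_two hM P.isPGroup' χ hodd fun g hg hgP => ?_)
  have h2 := H33.div_sub_div_mem_of_sameBlock hM (H33.sameBlock_of_mem hB hψ hχ)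
    (H33.not_dvd_index_centralizer P hgP)
  rw [hψχ, hψχ, one_pow, hk₂ g (Nat.odd_iff.2 (by omega))] at h2
  have h3 := H32.mul_mem_locMax_left (H33.irr_mem_locRing χ 1) h2
  have h4 := H5.degree_ne_zero χ.2
  convert h3 using 1
  field_simp

end Cfsg.Agent.S4517
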