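import Cfsg.Statements.S4518
import Cfsg.Agent.H33.Gal
import Cfsg.Agent.H6.Clifford

set_option autoImplicit false
open Cfsg

namespace Cfsg.Agent.S4518

/-- Let N be a normal subgroup of the finite group G whose index is not divisible by the prime p, and let k be coprime to the order of G with k ^ (p ^ e) ≡ 1 modulo the order of G for some e (so g ↦ g ^ k induces a field automorphism of p-power order on character values). If an irreducible character χ of G satisfies χ (g ^ k) = χ g for all g, then every irreducible constituent θ of the restriction of χ to N satisfies θ (n ^ k) = θ n for all n. -/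
theorem result {G : Type*} [Group G] [Fintype G] (p : ℕ) [Fact p.Prime] (N : Subgroup G) [N.Normal] [Fintype N] (hidx : ¬ p ∣ N.index) (k e : ℕ) (hk : Nat.Coprime k (Nat.card G)) (hke : k ^ (p ^ e) ≡ 1 [MOD Nat.card G]) (χ : Cfsg.IrrCharacter G) (hχ : ∀ g : G, (χ : G → ℂ) (g ^ k) = (χ : G → ℂ) g) (θ : Cfsg.IrrCharacter N) (hθ : Cfsg.classInner (fun n : N => (χ : G → ℂ) n) (θ : N → ℂ) ≠ 0) : ∀ n : N, (θ : N → ℂ) (n ^ k) = (θ : N → ℂ) n := by
  classical
  have hp : p.Prime := Fact.out
  have hkN : k.Coprime (Nat.card N) := hk.coprime_dvd_right (Subgroup.card_subgroup_dvd_card N)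
  let f : (N → ℂ) → (N → ℂ) := fun φ n => φ (n ^ k)
  have hf : ∀ (m : ℕ) (φ : N → ℂ) (n : N), f^[m] φ n = φ (n ^ k ^ m) := by
    intro m φ
    induction m with
    | zero => simp
    | succ m ih =>
      intro n
      rw [Function.iterate_succ_apply']
      change f^[m] φ (n ^ k) = _
      rw [ih, ← pow_mul, pow_succ']
  let s := Finset.univ.image (fun x : G => H6.conjChar N x (θ : N → ℂ))
  have hcard : s.card = (H6.inertia N (θ : N → ℂ)).index := by
    have h1 : Nat.card G = s.card * Nat.card (H6.inertia N (θ : N → ℂ)) := by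
      rw [Nat.card_eq_fintype_card, ← Finset.card_univ,
        Finset.card_eq_sum_card_image (fun x : G => H6.conjChar N x (θ : N → ℂ)), ← smul_eq_mul,
        ← Finset.sum_const]
      refine Finset.sum_congr rfl fun φ hφ => ?_
      obtain ⟨x, -, rfl⟩ := Finset.mem_image.1 hφ
      exact H6.card_filter_conjChar_eq N _ x
    rw [← (H6.inertia N (θ : N → ℂ)).index_mul_card] at h1
    exact (Nat.eq_of_mul_eq_mul_right Nat.card_pos h1).symm
  obtain ⟨φ, hφ, hfix, -⟩ := H33.exists_fixed_of_not_dvd_sum hp f (n := e)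
    (fun φ => funext fun n => by
      rw [hf, H33.pow_eq_self_of_modEq (hke.of_dvd (Subgroup.card_subgroup_dvd_card N))]) s
    (fun φ hφ => by
      obtain ⟨x, -, rfl⟩ := Finset.mem_image.1 hφ
      obtain ⟨g, hg⟩ := H6.exists_conjChar_eq_of_constituent N χ.2 θ.2
        (H7.isIrrCharacter_comp_pow hkN (H6.isIrr_conjChar N θ.2 x)) hθ (by
          have h1 := H33.classInner_comp_pow hkN (fun n : N => (χ : G → ℂ) n)
            (H6.conjChar N x (θ : N → ℂ))
          simp only [SubgroupClass.coe_pow, hχ] at h1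
          rwa [h1, H6.classInner_res_conjChar N (H5.isClassFunction_of_isIrr χ.2)])
      exact Finset.mem_image.2 ⟨g, Finset.mem_univ _, hg⟩) (fun _ => 1) (fun _ _ => rfl)
    (by
      rw [Finset.sum_const, smul_eq_mul, mul_one, hcard]
      exact fun h => hidx (h.trans (Subgroup.index_dvd_of_le
        (H6.le_inertia N (H5.isClassFunction_of_isIrr θ.2)))))
  obtain ⟨x, -, rfl⟩ := Finset.mem_image.1 hφ
  intro n
  have := congrFun hfix (MulAut.conjNormal x⁻¹ n)
  simp only [f, H6.conjChar_eq_comp, map_pow, ← MulAut.mul_apply, ← map_mul, mul_inv_cancel,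
    map_one, MulAut.one_apply] at this
  exact this

end Cfsg.Agent.S4518
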