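import Cfsg.Statements.S4519
import Cfsg.Agent.H33.OddExt

set_option autoImplicit false
open Cfsg

namespace Cfsg.Agent.S4519

/-- Let N be a normal subgroup of odd index in the finite group G, and let k be coprime to the order of G with k ^ (2 ^ e) ≡ 1 modulo the order of G for some e and g ^ k = g⁻¹ for every element g of odd order (so g ↦ g ^ k induces a field automorphism of 2-power order inverting the roots of unity of odd order). If an irreducible character θ of N satisfies θ (n ^ k) = θ n for all n, then there is exactly one irreducible character χ of G with θ a constituent of its restriction to N and χ (g ^ k) = χ g for all g; moreover, if θ is invariant under conjugation by G, that χ restricts to θ. -/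
theorem result {G : Type*} [Group G] [Fintype G] (N : Subgroup G) [hN : N.Normal] [Fintype N] (hidx : Odd N.index) (k e : ℕ) (hk : Nat.Coprime k (Nat.card G)) (hke : k ^ (2 ^ e) ≡ 1 [MOD Nat.card G]) (hk₂ : ∀ g : G, Odd (orderOf g) → g ^ k = g⁻¹) (θ : Cfsg.IrrCharacter N) (hθ : ∀ n : N, (θ : N → ℂ) (n ^ k) = (θ : N → ℂ) n) : ∃ χ : Cfsg.IrrCharacter G, (Cfsg.classInner (fun n : N => (χ : G → ℂ) n) (θ : N → ℂ) ≠ 0 ∧ (∀ g : G, (χ : G → ℂ) (g ^ k) = (χ : G → ℂ) g) ∧ ((∀ g : G, ∀ n : N, (θ : N → ℂ) ⟨g * n * g⁻¹, hN.conj_mem n n.2 g⟩ = (θ : N → ℂ) n) → ∀ n : N, (χ : G → ℂ) n = (θ : N → ℂ) n)) ∧ ∀ χ' : Cfsg.IrrCharacter G, Cfsg.classInner (fun n : N => (χ' : G → ℂ) n) (θ : N → ℂ) ≠ 0 → (∀ g : G, (χ' : G → ℂ) (g ^ k) = (χ' : G → ℂ) g) → χ' = χ := by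
  classical
  set T := H6.inertia N (θ : N → ℂ) with hT
  have hNT : N ≤ T := H6.le_inertia N (H5.isClassFunction_of_isIrr θ.2)
  have := Fintype.ofFinite T
  have := Fintype.ofFinite (N.subgroupOf T)
  have hidx' : Odd (N.subgroupOf T).index :=
    hidx.of_dvd_nat (Subgroup.relIndex_dvd_index_of_normal N T)
  have hk' : k.Coprime (Nat.card T) := hk.coprime_dvd_right (Subgroup.card_subgroup_dvd_card T)
  have hk₂' : ∀ g : T, Odd (orderOf g) → g ^ k = g⁻¹ := fun g hg =>
    Subtype.ext (hk₂ g (by rwa [Subgroup.orderOf_coe]))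
  let θ' : T → ℂ := fun t => extendByZero N (θ : N → ℂ) (t : G)
  have hθ' : ∀ n : N, θ' ⟨n, hNT n.2⟩ = (θ : N → ℂ) n := fun n => H6.extendByZero_coe _ _ n
  have hirr : IsIrrCharacter (N.subgroupOf T) (fun n => θ' n) :=
    H33.isIrr_subgroupOf hNT (θ := extendByZero N (θ : N → ℂ))
      (by simpa only [H6.extendByZero_coe] using θ.2)
  obtain ⟨ψ, hψ, h1, h2⟩ := H33.exists_fixed_ext_of_invariant (N.subgroupOf T) hidx' hk' hk₂' hirr
    (fun g n hn => by
      have hn' : (n : G) ∈ N := hn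
      change extendByZero N _ ((g : G) * n * (g : G)⁻¹) = extendByZero N _ (n : G)
      rw [H6.extendByZero_of_mem _ _ hn', H6.extendByZero_of_mem _ _ (hN.conj_mem _ hn' _)]
      exact (H6.mem_inertia_iff N).1 g.2 ⟨n, hn'⟩)
    (fun n hn => by
      have hn' : (n : G) ∈ N := hn
      change extendByZero N _ ((n : G) ^ k) = extendByZero N _ (n : G)
      rw [H6.extendByZero_of_mem _ _ hn', H6.extendByZero_of_mem _ _ (N.pow_mem hn' _)]
      exact hθ ⟨n, hn'⟩)
  have hψN : (fun n : N => ψ ⟨n, hNT n.2⟩) = (θ : N → ℂ) := by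
    funext n
    rw [h1 _ n.2, hθ']
  have hψo : classInner (fun n : N => ψ ⟨n, hNT n.2⟩) (θ : N → ℂ) ≠ 0 := by
    rw [hψN, H5.classInner_irr_self θ.2]; exact one_ne_zero
  have hχ := H6.isIrr_indFun_of_over N θ.2 T hT hNT hψ hψo
  have hc : classInner (fun t : T => indFun T ψ t) ψ ≠ 0 := by
    rw [← H6.classInner_indFun_right T ψ (H6.indFun_isClassFunction T ψ), H5.classInner_irr_self hχ]
    exact one_ne_zero
  have hcc := (H6.indFun_eq_of_over N θ.2 T hT hNT hψ hψo hχ hc).2
  refine ⟨⟨indFun T ψ, hχ⟩, ⟨hcc ▸ hψo, fun g => ?_, fun hinv n => ?_⟩, fun χ' ho hfix => ?_⟩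
  · have := congrFun (H33.indFun_comp_pow hk T ψ) g
    simp only [h2] at this
    exact this.symm
  · have := H6.res_eq_smul_of_invariant N hχ θ.2 (hcc ▸ hψo) (fun g => funext (hinv g))
    rw [← hcc, hψN, H5.classInner_irr_self θ.2, one_smul] at this
    exact congrFun this n
  · obtain ⟨ψ', hψ', e1, e2, -⟩ := H6.exists_clifford_correspondent N θ.2 T hT hNT χ'.2 ho
    have hkN : k.Coprime (Nat.card N) := hk.coprime_dvd_right (Subgroup.card_subgroup_dvd_card N)
    have hfix' : (fun t => ψ' (t ^ k)) = ψ' := by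
      refine H6.eq_of_indFun_eq_of_over N θ.2 T hT hNT (H7.isIrrCharacter_comp_pow hk' hψ') hψ'
        ?_ (e2 ▸ ho) ?_
      · have := H33.classInner_comp_pow hkN (fun n : N => ψ' ⟨n, hNT n.2⟩) (θ : N → ℂ)
        simp only [hθ] at this
        rw [e2] at this
        exact fun h => ho (this.symm.trans h)
      · rw [H33.indFun_comp_pow hk, e1]
        exact funext hfix
    have := H33.eq_of_fixed_over (N.subgroupOf T) hidx' hk₂' hψ (by
      convert hirr using 2 with n
      exact h1 _ n.2) h2 hψ' (congrFun hfix') (by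
        rw [← H5.classInner_comp_equiv (Subgroup.subgroupOfEquivOfLe hNT).symm]
        change classInner (fun n : N => ψ' ⟨n, hNT n.2⟩) (fun n : N => ψ ⟨n, hNT n.2⟩) ≠ 0
        rw [hψN, e2]
        exact ho)
    exact Subtype.ext (by rw [← e1, this])

end Cfsg.Agent.S4519
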