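import Cfsg.Statements.S4520
import Cfsg.Agent.S4519
import Cfsg.Agent.H33.Princ
import Cfsg.Agent.H30.DegreeRatio

set_option autoImplicit false
open Cfsg

namespace Cfsg.Agent.S4520

/-- Let N be a normal subgroup of odd index in the finite group G, M a maximal ideal of the algebraic integers containing 2, and k coprime to the order of G with k ^ (2 ^ e) ≡ 1 modulo the order of G for some e and g ^ k = g⁻¹ for every element g of odd order. Let θ be an irreducible character of N and χ an irreducible character of G over θ, both unchanged by composing with g ↦ g ^ k. Then χ lies in the principal 2-block of G if and only if θ lies in the principal 2-block of N. -/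
theorem result {G : Type*} [Group G] [Fintype G] (M : Ideal Cfsg.AlgInt) (hM : Cfsg.IsPModular 2 M) (N : Subgroup G) [N.Normal] [Fintype N] (hidx : Odd N.index) (k e : ℕ) (hk : Nat.Coprime k (Nat.card G)) (hke : k ^ (2 ^ e) ≡ 1 [MOD Nat.card G]) (hk₂ : ∀ g : G, Odd (orderOf g) → g ^ k = g⁻¹) (θ : Cfsg.IrrCharacter N) (hθ : ∀ n : N, (θ : N → ℂ) (n ^ k) = (θ : N → ℂ) n) (χ : Cfsg.IrrCharacter G) (hχ : ∀ g : G, (χ : G → ℂ) (g ^ k) = (χ : G → ℂ) g) (hover : Cfsg.classInner (fun n : N => (χ : G → ℂ) n) (θ : N → ℂ) ≠ 0) : χ ∈ Cfsg.principalBlock M G ↔ θ ∈ Cfsg.principalBlock M N := by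
  classical
  have := hM.2.1
  refine ⟨fun h => H33.principal_of_over_normal hM N h hover, fun hθB => ?_⟩
  have hkN : k.Coprime (Nat.card N) := hk.coprime_dvd_right (Subgroup.card_subgroup_dvd_card N)
  have hθ1 := H5.degree_ne_zero θ.2
  have hw : ∀ ψ : IrrCharacter G, ∃ w : ℕ, (w : ℂ) =
      classInner (fun n : N => (ψ : G → ℂ) n) (θ : N → ℂ) * ((ψ : G → ℂ) 1 / (θ : N → ℂ) 1) := by
    intro ψ
    by_cases h : classInner (fun n : N => (ψ : G → ℂ) n) (θ : N → ℂ) = 0
    · exact ⟨0, by simp [h]⟩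
    obtain ⟨d, -, hd⟩ := H30.exists_degree_eq_mul N θ.2 ψ.2 h
    obtain ⟨c, hc⟩ := H5.exists_nat_classInner
      (H5.isCharacter_restrict (H5.isCharacter_of_isIrr ψ.2) N) (H5.isCharacter_of_isIrr θ.2)
    exact ⟨c * d, by rw [hc, hd, mul_div_cancel_right₀ _ hθ1, Nat.cast_mul]⟩
  choose w hw using hw
  have hinv : ∀ ψ : IrrCharacter G,
      classInner (fun n : N => (H33.powIrr hk ψ : G → ℂ) n) (θ : N → ℂ) =
      classInner (fun n : N => (ψ : G → ℂ) n) (θ : N → ℂ) := fun ψ => by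
    have := H33.classInner_comp_pow hkN (fun n : N => (ψ : G → ℂ) n) (θ : N → ℂ)
    simp only [hθ] at this
    exact this
  have hodd : ¬ 2 ∣ ∑ ψ ∈ Finset.univ.filter (· ∈ principalBlock M G), w ψ := by
    intro h2
    have e := H33.sum_classInner_res_mul_regSum (p := 2) N (H5.isCharacter_of_isIrr θ.2)
    have e2 : ∑ ψ ∈ Finset.univ.filter (· ∈ principalBlock M G),
        (w ψ : ℂ) * (H33.regSum 2 (ψ : G → ℂ) / (ψ : G → ℂ) 1) =
        N.index * (H33.regSum 2 (θ : N → ℂ) / (θ : N → ℂ) 1) := by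
      rw [← mul_div_assoc, ← e, Finset.sum_div, Finset.sum_filter]
      refine Finset.sum_congr rfl fun ψ _ => ?_
      split_ifs with h
      · have := H5.degree_ne_zero ψ.2
        rw [hw]; field_simp
      · rw [H33.regSum_eq_zero hM h]; simp
    have hidx2 : ¬ 2 ∣ N.index := by rwa [← even_iff_two_dvd, Nat.not_even_iff_odd]
    refine H32.mul_not_mem_locMax (natCast_mem _ _) (H33.regSum_div_mem_locRing θ)
      (fun h => hidx2 ((H32.natCast_mem_locMax_iff hM).1 h)) (H33.regSum_div_notMem hM hθB) ?_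
    rw [← e2]
    have h3 := H32.mul_mem_locMax_right ((H32.natCast_mem_locMax_iff hM).2 h2)
      (natCast_mem (H32.locRing M) (Nat.card {y : G // ¬ 2 ∣ orderOf y}))
    refine H32.mem_locMax_of_sub_mem h3 ?_
    rw [Nat.cast_sum, Finset.sum_mul, ← Finset.sum_sub_distrib]
    refine Submodule.sum_mem _ fun ψ hψ => ?_
    rw [← mul_sub]
    exact H32.mul_mem_locMax_left (natCast_mem _ _)
      (H33.regSum_div_sub_mem (Finset.mem_filter.1 hψ).2)
  obtain ⟨ψ, hψ, hfix, hw0⟩ := H33.exists_fixed_of_not_dvd_sum Nat.prime_two (H33.powIrr hk) (n := e)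
    (H33.powIrr_iterate_eq hk fun g => H33.pow_eq_self_of_modEq hke) _
    (fun ψ hψ => Finset.mem_filter.2 ⟨Finset.mem_univ _,
      H33.powIrr_mem_principalBlock hM hk (Finset.mem_filter.1 hψ).2⟩) w
    (fun ψ _ => by
      apply Nat.cast_injective (R := ℂ)
      rw [hw, hw, hinv, H33.powIrr_one]) hodd
  obtain ⟨χ₀, -, hu⟩ := S4519.result N hidx k e hk hke hk₂ θ hθ
  rw [hu χ hover hχ, ← hu ψ (fun h => hw0 (by
    have := hw ψ
    rw [h, zero_mul, Nat.cast_eq_zero] at this
    rw [this]; exact dvd_zero 2)) ((H33.powIrr_eq_iff hk ψ).1 hfix)]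
  exact (Finset.mem_filter.1 hψ).2

end Cfsg.Agent.S4520
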