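import Cfsg.Statements.S4521
import Cfsg.Agent.H33.Princ
import Cfsg.Agent.H33.PPart
import Cfsg.Agent.H34.Basic

set_option autoImplicit false
open Cfsg

namespace Cfsg.Agent.S4521

open H34

/-- Let the finite group G be generated by subgroups U₁ and U₂ that commute elementwise and whose intersection is a p-group, and let M be a maximal ideal of the algebraic integers containing the prime p. If the irreducible character χ of G has the irreducible constituents ψ₁ on U₁ and ψ₂ on U₂, then χ lies in the principal block of G if and only if ψ₁ and ψ₂ lie in the principal blocks of U₁ and U₂. -/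
theorem result {G : Type*} [Group G] [Fintype G] (p : ℕ) [Fact p.Prime] (M : Ideal Cfsg.AlgInt) (hM : Cfsg.IsPModular p M) (U₁ U₂ : Subgroup G) [Fintype U₁] [Fintype U₂] (hcomm : ∀ u ∈ U₁, ∀ v ∈ U₂, u * v = v * u) (hgen : U₁ ⊔ U₂ = ⊤) (hZ : IsPGroup p ↥(U₁ ⊓ U₂)) (χ : Cfsg.IrrCharacter G) (ψ₁ : Cfsg.IrrCharacter U₁) (ψ₂ : Cfsg.IrrCharacter U₂) (h₁ : Cfsg.classInner (fun u : U₁ => (χ : G → ℂ) u) (ψ₁ : U₁ → ℂ) ≠ 0) (h₂ : Cfsg.classInner (fun u : U₂ => (χ : G → ℂ) u) (ψ₂ : U₂ → ℂ) ≠ 0) : χ ∈ Cfsg.principalBlock M G ↔ (ψ₁ ∈ Cfsg.principalBlock M U₁ ∧ ψ₂ ∈ Cfsg.principalBlock M U₂) := by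
  classical
  have := hM.2.1
  have hn : ∀ U V : Subgroup G, (∀ u ∈ U, ∀ v ∈ V, u * v = v * u) → U ⊔ V = ⊤ → U.Normal := by
    intro U V hc hg
    rw [← Subgroup.normalizer_eq_top_iff, eq_top_iff, ← hg]
    refine sup_le Subgroup.le_normalizer fun v hv => Subgroup.centralizer_le_normalizer _ ?_
    exact fun u hu => hc u hu v hv
  have n1 := hn U₁ U₂ hcomm hgen
  have n2 := hn U₂ U₁ (fun u hu v hv => (hcomm v hv u hu).symm) (by rwa [sup_comm])
  have e1 := H33.regSum_res_div_eq (p := p) U₁ χ.2 ψ₁.2 h₁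
  have e2 := H33.regSum_res_div_eq (p := p) U₂ χ.2 ψ₂.2 h₂
  have e3 : H33.regSum p (χ : G → ℂ) = ∑ v : G, extendByZero U₂ (H33.rInd p) v *
      ∑ u : G, extendByZero U₁ (H33.rInd p) u * (χ : G → ℂ) (u * v) := by
    have hext : ∀ (U : Subgroup G) (F : G → ℂ), ∑ u : G, extendByZero U (H33.rInd p) u * F u =
        ∑ u ∈ Finset.univ.filter fun u => u ∈ U ∧ ¬ p ∣ orderOf u, F u := by
      intro U F
      rw [Finset.sum_filter]
      refine Finset.sum_congr rfl fun u _ => ?_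
      by_cases hu : u ∈ U
      · rw [H6.extendByZero_of_mem U _ hu, ← H33.rInd_coe]
        by_cases hr : p ∣ orderOf u
        · simp [H33.rInd_of_singular hr, hr]
        · simp [H33.rInd_of_regular hr, hr, hu]
      · simp [H6.extendByZero_of_notMem U _ hu, hu]
    have h0 : H33.regSum p (χ : G → ℂ) =
        ∑ g ∈ Finset.univ.filter fun g : G => ¬ p ∣ orderOf g, (χ : G → ℂ) g := by
      rw [H33.regSum_def, Finset.sum_filter]
      refine Finset.sum_congr rfl fun u _ => ?_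
      by_cases hr : p ∣ orderOf u
      · simp [H33.rInd_of_singular hr, hr]
      · simp [H33.rInd_of_regular hr, hr]
    simp only [hext]
    rw [h0, ← Finset.sum_product']
    symm
    refine Finset.sum_bij (fun x _ => x.2 * x.1) ?_ ?_ ?_ fun _ _ => rfl
    · rintro ⟨v, u⟩ hx
      simp only [Finset.mem_product, Finset.mem_filter, Finset.mem_univ, true_and] at hx ⊢
      exact H33.regular_mul hM.1 (hcomm u hx.2.1 v hx.1.1) hx.2.2 hx.1.2
    · rintro ⟨v, u⟩ hx ⟨v', u'⟩ hx' e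
      simp only [Finset.mem_product, Finset.mem_filter, Finset.mem_univ, true_and] at hx hx' e
      have f1 : u'⁻¹ * u = v' * v⁻¹ := by
        rw [inv_mul_eq_iff_eq_mul, ← mul_assoc, ← e, mul_inv_cancel_right]
      have m1 : u'⁻¹ * u ∈ U₁ := U₁.mul_mem (U₁.inv_mem hx'.2.1) hx.2.1
      have m2 : u'⁻¹ * u ∈ U₂ := f1 ▸ U₂.mul_mem hx'.1.1 (U₂.inv_mem hx.1.1)
      obtain ⟨k, hk⟩ := IsPGroup.iff_orderOf.mp hZ ⟨_, Subgroup.mem_inf.mpr ⟨m1, m2⟩⟩
      have f2 := H33.isPPart_mul (x := u'⁻¹ * u) (y := u') (hcomm u' hx'.2.1 _ m2).symm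
        ⟨k, by rw [← hk, Subgroup.orderOf_mk]⟩ hx'.2.2
      rw [← hcomm u' hx'.2.1 _ m2, mul_inv_cancel_left] at f2
      have f3 := (H33.IsPPart.eq_one_iff hM.1 f2).mpr hx.2.2
      rw [f3] at f1
      rw [inv_mul_eq_one.mp f3, eq_mul_inv_iff_mul_eq.mp f1 |>.symm, one_mul]
    · intro g hg
      simp only [Finset.mem_filter, Finset.mem_univ, true_and] at hg
      have : g ∈ ((U₁ ⊔ U₂ : Subgroup G) : Set G) := hgen ▸ Subgroup.mem_top g
      rw [Subgroup.normal_mul] at this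
      obtain ⟨a, ha, b, hb, rfl⟩ := this
      obtain ⟨x, hx⟩ := H33.exists_isPPart hM.1 a
      obtain ⟨y, hy⟩ := H33.exists_isPPart hM.1 b
      have mx := H33.IsPPart.mem_of_mem hM.1 hx U₁ ha
      have my := H33.IsPPart.mem_of_mem hM.1 hy U₂ hb
      have ma : x⁻¹ * a ∈ U₁ := U₁.mul_mem (U₁.inv_mem mx) ha
      have mb : y⁻¹ * b ∈ U₂ := U₂.mul_mem (U₂.inv_mem my) hb
      have c1 : Commute x (x⁻¹ * a) := (Commute.refl x).inv_right.mul_right (H33.IsPPart.commute hx)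
      have c2 : Commute y (y⁻¹ * b) := (Commute.refl y).inv_right.mul_right (H33.IsPPart.commute hy)
      have c3 : Commute y (x⁻¹ * a) := (hcomm _ ma _ my).symm
      have c4 : Commute x (y⁻¹ * b) := hcomm _ mx _ mb
      have f1 := H33.isPPart_mul ((c1.mul_right c4).mul_left (c3.mul_right c2))
        (H33.pElt_mul hM.1 (hcomm _ mx _ my) (H33.IsPPart.pElt hx) (H33.IsPPart.pElt hy))
        (H33.regular_mul hM.1 (hcomm _ ma _ mb) (H33.IsPPart.regular hx) (H33.IsPPart.regular hy))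
      have f2 : x * y * (x⁻¹ * a * (y⁻¹ * b)) = a * b := by
        rw [c3.mul_mul_mul_comm, mul_inv_cancel_left, mul_inv_cancel_left]
      have f3 := (H33.IsPPart.eq_one_iff hM.1 f1).mpr (f2 ▸ hg)
      refine ⟨(y⁻¹ * b, x⁻¹ * a), ?_, by rw [f3, one_mul] at f2; exact f2⟩
      simp only [Finset.mem_product, Finset.mem_filter, Finset.mem_univ, true_and]
      exact ⟨⟨mb, H33.IsPPart.regular hy⟩, ma, H33.IsPPart.regular hx⟩
  simp only [H5.sum_mul_irr_mul χ.2 (H33.extendByZero_rInd_isClassFunction U₁),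
    mul_left_comm (extendByZero U₂ _ _), ← Finset.mul_sum] at e3
  rw [H33.om] at e1 e2
  rw [e1, (div_eq_iff (H5.degree_ne_zero χ.2)).mp e2] at e3
  simp only [H33.mem_principalBlock_iff hM, e3]
  simp [H5.degree_ne_zero χ.2, H5.degree_ne_zero ψ₁.2, H5.degree_ne_zero ψ₂.2, not_or]

end Cfsg.Agent.S4521
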