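import Cfsg.Statements.S4534
import Cfsg.Agent.H87.SnG
import Cfsg.Agent.H85.SecRank

set_option autoImplicit false
open Cfsg

namespace Cfsg.Agent.S4534

open Cfsg.Agent.H87 Cfsg.Agent.H32 MonoidAlgebra

/-- Let B be a p-block of a finite symmetric group (relative to a maximal ideal M of the algebraic integers containing p) with a nontrivial defect group D all of whose sections have p-rank at most s. Then the p-regular rank of B is less than p ^ s. -/
theorem result (n : ℕ) (p : ℕ) [Fact p.Prime] (M : Ideal Cfsg.AlgInt) (hM : Cfsg.IsPModular p M) (B : Set (Cfsg.IrrCharacter (Equiv.Perm (Fin n)))) (hB : Cfsg.IsPBlock M B) (D : Subgroup (Equiv.Perm (Fin n))) (hD : Cfsg.IsDefectGroup p M B D) (hD1 : D ≠ ⊥) (s : ℕ) (hs : Cfsg.SectionalPRankLE p s D) : Cfsg.blockRank p B < p ^ s := by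
  have hp : p.Prime := Fact.out
  obtain ⟨ρ, w, h⟩ := Sn.exists_blk (N := Fintype.card (Fin n)) hM le_rfl hB
  obtain ⟨f, hf, -, P, rfl⟩ := h.defect hD
  have h1 := Sn.rank_sylow P (Fintype.card_fin _) (H85.sectionalPRankLE_of_injective
    ((P : Subgroup _).equivMapOfInjective f hf).toMonoidHom (MulEquiv.injective _) hs)
  have h2 : 0 < w := Nat.pos_of_ne_zero fun e => hD1 (by
    subst e
    have : Subsingleton (Equiv.Perm (Fin (p * 0))) := ⟨fun _ _ => Equiv.ext fun a => a.elim0⟩
    rw [Subsingleton.elim (P : Subgroup (Equiv.Perm (Fin (p * 0)))) ⊥, Subgroup.map_bot])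
  have h3 := Sn.ub_lt (a := p - 1) (Nat.sub_pos_of_lt hp.one_lt) h2
  rw [Nat.sub_add_cancel hp.one_le] at h3
  exact h.rank_le.trans_lt (h3.trans_le (Nat.pow_le_pow_right hp.pos h1))

end Cfsg.Agent.S4534
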