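import Cfsg.Statements.S4698
import Cfsg.Agent.H87.KB

set_option autoImplicit false
open Cfsg

namespace Cfsg.Agent.S4698

open Cfsg.Agent.H87 Cfsg.Agent.H32 MonoidAlgebra

universe u

theorem exists_central {G : Type*} [Group G] [Finite G] {p : ℕ} [Fact p.Prime] {P : Subgroup G}
    (hP : IsPGroup p P) (h : P ≠ ⊥) : ∃ u : P, u ≠ 1 ∧ u ∈ Subgroup.center P ∧ (u : G) ∈ Ce P := by
  have := (Subgroup.nontrivial_iff_ne_bot P).2 h
  have := hP.center_nontrivial
  obtain ⟨u, hu⟩ := exists_ne (1 : Subgroup.center P)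
  exact ⟨u, fun h1 => hu (Subtype.ext h1), u.2, mem_Ce.2 fun q hq =>
    congrArg Subtype.val (Subgroup.mem_center_iff.1 u.2 ⟨q, hq⟩)⟩

theorem small {G : Type*} [Group G] [Finite G] {p : ℕ} {M : Ideal AlgInt} [M.IsMaximal]
    {B : Set (IrrCharacter G)} {P : Subgroup G} {e : MonoidAlgebra (Res M) G}
    (h : H86.Ctx M p B P e) {d : ℕ} (hd : Nat.card P = p ^ d) (h2 : d ≤ 2) :
    Nat.card B ≤ Nat.card P := by
  have hp : Fact p.Prime := ⟨h.hM.1⟩
  by_cases h0 : P = ⊥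
  · exact card_le_of_quot_cyclic h (one_mem _) (one_mem _) (one_mem _) fun g hg =>
      ⟨0, 0, by simpa [h0] using hg⟩
  obtain ⟨u, h1, h3, h4⟩ := exists_central h.pgp h0
  have : (Subgroup.zpowers u).Normal := ⟨fun z hz g => by
    rwa [Subgroup.mem_center_iff.1 (Subgroup.zpowers_le_of_mem h3 hz) g, mul_inv_cancel_right]⟩
  have : IsCyclic (P ⧸ Subgroup.zpowers u) := by
    refine isCyclic_of_card_dvd_prime (p := p) (Nat.dvd_of_mul_dvd_mul_right hp.out.pos ?_)
    obtain ⟨a, ha⟩ := IsPGroup.iff_orderOf.1 h.pgp u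
    refine (Nat.mul_dvd_mul_left _ (?_ : p ∣ Nat.card (Subgroup.zpowers u))).trans ?_
    · rw [Nat.card_zpowers, ha]
      exact dvd_pow_self p fun h5 => h1 (by simpa [h5] using ha)
    · rw [← Subgroup.card_eq_card_quotient_mul_card_subgroup, hd, ← sq]
      exact pow_dvd_pow p h2
  obtain ⟨v, hv⟩ := IsCyclic.exists_generator (α := P ⧸ Subgroup.zpowers u)
  obtain ⟨v, rfl⟩ := QuotientGroup.mk_surjective v
  refine card_le_of_quot_cyclic h u.2 h4 v.2 fun g hg => ?_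
  obtain ⟨j, hj⟩ := hv (⟨g, hg⟩ : P)
  obtain ⟨i, hi⟩ := QuotientGroup.eq.1 ((QuotientGroup.mk_zpow _ v j).trans hj)
  refine ⟨i, j, congrArg Subtype.val (?_ : (⟨g, hg⟩ : P) = u ^ i * v ^ j)⟩
  rw [← Subgroup.mem_center_iff.1 (zpow_mem h3 i), show u ^ i = _ from hi, mul_inv_cancel_left]

theorem aux {p : ℕ} {M : Ideal AlgInt} [M.IsMaximal] (hM : IsPModular p M) (d : ℕ) :
    ∀ {G : Type u} [Group G] [Finite G] {B : Set (IrrCharacter G)}, IsPBlock M B →
      blockDefect p B = d → (d ≤ 2 → Nat.card B ≤ p ^ d) ∧ (3 ≤ d → Nat.card B ≤ p ^ (2 * d - 2)) := by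
  have hp : Fact p.Prime := ⟨hM.1⟩
  induction d using Nat.strong_induction_on with | _ d ih => ?_
  intro G _ _ B hB hd
  obtain ⟨P, hP⟩ := exists_isDefectGroup p hB
  obtain ⟨e, h⟩ := H86.exists_ctx hM hB hP
  have h1 := H32.card_defectGroup hM hB hP
  rw [hd] at h1
  refine ⟨fun h2 => h1 ▸ small h h1 h2, fun h2 => ?_⟩
  have := Fintype.ofFinite G
  by_cases h0 : ∀ χ ∈ B, blockHeight p B (χ : G → ℂ) = 0
  swap
  · push Not at h0
    obtain ⟨χ, h3, h4⟩ := h0
    have := H86.two_mul_card_le_of_height_pos hM hB h3 h4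
    rw [hd] at this
    omega
  obtain ⟨u, h3, -, h4⟩ := exists_central h.pgp fun h5 => by
    rw [h5, Subgroup.card_bot, eq_comm, Nat.pow_eq_one, or_iff_right hM.1.ne_one] at h1
    omega
  obtain ⟨C, hC, b, Z, _, h5, h6, h7, -, -, -, h8, h9⟩ := exists_major h u.2 h4
  have := Fintype.ofFinite C
  have := Fintype.ofFinite (C ⧸ Z)
  have hb := (h7.isPBlock_dom hM h5.1).1
  obtain ⟨a, ha⟩ := h.pElt u.2
  have h10 : a ≠ 0 := fun h10 => h3 (Subtype.ext (by simpa [h10] using ha))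
  rw [H32.card_defectGroup hM hb h8, ha, h1, ← pow_add, Nat.pow_right_inj hM.1.one_lt] at h9
  obtain ⟨h11, h12⟩ := ih _ (by omega) hb rfl
  have h13 : Nat.card (dom Z b) ≤ p ^ (2 * d - 4) := by
    by_cases h14 : blockDefect p (dom Z b) ≤ 2
    · exact (h11 h14).trans (Nat.pow_le_pow_right hM.1.pos (by omega))
    · exact (h12 (by omega)).trans (Nat.pow_le_pow_right hM.1.pos (by omega))
  have h15 := card_sq_le hM hC ⟨a, ha⟩ h5 h0
  rw [h6, hd, ← h7.rank_dom hM h5.1] at h15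
  have h16 := h15.trans (Nat.mul_le_mul_left _ ((H86.blockRank_le_card _).trans h13))
  rwa [← pow_add, show 2 * d + (2 * d - 4) = (2 * d - 2) * 2 by omega, pow_mul,
    Nat.pow_le_pow_iff_left two_ne_zero] at h16

/-- Let p be a prime, M a maximal ideal of the algebraic integers containing p, and B a p-block of defect d of the finite group G, containing k irreducible characters. Then k ≤ p^d when d ≤ 2, and k ≤ p^(2d − 2) when d ≥ 3. -/
theorem result {G : Type*} [Group G] [Finite G] (p : ℕ) [Fact p.Prime] (M : Ideal Cfsg.AlgInt) (hM : Cfsg.IsPModular p M) (B : Set (Cfsg.IrrCharacter G)) (hB : Cfsg.IsPBlock M B) (d : ℕ) (hd : Cfsg.blockDefect p B = d) : (d ≤ 2 → Nat.card B ≤ p ^ d) ∧ (3 ≤ d → Nat.card B ≤ p ^ (2 * d - 2)) := by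
  have := hM.2.1
  exact aux hM d hB hd

end Cfsg.Agent.S4698
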