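import Cfsg.Statements.S4535
import Cfsg.Agent.H87.SnI
import Cfsg.Agent.H85.SecRank
import Cfsg.Agent.S4698
import Cfsg.Agent.S4733

set_option autoImplicit false
open Cfsg

namespace Cfsg.Agent.S4535

open Cfsg.Agent.H87 Cfsg.Agent.H32 MonoidAlgebra

/-- Let B be a p-block of a finite alternating group (relative to a maximal ideal M of the algebraic integers containing p) with a nontrivial defect group D all of whose sections have p-rank at most s. Then the p-regular rank of B is less than p ^ s. -/
theorem result (n : ℕ) (p : ℕ) [Fact p.Prime] (M : Ideal Cfsg.AlgInt) (hM : Cfsg.IsPModular p M) (B : Set (Cfsg.IrrCharacter (alternatingGroup (Fin n)))) (hB : Cfsg.IsPBlock M B) (D : Subgroup (alternatingGroup (Fin n))) (hD : Cfsg.IsDefectGroup p M B D) (hD1 : D ≠ ⊥) (s : ℕ) (hs : Cfsg.SectionalPRankLE p s D) : Cfsg.blockRank p B < p ^ s := by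
  have hp : p.Prime := Fact.out
  have := hM.2.1
  rcases subsingleton_or_nontrivial (Fin n) with h0 | h0
  · exact absurd (Subsingleton.elim _ _) hD1
  obtain ⟨C, hC, hc⟩ := Sn.exists_cov hB
  obtain ⟨ρ, w, h⟩ := Sn.exists_blk (N := Fintype.card (Fin n)) hM le_rfl hC
  obtain ⟨P, ⟨e⟩⟩ := h.defect_alt hB hc hD
  have h1 := H85.sectionalPRankLE_of_injective e.toMonoidHom e.injective hs
  have h2 : blockDefect p B ≠ 0 := fun h2 => hD1 (Subgroup.card_eq_one.1 (by
    rw [S0908.result p M hM B hB D hD, h2, pow_zero]))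
  have h3 : blockDefect p B ≤ 2 → blockDefect p B ≤ s → blockRank p B < p ^ s := fun h3 h4 =>
    ((S4733.result p M hM B hB).1.lt_of_ne fun e => h2 ((S4733.result p M hM B hB).2.2.2 e.symm)).trans_le
      (((S4698.result p M hM B hB _ rfl).1 h3).trans (Nat.pow_le_pow_right hp.pos h4))
  have h4 := h.defect_alt_eq hB hc
  have h5 : 3 ≤ w → 2 * blockRank p C < p ^ w := fun h5 => by
    have := Sn.two_mul_ub_lt (a := p - 1) (Nat.sub_pos_of_lt hp.one_lt) h5
    rw [Nat.sub_add_cancel hp.one_le] at this
    exact (Nat.mul_le_mul_left 2 h.rank_le).trans_lt this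
  have h6 : 3 ≤ w → w ≤ s → blockRank p B < p ^ s := fun h6 h7 =>
    (Sn.rank_le_two_mul alternatingGroup.index_eq_two hM hC hB hc).trans_lt
      ((h5 h6).trans_le (Nat.pow_le_pow_right hp.pos h7))
  rw [Sn.val_mul_factorial] at h4
  by_cases h7 : p = 2
  · subst h7
    rcases w.even_or_odd with ⟨k, hk⟩ | hw
    · have h7 := Sn.rank_four P (w := k) (by rw [Fintype.card_fin]; omega) h1
      by_cases h8 : 3 ≤ w
      · exact h6 h8 (by omega)
      obtain rfl | rfl : w = 0 ∨ w = 2 := by omega
      · exact absurd (by simpa using h4) h2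
      · have h9 : blockDefect 2 B = 2 := by simpa using h4
        exact h3 h9.le (by omega)
    · by_cases h8 : 3 ≤ w
      · have h9 := Sn.rank_le_of_res alternatingGroup.index_eq_two hM hC hB hc
          fun χ hχ => h.odd_of_odd hw hχ
        have := (h5 h8).trans_le (Sn.rank_PA P (Fintype.card_fin _) h1)
        omega
      obtain rfl : w = 1 := by obtain ⟨k, hk⟩ := hw; omega
      exact absurd (by simpa using h4) h2
  · rw [Sn.PA_eq h7] at h1
    have h8 := Sn.rank_sylow P (Fintype.card_fin _) h1
    by_cases h9 : 3 ≤ w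
    · exact h6 h9 h8
    rw [if_neg fun h => h7 h.1, Sn.val_factorial_of_lt (by have := hp.two_le; omega)] at h4
    exact h3 (by omega) (by omega)

end Cfsg.Agent.S4535
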