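import Cfsg.Statements.S4540
import Cfsg.Agent.H86.Contr2

set_option autoImplicit false
open Cfsg

namespace Cfsg.Agent.S4540

/-- Let B be a 2-block of the finite group G (relative to a maximal ideal M of the algebraic integers containing 2) of defect d with defect group D. Let z be an element of D commuting with every element of D, and let b be a block of the centralizer C of z with defect group D that induces B (a major subsection (z, b)). If b has 2-regular rank at most three, then 3·k(B) ≤ 3·k₀(B) + 2·Σ 2 ^ h(χ), where k(B) is the number of members of B, k₀(B) the number of members of height zero, and the sum runs over the members χ of B of positive height h(χ); this bound is at most 3·2 ^ d, so in particular B contains at most 2 ^ d irreducible characters. -/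
theorem result {G : Type*} [Group G] [Finite G] (M : Ideal Cfsg.AlgInt) (hM : Cfsg.IsPModular 2 M) (B : Set (Cfsg.IrrCharacter G)) (hB : Cfsg.IsPBlock M B) (D : Subgroup G) (hD : Cfsg.IsDefectGroup 2 M B D) (z : G) (hzD : z ∈ D) (hzc : ∀ d ∈ D, d * z = z * d) (b : Set (Cfsg.IrrCharacter ↥(Subgroup.centralizer ({z} : Set G)))) (hb : Cfsg.IsInducedBlock M (Subgroup.centralizer ({z} : Set G)) b B) (hbD : Cfsg.IsDefectGroup 2 M b (D.subgroupOf (Subgroup.centralizer ({z} : Set G)))) (hl : Cfsg.blockRank 2 b ≤ 3) : 3 * Nat.card B ≤ 3 * Nat.card {χ : Cfsg.IrrCharacter G // χ ∈ B ∧ Cfsg.blockHeight 2 B (χ : G → ℂ) = 0} + 2 * (∑ᶠ χ ∈ {χ : Cfsg.IrrCharacter G | χ ∈ B ∧ 1 ≤ Cfsg.blockHeight 2 B (χ : G → ℂ)}, 2 ^ Cfsg.blockHeight 2 B (χ : G → ℂ)) ∧ 3 * Nat.card {χ : Cfsg.IrrCharacter G // χ ∈ B ∧ Cfsg.blockHeight 2 B (χ : G → ℂ) = 0} + 2 * (∑ᶠ χ ∈ {χ : Cfsg.IrrCharacter G | χ ∈ B ∧ 1 ≤ Cfsg.blockHeight 2 B (χ : G → ℂ)}, 2 ^ Cfsg.blockHeight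 2 B (χ : G → ℂ)) ≤ 3 * 2 ^ Cfsg.blockDefect 2 B := by
  classical
  have : M.IsMaximal := hM.2.1
  have := Fintype.ofFinite G
  have : Fact (Nat.Prime 2) := ⟨Nat.prime_two⟩
  obtain ⟨⟨n, hn⟩, hd⟩ := H86.major_of_defectGroup hM hD hzD hzc hb hbD
  obtain ⟨ω, hω⟩ := H86.exists_primitiveRoot hM.1 n
  have hC := H86.isCent_centralizer z
  have H := H86.hermFam_con hM hC hn hω hb
  obtain ⟨χ₀, h₀, hh₀⟩ := H86.exists_height_zero (p := 2) (H33.block_nonempty hB)
  rw [← H86.sum_weight_eq B fun χ => blockHeight 2 B (χ : G → ℂ)]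
  refine ⟨H86.three_mul_card_le_weight _ _, hd ▸ H.robinson hM hω hl
    (fun k hk => by exact_mod_cast H86.sum_pow_mul_con_self hM hC hn hb k hk) _
    (fun χ _ ψ hψ => ?_) (fun χ hχ ψ hψ k hk => ?_) (H86.mem_fs.2 h₀) hh₀⟩
  · rw [hd, pow_one]
    exact_mod_cast H86.con_div_mem hM hC ⟨n, hn⟩ hb.1 (H53.virt_of_irr χ.2) (H86.mem_fs.1 hψ)
  · rw [hd]
    exact_mod_cast H86.con_div_mem_iff hM (hC.pow (hn ▸ hk)) (H86.pElt_pow_coprime hn hk) hb hd
      (H86.mem_fs.1 hχ) (H86.mem_fs.1 hψ)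

end Cfsg.Agent.S4540
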