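import Cfsg.Statements.S4541
import Cfsg.Agent.H86.Contr2

set_option autoImplicit false
open Cfsg

namespace Cfsg.Agent.S4541

/-- Let B be a 2-block of the finite group G (relative to a maximal ideal M of the algebraic integers containing 2), u a 2-element, and b a block of the centralizer of u inducing B (a subsection (u, b)), of defect q and 2-regular rank l; write s for the integer square root of l and k₀(B) for the number of members of B of height zero. If s is odd then k₀(B) ≤ s·2 ^ q, and otherwise (s + 1)·k₀(B) ≤ l·2 ^ q; in particular k₀(B) ≤ 2 ^ q when l ≤ 3. -/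
theorem result {G : Type*} [Group G] [Finite G] (M : Ideal Cfsg.AlgInt) (hM : Cfsg.IsPModular 2 M) (B : Set (Cfsg.IrrCharacter G)) (hB : Cfsg.IsPBlock M B) (u : G) (hu : ∃ j : ℕ, orderOf u = 2 ^ j) (b : Set (Cfsg.IrrCharacter ↥(Subgroup.centralizer ({u} : Set G)))) (hb : Cfsg.IsInducedBlock M (Subgroup.centralizer ({u} : Set G)) b B) : (Odd (Nat.sqrt (Cfsg.blockRank 2 b)) → Nat.card {χ : Cfsg.IrrCharacter G // χ ∈ B ∧ Cfsg.blockHeight 2 B (χ : G → ℂ) = 0} ≤ Nat.sqrt (Cfsg.blockRank 2 b) * 2 ^ Cfsg.blockDefect 2 b) ∧ (¬ Odd (Nat.sqrt (Cfsg.blockRank 2 b)) → (Nat.sqrt (Cfsg.blockRank 2 b) + 1) * Nat.card {χ : Cfsg.IrrCharacter G // χ ∈ B ∧ Cfsg.blockHeight 2 B (χ : G → ℂ) = 0} ≤ Cfsg.blockRank 2 b * 2 ^ Cfsg.blockDefect 2 b) ∧ (Cfsg.blockRank 2 b ≤ 3 → Nat.card {χ : Cfsg.IrrCharacter G // χ ∈ B ∧ Cfsg.blockHeight 2 B (χ : G → ℂ) = 0} ≤ 2 ^ Cfsg.blockDefect 2 b) := by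
  classical
  have : M.IsMaximal := hM.2.1
  have := Fintype.ofFinite G
  obtain ⟨n, hn⟩ := hu
  obtain ⟨ω, hω⟩ := H86.exists_primitiveRoot hM.1 n
  have hC := H86.isCent_centralizer u
  have H := H86.hermFam_con hM hC hn hω hb
  obtain ⟨a, ha, ha0, hodd, hsum⟩ := H.exists_avg hM hω
    (fun k hk => by exact_mod_cast H86.sum_pow_mul_con_self hM hC hn hb k hk)
  rw [← H86.card_filter_fs]
  set t := (H86.fs B).filter fun χ : IrrCharacter G => blockHeight 2 B (χ : G → ℂ) = 0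
  have hunit : ∀ χ ∈ t, ∀ ψ ∈ t,
      ((2 : ℕ) : ℂ) ^ blockDefect 2 b * H86.con 2 _ (u ^ 1) b χ ψ ∉ H32.locMax M := by
    intro χ hχ ψ hψ
    rw [pow_one, H86.pow_mul_con_mem_iff hM hC ⟨n, hn⟩ hb
      (H86.mem_fs.1 (Finset.mem_filter.1 hχ).1) (H86.mem_fs.1 (Finset.mem_filter.1 hψ).1),
      (Finset.mem_filter.1 hχ).2, (Finset.mem_filter.1 hψ).2]
    simp
  have hsub : t ⊆ H86.fs B := Finset.filter_subset _ _
  obtain ⟨χ₀, h₀, hh₀⟩ := H86.exists_height_zero (p := 2) (H33.block_nonempty hB)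
  obtain ⟨χ, hχ, hmin⟩ := t.exists_min_image a ⟨χ₀, Finset.mem_filter.2 ⟨H86.mem_fs.2 h₀, hh₀⟩⟩
  have h1 : (t.card : ℤ) ≤ 2 ^ blockDefect 2 b * a χ := by
    have := H.row_le hM hω (hsub hχ) hsub (fun _ => 0) (fun ψ _ => by
      rw [pow_zero, div_one, pow_one]
      exact H32.mem_locRing_of_isIntegral (H86.pow_mul_con_isIntegral hM hC hb.1
        (H53.virt_of_irr χ.2) (H53.virt_of_irr ψ.2)))
      (fun ψ hψ => H32.ne_zero_of_not_mem_locMax (hunit χ hχ ψ hψ)) (a := a χ)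
      (by exact_mod_cast ha χ (hsub hχ))
    simp only [pow_zero, one_pow, Finset.sum_const, nsmul_eq_mul, mul_one] at this
    exact_mod_cast this
  have h2 : (t.card : ℤ) * a χ ≤ 2 ^ blockDefect 2 b * blockRank 2 b := by
    rw [← hsum, ← nsmul_eq_mul]
    exact (Finset.card_nsmul_le_sum _ _ _ hmin).trans
      (Finset.sum_le_sum_of_subset_of_nonneg hsub fun i hi _ => ha0 i hi)
  obtain ⟨c, hc⟩ := hodd χ (hsub hχ) (hunit χ hχ χ hχ)
  have h3 := ha0 χ (hsub hχ)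
  have h4 : ((Nat.sqrt (blockRank 2 b) : ℤ)) ^ 2 ≤ blockRank 2 b := by
    exact_mod_cast Nat.sqrt_le' _
  have h5 : (blockRank 2 b : ℤ) < (Nat.sqrt (blockRank 2 b) + 1) ^ 2 := by
    exact_mod_cast Nat.lt_succ_sqrt' _
  have h6 : (0 : ℤ) < 2 ^ blockDefect 2 b := by positivity
  have h7 := H86.one_le_blockRank hM.1 (H33.block_nonempty hb.1)
  have hA : Odd (Nat.sqrt (blockRank 2 b)) →
      t.card ≤ Nat.sqrt (blockRank 2 b) * 2 ^ blockDefect 2 b := by
    rintro ⟨s, hs⟩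
    zify
    rw [hs] at h4 h5 ⊢
    push_cast at h4 h5 ⊢
    by_cases h : c ≤ s
    · nlinarith
    · have h8 : (t.card : ℤ) * (2 * s + 3) ≤ t.card * a χ :=
        mul_le_mul_of_nonneg_left (by omega) (by positivity)
      have h9 : (2 : ℤ) ^ blockDefect 2 b * blockRank 2 b ≤
          2 ^ blockDefect 2 b * ((2 * s + 1) * (2 * s + 3)) :=
        mul_le_mul_of_nonneg_left (by nlinarith) h6.le
      have h10 : (0 : ℤ) < 2 * s + 3 := by positivity
      exact le_of_mul_le_mul_right (by nlinarith) h10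
  refine ⟨hA, fun h => ?_, fun h => ?_⟩
  · obtain ⟨s, hs⟩ := Nat.not_odd_iff_even.1 h
    zify
    rw [hs] at h4 h5 ⊢
    push_cast at h4 h5 ⊢
    by_cases h : s ≤ c
    · have h8 : (t.card : ℤ) * (2 * s + 1) ≤ t.card * a χ :=
        mul_le_mul_of_nonneg_left (by omega) (by positivity)
      nlinarith
    · have h8 : (2 : ℤ) ^ blockDefect 2 b * a χ ≤ 2 ^ blockDefect 2 b * (2 * s - 1) :=
        mul_le_mul_of_nonneg_left (by omega) h6.le
      have h9 : (2 * s + 1 : ℤ) * t.card ≤ (2 * s + 1) * (2 ^ blockDefect 2 b * (2 * s - 1)) :=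
        mul_le_mul_of_nonneg_left (h1.trans h8) (by positivity)
      nlinarith
  · have h8 : Nat.sqrt (blockRank 2 b) = 1 := by
      rw [eq_comm, Nat.eq_sqrt]; omega
    simpa [h8] using hA (by rw [h8]; exact odd_one)

end Cfsg.Agent.S4541
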