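import Cfsg.Statements.S4549
import Cfsg.Agent.H6.PrincInd
import Cfsg.Agent.H33.Kernel
import Cfsg.Agent.H3.Tate

set_option autoImplicit false
open Cfsg

namespace Cfsg.Agent.S4549

open Cfsg.Agent

/-- Let G be a finite group and M a maximal ideal of the algebraic integers containing 2. Let k be a natural number with g ^ k = g ^ 3 for every 2-element g and g ^ k = g for every element g of odd order (such k exist); an irreducible character χ is unchanged by g ↦ g ^ k exactly when it is fixed by the field automorphism that cubes the 2-power roots of unity and fixes the roots of unity of odd order. Then G has a normal 2-complement if and only if every member χ of the principal 2-block of odd degree with χ (g ^ k) = χ g for all g has degree one. -/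
theorem result {G : Type*} [Group G] [Finite G] (M : Ideal Cfsg.AlgInt) (hM : Cfsg.IsPModular 2 M) (k : ℕ) (hk₁ : ∀ g : G, (∃ j : ℕ, orderOf g = 2 ^ j) → g ^ k = g ^ 3) (hk₂ : ∀ g : G, Odd (orderOf g) → g ^ k = g) : Cfsg.HasNormalPComplement 2 G ↔ ∀ χ ∈ Cfsg.principalBlock M G, Odd (Cfsg.charDegree (χ : G → ℂ)) → (∀ g : G, (χ : G → ℂ) (g ^ k) = (χ : G → ℂ) g) → Cfsg.charDegree (χ : G → ℂ) = 1 := by
  classical
  have := hM.2.1
  have := Fintype.ofFinite G
  have : Fact (Nat.Prime 2) := ⟨Nat.prime_two⟩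
  constructor
  · intro h χ hχ hodd _
    obtain ⟨N, hN, hc, j, hj⟩ := H3.hasNormalPComplement_iff_exists_normal.1 h
    have h1 := (H33.mem_principalBlock_iff_of_normal_complement hM N
      ((Nat.Prime.coprime_iff_not_dvd Nat.prime_two).1 hc.symm) ⟨j, hj⟩ χ).1 hχ
    obtain ⟨φ, hφ, h2⟩ := H5.exists_isIrr_quotient N χ.2 h1
    obtain ⟨i, hi⟩ := H88.exists_charDegree_eq_pow (IsPGroup.of_card (G := G ⧸ N) hj) hφ
    rw [h2, H88.charDegree_inflate, hi] at hodd ⊢
    rcases i with _ | i
    · rfl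
    · exact absurd hodd (by rw [Nat.not_odd_iff_even, Nat.even_pow]; simp)
  intro h
  have hk : k.Coprime (Nat.card G) := by
    refine H33.coprime_card_of_forall_prime fun g hg h => ?_
    have hg1 : g ≠ 1 := fun h => by rw [h, orderOf_one] at hg; exact Nat.not_prime_one hg
    rcases hg.eq_two_or_odd' with h2 | h2
    · rw [hk₁ g ⟨1, h2⟩, pow_succ, ← h2, pow_orderOf_eq_one, one_mul] at h
      exact hg1 h
    · rw [hk₂ g h2] at h
      exact hg1 h
  set a := (Nat.card G).factorization 2 with ha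
  have hiter : ∀ g : G, g ^ k ^ 2 ^ a = g := by
    intro g
    obtain ⟨x, y, rfl, hc, ⟨j, hj⟩, hy⟩ : ∃ x y : G, x * y = g ∧ Commute x y ∧
        (∃ j, orderOf x = 2 ^ j) ∧ ¬ 2 ∣ orderOf y := by
      obtain ⟨x, y, h⟩ := H33.exists_isPPart Nat.prime_two g
      exact ⟨x, y, h⟩
    have hy' : ∀ m : ℕ, y ^ k ^ m = y := by
      intro m
      induction m with
      | zero => simp
      | succ m ih => rw [pow_succ, pow_mul, ih, hk₂ y (Nat.odd_iff.2 (by omega))]
    have hx' : ∀ m : ℕ, x ^ k ^ m = x ^ 3 ^ m := by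
      intro m
      induction m with
      | zero => simp
      | succ m ih =>
        rw [pow_succ, pow_mul, ih, ← pow_mul, mul_comm, pow_mul, hk₁ x ⟨j, hj⟩, ← pow_mul,
          pow_succ']
    have hja : j ≤ a := by
      have h1 : 2 ^ j ∣ Nat.card G := hj ▸ orderOf_dvd_natCard x
      exact (Nat.prime_two.pow_dvd_iff_le_factorization Nat.card_pos.ne').1 h1
    have h3 : 3 ^ 2 ^ a ≡ 1 [MOD 2 ^ (a + 1)] := by
      have := Nat.ModEq.pow_totient (x := 3) (n := 2 ^ (a + 1))
        (Nat.Coprime.pow_right _ (by norm_num))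
      rwa [Nat.totient_prime_pow_succ Nat.prime_two, show 2 - 1 = 1 from rfl, mul_one] at this
    rw [hc.mul_pow, hy', hx']
    congr 1
    conv_rhs => rw [← pow_one x]
    exact pow_eq_pow_iff_modEq.2 (h3.of_dvd (hj ▸ pow_dvd_pow 2 (by omega)))
  obtain ⟨P⟩ : Nonempty (Sylow 2 G) := inferInstance
  refine H3.hasNormalPComplement_of_inf_pResidual_le_frattini P fun x hx => ?_
  rw [H3.mem_frattini_iff]
  intro K hK
  by_contra hxK
  obtain ⟨μ, hμ⟩ := H6.exists_sign_hom K (H3.index_eq_of_isCoatom P.isPGroup' hK)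
  have hμ2 : ∀ g, μ g ^ 2 = 1 := fun g => by
    by_cases hg : g ∈ K
    · rw [(hμ g).1 hg, one_pow]
    · rw [(hμ g).2 hg, neg_one_sq]
  have hμc := H5.isCharacter_monoidHom μ
  have hkP : k.Coprime (Nat.card (P : Subgroup G)) := hk.coprime_dvd_right (Subgroup.card_subgroup_dvd_card _)
  have hμk : ∀ g : (P : Subgroup G), μ (g ^ k) = μ g := fun g => by
    have h1 : g ^ k = g ^ 3 := by
      apply Subtype.ext
      obtain ⟨j, hj⟩ := IsPGroup.iff_orderOf.1 P.isPGroup' g
      simpa using hk₁ g ⟨j, by rw [← hj, Subgroup.orderOf_coe]⟩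
    rw [h1, map_pow, pow_succ, hμ2, one_mul]
  have h1 := H6.not_dvd_sum_principal hM P hμc (by rw [H88.charDegree_monoidHom]; norm_num)
  obtain ⟨χ, hχ, hfix, hnd⟩ := H33.exists_fixed_of_not_dvd_sum Nat.prime_two (H33.powIrr hk)
    (H33.powIrr_iterate_eq hk hiter) _ (fun χ hχ => by
      rw [Finset.mem_filter] at hχ ⊢
      exact ⟨Finset.mem_univ _, H33.powIrr_mem_principalBlock hM hk hχ.2⟩) _
    (fun χ _ => by
      rw [H33.charDegree_powIrr]
      congr 1
      apply H89.mlt_eq_of
      rw [← H89.mlt_spec _ (H5.isCharacter_of_isIrr χ.2) hμc,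
        ← H33.classInner_comp_pow hkP (fun c => (χ : G → ℂ) ((P : Subgroup G).subtype c))]
      simp only [H33.powIrr_apply, hμk, map_pow]) h1
  rw [Nat.prime_two.dvd_mul, not_or] at hnd
  have hdeg := h χ (Finset.mem_filter.1 hχ).2 (Nat.odd_iff.2 (by omega))
    ((H33.powIrr_eq_iff hk χ).1 hfix)
  have hres := H88.restrict_eq_of_degree_le (P : Subgroup G) (H5.isCharacter_of_isIrr χ.2)
    (H5.isIrrCharacter_monoidHom μ) (by
      have := H89.mlt_spec (P : Subgroup G).subtype (H5.isCharacter_of_isIrr χ.2) hμc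
      simp only [Subgroup.coe_subtype] at this
      rw [this, Nat.cast_ne_zero]
      intro h0
      exact hnd.1 (h0 ▸ dvd_zero 2)) (by rw [hdeg, H88.charDegree_monoidHom])
  obtain ⟨lam, hlam⟩ := H5.exists_monoidHom_of_degree_one (H5.isCharacter_of_isIrr χ.2)
    ((H88.charDegree_eq_one_iff (H5.isCharacter_of_isIrr χ.2)).1 hdeg)
  have hx1 : lam x = -1 := by
    have := congrFun hres x
    rw [hlam] at this
    rw [← (hμ x).2 hxK]
    exact Units.ext this
  set m := ordCompl[2] (Nat.card G) with hm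
  have hmodd : Odd m := Nat.odd_iff.2 (by
    have := Nat.not_dvd_ordCompl Nat.prime_two (Nat.card_pos (α := G)).ne'
    omega)
  have hle : pResidual 2 G ≤ (lam ^ m).ker := by
    rw [H3.pResidual_le_iff]
    intro g hg
    rw [MonoidHom.mem_ker, MonoidHom.pow_apply, ← map_pow]
    have h2 : orderOf g ∣ m := by
      have h3 : orderOf g ∣ ordProj[2] (Nat.card G) * m := by
        rw [hm, Nat.ordProj_mul_ordCompl_eq_self]; exact orderOf_dvd_natCard g
      exact (Nat.Coprime.pow_right _ hg).dvd_of_dvd_mul_left h3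
    rw [orderOf_dvd_iff_pow_eq_one.1 h2, map_one]
  have h2 := hle hx
  rw [MonoidHom.mem_ker, MonoidHom.pow_apply] at h2
  change lam x ^ m = 1 at h2
  rw [hx1, hmodd.neg_one_pow] at h2
  have h3 := congrArg Units.val h2
  norm_num at h3

end Cfsg.Agent.S4549
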