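import Cfsg.Statements.S4550
import Cfsg.Agent.H33.Gal

set_option autoImplicit false
open Cfsg

namespace Cfsg.Agent.S4550

/-- Let G be a finite group of even order and M a maximal ideal of the algebraic integers containing 2. Let k be a natural number with g ^ k = g ^ 3 for every 2-element g and g ^ k = g for every element g of odd order (such k exist); an irreducible character χ is unchanged by g ↦ g ^ k exactly when it is fixed by the field automorphism that cubes the 2-power roots of unity and fixes the roots of unity of odd order. Then the number of members χ of the principal 2-block of odd degree with χ (g ^ k) = χ g for all g is even. -/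
theorem result {G : Type*} [Group G] [Finite G] (M : Ideal Cfsg.AlgInt) (hM : Cfsg.IsPModular 2 M) (hev : Even (Nat.card G)) (k : ℕ) (hk₁ : ∀ g : G, (∃ j : ℕ, orderOf g = 2 ^ j) → g ^ k = g ^ 3) (hk₂ : ∀ g : G, Odd (orderOf g) → g ^ k = g) : Even (Nat.card {χ : Cfsg.IrrCharacter G // χ ∈ Cfsg.principalBlock M G ∧ Odd (Cfsg.charDegree (χ : G → ℂ)) ∧ ∀ g : G, (χ : G → ℂ) (g ^ k) = (χ : G → ℂ) g}) := by
  classical
  have := hM.2.1
  have := Fintype.ofFinite G
  have : Fact (Nat.Prime 2) := ⟨Nat.prime_two⟩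
  have hk : k.Coprime (Nat.card G) := by
    refine H33.coprime_card_of_forall_prime fun g hg h => ?_
    have hg1 : g ≠ 1 := fun h => by rw [h, orderOf_one] at hg; exact Nat.not_prime_one hg
    rcases hg.eq_two_or_odd' with h2 | h2
    · rw [hk₁ g ⟨1, h2⟩, pow_succ, ← h2, pow_orderOf_eq_one, one_mul] at h
      exact hg1 h
    · rw [hk₂ g h2] at h
      exact hg1 h
  set a := (Nat.card G).factorization 2 with ha
  have hiter : ∀ g : G, g ^ k ^ 2 ^ a = g := by
    intro g
    obtain ⟨x, y, rfl, hc, ⟨j, hj⟩, hy⟩ : ∃ x y : G, x * y = g ∧ Commute x y ∧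
        (∃ j, orderOf x = 2 ^ j) ∧ ¬ 2 ∣ orderOf y := by
      obtain ⟨x, y, h⟩ := H33.exists_isPPart Nat.prime_two g
      exact ⟨x, y, h⟩
    have hy' : ∀ m : ℕ, y ^ k ^ m = y := by
      intro m
      induction m with
      | zero => simp
      | succ m ih => rw [pow_succ, pow_mul, ih, hk₂ y (Nat.odd_iff.2 (by omega))]
    have hx' : ∀ m : ℕ, x ^ k ^ m = x ^ 3 ^ m := by
      intro m
      induction m with
      | zero => simp
      | succ m ih =>
        rw [pow_succ, pow_mul, ih, ← pow_mul, mul_comm, pow_mul, hk₁ x ⟨j, hj⟩, ← pow_mul,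
          pow_succ']
    have hja : j ≤ a := by
      have h1 : 2 ^ j ∣ Nat.card G := hj ▸ orderOf_dvd_natCard x
      exact (Nat.prime_two.pow_dvd_iff_le_factorization Nat.card_pos.ne').1 h1
    have h3 : 3 ^ 2 ^ a ≡ 1 [MOD 2 ^ (a + 1)] := by
      have := Nat.ModEq.pow_totient (x := 3) (n := 2 ^ (a + 1))
        (Nat.Coprime.pow_right _ (by norm_num))
      rwa [Nat.totient_prime_pow_succ Nat.prime_two, show 2 - 1 = 1 from rfl, mul_one] at this
    rw [hc.mul_pow, hy', hx']
    congr 1
    conv_rhs => rw [← pow_one x]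
    exact pow_eq_pow_iff_modEq.2 (h3.of_dvd (hj ▸ pow_dvd_pow 2 (by omega)))
  obtain ⟨t, ht⟩ := exists_prime_orderOf_dvd_card' (G := G) 2 (even_iff_two_dvd.1 hev)
  have h1 := H33.dvd_sum_sq_of_sum_eq_zero hM _ ⟨1, ht⟩
    (H33.sum_degree_mul_eq_zero_of_blockCoeff (A := principalBlock M G)
      (H33.blockCoeff_eq_zero_of_singular hM H33.isPBlock_principalBlock
        (by rw [orderOf_inv, ht])))
  rw [← ZMod.natCast_eq_zero_iff, Nat.cast_sum,
    H33.sum_eq_sum_fixed_of_iterate (H33.powIrr hk) (H33.powIrr_iterate_eq hk hiter) _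
      (fun χ hχ => by
        rw [Finset.mem_filter] at hχ ⊢
        exact ⟨Finset.mem_univ _, H33.powIrr_mem_principalBlock hM hk hχ.2⟩) _
      (fun χ _ => by rw [H33.charDegree_powIrr]), ← Nat.cast_sum, ZMod.natCast_eq_zero_iff] at h1
  have h2 := (H33.sum_sq_modEq_card Nat.prime_two (by norm_num) _ _).dvd_iff (dvd_refl 2) |>.1 h1
  rw [even_iff_two_dvd]
  refine h2.trans (dvd_of_eq (Eq.symm ?_))
  rw [Nat.card_eq_fintype_card, Fintype.card_subtype, Finset.filter_filter, Finset.filter_filter]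
  congr 1
  refine Finset.filter_congr fun χ _ => ?_
  rw [H33.powIrr_eq_iff, Nat.odd_iff]
  constructor
  · rintro ⟨h1, h2, h3⟩
    exact ⟨h1, h3, by omega⟩
  · rintro ⟨h1, h2, h3⟩
    exact ⟨h1, by omega, h2⟩

end Cfsg.Agent.S4550
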