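import Cfsg.Statements.S4553
import Cfsg.Agent.H33.Dade
import Cfsg.Agent.H33.OddExt
import Cfsg.Agent.H30.DegreeRatio

set_option autoImplicit false
open Cfsg

namespace Cfsg.Agent.S4553

/-- Let G be a finite group, p a prime, P a Sylow p-subgroup, N the p-residual of G (the subgroup generated by the elements of order prime to p, the smallest normal subgroup with G/N a p-group), and M a maximal ideal of the algebraic integers containing p; suppose G/N is cyclic and nontrivial. Let k be a natural number with g ^ k = g ^ (1 + p) for every p-element g and g ^ k = g for every element g of order prime to p (so that χ (g ^ k) is the image of χ g under the field automorphism that raises p-power roots of unity to the power 1 + p and fixes the roots of unity of order prime to p). Then the number of members χ of the principal block of G of degree prime to p with χ (g ^ k) = χ g for all g equals p times the number of members θ of the principal block of N of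 degree prime to p that are invariant under conjugation by P and satisfy θ (n ^ k) = θ n for all n. -/
theorem result {G : Type*} [Group G] [Finite G] (p : ℕ) [Fact p.Prime] (M : Ideal Cfsg.AlgInt) (hM : Cfsg.IsPModular p M) (P : Sylow p G) (N : Subgroup G) [hN : N.Normal] (hNres : N = Cfsg.pResidual p G) (hcyc : IsCyclic (G ⧸ N)) (hnt : N ≠ ⊤) (k : ℕ) (hk₁ : ∀ g : G, (∃ j : ℕ, orderOf g = p ^ j) → g ^ k = g ^ (1 + p)) (hk₂ : ∀ g : G, Nat.Coprime (orderOf g) p → g ^ k = g) : Nat.card {χ : Cfsg.IrrCharacter G // χ ∈ Cfsg.principalBlock M G ∧ ¬ p ∣ Cfsg.charDegree (χ : G → ℂ) ∧ ∀ g : G, (χ : G → ℂ) (g ^ k) = (χ : G → ℂ) g} = p * Nat.card {θ : Cfsg.IrrCharacter ↥N // θ ∈ Cfsg.principalBlock M ↥N ∧ ¬ p ∣ Cfsg.charDegree (θ : ↥N → ℂ) ∧ (∀ x ∈ (P : Subgroup G), ∀ n : ↥N, (θ : ↥N → ℂ) ⟨x * n * x⁻¹, hN.conj_mem n n.2 x⟩ = (θ : ↥N → ℂ) n) ∧ ∀ n : ↥N, (θ : ↥N → ℂ) (n ^ k) = (θ : ↥N → ℂ) n} := by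
  classical
  have := hM.2.1
  have := Fintype.ofFinite G
  have := Fintype.ofFinite N
  have hp := hM.1
  have hreg : ∀ g : G, ¬ p ∣ orderOf g → g ∈ N := fun g hg =>
    hNres ▸ Subgroup.subset_closure ((Nat.Prime.coprime_iff_not_dvd hp).2 hg).symm
  have hk : k.Coprime (Nat.card G) := H33.coprime_card_of_forall_prime fun g hg => by
    have h1 : g ≠ 1 := by rintro rfl; simp at hg; exact Nat.not_prime_one hg
    by_cases h : orderOf g = p
    · rw [hk₁ g ⟨1, by rw [h, pow_one]⟩, pow_add, ← h, pow_orderOf_eq_one]; simpa using h1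
    · rwa [hk₂ g ((Nat.coprime_primes hg hp).2 h)]
  have hkN : k.Coprime (Nat.card N) := hk.coprime_dvd_right (Subgroup.card_subgroup_dvd_card N)
  have hPG : IsPGroup p (G ⧸ N) := IsPGroup.iff_orderOf.2 fun q => by
    obtain ⟨g, rfl⟩ := QuotientGroup.mk_surjective q
    obtain ⟨z, hz⟩ := H33.exists_isPPart hp g
    obtain ⟨j, hj⟩ := H33.IsPPart.pElt hz
    rw [← QuotientGroup.eq.2 (hreg _ (H33.IsPPart.regular hz))]
    obtain ⟨i, -, hi⟩ := (Nat.dvd_prime_pow hp).1 (hj ▸ orderOf_map_dvd (QuotientGroup.mk' N) z)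
    exact ⟨i, hi⟩
  obtain ⟨a, ha⟩ : ∃ a, N.index = p ^ a := IsPGroup.iff_card.1 hPG
  have hPN : (P : Subgroup G) ⊔ N = ⊤ := by
    rw [← Subgroup.index_eq_one]
    exact Nat.eq_one_of_dvd_coprimes
      (((Nat.Prime.coprime_iff_not_dvd hp).2 P.not_dvd_index).pow_left a)
      (ha ▸ Subgroup.index_dvd_of_le le_sup_right) (Subgroup.index_dvd_of_le le_sup_left)
  have hpow : ∀ g : G, ((g ^ k : G) : G ⧸ N) = (g : G ⧸ N) ^ (1 + p) := fun g => by
    obtain ⟨z, hz⟩ := H33.exists_isPPart hp g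
    rw [QuotientGroup.mk_pow, ← QuotientGroup.eq.2 (hreg _ (H33.IsPPart.regular hz)),
      ← QuotientGroup.mk_pow, hk₁ z (H33.IsPPart.pElt hz), QuotientGroup.mk_pow]
  have hdet : ∀ θ : N → ℂ, ¬ p ∣ detOrder θ := fun θ h => by
    obtain ⟨δ, hδ⟩ := H30.exists_hom_detChar θ
    set r := Nat.card G / p ^ (Nat.card G).factorization p with hr
    refine Nat.not_dvd_ordCompl hp (Nat.card_pos (α := G)).ne' (h.trans ?_)
    rw [detOrder, hδ, orderOf_dvd_iff_pow_eq_one]
    have h1 : N ≤ (δ ^ r).ker.map N.subtype := by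
      refine hNres.le.trans ((Subgroup.closure_le _).2 fun g hg => ?_)
      have hgN : g ∈ N := hNres ▸ Subgroup.subset_closure hg
      refine ⟨⟨g, hgN⟩, ?_, rfl⟩
      have : orderOf g ∣ r := Nat.Coprime.dvd_of_dvd_mul_left
        (m := p ^ (Nat.card G).factorization p) (Nat.Coprime.pow_right _ hg)
        (by rw [hr, Nat.ordProj_mul_ordCompl_eq_self]; exact orderOf_dvd_natCard g)
      change δ _ ^ r = 1
      rw [← map_pow, show (⟨g, hgN⟩ : N) ^ r = 1 from
        Subtype.ext (orderOf_dvd_iff_pow_eq_one.1 this), map_one]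
    funext n
    obtain ⟨y, hy, e⟩ := h1 n.2
    obtain rfl : y = n := Subtype.ext e
    exact congrArg Units.val hy
  -- the canonical extension
  have hcan : ∀ θ : {θ : IrrCharacter N // θ ∈ principalBlock M N ∧ ¬ p ∣ charDegree (θ : N → ℂ) ∧
      (∀ x ∈ (P : Subgroup G), ∀ n : N, (θ : N → ℂ) ⟨x * n * x⁻¹, hN.conj_mem n n.2 x⟩ =
        (θ : N → ℂ) n) ∧ ∀ n : N, (θ : N → ℂ) (n ^ k) = (θ : N → ℂ) n},
      ∃ χ : G → ℂ, IsIrrCharacter G χ ∧ (∀ n : N, χ n = (θ.1 : N → ℂ) n) ∧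
        ∀ g, χ (g ^ k) = χ g := by
    rintro ⟨θ, h1, h2, h3, h4⟩
    have hT : H6.inertia N (θ : N → ℂ) = ⊤ := by
      rw [eq_top_iff, ← hPN]
      exact sup_le (fun x hx => (H6.mem_inertia_iff N).2 (h3 x hx))
        (H6.le_inertia N (H5.isClassFunction_of_isIrr θ.2))
    obtain ⟨χ, ⟨hχ, h5, h6⟩, hu⟩ := H30.exists_canonical_extension θ.2
      (fun g => (H6.mem_inertia_iff N).1 (hT ▸ Subgroup.mem_top g))
      (H33.irr_charDegree_cast θ).symm (by
        rw [ha]
        exact ((Nat.Prime.coprime_iff_not_dvd hp).2 fun h =>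
          ((Nat.Prime.dvd_mul hp).1 h).elim (hdet _) h2).pow_left a)
    refine ⟨χ, hχ, h5, congrFun (hu _ (H7.isIrrCharacter_comp_pow hk hχ)
      (fun n => (h5 (n ^ k)).trans (h4 n)) ?_)⟩
    obtain ⟨τ, hτ⟩ := H7.exists_ringEquiv_character_pow G hk
    rw [ha, ← funext (hτ χ (H5.isCharacter_of_isIrr hχ))]
    refine ((Nat.Prime.coprime_iff_not_dvd hp).2 fun h => hdet (θ : N → ℂ)
      (h6 ▸ h.trans ?_)).pow_left a
    rw [detOrder, show (fun g => τ (χ g)) = fun g => τ.toRingHom (χ g) from rfl,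
      H89.detChar_ringHom _ hχ, orderOf_dvd_iff_pow_eq_one]
    funext y
    have := congrFun (pow_orderOf_eq_one (detChar χ)) y
    rw [Pi.pow_apply, ← map_pow]
    exact (congrArg _ this).trans (map_one _)
  choose c hc hcN hck using hcan
  have hcirr := fun θ => H33.isIrr_res_of_ext (hcN θ)
  -- the group of linear characters
  have hΛ : Nat.card {l : G ⧸ N →* ℂˣ // ∀ q, l q ^ p = 1} = p := by
    let _ : CommGroup (G ⧸ N) := IsCyclic.commGroup
    obtain ⟨e⟩ := CommGroup.monoidHom_mulEquiv_of_hasEnoughRootsOfUnity (G ⧸ N) ℂ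
    have h1 := IsCyclic.card_powMonoidHom_ker (G ⧸ N) p
    have ha0 : a ≠ 0 := by
      rintro rfl
      exact hnt (Subgroup.index_eq_one.1 (by simpa using ha))
    rw [show Nat.card (G ⧸ N) = p ^ a from ha, Nat.gcd_eq_right (dvd_pow_self p ha0)] at h1
    refine (Nat.card_congr (e.toEquiv.subtypeEquiv fun l => ?_)).trans h1
    change _ ↔ e l ^ p = 1
    rw [← map_pow, map_eq_one_iff _ e.injective, MonoidHom.ext_iff]
    rfl
  refine Eq.trans ?_ (congrArg (· * _) hΛ)
  rw [← Nat.card_prod]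
  symm
  refine Nat.card_eq_of_bijective (fun x => ⟨⟨_, H30.isIrr_hom_mul
    (x.1.1.comp (QuotientGroup.mk' N)) (hc x.2)⟩, ?_, ?_, fun g => ?_⟩) ⟨?_, ?_⟩
  · refine (H33.principal_iff_of_regular_le hM N hreg (θ := x.2.1) ?_).2 x.2.2.1
    have : (fun n : N => ((x.1.1.comp (QuotientGroup.mk' N) n : ℂˣ) : ℂ) * c x.2 n) = x.2.1 := by
      funext n
      simp [(QuotientGroup.eq_one_iff (n : G)).2 n.2, hcN]
    rw [this, H5.classInner_irr_self x.2.1.2]
    exact one_ne_zero
  · have := x.2.2.2.1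
    simp only [charDegree] at this ⊢
    rwa [map_one, Units.val_one, one_mul, ← OneMemClass.coe_one N, hcN]
  · change (x.1.1 ((g ^ k : G) : G ⧸ N) : ℂ) * c x.2 (g ^ k) = x.1.1 (g : G ⧸ N) * c x.2 g
    rw [hpow, hck, map_pow, pow_add, x.1.2, pow_one, mul_one]
  · rintro ⟨l, θ⟩ ⟨l', θ'⟩ h
    have h := congrArg (fun x => (x.1 : G → ℂ)) h
    obtain rfl : θ = θ' := by
      refine Subtype.ext (Subtype.ext (funext fun n => ?_))
      simpa [(QuotientGroup.eq_one_iff (n : G)).2 n.2, hcN] using congrFun h n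
    have := H30.eq_of_mul_eq_mul_of_ker N (H5.isCharacter_of_isIrr (hc θ)) (hcirr θ)
      (H30.isIrr_hom (l.1.comp (QuotientGroup.mk' N)))
      (fun n hn => by simp [(QuotientGroup.eq_one_iff n).2 hn])
      (H30.isIrr_hom (l'.1.comp (QuotientGroup.mk' N)))
      (fun n hn => by simp [(QuotientGroup.eq_one_iff n).2 hn]) h
    refine Prod.ext (Subtype.ext (MonoidHom.ext fun q => ?_)) rfl
    obtain ⟨g, rfl⟩ := QuotientGroup.mk_surjective q
    exact Units.ext (congrFun this g)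
  · rintro ⟨χ, h1, h2, h3⟩
    have hχN := H5.isCharacter_restrict (H5.isCharacter_of_isIrr χ.2) N
    obtain ⟨θ, hθ, ho⟩ := H5.exists_irr_constituent hχN
      (fun h => H5.degree_ne_zero χ.2 (congrFun h 1))
    obtain ⟨e, he, he'⟩ := H30.exists_degree_eq_mul N hθ χ.2 ho
    have hθd := H33.charDegree_cast (H5.isCharacter_of_isIrr hθ)
    rw [← H33.irr_charDegree_cast, ← hθd, ← Nat.cast_mul, Nat.cast_inj] at he'
    obtain rfl : e = 1 := Nat.eq_one_of_dvd_coprimes
      (((Nat.Prime.coprime_iff_not_dvd hp).2 h2).pow_left a) (ha ▸ he) (he' ▸ dvd_mul_right _ _)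
    rw [one_mul] at he'
    have e1 : (fun n : N => (χ : G → ℂ) n) = θ := H6.eq_of_constituent_of_degree_eq hχN hθ ho (by
      rw [← hθd, ← he', H33.irr_charDegree_cast]; rfl)
    subst e1
    let θ' : {θ : IrrCharacter N // θ ∈ principalBlock M N ∧ ¬ p ∣ charDegree (θ : N → ℂ) ∧
      (∀ x ∈ (P : Subgroup G), ∀ n : N, (θ : N → ℂ) ⟨x * n * x⁻¹, hN.conj_mem n n.2 x⟩ =
        (θ : N → ℂ) n) ∧ ∀ n : N, (θ : N → ℂ) (n ^ k) = (θ : N → ℂ) n} :=
      ⟨⟨_, hθ⟩, H33.principal_of_over_normal hM N h1 ho, he' ▸ h2,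
        fun x _ n => H5.isClassFunction_of_isIrr χ.2 _ _, fun n => h3 n⟩
    obtain ⟨β, hβ, hβ'⟩ := H30.exists_hom_of_two_extensions N.subtype (by simpa using hN)
      (H5.isCharacter_of_isIrr (hc θ')) (H5.isCharacter_of_isIrr χ.2) (fun n => (hcN θ' n).symm)
      (hcirr θ')
    have h4 := H30.eq_of_mul_eq_mul_of_ker N (H5.isCharacter_of_isIrr (hc θ')) (hcirr θ')
      (H7.isIrrCharacter_comp_pow hk (H30.isIrr_hom β))
      (fun n hn => by rw [one_pow, map_one]; exact congrArg Units.val (hβ ⟨_, N.pow_mem hn k⟩)) (H30.isIrr_hom β)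
      (fun n hn => by simpa using hβ ⟨_, hn⟩) (by
        funext g
        have := h3 g
        rw [hβ'] at this
        simp only [hck] at this
        exact this)
    refine ⟨(⟨QuotientGroup.lift N β fun n hn => hβ ⟨n, hn⟩, fun q => ?_⟩, θ'),
      Subtype.ext (Subtype.ext hβ'.symm)⟩
    obtain ⟨g, rfl⟩ := QuotientGroup.mk_surjective q
    have h5 : β (g ^ k) = β g := Units.ext (congrFun h4 g)
    have h6 := congrArg (QuotientGroup.lift N β fun n hn => hβ ⟨n, hn⟩) (hpow g)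
    rw [map_pow] at h6
    change β (g ^ k) = β g ^ (1 + p) at h6
    rw [h5, pow_add, pow_one] at h6
    change β g ^ p = 1
    exact (mul_left_cancel (h6.symm.trans (mul_one _).symm))

end Cfsg.Agent.S4553
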