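import Cfsg.Statements.S4560
import Cfsg.Agent.H89.FourTrans

set_option autoImplicit false
open Cfsg

namespace Cfsg.Agent.S4560

set_option linter.style.haveILetI false
open Cfsg.Agent.H5 Cfsg.Agent.H89 Subgroup Equiv

theorem exists_elem {n : ℕ} (s : Multiset ℕ) (f : ℕ) (hf : s.sum + f = n) (h3 : ∀ a ∈ s, 3 ≤ a)
    (he : Even (s.sum + s.card)) :
    ∃ x : alternatingGroup (Fin n), orderOf x = s.lcm ∧ (fixS (Fin n) x).card = f ∧
      (twoS (Fin n) x).card = 0 := by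
  obtain ⟨g, hg⟩ := (Perm.exists_with_cycleType_iff (α := Fin n) (m := s)).2
    ⟨by rw [Fintype.card_fin]; omega, fun a ha => (by omega : 2 ≤ 3).trans (h3 a ha)⟩
  refine ⟨⟨g, ?_⟩, ?_, ?_, ?_⟩
  · rw [Perm.mem_alternatingGroup, Perm.sign_of_cycleType, hg, he.neg_one_pow]
  · exact (Subgroup.orderOf_coe _).symm.trans ((Perm.lcm_cycleType g).symm.trans (congrArg _ hg))
  · have h1 : fixS (Fin n) (⟨g, by
        rw [Perm.mem_alternatingGroup, Perm.sign_of_cycleType, hg, he.neg_one_pow]⟩ :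
        alternatingGroup (Fin n)) = g.supportᶜ := by
      ext x
      rw [mem_fixS, Finset.mem_compl, Perm.notMem_support]
      rfl
    rw [h1, Finset.card_compl, ← Perm.sum_cycleType, hg, Fintype.card_fin]
    omega
  · rw [Finset.card_eq_zero, Finset.eq_empty_iff_forall_notMem]
    intro x hx
    obtain ⟨h1, h2⟩ : g x ≠ x ∧ g (g x) = x := mem_twoS.1 hx
    have hc := Perm.isCycle_cycleOf g h1
    have h4 : (g.cycleOf x).support.card ∈ s := by
      rw [← hg, Perm.cycleType_def]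
      exact Multiset.mem_map_of_mem (Finset.card ∘ Perm.support)
        (Finset.mem_def.1 (Perm.cycleOf_mem_cycleFactorsFinset_iff.2 (Perm.mem_support.2 h1)))
    have h5 : g.cycleOf x ^ 2 = 1 := (hc.pow_eq_one_iff' (x := x) (by simpa using h1)).2 (by
      rw [Perm.cycleOf_pow_apply_self]
      exact h2)
    have h6 := Nat.le_of_dvd two_pos (orderOf_dvd_of_pow_eq_one h5)
    rw [hc.orderOf] at h6
    have := h3 _ h4
    omega

theorem exists_two {n : ℕ} (a b f : ℕ) (hf : a * 4 + b * 8 + f = n) (he : Even (a + b)) :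
    ∃ x : alternatingGroup (Fin n), (∃ j, orderOf x = 2 ^ j) ∧ (fixS (Fin n) x).card = f ∧
      (twoS (Fin n) x).card = 0 := by
  obtain ⟨x, h1, h2⟩ := exists_elem (n := n) (Multiset.replicate a 4 + Multiset.replicate b 8) f
    (by simpa using hf) (fun i hi => by
      rcases Multiset.mem_add.1 hi with h | h <;> rw [Multiset.eq_of_mem_replicate h] <;> omega)
    (by
      obtain ⟨k, hk⟩ := he
      exact ⟨2 * a + 4 * b + k, by simp; omega⟩)
  obtain ⟨j, -, hj⟩ := (Nat.dvd_prime_pow Nat.prime_two (m := 3)).1 (show orderOf x ∣ 2 ^ 3 from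
    h1 ▸ Multiset.lcm_dvd.2 fun i hi => by
      rcases Multiset.mem_add.1 hi with h | h <;> rw [Multiset.eq_of_mem_replicate h] <;> norm_num)
  exact ⟨x, ⟨j, hj⟩, h2⟩

theorem exists_three {n : ℕ} (a f : ℕ) (hf : (a + 1) * 3 + f = n) :
    ∃ x : alternatingGroup (Fin n), orderOf x = 3 ∧ (fixS (Fin n) x).card = f ∧
      (twoS (Fin n) x).card = 0 := by
  obtain ⟨x, h1, h2⟩ := exists_elem (n := n) (Multiset.replicate (a + 1) 3) f
    (by simp; omega) (fun i hi => (Multiset.eq_of_mem_replicate hi).ge)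
    ⟨2 * (a + 1), by simp; omega⟩
  refine ⟨x, h1.trans (Nat.dvd_antisymm (Multiset.lcm_dvd.2 fun i hi => ?_)
    (Multiset.dvd_lcm (by simp))), h2⟩
  rw [Multiset.eq_of_mem_replicate hi]

theorem exists_odd {n : ℕ} (hn : 7 ≤ n) (ho : Odd n) :
    ∃ x : alternatingGroup (Fin n), (∃ j, orderOf x = 2 ^ j) ∧ (fixS (Fin n) x).card = 1 := by
  obtain ⟨m, rfl⟩ := ho
  obtain ⟨a, b, h, he⟩ : ∃ a b, a * 2 + b * 4 = 2 * m ∧ Even (a + b) := by
    rcases Nat.even_or_odd m with h | ⟨k, hk⟩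
    · exact ⟨m, 0, by omega, h⟩
    · exact ⟨m - 2, 1, by omega, k, by omega⟩
  obtain ⟨g, hg⟩ := (Perm.exists_with_cycleType_iff (α := Fin (2 * m + 1))
    (m := Multiset.replicate a 2 + Multiset.replicate b 4)).2
    ⟨by simp; omega, fun i hi => by
      rcases Multiset.mem_add.1 hi with h | h <;> rw [Multiset.eq_of_mem_replicate h]; omega⟩
  have hs : g ∈ alternatingGroup (Fin (2 * m + 1)) := by
    rw [Perm.mem_alternatingGroup, Perm.sign_of_cycleType, hg, Even.neg_one_pow]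
    obtain ⟨k, hk⟩ := he
    exact ⟨m + k, by simp; omega⟩
  refine ⟨⟨g, hs⟩, ?_, ?_⟩
  · obtain ⟨j, -, hj⟩ := (Nat.dvd_prime_pow Nat.prime_two (m := 2)).1 (show orderOf g ∣ 2 ^ 2 by
      rw [← Perm.lcm_cycleType, hg]
      exact Multiset.lcm_dvd.2 fun i hi => by
        rcases Multiset.mem_add.1 hi with h | h <;> rw [Multiset.eq_of_mem_replicate h] <;> norm_num)
    exact ⟨j, by rw [← Subgroup.orderOf_coe, hj]⟩
  · have h1 : fixS (Fin (2 * m + 1)) (⟨g, hs⟩ : alternatingGroup _) = g.supportᶜ := by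
      ext x
      rw [mem_fixS, Finset.mem_compl, Perm.notMem_support]
      rfl
    rw [h1, Finset.card_compl, ← Perm.sum_cycleType, hg, Fintype.card_fin]
    simp
    omega


/-- For n ≥ 7 the alternating group on n letters has an irreducible character that vanishes at some 2-element and is the restriction of an irreducible character of the symmetric group, and an irreducible character that vanishes at some element of order 3 and is the restriction of an irreducible character of the symmetric group. -/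
theorem result (n : ℕ) (hn : 7 ≤ n) : (∃ χ : Cfsg.IrrCharacter (alternatingGroup (Fin n)), (∃ x : alternatingGroup (Fin n), (∃ j : ℕ, orderOf x = 2 ^ j) ∧ (χ : alternatingGroup (Fin n) → ℂ) x = 0) ∧ ∃ ψ : Cfsg.IrrCharacter (Equiv.Perm (Fin n)), ∀ x : alternatingGroup (Fin n), (ψ : Equiv.Perm (Fin n) → ℂ) x = (χ : alternatingGroup (Fin n) → ℂ) x) ∧ (∃ χ : Cfsg.IrrCharacter (alternatingGroup (Fin n)), (∃ y : alternatingGroup (Fin n), orderOf y = 3 ∧ (χ : alternatingGroup (Fin n) → ℂ) y = 0) ∧ ∃ ψ : Cfsg.IrrCharacter (Equiv.Perm (Fin n)), ∀ x : alternatingGroup (Fin n), (ψ : Equiv.Perm (Fin n) → ℂ) x = (χ : alternatingGroup (Fin n) → ℂ) x) := by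
  classical
  haveI : MulAction.IsMultiplyPretransitive (alternatingGroup (Fin n)) (Fin n) 4 := by
    haveI := alternatingGroup.isMultiplyPretransitive (Fin n)
    exact MulAction.isMultiplyPretransitive_of_le (n := Nat.card (Fin n) - 2) (by simp; omega)
      (by omega)
  haveI := Perm.isMultiplyPretransitive (Fin n) 4
  have h4 : 4 ≤ Fintype.card (Fin n) := by simp; omega
  have k1 : ∀ P : alternatingGroup (Fin n) → Prop, (∃ x, P x ∧ (fixS (Fin n) x).card = 1) →
      ∃ χ : Cfsg.IrrCharacter (alternatingGroup (Fin n)), (∃ x, P x ∧ χ.1 x = 0) ∧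
        ∃ ψ : Cfsg.IrrCharacter (Perm (Fin n)), ∀ x : alternatingGroup (Fin n), ψ.1 x = χ.1 x :=
    fun P ⟨x, hx, h⟩ => ⟨⟨_, isIrr_fix_sub_one h4⟩, ⟨x, hx, by simp [h]⟩,
      ⟨_, isIrr_fix_sub_one h4⟩, fun _ => rfl⟩
  have k2 : ∀ P : alternatingGroup (Fin n) → Prop,
      (∃ x, P x ∧ (fixS (Fin n) x).card = 0 ∧ (twoS (Fin n) x).card = 0) →
      ∃ χ : Cfsg.IrrCharacter (alternatingGroup (Fin n)), (∃ x, P x ∧ χ.1 x = 0) ∧
        ∃ ψ : Cfsg.IrrCharacter (Perm (Fin n)), ∀ x : alternatingGroup (Fin n), ψ.1 x = χ.1 x :=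
    fun P ⟨x, hx, h, h'⟩ => ⟨⟨_, isIrr_sym_two h4⟩, ⟨x, hx, by simp [h, h']⟩,
      ⟨_, isIrr_sym_two h4⟩, fun _ => rfl⟩
  have k3 : ∀ P : alternatingGroup (Fin n) → Prop,
      (∃ x, P x ∧ (fixS (Fin n) x).card = 2 ∧ (twoS (Fin n) x).card = 0) →
      ∃ χ : Cfsg.IrrCharacter (alternatingGroup (Fin n)), (∃ x, P x ∧ χ.1 x = 0) ∧
        ∃ ψ : Cfsg.IrrCharacter (Perm (Fin n)), ∀ x : alternatingGroup (Fin n), ψ.1 x = χ.1 x :=
    fun P ⟨x, hx, h, h'⟩ => ⟨⟨_, isIrr_alt_two h4⟩, ⟨x, hx, by simp [h, h']⟩,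
      ⟨_, isIrr_alt_two h4⟩, fun _ => rfl⟩
  have key : ∀ m f, 2 ≤ m → m * 4 + f = n → ∃ x : alternatingGroup (Fin n),
      (∃ j, orderOf x = 2 ^ j) ∧ (fixS (Fin n) x).card = f ∧ (twoS (Fin n) x).card = 0 := by
    intro m f hm h
    rcases Nat.even_or_odd m with h' | ⟨k, hk⟩
    · exact exists_two m 0 f (by omega) h'
    · exact exists_two (m - 2) 1 f (by omega) ⟨k, by omega⟩
  constructor
  · rcases Nat.even_or_odd n with ⟨m, hm⟩ | h
    · rcases Nat.even_or_odd m with ⟨k, hk⟩ | ⟨k, hk⟩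
      · exact k2 _ (key k 0 (by omega) (by omega))
      · exact k3 _ (key k 2 (by omega) (by omega))
    · exact k1 _ (exists_odd hn h)
  · obtain h | h | h : n % 3 = 0 ∨ n % 3 = 1 ∨ n % 3 = 2 := by omega
    · exact k2 _ (exists_three (n / 3 - 1) 0 (by omega))
    · obtain ⟨x, h1, h2, -⟩ := exists_three (n := n) (n / 3 - 1) 1 (by omega)
      exact k1 _ ⟨x, h1, h2⟩
    · exact k3 _ (exists_three (n / 3 - 1) 2 (by omega))

end Cfsg.Agent.S4560
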