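import Cfsg.Statements.S4561
import Cfsg.Agent.H6.Good
import Cfsg.Agent.H6.Wreath
import Cfsg.Agent.H88.Vanish

set_option autoImplicit false
universe u
open Cfsg

namespace Cfsg.Agent.S4561

set_option linter.style.haveILetI false

open H6

/-- The inductive datum. -/
def CT (G : Type u) [Group G] [Finite G] : Prop :=
  ∃ (H A L : Type u) (_ : Group H) (_ : Group A) (_ : Group L) (_ : Finite H) (j : A →* H)
    (μ : A →* ℂˣ) (π : H →* L) (f : G →* L), Function.Injective j ∧ LInv j μ ∧
    (∀ g, g ∉ j.range → ¬ LGood j μ g) ∧ π.ker = j.range ∧ Function.Injective f ∧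
    (∀ g, ∃ h, π h = f g) ∧ (∀ r : ℕ, r.Prime → r ∣ Nat.card H → r ∣ Nat.card G) ∧
    (∀ r : ℕ, r.Prime → r ∣ Nat.card G → ∃ a, orderOf (μ a) = r) ∧
    ∀ m : ℕ, (∀ r : ℕ, r.Prime → r ∣ Nat.card G → r ∣ m) → ∀ a, μ a ^ m = 1

/-- Elements of the wreath product whose second component is affine. -/
def aff (H Q U : Type*) [Group H] [Group Q] [CommGroup U] : Subgroup ((H × U) ≀ᵣ Q) where
  carrier := {w | ∃ (α : Q →* U) (s : U), ∀ x, (w.left x).2 = s * α x}
  one_mem' := ⟨1, 1, by simp⟩
  mul_mem' := by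
    rintro a b ⟨α, s, h⟩ ⟨β, t, h'⟩
    refine ⟨α * β, s * t * β a.right⁻¹, fun x => ?_⟩
    simp only [RegularWreathProduct.mul_left, Pi.mul_apply, Prod.snd_mul, h, h', map_mul,
      MonoidHom.mul_apply]
    simp only [mul_comm, mul_left_comm, mul_assoc]
  inv_mem' := by
    rintro a ⟨α, s, h⟩
    refine ⟨α⁻¹, s⁻¹ * (α a.right)⁻¹, fun x => ?_⟩
    simp only [RegularWreathProduct.inv_left, Pi.inv_apply, Prod.snd_inv, h, map_mul,
      MonoidHom.inv_apply, mul_inv]
    ac_rfl

theorem step (G : Type u) [Group G] [Finite G] (N : Subgroup G) [N.Normal] (hp : N.index.Prime)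
    (h : CT N) : CT G := by
  classical
  obtain ⟨H, A, L, _, _, _, _, j, μ, π, f, hj, hinv, hbad, hker, hf, hrange, hH, hord, hpow⟩ := h
  set p := N.index with hpdef
  haveI : Fact p.Prime := ⟨hp⟩
  haveI : NeZero p := ⟨hp.ne_zero⟩
  let Q := G ⧸ N
  have hQ : Nat.card Q = p := rfl
  letI : Fintype Q := Fintype.ofFinite Q
  haveI : IsCyclic Q := isCyclic_of_prime_card hQ
  let U := rootsOfUnity p ℂ
  have hU : Nat.card U = p := Complex.card_rootsOfUnity p
  let H₁ := aff H Q U
  let j₁ : (Q → A) × U →* H₁ :=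
    { toFun := fun a => ⟨⟨fun x => (j (a.1 x), a.2), 1⟩, 1, a.2, by simp⟩
      map_one' := by ext <;> simp
      map_mul' := fun a b => by ext <;> simp }
  let μ₁ : (Q → A) × U →* ℂˣ :=
    { toFun := fun a => (∏ x, μ (a.1 x)) * a.2
      map_one' := by simp
      map_mul' := fun a b => by
        simp only [Prod.fst_mul, Pi.mul_apply, map_mul, Finset.prod_mul_distrib, Prod.snd_mul,
          Subgroup.coe_mul]
        ac_rfl }
  have hμ₁ : ∀ a, μ₁ a = (∏ x, μ (a.1 x)) * a.2 := fun _ => rfl
  let π₂ : H₁ →* (Q → U) := MonoidHom.mk'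
    (fun w x => (w.1.left x).2 / (w.1.left 1).2) (by
      rintro ⟨a, α, s, h⟩ ⟨b, β, t, h'⟩
      funext x
      simp only [Subgroup.coe_mul, RegularWreathProduct.mul_left, Pi.mul_apply, Prod.snd_mul, h,
        h', map_mul, map_one, mul_one]
      rw [mul_div_cancel_left, mul_div_cancel_left, div_eq_iff_eq_mul]
      ac_rfl)
  let π₁ : H₁ →* (L ≀ᵣ Q) × (Q → U) :=
    ((wmap Q (π.comp (MonoidHom.fst H U))).comp H₁.subtype).prod π₂
  let f₁ : G →* (L ≀ᵣ Q) × (Q → U) := ((wmap Q f).comp (kkHom N)).prod 1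
  have hmem : ∀ w : H₁, w.1.right = 1 → (∀ x, (w.1.left x).1 ∈ j.range) →
      (∀ x, (w.1.left x).2 = (w.1.left 1).2) → w ∈ j₁.range := by
    intro w h1 h2 h3
    choose b hb using h2
    exact ⟨(b, (w.1.left 1).2), Subtype.ext (RegularWreathProduct.ext
      (funext fun x => Prod.ext (hb x) (h3 x).symm) h1.symm)⟩
  have hcardG : Nat.card G = Nat.card N * p := N.card_mul_index.symm
  refine ⟨H₁, (Q → A) × U, (L ≀ᵣ Q) × (Q → U), inferInstance, inferInstance, inferInstance,
    inferInstance, j₁, μ₁, π₁, f₁, ?_, ?_, ?_, ?_, ?_, ?_, ?_, ?_, ?_⟩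
  · intro a b e
    have h1 : ∀ x, (j (a.1 x), a.2) = (j (b.1 x), b.2) := fun x =>
      congrFun (congrArg (fun w : H₁ => w.1.left) e) x
    exact Prod.ext (funext fun x => hj (congrArg Prod.fst (h1 x))) (congrArg (fun y : H × U => y.2) (h1 1))
  · intro g a
    choose b hb1 hb2 using fun x => hinv (g.1.left x).1 (a.1 (g.1.right⁻¹ * x))
    refine ⟨(b, a.2), Subtype.ext (RegularWreathProduct.ext (funext fun x => ?_) ?_), ?_⟩
    · refine Eq.trans ?_ (wreath_conj_left g.1 (j₁ a).1 rfl x).symm
      refine Prod.ext (hb1 x) ?_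
      change a.2 = (g.1.left x).2 * a.2 * ((g.1.left x).2)⁻¹
      rw [mul_comm _ a.2, mul_inv_cancel_right]
    · exact (wreath_conj_right g.1 (j₁ a).1 rfl).symm
    · rw [hμ₁, hμ₁]
      simp only [hb2]
      exact congrArg (· * (a.2 : ℂˣ))
        (Equiv.prod_comp (Equiv.mulLeft g.1.right⁻¹) (fun x => μ (a.1 x)))
  · intro w hw hgood
    by_cases hc : w.1.right = 1
    · by_cases h1 : ∀ x, (w.1.left x).1 ∈ j.range
      · obtain ⟨α, s, hα⟩ := w.2
        have h2 : ∃ q, α q ≠ 1 := by
          by_contra h2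
          push Not at h2
          exact hw (hmem w hc h1 fun x => by rw [hα, hα, h2, h2])
        obtain ⟨q, hq⟩ := h2
        choose b hb using h1
        have h3 := hgood ⟨RegularWreathProduct.inl q⁻¹, 1, 1, by simp⟩
          (fun y => b (q * y) * (b y)⁻¹, α q) (Subtype.ext (RegularWreathProduct.ext
            (funext fun x => Prod.ext ?_ ?_) ?_))
        · rw [hμ₁] at h3
          simp only [map_mul, map_inv, Finset.prod_mul_distrib, Finset.prod_inv_distrib] at h3
          rw [show ∏ x, μ (b (q * x)) = ∏ x, μ (b x) from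
            Equiv.prod_comp (Equiv.mulLeft q) (fun x => μ (b x)), mul_inv_cancel, one_mul] at h3
          exact hq (Subtype.ext h3)
        · simp [j₁, hb, inv_inv q]
        · simp [j₁, hα, mul_comm, mul_left_comm]
        · simp [j₁, hc]
      · push Not at h1
        obtain ⟨y, hy⟩ := h1
        have h2 := hbad _ hy
        simp only [LGood, not_forall] at h2
        obtain ⟨x₀, a₀, e1, e2⟩ := h2
        have h3 := hgood ⟨⟨fun z => (Pi.mulSingle (M := fun _ => H) y x₀ z, 1), 1⟩, 1, 1, by simp⟩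
          (Pi.mulSingle y a₀, 1) (Subtype.ext (RegularWreathProduct.ext
            (funext fun x => Prod.ext ?_ ?_) ?_))
        · rw [hμ₁, Finset.prod_eq_single y (fun x _ hx => by simp [hx]) (by simp)] at h3
          exact e2 (by simpa using h3)
        · by_cases hx : x = y
          · subst hx
            simpa [j₁, hc] using e1
          · simp [j₁, hc, hx]
        · simp [j₁, hc]
        · simp [j₁]
    · letI : CommGroup Q := IsCyclic.commGroup
      obtain ⟨φ, hφ⟩ := CommGroup.exists_apply_ne_one_of_hasEnoughRootsOfUnity Q ℂ hc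
      let α : Q →* U := φ.codRestrict U fun x => by
        rw [mem_rootsOfUnity, ← map_pow, ← hQ, pow_card_eq_one', map_one]
      have h3 := hgood ⟨⟨fun z => (1, α z), 1⟩, α, 1, by simp⟩ (1, α w.1.right)
        (Subtype.ext (RegularWreathProduct.ext (funext fun x => Prod.ext ?_ ?_) ?_))
      · rw [hμ₁] at h3
        exact hφ (by simpa [α] using h3)
      · simp [j₁]
      · simp [j₁, mul_comm, mul_left_comm]
      · simp [j₁]
  · ext w
    rw [MonoidHom.mem_ker]
    constructor
    · intro h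
      have h1 := congrArg Prod.fst h
      have h2 := congrArg Prod.snd h
      refine hmem w (congrArg (·.right) h1) (fun x => ?_) fun x => ?_
      · rw [← hker]
        exact congrFun (congrArg (·.left) h1) x
      · exact div_eq_one.1 (congrFun h2 x)
    · rintro ⟨a, rfl⟩
      refine Prod.ext (RegularWreathProduct.ext (funext fun x => ?_) rfl) (funext fun x => ?_)
      · have : j (a.1 x) ∈ π.ker := hker ▸ ⟨_, rfl⟩
        exact this
      · exact div_self' _
  · intro a b e
    exact kkHom_injective N (wmap_injective hf (congrArg Prod.fst e))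
  · intro g
    choose h hh using fun x => hrange ((kkHom N g).left x)
    refine ⟨⟨⟨fun x => (h x, 1), (g : Q)⟩, 1, 1, by simp⟩, Prod.ext
      (RegularWreathProduct.ext (funext hh) rfl) (funext fun x => div_self' _)⟩
  · intro r hr hd
    have h1 := hd.trans (Subgroup.card_subgroup_dvd_card H₁)
    rw [RegularWreathProduct.card, Nat.card_prod, hU, hQ] at h1
    rw [hcardG]
    rcases (Nat.Prime.dvd_mul hr).1 h1 with h2 | h2
    · rcases (Nat.Prime.dvd_mul hr).1 (hr.dvd_of_dvd_pow h2) with h3 | h3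
      · exact (hH r hr h3).mul_right _
      · exact h3.mul_left _
    · exact h2.mul_left _
  · intro r hr hd
    rw [hcardG] at hd
    rcases (Nat.Prime.dvd_mul hr).1 hd with h2 | h2
    · obtain ⟨a, ha⟩ := hord r hr h2
      refine ⟨(Pi.mulSingle 1 a, 1), ?_⟩
      rw [hμ₁, Finset.prod_eq_single 1 (fun x _ hx => by simp [hx]) (by simp)]
      simpa using ha
    · letI := Fintype.ofFinite U
      haveI := Fact.mk hr
      obtain ⟨s, hs⟩ := exists_prime_orderOf_dvd_card (G := U) r
        (by rw [← Nat.card_eq_fintype_card, hU]; exact h2)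
      refine ⟨(1, s), ?_⟩
      rw [hμ₁]
      simpa using hs
  · intro m hm a
    rw [hμ₁, mul_pow, ← Finset.prod_pow, Finset.prod_eq_one fun x _ =>
      hpow m (fun r hr hd => hm r hr (hcardG ▸ hd.mul_right _)) _, one_mul]
    obtain ⟨k, rfl⟩ := hm p hp (hcardG ▸ dvd_mul_left _ _)
    rw [pow_mul, (mem_rootsOfUnity _ _).1 a.2.2, one_pow]

theorem ct (G : Type u) [Group G] [Finite G] (hG : Group.IsSolvable G) : CT G := by
  refine solvable_prime_index_induction (P := fun G _ _ => CT G) ?_ step G hG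
  intro G _ _ h
  refine ⟨G, G, G, inferInstance, inferInstance, inferInstance, inferInstance, MonoidHom.id G, 1,
    1, 1, Function.injective_id, fun g a => ⟨a, Subsingleton.elim _ _, rfl⟩,
    fun g hg => absurd ⟨g, rfl⟩ hg, Subsingleton.elim _ _, fun a b _ => Subsingleton.elim _ _,
    fun g => ⟨1, rfl⟩, fun _ _ h => h, fun r hr hd => ?_, fun _ _ _ => by simp⟩
  rw [Nat.card_of_subsingleton (1 : G)] at hd
  exact absurd (Nat.dvd_one.1 hd) hr.one_lt.ne'

/-- For every finite solvable group G there is a finite group H with a faithful irreducible character χ whose degree squared equals the index of the centre Z(H) (so χ is fully ramified over the centre), such that G is isomorphic to a subgroup of H/Z(H), the primes dividing the orders of H, of Z(H) and of G are the same, and the order of Z(H) is squarefree. -/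
theorem result {G : Type u} [Group G] [Finite G] (hsolv : Group.IsSolvable G) : ∃ (H : Type u) (_ : Group H) (_ : Finite H) (χ : Cfsg.IrrCharacter H), (∀ h : H, (χ : H → ℂ) h = (χ : H → ℂ) 1 → h = 1) ∧ (Cfsg.charDegree (χ : H → ℂ)) ^ 2 = (Subgroup.center H).index ∧ (∃ f : G →* H ⧸ Subgroup.center H, Function.Injective f) ∧ (∀ p : ℕ, p.Prime → ((p ∣ Nat.card H ↔ p ∣ Nat.card G) ∧ (p ∣ Nat.card (Subgroup.center H) ↔ p ∣ Nat.card G))) ∧ Squarefree (Nat.card (Subgroup.center H)) := by
  obtain ⟨H, A, L, _, _, _, _, j, μ, π, f, hj, hinv, hbad, hker, hf, hrange, hH, hord, hpow⟩ :=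
    ct G hsolv
  have : Finite A := Finite.of_injective j hj
  obtain ⟨β, hβ, h1, h2, h3⟩ := H6.exists_fullyRamified_of_not_lGood hinv hj hbad
  have hc := H5.isCharacter_of_isIrr hβ
  let N := H5.charKer hc
  obtain ⟨φ, hφ, e1, e2, e3, -⟩ : ∃ φ : H ⧸ N → ℂ, _ := H88.exists_faithful_quotient hβ
  have hNj : N ≤ j.range := fun g hg => by
    by_contra h
    exact H5.degree_ne_zero hβ (((H5.mem_charKer hc).1 hg).symm.trans (h2 g h))
  have := hinv.normal
  have hZ : Subgroup.center (H ⧸ N) = j.range.map (QuotientGroup.mk' N) := by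
    ext x
    obtain ⟨g, rfl⟩ := QuotientGroup.mk_surjective x
    constructor
    · intro h
      refine ⟨g, ?_, rfl⟩
      by_contra h4
      have h5 := H5.norm_apply_of_mem_center hφ h
      have h6 : φ g = 0 := (congrFun e1 g).symm.trans (h2 g h4)
      rw [h6, norm_zero] at h5
      exact H5.degree_ne_zero hφ (norm_eq_zero.1 h5.symm)
    · rintro ⟨_, ⟨a, rfl⟩, e⟩
      rw [← e, Subgroup.mem_center_iff]
      intro y
      obtain ⟨y, rfl⟩ := QuotientGroup.mk_surjective y
      have h4 := H5.apply_commutator_of_norm_eq hc (z := j a)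
        (by rw [h1.apply_j, norm_mul, H5.norm_monoidHom, one_mul]) y
      have h5 := (QuotientGroup.eq_one_iff _).2 ((H5.mem_charKer hc).2 h4)
      simp only [QuotientGroup.mk_mul, QuotientGroup.mk_inv] at h5
      rw [QuotientGroup.mk'_apply, eq_comm, ← mul_inv_eq_one]
      simpa [mul_assoc] using h5
  have hcard : Nat.card (Subgroup.center (H ⧸ N)) = Nat.card μ.range := by
    have h4 : ((QuotientGroup.mk' N).comp j).ker = μ.ker := by
      ext a
      rw [MonoidHom.mem_ker, MonoidHom.mem_ker, MonoidHom.comp_apply, QuotientGroup.mk'_apply,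
        QuotientGroup.eq_one_iff, H5.mem_charKer, h1.apply_j,
        mul_eq_right₀ (H5.degree_ne_zero hβ), Units.val_eq_one]
    rw [hZ, ← MonoidHom.range_comp, ← Subgroup.index_ker, ← Subgroup.index_ker, h4]
  have hdvd : Nat.card μ.range ∣ ∏ r ∈ (Nat.card G).primeFactors, r := by
    have : NeZero (∏ r ∈ (Nat.card G).primeFactors, r) :=
      ⟨Finset.prod_ne_zero_iff.2 fun r hr => (Nat.prime_of_mem_primeFactors hr).ne_zero⟩
    rw [← Complex.card_rootsOfUnity (∏ r ∈ (Nat.card G).primeFactors, r)]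
    refine Subgroup.card_dvd_of_le ?_
    rintro _ ⟨a, rfl⟩
    exact (mem_rootsOfUnity _ _).2 (hpow _ (fun r hr hd => Finset.dvd_prod_of_mem _
      (Nat.mem_primeFactors.2 ⟨hr, hd, Nat.card_pos.ne'⟩)) a)
  have hZG : ∀ p : ℕ, p.Prime → p ∣ Nat.card G → p ∣ Nat.card (Subgroup.center (H ⧸ N)) := by
    intro p hp hd
    obtain ⟨a, ha⟩ := hord p hp hd
    rw [hcard, ← ha]
    exact Subgroup.orderOf_dvd_natCard _ ⟨a, rfl⟩
  have hHG : ∀ p : ℕ, p.Prime → p ∣ Nat.card (H ⧸ N) → p ∣ Nat.card G := fun p hp hd =>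
    hH p hp (hd.trans (Subgroup.card_quotient_dvd_card N))
  refine ⟨H ⧸ N, inferInstance, inferInstance, ⟨φ, hφ⟩, e2, ?_, ?_, fun p hp =>
    ⟨⟨hHG p hp, fun h => (hZG p hp h).trans (Subgroup.card_subgroup_dvd_card _)⟩,
      ⟨fun h => hHG p hp (h.trans (Subgroup.card_subgroup_dvd_card _)), hZG p hp⟩⟩, ?_⟩
  · change charDegree φ ^ 2 = _
    rw [e3, hZ, Subgroup.index_map_eq _ (QuotientGroup.mk'_surjective N) (by simpa using hNj)]
    apply Nat.eq_of_mul_eq_mul_left (Nat.card_pos (α := A))
    rw [h3, Nat.card_congr (MonoidHom.ofInjective hj).toEquiv, Subgroup.card_mul_index]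
  · let e : (H ⧸ N) ⧸ Subgroup.center (H ⧸ N) ≃* π.range :=
      (QuotientGroup.quotientMulEquivOfEq hZ).trans
        ((QuotientGroup.quotientQuotientEquivQuotient N j.range hNj).trans
          ((QuotientGroup.quotientMulEquivOfEq hker.symm).trans
            (QuotientGroup.quotientKerEquivRange π)))
    exact ⟨e.symm.toMonoidHom.comp (f.codRestrict _ hrange), e.symm.injective.comp
      fun a b h => hf (congrArg Subtype.val h)⟩
  · rw [hcard]
    exact (Finset.squarefree_prod_of_pairwise_isCoprime (fun a ha b hb hab => by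
      simpa [Nat.coprime_iff_isRelPrime] using (Nat.coprime_primes
        (Nat.prime_of_mem_primeFactors ha) (Nat.prime_of_mem_primeFactors hb)).2 hab)
      (fun r hr => (Nat.prime_of_mem_primeFactors hr).prime.squarefree)).squarefree_of_dvd hdvd

end Cfsg.Agent.S4561
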