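import Cfsg.Statements.S4563
import Cfsg.Agent.H31.FI2

set_option autoImplicit false
open Cfsg

namespace Cfsg.Agent.S4563

theorem result {H : Type*} [Group H] [Fintype H] (Z : Subgroup H) [Z.Normal] (χ : Cfsg.IrrCharacter H) (hfr : ∃ (θ : Cfsg.IrrCharacter ↥Z) (e : ℕ), e ^ 2 = Z.index ∧ ∀ z : ↥Z, (χ : H → ℂ) z = (e : ℂ) * (θ : ↥Z → ℂ) z) (K : Subgroup H) [K.Normal] [Fintype K] (hZK : Z ≤ K) (hK : K ≠ ⊤) (φ : ↥K → ℂ) (hφ : Cfsg.IsCharacter ↥K φ) (hind : Cfsg.indFun K φ = (χ : H → ℂ)) : Group.IsSolvable (H ⧸ K) ∧ (Group.IsSolvable ↥K → Group.IsSolvable H) := by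
  obtain ⟨θ, e, he, h⟩ := hfr
  obtain ⟨Γ, _, _, π, μ, β, ζ, hπ, hβ, h1, hinv, hd, hζ, hζ', hdeg⟩ :=
    H31.exists_linear_cover_ind Z χ.2 θ.2 he h K hZK hφ hind
  have hs : Group.IsSolvable (H ⧸ K) := S0006.result fun q hq =>
    H31.exists_complement_of_ind (Z.comap π) hβ h1 hinv hd ((QuotientGroup.mk' K).comp π)
      ((QuotientGroup.mk'_surjective K).comp hπ)
      (by rw [← MonoidHom.comap_ker, QuotientGroup.ker_mk']) (Subgroup.comap_mono hZK) hζ hζ'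
      (by rwa [Subgroup.index_comap_of_surjective _ hπ]) q hq
  exact ⟨hs, fun hK' => (Group.isSolvable_iff_subgroup_quotient K).2 ⟨hK', hs⟩⟩

end Cfsg.Agent.S4563
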