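import Cfsg.Statements.S4564
import Cfsg.Agent.H6.FullyRam
import Cfsg.Agent.H6.CycSyl
import Cfsg.Agent.H69.UniqueP

set_option autoImplicit false
open Cfsg

namespace Cfsg.Agent.S4564

open Subgroup in
theorem aux {Γ Q : Type*} [Group Γ] [Finite Γ] [Group Q] [Finite Q] (A : Subgroup Γ) [A.Normal]
    {μ : A →* ℂˣ} {β : Γ → ℂ} (hβ : IsIrrCharacter Γ β) (h1 : H6.LOver A.subtype μ β)
    (hinv : H6.LInv A.subtype μ) (hd : Nat.card A * charDegree β ^ 2 = Nat.card Γ)
    (ρ : Γ →* Q) (hρ : Function.Surjective ρ) (hA : A ≤ ρ.ker) (p : ℕ) [hp : Fact p.Prime]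
    (P : Sylow p Q) (hcyc : IsCyclic P) : IsPSolvable p Q := by
  classical
  have hj : Function.Injective A.subtype := Subtype.val_injective
  by_cases hP1 : (P : Subgroup Q) = ⊥
  · refine H22.isPSolvable_of_coprime ?_
    have := P.not_dvd_index
    rw [hP1, index_bot] at this
    exact ((Nat.Prime.coprime_iff_not_dvd hp.out).2 this).symm
  obtain ⟨S₀, hS₀⟩ := Sylow.mapSurjective_surjective hρ p P
  have hS₀' : (S₀ : Subgroup Γ).map ρ = P := by rw [← hS₀]; rfl
  set K := ρ.ker with hK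
  let S : Subgroup Γ := (S₀ : Subgroup Γ) ⊔ A
  have hAS : A ≤ S := le_sup_right
  have hSP : ∀ s ∈ S, ρ s ∈ (P : Subgroup Q) := fun s hs => by
    have : S.map ρ ≤ P := by
      rw [Subgroup.map_sup, hS₀', (Subgroup.map_eq_bot_iff A).2 hA, sup_bot_eq]
    exact this ⟨s, hs, rfl⟩
  have hmem : ∀ s ∈ S, ∃ x ∈ (S₀ : Subgroup Γ), ∃ a ∈ A, s = a * x := fun s hs => by
    have : s ∈ ((A ⊔ S₀ : Subgroup Γ) : Set Γ) := by rw [sup_comm]; exact hs
    rw [normal_mul] at this
    obtain ⟨a, ha, x, hx, rfl⟩ := this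
    exact ⟨x, hx, a, ha, rfl⟩
  have hpow : ∀ X : Subgroup Γ, X ≤ S → ∃ k, A.relIndex X = p ^ k := fun X hX => by
    have h2 : A.relIndex X ∣ Nat.card S₀ :=
      (H22.relIndex_dvd_of_le_right_of_normal A hX).trans (by
        rw [relIndex_sup_right]; exact relIndex_dvd_card _ _)
    obtain ⟨k, hk⟩ := IsPGroup.iff_card.1 S₀.isPGroup'
    rw [hk] at h2
    obtain ⟨l, -, hl⟩ := (Nat.dvd_prime_pow hp.out).1 h2
    exact ⟨l, hl⟩
  -- DeMeyer–Janusz
  have hDJ : ∀ s : S, (s : Γ) ∉ A → ¬ H6.LGood (inclusion hAS) μ s := by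
    intro s hs
    obtain ⟨k, hk⟩ := hpow S le_rfl
    refine H6.not_lGood_of_hall hinv hj hβ h1 hd (f := S.subtype) Subtype.val_injective
      (fun _ => rfl) (H22.card_eq_card_mul_relIndex hAS) S.card_mul_index.symm ?_ ?_
    · rw [hk]
      exact ((Nat.Prime.coprime_iff_not_dvd hp.out).2 fun h =>
        S₀.not_dvd_index (h.trans (index_dvd_of_le le_sup_left))).pow_left k
    · rintro ⟨a, rfl⟩
      exact hs a.2
  have hinvK : H6.LInv (inclusion hA) μ :=
    hinv.of_comp (f := K.subtype) Subtype.val_injective fun _ => rfl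
  have hjK : Function.Injective (inclusion hA) := inclusion_injective hA
  -- a good `p`-element of `K`
  have hex : ∃ x : K, (x : Γ) ∈ (S₀ : Subgroup Γ) ∧ (x : Γ) ∉ A ∧ H6.LGood (inclusion hA) μ x := by
    by_contra hc
    push Not at hc
    let D : Subgroup S := K.subgroupOf S
    let i : A →* D := (inclusion hAS).codRestrict D fun a => hA a.2
    let f : D →* K := (S.subtype.comp D.subtype).codRestrict K fun d => d.2
    have hf : Function.Injective f := fun a b e =>
      Subtype.ext (Subtype.ext (congrArg (fun x : K => (x : Γ)) e))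
    have hfi : ∀ a, f (i a) = inclusion hA a := fun _ => rfl
    have hinvD : H6.LInv i μ := hinvK.of_comp hf hfi
    have hjD : Function.Injective i := H6.injective_of_comp hjK hfi
    obtain ⟨ζ, hζ, hζ'⟩ := H6.exists_lOver hinvK hjK
    obtain ⟨τ, hτ, hτ'⟩ := H6.exists_lOver hinvD hjD
    have hv : ∀ d : D, d ∉ i.range → ζ (f d) = 0 := by
      intro d hd'
      obtain ⟨x, hx, a, ha, e⟩ := hmem _ (d : S).2
      have hxK : x ∈ K := by
        have : x = a⁻¹ * ((d : S) : Γ) := by rw [e]; group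
        rw [this]
        exact K.mul_mem (K.inv_mem (hA ha)) d.2
      have hxA : x ∉ A := fun h => hd' ⟨⟨_, A.mul_mem ha h⟩, Subtype.ext (Subtype.ext e.symm)⟩
      have e2 : f d = inclusion hA ⟨a, ha⟩ * ⟨x, hxK⟩ := Subtype.ext e
      rw [e2, hζ', hζ'.apply_eq_zero (H5.isClassFunction_of_isIrr hζ) (hc ⟨x, hxK⟩ hx hxA),
        mul_zero]
    have h2 := (hζ'.comp hfi).card_dvd_of_vanish hjD
      (H5.isCharacter_comp (H5.isCharacter_of_isIrr hζ) f) (H5.isCharacter_of_isIrr hτ) hτ' hv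
    rw [H88.charDegree_comp] at h2
    obtain ⟨t, ht⟩ := H6.exists_card_eq_mul_degree_sq hinv hj hβ h1 hd K (inclusion hA)
      (fun _ => rfl) hζ hζ'
    have hAD : A ≤ K ⊓ S := le_inf hA hAS
    have hD : Nat.card D = Nat.card A * A.relIndex (K ⊓ S) := by
      rw [← H22.card_eq_card_mul_relIndex hAD,
        ← Nat.card_congr (subgroupOfEquivOfLe (inf_le_right : K ⊓ S ≤ S)).toEquiv,
        inf_subgroupOf_right]
    obtain ⟨k, hk⟩ := hpow (K ⊓ S) inf_le_right
    have hm : ¬ p ∣ (K ⊓ S).relIndex K := by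
      rw [inf_relIndex_left]
      exact fun h => H3.not_dvd_relIndex_sylow_of_normal S₀ K
        (h.trans (relIndex_dvd_of_le_left K le_sup_left))
    have hKc : Nat.card K = Nat.card A * (A.relIndex (K ⊓ S) * (K ⊓ S).relIndex K) := by
      rw [relIndex_mul_relIndex _ _ _ hAD inf_le_left, ← H22.card_eq_card_mul_relIndex hA]
    have hA0 : 0 < Nat.card A := Nat.card_pos
    rw [hD] at h2
    have h3 := Nat.dvd_of_mul_dvd_mul_left hA0 h2
    have h4 : t * charDegree ζ ^ 2 = A.relIndex (K ⊓ S) * (K ⊓ S).relIndex K :=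
      Nat.eq_of_mul_eq_mul_left hA0 (ht.symm.trans hKc)
    generalize A.relIndex (K ⊓ S) = n at hD hk h3 h4
    generalize (K ⊓ S).relIndex K = m at hm h4
    have hn0 : 0 < n := hk ▸ pow_pos hp.out.pos k
    have h5 : n * n ∣ n * (m * charDegree τ ^ 2) := by
      have := (mul_dvd_mul h3 h3).mul_left t
      rwa [mul_mul_mul_comm, ← sq (charDegree ζ), ← sq (charDegree τ), ← mul_assoc, h4,
        mul_assoc] at this
    have hc' : n.Coprime m :=
      hk ▸ ((Nat.Prime.coprime_iff_not_dvd hp.out).2 hm).pow_left k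
    have h6 := hc'.dvd_of_dvd_mul_left (Nat.dvd_of_mul_dvd_mul_left hn0 h5)
    have h7 : Nat.card D ≤ Nat.card A * charDegree τ ^ 2 := by
      rw [hD]
      exact Nat.mul_le_mul_left _ (Nat.le_of_dvd (pow_pos (H88.charDegree_pos hτ) 2) h6)
    have hcyc' : IsCyclic (S ⧸ D) := by
      let g : S →* P := (ρ.comp S.subtype).codRestrict _ fun s => hSP s s.2
      refine isCyclic_of_injective (QuotientGroup.lift D g fun s hs => Subtype.ext hs) ?_
      rw [injective_iff_map_eq_one]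
      intro q hq
      obtain ⟨s, rfl⟩ := QuotientGroup.mk_surjective q
      exact (QuotientGroup.eq_one_iff s).2 (congrArg Subtype.val hq)
    have h8 := H6.eq_top_of_not_lGood_of_isCyclic
      (hinv.of_comp (f := S.subtype) (i := inclusion hAS) Subtype.val_injective fun _ => rfl)
      (inclusion_injective hAS) D hcyc' i (fun _ => rfl)
      (fun s hs => hDJ s fun h => hs ⟨⟨_, h⟩, rfl⟩)
      (fun d hd' => H6.not_lGood_of_fullyRamified hinvD hjD hτ hτ' h7 hd')
    apply hP1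
    rw [← hS₀', Subgroup.map_eq_bot_iff]
    intro x hx
    have : (⟨x, mem_sup_left hx⟩ : S) ∈ D := h8 ▸ mem_top _
    exact this
  obtain ⟨x, hxS, hxA, hxg⟩ := hex
  obtain ⟨k, hk⟩ : ∃ k, (x : Γ) ^ p ^ k = 1 :=
    (S₀.isPGroup' ⟨x, hxS⟩).imp fun _ h => congrArg Subtype.val h
  let C := H6.cosetCent A.subtype hinv.normal (x : Γ)
  let T := C.map ρ
  obtain ⟨ν, hν⟩ := H6.exists_commHom hinv hj (x : Γ)
  -- an element of order `p` in the core of `T`
  obtain ⟨w, hw⟩ : ∃ w : (P : Subgroup Q), orderOf w = p := by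
    let _ := Fintype.ofFinite (P : Subgroup Q)
    apply exists_prime_orderOf_dvd_card
    rw [← Nat.card_eq_fintype_card]
    obtain ⟨l, hl⟩ := IsPGroup.iff_card.1 P.isPGroup'
    rw [hl]
    refine dvd_pow_self p fun h => hP1 ?_
    rw [h, pow_zero] at hl
    exact card_eq_one.1 hl
  have hwT : (w : Q) ∈ T.normalCore := by
    intro q
    obtain ⟨γ, rfl⟩ := hρ q
    have hx' : γ⁻¹ * x * γ ∈ K := by
      simpa using (inferInstance : K.Normal).conj_mem _ x.2 γ⁻¹
    have hpg : IsPGroup p (zpowers (⟨γ⁻¹ * x * γ, hx'⟩ : K)) := by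
      refine IsPGroup.of_card_dvd_pow (n := k) ?_
      rw [Nat.card_zpowers, orderOf_dvd_iff_pow_eq_one]
      apply Subtype.ext
      have := conj_pow (i := p ^ k) (a := γ⁻¹) (b := (x : Γ))
      rw [inv_inv, hk] at this
      simpa using this
    obtain ⟨c, hc⟩ := H3.exists_conj_mem_sylow (H3.sylowInf S₀ K) hpg
    have h2 := (H3.mem_sylowInf S₀ K _).1 (hc _ (mem_zpowers _))
    set δ : Γ := c * γ⁻¹ with hδ
    have h3 : δ * x * δ⁻¹ ∈ (S₀ : Subgroup Γ) := by
      have e : δ * x * δ⁻¹ = c * (γ⁻¹ * x * γ) * (c : Γ)⁻¹ := by rw [hδ]; group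
      rw [e]; exact h2
    have h4 := hDJ ⟨_, mem_sup_left h3⟩ (fun h => hxA (by
      simpa [mul_assoc] using (inferInstance : A.Normal).conj_mem _ h δ⁻¹))
    simp only [H6.LGood, not_forall] at h4
    obtain ⟨y, a, e1, e2⟩ := h4
    have e1' : (y : Γ) * (δ * x * δ⁻¹) * (y : Γ)⁻¹ = a * (δ * x * δ⁻¹) := congrArg Subtype.val e1
    obtain ⟨a', e3, e4⟩ := hinv δ⁻¹ a
    have e5 : δ⁻¹ * y * δ * x * (δ⁻¹ * y * δ)⁻¹ = A.subtype a' * x := by
      rw [e3]
      calc _ = δ⁻¹ * ((y : Γ) * (δ * x * δ⁻¹) * (y : Γ)⁻¹) * δ := by group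
        _ = _ := by rw [e1']; simp only [coe_subtype]; group
    have hyK : (y : Γ) ∉ K := fun h => e2 (by
      rw [← e4]
      have h5 : δ⁻¹ * y * δ ∈ K := by
        simpa using (inferInstance : K.Normal).conj_mem _ h δ⁻¹
      exact hxg ⟨_, h5⟩ a' (Subtype.ext e5))
    obtain ⟨l, hl⟩ := IsPGroup.iff_orderOf.1 P.isPGroup' ⟨ρ y, hSP _ y.2⟩
    obtain ⟨n, hn⟩ := H69.mem_zpowers_of_isCyclic (x := (⟨ρ y, hSP _ y.2⟩ : (P : Subgroup Q))) (y := w) (by
      rw [← orderOf_dvd_iff_pow_eq_one, hw, hl]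
      refine dvd_pow_self p fun h => hyK ?_
      rw [h, pow_zero, orderOf_eq_one_iff] at hl
      exact congrArg Subtype.val hl)
    refine ⟨(δ⁻¹ * y * δ) ^ n, C.zpow_mem ⟨a', e5⟩ n, ?_⟩
    have h6 : ρ δ = (ρ γ)⁻¹ := by
      rw [hδ, map_mul, map_inv, show ρ c = 1 from c.2, one_mul]
    have h7 : (w : Q) = ρ y ^ n := (congrArg Subtype.val hn).symm
    rw [map_zpow, map_mul, map_mul, map_inv, h6, inv_inv, conj_zpow, h7]
  have hT : HasNormalPComplement p T := by
    obtain ⟨R⟩ : Nonempty (Sylow p T) := inferInstance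
    refine (S0082.result R (H6.isCyclic_sylow_of_isCyclic P hcyc T.subtype
      Subtype.val_injective R)).resolve_right fun h => ?_
    apply H6.not_lGood_of_fullyRamified hinv hj hβ h1 hd.ge (g := x) (by simpa using hxA)
    intro y a e
    have h2 := H3.map_pResidual_of_surjective (p := p) _ (ρ.subgroupMap_surjective C)
    rw [h] at h2
    have h3 : pResidual p C ≤ ν.ker := by
      refine H3.pResidual_le_iff.2 fun g hg => ?_
      obtain ⟨b, hb⟩ := g.2
      have h4 := H6.pow_eq_one_of_conj_eq hinv hj hb (n := p ^ k) (by rw [hk]; exact one_mem _)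
      rw [← hν g b hb] at h4
      have h5 : ν g ^ orderOf g = 1 := by rw [← map_pow, pow_orderOf_eq_one, map_one]
      exact (pow_eq_one_iff_of_coprime (hg.pow_right k)).1 ⟨h5, h4⟩
    obtain ⟨z, hz, e2⟩ : ρ.subgroupMap C ⟨y, a, e⟩ ∈ (pResidual p C).map (ρ.subgroupMap C) :=
      h2 ▸ mem_top _
    have h4 : ((z⁻¹ * ⟨y, a, e⟩ : C) : Γ) ∈ K := by
      have := congrArg Subtype.val e2
      change ρ z = ρ y at this
      change ρ ((z : Γ)⁻¹ * y) = 1
      rw [map_mul, map_inv, this, inv_mul_cancel]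
    obtain ⟨b, hb⟩ := (z⁻¹ * ⟨y, a, e⟩ : C).2
    have h5 : ν (z⁻¹ * ⟨y, a, e⟩) = 1 := by
      rw [hν _ b hb]
      exact hxg ⟨_, h4⟩ b (Subtype.ext hb)
    rw [map_mul, map_inv, show ν z = 1 from h3 hz, inv_one, one_mul, hν _ a e] at h5
    exact h5
  refine H6.isPSolvable_of_isCyclic_of_hasNormalPComplement P hcyc T.normalCore
    (H3.hasNormalPComplement_of_le T.normalCore_le hT) ?_
  rw [← hw, ← orderOf_coe]
  exact orderOf_dvd_natCard _ hwT

/-- Let χ be an irreducible character of the finite group H that is fully ramified over the normal subgroup Z: the restriction of χ to Z is e times an irreducible character of Z with e ^ 2 equal to the index of Z. Let K be a normal subgroup of H containing Z and P a cyclic Sylow p-subgroup of H/K. Then P has a complement in H/K: a subgroup meeting P trivially whose product with P is the whole group. -/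
theorem result {H : Type*} [Group H] [Finite H] (Z : Subgroup H) [Z.Normal] (χ : Cfsg.IrrCharacter H) (hfr : ∃ (θ : Cfsg.IrrCharacter ↥Z) (e : ℕ), e ^ 2 = Z.index ∧ ∀ z : ↥Z, (χ : H → ℂ) z = (e : ℂ) * (θ : ↥Z → ℂ) z) (K : Subgroup H) [K.Normal] (hZK : Z ≤ K) (p : ℕ) [Fact p.Prime] (P : Sylow p (H ⧸ K)) (hcyc : IsCyclic P) : ∃ M : Subgroup (H ⧸ K), M.IsComplement' (P : Subgroup (H ⧸ K)) := by
  obtain ⟨θ, e, he, h⟩ := hfr
  obtain ⟨Γ, _, _, π, μ, β, hπ, hβ, h1, hinv, hd⟩ := H6.exists_linear_cover Z χ.2 θ.2 he h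
  refine H6.exists_isComplement'_sylow_of_isPSolvable (aux (Z.comap π) hβ h1 hinv hd
    ((QuotientGroup.mk' K).comp π) ((QuotientGroup.mk'_surjective K).comp hπ) ?_ p P hcyc) P
  exact fun x hx => (QuotientGroup.eq_one_iff _).2 (hZK hx)

end Cfsg.Agent.S4564
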