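import Cfsg.Statements.S4565
import Cfsg.Agent.H6.FullyRam

set_option autoImplicit false
open Cfsg

namespace Cfsg.Agent.S4565

/-- Let χ be an irreducible character of the finite group H that is fully ramified over the normal subgroup Z: the restriction of χ to Z is e times an irreducible character of Z with e ^ 2 equal to the index of Z. If Z ≠ H, then H/Z has no cyclic subgroup that is its own centralizer. -/
theorem result {H : Type*} [Group H] [Finite H] (Z : Subgroup H) [Z.Normal] (χ : Cfsg.IrrCharacter H) (hfr : ∃ (θ : Cfsg.IrrCharacter ↥Z) (e : ℕ), e ^ 2 = Z.index ∧ ∀ z : ↥Z, (χ : H → ℂ) z = (e : ℂ) * (θ : ↥Z → ℂ) z) (hZ : Z ≠ ⊤) (C : Subgroup (H ⧸ Z)) (hC : IsCyclic C) : Subgroup.centralizer (C : Set (H ⧸ Z)) ≠ C := by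
  intro hcent
  obtain ⟨θ, e, he, h⟩ := hfr
  obtain ⟨Γ, _, _, π, μ, β, hπ, hβ, h1, hinv, hd⟩ := H6.exists_linear_cover Z χ.2 θ.2 he h
  have hj : Function.Injective (Z.comap π).subtype := Subtype.val_injective
  obtain ⟨c, hc⟩ := (Subgroup.isCyclic_iff_exists_zpowers_eq_top C).1 hC
  let ρ : Γ →* H ⧸ Z := (QuotientGroup.mk' Z).comp π
  have hρ : Function.Surjective ρ := (QuotientGroup.mk'_surjective Z).comp hπ
  have hker : ∀ y, ρ y = 1 ↔ y ∈ Z.comap π := fun y => QuotientGroup.eq_one_iff _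
  obtain ⟨γ, rfl⟩ := hρ c
  have hγ : γ ∉ (Z.comap π).subtype.range := by
    rw [Subgroup.range_subtype, ← hker]
    intro h0
    rw [h0, Subgroup.zpowers_one_eq_bot] at hc
    subst hc
    apply hZ
    rw [eq_top_iff]
    intro x _
    have : (x : H ⧸ Z) ∈ Subgroup.centralizer ((⊥ : Subgroup (H ⧸ Z)) : Set (H ⧸ Z)) := by
      intro y hy
      rw [show y = 1 from hy]; simp
    rw [hcent] at this
    exact (QuotientGroup.eq_one_iff x).1 this
  apply H6.not_lGood_of_fullyRamified hinv hj hβ h1 hd.ge hγ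
  intro y a hy
  obtain ⟨ν, hν⟩ := H6.exists_commHom hinv hj γ
  have h2 : ρ y ∈ Subgroup.centralizer (C : Set (H ⧸ Z)) := by
    rw [← hc, Subgroup.zpowers_eq_closure, Subgroup.centralizer_closure,
      Subgroup.mem_centralizer_singleton_iff]
    have := congrArg ρ hy
    simp only [map_mul, map_inv, Subgroup.coe_subtype, (hker a).2 a.2, one_mul] at this
    exact mul_inv_eq_iff_eq_mul.1 this
  rw [hcent, ← hc] at h2
  obtain ⟨k, hk⟩ := h2
  have h3 : y * (γ ^ k)⁻¹ ∈ Z.comap π := by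
    rw [← hker, map_mul, map_inv, map_zpow]
    simp only at hk
    rw [hk, mul_inv_cancel]
  have hγm : γ ∈ H6.cosetCent _ hinv.normal γ := ⟨1, by simp⟩
  have hγν : ν ⟨γ, hγm⟩ = 1 := by rw [hν _ 1 (by simp), map_one]
  obtain ⟨b, e1, e2⟩ := hinv γ ⟨_, (Z.comap π).inv_mem h3⟩
  have e3 : y * (γ ^ k)⁻¹ * γ * (y * (γ ^ k)⁻¹)⁻¹ =
      (Z.comap π).subtype (⟨_, h3⟩ * b) * γ := by
    rw [map_mul, e1]
    simp only [Subgroup.coe_subtype]
    group
  have h4 : ν ⟨y * (γ ^ k)⁻¹, _, e3⟩ = 1 := by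
    rw [hν _ _ e3, map_mul, e2, ← map_mul]
    exact (congrArg μ (Subtype.ext (by simp))).trans μ.map_one
  have h5 : (⟨y, a, hy⟩ : H6.cosetCent _ hinv.normal γ) =
      ⟨y * (γ ^ k)⁻¹, _, e3⟩ * ⟨γ, hγm⟩ ^ k := Subtype.ext (by simp)
  rw [← hν ⟨y, a, hy⟩ a hy, h5, map_mul, map_zpow, h4, hγν, one_zpow, mul_one]

end Cfsg.Agent.S4565
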