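import Cfsg.Statements.S4566
import Cfsg.Agent.H6.Good

set_option autoImplicit false
open Cfsg

namespace Cfsg.Agent.S4566

/-- Let N be a central subgroup of the finite group G, ψ a faithful irreducible (hence degree-one) character of N, and χ an irreducible character of G whose restriction to N contains ψ. If g ∈ G and some x ∈ G has commutator x⁻¹ g⁻¹ x g in N but different from 1, then χ g = 0. -/
theorem result {G : Type*} [Group G] [Fintype G] (N : Subgroup G) [Fintype N] (hN : N ≤ Subgroup.center G) (ψ : Cfsg.IrrCharacter ↥N) (hfaith : ∀ n : ↥N, (ψ : ↥N → ℂ) n = (ψ : ↥N → ℂ) 1 → n = 1) (χ : Cfsg.IrrCharacter G) (hover : Cfsg.classInner (fun n : ↥N => (χ : G → ℂ) n) (ψ : ↥N → ℂ) ≠ 0) (g x : G) (hcomm : x⁻¹ * g⁻¹ * x * g ∈ N) (hne : x⁻¹ * g⁻¹ * x * g ≠ 1) : (χ : G → ℂ) g = 0 := by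
  obtain ⟨lam, hlam⟩ := H5.exists_monoidHom_of_comm (fun a b : N => Subtype.ext
    (Subgroup.mem_center_iff.1 (hN b.2) a)) ψ.2
  have hinv : H6.LInv N.subtype lam := H6.lInv_of_central fun a => hN a.2
  have h1 : H6.LOver N.subtype lam χ :=
    (H6.lOver_iff hinv Subtype.val_injective χ.2).2 (by rw [← hlam]; exact hover)
  refine h1.apply_eq_zero (H5.isClassFunction_of_isIrr χ.2) fun hg => hne ?_
  have hc := Subgroup.mem_center_iff.1 (hN hcomm)
  have h2 := hg x⁻¹ ⟨_, N.inv_mem hcomm⟩ (by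
    change _ = (x⁻¹ * g⁻¹ * x * g)⁻¹ * g
    have h3 := Subgroup.mem_center_iff.1 (hN (N.inv_mem hcomm)) g
    rw [← h3]; group)
  have h3 := hfaith ⟨_, N.inv_mem hcomm⟩ (by rw [hlam]; simp only [h2, map_one])
  exact inv_eq_one.1 (congrArg Subtype.val h3)

end Cfsg.Agent.S4566
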