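import Cfsg.Statements.S4567
import Cfsg.Agent.H6.Good

set_option autoImplicit false
open Cfsg

namespace Cfsg.Agent.S4567

/-- Let N be a central subgroup of the finite group G and ψ a faithful irreducible (hence degree-one) character of N. Call a coset g N special when every x ∈ G whose commutator x⁻¹ g⁻¹ x g lies in N actually commutes with g (this depends only on the coset). Then the number of irreducible characters of G whose restriction to N contains ψ equals the number of conjugacy classes of G/N consisting of special cosets. -/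
theorem result {G : Type*} [Group G] [Fintype G] (N : Subgroup G) [N.Normal] [Fintype N] (hN : N ≤ Subgroup.center G) (ψ : Cfsg.IrrCharacter ↥N) (hfaith : ∀ n : ↥N, (ψ : ↥N → ℂ) n = (ψ : ↥N → ℂ) 1 → n = 1) : Nat.card {χ : Cfsg.IrrCharacter G // Cfsg.classInner (fun n : ↥N => (χ : G → ℂ) n) (ψ : ↥N → ℂ) ≠ 0} = Nat.card {C : ConjClasses (G ⧸ N) // ∃ g : G, ConjClasses.mk (g : G ⧸ N) = C ∧ ∀ x : G, x⁻¹ * g⁻¹ * x * g ∈ N → x * g = g * x} := by
  obtain ⟨lam, hlam⟩ := H5.exists_monoidHom_of_comm (fun a b : N => Subtype.ext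
    (Subgroup.mem_center_iff.1 (hN b.2) a)) ψ.2
  have hinv : H6.LInv N.subtype lam := H6.lInv_of_central fun a => hN a.2
  have h1 := H6.card_lOver_eq hinv Subtype.val_injective (QuotientGroup.mk' N)
    (QuotientGroup.mk'_surjective N) (by simp)
  have hinj : ∀ a : N, lam a = 1 → a = 1 := fun a ha => hfaith a (by rw [hlam]; simp [ha])
  refine Eq.trans (Nat.card_congr (Equiv.subtypeEquivRight fun χ => ?_))
    (h1.trans (Nat.card_congr (Equiv.subtypeEquivRight fun C => ?_)))
  · rw [H6.lOver_iff hinv Subtype.val_injective χ.2, hlam]; rfl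
  · refine exists_congr fun g => and_congr Iff.rfl ⟨fun h x hx => ?_, fun h x a ha => ?_⟩
    · have h3 := Subgroup.mem_center_iff.1 (hN (N.inv_mem hx)) g
      have h2 := hinj _ (h x⁻¹ ⟨_, N.inv_mem hx⟩ (by
        change _ = (x⁻¹ * g⁻¹ * x * g)⁻¹ * g
        rw [← h3]; group))
      have h4 : x⁻¹ * g⁻¹ * x * g = 1 := inv_eq_one.1 (congrArg Subtype.val h2)
      calc x * g = g * x * (x⁻¹ * g⁻¹ * x * g) := by group
        _ = _ := by rw [h4, mul_one]
    · have h3 := Subgroup.mem_center_iff.1 (hN a.2) g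
      have h4 : x⁻¹⁻¹ * g⁻¹ * x⁻¹ * g = (a : G)⁻¹ := by
        change x * g * x⁻¹ = (a : G) * g at ha
        calc _ = (x * g * x⁻¹)⁻¹ * g := by group
          _ = _ := by rw [ha, ← h3]; group
      have h5 := h x⁻¹ (h4 ▸ N.inv_mem a.2)
      have h6 : (a : G)⁻¹ = 1 := by
        rw [← h4]
        calc _ = x * g⁻¹ * (x⁻¹ * g) := by group
          _ = 1 := by rw [h5]; group
      rw [show a = 1 from Subtype.ext (inv_eq_one.1 h6), map_one]

end Cfsg.Agent.S4567
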