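import Cfsg.Statements.S4571
import Cfsg.Agent.H86.Reg
import Cfsg.Agent.S0941
import Cfsg.Agent.H34.Quot
import Cfsg.Agent.H34.Twist
import Cfsg.Agent.H33.Princ

set_option autoImplicit false
open Cfsg

namespace Cfsg.Agent.S4571

/-- Let Q be a normal p-subgroup of the finite group G with G = Q·C_G(Q), and M a maximal ideal of the algebraic integers containing p. Then the principal p-blocks of G and of G/Q have the same p-regular rank (the same number of irreducible Brauer characters). -/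
theorem result {G : Type*} [Group G] [Finite G] (p : ℕ) [Fact p.Prime] (M : Ideal Cfsg.AlgInt) (hM : Cfsg.IsPModular p M) (Q : Subgroup G) [Q.Normal] (hQ : IsPGroup p Q) (hsup : Q ⊔ Subgroup.centralizer (Q : Set G) = ⊤) : Cfsg.blockRank p (Cfsg.principalBlock M G) = Cfsg.blockRank p (Cfsg.principalBlock M (G ⧸ Q)) := by
  classical
  have := hM.2.1
  have := Fintype.ofFinite G
  have := Fintype.ofFinite (G ⧸ Q)
  have hp := hM.1
  set C := Subgroup.centralizer (Q : Set G) with hC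
  obtain ⟨k, hk⟩ : ∃ k, C.index = p ^ k := by
    obtain ⟨n, hn⟩ := IsPGroup.iff_card.1 hQ
    have : C.index ∣ p ^ n := by
      rw [← Subgroup.relIndex_top_right, ← hsup, Subgroup.relIndex_sup_right, ← hn]
      exact Subgroup.relIndex_dvd_card _ _
    obtain ⟨k, -, hk⟩ := (Nat.dvd_prime_pow hp).1 this
    exact ⟨k, hk⟩
  have hreg : ∀ g : G, ¬ p ∣ orderOf g → ¬ p ∣ orderOf (g : G ⧸ Q) := fun g hg h =>
    hg (h.trans (orderOf_map_dvd (QuotientGroup.mk' Q) g))
  have huniq : ∀ g g' : G, ¬ p ∣ orderOf g → ¬ p ∣ orderOf g' → (g : G ⧸ Q) = g' → g = g' := by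
    intro g g' hg hg' h
    have h1 := QuotientGroup.eq.1 h
    have h2 : Commute (g⁻¹ * g') g := H33.mem_of_regular_of_index_pow hp C hk hg _ h1
    have h3 := H33.isPPart_mul h2 (H34.pElt_of_mem hQ h1) hg
    rw [h2.eq, mul_inv_cancel_left] at h3
    exact inv_mul_eq_one.1 ((H33.IsPPart.eq_one_iff hp h3).2 hg')
  have hs : ∀ q : G ⧸ Q, ∃ g : G, (g : G ⧸ Q) = q ∧ (¬ p ∣ orderOf q → ¬ p ∣ orderOf g) := by
    intro q
    obtain ⟨g, rfl⟩ := QuotientGroup.mk_surjective q
    by_cases h : p ∣ orderOf (g : G ⧸ Q)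
    · exact ⟨g, rfl, fun h' => absurd h h'⟩
    obtain ⟨z, hz⟩ := H33.exists_isPPart hp g
    have h1 := (H33.IsPPart.eq_one_iff hp (H33.IsPPart.map hp hz (QuotientGroup.mk' Q))).2 h
    refine ⟨z⁻¹ * g, ?_, fun _ => H33.IsPPart.regular hz⟩
    rw [QuotientGroup.mk_mul, QuotientGroup.mk_inv, show (z : G ⧸ Q) = 1 from h1]
    simp
  choose s hs hs' using hs
  let T : (G ⧸ Q → ℂ) →ₗ[ℂ] (G → ℂ) := H86.regL G p ∘ₗ LinearMap.funLeft ℂ ℂ QuotientGroup.mk
  have hT : ∀ f, T f = pRegularPart p fun g : G => f g := fun _ => rfl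
  have hπ := QuotientGroup.mk'_surjective Q
  have hT1 : ∀ ψ : IrrCharacter (G ⧸ Q), T (pRegularPart p (ψ : G ⧸ Q → ℂ)) =
      pRegularPart p (H34.infl hπ ψ : G → ℂ) := fun ψ =>
    H86.reg_congr fun g hg => H86.reg_of_regular _ (hreg g hg)
  have hB : ∀ ψ : IrrCharacter (G ⧸ Q), H34.infl hπ ψ ∈ principalBlock M G ↔
      ψ ∈ principalBlock M (G ⧸ Q) := fun ψ =>
    ((S0941.result p M hM Q hQ ⟨k, hk⟩).1 (H33.oneIrr _) ψ).symm
  unfold blockRank
  set V := Submodule.span ℂ ((fun χ : IrrCharacter (G ⧸ Q) => pRegularPart p (χ : G ⧸ Q → ℂ)) ''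
    principalBlock M (G ⧸ Q)) with hV
  have hinj : Function.Injective (T.domRestrict V) := by
    rw [injective_iff_map_eq_zero]
    rintro ⟨f, hf⟩ h
    have h1 : pRegularPart p f = f := by
      have : V ≤ LinearMap.eqLocus (H86.regL _ p) LinearMap.id := by
        refine Submodule.span_le.2 ?_
        rintro _ ⟨ψ, -, rfl⟩
        exact H86.reg_reg _
      exact this hf
    refine Subtype.ext (h1.symm.trans (H86.reg_eq_zero_iff.2 fun q hq => ?_))
    rw [← hs q]
    exact H86.reg_eq_zero_iff.1 h _ (hs' q hq)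
  rw [← LinearMap.finrank_range_of_inj hinj, LinearMap.range_domRestrict, hV, Submodule.map_span]
  refine congrArg (fun S : Submodule ℂ (G → ℂ) => Module.finrank ℂ S) ?_
  refine le_antisymm (Submodule.span_le.2 ?_) (Submodule.span_mono ?_)
  · rintro _ ⟨χ, hχ, rfl⟩
    let f : G ⧸ Q → ℂ := fun q => pRegularPart p (χ : G → ℂ) (s q)
    have hf : IsClassFunction (G ⧸ Q) f := by
      intro q r
      have ho : orderOf (r * q * r⁻¹) = orderOf q := (MulAut.conj r).orderOf_eq q
      by_cases hq : p ∣ orderOf q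
      · have : ∀ q, p ∣ orderOf q → f q = 0 := fun q hq => H86.reg_of_singular _ (by
          by_contra h
          exact hreg _ h (by rwa [hs]))
        rw [this q hq, this _ (ho ▸ hq)]
      · have : s (r * q * r⁻¹) = s r * s q * (s r)⁻¹ := huniq _ _ (hs' _ (ho ▸ hq))
          (by rw [show orderOf (s r * s q * (s r)⁻¹) = orderOf (s q) from
            (MulAut.conj (s r)).orderOf_eq _]; exact hs' q hq) (by simp [hs])
        simp only [f, this]
        exact H86.isClassFunction_reg (H5.isClassFunction_of_isIrr χ.2) _ _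
    have h1 : pRegularPart p (χ : G → ℂ) = T f := by
      rw [hT, ← H86.reg_reg]
      refine H86.reg_congr fun g hg => ?_
      simp only [f]
      rw [huniq _ _ (hs' _ (hreg g hg)) hg (hs _)]
    have h2 : T f = ∑ ψ : IrrCharacter (G ⧸ Q),
        classInner f ψ • pRegularPart p (H34.infl hπ ψ : G → ℂ) := by
      conv_lhs => rw [H5.classFunction_eq_sum hf]
      rw [map_sum]
      exact Finset.sum_congr rfl fun ψ _ => map_smul _ _ _
    change pRegularPart p (χ : G → ℂ) ∈ _
    rw [← H86.blockPart_reg_irr hM H33.isPBlock_principalBlock hχ, h1, h2, H86.blockPart_sum]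
    refine Submodule.sum_mem _ fun ψ _ => ?_
    rw [H86.blockPart_smul]
    refine Submodule.smul_mem _ _ ?_
    by_cases h : ψ ∈ principalBlock M (G ⧸ Q)
    · rw [H86.blockPart_reg_irr hM H33.isPBlock_principalBlock ((hB ψ).2 h)]
      exact Submodule.subset_span ⟨_, ⟨ψ, h, rfl⟩, hT1 ψ⟩
    · rw [H86.blockPart_reg hM H33.isPBlock_principalBlock,
        H86.blockPart_irr_of_notMem (mt (hB ψ).1 h), H86.reg_zero]
      exact zero_mem _
  · rintro _ ⟨_, ⟨ψ, hψ, rfl⟩, rfl⟩
    exact ⟨_, (hB ψ).2 hψ, (hT1 ψ).symm⟩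

end Cfsg.Agent.S4571
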