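import Cfsg.Statements.S4574
import Cfsg.Agent.H88.Deg
import Cfsg.Agent.H89.AMGM
import Cfsg.Agent.H5.Linear

set_option autoImplicit false
open Cfsg

namespace Cfsg.Agent.S4574

/-- Let χ be an irreducible character of the finite group G, of degree d, and let Z(χ) be the set of elements g with |χ g| = d (the centre of χ). Then χ vanishes on at least (d ^ 2 - 1) · |Z(χ)| elements of G, with equality when every value |χ g| is 0, 1 or d. -/
theorem result {G : Type*} [Group G] [Fintype G] [DecidableEq G] (χ : G → ℂ) (hχ : Cfsg.IsIrrCharacter G χ) : (Cfsg.charDegree χ ^ 2 - 1) * (Finset.univ.filter (fun g : G => ‖χ g‖ = (Cfsg.charDegree χ : ℝ))).card ≤ (Finset.univ.filter (fun g : G => χ g = 0)).card ∧ ((∀ g : G, ‖χ g‖ = 0 ∨ ‖χ g‖ = 1 ∨ ‖χ g‖ = (Cfsg.charDegree χ : ℝ)) → (Cfsg.charDegree χ ^ 2 - 1) * (Finset.univ.filter (fun g : G => ‖χ g‖ = (Cfsg.charDegree χ : ℝ))).card = (Finset.univ.filter (fun g : G => χ g = 0)).card) := by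
  classical
  have hc := H5.isCharacter_of_isIrr hχ
  set d := Cfsg.charDegree χ with hd
  have hd0 : 0 < d := H88.charDegree_pos hχ
  have hn1 : ‖χ 1‖ = d := H88.norm_degree hc
  set Z := Finset.univ.filter (fun g : G => ‖χ g‖ = (d : ℝ)) with hZ
  set O := Finset.univ.filter (fun g : G => χ g = 0) with hO
  set S := Finset.univ.filter (fun g : G => ‖χ g‖ ≠ (d : ℝ) ∧ χ g ≠ 0) with hS
  have hZO : ∀ g, ‖χ g‖ = (d : ℝ) → χ g ≠ 0 := fun g h h0 => by
    rw [h0, norm_zero] at h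
    exact hd0.ne' (by exact_mod_cast h.symm)
  have hsplit : ∀ f : G → ℝ, ∑ g, f g = ∑ g ∈ Z, f g + ∑ g ∈ O, f g + ∑ g ∈ S, f g := by
    intro f
    rw [hZ, hO, hS, Finset.sum_filter, Finset.sum_filter, Finset.sum_filter,
      ← Finset.sum_add_distrib, ← Finset.sum_add_distrib]
    refine Finset.sum_congr rfl fun g _ => ?_
    by_cases h1 : ‖χ g‖ = (d : ℝ)
    · simp [h1, hZO g h1]
    · by_cases h2 : χ g = 0
      · rw [if_neg h1, if_pos h2, if_neg (fun h => h.2 h2)]; simp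
      · rw [if_neg h1, if_neg h2, if_pos ⟨h1, h2⟩]; simp
  have hcard : (Nat.card G : ℝ) = Z.card + O.card + S.card := by
    have := hsplit (fun _ => 1)
    simpa [Nat.card_eq_fintype_card] using this
  have hsq : (Nat.card G : ℝ) = (d : ℝ) ^ 2 * Z.card + ∑ g ∈ S, ‖χ g‖ ^ 2 := by
    rw [← H89.sum_norm_sq_irr hχ, hsplit]
    have h1 : ∑ g ∈ Z, ‖χ g‖ ^ 2 = (d : ℝ) ^ 2 * Z.card := by
      rw [Finset.sum_congr rfl (g := fun _ => (d : ℝ) ^ 2)]
      · simp [mul_comm]
      · intro g hg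
        rw [(Finset.mem_filter.1 hg).2]
    have h2 : ∑ g ∈ O, ‖χ g‖ ^ 2 = 0 := by
      refine Finset.sum_eq_zero fun g hg => ?_
      rw [(Finset.mem_filter.1 hg).2]; simp
    rw [h1, h2, add_zero]
  have hge : (S.card : ℝ) ≤ ∑ g ∈ S, ‖χ g‖ ^ 2 := by
    refine H89.card_le_sum_norm_pow hc S ?_ (fun g hg => (Finset.mem_filter.1 hg).2.2) 2
    intro g hg m hm
    obtain ⟨h1, h2⟩ := (Finset.mem_filter.1 hg).2
    refine Finset.mem_filter.2 ⟨Finset.mem_univ _, fun h => h1 ?_, fun h => h2 ?_⟩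
    · have : g ^ m ∈ H5.charCenter hc := (H5.mem_charCenter hc).2 (h.trans hn1.symm)
      have := H89.mem_of_pow_mem_of_coprime _ hm this
      exact ((H5.mem_charCenter hc).1 this).trans hn1
    · obtain ⟨τ, hτ⟩ := H7.exists_ringEquiv_character_pow G hm
      have := hτ χ hc g
      rw [h] at this
      exact τ.injective (by rw [this, map_zero])
  have hd1 : 1 ≤ d ^ 2 := Nat.one_le_pow _ _ hd0
  have hcast : (((d ^ 2 - 1) * Z.card : ℕ) : ℝ) = ((d : ℝ) ^ 2 - 1) * Z.card := by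
    push_cast [Nat.cast_sub hd1]; ring
  refine ⟨?_, fun h => ?_⟩
  · have : (((d ^ 2 - 1) * Z.card : ℕ) : ℝ) ≤ (O.card : ℝ) := by
      rw [hcast]; nlinarith
    exact_mod_cast this
  · have heq : ∑ g ∈ S, ‖χ g‖ ^ 2 = S.card := by
      rw [Finset.sum_congr rfl (g := fun _ => (1 : ℝ))]
      · simp
      · intro g hg
        obtain ⟨h1, h2⟩ := (Finset.mem_filter.1 hg).2
        rcases h g with h | h | h
        · exact absurd (norm_eq_zero.1 h) h2
        · rw [h]; simp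
        · exact absurd h h1
    have : (((d ^ 2 - 1) * Z.card : ℕ) : ℝ) = (O.card : ℝ) := by
      rw [hcast]; nlinarith
    exact_mod_cast this

end Cfsg.Agent.S4574
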