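import Cfsg.Statements.S4575
import Cfsg.Agent.H86.Contr2
import Cfsg.Agent.H86.Rank

set_option autoImplicit false
open Cfsg

namespace Cfsg.Agent.S4575

/-- Let B be a 2-block of the finite group G (relative to a maximal ideal M of the algebraic integers containing 2) of defect d with defect group D. Let z be an element of D commuting with every element of D, and let b be a block of the centralizer of z with defect group D that induces B (a major subsection (z, b)). If the number of irreducible characters in B exceeds the 2-regular rank of b by at most three, then B contains at most 2 ^ d irreducible characters. -/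
theorem result {G : Type*} [Group G] [Finite G] (M : Ideal Cfsg.AlgInt) (hM : Cfsg.IsPModular 2 M) (B : Set (Cfsg.IrrCharacter G)) (hB : Cfsg.IsPBlock M B) (D : Subgroup G) (hD : Cfsg.IsDefectGroup 2 M B D) (z : G) (hzD : z ∈ D) (hzc : ∀ d ∈ D, d * z = z * d) (b : Set (Cfsg.IrrCharacter ↥(Subgroup.centralizer ({z} : Set G)))) (hb : Cfsg.IsInducedBlock M (Subgroup.centralizer ({z} : Set G)) b B) (hbD : Cfsg.IsDefectGroup 2 M b (D.subgroupOf (Subgroup.centralizer ({z} : Set G)))) (h : Nat.card B ≤ Cfsg.blockRank 2 b + 3) : Nat.card B ≤ 2 ^ Cfsg.blockDefect 2 B := by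
  classical
  have : M.IsMaximal := hM.2.1
  have := Fintype.ofFinite G
  have : Fact (Nat.Prime 2) := ⟨Nat.prime_two⟩
  obtain ⟨⟨n, hn⟩, hd⟩ := H86.major_of_defectGroup hM hD hzD hzc hb hbD
  obtain ⟨ω, hω⟩ := H86.exists_primitiveRoot hM.1 n
  have hC := H86.isCent_centralizer z
  have H := (H86.hermFam_con hM hC hn hω hb).compl
  have htr := H86.sum_pow_mul_con_self hM hC hn hb
  rw [hd] at H htr
  obtain ⟨χ₀, h₀, hh₀⟩ := H86.exists_height_zero (p := 2) (H33.block_nonempty hB)
  by_cases hd0 : blockDefect 2 B = 0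
  · rw [H86.card_eq_one_of_defect_zero hM hB hd0]; exact Nat.one_le_two_pow
  have htr' : ∀ k, (2 ^ n).Coprime k → ∑ χ ∈ H86.fs B, ((if χ = χ then ((2 : ℕ) : ℂ) ^ blockDefect 2 B
      else 0) - ((2 : ℕ) : ℂ) ^ blockDefect 2 B * H86.con 2 _ (z ^ k) b χ χ) =
      2 ^ blockDefect 2 B * ((Nat.card B : ℂ) - blockRank 2 b) := by
    intro k hk
    simp only [if_true, Finset.sum_sub_distrib, htr k hk, Finset.sum_const, H86.card_fs,
      nsmul_eq_mul]
    push_cast; ring
  have hle : blockRank 2 b ≤ Nat.card B := by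
    have h1 := htr' 1 (Nat.coprime_one_right _)
    rw [Finset.sum_congr rfl fun χ hχ => H.diag_eq_norm Nat.prime_two hχ (Nat.coprime_one_right _),
      ← Complex.ofReal_sum] at h1
    have h2 : (0 : ℝ) ≤ 2 ^ blockDefect 2 B * ((Nat.card B : ℝ) - blockRank 2 b) := by
      have h3 : ∀ x : ℝ, (x : ℂ) = 2 ^ blockDefect 2 B * ((Nat.card B : ℂ) - blockRank 2 b) →
          x = 2 ^ blockDefect 2 B * ((Nat.card B : ℝ) - blockRank 2 b) := fun x hx => by
        exact_mod_cast hx
      rw [← h3 _ h1]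
      exact Finset.sum_nonneg fun _ _ => norm_nonneg _
    exact_mod_cast sub_nonneg.1 ((mul_nonneg_iff_of_pos_left (by positivity)).1 h2)
  have hδ : ∀ χ ψ : IrrCharacter G, ψ ∈ B → (if χ = ψ then ((2 : ℕ) : ℂ) ^ blockDefect 2 B else 0) /
      2 ^ blockHeight 2 B (ψ : G → ℂ) ∈ H32.locMax M := by
    intro χ ψ hψ
    split_ifs
    · have h1 : blockHeight 2 B (ψ : G → ℂ) < blockDefect 2 B := by
        by_cases h0 : blockHeight 2 B (ψ : G → ℂ) = 0
        · omega
        · have := H86.height_add_two_le hM hB hψ h0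
          omega
      have := (H86.int_div_pow_mem_locMax_iff hM (2 ^ blockDefect 2 B) _).2
        (pow_dvd_pow _ (Nat.succ_le_of_lt h1))
      simpa using this
    · rw [zero_div]; exact zero_mem _
  have h1 := H.robinson hM hω (l := Nat.card B - blockRank 2 b) (by omega)
    (fun k hk => by rw [htr' k hk, Nat.cast_sub hle]) (fun χ => blockHeight 2 B (χ : G → ℂ))
    (fun χ _ ψ hψ => ?_) (fun χ hχ ψ hψ k hk => ?_) (H86.mem_fs.2 h₀) hh₀
  · have := (H86.three_mul_card_le_weight _ _).trans h1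
    omega
  · rw [sub_div, pow_one]
    refine sub_mem (H32.locMax_le (hδ χ ψ (H86.mem_fs.1 hψ))) ?_
    exact_mod_cast H86.con_div_mem hM hC ⟨n, hn⟩ hb.1 (H53.virt_of_irr χ.2) (H86.mem_fs.1 hψ)
  · rw [← H86.con_div_mem_iff hM (hC.pow (hn ▸ hk)) (H86.pElt_pow_coprime hn hk) hb hd
      (H86.mem_fs.1 hχ) (H86.mem_fs.1 hψ), sub_div, ← neg_mem_iff]
    refine H32.mem_locMax_iff_of_sub_mem ?_
    simpa using hδ χ ψ (H86.mem_fs.1 hψ)

end Cfsg.Agent.S4575
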