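import Cfsg.Statements.S4580
import Cfsg.Agent.H33.Princ
import Cfsg.Agent.H30.Det

set_option autoImplicit false
open Cfsg

namespace Cfsg.Agent.S4580

/-- Let N be a normal subgroup of the finite group G, M a maximal ideal of the algebraic integers containing 2, and θ a real-valued irreducible character of N of odd degree that extends to G (some irreducible character of G restricts to θ). Then θ has an extension to G lying in the principal 2-block of G. -/
theorem result {G : Type*} [Group G] [Finite G] (N : Subgroup G) [N.Normal] (M : Ideal Cfsg.AlgInt) (hM : Cfsg.IsPModular 2 M) (θ : Cfsg.IrrCharacter N) (hreal : ∀ n : N, ((θ : N → ℂ) n).im = 0) (hodd : Odd (Cfsg.charDegree (θ : N → ℂ))) (hext : ∃ η : Cfsg.IrrCharacter G, ∀ n : N, (η : G → ℂ) n = (θ : N → ℂ) n) :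
    ∃ η : Cfsg.IrrCharacter G, (∀ n : N, (η : G → ℂ) n = (θ : N → ℂ) n) ∧ η ∈ Cfsg.principalBlock M G := by
  have := hM.2.1
  have := Fintype.ofFinite G
  have : Fact (Nat.Prime 2) := ⟨Nat.prime_two⟩
  obtain ⟨η, hη⟩ := hext
  have hirr : IsIrrCharacter N (fun n : N => (η : G → ℂ) (N.subtype n)) := by
    rw [show (fun n : N => (η : G → ℂ) (N.subtype n)) = θ from funext hη]; exact θ.2
  obtain ⟨β, hβ1, hβ⟩ := H30.exists_hom_of_two_extensions N.subtype
    (by rwa [Subgroup.range_subtype]) (H5.isCharacter_of_isIrr η.2)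
    (H5.isCharacter_comp_inv (H5.isCharacter_of_isIrr η.2)) (fun n => by
      rw [H5.isIrr_apply_inv η.2]
      change (starRingEnd ℂ) ((η : G → ℂ) n) = (η : G → ℂ) n
      rw [hη n]
      exact Complex.conj_eq_iff_im.2 (hreal n)) hirr
  -- `m` is the odd part of the group order
  obtain ⟨a, m, hm, hcard⟩ :=
    Nat.exists_eq_pow_mul_and_not_dvd (Nat.card_pos (α := G)).ne' 2 (by norm_num)
  obtain ⟨j, hj⟩ : ∃ j, m + 1 = 2 * j := ⟨(m + 1) / 2, by omega⟩
  have hpow : ∀ g : G, ¬ 2 ∣ orderOf g → β g ^ m = 1 := by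
    intro g hg
    have h1 : orderOf g ∣ m := by
      have h2 : orderOf g ∣ 2 ^ a * m := hcard ▸ orderOf_dvd_natCard g
      exact (Nat.Coprime.pow_right a
        ((Nat.Prime.coprime_iff_not_dvd Nat.prime_two).2 hg).symm).dvd_of_dvd_mul_left h2
    rw [← map_pow, orderOf_dvd_iff_pow_eq_one.1 h1, map_one]
  let χ : IrrCharacter G := ⟨_, H5.isIrrCharacter_monoidHom_mul η.2 (β ^ j)⟩
  have hχ : ∀ g, (χ : G → ℂ) g = ((β g ^ j : ℂˣ) : ℂ) * (η : G → ℂ) g := fun g => rfl
  have hχN : ∀ n : N, (χ : G → ℂ) n = (θ : N → ℂ) n := by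
    intro n
    rw [hχ, show β n = 1 from hβ1 n, one_pow, Units.val_one, one_mul, hη]
  refine ⟨χ, hχN, H33.mem_principalBlock_of_two hM (P := ⊥) IsPGroup.of_bot χ ?_ fun g hg _ => ?_⟩
  · have h1 : charDegree (χ : G → ℂ) = charDegree (θ : N → ℂ) := by
      have h2 := hχN 1
      rw [OneMemClass.coe_one, ← H33.irr_charDegree_cast, ← H33.irr_charDegree_cast] at h2
      exact_mod_cast h2
    rw [h1]
    exact fun h => (Nat.not_even_iff_odd.2 hodd) (even_iff_two_dvd.2 h)
  · have h1 : (η : G → ℂ) g⁻¹ = β g * (η : G → ℂ) g := congrFun hβ g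
    have h2 : β g⁻¹ ^ j * β g = β g ^ j := by
      have h3 : β g ^ (2 * j) = β g := by rw [← hj, pow_succ, hpow g hg, one_mul]
      rw [map_inv, inv_pow, inv_mul_eq_iff_eq_mul, ← pow_add, ← two_mul, h3]
    rw [hχ, hχ, h1, ← mul_assoc, ← Units.val_mul, h2, sub_self]
    exact zero_mem _

end Cfsg.Agent.S4580
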