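import Cfsg.Statements.S4581
import Cfsg.Agent.H6.RealOdd2

set_option autoImplicit false
open Cfsg

namespace Cfsg.Agent.S4581

open Cfsg.Agent Subgroup

/-- Let G be a finite solvable group, P a Sylow 2-subgroup and N its normalizer. Then G and N have the same number of real-valued irreducible characters of odd degree; and every odd-degree irreducible character of G is real-valued exactly when the derived subgroup of P equals the Frattini subgroup of P and P is its own normalizer in G. -/
theorem result {G : Type*} [Group G] [Finite G] [Group.IsSolvable G] (P : Sylow 2 G) :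
    Nat.card {χ : Cfsg.IrrCharacter G // (∀ g : G, ((χ : G → ℂ) g).im = 0) ∧ Odd (Cfsg.charDegree (χ : G → ℂ))} =
      Nat.card {ψ : Cfsg.IrrCharacter (Subgroup.normalizer ((P : Subgroup G) : Set G)) // (∀ g, ((ψ : Subgroup.normalizer ((P : Subgroup G) : Set G) → ℂ) g).im = 0) ∧ Odd (Cfsg.charDegree (ψ : Subgroup.normalizer ((P : Subgroup G) : Set G) → ℂ))} ∧
    ((∀ χ : Cfsg.IrrCharacter G, Odd (Cfsg.charDegree (χ : G → ℂ)) → ∀ g : G, ((χ : G → ℂ) g).im = 0) ↔
      (commutator (P : Subgroup G) = frattini (P : Subgroup G) ∧ Subgroup.normalizer ((P : Subgroup G) : Set G) = (P : Subgroup G))) := by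
  have : Fact (Nat.Prime 2) := ⟨Nat.prime_two⟩
  have hi : Odd (P : Subgroup G).subtype.range.index := by
    rw [range_subtype]; exact H6.odd_iff_not_dvd.2 P.not_dvd_index
  refine ⟨?_, ?_, ?_⟩
  · simp only [← H88.conjIrr_eq_iff]
    have hPN : (P : Subgroup G) ≤ normalizer ((P : Subgroup G) : Set G) := le_normalizer
    refine H6.card_real_odd_eq P.isPGroup' (P : Subgroup G).subtype (inclusion hPN)
      (subtype_injective _) (inclusion_injective _) hi ?_ ?_ ?_
    · rw [inclusion_range]
      rw [range_subtype] at hi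
      exact hi.of_dvd_nat (relIndex_dvd_index_of_le hPN)
    · intro g hg
      rw [range_subtype] at hg
      refine ⟨⟨g, hg⟩, ?_, fun x y h => congrArg Subtype.val h⟩
      rw [inclusion_range, normalizer_eq_top (Subgroup.subgroupOf _ _)]; trivial
    · intro h _
      refine ⟨h, ?_, fun x y h => Subtype.ext h⟩
      rw [range_subtype]; exact h.2
  · intro h
    simp only [← H88.conjIrr_eq_iff] at h
    refine ⟨le_antisymm (H3.commutator_le_frattini P.isPGroup') ?_, le_antisymm ?_ le_normalizer⟩
    · rw [H3.frattini_le_iff P.isPGroup']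
      refine ⟨le_rfl, fun x => ?_⟩
      by_contra hx
      obtain ⟨lam, hlam⟩ := H6.exists_hom_apply_ne_one hx
      obtain ⟨χ, h1, h2⟩ := H6.exists_over_not_dvd Nat.prime_two (P : Subgroup G) P.not_dvd_index
        (H6.linIrr lam) (by rw [H6.charDegree_linIrr]; norm_num)
      have h3 := H6.odd_iff_not_dvd.2 h2
      have h4 := H6.inv_eq_of_under P.isPGroup' _ (subtype_injective _) hi h3 (h χ h3) h1
      apply hlam
      rw [map_pow, sq]
      nth_rewrite 1 [← h4]
      simp
    · exact H6.normalizer_le_of_forall_real_aux _ G rfl inferInstance h _ P.isPGroup'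
        (H6.odd_iff_not_dvd.2 P.not_dvd_index)
  · rintro ⟨h1, h2⟩ χ hχ
    rw [← H88.conjIrr_eq_iff]
    obtain ⟨μ, hμ⟩ := H89.exists_linear_under P.isPGroup' (P : Subgroup G).subtype
      (H6.odd_iff_not_dvd.1 hχ)
    have h3 : μ⁻¹ = μ := by
      ext x
      have h4 : x ^ 2 ∈ _root_.commutator (P : Subgroup G) := h1 ▸ H3.pow_mem_frattini P.isPGroup' x
      have h5 : μ (x ^ 2) = 1 := Abelianization.commutator_subset_ker μ h4
      rw [map_pow, sq] at h5
      rw [MonoidHom.inv_apply, inv_eq_of_mul_eq_one_left h5]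
    refine H6.eq_of_over P.isPGroup' _ hi (μ := μ) (by rwa [H88.charDegree_conjIrr]) hχ ?_ hμ
      (Or.inr (by rw [range_subtype, h2]))
    rw [← h3, ← H6.conjIrr_linIrr, H89.mlt_conjIrr]
    exact hμ

end Cfsg.Agent.S4581
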