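import Cfsg.Statements.S4582
import Cfsg.Agent.H85.SylowCount

set_option autoImplicit false
open Cfsg

namespace Cfsg.Agent.S4582

open Subgroup

/-- Let N be a normal subgroup of the finite group G, P a Sylow 2-subgroup of G and Q = P ∩ N. Suppose that P/QP' and Q/Q' are elementary abelian (every square of an element of P lies in the subgroup generated by Q and the derived subgroup of P, and every square of an element of Q lies in the derived subgroup of Q), and that the commutator factor group N/N' has odd order. Then P/P' is elementary abelian. -/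
theorem result {G : Type*} [Group G] [Finite G] (N : Subgroup G) [N.Normal] (P : Sylow 2 G)
    (hP : ∀ x ∈ (P : Subgroup G), x ^ 2 ∈ ((P : Subgroup G) ⊓ N) ⊔ ⁅(P : Subgroup G), (P : Subgroup G)⁆)
    (hQ : ∀ x ∈ (P : Subgroup G) ⊓ N, x ^ 2 ∈ ⁅(P : Subgroup G) ⊓ N, (P : Subgroup G) ⊓ N⁆)
    (hodd : Odd (Nat.card (Abelianization N))) :
    ∀ x ∈ (P : Subgroup G), x ^ 2 ∈ ⁅(P : Subgroup G), (P : Subgroup G)⁆ := by
  intro x hx
  set H : Subgroup G := N ⊔ (P : Subgroup G) with hH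
  have hPH : (P : Subgroup G) ≤ H := le_sup_right
  have hNH : N ≤ H := le_sup_left
  let π : (P : Subgroup G).subgroupOf H →* Abelianization P :=
    Abelianization.of.comp (subgroupOfEquivOfLe hPH).toMonoidHom
  have hπ : ∀ (y : H) (hy : (y : G) ∈ (P : Subgroup G)), π ⟨y, hy⟩ = Abelianization.of ⟨y, hy⟩ :=
    fun _ _ => rfl
  have hA : IsPGroup 2 (Abelianization P) := P.2.to_quotient _
  have hof : ∀ (y : G) (hy : y ∈ (P : Subgroup G)), Abelianization.of (⟨y, hy⟩ : (P : Subgroup G)) = 1 ↔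
      y ∈ ⁅(P : Subgroup G), (P : Subgroup G)⁆ := fun y hy => by
    rw [← map_subtype_commutator, ← MonoidHom.mem_ker, Abelianization.ker_of]
    exact ⟨fun h => ⟨_, h, rfl⟩, fun ⟨z, hz, e⟩ => by
      have : z = ⟨y, hy⟩ := Subtype.ext e
      exact this ▸ hz⟩
  let V := MonoidHom.transfer π
  have h1 : N ≤ V.ker.map H.subtype := fun n hn => by
    refine ⟨⟨n, hNH hn⟩, ?_, rfl⟩
    have h2 : (Abelianization.lift (V.comp (inclusion hNH)) (Abelianization.of ⟨n, hn⟩)) ^
        Nat.card (Abelianization N) = 1 := by rw [← map_pow, pow_card_eq_one', map_one]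
    have h3 := (hA.powEquiv' (n := Nat.card (Abelianization N)) (by
      rw [← even_iff_two_dvd, Nat.not_even_iff_odd]; exact hodd)).apply_eq_iff_eq
      (x := Abelianization.lift (V.comp (inclusion hNH)) (Abelianization.of ⟨n, hn⟩)) (y := 1)
    exact h3.mp (by simpa using h2)
  have h2 : ⁅(P : Subgroup G), (P : Subgroup G)⁆ ≤ V.ker.map H.subtype := by
    refine le_trans (commutator_mono hPH hPH) ?_
    rw [← map_subtype_commutator]
    exact map_mono (Abelianization.commutator_subset_ker V)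
  have h3 : V ⟨x, hPH hx⟩ ^ 2 = 1 := by
    obtain ⟨y, hy, e⟩ := sup_le (inf_le_right.trans h1) h2 (hP x hx)
    rw [← map_pow]
    have : (⟨x, hPH hx⟩ : H) ^ 2 = y := Subtype.ext e.symm
    rw [this]
    exact hy
  have key : ∀ (k : ℕ) (a : H) (h : a⁻¹ * (⟨x, hPH hx⟩ : H) ^ k * a ∈ (P : Subgroup G).subgroupOf H),
      π ⟨_, h⟩ ^ 2 = (Abelianization.of (⟨x, hx⟩ : (P : Subgroup G)) ^ 2) ^ k := by
    intro k a h
    obtain ⟨y, hy, n, hn, e⟩ := (mem_sup_of_normal_right (s := (P : Subgroup G)) (t := N)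
      (x := (a : G))).mp (by rw [sup_comm]; exact a.2)
    have h4 : (a : G)⁻¹ * x ^ k * a ∈ (P : Subgroup G) := h
    have h5 : y⁻¹ * x ^ k * y ∈ (P : Subgroup G) := mul_mem (mul_mem (inv_mem hy) (pow_mem hx k)) hy
    have h6 : (y⁻¹ * x ^ k * y)⁻¹ * ((a : G)⁻¹ * x ^ k * a) ∈ (P : Subgroup G) ⊓ N := by
      refine mem_inf.mpr ⟨mul_mem (inv_mem h5) h4, ?_⟩
      have : (y⁻¹ * x ^ k * y)⁻¹ * ((a : G)⁻¹ * x ^ k * a) =
          ((y⁻¹ * x ^ k * y)⁻¹ * n⁻¹ * (y⁻¹ * x ^ k * y)⁻¹⁻¹) * n := by rw [← e]; group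
      rw [this]
      exact mul_mem (Normal.conj_mem inferInstance _ (inv_mem hn) _) hn
    have h7 := (hof _ (pow_mem (mem_inf.mp h6).1 2)).mpr (commutator_mono inf_le_left inf_le_left (hQ _ h6))
    have h8 : π ⟨_, h⟩ = Abelianization.of (⟨y, hy⟩⁻¹ * ⟨x, hx⟩ ^ k * ⟨y, hy⟩ * ⟨_, (mem_inf.mp h6).1⟩ :
        (P : Subgroup G)) := by
      refine (hπ _ h4).trans ?_
      congr 1
      apply Subtype.ext
      simp only [Subgroup.coe_mul, Subgroup.coe_inv, Subgroup.coe_pow, mul_inv_cancel_left]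
    have h9 : Abelianization.of (⟨_, (mem_inf.mp h6).1⟩ : (P : Subgroup G)) ^ 2 = 1 := by
      rw [← map_pow]; exact h7
    rw [h8, map_mul, mul_pow, h9, mul_one, map_mul, map_mul, map_inv, map_pow, inv_mul_cancel_comm,
      ← pow_mul, ← pow_mul, mul_comm]
  have : Fintype (Quotient (MulAction.orbitRel (zpowers (⟨x, hPH hx⟩ : H))
    (H ⧸ (P : Subgroup G).subgroupOf H))) := Fintype.ofFinite _
  have h4 : V ⟨x, hPH hx⟩ ^ 2 = (Abelianization.of (⟨x, hx⟩ : (P : Subgroup G)) ^ 2) ^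
      ((P : Subgroup G).subgroupOf H).index := by
    rw [index_eq_sum_minimalPeriod _ (⟨x, hPH hx⟩ : H), ← Finset.prod_pow_eq_pow_sum,
      MonoidHom.transfer_eq_prod_quotient_orbitRel_zpowers_quot, ← Finset.prod_pow]
    apply Finset.prod_congr rfl
    intros
    apply key
  have h5 := (hA.powEquiv' (n := ((P : Subgroup G).subgroupOf H).index)
    (fun h => P.not_dvd_index (h.trans (relIndex_dvd_index_of_le hPH)))).apply_eq_iff_eq
      (x := Abelianization.of (⟨x, hx⟩ : (P : Subgroup G)) ^ 2) (y := 1)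
  rw [← hof _ (pow_mem hx 2)]
  have h6 := h5.mp (by simpa using h4.symm.trans h3)
  rw [← map_pow] at h6
  exact h6

end Cfsg.Agent.S4582
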