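import Cfsg.Statements.S4583
import Cfsg.Agent.H33.Princ

set_option autoImplicit false
open Cfsg

namespace Cfsg.Agent.S4583

/-- Let N be a normal subgroup of the finite group G, p a prime, M a maximal ideal of the algebraic integers containing p, and P a Sylow p-subgroup of G. Let θ be an irreducible character of N of degree prime to p lying in the principal p-block of N, and suppose θ extends to the subgroup NP (some irreducible character of NP restricts to θ). Then some irreducible character χ of G of degree prime to p in the principal p-block of G lies over θ (θ is a constituent of the restriction of χ to N). -/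
theorem result {G : Type*} [Group G] [Finite G] (N : Subgroup G) [N.Normal] (p : ℕ) [Fact p.Prime] (M : Ideal Cfsg.AlgInt) (hM : Cfsg.IsPModular p M) (P : Sylow p G)
    (θ : Cfsg.IrrCharacter N) (hθ : θ ∈ Cfsg.principalBlock M N) (hdeg : ¬ p ∣ Cfsg.charDegree (θ : N → ℂ))
    (hext : ∃ η : Cfsg.IrrCharacter ↥(N ⊔ (P : Subgroup G)), ∀ n : N, (η : ↥(N ⊔ (P : Subgroup G)) → ℂ) (Subgroup.inclusion le_sup_left n) = (θ : N → ℂ) n) :
    ∃ χ : Cfsg.IrrCharacter G, χ ∈ Cfsg.principalBlock M G ∧ ¬ p ∣ Cfsg.charDegree (χ : G → ℂ) ∧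
      haveI := Fintype.ofFinite N; Cfsg.classInner (fun n : N => (χ : G → ℂ) n) (θ : N → ℂ) ≠ 0 := by
  classical
  have := hM.2.1
  have hp : p.Prime := Fact.out
  have := Fintype.ofFinite G
  let := Fintype.ofFinite N
  let H : Subgroup G := N ⊔ (P : Subgroup G)
  have hH : H = N ⊔ (P : Subgroup G) := rfl
  have hNH : N ≤ H := le_sup_left
  obtain ⟨η, hη⟩ : ∃ η : IrrCharacter H,
    ∀ n : N, (η : H → ℂ) (Subgroup.inclusion hNH n) = (θ : N → ℂ) n := hext
  have : Fintype H := Fintype.ofFinite H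
  let e := Subgroup.subgroupOfEquivOfLe hNH
  have : Fintype (N.subgroupOf H) := Fintype.ofFinite _
  let θ' : IrrCharacter (N.subgroupOf H) := ⟨_, H5.isIrrCharacter_comp_equiv θ.2 e⟩
  have hres : (fun n : N.subgroupOf H => (η : H → ℂ) n) = θ' := funext fun n => hη (e n)
  have hidx : ∃ k, (N.subgroupOf H).index = p ^ k := by
    obtain ⟨k, hk⟩ := IsPGroup.iff_card.1 P.isPGroup'
    have h1 : N.relIndex H ∣ p ^ k := by
      rw [hH, sup_comm, Subgroup.relIndex_sup_right, ← hk]
      exact Subgroup.relIndex_dvd_card _ _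
    obtain ⟨j, -, hj⟩ := (Nat.dvd_prime_pow hp).1 h1
    exact ⟨j, hj⟩
  obtain ⟨k, hk⟩ := hidx
  have hθ' : θ' ∈ principalBlock M (N.subgroupOf H) := by
    rw [H33.mem_principalBlock_iff hM] at hθ ⊢
    rwa [show (θ' : N.subgroupOf H → ℂ) = fun n => (θ : N → ℂ) (e n) from rfl,
      H33.regSum_comp_equiv]
  have hη0 : η ∈ principalBlock M H :=
    (H33.principal_iff_of_regular_le hM (N.subgroupOf H)
      (fun g hg => H33.mem_of_regular_of_index_pow hp _ hk hg) (θ := θ')
      (by rw [hres, H5.classInner_irr_self θ'.2]; exact one_ne_zero)).2 hθ'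
  have hη1 : (η : H → ℂ) 1 = (charDegree (θ : N → ℂ) : ℕ) := by
    rw [H33.irr_charDegree_cast, ← hη 1, map_one]
  have hHi : ¬ p ∣ H.index := fun h =>
    P.not_dvd_index (h.trans (Subgroup.index_dvd_of_le le_sup_right))
  have key := H33.sum_classInner_res_mul_regSum (p := p) H (H5.isCharacter_of_isIrr η.2)
  have hunit : (H.index : ℂ) * H33.regSum p (η : H → ℂ) ∉ H32.locMax M := by
    have h1 : H33.regSum p (η : H → ℂ) =
        (η : H → ℂ) 1 * (H33.regSum p (η : H → ℂ) / (η : H → ℂ) 1) := by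
      rw [mul_div_cancel₀ _ (H5.degree_ne_zero η.2)]
    rw [h1]
    refine H32.mul_not_mem_locMax (natCast_mem _ _) ((H32.locRing M).mul_mem
      (H33.irr_mem_locRing η 1) (H33.regSum_div_mem_locRing η))
      (by rwa [H32.natCast_mem_locMax_iff hM]) (H32.mul_not_mem_locMax
      (H33.irr_mem_locRing η 1) (H33.regSum_div_mem_locRing η) ?_ (H33.regSum_div_notMem hM hη0))
    rwa [hη1, H32.natCast_mem_locMax_iff hM]
  by_contra! hcon
  refine hunit (key ▸ (H32.locMax M).sum_mem fun χ _ => ?_)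
  by_cases hχ : χ ∈ principalBlock M G
  swap
  · rw [H33.regSum_eq_zero hM hχ, mul_zero]; exact zero_mem _
  have hχH := H5.isCharacter_restrict (H5.isCharacter_of_isIrr χ.2) H
  by_cases hc : classInner (fun h : H => (χ : G → ℂ) h) (η : H → ℂ) = 0
  · rw [hc, zero_mul]; exact zero_mem _
  obtain ⟨a, ha⟩ := H5.exists_nat_classInner hχH (H5.isCharacter_of_isIrr η.2)
  have hdvd : p ∣ charDegree (χ : G → ℂ) := by
    by_contra hnd
    have h0 := hcon χ hχ hnd
    have h1 := H5.isCharacter_comp (H5.isCharacter_sub_of_constituent hχH η.2 hc)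
      (Subgroup.inclusion hNH)
    obtain ⟨b, hb⟩ := H5.exists_nat_classInner h1 (H5.isCharacter_of_isIrr θ.2)
    have h2 : (fun n : N => (χ : G → ℂ) n) = (fun n : N => ((fun h : H => (χ : G → ℂ) h) -
        (η : H → ℂ)) (Subgroup.inclusion hNH n)) + (θ : N → ℂ) := by
      funext n
      simp only [Pi.add_apply, Pi.sub_apply, hη n, Subgroup.coe_inclusion, sub_add_cancel]
    rw [h2, H5.classInner_add_left, hb, H5.classInner_irr_self θ.2] at h0
    exact Nat.succ_ne_zero b (by exact_mod_cast h0)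
  have h1 : H33.regSum p (χ : G → ℂ) =
      (χ : G → ℂ) 1 * (H33.regSum p (χ : G → ℂ) / (χ : G → ℂ) 1) := by
    rw [mul_div_cancel₀ _ (H5.degree_ne_zero χ.2)]
  rw [ha, h1]
  refine H32.mul_mem_locMax_left (natCast_mem _ _) (H32.mul_mem_locMax_right ?_
    (H33.regSum_div_mem_locRing χ))
  rwa [← H33.irr_charDegree_cast, H32.natCast_mem_locMax_iff hM]

end Cfsg.Agent.S4583
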