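import Cfsg.Statements.S4584
import Cfsg.Agent.H85.Comm
import Cfsg.Agent.S0095
import Cfsg.Agent.H3.ClassTwo

set_option autoImplicit false
open Cfsg

namespace Cfsg.Agent.S4584

open Subgroup
open scoped commutatorElement

/-- Let p be a prime and P a group of order p^4. Then the derived subgroup P' has order p if and only if the centre Z(P) has index p^2 in P. -/
theorem result {P : Type*} [Group P] [Finite P] (p : ℕ) [Fact p.Prime] (hP : Nat.card P = p ^ 4) :
    Nat.card (commutator P) = p ↔ (Subgroup.center P).index = p ^ 2 := by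
  have hp : p.Prime := Fact.out
  have hG : IsPGroup p P := IsPGroup.of_card hP
  have hnt : Nontrivial P := Finite.one_lt_card_iff_nontrivial.mp (by
    rw [hP]; exact Nat.one_lt_pow (by norm_num) hp.one_lt)
  have hcyc : ∀ k ≤ 1, (center P).index ≠ p ^ k ∨ center P = ⊤ := fun k hk => by
    by_cases h : (center P).index = p ^ k
    · right
      have : IsCyclic (P ⧸ center P) := isCyclic_of_card_dvd_prime (p := p) (by
        change (center P).index ∣ p
        rw [h]
        simpa using pow_dvd_pow p hk)
      exact eq_top_iff.mpr fun x _ => mem_center_iff.mpr fun y =>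
        commutative_of_cyclic_center_quotient (QuotientGroup.mk' (center P))
          (QuotientGroup.ker_mk' _).le y x
    · exact Or.inl h
  constructor
  · intro h
    obtain ⟨k, hk, hk'⟩ := (Nat.dvd_prime_pow hp).mp (hP ▸ (center P).index_dvd_card)
    have hne : center P ≠ ⊤ := fun h1 => by
      rw [(commutator_eq_bot_iff_center_eq_top P).mpr h1, card_bot] at h
      exact hp.one_lt.ne h
    have h2 : 2 ≤ k := by
      by_contra h3
      exact (hcyc k (by omega)).elim (fun h4 => h4 hk') hne
    have hmul := (center P).index_mul_card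
    rw [hk', hP] at hmul
    have h4 : k ≠ 4 := by
      rintro rfl
      have := hG.center_nontrivial
      have h5 : 1 < Nat.card (center P) := Finite.one_lt_card
      have : 0 < p ^ 4 := pow_pos hp.pos 4
      nlinarith
    have h3 : k ≠ 3 := by
      rintro rfl
      have hZ : Nat.card (center P) = p :=
        Nat.eq_of_mul_eq_mul_left (pow_pos hp.pos 3) (by rw [hmul, pow_succ])
      obtain ⟨z, hz, hzc, ho⟩ := H3.exists_mem_center_orderOf_eq hG (commutator P) (by
        intro h1; rw [h1, card_bot] at h; exact hp.one_lt.ne h)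
      have e1 : zpowers z = commutator P := eq_of_le_of_card_ge (zpowers_le.mpr hz)
        (by rw [Nat.card_zpowers, ho, h])
      have e2 : zpowers z = center P := eq_of_le_of_card_ge (zpowers_le.mpr hzc)
        (by rw [Nat.card_zpowers, ho, hZ])
      have e3 : commutator P = center P := e1.symm.trans e2
      have hex : IsExtraspecial p P := by
        refine ⟨⟨hG, le_antisymm ?_ ?_, e3⟩, hZ⟩
        · refine H3.frattini_le_of_elementary_quotient (p := p) e3.le fun x => ?_
          rw [mem_center_iff]
          intro y
          rw [← commutatorElement_eq_one_iff_mul_comm, H3.commutator_pow_right e3.le, ← h]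
          exact congrArg Subtype.val (pow_card_eq_one' (G := commutator P)
            (x := ⟨⁅y, x⁆, commutator_mem_commutator (mem_top _) (mem_top _)⟩))
        · rw [← e3]; exact H3.commutator_le_frattini hG
      obtain ⟨n, -, hn⟩ := S0095.result hex
      have := Nat.pow_right_injective hp.two_le (hP.symm.trans hn)
      omega
    rw [hk', show k = 2 by omega]
  · intro h
    have hne : center P ≠ ⊤ := fun h1 => by
      rw [h1, index_top] at h
      exact (Nat.one_lt_pow (by norm_num) hp.one_lt).ne h
    obtain ⟨a, ha⟩ : ∃ a, a ∉ center P := by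
      by_contra h1
      push Not at h1
      exact hne ((eq_top_iff' _).mpr h1)
    set A := centralizer ({a} : Set P) with hA
    have hZA : center P ≤ A := center_le_centralizer _
    have haA : a ∈ A := mem_centralizer_singleton_iff.mpr rfl
    have hAtop : A ≠ ⊤ := fun h1 => ha (mem_center_iff.mpr fun y =>
      mem_centralizer_singleton_iff.mp (h1 ▸ mem_top y : y ∈ A))
    have h1 := relIndex_mul_index hZA
    rw [h] at h1
    obtain ⟨k, hk, hk'⟩ := (Nat.dvd_prime_pow hp).mp (Dvd.intro_left _ h1)
    have hAi : A.index = p := by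
      interval_cases k
      · exact (hAtop (index_eq_one.mp hk')).elim
      · simpa using hk'
      · rw [hk'] at h1
        have h2 : (center P).relIndex A = 1 := by simpa [hp.ne_zero] using h1
        exact (ha (relIndex_eq_one.mp h2 haA)).elim
    have hrel : (center P).relIndex A = p := by
      rw [hAi, sq] at h1
      exact Nat.eq_of_mul_eq_mul_right hp.pos h1
    have := H3.normal_of_index_eq hG hAi
    have hsup := H85.sup_zpowers_eq_top_of_index_prime hp hrel (x := ⟨a, haA⟩) ha
    have hAmem : ∀ y ∈ A, ∃ z ∈ center P, ∃ i : ℤ, y = z * a ^ i := fun y hy => by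
      obtain ⟨z, hz, _, ⟨i, rfl⟩, e⟩ := mem_sup_of_normal_left.mp (hsup ▸ mem_top (⟨y, hy⟩ : A))
      exact ⟨z, hz, i, (congrArg Subtype.val e).symm⟩
    have hAc : ∀ y ∈ A, ∀ w ∈ A, y * w = w * y := fun y hy w hw => by
      obtain ⟨z, hz, i, rfl⟩ := hAmem y hy
      exact (Commute.mul_left (mem_center_iff.mp hz w).symm
        (Commute.zpow_left (mem_centralizer_singleton_iff.mp hw).symm i)).eq
    have hAA : ⁅A, A⁆ = ⊥ := by
      rw [eq_bot_iff, commutator_le]
      intro y hy w hw
      exact commutatorElement_eq_one_iff_mul_comm.mpr (hAc y hy w hw)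
    obtain ⟨x, hx⟩ : ∃ x, x ∉ A := by
      by_contra h1
      push Not at h1
      exact hAtop ((eq_top_iff' _).mpr h1)
    have hsup' := H85.sup_zpowers_eq_top_of_index_prime hp hAi hx
    have h2 := H85.index_commutator_mul_card A hsup'
    have h3 : Nat.card {n : A // ⁅x, (n : P)⁆ ∈ ⁅A, A⁆} = Nat.card (center P) := by
      refine Nat.card_congr ⟨fun n => ⟨n.1.1, ?_⟩, fun z => ⟨⟨z.1, hZA z.2⟩, ?_⟩,
        fun _ => rfl, fun _ => rfl⟩
      · have h4 : A ⊔ zpowers x ≤ centralizer {n.1.1} := sup_le
          (fun y hy => mem_centralizer_singleton_iff.mpr (hAc y hy _ n.1.2))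
          (zpowers_le.mpr (mem_centralizer_singleton_iff.mpr
            (commutatorElement_eq_one_iff_mul_comm.mp (mem_bot.mp (hAA ▸ n.2)))))
        exact mem_center_iff.mpr fun y =>
          mem_centralizer_singleton_iff.mp (h4 (hsup' ▸ mem_top y))
      · rw [commutatorElement_eq_one_iff_mul_comm.mpr (mem_center_iff.mp z.2 x)]
        exact one_mem _
    have h4 := (center P).index_mul_card
    rw [h, hP] at h4
    have h5 : Nat.card (center P) = p ^ 2 :=
      Nat.eq_of_mul_eq_mul_left (pow_pos hp.pos 2) (by rw [h4]; ring)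
    rw [h3, h5, hAA, card_bot, mul_one, hAi] at h2
    have h6 := (commutator P).index_mul_card
    rw [h2, hP] at h6
    exact Nat.eq_of_mul_eq_mul_left (Nat.mul_pos hp.pos (pow_pos hp.pos 2)) (by rw [h6]; ring)

end Cfsg.Agent.S4584
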