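import Cfsg.Statements.S4585
import Cfsg.Agent.H4.MaxClass

set_option autoImplicit false
open Cfsg

namespace Cfsg.Agent.S4585

/-- Let p be a prime and P a group of order p^4. Then P' has index p^2 in P if and only if P has maximal nilpotency class, that is, nilpotency class exactly 3. -/
theorem result {P : Type*} [Group P] [Finite P] (p : ℕ) [Fact p.Prime] (hP : Nat.card P = p ^ 4) :
    (commutator P).index = p ^ 2 ↔ Group.nilpotencyClass P = 3 := by
-----
  have hp : p.Prime := Fact.out
  have hPp : IsPGroup p P := IsPGroup.of_card hP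
  have := hPp.isNilpotent
  refine ⟨fun h => ?_, fun h => H4.index_commutator_of_maximal_class (n := 4) (by norm_num) hP h⟩
  have hc : Nat.card (commutator P) = p ^ 2 := by
    have h1 := (commutator P).card_mul_index
    rw [h, hP, show 4 = 2 + 2 by norm_num, pow_add] at h1
    exact Nat.eq_of_mul_eq_mul_right (pow_pos hp.pos 2) h1
  refine le_antisymm ?_ ?_
  · by_contra h1
    have h2 := H4.pow_le_card_lowerCentralSeries hPp 3 1 (by omega)
    rw [Subgroup.top_lowerCentralSeries_one, hc, Nat.pow_le_pow_iff_right hp.one_lt] at h2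
    omega
  by_contra h1
  have h2 : commutator P ≤ Subgroup.center P := by
    have h3 := Subgroup.lowerCentralSeries_eq_bot_iff_nilpotencyClass_le.mpr
      (by omega : Group.nilpotencyClass P ≤ 2)
    rw [Subgroup.lowerCentralSeries_succ, Subgroup.top_lowerCentralSeries_one,
      Subgroup.commutator_eq_bot_iff_le_centralizer] at h3
    rwa [← Subgroup.centralizer_univ, ← Subgroup.coe_top]
  have hna : ¬ IsMulCommutative P := fun h3 => by
    rw [commutator_eq_bot, Subgroup.card_bot] at hc
    nlinarith [hp.one_lt]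
  obtain ⟨x, y, hxy⟩ : ∃ x y : P, y * x ≠ x * y := by
    by_contra! h
    exact hna ⟨⟨fun a b => h b a⟩⟩
  set A := Subgroup.centralizer ({x} : Set P) with hA
  have h3 : commutator P < A := lt_of_le_of_ne (h2.trans (Subgroup.center_le_centralizer _))
    fun h => hxy (Subgroup.mem_center_iff.mp
      (h2 (h.ge (H2.mem_centralizer_singleton.mpr rfl))) y)
  have hyA : y ∉ A := fun h => hxy (H2.mem_centralizer_singleton.mp h)
  have h4 : A < ⊤ := lt_top_iff_ne_top.mpr fun h => hyA (h ▸ Subgroup.mem_top y)
  have h5 := H4.mul_card_le_of_lt (hPp.to_subgroup _) h3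
  have h6 := H4.mul_card_le_of_lt (hPp.to_subgroup _) h4
  rw [Subgroup.card_top, hP, pow_succ'] at h6
  have h7 : Nat.card A = p ^ 3 :=
    le_antisymm (Nat.le_of_mul_le_mul_left h6 hp.pos) (by rwa [hc, ← pow_succ'] at h5)
  have h8 : A.index = p := by
    have h9 := A.card_mul_index
    rw [h7, hP, pow_succ p 3] at h9
    exact Nat.eq_of_mul_eq_mul_left (pow_pos hp.pos 3) h9
  have := H3.normal_of_index_eq hPp h8
  have h9 : commutator P ⊔ Subgroup.zpowers x = A := by
    refine Subgroup.eq_of_le_of_card_ge (sup_le h3.le (Subgroup.zpowers_le.mpr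
      (H2.mem_centralizer_singleton.mpr rfl))) ?_
    have h10 : commutator P < commutator P ⊔ Subgroup.zpowers x :=
      lt_of_le_of_ne le_sup_left fun h => hxy (Subgroup.mem_center_iff.mp
        (h2 (h.ge (Subgroup.mem_sup_right (Subgroup.mem_zpowers x)))) y)
    have h11 := H4.mul_card_le_of_lt (hPp.to_subgroup _) h10
    rwa [hc, ← pow_succ', ← h7] at h11
  have : IsMulCommutative (commutator P) :=
    Subgroup.le_centralizer_iff_isMulCommutative.mp (h2.trans (Subgroup.center_le_centralizer _))
  have : IsMulCommutative A := h9 ▸ H4.isMulCommutative_sup_zpowers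
    fun z hz => (Subgroup.mem_center_iff.mp (h2 hz) x).symm
  have h10 := H4.card_inf_centralizer_mul_card_commutator
    (H4.sup_zpowers_eq_top_of_index_prime (h8 ▸ hp) hyA)
  have h11 : Nat.card (commutator P) ≤ Nat.card ↥(A ⊓ Subgroup.centralizer {y}) :=
    Subgroup.card_le_of_le (le_inf h3.le (h2.trans (Subgroup.center_le_centralizer _)))
  rw [hc] at h10 h11
  have h12 : p ^ 2 * p ^ 2 ≤ p ^ 3 := by
    rw [← h7, ← h10]
    exact Nat.mul_le_mul_right _ h11
  rw [← pow_add, Nat.pow_le_pow_iff_right hp.one_lt] at h12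
  omega

end Cfsg.Agent.S4585
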