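import Cfsg.Statements.S4587
import Cfsg.Agent.H85.AbIndex
import Cfsg.Agent.H85.AlmostSimple
import Cfsg.Agent.S0081
import Cfsg.Agent.H72.Conj

set_option autoImplicit false
open Cfsg

namespace Cfsg.Agent.S4587

open Subgroup
open scoped commutatorElement Pointwise

variable {G : Type*} [Group G] [Finite G] {p : ℕ} [hp : Fact p.Prime]

omit [Finite G] hp in
theorem subgroupOf_comm (P : Subgroup G) : ⁅P, P⁆.subgroupOf P = commutator P := by
  rw [← map_subtype_commutator, subgroupOf, comap_map_eq_self_of_injective P.subtype_injective]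

theorem not_pcomp (hO : pPrimeCore p G = ⊥) {L : Subgroup G} (hL : H44.Comp ⊤ L) :
    ¬ HasNormalPComplement p L := by
  intro h
  rw [H3.hasNormalPComplement_iff_coprime] at h
  obtain ⟨h1, -, h3⟩ := H44.isQuasisimple_iff.mp (H44.qs_iff.mp hL.qs)
  have h4 : pResidual p L = ⊤ := by
    have hq : IsPGroup p (L ⧸ pResidual p L) := H3.isPGroup_quotient_pResidual
    have h5 := H85.eq_top_of_sup_commutator hq (R := ⊥) (by
      rw [bot_sup_eq, _root_.commutator_def,
        ← map_top_of_surjective _ (QuotientGroup.mk'_surjective (pResidual p L)), ← map_commutator,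
        ← _root_.commutator_def, h1])
    rw [eq_top_iff]
    intro y _
    rw [← QuotientGroup.eq_one_iff, ← mem_bot, h5]
    trivial
  rw [h4, card_top] at h
  exact hL.qs.ne_bot (le_bot_iff.mp (hO ▸ H44.le_pPrimeCore_of_subnormal
    (H44.sn_top_iff.mp hL.sn) h))

/-- Tate's theorem for subgroups normalized by `P`. -/
theorem tate (hO : pPrimeCore p G = ⊥) (P : Sylow p G) {L N : Subgroup G} (hL : H44.Comp ⊤ L)
    (hLN : L ≤ N) (hN : (P : Subgroup G) ≤ normalizer (N : Set G)) :
    ¬ N.subgroupOf P ≤ commutator (P : Subgroup G) := by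
  intro h
  have hle : (P : Subgroup G) ≤ N ⊔ P := le_sup_right
  have : (N.subgroupOf (N ⊔ P)).Normal :=
    normal_subgroupOf_of_le_normalizer (sup_le le_normalizer hN)
  have h1 := S0081.result (P.subtype hle) (N.subgroupOf (N ⊔ P)) (by
    rintro y ⟨hy, hyP⟩
    refine map_mono (H3.commutator_le_frattini (P.subtype hle).isPGroup') ?_
    rw [map_subtype_commutator]
    have h2 : (y : G) ∈ ⁅(P : Subgroup G), (P : Subgroup G)⁆ := by
      have := h (x := ⟨y, hyP⟩) hy
      rwa [← subgroupOf_comm, mem_subgroupOf] at this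
    have h3 : (⁅(P : Subgroup G).subgroupOf (N ⊔ P), (P : Subgroup G).subgroupOf (N ⊔ P)⁆).map
        (N ⊔ P).subtype = ⁅(P : Subgroup G), (P : Subgroup G)⁆ := by
      rw [map_commutator, map_subgroupOf_eq_of_le hle]
    obtain ⟨z, hz, hzy⟩ := h3.ge h2
    exact (Subtype.ext hzy : z = y) ▸ hz)
  rw [H3.hasNormalPComplement_subgroupOf_iff le_sup_left] at h1
  exact not_pcomp hO hL (H3.hasNormalPComplement_of_le hLN h1)

theorem not_normalizes (hO : pPrimeCore p G = ⊥) (hF : fittingSubgroup G = ⊥) (P : Sylow p G)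
    (hP : (commutator (P : Subgroup G)).index = p ^ 2) (hab : commutator (P : Subgroup G) ≠ ⊥)
    {K L : Subgroup G} (hK : H44.Comp ⊤ K) (hL : H44.Comp ⊤ L) (hne : K ≠ L) :
    ¬ (P : Subgroup G) ≤ normalizer (L : Set G) := by
  intro h
  have hC := h.trans (H44.normalizer_le_normalizer_centralizer L)
  have hKC := commutator_eq_bot_iff_le_centralizer.mp (hK.commutator_eq_bot_of_ne hL hne)
  have h1 := tate hO P hL le_rfl h
  have h2 := tate hO P hK hKC hC
  have : (L.subgroupOf P).Normal := normal_subgroupOf_of_le_normalizer h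
  have : ((centralizer (L : Set G)).subgroupOf P).Normal := normal_subgroupOf_of_le_normalizer hC
  have h3 : L.subgroupOf P ⊓ (centralizer (L : Set G)).subgroupOf P = ⊥ := by
    rw [subgroupOf, subgroupOf, ← comap_inf, (H85.comp_simple hF hL).2,
      MonoidHom.comap_bot, ker_subtype]
  rcases H85.eq_top_or_index_eq P.isPGroup' hP h1 with h4 | h4
  · rw [h4, top_inf_eq] at h3
    exact h2 (h3.le.trans bot_le)
  rcases H85.eq_top_or_index_eq P.isPGroup' hP h2 with h5 | h5
  · rw [h5, inf_top_eq] at h3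
    exact h1 (h3.le.trans bot_le)
  apply hab
  rw [eq_bot_iff, ← h3]
  exact le_inf (H85.commutator_le_of_index_sup_dvd P.isPGroup'
      ((index_dvd_of_le le_sup_left).trans h4.dvd))
    (H85.commutator_le_of_index_sup_dvd P.isPGroup' ((index_dvd_of_le le_sup_left).trans h5.dvd))

theorem decomp (hF : fittingSubgroup G = ⊥) (P : Sylow p G) {L : Subgroup G}
    (hL : H44.Comp ⊤ L) {r : G} (hr : r ∈ (P : Subgroup G) ⊓ layer G) :
    ∃ l ∈ (P : Subgroup G) ⊓ L, ∃ c ∈ centralizer (L : Set G), l * c = r := by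
  have h1 : layer G ≤ L ⊔ centralizer (L : Set G) := by
    rw [← H44.Eof_top, H44.Eof_le_iff]
    intro K hK
    rcases hK.eq_or_commutator_eq_bot hL with h | h
    · exact h.le.trans le_sup_left
    · exact (commutator_eq_bot_iff_le_centralizer.mp h).trans le_sup_right
  obtain ⟨l, hl, c, hc, rfl⟩ :=
    (H21.mem_sup_of_le_normalizer (centralizer_le_normalizer _)).mp (h1 hr.2)
  refine ⟨l, ⟨?_, hl⟩, c, hc, rfl⟩
  obtain ⟨k, hk⟩ := P.isPGroup' ⟨_, hr.1⟩
  have hk' : (l * c) ^ p ^ k = 1 := congrArg Subtype.val hk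
  have hlc : Commute l c := hc l hl
  rw [hlc.mul_pow, mul_eq_one_iff_eq_inv] at hk'
  have h2 : l ^ p ^ k ∈ L ⊓ centralizer (L : Set G) :=
    mem_inf.mpr ⟨pow_mem hl _, hk' ▸ inv_mem (pow_mem hc _)⟩
  rw [(H85.comp_simple hF hL).2, mem_bot] at h2
  obtain ⟨R, hR⟩ := H85.exists_sylow_subgroupOf P.isPGroup' (H85.not_dvd_relIndex_of_sn P hL.sn)
  have h3 : IsPGroup p (zpowers (⟨l, hl⟩ : L)) := by
    rintro ⟨_, n, rfl⟩
    exact ⟨k, Subtype.ext (Subtype.ext (by
      change (l ^ n) ^ p ^ k = 1
      rw [← zpow_natCast, ← zpow_mul, mul_comm, zpow_mul, zpow_natCast, h2, one_zpow]))⟩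
  have h4 : (⟨l, hl⟩ : L) ∈ normalizer ((R : Subgroup L) : Set L) := by
    rw [hR, mem_normalizer_iff]
    intro y
    have e : l * y * l⁻¹ = (l * c) * y * (l * c)⁻¹ := by
      rw [mul_assoc l c, ← hc y y.2]; group
    change (y : G) ∈ (P : Subgroup G) ↔ l * y * l⁻¹ ∈ (P : Subgroup G)
    rw [e]
    exact mem_normalizer_iff.mp (le_normalizer hr.1) y
  have h5 : (⟨l, hl⟩ : L) ∈ zpowers (⟨l, hl⟩ : L) ⊓ (R : Subgroup L) := by
    rw [← h3.inf_normalizer_sylow R]
    exact ⟨mem_zpowers _, h4⟩
  have h6 := h5.2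
  rw [hR] at h6
  exact h6

theorem comm_le (hF : fittingSubgroup G = ⊥) (P : Sylow p G) {L : Subgroup G}
    (hL : H44.Comp ⊤ L) {r : G}
    (hr : r ∈ ⁅(P : Subgroup G) ⊓ layer G, (P : Subgroup G) ⊓ layer G⁆) :
    r ∈ ⁅(P : Subgroup G) ⊓ L, (P : Subgroup G) ⊓ L⁆ ⊔ centralizer (L : Set G) := by
  refine commutator_le.mpr ?_ hr
  intro a ha b hb
  obtain ⟨l, hl, c, hc, rfl⟩ := decomp hF P hL ha
  obtain ⟨m, hm, d, hd, rfl⟩ := decomp hF P hL hb
  have e : ⁅l * c, m * d⁆ = ⁅l, m⁆ * ⁅c, d⁆ := by
    have h1 : Commute l c := hc l hl.2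
    have h2 : Commute l d := hd l hl.2
    have h3 : Commute m c := hc m hm.2
    have h4 : Commute m d := hd m hm.2
    simp only [commutatorElement_def, mul_inv_rev, mul_assoc]
    congr 1
    rw [h3.symm.left_comm]
    congr 1
    rw [← h1.inv_left.inv_right.left_comm, ← h2.inv_left.left_comm, ← h1.inv_left.left_comm,
      ← h4.inv_left.inv_right.eq, ← h3.inv_left.inv_right.left_comm, ← h4.inv_left.left_comm,
      ← h3.inv_left.left_comm]
  rw [e]
  exact mul_mem_sup (commutator_mem_commutator hl hm)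
    (mul_mem (mul_mem (mul_mem hc hd) (inv_mem hc)) (inv_mem hd))

theorem exists_normal (P : Sylow p G) (hO : pPrimeCore p G = ⊥)
    (hcore : (⁅(P : Subgroup G), (P : Subgroup G)⁆).normalCore = ⊥)
    (hnas : ¬ ∃ S : Subgroup G, S.Normal ∧ IsSimpleGroup S ∧ ¬ IsMulCommutative S ∧
      centralizer (S : Set G) = ⊥)
    (hP : (commutator (P : Subgroup G)).index = p ^ 2) (hab : commutator (P : Subgroup G) ≠ ⊥) :
    ∃ N : Subgroup G, N.Normal ∧ (N.subgroupOf P).index = p ∧
      ⁅N.subgroupOf P, N.subgroupOf P⁆ = ⊥ := by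
  suffices ∃ N : Subgroup G, N.Normal ∧ (¬ N.subgroupOf P ≤ commutator (P : Subgroup G)) ∧
      ⁅N.subgroupOf P, N.subgroupOf P⁆ = ⊥ by
    obtain ⟨N, hN, h1, h2⟩ := this
    refine ⟨N, hN, (H85.eq_top_or_index_eq P.isPGroup' hP h1).resolve_left fun h => hab ?_, h2⟩
    rwa [h] at h2
  by_cases hOp : pCore p G = ⊥
  swap
  · refine ⟨pCore p G ⊓ centralizer (pCore p G : Set G), inferInstance, fun h => ?_, ?_⟩
    · have : Nontrivial (pCore p G) := (nontrivial_iff_ne_bot _).mpr hOp
      have h1 := (H22.isPGroup_pCore (p := p) (G := G)).center_nontrivial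
      rw [nontrivial_iff_ne_bot, Ne, ← map_eq_bot_iff_of_injective _ (subtype_injective _),
        H44.map_center_subtype] at h1
      apply h1
      rw [eq_bot_iff, ← hcore, normal_le_normalCore]
      intro y hy
      have := h (x := ⟨y, H22.pCore_le_sylow P hy.1⟩) hy
      rwa [← subgroupOf_comm, mem_subgroupOf] at this
    · rw [commutator_eq_bot_iff_le_centralizer]
      intro a ha b hb
      exact Subtype.ext (ha.2 b hb.1)
  have hF : fittingSubgroup G = ⊥ := by rw [H85.fitting_eq_pCore hO, hOp]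
  have : Nontrivial G := by
    obtain ⟨x, hx⟩ := ne_bot_iff_exists_ne_one.mp hab
    exact ⟨⟨x.1.1, 1, fun h => hx (Subtype.ext (Subtype.ext h))⟩⟩
  obtain ⟨K1, K2, hK1, hK2, hne⟩ : ∃ K L : Subgroup G, H44.Comp ⊤ K ∧ H44.Comp ⊤ L ∧ K ≠ L := by
    by_contra hc
    push Not at hc
    obtain ⟨-, h2, h3, h4, -⟩ := H85.almostSimple hF hc
    have := H44.gfitting_characteristic (G := G)
    exact hnas ⟨_, inferInstance, h2, h3, h4⟩
  have hnn : ∀ L : Subgroup G, H44.Comp ⊤ L → ¬ (P : Subgroup G) ≤ normalizer (L : Set G) := fun L hL => by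
    by_cases h : K1 = L
    · exact not_normalizes hO hF P hP hab hK2 hL (h ▸ hne.symm)
    · exact not_normalizes hO hF P hP hab hK1 hL h
  have hEN : ∀ L : Subgroup G, H44.Comp ⊤ L → layer G ≤ normalizer (L : Set G) := fun L hL =>
    (H44.Eof_top (G := G)).ge.trans hL.Eof_le_normalizer
  have hT := tate hO P hK1 (hK1.le_Eof.trans (H44.Eof_top (G := G)).le)
    (by rw [normalizer_eq_top]; exact le_top)
  refine ⟨layer G, inferInstance, hT, ?_⟩
  have hidx : ((layer G).subgroupOf P).index = p :=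
    (H85.eq_top_or_index_eq P.isPGroup' hP hT).resolve_left fun h =>
      hnn K1 hK1 ((subgroupOf_eq_top.mp h).trans (hEN K1 hK1))
  have hmap : ((layer G).subgroupOf P).map (P : Subgroup G).subtype = (P : Subgroup G) ⊓ layer G := by
    rw [subgroupOf_map_subtype, inf_comm]
  have key : ∀ L : Subgroup G, H44.Comp ⊤ L → ⁅(P : Subgroup G) ⊓ L, (P : Subgroup G) ⊓ L⁆ = ⊥ := by
    intro L hL
    have hLE : L ≤ layer G := hL.le_Eof.trans (H44.Eof_top (G := G)).le
    obtain ⟨x, hxP, hx⟩ := SetLike.not_le_iff_exists.mp (hnn L hL)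
    have hstab : (normalizer (L : Set G)).subgroupOf P = (layer G).subgroupOf P := by
      have h1 : (layer G).subgroupOf P ≤ (normalizer (L : Set G)).subgroupOf P :=
        subgroupOf_mono _ (hEN L hL)
      have h2 := relIndex_mul_index h1
      rw [hidx] at h2
      rcases (Nat.dvd_prime hp.out).mp (Dvd.intro_left _ h2) with h | h
      · exact (hnn L hL (subgroupOf_eq_top.mp (index_eq_one.mp h))).elim
      · rw [h, mul_eq_right₀ hp.out.ne_zero, relIndex_eq_one] at h2
        exact le_antisymm h2 h1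
    have hxE : (⟨x, hxP⟩ : (P : Subgroup G)) ∉ (layer G).subgroupOf P := hstab ▸ hx
    have hsup := H85.sup_zpowers_eq_top_of_index_prime hp.out hidx hxE
    obtain ⟨n, hn⟩ : ∃ n, p = n + 1 := ⟨p - 1, (Nat.sub_add_cancel hp.out.one_le).symm⟩
    have h1 : ∀ a ∈ (P : Subgroup G) ⊓ L, a ∈ ⁅(P : Subgroup G), (P : Subgroup G)⁆ →
        a ∈ ⁅(P : Subgroup G) ⊓ L, (P : Subgroup G) ⊓ L⁆ := by
      intro a ha ha'
      have h2 := H85.mem_of_norm hsup (n := n) (by rw [← hidx.trans hn]; exact pow_index_mem _ _)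
        (T := (⁅(P : Subgroup G) ⊓ L, (P : Subgroup G) ⊓ L⁆ ⊔ centralizer (L : Set G)).subgroupOf P)
        (fun r hr => comm_le hF P hL (by
          rw [← hmap, ← map_commutator]; exact mem_map_of_mem _ hr))
        (a := ⟨a, ha.1⟩) (hLE ha.2) (by rwa [← subgroupOf_comm, mem_subgroupOf]) (fun i hi => by
          refine mem_sup_right ?_
          have h3 : x ^ (i + 1) ∉ normalizer (L : Set G) := fun h => by
            have h4 : (⟨x, hxP⟩ : (P : Subgroup G)) ^ (i + 1) ∈ (layer G).subgroupOf P := hstab ▸ h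
            rw [← QuotientGroup.eq_one_iff, QuotientGroup.mk_pow] at h4
            have h5 := orderOf_dvd_of_pow_eq_one h4
            have h6 := orderOf_dvd_natCard
              ((⟨x, hxP⟩ : (P : Subgroup G)) : (P : Subgroup G) ⧸ (layer G).subgroupOf P)
            rw [← index, hidx, Nat.dvd_prime hp.out, orderOf_eq_one_iff,
              QuotientGroup.eq_one_iff] at h6
            rw [h6.resolve_left hxE] at h5
            have := Nat.le_of_dvd (Nat.succ_pos i) h5
            omega
          have h4 := hL.conj (g := x ^ (i + 1)) (by rw [normalizer_eq_top]; exact mem_top _)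
          rw [mem_normalizer_iff_map_conj_eq] at h3
          exact commutator_eq_bot_iff_le_centralizer.mp (h4.commutator_eq_bot_of_ne hL h3)
            ⟨a, ha.2, rfl⟩)
      have hle : ⁅(P : Subgroup G) ⊓ L, (P : Subgroup G) ⊓ L⁆ ≤ L :=
        (commutator_le_self _).trans inf_le_right
      obtain ⟨l, hl, c, hc, he⟩ := (H21.mem_sup_of_le_normalizer ((centralizer_le hle).trans
        (centralizer_le_normalizer _))).mp (mem_subgroupOf.mp h2)
      have h3 : c ∈ L ⊓ centralizer (L : Set G) :=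
        mem_inf.mpr ⟨by rw [eq_inv_mul_of_mul_eq he]; exact mul_mem (inv_mem (hle hl)) ha.2, hc⟩
      rw [(H85.comp_simple hF hL).2, mem_bot] at h3
      rw [h3, mul_one] at he
      exact (he ▸ hl :)
    have h2 : (commutator ↥((P : Subgroup G) ⊓ L)).index ∣ p := by
      have h3 : ⁅(P : Subgroup G), (P : Subgroup G)⁆.relIndex (P ⊓ layer G) = p := by
        have h4 := relIndex_mul_index (H85.commutator_le_of_index_sup_dvd P.isPGroup'
          (R := (layer G).subgroupOf P) ((index_dvd_of_le le_sup_left).trans hidx.dvd))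
        rw [hidx, hP, pow_two, mul_left_inj' hp.out.ne_zero, ← subgroupOf_comm,
          ← inf_subgroupOf_left (layer G), relIndex_subgroupOf inf_le_left] at h4
        exact h4
      have : (⁅(P : Subgroup G), (P : Subgroup G)⁆.subgroupOf (P ⊓ layer G)).Normal :=
        normal_subgroupOf_of_le_normalizer (inf_le_left.trans (normalizer_commutator_ge_left _ _))
      have hle : (P : Subgroup G) ⊓ L ≤ (P : Subgroup G) ⊓ layer G := inf_le_inf_left _ hLE
      have h4 : ⁅(P : Subgroup G), (P : Subgroup G)⁆.relIndex (P ⊓ L) ∣ p := by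
        refine dvd_trans ?_ h3.dvd
        rw [← relIndex_subgroupOf hle]
        exact relIndex_dvd_index_of_normal _ _
      refine dvd_trans (index_dvd_of_le fun a ha => ?_) h4
      rw [← subgroupOf_comm, mem_subgroupOf]
      exact h1 a a.2 ha
    have h3 := H85.commutator_eq_bot_of_index_dvd (P.isPGroup'.to_le inf_le_left) h2
    rw [← map_subtype_commutator, h3, Subgroup.map_bot]
  rw [← map_eq_bot_iff_of_injective _ (subtype_injective _), map_commutator, hmap, eq_bot_iff]
  intro r hr
  have h1 : centralizer (generalizedFittingSubgroup G : Set G) = ⊥ :=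
    le_bot_iff.mp (hF ▸ H44.centralizer_gfitting_le_fitting)
  rw [← h1, ← H44.FSof_top, H44.FSof_eq, H44.Fof_top, hF, sup_bot_eq, ← zpowers_le,
    le_centralizer_iff, H44.Eof_le_iff]
  intro L hL
  rw [le_centralizer_iff, zpowers_le]
  have := comm_le hF P hL hr
  rwa [key L hL, bot_sup_eq] at this

/-- Let G be a finite group, p a prime and P a Sylow p-subgroup of order at least p². Assume that G has no nontrivial normal subgroup of order prime to p, that the derived subgroup P' of P contains no nontrivial normal subgroup of G, and that G is not almost simple (there is no non-abelian simple normal subgroup of G with trivial centralizer). Then [P : P'] = p² if and only if some p-element x of G has centralizer whose order has p-part exactly p². -/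
theorem result {G : Type*} [Group G] [Finite G] (p : ℕ) [Fact p.Prime] (P : Sylow p G) (hbig : p ^ 2 ∣ Nat.card G) (hcore : Cfsg.pPrimeCore p G = ⊥)
    (hcore' : (⁅(P : Subgroup G), (P : Subgroup G)⁆).normalCore = ⊥) (hnas : ¬ ∃ S : Subgroup G, S.Normal ∧ IsSimpleGroup S ∧ ¬ IsMulCommutative S ∧ Subgroup.centralizer (S : Set G) = ⊥) :
    (⁅(P : Subgroup G), (P : Subgroup G)⁆).relIndex (P : Subgroup G) = p ^ 2 ↔
      ∃ x : G, (∃ k : ℕ, orderOf x = p ^ k) ∧ (Nat.card (Subgroup.centralizer ({x} : Set G))).factorization p = 2 := by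
  have hpp : p.Prime := Fact.out
  rw [relIndex, subgroupOf_comm]
  have hcent : ∀ (Q : Subgroup G) (x : Q), Nat.card (centralizer ({x} : Set Q)) =
      Nat.card ↥(centralizer ({(x : G)} : Set G) ⊓ Q) := fun Q x => by
    rw [H83.cent_subgroup, ← subgroupOf_map_subtype, card_map_of_injective Q.subtype_injective]
  have hPbig : p ^ 2 ∣ Nat.card (P : Subgroup G) := P.pow_dvd_card_of_pow_dvd_card hbig
  constructor
  · intro hP
    by_cases hab : commutator (P : Subgroup G) = ⊥
    · refine ⟨1, ⟨0, by simp⟩, ?_⟩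
      rw [hab, index_bot, P.card_eq_multiplicity] at hP
      rw [(centralizer_eq_top_iff_subset).mpr (by simp), card_top]
      exact Nat.pow_right_injective hpp.two_le hP
    obtain ⟨N, hN, h1, h2⟩ := exists_normal P hcore hcore' hnas hP hab
    have key : ∀ y ∈ (P : Subgroup G), y ∉ N →
        Nat.card ↥(centralizer ({y} : Set G) ⊓ P) = p ^ 2 := fun y hy hyN => by
      rw [← hP, ← H85.card_centralizer_eq_index h2
        (H85.sup_zpowers_eq_top_of_index_prime hpp h1 (x := ⟨y, hy⟩) hyN), hcent]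
    obtain ⟨x, hxP, hx⟩ : ∃ x ∈ (P : Subgroup G), x ∉ N := by
      by_contra hc
      push Not at hc
      rw [subgroupOf_eq_top.mpr hc, index_top] at h1
      exact hpp.one_lt.ne h1
    have hxp : IsPGroup p (zpowers x) := P.isPGroup'.to_le (zpowers_le.mpr hxP)
    refine ⟨x, by simpa using hxp.exists_card_eq, ?_⟩
    obtain ⟨Q, hQ⟩ := (hxp.comap_subtype (K := centralizer ({x} : Set G))).exists_le_sylow
    obtain ⟨P1, hP1⟩ := (Q.isPGroup'.map (centralizer ({x} : Set G)).subtype).exists_le_sylow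
    obtain ⟨g, rfl⟩ := MulAction.exists_smul_eq G P P1
    have hxQ : x ∈ (Q : Subgroup _).map (centralizer ({x} : Set G)).subtype :=
      ⟨⟨x, H83.self_mem_cent x⟩, hQ (mem_zpowers x), rfl⟩
    have h3 := key (g⁻¹ * x * g) (H2.mem_conj_smul.mp (hP1 hxQ))
      (fun h => hx (by simpa [mul_assoc] using hN.conj_mem _ h g))
    have h4 : Nat.card (Q : Subgroup (centralizer ({x} : Set G))) ≤ p ^ 2 := by
      rw [← h3, ← H2.card_conj_smul _ g, smul_inf, ← H83.cent_conj,
        ← card_map_of_injective (centralizer ({x} : Set G)).subtype_injective]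
      refine card_le_of_le (le_inf ?_ hP1)
      simpa [mul_assoc] using map_subtype_le _
    have h5 : p ^ 2 ∣ Nat.card (Q : Subgroup (centralizer ({x} : Set G))) :=
      Q.pow_dvd_card_of_pow_dvd_card (key x hxP hx ▸ card_dvd_of_le inf_le_left)
    have h6 := le_antisymm h4 (Nat.le_of_dvd Nat.card_pos h5)
    rw [Q.card_eq_multiplicity] at h6
    exact Nat.pow_right_injective hpp.two_le h6
  · rintro ⟨x, ⟨k, hk⟩, hx⟩
    have hxp : IsPGroup p (zpowers x) := IsPGroup.of_card (by rw [Nat.card_zpowers, hk])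
    obtain ⟨P1, hP1⟩ := hxp.exists_le_sylow
    have e := P.equiv P1
    have h1 : (commutator (P : Subgroup G)).index = (commutator (P1 : Subgroup G)).index := by
      rw [← index_map_equiv _ e, _root_.commutator_def, map_commutator,
        map_top_of_surjective _ e.surjective, _root_.commutator_def]
    have h2 := H85.index_commutator_le_card_centralizer
      (⟨x, hP1 (mem_zpowers x)⟩ : (P1 : Subgroup G))
    rw [hcent, ← h1] at h2
    obtain ⟨j, hj⟩ := (P1.isPGroup'.to_le
      (inf_le_right : centralizer ({x} : Set G) ⊓ P1 ≤ P1)).exists_card_eq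
    have h3 : j ≤ 2 := by
      rw [← hx, ← hpp.pow_dvd_iff_le_factorization Nat.card_pos.ne', ← hj]
      exact card_dvd_of_le inf_le_left
    obtain ⟨i, hi⟩ := P.isPGroup'.index (commutator (P : Subgroup G))
    have h4 : i ≤ 2 := by
      have : p ^ i ≤ p ^ j := hi ▸ hj ▸ h2
      exact ((Nat.pow_le_pow_iff_right hpp.one_lt).mp this).trans h3
    rcases h4.eq_or_lt with rfl | h5
    · exact hi
    · exfalso
      have h6 : (commutator (P : Subgroup G)).index ∣ p := by
        rw [hi]; exact (pow_dvd_pow p (Nat.lt_succ_iff.mp h5)).trans (pow_one p).dvd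
      rw [H85.commutator_eq_bot_of_index_dvd P.isPGroup' h6, index_bot] at h6
      have := Nat.le_of_dvd hpp.pos (hPbig.trans h6)
      nlinarith [hpp.two_le]

end Cfsg.Agent.S4587
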