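import Cfsg.Statements.S4588
import Cfsg.Agent.H6.SmallCent
import Cfsg.Agent.H86.Rank

set_option autoImplicit false
open Cfsg

namespace Cfsg.Agent.S4588

/-- Let G be a finite group, p a prime and M a maximal ideal of the algebraic integers containing p. If some p-element x of G (possibly x = 1) has centralizer whose order has p-part at most p², then the principal p-block of G contains at most p² irreducible characters of degree prime to p. -/
theorem result {G : Type*} [Group G] [Finite G] (p : ℕ) [Fact p.Prime] (M : Ideal Cfsg.AlgInt) (hM : Cfsg.IsPModular p M)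
    (hx : ∃ x : G, (∃ k : ℕ, orderOf x = p ^ k) ∧ (Nat.card (Subgroup.centralizer ({x} : Set G))).factorization p ≤ 2) :
    Nat.card {χ : Cfsg.IrrCharacter G // χ ∈ Cfsg.principalBlock M G ∧ ¬ p ∣ Cfsg.charDegree (χ : G → ℂ)} ≤ p ^ 2 := by
  have := hM.2.1
  have hp : p.Prime := Fact.out
  obtain ⟨x, hx, h2⟩ := hx
  by_cases hx1 : x = 1
  · subst hx1
    have hc : Subgroup.centralizer ({1} : Set G) = ⊤ := by
      ext g
      simp [Subgroup.mem_centralizer_iff]
    rw [hc, Subgroup.card_top] at h2
    by_cases hd : p ∣ Nat.card G
    · obtain ⟨u, hu⟩ := exists_prime_orderOf_dvd_card' p hd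
      refine H6.card_le_sq_of_ne_one hM (x := u) ⟨1, by rw [hu, pow_one]⟩ ?_ ?_
      · rintro rfl
        rw [orderOf_one] at hu
        exact hp.one_lt.ne hu
      · refine le_trans ?_ h2
        exact (Nat.factorization_le_iff_dvd Nat.card_pos.ne' Nat.card_pos.ne').mpr
          (Subgroup.card_subgroup_dvd_card _) p
    · have := Fintype.ofFinite G
      have h3 : blockDefect p (principalBlock M G) = 0 := by
        rw [H33.blockDefect_eq, Nat.factorization_eq_zero_of_not_dvd hd, Nat.zero_sub]
      have h4 := H86.card_eq_one_of_defect_zero hM (H6.isPBlock_principal M G) h3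
      refine le_trans (Nat.card_le_card_of_injective
        (fun χ => (⟨χ.1, χ.2.1⟩ : principalBlock M G))
        fun a b h => Subtype.ext (congrArg (fun z : principalBlock M G => z.1) h)) ?_
      rw [h4]
      exact Nat.one_le_pow _ _ hp.pos
  · exact H6.card_le_sq_of_ne_one hM hx hx1 h2

end Cfsg.Agent.S4588
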