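import Cfsg.Statements.S4591
import Cfsg.Agent.H6.PPrimeDeg
import Cfsg.Agent.S4456
import Cfsg.Agent.H33.Kernel

set_option autoImplicit false
open Cfsg

namespace Cfsg.Agent.S4591

open Cfsg.Agent Subgroup

/-- Let G be a finite group, p a prime and P a Sylow p-subgroup, and let N be the largest normal subgroup of G in which P has trivial centralizer (N is normal with C_N(P) = 1 and contains every normal subgroup with that property). Then the intersection of the kernels of the irreducible characters of G of degree prime to p is the normal core in G of the subgroup N·P' (P' the derived subgroup of P). In particular, when G has no nontrivial normal subgroup of order prime to p, that intersection is the normal core of P'. -/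
theorem result {G : Type*} [Group G] [Finite G] (p : ℕ) [Fact p.Prime] (P : Sylow p G) (N : Subgroup G) [N.Normal]
    (hN : N ⊓ Subgroup.centralizer ((P : Subgroup G) : Set G) = ⊥)
    (hmax : ∀ L : Subgroup G, L.Normal → L ⊓ Subgroup.centralizer ((P : Subgroup G) : Set G) = ⊥ → L ≤ N) :
    {g : G | ∀ χ : Cfsg.IrrCharacter G, ¬ p ∣ Cfsg.charDegree (χ : G → ℂ) → (χ : G → ℂ) g = (χ : G → ℂ) 1} =
      ((N ⊔ ⁅(P : Subgroup G), (P : Subgroup G)⁆).normalCore : Set G) := by
  classical
  have hp : p.Prime := Fact.out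
  set P' : Subgroup G := ⁅(P : Subgroup G), (P : Subgroup G)⁆ with hP'
  have hP'P : P' ≤ P := commutator_le_self _
  apply Set.Subset.antisymm
  · -- the intersection of the kernels lies in the core
    set K : Subgroup G := ⨅ χ : {χ : IrrCharacter G // ¬ p ∣ charDegree (χ : G → ℂ)},
      H5.charKer (H5.isCharacter_of_isIrr χ.1.2) with hK
    have hKm : ∀ g, g ∈ K ↔ ∀ χ : IrrCharacter G, ¬ p ∣ charDegree (χ : G → ℂ) →
        (χ : G → ℂ) g = (χ : G → ℂ) 1 := fun g => by
      simp only [hK, mem_iInf, H5.mem_charKer, Subtype.forall]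
    have hKn : K.Normal := normal_iInf_normal fun _ => inferInstance
    suffices h : K ≤ (N ⊔ P').normalCore from fun g hg => h ((hKm g).2 hg)
    rw [normal_le_normalCore]
    set H : Subgroup G := K ⊔ (P : Subgroup G) with hH
    have hHi : ¬ p ∣ H.index := fun h => P.not_dvd_index (h.trans (index_dvd_of_le le_sup_right))
    have hq : IsPGroup p (H ⧸ K.subgroupOf H) := by
      obtain ⟨k, hk⟩ := P.isPGroup'.exists_card_eq
      have h1 : K.relIndex H ∣ p ^ k := by
        rw [hH, relIndex_sup_left, ← hk]; exact index_dvd_card _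
      obtain ⟨j, -, hj⟩ := (Nat.dvd_prime_pow hp).1 h1
      exact IsPGroup.of_card hj
    have hker : ∀ ψ : IrrCharacter H, ¬ p ∣ charDegree (ψ : H → ℂ) →
        ∀ x ∈ K.subgroupOf H, (ψ : H → ℂ) x = (ψ : H → ℂ) 1 := by
      intro ψ hψ x hx
      obtain ⟨χ, h1, h2⟩ := H6.exists_over_not_dvd hp H hHi ψ hψ
      exact H6.apply_eq_of_mlt _ h1 ((hKm _).1 hx χ h2)
    obtain ⟨N₁, hN₁, hc, k, hk⟩ := S4456.result (G := H) p hp fun ψ h1 => by
      by_contra h2
      exact h1 (H6.charDegree_eq_one_of_ker _ hq ψ.2 h2 (hker ψ h2))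
    have hreg := H33.regular_iff_mem_of_normal_complement hp N₁
      (hp.coprime_iff_not_dvd.1 hc.symm) ⟨k, hk⟩
    have hN₁K : N₁ ≤ K.subgroupOf H := by
      intro x hx
      refine H3.pResidual_le_of_isPGroup_quotient _ hq (H3.mem_pResidual_of_coprime ?_)
      exact (hp.coprime_iff_not_dvd.2 ((hreg x).2 hx)).symm
    set M : Subgroup G := N₁.map H.subtype with hM
    have hMK : M ≤ K := by
      rintro _ ⟨x, hx, rfl⟩; exact hN₁K hx
    have hMn : M.Normal := ⟨by
      rintro _ ⟨x, hx, rfl⟩ g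
      have h1 : g * (x : G) * g⁻¹ ∈ H := mem_sup_left (hKn.conj_mem _ (hN₁K hx) g)
      refine ⟨⟨_, h1⟩, (hreg _).1 ?_, rfl⟩
      rw [← Subgroup.orderOf_coe]
      change ¬ p ∣ orderOf (MulAut.conj g (x : G))
      rw [MulEquiv.orderOf_eq, Subgroup.orderOf_coe]
      exact (hreg x).2 hx⟩
    have hMc : (Nat.card M).Coprime p := by
      rw [hM, card_map_of_injective H.subtype_injective]; exact hc
    have hPM : (P : Subgroup G) ≤ normalizer (M : Set G) := by
      rw [normalizer_eq_top]; exact le_top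
    have := P.isPGroup'.isNilpotent
    have hMN : M ≤ N := hmax M hMn ((H6.forall_sInv_iff _ inferInstance M hPM
      (H6.coprime_card_of_isPGroup P.isPGroup' hMc)).1 fun θ hθ => by
        obtain ⟨χ, h1, h2⟩ := H6.exists_over_of_sInv P M hMc θ hθ
        exact H6.eq_trivIrr_of_forall fun x => H6.apply_eq_of_mlt _ h1 ((hKm _).1 (hMK x.2) χ h2))
    have hKP : ∀ u ∈ K, u ∈ (P : Subgroup G) → u ∈ P' := by
      intro u huK huP
      by_contra h
      have h1 : (⟨u, huP⟩ : (P : Subgroup G)) ∉ _root_.commutator (P : Subgroup G) := by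
        intro h1
        apply h
        rw [hP', ← map_subtype_commutator]
        exact ⟨_, h1, rfl⟩
      obtain ⟨lam, hlam⟩ := H6.exists_hom_apply_ne_one h1
      obtain ⟨χ, h2, h3⟩ := H6.exists_over_not_dvd hp (P : Subgroup G) P.not_dvd_index
        ⟨_, H5.isIrrCharacter_monoidHom lam⟩ (by
          change ¬ p ∣ charDegree fun g => (lam g : ℂ)
          rw [H88.charDegree_monoidHom]; simpa using hp.ne_one)
      have h4 := H6.apply_eq_of_mlt _ h2 (x := ⟨u, huP⟩) ((hKm _).1 huK χ h3)
      apply hlam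
      apply Units.ext
      simpa using h4
    intro g hg
    have hsup : N₁ ⊔ (P : Subgroup G).subgroupOf H = ⊤ := by
      have h1 : (N₁ ⊔ (P : Subgroup G).subgroupOf H).index ∣ p ^ k :=
        hk ▸ index_dvd_of_le le_sup_left
      have h2 : ¬ p ∣ (N₁ ⊔ (P : Subgroup G).subgroupOf H).index := fun h =>
        P.not_dvd_index ((h.trans (index_dvd_of_le le_sup_right)).trans
          (relIndex_dvd_index_of_le (le_sup_right : (P : Subgroup G) ≤ H)))
      exact index_eq_one.1 (((hp.coprime_iff_not_dvd.2 h2).symm.pow_right k).eq_one_of_dvd h1)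
    have h1 : (⟨g, mem_sup_left hg⟩ : H) ∈ ((N₁ ⊔ (P : Subgroup G).subgroupOf H : Subgroup H) :
        Set H) := by rw [hsup]; trivial
    rw [normal_mul] at h1
    obtain ⟨m, hm, u, hu, h2⟩ := h1
    have h3 : (m : G) * u = g := congrArg Subtype.val h2
    have hmM : (m : G) ∈ M := ⟨m, hm, rfl⟩
    have huK : (u : G) ∈ K := by
      have : (u : G) = (m : G)⁻¹ * g := by rw [← h3]; group
      rw [this]; exact K.mul_mem (K.inv_mem (hMK hmM)) hg
    rw [← h3]
    exact mul_mem (mem_sup_left (hMN hmM)) (mem_sup_right (hKP _ huK hu))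
  · intro g hg χ hχ
    set L := (N ⊔ P').normalCore with hL
    have hNk := fun n hn => H6.apply_eq_of_inf_centralizer_eq_bot P N hN hχ (n := n) hn
    obtain ⟨φ, hφ, h1⟩ := H5.exists_isIrr_quotient N χ.2 hNk
    set Q : Subgroup G := L ⊓ P' with hQ
    have hNL : N ≤ L := normal_le_normalCore.2 le_sup_left
    have hdec : ∀ l ∈ L, ∃ n ∈ N, ∃ q ∈ Q, n * q = l := by
      intro l hl
      have h2 : l ∈ ((N ⊔ P' : Subgroup G) : Set G) := normalCore_le _ hl
      rw [normal_mul] at h2
      obtain ⟨n, hn, q, hq, h3⟩ := h2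
      refine ⟨n, hn, q, ⟨?_, hq⟩, h3⟩
      have : q = n⁻¹ * l := by rw [← h3]; group
      rw [this]; exact L.mul_mem (L.inv_mem (hNL hn)) hl
    set j : Q →* G ⧸ N := (QuotientGroup.mk' N).comp Q.subtype with hj
    have hr : j.range = L.map (QuotientGroup.mk' N) := by
      apply le_antisymm
      · rintro _ ⟨q, rfl⟩; exact ⟨q, q.2.1, rfl⟩
      · rintro _ ⟨l, hl, rfl⟩
        obtain ⟨n, hn, q, hq, rfl⟩ := hdec l hl
        refine ⟨⟨q, hq⟩, ?_⟩
        have h0 : QuotientGroup.mk' N n = 1 := (QuotientGroup.eq_one_iff n).2 hn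
        rw [map_mul, h0, one_mul]; rfl
    have hrn : j.range.Normal := by
      rw [hr]; exact Normal.map inferInstance _ (QuotientGroup.mk'_surjective N)
    obtain ⟨lam, hlam⟩ := H89.exists_linear_under P.isPGroup' (P : Subgroup G).subtype hχ
    have hQP : Q ≤ P := inf_le_right.trans hP'P
    have h2 : H89.mlt (inclusion hQP) (fun x => (lam x : ℂ)) (H88.trivIrr Q : Q → ℂ) ≠ 0 := by
      rw [H89.mlt_eq_one_of_res]
      · exact one_ne_zero
      · intro y
        have h3 : inclusion hQP y ∈ _root_.commutator (P : Subgroup G) := by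
          have h4 := y.2.2
          rw [hP', ← map_subtype_commutator] at h4
          obtain ⟨z, hz, h5⟩ := h4
          rwa [show inclusion hQP y = z from Subtype.ext h5.symm]
        have h4 : lam (inclusion hQP y) = 1 := Abelianization.commutator_subset_ker lam h3
        rw [h4]; rfl
    have h3 := H89.mlt_comp_ne_zero (P : Subgroup G).subtype (inclusion hQP) (χ := χ)
      (ξ := ⟨_, H5.isIrrCharacter_monoidHom lam⟩) (β := H88.trivIrr Q) hlam h2
    have h4 : H89.mlt j ((⟨φ, hφ⟩ : IrrCharacter (G ⧸ N)) : G ⧸ N → ℂ)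
        (H88.trivIrr Q : Q → ℂ) ≠ 0 := by
      rw [h1] at h3; exact h3
    obtain ⟨n, hn, q, hq, rfl⟩ := hdec g hg
    have h5 := H6.apply_eq_of_mlt_triv' j hrn h4 ⟨q, hq⟩
    rw [H5.apply_mul_of_apply_eq_degree (H5.isCharacter_of_isIrr χ.2) (hNk n hn), h1]
    exact h5

end Cfsg.Agent.S4591
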