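import Cfsg.Statements.S4601
import Cfsg.Agent.S4602
import Cfsg.Agent.S0023
import Cfsg.Agent.S0024
import Cfsg.Agent.H81.Misc

set_option autoImplicit false
open Cfsg

namespace Cfsg.Agent.S4601

open Subgroup Pointwise

theorem hyp_map {G G' : Type*} [Group G] [Finite G] [Group G'] {p q : ℕ} [hq : Fact q.Prime]
    (f : G →* G') (hf : Function.Surjective f)
    (h : ∀ y : G, (∃ k : ℕ, orderOf y = q ^ k) → ¬ p ∣ (centralizer ({y} : Set G)).index) :
    ∀ y : G', (∃ k : ℕ, orderOf y = q ^ k) → ¬ p ∣ (centralizer ({y} : Set G')).index := by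
  intro y hy hd
  obtain ⟨x, rfl, hx⟩ := H81.exists_pElt_lift f hf hq.out hy
  exact h x hx (hd.trans (H83.cs_map_dvd f hf x))

theorem coprime_case {G : Type*} [Group G] [Finite G] {p q : ℕ} [hp : Fact p.Prime]
    [hq : Fact q.Prime] (M : Subgroup G) [M.Normal] (hM : (Nat.card M).Coprime q) (Q : Sylow q G)
    (h : ∀ y : G, (∃ k : ℕ, orderOf y = q ^ k) → ¬ p ∣ (centralizer ({y} : Set G)).index) :
    ¬ p ∣ Nat.card (Sylow q ((Q : Subgroup G) ⊔ M : Subgroup G)) := by
  rw [H85.card_sylow_of_le Q le_sup_left, sup_comm,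
    H85.relIndex_eq_of_mul (A := M) le_sup_left (fun g hg => by
      obtain ⟨a, ha, b, hb, rfl⟩ := H85.mem_sup_normal_left hg
      exact ⟨a, ha, b, le_normalizer hb, rfl⟩)]
  have hcop : ∀ A : Subgroup G, IsPGroup q A → (Nat.card A).Coprime (Nat.card M) := by
    intro A hA
    obtain ⟨k, hk⟩ := hA.exists_card_eq
    rw [hk]; exact hM.symm.pow_left _
  have hs : ∀ A : Subgroup G, IsPGroup q A → Group.IsSolvable A := fun A hA => by
    have := hA.isNilpotent
    infer_instance
  obtain ⟨S, hS⟩ := S0023.result (Q : Subgroup G) M (by rw [normalizer_eq_top]; exact le_top)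
    (hcop _ Q.isPGroup') (Or.inl (hs _ Q.isPGroup')) p
  have key : (S : Subgroup M) ≤ (normalizer ((Q : Subgroup G) : Set G)).subgroupOf M := by
    intro s hsS
    rw [mem_subgroupOf]
    refine centralizer_le_normalizer _ fun y hy => ?_
    have hy' : IsPGroup q (zpowers y) := Q.isPGroup'.to_le (zpowers_le.mpr hy)
    obtain ⟨k, hk⟩ := hy'.exists_card_eq
    rw [Nat.card_zpowers] at hk
    obtain ⟨P, hP⟩ := H83.not_dvd_index_iff.mp (h y ⟨k, hk⟩)
    obtain ⟨P0, hP0⟩ := H85.exists_sylow_subgroupOf P.isPGroup'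
      (H85.not_dvd_relIndex_sylow_normal P M)
    have hP0c : ∀ t : M, t ∈ (P0 : Subgroup M) → (t : G) ∈ centralizer (zpowers y : Set G) := by
      intro t ht
      rw [hP0, mem_subgroupOf] at ht
      rintro _ ⟨n, rfl⟩
      exact ((show Commute (t : G) y from H83.mem_cent.mp (hP ht)).zpow_right n).symm.eq
    obtain ⟨c, hc, hcS⟩ := S0024.result (zpowers y) M (by rw [normalizer_eq_top]; exact le_top)
      (hcop _ hy') (Or.inl (hs _ hy')) p P0 S
      (le_trans (le_centralizer_iff.mp (by rintro _ ⟨t, ht, rfl⟩; exact hP0c t ht))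
        (centralizer_le_normalizer _))
      ((zpowers_le.mpr hy).trans hS)
    rw [← hcS] at hsS
    have h1 : c⁻¹ * s * c ∈ (P0 : Subgroup M) := by
      have : s ∈ MulAut.conj c • (P0 : Subgroup M) := hsS
      rwa [H2.mem_conj_smul] at this
    have h2 : (s : G) ∈ centralizer (zpowers y : Set G) := by
      have := mul_mem (mul_mem hc (hP0c _ h1)) (inv_mem hc)
      simpa [mul_assoc] using this
    exact h2 y (mem_zpowers y)
  exact fun hd => S.not_dvd_index (hd.trans (index_dvd_of_le key))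

theorem qsolv {G : Type*} [Group G] [Finite G] {p q : ℕ} [hp : Fact p.Prime] [hq : Fact q.Prime]
    (hsolv : IsPSolvable q G)
    (h : ∀ y : G, (∃ k : ℕ, orderOf y = q ^ k) → ¬ p ∣ (centralizer ({y} : Set G)).index) :
    ¬ p ∣ Nat.card (Sylow q G) := by
  revert hsolv h
  refine H2.card_induction (P := fun G _ _ => IsPSolvable q G →
    (∀ y : G, (∃ k : ℕ, orderOf y = q ^ k) → ¬ p ∣ (centralizer ({y} : Set G)).index) →
    ¬ p ∣ Nat.card (Sylow q G)) G ?_
  intro G _ _ ih hsolv h
  rcases subsingleton_or_nontrivial G with hG | hG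
  · have : Nat.card (Sylow q G) = 1 := by
      obtain ⟨Q⟩ : Nonempty (Sylow q G) := inferInstance
      rw [Sylow.card_eq_index_normalizer Q, index_eq_one]
      exact Subsingleton.elim _ _
    rw [this, Nat.dvd_one]; exact hp.out.ne_one
  rcases H22.IsPSolvable.pCore_ne_bot_or hsolv with hO | hO
  · have hf := QuotientGroup.mk'_surjective (pCore q G)
    rw [← H85.card_sylow_of_ker_isPGroup _ hf (by rw [QuotientGroup.ker_mk']; exact H22.isPGroup_pCore)]
    exact ih _ (H2.card_quotient_lt _ hO) (H22.IsPSolvable.quotient hsolv _) (hyp_map _ hf h)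
  · have hf := QuotientGroup.mk'_surjective (pPrimeCore q G)
    obtain ⟨Q⟩ : Nonempty (Sylow q G) := inferInstance
    rw [H85.card_sylow_eq_mul _ hf Q, hp.out.dvd_mul, not_or]
    refine ⟨ih _ (H2.card_quotient_lt _ hO) (H22.IsPSolvable.quotient hsolv _) (hyp_map _ hf h), ?_⟩
    rw [QuotientGroup.ker_mk']
    exact coprime_case _ H22.coprime_card_pPrimeCore Q h

/-- Let p and q be primes and G a finite group that is p-solvable or q-solvable, in which no q-element has conjugacy class size divisible by p. Then some Sylow p-subgroup of G normalizes some Sylow q-subgroup of G. -/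
theorem result {G : Type*} [Group G] [Finite G] (p q : ℕ) [Fact p.Prime] [Fact q.Prime] (hsolv : Cfsg.IsPSolvable p G ∨ Cfsg.IsPSolvable q G)
    (h : ∀ y : G, (∃ k : ℕ, orderOf y = q ^ k) → ¬ p ∣ (Subgroup.centralizer ({y} : Set G)).index) :
    ∃ (P : Sylow p G) (Q : Sylow q G), (P : Subgroup G) ≤ Subgroup.normalizer ((Q : Subgroup G) : Set G) := by
  by_cases hpq : p = q
  · subst hpq
    obtain ⟨P⟩ : Nonempty (Sylow p G) := inferInstance
    exact ⟨P, P, le_normalizer⟩
  rw [S4602.iff_card]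
  rcases hsolv with hsolv | hsolv
  · refine S4602.of_not_dvd p q fun hd => ?_
    have hf := QuotientGroup.mk'_surjective (pPrimeCore p G)
    obtain ⟨y, hy⟩ := exists_prime_orderOf_dvd_card' (G := G ⧸ pPrimeCore p G) q hd
    obtain ⟨P, hP⟩ := H83.not_dvd_index_iff.mp (hyp_map _ hf h y ⟨1, by rw [hy, pow_one]⟩)
    have : y = 1 := S4602.eq_one_of_cent hpq (H22.IsPSolvable.quotient hsolv _)
      H22.pPrimeCore_quotient_pPrimeCore (k := 1) (by rw [pow_one, ← hy, pow_orderOf_eq_one])
      fun z hz => H83.mem_cent.mp (hP (H22.pCore_le_sylow P hz))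
    rw [this, orderOf_one] at hy
    exact (Fact.out : q.Prime).one_lt.ne hy
  · exact qsolv hsolv h

end Cfsg.Agent.S4601
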