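import Cfsg.Statements.S4604
import Cfsg.Agent.H33.Princ
import Cfsg.Agent.H86.Val
import Cfsg.Agent.H32.Roots
import Cfsg.Agent.H34.Twist

set_option autoImplicit false
open Cfsg

namespace Cfsg.Agent.S4604

theorem sum_pow_eq {R ι : Type*} [CommRing R] {p : ℕ} (hp : p.Prime) (n : ℕ) (s : Finset ι)
    (f : ι → R) : ∃ r, (∑ i ∈ s, f i) ^ p ^ n = ∑ i ∈ s, f i ^ p ^ n + p * r := by
  classical
  induction s using Finset.induction_on with
  | empty => exact ⟨0, by
      rw [Finset.sum_empty, Finset.sum_empty, zero_pow (pow_pos hp.pos n).ne']; simp⟩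
  | insert a s ha ih =>
    obtain ⟨r, hr⟩ := ih
    obtain ⟨t, ht⟩ := exists_add_pow_prime_pow_eq hp (f a) (∑ i ∈ s, f i) n
    exact ⟨r + f a * (∑ i ∈ s, f i) * t, by
      rw [Finset.sum_insert ha, Finset.sum_insert ha, ht, hr]; ring⟩

theorem char_pow {G : Type*} [Group G] [Finite G] {p : ℕ} (hp : p.Prime) (n : ℕ) {χ : G → ℂ}
    (hχ : IsCharacter G χ) (x : G) : ∃ r : AlgInt, χ x ^ p ^ n = χ (x ^ p ^ n) + p * r := by
  obtain ⟨d, μ, -, hμ, h⟩ := H5.exists_eigenvalues hχ x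
  let ν : Fin d → AlgInt := fun i =>
    ⟨μ i, H32.isIntegral_of_pow_eq_one (orderOf_pos x).ne' (hμ i)⟩
  obtain ⟨r, hr⟩ := sum_pow_eq hp n Finset.univ ν
  refine ⟨r, ?_⟩
  have h1 := h 1
  have h2 := h (p ^ n : ℕ)
  simp only [zpow_one, zpow_natCast] at h1 h2
  rw [h1, h2]
  have := congrArg (AlgInt.val) hr
  simpa using this

theorem isConj_of_forall {G : Type*} [Group G] [Finite G] {p : ℕ} {M : Ideal AlgInt}
    [M.IsMaximal] (hM : IsPModular p M) {x y : G} (hx : ¬ p ∣ orderOf x) (hy : ¬ p ∣ orderOf y)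
    (h : ∀ χ : IrrCharacter G, (χ : G → ℂ) x - (χ : G → ℂ) y ∈ H32.locMax M) : IsConj x y := by
  classical
  have := Fact.mk hM.1
  by_contra hne
  set C := Subgroup.centralizer ({x} : Set G)
  obtain ⟨Q⟩ : Nonempty (Sylow p C) := inferInstance
  set P := (Q : Subgroup C).map C.subtype
  have := Fintype.ofFinite P
  have hP : IsPGroup p P := Q.isPGroup'.map _
  have hc : ∀ u ∈ P, Commute u x := by
    rintro _ ⟨u, -, rfl⟩
    exact Subgroup.mem_centralizer_singleton_iff.1 u.2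
  have hconj : ∀ g : G, ¬ p ∣ orderOf g → ∀ u : P, IsConj (u * x) g⁻¹⁻¹ → u = 1 := fun g hg u hu => by
    rw [inv_inv] at hu
    refine Subtype.ext ((H33.IsPPart.eq_one_iff hM.1
      (H33.isPPart_mul (hc u u.2) (H34.pElt_of_mem hP u.2) hx)).2 ?_)
    obtain ⟨c, rfl⟩ := isConj_iff.1 hu
    rwa [← (MulAut.conj c).orderOf_eq (u * x)]
  have key : ∀ g : G, ¬ p ∣ orderOf g → ∑ χ : IrrCharacter G,
      ((Nat.card P : ℂ)⁻¹ * ∑ u : P, (χ : G → ℂ) (u * x)) * (χ : G → ℂ) g⁻¹⁻¹⁻¹ =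
      (Nat.card P : ℂ)⁻¹ * if IsConj x g⁻¹⁻¹ then (Nat.card C : ℂ) else 0 := fun g hg => by
    simp only [mul_assoc, ← Finset.mul_sum, Finset.sum_mul]
    congr 1
    rw [Finset.sum_comm, Finset.sum_eq_single (1 : P) (fun u _ hu => ?_) (by simp)]
    · simp only [H5.isIrr_apply_inv (Subtype.prop _) g⁻¹⁻¹, OneMemClass.coe_one, one_mul]
      convert H5.sum_irr_mul_conj x g⁻¹⁻¹
    · simp only [H5.isIrr_apply_inv (Subtype.prop _) g⁻¹⁻¹]
      exact H5.sum_irr_mul_conj_of_not_isConj fun h => hu (hconj g hg u h)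
  have h1 := key x hx
  have h2 := key y hy
  simp only [inv_inv] at h1 h2
  rw [if_pos (IsConj.refl x)] at h1
  rw [if_neg hne, mul_zero] at h2
  have h3 : (Nat.card P : ℂ)⁻¹ * (Nat.card C : ℂ) ∈ H32.locMax M := by
    rw [← sub_zero (_ * _), ← h1, ← h2, ← Finset.sum_sub_distrib]
    refine Submodule.sum_mem _ fun χ _ => ?_
    rw [← mul_sub]
    refine H32.mul_mem_locMax_left (H32.mem_locRing_of_isIntegral
      (H33.isIntegral_avg_char_mul (H5.isCharacter_of_isIrr χ.2) P hc)) ?_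
    exact h ⟨_, H5.isIrrCharacter_conj χ.2⟩ |>
      (by simpa only [H5.isIrr_apply_inv χ.2] using ·)
  have h4 : Nat.card P = Nat.card Q := Subgroup.card_map_of_injective C.subtype_injective
  rw [h4, ← (Q : Subgroup C).card_mul_index, Nat.cast_mul, inv_mul_cancel_left₀
    (H6.card_ne_zero_complex _), H32.natCast_mem_locMax_iff hM] at h3
  exact Q.not_dvd_index h3

/-- Let G be a finite group, p a prime and p^a the p-part of the order of G. Let x, y ∈ G and let x′, y′ be their p-regular parts: x′ has order prime to p, commutes with x·x′⁻¹, and x·x′⁻¹ has p-power order (likewise for y). Then x′ and y′ are conjugate in G if and only if for every irreducible character χ of G the algebraic integer χ(x)^(p^a) − χ(y)^(p^a) is p times an algebraic integer. -/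
theorem result {G : Type*} [Group G] [Finite G] (p : ℕ) [Fact p.Prime] (x y x' y' : G)
    (hx : (∃ k : ℕ, orderOf (x * x'⁻¹) = p ^ k) ∧ Commute (x * x'⁻¹) x' ∧ ¬ p ∣ orderOf x')
    (hy : (∃ k : ℕ, orderOf (y * y'⁻¹) = p ^ k) ∧ Commute (y * y'⁻¹) y' ∧ ¬ p ∣ orderOf y') :
    IsConj x' y' ↔ ∀ χ : Cfsg.IrrCharacter G, ∃ γ : Cfsg.AlgInt,
      (χ : G → ℂ) x ^ (p ^ (Nat.card G).factorization p) - (χ : G → ℂ) y ^ (p ^ (Nat.card G).factorization p) = (p : ℂ) * (γ : ℂ) := by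
  have hp : p.Prime := Fact.out
  set a := (Nat.card G).factorization p
  have hpow : ∀ {x x' : G}, (∃ k : ℕ, orderOf (x * x'⁻¹) = p ^ k) → Commute (x * x'⁻¹) x' →
      x ^ p ^ a = x' ^ p ^ a := by
    rintro x x' ⟨k, hk⟩ hc
    have h1 : (x * x'⁻¹) ^ p ^ a = 1 := by
      rw [← orderOf_dvd_iff_pow_eq_one, hk]
      exact pow_dvd_pow p ((hp.pow_dvd_iff_le_factorization Nat.card_pos.ne').1
        (hk ▸ orderOf_dvd_natCard _))
    rw [← one_mul (x' ^ p ^ a), ← h1, ← hc.mul_pow, inv_mul_cancel_right]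
  constructor
  · intro h χ
    obtain ⟨r, hr⟩ := char_pow hp a (H5.isCharacter_of_isIrr χ.2) x
    obtain ⟨s, hs⟩ := char_pow hp a (H5.isCharacter_of_isIrr χ.2) y
    refine ⟨r - s, ?_⟩
    rw [hr, hs, hpow hx.1 hx.2.1, hpow hy.1 hy.2.1,
      H5.isClassFunction_apply_of_isConj (H5.isClassFunction_of_isIrr χ.2) (h.pow _)]
    push_cast
    ring
  · intro h
    obtain ⟨M, hM⟩ := H86.exists_isPModular hp
    have := hM.2.1
    have := H32.res_charP hM
    refine isConj_of_forall hM hx.2.2 hy.2.2 fun χ => ?_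
    obtain ⟨γ, hγ⟩ := h χ
    have hR := H33.irr_mem_locRing (M := M) χ
    have h1 : (χ : G → ℂ) x - (χ : G → ℂ) y ∈ H32.locMax M := by
      have h2 := H32.mul_mem_locMax_right (H32.natCast_p_mem_locMax hM) (H32.algInt_mem γ)
      rw [← hγ, ← H32.redC_eq_iff (pow_mem (hR _) _) (pow_mem (hR _) _), H32.redC_pow (hR _),
        H32.redC_pow (hR _), ← sub_eq_zero, ← sub_pow_char_pow,
        pow_eq_zero_iff (pow_pos hp.pos a).ne', sub_eq_zero] at h2
      exact (H32.redC_eq_iff (hR _) (hR _)).1 h2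
    have h2 := H33.char_mul_sub_mem hM (H5.isCharacter_of_isIrr χ.2) hx.2.1 hx.1
    have h3 := H33.char_mul_sub_mem hM (H5.isCharacter_of_isIrr χ.2) hy.2.1 hy.1
    rw [inv_mul_cancel_right] at h2 h3
    exact H32.sub_mem_locMax_trans (H32.sub_mem_locMax_comm h2) (H32.sub_mem_locMax_trans h1 h3)

end Cfsg.Agent.S4604
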