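import Cfsg.Statements.S4610
import Cfsg.Agent.BPQ.Key
import Cfsg.Agent.H86.DegG
import Cfsg.Agent.H19.Nilp

set_option autoImplicit false
open Cfsg

namespace Cfsg.Agent.S4610

open Subgroup

/-- Let G be a finite group and p a prime dividing its order; fix for every prime r a maximal ideal M r of the algebraic integers containing r. Then, for every prime q ≠ p dividing the order of G, the principal p-block and the principal q-block of G have only the principal character in common, if and only if a Sylow p-subgroup P of G is normal and G is generated by P and its largest normal subgroup of order prime to p (that is, G is the direct product of P and that subgroup). -/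
theorem result {G : Type*} [Group G] [Finite G] (p : ℕ) [Fact p.Prime] (hp : p ∣ Nat.card G) (M : ℕ → Ideal Cfsg.AlgInt) (hM : ∀ r : ℕ, r.Prime → Cfsg.IsPModular r (M r)) (P : Sylow p G) :
    (∀ q : ℕ, q.Prime → q ≠ p → q ∣ Nat.card G →
        ∀ χ : Cfsg.IrrCharacter G, χ ∈ Cfsg.principalBlock (M p) G → χ ∈ Cfsg.principalBlock (M q) G → (χ : G → ℂ) = fun _ => 1) ↔
      ((P : Subgroup G).Normal ∧ (P : Subgroup G) ⊔ Cfsg.pPrimeCore p G = ⊤) := by
  have hpp : p.Prime := Fact.out
  have hPi : ¬ p ∣ (P : Subgroup G).index := P.not_dvd_index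
  obtain ⟨a, hPa⟩ := IsPGroup.iff_card.1 P.isPGroup'
  constructor
  · intro h
    have hN : (P : Subgroup G).Normal := by
      refine ⟨fun u hu g => ?_⟩
      have hco : (P : Subgroup G).index.Coprime (centralizer ({u} : Set G)).index := by
        refine Nat.Coprime.symm (Nat.coprime_of_dvd fun q hq h1 h2 => ?_)
        have hqp : q ≠ p := fun e => hPi (e ▸ h2)
        obtain ⟨k, hk⟩ := (IsPGroup.iff_orderOf.1 P.isPGroup') ⟨u, hu⟩
        rw [orderOf_mk] at hk
        exact BPQ.key (hM p hpp) (hM q hq) (h q hq hqp (h1.trans (index_dvd_card _))) ⟨k, hk⟩ h1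
      obtain ⟨x, hx, c, hc, rfl⟩ := H86.exists_mul_of_coprime_index hco g
      rw [mem_centralizer_singleton_iff] at hc
      have : x * c * u * (x * c)⁻¹ = x * u * x⁻¹ := by
        rw [mul_assoc x c u, hc]; group
      rw [this]
      exact mul_mem (mul_mem hx hu) (inv_mem hx)
    refine ⟨hN, ?_⟩
    have hcoP : (Nat.card (P : Subgroup G)).Coprime (P : Subgroup G).index := by
      rw [hPa]
      exact Nat.Coprime.pow_left _ ((Nat.Prime.coprime_iff_not_dvd hpp).2 hPi)
    obtain ⟨K, hK⟩ := exists_right_complement'_of_coprime hcoP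
    have hKc : Nat.card K = (P : Subgroup G).index := hK.symm.index_eq_card.symm
    have hKC : K ≤ centralizer ((P : Subgroup G) : Set G) := by
      refine H19.le_normal_of_coprime_index K _ (Nat.coprime_of_dvd fun q hq h1 h2 => ?_)
      have hqp : q ≠ p := fun e => hPi (hKc ▸ e ▸ h1)
      have : Fact q.Prime := ⟨hq⟩
      obtain ⟨Q⟩ : Nonempty (Sylow q G) := inferInstance
      refine Q.not_dvd_index (h2.trans (index_dvd_of_le fun v hv => ?_))
      obtain ⟨k, hk⟩ := (IsPGroup.iff_orderOf.1 Q.isPGroup') ⟨v, hv⟩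
      rw [orderOf_mk] at hk
      have h3 := BPQ.key (hM q hq) (hM p hpp)
        (fun χ h1 h2' => h q hq hqp (h2.trans (index_dvd_card _)) χ h2' h1) ⟨k, hk⟩
      have h4 : (P : Subgroup G) ≤ centralizer ({v} : Set G) := by
        refine H19.le_of_normal_of_coprime_index _ _ ?_
        rw [hPa]
        exact Nat.Coprime.pow_left _ ((Nat.Prime.coprime_iff_not_dvd hpp).2 h3)
      intro x hx
      exact mem_centralizer_singleton_iff.1 (h4 hx)
    have hKN : K.Normal := by
      refine ⟨fun k hk g => ?_⟩
      obtain ⟨⟨x, y⟩, rfl⟩ := (hK.existsUnique g).exists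
      have h5 : (y : G) * k * (y : G)⁻¹ ∈ K := mul_mem (mul_mem y.2 hk) (inv_mem y.2)
      have h6 := hKC h5 x x.2
      have : (x : G) * y * k * ((x : G) * y)⁻¹ = y * k * (y : G)⁻¹ := by
        calc (x : G) * y * k * ((x : G) * y)⁻¹ = x * (y * k * (y : G)⁻¹) * (x : G)⁻¹ := by group
          _ = y * k * (y : G)⁻¹ := by rw [h6]; group
      simp only [this]
      exact h5
    have hKO : K ≤ pPrimeCore p G := by
      refine le_sSup ⟨hKN, ?_⟩
      rw [hKc]
      exact ((Nat.Prime.coprime_iff_not_dvd hpp).2 hPi).symm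
    rw [eq_top_iff, ← hK.sup_eq_top]
    exact sup_le_sup_left hKO _
  · rintro ⟨hN, hsup⟩ q hq hqp - χ h1 h2
    have := (hM p hpp).2.1
    have := (hM q hq).2.1
    have := H33.pPrimeCore_normal' (p := p) (G := G)
    have hk : ⊤ ≤ H5.charKer (H5.isCharacter_of_isIrr χ.2) := by
      rw [← hsup]
      refine sup_le (fun x hx => ?_) (fun x hx => ?_)
      · rw [H5.mem_charKer]
        refine H33.apply_eq_degree_of_mem_principalBlock (hM q hq) (P : Subgroup G) ?_ h2 hx
        rw [hPa]
        exact fun hd => hqp ((Nat.prime_dvd_prime_iff_eq hq hpp).1 (hq.dvd_of_dvd_pow hd))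
      · rw [H5.mem_charKer]
        exact H33.apply_eq_degree_of_mem_principalBlock (hM p hpp) _
          (H33.not_dvd_card_pPrimeCore hpp) h1 hx
    exact H5.eq_one_of_forall_eq_degree χ.2 fun g => hk (mem_top g)

end Cfsg.Agent.S4610
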