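import Cfsg.Statements.S4611
import Cfsg.Agent.H34.PSolvB

set_option autoImplicit false
open Cfsg

namespace Cfsg.Agent.S4611

open H34

/-- Let G be a finite solvable group and π a nonempty set of primes, each dividing the order of G; fix for each p in π a maximal ideal M p of the algebraic integers containing p. Then the only irreducible character lying in the principal p-block for every p in π is the principal character if and only if G is generated by the subgroups O_{p'}(G), p in π (the largest normal subgroups of order prime to p). -/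
theorem result {G : Type*} [Group G] [Finite G] [Group.IsSolvable G] (π : Set ℕ) (hπ : ∀ p ∈ π, p.Prime ∧ p ∣ Nat.card G) (hne : π.Nonempty) (M : ℕ → Ideal Cfsg.AlgInt) (hM : ∀ p ∈ π, Cfsg.IsPModular p (M p)) :
    (∀ χ : Cfsg.IrrCharacter G, (∀ p ∈ π, χ ∈ Cfsg.principalBlock (M p) G) → (χ : G → ℂ) = fun _ => 1) ↔
      ⨆ p ∈ π, Cfsg.pPrimeCore p G = ⊤ := by
  have key : ∀ χ : IrrCharacter G, (∀ p ∈ π, χ ∈ principalBlock (M p) G) ↔
      ⨆ p ∈ π, pPrimeCore p G ≤ H5.charKer (irr_isCharacter χ) := fun χ => by
    simp only [iSup_le_iff]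
    refine forall₂_congr fun p hp => ?_
    have : Fact p.Prime := ⟨(hπ p hp).1⟩
    exact mem_principalBlock_iff_of_isPSolvable (hM p hp) H22.isPSolvable_of_isSolvable χ
  simp only [key]
  have hn : (⨆ p ∈ π, pPrimeCore p G).Normal := by
    have : ∀ p, (⨆ _ : p ∈ π, pPrimeCore p G).Normal := fun p => by
      have : ∀ _ : p ∈ π, (pPrimeCore p G).Normal := fun _ => H33.pPrimeCore_normal'
      exact Subgroup.iSup_normal _
    exact Subgroup.iSup_normal _
  constructor
  · intro h
    rw [eq_top_iff]
    intro g _
    rw [← QuotientGroup.eq_one_iff]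
    refine H5.eq_one_of_forall_irr fun φ hφ => ?_
    have := h (infl (QuotientGroup.mk'_surjective _) ⟨φ, hφ⟩) fun n hn => by
      rw [H5.mem_charKer, infl_apply, infl_apply, map_one, QuotientGroup.mk'_apply,
        (QuotientGroup.eq_one_iff n).mpr hn]
    exact (congrFun this g).trans (congrFun this 1).symm
  · intro h χ hχ
    rw [h] at hχ
    exact H5.eq_one_of_forall_eq_degree χ.2 fun g => hχ (Subgroup.mem_top g)

end Cfsg.Agent.S4611
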