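import Cfsg.Statements.S4620
import Cfsg.Agent.H85.AlmostSimple
import Cfsg.Agent.H85.SylowCount
import Cfsg.Agent.H2.Basic

set_option autoImplicit false
open scoped Pointwise
open Cfsg

namespace Cfsg.Agent.S4620

open Subgroup

/-- Let H be a finite group with no nontrivial normal p-subgroup and no nontrivial normal subgroup of order prime to p, whose Sylow p-subgroup P is nontrivial and a trivial-intersection set (P meets its conjugates by elements outside N_H(P) trivially). Then H has a unique minimal normal subgroup N; N is non-abelian simple with trivial centralizer in H (so H embeds in Aut(N)), and a Sylow p-subgroup of N is again a nontrivial trivial-intersection set in N. -/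
theorem result {H : Type*} [Group H] [Finite H] (p : ℕ) [Fact p.Prime] (hOp : Cfsg.pCore p H = ⊥) (hOp' : Cfsg.pPrimeCore p H = ⊥) (P : Sylow p H) (hP1 : (P : Subgroup H) ≠ ⊥)
    (hTI : ∀ g : H, g ∉ Subgroup.normalizer ((P : Subgroup H) : Set H) → (P : Subgroup H) ⊓ (MulAut.conj g • (P : Subgroup H)) = ⊥) :
    ∃ N : Subgroup H, N.Normal ∧ N ≠ ⊥ ∧ (∀ K : Subgroup H, K.Normal → K ≠ ⊥ → N ≤ K) ∧
      IsSimpleGroup N ∧ ¬ IsMulCommutative N ∧ Subgroup.centralizer (N : Set H) = ⊥ ∧
      ∀ Q : Sylow p N, (Q : Subgroup N) ≠ ⊥ ∧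
        ∀ n : N, n ∉ Subgroup.normalizer ((Q : Subgroup N) : Set N) → (Q : Subgroup N) ⊓ (MulAut.conj n • (Q : Subgroup N)) = ⊥ := by
  have hF : fittingSubgroup H = ⊥ := by rw [H85.fitting_eq_pCore hOp', hOp]
  have : Nontrivial H := by
    obtain ⟨x, hx⟩ := (ne_bot_iff_exists_ne_one).mp hP1
    exact ⟨⟨x, 1, fun h => hx (Subtype.ext h)⟩⟩
  obtain ⟨h1, h2, h3, h4, h5⟩ := H85.almostSimple hF fun K L hK hL => by
    by_contra hne
    have hc := commutator_eq_bot_iff_le_centralizer.mp (hK.commutator_eq_bot_of_ne hL hne)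
    have hKP : K ≤ normalizer ((P : Subgroup H) : Set H) := by
      intro g hg
      by_contra hg'
      apply H85.sylow_inf_ne_bot_of_sn hOp' P hL.sn hL.qs.ne_bot
      rw [eq_bot_iff, ← hTI g hg']
      rintro y ⟨hy, hyL⟩
      refine ⟨hy, H2.mem_conj_smul.mpr ?_⟩
      rwa [mul_assoc, hc hg y hyL, inv_mul_cancel_left]
    apply H85.sylow_inf_ne_bot_of_sn hOp' P hK.sn hK.qs.ne_bot
    rw [eq_bot_iff, ← hOp]
    refine H44.le_pCore_of_subnormal (H44.sn_top_iff.mp (hK.sn.trans
      (H44.SN.of_le_normalizer inf_le_right ?_))) (P.isPGroup'.to_le inf_le_left)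
    exact le_trans (le_inf hKP le_normalizer) inf_normalizer_le_normalizer_inf
  set N := generalizedFittingSubgroup H
  have hN : N.Normal := by have := H44.gfitting_characteristic (G := H); infer_instance
  refine ⟨N, hN, h1.qs.ne_bot, h5, h2, h3, h4, fun Q => ?_⟩
  obtain ⟨R, hR⟩ := H85.exists_sylow_subgroupOf P.isPGroup' (H85.not_dvd_relIndex_sylow_normal P N)
  have hR1 : (R : Subgroup N) ≠ ⊥ := by
    rw [hR, Ne, subgroupOf_eq_bot, disjoint_iff]
    exact H85.sylow_inf_ne_bot_of_sn hOp' P h1.sn h1.qs.ne_bot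
  have hRTI : ∀ n : N, ∀ y : N, y ∈ R → n⁻¹ * y * n ∈ R → y ≠ 1 →
      n ∈ normalizer ((R : Subgroup N) : Set N) := by
    intro n y hy hy' hy1
    have h6 : (n : H) ∈ normalizer ((P : Subgroup H) : Set H) := by
      by_contra hn
      apply hy1
      have h7 : y ∈ (R : Subgroup N) := hy
      have h8 : n⁻¹ * y * n ∈ (R : Subgroup N) := hy'
      rw [hR] at h7 h8
      have : (y : H) ∈ (P : Subgroup H) ⊓ MulAut.conj (n : H) • (P : Subgroup H) :=
        ⟨h7, H2.mem_conj_smul.mpr h8⟩
      rw [hTI n hn, mem_bot] at this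
      exact Subtype.ext this
    rw [hR, mem_normalizer_iff]
    exact fun z => mem_normalizer_iff.mp h6 z
  obtain ⟨g, rfl⟩ := MulAction.exists_smul_eq N R Q
  have hmem : ∀ y : N, y ∈ ((g • R : Sylow p N) : Subgroup N) ↔ g⁻¹ * y * g ∈ R :=
    fun y => H2.mem_conj_smul
  refine ⟨fun h => hR1 ?_, fun n hn => ?_⟩
  · rw [← card_eq_one] at h ⊢
    rw [R.card_eq_multiplicity, ← (g • R).card_eq_multiplicity, h]
  · rw [eq_bot_iff]
    rintro y ⟨hy, hy'⟩
    by_contra hy1
    apply hn
    have h6 := hRTI (g⁻¹ * n * g) (g⁻¹ * y * g) ((hmem y).mp hy) (by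
      have := (hmem _).mp (H2.mem_conj_smul.mp hy')
      convert this using 1; group) (fun h => hy1 (by
        have : y = g * (g⁻¹ * y * g) * g⁻¹ := by group
        rw [this, h]; simp))
    rw [mem_normalizer_iff]
    intro z
    rw [hmem, hmem]
    have := mem_normalizer_iff.mp h6 (g⁻¹ * z * g)
    convert this using 2
    · rfl
    · change _ ∈ (R : Subgroup N) ↔ _
      congr! 1; group

end Cfsg.Agent.S4620
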