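import Cfsg.Statements.S4724
import Cfsg.Agent.H34.ItoPerm
import Cfsg.Agent.S0676
import Cfsg.Agent.S0806

set_option autoImplicit false
open Cfsg

namespace Cfsg.Agent.S4724

/-- Let G be a transitive permutation group of prime degree p having exactly one irreducible character of degree p. Let P be a Sylow p-subgroup and suppose N_G(P) = P·E for a subgroup E with P ∩ E = 1, such that the normalizer of E has order 2·#E and E meets each of its conjugates by elements outside its normalizer trivially. Then p is 5, 7 or 11 and G is isomorphic to PSL(2, p). -/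
theorem result {α : Type*} [Fintype α] [DecidableEq α] {p : ℕ} [Fact p.Prime] (hα : Fintype.card α = p) (G : Subgroup (Equiv.Perm α)) [MulAction.IsPretransitive G α] (huniq : ∃! χ : Cfsg.IrrCharacter G, Cfsg.charDegree (χ : G → ℂ) = p) (P : Sylow p G) (E : Subgroup G) (hPE : (P : Subgroup G) ⊔ E = Subgroup.normalizer ((P : Subgroup G) : Set G)) (hPE' : (P : Subgroup G) ⊓ E = ⊥) (hNE : Nat.card (Subgroup.normalizer (E : Set G)) = 2 * Nat.card E) (hTI : ∀ g : G, g ∉ Subgroup.normalizer (E : Set G) → E ⊓ E.map (MulAut.conj g).toMonoidHom = ⊥) : (p = 5 ∨ p = 7 ∨ p = 11) ∧ ∃ (F : Type) (_ : Field F) (_ : Fintype F), Fintype.card F = p ∧ Nonempty (G ≃* Matrix.ProjectiveSpecialLinearGroup (Fin 2) F) := by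
  classical
  obtain ⟨ζ, hζ, hu⟩ := huniq
  have hp := Fact.out (p := p.Prime)
  have hd : (ζ : G → ℂ) 1 = p := by rw [H35.cast_degree_irr, hζ]
  have hu' : ∀ ψ, Cfsg.IsIrrCharacter G ψ → ψ 1 = p → ψ = ζ := fun ψ h h1 =>
    congrArg Subtype.val (hu ⟨ψ, h⟩ (H35.charDegree_eq h1))
  obtain ⟨x, e, hx, hx1, hP, he, -, hC⟩ := H24.exists_coord_sylow hα P
  rw [← hP] at hPE hPE' hC
  obtain ⟨S, rfl, rfl⟩ := H34.ito_exists_setup (orderOf_eq_prime hx hx1)
    (by rw [sq]; exact H24.not_sq_dvd_card hα) hPE hPE'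
  have hV := S.card_V_eq_one (by rw [← H35.centralizer_zpowers, hC])
  have hK : Nat.card S.K ≠ 1 := fun h => by
    have h1 := H35.sq_degree_le {ζ}
    rw [Finset.sum_singleton, hζ] at h1
    rw [Subgroup.card_eq_one.mp h, Subgroup.card_bot, Subgroup.normalizer_eq_top,
      Subgroup.card_top] at hNE
    have := hp.two_le
    nlinarith
  have hG := H34.ito_perfect S hV hK ζ.2 hd hu'
  have := H34.ito_simple S hV hG fun M _ h => H24.dvd_card_of_normal hα M h
  have hTI' : ∀ g, g ∉ Subgroup.normalizer (S.K : Set G) → ∀ a ∈ S.K, g * a * g⁻¹ ∈ S.K →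
      a = 1 := fun g hg a ha h => by
    have h1 : g * a * g⁻¹ ∈ S.K ⊓ S.K.map (MulAut.conj g).toMonoidHom := ⟨h, a, ha, rfl⟩
    rw [hTI g hg, Subgroup.mem_bot] at h1
    simpa using h1
  have hne := H34.ito_ne_pred hα hG S hV
  have hH := MulAction.index_stabilizer_of_transitive G (e.symm 0)
  rw [Nat.card_eq_fintype_card, hα] at hH
  have hn : Nat.card (Sylow p G) ≤ p + 1 := by
    rcases Nat.even_or_odd (Nat.card S.K) with h | h
    · refine H34.ito_even_case hα (S0676.result hα G (fun h1 => ?_) P ?_) S hV e he h hne hNE hTI'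
      · exact (Group.IsSolvable.commutator_lt_top_of_nontrivial G).ne hG
      · rw [← hP, S.card_normalizer]
        exact h.mul_left _
    · exact H34.ito_odd_case hG S hV hK h ζ.2 hd hu' hNE hTI' _ hH
  have hn' := H35.Setup.card_sylow_eq_of_le (S.card_sylow_ne_one' hG) hn
  have h1 := S.pred_le_two_mul_index hG hn'
  have h2 : 2 * S.V.index = p - 1 := by
    obtain ⟨t, ht⟩ := S.index_dvd_pred
    have := hp.two_le
    rcases t with _ | _ | t
    · omega
    · omega
    · refine le_antisymm ?_ h1
      rw [ht]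
      nlinarith
  obtain ⟨h3, ⟨f⟩⟩ := S.psl2_of hG hV h2 (S.index_ne_one hG) hn'
  refine ⟨?_, ZMod p, inferInstance, inferInstance, ZMod.card p, ⟨f⟩⟩
  by_contra h4
  have h5 := (S0806.result (ZMod.card p) (by
    simp only [Finset.mem_insert, Finset.mem_singleton]
    rintro (h | h | h | h | h | h)
    any_goals omega
    rw [h] at hp
    exact absurd hp (by decide))).1 ((MulAction.stabilizer G (e.symm 0)).map f.toMonoidHom)
  rw [Subgroup.index_map_of_bijective f.bijective, hH] at h5
  have h6 := h5 fun h => by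
    have := Subgroup.index_map_of_bijective (f := f.toMonoidHom) f.bijective
      (MulAction.stabilizer G (e.symm 0))
    rw [h, Subgroup.index_top] at this
    omega
  omega

end Cfsg.Agent.S4724
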