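import Cfsg.Statements.S4741
import Cfsg.Agent.H33.Kuls
import Cfsg.Agent.H34.Robinson
import Cfsg.Agent.H86.Val
import Cfsg.Agent.H32.Defect
import Cfsg.Agent.H33.Second
import Cfsg.Agent.H87.Dict2

set_option autoImplicit false
open Cfsg

namespace Cfsg.Agent.S4741

open H32 H87
open scoped ComplexConjugate

theorem exists_minor {k n m : Type*} [Field k] [Fintype n] [DecidableEq n] [Fintype m]
    (A : Matrix n m k) (C : Matrix m n k) (h : (A * C).det ≠ 0) :
    ∃ f : n → m, (A.submatrix id f).det ≠ 0 ∧ ∀ i, C (f i) i ≠ 0 := by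
  classical
  have : (A * C).det = ∑ f : n → m, (A.submatrix id f).det * ∏ i, C (f i) i := by
    simp only [Matrix.det_apply', Matrix.mul_apply, Finset.prod_univ_sum, Finset.mul_sum,
      Fintype.piFinset_univ, Finset.sum_mul, Matrix.submatrix_apply, id, Finset.prod_mul_distrib,
      mul_assoc]
    rw [Finset.sum_comm]
  rw [this] at h
  obtain ⟨f, -, hf⟩ := Finset.exists_ne_zero_of_sum_ne_zero h
  exact ⟨f, left_ne_zero_of_mul hf, fun i =>
    Finset.prod_ne_zero_iff.1 (right_ne_zero_of_mul hf) i (Finset.mem_univ i)⟩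

theorem sum_eq {G : Type*} [Group G] [Fintype G] (p : ℕ) (y z : G) :
    ∑ χ : IrrCharacter G, centralChar (χ : G → ℂ) y *
      (((Nat.card G : ℂ)⁻¹ * ∑ g, H33.pInd p g * (χ : G → ℂ) g) * conj ((χ : G → ℂ) z)) =
      ∑ g, (classSum ℂ y).coeff g * H33.pInd p (g⁻¹ * z) := by
  have h1 : H32.ofFun (H33.pInd p) ∈ Zc ℂ G := ofFun_mem_Zc fun g h => H33.pInd_isClassFunction g h
  have h2 := coeff_eq_sum_omega (mul_mem (classSum_mem_Zc y) h1) z
  rw [coeff_mul_sum, Finset.mul_sum] at h2
  refine Eq.trans (Finset.sum_congr rfl fun χ _ => ?_) h2.symm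
  rw [omega_mul χ.2 (classSum_mem_Zc y), omega_classSum_irr, H33.omega_ofFun, H33.om]
  field_simp [H5.degree_ne_zero χ.2]

/-- Let p be a prime, M a maximal ideal of the algebraic integers containing p, and D a subgroup of the finite group G. Let x₁, …, x_r be pairwise non-conjugate elements of G such that D is a Sylow p-subgroup of the centralizer of each xᵢ, and such that for any conjugates g of some xᵢ and h of some xⱼ the element g h⁻¹ is never a non-identity p-element. Then there are r distinct p-blocks B₁, …, B_r of G, each having D as a defect group, such that for every choice of characters χᵢ ∈ Bᵢ of height zero the determinant of the r × r matrix (χᵢ(xⱼ)) does not lie in the local ideal at M. -/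
theorem result {G : Type*} [Group G] [Finite G] (p : ℕ) [Fact p.Prime] (M : Ideal Cfsg.AlgInt) (hM : Cfsg.IsPModular p M) (D : Subgroup G) {r : ℕ} (x : Fin r → G) (hx : ∀ i j : Fin r, IsConj (x i) (x j) → i = j) (hD : ∀ i : Fin r, ∃ S : Sylow p ↥(Subgroup.centralizer ({x i} : Set G)), (S : Subgroup ↥(Subgroup.centralizer ({x i} : Set G))).map (Subgroup.centralizer ({x i} : Set G)).subtype = D) (hsep : ∀ i j : Fin r, ∀ g h : G, IsConj (x i) g → IsConj (x j) h → ∀ k : ℕ, 0 < k → orderOf (g * h⁻¹) ≠ p ^ k) : ∃ B : Fin r → Set (Cfsg.IrrCharacter G), Function.Injective B ∧ (∀ i : Fin r, Cfsg.IsPBlock M (B i) ∧ Cfsg.IsDefectGroup p M (B i) D) ∧ ∀ χ : Fin r → Cfsg.IrrCharacter G, (∀ i : Fin r, χ i ∈ B i ∧ Cfsg.blockHeight p (B i) (χ i : G → ℂ) = 0) → ¬ Cfsg.MemLocalIdeal M (Matrix.det (Matrix.of fun i j : Fin r => (χ i : G → ℂ) (x j))) := by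
  classical
  have := hM.2.1
  have hp := hM.1
  have := Fintype.ofFinite G
  have hS : ∀ i, SylIn p D (H34.Cg (x i)) := fun i => (hD i).elim fun S h => sylIn_iff.2 ⟨S, h.symm⟩
  have hidx : ∀ i, (H34.Cg (x i)).index.factorization p + (Nat.card D).factorization p =
      (Nat.card G).factorization p := fun i => by
    rw [H34.SylIn.factorization_eq (hS i)]
    exact H33.factorization_index_add_card _
  let a : IrrCharacter G → ℂ := fun χ => (Nat.card G : ℂ)⁻¹ * ∑ g, H33.pInd p g * (χ : G → ℂ) g
  have ha : ∀ χ, a χ ∈ locRing M := fun χ =>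
    H33.avg_pInd_mul_mem hM (H5.isCharacter_of_isIrr χ.2)
  have hc : ∀ (χ : IrrCharacter G) g, conj ((χ : G → ℂ) g) = (χ : G → ℂ) g⁻¹ := fun χ g =>
    (H5.isIrr_apply_inv χ.2 g).symm
  have hcm : ∀ (χ : IrrCharacter G) g, conj ((χ : G → ℂ) g) ∈ locRing M := fun χ g =>
    hc χ g ▸ irr_mem_locRing χ _
  let W : Matrix (Fin r) (IrrCharacter G) (Res M) :=
    Matrix.of fun i χ => redC M (centralChar (χ : G → ℂ) (x i))
  let C : Matrix (IrrCharacter G) (Fin r) (Res M) :=
    Matrix.of fun χ j => redC M (a χ * conj ((χ : G → ℂ) (x j)))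
  have hWC : W * C = 1 := by
    ext i j
    have h1 : ∑ g, (classSum ℂ (x i)).coeff g * H33.pInd p (g⁻¹ * x j) = if i = j then 1 else 0 := by
      rw [Finset.sum_eq_single (x j)]
      · rw [inv_mul_cancel, H33.pInd_of_pElt ⟨0, by simp⟩, mul_one]
        split_ifs with h
        · exact coeff_classSum_of_isConj (h ▸ IsConj.refl _)
        · exact coeff_classSum_of_not_isConj fun h' => h (hx i j h')
      · intro g _ hg
        by_cases h : IsConj (x i) g
        · rw [H33.pInd_of_not_pElt, mul_zero]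
          rintro ⟨k, hk⟩
          rw [← H33.orderOf_conj' _ g, show g * (g⁻¹ * x j) * g⁻¹ = x j * g⁻¹ by group] at hk
          rcases Nat.eq_zero_or_pos k with rfl | h0
          · exact hg (mul_inv_eq_one.1 (orderOf_eq_one_iff.1 hk)).symm
          · exact hsep j i _ _ (IsConj.refl _) h k h0 hk
        · rw [coeff_classSum_of_not_isConj h, zero_mul]
      · exact fun h => (h (Finset.mem_univ _)).elim
    have h2 := congrArg (redC M) ((sum_eq p (x i) (x j)).trans h1)
    rw [redC_sum _ _ fun χ _ => mul_mem (centralChar_mem_locRing χ.2 _) (mul_mem (ha χ) (hcm χ _)),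
      Finset.sum_congr rfl fun χ _ =>
        redC_mul (centralChar_mem_locRing χ.2 _) (mul_mem (ha χ) (hcm χ _))] at h2
    rw [Matrix.mul_apply, Matrix.one_apply]
    refine h2.trans ?_
    split_ifs
    · exact redC_one
    · exact redC_zero
  obtain ⟨f, hf1, hf2⟩ := exists_minor W C (by rw [hWC, Matrix.det_one]; exact one_ne_zero)
  have hW : ∀ i, ∀ χ ∈ blockOf M (f i : G → ℂ), ∀ j,
      W j (f i) = redC M (centralChar (χ : G → ℂ) (x j)) := fun i χ hχ j =>
    redC_eq_of_sub_mem (centralChar_mem_locRing χ.2 _) (mem_blockOf.1 hχ _)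
  have hdef : ∀ i, IsDefectGroup p M (blockOf M (f i : G → ℂ)) D := fun i => by
    have hB := isPBlock_blockOf (M := M) (f i)
    have hχ := mem_blockOf_self (M := M) (f i)
    obtain ⟨D', hD'⟩ := H34.exists_defectGroup hM hB
    obtain ⟨j, hj⟩ : ∃ j, W j (f i) ≠ 0 := by
      by_contra! h
      exact hf1 (Matrix.det_eq_zero_of_column_eq_zero i h)
    obtain ⟨y, hy⟩ := H34.conj_defectGroup_le hM hB hD' hχ fun h => hj (redC_eq_zero_of_mem h)
    have hD'' := isDefectGroup_cjS hD' y
    obtain ⟨z, -, hz⟩ := (hS j).le_conj (isDef_of_isDefectGroup hM hB hD'').pgp hy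
    have h1 : (f i : G → ℂ) (x i)⁻¹ ∉ locMax M := fun h =>
      hf2 i (redC_eq_zero_of_mem (mul_mem_locMax_left (ha _) (hc _ _ ▸ h)))
    have h2 := centralChar_mem_locRing (M := M) (f i).2 (x i)⁻¹
    rw [H33.centralChar_eq_mul, H86.mul_unit_mem_locRing_iff (irr_mem_locRing _ _) h1,
      H33.natCast_div_mem_locRing_iff hM Subgroup.index_ne_zero_of_finite
        (H33.charDegree_ne_zero _)] at h2
    have h3 := hidx i
    rw [← H34.Cg_inv] at h3
    have h4 := H33.blockDefect_add_minVal (p := p) ⟨_, hχ⟩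
    have h5 := H33.minVal_le (p := p) hχ
    obtain ⟨n, hn⟩ := IsPGroup.iff_card.1 (hS i).pgp
    have h6 : cjS y D' = cjS z D := Subgroup.eq_of_le_of_card_ge hz (by
      rw [card_cjS, H34.card_defectGroup hM hB hD'', hn]
      rw [hn, hp.factorization_pow, Finsupp.single_eq_same] at h3
      exact Nat.pow_le_pow_right hp.pos (by unfold H34.Cg at h3; omega))
    have := isDefectGroup_cjS hD'' z⁻¹
    rwa [h6, cjS_inv_cjS] at this
  refine ⟨fun i => blockOf M (f i : G → ℂ), fun i j h => ?_,
    fun i => ⟨isPBlock_blockOf _, hdef i⟩, fun χ hχ h => ?_⟩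
  · by_contra hij
    exact hf1 (Matrix.det_zero_of_column_eq hij fun k =>
      hW i (f j) ((show blockOf M (f i : G → ℂ) = _ from h) ▸ mem_blockOf_self (f j)) k)
  · set m := (Nat.card G).factorization p - (Nat.card D).factorization p with hm
    have hpm : p ^ m ≠ 0 := pow_ne_zero _ hp.ne_zero
    have hpf : (p ^ m).factorization p = m := by rw [hp.factorization_pow, Finsupp.single_eq_same]
    have hdeg : ∀ i, (charDegree (χ i : G → ℂ)).factorization p = m := fun i => by
      have h1 := (H33.blockHeight_eq_zero_iff (hχ i).1).1 (hχ i).2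
      have h2 := H33.blockDefect_add_minVal (p := p) ⟨_, (hχ i).1⟩
      have h3 := H34.factorization_card_defectGroup hM (isPBlock_blockOf _) (hdef i)
      beta_reduce at h1 h2
      omega
    have hind : ∀ j, (H34.Cg (x j)).index.factorization p = m := fun j => by
      have := hidx j
      omega
    let u : Fin r → ℂ := fun i => (charDegree (χ i : G → ℂ) : ℂ) / (p ^ m : ℕ)
    let v : Fin r → ℂ := fun j => ((p ^ m : ℕ) : ℂ) / (H34.Cg (x j)).index
    have hu : ∀ i, u i ∈ locRing M := fun i => H33.natCast_div_mem_locRing hM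
      (H33.charDegree_ne_zero _) hpm (by rw [hpf, hdeg])
    have hu' : ∀ i, u i ∉ locMax M := fun i => H33.natCast_div_notMem_locMax hM
      (H33.charDegree_ne_zero _) hpm (by rw [hpf, hdeg])
    have hv : ∀ i, v i ∈ locRing M := fun i => H33.natCast_div_mem_locRing hM hpm
      Subgroup.index_ne_zero_of_finite (by rw [hpf, hind])
    have hv' : ∀ i, v i ∉ locMax M := fun i => H33.natCast_div_notMem_locMax hM hpm
      Subgroup.index_ne_zero_of_finite (by rw [hpf, hind])
    have h1 := redC_eq_zero_of_mem h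
    rw [redC_det _ fun i j => by exact irr_mem_locRing _ _] at h1
    have h2 : (Matrix.of fun i j : Fin r => (χ i : G → ℂ) (x j)).map (redC M) =
        Matrix.of fun i j => redC M (u i) * (Matrix.of fun i j => redC M (v j) *
          (W.submatrix id f).transpose i j) i j := by
      ext i j
      simp only [Matrix.map_apply, Matrix.of_apply, Matrix.transpose_apply, Matrix.submatrix_apply,
        id]
      rw [hW i _ (hχ i).1, ← redC_mul (hv j) (centralChar_mem_locRing (χ i).2 _),
        ← redC_mul (hu i) (mul_mem (hv j) (centralChar_mem_locRing (χ i).2 _)),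
        H33.centralChar_eq_mul]
      congr 1
      have e1 : ((p ^ m : ℕ) : ℂ) ≠ 0 := Nat.cast_ne_zero.2 hpm
      have e2 : ((H34.Cg (x j)).index : ℂ) ≠ 0 := Nat.cast_ne_zero.2 Subgroup.index_ne_zero_of_finite
      have e3 : (charDegree (χ i : G → ℂ) : ℂ) ≠ 0 := Nat.cast_ne_zero.2 (H33.charDegree_ne_zero _)
      simp only [u, v]
      field_simp
    rw [h2, Matrix.det_mul_column, Matrix.det_mul_row, Matrix.det_transpose] at h1
    refine mul_ne_zero (Finset.prod_ne_zero_iff.2 fun i _ h => hu' i ?_)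
      (mul_ne_zero (Finset.prod_ne_zero_iff.2 fun i _ h => hv' i ?_) hf1) h1
    · exact (redC_eq_zero_iff (hu i)).1 h
    · exact (redC_eq_zero_iff (hv i)).1 h

end Cfsg.Agent.S4741
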