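import Cfsg.Statements.S4742
import Cfsg.Agent.H88.Wada

set_option autoImplicit false
open Cfsg

namespace Cfsg.Agent.S4742

open Cfsg.Agent.H88

/-- Let p ≠ q be primes dividing the order of the finite group G, and suppose the centralizer of every non-identity p-element of G has order prime to q. Then either G has an irreducible character of p-defect zero, or for every non-identity q-element z of G there are conjugates g, h of z such that g h⁻¹ is a non-identity p-element. -/
theorem result {G : Type*} [Group G] [Finite G] (p q : ℕ) [Fact p.Prime] [Fact q.Prime] (hppq : p ≠ q) (hpG : p ∣ Nat.card G) (hqG : q ∣ Nat.card G) (hC : ∀ g : G, g ≠ 1 → (∃ k : ℕ, orderOf g = p ^ k) → ¬ q ∣ Nat.card ↥(Subgroup.centralizer ({g} : Set G))) : (∃ χ : Cfsg.IrrCharacter G, (Cfsg.charDegree (χ : G → ℂ)).factorization p = (Nat.card G).factorization p) ∨ ∀ z : G, z ≠ 1 → (∃ k : ℕ, orderOf z = q ^ k) → ∃ g h : G, IsConj z g ∧ IsConj z h ∧ g * h⁻¹ ≠ 1 ∧ ∃ k : ℕ, orderOf (g * h⁻¹) = p ^ k := by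
  have hp : p.Prime := Fact.out
  have hq : q.Prime := Fact.out
  by_contra hc
  push Not at hc
  obtain ⟨hc1, z, hz1, ⟨n, hn⟩, hz⟩ := hc
  have hzp : ¬ p ∣ Nat.card (Subgroup.centralizer ({z} : Set G)) := by
    intro hd
    obtain ⟨y, hy⟩ := exists_prime_orderOf_dvd_card' p hd
    have hy' : orderOf (y : G) = p := by rw [Subgroup.orderOf_coe, hy]
    refine hC y (fun h => hp.one_lt.ne' (by rw [← hy', h, orderOf_one])) ⟨1, by simpa using hy'⟩ ?_
    have hmem : z ∈ Subgroup.centralizer ({(y : G)} : Set G) := by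
      rw [Subgroup.mem_centralizer_singleton_iff]
      exact (Subgroup.mem_centralizer_singleton_iff.mp y.2).symm
    have h1 := Subgroup.orderOf_dvd_natCard _ hmem
    refine dvd_trans ?_ h1
    rw [hn]
    refine dvd_pow_self q fun h0 => hz1 ?_
    rw [h0, pow_zero] at hn
    exact orderOf_eq_one_iff.mp hn
  obtain ⟨χ, hχ⟩ := exists_defect_zero z hzp fun g k hg hk ⟨m, hm⟩ => by
    by_contra hne
    exact hz g k hg hk (fun h => hne (mul_inv_eq_one.mp h)) m hm
  exact hc1 χ hχ

end Cfsg.Agent.S4742
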