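import Cfsg.Statements.S4743
import Cfsg.Agent.H88.Wada
import Cfsg.Agent.H22.PSolvable

set_option autoImplicit false
open Cfsg

namespace Cfsg.Agent.S4743

open Cfsg.Agent.H88

theorem key {G : Type*} [Group G] [Finite G] (p q : ℕ) [hp : Fact p.Prime] [Fact q.Prime]
    (h : ∀ y z : G, orderOf y = p → orderOf z = q → y * z ≠ z * y) (M : Subgroup G)
    (hM : M.Normal) (hq : q ∣ Nat.card M) (hpM : ¬ p ∣ Nat.card M) :
    ∃ χ : IrrCharacter G,
      (charDegree (χ : G → ℂ)).factorization p = (Nat.card G).factorization p := by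
  obtain ⟨z, hz⟩ := exists_prime_orderOf_dvd_card' q hq
  refine exists_defect_zero (z : G) (fun hd => ?_) fun g k hg hk ⟨n, hn⟩ => ?_
  · obtain ⟨y, hy⟩ := exists_prime_orderOf_dvd_card' p hd
    exact h y z (by rw [Subgroup.orderOf_coe, hy]) (by rw [Subgroup.orderOf_coe, hz])
      (Subgroup.mem_centralizer_singleton_iff.mp y.2)
  · obtain ⟨a, rfl⟩ := isConj_iff.mp hg
    obtain ⟨b, rfl⟩ := isConj_iff.mp hk
    have h1 := Subgroup.orderOf_dvd_natCard M
      (mul_mem (hM.conj_mem _ z.2 a) (inv_mem (hM.conj_mem _ z.2 b)))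
    rw [hn] at h1
    rcases Nat.eq_zero_or_pos n with rfl | hn0
    · exact mul_inv_eq_one.mp (orderOf_eq_one_iff.mp (by simpa using hn))
    · exact absurd ((dvd_pow_self p hn0.ne').trans h1) hpM

theorem key2 {G : Type*} [Group G] [Finite G] (p q : ℕ) [hp : Fact p.Prime] [hq : Fact q.Prime]
    (hpq : p ≠ q) (hpG : p ∣ Nat.card G) (hsolv : IsPSolvable p G) :
    ∃ M : Subgroup G, M.Normal ∧
      ((q ∣ Nat.card M ∧ ¬ p ∣ Nat.card M) ∨ (p ∣ Nat.card M ∧ ¬ q ∣ Nat.card M)) := by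
  obtain ⟨N, ⟨hN, hNp, hNq⟩, hmax⟩ := (Set.toFinite {N : Subgroup G | N.Normal ∧
    ¬ p ∣ Nat.card N ∧ ¬ q ∣ Nat.card N}).exists_maximal
    ⟨⊥, inferInstance, by simpa using hp.out.one_lt.ne', by simpa using hq.out.one_lt.ne'⟩
  obtain ⟨M, hM, hNM, hrel⟩ := H22.IsPSolvable.exists_normal_gt hsolv N (by
    rintro rfl
    exact hNp (by simpa using hpG))
  have h1 := H22.card_eq_card_mul_relIndex hNM.le
  have h2 : p ∣ Nat.card M ∨ q ∣ Nat.card M := by
    by_contra hc
    push Not at hc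
    exact hNM.not_ge (hmax ⟨hM, hc.1, hc.2⟩ hNM.le)
  refine ⟨M, hM, ?_⟩
  rcases hrel with ⟨m, hm⟩ | hcop
  · have h3 : ¬ q ∣ Nat.card M := by
      rw [h1, hm]
      intro hd
      rcases (Nat.Prime.dvd_mul hq.out).mp hd with h | h
      · exact hNq h
      · exact hpq ((Nat.prime_dvd_prime_iff_eq hq.out hp.out).mp (hq.out.dvd_of_dvd_pow h)).symm
    exact Or.inr ⟨h2.resolve_right h3, h3⟩
  · have h3 : ¬ p ∣ Nat.card M := by
      rw [h1]
      intro hd
      rcases (Nat.Prime.dvd_mul hp.out).mp hd with h | h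
      · exact hNp h
      · exact (hp.out.coprime_iff_not_dvd.mp hcop.symm) h
    exact Or.inl ⟨h2.resolve_left h3, h3⟩

/-- Let p ≠ q be primes dividing the order of the finite group G, suppose the centralizer of every non-identity p-element has order prime to q, and suppose G is p-solvable or q-solvable. Then G has an irreducible character of p-defect zero or an irreducible character of q-defect zero. -/
theorem result {G : Type*} [Group G] [Finite G] (p q : ℕ) [Fact p.Prime] [Fact q.Prime] (hppq : p ≠ q) (hpG : p ∣ Nat.card G) (hqG : q ∣ Nat.card G) (hC : ∀ g : G, g ≠ 1 → (∃ k : ℕ, orderOf g = p ^ k) → ¬ q ∣ Nat.card ↥(Subgroup.centralizer ({g} : Set G))) (hsolv : Cfsg.IsPSolvable p G ∨ Cfsg.IsPSolvable q G) : (∃ χ : Cfsg.IrrCharacter G, (Cfsg.charDegree (χ : G → ℂ)).factorization p = (Nat.card G).factorization p) ∨ (∃ χ : Cfsg.IrrCharacter G, (Cfsg.charDegree (χ : G → ℂ)).factorization q = (Nat.card G).factorization q) := by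
  have hp : p.Prime := Fact.out
  have h1 : ∀ y z : G, orderOf y = p → orderOf z = q → y * z ≠ z * y := by
    intro y z hy hz hyz
    refine hC y (fun h => hp.one_lt.ne' (by rw [← hy, h, orderOf_one])) ⟨1, by simpa using hy⟩ ?_
    rw [← hz]
    exact Subgroup.orderOf_dvd_natCard _ (Subgroup.mem_centralizer_singleton_iff.mpr hyz.symm)
  have h2 : ∀ y z : G, orderOf y = q → orderOf z = p → y * z ≠ z * y :=
    fun y z hy hz hyz => h1 z y hz hy hyz.symm
  rcases hsolv with hs | hs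
  · obtain ⟨M, hM, h | h⟩ := key2 p q hppq hpG hs
    · exact Or.inl (key p q h1 M hM h.1 h.2)
    · exact Or.inr (key q p h2 M hM h.1 h.2)
  · obtain ⟨M, hM, h | h⟩ := key2 q p hppq.symm hqG hs
    · exact Or.inr (key q p h2 M hM h.1 h.2)
    · exact Or.inl (key p q h1 M hM h.1 h.2)

end Cfsg.Agent.S4743
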