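import Cfsg.Statements.S4744
import Cfsg.Agent.H88.Wada2

set_option autoImplicit false
open Cfsg

namespace Cfsg.Agent.S4744

open Cfsg.Agent.H88

/-- Let p be an odd prime and G a finite group of even order divisible by p in which the centralizer of every non-identity p-element has odd order. Then either G has an irreducible character of p-defect zero, or the normalizer of every Sylow p-subgroup P of G has even order and P is abelian. -/
theorem result {G : Type*} [Group G] [Finite G] (p : ℕ) [Fact p.Prime] (hp2 : p ≠ 2) (hpG : p ∣ Nat.card G) (h2G : 2 ∣ Nat.card G) (hC : ∀ g : G, g ≠ 1 → (∃ k : ℕ, orderOf g = p ^ k) → Odd (Nat.card ↥(Subgroup.centralizer ({g} : Set G)))) : (∃ χ : Cfsg.IrrCharacter G, (Cfsg.charDegree (χ : G → ℂ)).factorization p = (Nat.card G).factorization p) ∨ ∀ P : Sylow p G, Even (Nat.card ↥(Subgroup.normalizer ((P : Subgroup G) : Set G))) ∧ IsMulCommutative ↥(P : Subgroup G) := by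
  rw [or_iff_not_imp_left]
  intro h0 P
  have : Fact (Nat.Prime 2) := ⟨Nat.prime_two⟩
  obtain ⟨t, ht⟩ := exists_prime_orderOf_dvd_card' 2 h2G
  obtain ⟨s, hs, hinv⟩ := exists_conj_inverts_sylow hC h0 ht P
  refine ⟨?_, ⟨⟨fun a b => Subtype.ext (mul_comm_of_inverted hinv a.2 b.2)⟩⟩⟩
  have h1 : s ∈ Subgroup.normalizer ((P : Subgroup G) : Set G) :=
    Subgroup.mem_normalizer_fintype fun n hn => by rw [hinv n hn]; exact inv_mem hn
  have h2 := Subgroup.orderOf_dvd_natCard _ h1
  rw [orderOf_eq_of_isConj hs, ht] at h2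
  exact even_iff_two_dvd.mpr h2

end Cfsg.Agent.S4744
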