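import Cfsg.Statements.S4746
import Cfsg.Agent.H88.Wada2
import Cfsg.Agent.H88.Sqrt

set_option autoImplicit false
open Cfsg

namespace Cfsg.Agent.S4746

open Cfsg.Agent.H5 Cfsg.Agent.H6 Cfsg.Agent.H32 Cfsg.Agent.H88

/-- Let p be an odd prime and G a finite group of even order divisible by p in which the centralizer of every non-identity p-element has odd order. Then G has an irreducible character of p-defect zero or an irreducible character of even degree. -/
theorem result {G : Type*} [Group G] [Finite G] (p : ℕ) [Fact p.Prime] (hp2 : p ≠ 2) (hpG : p ∣ Nat.card G) (h2G : 2 ∣ Nat.card G) (hC : ∀ g : G, g ≠ 1 → (∃ k : ℕ, orderOf g = p ^ k) → Odd (Nat.card ↥(Subgroup.centralizer ({g} : Set G)))) : (∃ χ : Cfsg.IrrCharacter G, (Cfsg.charDegree (χ : G → ℂ)).factorization p = (Nat.card G).factorization p) ∨ ∃ χ : Cfsg.IrrCharacter G, Even (Cfsg.charDegree (χ : G → ℂ)) := by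
  classical
  rw [or_iff_not_imp_left]
  intro h0
  have hp : p.Prime := Fact.out
  have : Fact (Nat.Prime 2) := ⟨Nat.prime_two⟩
  have := Fintype.ofFinite G
  by_contra hc
  push Not at hc
  obtain ⟨t, ht⟩ := exists_prime_orderOf_dvd_card' 2 h2G
  obtain ⟨P⟩ : Nonempty (Sylow p G) := inferInstance
  obtain ⟨s, -, hinv⟩ := exists_conj_inverts_sylow hC h0 ht P
  obtain ⟨u, hu⟩ := exists_prime_orderOf_dvd_card' p (P.dvd_card_of_dvd_card hpG)
  have hu' : orderOf (u : G) = p := by rw [Subgroup.orderOf_coe, hu]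
  have hu1 : (u : G) ≠ 1 := fun h => hp.one_lt.ne' (by rw [← hu', h, orderOf_one])
  have h1 := card_sqrt_eq_sum (u : G)
  rw [card_sqrt_eq_one (hC u hu1 ⟨1, by simpa using hu'⟩)] at h1
  have h2 := sum_degree_mul_irr (u : G)
  rw [if_neg hu1] at h2
  obtain ⟨M, hM⟩ := exists_isPModular Nat.prime_two
  have := hM.2.1
  have := res_charP hM
  have hval : ∀ (χ : IrrCharacter G) (g : G), (χ : G → ℂ) g ∈ locRing M := fun χ g =>
    mem_locRing_of_isIntegral (isIntegral_apply (isCharacter_of_isIrr χ.2) g)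
  have hν : ∀ χ : IrrCharacter G, fsIndicator (χ : G → ℂ) ∈ locRing M := fun χ => by
    rcases fsIndicator_trichotomy χ.2 with h | h | h <;> rw [h]
    exacts [zero_mem _, one_mem _, neg_mem (one_mem _)]
  have h3 := congrArg (redC M) h1
  have h4 := congrArg (redC M) h2
  rw [redC_sum _ _ fun χ _ => mul_mem (hν χ) (hval χ _)] at h3
  rw [redC_sum _ _ fun χ _ => mul_mem (hval χ _) (hval χ _)] at h4
  have h5 : ∑ χ : IrrCharacter G, (redC M (fsIndicator (χ : G → ℂ) * (χ : G → ℂ) u) +
      redC M ((χ : G → ℂ) 1 * (χ : G → ℂ) u)) = 0 := by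
    have hreal : ∀ χ : IrrCharacter G, (conjIrr χ : G → ℂ) u = (χ : G → ℂ) u := fun χ => by
      rw [conjIrr_apply, ← isIrr_apply_inv χ.2, ← hinv u u.2, isClassFunction_of_isIrr χ.2]
    have hdeg : ∀ χ : IrrCharacter G, redC M ((χ : G → ℂ) 1) = 1 := fun χ => by
      rw [← irr_charDegree_cast, redC_natCast]
      obtain ⟨k, hk⟩ := Nat.not_even_iff_odd.mp (hc χ)
      rw [hk]
      push_cast
      rw [CharTwo.two_eq_zero]
      simp
    have h6 : ∀ χ : IrrCharacter G, redC M (fsIndicator (χ : G → ℂ) * (χ : G → ℂ) u) +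
        redC M ((χ : G → ℂ) 1 * (χ : G → ℂ) u) =
        if conjIrr χ = χ then 0 else redC M ((χ : G → ℂ) u) := fun χ => by
      rw [redC_mul (hν χ) (hval χ _), redC_mul (hval χ _) (hval χ _), hdeg]
      split_ifs with h
      · rcases fsIndicator_eq_one_or_neg_one_of_real χ.2 ((conjIrr_eq_iff χ).mp h) with h | h
        · rw [h, redC_one, CharTwo.add_self_eq_zero]
        · rw [h, redC_neg (one_mem _), redC_one]; ring
      · rw [conjIrr_eq_iff] at h
        push Not at h
        rw [fsIndicator_eq_zero_of_not_real χ.2 h]; simp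
    simp only [h6]
    refine Finset.sum_involution (fun χ _ => conjIrr χ) (fun χ _ => ?_) (fun χ _ h he => ?_)
      (fun _ _ => Finset.mem_univ _) fun χ _ => conjIrr_conjIrr χ
    · rw [conjIrr_conjIrr, hreal]
      simp only [eq_comm (a := χ)]
      exact CharTwo.add_self_eq_zero _
    · exact h (if_pos he)
  rw [Finset.sum_add_distrib, ← h3, h4] at h5
  simp at h5

end Cfsg.Agent.S4746
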