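import Cfsg.Statements.S4748
import Cfsg.Agent.H88.TILat
import Cfsg.Agent.H43.Basic
import Cfsg.Agent.H22.PSolvable

set_option autoImplicit false
open scoped Pointwise
open Cfsg

namespace Cfsg.Agent.S4748

open Cfsg.Agent.H5 Cfsg.Agent.H6 Cfsg.Agent.H88
open scoped commutatorElement

/-- Let G be a finite p-solvable group whose Sylow p-subgroup P meets each conjugate g P g⁻¹ with g outside N_G(P) trivially, and let χ be a faithful character of G (χ g = χ 1 only for g = 1) whose degree d satisfies d² ≤ |P|. Then P is normal in G. -/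
theorem result {G : Type*} [Group G] [Finite G] (p : ℕ) [Fact p.Prime] (hsolv : Cfsg.IsPSolvable p G) (P : Sylow p G) (hTI : ∀ g : G, g ∉ Subgroup.normalizer ((P : Subgroup G) : Set G) → (P : Subgroup G) ⊓ (MulAut.conj g • (P : Subgroup G)) = ⊥) (χ : G → ℂ) (hχ : Cfsg.IsCharacter G χ) (hfaith : ∀ g : G, χ g = χ 1 → g = 1) (hdeg : Cfsg.charDegree χ ^ 2 ≤ Nat.card ↥(P : Subgroup G)) : (P : Subgroup G).Normal := by
  by_contra hP
  have hp : p.Prime := Fact.out
  have hTI' : ∀ u ∈ (P : Subgroup G), ∀ g, g⁻¹ * u * g ∈ (P : Subgroup G) → u = 1 ∨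
      g ∈ Subgroup.normalizer ((P : Subgroup G) : Set G) := fun u hu g hug => by
    rw [or_iff_not_imp_right]
    intro hg
    rw [← Subgroup.mem_bot, ← hTI g hg]
    refine ⟨hu, Subgroup.mem_pointwise_smul_iff_inv_smul_mem.mpr ?_⟩
    simpa [mul_assoc] using hug
  have hO : pCore p G = ⊥ := by
    obtain ⟨g, hg⟩ : ∃ g, g ∉ Subgroup.normalizer ((P : Subgroup G) : Set G) := by
      by_contra hc
      push Not at hc
      exact hP (Subgroup.normalizer_eq_top_iff.mp (eq_top_iff.mpr fun g _ => hc g))
    rw [eq_bot_iff]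
    intro u hu
    exact (hTI' u (H22.pCore_le_sylow P hu) g (H22.pCore_le_sylow P
      ((inferInstance : (pCore p G).Normal).conj_mem' u hu g))).resolve_right hg
  have hP1 : Nontrivial (P : Subgroup G) := (Subgroup.nontrivial_iff_ne_bot _).mpr fun e =>
    hP (e ▸ inferInstance)
  obtain ⟨⟨z, hz⟩, hz1⟩ := @exists_ne _ P.isPGroup'.center_nontrivial 1
  let K := pPrimeCore p G
  have hdisj : ∀ a ∈ (P : Subgroup G), a ∈ K → a = 1 := fun a ha haK => by
    obtain ⟨k, hk⟩ := P.isPGroup' ⟨a, ha⟩
    exact H43.eq_one_of_pow_coprime (H22.coprime_card_pPrimeCore.pow_right k)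
      (congrArg Subtype.val (pow_card_eq_one' (x := (⟨a, haK⟩ : K)))) (congrArg Subtype.val hk)
  let L := (P : Subgroup G) ⊔ K
  let N := (Subgroup.normalizer ((P : Subgroup G) : Set G)).subgroupOf L
  have := Fintype.ofFinite L
  have := Fintype.ofFinite N
  let z' : N := ⟨⟨z, Subgroup.mem_sup_left z.2⟩, Subgroup.le_normalizer z.2⟩
  have hz' : z' ∈ Subgroup.center N := Subgroup.mem_center_iff.mpr fun n => by
    have h1 : ((n : L) : G) ∈ (L : Set G) := (n : L).2
    rw [Subgroup.mul_normal] at h1
    obtain ⟨u, hu, k, hk, e⟩ := h1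
    have h2 : k ∈ Subgroup.normalizer ((P : Subgroup G) : Set G) := by
      have h3 : u * k ∈ Subgroup.normalizer ((P : Subgroup G) : Set G) := by
        rw [show u * k = _ from e]; exact n.2
      exact (Subgroup.mul_mem_cancel_left _ (Subgroup.le_normalizer hu)).mp h3
    have h4 : k * z * k⁻¹ * (z : G)⁻¹ = 1 := hdisj _
      (mul_mem (H43.conj_mem_of_mem_normalizer h2 z.2) (inv_mem z.2)) (by
        rw [mul_assoc, mul_assoc, ← mul_assoc (z : G)]
        exact mul_mem hk ((inferInstance : K.Normal).conj_mem _ (inv_mem hk) _))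
    have h5 : u * z = z * u := congrArg Subtype.val (Subgroup.mem_center_iff.mp hz ⟨u, hu⟩)
    refine Subtype.ext (Subtype.ext ?_)
    change ((n : L) : G) * z = z * ((n : L) : G)
    rw [← show u * k = _ from e, ← mul_assoc, ← h5, mul_assoc, mul_assoc, mul_right_inj]
    rw [mul_inv_eq_one, mul_inv_eq_iff_eq_mul] at h4
    exact h4
  have hχL := isCharacter_restrict hχ L
  have key : ∀ g : L, (z : G) * g * (z : G)⁻¹ * (g : G)⁻¹ = 1 := fun g => by
    refine hfaith _ ?_
    have := apply_eq_of_forall_constituent hχL (g := z' * g * (z' : L)⁻¹ * g⁻¹) (c := 1) (d := 1)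
      fun ψ hψ hne => by
        rw [one_mul, one_mul]
        have hψ' := isCharacter_of_isIrr hψ
        have h1 := classInner_restrict_of_free (P := (P : Subgroup G).subgroupOf L) (H := N) hp
          P.isPGroup'.comap_subtype (Subgroup.comap_mono Subgroup.le_normalizer)
          (fun u hu g hg hug => Subtype.ext ((hTI' u hu g ?_).resolve_right hg)) hψ' (by
            rw [Nat.card_congr (Subgroup.subgroupOfEquivOfLe le_sup_left).toEquiv]
            exact (Nat.pow_le_pow_left (charDegree_le_of_classInner_ne_zero hχL hψ hne) 2).trans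
              hdeg)
        · rw [classInner_irr_self hψ] at h1
          exact apply_commutator_of_norm_eq hψ' (norm_apply_of_mem_center
            (isIrr_of_classInner_self_eq_one (isCharacter_restrict hψ' N) h1.symm) hz') g
        · have h1 : IsPGroup p (Subgroup.zpowers ((g : G)⁻¹ * u * g)) := by
            obtain ⟨k, hk⟩ := IsPGroup.iff_orderOf.mp P.isPGroup' ⟨u, hu⟩
            exact H43.isPGroup_zpowers_of_orderOf (k := k) (by
              rw [H43.orderOf_conj', ← hk]; exact (Subgroup.orderOf_mk _ _).symm)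
          exact ((h1.inf_normalizer_sylow P).le ⟨Subgroup.mem_zpowers _, hug⟩).2
    simpa using this
  refine hz1 (Subtype.ext (Subtype.ext (hdisj z z.2 ?_)))
  refine H22.IsPSolvable.centralizer_pPrimeCore_le hsolv hO fun k hk => ?_
  have := key ⟨k, Subgroup.mem_sup_right hk⟩
  rw [mul_inv_eq_one, mul_inv_eq_iff_eq_mul] at this
  exact this.symm

end Cfsg.Agent.S4748
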