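import Cfsg.Statements.S4750
import Cfsg.Agent.H88.TILat
import Cfsg.Agent.H43.Basic

set_option autoImplicit false
open scoped Pointwise
open Cfsg

namespace Cfsg.Agent.S4750

open Cfsg.Agent.H5 Cfsg.Agent.H6 Cfsg.Agent.H88

/-- Let P be a Sylow p-subgroup of the finite group G that meets each conjugate g P g⁻¹ with g outside N_G(P) trivially, χ a character of G with χ(1)² ≤ |P|, and H a subgroup of G containing N_G(P). Then the inner product of χ with itself over G equals the inner product over H of the restriction of χ to H. -/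
theorem result {G : Type*} [Group G] [Fintype G] [DecidableEq G] (p : ℕ) [Fact p.Prime] (P : Sylow p G) (hTI : ∀ g : G, g ∉ Subgroup.normalizer ((P : Subgroup G) : Set G) → (P : Subgroup G) ⊓ (MulAut.conj g • (P : Subgroup G)) = ⊥) (χ : G → ℂ) (hχ : Cfsg.IsCharacter G χ) (hdeg : Cfsg.charDegree χ ^ 2 ≤ Nat.card ↥(P : Subgroup G)) (H : Subgroup G) [Fintype ↥H] (hH : Subgroup.normalizer ((P : Subgroup G) : Set G) ≤ H) : Cfsg.classInner χ χ = Cfsg.classInner (fun h : ↥H => χ h) (fun h : ↥H => χ h) := by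
  refine classInner_restrict_of_free Fact.out P.isPGroup' (Subgroup.le_normalizer.trans hH)
    (fun u hu g hg hug => ?_) hχ hdeg
  have h1 : IsPGroup p (Subgroup.zpowers (g⁻¹ * u * g)) := by
    obtain ⟨k, hk⟩ := IsPGroup.iff_orderOf.mp P.isPGroup' ⟨u, hu⟩
    exact H43.isPGroup_zpowers_of_orderOf (k := k) (by
      rw [H43.orderOf_conj', ← hk, Subgroup.orderOf_mk])
  obtain ⟨h, hh, h2⟩ := H43.exists_conj_le_sylow_in P (Subgroup.le_normalizer.trans hH) h1
    (Subgroup.zpowers_le.mpr hug)
  have h3 := hTI (g * h⁻¹) fun e => hg (by simpa using H.mul_mem (hH e) hh)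
  rw [← Subgroup.mem_bot, ← h3]
  refine ⟨hu, Subgroup.mem_pointwise_smul_iff_inv_smul_mem.mpr ?_⟩
  simpa [mul_assoc] using h2 _ (Subgroup.mem_zpowers _)

end Cfsg.Agent.S4750
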