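import Cfsg.Statements.S4752
import Cfsg.Agent.H87.X3Main

set_option autoImplicit false
open Cfsg

namespace Cfsg.Agent.S4752

open Cfsg.Agent.H87 Cfsg.Agent.H32 MonoidAlgebra

/-- Let G be a finite group whose Sylow 3-subgroup P is extraspecial of order 27 and exponent 3, with N_G(P) ≤ C_G(Z(P)), and let M be a maximal ideal of the algebraic integers containing 3, B the principal 3-block of G, k its number of irreducible characters, k₀ the number of those of height zero, l its 3-regular rank (number of irreducible Brauer characters), and e the index of P·C_G(P) in N_G(P) (the order of the inertial quotient). Then e = 1 gives (k, k₀, l) = (11, 9, 1); e = 2 gives (10, 6, 2); e = 4 gives (14, 6, 4); e = 8 gives (16, 6, 5). -/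
theorem result {G : Type*} [Group G] [Finite G] (P : Sylow 3 G) (hE : Cfsg.IsExtraspecial 3 ↥(P : Subgroup G)) (h27 : Nat.card ↥(P : Subgroup G) = 27) (hexp : ∀ x ∈ (P : Subgroup G), x ^ 3 = 1) (hNC : ∀ g ∈ Subgroup.normalizer ((P : Subgroup G) : Set G), ∀ z ∈ (P : Subgroup G), (∀ y ∈ (P : Subgroup G), z * y = y * z) → g * z = z * g) (M : Ideal Cfsg.AlgInt) (hM : Cfsg.IsPModular 3 M) (k k₀ l e : ℕ) (hk : Nat.card ↥(Cfsg.principalBlock M G) = k) (hk₀ : Nat.card {χ : Cfsg.IrrCharacter G // χ ∈ Cfsg.principalBlock M G ∧ Cfsg.blockHeight 3 (Cfsg.principalBlock M G) (χ : G → ℂ) = 0} = k₀) (hl : Cfsg.blockRank 3 (Cfsg.principalBlock M G) = l) (he : ((P : Subgroup G) ⊔ Subgroup.centralizer ((P : Subgroup G) : Set G)).relIndex (Subgroup.normalizer ((P : Subgroup G) : Set G)) = e) : (e = 1 → k = 11 ∧ k₀ = 9 ∧ l = 1) ∧ (e = 2 → k = 10 ∧ k₀ = 6 ∧ l = 2) ∧ (e = 4 → k = 14 ∧ k₀ = 6 ∧ l = 4) ∧ (e = 8 → k = 16 ∧ k₀ = 6 ∧ l = 5) := by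
  classical
  have := hM.2.1
  obtain ⟨⟨-, -, h1⟩, h2⟩ := hE
  have : Nontrivial (Subgroup.center (P : Subgroup G)) :=
    Finite.one_lt_card_iff_nontrivial.1 (by omega)
  obtain ⟨w, hw⟩ := exists_ne (1 : Subgroup.center (P : Subgroup G))
  have h3 : ∀ x : (P : Subgroup G), x ∈ Subgroup.center (P : Subgroup G) ↔
      (x : G) ∈ Subgroup.zpowers ((w : (P : Subgroup G)) : G) := fun x =>
    ⟨fun hx => by
      obtain ⟨n, hn⟩ := mem_zpowers_of_prime_card h2 hw (g' := ⟨x, hx⟩)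
      exact ⟨n, congrArg (fun y : Subgroup.center (P : Subgroup G) => ((y : (P : Subgroup G)) : G)) hn⟩,
    fun ⟨n, hn⟩ => (Subtype.ext hn : (w : (P : Subgroup G)) ^ n = x) ▸ Subgroup.zpow_mem _ w.2 n⟩
  have h4 : ∀ x ∈ (P : Subgroup G), (∀ y ∈ (P : Subgroup G), x * y = y * x) ↔
      x ∈ Subgroup.zpowers ((w : (P : Subgroup G)) : G) := fun x hx => by
    rw [← h3 ⟨x, hx⟩, Subgroup.mem_center_iff]
    exact ⟨fun e y => Subtype.ext (e y y.2).symm, fun e y hy => (congrArg Subtype.val (e ⟨y, hy⟩)).symm⟩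
  have h : X3 (P : Subgroup G) ((w : (P : Subgroup G)) : G) := ⟨sylIn_top_iff.2 ⟨P, rfl⟩, h27, hexp,
    w.1.2, fun e => hw (Subtype.ext (Subtype.ext e)), h4, fun x hx y hy => (h3 (⟨x, hx⟩ * ⟨y, hy⟩ * ⟨x, hx⟩⁻¹ * ⟨y, hy⟩⁻¹)).1
      (h1 ▸ Subgroup.commutator_mem_commutator (Subgroup.mem_top _) (Subgroup.mem_top _)), fun g hg => mem_Cg.2
      (hNC g hg _ w.1.2 ((h4 _ w.1.2).2 (Subgroup.mem_zpowers _)))⟩
  obtain ⟨Y, U, d⟩ := h.exists_data hM
  rw [← card_hz] at hk₀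
  have h5 := d.card
  have h6 := d.k
  have h7 := d.kb
  rw [he] at h5 d
  have := Fintype.ofFinite G
  have := Fintype.ofFinite (H34.Cg ((w : (P : Subgroup G)) : G))
  have := Fintype.ofFinite (Cb ((w : (P : Subgroup G)) : G))
  refine ⟨fun e1 => ?_, fun e1 => ?_, fun e1 => ?_, fun e1 => ?_⟩
  · have h8 := h.hnc_top (he.trans e1)
    have h9 := rank_of_hnc hM h8
    have h10 : blockRank 3 (principalBlock M (Cb ((w : (P : Subgroup G)) : G))) = 1 :=
      rank_of_hnc hM (H3.hasNormalPComplement_quotient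
      (H3.hasNormalPComplement_subgroup h8 _) (Zc ((w : (P : Subgroup G)) : G)))
    have h11 := sum_sq_of_hnc hM h8 P
    rw [h27, ← Finset.sum_sdiff (hz_subset (M := M))] at h11
    have h12 := Finset.card_nsmul_le_sum (H86.fs (principalBlock M G) \ hz G M)
      (fun χ => charDegree (χ : G → ℂ) ^ 2) 9 fun χ hχ => by
        obtain ⟨a, b⟩ := Finset.mem_sdiff.1 hχ
        exact Nat.pow_le_pow_left (Nat.le_of_dvd (charDegree_pos χ)
          (not_not.1 fun c => b (mem_hz.2 ⟨H86.mem_fs.1 a, c⟩))) 2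
    have h13 := Finset.card_nsmul_le_sum (hz G M) (fun χ => charDegree (χ : G → ℂ) ^ 2) 1
      fun χ _ => pow_pos (charDegree_pos χ) 2
    have h14 : 3 ∣ ∑ χ ∈ H86.fs (principalBlock M G) \ hz G M, charDegree (χ : G → ℂ) ^ 2 :=
      Finset.dvd_sum fun χ hχ => by
        obtain ⟨a, b⟩ := Finset.mem_sdiff.1 hχ
        exact dvd_pow (not_not.1 fun c => b (mem_hz.2 ⟨H86.mem_fs.1 a, c⟩)) two_ne_zero
    have h15 : 3 ∣ ∑ χ ∈ hz G M, (charDegree (χ : G → ℂ) ^ 2 + 2) := Finset.dvd_sum fun χ hχ => by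
      have := (mem_hz.1 hχ).2
      rcases (by omega : charDegree (χ : G → ℂ) % 3 = 1 ∨ charDegree (χ : G → ℂ) % 3 = 2) with
        c | c <;> rw [Nat.dvd_iff_mod_eq_zero, Nat.add_mod, Nat.pow_mod, c]
    have h16 := Finset.card_sdiff_add_card_eq_card (hz_subset (M := M) (G := G))
    rw [H86.card_fs] at h16
    rw [Finset.sum_add_distrib, Finset.sum_const] at h15
    simp only [smul_eq_mul] at h12 h13 h15
    subst e1
    omega
  all_goals
    have h8 := d.main h (by simp [e1])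
    subst e1
    omega

end Cfsg.Agent.S4752
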