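import Cfsg.Statements.S4755
import Cfsg.Agent.H88.Vanish
import Cfsg.Agent.S4754

set_option autoImplicit false
open Cfsg

namespace Cfsg.Agent.S4755

open Cfsg.Agent.H5 Cfsg.Agent.H6 Cfsg.Agent.H88
open scoped commutatorElement

/-- Let x, y be non-identity elements of the finite group G such that χ(x' y') = χ(x') χ(y') for all conjugates x' of x, y' of y and every irreducible character χ. Then the conjugacy class of x y is the set of all products of a conjugate of x with a conjugate of y; every irreducible character of degree greater than 1 vanishes at x y; and the conjugacy class of x y is the coset of the commutator subgroup containing x y. -/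
theorem result {G : Type*} [Group G] [Finite G] (x y : G) (hx : x ≠ 1) (hy : y ≠ 1) (h : ∀ (a b : G) (χ : Cfsg.IrrCharacter G), (χ : G → ℂ) (a * x * a⁻¹ * (b * y * b⁻¹)) = (χ : G → ℂ) (a * x * a⁻¹) * (χ : G → ℂ) (b * y * b⁻¹)) : (∀ z : G, IsConj (x * y) z ↔ ∃ a b : G, z = a * x * a⁻¹ * (b * y * b⁻¹)) ∧ (∀ χ : Cfsg.IrrCharacter G, (χ : G → ℂ) 1 ≠ 1 → (χ : G → ℂ) (x * y) = 0) ∧ (∀ z : G, IsConj (x * y) z ↔ (x * y)⁻¹ * z ∈ commutator G) := by
  have h' : ∀ (a b : G) (χ : IrrCharacter G),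
      (χ : G → ℂ) (a * x * a⁻¹ * (b * y * b⁻¹)) = (χ : G → ℂ) x * (χ : G → ℂ) y := fun a b χ => by
    rw [h, isClassFunction_of_isIrr χ.2, isClassFunction_of_isIrr χ.2]
  have hxy : ∀ χ : IrrCharacter G, (χ : G → ℂ) (x * y) = (χ : G → ℂ) x * (χ : G → ℂ) y :=
    fun χ => by simpa using h' 1 1 χ
  have h1 : ∀ z : G, IsConj (x * y) z ↔ ∃ a b : G, z = a * x * a⁻¹ * (b * y * b⁻¹) := by
    intro z
    constructor
    · intro hz
      obtain ⟨c, rfl⟩ := isConj_iff.mp hz
      exact ⟨c, c, by group⟩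
    · rintro ⟨a, b, rfl⟩
      rw [isConj_iff_forall_irr]
      intro χ
      rw [h', hxy]
  have h2 : ∀ χ : IrrCharacter G, (χ : G → ℂ) 1 ≠ 1 → (χ : G → ℂ) (x * y) = 0 := by
    intro χ hχ
    have h3 := (S4754.result x y).mp h1 1 1 χ
    rw [h', ← hxy] at h3
    have : ((χ : G → ℂ) 1 - 1) * (χ : G → ℂ) (x * y) = 0 := by rw [sub_mul, h3]; ring
    exact (mul_eq_zero.mp this).resolve_left (sub_ne_zero.mpr hχ)
  refine ⟨h1, h2, fun z => ⟨fun hz => ?_, fun hz => ?_⟩⟩
  · obtain ⟨c, rfl⟩ := isConj_iff.mp hz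
    have : (x * y)⁻¹ * (c * (x * y) * c⁻¹) = ⁅(x * y)⁻¹, c⁆ := by
      rw [commutatorElement_def]; group
    rw [this]
    exact Subgroup.commutator_mem_commutator (Subgroup.mem_top _) (Subgroup.mem_top _)
  · refine isConj_of_forall_irr_ne_zero fun χ hχ => ?_
    have h1 : (χ : G → ℂ) 1 = 1 := by
      by_contra hc; exact hχ (h2 χ hc)
    obtain ⟨lam, e⟩ := exists_monoidHom_of_degree_one (isCharacter_of_isIrr χ.2) h1
    have h3 : lam ((x * y)⁻¹ * z) = 1 := Abelianization.commutator_subset_ker lam hz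
    rw [map_mul, map_inv, inv_mul_eq_one] at h3
    rw [e]
    simp only [h3]

end Cfsg.Agent.S4755
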