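import Cfsg.Statements.S4756
import Cfsg.Agent.H86.MonoLin
import Cfsg.Agent.H89.InvOver
import Cfsg.Agent.H6.FrobGroup
import Cfsg.Agent.H6.DefectZero
import Cfsg.Agent.H2.FpfCyclic
import Cfsg.Agent.H49.Hall
import Cfsg.Agent.S0026

set_option autoImplicit false
open Cfsg

namespace Cfsg.Agent.S4756

section
open Cfsg.Agent.H6 Subgroup
variable {G : Type*} [Group G]

theorem triv_of_sum [Finite G] (N : Subgroup G) [N.Normal] [Fintype N] {χ : G → ℂ}
    (hχ : IsIrrCharacter G χ) (h : ∑ n : N, χ n ≠ 0) : ∀ n ∈ N, χ n = χ 1 := by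
  have := Fintype.ofFinite G
  have h1 := res_eq_smul_of_invariant N hχ (θ := fun _ => 1) H5.isIrrCharacter_one (by
    rw [H5.classInner_one_right]
    exact mul_ne_zero (inv_ne_zero H5.natCard_ne_zero) h) fun _ => rfl
  intro n hn
  exact (congrFun h1 ⟨n, hn⟩).trans (congrFun h1 1).symm

theorem vanish [Finite G] (D : Subgroup G) [hD : D.Normal] (hc : commutator G ≤ D) {h : G}
    (hf : ∀ k ∈ D, h * k = k * h → k = 1) {χ : G → ℂ} (hχ : IsIrrCharacter G χ) (h1 : χ 1 ≠ 1)
    {d : G} (hd : d ∈ D) : χ (d * h) = 0 := by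
  classical
  have := Fintype.ofFinite G
  have hcl := H5.isClassFunction_of_isIrr hχ
  have h2 : ∀ k ∈ D, χ (k * h) = χ h := fun k hk => by
    obtain ⟨a, -, ha⟩ := exists_conj_eq_mul_of_fpf D hf hk
    rw [ha]; simpa using hcl h a⁻¹
  rw [h2 d hd]
  by_contra h0
  have h3 := H5.sum_mul_irr_mul hχ (f := fun g => if g ∈ D then 1 else 0) (fun g x => by
    have : x * g * x⁻¹ ∈ D ↔ g ∈ D := ⟨fun h => by simpa [mul_assoc] using hD.conj_mem' _ h x,
      fun h => hD.conj_mem _ h x⟩
    simp only [this]) h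
  have h4 : ∀ f : G → ℂ, ∑ g, (if g ∈ D then (1 : ℂ) else 0) * f g = ∑ n : D, f n := fun f => by
    simp only [ite_mul, one_mul, zero_mul]
    rw [← Finset.sum_filter, Finset.sum_subtype (p := (· ∈ D)) _ (by simp)]
  rw [h4, h4, Finset.sum_congr rfl fun (n : D) _ => h2 n n.2] at h3
  have h5 : ∑ n : D, χ n ≠ 0 := fun h => by
    rw [h, zero_div, zero_mul, Finset.sum_const, nsmul_eq_mul] at h3
    exact mul_ne_zero (Nat.cast_ne_zero.2 Fintype.card_ne_zero) h0 h3
  obtain ⟨lam, -, hl⟩ := H89.exists_hom_of_trivial_on D hc hχ (triv_of_sum D hχ h5)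
  exact h1 (by simp [hl])

theorem mp [Finite G] (H : ∀ (x y : G) (χ : IrrCharacter G), x ≠ 1 → y ≠ 1 → (∃ p q a b : ℕ, p.Prime ∧ q.Prime ∧ p ≠ q ∧ orderOf x = p ^ a ∧ orderOf y = q ^ b) → (χ : G → ℂ) (x * y) = (χ : G → ℂ) x * (χ : G → ℂ) y)
    {x y : G} (χ : IrrCharacter G) (h1 : (χ : G → ℂ) 1 ≠ 1) (hx : x ≠ 1) (hy : y ≠ 1)
    {p q a b : ℕ} (hp : p.Prime) (hq : q.Prime) (hpq : p ≠ q) (ha : orderOf x = p ^ a)
    (hb : orderOf y = q ^ b) :
    (χ : G → ℂ) x * (χ : G → ℂ) y = 0 ∧ (χ : G → ℂ) (x * y) = 0 := by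
  have := Fintype.ofFinite G
  have h2 := H5.sum_irr_mul_conj_eq χ.2 x y
  rw [Finset.sum_congr rfl fun g _ => (H x (g * y * g⁻¹) χ hx (by simpa using hy)
    ⟨p, q, a, b, hp, hq, hpq, ha, by rw [H6.orderOf_conj_eq, hb]⟩).trans
    (by rw [H5.isClassFunction_of_isIrr χ.2 y g]), Finset.sum_const, nsmul_eq_mul,
    Finset.card_univ, ← Nat.card_eq_fintype_card, mul_assoc, mul_div_assoc,
    mul_right_inj' H5.natCard_ne_zero, eq_div_iff (H5.degree_ne_zero χ.2)] at h2
  have h3 : (χ : G → ℂ) x * (χ : G → ℂ) y = 0 := by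
    by_contra h; exact h1 (mul_left_cancel₀ h (h2.trans (mul_one _).symm))
  exact ⟨h3, (H x y χ hx hy ⟨p, q, a, b, hp, hq, hpq, ha, hb⟩).trans h3⟩

theorem ne_one_of {x : G} {p : ℕ} (hp : p.Prime) (h : orderOf x = p) : x ≠ 1 := fun e =>
  hp.ne_one (by rw [← h, e, orderOf_one])

end


/-- For a finite group G the following are equivalent. (1) χ(x y) = χ(x) χ(y) for every irreducible character χ and all non-identity elements x, y of prime power orders for two different primes. (2) G is a p-group for some prime p, or G is abelian, or for some prime p: G = A P with P a normal Sylow p-subgroup and A a nontrivial cyclic subgroup of order prime to p such that, with C = C_P(A) and D = [A, P], one has P = C D, C abelian, D normal in G, C ∩ D = 1, and A acts fixed-point-freely on D (no non-identity element of A centralizes a non-identity element of D). -/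
theorem result {G : Type*} [Group G] [Finite G] : (∀ (x y : G) (χ : Cfsg.IrrCharacter G), x ≠ 1 → y ≠ 1 → (∃ p q a b : ℕ, p.Prime ∧ q.Prime ∧ p ≠ q ∧ orderOf x = p ^ a ∧ orderOf y = q ^ b) → (χ : G → ℂ) (x * y) = (χ : G → ℂ) x * (χ : G → ℂ) y) ↔ ((∃ p : ℕ, p.Prime ∧ IsPGroup p G) ∨ IsMulCommutative G ∨ ∃ (p : ℕ) (_ : Fact p.Prime) (P : Sylow p G) (A : Subgroup G), (P : Subgroup G).Normal ∧ IsCyclic ↥A ∧ A ≠ ⊥ ∧ (Nat.card ↥A).Coprime p ∧ A ⊔ (P : Subgroup G) = ⊤ ∧ IsMulCommutative ↥((P : Subgroup G) ⊓ Subgroup.centralizer (A : Set G)) ∧ (⁅A, (P : Subgroup G)⁆).Normal ∧ ((P : Subgroup G) ⊓ Subgroup.centralizer (A : Set G)) ⊔ ⁅A, (P : Subgroup G)⁆ = (P : Subgroup G) ∧ ((P : Subgroup G) ⊓ Subgroup.centralizer (A : Set G)) ⊓ ⁅A, (P : Subgroup G)⁆ = ⊥ ∧ ∀ a ∈ A, a ≠ 1 → ∀ d ∈ ⁅A, (P : Subgroup G)⁆, a * d = d * a → d = 1) := by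
  classical
  have := Fintype.ofFinite G
  constructor
  · intro H
    by_contra hc
    simp only [not_or] at hc
    obtain ⟨hnp, hna, hc⟩ := hc
    apply hc
    have hG : commutator G ≠ ⊥ := fun h => hna ⟨⟨fun a b =>
      commutatorElement_eq_one_iff_mul_comm.1 (Subgroup.mem_bot.1
        (h ▸ Subgroup.commutator_mem_commutator (Subgroup.mem_top a) (Subgroup.mem_top b)))⟩⟩
    have hlin : ∀ χ : IrrCharacter G, (χ : G → ℂ) 1 = 1 → ∀ g, ∀ d ∈ commutator G,
        (χ : G → ℂ) (g * d) = (χ : G → ℂ) g := fun χ h g d hd => by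
      rw [H5.map_mul_of_degree_one (H5.isCharacter_of_isIrr χ.2) h,
        H86.hom_commutator_eq (H5.isCharacter_of_isIrr χ.2) h hd, mul_one]
    obtain ⟨p, hp, hpd⟩ := Nat.exists_prime_and_dvd
      ((Subgroup.one_lt_card_iff_ne_bot _).2 hG).ne'
    have := Fact.mk hp
    have hpG : IsPGroup p (commutator G) := by
      refine IsPGroup.of_card (Nat.eq_prime_pow_of_unique_prime_dvd Nat.card_pos.ne'
        fun {q} hq hqd => ?_)
      by_contra hne
      have := Fact.mk hq
      obtain ⟨x, hx⟩ := exists_prime_orderOf_dvd_card' p hpd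
      obtain ⟨y, hy⟩ := exists_prime_orderOf_dvd_card' q hqd
      rw [← Subgroup.orderOf_coe] at hx hy
      have h1 := H5.sum_degree_mul_irr ((x : G) * y)
      rw [if_neg (fun h => hne (by
        rw [← hx, ← hy, eq_inv_of_mul_eq_one_left h, orderOf_inv])),
        Finset.sum_congr rfl (g := fun χ : IrrCharacter G => if (χ : G → ℂ) 1 = 1 then 1 else 0)
          (fun χ _ => by
          split_ifs with h
          · rw [h, one_mul, ← one_mul ((x : G) * y),
              hlin χ h _ _ ((commutator G).mul_mem x.2 y.2), h]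
          · rw [(mp H χ h (ne_one_of hp hx) (ne_one_of hq hy) hp hq (Ne.symm hne)
              (hx.trans (pow_one p).symm) (hy.trans (pow_one q).symm)).2, mul_zero]),
        Finset.sum_boole, Nat.cast_eq_zero, Finset.card_eq_zero] at h1
      exact Finset.notMem_empty (⟨fun _ => 1, H5.isIrrCharacter_one⟩ : IrrCharacter G)
        (h1 ▸ Finset.mem_filter.2 ⟨Finset.mem_univ _, rfl⟩)
    obtain ⟨P, hP⟩ := hpG.exists_le_sylow
    have hPn : (P : Subgroup G).Normal := Subgroup.Normal.of_commutator_le _ hP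
    obtain ⟨A, hA⟩ := Subgroup.exists_right_complement'_of_coprime P.card_coprime_index
    have hAc : (Nat.card A).Coprime p := by
      rw [← hA.symm.index_eq_card]
      exact ((Nat.Prime.coprime_iff_not_dvd hp).2 P.not_dvd_index).symm
    have hcop : (Nat.card A).Coprime (Nat.card P) := hA.symm.index_eq_card ▸ P.card_coprime_index.symm
    have hA0 : A ≠ ⊥ := fun h => hnp ⟨p, hp, by
      have h1 : (P : Subgroup G) = ⊤ := by simpa [h] using hA.sup_eq_top
      exact (h1 ▸ P.isPGroup').of_equiv Subgroup.topEquiv⟩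
    have hcomm : ∀ B : Subgroup G, B ⊓ commutator G = ⊥ → IsMulCommutative B := fun B hB =>
      ⟨⟨fun a b => Subtype.ext (commutatorElement_eq_one_iff_mul_comm.1 (Subgroup.mem_bot.1
        (hB ▸ ⟨Subgroup.commutator_le_self B (Subgroup.commutator_mem_commutator a.2 b.2),
          Subgroup.commutator_mem_commutator trivial trivial⟩)))⟩⟩
    have hPo : ∀ y ∈ (P : Subgroup G), ∃ b, orderOf y = p ^ b := fun y hy => by
      obtain ⟨b, hb⟩ := (IsPGroup.iff_orderOf.1 P.isPGroup') ⟨y, hy⟩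
      exact ⟨b, by rw [← hb, Subgroup.orderOf_mk]⟩
    have hfpf : ∀ a ∈ A, a ≠ 1 → ∀ d ∈ commutator G, a * d = d * a → d = 1 := by
      intro a ha ha1 d hd had
      by_contra hd1
      obtain ⟨q, hq, hqd⟩ := Nat.exists_prime_and_dvd (fun h => ha1 (orderOf_eq_one_iff.1 h))
      have hx := orderOf_pow_orderOf_div (orderOf_pos a).ne' hqd
      set x := a ^ (orderOf a / q)
      have hqp : q ≠ p := by
        rintro rfl
        exact (Nat.Prime.coprime_iff_not_dvd hq).1 hAc.symm (hqd.trans (A.orderOf_dvd_natCard ha))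
      have hxd : Commute x d := Commute.pow_left had _
      obtain ⟨b, hb⟩ := hPo d (hP hd)
      have hv : ∀ χ : IrrCharacter G, (χ : G → ℂ) 1 ≠ 1 → (χ : G → ℂ) x = 0 := by
        intro χ h
        by_contra h0
        have h1 : ∀ y ∈ (P : Subgroup G), y ≠ 1 → (χ : G → ℂ) y = 0 := fun y hy hy1 => by
          obtain ⟨b, hb⟩ := hPo y hy
          exact (mul_eq_zero.1 (mp H χ h (ne_one_of hq hx) hy1 hq hp hqp
            (hx.trans (pow_one q).symm) hb).1).resolve_left h0
        have h2 := triv_of_sum (P : Subgroup G) χ.2 (by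
          rw [Finset.sum_eq_single (1 : (P : Subgroup G)) (fun y _ hy => h1 y y.2 fun e => hy (Subtype.ext e)) (by simp)]
          exact H5.degree_ne_zero χ.2) d (hP hd)
        exact H5.degree_ne_zero χ.2 (h2.symm.trans (h1 d (hP hd) hd1))
      have h3 : IsConj x (x * d) := (H5.isConj_iff_forall_irr _ _).2 fun χ => by
        by_cases h : (χ : G → ℂ) 1 = 1
        · exact (hlin χ h _ _ hd).symm
        · rw [hv χ h, (mp H χ h (ne_one_of hq hx) hd1 hq hp hqp
            (hx.trans (pow_one q).symm) hb).2]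
      obtain ⟨c, hc⟩ := isConj_iff.1 h3
      have h4 : (x * d) ^ q = 1 := by rw [← hc, conj_pow, ← hx, pow_orderOf_eq_one]; group
      rw [hxd.mul_pow, ← hx, pow_orderOf_eq_one, one_mul, hx] at h4
      refine hd1 (orderOf_eq_one_iff.1 (Nat.eq_one_of_dvd_coprimes ?_
        (orderOf_dvd_of_pow_eq_one h4) hb.dvd))
      exact ((Nat.coprime_primes hq hp).2 hqp).pow_right b
    have hD : ⁅A, (P : Subgroup G)⁆ ≤ commutator G := Subgroup.commutator_mono le_top le_top
    have hC : ((P : Subgroup G) ⊓ Subgroup.centralizer (A : Set G)) ⊓ commutator G = ⊥ := by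
      obtain ⟨a, ha, ha1⟩ := (Subgroup.bot_or_exists_ne_one A).resolve_left hA0
      exact eq_bot_iff.2 fun d hd => hfpf a ha ha1 d hd.2 (hd.1.2 a ha)
    refine ⟨p, this, P, A, hPn, ?_, hA0, hAc, hA.symm.sup_eq_top, hcomm _ hC, ?_, ?_,
      eq_bot_iff.2 ((inf_le_inf_left _ hD).trans hC.le),
      fun a ha ha1 d hd => hfpf a ha ha1 d (hD hd)⟩
    · exact H2.isCyclic_of_fpf_of_comm (hcomm A (eq_bot_iff.2 ((inf_le_inf_left _ hP).trans
        hA.symm.disjoint.le_bot))) hG Subgroup.le_normalizer_of_normal fun a ha ha1 =>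
        eq_bot_iff.2 fun d hd => hfpf a ha ha1 d hd.1
          (Subgroup.mem_centralizer_singleton_iff.1 hd.2).symm
    · rw [← Subgroup.normalizer_eq_top_iff, eq_top_iff, ← hA.symm.sup_eq_top]
      exact sup_le (H49.le_norm_commutator_left _ _) (H49.le_norm_commutator_right _ _)
    · rw [sup_comm, Subgroup.commutator_comm]
      exact S0026.result A P Subgroup.le_normalizer_of_normal hcop
        (Or.inr (have := P.isPGroup'.isNilpotent; inferInstance))
  · rintro (⟨p, hp, hG⟩ | hG | ⟨p, hp, P, A, hPn, hA, -, hAc, hAP, hC, hDn, hCD, -, hf⟩)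
      x y χ hx hy ⟨p₁, q₁, a, b, hp₁, hq₁, hne, ha, hb⟩
    · have := Fact.mk hp
      have key : ∀ (z : G) (r c : ℕ), r.Prime → z ≠ 1 → orderOf z = r ^ c → r = p := by
        intro z r c hr hz h
        obtain ⟨k, hk⟩ := IsPGroup.iff_orderOf.1 hG z
        have hc : c ≠ 0 := by rintro rfl; exact hz (orderOf_eq_one_iff.1 h)
        exact (Nat.prime_dvd_prime_iff_eq hr hp).1
          (hr.dvd_of_dvd_pow (hk ▸ h ▸ dvd_pow_self r hc))
      exact absurd ((key x _ _ hp₁ hx ha).trans (key y _ _ hq₁ hy hb).symm) hne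
    · exact H5.map_mul_of_degree_one (H5.isCharacter_of_isIrr χ.2)
        (H5.degree_eq_one_of_comm hG.is_comm.comm χ.2) x y
    by_cases h1 : (χ : G → ℂ) 1 = 1
    · exact H5.map_mul_of_degree_one (H5.isCharacter_of_isIrr χ.2) h1 x y
    set C := (P : Subgroup G) ⊓ Subgroup.centralizer (A : Set G)
    set D := ⁅A, (P : Subgroup G)⁆
    have hdec : ∀ g : G, ∃ d ∈ D, ∃ c ∈ C, ∃ a ∈ A, g = d * (c * a) := by
      intro g
      obtain ⟨u, hu, a, ha, rfl⟩ := H6.exists_mul_of_sup_eq_top P A (sup_comm A _ ▸ hAP) g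
      rw [← hCD, sup_comm] at hu
      obtain ⟨d, hd, c, hc, rfl⟩ := Subgroup.mem_sup_of_normal_left.1 hu
      exact ⟨d, hd, c, hc, a, ha, mul_assoc _ _ _⟩
    have hc : commutator G ≤ D := by
      have hq : ∀ u v : G ⧸ D, u * v = v * u := by
        intro u v
        obtain ⟨u, rfl⟩ := QuotientGroup.mk'_surjective D u
        obtain ⟨v, rfl⟩ := QuotientGroup.mk'_surjective D v
        obtain ⟨d, hd, c, hc, a, ha, rfl⟩ := hdec u
        obtain ⟨d', hd', c', hc', a', ha', rfl⟩ := hdec v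
        have e1 : QuotientGroup.mk' D d = 1 := (QuotientGroup.eq_one_iff _).2 hd
        have e2 : QuotientGroup.mk' D d' = 1 := (QuotientGroup.eq_one_iff _).2 hd'
        rw [map_mul _ d, map_mul _ d', e1, e2, one_mul, one_mul, ← map_mul, ← map_mul]
        congr 1
        have c1 : Commute c c' := congrArg Subtype.val (hC.is_comm.comm ⟨c, hc⟩ ⟨c', hc'⟩)
        have c2 : Commute a a' :=
          congrArg Subtype.val (IsCyclic.commGroup.mul_comm (⟨a, ha⟩ : A) ⟨a', ha'⟩)
        have c3 : Commute a c' := hc'.2 a ha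
        have c4 : Commute c a' := (hc.2 a' ha').symm
        exact ((c1.mul_right c4).mul_left (c3.mul_right c2)).eq
      rw [← QuotientGroup.ker_mk' D, commutator_def, Subgroup.commutator_le]
      intro u _ v _
      rw [MonoidHom.mem_ker, map_commutatorElement, commutatorElement_eq_one_iff_mul_comm, hq]
    obtain ⟨k, hk⟩ := IsPGroup.iff_card.1 P.isPGroup'
    have hv : ∀ g, g ∉ (P : Subgroup G) → (χ : G → ℂ) g = 0 := by
      intro g hg
      obtain ⟨d, hd, c, hc', a, ha, rfl⟩ := hdec g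
      refine vanish D hc (fun e he hce => hf (a ^ p ^ k) (A.pow_mem ha _) (fun h => hg ?_) e he ?_)
        χ.2 h1 hd
      · have : a = 1 := orderOf_eq_one_iff.1 (Nat.eq_one_of_dvd_coprimes (hAc.pow_right k)
          (A.orderOf_dvd_natCard ha) (orderOf_dvd_of_pow_eq_one h))
        rw [this, mul_one]
        exact (P : Subgroup G).mul_mem ((le_sup_right.trans hCD.le) hd) hc'.1
      · have c4 : Commute c a := (hc'.2 a ha).symm
        have c5 := (Commute.pow_left hce (p ^ k)).eq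
        rwa [c4.mul_pow, orderOf_dvd_iff_pow_eq_one.1
          (hk ▸ (P : Subgroup G).orderOf_dvd_natCard hc'.1), one_mul] at c5
    have key : ∀ (z : G) (r c : ℕ), r.Prime → z ≠ 1 → orderOf z = r ^ c →
        z ∈ (P : Subgroup G) → r = p := by
      intro z r c hr hz h hzP
      have hc : c ≠ 0 := by rintro rfl; exact hz (orderOf_eq_one_iff.1 h)
      exact (Nat.prime_dvd_prime_iff_eq hr hp.out).1 (hr.dvd_of_dvd_pow
        ((dvd_pow_self r hc).trans (h ▸ hk ▸ (P : Subgroup G).orderOf_dvd_natCard hzP)))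
    have hxy : x ∉ (P : Subgroup G) ∨ y ∉ (P : Subgroup G) := by
      by_contra h
      push Not at h
      exact hne ((key x _ _ hp₁ hx ha h.1).trans (key y _ _ hq₁ hy hb h.2).symm)
    have h2 : x * y ∉ (P : Subgroup G) := fun h => by
      have h3 : QuotientGroup.mk' (P : Subgroup G) x * QuotientGroup.mk' (P : Subgroup G) y = 1 := by
        rw [← map_mul]; exact (QuotientGroup.eq_one_iff _).2 h
      have h4 : QuotientGroup.mk' (P : Subgroup G) x = 1 := by
        refine orderOf_eq_one_iff.1 (Nat.eq_one_of_dvd_coprimes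
          (((Nat.coprime_primes hp₁ hq₁).2 hne).pow a b) (ha ▸ orderOf_map_dvd _ x) ?_)
        rw [eq_inv_of_mul_eq_one_left h3, orderOf_inv]
        exact hb ▸ orderOf_map_dvd _ y
      have h5 := (QuotientGroup.eq_one_iff _).1 h4
      exact hxy.elim (· h5) (· (((P : Subgroup G).mul_mem_cancel_left h5).1 h))
    rw [hv _ h2]
    exact hxy.elim (fun h => by rw [hv x h, zero_mul]) fun h => by rw [hv y h, mul_zero]

end Cfsg.Agent.S4756
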