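import Cfsg.Statements.S4757
import Cfsg.Agent.H88.Eig
import Cfsg.Agent.H88.Inverted
import Cfsg.Agent.H22.Core
import Cfsg.Agent.H43.Basic

set_option autoImplicit false
open Cfsg

namespace Cfsg.Agent.S4757

open Cfsg.Agent.H5 Cfsg.Agent.H6 Cfsg.Agent.H88
open scoped ComplexConjugate

/-- Let u ≠ 1 be an element of the finite group G and c a complex number such that every non-principal irreducible character χ satisfies χ(1) − χ(u) = c or χ(u) = 0. Then the following are equivalent: (a) u has order 2, G is generated by u together with O(G), the largest normal subgroup of G of odd order, and the centralizer of u is {1, u}; (b) G is not perfect; (c) c = 2. -/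
theorem result {G : Type*} [Group G] [Finite G] (u : G) (hu : u ≠ 1) (c : ℂ) (hyp : ∀ χ : Cfsg.IrrCharacter G, (χ : G → ℂ) ≠ (fun _ => (1 : ℂ)) → ((χ : G → ℂ) 1 - (χ : G → ℂ) u = c ∨ (χ : G → ℂ) u = 0)) : ((orderOf u = 2 ∧ Subgroup.zpowers u ⊔ Cfsg.oddCore G = ⊤ ∧ Subgroup.centralizer ({u} : Set G) = Subgroup.zpowers u) ↔ commutator G ≠ ⊤) ∧ (commutator G ≠ ⊤ ↔ c = 2) := by
  classical
  have hlin : ∀ lam : G →* ℂˣ, lam ≠ 1 → 1 - (lam u : ℂ) = c := fun lam hl => by
    have := (hyp ⟨_, isIrrCharacter_monoidHom lam⟩ fun e => hl (MonoidHom.ext fun g =>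
      Units.ext (congrFun e g))).resolve_right (lam u).ne_zero
    simpa using this
  have hab : orderOf u = 2 ∧ Subgroup.zpowers u ⊔ Cfsg.oddCore G = ⊤ ∧
      Subgroup.centralizer ({u} : Set G) = Subgroup.zpowers u → commutator G ≠ ⊤ := by
    rintro ⟨h1, h2, -⟩ h3
    have h4 : commutator G ≤ oddCore G := by
      have : IsCyclic (G ⧸ oddCore G) := isCyclic_of_surjective
        ((QuotientGroup.mk' (oddCore G)).comp (Subgroup.zpowers u).subtype) fun x => by
          obtain ⟨g, rfl⟩ := QuotientGroup.mk_surjective x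
          have hg : g ∈ ((Subgroup.zpowers u ⊔ oddCore G : Subgroup G) : Set G) := by
            rw [h2]; trivial
          rw [Subgroup.mul_normal] at hg
          obtain ⟨a, ha, b, hb, rfl⟩ := hg
          exact ⟨⟨a, ha⟩, (QuotientGroup.mk_mul_of_mem a hb).symm⟩
      exact Subgroup.Normal.quotient_commutative_iff_commutator_le.mp inferInstance
    exact H43.odd_card_iff.mp (Nat.coprime_two_right.mp H22.coprime_card_pPrimeCore) u
      (h4 (h3 ▸ Subgroup.mem_top u)) h1
  have hbc : commutator G ≠ ⊤ → c = 2 := fun h => by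
    have h1 : c ≠ 0 := fun e => by
      have h2 := sum_irr_mul_conj_of_isConj (IsConj.refl u)
      have h3 := sum_irr_mul_conj_of_not_isConj (g := (1 : G)) (h := u)
        fun e => hu (isConj_one_right.mp e)
      rw [← h3.symm.trans (Finset.sum_congr rfl fun χ _ => ?_)] at h2
      · exact card_ne_zero_complex _ h2.symm
      by_cases e' : (χ : G → ℂ) = fun _ => 1
      · rw [e']
      · rcases hyp χ e' with h4 | h4
        · rw [sub_eq_zero.mp (h4.trans e)]
        · simp [h4]
    have : Nontrivial (G →* ℂˣ) := Finite.one_lt_card_iff_nontrivial.mp (by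
      rw [card_monoidHom_eq_index_commutator]
      exact Subgroup.one_lt_index_of_ne_top h)
    obtain ⟨lam, hl⟩ := exists_ne (1 : G →* ℂˣ)
    have h2 := hlin lam hl
    have h3 : (lam u : ℂ) * lam u = 1 := by
      by_cases e : lam * lam = 1
      · simpa using congrArg Units.val (DFunLike.congr_fun e u)
      · have h4 := hlin _ e
        simp only [MonoidHom.mul_apply, Units.val_mul] at h4
        refine absurd (mul_left_cancel₀ (lam u).ne_zero (b := c) (c := 0) ?_) h1
        linear_combination h4 - h2 - (lam u : ℂ) * h2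
    apply mul_left_cancel₀ h1
    linear_combination h3 - (c - 1 - (lam u : ℂ) - 0) * h2
  have hca : c = 2 → orderOf u = 2 ∧ Subgroup.zpowers u ⊔ Cfsg.oddCore G = ⊤ ∧
      Subgroup.centralizer ({u} : Set G) = Subgroup.zpowers u := by
    rintro rfl
    let f : IrrCharacter G → ℤ := fun χ => if (χ : G → ℂ) u = 0 then 0 else
      charDegree (χ : G → ℂ) * (charDegree (χ : G → ℂ) - 2)
    have h1 : ∑ χ ∈ Finset.univ.erase (trivIrr G), f χ = -1 := by
      have h2 := sum_degree_mul_irr u
      rw [if_neg hu, ← Finset.add_sum_erase _ _ (Finset.mem_univ (trivIrr G)), trivIrr_apply,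
        trivIrr_apply, one_mul, add_eq_zero_iff_eq_neg', Finset.sum_congr rfl
          (g := fun χ => (f χ : ℂ)) fun χ hχ => ?_] at h2
      · exact_mod_cast h2
      simp only [f]
      split_ifs with e
      · simp [e]
      · have := (hyp χ (mt eq_trivIrr_iff.mpr (Finset.ne_of_mem_erase hχ))).resolve_right e
        push_cast
        rw [irr_charDegree_cast, ← this, sub_sub_cancel]
    have h2 : ∀ χ, f χ < 0 → charDegree (χ : G → ℂ) = 1 := fun χ h => by
      simp only [f] at h
      have := charDegree_pos χ.2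
      split_ifs at h
      · omega
      · by_contra e
        have : (2 : ℤ) ≤ charDegree (χ : G → ℂ) := by omega
        nlinarith
    obtain ⟨χ, hχ, hf⟩ : ∃ χ ∈ Finset.univ.erase (trivIrr G), f χ < 0 := by
      by_contra hc
      push Not at hc
      have := Finset.sum_nonneg hc
      omega
    have h3 : ∀ ψ ∈ Finset.univ.erase (trivIrr G), charDegree (ψ : G → ℂ) = 1 →
        ∃ lam : G →* ℂˣ, (ψ : G → ℂ) = (fun g => (lam g : ℂ)) ∧ (lam u : ℂ) = -1 := fun ψ hψ h => by
      obtain ⟨lam, hl⟩ := exists_monoidHom_of_degree_one (isCharacter_of_isIrr ψ.2)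
        ((charDegree_eq_one_iff (isCharacter_of_isIrr ψ.2)).mp h)
      refine ⟨lam, hl, ?_⟩
      have := hlin lam fun e => Finset.ne_of_mem_erase hψ (eq_trivIrr_iff.mpr (by simp [hl, e]))
      linear_combination -this
    have h4 : ∀ lam : G →* ℂˣ, (lam u : ℂ) = 1 → lam = 1 := fun lam h => by
      by_contra e
      have := hlin lam e
      rw [h] at this
      norm_num at this
    obtain ⟨lam, hl, hlu⟩ := h3 χ hχ (h2 χ hf)
    have h5 : ∀ ψ ∈ (Finset.univ.erase (trivIrr G)).erase χ, f ψ = 0 := by
      rw [← Finset.sum_eq_zero_iff_of_nonneg fun ψ hψ => not_lt.mp fun h => ?_]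
      · rw [← Finset.add_sum_erase _ _ hχ] at h1
        have : f χ = -1 := by simp [f, hl, charDegree_monoidHom]
        omega
      · obtain ⟨mu, hm, hmu⟩ := h3 ψ (Finset.mem_of_mem_erase hψ) (h2 ψ h)
        have := h4 (mu * lam⁻¹) (by simp [hmu, hlu])
        have e : mu = lam := mul_inv_eq_one.mp this
        exact Finset.ne_of_mem_erase hψ (Subtype.ext (by rw [hm, hl, e]))
    have h6 : Nat.card (Subgroup.centralizer ({u} : Set G)) = 2 := by
      have h7 := sum_normSq_irr u
      rw [← Finset.add_sum_erase _ _ (Finset.mem_univ (trivIrr G)), ← Finset.add_sum_erase _ _ hχ,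
        Finset.sum_eq_zero fun ψ hψ => ?_, hl, trivIrr_apply] at h7
      · simp only [hlu, norm_neg, norm_one] at h7
        exact Nat.cast_injective (R := ℝ) (by rw [← h7]; norm_num)
      · have h8 := h5 ψ hψ
        have h9 := charDegree_pos ψ.2
        by_cases e : (ψ : G → ℂ) u = 0
        · simp [e]
        · simp only [f, if_neg e, mul_eq_zero] at h8
          have h10 : charDegree (ψ : G → ℂ) = 2 := by omega
          have := (hyp ψ (mt eq_trivIrr_iff.mpr (Finset.ne_of_mem_erase
            (Finset.mem_of_mem_erase hψ)))).resolve_right e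
          rw [← irr_charDegree_cast, h10] at this
          exact absurd (by simpa using this) e
    have h7 : Subgroup.zpowers u ≤ Subgroup.centralizer ({u} : Set G) :=
      Subgroup.zpowers_le.mpr (Subgroup.mem_centralizer_singleton_iff.mpr rfl)
    have h8 : orderOf u = 2 := ((Nat.dvd_prime Nat.prime_two).mp (by
      rw [← h6, ← Nat.card_zpowers]; exact Subgroup.card_dvd_of_le h7)).resolve_left
        (mt orderOf_eq_one_iff.mp hu)
    have h9 := (Subgroup.eq_of_le_of_card_ge h7 (by rw [h6, Nat.card_zpowers, h8])).symm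
    refine ⟨h8, ?_, h9⟩
    have h10 : ∀ y ∈ lam.ker, u * y = y * u → y = 1 := fun y hy e => by
      have h11 : y ∈ Subgroup.zpowers u := h9 ▸ Subgroup.mem_centralizer_singleton_iff.mpr e.symm
      rw [mem_zpowers_iff_mem_range_orderOf, h8] at h11
      simp only [Finset.mem_image, Finset.mem_range] at h11
      obtain ⟨k, hk, rfl⟩ := h11
      interval_cases k
      · exact pow_zero u
      · rw [pow_one, MonoidHom.mem_ker] at hy
        rw [hy] at hlu
        norm_num at hlu
    have h11 : lam.ker ≤ oddCore G := H22.le_pPrimeCore inferInstance (Nat.coprime_two_right.mpr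
      (H43.odd_card_iff.mpr fun t ht h => by
        have := inv_of_fixedPointFree lam.ker (H43.mul_self_of_orderOf h8)
          (Subgroup.normalizer_eq_top lam.ker ▸ Subgroup.mem_top u) h10 t ht
        rw [H43.inv_eq_of_orderOf h, mul_inv_eq_iff_eq_mul] at this
        exact H43.ne_one_of_orderOf h (h10 t ht this)))
    rw [eq_top_iff]
    intro g _
    have h12 := congrArg Units.val (DFunLike.congr_fun (h4 (lam * lam) (by simp [hlu])) g)
    simp only [MonoidHom.mul_apply, Units.val_mul, MonoidHom.one_apply, Units.val_one,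
      mul_self_eq_one_iff] at h12
    rcases h12 with e | e
    · exact Subgroup.mem_sup_right (h11 (Units.ext e))
    · rw [← inv_mul_cancel_left u g]
      exact mul_mem (Subgroup.mem_sup_left (inv_mem (Subgroup.mem_zpowers u)))
        (Subgroup.mem_sup_right (h11 (Units.ext (by simp [e, hlu]))))
  exact ⟨⟨hab, fun h => hca (hbc h)⟩, hbc, fun h => hab (hca h)⟩

end Cfsg.Agent.S4757
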