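import Cfsg.Statements.S4762
import Cfsg.Agent.H88.Deg4
import Cfsg.Agent.H3.NilpotentHall
import Cfsg.Agent.H3.PGroup
import Cfsg.Agent.H3.ClassTwo
import Cfsg.Agent.H31.ExtraChar

set_option autoImplicit false
open Cfsg

namespace Cfsg.Agent.S4762

open Cfsg.Agent.H5 Cfsg.Agent.H6 Cfsg.Agent.H88
open scoped ComplexConjugate commutatorElement

/-- Let p be a prime and G a finite nilpotent group. Then G has exactly one irreducible complex character of degree divisible by p if and only if p = 2 and G is an extraspecial 2-group. -/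
theorem result {G : Type*} [Group G] [Finite G] [Group.IsNilpotent G] (p : ℕ) [Fact p.Prime] : Nat.card {χ : Cfsg.IrrCharacter G // p ∣ Cfsg.charDegree (χ : G → ℂ)} = 1 ↔ (p = 2 ∧ Cfsg.IsExtraspecial 2 G) := by
  classical
  have hp : p.Prime := Fact.out
  constructor
  · intro h
    obtain ⟨⟨χ, hχ⟩, huniq⟩ := Nat.card_eq_one_iff_exists.mp h
    have hu : ∀ ψ : G → ℂ, IsIrrCharacter G ψ → p ∣ charDegree ψ → ψ = χ := fun ψ hψ hd =>
      congrArg (fun x => (x.1 : G → ℂ)) (huniq ⟨⟨ψ, hψ⟩, hd⟩)
    have hG : IsPGroup p G := by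
      obtain ⟨N, _, hN, k, hk⟩ := H3.hasNormalPComplement_iff_exists_normal.mp
        (H3.hasNormalPComplement_of_isNilpotent (G := G) (p := p))
      obtain ⟨P⟩ : Nonempty (Sylow p G) := inferInstance
      have hP : (P : Subgroup G).Normal := P.normal_of_normalizerCondition
        normalizerCondition_of_isNilpotent
      obtain ⟨φ, hφ, hφ1⟩ := exists_irr_charDegree_ne_one (G := G ⧸ N) (by
        by_contra hc
        push Not at hc
        refine P.not_dvd_index (hχ.trans (charDegree_dvd_index_of_comm χ.2 _ fun a ha b hb => ?_))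
        rw [← commutatorElement_eq_one_iff_mul_comm, ← Subgroup.mem_bot,
          ← H3.inf_eq_bot_of_isPGroup_of_coprime P.isPGroup' hN]
        refine Subgroup.mem_inf.mpr ⟨mul_mem (mul_mem (mul_mem ha hb) (inv_mem ha)) (inv_mem hb), ?_⟩
        rw [← QuotientGroup.eq_one_iff, ← QuotientGroup.mk'_apply, map_commutatorElement,
          commutatorElement_eq_one_iff_mul_comm]
        exact hc _ _)
      obtain ⟨j, hj⟩ := exists_charDegree_eq_pow (IsPGroup.of_card (p := p) (G := G ⧸ N) hk) hφ
      have h1 : charDegree (χ : G → ℂ) = p ^ j := by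
        rw [← hu _ (isIrrCharacter_inflate N hφ) (by
          rw [charDegree_inflate, hj]
          exact dvd_pow_self p fun e => hφ1 (by rw [hj, e, pow_zero])), charDegree_inflate, hj]
      by_contra hc
      have : Nontrivial (G ⧸ (P : Subgroup G)) := QuotientGroup.nontrivial_iff.mpr fun e =>
        hc ((e ▸ P.isPGroup' : IsPGroup p (⊤ : Subgroup G)).of_equiv Subgroup.topEquiv)
      obtain ⟨μ, hμ⟩ := exists_monoidHom_ne_one (G := G ⧸ (P : Subgroup G))
        (IsSolvable.commutator_lt_top_of_nontrivial _).ne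
      have h2 := hom_pow_eq_one_of_mul_eq χ.2 (μ.comp (QuotientGroup.mk' _))
        (hu _ (isIrrCharacter_monoidHom_mul χ.2 _) (by
          rwa [charDegree_congr (θ := (χ : G → ℂ)) (by simp)]))
      refine hμ (hom_eq_one_of_pow_coprime (fun g => ?_)
        (((Nat.Prime.coprime_iff_not_dvd hp).mpr P.not_dvd_index).pow_left j))
      obtain ⟨g, rfl⟩ := QuotientGroup.mk_surjective g
      rw [h1] at h2
      exact DFunLike.congr_fun h2 g
    have hχ1 : charDegree (χ : G → ℂ) ≠ 1 := fun e => hp.not_dvd_one (e ▸ hχ)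
    have h1 := sum_nonlinear (G := G)
    rw [show (Finset.univ.filter fun χ : IrrCharacter G => charDegree (χ : G → ℂ) ≠ 1) = {χ} by
      ext ψ
      simp only [Finset.mem_filter, Finset.mem_univ, true_and, Finset.mem_singleton]
      refine ⟨fun e => Subtype.ext (hu _ ψ.2 ?_), fun e => e ▸ hχ1⟩
      obtain ⟨j, hj⟩ := exists_charDegree_eq_pow hG ψ.2
      rw [hj]
      exact dvd_pow_self p fun e' => e (by rw [hj, e', pow_zero]), Finset.sum_singleton] at h1
    obtain ⟨j, hj⟩ := exists_charDegree_eq_pow hG χ.2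
    obtain ⟨a, ha⟩ := (hG.to_subgroup (commutator G)).exists_card_eq
    have h2 : (commutator G).index * (p ^ a - 1) = p ^ (j * 2) := by
      rw [← (commutator G).index_mul_card, ha, hj, ← pow_mul] at h1
      rw [Nat.mul_sub, ← h1, mul_one, Nat.add_sub_cancel_left]
    have h3 : a ≠ 0 := fun e => by
      rw [e, pow_zero, Nat.sub_self, mul_zero] at h2
      exact (pow_pos hp.pos _).ne h2
    have h4 : p ^ a - 1 = 1 := by
      refine Nat.Coprime.eq_one_of_dvd (Nat.Coprime.pow_right (j * 2) ?_) (Dvd.intro_left _ h2)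
      exact ((Nat.coprime_self_sub_left (pow_pos hp.pos a)).mpr
        (Nat.coprime_one_left _)).coprime_dvd_right (dvd_pow_self p h3)
    have h5 : p ^ a = 2 := by omega
    obtain rfl : p = 2 := ((Nat.prime_two.pow_eq_iff).mp h5).1
    rw [h5] at ha
    have h6 : commutator G ≤ Subgroup.center G := by
      obtain ⟨z, hz, hz', hz2⟩ := H3.exists_mem_center_orderOf_eq hG (commutator G) fun e => by
        rw [e, Subgroup.card_bot] at ha; omega
      rw [← Subgroup.eq_of_le_of_card_ge (Subgroup.zpowers_le.mpr hz) (by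
        rw [ha, Nat.card_zpowers, hz2])]
      exact Subgroup.zpowers_le.mpr hz'
    have h7 : commutator G = Subgroup.center G := by
      refine Subgroup.eq_of_le_of_card_ge h6 ?_
      have := Fintype.ofFinite G
      have := Fintype.ofFinite (Subgroup.center G)
      have h8 := charDegree_sq_le_index_center χ.2
      rw [h4, mul_one, pow_mul, ← hj] at h2
      have h9 := (Subgroup.center G).index_mul_card
      rw [← (commutator G).index_mul_card, h2] at h9
      refine Nat.le_of_mul_le_mul_left (h9 ▸ Nat.mul_le_mul_right _ h8) (pow_pos (charDegree_pos χ.2) 2)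
    refine ⟨rfl, ⟨hG, le_antisymm (H3.frattini_le_of_elementary_quotient (p := 2) h6 fun x => ?_)
      (h7 ▸ H3.commutator_le_frattini hG), h7⟩, h7 ▸ ha⟩
    refine Subgroup.mem_center_iff.mpr fun g => ?_
    rw [eq_comm, ← commutatorElement_eq_one_iff_mul_comm, H3.commutator_pow_left h6, ← ha]
    exact congrArg Subtype.val (pow_card_eq_one' (x := (⟨_, commutatorElement_mem_commutator' x g⟩ :
      commutator G)))
  · rintro ⟨rfl, hE⟩
    obtain ⟨⟨hG, -, h1⟩, h2⟩ := id hE
    have h3 := sum_nonlinear (G := G)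
    have h4 : ∀ χ : IrrCharacter G, charDegree (χ : G → ℂ) ≠ 1 →
        charDegree (χ : G → ℂ) ^ 2 = (commutator G).index := fun χ h => by
      obtain ⟨z, hz, hne⟩ : ∃ z ∈ commutator G, (χ : G → ℂ) z ≠ (χ : G → ℂ) 1 := by
        by_contra hc
        push Not at hc
        exact h ((commutator_le_charKer_iff χ.2).mp hc)
      rw [h1] at hz ⊢
      exact charDegree_sq_eq_index_of_vanish χ.2 _ (fun z hz => norm_apply_of_mem_center χ.2 hz)
        fun g hg => H31.extraspecial_vanish hp hE χ.2 hz hne hg
    rw [Finset.sum_congr rfl fun χ hχ => h4 χ (Finset.mem_filter.mp hχ).2, Finset.sum_const,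
      smul_eq_mul, ← (commutator G).index_mul_card, show Nat.card (commutator G) = 2 from h1 ▸ h2]
      at h3
    have h5 : (commutator G).index ≠ 0 := Subgroup.index_ne_zero_of_finite
    rw [Nat.card_eq_fintype_card, Fintype.card_subtype, Finset.filter_congr
      (q := fun χ : IrrCharacter G => charDegree (χ : G → ℂ) ≠ 1) fun χ _ => ?_]
    · apply Nat.eq_of_mul_eq_mul_right (Nat.pos_of_ne_zero h5)
      omega
    · obtain ⟨j, hj⟩ := exists_charDegree_eq_pow hG χ.2
      rw [hj]
      exact ⟨fun h e => hp.not_dvd_one (e ▸ h), fun e => dvd_pow_self 2 fun e' => e (by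
        rw [e', pow_zero])⟩

end Cfsg.Agent.S4762
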