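import Cfsg.Statements.S4763
import Cfsg.Agent.H89.CoprimeDeg
import Cfsg.Agent.H89.GlaubS
import Cfsg.Agent.H88.CD3
import Cfsg.Agent.H5.ClassFn
import Cfsg.Agent.H83.ClassSize

set_option autoImplicit false
open Cfsg

namespace Cfsg.Agent.S4763

open Cfsg.Agent

theorem card_add_card_not {α : Type*} [Finite α] (q : α → Prop) :
    Nat.card {a // q a} + Nat.card {a // ¬ q a} = Nat.card α := by
  classical
  rw [← Nat.card_sum]
  exact Nat.card_congr (Equiv.sumCompl q)

theorem card_carrier {G : Type*} [Group G] (x : G) :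
    Nat.card (ConjClasses.mk x).carrier = (Subgroup.centralizer ({x} : Set G)).index := by
  rw [← H5.card_isConj_eq_index]
  refine Nat.card_congr (Equiv.subtypeEquivRight fun y => ?_)
  rw [ConjClasses.mem_carrier_iff_mk_eq, ConjClasses.mk_eq_mk_iff_isConj, isConj_comm]

theorem card_classes {G : Type*} [Group G] [Finite G] {p : ℕ} [hp : Fact p.Prime]
    (N : Subgroup G) [hNn : N.Normal] (P : Sylow p G) (hsup : N ⊔ (P : Subgroup G) = ⊤)
    (hinf : N ⊓ (P : Subgroup G) = ⊥) (hab : ∀ a ∈ (P : Subgroup G), ∀ b ∈ (P : Subgroup G),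
      a * b = b * a) :
    Nat.card {C : ConjClasses G // ¬ p ∣ Nat.card C.carrier} =
      Nat.card (ConjClasses (N ⊓ Subgroup.centralizer ((P : Subgroup G) : Set G) : Subgroup G)) *
        Nat.card (P : Subgroup G) := by
  classical
  set D : Subgroup G := N ⊓ Subgroup.centralizer ((P : Subgroup G) : Set G) with hD
  have hone : ∀ y ∈ N, y ∈ (P : Subgroup G) → y = 1 := fun y h1 h2 => by
    have : y ∈ N ⊓ (P : Subgroup G) := ⟨h1, h2⟩
    rwa [hinf, Subgroup.mem_bot] at this
  have hDP : ∀ d : D, ∀ u ∈ (P : Subgroup G), u * d = d * u := fun d u hu =>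
    Subgroup.mem_centralizer_iff.1 d.2.2 u hu
  have hcent : ∀ (d : D) (u : (P : Subgroup G)),
      (d : G) * u ∈ Subgroup.centralizer ((P : Subgroup G) : Set G) := fun d u =>
    Subgroup.mul_mem _ d.2.2 (Subgroup.mem_centralizer_iff.2 fun v hv => hab v hv u u.2)
  have hnorm : ∀ n ∈ Subgroup.normalizer ((P : Subgroup G) : Set G),
      ∃ d : D, ∃ u ∈ (P : Subgroup G), n = d * u := by
    intro n hn
    obtain ⟨k, hk, u, hu, rfl⟩ := H6.exists_mul_of_sup_eq_top N P hsup n
    refine ⟨⟨k, hk, Subgroup.mem_centralizer_iff.2 fun v hv => ?_⟩, u, hu, rfl⟩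
    have hk' : k ∈ Subgroup.normalizer ((P : Subgroup G) : Set G) := by
      simpa using Subgroup.mul_mem _ hn (Subgroup.inv_mem _ (Subgroup.le_normalizer hu))
    have h1 : v⁻¹ * (k * v * k⁻¹) = 1 := by
      apply hone
      · have := N.mul_mem (hNn.conj_mem _ hk v⁻¹) (N.inv_mem hk)
        convert this using 1
        group
      · exact Subgroup.mul_mem _ (Subgroup.inv_mem _ hv) (H2.conj_mem_of_mem_normalizer hk' hv)
    calc v * k = v * (v⁻¹ * (k * v * k⁻¹)) * k := by rw [h1, mul_one]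
      _ = _ := by group
  have hnd : ∀ x ∈ Subgroup.centralizer ((P : Subgroup G) : Set G),
      ¬ p ∣ Nat.card (ConjClasses.mk x).carrier := by
    intro x hx hd
    rw [card_carrier] at hd
    refine P.not_dvd_index (hd.trans (Subgroup.index_dvd_of_le fun u hu => ?_))
    exact H2.mem_centralizer_singleton.2 (Subgroup.mem_centralizer_iff.1 hx u hu)
  rw [← Nat.card_prod]
  symm
  let f : ConjClasses D × (P : Subgroup G) → {C : ConjClasses G // ¬ p ∣ Nat.card C.carrier} :=
    fun x => ⟨ConjClasses.mk ((x.1.out : D) * x.2 : G), hnd _ (hcent _ _)⟩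
  refine Nat.card_congr (Equiv.ofBijective f ⟨?_, ?_⟩)
  · rintro ⟨C, u⟩ ⟨C', u'⟩ h
    have h1 : IsConj (((C.out : D) : G) * u) (((C'.out : D) : G) * u') :=
      ConjClasses.mk_eq_mk_iff_isConj.1 (congrArg Subtype.val h)
    obtain ⟨g, hg⟩ := isConj_iff.1 h1
    obtain ⟨n, hn, hn'⟩ := P.conj_eq_normalizer_conj_of_mem_centralizer _ g⁻¹ (hcent C.out u)
      (by rw [inv_inv, hg]; exact hcent C'.out u')
    rw [inv_inv, hg] at hn'
    obtain ⟨d, v, hv, rfl⟩ := hnorm n hn
    have h2 : ((C'.out : D) : G) * u' = ((d⁻¹ * C.out * d : D) : G) * u := by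
      rw [hn']
      have e1 := hDP (d⁻¹ * C.out * d) v hv
      have e2 := hDP d u u.2
      have e3 := hab u u.2 v hv
      push_cast at e1 ⊢
      calc ((d : G) * v)⁻¹ * (C.out * u) * (d * v)
          = v⁻¹ * ((d : G)⁻¹ * C.out * (u * d)) * v := by group
        _ = v⁻¹ * ((d : G)⁻¹ * C.out * d) * (u * v) := by rw [e2]; group
        _ = v⁻¹ * (((d : G)⁻¹ * C.out * d) * v) * u := by rw [e3]; group
        _ = _ := by rw [← e1]; group
    have h3 : (u : G) * (u' : G)⁻¹ = 1 := by
      apply hone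
      · have : (u : G) * (u' : G)⁻¹ = ((d⁻¹ * C.out * d : D) : G)⁻¹ * ((C'.out : D) : G) := by
          calc (u : G) * (u' : G)⁻¹ = ((d⁻¹ * C.out * d : D) : G)⁻¹ *
              (((d⁻¹ * C.out * d : D) : G) * u) * (u' : G)⁻¹ := by group
            _ = _ := by rw [← h2]; group
        rw [this]
        exact N.mul_mem (N.inv_mem (d⁻¹ * C.out * d).2.1) C'.out.2.1
      · exact Subgroup.mul_mem _ u.2 (Subgroup.inv_mem _ u'.2)
    have h4 : u = u' := Subtype.ext (mul_inv_eq_one.1 h3)
    subst h4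
    have h5 : C'.out = d⁻¹ * C.out * d := Subtype.ext (mul_right_cancel h2)
    have h6 : C = C' := by
      rw [← Quotient.out_eq C, ← Quotient.out_eq C']
      exact ConjClasses.mk_eq_mk_iff_isConj.2 (isConj_iff.2 ⟨d⁻¹, by rw [h5, inv_inv]⟩)
    rw [h6]
  · rintro ⟨C, hC⟩
    obtain ⟨x, rfl⟩ := ConjClasses.mk_surjective C
    rw [card_carrier] at hC
    obtain ⟨Q⟩ : Nonempty (Sylow p (Subgroup.centralizer ({x} : Set G))) := inferInstance
    have hQ : IsPGroup p ((Q : Subgroup _).map (Subgroup.centralizer ({x} : Set G)).subtype) :=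
      Q.isPGroup'.map _
    have hQi : ¬ p ∣ ((Q : Subgroup _).map (Subgroup.centralizer ({x} : Set G)).subtype).index := by
      rw [Subgroup.index_map_subtype]
      exact fun h => (hp.out.dvd_mul.1 h).elim Q.not_dvd_index hC
    obtain ⟨g, hg⟩ := MulAction.exists_smul_eq G (hQ.toSylow hQi) P
    have hx : g * x * g⁻¹ ∈ Subgroup.centralizer ((P : Subgroup G) : Set G) := by
      rw [Subgroup.mem_centralizer_iff]
      intro u hu
      rw [← hg] at hu
      have hu' : g⁻¹ * u * g ∈ (Q : Subgroup _).map (Subgroup.centralizer ({x} : Set G)).subtype :=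
        H2.mem_conj_smul.1 hu
      obtain ⟨c, -, hc⟩ := hu'
      have h1 := H2.mem_centralizer_singleton.1 c.2
      change (c : G) = _ at hc
      rw [hc] at h1
      calc u * (g * x * g⁻¹) = g * (g⁻¹ * u * g * x) * g⁻¹ := by group
        _ = _ := by rw [h1]; group
    obtain ⟨d, u, hu, he⟩ := hnorm _ (Subgroup.centralizer_le_normalizer _ hx)
    refine ⟨⟨ConjClasses.mk d, ⟨u, hu⟩⟩, Subtype.ext ?_⟩
    change ConjClasses.mk _ = ConjClasses.mk x
    rw [ConjClasses.mk_eq_mk_iff_isConj]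
    have h1 : IsConj (ConjClasses.mk d).out d :=
      ConjClasses.mk_eq_mk_iff_isConj.1 (Quotient.out_eq _)
    obtain ⟨e, he'⟩ := isConj_iff.1 h1
    refine isConj_iff.2 ⟨g⁻¹ * e, ?_⟩
    have e1 := hDP e u hu
    have e2 : (e : G) * (ConjClasses.mk d).out * (e : G)⁻¹ = d := congrArg Subtype.val he'
    change g⁻¹ * e * ((ConjClasses.mk d).out * u) * (g⁻¹ * e)⁻¹ = x
    calc g⁻¹ * e * ((ConjClasses.mk d).out * u) * (g⁻¹ * e)⁻¹
        = g⁻¹ * ((e : G) * (ConjClasses.mk d).out * (e : G)⁻¹) * (e * u) * (e : G)⁻¹ * g := by group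
      _ = g⁻¹ * (d * u) * g := by rw [e2, ← e1]; group
      _ = x := by rw [← he]; group

/-- Let p be a prime and G a finite group that is not nilpotent and has a normal p-complement (a normal subgroup of order prime to p and index a power of p). If G has exactly one irreducible complex character of degree divisible by p, then G has exactly one conjugacy class whose size is divisible by p. -/
theorem result {G : Type*} [Group G] [Finite G] (p : ℕ) [Fact p.Prime] (hnil : ¬ Group.IsNilpotent G) (N : Subgroup G) [N.Normal] (hN : (Nat.card N).Coprime p) (hidx : ∃ k : ℕ, N.index = p ^ k) (hone : Nat.card {χ : Cfsg.IrrCharacter G // p ∣ Cfsg.charDegree (χ : G → ℂ)} = 1) : Nat.card {C : ConjClasses G // p ∣ Nat.card C.carrier} = 1 := by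
  classical
  have := Fintype.ofFinite G
  have := Fintype.ofFinite N
  have hp : p.Prime := Fact.out
  obtain ⟨k, hk⟩ := hidx
  obtain ⟨P⟩ : Nonempty (Sylow p G) := inferInstance
  have hinf : N ⊓ (P : Subgroup G) = ⊥ := by
    rw [inf_comm]; exact H22.inf_eq_bot_of_pgroup_coprime P.isPGroup' hN
  have hsup : N ⊔ (P : Subgroup G) = ⊤ := by
    rw [← Subgroup.index_eq_one]
    have h1 : (N ⊔ (P : Subgroup G)).index ∣ p ^ k := hk ▸ Subgroup.index_dvd_of_le le_sup_left
    have h2 : (N ⊔ (P : Subgroup G)).index ∣ (P : Subgroup G).index :=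
      Subgroup.index_dvd_of_le le_sup_right
    exact Nat.eq_one_of_dvd_coprimes
      (((Nat.Prime.coprime_iff_not_dvd hp).2 P.not_dvd_index).pow_left k) h1 h2
  obtain ⟨m, hm⟩ := IsPGroup.iff_card.1 P.isPGroup'
  have hcop : (Nat.card N).Coprime (Nat.card (P : Subgroup G)) := by
    rw [hm]; exact hN.pow_right m
  have hQ : IsPGroup p (G ⧸ N) := IsPGroup.of_card hk
  have hN1 : N ≠ ⊥ := by
    rintro rfl
    apply hnil
    rw [Subgroup.index_bot] at hk
    exact (IsPGroup.of_card hk).isNilpotent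
  have huniq : ∀ χ ψ : G → ℂ, IsIrrCharacter G χ → IsIrrCharacter G ψ → p ∣ charDegree χ →
      p ∣ charDegree ψ → χ = ψ := by
    intro χ ψ hχ hψ h1 h2
    have := (Nat.card_eq_one_iff_unique.1 hone).1.elim ⟨⟨χ, hχ⟩, h1⟩ ⟨⟨ψ, hψ⟩, h2⟩
    exact congrArg (fun x => x.1.1) this
  have hcomm : commutator (G ⧸ N) = ⊥ := by
    by_contra hne
    obtain ⟨φ, hφ, hφ1⟩ := H88.exists_irr_ne_one_of_commutator_ne_bot hne
    obtain ⟨e, he⟩ := H88.exists_charDegree_eq_pow hQ hφ
    have hβ := H5.isIrrCharacter_inflate N hφ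
    have hβp : p ∣ charDegree (fun g : G => φ (g : G ⧸ N)) := by
      rw [H88.charDegree_inflate, he]
      exact dvd_pow_self p (by rintro rfl; exact hφ1 (by simpa using he))
    have hβN : ∀ n ∈ N, φ (n : G ⧸ N) = φ ((1 : G) : G ⧸ N) := fun n hn => by
      rw [(QuotientGroup.eq_one_iff n).mpr hn]; rfl
    have : Nontrivial N := (Subgroup.nontrivial_iff_ne_bot N).2 hN1
    obtain ⟨θ, hθ, hθ1⟩ := H88.exists_irr_ne_one (G := N)
    have key : ∃ χ : G → ℂ, IsIrrCharacter G χ ∧ p ∣ charDegree χ ∧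
        classInner (fun n : N => χ n) θ ≠ 0 := by
      by_cases hT : H6.inertia N θ = ⊤
      · obtain ⟨χ, hχ, hext⟩ := H88.exists_extension_of_coprime_card N
          (by rw [hk]; exact hN.pow_right k) hθ hT
        have hres : (fun n : N => χ n) = θ := funext hext
        refine ⟨_, H30.isIrr_mul_of_ker N (H5.isCharacter_of_isIrr hχ) (hres ▸ hθ) hβ hβN, ?_, ?_⟩
        · rw [H88.charDegree_mul (H5.isCharacter_of_isIrr hβ) (H5.isCharacter_of_isIrr hχ)]
          exact hβp.mul_right _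
        · have : (fun n : N => ((fun g : G => φ (g : G ⧸ N)) * χ) n) = φ 1 • θ := by
            funext n
            simp only [Pi.mul_apply, Pi.smul_apply, smul_eq_mul]
            rw [hβN n n.2, hext]; rfl
          rw [this, H5.classInner_smul_left, H5.classInner_irr_self hθ, mul_one]
          exact H5.degree_ne_zero hφ
      · obtain ⟨χ, hχ, hne⟩ := H88.exists_irr_over N hθ
        refine ⟨χ, hχ, dvd_trans ?_ (H88.index_inertia_dvd_charDegree N hχ hθ hne), hne⟩
        have h1 : (H6.inertia N θ).index ∣ p ^ k := hk ▸ Subgroup.index_dvd_of_le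
          (H6.le_inertia N (H5.isClassFunction_of_isIrr hθ))
        obtain ⟨j, -, hj⟩ := (Nat.dvd_prime_pow hp).1 h1
        rw [hj]
        refine dvd_pow_self p ?_
        rintro rfl
        exact hT (Subgroup.index_eq_one.1 (by simpa using hj))
    obtain ⟨χ, hχ, h1, h2⟩ := key
    obtain ⟨x, hx, hx'⟩ := H88.exists_ne_of_over_nontrivial N (H5.isCharacter_of_isIrr hχ) hθ hθ1 h2
    rw [huniq χ _ hχ hβ h1 hβp] at hx'
    exact hx' (hβN x hx)
  have hab : ∀ a ∈ (P : Subgroup G), ∀ b ∈ (P : Subgroup G), a * b = b * a := by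
    intro a ha b hb
    have h1 : (b * a)⁻¹ * (a * b) ∈ N ⊓ (P : Subgroup G) := by
      refine ⟨QuotientGroup.eq.1 ?_, Subgroup.mul_mem _ (Subgroup.inv_mem _
        (Subgroup.mul_mem _ hb ha)) (Subgroup.mul_mem _ ha hb)⟩
      rw [QuotientGroup.mk_mul, QuotientGroup.mk_mul]
      exact H88.commutator_eq_bot_iff_comm.1 hcomm _ _
    rw [hinf, Subgroup.mem_bot, inv_mul_eq_one] at h1
    exact h1.symm
  have h1 := card_classes N P hsup hinf hab
  have h2 := H89.card_coprime_degree N P hsup hcop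
  have hsolv : Group.IsSolvable (P : Subgroup G) := by
    have := P.isPGroup'.isNilpotent
    infer_instance
  rw [H89.card_sInv_eq P hsolv N (by simp [Subgroup.normalizer_eq_top]) hcop,
    H5.card_irrCharacter, H88.card_monoidHom_of_comm (H88.subgroup_comm hab), ← h1] at h2
  have h3 := card_add_card_not (fun χ : Cfsg.IrrCharacter G => p ∣ Cfsg.charDegree (χ : G → ℂ))
  have h4 := card_add_card_not (fun C : ConjClasses G => p ∣ Nat.card C.carrier)
  have hm0 : m ≠ 0 := by
    rintro rfl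
    obtain ⟨⟨χ, hχ⟩⟩ := (Nat.card_eq_one_iff_unique.1 hone).2
    have h5 := H5.degree_dvd_card χ.2 (H88.irr_charDegree_cast χ).symm
    apply P.not_dvd_index
    rw [← (P : Subgroup G).card_mul_index, hm, pow_zero, one_mul] at h5
    exact hχ.trans h5
  have h5 : Nat.card {χ : IrrCharacter G //
      (charDegree (χ : G → ℂ)).Coprime (Nat.card (P : Subgroup G))} =
      Nat.card {χ : IrrCharacter G // ¬ p ∣ charDegree (χ : G → ℂ)} := by
    refine Nat.card_congr (Equiv.subtypeEquivRight fun χ => ?_)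
    rw [hm, Nat.coprime_pow_right_iff (Nat.pos_of_ne_zero hm0), Nat.coprime_comm,
      Nat.Prime.coprime_iff_not_dvd hp]
  rw [H5.card_irrCharacter, hone, ← h5, h2] at h3
  omega

end Cfsg.Agent.S4763
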