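import Cfsg.Statements.S4765
import Cfsg.Agent.H65.SL2Unip

set_option autoImplicit false
open Cfsg

namespace Cfsg.Agent.S4765

/-- Let F be a finite field of characteristic p with at least 4 elements. Then PSL(2,F) has exactly one irreducible complex character of degree divisible by p, and its degree is the order of F. -/
theorem result (p : ℕ) [Fact p.Prime] (F : Type*) [Field F] [Fintype F] [CharP F p] (hF : 4 ≤ Fintype.card F) : Nat.card {χ : Cfsg.IrrCharacter (Matrix.ProjectiveSpecialLinearGroup (Fin 2) F) // p ∣ Cfsg.charDegree (χ : Matrix.ProjectiveSpecialLinearGroup (Fin 2) F → ℂ)} = 1 ∧ ∀ χ : Cfsg.IrrCharacter (Matrix.ProjectiveSpecialLinearGroup (Fin 2) F), p ∣ Cfsg.charDegree (χ : Matrix.ProjectiveSpecialLinearGroup (Fin 2) F → ℂ) → Cfsg.charDegree (χ : Matrix.ProjectiveSpecialLinearGroup (Fin 2) F → ℂ) = Fintype.card F := by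
  classical
  obtain ⟨a, b, _, ⟨ι⟩⟩ := H65.exists_quad F
  have key : ∀ χ : Cfsg.IrrCharacter (Matrix.ProjectiveSpecialLinearGroup (Fin 2) F),
      p ∣ Cfsg.charDegree χ.1 → (fun g : Matrix.SpecialLinearGroup (Fin 2) F =>
        χ.1 (QuotientGroup.mk g)) = H65.StS F := by
    intro χ h
    have h1 := H5.isIrrCharacter_inflate (Subgroup.center _) χ.2
    obtain ⟨n, hn⟩ := H5.exists_nat_degree (H5.isCharacter_of_isIrr χ.2)
    have hd : Cfsg.charDegree χ.1 = n := by simp [Cfsg.charDegree, hn]
    rw [hd] at h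
    have h2 := H65.not_char_dvd_add (F := F) p
    have h3 := H65.not_char_dvd_sub (F := F) p
    have h4 : ((fun g : Matrix.SpecialLinearGroup (Fin 2) F =>
        χ.1 (QuotientGroup.mk g)) 1).re = n := by
      change (χ.1 1).re = n
      simp [hn]
    have h5 : ((Fintype.card F - 1 : ℕ) : ℝ) = Fintype.card F - 1 := by
      rw [Nat.cast_sub Fintype.card_pos, Nat.cast_one]
    rcases H65.sl_irr_cases_re ι h1 with h' | h' | h' | h' | h' | h' <;> rw [h4] at h'
    · obtain rfl : n = 1 := by exact_mod_cast h'.1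
      exact absurd (Nat.dvd_one.1 h) (Fact.out : p.Prime).one_lt.ne'
    · exact h'.2
    · obtain rfl : n = Fintype.card F + 1 := by exact_mod_cast h'.1
      exact absurd h h2
    · obtain rfl : n = Fintype.card F - 1 := by rw [← h5] at h'; exact_mod_cast h'.1
      exact absurd h h3
    · have : 2 * n = Fintype.card F + 1 := by exact_mod_cast h'.1
      exact absurd (this ▸ h.mul_left 2) h2
    · have : 2 * n = Fintype.card F - 1 := by rw [← h5] at h'; exact_mod_cast h'.1
      exact absurd (this ▸ h.mul_left 2) h3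
  have deg : ∀ χ : Matrix.ProjectiveSpecialLinearGroup (Fin 2) F → ℂ,
      (fun g : Matrix.SpecialLinearGroup (Fin 2) F => χ (QuotientGroup.mk g)) = H65.StS F →
      Cfsg.charDegree χ = Fintype.card F := by
    intro χ h
    have h1 : χ 1 = Fintype.card F := (congrFun h 1).trans H65.StS_one
    simp [Cfsg.charDegree, h1]
  refine ⟨?_, fun χ h => deg _ (key χ h)⟩
  obtain ⟨φ, hφ, he⟩ := H5.exists_isIrr_quotient (Subgroup.center _) (H65.isIrr_StS (F := F))
    (fun z hz => by
      obtain ⟨a, ha, rfl⟩ := H65.exists_of_mem_center hz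
      rw [← H65.StG_toGL 1, H65.toGL_bs, ← ha, H65.StG_scalar, H65.StS_one]
      simp)
  rw [Nat.card_eq_one_iff_exists]
  refine ⟨⟨⟨φ, hφ⟩, by rw [deg φ he.symm]; exact H65.char_dvd_card p⟩, fun χ => ?_⟩
  ext x
  obtain ⟨g, rfl⟩ := QuotientGroup.mk_surjective x
  exact congrFun ((key χ.1 χ.2).trans he) g

end Cfsg.Agent.S4765
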