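import Cfsg.Statements.S4768
import Cfsg.Agent.H34.LinExt

set_option autoImplicit false
open Cfsg

namespace Cfsg.Agent.S4768

open H34

/-- The number of irreducible characters of degree divisible by `p`. -/
noncomputable def nP (p : ℕ) (G : Type*) [Group G] : ℕ :=
  Nat.card {χ : IrrCharacter G // p ∣ charDegree (χ : G → ℂ)}

theorem nP_le {p : ℕ} {G Q : Type*} [Group G] [Group Q] [Finite G] {π : G →* Q}
    (hπ : Function.Surjective π) : nP p Q ≤ nP p G :=
  Nat.card_le_card_of_injective (fun χ => ⟨infl hπ χ.1, by rw [charDegree_infl]; exact χ.2⟩)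
    fun _ _ h => Subtype.ext (infl_injective hπ (congrArg Subtype.val h))

theorem nP_lt {p : ℕ} {G Q : Type*} [Group G] [Group Q] [Finite G] {π : G →* Q}
    (hπ : Function.Surjective π) {χ : IrrCharacter G} (hχ : p ∣ charDegree (χ : G → ℂ)) {g : G}
    (hg : π g = 1) (h : (χ : G → ℂ) g ≠ (χ : G → ℂ) 1) : nP p Q < nP p G := by
  have := Finite.of_surjective π hπ
  have := Fintype.ofFinite {χ : IrrCharacter G // p ∣ charDegree (χ : G → ℂ)}
  have := Fintype.ofFinite {χ : IrrCharacter Q // p ∣ charDegree (χ : Q → ℂ)}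
  rw [nP, nP, Nat.card_eq_fintype_card, Nat.card_eq_fintype_card]
  refine Fintype.card_lt_of_injective_not_surjective
    (fun χ => ⟨infl hπ χ.1, by rw [charDegree_infl]; exact χ.2⟩)
    (fun _ _ h => Subtype.ext (infl_injective hπ (congrArg Subtype.val h))) fun hs => h ?_
  obtain ⟨φ, hφ⟩ := hs ⟨χ, hχ⟩
  rw [← show infl hπ φ.1 = χ from congrArg Subtype.val hφ, infl_apply, infl_apply, hg, map_one]

universe u

theorem aux {p : ℕ} [hp : Fact p.Prime] (n : ℕ) : ∀ (G : Type u) [Group G] [Finite G],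
    Nat.card G = n → IsPSolvable p G → ∀ P : Sylow p G,
      derivedSeries (P : Subgroup G) (nP p G + 1) = ⊥ := by
  induction n using Nat.strong_induction_on with
  | _ n IH =>
  intro G _ _ hn hG P
  have := Fintype.ofFinite G
  have key : ∀ (N : Subgroup G) [N.Normal], N ≠ ⊥ →
      derivedSeries (P : Subgroup G) (nP p (G ⧸ N) + 1) ≤ N.subgroupOf P := by
    intro N _ hN x hx
    have hπ := QuotientGroup.mk'_surjective N
    have h1 := IH _ (by
      rw [← hn, ← Subgroup.index, ← N.card_mul_index]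
      exact lt_mul_of_one_lt_left (Nat.pos_of_ne_zero N.index_ne_zero_of_finite)
        (N.one_lt_card_iff_ne_bot.mpr hN)) (G ⧸ N) rfl (H22.IsPSolvable.quotient hG N)
      (P.mapSurjective hπ)
    let f : (P : Subgroup G) →* (P.mapSurjective hπ : Subgroup (G ⧸ N)) :=
      ((QuotientGroup.mk' N).comp (P : Subgroup G).subtype).codRestrict _ fun x => ⟨x, x.2, rfl⟩
    have h2 := map_derivedSeries_le_derivedSeries f _ ⟨x, hx, rfl⟩
    rw [h1] at h2
    exact (QuotientGroup.eq_one_iff (x : G)).mp (congrArg Subtype.val h2)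
  rcases subsingleton_or_nontrivial G with hs | hs
  · exact Subsingleton.elim _ _
  rcases H22.IsPSolvable.pCore_ne_bot_or hG with h | h
  swap
  · rw [eq_bot_iff]
    refine (derivedSeries_antitone _ (Nat.succ_le_succ (nP_le (QuotientGroup.mk'_surjective
      (pPrimeCore p G))))).trans ((key _ h).trans fun x hx => ?_)
    have : (x : G) ∈ (P : Subgroup G) ⊓ pPrimeCore p G := ⟨x.2, hx⟩
    rw [H22.inf_eq_bot_of_pgroup_coprime P.isPGroup' H22.coprime_card_pPrimeCore] at this
    exact Subtype.ext this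
  let A : Subgroup G := (Subgroup.center (pCore p G)).map (pCore p G).subtype
  have := Fintype.ofFinite A
  have hAp : IsPGroup p A := (H22.isPGroup_pCore.to_subgroup _).map _
  have hA : ∀ a ∈ A, ∀ b ∈ A, a * b = b * a := by
    rintro _ ⟨a, -, rfl⟩ _ ⟨b, hb, rfl⟩
    exact congrArg Subtype.val (Subgroup.mem_center_iff.mp hb a)
  have hA1 : A ≠ ⊥ := by
    have : Nontrivial (pCore p G) := (Subgroup.nontrivial_iff_ne_bot _).mpr h
    have := (H22.isPGroup_pCore (p := p) (G := G)).center_nontrivial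
    rw [Ne, Subgroup.map_eq_bot_iff_of_injective _ (Subgroup.subtype_injective _)]
    exact (Subgroup.nontrivial_iff_ne_bot _).mp this
  have step : ∀ k, derivedSeries (P : Subgroup G) k ≤ A.subgroupOf P →
      derivedSeries (P : Subgroup G) (k + 1) = ⊥ := fun k hk => by
    rw [derivedSeries_succ, Subgroup.commutator_eq_bot_iff_le_centralizer]
    exact fun x hx y hy => Subtype.ext (hA _ (hk hy) _ (hk hx))
  by_cases hex : ∃ χ : IrrCharacter G, p ∣ charDegree (χ : G → ℂ) ∧
      ∃ a ∈ A, (χ : G → ℂ) a ≠ (χ : G → ℂ) 1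
  · obtain ⟨χ, hχ, a, ha, h1⟩ := hex
    rw [eq_bot_iff, ← step _ (key A hA1)]
    exact derivedSeries_antitone _ (Nat.succ_le_succ (nP_lt (QuotientGroup.mk'_surjective A) hχ
      ((QuotientGroup.eq_one_iff a).mpr ha) h1))
  rcases Nat.eq_zero_or_pos (nP p G) with h0 | h0
  · rw [h0, derivedSeries_succ, Subgroup.commutator_eq_bot_iff_le_centralizer]
    refine fun x _ y _ => Subtype.ext (sylow_comm_of_not_dvd hG (fun χ hχ => ?_) P _ y.2 _ x.2)
    have : Nonempty {χ : IrrCharacter G // p ∣ charDegree (χ : G → ℂ)} := ⟨⟨χ, hχ⟩⟩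
    exact Nat.card_pos.ne' h0
  obtain ⟨⟨a, ha⟩, ha1⟩ := (Subgroup.ne_bot_iff_exists_ne_one).mp hA1
  obtain ⟨θ, hθ, hθa⟩ : ∃ θ : A → ℂ, IsIrrCharacter A θ ∧ θ ⟨a, ha⟩ ≠ θ 1 := by
    by_contra hc
    push Not at hc
    exact ha1 (H5.eq_one_of_forall_irr hc)
  obtain ⟨lam, rfl⟩ := H5.exists_monoidHom_of_comm
    (fun a b : A => Subtype.ext (hA a a.2 b b.2)) hθ
  rw [eq_bot_iff, ← step 1]
  · exact derivedSeries_antitone _ (by omega)
  rw [derivedSeries_one, commutator_def, Subgroup.commutator_le]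
  intro x _ y _
  have := commutator_mem_of_over_linear hG A hAp lam (fun χ hχ hd => hθa
    (H5.apply_eq_degree_of_constituent (H5.isCharacter_restrict (irr_isCharacter χ) A) hθ hχ
      (by_contra fun e => hex ⟨χ, hd, a, ha, e⟩))) P.isPGroup' (y⁻¹).2 (x⁻¹).2
  simpa [Subgroup.mem_subgroupOf, commutatorElement_def, mul_assoc] using this

/-- Let p be a prime, G a finite p-solvable group and P a Sylow p-subgroup of G. If n is the number of irreducible complex characters of G whose degree is divisible by p, then the (n+1)-st term of the derived series of P is trivial. (The p-solvable case has a direct inductive proof.) -/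
theorem result {G : Type*} [Group G] [Finite G] (p : ℕ) [Fact p.Prime] (hG : Cfsg.IsPSolvable p G) (P : Sylow p G) : derivedSeries ↥(P : Subgroup G) (Nat.card {χ : Cfsg.IrrCharacter G // p ∣ Cfsg.charDegree (χ : G → ℂ)} + 1) = ⊥ := by
  exact aux _ G rfl hG P

end Cfsg.Agent.S4768
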