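import Cfsg.Statements.S4781
import Cfsg.Agent.ND.D
import Cfsg.Agent.H6.CDDich

set_option autoImplicit false
open Cfsg

namespace Cfsg.Agent.S4781

open Cfsg.Agent.H5 Cfsg.Agent.H6 Cfsg.Agent.H88 Cfsg.Agent.ND Subgroup

/-- Let G be a finite solvable group in which no irreducible complex character degree a with 1 < a divides a larger irreducible character degree, and suppose the character degree graph of G (primes dividing some degree, distinct primes adjacent when their product divides a degree) has exactly two connected components. Then G has exactly three distinct irreducible character degrees. -/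
theorem result {G : Type*} [Group G] [Finite G] [Group.IsSolvable G] (hnd : ∀ a ∈ Cfsg.charDegrees G, ∀ b ∈ Cfsg.charDegrees G, 1 < a → a < b → ¬ a ∣ b) (htwo : Nat.card ((Cfsg.degreeGraph G).induce (Cfsg.degreePrimes G)).ConnectedComponent = 2) : Nat.card ↥(Cfsg.charDegrees G) = 3 := by
  classical
  have := Fintype.ofFinite G
  let R : ℕ → ℕ → Prop := fun q r => ∀ hq hr,
    ((degreeGraph G).induce (degreePrimes G)).Reachable ⟨q, hq⟩ ⟨r, hr⟩
  have adj : ∀ {q r d : ℕ}, d ∈ charDegrees G → q ∣ d → r ∣ d → R q r := by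
    intro q r d hd h1 h2 hq hr
    by_cases h : q = r
    · subst h; rfl
    · exact SimpleGraph.Adj.reachable ⟨h, hq.1, hr.1, d, hd,
        Nat.Coprime.mul_dvd_of_dvd_of_dvd ((Nat.coprime_primes hq.1 hr.1).2 h) h1 h2⟩
  have conn : ∀ r ∈ degreePrimes G, (∀ q, ∀ d ∈ charDegrees G, q.Prime → q ∣ d → R q r) → False := by
    intro r hr h
    have : Subsingleton ((degreeGraph G).induce (degreePrimes G)).ConnectedComponent :=
      SimpleGraph.Preconnected.subsingleton_connectedComponent fun ⟨a, ha⟩ ⟨b, hb⟩ => by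
        obtain ⟨d, hd, e⟩ := ha.2
        obtain ⟨d', hd', e'⟩ := hb.2
        exact (h a d hd ha.1 e ha hr).trans (h b d' hd' hb.1 e' hb hr).symm
    have := Finite.card_le_one_iff_subsingleton.2 this
    omega
  have hG : commutator G ≠ ⊥ := fun hG => by
    obtain ⟨C⟩ := (Nat.card_pos_iff.1 (by omega : 0 < Nat.card
      ((degreeGraph G).induce (degreePrimes G)).ConnectedComponent)).1
    obtain ⟨⟨q, hq, d, hd, h⟩, -⟩ := C.exists_rep
    rw [eq_one_of_mem_charDegrees hG hd] at h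
    exact hq.one_lt.ne' (Nat.dvd_one.1 h)
  obtain ⟨K, hK, hQ⟩ := exists_minNA_quotient hG
  have hs := QuotientGroup.mk'_surjective K
  obtain ⟨p, hp, hpow, hab, ⟨hP, -⟩ | ⟨hC, hd⟩⟩ := hQ.structure
  · exfalso
    obtain ⟨φ, hφ, hφ1⟩ := exists_irr_ne_one_of_commutator_ne_bot hQ.1
    have := Fact.mk hp
    obtain ⟨e, he⟩ := exists_charDegree_eq_pow hP hφ
    have hpφ : p ∣ charDegree φ := he ▸ dvd_pow_self p (by rintro rfl; exact hφ1 (by simpa using he))
    refine conn p ⟨hp, _, ⟨⟨_, isIrrCharacter_inflate K hφ⟩, charDegree_inflate K φ⟩, hpφ⟩ ?_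
    rintro q _ ⟨χ, rfl⟩ hq h1
    have hχ := χ.2
    by_cases hpχ : p ∣ charDegree (χ : G → ℂ)
    · exact adj (mem_charDegrees hχ) h1 hpχ
    obtain ⟨k, hk⟩ := hP.exists_card_eq
    have h2 := H30.isIrr_mul_of_ker K (isCharacter_of_isIrr hχ)
      (isIrr_restrict_of_coprime K hχ (by
        rw [Subgroup.index_eq_card, hk]
        exact ((Nat.Prime.coprime_iff_not_dvd hp).mpr hpχ).symm.pow_right _))
      (isIrrCharacter_inflate K hφ) fun n hn => by rw [(QuotientGroup.eq_one_iff n).mpr hn]; rfl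
    have h3 := mem_charDegrees h2
    rw [charDegree_mul (isCharacter_of_isIrr (isIrrCharacter_inflate K hφ))
      (isCharacter_of_isIrr hχ), charDegree_inflate] at h3
    exact adj h3 (h1.mul_left _) (hpφ.mul_right _)
  obtain ⟨φ, hφ, hφd⟩ := exists_irr_degree_eq_index_of_fpf (commutator (G ⧸ K)) hQ.1 hab hC
  let N := (commutator (G ⧸ K)).comap (QuotientGroup.mk' K)
  have := Fintype.ofFinite N
  have hi : N.index = (commutator (G ⧸ K)).index := index_comap_of_surjective _ hs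
  rw [← hi] at hd hφd
  have hf : N.index ∈ charDegrees G :=
    ⟨⟨_, isIrrCharacter_inflate K hφ⟩, (charDegree_inflate K φ).trans hφd⟩
  have hf1 : N.index ≠ 1 := fun h1 => by
    rw [hi, Subgroup.index_eq_one] at h1
    apply hQ.1
    rw [commutator_eq_bot_iff_comm]
    exact fun a b => hab a (h1 ▸ Subgroup.mem_top a) b (h1 ▸ Subgroup.mem_top b)
  have nd : ∀ a ∈ charDegrees G, ∀ b ∈ charDegrees G, a ≠ 1 → a ∣ b → a = b := by
    rintro _ ⟨χ, rfl⟩ _ ⟨ψ, rfl⟩ h1 h2
    have h3 := charDegree_pos χ.2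
    exact (Nat.le_of_dvd (charDegree_pos ψ.2) h2).eq_or_lt.resolve_right fun h4 =>
      hnd _ ⟨χ, rfl⟩ _ ⟨ψ, rfl⟩ (by omega) h4 h2
  have dv : ∀ χ, Big N χ → p ∣ charDegree χ := fun χ hχ => by
    obtain ⟨θ, hθ, hne⟩ := exists_irr_under' N hχ.1
    obtain ⟨e, -, hdeg⟩ := exists_charDegree_eq_mul N hχ.1 hθ hne
    rcases dvd_or_exists_degree_of_frobenius_section (QuotientGroup.mk' K) hs _ hp hpow hab hQ.1
      hC hθ with h | ⟨ψ, hψ, h⟩
    · exact hdeg ▸ h.mul_left e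
    · rw [← hi] at h
      have := (nd _ hf _ (mem_charDegrees hψ) hf1 (h ▸ Dvd.intro _ rfl)).trans h
      exact (charDegree_ne_one_of_under N hχ.1 hχ.2 hθ hne
        (Nat.eq_of_mul_eq_mul_left (Nat.pos_of_ne_zero index_ne_zero_of_finite)
          (this.symm.trans (mul_one _).symm))).elim
  have tri : ∀ d ∈ charDegrees G, d = 1 ∨ d = N.index ∨ ∃ χ, Big N χ ∧ charDegree χ = d := by
    rintro _ ⟨χ, rfl⟩
    obtain ⟨θ, hθ, hne⟩ := exists_irr_under' N χ.2
    obtain ⟨e, he, hdeg⟩ := exists_charDegree_eq_mul N χ.2 hθ hne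
    by_cases h1 : charDegree θ = 1
    · rw [h1, mul_one] at hdeg
      exact (em _).imp_right fun h => Or.inl (nd _ ⟨χ, rfl⟩ _ hf h (hdeg ▸ he))
    · exact Or.inr (Or.inr ⟨χ, ⟨χ.2,
        exists_ne_of_over_nonlinear (isCharacter_of_isIrr χ.2) hθ h1 hne⟩, rfl⟩)
  obtain ⟨r, hr, hrf⟩ := Nat.exists_prime_and_dvd hf1
  obtain ⟨χ, hχ⟩ : ∃ χ, Big N χ := by
    by_contra hc
    refine conn r ⟨hr, _, hf, hrf⟩ fun q d h1 hq h2 => ?_
    rcases tri d h1 with rfl | rfl | ⟨χ, hχ, -⟩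
    exacts [(hq.one_lt.ne' (Nat.dvd_one.1 h2)).elim, adj hf h2 hrf, (hc ⟨χ, hχ⟩).elim]
  have := Fact.mk hr
  obtain ⟨x, hx⟩ := exists_prime_orderOf_dvd_card' (G := G ⧸ N) r hrf
  obtain ⟨g, rfl⟩ := QuotientGroup.mk_surjective x
  have hg : g ∉ N := fun e => hr.one_lt.ne (by
    rw [← hx, (QuotientGroup.eq_one_iff g).2 e, orderOf_one])
  have H : Hy N K g p r := by
    refine ⟨inferInstance, inferInstance, hK, hp, hr, commutator_le.2 fun a ha b hb => ?_, ?_,
      fun a ha => (QuotientGroup.eq_one_iff _).1 (hpow _ ha),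
      (QuotientGroup.eq_one_iff _).1 (by rw [QuotientGroup.mk_pow, ← hx, pow_orderOf_eq_one]), hrf,
      fun y hy e => (QuotientGroup.eq_one_iff y).1 (hC _ hg _ hy
        (mem_centralizer_singleton_iff.1 (comm_mem_iff.1 e))), dv, fun ψ hψ => ?_,
      fun ψ η hψ hη => nd _ (mem_charDegrees hψ.1) _ (mem_charDegrees hη.1) fun e =>
        hp.one_lt.ne' (Nat.dvd_one.1 (e ▸ dv ψ hψ))⟩
    · exact comm_mem_iff.2 (mem_centralizer_singleton_iff.2 (hab _ ha _ hb))
    · obtain ⟨⟨y, hy⟩, h1⟩ := ne_bot_iff_exists_ne_one.1 hQ.1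
      obtain ⟨y, rfl⟩ := hs y
      exact ⟨y, hy, fun e => h1 (Subtype.ext ((QuotientGroup.eq_one_iff y).2 e))⟩
    · by_contra hc
      obtain ⟨l, hl, h1, h2⟩ := Nat.Prime.not_coprime_iff_dvd.1 hc
      have hψ' := mem_charDegrees hψ.1
      refine conn l ⟨hl, _, hf, h2⟩ fun q d h3 hq h4 => ?_
      rcases tri d h3 with rfl | rfl | ⟨η, hη, rfl⟩
      · exact (hq.one_lt.ne' (Nat.dvd_one.1 h4)).elim
      · exact adj hf h4 h2
      · exact fun a b => (adj h3 h4 (dv η hη) a ⟨hp, _, hψ', dv ψ hψ⟩).trans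
          (adj hψ' (dv ψ hψ) h1 _ b)
  refine Set.ncard_eq_three.2 ⟨1, N.index, charDegree χ, hf1.symm,
    fun e => hp.one_lt.ne' (Nat.dvd_one.1 (e ▸ dv χ hχ)), fun e => hd (e ▸ dv χ hχ),
    Set.ext fun d => ⟨fun h => ?_, ?_⟩⟩
  · rcases tri d h with h | h | ⟨ψ, hψ, rfl⟩
    exacts [Or.inl h, Or.inr (Or.inl h), Or.inr (Or.inr (H.main hψ hχ))]
  · rintro (rfl | rfl | rfl)
    exacts [charDegree_monoidHom (1 : G →* ℂˣ) ▸ mem_charDegrees (isIrrCharacter_monoidHom 1), hf,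
      mem_charDegrees hχ.1]

end Cfsg.Agent.S4781
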