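import Cfsg.Statements.S4782
import Cfsg.Agent.H35.DegPrimes

set_option autoImplicit false
open Cfsg

namespace Cfsg.Agent.S4782

/-- If the finite group G is not solvable, then at least three distinct primes each divide some irreducible complex character degree of G. -/
theorem result {G : Type*} [Group G] [Finite G] (hG : ¬ Group.IsSolvable G) : ∃ p q r : ℕ, p ≠ q ∧ q ≠ r ∧ p ≠ r ∧ p ∈ Cfsg.degreePrimes G ∧ q ∈ Cfsg.degreePrimes G ∧ r ∈ Cfsg.degreePrimes G := by
  by_contra hc
  apply hG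
  by_cases h1 : ∃ p, p ∈ degreePrimes G
  · obtain ⟨p, hp⟩ := h1
    by_cases h2 : ∃ q, q ∈ degreePrimes G ∧ q ≠ p
    · obtain ⟨q, hq, hqp⟩ := h2
      refine H35.isSolvable_of_degreePrimes hp.1 hq.1 _ G rfl fun r hr => ?_
      by_contra! h
      exact hc ⟨p, q, r, hqp.symm, h.2.symm, h.1.symm, hp, hq, hr⟩
    · push Not at h2
      exact H35.isSolvable_of_degreePrimes hp.1 hp.1 _ G rfl fun r hr => Or.inl (h2 r hr)
  · exact H35.isSolvable_of_degreePrimes Nat.prime_two Nat.prime_two _ G rfl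
      fun r hr => absurd ⟨r, hr⟩ h1

end Cfsg.Agent.S4782
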