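import Cfsg.Statements.S4784
import Cfsg.Agent.H88.Deg4
import Cfsg.Agent.H88.Sqrt

set_option autoImplicit false
open Cfsg

namespace Cfsg.Agent.S4784

open Cfsg.Agent.H5 Cfsg.Agent.H6 Cfsg.Agent.H88
open scoped ComplexConjugate

/-- Let H be a subgroup of the finite group G and consider the permutation character of G on the cosets of H (the function induced from the principal character of H). Then exactly one irreducible constituent of it is real-valued with Frobenius–Schur indicator +1 (namely the principal character) if and only if the normal core of H has odd index in G. -/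
theorem result {G : Type*} [Group G] [Fintype G] (H : Subgroup G) : Nat.card {χ : Cfsg.IrrCharacter G // Cfsg.classInner (Cfsg.indFun H (fun _ : H => (1 : ℂ))) (χ : G → ℂ) ≠ 0 ∧ (∀ g : G, (starRingEnd ℂ) ((χ : G → ℂ) g) = (χ : G → ℂ) g) ∧ (Nat.card G : ℂ)⁻¹ * ∑ g : G, (χ : G → ℂ) (g * g) = 1} = 1 ↔ Odd H.normalCore.index := by
  classical
  have := Fintype.ofFinite H
  have h0 : Cfsg.classInner (Cfsg.indFun H (fun _ : H => (1 : ℂ))) (trivIrr G : G → ℂ) ≠ 0 ∧
      (∀ g : G, (starRingEnd ℂ) ((trivIrr G : G → ℂ) g) = (trivIrr G : G → ℂ) g) ∧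
      (Nat.card G : ℂ)⁻¹ * ∑ g : G, (trivIrr G : G → ℂ) (g * g) = 1 := by
    refine ⟨?_, fun g => map_one _, fsIndicator_one⟩
    rw [classInner_indFun_left H _ (isClassFunction_of_isIrr (trivIrr G).2)]
    exact (classInner_irr_self isIrrCharacter_one).trans_ne one_ne_zero
  rw [Nat.card_eq_one_iff_exists]
  constructor
  · rintro ⟨x, hx⟩
    by_contra hc
    obtain ⟨t, ht⟩ := exists_prime_orderOf_dvd_card' (G := G ⧸ H.normalCore) 2
      (Nat.not_odd_iff_even.mp hc).two_dvd
    obtain ⟨t, rfl⟩ := QuotientGroup.mk_surjective t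
    have h1 : t * t ∈ H.normalCore := by
      rw [← QuotientGroup.eq_one_iff, QuotientGroup.mk_mul, ← sq, ← ht, pow_orderOf_eq_one]
    obtain ⟨b, hb⟩ : ∃ b : G, b * t * b⁻¹ ∉ H := by
      by_contra h2
      push Not at h2
      rw [(QuotientGroup.eq_one_iff (N := H.normalCore) t).mpr h2] at ht
      simp at ht
    have h2 : Nat.card H < Nat.card {s : G // s * s ∈ H} := by
      change Nat.card (H : Set G) < Nat.card {s : G | s * s ∈ H}
      rw [Nat.card_coe_set_eq, Nat.card_coe_set_eq]
      refine Set.ncard_lt_ncard ⟨fun s hs => H.mul_mem hs hs, fun h => hb (h ?_)⟩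
      simpa [mul_assoc] using h1 b
    have h3 : Nat.card {s : G // s * s ∈ H} = ∑ h : H, Nat.card {s : G // s * s = h} := by
      rw [← Nat.card_sigma]
      exact Nat.card_congr ⟨fun s => ⟨⟨_, s.2⟩, s.1, rfl⟩, fun s => ⟨s.2.1, by rw [s.2.2]; exact s.1.2⟩,
        fun _ => rfl, by rintro ⟨⟨h, hh⟩, s, hs⟩; cases hs; rfl⟩
    have h4 : ∀ χ : IrrCharacter G, ∃ n : ℤ, ∑ h : H, fsIndicator (χ : G → ℂ) * (χ : G → ℂ) h = n ∧
        n ≤ if χ = trivIrr G then Nat.card H else 0 := fun χ => by
      rw [← Finset.mul_sum]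
      obtain ⟨m, hm⟩ := exists_nat_classInner (isCharacter_restrict (isCharacter_of_isIrr χ.2) H)
        isCharacter_one
      have hm' := hm
      rw [classInner_one_right, inv_mul_eq_iff_eq_mul₀ natCard_ne_zero] at hm'
      split_ifs with e
      · exact ⟨Nat.card H, by simp [e, trivIrr_coe, fsIndicator_one], le_rfl⟩
      rw [hm']
      rcases fsIndicator_trichotomy χ.2 with h | h | h
      · exact ⟨0, by simp [h], le_rfl⟩
      · refine ⟨0, ?_, le_rfl⟩
        by_contra h5
        refine e (congrArg Subtype.val ((hx ⟨χ, ?_, fun g => ?_, h⟩).trans (hx ⟨_, h0⟩).symm))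
        · rw [classInner_indFun_ne_zero_iff H _ (isClassFunction_of_isIrr χ.2), hm]
          exact fun e => h5 (by simp [e])
        · by_contra h6
          exact one_ne_zero (h.symm.trans (fsIndicator_eq_zero_of_not_real χ.2
            ⟨g, mt Complex.conj_eq_iff_im.mpr h6⟩))
      · exact ⟨-(Nat.card H * m), by simp [h], by simp only [Nat.cast_zero, Left.neg_nonpos_iff]; positivity⟩
    choose n hn hn' using h4
    have h5 : ((∑ h : H, Nat.card {s : G // s * s = h} : ℕ) : ℤ) = ∑ χ, n χ := by
      apply Int.cast_injective (α := ℂ)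
      push_cast
      simp only [card_sqrt_eq_sum, ← hn]
      exact Finset.sum_comm
    have h6 := Finset.sum_le_sum fun χ (_ : χ ∈ Finset.univ) => hn' χ
    rw [← h5, ← h3, ← Nat.cast_sum, Finset.sum_ite_eq', if_pos (Finset.mem_univ _)] at h6
    omega
  · refine fun h => ⟨⟨_, h0⟩, ?_⟩
    rintro ⟨χ, h1, h2, -⟩
    obtain ⟨φ, hφ, e⟩ := exists_isIrr_quotient H.normalCore χ.2 fun g hg =>
      apply_eq_degree_of_constituent (isCharacter_indFun H isCharacter_one) χ.2 h1 (by
        rw [indFun_apply', indFun_apply']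
        congr 1
        refine Finset.sum_congr rfl fun x _ => ?_
        rw [extendByZero_of_mem H _ (hg x), extendByZero_of_mem H _ (by simp)])
    have h3 := eq_one_of_real_of_odd h hφ fun g => by
      obtain ⟨g, rfl⟩ := QuotientGroup.mk_surjective g
      rw [← congrFun e g]
      exact Complex.conj_eq_iff_im.mp (h2 g)
    exact Subtype.ext (eq_trivIrr_iff.mpr (by rw [e, h3]))

end Cfsg.Agent.S4784
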