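import Cfsg.Statements.S4796
import Cfsg.Agent.H88.Codeg
import Cfsg.Agent.S0039
import Cfsg.Agent.S0034

set_option autoImplicit false
open Cfsg

namespace Cfsg.Agent.S4796

open Cfsg.Agent.H5 Cfsg.Agent.H6 Cfsg.Agent.H88

/-- Let G be a finite group with a faithful irreducible complex character χ whose codegree #G / χ(1) is a prime p (for a faithful character the kernel is trivial, so the codegree is #G / χ(1)). Then either G is cyclic of order p, or G is a Frobenius group whose Frobenius kernel has order p: some proper non-trivial subgroup H satisfies H ∩ gHg⁻¹ = 1 for every element g outside H, and the set of elements lying in no conjugate of H, together with the identity, has exactly p elements. -/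
theorem result {G : Type*} [Group G] [Finite G] (χ : Cfsg.IrrCharacter G) (hfaith : ∀ g : G, (χ : G → ℂ) g = (χ : G → ℂ) 1 → g = 1) (p : ℕ) (hp : p.Prime) (hcod : Nat.card G = p * Cfsg.charDegree (χ : G → ℂ)) : (IsCyclic G ∧ Nat.card G = p) ∨ ∃ H : Subgroup G, Cfsg.IsFrobeniusComplement H ∧ Nat.card ↥(Cfsg.frobeniusKernel H) = p := by
  have := Fact.mk hp
  obtain ⟨P, hPn, hP, hi, hlt, hC⟩ := exists_normal_of_codegree_prime χ.2 hfaith hp hcod
  by_cases h1 : charDegree (χ : G → ℂ) = 1
  · rw [h1, mul_one] at hcod
    exact Or.inl ⟨isCyclic_of_prime_card hcod, hcod⟩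
  right
  have hd := charDegree_pos χ.2
  obtain ⟨H, hH⟩ := Subgroup.exists_right_complement'_of_coprime (N := P) (by
    rw [hP, hi]
    exact (Nat.Prime.coprime_iff_not_dvd hp).mpr (Nat.not_dvd_of_pos_of_lt hd hlt))
  have hP1 : P ≠ ⊥ := by
    rintro rfl
    exact hp.one_lt.ne (by simpa using hP)
  have hH1 : H ≠ ⊥ := by
    rintro rfl
    have := hH.symm.index_eq_card
    rw [hi] at this
    exact h1 (by simpa using this)
  have hF : IsFrobeniusComplement H := by
    rw [S0039.result P H hH hP1 hH1]
    intro h hh hne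
    by_contra hc
    have h2 : (P ⊓ Subgroup.centralizer {h}).subgroupOf P = ⊤ := by
      have : Fact (Nat.card P).Prime := ⟨hP ▸ hp⟩
      refine ((P ⊓ Subgroup.centralizer {h}).subgroupOf P).eq_bot_or_eq_top_of_prime_card.resolve_left
        fun e => hc ?_
      rw [Subgroup.subgroupOf_eq_bot, disjoint_iff, inf_eq_left.mpr inf_le_left] at e
      exact e
    rw [Subgroup.subgroupOf_eq_top] at h2
    have h3 : h ∈ P := hC fun x hx =>
      Subgroup.mem_centralizer_singleton_iff.mp (h2 hx).2
    exact hne (Subgroup.disjoint_def.mp hH.disjoint h3 hh)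
  exact ⟨H, hF, by rw [(S0034.result H hF).1, hH.index_eq_card, hP]⟩

end Cfsg.Agent.S4796
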