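import Cfsg.Statements.S4797
import Cfsg.Agent.H88.Codeg

set_option autoImplicit false
open Cfsg

namespace Cfsg.Agent.S4797

open Cfsg.Agent.H5 Cfsg.Agent.H6 Cfsg.Agent.H88

theorem aux {G : Type*} [Group G] [Finite G] (hG : commutator G = ⊤) {χ : G → ℂ}
    (hχ : IsIrrCharacter G χ) (hf : ∀ g, χ g = χ 1 → g = 1) {p : ℕ} (hp : p.Prime)
    (hc : Nat.card G = p * charDegree χ) : False := by
  have := Fact.mk hp
  obtain ⟨P, hPn, hP, hi, hlt, hC⟩ := exists_normal_of_codegree_prime hχ hf hp hc
  have hcyc : IsCyclic P := isCyclic_of_prime_card hP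
  have hcomm : ∀ a b : MulAut P, a * b = b * a := fun a b =>
    (IsCyclic.mulAutMulEquiv P).injective (by rw [map_mul, map_mul, mul_comm])
  have h1 : ∀ g : G, MulAut.conjNormal (H := P) g = 1 := fun g => by
    have h2 : commutator G ≤ (MulAut.conjNormal (H := P)).ker := by
      rw [commutator_def, Subgroup.commutator_le]
      intro a _ b _
      rw [MonoidHom.mem_ker, map_commutatorElement, commutatorElement_eq_one_iff_mul_comm]
      exact hcomm _ _
    exact h2 (hG ▸ Subgroup.mem_top g)
  have h2 : P = ⊤ := by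
    rw [eq_top_iff]
    intro g _
    refine hC fun x hx => ?_
    have := congrArg Subtype.val (DFunLike.congr_fun (h1 g) ⟨x, hx⟩)
    simp only [MulAut.conjNormal_apply, MulAut.one_apply] at this
    rw [← mul_inv_eq_iff_eq_mul.mp this]
  subst h2
  have h3 : ∀ a b : G, a * b = b * a := fun a b =>
    congrArg Subtype.val (hcyc.isMulCommutative.is_comm.comm (⟨a, trivial⟩ : (⊤ : Subgroup G))
      ⟨b, trivial⟩)
  have h4 : commutator G = ⊥ := by
    rw [commutator_def, Subgroup.commutator_eq_bot_iff_le_centralizer]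
    exact fun a _ b _ => h3 b a
  rw [hG] at h4
  rw [h4] at hP
  exact hp.one_lt.ne (by simpa using hP)

/-- The codegree of an irreducible complex character χ of a finite group G is [G : ker χ] / χ(1), where ker χ is the set of elements at which χ takes the value χ(1). A non-trivial finite group is perfect if and only if no irreducible complex character of it has prime codegree. -/
theorem result {G : Type*} [Group G] [Finite G] [Nontrivial G] : commutator G = ⊤ ↔ ∀ χ : Cfsg.IrrCharacter G, ¬ ((Nat.card G / (Nat.card {g : G // (χ : G → ℂ) g = (χ : G → ℂ) 1} * Cfsg.charDegree (χ : G → ℂ)))).Prime := by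
  constructor
  · intro hG χ hχ
    obtain ⟨φ, hφ, -, hf, -, hcod⟩ := exists_faithful_quotient χ.2
    rw [hcod] at hχ
    refine aux ?_ hφ hf hχ (Nat.div_mul_cancel (charDegree_dvd_card hφ)).symm
    have := Subgroup.map_commutator (⊤ : Subgroup G) ⊤
      (QuotientGroup.mk' (charKer (isCharacter_of_isIrr χ.2)))
    rw [← commutator_def, hG, Subgroup.map_top_of_surjective _ (QuotientGroup.mk'_surjective _)]
      at this
    exact this.symm
  · intro h
    by_contra hG
    have h1 : Nat.card (G →* ℂˣ) ≠ 1 := by
      rw [card_monoidHom_eq_index_commutator, Ne, Subgroup.index_eq_one]; exact hG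
    have h2 : Finite (G →* ℂˣ) := Nat.finite_of_card_ne_zero (by
      rw [card_monoidHom_eq_index_commutator]; exact Subgroup.index_ne_zero_of_finite)
    obtain ⟨p, hp, hpd⟩ := Nat.exists_prime_and_dvd h1
    have := Fact.mk hp
    obtain ⟨lam, hlam⟩ := exists_prime_orderOf_dvd_card' p hpd
    refine h ⟨_, isIrrCharacter_monoidHom lam⟩ ?_
    have h3 : Nat.card {g : G // (lam g : ℂ) = (lam 1 : ℂ)} = Nat.card lam.ker :=
      Nat.card_congr (Equiv.subtypeEquivRight fun g => by simp [MonoidHom.mem_ker])
    have h4 : Nat.card lam.range = p := by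
      have h5 : lam.range ≤ rootsOfUnity p ℂ := by
        rintro _ ⟨g, rfl⟩
        rw [mem_rootsOfUnity, ← MonoidHom.pow_apply, ← hlam, pow_orderOf_eq_one]; rfl
      have : NeZero p := ⟨hp.ne_zero⟩
      have h6 := Subgroup.card_dvd_of_le h5
      rw [Complex.card_rootsOfUnity] at h6
      refine ((Nat.dvd_prime hp).mp h6).resolve_left fun e => ?_
      rw [Subgroup.card_eq_one, MonoidHom.range_eq_bot_iff] at e
      rw [e, orderOf_one] at hlam
      exact hp.one_lt.ne hlam
    show (Nat.card G / (Nat.card {g : G // (lam g : ℂ) = (lam 1 : ℂ)} *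
      charDegree fun g => (lam g : ℂ))).Prime
    rw [h3, charDegree_monoidHom, mul_one, ← lam.ker.card_mul_index,
      Nat.mul_div_cancel_left _ Nat.card_pos, Subgroup.index_ker, h4]
    exact hp

end Cfsg.Agent.S4797
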