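import Cfsg.Statements.S4798
import Cfsg.Agent.H88.Deg2

set_option autoImplicit false
open Cfsg

namespace Cfsg.Agent.S4798

open Cfsg.Agent.H5 Cfsg.Agent.H6 Cfsg.Agent.H88

/-- Let p be a prime and χ a faithful irreducible complex character of the finite group G (χ(g) = χ(1) only for g = 1), so that its codegree is #G / χ(1). Then #G / χ(1) is a power of p if and only if χ is induced from a character of a Sylow p-subgroup of G. -/
theorem result {G : Type*} [Group G] [Fintype G] (p : ℕ) [Fact p.Prime] (χ : Cfsg.IrrCharacter G) (hfaith : ∀ g : G, (χ : G → ℂ) g = (χ : G → ℂ) 1 → g = 1) : (∃ k : ℕ, Nat.card G = p ^ k * Cfsg.charDegree (χ : G → ℂ)) ↔ ∃ (P : Sylow p G) (θ : ↥(P : Subgroup G) → ℂ), Cfsg.IsCharacter ↥(P : Subgroup G) θ ∧ (χ : G → ℂ) = Cfsg.indFun (P : Subgroup G) θ := by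
  have hp : p.Prime := Fact.out
  constructor
  · rintro ⟨k, hk⟩
    obtain ⟨P⟩ : Nonempty (Sylow p G) := inferInstance
    have := Fintype.ofFinite (P : Subgroup G)
    have hd := charDegree_ne_zero χ.2
    obtain ⟨θ, hθ, hne, hn⟩ := exists_constituent_not_dvd
      (isCharacter_restrict (isCharacter_of_isIrr χ.2) (P : Subgroup G))
      (n := p ^ ((charDegree (χ : G → ℂ)).factorization p + 1))
      (Nat.pow_succ_factorization_not_dvd hd hp)
    refine ⟨P, θ, isCharacter_of_isIrr hθ,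
      (indFun_eq_of_degree_le _ χ.2 (isCharacter_of_isIrr hθ) hne ?_).symm⟩
    obtain ⟨b, hb⟩ := exists_charDegree_eq_pow P.isPGroup' hθ
    rw [hb, Nat.pow_dvd_pow_iff_le_right hp.one_lt] at hn
    have h1 := (P : Subgroup G).card_mul_index
    have h2 : Nat.card (P : Subgroup G) = p ^ (k + (charDegree (χ : G → ℂ)).factorization p) := by
      rw [P.card_eq_multiplicity, hk, Nat.factorization_mul (pow_ne_zero _ hp.ne_zero) hd,
        Finsupp.add_apply, hp.factorization_pow, Finsupp.single_eq_same]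
    rw [h2, hk, pow_add, mul_assoc] at h1
    rw [← Nat.eq_of_mul_eq_mul_left (pow_pos hp.pos k) h1, hb, mul_comm]
    exact Nat.mul_le_mul_right _ (Nat.pow_le_pow_right hp.pos (by omega))
  · rintro ⟨P, θ, hθ, e⟩
    have h1 := isIrr_of_isIrr_indFun _ hθ (e ▸ χ.2)
    obtain ⟨c, hc⟩ := charDegree_dvd_card h1
    obtain ⟨n, hn⟩ := P.isPGroup'.exists_card_eq
    obtain ⟨k, -, hk⟩ := (Nat.dvd_prime_pow hp).mp (hn ▸ Dvd.intro_left _ hc.symm)
    refine ⟨k, ?_⟩
    rw [e, charDegree_indFun _ hθ, ← (P : Subgroup G).card_mul_index, hc, hk]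
    ring

end Cfsg.Agent.S4798
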