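import Cfsg.Statements.S4801
import Cfsg.Agent.H88.Vanish
import Cfsg.Agent.H5.Burnside

set_option autoImplicit false
open Cfsg

namespace Cfsg.Agent.S4801

open Cfsg.Agent.H5 Cfsg.Agent.H6 Cfsg.Agent.H88

/-- The codegree of an irreducible complex character χ of a finite group G is [G : ker χ] / χ(1), where ker χ is the set of elements at which χ takes the value χ(1). Let S be a finite simple group and G a finite group such that every codegree of an irreducible character of S is a codegree of an irreducible character of G. Then the order of S divides the order of G. -/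
theorem result {S : Type*} [Group S] [Finite S] (hS : IsSimpleGroup S) {G : Type*} [Group G] [Finite G] (hsub : ∀ χ : Cfsg.IrrCharacter S, ∃ ψ : Cfsg.IrrCharacter G, (Nat.card S / (Nat.card {g : S // (χ : S → ℂ) g = (χ : S → ℂ) 1} * Cfsg.charDegree (χ : S → ℂ))) = (Nat.card G / (Nat.card {g : G // (ψ : G → ℂ) g = (ψ : G → ℂ) 1} * Cfsg.charDegree (ψ : G → ℂ)))) : Nat.card S ∣ Nat.card G := by
  classical
  have h1 : ∀ χ : IrrCharacter S, χ ≠ trivIrr S →
      Nat.card S ∣ Nat.card G * charDegree (χ : S → ℂ) := by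
    intro χ hχ
    obtain ⟨ψ, hψ⟩ := hsub χ
    rw [card_ker_eq_one fun g hg => eq_one_of_simple_of_apply_eq χ.2
      (fun h => hχ (eq_trivIrr_iff.mpr h)) hg, one_mul] at hψ
    have h2 := Nat.div_dvd_of_dvd (card_ker_mul_charDegree_dvd ψ.2)
    rw [← hψ] at h2
    conv_lhs => rw [← Nat.div_mul_cancel (charDegree_dvd_card χ.2)]
    exact Nat.mul_dvd_mul_right h2 _
  have h2 : Nat.card S ∣ Nat.card G * ∑ χ ∈ Finset.univ.erase (trivIrr S),
      charDegree ((χ : IrrCharacter S) : S → ℂ) ^ 2 := by
    rw [Finset.mul_sum]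
    refine Finset.dvd_sum fun χ hχ => ?_
    rw [sq, ← mul_assoc]
    exact (h1 χ (Finset.ne_of_mem_erase hχ)).mul_right _
  have h3 := sum_charDegree_sq (G := S)
  rw [← Finset.add_sum_erase _ _ (Finset.mem_univ (trivIrr S)), charDegree_trivIrr] at h3
  have h4 : Nat.card S ∣ Nat.card G * Nat.card S := Dvd.intro_left _ rfl
  conv_rhs at h4 => rw [← h3, mul_add]
  simpa using (Nat.dvd_add_left h2).mp h4

end Cfsg.Agent.S4801
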