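import Cfsg.Statements.S4802
import Cfsg.Agent.H88.Vanish

set_option autoImplicit false
open Cfsg

namespace Cfsg.Agent.S4802

open Cfsg.Agent.H5 Cfsg.Agent.H6 Cfsg.Agent.H88

/-- Let N < M be normal subgroups of the finite group G and g ∈ M ∖ N. Then the conjugacy class of g is exactly M ∖ N if and only if every irreducible complex character of G whose kernel contains N takes the same value at all elements of M ∖ N, and every irreducible complex character of G whose kernel does not contain N vanishes at g. -/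
theorem result {G : Type*} [Group G] [Finite G] (N M : Subgroup G) [N.Normal] [M.Normal] (hNM : N < M) (g : G) (hgM : g ∈ M) (hgN : g ∉ N) : {h : G | IsConj g h} = (M : Set G) \ (N : Set G) ↔ ((∀ χ : Cfsg.IrrCharacter G, (∀ x ∈ N, (χ : G → ℂ) x = (χ : G → ℂ) 1) → ∀ x ∈ M, x ∉ N → ∀ y ∈ M, y ∉ N → (χ : G → ℂ) x = (χ : G → ℂ) y) ∧ (∀ χ : Cfsg.IrrCharacter G, (∃ x ∈ N, (χ : G → ℂ) x ≠ (χ : G → ℂ) 1) → (χ : G → ℂ) g = 0)) := by
  classical
  have hN : N.Normal := inferInstance
  have hM : M.Normal := inferInstance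
  have := Fintype.ofFinite N
  constructor
  · intro h
    have hc : ∀ x ∈ M, x ∉ N → IsConj g x := fun x hx hx' =>
      show x ∈ {h : G | IsConj g h} by rw [h]; exact ⟨hx, hx'⟩
    refine ⟨fun χ _ x hx hx' y hy hy' => ?_, fun χ hχ => ?_⟩
    · exact isClassFunction_apply_of_isConj (isClassFunction_of_isIrr χ.2)
        ((hc x hx hx').symm.trans (hc y hy hy'))
    · have h1 := sum_normal_mul_eq_zero χ.2 N hχ g
      rw [Finset.sum_congr rfl (g := fun _ => (χ : G → ℂ) g) fun n _ =>
        (isClassFunction_apply_of_isConj (isClassFunction_of_isIrr χ.2)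
          (hc _ (M.mul_mem (hNM.le n.2) hgM) fun h' =>
            hgN ((N.mul_mem_cancel_left n.2).mp h'))).symm] at h1
      simpa using h1
  · rintro ⟨h1, h2⟩
    ext x
    constructor
    · intro hx
      obtain ⟨c, rfl⟩ := isConj_iff.mp hx
      exact ⟨hM.conj_mem g hgM c, fun h' => hgN (by simpa [mul_assoc] using hN.conj_mem _ h' c⁻¹)⟩
    · rintro ⟨hx, hx'⟩
      refine isConj_of_forall_irr_ne_zero fun χ hχ => h1 χ ?_ x hx hx' g hgM hgN
      by_contra hc
      push Not at hc
      exact hχ (h2 χ hc)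

end Cfsg.Agent.S4802
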