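import Cfsg.Statements.S4808
import Cfsg.Agent.H88.Vanish

set_option autoImplicit false
open Cfsg

namespace Cfsg.Agent.S4808

open Cfsg.Agent.H5 Cfsg.Agent.H6 Cfsg.Agent.H88

/-- The codegree of an irreducible complex character χ of a finite group G is [G : ker χ] / χ(1), where ker χ is the set of elements at which χ takes the value χ(1). A prime divides the order of G if and only if it divides the codegree of some irreducible complex character of G. -/
theorem result {G : Type*} [Group G] [Finite G] (p : ℕ) (hp : p.Prime) : p ∣ Nat.card G ↔ ∃ χ : Cfsg.IrrCharacter G, p ∣ (Nat.card G / (Nat.card {g : G // (χ : G → ℂ) g = (χ : G → ℂ) 1} * Cfsg.charDegree (χ : G → ℂ))) := by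
  classical
  have := Fact.mk hp
  constructor
  · intro hG
    by_contra hc
    push Not at hc
    obtain ⟨x, hx⟩ := exists_prime_orderOf_dvd_card' p hG
    have hx1 : x ≠ 1 := fun h => hp.one_lt.ne' (by rw [← hx, h, orderOf_one])
    refine hx1 (isConj_one_right.mp (isConj_of_forall_irr_ne_zero fun χ hχ => ?_).symm)
    by_contra hne
    obtain ⟨φ, hφ, e, -, -, hcod⟩ := exists_faithful_quotient χ.2
    have h1 := hc χ
    rw [hcod] at h1
    apply hχ
    rw [e]
    refine apply_eq_zero_of_not_dvd_div hφ hp h1 ?_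
    have h2 : orderOf (x : G ⧸ charKer (isCharacter_of_isIrr χ.2)) ∣ p :=
      hx ▸ orderOf_map_dvd (QuotientGroup.mk' _) x
    rcases (Nat.dvd_prime hp).mp h2 with h3 | h3
    · rw [orderOf_eq_one_iff, QuotientGroup.eq_one_iff, mem_charKer] at h3
      exact absurd h3.symm hne
    · rw [h3]
  · rintro ⟨χ, hχ⟩
    exact hχ.trans (Nat.div_dvd_of_dvd (card_ker_mul_charDegree_dvd χ.2))

end Cfsg.Agent.S4808
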