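import Cfsg.Statements.S4813
import Cfsg.Agent.H6.CDDich
import Cfsg.Agent.S4466

set_option autoImplicit false
open Cfsg

namespace Cfsg.Agent.S4813

open Cfsg.Agent

/-- If every irreducible complex character of the finite group G of degree greater than one has prime degree, then G has at most three distinct irreducible character degrees. -/
theorem result {G : Type*} [Group G] [Finite G] (hprime : ∀ d ∈ Cfsg.charDegrees G, d = 1 ∨ d.Prime) : Nat.card ↥(Cfsg.charDegrees G) ≤ 3 := by
  have : Group.IsSolvable G := S4466.result fun χ h =>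
    (hprime _ ⟨χ, rfl⟩).resolve_left h
  have key : ∀ a b : ℕ, Cfsg.charDegrees G ⊆ {1, a, b} → Nat.card ↥(Cfsg.charDegrees G) ≤ 3 := by
    intro a b h
    rw [Nat.card_coe_set_eq]
    refine (Set.ncard_le_ncard h (Set.toFinite _)).trans ?_
    refine (Set.ncard_insert_le _ _).trans ?_
    have := Set.ncard_insert_le a ({b} : Set ℕ)
    rw [Set.ncard_singleton] at this
    omega
  have hmul : ∀ a b : ℕ, a ≠ 1 → b ≠ 1 → a * b ∉ Cfsg.charDegrees G := by
    intro a b ha hb h
    rcases hprime _ h with h | h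
    · exact ha (Nat.eq_one_of_mul_eq_one_right h)
    · exact Nat.not_prime_mul ha hb h
  by_cases hG : commutator G = ⊥
  · exact key 1 1 fun d hd => Or.inl (H6.eq_one_of_mem_charDegrees hG hd)
  obtain ⟨p, f, hp, hf1, hf, ⟨-, h⟩ | ⟨-, h⟩⟩ := H6.cd_dichotomy hG
  · refine key p p fun d hd => ?_
    by_cases h1 : d = 1
    · exact Or.inl h1
    by_cases h2 : p ∣ d
    · exact Or.inr (Or.inl ((Nat.prime_dvd_prime_iff_eq hp
        ((hprime d hd).resolve_left h1)).1 h2).symm)
    · exact absurd (h d hd h2) (hmul _ _ hf1 h1)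
  · refine key f p fun d hd => ?_
    by_cases h1 : d = 1
    · exact Or.inl h1
    have hdp := (hprime d hd).resolve_left h1
    have hfp := (hprime f hf).resolve_left hf1
    obtain ⟨e, t, he, rfl, h2⟩ := h d hd
    rcases (Nat.dvd_prime hfp).1 he with rfl | rfl
    · rw [one_mul] at h1 hdp ⊢
      rcases h2 with h2 | h2
      · exact Or.inr (Or.inr ((Nat.prime_dvd_prime_iff_eq hp hdp).1 h2).symm)
      · exact absurd h2 (hmul _ _ hf1 h1)
    · exact Or.inr (Or.inl ((Nat.prime_dvd_prime_iff_eq hfp hdp).1 (dvd_mul_right _ _)).symm)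

end Cfsg.Agent.S4813
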