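import Cfsg.Statements.S4814
import Cfsg.Agent.H88.Count

set_option autoImplicit false
open Cfsg

namespace Cfsg.Agent.S4814

open Cfsg.Agent.H5 Cfsg.Agent.H88

/-- Let G be a finite group such that the sum, over the irreducible complex characters χ of G, of 1/χ(1)² is less than 2. Then every element of G is a product of two commutators. -/
theorem result {G : Type*} [Group G] [Finite G]
    (h : ∑ᶠ χ : Cfsg.IrrCharacter G, 1 / ‖(χ : G → ℂ) 1‖ ^ 2 < (2 : ℝ)) (g : G) :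
    ∃ a b c d : G, (a * b * a⁻¹ * b⁻¹) * (c * d * c⁻¹ * d⁻¹) = g := by
  classical
  have := Fintype.ofFinite G
  by_contra hc
  push Not at hc
  have h1 := card_mul_card_eq_one (fun p : (G × G) × (G × G) =>
    g⁻¹ * (p.1.1 * p.1.2 * p.1.1⁻¹ * p.1.2⁻¹) * (p.2.1 * p.2.2 * p.2.1⁻¹ * p.2.2⁻¹))
  have h2 : IsEmpty {p : (G × G) × (G × G) //
      g⁻¹ * (p.1.1 * p.1.2 * p.1.1⁻¹ * p.1.2⁻¹) * (p.2.1 * p.2.2 * p.2.1⁻¹ * p.2.2⁻¹) = 1} := by
    refine ⟨fun p => hc p.1.1.1 p.1.1.2 p.1.2.1 p.1.2.2 ?_⟩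
    have := p.2
    rwa [mul_assoc, inv_mul_eq_one, eq_comm] at this
  rw [@Nat.card_of_isEmpty _ h2, Nat.cast_zero, mul_zero] at h1
  have h3 : ∀ χ : IrrCharacter G, (χ : G → ℂ) 1 * ∑ p : (G × G) × (G × G), (χ : G → ℂ)
      (g⁻¹ * (p.1.1 * p.1.2 * p.1.1⁻¹ * p.1.2⁻¹) * (p.2.1 * p.2.2 * p.2.1⁻¹ * p.2.2⁻¹)) =
      (Nat.card G : ℂ) ^ 4 * ((χ : G → ℂ) g⁻¹ / (χ : G → ℂ) 1 ^ 3) := by
    intro χ
    have h0 := degree_ne_zero χ.2
    simp only [Fintype.sum_prod_type, sum_irr_mul_commutator χ.2, ← Finset.sum_div,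
      ← Finset.mul_sum]
    field_simp
  simp only [h3, ← Finset.mul_sum] at h1
  have h4 := (mul_eq_zero.mp h1.symm).resolve_left (pow_ne_zero _ natCard_ne_zero)
  rw [finsum_eq_sum_of_fintype, ← Finset.add_sum_erase _ _ (Finset.mem_univ (trivIrr G))] at h
  rw [← Finset.add_sum_erase _ _ (Finset.mem_univ (trivIrr G))] at h4
  simp only [trivIrr_apply, norm_one, one_pow, div_one] at h h4
  have h5 : ‖∑ χ ∈ Finset.univ.erase (trivIrr G), (χ : G → ℂ) g⁻¹ / (χ : G → ℂ) 1 ^ 3‖ ≤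
      ∑ χ ∈ Finset.univ.erase (trivIrr G), 1 / ‖(χ : G → ℂ) 1‖ ^ 2 := by
    refine (norm_sum_le _ _).trans (Finset.sum_le_sum fun χ _ => ?_)
    have h0 : 0 < ‖(χ : G → ℂ) 1‖ := norm_pos_iff.mpr (degree_ne_zero χ.2)
    have h6 := norm_apply_le_degree (isCharacter_of_isIrr χ.2) g⁻¹
    rw [norm_div, norm_pow, div_le_div_iff₀ (by positivity) (by positivity)]
    calc ‖(χ : G → ℂ) g⁻¹‖ * ‖(χ : G → ℂ) 1‖ ^ 2 ≤ ‖(χ : G → ℂ) 1‖ * ‖(χ : G → ℂ) 1‖ ^ 2 := by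
          gcongr
      _ = _ := by ring
  have h7 : ∑ χ ∈ Finset.univ.erase (trivIrr G), (χ : G → ℂ) g⁻¹ / (χ : G → ℂ) 1 ^ 3 = -1 := by
    linear_combination h4
  rw [h7] at h5
  simp only [norm_neg, norm_one] at h5
  linarith

end Cfsg.Agent.S4814
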