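import Cfsg.Statements.S4823
import Cfsg.Agent.H86.Vor
import Cfsg.Agent.H86.Hyp

set_option autoImplicit false
universe u
open Cfsg

namespace Cfsg.Agent.S4823

/-- For every prime p and every natural number k there is a bound N such that, for every finite group G and every maximal ideal M of the algebraic integers containing p, if the principal p-block of G has at most k irreducible characters then the p-part of the order of G (the order of a defect group of the principal block) is at most p ^ N. -/
theorem result (p : ℕ) [Fact p.Prime] (k : ℕ) : ∃ N : ℕ, ∀ (G : Type u) [Group G] [Finite G] (M : Ideal Cfsg.AlgInt), Cfsg.IsPModular p M → Nat.card (Cfsg.principalBlock M G) ≤ k → (Nat.card G).factorization p ≤ N := by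
  classical
  choose N hN using fun (n : ℕ) (o : Fin n) => H86.Vor.bound o
  refine ⟨(Finset.range (k + 1)).sup fun n => Finset.univ.sup (N n), fun G _ _ M hM hk => ?_⟩
  have := hM.2.1
  have := Fintype.ofFinite G
  have hp := hM.1
  have hB := H33.isPBlock_principalBlock (M := M) (G := G)
  have ho := H33.oneIrr_mem_principalBlock (M := M) (G := G)
  let e := Finite.equivFin (principalBlock M G)
  have h0 : (e.symm (e ⟨_, ho⟩)).1 = H33.oneIrr G :=
    congrArg Subtype.val (e.symm_apply_apply _)
  have h1 := hN _ (e ⟨_, ho⟩) (p ^ blockDefect p (principalBlock M G))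
    (fun j => H86.aM p (principalBlock M G) ((e.symm (e ⟨_, ho⟩)).1 : G → ℂ) (e.symm j).1) (by
      rw [h0, Nat.cast_pow]
      refine ((Nat.prime_iff_prime_int.1 hp).coprime_iff_not_dvd.2 fun h => ?_).symm.pow_right
      have h2 := H33.blockHeight_of_degree_one (p := p) (principalBlock M G)
        (H33.oneIrr_apply (G := G) 1)
      exact (H86.pow_height_succ_dvd_aM_iff hM hB ho ho).1 (by rwa [h2, zero_add, pow_one]) h2)
    (H86.Hyp.reg_ineq hM (χ := fun j => (e.symm j).1)
      (Subtype.val_injective.comp e.symm.injective)
      (fun ψ => ⟨fun h => ⟨e ⟨ψ, h⟩, congrArg Subtype.val (e.symm_apply_apply _)⟩, fun ⟨i, h⟩ => h ▸ (e.symm i).2⟩)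
      fun g => by rw [h0, H33.oneIrr_apply])
  have hd : blockDefect p (principalBlock M G) = (Nat.card G).factorization p := by
    have := H34.factorization_degree_add_defect (p := p) ho
    have h1 : charDegree (H33.oneIrr G : G → ℂ) = 1 := by
      have := H33.irr_charDegree_cast (H33.oneIrr G)
      rw [H33.oneIrr_apply] at this
      exact_mod_cast this
    have h2 : blockDefect p (principalBlock M G) ≤ (Nat.card G).factorization p := Nat.sub_le _ _
    rw [h1] at this
    simp only [Nat.factorization_one, Finsupp.coe_zero, Pi.zero_apply] at this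
    omega
  rw [← hd]
  exact ((Nat.lt_pow_self hp.one_lt).le.trans h1).trans
    ((Finset.le_sup (f := N _) (Finset.mem_univ _)).trans
      (Finset.le_sup (f := fun n => Finset.univ.sup (N n))
        (Finset.mem_range.2 (Nat.lt_succ_of_le hk))))

end Cfsg.Agent.S4823
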