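import Cfsg.Statements.S4825
import Cfsg.Agent.H33.Gal
import Cfsg.Agent.H34.Cover

set_option autoImplicit false
open Cfsg

namespace Cfsg.Agent.S4825

/-- Let p be a prime, G a finite group with Sylow p-subgroup P, M a maximal ideal of the algebraic integers containing p, and B a p-block of G with defect group P. Let N be a normal subgroup of G not containing P and θ an irreducible character of N. Then the number of irreducible characters in B of degree prime to p lying over θ (having θ as a constituent on restriction to N) is either 0 or at least 2, and when p ≤ 3 it is divisible by p. -/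
theorem result {G : Type*} [Group G] [Fintype G] (p : ℕ) [Fact p.Prime] (P : Sylow p G) (M : Ideal Cfsg.AlgInt) (hM : Cfsg.IsPModular p M) (B : Set (Cfsg.IrrCharacter G)) (hB : Cfsg.IsPBlock M B) (hBP : Cfsg.IsDefectGroup p M B P) (N : Subgroup G) [N.Normal] [Fintype N] (hPN : ¬ (P : Subgroup G) ≤ N) (θ : Cfsg.IrrCharacter N) :
    (Nat.card {χ : Cfsg.IrrCharacter G // χ ∈ B ∧ ¬ p ∣ Cfsg.charDegree (χ : G → ℂ) ∧ Cfsg.classInner (fun n : N => (χ : G → ℂ) n) (θ : N → ℂ) ≠ 0} = 0 ∨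
      2 ≤ Nat.card {χ : Cfsg.IrrCharacter G // χ ∈ B ∧ ¬ p ∣ Cfsg.charDegree (χ : G → ℂ) ∧ Cfsg.classInner (fun n : N => (χ : G → ℂ) n) (θ : N → ℂ) ≠ 0}) ∧
    (p ≤ 3 → p ∣ Nat.card {χ : Cfsg.IrrCharacter G // χ ∈ B ∧ ¬ p ∣ Cfsg.charDegree (χ : G → ℂ) ∧ Cfsg.classInner (fun n : N => (χ : G → ℂ) n) (θ : N → ℂ) ≠ 0}) := by
  classical
  have := hM.2.1
  have hp : p.Prime := Fact.out
  obtain ⟨x, hxP, hxN⟩ := SetLike.not_le_iff_exists.1 hPN
  have hx : ∃ k, orderOf x = p ^ k := by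
    obtain ⟨k, hk⟩ := IsPGroup.iff_orderOf.1 P.isPGroup' ⟨x, hxP⟩
    exact ⟨k, by rwa [Subgroup.orderOf_mk] at hk⟩
  let E := H34.NEmb.ofNormal N
  let O : Set (IrrCharacter G) := H34.overSet E.ι {θ}
  have hO : ∀ g, g ∉ N → blockCoeff O g = 0 := by
    intro g hg
    have := H34.blockCoeff_overSet_of_not_mem (E.inv_orb {θ}) (g := g)
      (by rintro ⟨n, rfl⟩; exact hg n.2)
    rwa [H34.overSet_orb] at this
  have h0 : blockCoeff (B ∩ O) x⁻¹ = 0 := by
    rw [← H32.coeff_blockIdem, ← H32.blockIdem_mul, H32.coeff_mul_sum]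
    refine Finset.sum_eq_zero fun y _ => ?_
    rw [H32.coeff_blockIdem, H32.coeff_blockIdem]
    by_cases hy : p ∣ orderOf y
    · rw [H33.blockCoeff_eq_zero_of_singular hM hB hy, zero_mul]
    · rw [hO, mul_zero]
      intro hn
      apply hxN
      rw [← QuotientGroup.eq_one_iff, ← orderOf_eq_one_iff]
      have h1 : (y : G ⧸ N) = (x : G ⧸ N)⁻¹ := QuotientGroup.eq.2 hn
      obtain ⟨k, hk⟩ := hx
      have h2 : orderOf (x : G ⧸ N) ∣ p ^ k := hk ▸ orderOf_map_dvd (QuotientGroup.mk' N) x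
      have h3 : orderOf (x : G ⧸ N) ∣ orderOf y := by
        rw [← orderOf_inv, ← h1]; exact orderOf_map_dvd (QuotientGroup.mk' N) y
      exact Nat.eq_one_of_dvd_coprimes
        (Nat.Coprime.pow_left k ((Nat.Prime.coprime_iff_not_dvd hp).2 hy)) h2 h3
  have h1 := H33.dvd_sum_sq_of_sum_eq_zero hM _ hx (H33.sum_degree_mul_eq_zero_of_blockCoeff h0)
  set s := Finset.univ.filter (· ∈ B ∩ O) with hs
  have hcard : Nat.card {χ : IrrCharacter G // χ ∈ B ∧ ¬ p ∣ charDegree (χ : G → ℂ) ∧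
      classInner (fun n : N => (χ : G → ℂ) n) (θ : N → ℂ) ≠ 0} =
      (s.filter fun χ : IrrCharacter G => ¬ p ∣ charDegree (χ : G → ℂ)).card := by
    rw [Nat.card_eq_fintype_card, Fintype.card_subtype, hs, Finset.filter_filter]
    congr 1
    refine Finset.filter_congr fun χ _ => ?_
    constructor
    · rintro ⟨h1, h2, h3⟩
      exact ⟨⟨h1, θ, rfl, h3⟩, h2⟩
    · rintro ⟨⟨k1, θ', k2, k3⟩, k4⟩
      rw [Set.mem_singleton_iff.1 k2] at k3
      exact ⟨k1, k4, k3⟩
  rw [hcard]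
  refine ⟨?_, fun h3 => ((H33.sum_sq_modEq_card hp h3 _ _).dvd_iff (dvd_refl p)).1 h1⟩
  by_contra hcon
  obtain ⟨χ, hχ⟩ := Finset.card_eq_one.1 (show (s.filter fun χ : IrrCharacter G =>
    ¬ p ∣ charDegree (χ : G → ℂ)).card = 1 by omega)
  have hχ' := Finset.mem_filter.1 (hχ ▸ Finset.mem_singleton_self χ)
  rw [← Finset.sum_filter_add_sum_filter_not s (fun χ => ¬ p ∣ charDegree (χ : G → ℂ)), hχ,
    Finset.sum_singleton] at h1
  refine hχ'.2 (hp.dvd_of_dvd_pow ((Nat.dvd_add_left (Finset.dvd_sum fun ψ hψ => ?_)).1 h1))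
  exact dvd_pow (not_not.1 (Finset.mem_filter.1 hψ).2) two_ne_zero

end Cfsg.Agent.S4825
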