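import Cfsg.Statements.S4828
import Cfsg.Agent.H87.Dict7

set_option autoImplicit false
open Cfsg

namespace Cfsg.Agent.S4828

open Cfsg.Agent.H87 Cfsg.Agent.H32 MonoidAlgebra

/-- Let p be a prime, M a maximal ideal of the algebraic integers containing p, and (Q, e) a Brauer pair of the finite group G (Q a p-subgroup, e a block of C_G(Q)). Then (Q, e) is a maximal Brauer pair of some block of G if and only if e contains an irreducible character θ such that θ takes the value θ(1) at every element of Z(Q) = Q ∩ C_G(Q), the p-part of θ(1) times the p-part of the order of Z(Q) equals the p-part of the order of C_G(Q) (θ has defect zero as a character of C_G(Q)/Z(Q)), and every element of N_G(Q) of p-power order that stabilizes e lies in Q·C_G(Q) (the stabilizer of e in N_G(Q) has index prime to p over Q·C_G(Q)). -/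
theorem result {G : Type*} [Group G] [Finite G] (p : ℕ) [Fact p.Prime] (M : Ideal Cfsg.AlgInt) (hM : Cfsg.IsPModular p M) (Q : Subgroup G) (e : Set (Cfsg.IrrCharacter (Subgroup.centralizer (Q : Set G)))) (he : Cfsg.IsBrauerPair p M Q e) :
    (∃ B : Set (Cfsg.IrrCharacter G), Cfsg.IsMaximalBrauerPair p M B Q e) ↔
      ∃ θ ∈ e, (∀ z : Subgroup.centralizer (Q : Set G), (z : G) ∈ Q → (θ : Subgroup.centralizer (Q : Set G) → ℂ) z = (θ : Subgroup.centralizer (Q : Set G) → ℂ) 1) ∧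
        (Cfsg.charDegree (θ : Subgroup.centralizer (Q : Set G) → ℂ)).factorization p + (Nat.card ↥(Q ⊓ Subgroup.centralizer (Q : Set G))).factorization p = (Nat.card (Subgroup.centralizer (Q : Set G))).factorization p ∧
        (∀ g : G, g ∈ Subgroup.normalizer (Q : Set G) → Cfsg.StabilizesBlock (Subgroup.centralizer (Q : Set G)) e g → (∃ k : ℕ, orderOf g = p ^ k) → g ∈ Q ⊔ Subgroup.centralizer (Q : Set G)) := by
  have := hM.2.1
  have := res_charP hM
  have hp := pair_idm (M := M) he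
  have hK : ⊤ ⊓ No Q ⊓ stab (idm M (Ce Q).subtype e) ≤ No (⊤ ⊓ Ce Q ⊔ Q) :=
    (le_inf (le_No_inf_Ce top_le_No_top le_top (inf_le_left.trans inf_le_right))
      (inf_le_left.trans inf_le_right)).trans (No_inf_No_le_sup _ _)
  have hL : ⊤ ⊓ Ce Q ⊔ Q ≤ ⊤ ⊓ No Q ⊓ stab (idm M (Ce Q).subtype e) :=
    sup_le (hp.le_No_stab le_rfl)
      (le_inf (le_inf le_top Subgroup.le_normalizer) (inv_iff_le_stab.1 hp.inv))
  have e1 := hp.isDef_sup_iff le_top
  rw [top_inf_eq, isDef_center_iff hM he.1 he.2] at e1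
  constructor
  · rintro ⟨B, hB⟩
    have hm := IsMaximalBrauerPair.maxPair hM hB
    have hb := blk_eB hB.1.2.1
    have h1 := hm.isDef_of_le le_rfl top_le_No_top hb (Sub.refl _ _) le_sup_left hL le_sup_right
    rw [top_inf_eq] at h1
    obtain ⟨θ, h2, h3, h4⟩ := e1.1 h1
    refine ⟨θ, h2, h3, h4, fun g hg hs ⟨n, hn⟩ => ?_⟩
    have := mem_of_pow_mem_of_relIndex hK (hm.not_dvd_relIndex (good hM) le_rfl top_le_No_top hb)
      (g := g) ⟨⟨trivial, hg⟩, ((stabilizesBlock_iff he.2).1 hs).2⟩ (n := n)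
      (by rw [← hn, pow_orderOf_eq_one]; exact Subgroup.one_mem _)
    rwa [top_inf_eq, sup_comm] at this
  · rintro ⟨θ, h2, h3, h4, h5⟩
    have h1 := e1.2 ⟨θ, h2, h3, h4⟩
    obtain ⟨b, ⟨hb, hbf⟩, -⟩ := hp.existsUnique_blk (T := ⊤) le_rfl le_top
    obtain ⟨B, hB, rfl⟩ := exists_eB_eq hb
    refine ⟨B, (isMaximalBrauerPair_iff hM hB he.2).2 (maxPair_of_isDef_stab ⟨hp, le_top, hbf⟩
      ⟨le_sup_right.trans hL, h1.pgp, h1.ne, fun R r1 r2 r3 r4 => h1.max R r1 (fun g hg => ?_)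
        r3 r4⟩)⟩
    rw [sup_comm]
    obtain ⟨n, hn⟩ := (IsPGroup.iff_orderOf.1 r3) ⟨g, hg⟩
    exact h5 g (r2 hg).1.2 ((stabilizesBlock_iff he.2).2 ⟨No_le_No_Ce Q (r2 hg).1.2, (r2 hg).2⟩)
      ⟨n, by rw [← hn, ← Subgroup.orderOf_coe]⟩

end Cfsg.Agent.S4828
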