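import Cfsg.Statements.S4835
import Cfsg.Agent.H88.Gagola

set_option autoImplicit false
open Cfsg

namespace Cfsg.Agent.S4835

open Cfsg.Agent.H5 Cfsg.Agent.H6 Cfsg.Agent.H88

/-- Let G be a finite group of order greater than 2 with an irreducible character χ that is nonzero on exactly two conjugacy classes. Then G has a unique minimal normal subgroup N; N is an elementary abelian p-group for some prime p; χ is nonzero exactly at the elements of N; and any two nonidentity elements of N are conjugate in G. -/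
theorem result {G : Type*} [Group G] [Finite G] (hG : 2 < Nat.card G) (χ : Cfsg.IrrCharacter G) (hχ : Nat.card {C : ConjClasses G // ∃ g ∈ C.carrier, (χ : G → ℂ) g ≠ 0} = 2) :
    ∃ N : Subgroup G, N.Normal ∧ N ≠ ⊥ ∧ (∀ K : Subgroup G, K.Normal → K ≠ ⊥ → N ≤ K) ∧
      (∃ p : ℕ, p.Prime ∧ Cfsg.IsElementaryAbelian p N) ∧
      (∀ g : G, (χ : G → ℂ) g ≠ 0 ↔ g ∈ N) ∧
      (∀ x ∈ N, ∀ y ∈ N, x ≠ 1 → y ≠ 1 → ∃ g : G, g * x * g⁻¹ = y) := by
  obtain ⟨x, h⟩ := exists_gag hG χ.2 hχ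
  obtain ⟨p, hp, h1⟩ := h.exists_prime
  refine ⟨h.N, inferInstance, h.N_ne_bot, fun K _ hK => h.N_le K hK,
    ⟨p, hp, ⟨⟨subgroup_comm h.comm⟩⟩, h1⟩, fun g => h.mem_N.symm, fun a ha b hb ha1 hb1 => ?_⟩
  exact isConj_iff.mp ((h.of_mem ha ha1).isConj_of_mem
    ((h.of_mem ha ha1).mem_N.mpr (h.mem_N.mp hb)) hb1)

end Cfsg.Agent.S4835
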