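import Cfsg.Statements.S4837
import Cfsg.Agent.H88.Gagola

set_option autoImplicit false
open Cfsg

namespace Cfsg.Agent.S4837

open Cfsg.Agent.H5 Cfsg.Agent.H6 Cfsg.Agent.H88

/-- Let G be a finite group of order greater than 2 with an irreducible character χ nonzero on exactly two conjugacy classes, and let N be the set of elements where χ is nonzero, given as a nontrivial normal p-subgroup of G for the prime p. Then for every nonidentity x in N the centralizer C_G(x) is a Sylow p-subgroup of G, and for every irreducible character λ ≠ 1 of N the stabilizer of λ in G (its inertia group) is a Sylow p-subgroup of G. -/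
theorem result {G : Type*} [Group G] [Finite G] (hG : 2 < Nat.card G) (χ : Cfsg.IrrCharacter G) (hχ : Nat.card {C : ConjClasses G // ∃ g ∈ C.carrier, (χ : G → ℂ) g ≠ 0} = 2) (p : ℕ) [Fact p.Prime] (N : Subgroup G) [N.Normal] (hN : ∀ g : G, g ∈ N ↔ (χ : G → ℂ) g ≠ 0) (hNp : IsPGroup p N) (hN1 : N ≠ ⊥) :
    (∀ x ∈ N, x ≠ 1 → ∃ P : Sylow p G, Subgroup.centralizer ({x} : Set G) = P) ∧
      (∀ μ : Cfsg.IrrCharacter N, (μ : N → ℂ) ≠ (fun _ => (1 : ℂ)) → ∃ P : Sylow p G, ∀ g : G, g ∈ (P : Subgroup G) ↔ ∀ n n' : N, (n' : G) = g * n * g⁻¹ → (μ : N → ℂ) n' = (μ : N → ℂ) n) := by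
  obtain ⟨x, h⟩ := exists_gag hG χ.2 hχ
  obtain rfl : N = h.N := Subgroup.ext fun g => (hN g).trans h.mem_N.symm
  have hp : p.Prime := Fact.out
  refine ⟨fun y hy hy1 => ?_, fun μ hμ => ?_⟩
  · have h' := h.of_mem hy hy1
    have e : h'.N = h.N := Subgroup.ext fun g => h'.mem_N.trans h.mem_N.symm
    exact ⟨(h'.isPGroup_centralizer hp (e ▸ hNp)).toSylow (h'.not_dvd_index hp (e ▸ hNp)), rfl⟩
  · have h1 := h.index_inertia μ.2 hμ
    have h2 : IsPGroup p (inertia h.N (μ : h.N → ℂ)) := by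
      obtain ⟨k, hk⟩ := (h.isPGroup_centralizer hp hNp).exists_card_eq
      refine IsPGroup.of_card (n := k) ?_
      have h3 := (inertia h.N (μ : h.N → ℂ)).card_mul_index
      rw [h1, ← (Subgroup.centralizer ({x} : Set G)).card_mul_index, hk] at h3
      exact Nat.eq_of_mul_eq_mul_right (Nat.pos_of_ne_zero Subgroup.index_ne_zero_of_finite) h3
    refine ⟨h2.toSylow (h1 ▸ h.not_dvd_index hp hNp), fun g => ?_⟩
    change g ∈ inertia h.N (μ : h.N → ℂ) ↔ _
    rw [mem_inertia_iff]
    refine ⟨fun hg n n' e => ?_, fun hg n => hg n _ rfl⟩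
    rw [← hg n]
    exact congrArg _ (Subtype.ext e)

end Cfsg.Agent.S4837
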