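import Cfsg.Statements.S4838
import Cfsg.Agent.H88.Gagola

set_option autoImplicit false
open Cfsg

namespace Cfsg.Agent.S4838

open Cfsg.Agent.H5 Cfsg.Agent.H6 Cfsg.Agent.H88
open scoped commutatorElement

theorem aux {G : Type*} [Group G] [Finite G] {χ : G → ℂ} {x : G} (h : Gag χ x) {p : ℕ}
    [Fact p.Prime] (hN : IsPGroup p h.N) (P : Sylow p G) (Z : Subgroup P) (z : P)
    (hz : ∀ y, ⁅z, y⁆ ∈ Z) (hlt : Nat.card Z < Nat.card h.N) : (z : G) ∈ h.N := by
  by_contra hzN
  have h1 : (Subgroup.centralizer ({z} : Set P)).index ≤ Nat.card Z := by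
    rw [← card_isConj_eq_index]
    refine Nat.card_le_card_of_injective (fun a => ⟨z * a.1⁻¹, ?_⟩) fun a b e => ?_
    · obtain ⟨c, hc⟩ := isConj_iff.mp a.2
      rw [← hc]
      simpa [commutatorElement_def, mul_assoc] using hz c
    · exact Subtype.ext (by simpa using e)
  have h2 : Nat.card (Subgroup.centralizer ({z} : Set P)) ∣ Nat.card (G ⧸ h.N) := by
    refine dvd_trans ?_ ((dvd_of_eq (h.card_centralizer hzN)).trans
      (Subgroup.card_subgroup_dvd_card _))
    rw [← Subgroup.card_map_of_injective (P : Subgroup G).subtype_injective]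
    refine Subgroup.card_dvd_of_le ?_
    rintro _ ⟨y, hy, rfl⟩
    exact Subgroup.mem_centralizer_singleton_iff.mpr
      (congrArg Subtype.val (Subgroup.mem_centralizer_singleton_iff.mp hy))
  obtain ⟨a, ha⟩ := (P.isPGroup'.to_subgroup (Subgroup.centralizer ({z} : Set P))).exists_card_eq
  obtain ⟨b, hb⟩ := hN.exists_card_eq
  have h3 : p ^ (a + b) ∣ Nat.card G := by
    rw [Subgroup.card_eq_card_quotient_mul_card_subgroup h.N, pow_add, ← ha, ← hb]
    exact Nat.mul_dvd_mul_right h2 _
  have h4 := Nat.le_of_dvd Nat.card_pos (P.pow_dvd_card_of_pow_dvd_card h3)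
  rw [← (Subgroup.centralizer ({z} : Set P)).card_mul_index, pow_add, ← ha, ← hb] at h4
  have := Nat.le_of_mul_le_mul_left h4 Nat.card_pos
  omega

/-- Let G be a finite group of order greater than 2 with an irreducible character χ nonzero on exactly two conjugacy classes, N the normal p-subgroup of elements where χ is nonzero, and P a Sylow p-subgroup of G. Then (a) for every x outside N the centralizer of x in G has the same order as the centralizer of xN in G/N; (b) the centre of P lies in N, and equals N exactly when P is normal in G; (c) N, viewed inside P, is a term of the upper central series of P. -/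
theorem result {G : Type*} [Group G] [Finite G] (hG : 2 < Nat.card G) (χ : Cfsg.IrrCharacter G) (hχ : Nat.card {C : ConjClasses G // ∃ g ∈ C.carrier, (χ : G → ℂ) g ≠ 0} = 2) (p : ℕ) [Fact p.Prime] (N : Subgroup G) [N.Normal] (hN : ∀ g : G, g ∈ N ↔ (χ : G → ℂ) g ≠ 0) (hNp : IsPGroup p N) (hN1 : N ≠ ⊥) (P : Sylow p G) :
    (∀ x : G, x ∉ N → Nat.card (Subgroup.centralizer ({x} : Set G)) = Nat.card (Subgroup.centralizer ({(x : G ⧸ N)} : Set (G ⧸ N)))) ∧
      ((Subgroup.center ↥(P : Subgroup G)).map (P : Subgroup G).subtype ≤ N ∧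
        ((Subgroup.center ↥(P : Subgroup G)).map (P : Subgroup G).subtype = N ↔ (P : Subgroup G).Normal)) ∧
      (∃ i : ℕ, Subgroup.upperCentralSeries ↥(P : Subgroup G) i = N.subgroupOf (P : Subgroup G)) := by
  obtain ⟨x, h⟩ := exists_gag hG χ.2 hχ
  obtain rfl : N = h.N := Subgroup.ext fun g => (hN g).trans h.mem_N.symm
  have hp : p.Prime := Fact.out
  have hNP : h.N ≤ P := hNp.le_sylow_of_normal P
  have hZ : (Subgroup.center ↥(P : Subgroup G)).map (P : Subgroup G).subtype ≤ h.N := by
    rintro _ ⟨z, hz, rfl⟩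
    refine aux h hNp P ⊥ z (fun y => ?_) ?_
    · rw [Subgroup.mem_bot, commutatorElement_eq_one_iff_mul_comm]
      exact (Subgroup.mem_center_iff.mp hz y).symm
    · rw [Subgroup.card_bot]
      exact (Subgroup.one_lt_card_iff_ne_bot _).mpr hN1
  refine ⟨fun g hg => h.card_centralizer hg, ⟨hZ, fun e => ?_, fun hP => ?_⟩, ?_⟩
  · have h1 : (P : Subgroup G) ≤ Subgroup.centralizer (h.N : Set G) := fun g hg n hn => by
      rw [← e] at hn
      obtain ⟨z, hz, rfl⟩ := hn
      exact congrArg Subtype.val (Subgroup.mem_center_iff.mp hz ⟨g, hg⟩).symm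
    rw [← P.is_maximal' ((h.isPGroup_centralizer hp hNp).to_le
      (Subgroup.centralizer_le (Set.singleton_subset_iff.mpr h.self_mem))) h1]
    infer_instance
  · refine le_antisymm hZ (h.N_le _ fun e => ?_)
    have : Nontrivial (P : Subgroup G) :=
      (Subgroup.nontrivial_iff_ne_bot _).mpr fun e => hN1 (le_bot_iff.mp (e ▸ hNP))
    exact (Subgroup.nontrivial_iff_ne_bot _).mp P.isPGroup'.center_nontrivial
      ((Subgroup.map_eq_bot_iff_of_injective _ (Subgroup.subtype_injective _)).mp e)
  · by_contra hc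
    push Not at hc
    have h1 : ∀ i, Subgroup.upperCentralSeries ↥(P : Subgroup G) i ≤ h.N.subgroupOf P := fun i => by
      induction i with
      | zero => exact bot_le
      | succ i ih =>
        intro z hz
        refine aux h hNp P _ z (Subgroup.mem_upperCentralSeries_succ_iff.mp hz) ?_
        rw [← Nat.card_congr (Subgroup.subgroupOfEquivOfLe hNP).toEquiv]
        refine lt_of_le_of_ne (Subgroup.card_le_of_le ih) fun e => hc i ?_
        exact Subgroup.eq_of_le_of_card_ge ih e.ge
    obtain ⟨n, hn⟩ := P.isPGroup'.isNilpotent.nilpotent'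
    exact hc n (le_antisymm (h1 n) (hn ▸ le_top))

end Cfsg.Agent.S4838
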