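import Cfsg.Statements.S4839
import Cfsg.Agent.H6.GagFrob

set_option autoImplicit false
open Cfsg

namespace Cfsg.Agent.S4839

open Cfsg.Agent

/-- Let G be a finite group of order greater than 2 with an irreducible character χ nonzero on exactly two conjugacy classes, and let N be the normal p-subgroup of elements where χ is nonzero. Then N is the whole p-core O_p(G) if and only if G is a doubly transitive Frobenius group with kernel N: G has a Frobenius complement H whose Frobenius kernel is N and whose order is one less than that of N. -/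
theorem result {G : Type*} [Group G] [Finite G] (hG : 2 < Nat.card G) (χ : Cfsg.IrrCharacter G) (hχ : Nat.card {C : ConjClasses G // ∃ g ∈ C.carrier, (χ : G → ℂ) g ≠ 0} = 2) (p : ℕ) [Fact p.Prime] (N : Subgroup G) [N.Normal] (hN : ∀ g : G, g ∈ N ↔ (χ : G → ℂ) g ≠ 0) (hNp : IsPGroup p N) (hN1 : N ≠ ⊥) :
    N = Cfsg.pCore p G ↔ ∃ H : Subgroup G, Cfsg.IsFrobeniusComplement H ∧ Cfsg.frobeniusKernel H = (N : Set G) ∧ Nat.card H + 1 = Nat.card N := by
  obtain ⟨x, h⟩ := H88.exists_gag hG χ.2 hχ
  have hNe : N = h.N := by
    ext g; rw [hN, h.mem_N]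
  subst hNe
  constructor
  · intro hc
    exact H6.gag_frobenius h hNp hc
  · rintro ⟨H, hH, hK, hcard⟩
    have h1 := H1.card_frobeniusKernel hH
    rw [hK] at h1
    change Nat.card h.N = H.index at h1
    have h2 : h.N.index = Nat.card H := by
      have h3 := H.card_mul_index
      have h4 := h.N.card_mul_index
      rw [← h1, ← h4, mul_comm] at h3
      exact (Nat.eq_of_mul_eq_mul_left Nat.card_pos h3).symm
    have hp : ¬ p ∣ h.N.index := by
      rw [h2]
      intro hd
      obtain ⟨k, hk⟩ := IsPGroup.iff_card.1 hNp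
      have hk0 : k ≠ 0 := by
        rintro rfl
        exact hN1 (Subgroup.card_eq_one.1 (by simpa using hk))
      have h5 : p ∣ Nat.card H + 1 := by rw [hcard, hk]; exact dvd_pow_self p hk0
      exact (Fact.out : p.Prime).one_lt.ne' (Nat.dvd_one.1 ((Nat.dvd_add_right hd).1 h5))
    refine le_antisymm (H22.le_pCore inferInstance hNp) ?_
    exact H22.pCore_le_sylow (hNp.toSylow hp)

end Cfsg.Agent.S4839
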