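import Cfsg.Statements.S4840
import Cfsg.Agent.H6.GagFrob
import Cfsg.Agent.H24.FpfPerfect
import Cfsg.Agent.H52.Zsig
import Cfsg.Agent.H42.Index2
import Cfsg.Agent.H22.PGroupMisc
import Cfsg.Agent.H44.Cores
import Cfsg.Agent.S0044
import Cfsg.Agent.H3.NilpotentHall

set_option autoImplicit false
open Cfsg

namespace Cfsg.Agent.S4840

open Cfsg.Agent

theorem false_of_quat {N : Type*} [Group N] [Finite N] [Nontrivial N]
    (hc : ∀ v w : N, v * w = w * v) (h3 : ∀ v : N, v ^ 3 = 1) (a b u : MulAut N)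
    (ha : ∀ v, a (a v) = v⁻¹) (hb : ∀ v, b (b v) = v⁻¹) (hab : ∀ v, b (a v) = (a (b v))⁻¹)
    (hua : ∀ v, u (a v) = a (u v)) (hub : ∀ v, u (b v) = b (u v))
    (hirr : ∀ W : Subgroup N, (∀ w ∈ W, u w ∈ W) → W = ⊥ ∨ W = ⊤) : False := by
  let _ : CommGroup N := { (inferInstance : Group N) with mul_comm := hc }
  have hsq : ∀ v : N, v * v = v⁻¹ := fun v => by
    rw [eq_inv_iff_mul_eq_one, ← h3 v, pow_succ, pow_two]
  have hone : ∀ v : N, v = v⁻¹ → v = 1 := fun v hv => by
    have h1 := hsq v
    rw [← hv] at h1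
    simpa using h1
  let T : N →* N := a.toMonoidHom * b.toMonoidHom
  have hT : ∀ v, T v = a v * b v := fun v => rfl
  have hTT : ∀ v, T (T v) = v := fun v => by
    rw [hT, hT, map_mul, map_mul, ha, hb, hab]
    calc v⁻¹ * a (b v) * ((a (b v))⁻¹ * v⁻¹) = v⁻¹ * v⁻¹ := by group
      _ = v := by rw [hsq, inv_inv]
  have huT : ∀ v, u (T v) = T (u v) := fun v => by rw [hT, hT, map_mul, hua, hub]
  obtain ⟨v, hv⟩ := exists_ne (1 : N)
  have fin : (∀ w, b (a w) = a (b w)) → False := fun h => by
    have h1 := hone _ ((h v).symm.trans (hab v))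
    apply hv
    simpa using h1
  rcases hirr (T.eqLocus (MonoidHom.id N)) (fun w hw => by
      change T (u w) = u w
      rw [← huT]; exact congrArg u hw) with h1 | h1
  · rcases hirr (T.eqLocus invMonoidHom) (fun w hw => by
      change T (u w) = (u w)⁻¹
      rw [← huT, ← map_inv]; exact congrArg u hw) with h2 | h2
    · have e1 : v * T v ∈ T.eqLocus (MonoidHom.id N) := by
        change T (v * T v) = v * T v
        rw [map_mul, hTT, mul_comm]
      have e2 : v * (T v)⁻¹ ∈ T.eqLocus invMonoidHom := by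
        change T (v * (T v)⁻¹) = (v * (T v)⁻¹)⁻¹
        rw [map_mul, map_inv, hTT, mul_inv, inv_inv, mul_comm]
      rw [h1, Subgroup.mem_bot] at e1
      rw [h2, Subgroup.mem_bot] at e2
      apply hv
      apply hone
      rw [mul_inv_eq_one] at e2
      rw [← e2] at e1
      exact eq_inv_of_mul_eq_one_left e1
    · have e : ∀ w, b w = (a w)⁻¹ * w⁻¹ := fun w => by
        have : w ∈ T.eqLocus invMonoidHom := h2 ▸ Subgroup.mem_top w
        change a w * b w = w⁻¹ at this
        rw [← this]; group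
      exact fin fun w => by rw [e, e, map_mul, map_inv, map_inv]
  · have e : ∀ w, b w = (a w)⁻¹ * w := fun w => by
      have : w ∈ T.eqLocus (MonoidHom.id N) := h1 ▸ Subgroup.mem_top w
      change a w * b w = w at this
      rw [← mul_right_inj (a w), this]; group
    exact fin fun w => by rw [e, e, map_mul, map_inv]

theorem not_dvd_commutator {H N : Type*} [Group H] [Finite H] [Group.IsSolvable H] [Group N]
    [Finite N] [Nontrivial N] {p : ℕ} [hp : Fact p.Prime] (hc : ∀ v w : N, v * w = w * v)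
    (hpow : ∀ v : N, v ^ p = 1) (ψ : H →* MulAut N)
    (hfix : ∀ h : H, ∀ v : N, v ≠ 1 → ψ h v = v → ∃ k, h ^ p ^ k = 1)
    (hO : pCore p H = ⊥) {k : ℕ} (hcard : Nat.card H = p ^ k * (Nat.card N - 1)) :
    ¬ p ∣ Nat.card (commutator H) := by
  classical
  intro hd
  obtain ⟨x, hx⟩ := exists_prime_orderOf_dvd_card' p hd
  have hxm := x.2
  rw [← Subgroup.orderOf_coe] at hx
  generalize (x : H) = x at hx hxm
  have hfpf : ∀ h : H, (orderOf h).Coprime p → h ≠ 1 → ∀ v, ψ h v = v → v = 1 := by
    intro h hh h1 v hv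
    by_contra hv1
    obtain ⟨j, hj⟩ := hfix h v hv1 hv
    exact h1 (orderOf_eq_one_iff.1 ((hh.pow_right j).eq_one_of_dvd (orderOf_dvd_of_pow_eq_one hj)))
  have hcent : ∀ q : ℕ, q.Prime → pCore q H ≤ Subgroup.centralizer ({x} : Set H) := by
    intro q hq
    by_cases hqp : q = p
    · rw [hqp, hO]; exact bot_le
    have := Fact.mk hq
    have hQ : IsPGroup q (pCore q H) := H22.isPGroup_pCore
    generalize hQdef : pCore q H = Q at hQ
    have hQn : Q.Normal := by rw [← hQdef]; infer_instance
    have hcop : ∀ y ∈ Q, (orderOf y).Coprime p := fun y hy => by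
      obtain ⟨j, hj⟩ := hQ ⟨y, hy⟩
      have : y ^ q ^ j = 1 := congrArg Subtype.val hj
      exact (((Nat.coprime_primes hq hp.out).2 hqp).pow_left j).coprime_dvd_left
        (orderOf_dvd_of_pow_eq_one this)
    have hF : H24.Fpf Q := H24.fpf_of_mulAut (ψ.comp Q.subtype) fun g hg v hv =>
      hfpf g (hcop g g.2) (fun h => hg (Subtype.ext h)) v hv
    let f : H →* MulAut Q := MulAut.conjNormal
    have hf : ∀ h : H, f h = 1 → Q ≤ Subgroup.centralizer ({h} : Set H) := fun h hh y hy => by
      have : (f h ⟨y, hy⟩ : H) = y := by rw [hh]; rfl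
      rw [H2.mem_centralizer_singleton]
      change h * y * h⁻¹ = y at this
      calc y * h = h * y * h⁻¹ * h := by rw [this]
        _ = _ := by group
    apply hf
    rcases hF.cyclic_or_quaternion hQ with hcyc | ⟨rfl, -⟩
    · have := Abelianization.commutator_subset_ker
        ((IsCyclic.mulAutMulEquiv Q).toMonoidHom.comp f) hxm
      simpa using this
    have hp2 : p.Coprime 2 := (Nat.coprime_primes hp.out Nat.prime_two).2 (Ne.symm hqp)
    have hfx : orderOf (f x) ∣ p := hx ▸ orderOf_map_dvd f x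
    rcases hF.mulAut_odd hQ (f x) (hp2.coprime_dvd_left hfx) with h | ⟨⟨e⟩, h3⟩
    · exact h
    exfalso
    rw [h3] at hfx
    obtain rfl : 3 = p := (Nat.prime_dvd_prime_iff_eq Nat.prime_three hp.out).1 hfx
    have hQ8 : Nat.card Q = 8 := by
      rw [Nat.card_congr e.toEquiv, Nat.card_eq_fintype_card, QuaternionGroup.card]
    obtain ⟨n, hn⟩ := IsPGroup.iff_card.1 (show IsPGroup 3 N from fun v => ⟨1, by simpa using hpow v⟩)
    by_cases hn3 : 3 ≤ n
    · obtain ⟨r, hr, hr1, hr2⟩ := H52.Zsig.zsigmondy (q := 3) (by norm_num) hn3 (by norm_num)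
      have := Fact.mk hr
      obtain ⟨u, hu⟩ := exists_prime_orderOf_dvd_card' (G := H) r
        (by rw [hcard, hn]; exact hr1.mul_left _)
      have hr2' : r ≠ 2 := by
        rintro rfl; exact hr2 1 le_rfl (by omega) (by norm_num)
      have hr3 : r ≠ 3 := by
        rintro rfl
        have h1 : 3 ∣ 3 ^ n := dvd_pow_self 3 (by omega)
        have h2 : 1 ≤ 3 ^ n := Nat.one_le_pow _ _ (by norm_num)
        omega
      have hu1 : u ≠ 1 := by rintro rfl; rw [orderOf_one] at hu; exact hr.one_lt.ne hu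
      have hfu : orderOf (f u) ∣ r := hu ▸ orderOf_map_dvd f u
      have hfu1 : f u = 1 := by
        rcases hF.mulAut_odd hQ (f u)
          (((Nat.coprime_primes hr Nat.prime_two).2 hr2').coprime_dvd_left hfu) with h | ⟨-, h⟩
        · exact h
        · rw [h] at hfu
          exact absurd ((Nat.prime_dvd_prime_iff_eq Nat.prime_three hr).1 hfu).symm hr3
      obtain ⟨a, ha, b, hb, hoa, hbb, hab, -, -⟩ := H42.exists_gens_of_quaternion e
      have hz1 : a ^ 2 ≠ 1 := fun h => by
        have := orderOf_dvd_of_pow_eq_one h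
        rw [hoa] at this
        norm_num at this
      have hz2 : a ^ 2 * a ^ 2 = 1 := by rw [← pow_add, show 2 + 2 = 2 * 2 from rfl, ← hoa,
        pow_orderOf_eq_one]
      have hinv : ∀ v, ψ (a ^ 2) v = v⁻¹ := fun v => by
        apply eq_inv_of_mul_eq_one_right
        apply hfpf (a ^ 2) (hcop _ (Q.pow_mem ha 2)) hz1
        rw [map_mul, ← MulAut.mul_apply, ← map_mul, hz2, map_one, MulAut.one_apply, hc]
      have hcu : ∀ y ∈ Q, ∀ v, ψ u (ψ y v) = ψ y (ψ u v) := fun y hy v => by
        rw [← MulAut.mul_apply, ← MulAut.mul_apply, ← map_mul, ← map_mul,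
          H2.mem_centralizer_singleton.1 (hf u hfu1 hy)]
      refine false_of_quat hc hpow (ψ a) (ψ b) (ψ u) ?_ ?_ ?_ (hcu a ha) (hcu b hb) ?_
      · intro v; rw [← MulAut.mul_apply, ← map_mul, ← pow_two, hinv]
      · intro v; rw [← MulAut.mul_apply, ← map_mul, hbb, hinv]
      · intro v
        rw [← hinv, ← MulAut.mul_apply, ← MulAut.mul_apply, ← MulAut.mul_apply, ← map_mul,
          ← map_mul, ← map_mul]
        congr 2
        calc b * a = b * a * b⁻¹ * b := by group
          _ = (a ^ 2 * a ^ 2) * a⁻¹ * b := by rw [hab, hz2, one_mul]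
          _ = _ := by group
      · intro W hW
        have h1 := H22.card_modEq_card_inf_fixed (q := r) (ψ u)
          (by rw [← map_pow, ← hu, pow_orderOf_eq_one, map_one]) W hW
        have h2 : W ⊓ (ψ u).toMonoidHom.eqLocus (MonoidHom.id N) = ⊥ := by
          rw [eq_bot_iff]
          rintro w ⟨-, hw⟩
          exact hfpf u (hu ▸ (Nat.coprime_primes hr Nat.prime_three).2 hr3) hu1 w hw
        rw [h2, Subgroup.card_bot] at h1
        obtain ⟨j, hj, hj'⟩ := (Nat.dvd_prime_pow Nat.prime_three).1 (hn ▸ W.card_subgroup_dvd_card)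
        rw [hj'] at h1
        have h4 := (Nat.modEq_iff_dvd' (Nat.one_le_pow _ _ (by norm_num))).1 h1.symm
        by_cases hj0 : j = 0
        · left; rw [← Subgroup.card_eq_one, hj', hj0, pow_zero]
        · right
          have : j = n := by
            by_contra hne
            exact hr2 j (by omega) (by omega) h4
          rw [← Subgroup.card_eq_iff_eq_top, hj', hn, this]
    · have h8 : 8 ∣ Nat.card N - 1 := by
        have h1 := Q.card_subgroup_dvd_card
        rw [hQ8, hcard] at h1
        exact (Nat.Coprime.pow_right k (by norm_num)).dvd_of_dvd_mul_left h1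
      have hN : Nat.card N - 1 = 8 := by
        have h1 : 1 < Nat.card N := Finite.one_lt_card
        rw [hn] at h8 h1 ⊢
        interval_cases n <;> simp_all
      have hQi : Q.index = 3 ^ k := by
        have := Q.card_mul_index
        rw [hQ8, hcard, hN] at this
        omega
      let M := Q ⊔ f.ker
      have hM1 : M.index ∣ 3 ^ k := hQi ▸ Subgroup.index_dvd_of_le le_sup_left
      have hM2 : M.index ∣ Nat.factorial 8 := by
        refine (Subgroup.index_dvd_of_le (le_sup_right : f.ker ≤ M)).trans ?_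
        rw [Subgroup.index_ker]
        refine f.range.card_subgroup_dvd_card.trans ?_
        have := Fintype.ofFinite Q
        rw [← hQ8, Nat.card_eq_fintype_card (α := Q), ← Fintype.card_perm,
          ← Nat.card_eq_fintype_card]
        exact Subgroup.card_dvd_of_injective (MulAut.toPerm Q) (fun a b h => by
          ext y; exact congrArg Subtype.val (congrFun (congrArg (⇑) h) y))
      obtain ⟨j, -, hj⟩ := (Nat.dvd_prime_pow Nat.prime_three).1 hM1
      have hj2 : j ≤ 2 := by
        by_contra h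
        have : 3 ^ 3 ∣ Nat.factorial 8 := (pow_dvd_pow 3 (by omega)).trans (hj ▸ hM2)
        norm_num [Nat.factorial] at this
      have hcomm : IsMulCommutative (H ⧸ M) := by
        rw [Subgroup.index_eq_card] at hj
        interval_cases j
        · have := isCyclic_of_card_dvd_prime (p := 3) (α := H ⧸ M) (by rw [hj]; norm_num)
          infer_instance
        · have := isCyclic_of_card_dvd_prime (p := 3) (α := H ⧸ M) (by rw [hj]; norm_num)
          infer_instance
        · exact IsPGroup.isMulCommutative_of_card_eq_prime_sq hj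
      have hxM : x ∈ M := Subgroup.Normal.quotient_commutative_iff_commutator_le.1 hcomm hxm
      rw [← SetLike.mem_coe, Subgroup.mul_normal] at hxM
      obtain ⟨a, ha, c, hc', rfl⟩ := hxM
      have h1 : f (a * c) = f a := by rw [map_mul, MonoidHom.mem_ker.1 hc', mul_one]
      have h2 : orderOf (f a) ∣ 8 := by
        refine (orderOf_map_dvd f a).trans ?_
        rw [← hQ8]; exact Subgroup.orderOf_dvd_natCard Q ha
      rw [← h1, h3] at h2
      norm_num at h2
  have hF : fittingSubgroup H ≤ Subgroup.centralizer ({x} : Set H) := by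
    have := H44.fitting_characteristic (G := H)
    refine (H44.nilpotent_normal_le_iSup_pCore inferInstance H44.fitting_isNilpotent).trans ?_
    exact iSup_le fun q => hcent q (Nat.prime_of_mem_primeFactors q.2)
  have hxF : x ∈ fittingSubgroup H := by
    apply S0044.result
    rw [Subgroup.mem_centralizer_iff]
    exact fun y hy => H2.mem_centralizer_singleton.1 (hF hy)
  have := H44.fitting_characteristic (G := H)
  have hnil := H44.fitting_isNilpotent (G := H)
  obtain ⟨P⟩ : Nonempty (Sylow p (fittingSubgroup H)) := inferInstance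
  have hPn : (P : Subgroup (fittingSubgroup H)).Normal := inferInstance
  have h1 : (P : Subgroup (fittingSubgroup H)) ≤ pCore p _ := H22.le_pCore hPn P.isPGroup'
  rw [H22.pCore_of_normal, hO, Subgroup.bot_subgroupOf, le_bot_iff] at h1
  apply P.not_dvd_index
  rw [h1, Subgroup.index_bot, ← hx]
  exact Subgroup.orderOf_dvd_natCard _ hxF

/-- Let G be a finite solvable group of order greater than 2 with an irreducible character nonzero on exactly two conjugacy classes. Then there is exactly one prime p with O_p(G) ≠ 1, and the quotient G/O_p(G) has a normal p-complement and commutative Sylow p-subgroups. -/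
theorem result {G : Type*} [Group G] [Finite G] [hs : Group.IsSolvable G] (hG : 2 < Nat.card G) (χ : Cfsg.IrrCharacter G) (hχ : Nat.card {C : ConjClasses G // ∃ g ∈ C.carrier, (χ : G → ℂ) g ≠ 0} = 2) :
    ∃ p : ℕ, p.Prime ∧ (∀ q : ℕ, q.Prime → (Cfsg.pCore q G ≠ ⊥ ↔ q = p)) ∧
      Cfsg.HasNormalPComplement p (G ⧸ Cfsg.pCore p G) ∧ ∀ Q : Sylow p (G ⧸ Cfsg.pCore p G), IsMulCommutative (Q : Subgroup (G ⧸ Cfsg.pCore p G)) := by
  obtain ⟨x, h⟩ := H88.exists_gag hG χ.2 hχ
  obtain ⟨p, hp, hpow⟩ := h.exists_prime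
  have := Fact.mk hp
  have hNn := h.normal_N
  have hN : IsPGroup p h.N := fun v => ⟨1, Subtype.ext (by simpa using hpow v v.2)⟩
  have hNO : h.N ≤ Cfsg.pCore p G := H22.le_pCore hNn hN
  have hOp : IsPGroup p (Cfsg.pCore p G) := H22.isPGroup_pCore
  have hcen : Cfsg.pCore p G ≤ Subgroup.centralizer (h.N : Set G) := by
    rw [Subgroup.le_centralizer_iff]
    apply h.N_le
    intro hb
    have hne : h.N.subgroupOf (Cfsg.pCore p G) ≠ ⊥ := by
      rw [Ne, Subgroup.subgroupOf_eq_bot, disjoint_iff, inf_eq_left.2 hNO]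
      exact h.N_ne_bot
    obtain ⟨z, hz, hzc, ho⟩ := H3.exists_mem_center_orderOf_eq hOp _ hne
    have : (z : G) ∈ Subgroup.centralizer (Cfsg.pCore p G : Set G) := by
      rw [Subgroup.mem_centralizer_iff]
      exact fun y hy => congrArg Subtype.val (Subgroup.mem_center_iff.1 hzc ⟨y, hy⟩)
    rw [hb, Subgroup.mem_bot] at this
    rw [show z = 1 from Subtype.ext this, orderOf_one] at ho
    exact hp.one_lt.ne ho
  have : Nontrivial h.N := (Subgroup.nontrivial_iff_ne_bot _).2 h.N_ne_bot
  let ψ : G ⧸ Cfsg.pCore p G →* MulAut h.N := QuotientGroup.lift _ MulAut.conjNormal (by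
    intro g hg
    rw [MonoidHom.mem_ker]
    ext v
    have := Subgroup.mem_centralizer_iff.1 (hcen hg) v v.2
    change g * v * g⁻¹ = v
    rw [← this]; group)
  have hOx : Cfsg.pCore p G ≤ Subgroup.centralizer ({x} : Set G) :=
    hcen.trans (Subgroup.centralizer_le (Set.singleton_subset_iff.2 h.self_mem))
  obtain ⟨k, hk⟩ : ∃ k, (Cfsg.pCore p G).relIndex (Subgroup.centralizer ({x} : Set G)) = p ^ k :=
    (h.isPGroup_centralizer hp hN).index _
  have hnd := not_dvd_commutator (H := G ⧸ Cfsg.pCore p G) (p := p) (k := k)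
    (H88.subgroup_comm h.comm) (fun v => Subtype.ext (hpow v v.2)) ψ (by
      intro g v hv hgv
      obtain ⟨g, rfl⟩ := QuotientGroup.mk_surjective g
      have h1 : g * v * g⁻¹ = v := congrArg Subtype.val hgv
      obtain ⟨j, hj⟩ := H6.gag_isPGroup_centralizer h hp hN v.2 (fun e => hv (Subtype.ext e))
        ⟨g, H2.mem_centralizer_singleton.2 (mul_inv_eq_iff_eq_mul.1 h1)⟩
      refine ⟨j, ?_⟩
      rw [← QuotientGroup.mk_pow, show g ^ p ^ j = 1 from congrArg Subtype.val hj]
      rfl) H22.pCore_quotient_pCore (by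
      rw [← Subgroup.index_eq_card, ← Subgroup.relIndex_mul_index hOx, hk, ← h.index_add_one]
      simp)
  have hcop : (Nat.card (commutator (G ⧸ Cfsg.pCore p G))).Coprime p :=
    ((Nat.Prime.coprime_iff_not_dvd hp).2 hnd).symm
  refine ⟨p, hp, fun q hq => ⟨fun hne => ?_, ?_⟩, ?_, fun Q => ?_⟩
  · have := Fact.mk hq
    have h1 := h.N_le _ hne
    obtain ⟨j, hj⟩ := (H22.isPGroup_pCore (p := q) (G := G)) ⟨x, h1 h.self_mem⟩
    have h2 : x ^ q ^ j = 1 := congrArg Subtype.val hj
    have h3 := orderOf_dvd_of_pow_eq_one h2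
    rw [orderOf_eq_prime (hpow x h.self_mem) h.ne_one] at h3
    exact ((Nat.prime_dvd_prime_iff_eq hp hq).1 (hp.dvd_of_dvd_pow h3)).symm
  · rintro rfl hb
    exact h.N_ne_bot (le_bot_iff.1 (hb ▸ hNO))
  · apply H3.hasNormalPComplement_of_quotient_coprime _ hcop
    let _ : CommGroup ((G ⧸ Cfsg.pCore p G) ⧸ commutator (G ⧸ Cfsg.pCore p G)) :=
      inferInstanceAs (CommGroup (Abelianization _))
    exact H3.hasNormalPComplement_of_isNilpotent
  · refine ⟨⟨fun a b => Subtype.ext ?_⟩⟩
    have h1 := H22.inf_eq_bot_of_pgroup_coprime Q.isPGroup' hcop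
    rw [Subgroup.coe_mul, Subgroup.coe_mul, ← commutatorElement_eq_one_iff_mul_comm,
      ← Subgroup.mem_bot, ← h1]
    exact ⟨Subgroup.mul_mem _ (Subgroup.mul_mem _ (Subgroup.mul_mem _ a.2 b.2)
      (Subgroup.inv_mem _ a.2)) (Subgroup.inv_mem _ b.2),
      H88.commutatorElement_mem_commutator' _ _⟩

end Cfsg.Agent.S4840
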