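import Cfsg.Statements.S4843
import Cfsg.Agent.H6.CliffordCorr
import Cfsg.Agent.H6.FrobSchur
import Cfsg.Agent.H88.Deg4
import Cfsg.Agent.H88.CD3Solv
import Cfsg.Agent.H7.Galois
import Cfsg.Agent.H44.Cores
import Cfsg.Agent.H2.Basic

set_option autoImplicit false
open Cfsg

namespace Cfsg.Agent.S4843

open Cfsg.Agent
open scoped ComplexConjugate
set_option linter.unusedSectionVars false

section
variable {G : Type*} [Group G] [Fintype G]

theorem isCharacter_mul_conj {χ : G → ℂ} (h : IsCharacter G χ) :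
    IsCharacter G (fun g => χ g * conj (χ g)) :=
  H5.isCharacter_mul h (H5.isCharacter_conj h)

theorem classInner_mul_conj_one (χ : G → ℂ) :
    classInner (fun g => χ g * conj (χ g)) (fun _ => 1) = classInner χ χ := by
  simp [classInner]

theorem eq_one_of_common {χ ψ η : G → ℂ} (hχ : IsIrrCharacter G χ) (hψ : IsIrrCharacter G ψ)
    (h : IsIrrCharacter G (fun g => χ g * ψ g)) (hη : IsIrrCharacter G η)
    (h1 : classInner (fun g => χ g * conj (χ g)) η ≠ 0)
    (h2 : classInner (fun g => ψ g * conj (ψ g)) η ≠ 0) : η = fun _ => 1 := by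
  by_contra hne
  have hA := isCharacter_mul_conj (H5.isCharacter_of_isIrr hχ)
  have hB := isCharacter_mul_conj (H5.isCharacter_of_isIrr hψ)
  have hAB : classInner (fun g => χ g * conj (χ g)) (fun g => ψ g * conj (ψ g)) = 1 := by
    rw [← H5.classInner_irr_self h]
    unfold classInner
    congr 1
    refine Finset.sum_congr rfl fun g _ => ?_
    simp only [map_mul, Complex.conj_conj]
    ring
  have hA1 : classInner (fun g => χ g * conj (χ g)) (fun _ => 1) = 1 := by
    rw [classInner_mul_conj_one, H5.classInner_irr_self hχ]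
  have hB1 : classInner (fun g => ψ g * conj (ψ g)) (fun _ => 1) = 1 := by
    rw [classInner_mul_conj_one, H5.classInner_irr_self hψ]
  have hη1 : classInner η (fun _ => 1) = 0 := H5.classInner_irr_ne hη H5.isIrrCharacter_one hne
  have h1η : classInner (fun _ => 1) η = 0 :=
    H5.classInner_irr_ne H5.isIrrCharacter_one hη (Ne.symm hne)
  have hA' := H5.isCharacter_sub_of_constituent hA H5.isIrrCharacter_one (by rw [hA1]; simp)
  have hB' := H5.isCharacter_sub_of_constituent hB H5.isIrrCharacter_one (by rw [hB1]; simp)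
  apply H6.classInner_ne_zero_of_common hA' hB' hη
  · rwa [H5.classInner_sub_left, h1η, sub_zero]
  · rwa [H5.classInner_sub_left, h1η, sub_zero]
  · rw [H5.classInner_sub_left, H5.classInner_sub_right, H5.classInner_sub_right, hAB, hA1,
      H5.classInner_comm_of_isCharacter H5.isCharacter_one hB, hB1,
      H5.classInner_irr_self H5.isIrrCharacter_one]
    ring

theorem classInner_ne_zero_of_le {A B C : G → ℂ} (hA : IsCharacter G A)
    (hB : IsCharacter G (B - A)) (hC : IsCharacter G C) (h : classInner A C ≠ 0) :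
    classInner B C ≠ 0 := by
  obtain ⟨m, hm⟩ := H5.exists_nat_classInner hA hC
  obtain ⟨n, hn⟩ := H5.exists_nat_classInner hB hC
  rw [H5.classInner_sub_left, hm] at hn
  rw [hm] at h
  rw [sub_eq_iff_eq_add.1 hn]
  have : n + m ≠ 0 := by
    have : m ≠ 0 := by exact_mod_cast h
    omega
  exact_mod_cast this

theorem constituent_of_indFun (T : Subgroup G) [Fintype T] {φ : T → ℂ} (hφ : IsIrrCharacter T φ)
    (hχ : IsIrrCharacter G (indFun T φ)) {η : G → ℂ} (hη : IsIrrCharacter G η)
    (h : classInner (fun t : T => η t) (fun _ => 1) ≠ 0) :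
    classInner (fun g => indFun T φ g * conj (indFun T φ g)) η ≠ 0 := by
  have hχ' := H5.isCharacter_of_isIrr hχ
  have hφ' := H5.isCharacter_of_isIrr hφ
  have hη' := H5.isCharacter_restrict (H5.isCharacter_of_isIrr hη) T
  have hres := H5.isCharacter_restrict hχ' T
  have e1 : (fun g => indFun T φ g * conj (indFun T φ g)) =
      indFun T (fun t => φ t * conj (indFun T φ t)) := by
    rw [H6.indFun_mul_res T φ (H5.isClassFunction_of_isCharacter (H5.isCharacter_conj hχ'))]
    rfl
  rw [e1, H6.classInner_indFun_left T _ (H5.isClassFunction_of_isIrr hη)]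
  have h1 : IsCharacter T ((fun t : T => η t) - fun _ => 1) :=
    H5.isCharacter_sub_of_constituent hη' H5.isIrrCharacter_one h
  have hc : IsCharacter T (fun t => φ t * conj (indFun T φ t)) :=
    H5.isCharacter_mul hφ' (H5.isCharacter_conj hres)
  rw [H88.classInner_ne_zero_comm]
  apply classInner_ne_zero_of_le H5.isCharacter_one h1 hc
  rw [H88.classInner_ne_zero_comm]
  have e2 : classInner (fun t => φ t * conj (indFun T φ t)) (fun _ => 1) =
      classInner φ (fun t : T => indFun T φ t) := by simp [classInner]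
  rw [e2, ← H6.classInner_indFun_left T _ (H5.isClassFunction_of_isIrr hχ),
    H5.classInner_irr_self hχ]
  exact one_ne_zero

theorem exists_nonprincipal {A : G → ℂ} (hA : IsCharacter G A)
    (h1 : classInner A (fun _ => 1) = 0 ∨ classInner A (fun _ => 1) = 1) (h0 : A 1 ≠ 0)
    (h2 : A 1 ≠ 1) : ∃ η, IsIrrCharacter G η ∧ η ≠ (fun _ => 1) ∧ classInner A η ≠ 0 := by
  rcases h1 with h1 | h1
  · obtain ⟨η, hη, h⟩ := H5.exists_irr_constituent hA (by rintro rfl; exact h0 rfl)
    exact ⟨η, hη, by rintro rfl; exact h h1, h⟩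
  · have hA' := H5.isCharacter_sub_of_constituent hA H5.isIrrCharacter_one (by rw [h1]; simp)
    obtain ⟨η, hη, h⟩ := H5.exists_irr_constituent hA' (by
      intro h
      apply h2
      have := congrFun h 1
      simpa [sub_eq_zero] using this)
    have hne : η ≠ fun _ => 1 := by
      rintro rfl
      apply h
      rw [H5.classInner_sub_left, h1, H5.classInner_irr_self H5.isIrrCharacter_one, sub_self]
    refine ⟨η, hη, hne, ?_⟩
    rwa [H5.classInner_sub_left, H5.classInner_irr_ne H5.isIrrCharacter_one hη (Ne.symm hne),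
      sub_zero] at h

theorem isCharacter_sub_trace {V : Type*} [AddCommGroup V] [Module ℂ V] [FiniteDimensional ℂ V]
    (ρ : Representation ℂ G V) (E : Module.End ℂ V) (hE : E * E = E)
    (hcomm : ∀ g, ρ g * E = E * ρ g) :
    IsCharacter G (fun g => ρ.character g - LinearMap.trace ℂ V (ρ g * E)) := by
  have := H6.isCharacter_trace_mul_idem ρ (1 - E)
    (by rw [mul_sub, sub_mul, sub_mul, hE]; simp)
    (fun g => by rw [mul_sub, sub_mul, hcomm]; simp)
  simpa only [mul_sub, mul_one, map_sub, Representation.character] using this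

theorem exists_theta {χ : G → ℂ} (hχ : IsIrrCharacter G χ) (E : Subgroup G) [hE : E.Normal]
    [Fintype E] (hv : ∀ e ∈ E, e ∉ Subgroup.center G → χ e = 0)
    (hZ : Subgroup.center G ≤ E) :
    IsCharacter G (fun g => ((Nat.card (Subgroup.center G) : ℂ) * χ 1)⁻¹ *
        ∑ e : E, χ (g * e * g⁻¹ * (e : G)⁻¹)) ∧
      IsCharacter G ((fun g => χ g * conj (χ g)) -
        fun g => ((Nat.card (Subgroup.center G) : ℂ) * χ 1)⁻¹ *
          ∑ e : E, χ (g * e * g⁻¹ * (e : G)⁻¹)) := by
  classical
  have hd := H5.degree_ne_zero hχ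
  have hnorm := fun z (hz : z ∈ Subgroup.center G) => H5.norm_apply_of_mem_center hχ hz
  have hinv := H5.isIrr_apply_inv hχ
  obtain ⟨n, ρ, hρ, rfl⟩ := hχ
  set c : ℂ := ((Nat.card (Subgroup.center G) : ℂ) * ρ.character 1)⁻¹ with hc
  have hZ0 : (Nat.card (Subgroup.center G) : ℂ) ≠ 0 := H5.natCard_ne_zero
  let R : Representation ℂ G (Module.End ℂ (Fin n → ℂ)) := ρ.linHom ρ
  have hR : ∀ g (X : Module.End ℂ (Fin n → ℂ)), R g X = ρ g * X * ρ g⁻¹ := fun g X => rfl
  let π : Module.End ℂ (Module.End ℂ (Fin n → ℂ)) := c • ∑ e : E,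
    ((LinearMap.trace ℂ (Fin n → ℂ)) ∘ₗ LinearMap.mulRight ℂ (ρ (e : G)⁻¹)).smulRight (ρ e)
  have hπ : ∀ X : Module.End ℂ (Fin n → ℂ),
      π X = c • ∑ e : E, LinearMap.trace ℂ (Fin n → ℂ) (X * ρ (e : G)⁻¹) • ρ e := by
    intro X
    simp [π, LinearMap.sum_apply]
  have hsum : ∑ e : E, ρ.character e • ρ (e : G)⁻¹ =
      ((Nat.card (Subgroup.center G) : ℂ) * ρ.character 1) • (1 : Module.End ℂ (Fin n → ℂ)) := by
    have h1 : ∀ e : E, ρ.character e • ρ (e : G)⁻¹ =
        if (e : G) ∈ Subgroup.center G then ρ.character 1 • (1 : Module.End ℂ (Fin n → ℂ)) else 0 := by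
      intro e
      split_ifs with he
      · have h2 := hnorm _ he
        rw [Representation.char_one, Complex.norm_natCast] at h2
        obtain ⟨ω, hω⟩ := (H5.norm_character_eq_iff ρ e).1 h2
        have h3 : ρ.character e = ω * ρ.character 1 := by
          rw [Representation.char_one, Representation.character, hω]
          simp
        have h4 : ω • ρ (e : G)⁻¹ = 1 := by
          have : ρ (e : G) * ρ (e : G)⁻¹ = 1 := by rw [← map_mul, mul_inv_cancel, map_one]
          rw [hω] at this
          rw [← this, smul_mul_assoc]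
          rfl
        rw [h3, mul_comm, mul_smul, h4]
      · rw [hv e e.2 he, zero_smul]
    rw [Finset.sum_congr rfl fun e _ => h1 e, ← Finset.sum_filter, Finset.sum_const, mul_smul,
      Nat.cast_smul_eq_nsmul]
    congr 1
    rw [← H2.card_subgroupOf_of_le hZ, Nat.card_eq_fintype_card, Fintype.card_subtype]
    simp only [Subgroup.mem_subgroupOf]
  have hfix : ∀ f : E, π (ρ f) = ρ f := by
    intro f
    rw [hπ, ← ((Equiv.inv E).trans (Equiv.mulRight f)).sum_comp]
    have : ∀ e : E, LinearMap.trace ℂ (Fin n → ℂ) (ρ f * ρ (((Equiv.inv E).trans (Equiv.mulRight f) e : E) : G)⁻¹) •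
        ρ ((Equiv.inv E).trans (Equiv.mulRight f) e : E) =
        (ρ.character e • ρ (e : G)⁻¹) * ρ f := by
      intro e
      rw [← map_mul, smul_mul_assoc, ← map_mul]
      simp [Representation.character]
    rw [Finset.sum_congr rfl fun e _ => this e, ← Finset.sum_mul, hsum, smul_mul_assoc, one_mul,
      smul_smul, hc, inv_mul_cancel₀ (mul_ne_zero hZ0 hd), one_smul]
  have hππ : π * π = π := by
    ext1 X
    rw [Module.End.mul_apply]
    conv_lhs => rw [hπ X]
    rw [map_smul, map_sum, hπ X]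
    simp only [map_smul, hfix]
  have hcomm : ∀ g, R g * π = π * R g := by
    intro g
    ext1 X
    rw [Module.End.mul_apply, Module.End.mul_apply, hπ, hπ, map_smul, map_sum,
      ← (MulAut.conjNormal (H := E) g).toEquiv.sum_comp]
    congr 1
    conv_lhs => rw [(MulAut.conjNormal (H := E) g).toEquiv.sum_comp
      (fun e : E => R g (LinearMap.trace ℂ (Fin n → ℂ) (X * ρ (e : G)⁻¹) • ρ e))]
    conv_rhs => rw [← (MulAut.conjNormal (H := E) g).toEquiv.sum_comp]
    refine Finset.sum_congr rfl fun e _ => ?_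
    rw [map_smul, hR, hR, ← map_mul, ← map_mul]
    have h1 : (((MulAut.conjNormal (H := E) g).toEquiv e : E) : G) = g * e * g⁻¹ := rfl
    rw [h1]
    congr 1
    rw [mul_assoc, mul_assoc, LinearMap.trace_mul_comm ℂ (ρ g), mul_assoc, ← map_mul, ← map_mul]
    congr 3
    group
  have htr : ∀ g, LinearMap.trace ℂ _ (R g * π) =
      c * ∑ e : E, ρ.character (g * e * g⁻¹ * (e : G)⁻¹) := by
    intro g
    simp only [π, mul_smul_comm, Finset.mul_sum, map_smul, map_sum, smul_eq_mul]
    refine Finset.sum_congr rfl fun e _ => ?_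
    congr 1
    have : R g * ((LinearMap.trace ℂ (Fin n → ℂ)) ∘ₗ LinearMap.mulRight ℂ (ρ (e : G)⁻¹)).smulRight (ρ e) =
        ((LinearMap.trace ℂ (Fin n → ℂ)) ∘ₗ LinearMap.mulRight ℂ (ρ (e : G)⁻¹)).smulRight (R g (ρ e)) := by
      ext1 X
      simp
    rw [this, LinearMap.trace_smulRight, hR]
    simp [Representation.character]
  constructor
  · have := H6.isCharacter_trace_mul_idem R π hππ hcomm
    simpa only [htr] using this
  · have := isCharacter_sub_trace R π hππ hcomm
    convert this using 1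
    funext g
    have h1 := Representation.char_linHom ρ ρ g
    rw [hinv] at h1
    simp only [Pi.sub_apply]
    rw [mul_comm (ρ.character g), ← h1, ← htr]

theorem comm_pow {g e : G} (h : g * e * g⁻¹ * e⁻¹ ∈ Subgroup.center G) (n : ℕ) :
    g * e ^ n * g⁻¹ * (e ^ n)⁻¹ = (g * e * g⁻¹ * e⁻¹) ^ n := by
  induction n with
  | zero => simp
  | succ n ih =>
    have h1 := Subgroup.mem_center_iff.1 h (e ^ n)
    calc g * e ^ (n + 1) * g⁻¹ * (e ^ (n + 1))⁻¹
        = (g * e ^ n * g⁻¹ * (e ^ n)⁻¹) * (e ^ n * (g * e * g⁻¹ * e⁻¹)) * (e ^ n)⁻¹ := by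
          rw [pow_succ]; group
      _ = _ := by rw [h1, ih, pow_succ]; group

theorem mem_of_pow_mem {H : Subgroup G} {k : ℕ} (hk : k.Coprime (Nat.card G)) {x : G}
    (h : x ^ k ∈ H) : x ∈ H := by
  obtain ⟨m, hm⟩ := exists_pow_eq_self_of_coprime (x := x) (n := k)
    (hk.coprime_dvd_right (orderOf_dvd_natCard x))
  rw [← hm]
  exact H.pow_mem h m

theorem sum_pow_eq {χ : G → ℂ} (E : Subgroup G) [hE : E.Normal] [Fintype E]
    (hv : ∀ e ∈ E, e ∉ Subgroup.center G → χ e = 0) {k : ℕ} (hk : k.Coprime (Nat.card G)) (g : G) :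
    ∑ e : E, χ ((g * e * g⁻¹ * (e : G)⁻¹) ^ k) = ∑ e : E, χ (g * e * g⁻¹ * (e : G)⁻¹) := by
  have hkE : (Nat.card E).Coprime k := (hk.coprime_dvd_right E.card_subgroup_dvd_card).symm
  rw [← (powCoprime hkE).sum_comp (fun e : E => χ (g * e * g⁻¹ * (e : G)⁻¹))]
  refine Finset.sum_congr rfl fun e _ => ?_
  have hm : ∀ e ∈ E, g * e * g⁻¹ * e⁻¹ ∈ E := fun e he =>
    E.mul_mem (hE.conj_mem _ he g) (E.inv_mem he)
  change _ = χ (g * (e : G) ^ k * g⁻¹ * ((e : G) ^ k)⁻¹)
  by_cases h : g * e * g⁻¹ * (e : G)⁻¹ ∈ Subgroup.center G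
  · rw [comm_pow h]
  · rw [hv _ (E.pow_mem (hm _ e.2) k) (fun h' => h (mem_of_pow_mem hk h')),
      hv _ (hm _ (E.pow_mem e.2 k))]
    intro h'
    apply h
    obtain ⟨m, hm⟩ := exists_pow_eq_self_of_coprime (x := (e : G)) (n := k)
      (hk.coprime_dvd_right (orderOf_dvd_natCard _))
    have := comm_pow h' m
    rw [hm] at this
    rw [this]
    exact Subgroup.pow_mem _ h' m

theorem vanish {χ : G → ℂ} (hχ : IsIrrCharacter G χ) (hf : ∀ g, χ g = χ 1 → g = 1) {e f : G}
    (h : f * e * f⁻¹ * e⁻¹ ∈ Subgroup.center G) (hne : f * e ≠ e * f) : χ e = 0 := by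
  obtain ⟨ω, -, -, hω⟩ := H5.exists_apply_mul_eq_of_norm_eq (H5.isCharacter_of_isIrr hχ)
    (H5.norm_apply_of_mem_center hχ h)
  by_contra h0
  have h2 := hω e
  rw [inv_mul_cancel_right, H5.isClassFunction_of_isIrr hχ] at h2
  have h4 : ω = 1 := by
    have : (ω - 1) * χ e = 0 := by rw [sub_mul, ← h2]; ring
    exact sub_eq_zero.1 ((mul_eq_zero.1 this).resolve_right h0)
  have h5 := hω 1
  rw [mul_one, h4, one_mul] at h5
  apply hne
  have := hf _ h5
  calc f * e = (f * e * f⁻¹ * e⁻¹) * (e * f) := by group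
    _ = e * f := by rw [this, one_mul]

end

/-- Let G be a finite group with a faithful irreducible character χ (taking the value χ(1) only at the identity) and let k be prime to the order of G, so that g ↦ χ(g^k) is a Galois conjugate of χ. If the pointwise product g ↦ χ(g)·χ(g^k) is again an irreducible character, then the Fitting subgroup of G equals its centre. -/
theorem result {G : Type*} [Group G] [Finite G] (χ : Cfsg.IrrCharacter G) (hfaith : ∀ g : G, (χ : G → ℂ) g = (χ : G → ℂ) 1 → g = 1) (k : ℕ) (hk : Nat.Coprime k (Nat.card G)) (hirr : Cfsg.IsIrrCharacter G (fun g => (χ : G → ℂ) g * (χ : G → ℂ) (g ^ k))) : Cfsg.fittingSubgroup G = Subgroup.center G := by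
  classical
  have := Fintype.ofFinite G
  have hχ := χ.2
  obtain ⟨τ, hτ⟩ := H7.exists_ringEquiv_character_pow G hk
  have hψ := H7.isIrrCharacter_comp_pow hk hχ
  have hτχ := hτ _ (H5.isCharacter_of_isIrr hχ)
  have key := fun η hη => eq_one_of_common (η := η) hχ hψ hirr hη
  have hab : ∀ A : Subgroup G, A.Normal → (∀ a ∈ A, ∀ b ∈ A, a * b = b * a) →
      A ≤ Subgroup.center G := by
    intro A hA hAc
    have := Fintype.ofFinite A
    obtain ⟨θ, hθ, hne⟩ := H88.exists_irr_under' A hχ
    have := Fintype.ofFinite (H6.inertia A θ)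
    by_cases hT : H6.inertia A θ = ⊤
    · have h1 := H6.res_eq_smul_of_invariant A hχ hθ hne
        (fun g => (H6.mem_inertia A).1 (hT ▸ Subgroup.mem_top g))
      obtain ⟨lam, rfl⟩ := H5.exists_monoidHom_of_comm (H88.subgroup_comm hAc) hθ
      intro a ha
      apply H88.mem_center_of_norm_eq (H5.isCharacter_of_isIrr hχ) hfaith
      have h2 := congrFun h1 ⟨a, ha⟩
      have h3 := congrFun h1 1
      simp only [Pi.smul_apply, smul_eq_mul, OneMemClass.coe_one] at h2 h3
      rw [h2, h3, norm_mul, norm_mul, H5.norm_monoidHom, H5.norm_monoidHom]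
    · exfalso
      obtain ⟨φ, hφ, hind, -⟩ := H6.exists_clifford_correspondent A hθ _ rfl
        (H6.le_inertia A (H5.isClassFunction_of_isIrr hθ)) hχ hne
      have hind' : indFun (H6.inertia A θ) (fun h => τ (φ h)) = fun g => (χ : G → ℂ) (g ^ k) := by
        have := H6.indFun_map_ringHom (H6.inertia A θ) φ τ.toRingHom
        rw [hind] at this
        exact this.trans (funext hτχ)
      obtain ⟨η, hη, hη1, hη2⟩ := exists_nonprincipal
        (H6.isCharacter_indFun (H6.inertia A θ) H5.isCharacter_one)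
        (Or.inr (by
          rw [H6.classInner_indFun_left _ _ (H5.isClassFunction_of_isIrr H5.isIrrCharacter_one)]
          exact H5.classInner_irr_self H5.isIrrCharacter_one))
        (by rw [H6.indFun_apply_one, mul_one]; exact_mod_cast Subgroup.index_ne_zero_of_finite)
        (by rw [H6.indFun_apply_one, mul_one]; exact_mod_cast mt Subgroup.index_eq_one.1 hT)
      rw [H6.classInner_indFun_left _ _ (H5.isClassFunction_of_isIrr hη),
        H88.classInner_ne_zero_comm] at hη2
      apply hη1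
      apply key η hη
      · have := constituent_of_indFun _ hφ (hind ▸ hχ) hη hη2
        rwa [hind] at this
      · have := constituent_of_indFun _ (H7.isIrrCharacter_ringEquiv τ hφ) (hind' ▸ hψ) hη hη2
        rwa [hind'] at this
  have hZF : Subgroup.center G ≤ Cfsg.fittingSubgroup G :=
    H44.le_fitting inferInstance (by
      let _ : CommGroup (Subgroup.center G) := IsMulCommutative.instCommGroup
      exact CommGroup.isNilpotent)
  refine le_antisymm ?_ hZF
  by_contra hFZ
  have hFn : (Cfsg.fittingSubgroup G).Normal := by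
    have := H44.fitting_characteristic (G := G); infer_instance
  have hFnil := H44.fitting_isNilpotent (G := G)
  generalize Cfsg.fittingSubgroup G = F at *
  let π := QuotientGroup.mk' (Subgroup.center G)
  have hπ : ∀ x : G, π x = 1 ↔ x ∈ Subgroup.center G := fun x => QuotientGroup.eq_one_iff x
  have hFb : (F.map π).Normal := hFn.map π (QuotientGroup.mk'_surjective _)
  let E : Subgroup G := F ⊓ (Subgroup.centralizer (F.map π : Set (G ⧸ Subgroup.center G))).comap π
  have hEn : E.Normal := inferInstance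
  have hE : ∀ e ∈ E, ∀ f ∈ F, f * e * f⁻¹ * e⁻¹ ∈ Subgroup.center G := by
    intro e he f hf
    rw [← hπ]
    have := Subgroup.mem_centralizer_iff.1 he.2 (π f) (Subgroup.mem_map_of_mem π hf)
    simp only [map_mul, map_inv]
    rw [this]; group
  have hZE : Subgroup.center G ≤ E := fun z hz => ⟨hZF hz, by
    change π z ∈ Subgroup.centralizer _
    rw [(hπ z).2 hz]; exact Subgroup.one_mem _⟩
  have hEZ : ¬ E ≤ Subgroup.center G := by
    intro hle
    have hnil : Group.IsNilpotent (F.map π) :=
      Group.nilpotent_of_surjective (π.subgroupMap F) (π.subgroupMap_surjective F)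
    have hnt : Nontrivial (F.map π) := by
      rw [Subgroup.nontrivial_iff_ne_bot, Ne, Subgroup.map_eq_bot_iff, QuotientGroup.ker_mk']
      exact hFZ
    apply Group.IsNilpotent.center_ne_bot (F.map π)
    rw [eq_bot_iff]
    rintro ⟨_, x, hx, rfl⟩ hc
    rw [Subgroup.mem_bot]
    apply Subtype.ext
    change π x = 1
    rw [hπ]
    refine hle ⟨hx, ?_⟩
    change π x ∈ Subgroup.centralizer _
    rw [Subgroup.mem_centralizer_iff]
    intro y hy
    exact congrArg Subtype.val (Subgroup.mem_center_iff.1 hc ⟨y, hy⟩)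
  have hcent := hab (E ⊓ Subgroup.centralizer (E : Set G)) inferInstance
    (fun a ha b hb => Subgroup.mem_centralizer_iff.1 hb.2 a ha.1)
  have hv : ∀ e ∈ E, e ∉ Subgroup.center G → (χ : G → ℂ) e = 0 := by
    intro e he hne
    have : e ∉ Subgroup.centralizer (E : Set G) := fun h => hne (hcent ⟨he, h⟩)
    rw [Subgroup.mem_centralizer_iff] at this
    push Not at this
    obtain ⟨f, hf, hfe⟩ := this
    exact vanish hχ hfaith (hE e he f hf.1) hfe
  have hv' : ∀ e ∈ E, e ∉ Subgroup.center G → (χ : G → ℂ) (e ^ k) = 0 := fun e he hne =>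
    hv _ (E.pow_mem he k) fun h => hne (mem_of_pow_mem hk h)
  have := Fintype.ofFinite E
  obtain ⟨a1, a2⟩ := exists_theta hχ E hv hZE
  obtain ⟨b1, b2⟩ := exists_theta hψ E hv' hZE
  simp only [sum_pow_eq E hv hk, one_pow] at b1 b2
  have hd := H5.degree_ne_zero hχ
  have hZ0 : (Nat.card (Subgroup.center G) : ℂ) ≠ 0 := H5.natCard_ne_zero
  have hE0 : (Nat.card E : ℂ) ≠ 0 := H5.natCard_ne_zero
  have hdeg : ((Nat.card (Subgroup.center G) : ℂ) * (χ : G → ℂ) 1)⁻¹ *
        ∑ e : E, (χ : G → ℂ) (1 * e * 1⁻¹ * (e : G)⁻¹) =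
        (Nat.card E : ℂ) / Nat.card (Subgroup.center G) := by
    simp only [one_mul, inv_one, mul_one, mul_inv_cancel, Finset.sum_const, Finset.card_univ,
      nsmul_eq_mul, ← Nat.card_eq_fintype_card]
    field_simp
  obtain ⟨η, hη, hη1, hη2⟩ := exists_nonprincipal a1 (by
      obtain ⟨m, hm⟩ := H5.exists_nat_classInner a1 H5.isCharacter_one
      obtain ⟨n, hn⟩ := H5.exists_nat_classInner a2 H5.isCharacter_one
      rw [H5.classInner_sub_left, hm, classInner_mul_conj_one, H5.classInner_irr_self hχ] at hn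
      have : n + m = 1 := by exact_mod_cast (sub_eq_iff_eq_add.1 hn).symm
      rw [hm]
      rcases (by omega : m = 0 ∨ m = 1) with rfl | rfl <;> simp)
    (by rw [hdeg]; exact div_ne_zero hE0 hZ0)
    (by
      rw [hdeg, Ne, div_eq_one_iff_eq hZ0, Nat.cast_inj]
      intro h
      exact hEZ (Subgroup.eq_of_le_of_card_ge hZE h.le).ge)
  exact hη1 (key η hη (classInner_ne_zero_of_le a1 a2 (H5.isCharacter_of_isIrr hη) hη2)
    (classInner_ne_zero_of_le b1 b2 (H5.isCharacter_of_isIrr hη) hη2))

end Cfsg.Agent.S4843
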