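import Cfsg.Statements.S4845
import Cfsg.Agent.H88.CD
import Cfsg.Agent.H88.Deg4
import Cfsg.Agent.H6.FullyRam
import Cfsg.Agent.H69.UniqueP
import Cfsg.Agent.H33.Kernel
import Cfsg.Agent.H2.Basic

set_option autoImplicit false
open Cfsg

namespace Cfsg.Agent.S4845

open Cfsg.Agent
open scoped commutatorElement
set_option linter.unusedSectionVars false

section
variable {P : Type*} [Group P] [Finite P] {p : ℕ}

theorem zpowers_eq_of_card_prime (hp : p.Prime) (A : Subgroup P) (hA : Nat.card A = p) {x : P}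
    (hx : x ∈ A) (h1 : x ≠ 1) : Subgroup.zpowers x = A := by
  have hle : Subgroup.zpowers x ≤ A := by rwa [Subgroup.zpowers_le]
  apply Subgroup.eq_of_le_of_card_ge hle
  have h2 := Subgroup.card_dvd_of_le hle
  rw [hA] at h2 ⊢
  rcases (Nat.dvd_prime hp).1 h2 with h | h
  · exact absurd (Subgroup.zpowers_eq_bot.1 (Subgroup.card_eq_one.1 h)) h1
  · rw [h]

theorem commutator_le_center [hp : Fact p.Prime] (hP : IsPGroup p P)
    (hc : Nat.card (commutator P) = p) : commutator P ≤ Subgroup.center P := by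
  have hne : commutator P ≠ ⊥ := by
    intro h; rw [h, Subgroup.card_bot] at hc; exact hp.out.one_lt.ne hc
  obtain ⟨z, hz, hzc, ho⟩ := H3.exists_mem_center_orderOf_eq hP (commutator P) hne
  have hz1 : z ≠ 1 := by rintro rfl; rw [orderOf_one] at ho; exact hp.out.one_lt.ne ho
  rw [← zpowers_eq_of_card_prime hp.out _ hc hz hz1, Subgroup.zpowers_le]
  exact hzc

theorem eq_one_of_ker (hp : p.Prime) (hc : Nat.card (commutator P) = p) {χ : P → ℂ}
    (hχ : IsIrrCharacter P χ) (h1 : charDegree χ ≠ 1) {c : P} (hcm : c ∈ commutator P)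
    (h : χ c = χ 1) : c = 1 := by
  by_contra hne
  apply h1
  rw [← H88.commutator_le_charKer_iff hχ]
  have : commutator P ≤ H5.charKer (H5.isCharacter_of_isIrr hχ) := by
    rw [← zpowers_eq_of_card_prime hp _ hc hcm hne, Subgroup.zpowers_le]
    exact h
  exact fun g hg => this hg

theorem vanish [hp : Fact p.Prime] (hP : IsPGroup p P) (hc : Nat.card (commutator P) = p)
    {χ : P → ℂ} (hχ : IsIrrCharacter P χ) (h1 : charDegree χ ≠ 1) {g : P}
    (hg : g ∉ Subgroup.center P) : χ g = 0 := by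
  rw [Subgroup.mem_center_iff] at hg
  push Not at hg
  obtain ⟨h, hh⟩ := hg
  have hcm := H88.commutatorElement_mem_commutator' h g
  obtain ⟨ω, -, -, hω⟩ := H5.exists_apply_mul_eq_of_norm_eq (H5.isCharacter_of_isIrr hχ)
    (H5.norm_apply_of_mem_center hχ (commutator_le_center hP hc hcm))
  by_contra hne
  have h2 := hω g
  have h3 : ⁅h, g⁆ * g = h * g * h⁻¹ := by rw [commutatorElement_def]; group
  rw [h3, H5.isClassFunction_of_isIrr hχ] at h2
  have h4 : ω = 1 := by
    have : (ω - 1) * χ g = 0 := by rw [sub_mul, ← h2]; ring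
    rcases mul_eq_zero.1 this with h | h
    · exact sub_eq_zero.1 h
    · exact absurd h hne
  have h5 := hω 1
  rw [mul_one, h4, one_mul] at h5
  exact hh (commutatorElement_eq_one_iff_mul_comm.1 (eq_one_of_ker hp.out hc hχ h1 hcm h5))

theorem degree_sq [hp : Fact p.Prime] (hP : IsPGroup p P) (hc : Nat.card (commutator P) = p)
    {χ : P → ℂ} (hχ : IsIrrCharacter P χ) (h1 : charDegree χ ≠ 1) :
    charDegree χ ^ 2 = (Subgroup.center P).index :=
  H88.charDegree_sq_eq_index_of_vanish hχ _ (fun _ hz => H5.norm_apply_of_mem_center hχ hz)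
    (fun _ hg => vanish hP hc hχ h1 hg)

theorem pow_mem_center [hp : Fact p.Prime] (hP : IsPGroup p P) (hc : Nat.card (commutator P) = p)
    (g : P) : g ^ p ∈ Subgroup.center P := by
  rw [Subgroup.mem_center_iff]
  intro h
  have hcm := H88.commutatorElement_mem_commutator' g h
  have h1 := H88.conj_pow_of_central (commutator_le_center hP hc hcm) p
  have h2 : ⁅g, h⁆ ^ p = 1 := by
    have : (⟨_, hcm⟩ : commutator P) ^ Nat.card (commutator P) = 1 := pow_card_eq_one'
    rw [hc] at this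
    exact congrArg Subtype.val this
  rw [h2, one_mul] at h1
  calc h * g ^ p = g ^ p * h * (g ^ p)⁻¹ * g ^ p := by rw [h1]
    _ = _ := by group

theorem exists_centralHom {χ : P → ℂ} (hχ : IsIrrCharacter P χ) :
    ∃ μ : Subgroup.center P →* ℂˣ, ∀ z : Subgroup.center P, χ z = μ z * χ 1 := by
  obtain ⟨μ, hμ⟩ := H6.exists_lOver_of_norm_eq (j := (Subgroup.center P).subtype) hχ
    (fun a => H5.norm_apply_of_mem_center hχ a.2)
  exact ⟨μ, fun z => hμ.apply_j z⟩

theorem injective_centralHom {χ : P → ℂ} (hf : ∀ g, χ g = χ 1 → g = 1)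
    {μ : Subgroup.center P →* ℂˣ} (hμ : ∀ z : Subgroup.center P, χ z = μ z * χ 1) :
    Function.Injective μ := by
  rw [injective_iff_map_eq_one]
  intro z hz
  apply Subtype.ext
  apply hf
  rw [hμ z, hz]; simp

theorem apply_pow_eq_of_ker {χ : P → ℂ} (hχ : IsCharacter P χ) {g : P} (hg : χ g = χ 1) (k : ℕ) :
    χ (g ^ k) = χ 1 :=
  (H5.charKer hχ).pow_mem hg k

/-- The Galois-conjugacy hypothesis. -/
def Hyp (P : Type*) [Group P] : Prop :=
  ∀ χ ψ : P → ℂ, IsIrrCharacter P χ → IsIrrCharacter P ψ → charDegree χ ≠ 1 →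
    charDegree χ = charDegree ψ → ∃ k : ℕ, Nat.Coprime k (Nat.card P) ∧ ∀ g : P, ψ g = χ (g ^ k)

theorem Hyp.quotient (h : Hyp P) (N : Subgroup P) [N.Normal] : Hyp (P ⧸ N) := by
  intro χ ψ hχ hψ h1 h2
  obtain ⟨k, hk, hk'⟩ := h _ _ (H5.isIrrCharacter_inflate N hχ) (H5.isIrrCharacter_inflate N hψ)
    (by rwa [H88.charDegree_inflate]) (by rwa [H88.charDegree_inflate, H88.charDegree_inflate])
  refine ⟨k, hk.coprime_dvd_right (Subgroup.card_quotient_dvd_card N), fun g => ?_⟩
  obtain ⟨g, rfl⟩ := QuotientGroup.mk_surjective g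
  exact hk' g

theorem cyclic_of_hyp [hp : Fact p.Prime] (h : Hyp P)
    (hc : Nat.card (commutator P) = p) : IsCyclic (Subgroup.center P) := by
  have hne : commutator P ≠ ⊥ := by
    intro h; rw [h, Subgroup.card_bot] at hc; exact hp.out.one_lt.ne hc
  rw [Ne, H88.commutator_eq_bot_iff_comm] at hne
  push Not at hne
  obtain ⟨χ, hχ, h1⟩ := H88.exists_irr_charDegree_ne_one hne
  have hχ' := H5.isCharacter_of_isIrr hχ
  have hf : ∀ g, χ g = χ 1 → g = 1 := by
    intro g hg
    apply eq_one_of_ker hp.out hc hχ h1 _ hg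
    by_contra hgc
    have hq : Abelianization.of g ≠ 1 := fun h => hgc ((QuotientGroup.eq_one_iff g).1 h)
    obtain ⟨lam, hlam⟩ := CommGroup.exists_apply_ne_one_of_hasEnoughRootsOfUnity
      (Abelianization P) ℂ hq
    let μ : P →* ℂˣ := lam.comp Abelianization.of
    have hψ := H5.isIrrCharacter_monoidHom_mul hχ μ
    obtain ⟨k, -, hk⟩ := h _ _ hχ hψ h1 (H88.charDegree_congr (by simp))
    have h2 := hk g
    rw [apply_pow_eq_of_ker hχ' hg, hg] at h2
    apply hlam
    have h3 : (μ g : ℂ) = 1 := by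
      have := H5.degree_ne_zero hχ
      field_simp at h2
      exact h2
    exact Units.val_eq_one.1 h3
  obtain ⟨μ, hμ⟩ := exists_centralHom hχ
  exact isCyclic_of_injective_ringHom ((Units.coeHom ℂ).comp μ)
    (Units.val_injective.comp (injective_centralHom hf hμ))

theorem hyp_of_cyclic [hp : Fact p.Prime] (hP : IsPGroup p P)
    (hc : Nat.card (commutator P) = p) (hZ : IsCyclic (Subgroup.center P)) : Hyp P := by
  have hle := commutator_le_center hP hc
  have hf : ∀ χ : P → ℂ, IsIrrCharacter P χ → charDegree χ ≠ 1 → ∀ g, χ g = χ 1 → g = 1 := by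
    intro χ hχ h1 g hg
    by_contra hg1
    have hK : H5.charKer (H5.isCharacter_of_isIrr hχ) ≠ ⊥ := by
      intro hK
      have : g ∈ H5.charKer (H5.isCharacter_of_isIrr hχ) := hg
      rw [hK, Subgroup.mem_bot] at this
      exact hg1 this
    obtain ⟨z, hz, hzc, ho⟩ := H3.exists_mem_center_orderOf_eq hP _ hK
    have hz1 : z ≠ 1 := by rintro rfl; rw [orderOf_one] at ho; exact hp.out.one_lt.ne ho
    have hne : commutator P ≠ ⊥ := by
      intro h; rw [h, Subgroup.card_bot] at hc; exact hp.out.one_lt.ne hc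
    obtain ⟨c, hcm, hcc, hco⟩ := H3.exists_mem_center_orderOf_eq hP _ hne
    apply hz1
    apply eq_one_of_ker hp.out hc hχ h1 _ hz
    have := H69.mem_zpowers_of_isCyclic (T := Subgroup.center P) (x := ⟨c, hcc⟩) (y := ⟨z, hzc⟩)
      (by
        rw [Subgroup.orderOf_mk, hco]
        apply Subtype.ext
        change z ^ p = 1
        rw [← ho, pow_orderOf_eq_one])
    obtain ⟨k, hk⟩ := this
    have hk' : c ^ k = z := congrArg Subtype.val hk
    rw [← hk']
    exact (commutator P).zpow_mem hcm k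
  intro χ ψ hχ hψ h1 h2
  obtain ⟨μ, hμ⟩ := exists_centralHom hχ
  obtain ⟨ν, hν⟩ := exists_centralHom hψ
  have hμi := injective_centralHom (hf χ hχ h1) hμ
  have hνi := injective_centralHom (hf ψ hψ (h2 ▸ h1)) hν
  obtain ⟨z, hz⟩ := IsCyclic.exists_monoid_generator (α := Subgroup.center P)
  have ho : NeZero (orderOf z) := ⟨(orderOf_pos z).ne'⟩
  have hμz : IsPrimitiveRoot (μ z) (orderOf z) := by
    rw [← orderOf_injective μ hμi z]; exact IsPrimitiveRoot.orderOf _
  have hνz : IsPrimitiveRoot (ν z) (orderOf z) := by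
    rw [← orderOf_injective ν hνi z]; exact IsPrimitiveRoot.orderOf _
  obtain ⟨k, -, hk, hk'⟩ := hμz.isPrimitiveRoot_iff'.1 hνz
  have hpz : p ∣ orderOf z := by
    rw [orderOf_eq_card_of_forall_mem_powers hz, ← hc]
    exact Subgroup.card_dvd_of_le hle
  have hkP : k.Coprime (Nat.card P) := by
    obtain ⟨n, hn⟩ := IsPGroup.iff_card.1 hP
    rw [hn]
    exact (hk.coprime_dvd_right hpz).pow_right n
  have hdeg : χ 1 = ψ 1 := by
    rw [← H88.charDegree_cast (H5.isCharacter_of_isIrr hχ),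
      ← H88.charDegree_cast (H5.isCharacter_of_isIrr hψ), h2]
  refine ⟨k, hkP, fun g => ?_⟩
  by_cases hg : g ∈ Subgroup.center P
  · obtain ⟨m, hm⟩ := hz ⟨g, hg⟩
    have h3 := hν ⟨g, hg⟩
    have h4 := hμ (⟨g, hg⟩ ^ k)
    change ψ g = _ at h3
    change χ (g ^ k) = _ at h4
    rw [h3, h4, ← hm, hdeg]
    simp only [map_pow, ← hk', ← pow_mul, mul_comm]
  · rw [vanish hP hc hψ (h2 ▸ h1) hg, vanish hP hc hχ h1]
    intro hgk
    apply hg
    obtain ⟨m, hm⟩ := exists_pow_eq_self_of_coprime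
      (x := g) (n := k) (hkP.coprime_dvd_right (orderOf_dvd_natCard g))
    rw [← hm]
    exact Subgroup.pow_mem _ hgk m

theorem geom_lt {p : ℕ} (hp : 2 ≤ p) (a : ℕ) :
    p * ∑ j ∈ Finset.range a, (p ^ j) ^ 2 < (p ^ a) ^ 2 := by
  induction a with
  | zero => simp
  | succ a ih =>
    rw [Finset.sum_range_succ, mul_add, pow_succ p a, mul_pow]
    have h1 : 0 < (p ^ a) ^ 2 := by positivity
    have h2 : p + 1 ≤ p ^ 2 := by nlinarith
    nlinarith

theorem card_deg_le [Fintype (IrrCharacter P)] (h : Hyp P) {E : ℕ} (hE0 : E ≠ 0)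
    (hE : ∀ g : P, g ^ E = 1) (hcop : ∀ k : ℕ, k.Coprime (Nat.card P) → E.Coprime k)
    {f : ℕ} (hf : f ≠ 1) :
    (Finset.univ.filter (fun χ : IrrCharacter P => charDegree (χ : P → ℂ) = f)).card
      ≤ E.totient := by
  classical
  rcases (Finset.univ.filter (fun χ : IrrCharacter P => charDegree (χ : P → ℂ) = f)).eq_empty_or_nonempty
    with h0 | ⟨χ, hχ⟩
  · rw [h0]; simp
  · have hχ' := (Finset.mem_filter.1 hχ).2
    rw [Nat.totient_eq_card_coprime]
    have : ∀ ψ ∈ Finset.univ.filter (fun χ : IrrCharacter P => charDegree (χ : P → ℂ) = f),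
        ∃ k ∈ (Finset.range E).filter (fun a => E.Coprime a),
          (ψ : P → ℂ) = fun g => (χ : P → ℂ) (g ^ k) := by
      intro ψ hψ
      obtain ⟨k, hk, hk'⟩ := h _ _ χ.2 ψ.2 (hχ' ▸ hf) (hχ'.trans (Finset.mem_filter.1 hψ).2.symm)
      refine ⟨k % E, ?_, ?_⟩
      · simp only [Finset.mem_filter, Finset.mem_range]
        refine ⟨Nat.mod_lt _ (Nat.pos_of_ne_zero hE0), ?_⟩
        have := hcop k hk
        rw [Nat.Coprime, Nat.gcd_comm, ← Nat.gcd_rec]
        exact this
      · funext g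
        rw [hk' g, ← pow_eq_pow_mod _ (hE g)]
    choose! κ hκ hκ' using this
    refine Finset.card_le_card_of_injOn κ (fun ψ hψ => hκ ψ hψ) ?_
    intro a ha b hb hab
    apply Subtype.ext
    rw [hκ' a ha, hκ' b hb, hab]

end

theorem main (p : ℕ) [hp : Fact p.Prime] (n : ℕ) : ∀ (P : Type*) [Group P] [Finite P],
    Nat.card P = n → IsPGroup p P → commutator P ≠ ⊥ → Hyp P →
      IsCyclic (Subgroup.center P) ∧ Nat.card (commutator P) = p := by
  induction n using Nat.strong_induction_on with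
  | _ n ih =>
  intro P _ _ hn hP hne h
  classical
  by_cases hc : Nat.card (commutator P) = p
  · exact ⟨cyclic_of_hyp h hc, hc⟩
  exfalso
  obtain ⟨c, hcm, hcc, hco⟩ := H3.exists_mem_center_orderOf_eq hP _ hne
  have hc1 : c ≠ 1 := by rintro rfl; rw [orderOf_one] at hco; exact hp.out.one_lt.ne hco
  let N := Subgroup.zpowers c
  have hNZ : N ≤ Subgroup.center P := by rwa [Subgroup.zpowers_le]
  have hNc : N ≤ commutator P := by rwa [Subgroup.zpowers_le]
  have hNn : N.Normal := H88.normal_of_le_center hNZ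
  have hNcard : Nat.card N = p := by rw [Nat.card_zpowers, hco]
  have hN1 : N ≠ ⊥ := fun h => hc1 (Subgroup.zpowers_eq_bot.1 h)
  have hQ : IsPGroup p (P ⧸ N) := hP.to_quotient N
  have hQne : commutator (P ⧸ N) ≠ ⊥ := by
    rw [← H88.map_commutator_of_surjective (QuotientGroup.mk' N) (QuotientGroup.mk'_surjective N),
      Ne, Subgroup.map_eq_bot_iff, QuotientGroup.ker_mk']
    intro hle
    exact hc (by rw [le_antisymm hle hNc, hNcard])
  obtain ⟨hQZ, hQc⟩ := ih _ (hn ▸ H2.card_quotient_lt N hN1) (P ⧸ N) rfl hQ hQne (h.quotient N)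
  have hQne' := hQne
  rw [Ne, H88.commutator_eq_bot_iff_comm] at hQne'
  push Not at hQne'
  obtain ⟨φ, hφ, hφ1⟩ := H88.exists_irr_charDegree_ne_one hQne'
  obtain ⟨a, ha⟩ := H88.exists_charDegree_eq_pow hQ hφ
  have hd := degree_sq hQ hQc hφ hφ1
  rw [ha] at hd
  let Z₁ := (Subgroup.center (P ⧸ N)).comap (QuotientGroup.mk' N)
  have hZ₁i : Z₁.index = (p ^ a) ^ 2 := by
    rw [hd]; exact Subgroup.index_comap_of_surjective _ (QuotientGroup.mk'_surjective N)
  have hZZ : Subgroup.center P ≤ Z₁ := by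
    intro z hz
    change (z : P ⧸ N) ∈ Subgroup.center (P ⧸ N)
    rw [Subgroup.mem_center_iff]
    intro g
    obtain ⟨g, rfl⟩ := QuotientGroup.mk_surjective g
    rw [← QuotientGroup.mk_mul, ← QuotientGroup.mk_mul, Subgroup.mem_center_iff.1 hz g]
  -- |Z₁| ≤ p |Z|
  have hs : Nat.card Z₁ ≤ p * Nat.card (Subgroup.center P) := by
    obtain ⟨zb, hzb⟩ := IsCyclic.exists_generator (α := Subgroup.center (P ⧸ N))
    obtain ⟨z, hz⟩ := QuotientGroup.mk_surjective (zb : P ⧸ N)
    have hzp : z ^ p ∈ Subgroup.center P := by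
      rw [Subgroup.mem_center_iff]
      intro g
      have hm : ⁅z, g⁆ ∈ N := by
        rw [← QuotientGroup.eq_one_iff]
        change QuotientGroup.mk' N ⁅z, g⁆ = 1
        rw [map_commutatorElement, commutatorElement_eq_one_iff_mul_comm]
        change (z : P ⧸ N) * g = g * z
        rw [hz]
        exact (Subgroup.mem_center_iff.1 zb.2 _).symm
      have h1 := H88.conj_pow_of_central (hNZ hm) p
      have h2 : ⁅z, g⁆ ^ p = 1 := by
        have : (⟨_, hm⟩ : N) ^ Nat.card N = 1 := pow_card_eq_one'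
        rw [hNcard] at this
        exact congrArg Subtype.val this
      rw [h2, one_mul] at h1
      calc g * z ^ p = z ^ p * g * (z ^ p)⁻¹ * z ^ p := by rw [h1]
        _ = _ := by group
    have hzZ : z ∈ Z₁ := by
      change (z : P ⧸ N) ∈ Subgroup.center (P ⧸ N)
      rw [hz]; exact zb.2
    have hcard : Nat.card (Fin p × Subgroup.center P) = p * Nat.card (Subgroup.center P) := by
      rw [Nat.card_prod, Nat.card_eq_fintype_card, Fintype.card_fin]
    rw [← hcard]
    refine Nat.card_le_card_of_surjective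
      (fun x : Fin p × Subgroup.center P =>
        (⟨z ^ (x.1 : ℕ) * x.2, Z₁.mul_mem (Z₁.pow_mem hzZ _) (hZZ x.2.2)⟩ : Z₁)) ?_
    rintro ⟨y, hy⟩
    obtain ⟨m, hm⟩ := (mem_powers_iff_mem_zpowers).2 (hzb ⟨(y : P ⧸ N), hy⟩)
    have hm' : ((z ^ m : P) : P ⧸ N) = y := by
      rw [QuotientGroup.mk_pow, hz]; exact congrArg Subtype.val hm
    rw [QuotientGroup.eq] at hm'
    refine ⟨⟨⟨m % p, Nat.mod_lt _ hp.out.pos⟩, ⟨(z ^ p) ^ (m / p) * ((z ^ m)⁻¹ * y),
      Subgroup.mul_mem _ (Subgroup.pow_mem _ hzp _) (hNZ hm')⟩⟩, Subtype.ext ?_⟩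
    change z ^ (m % p) * ((z ^ p) ^ (m / p) * ((z ^ m)⁻¹ * y)) = y
    rw [← mul_assoc, ← pow_mul, ← pow_add, Nat.mod_add_div]
    group
  have hZi : (Subgroup.center P).index ≤ p * (p ^ a) ^ 2 := by
    have h1 := (Subgroup.center P).card_mul_index
    have h2 := Z₁.card_mul_index
    rw [hZ₁i] at h2
    have h3 : 0 < Nat.card (Subgroup.center P) := Nat.card_pos
    apply Nat.le_of_mul_le_mul_left _ h3
    rw [h1, ← h2]
    nlinarith [Nat.zero_le ((p ^ a) ^ 2)]
  obtain ⟨b, hb⟩ := IsPGroup.iff_card.1 (hP.to_subgroup Z₁)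
  have hE : ∀ g : P, g ^ p ^ (b + 1) = 1 := by
    intro g
    have h1 : g ^ p ∈ Z₁ := by
      change ((g ^ p : P) : P ⧸ N) ∈ Subgroup.center (P ⧸ N)
      rw [QuotientGroup.mk_pow]
      exact pow_mem_center hQ hQc _
    have : (⟨_, h1⟩ : Z₁) ^ Nat.card Z₁ = 1 := pow_card_eq_one'
    rw [hb] at this
    rw [pow_succ', pow_mul]
    exact congrArg Subtype.val this
  have hpP : p ∣ Nat.card P := hco ▸ orderOf_dvd_natCard c
  have := Fintype.ofFinite (IrrCharacter P)
  have hcnt : ∀ j, j ≠ 0 → (Finset.univ.filter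
      (fun χ : IrrCharacter P => charDegree (χ : P → ℂ) = p ^ j)).card ≤ p ^ b * (p - 1) := by
    intro j hj
    rw [← Nat.totient_prime_pow_succ hp.out]
    apply card_deg_le h (pow_ne_zero _ hp.out.ne_zero) hE
    · intro k hk
      exact ((hk.coprime_dvd_right hpP).symm).pow_left _
    · exact (Nat.one_lt_pow hj hp.out.one_lt).ne'
  let S := Finset.univ.filter
    (fun χ : IrrCharacter P => ¬ ∀ n ∈ N, (χ : P → ℂ) n = (χ : P → ℂ) 1)
  have hS : ∑ χ ∈ S, charDegree (χ : P → ℂ) ^ 2 + N.index = Nat.card P := by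
    have h1 := H33.sum_degree_sq_of_le_ker N
    have h2 := H5.sum_degree_sq (G := P)
    rw [← Finset.sum_filter_add_sum_filter_not Finset.univ
      (fun χ : IrrCharacter P => ∀ n ∈ N, (χ : P → ℂ) n = (χ : P → ℂ) 1)] at h2
    have h3 : ((∑ χ ∈ S, charDegree (χ : P → ℂ) ^ 2 + N.index : ℕ) : ℂ) = Nat.card P := by
      rw [← h2, add_comm]
      push_cast
      congr 1
      · convert h1.symm
      · exact Finset.sum_congr rfl fun χ _ => by rw [H88.irr_charDegree_cast]
    exact_mod_cast h3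
  have hdeg : ∀ χ ∈ S, ∃ j, j ≠ 0 ∧ j < a ∧ charDegree (χ : P → ℂ) = p ^ j := by
    intro χ hχ
    have hχ' := (Finset.mem_filter.1 hχ).2
    obtain ⟨j, hj⟩ := H88.exists_charDegree_eq_pow hP χ.2
    refine ⟨j, ?_, ?_, hj⟩
    · rintro rfl
      apply hχ'
      intro n hn
      exact (H88.commutator_le_charKer_iff χ.2).2 (by simpa using hj) n (hNc hn)
    · have h1 := (H88.charDegree_sq_le_index_center χ.2).trans hZi
      rw [hj, ← pow_mul, ← pow_mul, ← pow_succ'] at h1
      have h2 := (Nat.pow_le_pow_iff_right hp.out.one_lt).1 h1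
      have h3 : j ≠ a := by
        rintro rfl
        apply hχ'
        have hφ' := H5.isIrrCharacter_inflate N hφ
        obtain ⟨k, -, hk⟩ := h _ _ hφ' χ.2 (by rwa [H88.charDegree_inflate])
          (by rw [H88.charDegree_inflate, ha, hj])
        intro n hn
        rw [hk n, hk 1, one_pow, (QuotientGroup.eq_one_iff _).2 (N.pow_mem hn k)]
        rfl
      omega
  have hbound : ∑ χ ∈ S, charDegree (χ : P → ℂ) ^ 2
      ≤ p ^ b * (p - 1) * ∑ j ∈ Finset.range a, (p ^ j) ^ 2 := by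
    have hsub : S ⊆ ((Finset.range a).erase 0).biUnion (fun j => Finset.univ.filter
        (fun χ : IrrCharacter P => charDegree (χ : P → ℂ) = p ^ j)) := by
      intro χ hχ
      obtain ⟨j, h1, h2, h3⟩ := hdeg χ hχ
      simp only [Finset.mem_biUnion, Finset.mem_erase, Finset.mem_range, Finset.mem_filter,
        Finset.mem_univ, true_and]
      exact ⟨j, ⟨h1, h2⟩, h3⟩
    refine (Finset.sum_le_sum_of_subset hsub).trans ?_
    rw [Finset.sum_biUnion]
    · rw [Finset.mul_sum]
      refine le_trans ?_ (Finset.sum_le_sum_of_subset (Finset.erase_subset 0 _))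
      refine Finset.sum_le_sum fun j hj => ?_
      rw [Finset.sum_congr rfl (g := fun _ => (p ^ j) ^ 2)
        (fun χ hχ => by rw [(Finset.mem_filter.1 hχ).2]), Finset.sum_const, smul_eq_mul]
      exact Nat.mul_le_mul_right _ (hcnt j (Finset.mem_erase.1 hj).1)
    · intro i _ j _ hij
      rw [Function.onFun, Finset.disjoint_left]
      intro χ h1 h2
      apply hij
      exact Nat.pow_right_injective hp.out.two_le
        ((Finset.mem_filter.1 h1).2.symm.trans (Finset.mem_filter.1 h2).2)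
  have h1 := geom_lt hp.out.two_le a
  have h2 := Z₁.card_mul_index
  rw [hZ₁i, hb] at h2
  have h3 := N.card_mul_index
  rw [hNcard] at h3
  obtain ⟨q, rfl⟩ : ∃ q, p = q + 1 := ⟨p - 1, (Nat.sub_add_cancel hp.out.pos).symm⟩
  have hq : 0 < q := by have := hp.out.two_le; omega
  simp only [Nat.add_sub_cancel] at hbound
  generalize ∑ j ∈ Finset.range a, ((q + 1) ^ j) ^ 2 = T at *
  generalize ∑ χ ∈ S, charDegree (χ : P → ℂ) ^ 2 = U at *
  have hB : 0 < (q + 1) ^ b := by positivity
  generalize (q + 1) ^ b = B at *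
  generalize ((q + 1) ^ a) ^ 2 = D at *
  have h4 : U = q * N.index := by nlinarith
  have h5 : (q + 1) * U = q * (B * D) := by rw [h4, h2, ← h3]; ring
  have h6 : (q + 1) * U ≤ (q + 1) * (B * q * T) := Nat.mul_le_mul_left _ hbound
  have h7 : q * B * ((q + 1) * T) < q * B * D := Nat.mul_lt_mul_of_pos_left h1 (by positivity)
  nlinarith

/-- Let p be a prime and P a finite non-commutative p-group. Then every two irreducible characters of P of the same degree greater than 1 are Galois conjugate (one is obtained from the other by composing with g ↦ g^k for some k prime to the order of P) if and only if the centre of P is cyclic and the derived subgroup of P has order p. -/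
theorem result {P : Type*} [Group P] [Finite P] (p : ℕ) [Fact p.Prime] (hP : IsPGroup p P) (hna : ¬ IsMulCommutative P) :
    (∀ χ ψ : Cfsg.IrrCharacter P, Cfsg.charDegree (χ : P → ℂ) ≠ 1 → Cfsg.charDegree (χ : P → ℂ) = Cfsg.charDegree (ψ : P → ℂ) → ∃ k : ℕ, Nat.Coprime k (Nat.card P) ∧ ∀ g : P, (ψ : P → ℂ) g = (χ : P → ℂ) (g ^ k)) ↔
      (IsCyclic (Subgroup.center P) ∧ Nat.card (commutator P) = p) := by
  have hne : commutator P ≠ ⊥ := by
    rw [Ne, H88.commutator_eq_bot_iff_comm]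
    exact fun h => hna ⟨⟨h⟩⟩
  constructor
  · intro h
    exact main p _ P rfl hP hne (fun χ ψ hχ hψ => h ⟨χ, hχ⟩ ⟨ψ, hψ⟩)
  · rintro ⟨h1, h2⟩ χ ψ
    exact hyp_of_cyclic hP h2 h1 χ ψ χ.2 ψ.2

end Cfsg.Agent.S4845
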