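import Cfsg.Statements.S4847
import Cfsg.Agent.H97.Pal6
import Cfsg.Agent.H1.NilComm
import Cfsg.Agent.H2.MinNormal

set_option autoImplicit false
open Cfsg

namespace Cfsg.Agent.S4847

open Subgroup Cfsg.Agent.H97.Pal

universe u

theorem step {G : Type u} [Group G] [Finite G] [Group.IsSolvable G] {l p q r : ℕ} [Fact l.Prime] [Fact p.Prime]
    [Fact q.Prime] [Fact r.Prime] {M : Subgroup G} [M.Normal] (h0 : M ≠ ⊥) (ab : Ab M) (pl : IsPGroup l M)
    (min : ∀ L : Subgroup G, L.Normal → L ≤ M → L = ⊥ ∨ L = M) (hpq : p ≠ q) (hpr : p ≠ r) (hqr : q ≠ r)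
    (dp : Dv G p) (dq : Dv G q) (dr : Dv G r) (nq : ¬ Dv G (p * q)) (nr : ¬ Dv G (p * r)) (h : ¬ Dv (G ⧸ M) p) :
    Dv G (q * r) := by
  have h3 : ∀ χ : G ⧸ M → ℂ, IsIrrCharacter _ χ → ¬ p ∣ charDegree χ := fun χ a b => h ⟨χ, a, b⟩
  have h4 := H88.sylow_normal_of_not_dvd H22.isPSolvable_of_isSolvable h3
  by_cases nP : ∀ P : Sylow p G, ¬ (P : Subgroup G).Normal
  · exact caseA h0 ab pl min hpq hpr hqr dq dr nq nr (fun P => H88.sylow_normal_of_quotient P M (h4 _)) nP
  push Not at nP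
  obtain ⟨P, hP⟩ := nP
  have h5 : ⁅(P : Subgroup G), (P : Subgroup G)⁆ ≤ M := commutator_le.2 fun a ha b hb => by
    have := h4 (P.mapSurjective (QuotientGroup.mk'_surjective M))
    exact (QuotientGroup.eq_one_iff _).1 (commutatorElement_eq_one_iff_mul_comm.2
      (H88.comm_of_normal_of_not_dvd (P.mapSurjective (QuotientGroup.mk'_surjective M)).isPGroup' h3 _
        (mem_map_of_mem _ ha) _ (mem_map_of_mem _ hb)))
  have hM := (min _ inferInstance h5).resolve_left fun e => P.not_dvd_index (dp.index P fun a ha b hb =>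
    (commutator_eq_bot_iff_le_centralizer.1 e ha b hb).symm)
  have hle : M ≤ P := hM ▸ commutator_le_left _ _
  have h6 := H1.commutator_lt_of_pgroup (P.isPGroup'.to_le hle) P.isPGroup' le_normalizer_of_normal h0
  have h7 := commutator_eq_bot_iff_le_centralizer.1 ((min _ inferInstance h6.le).resolve_right h6.ne)
  obtain ⟨H, hH⟩ := exists_left_complement'_of_coprime (N := (P : Subgroup G)) (by simpa using P.card_coprime_index)
  obtain ⟨ρ, c⟩ := exists_cp hH
  exact CB.main ⟨c, P.isPGroup', P.not_dvd_index, hH.symm.index_eq_card, hH.index_eq_card, hM,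
    fun x hx m hm => h7 hm x hx, h0⟩ hpq hpr hqr nq nr dq dr

theorem main {p q r : ℕ} [hp : Fact p.Prime] [Fact q.Prime] [Fact r.Prime] (hpq : p ≠ q) (hqr : q ≠ r) (hpr : p ≠ r)
    (n : ℕ) : ∀ (G : Type u) [Group G] [Finite G] [Group.IsSolvable G], Nat.card G = n → Dv G p → Dv G q → Dv G r →
      Dv G (p * q) ∨ Dv G (q * r) ∨ Dv G (p * r) := by
  induction n using Nat.strong_induction_on with | _ n ih => ?_
  intro G _ _ _ hn dp dq dr
  by_contra e
  push Not at e
  obtain ⟨e1, e2, e3⟩ := e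
  rcases subsingleton_or_nontrivial G with hG | hG
  · have := dp.index ⊤ fun a _ b _ => Subsingleton.elim _ _
    rw [index_top] at this
    exact hp.out.not_dvd_one this
  obtain ⟨M, l, hl, hM, h0, hc, pl, -, min⟩ := H2.exists_minimal_normal_of_solvable (G := G)
  have := Fact.mk hl
  have ab : Ab M := fun a ha b hb => congrArg Subtype.val (hc.is_comm.comm ⟨a, ha⟩ ⟨b, hb⟩)
  have s := QuotientGroup.mk'_surjective M
  refine (ih _ ?_ (G ⧸ M) rfl (by_contra fun h => e2 (step h0 ab pl min hpq hpr hqr dp dq dr e1 e3 h))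
    (by_contra fun h => e3 (step h0 ab pl min hpq.symm hqr hpr dq dp dr (mul_comm p q ▸ e1) e2 h))
    (by_contra fun h => e1 (step h0 ab pl min hpr.symm hqr.symm hpq dr dp dq (mul_comm p r ▸ e3)
      (mul_comm q r ▸ e2) h))).elim (fun h => e1 (h.of_surj _ s))
    fun h => h.elim (fun h => e2 (h.of_surj _ s)) fun h => e3 (h.of_surj _ s)
  rw [← hn, card_eq_card_quotient_mul_card_subgroup M]
  exact lt_mul_of_one_lt_right Nat.card_pos ((one_lt_card_iff_ne_bot M).mpr h0)

/-- Let G be a finite solvable group and p, q, r three distinct primes each dividing the degree of some irreducible character of G. Then for some two of them the product divides the degree of some irreducible character of G (the character degree graph of a solvable group has no three pairwise non-adjacent vertices). -/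
theorem result {G : Type*} [Group G] [Finite G] [hs : Group.IsSolvable G] (p q r : ℕ) (hp : p.Prime) (hq : q.Prime) (hr : r.Prime) (hpq : p ≠ q) (hqr : q ≠ r) (hpr : p ≠ r)
    (hpd : ∃ χ : Cfsg.IrrCharacter G, p ∣ Cfsg.charDegree (χ : G → ℂ)) (hqd : ∃ χ : Cfsg.IrrCharacter G, q ∣ Cfsg.charDegree (χ : G → ℂ)) (hrd : ∃ χ : Cfsg.IrrCharacter G, r ∣ Cfsg.charDegree (χ : G → ℂ)) :
    (∃ χ : Cfsg.IrrCharacter G, p * q ∣ Cfsg.charDegree (χ : G → ℂ)) ∨ (∃ χ : Cfsg.IrrCharacter G, q * r ∣ Cfsg.charDegree (χ : G → ℂ)) ∨ (∃ χ : Cfsg.IrrCharacter G, p * r ∣ Cfsg.charDegree (χ : G → ℂ)) := by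
  have := Fact.mk hp
  have := Fact.mk hq
  have := Fact.mk hr
  have e : ∀ n, (∃ χ : Cfsg.IrrCharacter G, n ∣ Cfsg.charDegree (χ : G → ℂ)) ↔ Dv G n := fun n =>
    ⟨fun ⟨χ, h⟩ => ⟨χ, χ.2, h⟩, fun ⟨χ, h1, h2⟩ => ⟨⟨χ, h1⟩, h2⟩⟩
  simp only [e] at hpd hqd hrd ⊢
  exact main hpq hqr hpr _ G rfl hpd hqd hrd

end Cfsg.Agent.S4847
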