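import Cfsg.Statements.S4856
import Cfsg.Agent.H88.Count

set_option autoImplicit false
open Cfsg

namespace Cfsg.Agent.S4856

open Cfsg.Agent.H5 Cfsg.Agent.H88

/-- For an element z of a finite group G, the number of pairs (x, y) of elements with x y x⁻¹ y⁻¹ = z equals the order of G times the sum over the irreducible characters χ of χ(z)/χ(1). -/
theorem result {G : Type*} [Group G] [Finite G] (z : G) : (Nat.card {xy : G × G // xy.1 * xy.2 * xy.1⁻¹ * xy.2⁻¹ = z} : ℂ) = (Nat.card G : ℂ) * ∑ᶠ χ : Cfsg.IrrCharacter G, (χ : G → ℂ) z / (χ : G → ℂ) 1 := by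
  classical
  have := Fintype.ofFinite G
  have h1 := card_mul_card_eq_one (fun p : G × G => z * (p.2 * p.1 * p.2⁻¹ * p.1⁻¹))
  have h2 : Nat.card {p : G × G // z * (p.2 * p.1 * p.2⁻¹ * p.1⁻¹) = 1} =
      Nat.card {xy : G × G // xy.1 * xy.2 * xy.1⁻¹ * xy.2⁻¹ = z} := by
    refine Nat.card_congr (Equiv.subtypeEquivRight fun p => ?_)
    rw [mul_eq_one_iff_eq_inv, eq_comm]
    simp [mul_assoc]
  rw [h2] at h1
  apply mul_left_cancel₀ (natCard_ne_zero (G := G))
  rw [h1, finsum_eq_sum_of_fintype, Finset.mul_sum, Finset.mul_sum]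
  refine Finset.sum_congr rfl fun χ _ => ?_
  rw [Fintype.sum_prod_type, Finset.sum_comm, sum_irr_mul_commutator χ.2]
  have h0 := degree_ne_zero χ.2
  field_simp

end Cfsg.Agent.S4856
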