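import Cfsg.Statements.S4862
import Cfsg.Agent.H89.Real3

set_option autoImplicit false
open Cfsg

namespace Cfsg.Agent.S4862

set_option linter.style.haveILetI false
set_option linter.unusedVariables false
open Cfsg.Agent.H5 Cfsg.Agent.H89 Subgroup

/-- Let p be an odd prime and G a finite group such that the subgroup generated by the p-elements of G is solvable and every real-valued irreducible complex character of G has degree prime to p. Let K be the subgroup generated by the 2-elements of G and P a Sylow p-subgroup of G. Then every normal subgroup M of G contained in K and in the derived subgroup of P is centralized by K. -/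
theorem result {G : Type*} [Group G] [Finite G] (p : ℕ) [Fact p.Prime] (hp : p ≠ 2) (hsolv : Group.IsSolvable ↥(Subgroup.closure {g : G | ∃ k : ℕ, orderOf g = p ^ k})) (hreal : ∀ χ : Cfsg.IrrCharacter G, (∀ g : G, ((χ : G → ℂ) g).im = 0) → ¬ p ∣ Cfsg.charDegree (χ : G → ℂ)) (P : Sylow p G) (M : Subgroup G) (hM : M.Normal) (hMK : M ≤ (Subgroup.closure {g : G | ∃ k : ℕ, orderOf g = 2 ^ k})) (hMP : M ≤ ⁅(P : Subgroup G), (P : Subgroup G)⁆) : (Subgroup.closure {g : G | ∃ k : ℕ, orderOf g = 2 ^ k}) ≤ Subgroup.centralizer (M : Set G) := by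
  letI : Fintype G := Fintype.ofFinite _
  refine (closure_le _).2 fun t ⟨k, hk⟩ => by_contra fun ht => ?_
  obtain ⟨x, hx, hx1, g, hg⟩ := exists_inverted M (k := k) (by rw [← hk, pow_orderOf_eq_one]) ht
  obtain ⟨θ, hθ1, hθ⟩ := exists_irr_conj_normal M hx hx1 hg
  obtain ⟨S⟩ : Nonempty (Sylow 2 G) := inferInstance
  have hMP' : M ≤ P := hMP.trans (commutator_le.2 fun a ha b hb =>
    mul_mem (mul_mem (mul_mem ha hb) (inv_mem ha)) (inv_mem hb))
  have hMp : IsPGroup p M := P.2.to_le hMP'
  have hMS : M ⊓ S = ⊥ := (IsPGroup.disjoint_of_ne p 2 hp M S hMp S.2).eq_bot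
  obtain ⟨a, ha⟩ := IsPGroup.iff_card.1 hMp
  obtain ⟨χ, h1, -, h2, -⟩ := exists_real_over_of_disjoint M S hMS hθ
    (m := (M ⊔ S).index * charDegree θ.1) (Nat.odd_mul.2 ⟨(Nat.not_even_iff_odd.1 fun h =>
      S.not_dvd_index (h.two_dvd.trans (index_dvd_of_le le_sup_right))),
      (((Fact.out : p.Prime).odd_of_ne_two hp).pow (n := a)).of_dvd_nat
        (ha ▸ H32.charDegree_dvd_card θ)⟩) (by rw [index_eq_card_mul M S hMS, mul_assoc])
  obtain ⟨lam, h3⟩ := exists_linear_under P.2 (P : Subgroup G).subtype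
    (hreal χ ((H88.conjIrr_eq_iff χ).1 h1))
  have h4 : mlt (inclusion hMP') (fun x => (lam x : ℂ)) (H88.trivIrr M).1 = 1 :=
    mlt_eq_one_of_res _ fun y => by
      have := hMP y.2
      rw [← map_subtype_commutator] at this
      obtain ⟨z, hz, e⟩ := this
      rw [show inclusion hMP' y = z from Subtype.ext e.symm,
        show lam z = 1 from Abelianization.commutator_subset_ker lam hz]
      rfl
  have h5 := mlt_comp_ne_zero (P : Subgroup G).subtype (inclusion hMP')
    (ξ := ⟨_, isIrrCharacter_monoidHom lam⟩) h3 (h4.trans_ne one_ne_zero)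
  rw [subtype_comp_inclusion] at h5
  exact hθ1 (eq_trivIrr_of_mlt M h2.pos.ne' h5)

end Cfsg.Agent.S4862
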