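import Cfsg.Statements.S4864
import Cfsg.Agent.H89.Real4

set_option autoImplicit false
open Cfsg

namespace Cfsg.Agent.S4864

set_option linter.style.haveILetI false
open Cfsg.Agent.H5 Cfsg.Agent.H89 Subgroup

/-- Let p be a prime and G a finite group such that the subgroup generated by the p-elements of G is solvable and every real-valued irreducible complex character of G has degree prime to p. Then the normalizer of a Sylow p-subgroup of G contains an element of every real conjugacy class of G: every element conjugate to its inverse is conjugate to an element of that normalizer. -/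
theorem result {G : Type*} [Group G] [Finite G] (p : ℕ) [Fact p.Prime] (hsolv : Group.IsSolvable ↥(Subgroup.closure {g : G | ∃ k : ℕ, orderOf g = p ^ k})) (hreal : ∀ χ : Cfsg.IrrCharacter G, (∀ g : G, ((χ : G → ℂ) g).im = 0) → ¬ p ∣ Cfsg.charDegree (χ : G → ℂ)) (P : Sylow p G) (x : G) (hx : IsConj x x⁻¹) : ∃ y ∈ Subgroup.normalizer ((P : Subgroup G) : Set G), IsConj x y := by
  haveI hK := closure_orderOf_normal (G := G) 2
  obtain ⟨W, h1, h2, h3, h4⟩ := exists_normal_pgroup_of_real hsolv hreal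
    (closure {g : G | ∃ k : ℕ, orderOf g = 2 ^ k}) fun u hu _ => hu
  have ho := odd_index_closure_two (G := G)
  set K := closure {g : G | ∃ k : ℕ, orderOf g = 2 ^ k}
  let π := QuotientGroup.mk' W
  have hπ : Function.Surjective π := QuotientGroup.mk'_surjective W
  have hWP : W ≤ P := h3.le_sylow_of_normal P
  haveI := hK.map π hπ
  obtain ⟨y, hy, h⟩ := exists_conj_mem_normalizer_of_real (K.map π)
    (ho.of_dvd_nat (index_map_dvd K hπ)) (P.mapSurjective hπ) (eq_bot_iff.2 (by
      rintro _ ⟨⟨u, hu, rfl⟩, v, hv, e⟩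
      obtain ⟨w, hw, rfl⟩ := (QuotientGroup.mk'_eq_mk' W).1 e
      obtain ⟨k, hk⟩ := P.2 ⟨v * w, mul_mem hv (hWP hw)⟩
      exact (QuotientGroup.eq_one_iff _).2 (h4 _ hu k (congrArg Subtype.val hk))))
    (real_quotient W hreal) (x := π x) (by rw [← map_inv]; exact π.map_isConj hx)
  obtain ⟨c, rfl⟩ := isConj_iff.1 h
  obtain ⟨c, rfl⟩ := hπ c
  refine ⟨c * x * c⁻¹, mem_normalizer_fintype fun s hs => ?_, isConj_iff.2 ⟨c, rfl⟩⟩
  obtain ⟨v, hv, e⟩ := (mem_normalizer_iff.1 hy (π s)).1 ⟨s, hs, rfl⟩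
  simp only [← map_inv, ← map_mul] at e
  obtain ⟨w, hw, e'⟩ := (QuotientGroup.mk'_eq_mk' W).1 e
  exact e' ▸ mul_mem hv (hWP hw)

end Cfsg.Agent.S4864
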