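import Cfsg.Statements.S4865
import Cfsg.Agent.H89.Real4

set_option autoImplicit false
open Cfsg

namespace Cfsg.Agent.S4865

set_option linter.style.haveILetI false
open Cfsg.Agent.H5 Cfsg.Agent.H89 Subgroup

/-- Let p be a prime and G a finite group such that the subgroup generated by the p-elements of G is solvable and every real-valued irreducible complex character of G has degree prime to p. Let N be the normalizer of a Sylow p-subgroup of G. Then there is a bijection from the real-valued irreducible characters of G onto the real-valued irreducible characters of N of degree prime to p under which corresponding degrees are congruent modulo p up to sign. -/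
theorem result {G : Type*} [Group G] [Finite G] (p : ℕ) [Fact p.Prime] (hsolv : Group.IsSolvable ↥(Subgroup.closure {g : G | ∃ k : ℕ, orderOf g = p ^ k})) (hreal : ∀ χ : Cfsg.IrrCharacter G, (∀ g : G, ((χ : G → ℂ) g).im = 0) → ¬ p ∣ Cfsg.charDegree (χ : G → ℂ)) (P : Sylow p G) : ∃ f : {χ : Cfsg.IrrCharacter G // ∀ g : G, ((χ : G → ℂ) g).im = 0} → {ξ : Cfsg.IrrCharacter ↥(Subgroup.normalizer ((P : Subgroup G) : Set G)) // (∀ n, ((ξ : ↥(Subgroup.normalizer ((P : Subgroup G) : Set G)) → ℂ) n).im = 0) ∧ ¬ p ∣ Cfsg.charDegree (ξ : ↥(Subgroup.normalizer ((P : Subgroup G) : Set G)) → ℂ)}, Function.Bijective f ∧ ∀ χ, ((Cfsg.charDegree ((f χ).1 : ↥(Subgroup.normalizer ((P : Subgroup G) : Set G)) → ℂ) : ZMod p) = (Cfsg.charDegree (χ.1 : G → ℂ) : ZMod p) ∨ (Cfsg.charDegree ((f χ).1 : ↥(Subgroup.normalizer ((P : Subgroup G) : Set G)) → ℂ) : ZMod p) = -(Cfsg.charDegree (χ.1 : G → ℂ) : ZMod p)) := by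
  haveI hK := closure_orderOf_normal (G := G) 2
  obtain ⟨W, h1, h2, h3, h4⟩ := exists_normal_pgroup_of_real hsolv hreal
    (closure {g : G | ∃ k : ℕ, orderOf g = 2 ^ k}) fun u hu _ => hu
  refine exists_real_bijection _ odd_index_closure_two P ?_ hreal
  rw [show closure {g : G | ∃ k : ℕ, orderOf g = 2 ^ k} ⊓ (P : Subgroup G) = W from
    le_antisymm (fun u hu => by
      obtain ⟨k, hk⟩ := P.2 ⟨u, hu.2⟩
      exact h4 u hu.1 k (congrArg Subtype.val hk)) (le_inf h2 (h3.le_sylow_of_normal P)),
    normalizer_eq_top]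
  exact le_top

end Cfsg.Agent.S4865
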