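import Cfsg.Statements.S4866
import Cfsg.Agent.H89.Real2
import Cfsg.Agent.S0160

set_option autoImplicit false
open Cfsg

namespace Cfsg.Agent.S4866

set_option linter.style.haveILetI false
open Cfsg.Agent.H5 Cfsg.Agent.H89 Subgroup

/-- Let K be a normal subgroup of odd index in the finite group G. Then G has as many orbits on the real-valued irreducible complex characters of K (acting by conjugation) as it has orbits on the conjugacy classes of K that are real in K; equivalently, the number of G-orbits of real-valued irreducible characters of K equals the number of G-conjugacy classes of elements of K that are conjugate in K to their inverses. -/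
theorem result {G : Type*} [Group G] [Finite G] (K : Subgroup G) [K.Normal] (hodd : Odd K.index) : Nat.card (Quot (fun θ η : {θ : Cfsg.IrrCharacter ↥K // (∀ k : ↥K, ((θ : ↥K → ℂ) k).im = 0)} => ∃ g : G, ∀ k k' : ↥K, (k' : G) = g * (k : G) * g⁻¹ → (η.1 : ↥K → ℂ) k' = (θ.1 : ↥K → ℂ) k)) = Nat.card (Quot (fun x y : {x : ↥K // IsConj x x⁻¹} => ∃ g : G, (y.1 : G) = g * x.1 * g⁻¹)) := by
  letI : Fintype G := Fintype.ofFinite _
  letI : Fintype K := Fintype.ofFinite _
  have hn : K.subtype.range.Normal := by rwa [range_subtype]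
  have ho : Odd K.subtype.range.index := by rwa [range_subtype]
  have hi := K.subtype_injective
  choose f h1 h2 h3 using fun θ : {θ : IrrCharacter K // ∀ k, ((θ : K → ℂ) k).im = 0} =>
    exists_real_over K.subtype hi hn ho ((H88.conjIrr_eq_iff _).2 θ.2)
  have h4 : ∀ θ, mlt K.subtype (f θ).1 θ.1.1 ≠ 0 := fun θ => (h2 θ).trans_ne one_ne_zero
  refine (Nat.card_congr (Equiv.ofBijective (Quot.lift
    (fun θ => ⟨f θ, (H88.conjIrr_eq_iff _).1 (h1 θ)⟩) fun θ η ⟨g, hg⟩ => Subtype.ext ?a)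
    ⟨fun a b e => ?b, fun χ => ?c⟩)).trans ((S0160.result (G := G)).trans
    (Nat.card_congr (Equiv.ofBijective (Quot.lift (fun x => ⟨ConjClasses.mk (x.1 : G), ?d⟩)
      fun x y ⟨g, hg⟩ => Subtype.ext ?e) ⟨fun a b e => ?f, fun C => ?g⟩)).symm)
  case a =>
    refine eq_of_real_over K.subtype hi hn ho (h1 θ) (h1 η) (h4 θ) ?_
    have := mlt_comp_equiv K.subtype (fun y => g * y * g⁻¹) (MulAut.conjNormal g) (fun _ => rfl)
      (f η).1 η.1.1
    rw [funext fun y => isClassFunction_of_isIrr (f η).2 y g,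
      funext fun k => hg k (MulAut.conjNormal g k) rfl] at this
    exact this ▸ h4 η
  case b =>
    obtain ⟨θ, rfl⟩ := Quot.exists_rep a
    obtain ⟨η, rfl⟩ := Quot.exists_rep b
    have e' : f θ = f η := congrArg Subtype.val e
    obtain ⟨g, a, ha, h⟩ := exists_conj_of_mlt K.subtype hi hn (h4 η) (e' ▸ h4 θ)
    exact Quot.sound ⟨g, fun k k' h' => by
      rw [h, show k' = a k from Subtype.ext (h'.trans (ha k).symm)]⟩
  case c =>
    obtain ⟨θ, hθ⟩ := exists_irr_under K.subtype χ.1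
    have hχ := (H88.conjIrr_eq_iff _).2 χ.2
    have := (H88.conjIrr_eq_iff _).1 (real_of_under K.subtype hi hn ho hχ hθ)
    exact ⟨Quot.mk _ ⟨θ, this⟩, Subtype.ext
      (eq_of_real_over K.subtype hi hn ho (h1 _) hχ (h4 ⟨θ, this⟩) hθ)⟩
  case d =>
    intro g hg
    obtain ⟨c, rfl⟩ := isConj_iff.1 (ConjClasses.mk_eq_mk_iff_isConj.1 hg).symm
    obtain ⟨d, hd⟩ := isConj_iff.1 x.2
    refine isConj_iff.2 ⟨c * d * c⁻¹, ?_⟩
    calc _ = c * ((d : G) * x.1 * (d : G)⁻¹) * c⁻¹ := by group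
      _ = _ := by rw [show (d : G) * x.1 * (d : G)⁻¹ = (x.1 : G)⁻¹ from congrArg Subtype.val hd]; group
  case e =>
    exact ConjClasses.mk_eq_mk_iff_isConj.2 (isConj_iff.2 ⟨g, hg.symm⟩)
  case f =>
    obtain ⟨x, rfl⟩ := Quot.exists_rep a
    obtain ⟨y, rfl⟩ := Quot.exists_rep b
    obtain ⟨g, hg⟩ := isConj_iff.1 (ConjClasses.mk_eq_mk_iff_isConj.1 (congrArg Subtype.val e))
    exact Quot.sound ⟨g, hg.symm⟩
  case g =>
    obtain ⟨C, hC⟩ := C
    obtain ⟨g, rfl⟩ := ConjClasses.mk_surjective C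
    obtain ⟨hg, k, hk, e⟩ := exists_real_of_odd_index K hodd (hC g rfl)
    exact ⟨Quot.mk _ ⟨⟨g, hg⟩, isConj_iff.2 ⟨⟨k, hk⟩, Subtype.ext e⟩⟩, rfl⟩

end Cfsg.Agent.S4866
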