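import Cfsg.Statements.S4870
import Cfsg.Agent.H89.Real2

set_option autoImplicit false
open Cfsg

namespace Cfsg.Agent.S4870

set_option linter.style.haveILetI false
open Cfsg.Agent.H5 Cfsg.Agent.H89 Subgroup

/-- Let G be a finite group with a non-abelian minimal normal subgroup N, and let φ be an irreducible complex character of N with stabilizer I in G (the elements g with φ(g n g⁻¹) = φ(n) for all n ∈ N) such that φ extends to an irreducible character of I. Put d = φ(1)·[G : I]. Then the number of linear characters of G is at most [G : I] times the number of irreducible characters of G of degree d. -/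
theorem result {G : Type*} [Group G] [Finite G] (N : Subgroup G) (hN : N.Normal) (hN1 : N ≠ ⊥) (hmin : ∀ M : Subgroup G, M.Normal → M ≤ N → M = ⊥ ∨ M = N) (hna : ¬ IsMulCommutative ↥N) (φ : Cfsg.IrrCharacter ↥N) (I : Subgroup G) (hI : ∀ g : G, g ∈ I ↔ ∀ n n' : ↥N, (n' : G) = g * (n : G) * g⁻¹ → (φ : ↥N → ℂ) n' = (φ : ↥N → ℂ) n) (hNI : N ≤ I) (hext : ∃ ψ : Cfsg.IrrCharacter ↥I, ∀ n : ↥N, (ψ : ↥I → ℂ) (Subgroup.inclusion hNI n) = (φ : ↥N → ℂ) n) : Nat.card {χ : Cfsg.IrrCharacter G // Cfsg.charDegree (χ : G → ℂ) = 1} ≤ I.index * Nat.card {χ : Cfsg.IrrCharacter G // Cfsg.charDegree (χ : G → ℂ) = Cfsg.charDegree (φ : ↥N → ℂ) * I.index} := by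
  have hNG : N ≤ _root_.commutator G := by
    rcases hmin ⁅N, N⁆ inferInstance (commutator_le_left N N) with h | h
    · exact (hna ⟨⟨fun a b => Subtype.ext (commutatorElement_eq_one_iff_mul_comm.1
        (mem_bot.1 (h ▸ commutator_mem_commutator a.2 b.2)))⟩⟩).elim
    · exact h ▸ commutator_mono le_top le_top
  obtain ⟨ψ, hψ⟩ := hext
  obtain ⟨χ, hχ⟩ := exists_irr_over I.subtype I.subtype_injective ψ
  have hd := (cliffData_top φ hI hNI).charDegree_eq
    (by rw [mlt_eq_one_of_res _ hψ]; exact one_ne_zero) hχ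
  have h := card_le_index_mul φ hI hNI hNG hψ hχ (fun _ => True)
    (fun χ => charDegree (χ : G → ℂ) = charDegree (φ : N → ℂ) * I.index) fun lam _ => by
      rw [charDegree_mulPerm, hd, range_subtype, mul_comm, charDegree, charDegree, ← hψ, map_one]
  rw [← card_linear_eq fun _ => True] at h
  simpa using h

end Cfsg.Agent.S4870
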