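import Cfsg.Statements.S4871
import Cfsg.Agent.H89.Real3

set_option autoImplicit false
open Cfsg

namespace Cfsg.Agent.S4871

set_option linter.style.haveILetI false
set_option linter.unusedVariables false
open Cfsg.Agent.H5 Cfsg.Agent.H89 Subgroup

/-- Let G be a finite group that is the semidirect product of a normal elementary abelian subgroup N of odd order by a non-trivial 2-subgroup P, with N the unique minimal normal subgroup of G. Consider the strongly real irreducible complex characters of G (Frobenius–Schur indicator +1) whose degree is 1 or even. Then their average degree is at least 4/3: four times their number is at most three times the sum of their degrees. -/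
theorem result {G : Type*} [Group G] [Finite G] (N P : Subgroup G) (hN : N.Normal) (q : ℕ) [Fact q.Prime] (hq : q ≠ 2) (hNel : Cfsg.IsElementaryAbelian q N) (hP : IsPGroup 2 ↥P) (hP1 : P ≠ ⊥) (hdisj : N ⊓ P = ⊥) (hprod : N ⊔ P = ⊤) (hmin : N ≠ ⊥ ∧ ∀ M : Subgroup G, M.Normal → M ≠ ⊥ → N ≤ M) : 4 * Nat.card {χ : Cfsg.IrrCharacter G // (Cfsg.charDegree (χ : G → ℂ) = 1 ∨ 2 ∣ Cfsg.charDegree (χ : G → ℂ)) ∧ (Nat.card G : ℂ)⁻¹ * ∑ᶠ g : G, (χ : G → ℂ) (g * g) = 1} ≤ 3 * (∑ᶠ χ : {χ : Cfsg.IrrCharacter G // (Cfsg.charDegree (χ : G → ℂ) = 1 ∨ 2 ∣ Cfsg.charDegree (χ : G → ℂ)) ∧ (Nat.card G : ℂ)⁻¹ * ∑ᶠ g : G, (χ : G → ℂ) (g * g) = 1}, Cfsg.charDegree (χ.1 : G → ℂ)) := by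
  classical
  letI : Fintype G := Fintype.ofFinite _
  suffices key : ∀ A : IrrCharacter G → Prop, (∀ χ, A χ ↔ (charDegree χ.1 = 1 ∨ 2 ∣ charDegree χ.1) ∧
      H6.fsIndicator χ.1 = 1) → 4 * Nat.card {χ // A χ} ≤ 3 * ∑ᶠ χ : {χ // A χ}, charDegree χ.1.1 from
    key _ fun χ => by rw [finsum_eq_fsIndicator]
  intro A hA
  have hPn : ¬ N ≤ normalizer (P : Set G) := fun h => hmin.1 (by
    rw [← hdisj, eq_comm, inf_eq_left]
    exact hmin.2 P (normalizer_eq_top_iff.1 (eq_top_iff.2 (hprod.ge.trans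
      (sup_le h le_normalizer)))) hP1)
  have hNG : N ≤ _root_.commutator G := hmin.2 _ inferInstance fun h => hPn fun n _ => by
    haveI : P.Normal := Normal.of_commutator_le _ (h.le.trans bot_le)
    rw [normalizer_eq_top]; exact mem_top n
  obtain ⟨t, ht, ht'⟩ : ∃ t ∈ P, t ∉ centralizer (N : Set G) := by
    by_contra h
    push Not at h
    exact hPn ((le_centralizer_iff.1 h).trans (centralizer_le_normalizer _))
  obtain ⟨k, hk⟩ := hP ⟨t, ht⟩
  obtain ⟨x, hx, hx1, g, hg⟩ := exists_inverted N (k := k) (congrArg Subtype.val hk) ht'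
  obtain ⟨θ, hθ1, hθ⟩ := exists_irr_conj_normal N hx hx1 hg
  have hd1 : charDegree θ.1 = 1 := H32.charDegree_eq_of_eq (n := 1)
    (by rw [degree_eq_one_of_comm hNel.1.is_comm.comm θ.2, Nat.cast_one])
  have hidx : N.index = Nat.card P := by
    rw [index_eq_card_mul N P hdisj, hprod, index_top, mul_one]
  obtain ⟨χ, h1, h2, h3, h4⟩ := exists_real_over_of_disjoint N P hdisj hθ odd_one
    (by rw [hidx, hd1])
  let I := stab N θ.1
  have hI : ∀ g : G, g ∈ I ↔ ∀ n n' : N, (n' : G) = g * n * g⁻¹ → θ.1 n' = θ.1 n := fun g =>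
    and_iff_right (by rw [normalizer_eq_top]; exact mem_top g)
  have hNI : N ≤ I := le_stab_self θ
  have h5 := h3.pos.ne'
  rw [← subtype_comp_inclusion hNI] at h4 h5
  obtain ⟨ψ, h6, h7⟩ := exists_mid_of_mlt_comp I.subtype (inclusion hNI) h5
  rw [mlt_comp _ _ (isCharacter_of_isIrr χ.2) (isCharacter_of_isIrr θ.2)] at h4
  have h8 : mlt (inclusion hNI) ψ.1 θ.1 = 1 := le_antisymm ((Nat.le_mul_of_pos_left _
    (Nat.pos_of_ne_zero h6)).trans ((Finset.single_le_sum (f := fun ξ : IrrCharacter I =>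
      mlt I.subtype χ.1 ξ.1 * mlt (inclusion hNI) ξ.1 θ.1) (fun _ _ => Nat.zero_le _)
      (Finset.mem_univ ψ)).trans h4)) (Nat.pos_of_ne_zero h7)
  have hψ : ∀ n, ψ.1 (inclusion hNI n) = θ.1 n := fun n => by
    rw [res_eq_of_sInv hNI (stab_le_normalizer N _) (sInv_stab N _) h7, h8, Nat.cast_one, one_mul]
  have hd : charDegree χ.1 = I.index := by
    rw [(cliffData_top θ hI hNI).charDegree_eq h7 h6, range_subtype,
      show charDegree ψ.1 = charDegree θ.1 by rw [charDegree, charDegree, ← hψ, map_one], hd1,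
      mul_one]
  have hI1 : I.index ≠ 1 := fun h => hθ1 (by
    obtain ⟨g, hg⟩ := hθ
    obtain ⟨a, ha⟩ := IsPGroup.iff_card.1 (H2.isPGroup_of_forall_pow_eq_one hNel.2)
    refine H88.eq_trivIrr_iff.2 (H6.eq_one_of_real_of_odd
      (ha ▸ ((Fact.out : q.Prime).odd_of_ne_two hq).pow) θ.2 fun n => ?_)
    rw [← Complex.conj_eq_iff_im, ← hg n (MulAut.conjNormal g n) rfl]
    exact (hI g).1 (index_eq_one.1 h ▸ mem_top g) n _ rfl)
  have hI2 : 2 ∣ I.index := by
    obtain ⟨a, ha⟩ := IsPGroup.iff_card.1 hP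
    obtain ⟨i, -, hi⟩ := (Nat.dvd_prime_pow Nat.prime_two).1
      (ha ▸ hidx ▸ index_dvd_of_le hNI : I.index ∣ 2 ^ a)
    rcases i with _ | i
    · exact (hI1 hi).elim
    · exact hi ▸ dvd_pow_self 2 i.succ_ne_zero
  have h := card_le_index_mul θ hI hNI hNG hψ h6 (fun lam => H6.fsIndicator (fun g => (lam g : ℂ)) = 1)
    (fun χ => charDegree χ.1 = I.index ∧ H6.fsIndicator χ.1 = 1) fun lam h =>
      ⟨by rw [charDegree_mulPerm, hd],
        by rw [fsIndicator_mulPerm (hom_sq_eq_one_of_fsIndicator h), h2]⟩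
  rw [← card_linear_eq fun χ => H6.fsIndicator χ = 1] at h
  simp only [Nat.card_eq_fintype_card, Fintype.card_subtype, Finset.card_filter,
    Finset.mul_sum] at h ⊢
  rw [finsum_eq_sum_of_fintype, ← Finset.sum_subtype (Finset.univ.filter A) (by simp)
    (fun χ => charDegree χ.1), Finset.sum_filter, Finset.mul_sum]
  refine Nat.le_of_add_le_add_right (le_trans (Nat.add_le_add_left h _) ?_)
  rw [← Finset.sum_add_distrib, ← Finset.sum_add_distrib]
  refine Finset.sum_le_sum fun χ _ => ?_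
  have h9 := H32.charDegree_pos χ
  have h10 : I.index ≠ 0 := index_ne_zero_of_finite
  by_cases h11 : H6.fsIndicator χ.1 = 1
  · simp only [hA, h11, and_true]
    split_ifs <;> omega
  · simp [hA, h11]

end Cfsg.Agent.S4871
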