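import Cfsg.Statements.S4872
import Cfsg.Agent.H89.Real3
import Cfsg.Agent.H89.RelMain
import Cfsg.Agent.H30.DegreeRatio
import Cfsg.Agent.H88.PLocal

set_option autoImplicit false
open Cfsg

namespace Cfsg.Agent.S4872

set_option linter.style.haveILetI false
open Cfsg.Agent.H5 Cfsg.Agent.H89 Cfsg.Agent.H88 Cfsg.Agent.H6 Subgroup MulAction
open scoped ComplexConjugate

theorem sum_eq_sum_orbits {Γ α : Type*} [Group Γ] [MulAction Γ α] [Fintype α] (F : α → ℂ)
    (hF : ∀ (g : Γ) x, F (g • x) = F x) [Fintype (orbitRel.Quotient Γ α)] :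
    ∑ x, F x = ∑ q : orbitRel.Quotient Γ α, (stabilizer Γ q.out).index * F q.out := by
  classical
  rw [← Finset.sum_fiberwise (s := Finset.univ)
    (g := fun x => (Quotient.mk'' x : orbitRel.Quotient Γ α))]
  refine Finset.sum_congr rfl fun q _ => ?_
  have h1 : ∀ x, (Quotient.mk'' x : orbitRel.Quotient Γ α) = q ↔ x ∈ orbit Γ q.out := by
    intro x
    rw [← orbitRel_apply, ← Quotient.eq'', Quotient.out_eq']
  rw [Finset.sum_congr rfl (g := fun _ => F q.out), Finset.sum_const, nsmul_eq_mul,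
    index_stabilizer]
  · congr 2
    rw [← Set.ncard_coe_finset]
    congr 1
    ext x
    simp [h1]
  · intro x hx
    obtain ⟨g, rfl⟩ := (h1 x).1 (Finset.mem_filter.1 hx).2
    exact hF g _

theorem index_eq_mul_sup {Γ : Type*} [Group Γ] [Finite Γ] (S N : Subgroup Γ) [N.Normal] :
    S.index = S.relIndex N * (S ⊔ N).index := by
  have h1 := relIndex_mul_index (inf_le_left : S ⊓ N ≤ S)
  have h2 := relIndex_mul_index (inf_le_right : S ⊓ N ≤ N)
  have h3 := relIndex_mul_index (le_sup_right : N ≤ S ⊔ N)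
  rw [inf_relIndex_left] at h1
  rw [inf_relIndex_right] at h2
  rw [relIndex_sup_right] at h3
  have h4 : N.relIndex S ≠ 0 := index_ne_zero_of_finite
  apply Nat.eq_of_mul_eq_mul_left (Nat.pos_of_ne_zero h4)
  rw [h1, ← h2, ← h3]
  ring

theorem div_mem_locRing {K : Type*} [Group K] [Finite K] {p : ℕ} [hp : Fact p.Prime]
    {M : Ideal AlgInt} [M.IsMaximal] (hM : IsPModular p M) {θ : K → ℂ} (hθ : IsIrrCharacter K θ)
    (hdef : p ^ (Nat.card K).factorization p ∣ charDegree θ) (x : K) :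
    θ x * (centralizer ({x} : Set K)).index / Nat.card K ∈ H32.locRing M := by
  have h1 := H32.mem_locRing_of_isIntegral (M := M) (isIntegral_centralChar hθ x)
  have h2 := natCast_div_mem_locRing hM (a := charDegree θ) (b := Nat.card K) Nat.card_pos.ne'
    ((hp.out.pow_dvd_iff_le_factorization (charDegree_ne_zero hθ)).1 hdef)
  have := (H32.locRing M).mul_mem h1 h2
  rw [charDegree_cast (isCharacter_of_isIrr hθ)] at this
  convert this using 1
  have := degree_ne_zero hθ
  field_simp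

/-- conjugation and inversion on a normal subgroup -/
@[reducible] def invAct {G : Type*} [Group G] (K : Subgroup G) [hK : K.Normal] :
    MulAction (G × ℤˣ) K where
  smul a x := ⟨a.1 * (x : G) ^ (a.2 : ℤ) * a.1⁻¹, hK.conj_mem _ (K.zpow_mem x.2 _) _⟩
  one_smul x := Subtype.ext (by
    show (1 : G) * (x : G) ^ ((1 : ℤˣ) : ℤ) * (1 : G)⁻¹ = x
    simp)
  mul_smul a b x := Subtype.ext (by
    show a.1 * b.1 * (x : G) ^ ((a.2 * b.2 : ℤˣ) : ℤ) * (a.1 * b.1)⁻¹ =
      a.1 * (b.1 * (x : G) ^ (b.2 : ℤ) * b.1⁻¹) ^ (a.2 : ℤ) * a.1⁻¹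
    rw [conj_zpow, ← zpow_mul, Units.val_mul, mul_comm (a.2 : ℤ)]
    group)

theorem exists_good_class {G : Type*} [Group G] [Finite G] (K : Subgroup G) [hK : K.Normal]
    (h2 : IsPGroup 2 (G ⧸ K)) (φ : IrrCharacter K)
    (hdef : 2 ^ (Nat.card K).factorization 2 ∣ charDegree (φ : K → ℂ))
    (hinv : ∀ (g : G) (n n' : K), (n' : G) = g * n * g⁻¹ → ‖(φ : K → ℂ) n'‖ = ‖(φ : K → ℂ) n‖)
    {M : Ideal AlgInt} [M.IsMaximal] (hM : IsPModular 2 M) :
    ∃ x : K, (φ : K → ℂ) x ∉ H32.locMax M ∧ ¬ 2 ∣ Nat.card (centralizer ({x} : Set K)) ∧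
      (∀ g : G, ∃ n ∈ K, n * x * n⁻¹ = g * x * g⁻¹) ∧ ∃ n ∈ K, n * x * n⁻¹ = (x : G)⁻¹ := by
  classical
  letI := invAct K
  have hs : ∀ (a : G × ℤˣ) (x : K), ((a • x : K) : G) = a.1 * (x : G) ^ (a.2 : ℤ) * a.1⁻¹ :=
    fun _ _ => rfl
  letI : Fintype K := Fintype.ofFinite _
  letI : Fintype (orbitRel.Quotient (G × ℤˣ) K) := Fintype.ofFinite _
  have hφ := isCharacter_of_isIrr φ.2
  have hK0 : (Nat.card K : ℂ) ≠ 0 := natCard_ne_zero
  let F : K → ℂ := fun x => (φ : K → ℂ) x * conj ((φ : K → ℂ) x) / Nat.card K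
  have hF : ∀ (a : G × ℤˣ) x, F (a • x) = F x := by
    rintro ⟨g, u⟩ x
    simp only [F, Complex.mul_conj, Complex.normSq_eq_norm_sq]
    rw [hinv g (x ^ (u : ℤ)) _ (hs _ _)]
    rcases Int.units_eq_one_or u with rfl | rfl
    · simp
    · simp [isCharacter_apply_inv hφ]
  have h1 : ∑ x, F x = 1 := by
    have := classInner_irr_self φ.2
    unfold classInner at this
    simp only [F, div_eq_mul_inv, ← Finset.sum_mul]
    rw [mul_comm, this]
  rw [sum_eq_sum_orbits F hF] at h1
  obtain ⟨q, hq⟩ : ∃ q : orbitRel.Quotient (G × ℤˣ) K,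
      (stabilizer (G × ℤˣ) q.out).index * F q.out ∉ H32.locMax M := by
    by_contra! h
    exact H32.one_not_mem_locMax (h1 ▸ sum_mem_locMax _ _ fun q _ => h q)
  set x := q.out
  let f : K →* G × ℤˣ := (MonoidHom.inl G ℤˣ).comp K.subtype
  haveI : f.range.Normal := ⟨by
    rintro _ ⟨n, rfl⟩ ⟨g, u⟩
    exact ⟨⟨g * n * g⁻¹, hK.conj_mem _ n.2 g⟩, by simp [f]⟩⟩
  have hcom : (stabilizer (G × ℤˣ) x).comap f = centralizer {x} := by
    ext n
    rw [mem_comap, mem_stabilizer_iff, mem_centralizer_singleton_iff, Subtype.ext_iff, hs,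
      Subtype.ext_iff]
    simp [f, mul_inv_eq_iff_eq_mul]
  rw [index_eq_mul_sup _ f.range, ← index_comap, hcom] at hq
  set k := (stabilizer (G × ℤˣ) x ⊔ f.range).index
  set c := (centralizer ({x} : Set K)).index
  have r1 := div_mem_locRing hM φ.2 hdef x
  have r2 := div_mem_locRing hM (isIrrCharacter_conj φ.2) (by
    rwa [charDegree_congr (θ := (φ : K → ℂ)) (conj_degree hφ)]) x
  have r3 : (φ : K → ℂ) x ∈ H32.locRing M := H32.mem_locRing_of_isIntegral (isIntegral_apply hφ x)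
  have r4 : (k : ℂ) ∈ H32.locRing M := natCast_mem _ _
  have e1 : ((c * k : ℕ) : ℂ) * F x =
      k * ((φ : K → ℂ) x * (conj ((φ : K → ℂ) x) * c / Nat.card K)) := by
    simp only [F]; push_cast; ring
  rw [e1] at hq
  have hk : ¬ 2 ∣ k := fun h => hq (H32.mul_mem_locMax_right
    ((H32.natCast_mem_locMax_iff hM).2 h) ((H32.locRing M).mul_mem r3 r2))
  have hx : (φ : K → ℂ) x ∉ H32.locMax M := fun h =>
    hq (H32.mul_mem_locMax_left r4 (H32.mul_mem_locMax_right h r2))
  have hk1 : stabilizer (G × ℤˣ) x ⊔ f.range = ⊤ := by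
    have hp : IsPGroup 2 ((G × ℤˣ) ⧸ f.range) := by
      intro y
      obtain ⟨⟨g, u⟩, rfl⟩ := QuotientGroup.mk_surjective y
      obtain ⟨j, hj⟩ := h2 g
      refine ⟨j + 1, ?_⟩
      rw [← QuotientGroup.mk_pow, QuotientGroup.eq_one_iff] at hj ⊢
      refine ⟨⟨g ^ 2 ^ (j + 1), by rw [pow_succ, pow_mul]; exact K.pow_mem hj 2⟩, ?_⟩
      refine Prod.ext rfl ?_
      show 1 = u ^ 2 ^ (j + 1)
      rw [pow_succ', pow_mul, Int.units_sq, one_pow]
    obtain ⟨a, ha⟩ := IsPGroup.iff_card.1 hp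
    have h3 : k ∣ 2 ^ a := ha ▸ index_dvd_of_le le_sup_right
    rw [← index_eq_one]
    exact Nat.eq_one_of_dvd_coprimes
      (((Nat.Prime.coprime_iff_not_dvd Nat.prime_two).2 hk).symm.pow_right a) dvd_rfl h3
  have hdec : ∀ a : G × ℤˣ, ∃ n ∈ K, n * x * n⁻¹ = a.1 * (x : G) ^ (a.2 : ℤ) * a.1⁻¹ := by
    intro a
    have h3 : a ∈ ((f.range ⊔ stabilizer (G × ℤˣ) x : Subgroup _) : Set _) := by
      rw [sup_comm, hk1]; trivial
    rw [normal_mul] at h3
    obtain ⟨_, ⟨n, rfl⟩, s, hs', rfl⟩ := h3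
    refine ⟨n, n.2, ?_⟩
    rw [← hs, mul_smul, mem_stabilizer_iff.1 hs', hs]
    simp [f]
  refine ⟨x, hx, fun h => hx ?_, fun g => by simpa using hdec (g, 1), by simpa using hdec (1, -1)⟩
  have e2 : (φ : K → ℂ) x = Nat.card (centralizer ({x} : Set K)) *
      ((φ : K → ℂ) x * c / Nat.card K) := by
    rw [← (centralizer ({x} : Set K)).card_mul_index]
    have : (Nat.card (centralizer ({x} : Set K)) : ℂ) ≠ 0 := by exact_mod_cast Nat.card_pos.ne'
    have : (c : ℂ) ≠ 0 := by exact_mod_cast index_ne_zero_of_finite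
    push_cast
    show _ = _ * (_ * _ / (_ * (c : ℂ)))
    field_simp
  rw [e2]
  exact H32.mul_mem_locMax_right ((H32.natCast_mem_locMax_iff hM).2 h) r1

theorem fs_dihedral {H : Type*} [Group H] [Fintype H] {x t : H} (hx : Odd (orderOf x))
    (ht : t * t = 1) (htx : t * x * t⁻¹ = x⁻¹) (hgen : ∀ h, h ∈ zpowers x ∨ t * h ∈ zpowers x)
    (θ : IrrCharacter H) : fsIndicator (θ : H → ℂ) = 1 := by
  classical
  have hθ := isCharacter_of_isIrr θ.2
  letI : Fintype (zpowers x) := Fintype.ofFinite _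
  obtain ⟨a, ha⟩ := exists_nat_classInner (isCharacter_restrict hθ (zpowers x)) isCharacter_one
  obtain ⟨d, hd0, hd⟩ := exists_pos_nat_degree θ.2
  have hZ0 : (Nat.card (zpowers x) : ℂ) ≠ 0 := natCard_ne_zero
  have h1 : ∑ s ∈ Finset.univ.filter (· ∈ zpowers x), (θ : H → ℂ) (s * s) =
      Nat.card (zpowers x) * a := by
    rw [← ha, classInner_one_right, mul_inv_cancel_left₀ hZ0,
      Finset.sum_subtype (p := (· ∈ zpowers x)) _ (by simp)]
    have hc : (Nat.card (zpowers x)).Coprime 2 := by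
      rw [Nat.card_zpowers]; exact Nat.coprime_two_right.2 hx
    exact Fintype.sum_equiv (powCoprime hc) _ _ fun s => by simp [sq]
  have h2 : ∑ s ∈ Finset.univ.filter (· ∉ zpowers x), (θ : H → ℂ) (s * s) =
      (Finset.univ.filter (· ∉ zpowers x)).card * d := by
    rw [← nsmul_eq_mul, ← Finset.sum_const]
    refine Finset.sum_congr rfl fun s hs => ?_
    obtain ⟨k, hk⟩ := (hgen s).resolve_left (Finset.mem_filter.1 hs).2
    have hti : t⁻¹ = t := inv_eq_of_mul_eq_one_right ht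
    have h3 : s = t * x ^ k := by
      simp only at hk
      rw [hk, ← mul_assoc, ht, one_mul]
    have h4 : s * s = 1 := by
      calc s * s = (t * x ^ k * t⁻¹) * x ^ k := by rw [h3, hti]; group
        _ = 1 := by rw [← conj_zpow, htx]; group
    rw [h4, hd]
  have h3 : (Nat.card H : ℂ) * fsIndicator (θ : H → ℂ) =
      ((Nat.card (zpowers x) * a + (Finset.univ.filter (· ∉ zpowers x)).card * d : ℕ) : ℂ) := by
    rw [fsIndicator_def, mul_inv_cancel_left₀ natCard_ne_zero,
      ← Finset.sum_filter_add_sum_filter_not _ (· ∈ zpowers x), h1, h2]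
    push_cast; rfl
  rcases fsIndicator_trichotomy θ.2 with h | h | h
  · exfalso
    rw [h, mul_zero, eq_comm, Nat.cast_eq_zero, Nat.add_eq_zero_iff, mul_eq_zero, mul_eq_zero] at h3
    have h4 : ∀ s, s ∈ zpowers x := by
      intro s
      by_contra hs
      exact Finset.card_ne_zero.2 ⟨s, Finset.mem_filter.2 ⟨Finset.mem_univ _, hs⟩⟩
        (h3.2.resolve_right hd0.ne')
    obtain ⟨k, hk⟩ := h4 t
    simp only at hk
    have h5 : x ^ 2 = 1 := by
      rw [← hk] at htx
      rw [sq, ← eq_inv_iff_mul_eq_one, ← htx]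
      group
    have h6 : x = 1 := orderOf_eq_one_iff.1 (Nat.eq_one_of_dvd_coprimes
      (Nat.coprime_two_right.2 hx) dvd_rfl (orderOf_dvd_of_pow_eq_one h5))
    have h7 : ∀ s : H, s = 1 := fun s => by simpa [h6] using h4 s
    have h8 : a = 0 := h3.1.resolve_left Nat.card_pos.ne'
    rw [h8, classInner_one_right] at ha
    simp only [h7 (Subtype.val _), hd, Finset.sum_const, Finset.card_univ, nsmul_eq_mul,
      ← Nat.card_eq_fintype_card, inv_mul_cancel_left₀ hZ0] at ha
    exact hd0.ne' (by exact_mod_cast ha)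
  · exact h
  · exfalso
    rw [h] at h3
    have h4 : ((Nat.card H + (Nat.card (zpowers x) * a +
        (Finset.univ.filter (· ∉ zpowers x)).card * d) : ℕ) : ℂ) = 0 := by
      rw [Nat.cast_add, ← h3]; ring
    have h5 := Nat.card_pos (α := H)
    rw [Nat.cast_eq_zero] at h4
    omega

theorem main {G : Type*} [Group G] [Fintype G] (K : Subgroup G) [hK : K.Normal]
    (h2 : IsPGroup 2 (G ⧸ K)) (φ : IrrCharacter K)
    (hdef : 2 ^ (Nat.card K).factorization 2 ∣ charDegree (φ : K → ℂ))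
    (hinv : ∀ (g : G) (n n' : K), (n' : G) = g * n * g⁻¹ → ‖(φ : K → ℂ) n'‖ = ‖(φ : K → ℂ) n‖)
    (hconj : ∃ g : G, ∀ n n' : K, (n' : G) = g * n * g⁻¹ →
      (φ : K → ℂ) n' = conj ((φ : K → ℂ) n)) :
    ∃ χ : IrrCharacter G, conjIrr χ = χ ∧ fsIndicator (χ : G → ℂ) = 1 ∧
      Odd (mlt K.subtype (χ : G → ℂ) (φ : K → ℂ)) := by
  classical
  obtain ⟨M, hM⟩ := exists_isPModular Nat.prime_two
  haveI := hM.2.1
  obtain ⟨x, hx, hodd, hcl, s₀, hs₀, hs₀'⟩ := exists_good_class K h2 φ hdef hinv hM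
  have hφ := isCharacter_of_isIrr φ.2
  let C := centralizer ({(x : G)} : Set G)
  have hCK : centralizer ({x} : Set K) = C.subgroupOf K := by
    ext n
    rw [mem_subgroupOf, mem_centralizer_singleton_iff, mem_centralizer_singleton_iff,
      Subtype.ext_iff]
    rfl
  have hpow : ∀ n ∈ K, n ∈ C → n ^ Nat.card (centralizer ({x} : Set K)) = 1 := by
    intro n hn hn'
    have : (⟨⟨n, hn⟩, hCK ▸ hn'⟩ : centralizer ({x} : Set K)) ^
      Nat.card (centralizer ({x} : Set K)) = 1 := pow_card_eq_one'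
    exact congrArg (fun y : centralizer ({x} : Set K) => ((y : K) : G)) this
  have hcop : (Nat.card (centralizer ({x} : Set K))).Coprime 2 :=
    ((Nat.Prime.coprime_iff_not_dvd Nat.prime_two).2 hodd).symm
  obtain ⟨P⟩ : Nonempty (Sylow 2 C) := inferInstance
  let D : Subgroup G := (P : Subgroup C).map C.subtype
  have hD : IsPGroup 2 D := P.2.map _
  have hDC : D ≤ C := map_subtype_le _
  have hDK : ∀ d ∈ D, d ∈ K → d = 1 := by
    intro d hd hd'
    obtain ⟨k, hk⟩ := hD ⟨d, hd⟩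
    rw [← orderOf_eq_one_iff]
    exact Nat.eq_one_of_dvd_coprimes (hcop.pow_right k)
      (orderOf_dvd_of_pow_eq_one (hpow d hd' (hDC hd)))
      (orderOf_dvd_of_pow_eq_one (congrArg Subtype.val hk))
  have hKD : K ⊔ D = ⊤ := by
    have h3 : C ⊔ K = ⊤ := by
      rw [eq_top_iff]
      intro g _
      obtain ⟨n, hn, hn'⟩ := hcl g
      have : n⁻¹ * g ∈ C := by
        rw [mem_centralizer_singleton_iff]
        calc n⁻¹ * g * x = n⁻¹ * (g * x * g⁻¹) * g := by group
          _ = _ := by rw [← hn']; group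
      rw [show g = n * (n⁻¹ * g) by group]
      exact mul_mem (mem_sup_right hn) (mem_sup_left this)
    obtain ⟨a, ha⟩ := IsPGroup.iff_card.1 h2
    have h4 : (K ⊔ D).index ∣ 2 ^ a := ha ▸ index_dvd_of_le le_sup_left
    have h5 : (K ⊔ D).index ∣ (P : Subgroup C).index := by
      haveI : (K ⊔ D).Normal ∨ True := Or.inr trivial
      have h6 : (K ⊔ D).relIndex C = (K ⊔ D).index := by
        have h7 := index_eq_mul_sup (K ⊔ D) K
        have h8 := index_eq_mul_sup C K
        have h9 := index_eq_mul_sup (C ⊓ (K ⊔ D)) K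
        have e1 : C ⊓ (K ⊔ D) ⊔ K = K ⊔ D := by
          refine le_antisymm (sup_le inf_le_right le_sup_left)
            (sup_le le_sup_right (le_sup_of_le_left (le_inf hDC le_sup_right)))
        have e2 : (C ⊓ (K ⊔ D)).relIndex K = C.relIndex K := by
          rw [← inf_relIndex_right, inf_assoc, inf_eq_right.2 (le_sup_left : K ≤ K ⊔ D),
            inf_relIndex_right]
        rw [e1, e2, ← relIndex_mul_index (inf_le_left : C ⊓ (K ⊔ D) ≤ C), inf_relIndex_left, h8, h3,
          index_top, mul_one, mul_comm] at h9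
        exact Nat.eq_of_mul_eq_mul_left (Nat.pos_of_ne_zero index_ne_zero_of_finite) h9
      rw [← h6]
      exact index_dvd_of_le fun y hy => mem_sup_right (mem_map_of_mem _ hy)
    rw [← index_eq_one]
    exact Nat.eq_one_of_dvd_coprimes (((Nat.Prime.coprime_iff_not_dvd Nat.prime_two).2
      P.not_dvd_index).pow_left a) h4 h5
  have hcard : K.index = Nat.card D := by
    rw [index_eq_card_mul K D (eq_bot_iff.2 fun d hd => hDK d hd.2 hd.1), hKD, index_top, mul_one]
  -- an involution of `K` inverting `x` and centralised by `D`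
  obtain ⟨t, htK, ht, htx, htD⟩ : ∃ t ∈ K, t * t = 1 ∧ t * x * t⁻¹ = (x : G)⁻¹ ∧
      ∀ d ∈ D, d * t = t * d := by
    let I := {s : G // s ∈ K ∧ s * x * s⁻¹ = (x : G)⁻¹}
    letI : MulAction D I :=
      { smul := fun d s => ⟨d * s * (d : G)⁻¹, hK.conj_mem _ s.2.1 _, by
          have h1 := mem_centralizer_singleton_iff.1 (hDC d.2)
          calc (d : G) * s * (d : G)⁻¹ * x * ((d : G) * s * (d : G)⁻¹)⁻¹
              = d * s * (d : G)⁻¹ * (x * d) * (s : G)⁻¹ * (d : G)⁻¹ := by group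
            _ = d * (s * x * (s : G)⁻¹) * (d : G)⁻¹ := by rw [← h1]; group
            _ = ((d : G) * x * (d : G)⁻¹)⁻¹ := by rw [s.2.2]; group
            _ = _ := by rw [h1]; group⟩
        one_smul := fun s => Subtype.ext (by
          show ((1 : D) : G) * s * ((1 : D) : G)⁻¹ = s
          simp)
        mul_smul := fun a b s => Subtype.ext (by
          show ((a * b : D) : G) * s * ((a * b : D) : G)⁻¹ =
            a * (b * s * (b : G)⁻¹) * (a : G)⁻¹
          simp only [coe_mul]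
          group) }
    have hI : Nat.card I = Nat.card (centralizer ({x} : Set K)) := by
      refine Nat.card_congr
        { toFun := fun s => ⟨⟨s₀⁻¹ * s, K.mul_mem (K.inv_mem hs₀) s.2.1⟩, ?_⟩
          invFun := fun c => ⟨s₀ * c, K.mul_mem hs₀ (c : K).2, ?_⟩
          left_inv := fun s => Subtype.ext (by simp)
          right_inv := fun c => Subtype.ext (Subtype.ext (by simp)) }
      · rw [hCK, mem_subgroupOf, mem_centralizer_singleton_iff]
        show s₀⁻¹ * s * x = x * (s₀⁻¹ * s)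
        have h1 : s₀⁻¹ * (x : G)⁻¹ = x * s₀⁻¹ := by
          calc s₀⁻¹ * (x : G)⁻¹ = s₀⁻¹ * (s₀ * x * s₀⁻¹) := by rw [hs₀']
            _ = _ := by group
        calc s₀⁻¹ * s * x = s₀⁻¹ * (s * x * (s : G)⁻¹) * s := by group
          _ = _ := by rw [s.2.2, h1, mul_assoc]
      · have h1 : ((c : K) : G) * x = x * (c : K) :=
          congrArg Subtype.val (mem_centralizer_singleton_iff.1 c.2)
        calc s₀ * (c : K) * x * (s₀ * (c : K))⁻¹ = s₀ * ((c : K) * x) * ((c : K) : G)⁻¹ * s₀⁻¹ := by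
              group
          _ = _ := by rw [h1, ← hs₀']; group
    obtain ⟨s, hs⟩ := hD.nonempty_fixed_point_of_prime_not_dvd_card I (hI ▸ hodd)
    have hodd' : Odd (Nat.card (centralizer ({x} : Set K))) := Nat.coprime_two_right.1 hcop
    refine ⟨(s : G) ^ Nat.card (centralizer ({x} : Set K)), K.pow_mem s.2.1 _, ?_,
      conj_pow_of_odd s.2.2 hodd', fun d hd => ?_⟩
    · rw [← pow_add, ← two_mul, pow_mul]
      refine hpow _ (K.pow_mem s.2.1 2) (mem_centralizer_singleton_iff.2 ?_)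
      obtain ⟨s, -, hs⟩ := s
      calc s ^ 2 * x = s * (s * x * s⁻¹) * s⁻¹ * s ^ 2 := by rw [sq]; group
        _ = (s * x * s⁻¹)⁻¹ * s ^ 2 := by nth_rewrite 1 [hs]; group
        _ = x * s ^ 2 := by rw [hs, inv_inv]
    · have h1 : d * s * d⁻¹ = s := congrArg Subtype.val (hs ⟨d, hd⟩)
      exact (Commute.pow_right (mul_inv_eq_iff_eq_mul.1 h1) _).eq
  have hti : t⁻¹ = t := inv_eq_of_mul_eq_one_right ht
  have htz : ∀ y ∈ zpowers (x : G), t * y * t ∈ zpowers (x : G) := by
    rintro _ ⟨k, rfl⟩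
    simp only
    nth_rewrite 2 [← hti]
    rw [← conj_zpow, htx]
    exact zpow_mem (inv_mem (mem_zpowers _)) k
  let H : Subgroup G :=
    { carrier := {h | h ∈ zpowers (x : G) ∨ t * h ∈ zpowers (x : G)}
      one_mem' := Or.inl (one_mem _)
      mul_mem' := by
        rintro a b (ha | ha) (hb | hb)
        · exact Or.inl (mul_mem ha hb)
        · refine Or.inr ?_
          have := mul_mem (htz a ha) hb
          rwa [show t * a * t * (t * b) = t * a * (t * t) * b by group, ht, mul_one, mul_assoc] at this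
        · exact Or.inr (by rw [← mul_assoc]; exact mul_mem ha hb)
        · refine Or.inl ?_
          have := mul_mem (htz _ ha) hb
          rwa [show t * (t * a) * t * (t * b) = (t * t) * a * (t * t) * b by group, ht, mul_one,
            one_mul] at this
      inv_mem' := by
        rintro a (ha | ha)
        · exact Or.inl (inv_mem ha)
        · refine Or.inr ?_
          have := htz _ (inv_mem ha)
          rwa [mul_inv_rev, hti, show t * (a⁻¹ * t) * t = t * a⁻¹ * (t * t) by group, ht,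
            mul_one] at this }
  have hxH : (x : G) ∈ H := Or.inl (mem_zpowers _)
  have htH : t ∈ H := Or.inr (by rw [ht]; exact one_mem _)
  have hHK : H ≤ K := by
    rintro h (hh | hh)
    · exact zpowers_le_of_mem x.2 hh
    · exact (K.mul_mem_cancel_left htK).1 (zpowers_le_of_mem x.2 hh)
  have hHD : ∀ (h : H) (d : D), Commute (h : G) d := by
    have h1 : ∀ (d : D), ∀ y ∈ zpowers (x : G), Commute y d := by
      rintro d _ ⟨k, rfl⟩
      exact Commute.zpow_left (mem_centralizer_singleton_iff.1 (hDC d.2)).symm k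
    rintro ⟨h, hh | hh⟩ d
    · exact h1 d h hh
    · have := (Commute.symm (htD d d.2)).mul_left (h1 d _ hh)
      rwa [← mul_assoc, ht, one_mul] at this
  letI : Fintype H := Fintype.ofFinite _
  letI : Fintype D := Fintype.ofFinite _
  have hzm : ∀ h : H, (h : G) ∈ zpowers (x : G) → h ∈ zpowers (⟨x, hxH⟩ : H) := by
    rintro h ⟨k, hk⟩
    exact ⟨k, Subtype.ext (by simpa using hk)⟩
  have hfs : ∀ θ : IrrCharacter H, fsIndicator (θ : H → ℂ) = 1 := by
    refine fs_dihedral (x := ⟨x, hxH⟩) (t := ⟨t, htH⟩) ?_ (Subtype.ext ht) (Subtype.ext htx)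
      fun h => h.2.imp (hzm _) (hzm (⟨t, htH⟩ * h))
    rw [← orderOf_coe]
    exact Nat.coprime_two_right.1 (hcop.coprime_dvd_left (orderOf_dvd_of_pow_eq_one
      (hpow _ x.2 (mem_centralizer_singleton_iff.2 rfl))))
  obtain ⟨m, hm, -, hm'⟩ := exists_nat_mult (isCharacter_comp hφ (inclusion hHK))
  obtain ⟨θ, hθ⟩ : ∃ θ, Odd (m θ) := by
    by_contra! h
    apply hx
    have := hm' ⟨x, hxH⟩
    rw [show inclusion hHK ⟨x, hxH⟩ = x from rfl] at this
    rw [this]
    refine sum_mem_locMax _ _ fun θ _ => H32.mul_mem_locMax_right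
      ((H32.natCast_mem_locMax_iff hM).2 (even_iff_two_dvd.1 (Nat.not_odd_iff_even.1 (h θ))))
      (H32.mem_locRing_of_isIntegral (isIntegral_apply (isCharacter_of_isIrr θ.2) _))
  let κ : IrrCharacter (H × D) :=
    ⟨_, isIrrCharacter_comp θ.2 (MonoidHom.fst H D) Prod.fst_surjective⟩
  have hH0 : (Nat.card H : ℂ) ≠ 0 := natCard_ne_zero
  have hD0 : (Nat.card D : ℂ) ≠ 0 := natCard_ne_zero
  have hκ : fsIndicator (κ : H × D → ℂ) = 1 := by
    rw [← hfs θ, fsIndicator_def, fsIndicator_def, Fintype.sum_prod_type, Nat.card_prod]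
    show _ * ∑ h : H, ∑ d : D, (θ : H → ℂ) (h * h) = _
    simp only [Finset.sum_const, Finset.card_univ, nsmul_eq_mul, ← Nat.card_eq_fintype_card,
      ← Finset.mul_sum]
    push_cast
    field_simp
  obtain ⟨χ, h1, h3, h4, -⟩ := exists_real_over_of_odd K (H.subtype.noncommCoprod D.subtype hHD)
    hconj (κ := κ) (conjIrr_eq_of_fsIndicator (by rw [hκ]; exact one_ne_zero)) hθ (by
      rw [← hm θ]
      unfold classInner
      rw [Fintype.sum_prod_type, Nat.card_prod]
      have h5 : ∀ h : H, ∑ d : D, indFun K (φ : K → ℂ)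
          (H.subtype.noncommCoprod D.subtype hHD (h, d)) * conj ((κ : H × D → ℂ) (h, d)) =
          Nat.card D * ((φ : K → ℂ) (inclusion hHK h) * conj ((θ : H → ℂ) h)) := by
        intro h
        rw [Finset.sum_eq_single 1]
        · have e1 : H.subtype.noncommCoprod D.subtype hHD (h, 1) = (inclusion hHK h : K) :=
            mul_one (h : G)
          rw [e1, indFun_normal_coe K hK]
          have e2 : ∀ g : G, (φ : K → ℂ) ⟨g * (inclusion hHK h : K) * g⁻¹,
              hK.conj_mem _ (inclusion hHK h).2 g⟩ = (φ : K → ℂ) (inclusion hHK h) := by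
            intro g
            have h6 : g ∈ ((K ⊔ D : Subgroup G) : Set G) := by rw [hKD]; trivial
            rw [normal_mul] at h6
            obtain ⟨n, hn, d, hd, rfl⟩ := h6
            rw [← isClassFunction_of_isIrr φ.2 (inclusion hHK h) ⟨n, hn⟩]
            refine congrArg _ (Subtype.ext ?_)
            show n * d * h * (n * d)⁻¹ = n * h * n⁻¹
            rw [mul_assoc n d, ← (hHD h ⟨d, hd⟩).eq]
            group
          simp only [e2, Finset.sum_const, Finset.card_univ, nsmul_eq_mul,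
            ← Nat.card_eq_fintype_card]
          rw [← K.card_mul_index, hcard]
          have : (Nat.card K : ℂ) ≠ 0 := by exact_mod_cast Nat.card_pos.ne'
          push_cast
          field_simp
          rfl
        · intro d _ hd
          rw [indFun_normal_of_notMem, zero_mul]
          intro hm
          exact hd (Subtype.ext (hDK d d.2 ((K.mul_mem_cancel_left (hHK h.2)).1 hm)))
        · simp
      simp only [h5, ← Finset.mul_sum]
      push_cast
      field_simp)
  exact ⟨χ, h1, h3.trans hκ, h4⟩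

theorem eq_of_sum_eq_one {ι : Type*} [Fintype ι] {f : ι → ℕ} (h : ∑ i, f i = 1) {a b : ι}
    (ha : f a ≠ 0) (hb : f b ≠ 0) : a = b ∧ f a = 1 := by
  classical
  have h1 := Finset.single_le_sum (f := f) (fun _ _ => Nat.zero_le _) (Finset.mem_univ a)
  refine ⟨?_, by omega⟩
  by_contra hne
  have h2 := Finset.sum_le_sum_of_subset (f := f) (Finset.subset_univ {a, b})
  rw [Finset.sum_pair hne] at h2
  omega


/-- Let N be a normal subgroup of the finite group G with G/N a 2-group, and let φ be an irreducible complex character of N of 2-defect zero (the 2-part of #N divides φ(1)) whose complex conjugate is G-conjugate to φ. Then some irreducible character of G with Frobenius–Schur indicator +1 contains φ with multiplicity exactly one on restriction to N. -/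
theorem result {G : Type*} [Group G] [Finite G] (N : Subgroup G) [N.Normal] (h2 : IsPGroup 2 (G ⧸ N)) (φ : Cfsg.IrrCharacter ↥N) (hdef : 2 ^ (Nat.card ↥N).factorization 2 ∣ Cfsg.charDegree (φ : ↥N → ℂ)) (hconj : ∃ g : G, ∀ n n' : ↥N, (n' : G) = g * (n : G) * g⁻¹ → (φ : ↥N → ℂ) n' = (starRingEnd ℂ) ((φ : ↥N → ℂ) n)) : ∃ χ : Cfsg.IrrCharacter G, (Nat.card G : ℂ)⁻¹ * ∑ᶠ g : G, (χ : G → ℂ) (g * g) = 1 ∧ (Nat.card ↥N : ℂ)⁻¹ * ∑ᶠ n : ↥N, (χ : G → ℂ) n * (starRingEnd ℂ) ((φ : ↥N → ℂ) n) = 1 := by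
  classical
  have hN : N.Normal := inferInstance
  letI : Fintype G := Fintype.ofFinite _
  letI : Fintype N := Fintype.ofFinite _
  have hφ := isCharacter_of_isIrr φ.2
  let E : Subgroup G :=
    { carrier := {g | (∀ n n' : N, (n' : G) = g * n * g⁻¹ → (φ : N → ℂ) n' = (φ : N → ℂ) n) ∨
        ∀ n n' : N, (n' : G) = g * n * g⁻¹ → (φ : N → ℂ) n' = conj ((φ : N → ℂ) n)}
      one_mem' := Or.inl fun n n' h => by rw [Subtype.ext (a1 := n') (a2 := n) (by simpa using h)]
      mul_mem' := by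
        intro a b ha hb
        have e : ∀ n n' : N, (n' : G) = a * b * n * (a * b)⁻¹ →
            (n' : G) = a * (⟨b * n * b⁻¹, hN.conj_mem _ n.2 b⟩ : N) * a⁻¹ := fun n n' h => by
          rw [h]; group
        rcases ha with ha | ha <;> rcases hb with hb | hb
        · exact Or.inl fun n n' h => by rw [ha _ _ (e n n' h), hb n _ rfl]
        · exact Or.inr fun n n' h => by rw [ha _ _ (e n n' h), hb n _ rfl]
        · exact Or.inr fun n n' h => by rw [ha _ _ (e n n' h), hb n _ rfl]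
        · exact Or.inl fun n n' h => by rw [ha _ _ (e n n' h), hb n _ rfl, Complex.conj_conj]
      inv_mem' := by
        rintro a (ha | ha)
        · exact Or.inl fun n n' h => (ha n' n (by rw [h]; group)).symm
        · exact Or.inr fun n n' h => by rw [ha n' n (by rw [h]; group), Complex.conj_conj] }
  let T := stab N (φ : N → ℂ)
  have hT : ∀ g : G, g ∈ T ↔
      ∀ n n' : N, (n' : G) = g * n * g⁻¹ → (φ : N → ℂ) n' = (φ : N → ℂ) n := fun g => by
    rw [mem_stab, normalizer_eq_top]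
    simp
  have hNT : N ≤ T := le_stab_self φ
  have hTE : T ≤ E := fun g hg => Or.inl ((hT g).1 hg)
  have hNE : N ≤ E := hNT.trans hTE
  letI : Fintype E := Fintype.ofFinite _
  let e := subgroupOfEquivOfLe hNE
  obtain ⟨ξ, h1, h3, h4⟩ := main (N.subgroupOf E)
    (fun y => by
      obtain ⟨g, rfl⟩ := QuotientGroup.mk_surjective y
      obtain ⟨j, hj⟩ := h2 (g : G)
      refine ⟨j, ?_⟩
      rw [← QuotientGroup.mk_pow, QuotientGroup.eq_one_iff] at hj ⊢
      exact hj)
    ⟨_, isIrrCharacter_comp_equiv φ.2 e⟩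
    (by rwa [Nat.card_congr e.toEquiv, charDegree_congr (θ := (φ : N → ℂ)) (by simp)])
    (by
      rintro ⟨g, hg | hg⟩ n n' h
      · exact congrArg norm (hg (e n) (e n') (congrArg Subtype.val h))
      · exact (congrArg norm (hg (e n) (e n') (congrArg Subtype.val h))).trans
          (Complex.norm_conj _))
    (by
      obtain ⟨g, hg⟩ := hconj
      exact ⟨⟨g, Or.inr hg⟩, fun n n' h => hg (e n) (e n') (congrArg Subtype.val h)⟩)
  have h5 : mlt (N.subgroupOf E).subtype (ξ : E → ℂ) (fun c => (φ : N → ℂ) (e c)) =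
      mlt (inclusion hNE) (ξ : E → ℂ) (φ : N → ℂ) :=
    mlt_equiv (inclusion hNE) (N.subgroupOf E).subtype id e (fun _ => rfl) ξ φ
  replace h4 : Odd (mlt (inclusion hNE) (ξ : E → ℂ) (φ : N → ℂ)) := h5 ▸ h4
  have D := cliffData_top φ hT hNT
  obtain ⟨χ, hχ⟩ := exists_irr_over E.subtype E.subtype_injective ξ
  obtain ⟨ψ, hψ, hψ'⟩ := exists_mid_incl hTE hNT hNE h4.pos.ne'
  have c1 : ∀ (χ : IrrCharacter G) (ψ : IrrCharacter T), mlt T.subtype (χ : G → ℂ) (ψ : T → ℂ) =
      ∑ ξ : IrrCharacter E, mlt E.subtype (χ : G → ℂ) (ξ : E → ℂ) *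
        mlt (inclusion hTE) (ξ : E → ℂ) (ψ : T → ℂ) := fun χ ψ =>
    mlt_comp E.subtype (inclusion hTE) (isCharacter_of_isIrr χ.2) (isCharacter_of_isIrr ψ.2)
  have c2 : ∀ (χ : IrrCharacter G) (ξ : IrrCharacter E) (ψ : IrrCharacter T),
      mlt E.subtype (χ : G → ℂ) (ξ : E → ℂ) ≠ 0 → mlt (inclusion hTE) (ξ : E → ℂ) (ψ : T → ℂ) ≠ 0 →
      mlt T.subtype (χ : G → ℂ) (ψ : T → ℂ) ≠ 0 := by
    intro χ ξ ψ a b
    rw [c1]
    exact fun h => mul_ne_zero a b (Finset.sum_eq_zero_iff.1 h ξ (Finset.mem_univ _))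
  have c3 := D.mlt_eq_one hψ' (c2 _ _ _ hχ hψ)
  rw [c1] at c3
  have c4 : mlt E.subtype (χ : G → ℂ) (ξ : E → ℂ) = 1 :=
    Nat.eq_one_of_mul_eq_one_right
      (eq_of_sum_eq_one c3 (mul_ne_zero hχ hψ) (mul_ne_zero hχ hψ)).2
  have c5 : conjIrr χ = χ := by
    refine D.unique_up hψ' (c2 _ ξ _ ?_ hψ) (c2 _ _ _ hχ hψ)
    rw [← h1, mlt_conjIrr]
    exact hχ
  have c6 : mlt N.subtype (χ : G → ℂ) (φ : N → ℂ) = mlt (inclusion hNE) (ξ : E → ℂ) (φ : N → ℂ) := by
    have := mlt_comp E.subtype (inclusion hNE) (isCharacter_of_isIrr χ.2) hφ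
    refine Eq.trans this ?_
    rw [Finset.sum_eq_single ξ, c4, one_mul]
    · intro ξ' _ hne
      by_contra h0
      obtain ⟨ψ₁, a, b⟩ := exists_mid_incl hTE hNT hNE (right_ne_zero_of_mul h0)
      have := D.unique_down b hψ' (c2 _ _ _ (left_ne_zero_of_mul h0) a) (c2 _ _ _ hχ hψ)
      subst this
      exact hne (eq_of_sum_eq_one c3 (mul_ne_zero (left_ne_zero_of_mul h0) a)
        (mul_ne_zero hχ hψ)).1
    · simp
  rw [← c6] at h4
  refine ⟨χ, ?_, ?_⟩
  · rw [finsum_eq_fsIndicator, ← h3]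
    exact fsIndicator_eq_of_odd E.subtype c5 h1 (by rw [c4]; exact odd_one)
  · have c7 := mlt_irr N.subtype χ φ
    have c8 : classInner (fun n : N => (χ : G → ℂ) n) φ ≠ 0 :=
      (mlt_ne_zero_iff N.subtype χ φ).1 h4.pos.ne'
    obtain ⟨d, hd, hd'⟩ := H30.exists_degree_eq_mul N φ.2 χ.2 c8
    have c9 := clifford_degree N χ.2 φ.2 c8
    rw [hd', mul_left_inj' (degree_ne_zero φ.2)] at c9
    erw [c7] at c9
    obtain ⟨a, ha⟩ := IsPGroup.iff_card.1 h2
    have c10 : mlt N.subtype (χ : G → ℂ) (φ : N → ℂ) ∣ 2 ^ a := by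
      rw [← ha]
      refine Dvd.dvd.trans ?_ hd
      exact ⟨_, by exact_mod_cast c9⟩
    have c11 := Nat.eq_one_of_dvd_coprimes ((Nat.coprime_two_right.2 h4).pow_right a) dvd_rfl c10
    have := finsum_eq_mlt N.subtype χ φ
    rw [c11, Nat.cast_one] at this
    exact this

end Cfsg.Agent.S4872
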