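import Cfsg.Statements.S4873
import Cfsg.Agent.H89.Real2

set_option autoImplicit false
open Cfsg

namespace Cfsg.Agent.S4873

set_option linter.style.haveILetI false
open Cfsg.Agent.H5 Cfsg.Agent.H89 Subgroup

/-- Let N be a normal subgroup of odd index in the finite group G. Then every irreducible complex character of N with Frobenius–Schur indicator +1 lies under exactly one irreducible character of G with Frobenius–Schur indicator +1. -/
theorem result {G : Type*} [Group G] [Finite G] (N : Subgroup G) [N.Normal] (hodd : Odd N.index) (φ : Cfsg.IrrCharacter ↥N) (hφ : (Nat.card ↥N : ℂ)⁻¹ * ∑ᶠ g : ↥N, (φ : ↥N → ℂ) (g * g) = 1) : ∃! χ : Cfsg.IrrCharacter G, (Nat.card G : ℂ)⁻¹ * ∑ᶠ g : G, (χ : G → ℂ) (g * g) = 1 ∧ (∑ᶠ n : ↥N, (χ : G → ℂ) n * (starRingEnd ℂ) ((φ : ↥N → ℂ) n)) ≠ 0 := by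
  letI : Fintype G := Fintype.ofFinite _
  letI : Fintype N := Fintype.ofFinite _
  have hn : N.subtype.range.Normal := by rwa [range_subtype]
  have ho : Odd N.subtype.range.index := by rwa [range_subtype]
  rw [finsum_eq_fsIndicator] at hφ
  simp only [finsum_eq_fsIndicator]
  obtain ⟨χ, h1, h2, h3⟩ := exists_real_over N.subtype N.subtype_injective hn ho
    (conjIrr_eq_of_fsIndicator (hφ.trans_ne one_ne_zero))
  have h4 : mlt N.subtype χ.1 φ.1 ≠ 0 := h2.trans_ne one_ne_zero
  exact ⟨χ, ⟨h3.trans hφ, (finsum_ne_zero_iff N.subtype χ φ).2 h4⟩, fun ψ hψ =>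
    eq_of_real_over N.subtype N.subtype_injective hn ho
      (conjIrr_eq_of_fsIndicator (hψ.1.trans_ne one_ne_zero)) h1
      ((finsum_ne_zero_iff N.subtype ψ φ).1 hψ.2) h4⟩

end Cfsg.Agent.S4873
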