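import Cfsg.Statements.S4890
import Cfsg.Agent.H34.NormNil

set_option autoImplicit false
open Cfsg

namespace Cfsg.Agent.S4890

/-- Let G be a finite group, p a prime, M a maximal ideal of the algebraic integers containing p, and B a p-block of G with a defect group that is normal in G. Then all height-zero irreducible characters of B have the same degree if and only if B is a nilpotent block. -/
theorem result {G : Type*} [Group G] [Finite G] (p : ℕ) [Fact p.Prime] (M : Ideal Cfsg.AlgInt) (hM : Cfsg.IsPModular p M) (B : Set (Cfsg.IrrCharacter G)) (hB : Cfsg.IsPBlock M B) (D : Subgroup G) (hD : Cfsg.IsDefectGroup p M B D) (hDn : D.Normal) : (∃ d : ℕ, ∀ χ : Cfsg.IrrCharacter G, χ ∈ B → Cfsg.blockHeight p B (χ : G → ℂ) = 0 → Cfsg.charDegree (χ : G → ℂ) = d) ↔ Cfsg.IsNilpotentBlock p M B := by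
  have := hM.2.1
  refine ⟨fun ⟨n, hn⟩ => H34.nilpotent_of_normal_defect hM hB hD hn, fun h => ?_⟩
  obtain ⟨e, hc, hn⟩ := H86.exists_ctx_of_nilpotent hM h hD
  obtain ⟨ψ, hψ, h0⟩ := H86.exists_height_zero (p := p) (H34.IsPBlock.nonempty hB)
  obtain ⟨Φ, hΦ⟩ := hc.exists_equiv_of_nilp hn hψ h0
  refine ⟨charDegree (ψ : G → ℂ), fun χ hχ h1 => ?_⟩
  obtain ⟨l, hl⟩ := Φ.surjective ⟨χ, hχ⟩
  have h2 := congrFun (hc.reg_eq_of_nilp hn hψ l) 1
  rw [← hΦ, hl, Pi.smul_apply, H86.reg_one hM.1, H86.reg_one hM.1, smul_eq_mul,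
    ← H34.irr_degree_cast, ← H34.irr_degree_cast, ← H34.irr_degree_cast] at h2
  have h3 : charDegree (χ : G → ℂ) = charDegree (l : D → ℂ) * charDegree (ψ : G → ℂ) := by
    exact_mod_cast h2
  have h4 := H34.factorization_degree_add_defect (p := p) hχ
  have h5 := H34.factorization_degree_add_defect (p := p) hψ
  rw [h3, Nat.factorization_mul (H34.irr_degree_ne_zero l) (H34.irr_degree_ne_zero ψ),
    Finsupp.add_apply] at h4
  obtain ⟨k, hk⟩ := hc.pgp.exists_card_eq
  obtain ⟨j, -, hj⟩ := (Nat.dvd_prime_pow hM.1).mp (hk ▸ H34.irr_degree_dvd_card l)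
  rw [hj, hM.1.factorization_pow, Finsupp.single_eq_same] at h4
  rw [h3, hj, show j = 0 by omega, pow_zero, one_mul]

end Cfsg.Agent.S4890
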