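import Cfsg.Statements.S4892
import Cfsg.Agent.H33.Dade

set_option autoImplicit false
open Cfsg

namespace Cfsg.Agent.S4892

/-- Let p be an odd prime, M a maximal ideal of the algebraic integers containing p, N a normal subgroup of the finite group G, and θ an irreducible character of N that is G-invariant, of degree prime to p, p-rational (values in the field generated over ℚ by a root of unity of order prime to p) and lies in the principal p-block of N. Let Q be a Sylow p-subgroup of N and suppose the index of N·C_G(Q) in G is a power of p. Then θ extends to a p-rational irreducible character of G lying in the principal p-block of G. -/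
theorem result {G : Type*} [Group G] [Finite G] (p : ℕ) [Fact p.Prime] (hp : p ≠ 2) (M : Ideal Cfsg.AlgInt) (hM : Cfsg.IsPModular p M) (N : Subgroup G) [N.Normal] (θ : Cfsg.IrrCharacter ↥N) (hinv : ∀ g : G, ∀ n n' : ↥N, (n' : G) = g * (n : G) * g⁻¹ → (θ : ↥N → ℂ) n' = (θ : ↥N → ℂ) n) (hdeg : ¬ p ∣ Cfsg.charDegree (θ : ↥N → ℂ)) (hrat : ∃ m : ℕ, ¬ p ∣ m ∧ ∀ n : ↥N, (θ : ↥N → ℂ) n ∈ IntermediateField.adjoin ℚ ({Complex.exp (2 * Real.pi * Complex.I / m)} : Set ℂ)) (hB : θ ∈ Cfsg.principalBlock M ↥N) (Q : Sylow p ↥N) (hidx : ∃ a : ℕ, (N ⊔ Subgroup.centralizer (((Q : Subgroup ↥N).map N.subtype : Subgroup G) : Set G)).index = p ^ a) : ∃ χ : Cfsg.IrrCharacter G, χ ∈ (Cfsg.principalBlock M G) ∧ (∃ n : ℕ, ¬ p ∣ n ∧ ∀ g : G, (χ : G → ℂ) g ∈ IntermediateField.adjoin ℚ ({Complex.exp (2 * Real.pi * Complex.I / n)} : Set ℂ)) ∧ ∀ n : ↥N, (χ : G → ℂ) n = (θ : ↥N → ℂ) n := by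
  classical
  have := hM.2.1
  have := Fintype.ofFinite G
  have := Fintype.ofFinite N
  have hN : N.Normal := inferInstance
  set P : Subgroup G := (Q : Subgroup N).map N.subtype with hP
  set C := Subgroup.centralizer (P : Set G) with hC
  set H := N ⊔ C with hH
  have := Fintype.ofFinite H
  have hPN : P ≤ N := Subgroup.map_subtype_le _
  have hPi : ¬ p ∣ P.relIndex N := by rw [H33.relIndex_map_subtype]; exact Q.not_dvd_index
  have hNH : N ≤ H := le_sup_left
  have hFr : Subgroup.normalizer (P : Set G) ⊔ N = ⊤ := Sylow.normalizer_sup_eq_top Q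
  have hCn : ∀ g ∈ Subgroup.normalizer (P : Set G), ∀ c ∈ C, g * c * g⁻¹ ∈ C := fun g hg c hc => by
    intro u hu
    have := hc _ ((Subgroup.mem_normalizer_iff''.1 hg u).1 hu)
    calc u * (g * c * g⁻¹) = g * (g⁻¹ * u * g * c) * g⁻¹ := by group
      _ = g * c * g⁻¹ * u := by rw [this]; group
  have hHn : H.Normal := by
    rw [← Subgroup.normalizer_eq_top_iff, eq_top_iff, ← hFr]
    refine sup_le (fun g hg => ?_) (hNH.trans Subgroup.le_normalizer)
    refine Subgroup.mem_normalizer_fintype fun h hh => ?_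
    have : H ≤ H.comap (MulAut.conj g).toMonoidHom :=
      sup_le (fun n hn => hNH (hN.conj_mem n hn g)) fun c hc => Subgroup.mem_sup_right (hCn g hg c hc)
    exact this hh
  obtain ⟨a, ha⟩ := hidx
  obtain ⟨m, hm, hrat⟩ := hrat
  have hm0 : m ≠ 0 := fun h => hm (h ▸ dvd_zero p)
  have hζ := (Complex.isPrimitiveRoot_exp m hm0).pow_eq_one
  have hdet := H33.not_dvd_detOrder_of_rational hM.1 hp θ.2 hm hζ hrat
  have hdegc : ∀ {K : Type _} [Group K] {χ : K → ℂ}, IsIrrCharacter K χ → χ 1 = (θ : N → ℂ) 1 →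
      ¬ p ∣ charDegree χ := fun hχ h => by
    have := H33.charDegree_cast (H5.isCharacter_of_isIrr hχ)
    rw [h, ← H33.irr_charDegree_cast, Nat.cast_inj] at this
    rwa [this]
  obtain ⟨η, hη1, hη2, hη3⟩ := H33.exists_good_ext_det hM (H33.cov_subgroupOf hPN hPi hNH le_rfl)
    (H33.irrOf_mem_principalBlock hM hNH hB) (fun g n => hinv g _ _ rfl)
    (hdegc (H33.irrOf hNH θ).2 rfl) (fun h => hdet (h.trans (H33.detOrder_comp_dvd
      (H5.isCharacter_of_isIrr θ.2) (Subgroup.subgroupOfEquivOfLe hNH).toMonoidHom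
      (H33.irrOf hNH θ).2)))
  have hηN : ∀ h : H, ∀ hh : (h : G) ∈ N, (η : H → ℂ) h = (θ : N → ℂ) ⟨h, hh⟩ :=
    fun h hh => hη2 ⟨h, hh⟩
  have hη1' : (η : H → ℂ) 1 = (θ : N → ℂ) 1 := hηN 1 (one_mem _)
  have hηC : ∀ c : H, (c : G) ∈ C → (η : H → ℂ) c / (η : H → ℂ) 1 - 1 ∈ H32.locMax M :=
    fun c hc => hη1.div_sub_one_mem hM (H5.isClassFunction_of_isIrr η.2) (P := P.subgroupOf H)
      (by rwa [Subgroup.relIndex_subgroupOf hNH]) (fun u hu => Subtype.ext (hc u hu))
  have hT : H6.inertia H (η : H → ℂ) = ⊤ := by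
    rw [eq_top_iff, ← hFr]
    refine sup_le (fun g hg => ?_) (hNH.trans (H6.le_inertia H (H5.isClassFunction_of_isIrr η.2)))
    have hirr := H6.isIrr_conjChar H η.2 g
    have hd : detOrder (H6.conjChar H g (η : H → ℂ)) ∣ detOrder (η : H → ℂ) :=
      H33.detOrder_comp_dvd (H5.isCharacter_of_isIrr η.2)
        (MulAut.conjNormal g : MulAut H).toMonoidHom hirr
    refine H33.eq_of_det_of_cong (N := N.subgroupOf H) hM {c : H | (c : G) ∈ C}
      (fun β h1 h2 => ⟨0, ?_⟩) η.2 hirr (H33.isIrr_res_of_ext hη2) (fun n => ?_)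
      (hdegc η.2 hη1') hη3 (fun h => hη3 (h.trans hd)) hηC
      (fun c hc => ?_)
    · have : H ≤ β.ker.map H.subtype := sup_le (fun n hn => ⟨⟨n, hNH hn⟩, h1 _ hn, rfl⟩)
        (fun c hc => ⟨⟨c, Subgroup.mem_sup_right hc⟩, h2 _ hc, rfl⟩)
      refine MonoidHom.ext fun h => ?_
      obtain ⟨y, hy, e⟩ := this h.2
      obtain rfl : y = h := Subtype.ext e
      simpa using hy
    · have hn : ((n : H) : G) ∈ N := n.2
      rw [H6.conjChar_apply, hηN _ (hN.conj_mem _ hn g), hηN _ hn]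
      exact hinv g _ _ rfl
    · rw [H6.conjChar_apply_one]
      exact hηC _ (hCn g hg c hc)
  obtain ⟨χ, ⟨hχ, h1, h2⟩, -⟩ := H30.exists_canonical_extension η.2
    (fun g => (H6.mem_inertia_iff H).1 (hT ▸ Subgroup.mem_top g)) (H33.irr_charDegree_cast η).symm
    (by
      rw [ha]
      exact ((Nat.Prime.coprime_iff_not_dvd hM.1).2 fun h =>
        ((Nat.Prime.dvd_mul hM.1).1 h).elim hη3 (hdegc η.2 hη1')).pow_left a)
  have hχN : ∀ n : N, χ n = (θ : N → ℂ) n := fun n => (h1 ⟨n, hNH n.2⟩).trans (hηN _ n.2)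
  have hχC : ∀ c ∈ C, χ c / χ 1 - 1 ∈ H32.locMax M := fun c hc => by
    have := hηC ⟨c, Subgroup.mem_sup_right hc⟩ hc
    rwa [← h1, ← h1] at this
  refine ⟨⟨χ, hχ⟩, ?_, ⟨m, hm, fun g => ?_⟩, hχN⟩
  · refine (H33.principal_iff_of_regular_le hM H
      (fun g hg => H33.mem_of_regular_of_index_pow hM.1 H ha hg) (θ := η) ?_).2
      (hη1.mem_principalBlock_self hM)
    rw [funext h1, H5.classInner_irr_self η.2]
    exact one_ne_zero
  obtain ⟨z, hz⟩ := H7.mem_range_of_forall_ringEquiv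
    (F := IntermediateField.adjoin ℚ ({Complex.exp (2 * Real.pi * Complex.I / m)} : Set ℂ))
    (z := χ g) (IsIntegral.isAlgebraic (IsIntegral.tower_top (R := ℤ)
      (H5.isIntegral_apply (H5.isCharacter_of_isIrr hχ) g))) (by
    intro τ hτ
    obtain ⟨k, -, hk⟩ := H7.exists_coprime_ringHom_character G τ.toRingHom
    have hirr := H7.isIrrCharacter_ringHom τ.toRingHom hχ
    have h11 : τ.toRingHom (χ 1) = χ 1 := by rw [hk _ (H5.isCharacter_of_isIrr hχ), one_pow]
    have := H33.eq_of_det_of_cong (N := N) hM C (fun β h1 h2 => ⟨a, ha ▸ H30.hom_pow_index H β ?_⟩)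
      hχ hirr (H33.isIrr_res_of_ext hχN) (fun n => ?_) (hdegc hχ (hχN 1)) (h2 ▸ hη3)
      (fun h => hη3 (h2 ▸ h.trans ?_)) hχC (fun c hc => ?_)
    · exact congrFun this g
    · exact fun h => (sup_le (fun n hn => h1 n hn) (fun c hc => h2 c hc) : H ≤ β.ker) h.2
    · rw [hχN]
      exact hτ ⟨_, hrat n⟩
    · rw [detOrder, H89.detChar_ringHom _ hχ, orderOf_dvd_iff_pow_eq_one]
      funext y
      have := congrFun (pow_orderOf_eq_one (detChar χ)) y
      rw [Pi.pow_apply, ← map_pow]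
      exact (congrArg _ this).trans (map_one _)
    · rw [h11, hk _ (H5.isCharacter_of_isIrr hχ)]
      exact hχC _ (C.pow_mem hc k))
  change χ g ∈ _
  rw [← hz]
  exact z.2

end Cfsg.Agent.S4892
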