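import Cfsg.Statements.S4911
import Cfsg.Agent.H89.Real4

set_option autoImplicit false
open Cfsg

namespace Cfsg.Agent.S4911

set_option linter.style.haveILetI false
open Cfsg.Agent.H5 Cfsg.Agent.H89 Subgroup

/-- Let P and K be subgroups of a finite group with P a p-group normalizing K and K of order prime to p. Then the number of P-invariant real-valued irreducible complex characters of K equals the number of conjugacy classes of K that are real (closed under inversion) and P-invariant. Moreover, if every real-valued irreducible character of K is P-invariant, then every real element of K (one conjugate in K to its inverse) is conjugate in K to an element centralized by P. -/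
theorem result {G : Type*} [Group G] [Finite G] (p : ℕ) [Fact p.Prime] (P K : Subgroup G) (hP : IsPGroup p ↥P) (hK : ¬ p ∣ Nat.card ↥K) (hPK : P ≤ Subgroup.normalizer (K : Set G)) : Nat.card {θ : Cfsg.IrrCharacter ↥K // (∀ k : ↥K, ((θ : ↥K → ℂ) k).im = 0) ∧ (∀ x ∈ P, ∀ k k' : ↥K, (k' : G) = x * (k : G) * x⁻¹ → (θ : ↥K → ℂ) k' = (θ : ↥K → ℂ) k)} = Nat.card {c : ConjClasses ↥K // (∀ k : ↥K, ConjClasses.mk k = c → IsConj k k⁻¹) ∧ ∀ k : ↥K, ConjClasses.mk k = c → ∀ x ∈ P, ∀ k' : ↥K, (k' : G) = x * (k : G) * x⁻¹ → ConjClasses.mk k' = c} ∧ ((∀ θ : Cfsg.IrrCharacter ↥K, (∀ k : ↥K, ((θ : ↥K → ℂ) k).im = 0) → (∀ x ∈ P, ∀ k k' : ↥K, (k' : G) = x * (k : G) * x⁻¹ → (θ : ↥K → ℂ) k' = (θ : ↥K → ℂ) k)) → ∀ k : ↥K, IsConj k k⁻¹ → ∃ k' : ↥K, IsConj k k' ∧ ∀ x ∈ P, x * (k' : G) * x⁻¹ = (k' : G)) := by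
  obtain ⟨a, ha⟩ := IsPGroup.iff_card.1 hP
  have hcop : (Nat.card K).Coprime (Nat.card P) :=
    ha ▸ Nat.Coprime.pow_right a ((Nat.Prime.coprime_iff_not_dvd Fact.out).2 hK).symm
  haveI := hP.isNilpotent
  have hs : Group.IsSolvable P ∨ Group.IsSolvable K := Or.inl inferInstance
  set C := K ⊓ centralizer (P : Set G) with hC
  have hCK : C ≤ K := inf_le_left
  have gc := gcorr_pgroup Fact.out P hP K hPK hcop C rfl hCK
  have rc : RCorr p (inclusion hCK) (fun χ => SInv P K χ.1) fun _ => True :=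
    gc.restrict Fact.out (fun _ h => h) fun _ h _ _ => iff_of_true h trivial
  have real_conj : ∀ {g c : K}, IsConj g g⁻¹ → IsConj (c * g * c⁻¹) (c * g * c⁻¹)⁻¹ :=
    fun {g c} h => by
      obtain ⟨d, hd⟩ := isConj_iff.1 h
      refine isConj_iff.2 ⟨c * d * c⁻¹, ?_⟩
      calc _ = c * (d * g * d⁻¹) * c⁻¹ := by group
        _ = _ := by rw [hd]; group
  have key : ∀ k : K, (∀ x ∈ P, ∀ k' : K, (k' : G) = x * (k : G) * x⁻¹ →
      ConjClasses.mk k' = ConjClasses.mk k) → ∃ n : K, (n * k * n⁻¹ : K).1 ∈ C := fun k h => by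
    obtain ⟨n, hn, h1⟩ := exists_conj_mem_cent hPK hcop hs (g := k) fun s hs => by
      obtain ⟨y, hy⟩ := isConj_iff.1 (ConjClasses.mk_eq_mk_iff_isConj.1
        (h s hs (cj K s (hPK hs) k) rfl).symm)
      exact ⟨y, y.2, congrArg Subtype.val hy⟩
    exact ⟨⟨n, hn⟩, (⟨n, hn⟩ * k * ⟨n, hn⟩⁻¹ : K).2, h1⟩
  have h1 : Nat.card {θ : IrrCharacter K // (∀ k : K, ((θ : K → ℂ) k).im = 0) ∧ SInv P K θ.1} =
      Nat.card {c : ConjClasses K // (∀ k : K, ConjClasses.mk k = c → IsConj k k⁻¹) ∧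
        ∀ k : K, ConjClasses.mk k = c → ∀ x ∈ P, ∀ k' : K, (k' : G) = x * (k : G) * x⁻¹ →
          ConjClasses.mk k' = c} := by
    have h2 := (rc.restrict Fact.out (I₁ := fun θ => ∀ k, (θ.1 k).im = 0)
      (J₁ := fun θ => ∀ k, (θ.1 k).im = 0) fun θ η h _ hm => by
        rw [← H88.conjIrr_eq_iff, ← H88.conjIrr_eq_iff]
        exact rc.real_iff h h.conjIrr trivial trivial hm).card_eq Fact.out
    simp only [true_and] at h2
    simp only [and_comm (b := SInv P K _)]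
    rw [h2, S0160.result]
    refine Nat.card_congr (Equiv.ofBijective
      (fun c => ⟨ConjClasses.map (inclusion hCK) c.1, ?_⟩) ⟨fun c c' e => ?_, fun c => ?_⟩)
    · obtain ⟨c, hc⟩ := c
      obtain ⟨c, rfl⟩ := ConjClasses.mk_surjective c
      refine ⟨fun k hk => ?_, fun k hk x hx k' e => ?_⟩ <;>
        obtain ⟨y, rfl⟩ := isConj_iff.1 (ConjClasses.mk_eq_mk_iff_isConj.1 hk).symm
      · exact real_conj ((inclusion hCK).map_isConj (hc c rfl))
      · refine (ConjClasses.mk_eq_mk_iff_isConj.2 (isConj_iff.2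
          ⟨cj K x (hPK hx) y, Subtype.ext ?_⟩)).symm
        have hc := mem_centralizer_iff.1 c.2.2 x hx
        change x * y * x⁻¹ * c * (x * y * x⁻¹)⁻¹ = k'
        rw [e]
        calc _ = x * y * (x⁻¹ * (c * x)) * (y : G)⁻¹ * x⁻¹ := by group
          _ = x * (y * c * (y : G)⁻¹) * x⁻¹ := by rw [← hc]; group
    · obtain ⟨c, hc⟩ := c
      obtain ⟨c', hc'⟩ := c'
      obtain ⟨c, rfl⟩ := ConjClasses.mk_surjective c
      obtain ⟨c', rfl⟩ := ConjClasses.mk_surjective c'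
      obtain ⟨y, hy⟩ := isConj_iff.1 (ConjClasses.mk_eq_mk_iff_isConj.1 (congrArg Subtype.val e))
      obtain ⟨d, hd, h3⟩ := exists_cent_conj hPK hcop hs c.2.2 c'.2.2 y.2 (congrArg Subtype.val hy)
      exact Subtype.ext (ConjClasses.mk_eq_mk_iff_isConj.2 (isConj_iff.2 ⟨⟨d, hd⟩, Subtype.ext h3⟩))
    · obtain ⟨c, hc, hc'⟩ := c
      obtain ⟨k, rfl⟩ := ConjClasses.mk_surjective c
      obtain ⟨n, hn⟩ := key k (hc' k rfl)
      refine ⟨⟨ConjClasses.mk ⟨_, hn⟩, fun g hg => ?_⟩, Subtype.ext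
        (ConjClasses.mk_eq_mk_iff_isConj.2 (isConj_iff.2 ⟨n, rfl⟩)).symm⟩
      have h3 : IsConj (inclusion hCK g) (inclusion hCK g)⁻¹ := hc _
        ((congrArg (ConjClasses.map (inclusion hCK)) hg).trans
          (ConjClasses.mk_eq_mk_iff_isConj.2 (isConj_iff.2 ⟨n, rfl⟩)).symm)
      obtain ⟨y, hy⟩ := isConj_iff.1 h3
      obtain ⟨d, hd, h4⟩ := exists_cent_conj hPK hcop hs g.2.2 (inv_mem (mem_inf.1 g.2).2) y.2
        (congrArg Subtype.val hy)
      exact isConj_iff.2 ⟨⟨d, hd⟩, Subtype.ext h4⟩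
  refine ⟨h1, fun h k hk => ?_⟩
  have e0 : Nat.card {θ : IrrCharacter K // (∀ k : K, ((θ : K → ℂ) k).im = 0) ∧ SInv P K θ.1} =
      Nat.card {θ : IrrCharacter K // ∀ k : K, ((θ : K → ℂ) k).im = 0} :=
    Nat.card_congr (Equiv.subtypeEquivRight fun θ => and_iff_left_of_imp (h θ))
  rw [e0, S0160.result] at h1
  obtain ⟨⟨c, hc⟩, e⟩ := (Function.Injective.bijective_of_nat_card_le
    (f := Subtype.map id fun _ h => h.1) (Subtype.map_injective _ Function.injective_id) h1.le).2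
    ⟨ConjClasses.mk k, fun g hg => by
      obtain ⟨c, rfl⟩ := isConj_iff.1 (ConjClasses.mk_eq_mk_iff_isConj.1 hg).symm
      exact real_conj hk⟩
  obtain rfl : c = ConjClasses.mk k := congrArg Subtype.val e
  obtain ⟨n, hn⟩ := key k (hc.2 k rfl)
  exact ⟨n * k * n⁻¹, isConj_iff.2 ⟨n, rfl⟩, fun x hx => by
    rw [mem_centralizer_iff.1 hn.2 x hx, mul_inv_cancel_right]⟩

end Cfsg.Agent.S4911
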