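import Cfsg.Statements.S4912
import Cfsg.Agent.H89.Real2

set_option autoImplicit false
open Cfsg

namespace Cfsg.Agent.S4912

set_option linter.style.haveILetI false
open Cfsg.Agent.H5 Cfsg.Agent.H89 Subgroup

/-- Let G be a finite group with a non-abelian minimal normal subgroup N, and let φ be an irreducible complex character of N with stabilizer I in G such that φ extends to an irreducible character of I with Frobenius–Schur indicator +1. Put d = φ(1)·[G : I]. Then the number of linear characters of G with Frobenius–Schur indicator +1 is at most [G : I] times the number of irreducible characters of G of degree d with Frobenius–Schur indicator +1. -/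
theorem result {G : Type*} [Group G] [Finite G] (N : Subgroup G) (hN : N.Normal) (hN1 : N ≠ ⊥) (hmin : ∀ M : Subgroup G, M.Normal → M ≤ N → M = ⊥ ∨ M = N) (hna : ¬ IsMulCommutative ↥N) (φ : Cfsg.IrrCharacter ↥N) (I : Subgroup G) (hI : ∀ g : G, g ∈ I ↔ ∀ n n' : ↥N, (n' : G) = g * (n : G) * g⁻¹ → (φ : ↥N → ℂ) n' = (φ : ↥N → ℂ) n) (hNI : N ≤ I) (hext : ∃ ψ : Cfsg.IrrCharacter ↥I, (Nat.card ↥I : ℂ)⁻¹ * ∑ᶠ g : ↥I, (ψ : ↥I → ℂ) (g * g) = 1 ∧ ∀ n : ↥N, (ψ : ↥I → ℂ) (Subgroup.inclusion hNI n) = (φ : ↥N → ℂ) n) : Nat.card {χ : Cfsg.IrrCharacter G // Cfsg.charDegree (χ : G → ℂ) = 1 ∧ (Nat.card G : ℂ)⁻¹ * ∑ᶠ g : G, (χ : G → ℂ) (g * g) = 1} ≤ I.index * Nat.card {χ : Cfsg.IrrCharacter G // Cfsg.charDegree (χ : G → ℂ) = Cfsg.charDegree (φ : ↥N → ℂ) * I.index ∧ (Nat.card G : ℂ)⁻¹ * ∑ᶠ g : G, (χ : G → ℂ) (g * g) = 1} := by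
  letI : Fintype G := Fintype.ofFinite _
  letI : Fintype I := Fintype.ofFinite _
  have hNG : N ≤ _root_.commutator G := by
    rcases hmin ⁅N, N⁆ inferInstance (commutator_le_left N N) with h | h
    · exact (hna ⟨⟨fun a b => Subtype.ext (commutatorElement_eq_one_iff_mul_comm.1
        (mem_bot.1 (h ▸ commutator_mem_commutator a.2 b.2)))⟩⟩).elim
    · exact h ▸ commutator_mono le_top le_top
  obtain ⟨ψ, hψ1, hψ⟩ := hext
  rw [finsum_eq_fsIndicator] at hψ1
  simp only [finsum_eq_fsIndicator]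
  obtain ⟨χ, hχ⟩ := exists_irr_over I.subtype I.subtype_injective ψ
  have h0 : mlt (inclusion hNI) ψ.1 φ.1 ≠ 0 := by rw [mlt_eq_one_of_res _ hψ]; exact one_ne_zero
  have hd := (cliffData_top φ hI hNI).charDegree_eq h0 hχ
  have hr := ((cliffData_top φ hI hNI).real h0 hχ
    (conjIrr_eq_of_fsIndicator (hψ1.trans_ne one_ne_zero))).2
  rw [card_linear_eq fun χ => H6.fsIndicator χ = 1]
  exact card_le_index_mul φ hI hNI hNG hψ hχ _ _ fun lam h => ⟨by
    rw [charDegree_mulPerm, hd, range_subtype, mul_comm, charDegree, charDegree, ← hψ, map_one], by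
    rw [fsIndicator_mulPerm (hom_sq_eq_one_of_fsIndicator h), hr, hψ1]⟩

end Cfsg.Agent.S4912
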