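import Cfsg.Statements.S4914
import Cfsg.Agent.H89.RelDeg

set_option autoImplicit false
open Cfsg

namespace Cfsg.Agent.S4914

set_option linter.style.haveILetI false
open Cfsg.Agent.H5 Cfsg.Agent.H89 Subgroup

/-- Let P and K be subgroups of a finite group G with P a p-group normalizing K, and suppose K has a normal Sylow p-subgroup Q. Let C be the subgroup of those k ∈ K whose commutator with every element of P lies in Q (so that C/Q is the fixed-point subgroup of P on K/Q). Then there is a bijection f from the P-invariant irreducible complex characters of K onto the P-invariant irreducible complex characters of C such that, for every P-invariant irreducible character χ of K, the multiplicity of f(χ) in the restriction of χ to C is a natural number congruent to 1 or to −1 modulo p, every other P-invariant irreducible character of C occurs in that restriction with multiplicity divisible by p,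 and the degrees of χ and f(χ) are congruent modulo p up to sign. -/
theorem result {G : Type*} [Group G] [Finite G] (p : ℕ) [Fact p.Prime] (P K Q C : Subgroup G) (hP : IsPGroup p ↥P) (hPK : P ≤ Subgroup.normalizer (K : Set G)) (hQK : Q ≤ K) (hQn : ∀ k ∈ K, ∀ q ∈ Q, k * q * k⁻¹ ∈ Q) (hQp : ∃ a : ℕ, Nat.card ↥Q = p ^ a) (hQsyl : ¬ p ∣ Q.relIndex K) (hCK : C ≤ K) (hC : ∀ k : G, k ∈ C ↔ (k ∈ K ∧ ∀ x ∈ P, x * k * x⁻¹ * k⁻¹ ∈ Q)) : ∃ f : {χ : Cfsg.IrrCharacter ↥K // (∀ x ∈ P, ∀ k k' : ↥K, (k' : G) = x * (k : G) * x⁻¹ → (χ : ↥K → ℂ) k' = (χ : ↥K → ℂ) k)} → {ξ : Cfsg.IrrCharacter ↥C // (∀ x ∈ P, ∀ k k' : ↥C, (k' : G) = x * (k : G) * x⁻¹ → (ξ : ↥C → ℂ) k' = (ξ : ↥C → ℂ) k)}, Function.Bijective f ∧ ∀ χ, (∀ ξ : {ξ : Cfsg.IrrCharacter ↥C // (∀ x ∈ P, ∀ k k' : ↥C, (k' : G) = x * (k : G) * x⁻¹ → (ξ : ↥C → ℂ) k' = (ξ : ↥C → ℂ) k)}, ∃ m : ℕ, (Nat.card ↥C : ℂ)⁻¹ * ∑ᶠ c : ↥C, (χ.1 : ↥K → ℂ) (Subgroup.inclusion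 hCK c) * (starRingEnd ℂ) ((ξ.1 : ↥C → ℂ) c) = (m : ℂ) ∧ (ξ = f χ → ((m : ZMod p) = 1 ∨ (m : ZMod p) = -1)) ∧ (ξ ≠ f χ → p ∣ m)) ∧ ((Cfsg.charDegree ((f χ).1 : ↥C → ℂ) : ZMod p) = (Cfsg.charDegree (χ.1 : ↥K → ℂ) : ZMod p) ∨ (Cfsg.charDegree ((f χ).1 : ↥C → ℂ) : ZMod p) = -(Cfsg.charDegree (χ.1 : ↥K → ℂ) : ZMod p)) := by
  letI : Fintype C := Fintype.ofFinite _
  have hKQ := le_normalizer_of_conj hQn
  obtain ⟨a, ha⟩ := hQp
  have hPQ : P ≤ normalizer (Q : Set G) := le_normalizer_of_conj fun x hx q hq =>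
    mem_of_pow_eq_one hKQ hQsyl ((mem_normalizer_iff.1 (hPK hx) q).1 (hQK hq)) (a := a) (by
      rw [conj_pow, ← ha,
        show q ^ Nat.card Q = 1 from congrArg Subtype.val (pow_card_eq_one' (x := (⟨q, hq⟩ : Q)))]
      simp)
  have hfix : IsFixMod P K Q C := hC
  obtain ⟨f, hf, h⟩ := (rcorr_pgroup hP hPK hPQ hQK hKQ hfix hQsyl).exists_bijection Fact.out
  refine ⟨f, hf, fun χ => ⟨fun ξ => ⟨mlt (inclusion hCK) χ.1.1 ξ.1.1, ?_, ?_, fun hne => ?_⟩, ?_⟩⟩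
  · rw [finsum_eq_sum_of_fintype, ← mlt_irr]; rfl
  · rintro rfl; exact (h χ).1
  · exact (ZMod.natCast_eq_zero_iff _ _).1 ((h χ).2 ξ hne)
  · rw [charDegree_congr hP hPK (hfix.le_normalizer hQK hPQ) hCK χ.2 (f χ).2 fun ξ hξ hne =>
      (h χ).2 ⟨ξ, hξ⟩ fun e => hne (congrArg Subtype.val e)]
    rcases (h χ).1 with e | e <;> rw [e] <;> simp

end Cfsg.Agent.S4914
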