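import Cfsg.Statements.S4916
import Cfsg.Agent.H89.PrinDeg

set_option autoImplicit false
open Cfsg

namespace Cfsg.Agent.S4916

set_option linter.style.haveILetI false
open Cfsg.Agent.H5 Cfsg.Agent.H89 Subgroup

/-- Let G be a finite group, p a prime and M a maximal ideal of the algebraic integers containing p. Then the principal character is the only irreducible character of degree prime to p in the principal p-block of G if and only if p does not divide the order of G. -/
theorem result {G : Type*} [Group G] [Finite G] (p : ℕ) [Fact p.Prime] (M : Ideal Cfsg.AlgInt) (hM : Cfsg.IsPModular p M) : (∀ χ : Cfsg.IrrCharacter G, χ ∈ Cfsg.principalBlock M G → ¬ p ∣ Cfsg.charDegree (χ : G → ℂ) → (χ : G → ℂ) = fun _ => (1 : ℂ)) ↔ ¬ p ∣ Nat.card G := by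
  haveI := hM.2.1
  refine ⟨fun h hp => ?_, fun h χ hχ _ => ?_⟩
  · obtain ⟨χ, h1, h2, x, -, h3⟩ := exists_principal_ne_one hM (default : Sylow p G) hp
    rw [h χ h1 h2] at h3
    exact h3 rfl
  · exact eq_one_of_forall_eq_degree χ.2 fun g =>
      H33.apply_eq_degree_of_mem_principalBlock hM ⊤ (by rwa [card_top]) hχ (mem_top g)

end Cfsg.Agent.S4916
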