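import Cfsg.Statements.S4923
import Cfsg.Agent.H89.AMGM
import Cfsg.Agent.H4.MaxClass
import Cfsg.Agent.H3.PResidual

set_option autoImplicit false
open Cfsg

namespace Cfsg.Agent.S4923

set_option linter.style.haveILetI false
open Cfsg.Agent.H5 Cfsg.Agent.H89 Subgroup

theorem fix_adjoin {S : Set ℂ} (τ : ℂ ≃+* ℂ) (h : ∀ s ∈ S, τ s = s) {z : ℂ}
    (hz : z ∈ IntermediateField.adjoin ℚ S) : τ z = z := by
  induction hz using IntermediateField.adjoin_induction with
  | mem x hx => exact h x hx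
  | algebraMap x => simp
  | add x y _ _ hx hy => rw [map_add, hx, hy]
  | inv x _ hx => rw [map_inv₀, hx]
  | mul x y _ _ hx hy => rw [map_mul, hx, hy]

theorem adjoin_le_of_fix {S T : Set ℂ} (hS : ∀ s ∈ S, IsAlgebraic ℚ s)
    (h : ∀ τ : ℂ ≃+* ℂ, (∀ t ∈ T, τ t = t) → ∀ s ∈ S, τ s = s) :
    IntermediateField.adjoin ℚ S ≤ IntermediateField.adjoin ℚ T := by
  rw [IntermediateField.adjoin_le_iff]
  intro s hs
  obtain ⟨a, ha⟩ := H7.mem_range_of_forall_ringEquiv (F := IntermediateField.adjoin ℚ T)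
    ((hS s hs).tower_top _) fun τ hτ =>
      h τ (fun t ht => hτ ⟨t, IntermediateField.subset_adjoin ℚ T ht⟩) s hs
  rw [← ha]
  exact a.2

theorem add_inv_eq_iff {x y ε : ℂ} (hx : x ≠ 0) (hy : y ≠ 0) :
    x + ε * x⁻¹ = y + ε * y⁻¹ ↔ x = y ∨ x = ε * y⁻¹ := by
  have h1 : x + ε * x⁻¹ - (y + ε * y⁻¹) = (x - y) * (x - ε * y⁻¹) * x⁻¹ := by
    field_simp
    ring
  rw [← sub_eq_zero, h1, mul_eq_zero, mul_eq_zero, sub_eq_zero, sub_eq_zero]
  simp [hx]

theorem field_eq_iff {G : Type*} [Group G] [Finite G] {g : G} {N : ℕ} (hN : N ≠ 0)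
    (hg : g ^ N = 1) {ζ : ℂ} (hζ : IsPrimitiveRoot ζ N) {ε : ℂ} (hε : ε = 1 ∨ ε = -1) :
    IntermediateField.adjoin ℚ {z : ℂ | ∃ χ : Cfsg.IrrCharacter G, (χ : G → ℂ) g = z} =
        IntermediateField.adjoin ℚ ({ζ + ε * ζ⁻¹} : Set ℂ) ↔
      ∀ m : ℕ, m.Coprime N → (IsConj g (g ^ m) ↔ ζ ^ m = ζ ∨ ζ ^ m = ε * ζ⁻¹) := by
  have hζ0 : ζ ≠ 0 := hζ.ne_zero hN
  have key : ∀ (τ : ℂ ≃+* ℂ) (m : ℕ), (∀ z : ℂ, z ^ N = 1 → τ z = z ^ m) →
      ((∀ s ∈ {z : ℂ | ∃ χ : Cfsg.IrrCharacter G, (χ : G → ℂ) g = z}, τ s = s) ↔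
        IsConj g (g ^ m)) ∧
      ((∀ s ∈ ({ζ + ε * ζ⁻¹} : Set ℂ), τ s = s) ↔ ζ ^ m = ζ ∨ ζ ^ m = ε * ζ⁻¹) := by
    intro τ m hτ
    have h1 : ∀ χ : Cfsg.IrrCharacter G, τ ((χ : G → ℂ) g) = (χ : G → ℂ) (g ^ m) := fun χ =>
      H7.ringHom_apply_character τ.toRingHom hτ (isCharacter_of_isIrr χ.2) hg
    constructor
    · rw [isConj_iff_forall_irr]
      constructor
      · intro h χ
        rw [← h1, h _ ⟨χ, rfl⟩]
      · rintro h _ ⟨χ, rfl⟩
        rw [h1, h]
    · have h2 : τ ε = ε := by rcases hε with rfl | rfl <;> simp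
      simp only [Set.mem_singleton_iff, forall_eq, map_add, map_mul, map_inv₀, h2,
        hτ ζ hζ.pow_eq_one]
      exact add_inv_eq_iff (pow_ne_zero _ hζ0) hζ0
  constructor
  · intro h m hm
    obtain ⟨τ, hτ⟩ := H7.exists_ringEquiv_pow hN hm
    rw [← (key τ m hτ).1, ← (key τ m hτ).2]
    constructor
    · intro h1 s hs
      exact fix_adjoin τ h1 (h ▸ IntermediateField.subset_adjoin ℚ _ hs)
    · intro h1 s hs
      exact fix_adjoin τ h1 (h ▸ IntermediateField.subset_adjoin ℚ _ hs)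
  · intro h
    have hζa : IsAlgebraic ℚ ζ := (hζ.isIntegral (Nat.pos_of_ne_zero hN)).tower_top.isAlgebraic
    apply le_antisymm
    · refine adjoin_le_of_fix ?_ fun τ h1 => ?_
      · rintro _ ⟨χ, rfl⟩
        exact (isIntegral_apply (isCharacter_of_isIrr χ.2) g).tower_top.isAlgebraic
      · obtain ⟨m, hm, hτ⟩ := H7.exists_coprime_pow_of_ringEquiv τ hN
        exact (key τ m hτ).1.2 ((h m hm).2 ((key τ m hτ).2.1 h1))
    · refine adjoin_le_of_fix ?_ fun τ h1 => ?_
      · rintro _ rfl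
        refine hζa.add (IsAlgebraic.mul ?_ hζa.inv)
        rcases hε with rfl | rfl
        · exact isAlgebraic_one
        · exact isAlgebraic_one.neg
      · obtain ⟨m, hm, hτ⟩ := H7.exists_coprime_pow_of_ringEquiv τ hN
        exact (key τ m hτ).2.2 ((h m hm).1 ((key τ m hτ).1.1 h1))

theorem pow_eq_pow_iff_root {G : Type*} [Group G] {g : G} {N : ℕ} (hN : N ≠ 0)
    (hg : orderOf g = N) {ζ : ℂ} (hζ : IsPrimitiveRoot ζ N) (i j : ℕ) :
    g ^ i = g ^ j ↔ ζ ^ i = ζ ^ j := by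
  have hζ0 : ζ ≠ 0 := hζ.ne_zero hN
  rw [← mul_inv_eq_one, ← zpow_natCast, ← zpow_natCast, ← zpow_sub, ← orderOf_dvd_iff_zpow_eq_one,
    hg, ← hζ.zpow_eq_one_iff_dvd, zpow_sub₀ hζ0, div_eq_one_iff_eq (zpow_ne_zero _ hζ0),
    zpow_natCast, zpow_natCast]

theorem exists_conj_eq_of_odd_index {G : Type*} [Group G] [Finite G] {g : G} {k : ℕ}
    (hg : orderOf g = 2 ^ (k + 1)) (K : Subgroup G) (hK : ¬ 2 ∣ K.index)
    (hKN : K ≤ normalizer (zpowers g : Set G)) {x : G} (hx : x ∈ normalizer (zpowers g : Set G)) :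
    ∃ u ∈ K, x * g * x⁻¹ = u * g * u⁻¹ := by
  have hp : IsPGroup 2 (MulAut (zpowers g)) := by
    refine IsPGroup.of_card (n := k) ?_
    rw [IsCyclic.card_mulAut, Nat.card_zpowers, hg, Nat.totient_prime_pow_succ Nat.prime_two]
    simp
  have h1 := H3.sup_pResidual_eq_top_of_not_dvd_index (p := 2)
    (K := K.subgroupOf (normalizer (zpowers g : Set G)))
    (fun h => hK (h.trans (relIndex_dvd_index_of_le hKN)))
  have h2 : (⟨x, hx⟩ : normalizer (zpowers g : Set G)) ∈
      ((K.subgroupOf (normalizer (zpowers g : Set G)) ⊔ pResidual 2 _ : Subgroup _) : Set _) := by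
    rw [h1]; trivial
  rw [mul_normal] at h2
  obtain ⟨u, hu, w, hw, huw⟩ := h2
  have h3 := H3.pResidual_le_ker (zpowers g).normalizerMonoidHom hp hw
  rw [normalizerMonoidHom_ker, mem_subgroupOf] at h3
  have h4 := h3 g (mem_zpowers g)
  refine ⟨u, hu, ?_⟩
  have h5 : x = u * w := (congrArg Subtype.val huw).symm
  rw [h5]
  calc (u : G) * w * g * ((u : G) * w)⁻¹ = u * (w * g) * (w : G)⁻¹ * (u : G)⁻¹ := by group
    _ = _ := by rw [← h4]; group

theorem mem_normalizer_zpowers {G : Type*} [Group G] [Finite G] {g x : G}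
    (h : x * g * x⁻¹ ∈ zpowers g) : x ∈ normalizer (zpowers g : Set G) := by
  refine mem_normalizer_fintype ?_
  rintro _ ⟨k, rfl⟩
  simp only
  rw [← conj_zpow]
  exact zpow_mem h k


/-- Let G be a finite group with Sylow 2-subgroup P of order 2^n ≥ 8, and let ζ be a primitive 2^(n−1)-th root of unity in ℂ. Then the commutator subgroup of P has index 4 in P if and only if there is an element g of P whose conjugacy class in G has even size and such that the field generated over ℚ by the values at g of all irreducible complex characters of G equals ℚ(ζ + ζ⁻¹) or ℚ(ζ − ζ⁻¹). -/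
theorem result {G : Type*} [Group G] [Finite G] (P : Sylow 2 G) (n : ℕ) (hn : 3 ≤ n) (hP : Nat.card P = 2 ^ n) (ζ : ℂ) (hζ : IsPrimitiveRoot ζ (2 ^ (n - 1))) :
    (commutator ↥P).index = 4 ↔
      ∃ g : G, g ∈ (P : Subgroup G) ∧ 2 ∣ (Subgroup.centralizer ({g} : Set G)).index ∧
        (IntermediateField.adjoin ℚ {z : ℂ | ∃ χ : Cfsg.IrrCharacter G, (χ : G → ℂ) g = z} = IntermediateField.adjoin ℚ ({ζ + ζ⁻¹} : Set ℂ) ∨
          IntermediateField.adjoin ℚ {z : ℂ | ∃ χ : Cfsg.IrrCharacter G, (χ : G → ℂ) g = z} = IntermediateField.adjoin ℚ ({ζ - ζ⁻¹} : Set ℂ)) := by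
  change (commutator ↥(P : Subgroup G)).index = 4 ↔ _
  obtain ⟨m, rfl⟩ : ∃ m, n = m + 2 := ⟨n - 2, by omega⟩
  have hm : 1 ≤ m := by omega
  have e1 : m + 2 - 1 = m + 1 := by omega
  rw [e1] at hζ
  have hN : 2 ^ (m + 1) ≠ 0 := by positivity
  have hζ0 : ζ ≠ 0 := hζ.ne_zero hN
  have hhalf : ζ ^ 2 ^ m = -1 :=
    (hζ.pow (Nat.pos_of_ne_zero hN) (pow_succ 2 m)).eq_neg_one_of_two_right
  have f1 : ζ + ζ⁻¹ = ζ + 1 * ζ⁻¹ := by ring
  have f2 : ζ - ζ⁻¹ = ζ + (-1) * ζ⁻¹ := by ring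
  rw [f1, f2]
  have hord : ∀ a : (P : Subgroup G), (zpowers a).index = 2 ↔ orderOf a = 2 ^ (m + 1) := by
    intro a
    have h1 := (zpowers a).card_mul_index
    rw [Nat.card_zpowers, hP, pow_succ] at h1
    constructor
    · intro h
      rw [h] at h1
      omega
    · intro h
      rw [h] at h1
      exact Nat.eq_of_mul_eq_mul_left (Nat.pos_of_ne_zero hN) h1
  constructor
  · intro h4
    have hna : ¬ IsMulCommutative (P : Subgroup G) := by
      intro h
      rw [(commutator_eq_bot_iff _).2 h, index_bot, hP] at h4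
      have : 2 ^ 3 ≤ 2 ^ (m + 2) := Nat.pow_le_pow_right (by norm_num) (by omega)
      omega
    obtain ⟨a, ha⟩ := H4.exists_index_zpowers_eq_two _ P.2 h4
    obtain ⟨b, hb⟩ := H4.exists_not_mem_of_index_eq_two ha
    have hoa := (hord a).1 ha
    have hog : orderOf (a : G) = 2 ^ (m + 1) := by rw [orderOf_coe, hoa]
    obtain ⟨k, ε, hε, hk, hkε, hne⟩ : ∃ (k : ℕ) (ε : ℂ), (ε = 1 ∨ ε = -1) ∧ b * a * b⁻¹ = a ^ k ∧
        ζ ^ k = ε * ζ⁻¹ ∧ ζ ^ 2 ≠ ε := by
      by_cases h : a * (b * a * b⁻¹) = 1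
      · refine ⟨2 ^ (m + 1) - 1, 1, Or.inl rfl, ?_, ?_, fun h2 => ?_⟩
        · rw [pow_sub _ (Nat.pos_of_ne_zero hN), ← hoa, pow_orderOf_eq_one, one_mul, pow_one]
          exact eq_inv_of_mul_eq_one_right h
        · rw [pow_sub₀ _ hζ0 (Nat.pos_of_ne_zero hN), hζ.pow_eq_one, pow_one]
        · have := Nat.le_of_dvd (by norm_num) ((hζ.pow_eq_one_iff_dvd 2).1 h2)
          have : 2 ^ 2 ≤ 2 ^ (m + 1) := Nat.pow_le_pow_right (by norm_num) (by omega)
          omega
      · obtain ⟨h2, h3⟩ := H4.conj_eq_of_mul_conj_ne_one h4 hna ha hb hoa h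
        refine ⟨2 ^ m - 1, -1, Or.inr rfl, h3, ?_, fun h5 => ?_⟩
        · rw [pow_sub₀ _ hζ0 (Nat.pos_of_ne_zero (by positivity)), hhalf, pow_one]
        · have h6 : ζ ^ 4 = 1 := by
            rw [show 4 = 2 * 2 from rfl, pow_mul, h5]; norm_num
          have := Nat.le_of_dvd (by norm_num) ((hζ.pow_eq_one_iff_dvd 4).1 h6)
          have : 2 ^ 3 ≤ 2 ^ (m + 1) := Nat.pow_le_pow_right (by norm_num) (by omega)
          omega
    have hk' : (b : G) * a * (b : G)⁻¹ = (a : G) ^ k := congrArg Subtype.val hk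
    have hPc : ∀ u ∈ (P : Subgroup G), u * a * u⁻¹ = a ∨ u * a * u⁻¹ = (a : G) ^ k := by
      intro u hu
      have hz : ∀ y : (P : Subgroup G), y ∈ zpowers a → (y : G) * a = a * y := by
        rintro _ ⟨j, rfl⟩
        exact congrArg Subtype.val ((Commute.refl a).zpow_left j).eq
      by_cases h : (⟨u, hu⟩ : (P : Subgroup G)) ∈ zpowers a
      · left
        rw [hz _ h, mul_inv_cancel_right]
      · right
        have h1 : b⁻¹ * ⟨u, hu⟩ ∈ zpowers a := by
          rw [mul_mem_iff_of_index_two ha]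
          simp [h, hb]
        have h2 := hz _ h1
        simp only [coe_mul, coe_inv] at h2
        rw [← hk']
        calc u * a * u⁻¹ = b * ((b : G)⁻¹ * u * a) * u⁻¹ := by group
          _ = _ := by rw [h2]; group
    have hPN : (P : Subgroup G) ≤ normalizer (zpowers (a : G) : Set G) := by
      intro u hu
      apply mem_normalizer_zpowers
      rcases hPc u hu with h | h <;> rw [h]
      · exact mem_zpowers _
      · exact pow_mem (mem_zpowers _) _
    refine ⟨a, a.2, ?_, ?_⟩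
    · by_contra hodd
      obtain ⟨u, hu, hu'⟩ := exists_conj_eq_of_odd_index hog _ hodd (fun u hu =>
        mem_normalizer_zpowers (by
          rw [mem_centralizer_singleton_iff.1 hu, mul_inv_cancel_right]
          exact mem_zpowers _)) (hPN b.2)
      rw [mem_centralizer_singleton_iff.1 hu, mul_inv_cancel_right, hk'] at hu'
      have h1 := (pow_eq_pow_iff_root hN hog hζ k 1).1 (by rw [hu', pow_one])
      apply hne
      rw [hkε, pow_one] at h1
      rw [sq]
      nth_rewrite 1 [← h1]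
      field_simp
    · have : ∀ j : ℕ, IsConj (a : G) ((a : G) ^ j) ↔ ζ ^ j = ζ ∨ ζ ^ j = ε * ζ⁻¹ := by
        intro j
        rw [← hkε, ← pow_eq_pow_iff_root hN hog hζ j k]
        nth_rewrite 2 [← pow_one ζ]
        rw [← pow_eq_pow_iff_root hN hog hζ j 1, pow_one]
        constructor
        · intro h
          obtain ⟨x, hx⟩ := isConj_iff.1 h
          obtain ⟨u, hu, hu'⟩ := exists_conj_eq_of_odd_index hog _ P.not_dvd_index hPN
            (x := x) (mem_normalizer_zpowers (by rw [hx]; exact pow_mem (mem_zpowers _) _))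
          rw [← hx, hu']
          exact hPc u hu
        · rintro (h | h) <;> rw [h]
          rw [← hk']
          exact isConj_iff.2 ⟨b, rfl⟩
      have h1 := (field_eq_iff hN (by rw [← hog, pow_orderOf_eq_one]) hζ hε).2 fun j _ => this j
      rcases hε with rfl | rfl
      · exact Or.inl h1
      · exact Or.inr h1
  · rintro ⟨g, hg, heven, hfield⟩
    let a : (P : Subgroup G) := ⟨g, hg⟩
    obtain ⟨b, hb⟩ : ∃ b : (P : Subgroup G), b * a * b⁻¹ ≠ a := by
      by_contra! h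
      refine P.not_dvd_index (heven.trans (index_dvd_of_le fun u hu => ?_))
      have := congrArg Subtype.val (h ⟨u, hu⟩)
      exact mem_centralizer_singleton_iff.2 (mul_inv_eq_iff_eq_mul.1 this)
    have hna : ¬ IsMulCommutative (P : Subgroup G) := fun h => hb (by
      rw [h.is_comm.comm b a, mul_inv_cancel_right])
    have hge : 2 ^ 2 ≤ (commutator (P : Subgroup G)).index :=
      H4.sq_le_index_commutator P.2 fun h => hna h.isMulCommutative
    by_cases hm1 : m = 1
    · subst hm1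
      have h1 : (commutator (P : Subgroup G)).index ∣ 2 ^ 3 := hP ▸ index_dvd_card _
      have h2 : (commutator (P : Subgroup G)).index ≠ 2 ^ 3 := by
        intro h
        apply hna
        rw [← commutator_eq_bot_iff]
        have := (commutator (P : Subgroup G)).card_mul_index
        rw [h, hP] at this
        exact card_eq_one.1 (by omega)
      obtain ⟨j, hj, hj'⟩ := (Nat.dvd_prime_pow Nat.prime_two).1 h1
      rw [hj'] at h2 hge ⊢
      interval_cases j <;> simp_all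
    obtain ⟨j, hj, hj'⟩ := (Nat.dvd_prime_pow Nat.prime_two).1 (hP ▸ orderOf_dvd_natCard a)
    have hj1 : j ≠ m + 2 := by
      rintro rfl
      exact hna (isCyclic_of_orderOf_eq_card a (hj'.trans hP.symm)).isMulCommutative
    have hog : orderOf g = 2 ^ j := by rw [← hj', ← orderOf_coe]
    have hgN : g ^ 2 ^ (m + 1) = 1 := by
      rw [← orderOf_dvd_iff_pow_eq_one, hog]
      exact Nat.pow_dvd_pow _ (by omega)
    obtain ⟨ε, hε, hf⟩ : ∃ ε : ℂ, (ε = 1 ∨ ε = -1) ∧ ∀ i : ℕ, i.Coprime (2 ^ (m + 1)) →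
        (IsConj g (g ^ i) ↔ ζ ^ i = ζ ∨ ζ ^ i = ε * ζ⁻¹) := by
      rcases hfield with h | h
      · exact ⟨1, Or.inl rfl, (field_eq_iff hN hgN hζ (Or.inl rfl)).1 h⟩
      · exact ⟨-1, Or.inr rfl, (field_eq_iff hN hgN hζ (Or.inr rfl)).1 h⟩
    have hε2 : ε ^ 2 = 1 := by rcases hε with rfl | rfl <;> norm_num
    have hj2 : j = m + 1 := by
      by_contra hne
      have h1 : g ^ (2 ^ m + 1) = g := by
        rw [pow_succ, orderOf_dvd_iff_pow_eq_one.1 (hog ▸ Nat.pow_dvd_pow _ (by omega)), one_mul]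
      have h2 := (hf (2 ^ m + 1) (Nat.Coprime.pow_right _ ((Nat.coprime_two_right).2
        (Even.add_one (Nat.even_pow.2 ⟨even_two, by omega⟩))))).1 (by rw [h1])
      rw [pow_succ, hhalf] at h2
      rcases h2 with h2 | h2
      · apply hζ0
        linear_combination (-1 / 2) * h2
      · have h3 : ζ ^ 2 = -ε := by
          field_simp at h2
          linear_combination -h2
        have h6 : ζ ^ 4 = 1 := by
          rw [show 4 = 2 * 2 from rfl, pow_mul, h3, neg_sq, hε2]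
        have := Nat.le_of_dvd (by norm_num) ((hζ.pow_eq_one_iff_dvd 4).1 h6)
        have : 2 ^ 3 ≤ 2 ^ (m + 1) := Nat.pow_le_pow_right (by norm_num) (by omega)
        omega
    subst hj2
    have ha := (hord a).2 hj'
    haveI : (zpowers a).Normal := normal_of_index_eq_two ha
    obtain ⟨k, hk⟩ := (mem_powers_iff_mem_zpowers).2
      (Normal.conj_mem inferInstance a (mem_zpowers a) b)
    simp only at hk
    have hk' : g ^ k = b * g * (b : G)⁻¹ := congrArg Subtype.val hk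
    have hko : k.Coprime (2 ^ (m + 1)) := by
      have h1 : orderOf (a ^ k) = orderOf a := by
        rw [hk]; exact (MulAut.conj b).orderOf_eq a
      rw [orderOf_pow, hj'] at h1
      have h2 : 2 ^ (m + 1) * Nat.gcd (2 ^ (m + 1)) k = 2 ^ (m + 1) * 1 := by
        conv_lhs => lhs; rw [← h1]
        rw [Nat.div_mul_cancel (Nat.gcd_dvd_left _ _), mul_one]
      exact Nat.coprime_comm.1 (Nat.eq_of_mul_eq_mul_left (Nat.pos_of_ne_zero hN) h2)
    rcases (hf k hko).1 (isConj_iff.2 ⟨b, hk'.symm⟩) with h | h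
    · exfalso
      apply hb
      rw [← hk]
      have := (pow_eq_pow_iff_root hN hj' hζ k 1).2 (by rw [h, pow_one])
      rwa [pow_one] at this
    have h1 : ζ ^ ((k + 1) * 2) = 1 := by
      rw [pow_mul, pow_succ ζ k, h, mul_assoc, inv_mul_cancel₀ hζ0, mul_one, hε2]
    have h2 := (hζ.pow_eq_one_iff_dvd _).1 h1
    rw [pow_succ] at h2
    have h3 : 2 ^ 2 ∣ k + 1 :=
      (Nat.pow_dvd_pow 2 (by omega)).trans (Nat.dvd_of_mul_dvd_mul_right (by norm_num) h2)
    obtain ⟨t, ht⟩ := h3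
    obtain ⟨t, rfl⟩ : ∃ s, t = s + 1 := ⟨t - 1, by omega⟩
    have h4 : a ^ 2 ∈ commutator (P : Subgroup G) := by
      refine mem_of_pow_mem_of_coprime _ (m := 2 * t + 1) (by
        rw [hP]
        exact Nat.Coprime.pow_right _ ((Nat.coprime_two_right).2 (odd_two_mul_add_one t))) ?_
      have h5 : (a ^ 2) ^ (2 * t + 1) = b * a * b⁻¹ * a⁻¹ := by
        rw [← hk, ← pow_mul, eq_mul_inv_iff_mul_eq, ← pow_succ]
        congr 1
        omega
      rw [h5]
      exact commutator_mem_commutator (mem_top b) (mem_top a)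
    have h5 : (zpowers (a ^ 2)).index = 4 := by
      have h6 := (zpowers (a ^ 2)).card_mul_index
      rw [Nat.card_zpowers, orderOf_pow, hj', hP, Nat.gcd_eq_right (dvd_pow_self 2 (Nat.succ_ne_zero m)),
        pow_succ, Nat.mul_div_cancel _ (by norm_num), pow_add] at h6
      exact Nat.eq_of_mul_eq_mul_left (by positivity) h6
    have h6 : (commutator (P : Subgroup G)).index ∣ 4 := h5 ▸ index_dvd_of_le (zpowers_le_of_mem h4)
    have := Nat.le_of_dvd (by norm_num) h6
    omega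

end Cfsg.Agent.S4923
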