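import Cfsg.Statements.S4926
import Cfsg.Agent.H19.HZ5

set_option autoImplicit false
open Cfsg

namespace Cfsg.Agent.S4926

open H26.HZ H19.HZ5


/-- Let G be a finite group, p a prime, M a maximal ideal of the algebraic integers containing p, and P a Sylow p-subgroup of G with normalizer N and centralizer C. Then the principal p-block of G contains exactly five irreducible characters of degree not divisible by p if and only if either P has order 5 and the index of C in N is 1 or 4, or P has order 7 and the index of C in N is 2 or 3. -/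
theorem result {G : Type*} [Group G] [Finite G] (p : ℕ) [Fact p.Prime] (M : Ideal Cfsg.AlgInt) (hM : Cfsg.IsPModular p M) (P : Sylow p G) :
    Nat.card {χ : Cfsg.IrrCharacter G // χ ∈ Cfsg.principalBlock M G ∧ ¬ p ∣ Cfsg.charDegree (χ : G → ℂ)} = 5 ↔
      ((Nat.card P = 5 ∧ ((Subgroup.centralizer ((P : Subgroup G) : Set G)).relIndex (Subgroup.normalizer ((P : Subgroup G) : Set G)) = 1 ∨ (Subgroup.centralizer ((P : Subgroup G) : Set G)).relIndex (Subgroup.normalizer ((P : Subgroup G) : Set G)) = 4)) ∨
        (Nat.card P = 7 ∧ ((Subgroup.centralizer ((P : Subgroup G) : Set G)).relIndex (Subgroup.normalizer ((P : Subgroup G) : Set G)) = 2 ∨ (Subgroup.centralizer ((P : Subgroup G) : Set G)).relIndex (Subgroup.normalizer ((P : Subgroup G) : Set G)) = 3))) := by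
  have := hM.2.1
  have hp := hM.1
  rw [card_hz hp]
  constructor
  · intro h
    have h2 : p ≠ 2 := by
      rintro rfl
      have := small_dvd hM (by omega) (dvd_of_ne (G := G) hM (by omega))
      omega
    have hP := card_eq hM h2 P (by omega) (by omega)
    obtain ⟨m, h3, h4⟩ := cyc hM h2 P hP rfl
    rw [hP]
    generalize (Subgroup.centralizer ((P : Subgroup G) : Set G)).relIndex
      (Subgroup.normalizer ((P : Subgroup G) : Set G)) = e at h3 h4 ⊢
    have p2 := hp.two_le
    have : e ≤ 5 := by omega
    obtain rfl : m = 5 - e := by omega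
    interval_cases e <;> omega
  · have k : ∀ q : ℕ, q.Prime → Nat.card P = q → p = q := fun q hq h => by
      rw [P.card_eq_multiplicity] at h
      exact ((Nat.Prime.pow_eq_iff hq).1 h).1
    rintro (⟨h1, h2⟩ | ⟨h1, h2⟩)
    · obtain rfl := k 5 (by norm_num) h1
      rcases h2 with h2 | h2 <;> obtain ⟨m, h3, h4⟩ := cyc hM (by omega) P h1 h2 <;> omega
    · obtain rfl := k 7 (by norm_num) h1
      rcases h2 with h2 | h2 <;> obtain ⟨m, h3, h4⟩ := cyc hM (by omega) P h1 h2 <;> omega

end Cfsg.Agent.S4926
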