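import Cfsg.Statements.S4931
import Cfsg.Agent.H89.Real4
import Cfsg.Agent.H3.Tate
import Cfsg.Agent.H6.Ito
import Cfsg.Agent.H1.Frattini

set_option autoImplicit false
open Cfsg

namespace Cfsg.Agent.S4931

set_option linter.style.haveILetI false
open Cfsg.Agent.H5 Cfsg.Agent.H89 Subgroup

theorem npc_of_self_normalizing {L : Type*} [Group L] [Finite L] {p : ℕ} [Fact p.Prime]
    (S : Sylow p L) (hS : normalizer ((S : Subgroup L) : Set L) ≤ S) (M : Subgroup L) [M.Normal]
    (h1 : ∀ a ∈ (S : Subgroup L), ∀ b ∈ (S : Subgroup L), a * b * a⁻¹ * b⁻¹ ∈ M)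
    (h2 : M.subgroupOf S ≤ commutator S) : HasNormalPComplement p L := by
  let π := QuotientGroup.mk' M
  have hπ : Function.Surjective π := QuotientGroup.mk'_surjective M
  let T := S.mapSurjective hπ
  have hT : HasNormalPComplement p (L ⧸ M) := by
    apply H3.hasNormalPComplement_of_normalizer_le_centralizer T
    intro y hy
    obtain ⟨g, rfl⟩ := hπ y
    obtain ⟨t, ht, htg⟩ := exists_mem_normalizer_mul S ((T : Subgroup (L ⧸ M)).comap π) g
      (le_comap_map π _) (fun x hx => by
        rw [mem_comap, map_mul, map_mul, map_inv]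
        exact (mem_normalizer_iff.1 hy (π x)).1 (mem_map_of_mem π hx))
    have h3 : π g ∈ (T : Subgroup (L ⧸ M)) := by
      have h4 : π (t * g) ∈ (T : Subgroup (L ⧸ M)) := mem_map_of_mem π (hS htg)
      rw [map_mul] at h4
      exact (Subgroup.mul_mem_cancel_left _ ht).1 h4
    obtain ⟨a, ha, hag⟩ := h3
    rintro _ ⟨b, hb, rfl⟩
    rw [← hag, ← map_mul, ← map_mul]
    have := (QuotientGroup.eq_one_iff _).2 (h1 b hb a ha)
    have h5 : π (b * a * b⁻¹ * a⁻¹) = 1 := this
    calc π (b * a) = π (b * a * b⁻¹ * a⁻¹) * π (a * b) := by rw [← map_mul]; congr 1; group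
      _ = _ := by rw [h5, one_mul]
  apply H3.hasNormalPComplement_of_inf_pResidual_le_frattini S
  refine le_trans (fun x hx => h2 ?_) (H1.commutator_le_frattini S.2)
  have h3 := (H3.hasNormalPComplement_iff_inf_eq_bot T).1 hT
  have h4 : π x ∈ (T : Subgroup (L ⧸ M)) ⊓ pResidual p (L ⧸ M) :=
    ⟨mem_map_of_mem π x.2, H3.map_pResidual_le π (mem_map_of_mem π hx)⟩
  rw [h3, mem_bot] at h4
  exact (QuotientGroup.eq_one_iff (x : L)).1 h4

theorem exists_normal_inf {G : Type*} [Group G] [Finite G] {p : ℕ} (N P : Subgroup G)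
    [hP : (P.subgroupOf N).Normal] (hidx : ¬ p ∣ P.index) (hPN : P ≤ N)
    (h : ∀ θ : IrrCharacter N, ¬ p ∣ charDegree (θ : N → ℂ) →
      ∃ χ : IrrCharacter G, ∀ x : N, (χ : G → ℂ) x = (θ : N → ℂ) x)
    (D : Subgroup N) [D.Normal]
    (hD : ∀ a b : N, (a : G) ∈ P → (b : G) ∈ P → a * b * a⁻¹ * b⁻¹ ∈ D) :
    ∃ K : Subgroup G, K.Normal ∧ K.subgroupOf N = D := by
  have h1 : ∀ φ : IrrCharacter (N ⧸ D), ∃ χ : IrrCharacter G,
      ∀ x : N, (χ : G → ℂ) x = (φ : N ⧸ D → ℂ) x := by
    intro φ
    refine h ⟨_, isIrrCharacter_inflate D φ.2⟩ fun hd => hidx (hd.trans ?_)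
    haveI : ((P.subgroupOf N).map (QuotientGroup.mk' D)).Normal :=
      hP.map _ (QuotientGroup.mk'_surjective D)
    have h2 := H6.degree_dvd_index_of_abelian_normal
      ((P.subgroupOf N).map (QuotientGroup.mk' D)) (by
        rintro _ ⟨a, ha, rfl⟩ _ ⟨b, hb, rfl⟩
        have h5 : QuotientGroup.mk' D (a * b * a⁻¹ * b⁻¹) = 1 :=
          (QuotientGroup.eq_one_iff _).2 (hD a b ha hb)
        rw [← map_mul, ← map_mul]
        calc QuotientGroup.mk' D (a * b) = QuotientGroup.mk' D (a * b * a⁻¹ * b⁻¹) *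
              QuotientGroup.mk' D (b * a) := by rw [← map_mul]; congr 1; group
          _ = _ := by rw [h5, one_mul]) φ.2 (H88.irr_charDegree_cast φ).symm
    exact (h2.trans (index_map_dvd _ (QuotientGroup.mk'_surjective D))).trans
      (relIndex_dvd_index_of_le hPN)
  choose χ hχ using h1
  refine ⟨⨅ φ, charKer (isCharacter_of_isIrr (χ φ).2), normal_iInf_normal fun _ => inferInstance,
    ?_⟩
  ext x
  rw [mem_subgroupOf, mem_iInf]
  have h1 : ∀ φ, (χ φ : G → ℂ) 1 = (φ : N ⧸ D → ℂ) 1 := fun φ => hχ φ 1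
  constructor
  · intro hx
    rw [← QuotientGroup.eq_one_iff]
    refine eq_one_of_forall_irr fun φ hφ => ?_
    have := (mem_charKer _).1 (hx ⟨φ, hφ⟩)
    rwa [hχ, h1] at this
  · intro hx φ
    rw [mem_charKer, hχ, h1, (QuotientGroup.eq_one_iff x).2 hx]


/-- Let G be a finite group, p a prime and P a Sylow p-subgroup of G with normalizer N. Then every irreducible complex character of N of degree not divisible by p is the restriction of an irreducible character of G if and only if there is a normal subgroup K of G with KN = G and K ∩ N = 1. -/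
theorem result {G : Type*} [Group G] [Finite G] (p : ℕ) [Fact p.Prime] (P : Sylow p G) :
    (∀ θ : Cfsg.IrrCharacter ↥(Subgroup.normalizer ((P : Subgroup G) : Set G)), ¬ p ∣ Cfsg.charDegree (θ : ↥(Subgroup.normalizer ((P : Subgroup G) : Set G)) → ℂ) →
        ∃ χ : Cfsg.IrrCharacter G, ∀ x : ↥(Subgroup.normalizer ((P : Subgroup G) : Set G)), (χ : G → ℂ) x = (θ : ↥(Subgroup.normalizer ((P : Subgroup G) : Set G)) → ℂ) x) ↔
      ∃ K : Subgroup G, K.Normal ∧ K ⊔ Subgroup.normalizer ((P : Subgroup G) : Set G) = ⊤ ∧ K ⊓ Subgroup.normalizer ((P : Subgroup G) : Set G) = ⊥ := by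
  set N := normalizer ((P : Subgroup G) : Set G) with hN
  have hPN : (P : Subgroup G) ≤ N := le_normalizer
  constructor
  · intro h
    haveI hP : ((P : Subgroup G).subgroupOf N).Normal := normal_in_normalizer
    obtain ⟨L, hL, hLN⟩ := exists_normal_inf N P P.not_dvd_index hPN h
      ((P : Subgroup G).subgroupOf N) (fun a b ha hb => by
        rw [mem_subgroupOf]
        exact mul_mem (mul_mem (mul_mem ha hb) (inv_mem ha)) (inv_mem hb))
    obtain ⟨K₀, hK₀, hKN⟩ := exists_normal_inf N P P.not_dvd_index hPN h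
      ⁅(P : Subgroup G).subgroupOf N, (P : Subgroup G).subgroupOf N⁆
      (fun a b ha hb => commutator_mem_commutator (g₁ := a) (g₂ := b) ha hb)
    have hPL : (P : Subgroup G) ≤ L := fun x hx => by
      have : (⟨x, hPN hx⟩ : N) ∈ L.subgroupOf N := by rw [hLN]; exact hx
      exact this
    have hLP : ∀ x ∈ L, x ∈ N → x ∈ (P : Subgroup G) := fun x hx hx' => by
      have : (⟨x, hx'⟩ : N) ∈ L.subgroupOf N := hx
      rw [hLN] at this
      exact this
    let S : Sylow p L := P.subtype hPL
    have hSm : ∀ x : L, x ∈ (S : Subgroup L) ↔ (x : G) ∈ (P : Subgroup G) := fun x => Iff.rfl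
    have hnpc : HasNormalPComplement p L := by
      refine npc_of_self_normalizing S (fun x hx => ?_) (K₀.subgroupOf L) (fun a ha b hb => ?_)
        (fun x hx => ?_)
      · refine hLP x x.2 (mem_normalizer_iff.2 fun y => ⟨fun hy => ?_, fun hy => ?_⟩)
        · exact (mem_normalizer_iff.1 hx ⟨y, hPL hy⟩).1 hy
        · have hyL : y ∈ L := by
            have := L.mul_mem (L.mul_mem (L.inv_mem x.2) (hPL hy)) x.2
            simpa [mul_assoc] using this
          exact (mem_normalizer_iff.1 hx ⟨y, hyL⟩).2 hy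
      · have : (⟨a, hPN ha⟩ * ⟨b, hPN hb⟩ * ⟨a, hPN ha⟩⁻¹ * ⟨b, hPN hb⟩⁻¹ : N) ∈
            K₀.subgroupOf N := by
          rw [hKN]
          exact commutator_mem_commutator (g₁ := (⟨a, hPN ha⟩ : N)) (g₂ := (⟨b, hPN hb⟩ : N)) ha hb
        exact this
      · have h1 : (⟨x, hPN x.2⟩ : N) ∈ K₀.subgroupOf N := hx
        rw [hKN] at h1
        have h2 := mem_map_of_mem N.subtype h1
        rw [map_commutator, subgroupOf_map_subtype, inf_eq_left.2 hPN] at h2
        have h3 : ((commutator S).map (S : Subgroup L).subtype).map L.subtype =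
            ⁅(P : Subgroup G), (P : Subgroup G)⁆ := by
          rw [map_subtype_commutator, map_commutator]
          have : (S : Subgroup L).map L.subtype = P := by
            rw [Sylow.coe_subtype, subgroupOf_map_subtype, inf_eq_left.2 hPL]
          rw [this]
        rw [← h3] at h2
        obtain ⟨_, ⟨y, hy, rfl⟩, hxy⟩ := h2
        have : y = x := Subtype.ext (Subtype.ext hxy)
        rwa [← this]
    refine ⟨(pResidual p L).map L.subtype, inferInstance, ?_, ?_⟩
    · rw [eq_top_iff, ← Sylow.normalizer_sup_eq_top' P hPL]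
      refine sup_le le_sup_right fun x hx => ?_
      obtain ⟨u, hu, w, hw, huw⟩ := H3.exists_mul_pResidual S ⟨x, hx⟩
      have : x = u * w := congrArg Subtype.val huw
      rw [this]
      exact mul_mem (mem_sup_right (hPN hu)) (mem_sup_left (mem_map_of_mem _ hw))
    · rw [eq_bot_iff]
      rintro _ ⟨⟨x, hx, rfl⟩, hx'⟩
      have h1 : x ∈ (S : Subgroup L) ⊓ pResidual p L := ⟨hLP x x.2 hx', hx⟩
      rw [(H3.hasNormalPComplement_iff_inf_eq_bot S).1 hnpc, mem_bot] at h1
      simp [h1]
  · rintro ⟨K, hK, h1, h2⟩ θ -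
    have hc : IsComplement' N K := by
      refine (isComplement'_of_disjoint_and_mul_eq_univ (disjoint_iff.2 h2) ?_).symm
      rw [← normal_mul, h1, coe_top]
    let π : G →* N := hc.QuotientMulEquiv.toMonoidHom.comp (QuotientGroup.mk' K)
    have hπ : Function.Surjective π :=
      hc.QuotientMulEquiv.surjective.comp (QuotientGroup.mk'_surjective K)
    refine ⟨⟨_, isIrrCharacter_comp θ.2 π hπ⟩, fun x => ?_⟩
    have : π x = x := by
      apply hc.QuotientMulEquiv.symm.injective
      simp only [π, MonoidHom.comp_apply, MulEquiv.coe_toMonoidHom, MulEquiv.symm_apply_apply]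
      rfl
    show (θ : N → ℂ) (π x) = _
    rw [this]

end Cfsg.Agent.S4931
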