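import Cfsg.Statements.S4937
import Cfsg.Agent.H33.Dade

set_option autoImplicit false
open Cfsg

namespace Cfsg.Agent.S4937

/-- Let G be a finite group, p a prime, M a maximal ideal of the algebraic integers containing p, N a normal subgroup of G and P a Sylow p-subgroup of N such that G = N·C_G(P). Let θ be an irreducible character in the principal p-block of N that is the restriction of some irreducible character of G. Then θ is the restriction of an irreducible character χ of G lying in the principal p-block of G such that, for every subgroup J of G containing N, the restriction of χ to J is an irreducible character of J lying in the principal p-block of J. -/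
theorem result {G : Type*} [Group G] [Finite G] (p : ℕ) [Fact p.Prime] (M : Ideal Cfsg.AlgInt) (hM : Cfsg.IsPModular p M) (N : Subgroup G) [N.Normal] (P : Sylow p ↥N)
    (hcov : N ⊔ Subgroup.centralizer (((P : Subgroup ↥N).map N.subtype : Subgroup G) : Set G) = ⊤)
    (θ : Cfsg.IrrCharacter ↥N) (hθ : θ ∈ Cfsg.principalBlock M ↥N)
    (hext : ∃ ψ : Cfsg.IrrCharacter G, ∀ x : ↥N, (ψ : G → ℂ) x = (θ : ↥N → ℂ) x) :
    ∃ χ : Cfsg.IrrCharacter G, χ ∈ Cfsg.principalBlock M G ∧ (∀ x : ↥N, (χ : G → ℂ) x = (θ : ↥N → ℂ) x) ∧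
      ∀ J : Subgroup G, N ≤ J → ∃ ξ : Cfsg.IrrCharacter ↥J, ξ ∈ Cfsg.principalBlock M ↥J ∧ ∀ y : ↥J, (ξ : ↥J → ℂ) y = (χ : G → ℂ) y := by
  have := hM.2.1
  have := Fintype.ofFinite G
  obtain ⟨ψ, hψ⟩ := hext
  have hc : H33.Cov p N := H33.cov_of_sup (Subgroup.map_subtype_le _)
    (by rw [H33.relIndex_map_subtype]; exact P.not_dvd_index) hcov
  obtain ⟨μ, h1, -, h3⟩ := H33.exists_good_twist hM hc (H5.isCharacter_of_isIrr ψ.2) hψ hθ
  let χ : IrrCharacter G := ⟨_, H30.isIrr_hom_mul μ ψ.2⟩
  have hχN : ∀ n : N, (χ : G → ℂ) n = (θ : N → ℂ) n := fun n => by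
    change (μ n : ℂ) * (ψ : G → ℂ) n = _
    rw [h1 n n.2, hψ]; simp
  refine ⟨χ, H33.NGood.mem_principalBlock_self hM h3, hχN, fun J hJ => ?_⟩
  have hirr : IsIrrCharacter J fun y : J => (χ : G → ℂ) y :=
    H30.isIrr_of_comp (H5.isCharacter_restrict (H5.isCharacter_of_isIrr χ.2) J)
      (Subgroup.inclusion hJ) (H33.isIrr_res_of_ext hχN)
  exact ⟨⟨_, hirr⟩, H33.NGood.mem_principalBlock hM h3 hJ fun _ => rfl, fun _ => rfl⟩

end Cfsg.Agent.S4937
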