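import Cfsg.Statements.S4949
import Cfsg.Agent.H87.SnI
import Cfsg.Agent.S4710

set_option autoImplicit false
open Cfsg

namespace Cfsg.Agent.S4949

open Cfsg.Agent.H87 Cfsg.Agent.H32 MonoidAlgebra

/-- Let n be a natural number, p a prime, M a maximal ideal of the algebraic integers containing p, B a p-block of the alternating group of degree n and D a defect group of B. Then either B contains an irreducible character of height 1 and D has an irreducible complex character of degree p, or every irreducible character of B has height zero and D is commutative (so the least positive height in B and the least positive exponent of a character degree of D are both 1 or both absent). -/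
theorem result (n : ℕ) (p : ℕ) [Fact p.Prime] (M : Ideal Cfsg.AlgInt) (hM : Cfsg.IsPModular p M) (B : Set (Cfsg.IrrCharacter ↥(alternatingGroup (Fin n)))) (hB : Cfsg.IsPBlock M B) (D : Subgroup ↥(alternatingGroup (Fin n))) (hD : Cfsg.IsDefectGroup p M B D) :
    ((∃ χ : Cfsg.IrrCharacter ↥(alternatingGroup (Fin n)), χ ∈ B ∧ Cfsg.blockHeight p B (χ : ↥(alternatingGroup (Fin n)) → ℂ) = 1) ∧ (∃ φ : Cfsg.IrrCharacter ↥D, Cfsg.charDegree (φ : ↥D → ℂ) = p)) ∨
    ((∀ χ : Cfsg.IrrCharacter ↥(alternatingGroup (Fin n)), χ ∈ B → Cfsg.blockHeight p B (χ : ↥(alternatingGroup (Fin n)) → ℂ) = 0) ∧ IsMulCommutative D) := by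
  have hp : p.Prime := Fact.out
  have := hM.2.1
  have h1 := S0908.result p M hM B hB D hD
  have h2 : blockDefect p B ≤ 2 → (∀ χ ∈ B, blockHeight p B χ.1 = 0) ∧ IsMulCommutative D :=
    fun h2 => by
    refine ⟨fun χ hχ => ?_, ?_⟩
    · have := (S4710.result p M hM B hB _ rfl).2 χ hχ
      omega
    · obtain e | e | e : blockDefect p B = 0 ∨ blockDefect p B = 1 ∨ blockDefect p B = 2 := by omega
      · rw [(Subgroup.card_eq_one (H := D)).1 (by rw [h1, e, pow_zero])]
        infer_instance
      · exact (isCyclic_of_prime_card (p := p) (by rw [h1, e, pow_one])).isMulCommutative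
      · exact IsPGroup.isMulCommutative_of_card_eq_prime_sq (p := p) (by rw [h1, e])
  rcases subsingleton_or_nontrivial (Fin n) with h0 | h0
  · rw [Subsingleton.elim D ⊥, Subgroup.card_bot, eq_comm, Nat.pow_eq_one] at h1
    exact Or.inr (h2 (by have := hp.ne_one; omega))
  obtain ⟨C, hC, hc⟩ := Sn.exists_cov hB
  obtain ⟨ρ, w, h⟩ := Sn.exists_blk (N := Fintype.card (Fin n) + 2 * p) hM (Nat.le_add_right _ _) hC
  obtain ⟨P, ⟨e⟩⟩ := h.defect_alt hB hc hD
  have h4 := h.defect_alt_eq hB hc
  rw [Sn.val_mul_factorial] at h4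
  by_cases h5 : p ≤ w ∧ 3 ≤ w
  · obtain ⟨χ, h6, h7, h8⟩ := h.exists_height_one le_rfl h5.1 h5.2
    obtain ⟨θ, h9, h10⟩ := Sn.exists_under alternatingGroup.index_eq_two hM hC hB hc h6 h8
    obtain ⟨ψ, h11⟩ := Sn.exists_degree P (Fintype.card_fin _) h5.1 h5.2
    refine Or.inl ⟨⟨θ, h9, ?_⟩, ⟨_, H5.isIrrCharacter_comp_equiv ψ.2 e.symm⟩, ?_⟩
    · rw [H32.blockHeight_eq, h.minVal_alt hB hc fun _ => by omega, ← h10]
      exact h7
    · refine .trans ?_ h11
      simp only [charDegree, map_one]
  by_cases h6 : p = 2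
  · subst h6
    refine Or.inr (h2 ?_)
    obtain rfl | rfl | rfl : w = 0 ∨ w = 1 ∨ w = 2 := by omega
    all_goals simp at h4; omega
  have h7 : w < p := by have := hp.two_le; omega
  refine Or.inr ⟨fun θ hθ => ?_, ⟨⟨fun a b => e.symm.injective (Subtype.ext ?_)⟩⟩⟩
  · obtain ⟨χ, h8, h9⟩ := S4432.result p M hM _ C hC B hB hc θ hθ
    have h10 := h.val_bounds h8
    rw [Sn.val_mul_factorial, Sn.val_factorial_of_lt h7] at h10
    rw [H32.blockHeight_eq, h.minVal_alt hB hc fun e => absurd e h6,
      ← Sn.val_eq_of_res alternatingGroup.index_eq_two h9 (Or.inl h6)]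
    exact h.height_eq (by rw [Sn.val_factorial_of_lt h7]; omega)
  · rw [map_mul, map_mul]
    exact Sn.comm_of_lt P (Fintype.card_fin _) h7 (e.symm a).2.1 (e.symm b).2.1

end Cfsg.Agent.S4949
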