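import Cfsg.Statements.S4959
import Cfsg.Agent.H64.KV4

set_option autoImplicit false
open Cfsg

namespace Cfsg.Agent.S4959

set_option linter.style.haveILetI false
open Cfsg.Agent.H64.KV Cfsg.Agent.H89 Subgroup

theorem root_grp {p : ℕ} [hp : Fact p.Prime] {M : Ideal AlgInt} [M.IsMaximal] {C U : Type*}
    [Group C] [Finite C] [CommGroup U] [Finite U] (hM : IsPModular p M) (hC : ¬ p ∣ Nat.card C)
    (hU : ∀ u : U, u ^ p = 1) (φ : C → U → U) (h1 : ∀ c a b, φ c (a * b) = φ c a * φ c b)
    (h2 : ∀ u, φ 1 u = u) (h3 : ∀ a b u, φ (a * b) u = φ a (φ b u)) (β : U → U → ZMod p)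
    (hl : ∀ a b w, β (a * b) w = β a w + β b w) (hr : ∀ u a b, β u (a * b) = β u a + β u b)
    (hi : ∀ c x y, β (φ c x) (φ c y) = β x y) (hn : ∀ x, (∀ y, β x y = 0) → x = 1) :
    ∃ (π : C → ℕ) (Ω : C × Zp p → ℂ), Root M π Ω ∧ (∀ c, π c = π 1 → ∀ u, φ c u = u) ∧
      ∀ c, π 1 * Nat.card {u // φ c u = u} ≤ π c * Nat.card U := by
  haveI : NeZero p := ⟨hp.out.ne_zero⟩
  have hz : ∀ x : Additive U, p • x = 0 := fun x => hU x.toMul
  haveI : Module (ZMod p) (Additive U) := AddCommGroup.zmodModule hz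
  let ρ₀ : C → Module.End (ZMod p) (Additive U) := fun c =>
    AddMonoidHom.toZModLinearMap p (AddMonoidHom.mk' (fun u => Additive.ofMul (φ c u.toMul))
      fun a b => h1 c a.toMul b.toMul)
  let ρ : Representation (ZMod p) C (Additive U) :=
    { toFun := ρ₀
      map_one' := LinearMap.ext fun u => h2 u.toMul
      map_mul' := fun a b => LinearMap.ext fun u => h3 a b u.toMul }
  let B : LinearMap.BilinForm (ZMod p) (Additive U) := AddMonoidHom.toZModLinearMap p
    (AddMonoidHom.mk' (fun u => AddMonoidHom.toZModLinearMap p (AddMonoidHom.mk'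
      (fun w => β u.toMul w.toMul) fun a b => hr _ a.toMul b.toMul))
      fun a b => LinearMap.ext fun w => hl a.toMul b.toMul w.toMul)
  obtain ⟨π, Ω, hR, hf, hb⟩ := root_selfdual hM hC ρ B
    (.ofSeparatingLeft fun x hx => hn x.toMul fun y => hx (.ofMul y))
    fun c x y => hi c x.toMul y.toMul
  refine ⟨π, Ω, hR, fun c h u => hf c h (.ofMul u), fun c => ?_⟩
  have := hb c
  rwa [fx, Nat.card_congr (Additive.toMul.subtypeEquiv (q := fun u => φ c u = u)
    fun w => mem_Fx (ρ := ρ)), Nat.card_congr (Additive.toMul (α := U))] at this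

theorem relIndex_mul_card_of_le {X : Type*} [Group X] {A T : Subgroup X} (h : A ≤ T) :
    A.relIndex T * Nat.card A = Nat.card T := by
  rw [relIndex, ← Nat.card_congr (subgroupOfEquivOfLe h).toEquiv, index_mul_card]


/-- Let X be a finite group and V a normal subgroup of X in which every element has order dividing the prime p, whose index in X is prime to p and which is its own centralizer in X; so V is an elementary abelian normal Sylow p-subgroup, and any complement G to V in X is a group of order prime to p acting faithfully on the vector space V by conjugation (the coprime linear setting of the k(GV) problem). Let G be a complement to V in X, let v be in V and let H be the centralizer of v in G. Suppose there is a subgroup U of V normalized by H, on which H acts faithfully, and carrying an H-invariant bi-additive pairing β with values in the integers modulo p that is nondegenerate on U (equivalently: the restriction of the module V to H has a faithful self-dual submodule; such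 a v is called a real vector for G). Then the number of conjugacy classes of X is at most the order of V (the real-vector criterion for the k(GV) problem). The pairing is given as a function on X whose relevant values are those on pairs from U. -/
theorem result {X : Type*} [Group X] [Finite X] (p : ℕ) [Fact p.Prime] (V : Subgroup X) [V.Normal] (hVexp : ∀ v ∈ V, v ^ p = 1) (hidx : ¬ p ∣ V.index) (hself : Subgroup.centralizer (V : Set X) = V) (G : Subgroup X) (hGV : Subgroup.IsComplement' V G) (v : X) (hv : v ∈ V) (U : Subgroup X) (hUV : U ≤ V) (hUinv : ∀ h ∈ G, h * v * h⁻¹ = v → ∀ u ∈ U, h * u * h⁻¹ ∈ U) (hUfaith : ∀ h ∈ G, h * v * h⁻¹ = v → (∀ u ∈ U, h * u * h⁻¹ = u) → h = 1) (β : X → X → ZMod p) (hβl : ∀ u ∈ U, ∀ u' ∈ U, ∀ w ∈ U, β (u * u') w = β u w + β u' w) (hβr : ∀ u ∈ U, ∀ w ∈ U, ∀ w' ∈ U, β u (w * w') = β u w + β u w') (hβinv : ∀ h ∈ G, h * v * h⁻¹ = v → ∀ u ∈ U, ∀ w ∈ U, β (h * u * h⁻¹) (h * w * h⁻¹) = β u w) (hβnd : ∀ u ∈ U, (∀ w ∈ U, β u w = 0) → u = 1) : Nat.card (ConjClasses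 X) ≤ Nat.card V := by
  classical
  have hp : p.Prime := Fact.out
  obtain ⟨M, hM⟩ := H88.exists_isPModular hp
  have := hM.2.1
  have hVab : ∀ a ∈ V, ∀ b ∈ V, a * b = b * a := by
    intro a ha b hb
    rw [← hself] at hb
    exact hb a ha
  let C := G ⊓ centralizer ({v} : Set X)
  have hCv : ∀ c : C, (c : X) * v * (c : X)⁻¹ = v := fun c => by
    rw [mem_centralizer_singleton_iff.1 c.2.2, mul_inv_cancel_right]
  have hGp : ¬ p ∣ Nat.card G := by rwa [← hGV.symm.index_eq_card]
  have hC : ¬ p ∣ Nat.card C := fun h => hGp (h.trans (card_dvd_of_le inf_le_left))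
  letI : CommGroup U := { (inferInstance : Group U) with
    mul_comm := fun a b => Subtype.ext (hVab _ (hUV a.2) _ (hUV b.2)) }
  let φ : C → U → U := fun c u => ⟨c * u * (c : X)⁻¹, hUinv c c.2.1 (hCv c) _ u.2⟩
  obtain ⟨π, Ω, hR, hf, hb⟩ := root_grp hM hC (fun u => Subtype.ext (hVexp _ (hUV u.2))) φ
    (fun c a b => Subtype.ext (by simp [φ, mul_assoc])) (fun u => Subtype.ext (by simp [φ]))
    (fun a b u => Subtype.ext (by simp [φ, mul_assoc])) (fun u w => β u w)
    (fun a b w => hβl _ a.2 _ b.2 _ w.2) (fun u a b => hβr _ u.2 _ a.2 _ b.2)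
    (fun c x y => hβinv c c.2.1 (hCv c) _ x.2 _ y.2)
    fun x hx => Subtype.ext (hβnd _ x.2 fun w hw => hx ⟨w, hw⟩)
  let σ : Zp p →* X := AddMonoidHom.toMultiplicativeLeft
    (ZMod.lift p ⟨zmultiplesHom (Additive X) (Additive.ofMul v), by
      simpa using congrArg Additive.ofMul (hVexp v hv)⟩)
  have hσ : ∀ k : ℤ, σ (Multiplicative.ofAdd (k : ZMod p)) = v ^ k := fun k => by
    simp [σ]
  have hσ' : ∀ a, ∃ k : ℤ, a = Multiplicative.ofAdd (k : ZMod p) := fun a => by
    obtain ⟨k, hk⟩ := ZMod.intCast_surjective a.toAdd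
    exact ⟨k, by rw [hk]; rfl⟩
  have hcomm : ∀ (c : C) (a : Zp p), Commute (c : X) (σ a) := fun c a => by
    obtain ⟨k, rfl⟩ := hσ' a
    rw [hσ]
    exact Commute.zpow_right (mem_centralizer_singleton_iff.1 c.2.2) k
  refine hR.count hM hC (fun c hc h => hc (Subtype.ext (hUfaith c c.2.1 (hCv c) fun u hu => ?_)))
    (C.subtype.noncommCoprod σ hcomm)
    (fun χ n hχ hn h => hidx (h.trans (H6.degree_dvd_index_of_abelian_normal V hVab hχ hn)))
    fun c a ha => ?_
  · exact congrArg Subtype.val (hf c h ⟨u, hu⟩)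
  have hj : C.subtype.noncommCoprod σ hcomm (c, a) = c * σ a := rfl
  have hσp : σ a ^ p = 1 := by
    obtain ⟨k, rfl⟩ := hσ' a
    rw [hσ, ← zpow_natCast, ← zpow_mul, mul_comm, zpow_mul, zpow_natCast, hVexp v hv, one_zpow]
  have hoc : (orderOf (c : X)).Coprime (orderOf (σ a)) :=
    Nat.Coprime.coprime_dvd_right (orderOf_dvd_of_pow_eq_one hσp)
      (Nat.Coprime.coprime_dvd_left (C.orderOf_dvd_natCard c.2)
        ((Nat.Prime.coprime_iff_not_dvd hp).2 hC).symm)
  have hc1 := mem_zpowers_mul_of_coprime (hcomm c a) hoc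
  have hz1 := mem_zpowers_mul_of_coprime (hcomm c a).symm hoc.symm
  rw [← (hcomm c a).eq] at hz1
  have hv1 : v ∈ zpowers (σ a) := by
    have h1 : Multiplicative.ofAdd (1 : ZMod p) ∈ zpowers a := by
      rw [zpowers_eq_top_of_prime_card (p := p) (by simp) ha]
      trivial
    obtain ⟨k, hk⟩ := h1
    refine ⟨k, ?_⟩
    have := hσ 1
    simp only at hk ⊢
    rw [← map_zpow, hk, ← zpow_one v, ← this, Int.cast_one]
  have h3 : Nat.card (centralizer ({c * σ a} : Set X)) ≤
      Nat.card ↥(V ⊓ centralizer {(c : X)}) * Nat.card (centralizer ({c} : Set C)) := by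
    rw [← card_map_of_injective (K := centralizer ({c} : Set C)) C.subtype_injective]
    refine card_le_of_decomp _ _ _ fun y hy => ?_
    have hy0 : Commute y (c * σ a) := mem_centralizer_singleton_iff.1 hy
    obtain ⟨k, hk⟩ := hz1
    obtain ⟨l, hl⟩ := hc1
    obtain ⟨m, hm⟩ := hv1
    have hyz : Commute y (σ a) := by rw [← hk]; exact hy0.zpow_right k
    have hyc : Commute y c := by rw [← hl]; exact hy0.zpow_right l
    have hy' : y * v = v * y := by
      rw [← hm]
      exact (hyz.zpow_right m).eq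
    obtain ⟨⟨u, g⟩, hug, huniq⟩ := hGV.existsUnique y
    simp only at hug
    have hg : (g : X) ∈ C := by
      refine ⟨g.2, mem_centralizer_singleton_iff.2 ?_⟩
      have hu := hVab u u.2 v hv
      calc (g : X) * v = (u : X)⁻¹ * (y * v) := by rw [← hug]; group
        _ = (u : X)⁻¹ * ((v * u) * g) := by rw [hy', ← hug]; group
        _ = v * g := by rw [← hu]; group
    have h4 := huniq (⟨c * u * (c : X)⁻¹, ‹V.Normal›.conj_mem _ u.2 _⟩,
      ⟨c * g * (c : X)⁻¹, mul_mem (mul_mem c.2.1 g.2) (inv_mem c.2.1)⟩) (by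
        simp only
        calc _ = (c : X) * ((u : X) * g) * (c : X)⁻¹ := by group
          _ = y := by rw [hug, ← hyc.eq, mul_inv_cancel_right])
    have h5 : (c : X) * u * (c : X)⁻¹ = u := congrArg (fun x => (x.1 : X)) h4
    have h6 : (c : X) * g * (c : X)⁻¹ = g := congrArg (fun x => (x.2 : X)) h4
    refine ⟨u, ⟨u.2, mem_centralizer_singleton_iff.2 (mul_inv_eq_iff_eq_mul.1 h5).symm⟩, g,
      ⟨⟨g, hg⟩, mem_centralizer_singleton_iff.2 (Subtype.ext
        (mul_inv_eq_iff_eq_mul.1 h6).symm), rfl⟩, hug.symm⟩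
  have h4 : Nat.card {u // φ c u = u} = Nat.card ↥(U ⊓ centralizer {(c : X)}) := Nat.card_congr
    { toFun := fun w => ⟨w.1, w.1.2, mem_centralizer_singleton_iff.2
        (mul_inv_eq_iff_eq_mul.1 (congrArg Subtype.val w.2)).symm⟩
      invFun := fun u => ⟨⟨u, u.2.1⟩, Subtype.ext
        (mul_inv_eq_iff_eq_mul.2 (mem_centralizer_singleton_iff.1 u.2.2).symm)⟩
      left_inv := fun _ => rfl
      right_inv := fun _ => rfl }
  have h5 : Nat.card U * Nat.card ↥(V ⊓ centralizer {(c : X)}) ≤
      Nat.card ↥(U ⊓ centralizer {(c : X)}) * Nat.card V := by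
    have e : ∀ T : Subgroup X, Nat.card ↥(T ⊓ centralizer {(c : X)}) *
        (centralizer {(c : X)}).relIndex T = Nat.card T := fun T => by
      rw [← inf_relIndex_right, inf_comm, mul_comm]
      exact relIndex_mul_card_of_le inf_le_right
    have h6 := relIndex_le_of_le_right (H := centralizer {(c : X)}) hUV
      (index_ne_zero_of_finite (H := (centralizer {(c : X)}).subgroupOf V))
    rw [← e U, ← e V]
    calc _ ≤ Nat.card ↥(U ⊓ centralizer {(c : X)}) * (centralizer {(c : X)}).relIndex V *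
        Nat.card ↥(V ⊓ centralizer {(c : X)}) := by gcongr
      _ = _ := by ring
  have h6 := hb c
  rw [h4] at h6
  have h7 : π 1 * Nat.card ↥(V ⊓ centralizer {(c : X)}) ≤ π c * Nat.card V := by
    refine Nat.le_of_mul_le_mul_left ?_ (Nat.card_pos (α := ↥(U ⊓ centralizer {(c : X)})))
    calc _ = π 1 * Nat.card ↥(U ⊓ centralizer {(c : X)}) *
          Nat.card ↥(V ⊓ centralizer {(c : X)}) := by ring
      _ ≤ π c * Nat.card U * Nat.card ↥(V ⊓ centralizer {(c : X)}) := by gcongr
      _ ≤ π c * (Nat.card ↥(U ⊓ centralizer {(c : X)}) * Nat.card V) := by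
          rw [mul_assoc]; gcongr
      _ = _ := by ring
  rw [hj]
  calc _ ≤ π 1 * (Nat.card ↥(V ⊓ centralizer {(c : X)}) *
        Nat.card (centralizer ({c} : Set C))) := by gcongr
    _ ≤ _ := by rw [← mul_assoc, ← mul_assoc]; gcongr

end Cfsg.Agent.S4959
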