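import Cfsg.Statements.S4989
import Cfsg.Agent.H89.AMGM

set_option autoImplicit false
open Cfsg

namespace Cfsg.Agent.S4989


/-- Let H be a subgroup of the finite group G and χ an irreducible complex character of G. Then the inner product of the restriction of χ to H with itself, (1/#H)·Σ_{h ∈ H} |χ(h)|², is at most 1 + #(Z ∖ H)/#H, where Z is the set of zeros of χ in G. -/
theorem result {G : Type*} [Group G] [Finite G] (H : Subgroup G) (χ : Cfsg.IrrCharacter G) : (Nat.card ↥H : ℝ)⁻¹ * ∑ᶠ h : ↥H, ‖(χ : G → ℂ) h‖ ^ 2 ≤ 1 + (Set.ncard ({x : G | (χ : G → ℂ) x = 0} \ (H : Set G)) : ℝ) / (Nat.card ↥H : ℝ) := by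
  classical
  have := Fintype.ofFinite G
  have hχ := H5.isCharacter_of_isIrr χ.2
  rw [finsum_eq_sum_of_fintype]
  set f : G → ℂ := χ.1
  have hH : (0 : ℝ) < Nat.card H := by exact_mod_cast Nat.card_pos
  let s : Finset G := Finset.univ.filter fun g => g ∉ H
  have h1 := H89.card_filter_le_sum_norm_pow hχ s (fun g hg m hm => by
    simp only [s, Finset.mem_filter, Finset.mem_univ, true_and] at hg ⊢
    exact fun h => hg (H89.mem_of_pow_mem_of_coprime H hm h)) 2
  have h2 := H89.sum_norm_sq_irr χ.2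
  have h3 : ∑ h : H, ‖f h‖ ^ 2 = ∑ g ∈ Finset.univ.filter (fun g => g ∈ H), ‖f g‖ ^ 2 :=
    (Finset.sum_subtype (p := fun g => g ∈ H) _ (by simp) (fun g => ‖f g‖ ^ 2)).symm
  have h4 := Finset.sum_filter_add_sum_filter_not Finset.univ (fun g => g ∈ H)
    (fun g => ‖f g‖ ^ 2)
  have h5 : ({x : G | f x = 0} \ (H : Set G)).ncard = (s.filter fun g => ¬ f g ≠ 0).card := by
    rw [← Set.ncard_coe_finset]
    congr 1
    ext x
    simp [s, and_comm]
  have h6 := Finset.card_filter_add_card_filter_not (s := s) (fun g => f g ≠ 0)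
  have h7 : (Finset.univ.filter (fun g => g ∈ H)).card + s.card = Nat.card G := by
    rw [Finset.card_filter_add_card_filter_not]; simp
  have h8 : (Finset.univ.filter (fun g => g ∈ H)).card = Nat.card H := by
    rw [Nat.card_eq_fintype_card, Fintype.card_subtype]
  rw [h5, h3, inv_mul_le_iff₀ hH, mul_add, mul_div_cancel₀ _ hH.ne', mul_one]
  have h6' : ((s.filter fun g => f g ≠ 0).card : ℝ) + (s.filter fun g => ¬ f g ≠ 0).card = s.card := by
    exact_mod_cast h6
  have h7' : (Nat.card H : ℝ) + s.card = Nat.card G := by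
    rw [← h8]; exact_mod_cast h7
  change ∑ g, ‖f g‖ ^ 2 = _ at h2
  change _ + ∑ g ∈ s, ‖f g‖ ^ 2 = _ at h4
  linarith

end Cfsg.Agent.S4989
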