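import Cfsg.Statements.S4996
import Cfsg.Agent.H89.AMGM
import Cfsg.Agent.H31.Avg
import Cfsg.Agent.H6.Clifford

set_option autoImplicit false
open Cfsg

namespace Cfsg.Agent.S4996


/-- Let N be a normal subgroup of the finite group G and χ an irreducible complex character of G. Then the restriction of χ to N is not irreducible if and only if χ vanishes on some whole coset Nx of N in G. -/
theorem result {G : Type*} [Group G] [Finite G] (N : Subgroup G) [N.Normal] (χ : Cfsg.IrrCharacter G) : ¬ Cfsg.IsIrrCharacter ↥N (fun n : ↥N => (χ : G → ℂ) n) ↔ ∃ x : G, ∀ n : ↥N, (χ : G → ℂ) ((n : G) * x) = 0 := by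
  classical
  have := Fintype.ofFinite G
  have hχ := H5.isCharacter_of_isIrr χ.2
  set f : G → ℂ := χ.1 with hf
  have hN : (0 : ℝ) < Nat.card N := by exact_mod_cast Nat.card_pos
  let r : G → ℝ := fun g => (Nat.card N : ℝ)⁻¹ * ∑ n : N, ‖f (n * g)‖ ^ 2
  have hr0 : ∀ g, 0 ≤ r g := fun g => by positivity
  have hψ : IsCharacter G (fun g => (r g : ℂ)) := by
    have := H31.isCharacter_avg_normal N (H5.isCharacter_mul hχ (H5.isCharacter_conj hχ))
    convert this using 2 with g
    simp [r, Complex.mul_conj, Complex.normSq_eq_norm_sq]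
  have hsum : ∑ g, r g = Nat.card G := by
    simp only [r]
    rw [← Finset.mul_sum, Finset.sum_comm]
    have : ∀ n : N, ∑ g, ‖f (n * g)‖ ^ 2 = Nat.card G := fun n => by
      rw [← H89.sum_norm_sq_irr χ.2]
      exact Fintype.sum_equiv (Equiv.mulLeft (n : G)) _ _ (fun _ => rfl)
    simp only [this, Finset.sum_const, Finset.card_univ, nsmul_eq_mul]
    rw [← Nat.card_eq_fintype_card]
    field_simp
  have hone : classInner (fun n : N => f n) (fun n : N => f n) = (r 1 : ℂ) := by
    rw [H5.classInner_self_eq]; simp [r]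
  have hzero : ∀ x, r x = 0 ↔ ∀ n : N, f (n * x) = 0 := by
    intro x
    simp only [r]
    rw [mul_eq_zero, or_iff_right (inv_ne_zero hN.ne'),
      Finset.sum_eq_zero_iff_of_nonneg (fun _ _ => by positivity)]
    simp
  have hres := H5.isCharacter_restrict hχ N
  constructor
  · intro hirr
    by_contra hcon
    push Not at hcon
    have hne : ∀ x, r x ≠ 0 := fun x hx => by
      obtain ⟨n, hn⟩ := hcon x
      exact hn ((hzero x).mp hx n)
    obtain ⟨m, hm⟩ := H5.exists_nat_classInner hres hres
    have hm1 : m ≠ 1 := by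
      rintro rfl
      exact hirr (H5.isIrr_of_classInner_self_eq_one hres (by simpa using hm))
    have hrm : r 1 = m := by
      rw [hone] at hm; exact_mod_cast hm
    have hm0 : m ≠ 0 := by
      rintro rfl
      exact hne 1 (by simpa using hrm)
    have hm2 : (2 : ℝ) ≤ m := by
      have : 2 ≤ m := by omega
      exact_mod_cast this
    have h1 := H89.card_le_sum_norm_pow hψ (Finset.univ.erase 1) (fun g hg k hk => by
      simp only [Finset.mem_erase, Finset.mem_univ, and_true] at hg ⊢
      intro h
      exact hg (Subgroup.mem_bot.mp (H89.mem_of_pow_mem_of_coprime ⊥ hk (Subgroup.mem_bot.mpr h))))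
      (fun g _ => by exact_mod_cast hne g) 1
    have h2 : ∀ g, ‖(r g : ℂ)‖ ^ 1 = r g := fun g => by
      rw [pow_one, Complex.norm_real, Real.norm_of_nonneg (hr0 g)]
    simp only [h2] at h1
    have h3 := Finset.add_sum_erase Finset.univ r (Finset.mem_univ 1)
    rw [Finset.card_erase_of_mem (Finset.mem_univ _), Finset.card_univ,
      Nat.cast_sub Fintype.card_pos, ← Nat.card_eq_fintype_card] at h1
    push_cast at h1
    linarith
  · rintro ⟨x, hx⟩ hirr
    have h1 : (r 1 : ℂ) = 1 := by rw [← hone]; exact H5.classInner_irr_self hirr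
    have h2 : classInner (fun g => (r g : ℂ)) (fun _ => 1) ≠ 0 := by
      rw [H5.classInner_one_right, ← Complex.ofReal_sum, hsum]
      have : (Nat.card G : ℂ) ≠ 0 := H5.natCard_ne_zero
      simp [this]
    have h3 := H6.eq_of_constituent_of_degree_eq hψ H5.isIrrCharacter_one h2 h1
    have h4 := congrFun h3 x
    rw [(hzero x).mpr hx] at h4
    simp at h4

end Cfsg.Agent.S4996
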