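import Cfsg.Statements.S5001
import Cfsg.Agent.H34.Defect
import Cfsg.Agent.H88.Deg
import Cfsg.Agent.H88.PLocal
import Cfsg.Agent.H7.Degree
import Cfsg.Agent.H5.Linear

set_option autoImplicit false
open Cfsg

namespace Cfsg.Agent.S5001

open Cfsg.Agent.H32


/-- Let p be a prime, G a finite group and B a p-block of G (relative to a maximal ideal M of the algebraic integers containing p) with defect group D. Let Z be a central p-subgroup of G contained in D and λ a linear character of Z (a homomorphism to the nonzero complex numbers). Say an irreducible character χ of G lies over λ when χ(z) = χ(1)λ(z) for all z ∈ Z. If some irreducible character in B lying over λ has height zero, then λ extends to a linear character of D. -/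
theorem result {G : Type*} [Group G] [Finite G] (p : ℕ) [Fact p.Prime] (M : Ideal Cfsg.AlgInt) (hM : Cfsg.IsPModular p M) (B : Set (Cfsg.IrrCharacter G)) (hB : Cfsg.IsPBlock M B) (D : Subgroup G) (hD : Cfsg.IsDefectGroup p M B D) (Z : Subgroup G) (hZc : Z ≤ Subgroup.center G) (hZp : IsPGroup p ↥Z) (hZD : Z ≤ D) (lam : ↥Z →* ℂˣ) (χ : Cfsg.IrrCharacter G) (hχ : χ ∈ B) (hover : (∀ z : ↥Z, (χ : G → ℂ) z = (χ : G → ℂ) 1 * (lam z : ℂ))) (h0 : Cfsg.blockHeight p B (χ : G → ℂ) = 0) : (∃ μ : ↥D →* ℂˣ, ∀ z : ↥Z, μ ⟨(z : G), hZD z.2⟩ = lam z) := by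
  classical
  have hMm : M.IsMaximal := hM.2.1
  have hp : p.Prime := Fact.out
  have hcardD := H34.card_defectGroup hM hB hD
  obtain ⟨g, hg, hDg⟩ := H34.isDefectGroup_iff.mp hD
  have hχc := H5.isCharacter_of_isIrr χ.2
  -- `χ g` is a unit
  have hunit : (χ : G → ℂ) g ∉ locMax M := by
    intro hmem
    apply hg.2.2 χ hχ
    have h1 := H34.factorization_degree_add_defect (p := p) hχ
    have h2 := hDg.card_eq
    rw [hcardD] at h2
    have h3 : blockDefect p B = (Nat.card (H34.Cg g)).factorization p :=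
      Nat.pow_right_injective hp.two_le h2
    have h4 := (H34.Cg g).card_mul_index
    have h5 : (Nat.card G).factorization p =
        (Nat.card (H34.Cg g)).factorization p + (H34.Cg g).index.factorization p := by
      rw [← h4, Nat.factorization_mul Nat.card_pos.ne' (Subgroup.index_ne_zero_of_finite)]
      rfl
    have h6 : (((H34.Cg g).index : ℕ) : ℂ) / (charDegree (χ : G → ℂ) : ℕ) ∈ locRing M :=
      H88.natCast_div_mem_locRing hM (H34.irr_degree_ne_zero χ) (by omega)
    have h7 := mul_mem_locMax_left h6 hmem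
    rw [H34.irr_degree_cast] at h7
    rw [← mem_locMax]
    convert h7 using 1
    simp only [centralChar]
    ring
  have hcomm : ∀ (d : D) (y : Subgroup.zpowers g),
      Commute (D.subtype d) ((Subgroup.zpowers g).subtype y) := by
    rintro d ⟨_, n, rfl⟩
    have : Commute g (d : G) := (Subgroup.mem_centralizer_iff.mp (hDg.le d.2)) g rfl
    exact (this.symm.zpow_right n)
  let f : D × Subgroup.zpowers g →* G := MonoidHom.noncommCoprod _ _ hcomm
  have := Fintype.ofFinite (D × Subgroup.zpowers g)
  have hθ := H5.isCharacter_comp hχc f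
  obtain ⟨m, hm1, -, hm3⟩ := H88.exists_nat_mult hθ
  let x₀ : D × Subgroup.zpowers g := (1, ⟨g, Subgroup.mem_zpowers g⟩)
  have hcen : ∀ y : Subgroup.zpowers g, ((1, y) : D × Subgroup.zpowers g) ∈
      Subgroup.center (D × Subgroup.zpowers g) := by
    intro y
    rw [Subgroup.mem_center_iff]
    rintro ⟨a, b⟩
    ext
    · simp
    · obtain ⟨_, i, rfl⟩ := b
      obtain ⟨_, j, rfl⟩ := y
      exact (Commute.zpow_zpow_self g i j).eq
  have hex : ∃ η : IrrCharacter (D × Subgroup.zpowers g), m η ≠ 0 ∧
      ¬ p ∣ charDegree (η : D × Subgroup.zpowers g → ℂ) := by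
    by_contra hcon
    push Not at hcon
    apply hunit
    have h1 := hm3 x₀
    have h2 : f x₀ = g := by simp [f, x₀]
    rw [h2] at h1
    rw [h1]
    refine H88.sum_mem_locMax _ _ fun η _ => ?_
    by_cases h : m η = 0
    · simp [h]
    · have hηc := H5.isCharacter_of_isIrr η.2
      obtain ⟨ω, -, hω, hω'⟩ := H5.exists_apply_mul_eq_of_norm_eq hηc
        (H5.norm_apply_of_mem_center η.2 (hcen ⟨g, Subgroup.mem_zpowers g⟩))
      have h3 := hω' 1
      rw [mul_one] at h3
      refine mul_mem_locMax_left (natCast_mem _ _) ?_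
      rw [h3, ← H34.irr_degree_cast]
      refine mul_mem_locMax_left (mem_locRing_of_isIntegral ?_)
        ((natCast_mem_locMax_iff hM).mpr (hcon η h))
      exact IsIntegral.of_pow (orderOf_pos _) (by rw [hω]; exact isIntegral_one)
  obtain ⟨η, hη0, hηp⟩ := hex
  obtain ⟨d, -, hd1, hd2⟩ := H7.exists_degree_dvd_index_center η.2
  have hd3 : d ∣ Nat.card D := by
    refine hd2.trans ?_
    have hle : (MonoidHom.fst D (Subgroup.zpowers g)).ker ≤
        Subgroup.center (D × Subgroup.zpowers g) := by
      rintro ⟨a, b⟩ hab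
      have : a = 1 := hab
      subst this
      exact hcen b
    refine (Subgroup.index_dvd_of_le hle).trans ?_
    rw [Subgroup.index_ker]
    exact Subgroup.card_subgroup_dvd_card _
  rw [hcardD, Nat.dvd_prime_pow hp] at hd3
  obtain ⟨k, -, rfl⟩ := hd3
  rw [H34.charDegree_eq_of_cast hd1] at hηp
  have hk : k = 0 := by
    by_contra h
    exact hηp (dvd_pow_self p h)
  subst hk
  obtain ⟨μ, hμ⟩ := H5.exists_monoidHom_of_degree_one (H5.isCharacter_of_isIrr η.2)
    (by simpa using hd1)
  refine ⟨μ.comp (MonoidHom.inl _ _), fun z => ?_⟩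
  have hz : ‖(χ : G → ℂ) z‖ = ‖(χ : G → ℂ) 1‖ := by
    rw [hover, norm_mul, H5.norm_monoidHom, mul_one]
  obtain ⟨ω, -, -, hω⟩ := H5.exists_apply_mul_eq_of_norm_eq hχc hz
  have hω1 : ω = lam z := by
    have := hω 1
    rw [mul_one, hover, mul_comm] at this
    exact (mul_right_cancel₀ (H5.degree_ne_zero χ.2) this).symm
  let z' : D × Subgroup.zpowers g := (⟨z, hZD z.2⟩, 1)
  have hne : classInner (fun x => (χ : G → ℂ) (f x)) (η : D × Subgroup.zpowers g → ℂ) ≠ 0 := by
    rw [hm1]; exact_mod_cast hη0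
  have key : classInner (fun x => (χ : G → ℂ) (f x)) (η : D × Subgroup.zpowers g → ℂ) =
      (ω * (starRingEnd ℂ) (μ z' : ℂ)) *
      classInner (fun x => (χ : G → ℂ) (f x)) (η : D × Subgroup.zpowers g → ℂ) := by
    rw [hμ]
    simp only [classInner]
    rw [mul_left_comm, Finset.mul_sum _ _ (ω * _)]
    congr 1
    refine (Fintype.sum_equiv (Equiv.mulLeft z') _ _ fun x => ?_).symm
    have : f z' = z := by simp [f, z']
    simp only [Equiv.coe_mulLeft, map_mul, this, hω, Units.val_mul]
    ring
  have h1 : ω * (starRingEnd ℂ) (μ z' : ℂ) = 1 := by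
    have := key
    nth_rewrite 1 [← one_mul (classInner _ _)] at this
    exact (mul_right_cancel₀ hne this).symm
  rw [H5.conj_monoidHom, hω1, ← Units.val_mul, Units.val_eq_one, MonoidHom.inv_apply,
    mul_inv_eq_one] at h1
  exact h1.symm

end Cfsg.Agent.S5001
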