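import Cfsg.Statements.S5060
import Cfsg.Agent.H90.DickGen

set_option autoImplicit false
open Cfsg

namespace Cfsg.Agent.S5060
open Cfsg.Agent.H90


/-- Let k ⊆ K be fields with the characteristic of k not 2 and k not of order 3, and let α ∈ K be a non-zero element algebraic over k. Then the subgroup of SL₂(K) generated by the upper unitriangular matrices with entry c and the lower unitriangular matrices with entry cα, c ranging over k, is exactly the group of matrices of SL₂(K) with all entries in k(α). -/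
theorem result {k K : Type*} [Field k] [Field K] [Algebra k K] (hk2 : ringChar k ≠ 2) (hk3 : Nat.card k ≠ 3)
    (α : K) (hα : IsAlgebraic k α) (hα0 : α ≠ 0) :
    (Subgroup.closure ({g : Matrix.SpecialLinearGroup (Fin 2) K | ∃ c : k, (g : Matrix (Fin 2) (Fin 2) K) = !![1, algebraMap k K c; 0, 1]} ∪
        {g : Matrix.SpecialLinearGroup (Fin 2) K | ∃ c : k, (g : Matrix (Fin 2) (Fin 2) K) = !![1, 0; algebraMap k K c * α, 1]}) :
      Set (Matrix.SpecialLinearGroup (Fin 2) K)) =
    {g : Matrix.SpecialLinearGroup (Fin 2) K | ∀ i j : Fin 2, (g : Matrix (Fin 2) (Fin 2) K) i j ∈ IntermediateField.adjoin k ({α} : Set K)} := by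
  have hi : IsIntegral k α := hα.isIntegral
  let L := IntermediateField.adjoin k ({α} : Set K)
  let pb := IntermediateField.adjoin.powerBasis hi
  have hgen : (pb.gen : K) = α := rfl
  let ψ : Matrix.SpecialLinearGroup (Fin 2) L →* Matrix.SpecialLinearGroup (Fin 2) K :=
    Matrix.SpecialLinearGroup.map (L.val : L →+* K)
  have hψ : ∀ g i j, (ψ g).1 i j = (g.1 i j : K) := fun g i j => rfl
  have hr : ∀ g : Matrix.SpecialLinearGroup (Fin 2) K, g ∈ ψ.range ↔ ∀ i j, g.1 i j ∈ L := by
    intro g
    constructor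
    · rintro ⟨h, rfl⟩ i j
      exact (h.1 i j).2
    · intro h
      refine ⟨⟨Matrix.of fun i j => ⟨g.1 i j, h i j⟩, ?_⟩, ?_⟩
      · apply Subtype.ext
        rw [Matrix.det_fin_two]
        simpa using sl2_det g
      · apply sl2_ext <;> rfl
  apply Set.Subset.antisymm
  · intro g hg
    refine (hr g).1 ((Subgroup.closure_le ψ.range).2 ?_ hg)
    rintro g (⟨c, hc⟩ | ⟨c, hc⟩)
    · refine ⟨xu (algebraMap k L c), ?_⟩
      apply sl2_ext <;> rw [hψ, hc] <;> simp
    · refine ⟨xl (algebraMap k L c * pb.gen), ?_⟩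
      apply sl2_ext <;> rw [hψ, hc] <;> simp [hgen]
  · intro g hg
    obtain ⟨h, rfl⟩ := (hr g).2 hg
    have := gen_field (two_ne_zero_of_ringChar hk2) hk3 (Γ := (Subgroup.closure ({g : Matrix.SpecialLinearGroup (Fin 2) K | ∃ c : k, (g : Matrix (Fin 2) (Fin 2) K) = !![1, algebraMap k K c; 0, 1]} ∪
        {g : Matrix.SpecialLinearGroup (Fin 2) K | ∃ c : k, (g : Matrix (Fin 2) (Fin 2) K) = !![1, 0; algebraMap k K c * α, 1]})).comap ψ)
      (z := pb.gen) (fun e => hα0 (by rw [← hgen, e]; rfl)) pb.isIntegral_gen pb.adjoin_gen_eq_top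
      (fun c => Subgroup.subset_closure (Or.inl ⟨c, by
        ext i j; rw [hψ]; fin_cases i <;> fin_cases j <;> simp⟩))
      (fun c => Subgroup.subset_closure (Or.inr ⟨c, by
        ext i j; rw [hψ]; fin_cases i <;> fin_cases j <;> simp [hgen]⟩))
    have h2 : h ∈ (⊤ : Subgroup _) := Subgroup.mem_top h
    rw [← this] at h2
    exact h2

end Cfsg.Agent.S5060
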