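import Cfsg.Statements.S5064
import Cfsg.Agent.H90.QP3

set_option autoImplicit false
universe u
open Cfsg

namespace Cfsg.Agent.S5064
open Cfsg.Agent.H90


/-- Let k be a field of characteristic not 2 with k not of order 3, M a finite-dimensional k-vector space and G ≤ GL(M) such that (G, M) is a quadratic pair (M irreducible for G, and G generated by its quadratically acting elements σ whose scalar family 1 + c(σ − 1), c ∈ k, lies in G). Write 𝒬_d for the quadratic elements of G of minimal commutator rank, E(σ) for the subgroup generated by the members of 𝒬_d with the same fixed space and commutator space as σ, and Σ for the set of these subgroups. If σ, τ ∈ 𝒬_d and the subgroup H generated by their two scalar families does not act unipotently on M, then H is isomorphic to SL₂ over a simple algebraic extension k(λ) of k. -/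
theorem result {k : Type u} [Field k] (hk2 : ringChar k ≠ 2) (hk3 : Nat.card k ≠ 3)
    {M : Type u} [AddCommGroup M] [Module k M] [FiniteDimensional k M]
    {G : Subgroup (LinearMap.GeneralLinearGroup k M)} (hG : Cfsg.IsQuadraticPair G)
    {σ τ : LinearMap.GeneralLinearGroup k M} (hσ : σ ∈ Cfsg.minimalQuadraticElements G) (hτ : τ ∈ Cfsg.minimalQuadraticElements G)
    (hH : ¬ Cfsg.IsUnipotentOn (Subgroup.closure (Cfsg.scalarFamily σ ∪ Cfsg.scalarFamily τ))) :
    ∃ (K : Type u) (_ : Field K) (_ : Algebra k K) (lam : K), IsAlgebraic k lam ∧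
      IntermediateField.adjoin k ({lam} : Set K) = ⊤ ∧
      Nonempty (↥(Subgroup.closure (Cfsg.scalarFamily σ ∪ Cfsg.scalarFamily τ)) ≃* Matrix.SpecialLinearGroup (Fin 2) K) := by
  have h2 := two_ne_zero_of_ringChar hk2
  have ha := mem_minimal.1 hσ
  have hb := mem_minimal.1 hτ
  have hcl : Subgroup.closure (Cfsg.scalarFamily σ ∪ Cfsg.scalarFamily τ) = fam k _ ha.sq ⊔ fam k _ hb.sq := by
    rw [Subgroup.closure_union]
    congr 1
    · exact Subgroup.closure_eq (fam k _ ha.sq)
    · exact Subgroup.closure_eq (fam k _ hb.sq)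
  rw [hcl] at hH ⊢
  generalize (σ : M →ₗ[k] M) - 1 = a at *
  generalize (τ : M →ₗ[k] M) - 1 = b at *
  set H := fam k a ha.sq ⊔ fam k b hb.sq
  have haH : QE k H a := (qe_fam ha.sq).mono le_sup_left
  have hbH : QE k H b := (qe_fam hb.sq).mono le_sup_right
  obtain ⟨e, z', h⟩ := fit_exists (k := k) a b
  have he : e ≠ 0 := by
    rintro rfl
    obtain ⟨N, hN⟩ := h.nil
    exact hH (isUnipotentOn_iff.2 (unip_fam_sup ha.sq hb.sq (N := N) (by rw [← hN, mul_zero])))
  have hea := h.left h2 hk3 ha hb.qe he
  have heb := h.symm.left h2 hk3 hb ha.qe he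
  have mu := h.mu ha.sq hb.sq
  rw [hea] at mu
  obtain ⟨L, _, _, _, ι, ζ, -, hζ, hgen⟩ := exists_comm_model (k := k) (a * b + b * a)
  have hmem : ∀ s, ι s ∈ Algebra.adjoin k {a * b + b * a} := fun s => by
    rw [← hζ, ← model_range ι hgen]; exact ⟨s, rfl⟩
  have ca := fun s => comm_z_left ha.sq (hmem s)
  have cb := fun s => comm_z_right hb.sq (hmem s)
  have ce := fun s => comm_adj h.e_mem (hmem s)
  have cz := fun s => comm_adj h.z'_mem (hmem s)
  let J : Ideal L :=
    { carrier := {s | ι s * a = 0}
      zero_mem' := by simp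
      add_mem' := fun {s t} (hs : ι s * a = 0) (ht : ι t * a = 0) => by
        show ι (s + t) * a = 0
        rw [map_add, add_mul, hs, ht, add_zero]
      smul_mem' := fun c s (hs : ι s * a = 0) => by
        show ι (c * s) * a = 0
        rw [map_mul, mul_assoc, hs, mul_zero] }
  have hJ : ∀ s, s ∈ J ↔ ι s * a = 0 := fun s => Iff.rfl
  have hJp : J.IsPrime := by
    refine ⟨fun e => ha.ne ?_, fun {s t} hst => ?_⟩
    · simpa using (hJ 1).1 (e ▸ Submodule.mem_top)
    · have h1 := (h.qe h2 hk3 ha.qe hb.qe (hmem s)).1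
      rw [hea] at h1
      rw [hJ, hJ, ← ca t]
      exact ha.cancel h1 (by rw [mul_assoc, ca, ← mul_assoc, ← map_mul]; exact hst)
  have := IsArtinianRing.of_finite k L
  have hJm : J.IsMaximal := IsArtinianRing.isMaximal_of_isPrime J
  letI := Ideal.Quotient.field J
  have hsec : ∀ s t, Ideal.Quotient.mk J s = Ideal.Quotient.mk J t → ι s * e = ι t * e := by
    intro s t hst
    rw [Ideal.Quotient.eq, hJ] at hst
    rw [← sub_eq_zero, ← sub_mul, ← map_sub, ← h.zz]
    simp only [mul_add, add_mul, mul_assoc, z3 hst, e3 (cb _).symm, mul_zero, add_zero]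
  let sec := Function.surjInv (Ideal.Quotient.mk_surjective (I := J))
  have hs : ∀ s, ι (sec (Ideal.Quotient.mk J s)) * e = ι s * e := fun s => hsec _ _ (Function.surjInv_eq _ _)
  let ι' : (L ⧸ J) →ₙ+* (M →ₗ[k] M) :=
    { toFun := fun t => ι (sec t) * e
      map_zero' := by simpa using hs 0
      map_add' := fun s t => by
        obtain ⟨s, rfl⟩ := Ideal.Quotient.mk_surjective s
        obtain ⟨t, rfl⟩ := Ideal.Quotient.mk_surjective t
        rw [← map_add, hs, hs, hs, map_add, add_mul]
      map_mul' := fun s t => by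
        obtain ⟨s, rfl⟩ := Ideal.Quotient.mk_surjective s
        obtain ⟨t, rfl⟩ := Ideal.Quotient.mk_surjective t
        rw [← map_mul, hs, hs, hs, map_mul]
        simp only [mul_assoc, e3 (ce t), h.ee] }
  have hι' : ∀ s, ι' (Ideal.Quotient.mk J s) = ι s * e := hs
  have ez' : e * z' = z' := (comm_adj h.e_mem h.z'_mem).trans h.ze
  obtain ⟨φ, hφ, hu, hl⟩ := mu.exists_hom' ι'
    (fun s => by
      obtain ⟨s, rfl⟩ := Ideal.Quotient.mk_surjective s
      rw [hι']; simp only [mul_assoc, e3 (ca s), comm_z_left ha.sq h.e_mem])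
    (fun s => by
      obtain ⟨s, rfl⟩ := Ideal.Quotient.mk_surjective s
      rw [hι']; simp only [mul_assoc, e3 (cb s), e3 (cz s), comm_z_right hb.sq h.e_mem, e3 h.ze, e3 ez'])
    (by rw [← map_one (Ideal.Quotient.mk J), hι']; simp [hea])
    (by rw [← map_one (Ideal.Quotient.mk J), hι']; simp [e3 ez'])
  have hu' : ∀ s, (φ (xu (Ideal.Quotient.mk J s)) : M →ₗ[k] M) = 1 + ι s * (e * a) := fun s => by
    rw [hu _ _ rfl, hι', mul_assoc]
  have hl' : ∀ s, (φ (xl (Ideal.Quotient.mk J s)) : M →ₗ[k] M) = 1 + ι s * (z' * b) := fun s => by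
    rw [hl _ _ rfl, hι', mul_assoc, e3 ez']
  have hrange : φ.range = H := by
    apply le_antisymm
    · rw [MonoidHom.range_eq_map, Subgroup.map_le_iff_le_comap, top_le_iff]
      apply sl2_eq_top
      · intro s
        obtain ⟨s, rfl⟩ := Ideal.Quotient.mk_surjective s
        exact InG.mem (hu' s ▸ (h.qe h2 hk3 haH hbH (hmem s)).1.one_add)
      · intro s
        obtain ⟨s, rfl⟩ := Ideal.Quotient.mk_surjective s
        exact InG.mem (hl' s ▸ (h.qe h2 hk3 haH hbH (hmem s)).2.one_add)
    · apply sup_le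
      · rintro g ⟨c, hc⟩
        refine ⟨xu (Ideal.Quotient.mk J (algebraMap k L c)), Units.ext ?_⟩
        rw [hu', hc, AlgHom.commutes, hea, Algebra.smul_def]
      · rintro g ⟨c, hc⟩
        refine ⟨xl (Ideal.Quotient.mk J (algebraMap k L c * ζ)), Units.ext ?_⟩
        rw [hl', hc, map_mul, AlgHom.commutes, hζ, mul_assoc, e3 h.zz, heb, Algebra.smul_def]
  have hinj : Function.Injective φ := by
    rw [injective_iff_map_eq_one]
    intro g hg
    have hc := sl2_ker_central φ (fun hc => by
      have := congrArg Units.val (hc (Ideal.Quotient.mk J 1) (Ideal.Quotient.mk J 1))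
      rw [Units.val_mul, Units.val_mul, hu', hl', map_one, one_mul, one_mul, hea] at this
      have h1 : a * (z' * b) = z' * b * a := by linear_combination (norm := noncomm_ring) this
      apply ha.ne
      rw [← mu.efe, h1, mul_assoc, ha.sq, mul_zero]) hg
    rcases sl2_center hc with rfl | rfl
    · rfl
    · exfalso
      have h1 := congrArg (fun x : (M →ₗ[k] M)ˣ => (x : M →ₗ[k] M) * a) hg
      have h3 : ι' 1 = e := by rw [← map_one (Ideal.Quotient.mk J), hι']; simp
      simp only [hφ, embFun] at h1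
      generalize z' * b = f at h1 mu
      simp [h3, add_mul, sub_mul, mul_assoc, ha.sq, e4' mu.efe, hea] at h1
      apply ha.ne
      have h4 : (2 : k) • a = 0 := by rw [two_smul]; linear_combination (norm := noncomm_ring) -h1
      exact (smul_eq_zero.1 h4).resolve_left h2
  refine ⟨L ⧸ J, inferInstance, inferInstance, Ideal.Quotient.mk J ζ, Algebra.IsAlgebraic.isAlgebraic _, ?_,
    ⟨((MonoidHom.ofInjective hinj).trans (MulEquiv.subgroupCongr hrange)).symm⟩⟩
  apply IntermediateField.adjoin_eq_top_of_algebra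
  have := congrArg (Subalgebra.map (Ideal.Quotient.mkₐ k J)) hgen
  rw [AlgHom.map_adjoin, Set.image_singleton, Algebra.map_top, (AlgHom.range_eq_top _).2
    (Ideal.Quotient.mkₐ_surjective k J)] at this
  exact this

end Cfsg.Agent.S5064
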