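import Cfsg.Statements.S5065
import Cfsg.Agent.H90.QP3

set_option autoImplicit false
universe u
open Cfsg

namespace Cfsg.Agent.S5065
open Cfsg.Agent.H90


/-- Let k be a field of characteristic not 2 with k not of order 3, M a finite-dimensional k-vector space and G ≤ GL(M) such that (G, M) is a quadratic pair (M irreducible for G, and G generated by its quadratically acting elements σ whose scalar family 1 + c(σ − 1), c ∈ k, lies in G). Write 𝒬_d for the quadratic elements of G of minimal commutator rank, E(σ) for the subgroup generated by the members of 𝒬_d with the same fixed space and commutator space as σ, and Σ for the set of these subgroups. For σ, τ ∈ 𝒬_d put A = E(σ), B = E(τ) and X = ⟨A, B⟩. Then either X acts unipotently on M, or A and B are the unipotent subgroups of a special rank one group X; in the latter case X contains exactly one central involution acting as −1 on the commutator space [M, X] and trivially on the fixed space C_M(X), and M is the direct sum of C_M(X)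 and [M, X]. -/
theorem result {k : Type u} [Field k] (hk2 : ringChar k ≠ 2) (hk3 : Nat.card k ≠ 3)
    {M : Type u} [AddCommGroup M] [Module k M] [FiniteDimensional k M]
    {G : Subgroup (LinearMap.GeneralLinearGroup k M)} (hG : Cfsg.IsQuadraticPair G)
    {σ τ : LinearMap.GeneralLinearGroup k M} (hσ : σ ∈ Cfsg.minimalQuadraticElements G) (hτ : τ ∈ Cfsg.minimalQuadraticElements G) :
    Cfsg.IsUnipotentOn (Cfsg.sameActionSubgroup G σ ⊔ Cfsg.sameActionSubgroup G τ) ∨
    (Cfsg.IsSpecialRankOnePair (Cfsg.sameActionSubgroup G σ) (Cfsg.sameActionSubgroup G τ) ∧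
      (∃! i : LinearMap.GeneralLinearGroup k M, i ∈ Cfsg.sameActionSubgroup G σ ⊔ Cfsg.sameActionSubgroup G τ ∧ i ≠ 1 ∧ i * i = 1 ∧
        (∀ x ∈ Cfsg.sameActionSubgroup G σ ⊔ Cfsg.sameActionSubgroup G τ, i * x = x * i) ∧
        (∀ m ∈ Cfsg.commutatorSubmodule (Cfsg.sameActionSubgroup G σ ⊔ Cfsg.sameActionSubgroup G τ), (i : M →ₗ[k] M) m = -m) ∧
        (∀ m ∈ Cfsg.fixedSubmodule (Cfsg.sameActionSubgroup G σ ⊔ Cfsg.sameActionSubgroup G τ), (i : M →ₗ[k] M) m = m)) ∧
      IsCompl (Cfsg.fixedSubmodule (Cfsg.sameActionSubgroup G σ ⊔ Cfsg.sameActionSubgroup G τ))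
        (Cfsg.commutatorSubmodule (Cfsg.sameActionSubgroup G σ ⊔ Cfsg.sameActionSubgroup G τ))) := by
  have h2 := two_ne_zero_of_ringChar hk2
  have ha := mem_minimal.1 hσ
  have hb := mem_minimal.1 hτ
  rw [sameActionSubgroup_eq ha, sameActionSubgroup_eq hb]
  generalize (σ : M →ₗ[k] M) - 1 = a at *
  generalize (τ : M →ₗ[k] M) - 1 = b at *
  by_cases hn : a * b * a = 0
  · exact Or.inl (isUnipotentOn_iff.2 (ha.unip h2 hb hn))
  right
  obtain ⟨f, hf, mu⟩ := ha.exists_mu h2 hk3 hb hn
  have hf0 := mu.ne ha.ne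
  have hfd := hf.qd hb hf0
  refine ⟨ha.sp h2 hk3 hb hn, ?_⟩
  rw [← EE_congr (ha := hfd.sq) (hf.sim hb hf0), fixedSubmodule_sup, commutatorSubmodule_sup,
    fixedSubmodule_EE ha.qe, fixedSubmodule_EE hfd.qe, commutatorSubmodule_EE ha.qe, commutatorSubmodule_EE hfd.qe]
  set p := a * f + f * a with hp
  have pa : p * a = a := by simp [hp, add_mul, mul_assoc, mu.ee, e4' mu.efe]
  have pf : p * f = f := by simp [hp, add_mul, mul_assoc, mu.ff, e4' mu.fef]
  have ap : a * p = a := by simp [hp, mul_add, z3 mu.ee, e4' mu.efe]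
  have fp : f * p = f := by simp [hp, mul_add, z3 mu.ff, e4' mu.fef]
  have pp : p * p = p := by rw [hp, mul_add, ← hp, ← mul_assoc, ← mul_assoc, pa, pf]
  have h1 : ∀ m ∈ LinearMap.range a ⊔ LinearMap.range f, p m = m := by
    intro m hm
    obtain ⟨_, ⟨x, rfl⟩, _, ⟨y, rfl⟩, rfl⟩ := Submodule.mem_sup.1 hm
    rw [map_add, ← Module.End.mul_apply, pa, ← Module.End.mul_apply p, pf]
  have h3 : ∀ m ∈ LinearMap.ker a ⊓ LinearMap.ker f, p m = 0 := by
    intro m hm
    have e1 : a m = 0 := hm.1
    have e2 : f m = 0 := hm.2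
    simp [hp, e1, e2]
  have h4 : ∀ m, p m ∈ LinearMap.range a ⊔ LinearMap.range f := fun m =>
    Submodule.add_mem_sup ⟨f m, rfl⟩ ⟨a m, rfl⟩
  have h5 : ∀ m, m - p m ∈ LinearMap.ker a ⊓ LinearMap.ker f := fun m =>
    ⟨by rw [SetLike.mem_coe, LinearMap.mem_ker, map_sub, ← Module.End.mul_apply, ap, sub_self],
      by rw [SetLike.mem_coe, LinearMap.mem_ker, map_sub, ← Module.End.mul_apply, fp, sub_self]⟩
  refine ⟨?_, ?_, ?_⟩
  · let w := un a ha.sq * (un f hfd.sq)⁻¹ * un a ha.sq
    have hw : w ∈ EE G a ha.sq ⊔ EE G f hfd.sq :=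
      Subgroup.mul_mem _ (Subgroup.mul_mem _ (Subgroup.mem_sup_left (InE.self ha.qe).un_mem)
        (Subgroup.mem_sup_right (Subgroup.inv_mem _ (InE.self hfd.qe).un_mem)))
        (Subgroup.mem_sup_left (InE.self ha.qe).un_mem)
    have hi : ((w * w : (M →ₗ[k] M)ˣ) : M →ₗ[k] M) = 1 - p - p := by
      simp only [w, Units.val_mul, un_val, un_inv, hp, mul_add, add_mul, mul_sub, sub_mul, mul_one, one_mul, mul_assoc,
        mu.ee, mu.ff, z3 mu.ee, z3 mu.ff, e4' mu.efe, e4' mu.fef, e4 mu.efe, e4 mu.fef, mul_zero]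
      abel
    refine ⟨w * w, ⟨Subgroup.mul_mem _ hw hw, fun e => ?_, ?_, fun x hx => ?_, fun m hm => ?_, fun m hm => ?_⟩, ?_⟩
    · rw [e, Units.val_one] at hi
      have h6 := congrArg (· * a) hi
      simp only [sub_mul, one_mul, pa] at h6
      have h4 : (2 : k) • a = 0 := by rw [two_smul]; linear_combination (norm := noncomm_ring) h6
      exact ha.ne ((smul_eq_zero.1 h4).resolve_left h2)
    · apply Units.ext
      rw [Units.val_mul, hi]
      simp only [mul_sub, sub_mul, pp, mul_one, one_mul, Units.val_one]; abel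
    · symm
      have key : ∀ {c} (hc : c * c = 0), p * c = c → c * p = c → ∀ g ∈ EE G c hc, g * (w * w) = (w * w) * g := by
        intro c hc e1 e2 g hg
        obtain ⟨x, hx, rfl⟩ := exists_of_mem_EE hg
        have e3 : x * (1 - p) = 0 := hx.left (by rw [mul_sub, e2, mul_one, sub_self])
        have e4 : (1 - p) * x = 0 := hx.right (by rw [sub_mul, e1, one_mul, sub_self])
        apply Units.ext
        rw [Units.val_mul, Units.val_mul (w * w), hi, un_val]
        linear_combination (norm := noncomm_ring) e3 + e3 - e4 - e4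
      exact comm_sup (key _ pa ap) (key _ pf fp) x hx
    · rw [hi]; simp [h1 m hm]
    · rw [hi]; simp [h3 m hm]
    · rintro i ⟨-, -, -, -, e1, e2⟩
      apply Units.ext
      ext m
      rw [hi, ← sub_add_cancel m (p m), map_add, e1 _ (h4 m), e2 _ (h5 m)]
      simp [sub_eq_add_neg]
  · rw [Submodule.disjoint_def]
    intro m hm hm'
    rw [← h1 m hm', h3 m hm]
  · rw [codisjoint_iff, eq_top_iff]
    intro m _
    rw [← sub_add_cancel m (p m)]
    exact Submodule.add_mem_sup (h5 m) (h4 m)

end Cfsg.Agent.S5065
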