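import Cfsg.Statements.S5073
import Cfsg.Agent.H90.QP5

set_option autoImplicit false
universe u
open Cfsg

namespace Cfsg.Agent.S5073
open Cfsg.Agent.H90


/-- Let k be a field of characteristic not 2 with k not of order 3, M a finite-dimensional k-vector space and G ≤ GL(M) such that (G, M) is a quadratic pair (M irreducible for G, and G generated by its quadratically acting elements σ whose scalar family 1 + c(σ − 1), c ∈ k, lies in G). Write 𝒬_d for the quadratic elements of G of minimal commutator rank, E(σ) for the subgroup generated by the members of 𝒬_d with the same fixed space and commutator space as σ, and Σ for the set of these subgroups. Let E, F ∈ Σ. If some non-identity element of E commutes with some non-identity element of F, or some non-identity element of E normalizes F, then E and F commute elementwise. -/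
theorem result {k : Type u} [Field k] (hk2 : ringChar k ≠ 2) (hk3 : Nat.card k ≠ 3)
    {M : Type u} [AddCommGroup M] [Module k M] [FiniteDimensional k M]
    {G : Subgroup (LinearMap.GeneralLinearGroup k M)} (hG : Cfsg.IsQuadraticPair G)
    {E F : Subgroup (LinearMap.GeneralLinearGroup k M)} (hE : E ∈ Cfsg.quadraticRootSubgroups G) (hF : F ∈ Cfsg.quadraticRootSubgroups G)
    (h : (∃ e ∈ E, e ≠ 1 ∧ ∃ f ∈ F, f ≠ 1 ∧ e * f = f * e) ∨ E ⊓ Subgroup.normalizer (F : Set (LinearMap.GeneralLinearGroup k M)) ≠ ⊥) :
    ⁅E, F⁆ = ⊥ := by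
  have hk := two_ne_zero_of_ringChar hk2
  obtain ⟨a, ha, rfl⟩ := mem_Sigma.1 hE
  obtain ⟨b, hb, rfl⟩ := mem_Sigma.1 hF
  refine cm_iff.1 (ha.cm_of hk hb ?_)
  by_contra h0
  rcases h with ⟨e, he, he1, f, hf, hf1, hc⟩ | h
  · by_cases hn : a * b * a = 0
    · obtain ⟨x, hx, rfl⟩ := exists_of_mem_EE he
      obtain ⟨y, hy, rfl⟩ := exists_of_mem_EE hf
      apply ha.noncomm hk hb hn h0 hx (fun e => he1 (un_eq_one.2 e)) hy (fun e => hf1 (un_eq_one.2 e))
      have := congrArg Units.val hc
      simp only [Units.val_mul, un_val] at this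
      linear_combination (norm := noncomm_ring) this
    · rcases r1_comm_elt (ha.r1 hk hk3 hb hn) he hf hc with h | h
      · exact he1 h
      · exact hf1 h
  · obtain ⟨⟨e, he, hn'⟩, he1⟩ := Subgroup.ne_bot_iff_exists_ne_one.1 h
    replace he1 : e ≠ 1 := fun h => he1 (Subtype.ext h)
    replace hn' := rc_eq_self_iff_mem_normalizer.2 hn'
    by_cases hn : a * b * a = 0
    · obtain ⟨x, hx, rfl⟩ := exists_of_mem_EE he
      have hx0 : x ≠ 0 := fun e => he1 (un_eq_one.2 e)
      have h1 := ha.noncomm_left hk hb hn h0 hx hx0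
      have h3 := nil_transfer hk ha hb hn hx (InE.self hb.qe)
      have h4 := (InE.self hb.qe).un_mem (ha := hb.sq)
      have h5 := h4
      rw [← hn', mem_rc] at h5
      have h6 := Subgroup.mul_mem _ h5 (Subgroup.inv_mem _ h4)
      rw [mem_EE, un_comm _ _ h3.1 h3.2, add_sub_cancel_left] at h6
      apply (hx.qd ha hx0).noncomm hk hb h3.1 h1 (InE.self hx.qe) hx0 h6 h1
      simp [mul_sub, sub_mul, mul_assoc, hx.qe.sq, z3 hx.qe.sq, z4' h3.1]
    · exact he1 (r1_norm (ha.r1 hk hk3 hb hn) he hn')

end Cfsg.Agent.S5073
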