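import Cfsg.Statements.S5075
import Cfsg.Agent.H90.ML3

set_option autoImplicit false
open Cfsg

namespace Cfsg.Agent.S5075
open Cfsg.Agent.H90

open Relation Module H27

/-- Let p be an odd prime, V a finite-dimensional vector space over the field with p elements, and H a group of linear automorphisms of V generated by transvections (elements of order p fixing a hyperplane pointwise) and having no nontrivial normal p-subgroup. Then for some n ≥ 1 there are a decomposition V = V₀ ⊕ V₁ ⊕ ⋯ ⊕ Vₙ into H-invariant subspaces and a decomposition of H as the internal direct product of normal subgroups H₁, …, Hₙ such that Hⱼ acts trivially on every Vᵢ with i ≠ j, and Hⱼ induces on Vⱼ exactly the special linear group of Vⱼ or exactly the isometry group of a non-degenerate alternating form on Vⱼ. -/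
theorem result {p : ℕ} [Fact p.Prime] (hp : Odd p) {V : Type*} [AddCommGroup V] [Module (ZMod p) V] [Finite V]
    (H : Subgroup (V ≃ₗ[ZMod p] V)) (T : Set (V ≃ₗ[ZMod p] V)) (hHT : H = Subgroup.closure T)
    (hT : ∀ t ∈ T, orderOf t = p ∧
      Module.finrank (ZMod p) ↥(LinearMap.ker ((t : V →ₗ[ZMod p] V) - LinearMap.id)) + 1 =
        Module.finrank (ZMod p) V)
    (hOp : Cfsg.pCore p ↥H = ⊥) :
    ∃ (n : ℕ) (W : Fin (n + 1) → Submodule (ZMod p) V) (K : Fin n → Subgroup (V ≃ₗ[ZMod p] V)),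
      1 ≤ n ∧ DirectSum.IsInternal W ∧
      (∀ h ∈ H, ∀ i, (W i).map (h : V →ₗ[ZMod p] V) = W i) ∧
      (∀ j, K j ≤ H ∧ ((K j).subgroupOf H).Normal) ∧ ⨆ j, K j = H ∧
      (∀ j, K j ⊓ (⨆ j' ∈ {j' : Fin n | j' ≠ j}, K j') = ⊥) ∧
      (∀ j j', j ≠ j' → ∀ a ∈ K j, ∀ b ∈ K j', a * b = b * a) ∧
      (∀ j, ∀ h ∈ K j, ∀ i : Fin (n + 1), i ≠ j.succ → ∀ v ∈ W i, h v = v) ∧
      (∀ j, ∃ ρ : ↥(K j) →* (↥(W j.succ) ≃ₗ[ZMod p] ↥(W j.succ)),
        (∀ (h : ↥(K j)) (v : ↥(W j.succ)), ((ρ h v : ↥(W j.succ)) : V) = (h : V ≃ₗ[ZMod p] V) (v : V)) ∧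
        ((ρ.range : Set (↥(W j.succ) ≃ₗ[ZMod p] ↥(W j.succ))) =
            {f : ↥(W j.succ) ≃ₗ[ZMod p] ↥(W j.succ) | LinearMap.det (f : ↥(W j.succ) →ₗ[ZMod p] ↥(W j.succ)) = 1} ∨
          ∃ B : LinearMap.BilinForm (ZMod p) ↥(W j.succ), B.IsAlt ∧ B.Nondegenerate ∧
            (ρ.range : Set (↥(W j.succ) ≃ₗ[ZMod p] ↥(W j.succ))) = {f : ↥(W j.succ) ≃ₗ[ZMod p] ↥(W j.succ) | ∀ x y, B (f x) (f y) = B x y})) := by
  classical
  have hp2 : 2 < p := lt_of_le_of_ne (Fact.out : p.Prime).two_le (by rintro rfl; exact absurd hp (by decide))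
  have h2 : (2 : ZMod p) ≠ 0 := fun e =>
    absurd (Nat.le_of_dvd two_pos ((ZMod.natCast_eq_zero_iff 2 p).1 (by exact_mod_cast e))) (by omega)
  have hV : ∀ x : V, p • x = 0 := ZModModule.char_nsmul_eq_zero p
  have : Module.Finite (ZMod p) V := .of_finite
  have : Finite (Dual (ZMod p) V) := DFunLike.finite _
  have h := ts_of hp2 hV (fun a => ⟨a.val, (ZMod.natCast_zmod_val a).symm⟩) H hOp
  generalize hΓ : (fun (v : V) (φ : Dual (ZMod p) V) => φ v = 0 ∧ T1 H v φ) = Γ at h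
  have hΓ' : ∀ v φ, Γ v φ ↔ φ v = 0 ∧ T1 H v φ := fun v φ => by rw [← hΓ]
  obtain ⟨n, f, f1, f2, f3⟩ := exists_reps (r := ReflTransGen (Op (Dual.eval (ZMod p) V) Γ)) (fun _ => .refl)
    (rtg_symm Op.symm) ReflTransGen.trans (ND Γ)
  let C := fun j => Cmp (Dual.eval (ZMod p) V) Γ (f j)
  have k1 : ∀ j, KK (C j) ≤ H := fun j => (Subgroup.closure_le _).2 fun g ⟨q, hq, e⟩ =>
    Has.mem ((hΓ' _ _).1 hq.1.1).2 e
  have k2 : ⨆ j, KK (C j) = H := le_antisymm (iSup_le k1) (hHT.le.trans ((Subgroup.closure_le _).2 fun t ht => by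
    obtain ⟨v, φ, e1, hv, hφ, e⟩ := exists_tv (hT t ht).1 (hT t ht).2
    have h3 : Γ v φ := (hΓ' _ _).2 ⟨e1, t, hHT ▸ Subgroup.subset_closure ht, e⟩
    obtain ⟨j, hj⟩ := f3 (v, φ) ⟨h3, hv, hφ⟩
    exact Subgroup.mem_iSup_of_mem j (Subgroup.subset_closure ⟨(v, φ), ⟨⟨h3, fun _ _ => hj⟩, hv, hφ⟩, e⟩)))
  rcases n with _ | n
  · have hH : H = ⊥ := by rw [← k2]; simp
    subst hH
    refine ⟨1, ![⊤, ⊥], fun _ => ⊥, le_rfl, ?_, ?_, fun _ => ⟨le_rfl, inferInstance⟩, by simp, by simp, by simp, by simp,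
      fun j => ?_⟩
    · exact (DirectSum.isInternal_submodule_iff_isCompl _ (i := 0) (j := 1) (by decide) (by ext i; fin_cases i <;> simp)).2
        isCompl_top_bot
    · rintro _ rfl i; exact Submodule.map_id _
    · obtain rfl : j = 0 := Subsingleton.elim _ _
      have : Subsingleton (![(⊤ : Submodule (ZMod p) V), ⊥] (Fin.succ 0)) :=
        inferInstanceAs (Subsingleton (⊥ : Submodule (ZMod p) V))
      refine ⟨1, fun g v => by rw [Subgroup.mem_bot.1 g.2]; rfl, Or.inl (Set.ext fun g => ?_)⟩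
      obtain rfl : g = 1 := Subsingleton.elim _ _
      exact iff_of_true (one_mem (MonoidHom.range _)) LinearMap.det_id
  let A := fun j => (PP (C j)).dualCoannihilator
  have k3 : ∀ j j', j ≠ j' → WW (C j) ≤ A j' := fun j j' hn => Submodule.span_le.2 fun v ⟨φ, h1⟩ =>
    mem_ann.2 fun q hq => h.cmp_orth (f2 j' j hn.symm) hq.1 h1.1 hq.2.1 h1.2.2
  have k4 : ∀ (U : Submodule (ZMod p) V) j, (U = WW (C j) ∨ U ≤ WW (C j) ⊓ A j) → H ≤ stab U := fun U j hU =>
    k2.ge.trans (iSup_le fun j' g hg => by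
      by_cases e : j' = j
      · subst e
        rcases hU with rfl | hU
        · exact rel_le_stab (KK_le_W hg)
        · exact fix_stab (KK_le_ann hg) (hU.trans inf_le_right)
      · exact fix_stab (KK_le_ann hg) ((hU.elim le_of_eq fun h => h.trans inf_le_left).trans (k3 j j' (Ne.symm e))))
  have k5 : ∀ j, Good (C j) := fun j => by
    have hp : ND (C j) (f j) := ⟨⟨(f1 j).1, fun _ _ => .refl⟩, (f1 j).2⟩
    by_cases hA : ∀ p q, ND (C j) p → ND (C j) q → p.2 q.1 ≠ 0 → q.2 p.1 ≠ 0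
    · refine (h.cmp _).good_alt (cmp_conn _) h2 hp hA fun g hg hg' => ?_
      have hW := k4 _ j (Or.inl rfl)
      have hR := k4 _ j (Or.inr le_rfl)
      have := H22.le_pCore (N := (Rel ⊤ (WW (C j)) ⊓ Rel (WW (C j)) (WW (C j) ⊓ A j) ⊓ Rel (WW (C j) ⊓ A j) ⊥).subgroupOf H)
        ⟨fun a ha b => ⟨⟨rel_conj ha.1.1 (fun _ => Iff.rfl) (hW b.2), rel_conj ha.1.2 (hW b.2) (hR b.2)⟩,
          rel_conj ha.2 (hR b.2) (fun _ => by simp)⟩⟩ (isPGroup_flag hp2 hV _ _).comap_subtype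
        (show (⟨g, k1 j hg⟩ : H) ∈ _ from ⟨⟨KK_le_W hg, hg'⟩, mem_rel bot_le fun x hx => (KK_le_ann hg).2 x hx.2⟩)
      rwa [hOp, Subgroup.mem_bot, Subtype.ext_iff] at this
    · push Not at hA
      obtain ⟨a, b, ha, hb, e1, e2⟩ := hA
      exact (h.cmp _).good_lin (cmp_conn _) h2 ha hb e1 e2
  have k6 : ∀ j j', j ≠ j' → ∀ a ∈ KK (C j), ∀ b ∈ KK (C j'), a * b = b * a := fun j j' hn a ha b hb =>
    LinearEquiv.ext fun x => by
      have e1 := rel_fix (KK_le_ann ha) (k3 j' j hn.symm ((KK_le_W hb).2 x trivial))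
      have e2 := rel_fix (KK_le_ann hb) (k3 j j' hn ((KK_le_W ha).2 x trivial))
      rw [map_sub] at e1 e2
      rw [le_mul_apply, le_mul_apply]
      linear_combination (norm := module) e1 - e2
  let π := fun j => (WW (C j)).projection (A j) (k5 j).1
  refine ⟨n + 1, Fin.cons (⨅ j, A j) fun j => WW (C j), fun j => KK (C j), by omega, ?_, fun g hg i => ?_,
    fun j => ⟨k1 j, ?_⟩, k2, fun j => ?_, k6, fun j g hg i hi v hv => rel_fix (KK_le_ann hg) ?_,
    fun j => ⟨rhoK (C j), rhoK_apply, ?_⟩⟩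
  · rw [DirectSum.isInternal_submodule_iff_iSupIndep_and_iSup_eq_top]
    refine ⟨fun i => ?_, eq_top_iff.2 fun v _ => ?_⟩
    · refine Fin.cases ?_ (fun j => ?_) i
      · refine Submodule.disjoint_def.2 fun x hx hx' => ?_
        have : x ∈ LinearMap.eqLocus (∑ j, π j) LinearMap.id := by
          refine SetLike.le_def.1 (iSup₂_le fun i => Fin.cases (fun e => absurd rfl e) (fun j _ => ?_) i) hx'
          intro w hw
          rw [LinearMap.mem_eqLocus, LinearMap.sum_apply, Finset.sum_eq_single j (fun j' _ e =>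
            Submodule.projection_apply_of_mem_right _ (k3 j j' e.symm hw)) (by simp)]
          exact Submodule.projection_apply_of_mem_left _ hw
        rw [LinearMap.mem_eqLocus, LinearMap.sum_apply, Finset.sum_eq_zero fun j _ =>
          Submodule.projection_apply_of_mem_right _ ((Submodule.mem_iInf _).1 hx j)] at this
        exact this.symm
      · refine (k5 j).1.disjoint.mono_right (iSup₂_le fun i => Fin.cases (fun _ => iInf_le A j) (fun j' e => ?_) i)
        exact k3 j' j fun e' => e (by rw [e'])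
    · rw [← sub_add_cancel v (∑ j, π j v)]
      refine add_mem (Submodule.mem_iSup_of_mem 0 ((Submodule.mem_iInf _).2 fun i => ?_))
        (sum_mem fun j _ => Submodule.mem_iSup_of_mem j.succ (Submodule.projection_apply_mem _ v))
      rw [← Finset.add_sum_erase _ _ (Finset.mem_univ i), ← sub_sub]
      refine sub_mem ?_ (sum_mem fun j hj => k3 j i (Finset.ne_of_mem_erase hj) (Submodule.projection_apply_mem _ v))
      rw [← Submodule.projection_apply_eq_zero_iff (k5 i).1, map_sub,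
        Submodule.projection_apply_of_mem_left _ (Submodule.projection_apply_mem _ v), sub_self]
  · refine mem_stab_iff_map.1 (Fin.cases ?_ (fun j => k4 _ j (Or.inl rfl) hg) i)
    exact k2.ge.trans (iSup_le fun j g hg => fix_stab (KK_le_ann hg) (iInf_le A j)) hg
  · refine (Subgroup.normal_subgroupOf_iff_le_normalizer (k1 j)).2 (k2.ge.trans (iSup_le fun j' => ?_))
    by_cases e : j' = j
    · exact e ▸ Subgroup.le_normalizer
    · exact le_trans (fun a ha => Subgroup.mem_centralizer_iff.2 fun b hb => k6 j j' (Ne.symm e) b hb a ha)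
        (Subgroup.centralizer_le_normalizer _)
  · refine eq_bot_iff.2 fun g ⟨hg, hg'⟩ => LinearEquiv.ext fun x => ?_
    have hg' : g ∈ Rel (WW (C j)) ⊥ := by
      refine SetLike.le_def.1 (iSup₂_le fun j' e => ?_) hg'
      exact fun a ha => mem_rel bot_le fun x hx => (KK_le_ann ha).2 x (k3 j j' (Ne.symm e) hx)
    obtain ⟨a, ha, b, hb, rfl⟩ := Submodule.mem_sup.1 ((k5 j).1.sup_eq_top.ge (Submodule.mem_top (x := x)))
    rw [map_add, rel_fix hg' ha, rel_fix (KK_le_ann hg) hb]; rfl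
  · revert hi hv
    exact Fin.cases (fun _ hv => iInf_le A j hv) (fun j' e hv => k3 j' j (fun e' => e (by rw [e'])) hv) i
  · rcases (k5 j).2 with e | ⟨B, b1, b2, e⟩
    · exact Or.inl (Set.ext fun g => (SetLike.ext_iff.1 e g).trans mem_SLV)
    · exact Or.inr ⟨B, b1, b2, Set.ext fun g => SetLike.ext_iff.1 e g⟩

end Cfsg.Agent.S5075
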