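import Cfsg.Statements.S5087
import Cfsg.Agent.H91.Normal

set_option autoImplicit false
open Cfsg

namespace Cfsg.Agent.S5087

open Cfsg.FusionSystem Cfsg.Agent.H91

/-- In a saturated fusion system over a finite p-group S, a subgroup Q is normal in the system if and only if every subgroup P that equals S or is essential contains Q and every element of Aut_F(P) maps Q onto itself. -/
theorem result {Ω : Type*} [Group Ω] {S : Subgroup Ω} [Finite S] (p : ℕ) [Fact p.Prime] (hS : IsPGroup p S) (F : Cfsg.FusionSystem S) (hF : F.IsSaturated p) (Q : Subgroup Ω) : F.IsNormal Q ↔ ∀ P : Subgroup Ω, (P = S ∨ F.IsEssential p P) → (Q ≤ P ∧ ∀ α ∈ F.autGroup P, (Q.subgroupOf P).map α.toMonoidHom = Q.subgroupOf P) := by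
  have key : ∀ (P : Subgroup Ω) (_ : Q ≤ P) (α : MulAut P),
      (Q.subgroupOf P).map α.toMonoidHom = Q.subgroupOf P ↔ im (efn α) Q = Q := by
    intro P hQP α
    rw [← map_subgroupOf_eq_im hQP (P.subtype.comp α.toMonoidHom) (f := efn α)
      fun x => (efn_coe α x).symm, ← Subgroup.map_map]
    conv_rhs => rhs; rw [← Subgroup.map_subgroupOf_eq_of_le hQP]
    exact (Subgroup.map_injective P.subtype_injective).eq_iff.symm
  refine ⟨fun h P hP => ?_, fun h => normal_of_essential hS hF (h S (.inl rfl)).1 fun R hR =>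
    ⟨(h R hR).1, fun α hα => (key R (h R hR).1 α).1 ((h R hR).2 α hα)⟩⟩
  obtain ⟨hc, hr, -⟩ := centric_radical_of_alp hS hF hP
  have hQP := normal_le_centric_radical hS h hc hr
  exact ⟨hQP, fun α hα => (key P hQP α).2
    (((mem_autGroup_iff hc.1).1 hα).im_eq_of_weaklyClosed (weaklyClosed_of_normal h) hQP)⟩

end Cfsg.Agent.S5087
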