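import Cfsg.Statements.S5151
import Cfsg.Agent.H91.Balance
import Cfsg.Agent.H94.Constr

set_option autoImplicit false
open Cfsg

namespace Cfsg.Agent.S5151

open Cfsg.FusionSystem Cfsg.Agent.H91

/-- E-balance for fusion systems: let F be a saturated fusion system over a finite p-group S, X a fully normalized subgroup and N the normalizer system of X. Then the layer of N is a subsystem of the layer of F. -/
theorem result {Ω : Type*} [Group Ω] {S : Subgroup Ω} [Finite S] (p : ℕ) [Fact p.Prime] (hS : IsPGroup p S) (F : Cfsg.FusionSystem S) (hF : F.IsSaturated p) (X : Subgroup Ω) (hX : F.IsFullyNormalized X) (N : Cfsg.FusionSystem (Cfsg.FusionSystem.normalizerIn S X)) (hN : F.IsNormalizerSystem X N) {U : Subgroup Ω} (EN : Cfsg.FusionSystem U) (hEN : EN.IsLayerOf N p) {T : Subgroup Ω} (E : Cfsg.FusionSystem T) (hE : E.IsLayerOf F p) : EN.IsSubsystemOf E := by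
  have hnc : ∀ {R : Subgroup Ω} (B : FusionSystem R), R ≤ S → B.IsSaturated p →
      (¬ ∃ (T : Subgroup Ω) (C : FusionSystem T), C.IsComponentIn B p) → B.IsConstrained p := by
    intro R B hR hB h
    haveI := finite_of_le hR
    exact (H94.constrained_iff_no_component (isPGroup_of_le hS hR) hB).2 h
  have e : N = normFS F hX.1 :=
    fs_ext fun P f => ((H91.isNormalizerSystem_iff.1 hN) P f).trans (M_normFS hX.1).symm
  subst e
  exact layer_balance hS hnc hE hX hEN

end Cfsg.Agent.S5151
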