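import Cfsg.Statements.S5152
import Cfsg.Agent.H94.Constr

set_option autoImplicit false
open Cfsg

namespace Cfsg.Agent.S5152

open Cfsg.FusionSystem Cfsg.Agent.H91

/-- Dichotomy for saturated fusion systems: a saturated fusion system over a finite p-group is of characteristic p-type (the normalizer system of every nontrivial fully normalized subgroup is constrained) or of component type (the centralizer system of some fully normalized subgroup of order p has a component). -/
theorem result {Ω : Type*} [Group Ω] {S : Subgroup Ω} [Finite S] (p : ℕ) [Fact p.Prime] (hS : IsPGroup p S) (F : Cfsg.FusionSystem S) (hF : F.IsSaturated p) : F.IsOfCharacteristicPType p ∨ F.IsOfComponentType p := by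
  by_cases h : F.IsOfComponentType p
  · exact Or.inr h
  refine Or.inl fun U h1 hU E hE => H94.norm_constrained_of_cent hS hF hU
    (H94.centFS_constrained_of_order_p hS hF (fun X hX hXn => ?_) (sat_fullyCentralized hS hF hU) h1)
    rfl (isNormalizerSystem_iff.1 hE)
  haveI := finite_centralizerIn (S := S) X
  exact (H94.constrained_iff_no_component (isPGroup_of_le hS (centralizerIn_le _ _))
    (centFS_saturated hS hF (sat_fullyCentralized hS hF hXn))).2 fun hc =>
      h ⟨X, hX, hXn, _, centFS_isCentralizerSystem hXn.1, hc⟩

end Cfsg.Agent.S5152
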