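import Cfsg.Statements.S5199
import Cfsg.Agent.H91.Hyp

set_option autoImplicit false
open Cfsg

namespace Cfsg.Agent.S5199

open Cfsg.FusionSystem Cfsg.Agent.H91

/-- Let F be a saturated fusion system over a finite p-group S, E a normal subsystem of F over T, and F₀ a normal subsystem of F over a subgroup U containing both T and the hyperfocal subgroup of F, such that F₀ has p-power index in F. Then E is a subsystem of F₀. -/
theorem result {Ω : Type*} [Group Ω] {S : Subgroup Ω} [Finite S] (p : ℕ) [Fact p.Prime] (hS : IsPGroup p S) (F : Cfsg.FusionSystem S) (hF : F.IsSaturated p) {T U : Subgroup Ω} (E : Cfsg.FusionSystem T) (hE : E.IsNormalIn F p) (F₀ : Cfsg.FusionSystem U) (hF₀ : F₀.IsNormalIn F p) (hU : T ⊔ F.hyperfocalSubgroup p ≤ U) (hidx : F₀.HasPPowerIndexIn F p) : E.IsSubsystemOf F₀ := by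
  have hT := H92.normalIn_le hE
  have := finite_of_le hT
  have hTU : T ≤ U := le_sup_left.trans hU
  have hTp := isPGroup_of_le hS hT
  have hEs := H92.normalIn_sat_left hE
  refine sub_of_coprime hTp hEs hTU fun P hP α hα hc => ?_
  have hP' := ((centric_radical_of_alp hTp hEs hP).2.2.1).trans hTU
  exact (mem_autGroup_iff hP').1 ((hasPPowerIndexIn_iff.1 hidx).2.2 P hP' α
    (autGroup_mono (H92.normalIn_sub hE) P hα) hc)

end Cfsg.Agent.S5199
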