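import Cfsg.Statements.S5214
import Cfsg.Agent.H91.Normal
import Cfsg.Agent.S1137
import Cfsg.Agent.S1138

set_option autoImplicit false
open Cfsg

namespace Cfsg.Agent.S5214

open Cfsg.Agent.H91 Cfsg.FusionSystem
open scoped commutatorElement

/-- Let S be a Suzuki 2-group (a finite nonabelian 2-group with more than one involution admitting a cyclic group of automorphisms permuting its involutions regularly). Then S is normal in every saturated fusion system over S (such a group is resistant). -/
theorem result {Ω : Type*} [Group Ω] {S : Subgroup Ω} [Finite S] (hS : IsPGroup 2 S) (F : Cfsg.FusionSystem S) (hF : F.IsSaturated 2) (hsz : Cfsg.IsSuzukiTwoGroup ↥S) : F.IsNormal S := by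
  obtain ⟨h1, h2⟩ := Cfsg.Agent.S1137.result hsz
  obtain ⟨-, h3, -⟩ := Cfsg.Agent.S1138.result hsz
  let Z : Subgroup Ω := (Subgroup.center S).map S.subtype
  have hZ : ∀ x ∈ S, x ∈ Z ↔ x * x = 1 := by
    intro x hx
    constructor
    · rintro ⟨y, hy, rfl⟩
      exact congrArg Subtype.val (h2 y hy)
    · intro h
      by_cases h0 : x = 1
      · rw [h0]; exact Z.one_mem
      · exact ⟨⟨x, hx⟩, ((h1 ⟨x, hx⟩).1 ⟨fun e => h0 (congrArg Subtype.val e), Subtype.ext h⟩).1, rfl⟩
  have hZS : Z ≤ S := Subgroup.map_subtype_le _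
  have hsc : F.StronglyClosed Z := by
    refine stronglyClosed_iff.2 ⟨hZS, fun P f hf x hx hxZ => ?_⟩
    rw [hZ _ (hf.mem hx), ← hf.map_mul hx hx, (hZ x (hf.le hx)).1 hxZ, hf.map_one]
  refine normal_of_chain hS hF (fun i => if i = 0 then ⊥ else if i = 1 then Z else S) 2 ?_ rfl rfl ?_
  · intro i hi
    interval_cases i
    · exact stronglyClosed_bot F
    · exact hsc
    · exact stronglyClosed_top F
  · intro i hi
    interval_cases i
    · show ⁅S, Z⁆ ≤ ⊥
      rw [Subgroup.commutator_le]
      rintro a ha _ ⟨z, hz, rfl⟩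
      have := congrArg Subtype.val (Subgroup.mem_center_iff.1 hz ⟨a, ha⟩)
      rw [Subgroup.mem_bot, commutatorElement_eq_one_iff_mul_comm]
      exact this
    · show ⁅S, S⁆ ≤ Z
      rw [Subgroup.commutator_le]
      intro a ha b hb
      refine ⟨_, h3 (⟨a, ha⟩ : S)⁻¹ (⟨b, hb⟩ : S)⁻¹, ?_⟩
      simp [commutatorElement_def]

end Cfsg.Agent.S5214
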