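import Cfsg.Statements.S5219
import Cfsg.Agent.H93.Agemo

set_option autoImplicit false
open Cfsg

namespace Cfsg.Agent.S5219

open Cfsg.FusionSystem Cfsg.Agent.H91 Cfsg.Agent.H93

open scoped commutatorElement in
theorem commutator_pow_left {G : Type*} [Group G] {x y : G} (h : Commute x ⁅x, y⁆) (m : ℕ) :
    ⁅x ^ m, y⁆ = ⁅x, y⁆ ^ m := by
  have e : y * x⁻¹ * y⁻¹ = x⁻¹ * ⁅x, y⁆ := by rw [commutatorElement_def]; group
  have e2 : ⁅x ^ m, y⁆ = x ^ m * (y * x⁻¹ * y⁻¹) ^ m := by
    rw [commutatorElement_def, conj_pow]; group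
  rw [e2, e, h.inv_left.mul_pow, inv_pow, mul_inv_cancel_left]

open scoped commutatorElement in
theorem pow_mem_upper {G : Type*} [Group G] {m : ℕ} (h : ∀ z ∈ Subgroup.center G, z ^ m = 1) :
    ∀ i, ∀ x ∈ Subgroup.upperCentralSeries G (i + 1), x ^ m ∈ Subgroup.upperCentralSeries G i := by
  intro i
  induction i with
  | zero =>
    intro x hx
    rw [zero_add, Subgroup.upperCentralSeries_one] at hx
    rw [h x hx]; exact one_mem _
  | succ i ih =>
    intro x hx
    rw [Subgroup.mem_upperCentralSeries_succ_iff] at hx ⊢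
    intro y
    have h1 := ih _ (hx y)
    let π := QuotientGroup.mk' (Subgroup.upperCentralSeries G i)
    have h2 : Commute (π x) ⁅π x, π y⁆ := by
      rw [← map_commutatorElement]
      refine Commute.symm ?_
      rw [← commutatorElement_eq_one_iff_commute, ← map_commutatorElement]
      exact (QuotientGroup.eq_one_iff _).2 (Subgroup.mem_upperCentralSeries_succ_iff.1 (hx y) x)
    have h3 := commutator_pow_left h2 m
    rw [← map_pow, ← map_commutatorElement, ← map_commutatorElement, ← map_pow] at h3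
    rw [← QuotientGroup.eq_one_iff] at h1 ⊢
    exact h3.trans h1

theorem pow_pow_eq_one {G : Type*} [Group G] {m : ℕ} (h : ∀ z ∈ Subgroup.center G, z ^ m = 1) :
    ∀ i, ∀ x ∈ Subgroup.upperCentralSeries G i, x ^ m ^ i = 1 := by
  intro i
  induction i with
  | zero => intro x hx; simpa using hx
  | succ i ih =>
    intro x hx
    rw [pow_succ', pow_mul]
    exact ih _ (pow_mem_upper h i x hx)

/-- Let p be a prime, n a natural number, S a nontrivial finite p-group of nilpotence class at most n(p−1)+1, and F a saturated fusion system over S with no nontrivial normal subgroup (O_p(F) = 1). Then S has exponent dividing p^(n²(p−1)+n). -/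
theorem result {Ω : Type*} [Group Ω] {S : Subgroup Ω} [Finite S] (p : ℕ) [Fact p.Prime] (hS : IsPGroup p S) (F : Cfsg.FusionSystem S) (hF : F.IsSaturated p) (n : ℕ) (hS1 : S ≠ ⊥) (hcl : Subgroup.lowerCentralSeries S (n * (p - 1) + 1) = ⊥) (hcore : F.core = ⊥) : Monoid.exponent ↥S ∣ p ^ (n ^ 2 * (p - 1) + n) := by
  have h1 := le_core (agemo_center_normal hS hF n hcl)
  rw [hcore] at h1
  have h2 : ∀ z ∈ Subgroup.center S, z ^ p ^ n = 1 := fun z hz => Subtype.ext (by
    refine Subgroup.mem_bot.1 (h1 (Subgroup.subset_closure ⟨z, ⟨z.2, fun y hy => ?_⟩, rfl⟩))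
    exact congrArg Subtype.val (Subgroup.mem_center_iff.1 hz ⟨y, hy⟩))
  have h3 : Subgroup.lowerCentralSeries (⊤ : Subgroup S) (n * (p - 1) + 1) = ⊥ := by
    rw [← Subgroup.map_subtype_inj, Subgroup.map_bot, Subgroup.top_subtype_lowerCentralSeries, hcl]
  haveI : Group.IsNilpotent S := Subgroup.nilpotent_iff_lowerCentralSeries.2 ⟨_, h3⟩
  have h4 := Subgroup.upperCentralSeries_eq_top_iff_nilpotencyClass_le.2
    (Subgroup.lowerCentralSeries_eq_bot_iff_nilpotencyClass_le.1 h3)
  refine Monoid.exponent_dvd_of_forall_pow_eq_one fun x => ?_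
  have := pow_pow_eq_one h2 _ x (h4 ▸ Subgroup.mem_top x)
  rwa [← pow_mul, show n * (n * (p - 1) + 1) = n ^ 2 * (p - 1) + n by ring] at this

end Cfsg.Agent.S5219
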