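import Cfsg.Statements.S5223
import Cfsg.Agent.H93.Cocycle
import Cfsg.Agent.H91.Normal

set_option autoImplicit false
open Cfsg

namespace Cfsg.Agent.S5223

open Cfsg.FusionSystem Cfsg.Agent.H93
open Cfsg.Agent.H91 hiding center_central center_le central_bot central_mono central_sup core_le core_normal isCentral_iff isFullyAutomized_iff isNormal_iff le_center le_core normal_bot normal_sup sSup_mem_of_sup_closed stronglyClosed_iff weaklyClosed_iff

/-- Let F be a saturated fusion system over a finite p-group S. Suppose there are subgroups Q₀ = S, Q₁, …, Qₙ = 1 (not required to be nested) such that for each i < n the focal subgroup of Qᵢ (generated by the elements x⁻¹φ(x), x ∈ Qᵢ, φ a map of F defined on the cyclic group generated by x) lies in Qᵢ₊₁. Then F is the inner fusion system of S. -/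
theorem result {Ω : Type*} [Group Ω] {S : Subgroup Ω} [Finite S] (p : ℕ) [Fact p.Prime] (hS : IsPGroup p S) (F : Cfsg.FusionSystem S) (hF : F.IsSaturated p) (n : ℕ) (Q : Fin (n + 1) → Subgroup Ω) (hQ0 : Q 0 = S) (hQn : Q (Fin.last n) = ⊥) (hstep : ∀ i : Fin n, Subgroup.closure {y : Ω | ∃ x ∈ Q i.castSucc, ∃ φ ∈ F.Hom (Subgroup.zpowers x), y = x⁻¹ * φ ⟨x, Subgroup.mem_zpowers x⟩} ≤ Q i.succ) : ∀ P : Subgroup Ω, F.Hom P = (Cfsg.innerFusionSystem S).Hom P := by
  refine inner_of_hyp_eq_bot hS hF (le_bot_iff.1 (hyp_le_iff.2 fun P hP α hα hc x hx => ?_))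
  have := fix_of_chain (isPGroup_of_le hS hP) hc (fun i => Q ⟨n - i, by omega⟩) n
    (fun y hy h => by
      have : y ∈ Q (Fin.last n) := h
      rw [hQn, Subgroup.mem_bot] at this
      rw [this, (homOn_efn α).map_one])
    (fun i hi y hy h => by
      have hf := ((mem_autGroup_iff hP).1 hα).restrict ((Subgroup.zpowers_le).2 hy)
      have := hstep ⟨n - (i + 1), by omega⟩ (Subgroup.subset_closure ⟨y, h, _, hf.toHom_mem, rfl⟩)
      have e : (⟨n - i, by omega⟩ : Fin (n + 1)) = (⟨n - (i + 1), by omega⟩ : Fin n).succ :=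
        Fin.ext (by simp only [Fin.val_succ]; omega)
      exact e ▸ this) x hx (by simp only [Nat.sub_self]; exact hQ0.ge (hP hx))
  rw [this, inv_mul_cancel]
  exact Subgroup.one_mem _

end Cfsg.Agent.S5223
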