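import Cfsg.Statements.S5225
import Cfsg.Agent.H93.Yoshida2

set_option autoImplicit false
open Cfsg

namespace Cfsg.Agent.S5225

open Cfsg.FusionSystem Cfsg.Agent.H93
open Cfsg.Agent.H91 hiding center_central center_le central_bot central_mono central_sup core_le core_normal isCentral_iff isFullyAutomized_iff isNormal_iff le_center le_core normal_bot normal_sup sSup_mem_of_sup_closed stronglyClosed_iff weaklyClosed_iff

/-- Yoshida's Theorem for fusion systems. Let F be a saturated fusion system over a finite p-group S and N the normalizer fusion system of S in F. If the focal subgroups of F and N differ (N does not control transfer in F), then S has a quotient isomorphic to the wreath product C_p ≀ C_p (realised as a Sylow p-subgroup of the symmetric group of degree p²). -/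
theorem result {Ω : Type*} [Group Ω] {S : Subgroup Ω} [Finite S] (p : ℕ) [Fact p.Prime] (hS : IsPGroup p S) (F : Cfsg.FusionSystem S) (hF : F.IsSaturated p) (N : Cfsg.FusionSystem (Cfsg.FusionSystem.normalizerIn S S)) (hN : F.IsNormalizerSystem S N) (hne : N.focalSubgroup ≠ F.focalSubgroup) : ∃ (W : Sylow p (Equiv.Perm (Fin (p ^ 2)))) (f : ↥S →* ↥(W : Subgroup (Equiv.Perm (Fin (p ^ 2))))), Function.Surjective f := by
  have h := isNormalizerSystem_iff.1 hN
  have e : normalizerIn S S = S := normalizerIn_eq_of_le Subgroup.le_normalizer
  exact yoshida hS hF e (isSubsystemOf_iff_M.2 fun P f hf => ((h P f).1 hf).toM)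
    (norm_saturated hS hF (fullyNormalized_of_stronglyClosed (stronglyClosed_top F)) rfl h)
    (fun f hf => (h S f).2 (hf.toNM le_rfl (hf.im_eq_of_stronglyClosed (stronglyClosed_top F) le_rfl)
      le_rfl e.ge)) hne

end Cfsg.Agent.S5225
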