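import Cfsg.Statements.S5233
import Cfsg.Agent.H93.GenES

set_option autoImplicit false
open Cfsg

namespace Cfsg.Agent.S5233

open Cfsg.FusionSystem Cfsg.Agent.H93
open Cfsg.Agent.H91 hiding center_central center_le central_bot central_mono central_sup core_le core_normal isCentral_iff isFullyAutomized_iff isNormal_iff le_center le_core mem_opIn_of_chain normal_bot normal_sup sSup_mem_of_sup_closed stronglyClosed_iff weaklyClosed_iff

/-- Let F be a saturated fusion system over a finite p-group S and P a subgroup of S strongly closed in F that is generalized extraspecial (its Frattini subgroup equals its commutator subgroup and has order p) and not isomorphic to E × A with A elementary abelian and E dihedral of order 8 (p = 2) or extraspecial of order p³ and exponent p (p odd). Then P is normal in F. -/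
theorem result {Ω : Type*} [Group Ω] {S : Subgroup Ω} [Finite S] (p : ℕ) [Fact p.Prime] (hS : IsPGroup p S) (F : Cfsg.FusionSystem S) (hF : F.IsSaturated p) (P : Subgroup Ω) (hP : F.StronglyClosed P) (hge : frattini ↥P = commutator ↥P ∧ Nat.card ↥(commutator ↥P) = p) (h2 : p = 2 → ¬ ∃ (A : Type) (_ : CommGroup A), (∀ a : A, a ^ 2 = 1) ∧ Nonempty (↥P ≃* DihedralGroup 4 × A)) (hodd : p ≠ 2 → ¬ ∃ (E : Type) (_ : Group E) (A : Type) (_ : CommGroup A), Cfsg.IsExtraspecial p E ∧ Nat.card E = p ^ 3 ∧ Monoid.exponent E = p ∧ (∀ a : A, a ^ p = 1) ∧ Nonempty (↥P ≃* E × A)) : F.IsNormal P := by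
  haveI := finite_of_le hP.1
  have hPp := isPGroup_of_le hS hP.1
  obtain ⟨z, hz, hzc, hzp, hN⟩ := exists_gen_of_card hPp (commutator P) hge.2
  refine normal_of_local' hS hF hP fun R hR hfn hrad => ?_
  have h : Tv F p P R z := ⟨hP, hR, hfn, hrad, fun x hx y hy => by
    have := (hN _).1 (Subgroup.commutator_mem_commutator (Subgroup.mem_top (⟨x, hx⟩ : P)⁻¹)
      (Subgroup.mem_top (⟨y, hy⟩ : P)))
    simpa [commutatorElement_def, mul_assoc] using this, hz, hzc, hzp⟩
  obtain ⟨w, t, C, hw, ht, hwp, htp, e, hcard, hC, hCp, hi, hsup, hexp⟩ := h.split hS hF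
    fun x hx => (hN _).1 (hge.1 ▸ H3.pow_mem_frattini hPp ⟨x, hx⟩)
  have hz1 := h.z_ne_one hS
  have hE : Subgroup.zpowers w ⊔ Subgroup.zpowers z ⊔ Subgroup.zpowers t ≤ P := hsup ▸ le_sup_left
  obtain ⟨φ⟩ := nonempty_equiv_prod (fun e he c hc => (mem_centralizerIn.1 (hC hc)).2 e (hE he)) hi
  rw [hsup] at φ
  haveI := finite_of_le (hC.trans (centralizerIn_le _ _))
  obtain ⟨A, _, ⟨ψ⟩⟩ := exists_type_zero_comm C fun a b =>
    Subtype.ext ((mem_centralizerIn.1 (hC b.2)).2 a (hC a.2).1)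
  have hA : ∀ a : A, a ^ p = 1 := fun a => ψ.symm.injective (by
    rw [map_pow, map_one]; exact Subtype.ext (hCp _ (ψ.symm a).2))
  by_cases hp2 : p = 2
  · subst hp2
    obtain ⟨χ⟩ := dihedral_of_two hwp htp hzp hz1 e (hzc w hw)
    exact h2 rfl ⟨A, inferInstance, hA, ⟨φ.trans (χ.prodCongr ψ)⟩⟩
  · haveI := finite_of_le hE
    obtain ⟨E, _, ⟨χ⟩⟩ :=
      exists_type_zero ↥(Subgroup.zpowers w ⊔ Subgroup.zpowers z ⊔ Subgroup.zpowers t)
    haveI := Finite.of_equiv _ χ.toEquiv
    have hc : Nat.card E = p ^ 3 := (Nat.card_congr χ.toEquiv).symm.trans hcard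
    have hne : ∃ x y : E, x * y ≠ y * x := ⟨χ ⟨t, Subgroup.mem_sup_right (Subgroup.mem_zpowers _)⟩,
      χ ⟨w, Subgroup.mem_sup_left (Subgroup.mem_sup_left (Subgroup.mem_zpowers _))⟩, fun h' => by
        rw [← map_mul, ← map_mul] at h'
        have h1 : t * w = w * t := congrArg Subtype.val (χ.injective h')
        rw [h1, mul_inv_cancel_right] at e
        exact hz1 (left_eq_mul.1 e)⟩
    haveI : Nontrivial E := by
      obtain ⟨x, y, hxy⟩ := hne
      exact ⟨_, _, hxy⟩
    refine hodd hp2 ⟨E, inferInstance, A, inferInstance,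
      H73.isExtraspecial_of_card_eq_cube hc hne, hc, ?_, hA, ⟨φ.trans (χ.prodCongr ψ)⟩⟩
    refine (Monoid.exponent_eq_prime_iff (Fact.out : p.Prime)).2 fun g hg =>
      orderOf_eq_prime (χ.symm.injective ?_) hg
    rw [map_pow, map_one]
    exact Subtype.ext (hexp hp2 _ (hE (χ.symm g).2))

end Cfsg.Agent.S5233
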