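import Cfsg.Statements.S5243
import Cfsg.Agent.H94.KerSys

set_option autoImplicit false
open Cfsg

namespace Cfsg.Agent.S5243

open Cfsg.Agent.H91 Cfsg.Agent.H94 in
theorem kerData {Ω : Type*} [Group Ω] {S : Subgroup Ω} (p : ℕ) (hS : IsPGroup p S) (F : Cfsg.FusionSystem S) {T : Subgroup Ω} (E : Cfsg.FusionSystem T) (hE : E.IsNormalIn F p) {Δ : Type*} [Group Δ] (hΔ : (Nat.card Δ).Coprime p) (χ : ↥(F.autGroup T) →* Δ) (hker : (E.autGroup T).subgroupOf (F.autGroup T) ≤ χ.ker) : KerData F E p (χ.ker.map (F.autGroup T).subtype) := by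
  refine ⟨hS, hE.1, fun a ha => ?_, Subgroup.map_subtype_le _, ?_, fun a ha ⟨v, hv⟩ => ?_⟩
  · exact ⟨⟨a, autGroup_mono (H92.normalIn_sub hE) T ha⟩,
        hker (Subgroup.mem_subgroupOf.2 ha), rfl⟩
  · rintro a ha _ ⟨k, hk, rfl⟩
    exact ⟨⟨a, ha⟩ * k * ⟨a, ha⟩⁻¹, (MonoidHom.normal_ker χ).conj_mem k hk ⟨a, ha⟩, rfl⟩
  · refine ⟨⟨a, ha⟩, ?_, rfl⟩
    have h1 : χ ⟨a, ha⟩ ^ p ^ v = 1 := by
      rw [← map_pow, show (⟨a, ha⟩ : F.autGroup T) ^ p ^ v = 1 from Subtype.ext hv, map_one]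
    have := pow_gcd_eq_one.2 ⟨h1, pow_card_eq_one'⟩
    rw [(hΔ.pow_right v).symm.gcd_eq_one, pow_one] at this
    exact this

open Cfsg.Agent.H91 Cfsg.Agent.H94 in
/-- Let F be a saturated fusion system over a finite p-group S, E a normal subsystem of F over T ≤ S, and χ a surjective homomorphism from Aut_F(T) onto a nontrivial finite group Δ of order prime to p whose kernel contains Aut_E(T). Then there is a proper normal subsystem F₀ of F over S containing E such that Aut_{F₀}(S) consists of those α ∈ Aut_F(S) whose restriction to T is an element of Aut_F(T) in the kernel of χ; moreover every p'-residual subsystem O^{p'}(F) of F is contained in F₀. -/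
theorem result {Ω : Type*} [Group Ω] {S : Subgroup Ω} [Finite S] (p : ℕ) [Fact p.Prime] (hS : IsPGroup p S) (F : Cfsg.FusionSystem S) (hF : F.IsSaturated p) {T : Subgroup Ω} (hTS : T ≤ S) (E : Cfsg.FusionSystem T) (hE : E.IsNormalIn F p) {Δ : Type*} [Group Δ] [Finite Δ] [Nontrivial Δ] (hΔ : (Nat.card Δ).Coprime p) (χ : ↥(F.autGroup T) →* Δ) (hχ : Function.Surjective χ) (hker : (E.autGroup T).subgroupOf (F.autGroup T) ≤ χ.ker) : ∃ F₀ : Cfsg.FusionSystem S, F₀.IsNormalIn F p ∧ ¬ (∀ P : Subgroup Ω, F₀.Hom P = F.Hom P) ∧ E.IsSubsystemOf F₀ ∧ (∀ α : MulAut ↥S, α ∈ F₀.autGroup S ↔ α ∈ F.autGroup S ∧ ∃ β : ↥(F.autGroup T), χ β = 1 ∧ ∀ t : ↥T, (((β : MulAut ↥T) t : ↥T) : Ω) = ((α ⟨(t : Ω), hTS t.2⟩ : ↥S) : Ω)) ∧ ∀ R : Cfsg.FusionSystem S, F.IsPPrimeResidual p R → R.IsSubsystemOf F₀ := by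
  have h := kerData p hS F E hE hΔ χ hker
  refine ⟨h.fs, h.isNormalIn, fun heq => ?_, h.sub, fun α => ?_,
    fun R hR => hR.2.2 _ h.saturated h.hasPrimeToPIndexIn⟩
  · obtain ⟨δ, hδ⟩ := exists_ne (1 : Δ)
    obtain ⟨β, rfl⟩ := hχ δ
    have : (β : MulAut T) ∈ h.fs.autGroup T := by
      rw [fs_ext_Hom heq]; exact β.2
    rw [h.autGroup_T] at this
    obtain ⟨k, hk, e⟩ := this
    obtain rfl : k = β := Subtype.ext e
    exact hδ hk
  · rw [h.mem_autGroup_S]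
    refine and_congr_right fun _ => ⟨?_, fun ⟨β, hβ, e⟩ => ⟨β, ⟨β, hβ, rfl⟩, fun x hx => ?_⟩⟩
    · rintro ⟨_, ⟨k, hk, rfl⟩, e⟩
      refine ⟨k, hk, fun t => ?_⟩
      exact ((efn_coe _ t).symm.trans (e t t.2)).trans (efn_of_mem α (hTS t.2))
    · rw [efn_of_mem _ hx, efn_of_mem α (hTS hx)]
      exact e ⟨x, hx⟩

end Cfsg.Agent.S5243
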