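import Cfsg.Statements.S5245
import Cfsg.Agent.H93.Cocycle
import Cfsg.Agent.H91.Subn
import Cfsg.Agent.H94.PPower

set_option autoImplicit false
open Cfsg

namespace Cfsg.Agent.S5245

open Cfsg.FusionSystem Cfsg.Agent.H93
open Cfsg.Agent.H91 hiding center_central center_le central_bot central_mono central_sup conj_mem_hyp core_le core_normal exists_conj_mod_hyp focal_eq_hyp_sup isCentral_iff isFullyAutomized_iff isNormal_iff le_center le_core mem_opIn_of_chain normal_bot normal_sup sSup_mem_of_sup_closed stronglyClosed_iff weaklyClosed_iff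

/-- Let F be an extremely sparse fusion system over a finite p-group S (saturated, not the inner system, and every saturated fusion system over any subgroup T of S contained in F is F itself or the inner system of T). Then S is normal in F, the focal and hyperfocal subgroups of F are both S, and Aut_F(S) is generated by the inner automorphisms of S together with a single automorphism of prime order q ≠ p (F is the fusion system of the semidirect product of S by a cyclic group of prime order). -/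
theorem result {Ω : Type*} [Group Ω] {S : Subgroup Ω} [Finite S] (p : ℕ) [Fact p.Prime] (hS : IsPGroup p S) (F : Cfsg.FusionSystem S) (hF : F.IsSaturated p) (hxs : ¬ (∀ P : Subgroup Ω, F.Hom P = (Cfsg.innerFusionSystem S).Hom P) ∧ ∀ (T : Subgroup Ω) (E : Cfsg.FusionSystem T), E.IsSaturated p → E.IsSubsystemOf F → (T = S ∧ ∀ P : Subgroup Ω, E.Hom P = F.Hom P) ∨ (∀ P : Subgroup Ω, E.Hom P = (Cfsg.innerFusionSystem T).Hom P)) : F.IsNormal S ∧ F.focalSubgroup = S ∧ F.hyperfocalSubgroup p = S ∧ ∃ (q : ℕ) (β : MulAut ↥S), q.Prime ∧ q ≠ p ∧ β ∈ F.autGroup S ∧ orderOf β = q ∧ (F.autGroup S : Subgroup (MulAut ↥S)) = Cfsg.Inn ↥S ⊔ Subgroup.zpowers β := by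
  obtain ⟨h0, hxs⟩ := hxs
  obtain ⟨P, hP, α, hα, hc, hα1⟩ : ∃ P, (P = S ∨ F.IsEssential p P) ∧ ∃ α ∈ F.autGroup P,
      (orderOf α).Coprime p ∧ α ≠ 1 := by
    by_contra! h
    refine h0 fun P => (sub_of_coprime hS hF le_rfl (fun P hP α hα hc => ?_) P).antisymm
      (inner_le F P)
    rw [h P hP α hα hc]
    exact (M.id _ (centric_radical_of_alp hS hF hP).1.1).congr fun x hx => (efn_one hx).symm
  obtain ⟨hcen, -, hfn⟩ := centric_radical_of_alp hS hF hP
  haveI := finite_mulAut hcen.1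
  have ho := (orderOf_pos α).ne'
  have hq : (orderOf α).minFac.Prime := Nat.minFac_prime (mt orderOf_eq_one_iff.1 hα1)
  have hβ := orderOf_pow_orderOf_div ho (Nat.minFac_dvd (orderOf α))
  have hqp : (orderOf α).minFac.Coprime p := hc.coprime_dvd_left (Nat.minFac_dvd _)
  have hβF := Subgroup.pow_mem _ hα (orderOf α / (orderOf α).minFac)
  generalize α ^ (orderOf α / (orderOf α).minFac) = β at hβ hβF
  generalize (orderOf α).minFac = q at hq hβ hqp
  clear hα hc hα1 ho
  have hβ1 : ∀ k, β ^ p ^ k ≠ 1 := fun k h => by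
    have := orderOf_dvd_of_pow_eq_one h
    rw [hβ] at this
    exact hq.one_lt.ne' (Nat.Coprime.eq_one_of_dvd (hqp.pow_right k) this)
  have hK : ∀ h ∈ Inn P ⊔ Subgroup.zpowers β, (∃ k, h ^ p ^ k = 1) → h ∈ Inn P := by
    rintro h hh ⟨k, hk⟩
    obtain ⟨i, hi, _, ⟨n, rfl⟩, rfl⟩ := (Subgroup.mem_sup_of_normal_left).1 hh
    have h1 : (QuotientGroup.mk' (Inn P) (i * β ^ n)) ^ q = 1 := by
      rw [map_mul, (QuotientGroup.eq_one_iff i).2 hi |> (show QuotientGroup.mk' _ i = 1 from ·),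
        one_mul, ← map_pow, ← zpow_natCast, ← zpow_mul, mul_comm, zpow_mul, zpow_natCast, ← hβ,
        pow_orderOf_eq_one, one_zpow, map_one]
    have h2 : (QuotientGroup.mk' (Inn P) (i * β ^ n)) ^ p ^ k = 1 := by
      rw [← map_pow]; exact (congrArg _ hk).trans (map_one _)
    have h3 := pow_gcd_eq_one.2 ⟨h1, h2⟩
    rw [(hqp.pow_right k).gcd_eq_one, pow_one] at h3
    exact (QuotientGroup.eq_one_iff _).1 h3
  have hKF : Inn P ⊔ Subgroup.zpowers β ≤ F.autGroup P :=
    sup_le (Inn_le_autGroup F hcen.1) ((Subgroup.zpowers_le).2 hβF)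
  have hsat := kNorm_saturated (K := Inn P ⊔ Subgroup.zpowers β) hS hF (sat_receptive' hS hF hfn)
    (sylIn_of_maximal (inf_le_inf_right _ (autInducedBy_le_autGroup F hcen.1))
      (isPGroup_autInducedBy hS P).to_inf_left fun H hH _ h2 h hh =>
        ⟨Inn_le_autInducedBy hcen.1 (hK h (h2 hh).2 (pow_eq_one_of_mem_isPGroup hH hh)), (h2 hh).2⟩)
    rfl fun _ _ => M_kNormFS hcen.1
  have hPN : P ≤ normK S (Inn P ⊔ Subgroup.zpowers β) := fun g hg => mem_normK.2 ⟨hcen.1 hg,
    (restrIn_conj_iff (Subgroup.le_normalizer hg)).2 (Subgroup.mem_sup_left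
      (autInducedBy_self P ▸ cjAut_mem_autInducedBy hg _))⟩
  have hnotinner : ∀ {T : Subgroup Ω} {E : FusionSystem T}, T ≤ S → ∀ {U : Subgroup Ω},
      (∀ Q, E.Hom Q = (innerFusionSystem T).Hom Q) → ∀ γ : MulAut U, M E U (efn γ) →
      ∃ k, γ ^ p ^ k = 1 := fun {T E} hT {U} h γ hγ =>
    pow_eq_one_of_mem_isPGroup (isPGroup_autInducedBy (isPGroup_of_le hS hT) U)
      (autGroup_inner_le T U ((Hom_eq_iff_M.1 (h U) _).1 hγ).mem_autGroup)
  obtain ⟨e1, e2⟩ := (hxs _ _ hsat (isSubsystemOf_iff_M.2 fun Q f hf =>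
    ((M_kNormFS hcen.1).1 hf).toM)).resolve_right fun h => by
      obtain ⟨k, hk⟩ := hnotinner (normK_le _ _) h β ((M_kNormFS hcen.1).2
        (((mem_autGroup_iff hcen.1).1 hβF).toKM le_rfl
          (restrIn_efn (Subgroup.mem_sup_right (Subgroup.mem_zpowers β))) le_rfl hPN))
      exact hβ1 k hk
  obtain rfl : P = S := le_antisymm hcen.1 fun g hg => by
    have h1 := normK_le_normalizerIn _ _ (e1.ge hg)
    have h2 := (restrIn_conj_iff h1.2).1 (mem_normK.1 (e1.ge hg)).2
    exact mem_of_cjAut_mem_Inn hcen.1 (centric_centralizerIn_le hcen) h1 (hK _ h2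
      (pow_eq_one_of_mem_isPGroup (isPGroup_autInducedBy hS P) (cjAut_mem_autInducedBy hg _)))
  have hM : ∀ Q f, M F Q f → KM F (Inn P ⊔ Subgroup.zpowers β) Q f := fun Q f hf =>
    (M_kNormFS le_rfl).1 ((Hom_eq_iff_M.1 (e2 Q) f).2 hf)
  have hh : F.hyperfocalSubgroup p = P := by
    have hle := hyp_le F p
    refine ((hxs _ _ (H94.ppFS_saturated hS hF hle le_rfl)
      (H94.ppFS_isSubsystemOf F p hle)).resolve_right fun h => ?_).1
    have hb := (mem_autGroup_iff le_rfl).1 hβF
    obtain ⟨γ, hγ, e⟩ := (hb.restrict hle).exists_aut (sc_im_eq (hyp_sc hS hF) hb hle)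
    have hβc : (orderOf β).Coprime p := hβ ▸ hqp
    have hγc : (orderOf γ).Coprime p := hβc.coprime_dvd_left (orderOf_dvd_of_pow_eq_one
      (pow_orderOf_eq_one_of_extends hle fun x hx => (e x hx).symm))
    obtain ⟨k, hk⟩ := hnotinner hle h γ ((mem_autGroup_iff le_rfl).1
      (H94.mem_autGroup_ppFS hle le_rfl hγ hγc))
    have hγ1 : γ = 1 := orderOf_eq_one_iff.1
      (Nat.Coprime.eq_one_of_dvd (hγc.pow_right k) (orderOf_dvd_of_pow_eq_one hk))
    refine hβ1 0 (by
      rw [pow_zero, pow_one]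
      refine mulAut_ext_efn fun x hx => (fix_of_chain hS hβc
        (fun i => if i = 0 then F.hyperfocalSubgroup p else P) 1 (fun y _ hy => ?_)
        (fun i hi y hy _ => ?_) x hx hx).trans (efn_one hx).symm
      · rw [← e y hy, hγ1, efn_one hy]
      · obtain rfl : i = 0 := by omega
        exact mem_hyp_of_coprime le_rfl hβF hβc hy)
  refine ⟨isNormal_iff.2 ⟨le_rfl, fun Q f hf => ?_⟩,
    le_antisymm (focal_le F) (hh.ge.trans (hyp_le_focal F p)), hh, q, β, hq,
    fun e => hq.one_lt.ne' (by rw [e] at hqp ⊢; exact (Nat.coprime_self _).1 hqp), hβF, hβ,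
    le_antisymm (fun a ha => ?_) hKF⟩
  · obtain ⟨-, g, hg, e, hr⟩ := hM Q f hf
    exact ⟨g, hg, e, hr.im_eq⟩
  · obtain ⟨-, g, -, e, hr⟩ := hM P _ ((mem_autGroup_iff le_rfl).1 ha)
    exact restrIn_efn_iff.1 (hr.congr e)

end Cfsg.Agent.S5245
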