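import Cfsg.Statements.S5247
import Cfsg.Agent.H93.PStable
import Cfsg.Agent.H91.Norm

set_option autoImplicit false
open Cfsg

namespace Cfsg.Agent.S5247

open Cfsg.FusionSystem Cfsg.Agent.H93
open Cfsg.Agent.H91 hiding center_central center_le central_bot central_mono central_sup core_le core_normal isCentral_iff isFullyAutomized_iff isNormal_iff le_center le_core normal_bot normal_sup sSup_mem_of_sup_closed stronglyClosed_iff weaklyClosed_iff

/-- Let p be an odd prime and F a saturated fusion system over a finite p-group S. Call a fusion system E (over any subgroup) p-stable when, for every fully E-normalized subgroup Q and every χ ∈ Aut_E(Q) with χ(a⁻¹)·a·χ(a⁻¹)·χ(χ(a)) = 1 for all a ∈ Q (χ acts quadratically), χ lies in O_p(Aut_E(Q)). Then F is p-stable if and only if every normalizer fusion system N_F(R) of every non-cyclic fully F-normalized subgroup R of S is p-stable. -/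
theorem result {Ω : Type*} [Group Ω] {S : Subgroup Ω} [Finite S] (p : ℕ) [Fact p.Prime] (hS : IsPGroup p S) (F : Cfsg.FusionSystem S) (hF : F.IsSaturated p) (hp : p ≠ 2) : (∀ Q : Subgroup Ω, F.IsFullyNormalized Q → ∀ χ : MulAut ↥Q, χ ∈ F.autGroup Q → (∀ a : ↥Q, (χ a⁻¹) * a * (χ a⁻¹) * (χ (χ a)) = 1) → χ ∈ ((Cfsg.pCore p ↥(F.autGroup Q)).map (F.autGroup Q).subtype : Subgroup (MulAut ↥Q))) ↔ ∀ R : Subgroup Ω, F.IsFullyNormalized R → ¬ IsCyclic ↥R → ∀ N : Cfsg.FusionSystem (Cfsg.FusionSystem.normalizerIn S R), F.IsNormalizerSystem R N → (∀ Q : Subgroup Ω, N.IsFullyNormalized Q → ∀ χ : MulAut ↥Q, χ ∈ N.autGroup Q → (∀ a : ↥Q, (χ a⁻¹) * a * (χ a⁻¹) * (χ (χ a)) = 1) → χ ∈ ((Cfsg.pCore p ↥(N.autGroup Q)).map (N.autGroup Q).subtype : Subgroup (MulAut ↥Q))) := by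
  refine ⟨fun h R _ _ N hN Q hQ => PS.sub (isSubsystemOf_iff_M.2 fun P f hf =>
    ((isNormalizerSystem_iff.1 hN P f).1 hf).toM)
      (ps_all h (hQ.1.trans (normalizerIn_le _ _))), fun h Q hQ => ?_⟩
  haveI := finite_of_le hQ.1
  haveI := finite_normalizerIn (S := S) Q
  by_cases hc : IsCyclic Q
  · exact ps_of_isCyclic (isPGroup_of_le hS hQ.1) hc
  have h1 := h Q hQ hc _ (normFS_isNormalizerSystem hQ.1) Q
    (isFullyNormalized_of_normal _ (le_normalizerIn hQ.1) fun x hx => hx.2)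
  have e : (normFS F hQ.1).autGroup Q = F.autGroup Q := Subgroup.ext fun α => by
    rw [mem_autGroup_iff hQ.1, mem_autGroup_iff (le_normalizerIn hQ.1), M_normFS]
    exact ⟨NM.toM, fun h => h.toNM le_rfl (im_efn α) le_rfl (le_normalizerIn hQ.1)⟩
  rwa [e] at h1

end Cfsg.Agent.S5247
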