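import Cfsg.Statements.S5251
import Cfsg.Agent.H93.Local
import Cfsg.Agent.H91.Inv
import Cfsg.Agent.H92.SylLocal

set_option autoImplicit false
open Cfsg

namespace Cfsg.Agent.S5251

open Cfsg.FusionSystem Cfsg.Agent.H93
open Cfsg.Agent.H91 hiding center_central center_le central_bot central_mono central_sup core_le core_normal isCentral_iff isFullyAutomized_iff isNormal_iff le_center le_core mem_opIn_of_chain normal_bot normal_sup sSup_mem_of_sup_closed stronglyClosed_iff weaklyClosed_iff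

/-- Let F be a saturated fusion system over a finite p-group S, E a normal subsystem of F over T, and P an F-centric subgroup of S such that P ∩ T is not E-centric. Then some F-conjugate P* of P satisfies Out_S(P*) ∩ O_p(Out_F(P*)) ≠ 1: there is an element of N_S(P*) outside P* whose conjugation action on P* lies in O_p(Aut_F(P*)). In particular P is not both centric and radical in F. -/
theorem result {Ω : Type*} [Group Ω] {S : Subgroup Ω} [Finite S] (p : ℕ) [Fact p.Prime] (hS : IsPGroup p S) (F : Cfsg.FusionSystem S) (hF : F.IsSaturated p) {T : Subgroup Ω} (E : Cfsg.FusionSystem T) (hE : E.IsNormalIn F p) (P : Subgroup Ω) (hP : F.IsCentric P) (hPT : ¬ E.IsCentric (P ⊓ T)) : (∃ φ ∈ F.Hom P, ∃ x ∈ S ⊓ Subgroup.normalizer (φ.range : Set Ω), x ∉ φ.range ∧ ∃ α ∈ ((Cfsg.pCore p ↥(F.autGroup φ.range)).map (F.autGroup φ.range).subtype : Subgroup (MulAut ↥φ.range)), ∀ y : ↥φ.range, ((α y : ↥φ.range) : Ω) = x * (y : Ω) * x⁻¹) ∧ ¬ F.IsRadical p P := by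
  have hT := H92.normalIn_sc hE
  obtain ⟨g, hg, h1⟩ := exists_conj_inf_fullyNormalized hS hF hT hP.1
  obtain ⟨Q, hQ, hC⟩ : ∃ Q, F.IsConj (P ⊓ T) Q ∧ ¬ centralizerIn T Q ≤ Q := by
    by_contra! h
    exact hPT ((inv_centric_iff (H92.normalIn_inv hE)).2 ⟨inf_le_right, h⟩)
  obtain ⟨c, hc, hcQ⟩ := SetLike.not_le_iff_exists.1 hC
  obtain ⟨k, hk, e, -⟩ := sat_exists_map_normalizer hS hF (isConj_trans (isConj_symm hQ)
    (sc_im_inf hT hg ▸ (hg.restrict inf_le_left).isConj)) h1
  have hQS := le_normalizerIn (isConj_le_right hQ)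
  have hcN : c ∈ normalizerIn S Q := ⟨sc_le hT hc.1, (centralizerIn_le_normalizerIn _ _ hc).2⟩
  have h2 := hk.map_mem_centralizer hQS hcN (mem_centralizerIn.1 hc).2
  have h3 := sc_mem hT hk hcN hc.1
  have h4 := mt (hk.apply_mem_im_iff hQS hcN).1 hcQ
  rw [e] at h2 h4
  obtain ⟨t, ht, htn, htP⟩ := exists_normalizer_not_mem hS hg.im_le
    (K := centralizerIn T (im g P ⊓ T)) ((centralizerIn_le _ _).trans (sc_le hT))
    (fun x hx => Subgroup.inf_normalizer_le_normalizer_inf ⟨sc_le_normalizer hT (hg.im_le hx),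
      H92.normalizer_le_normalizer_centralizer _ (Subgroup.inf_normalizer_le_normalizer_inf
        ⟨Subgroup.le_normalizer hx, sc_le_normalizer hT (hg.im_le hx)⟩)⟩)
    fun h => h4 ⟨h ⟨h3, h2.2⟩, h3⟩
  have h5 := cjAut_mem_opIn_of_inf hS hT hg.im_le ht.1 htn
    (centralizerIn_le_normalizerIn _ _ ht).2 (by
      rw [show cjAut _ t _ = 1 from mulAut_ext_efn fun x hx => by
        rw [efn_cjAut _ _ _ hx, efn_one hx, conj_eq_of_mem_centralizerIn ht hx]]
      exact Subgroup.one_mem _)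
  refine ⟨⟨_, hg.toHom_mem, t, ?_⟩, fun hr => htP (mem_of_cjAut_mem_opIn
    (centric_of_isConj hP hg.isConj) (radical_of_isConj hr hg.isConj) ⟨sc_le hT ht.1, htn⟩ h5)⟩
  rw [HomOn.range_toHom]
  exact ⟨⟨sc_le hT ht.1, htn⟩, htP, _, h5, fun _ => rfl⟩

end Cfsg.Agent.S5251
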