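import Cfsg.Statements.S5274
import Cfsg.Agent.H93.Solv

set_option autoImplicit false
open Cfsg

namespace Cfsg.Agent.S5274

open Cfsg.FusionSystem Cfsg.Agent.H93
open Cfsg.Agent.H91 hiding center_central center_le central_bot central_mono central_sup core_le core_normal isCentral_iff isFullyAutomized_iff isNormal_iff le_center le_core normal_bot normal_sup sSup_mem_of_sup_closed stronglyClosed_iff weaklyClosed_iff

universe u

theorem aux (n : ℕ) : ∀ {Ω : Type u} [Group Ω] {S : Subgroup Ω} [Finite S] (F : FusionSystem S),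
    Nat.card S = n → IsPGroup 2 S → F.IsSaturated 2 →
    (∀ x ∈ S, ∃ P f, M F P f ∧ x ∈ P ∧ ∀ y ∈ S, y * f x = f x * y) →
    ∀ x ∈ S, ∀ y ∈ S, x * y = y * x := by
  induction n using Nat.strong_induction_on with
  | _ n ih =>
  intro Ω _ S _ F hn hS hF h
  have h1 : ∀ u ∈ S, ∀ x ∈ S, x * u * x⁻¹ = u⁻¹ → u⁻¹ = u := fun u hu x hx e => by
    obtain ⟨P, f, hf, huP, hc⟩ := h u hu
    have hf' := hf.restrict ((Subgroup.zpowers_le).2 huP)
    have hxn : x ∈ normalizerIn S (Subgroup.zpowers u) := by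
      haveI := finite_of_le hf'.le
      refine ⟨hx, mem_normalizer_of_conj_mem ?_⟩
      rintro _ ⟨k, rfl⟩
      rw [← conj_zpow, e]
      exact zpow_mem (inv_mem (Subgroup.mem_zpowers u)) k
    have hcen : ∀ y ∈ S, ∀ z ∈ im f (Subgroup.zpowers u), y * z * y⁻¹ = z := fun y hy z hz => by
      obtain ⟨_, ⟨k, rfl⟩, rfl⟩ := (hf'.mem_im le_rfl).1 hz
      rw [hf'.homOn.map_zpow (Subgroup.mem_zpowers u), ← conj_zpow, hc y hy, mul_inv_cancel_right]
    obtain ⟨g, hg, eg, -⟩ := sat_exists_map_normalizer hS hF hf'.isConj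
      (isFullyNormalized_of_normal F hf'.im_le fun y hy => mem_normalizer_of_conj_mem'
        (fun z hz => by rwa [hcen y hy z hz])
        fun z hz => by have := hcen _ (S.inv_mem hy) z hz; rw [inv_inv] at this; rwa [this])
    have huN := le_normalizerIn hf'.le (Subgroup.mem_zpowers u)
    have := hcen _ (hg.mem hxn) _ (eg ▸ mem_im_of_mem g (Subgroup.mem_zpowers u))
    rw [← hg.map_conj hxn huN, e] at this
    exact hg.injOn (inv_mem huN) huN this
  have h2 : ∀ x ∈ S, ∀ y ∈ S, x * x = 1 → y * y = 1 → x * y = y * x := fun x hx y hy ex ey => by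
    have ex' := inv_eq_of_mul_eq_one_right ex
    have ey' := inv_eq_of_mul_eq_one_right ey
    rw [← h1 _ (S.mul_mem hx hy) x hx (by
      rw [← mul_assoc, ex, one_mul, mul_inv_rev, ey']), mul_inv_rev, ex', ey']
  let V : Subgroup Ω :=
    { carrier := {x | x ∈ S ∧ x * x = 1}
      one_mem' := ⟨S.one_mem, mul_one 1⟩
      mul_mem' := fun {x y} hx hy => ⟨S.mul_mem hx.1 hy.1, by
        rw [mul_assoc, ← mul_assoc y, ← h2 x hx.1 y hy.1 hx.2 hy.2, mul_assoc x y, hy.2, mul_one,
          hx.2]⟩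
      inv_mem' := fun {x} hx => ⟨S.inv_mem hx.1, by rw [← mul_inv_rev, hx.2, inv_one]⟩ }
  have hV : F.StronglyClosed V := stronglyClosed_iff.2 ⟨fun x hx => hx.1, fun P f hf x hx hxV =>
    ⟨hf.mem hx, by rw [← hf.map_mul hx hx, hxV.2, hf.map_one]⟩⟩
  by_cases h0 : V = ⊥
  · intro x hx y hy
    suffices x = 1 by simp [this]
    obtain ⟨k, hk⟩ := hS ⟨x, hx⟩
    have hk' : x ^ 2 ^ k = 1 := congrArg Subtype.val hk
    clear hk
    induction k with
    | zero => simpa using hk'
    | succ k ihk =>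
      exact ihk (Subgroup.mem_bot.1 (h0.le ⟨S.pow_mem hx _, by rw [← hk', ← pow_add, pow_succ, mul_two]⟩))
  haveI := sc_normal hV
  obtain ⟨E, hE⟩ := exists_factorSystem hV
  obtain ⟨e, hE⟩ := isFactorSystem_iff.1 hE
  have hK : F.StronglyClosed (preimageAlong (QuotientGroup.mk' (V.subgroupOf S)) ⊥) := by
    rw [e]; exact hV
  have h3 := ih _ (by
      rw [← hn, Subgroup.card_top, Subgroup.card_eq_card_quotient_mul_card_subgroup (V.subgroupOf S)]
      refine lt_mul_of_one_lt_right Nat.card_pos ((Subgroup.one_lt_card_iff_ne_bot _).2 fun h => h0 ?_)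
      rwa [Subgroup.subgroupOf_eq_bot, disjoint_iff, inf_of_le_left (sc_le hV)] at h)
    E rfl (hE.isPGroup hS) (hE.saturated hS hF hK) fun x hx => by
      obtain ⟨x, hx', rfl⟩ := hE.exists_rep hx
      obtain ⟨P, f, hf, hP, hc⟩ := h x hx'
      obtain ⟨f', hf', e'⟩ := hE.desc' hS hF hK hf
      refine ⟨_, f', hf', mem_im_of_mem _ hP, fun y hy => ?_⟩
      obtain ⟨y, hy', rfl⟩ := hE.exists_rep hy
      rw [e' x hP, ← fn_mul hy' (hf.mem hP), hc y hy', fn_mul (hf.mem hP) hy']
  have h4 : Chn F := ⟨2, ![⊥, V, S], rfl, rfl, Fin.monotone_iff_le_succ.2 fun i => by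
      fin_cases i; exacts [bot_le, sc_le hV], fun i => by
      fin_cases i; exacts [sc_bot F, hV, sc_top F], fun i => by
      fin_cases i
      · exact Subgroup.commutator_le.2 fun a ha b hb => Subgroup.mem_bot.2
          (commutatorElement_eq_one_iff_mul_comm.2 (h2 a ha.1 b hb.1 ha.2 hb.2))
      · refine (commutator_le_pre le_rfl le_rfl ?_).trans e.le
        exact Subgroup.commutator_le.2 fun a _ b _ => Subgroup.mem_bot.2
          (commutatorElement_eq_one_iff_mul_comm.2 (h3 a trivial b trivial))⟩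
  obtain ⟨-, Q, hQ, hc⟩ := h4.constrained hS hF
  obtain rfl : Q = S := le_antisymm hQ.1 fun x hx => by
    obtain ⟨P, f, hf, hP, h5⟩ := h x hx
    exact (sc_mem_iff (normal_sc hQ) hf hP).1 (centric_centralizerIn_le hc
      (mem_centralizerIn.2 ⟨hf.mem hP, fun y hy => h5 y (hQ.1 hy)⟩))
  intro x hx y hy
  obtain ⟨P, f, hf, hP, h5⟩ := h y hy
  obtain ⟨z, hz, rfl⟩ := (sc_mem_iff (stronglyClosed_char_of_normal hQ (Subgroup.center Q)) hf hP).1
    ⟨⟨_, hf.mem hP⟩, Subgroup.mem_center_iff.2 fun a => Subtype.ext (h5 a a.2), rfl⟩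
  exact congrArg Subtype.val (Subgroup.mem_center_iff.1 hz ⟨x, hx⟩)

/-- Let F be a saturated fusion system over a finite 2-group S. Suppose that every element of S is F-conjugate to an element of the centre Z(S) (some map of F defined on the cyclic subgroup it generates sends it into Z(S)). Then S is abelian. -/
theorem result {Ω : Type*} [Group Ω] {S : Subgroup Ω} [Finite S] (hS : IsPGroup 2 ↥S) (F : Cfsg.FusionSystem S) (hF : F.IsSaturated 2) (h : ∀ x ∈ S, ∃ z ∈ S ⊓ Subgroup.centralizer (S : Set Ω), F.IsConjElt x z) : IsMulCommutative ↥S := by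
  refine ⟨⟨fun a b => Subtype.ext (aux _ F rfl hS hF (fun x hx => ?_) a a.2 b b.2)⟩⟩
  obtain ⟨z, hz, hc⟩ := h x hx
  obtain ⟨f, hf, rfl⟩ := isConjElt_iff.1 hc
  exact ⟨_, f, hf, Subgroup.mem_zpowers x, hz.2⟩

end Cfsg.Agent.S5274
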