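import Cfsg.Statements.S5286
import Cfsg.Agent.H94.Tree
import Cfsg.Agent.H92.Iso3

set_option autoImplicit false
universe u
open Cfsg

namespace Cfsg.Agent.S5286

open Cfsg.FusionSystem Cfsg.Agent.H91 Cfsg.Agent.H94

theorem exists_perm {T : Type*} [Group T] [Finite T] (B : Subgroup T) (φ : B →* T)
    (hφ : Function.Injective φ) : ∃ σ : Equiv.Perm T, ∀ (u : B) (x : T), σ (x * u) = σ x * φ u := by
  have hc : Nat.card (T ⧸ B) = Nat.card (T ⧸ φ.range) := by
    have h1 := B.card_eq_card_quotient_mul_card_subgroup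
    have h2 := φ.range.card_eq_card_quotient_mul_card_subgroup
    rw [← Nat.card_congr (MonoidHom.ofInjective hφ).toEquiv] at h2
    exact Nat.eq_of_mul_eq_mul_right Nat.card_pos (h1.symm.trans h2)
  obtain ⟨β⟩ := Finite.card_eq.1 hc
  have hm : ∀ x : T, (x : T ⧸ B).out⁻¹ * x ∈ B := fun x =>
    QuotientGroup.eq.1 (QuotientGroup.out_eq' _)
  let σ : T → T := fun x => (β x).out * φ ⟨_, hm x⟩
  have hq : ∀ x, (σ x : T ⧸ φ.range) = β x := fun x => by
    rw [QuotientGroup.mk_mul_of_mem _ (MonoidHom.mem_range.2 ⟨_, rfl⟩), QuotientGroup.out_eq']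
  have hi : Function.Injective σ := fun x y e => by
    have h1 : (x : T ⧸ B) = y := β.injective (by rw [← hq, e, hq])
    have h2 : φ ⟨_, hm x⟩ = φ ⟨_, hm y⟩ := mul_left_cancel (e.trans (by rw [h1]))
    have h3 := congrArg Subtype.val (hφ h2)
    simp only [h1] at h3
    exact mul_left_cancel h3
  refine ⟨Equiv.ofBijective σ (Finite.injective_iff_bijective.1 hi), fun u x => ?_⟩
  have h1 : ((x * u : T) : T ⧸ B) = x := QuotientGroup.mk_mul_of_mem _ u.2
  show (β _).out * φ _ = (β x).out * φ _ * φ u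
  rw [mul_assoc, ← map_mul]
  exact congrArg₂ (· * ·) (by rw [h1])
    (congrArg φ (Subtype.ext (by simp only [h1, Subgroup.coe_mul, mul_assoc])))

/-- The right regular representation. -/
def reg (T : Type*) [Group T] : T →* Equiv.Perm T where
  toFun s := Equiv.mulRight s⁻¹
  map_one' := by ext; simp
  map_mul' a b := by ext; simp [mul_assoc]

theorem reg_injective (T : Type*) [Group T] : Function.Injective (reg T) := fun a b e => by
  simpa [reg] using congrArg (fun σ : Equiv.Perm T => σ 1) e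

/-- The orbit map on a coset space. -/
def orb {H V : Type*} [Group H] [MulAction H V] {B : Subgroup H} (v : V) (h : ∀ b ∈ B, b • v = v)
    (c : H ⧸ B) : V :=
  Quotient.liftOn' c (· • v) fun a b e => by
    have := h _ (QuotientGroup.leftRel_apply.1 e)
    rw [mul_smul, inv_smul_eq_iff] at this
    exact this.symm

/-- Every fusion system F over a finite p-group S, saturated or not, is realized by a possibly infinite group: there are a group G and an injective homomorphism ι of S into G such that the maps of F are exactly the conjugations by elements of G between subgroups of ι(S), every finite subgroup of G is conjugate to a subgroup of ι(S), and G has a free normal subgroup whose index divides (#S)!. -/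
theorem result {Ω : Type u} [Group Ω] {S : Subgroup Ω} [Finite S] (p : ℕ) [Fact p.Prime] (hS : IsPGroup p ↥S) (F : Cfsg.FusionSystem S) : ∃ (G : Type u) (_ : Group G) (ι : ↥S →* G), F.IsRealizedBy ι ∧ (∀ H : Subgroup G, Finite ↥H → ∃ g : G, ∀ h ∈ H, g * h * g⁻¹ ∈ ι.range) ∧ ∃ N : Subgroup G, N.Normal ∧ IsFreeGroup ↥N ∧ N.index ∣ (Nat.card ↥S).factorial := by
  classical
  have hl : HomOn S (fn (reg S)) := homOn_fn _
  have hli : ∀ x ∈ S, ∀ y ∈ S, fn (reg S) x = fn (reg S) y → x = y := fun x hx y hy e => by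
    rw [fn_of_mem _ hx, fn_of_mem _ hy] at e
    exact congrArg Subtype.val (reg_injective S e)
  let I := {i : Subgroup Ω × (Ω → Ω) // M F i.1 i.2}
  have hσ : ∀ i : I, ∃ σ : Equiv.Perm S, ∀ u ∈ i.1.1,
      σ * fn (reg S) u = fn (reg S) (i.1.2 u) * σ := fun ⟨⟨P, f⟩, hf⟩ => by
    obtain ⟨σ, h⟩ := exists_perm (P.subgroupOf S)
      { toFun := fun u => ⟨f u.1, hf.mem u.2⟩
        map_one' := Subtype.ext hf.map_one
        map_mul' := fun a b => Subtype.ext (hf.map_mul a.2 b.2) }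
      fun a b e => Subtype.ext (Subtype.ext (hf.injOn a.2 b.2 (congrArg Subtype.val e)))
    refine ⟨σ, fun u hu => Equiv.ext fun x => ?_⟩
    rw [fn_of_mem _ (hf.le hu), fn_of_mem _ (hf.mem hu)]
    exact (h ⟨⟨u, hf.le hu⟩, hu⟩⁻¹ x).trans (by rw [map_inv]; rfl)
  choose σ hσ using hσ
  let A := (reg S).range
  let v : Equiv.Perm S ⧸ A := ((1 : Equiv.Perm S) : Equiv.Perm S ⧸ A)
  have hv : ∀ h : Equiv.Perm S, h • v = v ↔ ∃ x ∈ S, fn (reg S) x = h := fun h => by
    show ((h * 1 : Equiv.Perm S) : Equiv.Perm S ⧸ A) = ↑(1 : Equiv.Perm S) ↔ _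
    rw [eq_comm, QuotientGroup.eq, inv_one, one_mul, mul_one]
    exact ⟨fun ⟨x, e⟩ => ⟨x, x.2, (fn_coe _ x).trans e⟩,
      fun ⟨x, hx, e⟩ => ⟨⟨x, hx⟩, (fn_of_mem _ hx).symm.trans e⟩⟩
  let B : I → Subgroup (Equiv.Perm S) := fun i => (i.1.1.subgroupOf S).map (reg S)
  have hB : ∀ i h, h ∈ B i ↔ ∃ x ∈ i.1.1, fn (reg S) x = h := fun i h =>
    ⟨fun ⟨x, hx, e⟩ => ⟨x, hx, (fn_coe _ x).trans e⟩,
      fun ⟨x, hx, e⟩ => ⟨⟨x, i.2.le hx⟩, hx, (fn_of_mem _ (i.2.le hx)).symm.trans e⟩⟩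
  have hfix : ∀ (i : I) (b : Bool), ∀ h ∈ B i,
      h • (cond b 1 (σ i)⁻¹) • v = (cond b 1 (σ i)⁻¹) • v := fun i b h hh => by
    obtain ⟨x, hx, rfl⟩ := (hB i h).1 hh
    cases b
    · rw [cond_false, eq_inv_smul_iff, ← mul_smul, hσ i x hx, mul_smul, smul_inv_smul]
      exact (hv _).2 ⟨_, i.2.mem hx, rfl⟩
    · rw [cond_true, one_smul]
      exact (hv _).2 ⟨_, i.2.le hx, rfl⟩
  let s : (Σ i : I, Equiv.Perm S ⧸ B i) × Bool → Equiv.Perm S ⧸ A :=
    fun x => orb _ (hfix x.1.1 x.2) x.1.2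
  have hs : ∀ (h : Equiv.Perm S) e b, s (h • e, b) = h • s (e, b) := by
    rintro h ⟨i, ⟨c⟩⟩ b
    exact mul_smul h c _
  let ι : S →* graphGroup hs v := (SemidirectProduct.inr.comp (reg S)).codRestrict _ fun x =>
    inr_mem_graphGroup.2 ((hv _).2 ⟨x, x.2, fn_coe _ x⟩)
  have hι : ∀ x ∈ S, (fn ι x).1 = SemidirectProduct.inr (fn (reg S) x) := fun x hx => by
    rw [fn_of_mem _ hx, fn_of_mem _ hx]; rfl
  refine ⟨graphGroup hs v, inferInstance, ι, H92.isRealizedBy_iff.2 ⟨fun a b e =>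
    reg_injective S (SemidirectProduct.inr_injective (congrArg Subtype.val e)), fun P f =>
      ⟨fun hf => ⟨hf.le, fun x hx => hf.mem hx, ?_⟩, ?_⟩⟩, fun K hK => ?_, ?_⟩
  · let i : I := ⟨(P, f), hf⟩
    let t : graphGroup hs v := ⟨⟨FreeGroup.mk [(⟨i, ↑(1 : Equiv.Perm S)⟩, true)], (σ i)⁻¹⟩, _, rfl,
      (one_smul _ _).trans (one_smul _ _), one_smul _ _⟩
    refine ⟨t⁻¹, fun x hx => ?_⟩
    rw [inv_inv, mul_assoc, eq_inv_mul_iff_mul_eq]
    refine Subtype.ext ?_
    rw [Subgroup.coe_mul, Subgroup.coe_mul, hι _ (hf.le hx), hι _ (hf.mem hx)]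
    refine SemidirectProduct.ext ?_ ?_
    · rw [SemidirectProduct.mul_left, SemidirectProduct.mul_left, SemidirectProduct.left_inr,
        SemidirectProduct.left_inr, map_one, mul_one, one_mul, SemidirectProduct.right_inr, fact_mk]
      have : fn (reg S) x • ((1 : Equiv.Perm S) : Equiv.Perm S ⧸ B i) = ↑(1 : Equiv.Perm S) := by
        show ((fn (reg S) x * 1 : Equiv.Perm S) : Equiv.Perm S ⧸ B i) = _
        rw [eq_comm, QuotientGroup.eq, inv_one, one_mul, mul_one]
        exact (hB i _).2 ⟨x, hx, rfl⟩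
      show FreeGroup.mk [_] = FreeGroup.mk [(Sigma.mk i (fn (reg S) x • _), true)]
      rw [this]
    · show (σ i)⁻¹ * fn (reg S) (f x) = fn (reg S) x * (σ i)⁻¹
      rw [inv_mul_eq_iff_eq_mul, ← mul_assoc, hσ i x hx, mul_inv_cancel_right]
  · rintro ⟨hP, hf, g, hg⟩
    let Q : Equiv.Perm S → Prop := fun a =>
      ∃ f, M F P f ∧ ∀ x ∈ P, fn (reg S) x * a = a * fn (reg S) (f x)
    have Q1 : ∀ a b, a • v = b • v → Q a → Q b := by
      rintro a b e ⟨k, hk, ek⟩
      obtain ⟨y, hy, ey⟩ := (hv (b⁻¹ * a)).1 (by rw [mul_smul, e, inv_smul_smul])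
      refine ⟨_, (M.conj F le_rfl hy).comp hk fun x hx => hk.mem hx, fun x hx => ?_⟩
      rw [hl.map_conj hy (hk.mem hx), ey, mul_assoc b⁻¹, ← ek x hx]
      group
    have Q2 : ∀ (i : I) (a : Equiv.Perm S),
        (∀ x ∈ P, fn (reg S) x • (a : Equiv.Perm S ⧸ B i) = a) → (Q a ↔ Q (a * (σ i)⁻¹)) := by
      intro i a ha
      have h1 : ∀ x ∈ P, ∃ y ∈ i.1.1, fn (reg S) x * a = a * fn (reg S) y := fun x hx => by
        obtain ⟨y, hy, e⟩ := (hB i _).1 (QuotientGroup.eq.1 (ha x hx).symm)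
        exact ⟨y, hy, by rw [e, mul_inv_cancel_left]; rfl⟩
      constructor
      · rintro ⟨k, hk, ek⟩
        have h2 : ∀ x ∈ P, k x ∈ i.1.1 := fun x hx => by
          obtain ⟨y, hy, e⟩ := h1 x hx
          rwa [hli _ (hk.mem hx) _ (i.2.le hy) (mul_left_cancel ((ek x hx).symm.trans e))]
        refine ⟨_, i.2.comp hk h2, fun x hx => ?_⟩
        rw [← mul_assoc, ek x hx, mul_assoc, mul_assoc, mul_right_inj, eq_inv_mul_iff_mul_eq,
          ← mul_assoc, hσ i _ (h2 x hx), mul_inv_cancel_right]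
      · rintro ⟨k, hk, ek⟩
        obtain ⟨f', hf', c1, -, -⟩ := i.2.exists_inv
        have h2 : ∀ x ∈ P, ∃ y ∈ i.1.1, fn (reg S) x * a = a * fn (reg S) y ∧ k x = i.1.2 y :=
          fun x hx => by
            obtain ⟨y, hy, e⟩ := h1 x hx
            refine ⟨y, hy, e, hli _ (hk.mem hx) _ (i.2.mem hy) ?_⟩
            have := ek x hx
            rw [← mul_assoc, e, mul_assoc, mul_assoc, mul_right_inj, eq_inv_mul_iff_mul_eq,
              ← mul_assoc, hσ i _ hy, mul_inv_cancel_right] at this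
            exact this.symm
        refine ⟨_, hf'.comp hk fun x hx => ?_, fun x hx => ?_⟩
        · obtain ⟨y, hy, -, e⟩ := h2 x hx
          exact e ▸ mem_im_of_mem _ hy
        · obtain ⟨y, hy, e', e⟩ := h2 x hx
          rw [e, c1 y hy, e']
    have Q3 : ∀ L a b, Path s (a • v) L (b • v) → (∀ x ∈ P, lact (fn (reg S) x) L = L) → Q a →
        Q b := by
      intro L
      induction L with
      | nil => exact fun a b h _ => Q1 a b h
      | cons y L ih =>
        obtain ⟨⟨i, ⟨c⟩⟩, β⟩ := y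
        intro a b h hL hQ
        have h1 := Q2 i c fun x hx => eq_of_heq (Sigma.mk.inj
          (congrArg Prod.fst (List.cons.inj (hL x hx)).1)).2
        have h2 := Q1 _ (c * cond β 1 (σ i)⁻¹) (h.1.symm.trans (mul_smul _ _ _).symm) hQ
        refine ih (c * cond (!β) 1 (σ i)⁻¹) b (by rw [mul_smul]; exact h.2)
          (fun x hx => (List.cons.inj (hL x hx)).2) ?_
        cases β
        · simpa using h1.2 h2
        · exact h1.1 (by simpa using h2)
    have hg' : ∀ x ∈ P, SemidirectProduct.inr (fn (reg S) x) * g⁻¹.1 =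
        g⁻¹.1 * SemidirectProduct.inr (fn (reg S) (f x)) := fun x hx => by
      rw [← hι _ (hP hx), ← hι _ (hf x hx), hg x hx]
      simp [mul_assoc]
    obtain ⟨k, hk, ek⟩ := Q3 g⁻¹.1.left.toWord 1 g⁻¹.1.right
      (by rw [one_smul]; exact graphGroup.path g⁻¹.2) (fun x hx => by
      have := congrArg SemidirectProduct.left (hg' x hx)
      rw [SemidirectProduct.mul_left, SemidirectProduct.mul_left, SemidirectProduct.left_inr,
        SemidirectProduct.left_inr, map_one, mul_one, one_mul, SemidirectProduct.right_inr] at this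
      rw [← toWord_fact, this]) ⟨_, M.id F hP, fun x _ => by rw [one_mul, mul_one]⟩
    exact hk.congr fun x hx => hli _ (hk.mem hx) _ (hf x hx) (mul_left_cancel
      ((ek x hx).symm.trans (congrArg SemidirectProduct.right (hg' x hx))))
  · obtain ⟨g, hg⟩ := exists_conj_of_finite (by rintro ⟨c⟩; exact ⟨c, congrArg _ (mul_one c)⟩) K
    refine ⟨g, fun k hk => ?_⟩
    obtain ⟨h, hh, e⟩ := hg k hk
    obtain ⟨x, hx, rfl⟩ := (hv h).1 hh
    exact ⟨⟨x, hx⟩, Subtype.ext (by rw [e, ← hι x hx, fn_of_mem _ hx])⟩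
  · have := exists_free_normal hs v
    rwa [Nat.card_perm] at this

end Cfsg.Agent.S5286
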