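import Cfsg.Statements.S5290
import Cfsg.Agent.H91.Inv
import Cfsg.Agent.H92.GroupFS

set_option autoImplicit false
open Cfsg

namespace Cfsg.Agent.S5290

open Cfsg.FusionSystem Cfsg.Agent.H91

/-- Let F be a saturated fusion system over a finite p-group S and Q a subgroup of S. Then Q is normal in F (F = N_F(Q)) if and only if the inner fusion system of Q, consisting of the conjugations by elements of Q on subgroups of Q, is a weakly normal subsystem of F (both saturated, Q strongly closed, invariant under F-conjugation, with the Frattini property). -/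
theorem result {Ω : Type*} [Group Ω] {S : Subgroup Ω} [Finite S] (p : ℕ) [Fact p.Prime] (hS : IsPGroup p S)
    (F : Cfsg.FusionSystem S) (hF : F.IsSaturated p)
    (Q : Subgroup Ω) (hQ : Q ≤ S) :
    F.IsNormal Q ↔ (Cfsg.innerFusionSystem Q).IsWeaklyNormalIn F p := by
  have := finite_of_le hQ
  refine ⟨fun h => ⟨H92.saturated_inner (isPGroup_of_le hS hQ), hF, ?_⟩, fun h => ?_⟩
  · refine H92.isInvariantIn_iff.2 ⟨isSubsystemOf_iff_M.2 fun P f hf => ?_,
      stronglyClosed_of_normal h, fun P f a hf ha hia => ?_, fun P f hP hf => ?_⟩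
    · obtain ⟨hP, g, hg, e⟩ := M_inner_iff.1 hf
      exact (M.conj F (hP.trans hQ) (hQ hg)).congr fun x hx => (e x hx).symm
    · obtain ⟨hP, g, hg, e⟩ := M_inner_iff.1 hf
      refine ⟨_, M.conj _ (hia ▸ im_mono a hP) (hia ▸ mem_im_of_mem a hg), fun x hx => ?_⟩
      rw [e x hx, ha.map_conj hg (hP hx)]
    · obtain ⟨α, hα, e⟩ := normal_extend_aut h hP hf
      exact ⟨efn α, fun x => x, (mem_autGroup_iff hQ).1 hα, im_efn α, M.id _ hP,
        fun x hx => (e x hx).symm⟩
  · refine normal_of_extend_aut hS hF hQ fun P f hP hf => ?_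
    obtain ⟨a, f₀, ha, hia, hf₀, e⟩ := H92.inv_frattini h.2.2 hP hf
    obtain ⟨-, g, hg, e'⟩ := M_inner_iff.1 hf₀
    have hk := ha.comp (M.conj F hQ (hQ hg)) fun x hx =>
      Q.mul_mem (Q.mul_mem hg hx) (Q.inv_mem hg)
    obtain ⟨α, -, eα⟩ := hk.exists_aut (hk.im_eq_self fun x hx =>
      hia ▸ mem_im_of_mem a (Q.mul_mem (Q.mul_mem hg hx) (Q.inv_mem hg)))
    exact ⟨α, fun x hx => by rw [eα x (hP hx), e x hx, e' x hx]⟩

end Cfsg.Agent.S5290
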