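import Cfsg.Statements.S5291
import Cfsg.Agent.H91.Subn

set_option autoImplicit false
open Cfsg

namespace Cfsg.Agent.S5291

open Cfsg.FusionSystem Cfsg.Agent.H91

/-- Let F be a saturated fusion system over a finite p-group S and E a weakly normal subsystem of F over a subgroup T. Suppose a subgroup R of T is normal in E (E = N_E(R)), and let R* be the subgroup of T generated by the images of R under all maps of F with source R. Then R* is normal in F (F = N_F(R*)). -/
theorem result {Ω : Type*} [Group Ω] {S : Subgroup Ω} [Finite S] (p : ℕ) [Fact p.Prime] (hS : IsPGroup p S)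
    (F : Cfsg.FusionSystem S) (hF : F.IsSaturated p)
    {T : Subgroup Ω} (E : Cfsg.FusionSystem T) (hE : E.IsWeaklyNormalIn F p)
    (R : Subgroup Ω) (hR : E.IsNormal R) :
    F.IsNormal (Subgroup.closure {x : Ω | ∃ φ ∈ F.Hom R, ∃ r : R, x = φ r}) := by
  have hT := hE.2.2.2.1
  have := finite_of_le hT.1
  set U := Subgroup.closure {x : Ω | ∃ φ ∈ F.Hom R, ∃ r : R, x = φ r} with hU
  have e : U = sSup {Q | ∃ f, M F R f ∧ im f R = Q} := by
    refine le_antisymm ((Subgroup.closure_le _).2 ?_) (sSup_le ?_)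
    · rintro _ ⟨φ, hφ, r, rfl⟩
      exact le_sSup (s := {Q | ∃ f, M F R f ∧ im f R = Q}) ⟨fn φ, M.of_mem hφ, rfl⟩
        (fn_coe φ r ▸ mem_im_of_mem (fn φ) r.2)
    · rintro _ ⟨f, hf, rfl⟩
      exact im_le_iff.2 fun x hx => Subgroup.subset_closure ⟨_, hf.toHom_mem, ⟨x, hx⟩, rfl⟩
  have hcore : U ≤ E.core := by
    rw [e]
    rintro _ h
    refine (sSup_le ?_ : sSup {Q | ∃ f, M F R f ∧ im f R = Q} ≤ E.core) h
    rintro _ ⟨f, hf, rfl⟩
    exact le_core (normal_im_of_invariant hE.2.2 hR hf)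
  refine H93.normal_of_invariant (core_normal_of_invariant hS hF hE.2.2) hcore fun α hα x hx => ?_
  have hα' := (mem_autGroup_iff ((core_le E).trans hT.1)).1 hα
  have h1 : im (efn α) U ≤ U := by
    obtain ⟨k, hk, -⟩ := H92.gIso_of_M hα'
    refine hk.im_closure_le (fun x hx => hcore (Subgroup.subset_closure hx)) ?_
    rintro _ ⟨φ, hφ, r, rfl⟩
    have h2 := hα'.comp (M.of_mem hφ) fun y hy =>
      hcore (Subgroup.subset_closure ⟨φ, hφ, ⟨y, hy⟩, fn_of_mem φ hy⟩)
    exact Subgroup.subset_closure ⟨_, h2.toHom_mem, r, by simp⟩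
  exact h1 (mem_im_of_mem _ hx)

end Cfsg.Agent.S5291
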