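import Cfsg.Statements.S5296
import Cfsg.Agent.H93.SmallAb
import Cfsg.Agent.H91.Hyp

set_option autoImplicit false
set_option linter.style.haveILetI false
universe u
open Cfsg

namespace Cfsg.Agent.S5296

universe v

open Cfsg.FusionSystem Cfsg.Agent.H93
open Cfsg.Agent.H91 hiding center_central center_le central_bot central_mono central_sup core_le core_normal isCentral_iff isFullyAutomized_iff isNormal_iff le_center le_core normal_bot normal_sup sSup_mem_of_sup_closed stronglyClosed_iff weaklyClosed_iff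

theorem exists_small_abelian' {G : Type*} [Group G] [Finite G] {p : ℕ} [Fact p.Prime]
    (hG : IsPGroup p G) (H : Subgroup G) (hH : H.Normal) :
    ∃ A : Subgroup G, A.Normal ∧ A ≤ H ∧ (∀ a ∈ A, ∀ b ∈ A, a * b = b * a) ∧
      (∀ a ∈ A, a ^ H61.smExp p = 1) ∧
      ∀ δ : MulAut G, (orderOf δ).Coprime p → (∀ x, x⁻¹ * δ x ∈ H) → (∀ a ∈ A, δ a = a) →
        δ = 1 := by
  obtain ⟨D, hD, h1, -, h3⟩ := H61.exists_small_critical (hG.to_subgroup H)
  obtain ⟨A, ⟨hAn, hAD, hA⟩, hmax⟩ := exists_maximal_ge_of_wellFoundedGT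
    (fun A : Subgroup G => A.Normal ∧ A ≤ D.map H.subtype ∧ ∀ a ∈ A, ∀ b ∈ A, a * b = b * a) ⊥
    ⟨inferInstance, bot_le, by simp⟩ |>.imp fun _ h => h.2
  have hC : D.map H.subtype ⊓ Subgroup.centralizer (A : Set G) ≤ A := by
    by_contra hC
    obtain ⟨x, hx, hxA, -, hc⟩ := H3.exists_mem_central_mod hG A _ hC
    have h := hx.2
    have e1 : A ⊔ Subgroup.zpowers x ≤ Subgroup.centralizer (A : Set G) :=
      sup_le (fun b hb a ha => hA a ha b hb) ((Subgroup.zpowers_le).2 h)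
    have e2 : A ⊔ Subgroup.zpowers x ≤ Subgroup.centralizer {x} :=
      sup_le (fun a ha => Subgroup.mem_centralizer_singleton_iff.2 (h a ha))
        ((Subgroup.zpowers_le).2 (Subgroup.mem_centralizer_singleton_iff.2 rfl))
    have e3 : A ⊔ Subgroup.zpowers x ≤
        Subgroup.centralizer ((A ⊔ Subgroup.zpowers x : Subgroup G) : Set G) :=
      sup_le (Subgroup.le_centralizer_iff.1 e1) ((Subgroup.zpowers_le).2 fun a ha =>
        Subgroup.mem_centralizer_singleton_iff.1 (e2 ha))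
    have e4 : (A ⊔ Subgroup.zpowers x).Normal := ⟨fun y hy g => by
      have : A ⊔ Subgroup.zpowers x ≤ (A ⊔ Subgroup.zpowers x).comap (MulAut.conj g).toMonoidHom := by
        refine sup_le (fun a ha => Subgroup.mem_sup_left (hAn.conj_mem a ha g))
          ((Subgroup.zpowers_le).2 ?_)
        have h5 := Subgroup.mul_mem_sup (A.inv_mem (hc g)) (Subgroup.mem_zpowers x)
        simpa [commutatorElement_def, mul_assoc] using h5
      exact this hy⟩
    exact hxA (hmax ⟨e4, sup_le hAD ((Subgroup.zpowers_le).2 hx.1), fun a ha b hb => e3 hb a ha⟩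
      le_sup_left (Subgroup.mem_sup_right (Subgroup.mem_zpowers x)))
  have hAH : A ≤ H := hAD.trans (Subgroup.map_subtype_le _)
  refine ⟨A, hAn, hAH, hA, fun a ha => ?_, fun δ hδ hδH h => ?_⟩
  · obtain ⟨d, hd, rfl⟩ := hAD ha
    exact congrArg Subtype.val (h1 d hd)
  have hm : ∀ x : H, δ x ∈ H := fun x => by
    simpa using H.mul_mem x.2 (hδH x)
  let ε : MulAut H := MulEquiv.ofBijective ((δ.toMonoidHom.comp H.subtype).codRestrict H hm)
    (Finite.injective_iff_bijective.1 fun a b hab =>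
      Subtype.ext (δ.injective (congrArg Subtype.val hab)))
  have hε : ∀ (k : ℕ) (x : H), ((ε ^ k) x : G) = (δ ^ k) x := fun k => by
    induction k with
    | zero => intro x; rfl
    | succ k ih => intro x; rw [pow_succ, pow_succ, MulAut.mul_apply, ih]; rfl
  have hε' : (orderOf ε).Coprime p := hδ.coprime_dvd_left (orderOf_dvd_of_pow_eq_one
    (MulEquiv.ext fun x => Subtype.ext (by rw [hε, pow_orderOf_eq_one]; rfl)))
  have h4 := h3 ε hε' fun d hd => by
    have := H4.mulAut_eq_one_of_centralizer_le ((hG.to_subgroup H).to_subgroup D)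
      (MulAut.characteristic D ε) (H4.coprime_orderOf_map _ hε') ((A.subgroupOf H).subgroupOf D)
      (fun x hx => hC ⟨⟨x, x.2, rfl⟩, fun a ha => by
        obtain ⟨b, hb, rfl⟩ := hAD ha
        exact congrArg (fun z : D => ((z : H) : G)) (hx ⟨b, hb⟩ ha)⟩)
      fun x hx => Subtype.ext (Subtype.ext (h _ hx))
    exact congrArg Subtype.val (DFunLike.congr_fun this (⟨d, hd⟩ : D))
  exact H4.mulAut_eq_one_of_stabilizes hG δ hδ H
    (fun x hx => congrArg Subtype.val (DFunLike.congr_fun h4 (⟨x, hx⟩ : H))) hδH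

section
variable {Ω : Type*} [Group Ω] {S : Subgroup Ω} {F : FusionSystem S} {p : ℕ}
variable [Finite S] [Fact p.Prime] (hS : IsPGroup p S) (hF : F.IsSaturated p)
include hS hF

theorem eq_of_small_abelian' {E : FusionSystem S} (hE : E.IsSaturated p) (hEF : E.IsSubsystemOf F)
    (h : ∀ A f, A ≤ F.hyperfocalSubgroup p → (∀ a ∈ A, ∀ b ∈ A, a * b = b * a) → (∀ a ∈ A, a ^ H61.smExp p = 1) →
      M F A f → M E A f) : ∀ Q f, M F Q f → M E Q f := by
  suffices ∀ Q, Q ≤ S → ∀ f, M F Q f → M E Q f from fun Q f hf => this Q hf.le f hf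
  refine downward_induction fun Q hQ ih f hf => ?_
  haveI := finite_of_le hQ
  have hsc := hyp_stronglyClosed hS hF
  obtain ⟨A₀, hn, h0, h1, h2, h3⟩ := exists_small_abelian' (isPGroup_of_le hS hQ)
    ((F.hyperfocalSubgroup p).subgroupOf Q) (Subgroup.normal_subgroupOf_of_le_normalizer
      (hQ.trans (le_normalizer_hyp F p)))
  have h0' : A₀.map Q.subtype ≤ F.hyperfocalSubgroup p := by
    rintro _ ⟨a, ha, rfl⟩; exact h0 ha
  have hAQ : A₀.map Q.subtype ≤ Q := Subgroup.map_subtype_le _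
  have hQA : Q ≤ Subgroup.normalizer ((A₀.map Q.subtype : Subgroup Ω) : Set Ω) :=
    (Subgroup.normal_subgroupOf_iff_le_normalizer hAQ).1 (by
      rwa [Subgroup.subgroupOf, Subgroup.comap_map_eq_self_of_injective Q.subtype_injective])
  have h1' : ∀ a ∈ A₀.map Q.subtype, ∀ b ∈ A₀.map Q.subtype, a * b = b * a := by
    rintro _ ⟨a, ha, rfl⟩ _ ⟨b, hb, rfl⟩; exact congrArg Subtype.val (h1 a ha b hb)
  have h2' : ∀ a ∈ A₀.map Q.subtype, a ^ H61.smExp p = 1 := by
    rintro _ ⟨a, ha, rfl⟩; exact congrArg Subtype.val (h2 a ha)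
  have h3' : ∀ δ ∈ F.autGroup Q, (orderOf δ).Coprime p → (∀ a ∈ A₀.map Q.subtype, efn δ a = a) →
      δ = 1 := fun δ hδ' hδ e => h3 δ hδ (fun x => by
        have := mem_hyp_of_coprime hQ hδ' hδ x.2
        rwa [efn_coe] at this) fun a ha =>
    Subtype.ext ((efn_coe δ a).symm.trans (e a ⟨a, ha, rfl⟩))
  generalize A₀.map Q.subtype = A at hAQ hQA h0' h1' h2' h3'
  clear h0 h1 h2 h3 hn A₀
  have hfA := hf.restrict hAQ
  obtain ⟨V, hc, hV⟩ := exists_fullyNormalized F hfA.im_le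
  have hVE := fullyNormalized_sub hS hF hEF (sc_top F) hV.1 hV
  have hcE : E.IsConj (im f A) V := by
    obtain ⟨g, hg, e⟩ := isConj_iff.1 hc
    refine isConj_iff.2 ⟨g, h _ g (hfA.im_le_of_stronglyClosed hsc le_rfl h0') (fun a ha b hb => ?_) (fun a ha => ?_) hg, e⟩
    · obtain ⟨a, ha', rfl⟩ := (hfA.mem_im le_rfl).1 ha
      obtain ⟨b, hb', rfl⟩ := (hfA.mem_im le_rfl).1 hb
      rw [← hfA.map_mul ha' hb', ← hfA.map_mul hb' ha', h1' a ha' b hb']
    · obtain ⟨a, ha', rfl⟩ := (hfA.mem_im le_rfl).1 ha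
      rw [← hfA.homOn.map_pow ha', h2' a ha', hfA.map_one]
  obtain ⟨g, hg, eg, -⟩ := sat_exists_map_normalizer hS hE hcE hVE
  have hm : ∀ x ∈ Q, f x ∈ normalizerIn S (im f A) := fun x hx =>
    hf.map_mem_normalizer hAQ hx (hQA hx)
  have hw := (hg.of_sub hEF).comp hf hm
  have hwA : im (fun x => g (f x)) A = V := by rw [← hfA.homOn.im_im, eg]
  obtain ⟨u, hu, eu⟩ := (h A _ h0' h1' h2' (hw.restrict hAQ)).extend hwA (sat_receptive' hS hE hVE)
    (R := Q) fun x hx => ⟨⟨hQ hx, hQA hx⟩, _, hw.mem hx, fun y hy => hw.map_conj hx (hAQ hy)⟩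
  rw [sup_of_le_right hAQ] at hu
  have huA : im u A = V := (im_congr eu).trans hwA
  have huF := hu.of_sub hEF
  obtain ⟨k, hk, lk, mk, rk⟩ := huF.exists_inv
  have hVQ : V ≤ im u Q := huA ▸ im_mono u hAQ
  have hT : im u Q ≤ normK S (autInducedBy S V) := im_le_iff.2 fun x hx => by
    have := hu.map_mem_normalizer hAQ hx (hQA hx)
    rw [huA] at this
    exact mem_normK.2 ⟨this.1, (restrIn_conj_iff this.2).2 (cjAut_mem_autInducedBy this.1 _)⟩
  haveI := finite_of_le (normK_le S (autInducedBy S V))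
  have hsat := kNorm_saturated (K := autInducedBy S V) hS hF (sat_receptive' hS hF hV)
    (by rw [inf_idem, inf_of_le_right (autInducedBy_le_autGroup F hV.1)]
        exact sylIn_self (isPGroup_autInducedBy hS V)) rfl fun _ _ => M_kNormFS hV.1
  haveI := finite_autGroup (kNormFS F hV.1 (autInducedBy S V)) hT
  haveI := finite_mulAut hu.im_le
  have hγ : M E (im u Q) fun y => g (f (k y)) := by
    refine M_of_aut_isPGroup (isPGroup_of_le hS (normK_le _ _)) hsat (normK_le _ _)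
      (isPGroup_of_forall_coprime_eq_one fun δ hδ hc => ?_) (fun R f' hR hf' => ?_)
      ((M_kNormFS hV.1).2 ((hw.comp hk mk).toKM hVQ (restrIn_of_fix _ fun y hy => ?_) le_rfl hT))
    · obtain ⟨-, g', -, e1, κ, hκ, e2⟩ := (M_kNormFS hV.1).1 ((mem_autGroup_iff hT).1 hδ)
      have e3 : ∀ x ∈ V, efn δ x = efn κ x := fun x hx => (e1 x (hVQ hx)).symm.trans (e2 x hx)
      obtain ⟨n, hn⟩ := pow_eq_one_of_mem_isPGroup (isPGroup_autInducedBy hS V) hκ
      have hκ1 : κ = 1 := orderOf_eq_one_iff.1 (Nat.Coprime.eq_one_of_dvd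
        ((hc.coprime_dvd_left (orderOf_dvd_of_pow_eq_one
          (pow_orderOf_eq_one_of_extends hVQ e3))).pow_right n) (orderOf_dvd_of_pow_eq_one hn))
      have hδF : δ ∈ F.autGroup (im u Q) :=
        ((M_kNormFS hV.1).1 ((mem_autGroup_iff hT).1 hδ)).toM.mem_autGroup
      have := h3' ((MulAut.congr (hu.equiv rfl)).symm δ)
        (mem_autGroup_congr ((hu.efn_equiv_M rfl).of_sub hEF).efn_symm hδF)
        (by rwa [MulEquiv.orderOf_eq])
        fun a ha => by
          have e4 := efn_congr (hu.equiv rfl) ((MulAut.congr (hu.equiv rfl)).symm δ) (hAQ ha)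
          have haV : u a ∈ V := huA ▸ mem_im_of_mem u ha
          rw [MulEquiv.apply_symm_apply, hu.efn_equiv rfl (hAQ ha),
            hu.efn_equiv rfl (efn_mem _ (hAQ ha)), e3 _ haV, hκ1, efn_one haV] at e4
          exact hu.injOn (efn_mem _ (hAQ ha)) (hAQ ha) e4.symm
      rwa [MulEquiv.symm_apply_eq, map_one] at this
    · have hf'' := ((M_kNormFS hV.1).1 hf').toM
      exact ih R hf''.le (by rwa [hu.card_im le_rfl] at hR) f' hf''
    · rw [← huA] at hy
      obtain ⟨a, ha, rfl⟩ := (hu.mem_im hAQ).1 hy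
      rw [lk a (hAQ ha), eu a ha]
  obtain ⟨g', hg', lg, -⟩ := hg.exists_inv
  refine (hg'.comp (hγ.comp hu fun x hx => mem_im_of_mem u hx) fun x hx => ?_).congr
    fun x hx => by simp only [lk x hx, lg _ (hm x hx)]
  simp only [lk x hx]
  exact mem_im_of_mem g (hm x hx)

end

/-- Small-exponent abelian subgroups of the hyperfocal subgroup control fusion. Let E and F be saturated fusion systems over the same finite p-group S with E contained in F. Suppose that E and F have the same maps between A and B for all subgroups A, B of the hyperfocal subgroup of F that are elementary abelian when p is odd, respectively abelian of exponent dividing 4 when p = 2. Then E = F. -/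
theorem result {Ω : Type u} [Group Ω] {S : Subgroup Ω} [Finite S] (p : ℕ) [Fact p.Prime] (hS : IsPGroup p S)
    (E F : Cfsg.FusionSystem S) (hE : E.IsSaturated p) (hF : F.IsSaturated p) (hEF : E.IsSubsystemOf F)
    (hodd : p ≠ 2 → ∀ A B : Subgroup Ω, A ≤ (F.hyperfocalSubgroup p) → B ≤ (F.hyperfocalSubgroup p) →
      Cfsg.IsElementaryAbelian p A → Cfsg.IsElementaryAbelian p B → E.homSet A B = F.homSet A B)
    (htwo : p = 2 → ∀ A B : Subgroup Ω, A ≤ (F.hyperfocalSubgroup p) → B ≤ (F.hyperfocalSubgroup p) →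
      IsMulCommutative ↥A → IsMulCommutative ↥B → (∀ a ∈ A, a ^ 4 = 1) → (∀ b ∈ B, b ^ 4 = 1) → E.homSet A B = F.homSet A B) :
    ∀ P : Subgroup Ω, E.Hom P = F.Hom P := by
  refine fun P => Hom_eq_iff_M.2 fun f => ⟨fun h => h.of_sub hEF,
    eq_of_small_abelian' hS hF hE hEF (fun A f h0 h1 h2 hf => ?_) P f⟩
  have h0' := hf.im_le_of_stronglyClosed (hyp_stronglyClosed hS hF) le_rfl h0
  have c1 : IsMulCommutative A := ⟨⟨fun a b => Subtype.ext (h1 a a.2 b b.2)⟩⟩
  have c2 : IsMulCommutative (im f A) := ⟨⟨fun ⟨a, ha⟩ ⟨b, hb⟩ => Subtype.ext (by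
    obtain ⟨a, ha', rfl⟩ := (hf.mem_im le_rfl).1 ha
    obtain ⟨b, hb', rfl⟩ := (hf.mem_im le_rfl).1 hb
    show f a * f b = f b * f a
    rw [← hf.map_mul ha' hb', ← hf.map_mul hb' ha', h1 a ha' b hb'])⟩⟩
  have h3 : ∀ a ∈ im f A, a ^ H61.smExp p = 1 := fun a ha => by
    obtain ⟨a, ha', rfl⟩ := (hf.mem_im le_rfl).1 ha
    rw [← hf.homOn.map_pow ha', h2 a ha', hf.map_one]
  have h4 : E.homSet A (im f A) = F.homSet A (im f A) := by
    by_cases hp : p = 2
    · rw [H61.smExp, if_pos hp] at h2 h3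
      exact htwo hp _ _ h0 h0' c1 c2 h2 h3
    · rw [H61.smExp, if_neg hp] at h2 h3
      exact hodd hp _ _ h0 h0' ⟨c1, h2⟩ ⟨c2, h3⟩
  exact ⟨_, (h4.ge ⟨hf.toHom_mem, fun x => mem_im_of_mem f x.2⟩).1, fun _ => rfl⟩


end Cfsg.Agent.S5296
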