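import Cfsg.Statements.S5297
import Cfsg.Agent.H62.SmallFus

set_option autoImplicit false
universe u
open Cfsg

namespace Cfsg.Agent.S5297

open Cfsg.Agent.H91 Cfsg.Agent.H62 Cfsg.FusionSystem

/-- Let F be a saturated fusion system over a finite p-group S. If every map of F between cyclic subgroups of the hyperfocal subgroup of F of order p or 4 is a map of the normalizer system of S (it extends to a map of F defined on all of S), then S is normal in F. -/
theorem result {Ω : Type u} [Group Ω] {S : Subgroup Ω} [Finite S] (p : ℕ) [Fact p.Prime] (hS : IsPGroup p S)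
    (F : Cfsg.FusionSystem S) (hF : F.IsSaturated p)
    (h : ∀ A B : Subgroup Ω, A ≤ (F.hyperfocalSubgroup p) → B ≤ (F.hyperfocalSubgroup p) → IsCyclic ↥A → (Nat.card ↥A = p ∨ Nat.card ↥A = 4) → IsCyclic ↥B → (Nat.card ↥B = p ∨ Nat.card ↥B = 4) →
      F.homSet A B ⊆ F.normalizerHom S A) :
    F.IsNormal S := by
  refine normal_top_of_opIn hS hF fun R hR g hgS hg => ?_
  refine mem_opIn_of_small hS ?_ hR.1.1 (cjAut_mem_autGroup F hR.1.1 ⟨hgS, hg⟩)
    fun x hx _ _ _ => ⟨g, hgS, efn_cjAut R g hg hx⟩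
  intro P f hf x hx hxh hfx hsm i hi
  by_cases h1 : x = 1
  · rw [h1, hf.map_one]; exact Subgroup.one_mem _
  obtain ⟨φ, hφ, e⟩ := small_elt (C := fun A => F.normalizerHom S A) h hf hx hxh hfx hsm h1
  obtain ⟨-, k, hk, e1, -⟩ := (mem_normalizerHom_iff e).1 hφ
  rw [← e1 x (Subgroup.mem_zpowers x)]
  exact H62.M.mem_ucs (hk.restrict le_sup_right) hi

end Cfsg.Agent.S5297
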