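import Cfsg.Statements.S5298
import Cfsg.Agent.H62.SmallFus

set_option autoImplicit false
universe u
open Cfsg

namespace Cfsg.Agent.S5298

open Cfsg.Agent.H91 Cfsg.Agent.H62 Cfsg.FusionSystem

/-- Let F be a saturated fusion system over a finite p-group S. If every map of F between cyclic subgroups of the hyperfocal subgroup of F of order p or 4 is conjugation by an element of S, then F is the inner fusion system of S. -/
theorem result {Ω : Type u} [Group Ω] {S : Subgroup Ω} [Finite S] (p : ℕ) [Fact p.Prime] (hS : IsPGroup p S)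
    (F : Cfsg.FusionSystem S) (hF : F.IsSaturated p)
    (h : ∀ A B : Subgroup Ω, A ≤ (F.hyperfocalSubgroup p) → B ≤ (F.hyperfocalSubgroup p) → IsCyclic ↥A → (Nat.card ↥A = p ∨ Nat.card ↥A = 4) → IsCyclic ↥B → (Nat.card ↥B = p ∨ Nat.card ↥B = 4) →
      F.homSet A B ⊆ (Cfsg.innerFusionSystem S).Hom A) :
    ∀ P : Subgroup Ω, F.Hom P = (Cfsg.innerFusionSystem S).Hom P := by
  have key : ∀ P f, M F P f → ∀ x ∈ P, x ∈ F.hyperfocalSubgroup p →
      f x ∈ F.hyperfocalSubgroup p → Sm p x → ∃ s ∈ S, f x = s * x * s⁻¹ := by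
    intro P f hf x hx hxh hfx hsm
    by_cases h1 : x = 1
    · exact ⟨1, S.one_mem, by rw [h1, hf.map_one]; simp⟩
    obtain ⟨φ, ⟨-, s, hs, hφ⟩, e⟩ :=
      small_elt (C := fun A => (innerFusionSystem S).Hom A) h hf hx hxh hfx hsm h1
    exact ⟨s, hs, (e ⟨x, Subgroup.mem_zpowers x⟩).symm.trans (hφ _)⟩
  have hop : ∀ R, R ≤ S → ∀ β ∈ F.autGroup R, β ∈ opIn p (F.autGroup R) := by
    intro R hR β hβ
    refine mem_opIn_of_small hS ?_ hR hβ fun x hx h1 h2 h3 =>
      key R _ ((mem_autGroup_iff hR).1 hβ) x hx h1 h2 h3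
    intro P f hf x hx hxh hfx hsm i hi
    obtain ⟨s, hs, e⟩ := key P f hf x hx hxh hfx hsm
    rw [e]
    exact M.mem_ucs (M.conj F le_rfl hs) hi
  intro P
  refine Hom_eq_iff_M.2 fun f => ⟨fun hf => ?_, fun hf => le_iff_M.1 (inner_le F) P f hf⟩
  refine alperin_sub hS hF (fun R hR α hα => ?_) P f hf
  obtain ⟨hc, hr, -⟩ := centric_radical_of_alp hS hF hR
  have := hop R hc.1 α hα
  rw [radical_opIn hr, mem_Inn_iff] at this
  obtain ⟨g, hg, e⟩ := this
  refine M_inner_iff.2 ⟨hc.1, g, hc.1 hg, fun x hx => ?_⟩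
  rw [efn_of_mem α hx]; exact e ⟨x, hx⟩

end Cfsg.Agent.S5298
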