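import Cfsg.Statements.S5301
import Cfsg.Agent.H91.Subn

set_option autoImplicit false
universe u
open Cfsg

namespace Cfsg.Agent.S5301

open Cfsg.FusionSystem Cfsg.Agent.H91

/-- Let F be a saturated fusion system over a finite p-group S. If for every subgroup P of S that is fully normalized, centric and radical in F the automorphism group that F induces on P has a normal Sylow p-subgroup, then S is normal in F. -/
theorem result {Ω : Type u} [Group Ω] {S : Subgroup Ω} [Finite S] (p : ℕ) [Fact p.Prime] (hS : IsPGroup p S)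
    (F : Cfsg.FusionSystem S) (hF : F.IsSaturated p)
    (hcl : ∀ P : Subgroup Ω, F.IsFullyNormalized P → F.IsCentric P → F.IsRadical p P →
      ∃ R : Sylow p ↥(F.autGroup P), (R : Subgroup ↥(F.autGroup P)).Normal) :
    F.IsNormal S := by
  refine normal_of_le_centric_radical hS hF
    (weaklyClosed_of_stronglyClosed (stronglyClosed_iff.2 ⟨le_rfl, fun P f hf x hx _ => hf.mem hx⟩))
    fun P hc hr hn => le_of_centric_radical hS hc hr le_rfl
      (hc.1.trans Subgroup.le_normalizer) fun g hg hgP => ?_
  obtain ⟨R, hR⟩ := hcl P hn hc hr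
  have := finite_autGroup F hc.1
  have h1 := sylIn_map_sylow R
  have h2 : ∀ a ∈ F.autGroup P, ∀ n ∈ (R : Subgroup (F.autGroup P)).map (F.autGroup P).subtype,
      a * n * a⁻¹ ∈ (R : Subgroup (F.autGroup P)).map (F.autGroup P).subtype := by
    rintro a ha _ ⟨n, hn, rfl⟩
    exact ⟨_, hR.conj_mem n hn ⟨a, ha⟩, rfl⟩
  refine le_opIn h1.isPGroup h1.le h2 ?_
  obtain ⟨a, ha, h3⟩ := h1.exists_conj_mem (isPGroup_autInducedBy hS P)
    (autInducedBy_le_autGroup F hc.1)
  have := h2 a⁻¹ (Subgroup.inv_mem _ ha) _ (h3 _ (cjAut_mem_autInducedBy hg hgP))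
  simpa [mul_assoc] using this

end Cfsg.Agent.S5301
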