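import Cfsg.Statements.S5310
import Cfsg.Agent.H94.Constr
import Cfsg.Agent.H91.CProd

set_option autoImplicit false
open Cfsg

namespace Cfsg.Agent.S5310

open Cfsg.FusionSystem Cfsg.Agent.H91

/-- A saturated fusion system F over a finite p-group S is constrained (its largest normal subgroup O_p(F) is centric) if and only if the inner fusion system of O_p(F) is itself a generalized Fitting subsystem of F (that is, F*(F) = O_p(F)). -/
theorem result {Ω : Type*} [Group Ω] {S : Subgroup Ω} [Finite S] (p : ℕ) [Fact p.Prime] (hS : IsPGroup p S) (F : Cfsg.FusionSystem S) (hF : F.IsSaturated p) :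
    F.IsConstrained p ↔ (Cfsg.innerFusionSystem F.core).IsGeneralizedFittingOf F p := by
  haveI := finite_of_le (core_le F)
  have hQ := isPGroup_of_le hS (core_le F)
  rw [H94.constrained_iff_no_component hS hF]
  refine ⟨fun h => ⟨⊥, innerFusionSystem ⊥, ⟨inner_isNormalIn hS hF (normal_bot F),
    fun U C hC => (h ⟨U, C, hC⟩).elim, fun R D _ _ => isSubsystemOf_iff_M.2 fun P f hf => ?_⟩,
    isCentralProductOf_iff.2 ⟨⟨fun a _ b hb => ?_, ?_, ?_⟩, (sup_bot_eq _).symm, fun P f =>
      ⟨cpm_left _, ?_⟩⟩⟩, ?_⟩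
  · refine (M.id D (hf.le.trans bot_le)).congr fun x hx => ?_
    rw [Subgroup.mem_bot.1 (hf.le hx), hf.map_one]
  · rw [Subgroup.mem_bot.1 hb, one_mul, mul_one]
  · rw [inf_bot_eq]; exact central_bot _
  · rw [inf_bot_eq]; exact central_bot _
  · rintro ⟨P₁, P₂, f₁, f₂, h₁, h₂, h⟩
    have e : ∀ x ∈ P, x ∈ P₁ ∧ f₁ x = f x := fun x hx => by
      obtain ⟨a, ha, b, hb, e1, e2⟩ := h x hx
      rw [Subgroup.mem_bot.1 (h₂.le hb)] at e1 e2
      rw [mul_one] at e1
      rw [e2, h₂.map_one, mul_one, e1]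
      exact ⟨ha, rfl⟩
    exact (h₁.restrict fun x hx => (e x hx).1).congr fun x hx => (e x hx).2
  · rintro ⟨T, E, hE, hcp⟩ ⟨U, C, hC⟩
    have h1 := (isCP_of_isCentralProductOf hcp).sub₂
    have h2 : C.IsSubsystemOf (innerFusionSystem F.core) := fun P => (hE.2.1 U C hC P).trans (h1 P)
    have h3 := H93.hyp_mono (p := p) h2
    rw [hyp_eq_bot_of_inner hQ fun _ _ h => h] at h3
    haveI := finite_of_le (subnormal_le hC.1)
    exact quasisimple_ne_bot hC.2 (le_bot_iff.1 (hC.2.2.1.ge.trans h3))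

end Cfsg.Agent.S5310
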