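import Cfsg.Statements.S5315
import Cfsg.Agent.H94.Abelian
import Cfsg.Agent.H93.HypFactor

set_option autoImplicit false
open Cfsg

namespace Cfsg.Agent.S5315

open Cfsg.Agent.H91 Cfsg.Agent.H94 in
/-- An analogue of Grün's lemma for fusion systems. Let F be a saturated fusion system over a finite p-group S that is perfect in the sense that its hyperfocal subgroup is all of S (F coincides with its p-residual subsystem). Then the second centre of F equals its centre: every fusion system over S/(Z(F) ∩ S) that is the factor system of F modulo its centre Z(F), read through the quotient map, has trivial centre. -/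
theorem result {Ω : Type*} [Group Ω] {S : Subgroup Ω} [Finite S] (p : ℕ) [Fact p.Prime] (hS : IsPGroup p S) (F : Cfsg.FusionSystem S) (hF : F.IsSaturated p)
    (hperf : F.hyperfocalSubgroup p = S)
    (E : Cfsg.FusionSystem (⊤ : Subgroup (↥S ⧸ (F.center).subgroupOf S)))
    (hE : F.IsFactorSystem F.center (QuotientGroup.mk' ((F.center).subgroupOf S)) E) : E.center = ⊥ := by
  have hp : p.Prime := Fact.out
  obtain ⟨hK, h⟩ := H93.isFactorSystem_iff.1 hE
  set θ := QuotientGroup.mk' ((F.center).subgroupOf S) with hθ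
  haveI := h.finite
  have hZ := center_central F
  have hZs : F.StronglyClosed F.center := stronglyClosed_of_normal (normal_of_central hZ)
  set W := FusionSystem.preimageAlong θ E.center with hW
  have hWS : W ≤ S := H93.pre_le _ _
  have hZW : F.center ≤ W := hK ▸ H93.pre_mono θ bot_le
  have step0 : ∀ P f, M F P f → ∀ z ∈ P, z ∈ W → z⁻¹ * f z ∈ F.center := by
    intro P f hf z hz hzW
    obtain ⟨f', hf', e⟩ := h.desc' hS hF (by rw [hK]; exact hZs) hf
    rw [← hK, ← H93.fn_eq_iff (hf.le hz) (hf.mem hz), ← e z hz,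
      hf'.fix_of_central (center_central E) (mem_im_of_mem _ hz) (H93.mem_pre.1 hzW).2]
  have hWs : F.StronglyClosed W := stronglyClosed_iff.2 ⟨hWS, fun P f hf z hz hzW => by
    have := W.mul_mem hzW (hZW (step0 P f hf z hz hzW))
    rwa [mul_inv_cancel_left] at this⟩
  have hcomm : ∀ u ∈ F.center, ∀ s ∈ S, s * u = u * s := fun u hu s hs =>
    F.center_le_centralizer hu s hs
  have hWn : F.IsNormal W := by
    refine normal_of_chain hS hF (fun i => match i with | 0 => ⊥ | 1 => F.center | _ => W) 2
      (fun i hi => ?_) rfl rfl fun i hi => ?_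
    · interval_cases i
      exacts [stronglyClosed_bot F, hZs, hWs]
    · interval_cases i
      · refine Subgroup.commutator_le.2 fun x hx y hy => ?_
        show _ ∈ (⊥ : Subgroup Ω)
        rw [Subgroup.mem_bot, commutatorElement_eq_one_iff_mul_comm]
        exact hcomm y hy x (hWS hx)
      · refine Subgroup.commutator_le.2 fun x hx y hy => ?_
        have := step0 S _ (M.conj F le_rfl (hWS hy)) x⁻¹ (S.inv_mem (hWS hx)) (W.inv_mem hx)
        show _ ∈ F.center
        rw [commutatorElement_def]
        simpa [mul_assoc] using this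
  have hWZ : ∀ z ∈ W, ∀ s ∈ S, s * z = z * s := by
    intro z hz s hs
    have : F.focalSubgroup ≤ Subgroup.centralizer {z} := by
      refine H93.focal_le_iff.2 fun P f hf x hx => ?_
      obtain ⟨g, hg, e, -⟩ := normal_extend hWn hf
      have hx' : x ∈ P ⊔ W := (le_sup_left : P ≤ _) hx
      have hz' : z ∈ P ⊔ W := (le_sup_right : W ≤ _) hz
      have hu := step0 _ g hg z hz' hz
      have hc := step0 S _ (M.conj F le_rfl (hf.le hx)) z (hWS hz) hz
      have h1 := hg.fix_of_central hZ ((le_sup_right : W ≤ _) (hZW hc)) hc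
      rw [hg.map_mul (Subgroup.inv_mem _ hz') (Subgroup.mul_mem _ (Subgroup.mul_mem _ hx' hz')
        (Subgroup.inv_mem _ hx')), hg.map_conj hx' hz', hg.map_inv hz', e x hx] at h1
      have h2 := hcomm _ hu _ (S.mul_mem (S.mul_mem (S.inv_mem (hWS hz)) (hf.mem hx)) (hWS hz))
      rw [Subgroup.mem_centralizer_singleton_iff]
      have h4 : f x * z * (f x)⁻¹ = x * z * x⁻¹ := by
        apply mul_left_cancel (a := z⁻¹)
        rw [← h1]
        calc z⁻¹ * (f x * z * (f x)⁻¹)
            = (z⁻¹ * g z)⁻¹ * ((z⁻¹ * g z) * (z⁻¹ * f x * z)) * (f x)⁻¹ := by group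
          _ = (g z)⁻¹ * (f x * g z * (f x)⁻¹) := by rw [← h2]; group
      calc x⁻¹ * f x * z = x⁻¹ * (f x * z * (f x)⁻¹) * f x := by group
        _ = z * (x⁻¹ * f x) := by rw [h4]; group
    have h2 := this (H93.hyp_le_focal F p (hperf.symm ▸ hs))
    exact Subgroup.mem_centralizer_singleton_iff.1 h2
  have hAS : autInducedBy S W = ⊥ := by
    rw [eq_bot_iff]
    intro α hα
    obtain ⟨g, hg, e⟩ := mem_autInducedBy_iff'.1 hα
    exact Subgroup.mem_bot.2 (mulAut_ext_efn fun x hx => by
      rw [e x hx, efn_one hx, hWZ x hx g hg.1, mul_inv_cancel_right])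
  have hnd := (sat_sylIn hS hF (fullyNormalized_of_stronglyClosed hWs)).not_dvd
  rw [hAS, Subgroup.relIndex_bot_left] at hnd
  have hWle : W ≤ F.center := fun z hz => by
    refine (mem_center_iff hS hF).2 ⟨hWS hz, fun P f hf hzP => ?_⟩
    obtain ⟨α, hα, e⟩ := normal_extend_aut hWn (Subgroup.zpowers_le.2 hz)
      (hf.restrict (Subgroup.zpowers_le.2 hzP))
    have hα' := (mem_autGroup_iff hWS).1 hα
    rw [← e z (Subgroup.mem_zpowers z)]
    refine fix_of_chain (isPGroup_of_le hS hWS) (hp.coprime_iff_not_dvd.2 fun hd =>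
      hnd (hd.trans (Subgroup.orderOf_dvd_natCard _ hα))).symm
      (fun i => match i with | 0 => F.center | _ => W) 1
      (fun x hx hxZ => hα'.fix_of_central hZ hx hxZ) (fun i hi x hx _ => ?_) z hz hz
    interval_cases i
    exact step0 W _ hα' x hx hx
  rw [eq_bot_iff, ← h.im_pre (center_le E)]
  refine im_le_iff.2 fun x hx => ?_
  have := hWle hx
  rw [← hK] at this
  exact (H93.mem_pre.1 this).2

end Cfsg.Agent.S5315
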