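import Cfsg.Statements.S5321
import Cfsg.Agent.H57.J2Fus

set_option autoImplicit false
open Cfsg

namespace Cfsg.Agent.S5321

/-- For a finite group G isomorphic to the Hall–Janko group J₂ (as constructed in the problem's definitions), the 2-fusion system of G on a Sylow 2-subgroup is simple: saturated, over a nontrivial 2-group, with no normal subsystem other than the trivial one and itself. -/
theorem result {G : Type*} [Group G] [Finite G] (hG : Cfsg.Spor.IsoJ2 G) (S : Sylow 2 G) : (Cfsg.groupFusionSystem (S : Subgroup G)).IsSimple 2 := by
  obtain ⟨e⟩ := hG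
  let f := (e.trans H57.J2.equivK).symm
  obtain ⟨U⟩ : Nonempty (Sylow 2 H57.J2.K) := inferInstance
  exact H62.simple_of_quot f.toMonoidHom f.surjective U
    (by rw [(MonoidHom.ker_eq_bot_iff _).2 f.injective, inf_bot_eq]) (H57.J2.simple_fusion_K U) S

end Cfsg.Agent.S5321
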