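import Cfsg.Statements.S5329
import Cfsg.Agent.H94.Transfer
import Cfsg.Agent.H93.Closed

set_option autoImplicit false
open Cfsg

namespace Cfsg.Agent.S5329

open Cfsg.Agent.H91 Cfsg.Agent.H93 Cfsg.Agent.H94

/-- For a saturated fusion system F over a finite p-group S, the focal subgroup and the derived subgroup of S meet the centre Z(F) of the system in the same subgroup: foc(F) ∩ Z(F) = S′ ∩ Z(F). -/
theorem result {Ω : Type*} [Group Ω] {S : Subgroup Ω} [Finite S] (p : ℕ) [Fact p.Prime] (hS : IsPGroup p S) (F : Cfsg.FusionSystem S) (hF : F.IsSaturated p) : F.focalSubgroup ⊓ F.center = ⁅(S : Subgroup Ω), (S : Subgroup Ω)⁆ ⊓ F.center := by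
  have hp : p.Prime := Fact.out
  apply le_antisymm
  · intro z hz
    refine ⟨?_, hz.2⟩
    show z ∈ ⁅S, S⁆
    obtain ⟨m, τ, hm, hinv, hev⟩ := exists_transfer hS hF (Abelianization.of : S →* _)
    have hfoc : F.focalSubgroup ≤ τ.ker.map S.subtype := by
      refine (Subgroup.closure_le _).2 ?_
      rintro _ ⟨P, φ, x, hφ, rfl⟩
      have hM := M.of_mem hφ
      refine ⟨(⟨x, hM.le x.2⟩ : S)⁻¹ * ⟨φ x, (F.le_of_mem hφ).2 x⟩, ?_, rfl⟩
      show τ _ = 1
      rw [map_mul, map_inv, hinv P _ hM ⟨x, hM.le x.2⟩ ⟨φ x, (F.le_of_mem hφ).2 x⟩ x.2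
        (fn_coe φ x).symm, inv_mul_cancel]
    obtain ⟨a, ha, rfl⟩ := hfoc hz.1
    obtain ⟨ι, _, k, t, h1, h2, h3⟩ := hev a
    have ht : ∀ i, t i = a ^ k i := fun i => by
      obtain ⟨f, hf, e⟩ := isConjElt_iff.1 (h2 i)
      apply Subtype.ext
      rw [← e, central_fix (center_central F) hf (Subgroup.mem_zpowers _)
        (F.center.pow_mem hz.2 _)]
      rfl
    have h4 : Abelianization.of a ^ m = 1 := by
      have : τ a = 1 := ha
      rw [← this, h3, ← h1, ← Finset.prod_pow_eq_pow_sum]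
      exact Finset.prod_congr rfl fun i _ => by rw [ht, map_pow]
    obtain ⟨n, hn⟩ := hS a
    have h5 : Abelianization.of a ^ p ^ n = 1 := by rw [← map_pow, hn, map_one]
    have h6 : Abelianization.of a = 1 := by
      have hc : Nat.Coprime m (p ^ n) :=
        Nat.Coprime.pow_right _ ((hp.coprime_iff_not_dvd.2 hm).symm)
      have := pow_gcd_eq_one.2 ⟨h4, h5⟩
      rwa [hc, pow_one] at this
    have h7 : a ∈ commutator S := by rwa [← Abelianization.ker_of]
    have h8 : (commutator S).map S.subtype = ⁅S, S⁆ := by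
      rw [commutator_def, Subgroup.map_commutator, ← MonoidHom.range_eq_map, Subgroup.range_subtype]
    rw [← h8]
    exact ⟨a, h7, rfl⟩
  · refine inf_le_inf_right _ ?_
    rw [Subgroup.commutator_le]
    intro a ha b hb
    refine Subgroup.subset_closure ⟨S, conjHom S b, ⟨a⁻¹, S.inv_mem ha⟩, F.conj_mem le_rfl hb, ?_⟩
    show _ = a⁻¹⁻¹ * (b * a⁻¹ * b⁻¹)
    rw [commutatorElement_def]; group

end Cfsg.Agent.S5329
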