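import Cfsg.Statements.S5330
import Cfsg.Agent.H94.Abelian
import Cfsg.Agent.S5329
import Cfsg.Agent.H93.AutAct
import Cfsg.Agent.H93.HypFactor

set_option autoImplicit false
open Cfsg

namespace Cfsg.Agent.S5330

open Cfsg.Agent.H91 Cfsg.Agent.H94 in
/-- Let F be a saturated fusion system over a finite abelian p-group S. Then S is the internal direct product of the centre of the system and the focal subgroup: Z(F) ∩ foc(F) = 1 and Z(F)·foc(F) = S. -/
theorem result {Ω : Type*} [Group Ω] {S : Subgroup Ω} [Finite S] (p : ℕ) [Fact p.Prime] (hS : IsPGroup p S) (F : Cfsg.FusionSystem S) (hF : F.IsSaturated p) (hab : ∀ x ∈ S, ∀ y ∈ S, x * y = y * x) : F.center ⊓ F.focalSubgroup = ⊥ ∧ F.center ⊔ F.focalSubgroup = S := by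
  constructor
  · rw [inf_comm, S5329.result p hS F hF, eq_bot_iff]
    refine inf_le_left.trans (Subgroup.commutator_le.2 fun x hx y hy => ?_)
    rw [Subgroup.mem_bot, commutatorElement_eq_one_iff_mul_comm]; exact hab x hx y hy
  · refine le_antisymm (sup_le (center_le F) (H93.focal_le F)) fun k hk => ?_
    have hp : p.Prime := Fact.out
    have hN : IsPGroup p (F.focalSubgroup.subgroupOf S) := hS.to_subgroup _
    obtain ⟨n, hn, e⟩ := H93.aut_coset_fixed (F.autGroup S) (F.focalSubgroup.subgroupOf S)
      (fun a ha n hn => by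
        have := F.focalSubgroup.mul_mem (Subgroup.mem_subgroupOf.1 hn)
          (H93.mem_focal ((mem_autGroup_iff le_rfl).1 ha) n.2)
        rw [mul_inv_cancel_left, efn_coe] at this
        exact this)
      (by
        obtain ⟨m, hm⟩ := IsPGroup.iff_card.1 hN
        rw [hm]
        exact Nat.Coprime.pow_right _
          (hp.coprime_iff_not_dvd.2 (ab_not_dvd_card_autGroup hS hF hab)).symm)
      (Or.inr (by haveI := hN.isNilpotent; infer_instance)) ⟨k, hk⟩
      (fun a ha => by
        have := H93.mem_focal ((mem_autGroup_iff le_rfl).1 ha) hk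
        rw [efn_of_mem a hk] at this
        exact this)
    have h1 : k * n ∈ F.center := (ab_mem_center_iff hS hF hab).2 ⟨S.mul_mem hk n.2, fun a ha => by
      rw [efn_of_mem a (S.mul_mem hk n.2)]
      exact congrArg Subtype.val (e a ha)⟩
    have := Subgroup.mul_mem_sup h1 (F.focalSubgroup.inv_mem (Subgroup.mem_subgroupOf.1 hn))
    rwa [mul_inv_cancel_right] at this

end Cfsg.Agent.S5330
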