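import Cfsg.Statements.S5331
import Cfsg.Agent.H94.Abelian

set_option autoImplicit false
open Cfsg

namespace Cfsg.Agent.S5331

theorem zmod_two_torsion {a : ℕ} (ha : 1 ≤ a) {u : ZMod (2 ^ a)} (h : 2 • u = 0) :
    u = 0 ∨ u = 2 ^ (a - 1) := by
  obtain ⟨b, rfl⟩ : ∃ b, a = b + 1 := ⟨a - 1, by omega⟩
  have h1 : ((2 * u.val : ℕ) : ZMod (2 ^ (b + 1))) = 0 := by
    push_cast; rw [ZMod.natCast_zmod_val]; simpa [two_nsmul, two_mul] using h
  rw [ZMod.natCast_eq_zero_iff] at h1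
  have h1' : 2 * 2 ^ b ∣ 2 * u.val := by rwa [← pow_succ']
  obtain ⟨c, hc⟩ := Nat.dvd_of_mul_dvd_mul_left (by norm_num) h1'
  have hlt : 2 ^ b * c < 2 ^ b * 2 := by rw [← hc, ← pow_succ]; exact ZMod.val_lt u
  rw [Nat.mul_lt_mul_left (by positivity)] at hlt
  rw [← ZMod.natCast_zmod_val u, hc]
  interval_cases c
  · left; simp
  · right; simp

theorem zmod_step {a k : ℕ} (ha : 1 ≤ a) {u : ZMod (2 ^ a)} (h : 2 • u = 0)
    (h1 : ∃ y, u = 2 ^ k • y) (h2 : ¬ ∃ y, u = 2 ^ (k + 1) • y) : a = k + 1 ∧ u = 2 ^ (a - 1) := by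
  rcases zmod_two_torsion ha h with rfl | hu
  · exact absurd ⟨0, by simp⟩ h2
  refine ⟨?_, hu⟩
  by_contra hne
  rcases lt_or_gt_of_ne hne with hlt | hlt
  · obtain ⟨y, hy⟩ := h1
    apply h2
    refine ⟨0, ?_⟩
    obtain ⟨c, rfl⟩ : ∃ c, k = a + c := ⟨k - a, by omega⟩
    have : ((2 ^ a : ℕ) : ZMod (2 ^ a)) = 0 := ZMod.natCast_self _
    rw [hy, nsmul_eq_mul, Nat.cast_pow, pow_add, ← Nat.cast_pow, this]
    simp
  · apply h2
    obtain ⟨c, rfl⟩ : ∃ c, a = k + 1 + c + 1 := ⟨a - (k + 2), by omega⟩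
    refine ⟨2 ^ c, ?_⟩
    rw [hu, nsmul_eq_mul]
    simp [pow_add]

theorem pi_step {n : ℕ} {a : Fin n → ℕ} (ha : StrictMono a) (ha1 : ∀ i, 1 ≤ a i) {k : ℕ}
    {x x' : (i : Fin n) → ZMod (2 ^ a i)} (h : 2 • x = 0) (h' : 2 • x' = 0)
    (h1 : ∃ y, x = 2 ^ k • y) (h1' : ∃ y, x' = 2 ^ k • y)
    (h2 : ¬ ∃ y, x = 2 ^ (k + 1) • y) (h2' : ¬ ∃ y, x' = 2 ^ (k + 1) • y) :
    ∃ y, -x + x' = 2 ^ (k + 1) • y := by
  have key : ∀ x : (i : Fin n) → ZMod (2 ^ a i), (∀ i, ∃ y, x i = 2 ^ (k + 1) • y) →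
      ∃ y, x = 2 ^ (k + 1) • y := fun x h => by
    choose y hy using h
    exact ⟨y, funext hy⟩
  have key2 : ∀ x : (i : Fin n) → ZMod (2 ^ a i), 2 • x = 0 → (∃ y, x = 2 ^ k • y) →
      ∀ i, (¬ ∃ y, x i = 2 ^ (k + 1) • y) → a i = k + 1 ∧ x i = 2 ^ (a i - 1) :=
    fun x h ⟨y, hy⟩ i hi => zmod_step (ha1 i) (congrFun h i) ⟨y i, congrFun hy i⟩ hi
  obtain ⟨i, hi⟩ := not_forall.1 fun hh => h2 (key x hh)
  obtain ⟨j, hj⟩ := not_forall.1 fun hh => h2' (key x' hh)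
  have hi2 := key2 x h h1 i hi
  have hj2 := key2 x' h' h1' j hj
  obtain rfl : i = j := ha.injective (hi2.1.trans hj2.1.symm)
  refine key _ fun l => ?_
  by_cases hl : l = i
  · subst hl
    exact ⟨0, by simp [hi2.2, hj2.2]⟩
  · have e1 : ∃ y, x l = 2 ^ (k + 1) • y := by
      by_contra hh
      exact hl (ha.injective ((key2 x h h1 l hh).1.trans hi2.1.symm))
    have e2 : ∃ y, x' l = 2 ^ (k + 1) • y := by
      by_contra hh
      exact hl (ha.injective ((key2 x' h' h1' l hh).1.trans hi2.1.symm))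
    obtain ⟨y, hy⟩ := e1
    obtain ⟨y', hy'⟩ := e2
    exact ⟨-y + y', by simp [hy, hy']⟩

theorem aut_eq_one {n : ℕ} {a : Fin n → ℕ} (ha : StrictMono a) (ha1 : ∀ i, 1 ≤ a i)
    (α : ((i : Fin n) → ZMod (2 ^ a i)) ≃+ ((i : Fin n) → ZMod (2 ^ a i))) (m : ℕ) (hm : Odd m)
    (hα : ∀ x, α^[m] x = x) (x : (i : Fin n) → ZMod (2 ^ a i)) : α x = x := by
  -- an element moved by a fixed element is fixed
  have fix : ∀ x, α (-x + α x) = -x + α x → α x = x := fun x hx => by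
    have h1 : ∀ j : ℕ, α^[j] x = x + j • (-x + α x) := fun j => by
      induction j with
      | zero => simp
      | succ j ih =>
        rw [Function.iterate_succ_apply', ih, map_add, map_nsmul, hx, succ_nsmul]; abel
    have h2 : m • (-x + α x) = 0 := by
      have := h1 m
      rw [hα] at this
      exact left_eq_add.1 this
    obtain ⟨N, hN⟩ : ∃ N : ℕ, ∀ i, a i ≤ N := ⟨Finset.univ.sup a, fun i => Finset.le_sup (f := a) (Finset.mem_univ i)⟩
    have h3 : 2 ^ N • (-x + α x) = 0 := funext fun i => by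
      obtain ⟨c, hc⟩ := Nat.exists_eq_add_of_le (hN i)
      have : ((2 ^ a i : ℕ) : ZMod (2 ^ a i)) = 0 := ZMod.natCast_self _
      rw [Pi.smul_apply, nsmul_eq_mul, hc, pow_add, Nat.cast_mul, this]
      simp
    have h4 := gcd_nsmul_eq_zero.2 ⟨h2, h3⟩
    rw [Nat.Coprime.gcd_eq_one (Nat.Coprime.pow_right _ hm.coprime_two_right), one_nsmul] at h4
    exact (neg_add_eq_zero.1 h4).symm
  obtain ⟨N, hN⟩ : ∃ N : ℕ, ∀ i, a i ≤ N := ⟨Finset.univ.sup a, fun i => Finset.le_sup (f := a) (Finset.mem_univ i)⟩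
  have hN0 : ∀ y : (i : Fin n) → ZMod (2 ^ a i), 2 ^ N • y = 0 := fun y => funext fun i => by
    obtain ⟨c, hc⟩ := Nat.exists_eq_add_of_le (hN i)
    have : ((2 ^ a i : ℕ) : ZMod (2 ^ a i)) = 0 := ZMod.natCast_self _
    rw [Pi.smul_apply, nsmul_eq_mul, hc, pow_add, Nat.cast_mul, this]
    simp
  have om1 : ∀ j k, k + j = N → ∀ x, 2 • x = 0 → (∃ y, x = 2 ^ k • y) → α x = x := by
    intro j
    induction j with
    | zero =>
      rintro k rfl x - ⟨y, rfl⟩
      rw [show (2 : ℕ) ^ k • y = 0 from hN0 y, map_zero]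
    | succ j ih =>
      rintro k hk x h2 h1
      have ih' := ih (k + 1) (by omega)
      by_cases h : ∃ y, x = 2 ^ (k + 1) • y
      · exact ih' x h2 h
      have h2' : 2 • α x = 0 := by rw [← map_nsmul, h2, map_zero]
      refine fix x (ih' _ (by rw [nsmul_add, neg_nsmul, h2, h2']; simp)
        (pi_step ha ha1 h2 h2' h1 ?_ h ?_))
      · obtain ⟨y, rfl⟩ := h1
        exact ⟨α y, map_nsmul _ _ _⟩
      · rintro ⟨y, hy⟩
        exact h ⟨α.symm y, by rw [← map_nsmul, ← hy, AddEquiv.symm_apply_apply]⟩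
  have om : ∀ j x, 2 ^ j • x = 0 → α x = x := by
    intro j
    induction j with
    | zero => intro x hx; rw [pow_zero, one_nsmul] at hx; rw [hx, map_zero]
    | succ j ih =>
      intro x hx
      refine fix x (ih _ ?_)
      have := om1 N 0 (zero_add N) (2 ^ j • x) (by rw [← mul_nsmul', ← pow_succ', hx]) ⟨_, (one_nsmul _).symm⟩
      rw [nsmul_add, ← map_nsmul, this, neg_nsmul, neg_add_cancel]
  exact om N x (hN0 x)

open Cfsg.Agent.H91 Cfsg.Agent.H94 in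
/-- Let S be a finite abelian 2-group that is a direct product of cyclic groups of pairwise distinct orders 2^{a_1} < 2^{a_2} < ⋯ < 2^{a_n} (all a_i ≥ 1). Then every saturated fusion system over S is the inner one: its maps are exactly the conjugations by elements of S. -/
theorem result {Ω : Type*} [Group Ω] {S : Subgroup Ω} [Finite S] (n : ℕ) (a : Fin n → ℕ) (ha : StrictMono a) (ha1 : ∀ i, 1 ≤ a i) (e : ↥S ≃* Multiplicative ((i : Fin n) → ZMod (2 ^ a i))) (F : Cfsg.FusionSystem S) (hF : F.IsSaturated 2) (P : Subgroup Ω) : F.Hom P = (Cfsg.innerFusionSystem S).Hom P := by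
  have hab : ∀ x ∈ S, ∀ y ∈ S, x * y = y * x := fun x hx y hy =>
    congrArg Subtype.val (e.injective (by rw [map_mul, map_mul, mul_comm]) :
      (⟨x, hx⟩ * ⟨y, hy⟩ : S) = ⟨y, hy⟩ * ⟨x, hx⟩)
  have hS : IsPGroup 2 S := by
    refine IsPGroup.of_card (n := ∑ i, a i) ?_
    rw [Nat.card_congr (e.toEquiv.trans Multiplicative.toAdd), Nat.card_pi,
      ← Finset.prod_pow_eq_pow_sum]
    simp
  refine ab_eq_inner hS hF hab (fun α hα => ?_) P
  have hc := ab_coprime_orderOf hS hF hab hα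
  let β : ((i : Fin n) → ZMod (2 ^ a i)) ≃+ ((i : Fin n) → ZMod (2 ^ a i)) :=
    AddEquiv.toMultiplicative.symm (MulAut.congr e α)
  have hβ : ∀ (k : ℕ) x, β^[k] x = Multiplicative.toAdd (e ((α ^ k) (e.symm (Multiplicative.ofAdd x)))) := by
    intro k x
    induction k with
    | zero => simp
    | succ k ih =>
      rw [Function.iterate_succ_apply', ih, pow_succ']
      simp [β]
  have key := aut_eq_one ha ha1 β (orderOf α) (Nat.coprime_two_right.1 hc) fun x => by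
    rw [hβ, pow_orderOf_eq_one]; simp
  ext x
  have := key (Multiplicative.toAdd (e x))
  have h1 := hβ 1 (Multiplicative.toAdd (e x))
  rw [Function.iterate_one, this] at h1
  simp only [pow_one, ofAdd_toAdd, MulEquiv.symm_apply_apply, EmbeddingLike.apply_eq_iff_eq] at h1
  rw [← h1]; rfl

end Cfsg.Agent.S5331
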