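import Cfsg.Statements.S5351
import Cfsg.Agent.H95.Layer

set_option autoImplicit false
open Cfsg

namespace Cfsg.Agent.S5351

/-- Let D be a conjugacy class of 3-transpositions generating the finite group G, with at least two members. Then for every prime p > 3 the largest normal p-subgroup of G is central, and exactly one of the following holds: the largest normal 2-subgroup of G is not central; the largest normal 3-subgroup of G is not central; the layer of G (the product of its components) is non-trivial. -/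
theorem result {G : Type*} [Group G] [Finite G] {D : Set G} (hD : Cfsg.IsThreeTranspositionClass D) (hD2 : ∃ a ∈ D, ∃ b ∈ D, a ≠ b) : (∀ p : ℕ, p.Prime → 3 < p → Cfsg.pCore p G ≤ Subgroup.center G) ∧ ((¬ Cfsg.pCore 2 G ≤ Subgroup.center G ∧ Cfsg.pCore 3 G ≤ Subgroup.center G ∧ Cfsg.layer G = ⊥) ∨ (Cfsg.pCore 2 G ≤ Subgroup.center G ∧ ¬ Cfsg.pCore 3 G ≤ Subgroup.center G ∧ Cfsg.layer G = ⊥) ∨ (Cfsg.pCore 2 G ≤ Subgroup.center G ∧ Cfsg.pCore 3 G ≤ Subgroup.center G ∧ Cfsg.layer G ≠ ⊥)) := by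
  refine ⟨fun p hp h3 => H95.pCore_le_center_of_three_lt (H95.group_of_class hD) hp h3, ?_⟩
  have hc := (H95.group_of_class hD).2.1
  by_cases h2 : Cfsg.pCore 2 G ≤ Subgroup.center G
  · by_cases h3 : Cfsg.pCore 3 G ≤ Subgroup.center G
    · exact Or.inr (Or.inr ⟨h2, h3, H95.layer_ne_bot hD hD2 h2 h3⟩)
    · exact Or.inr (Or.inl ⟨h2, h3, H95.layer_eq_bot_of_three hD h3⟩)
  · refine Or.inl ⟨h2, ?_, H95.layer_eq_bot_of_two hD hD2 h2⟩
    rw [H95.pCore_two_le_center_iff hD hD2] at h2
    push Not at h2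
    obtain ⟨a, ha, b, hb, hab, hne⟩ := h2
    rw [H95.pCore_three_le_center_iff hD]
    intro d hd w hw hdw
    obtain ⟨g, rfl⟩ := H95.exists_conj_of_class hD ha hd
    have h1 := hab.conj hc g
    have hb' := hc g b hb
    have h3 := ((hdw _ hb').1 ⟨fun h => hne ((H95.cj_inj g).1 h).symm, h1.commute hb'⟩).2
    exact hdw.eq_of_commute hw ((h1 w hw).2 h3.symm)

end Cfsg.Agent.S5351
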