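import Cfsg.Statements.S5352
import Cfsg.Agent.H95.Layer

set_option autoImplicit false
open Cfsg

namespace Cfsg.Agent.S5352

/-- Let D be a conjugacy class of 3-transpositions generating the finite group G, with at least two members, and suppose the largest normal 2-subgroup and the largest normal 3-subgroup of G are both central. Then G has a quasisimple normal subgroup L such that the generalized Fitting subgroup of G is the product of L and the centre; and either L = G or the image of D in G/L has width 1, in the sense that two members of D whose commutator lies in L have the same image modulo L. -/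
theorem result {G : Type*} [Group G] [Finite G] {D : Set G} (hD : Cfsg.IsThreeTranspositionClass D) (hD2 : ∃ a ∈ D, ∃ b ∈ D, a ≠ b) (h2 : Cfsg.pCore 2 G ≤ Subgroup.center G) (h3 : Cfsg.pCore 3 G ≤ Subgroup.center G) : ∃ L : Subgroup G, L.Normal ∧ Cfsg.IsQuasisimple L ∧ Cfsg.generalizedFittingSubgroup G = L ⊔ Subgroup.center G ∧ (L = ⊤ ∨ ∀ a ∈ D, ∀ b ∈ D, a * b * a⁻¹ * b⁻¹ ∈ L → a⁻¹ * b ∈ L) := by
  have hI := (H95.irred_iff hD hD2).2 ⟨h2, h3⟩
  obtain ⟨h4, -, h5⟩ := hI.KK_qs hD hD2
  refine ⟨H95.KK D, H95.KK_normal hD, H44.qs_iff.1 h4, h5, Or.inr fun a ha b hb h => ?_⟩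
  rw [H95.TT.inv_eq hD.1 ha] at h ⊢
  rw [H95.TT.inv_eq hD.1 hb] at h
  by_cases hab : Commute a b
  · exact H95.mul_mem_KK ha hb (H95.CConn.single hb hab)
  · have h6 := H95.TT.cube hD.1 ha hb hab
    have h7 : a * b = (a * b * a * b)⁻¹ := by
      rw [eq_inv_iff_mul_eq_one, ← h6]
      simp only [pow_succ, pow_zero, one_mul, mul_assoc]
    rw [h7]
    exact inv_mem h

end Cfsg.Agent.S5352
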