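import Cfsg.Statements.S5354
import Cfsg.Agent.H95.Layer

set_option autoImplicit false
open Cfsg

namespace Cfsg.Agent.S5354

/-- Let D be a conjugation-invariant generating set of 3-transpositions of the finite group G on which G acts primitively by conjugation, and suppose two different members of D commute (width at least 2). Then G has a quasisimple normal subgroup L of index at most 2 with the generalized Fitting subgroup of G equal to L times the centre, the commuting graph of D is connected, and for d in D the subgroup generated by the members of D commuting with d is a maximal D-subgroup: it is proper, and every subgroup generated by members of D that contains it is either it or G. -/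
theorem result {G : Type*} [Group G] [Finite G] {D : Set G} (hD : Cfsg.IsThreeTranspositionGroup D) (hprim : Cfsg.IsPrimitiveUnderConj D) (hw : ∃ a ∈ D, ∃ b ∈ D, a ≠ b ∧ Commute a b) : (∃ L : Subgroup G, L.Normal ∧ Cfsg.IsQuasisimple L ∧ L.index ≤ 2 ∧ Cfsg.generalizedFittingSubgroup G = L ⊔ Subgroup.center G) ∧ (Cfsg.commutingGraph D).Connected ∧ ∀ d ∈ D, Subgroup.closure {y : G | y ∈ D ∧ Commute d y} ≠ ⊤ ∧ ∀ H : Subgroup G, Cfsg.IsDSubgroup D H → Subgroup.closure {y : G | y ∈ D ∧ Commute d y} ≤ H → H = Subgroup.closure {y : G | y ∈ D ∧ Commute d y} ∨ H = ⊤ := by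
  have hD' := H95.class_of_primitive hD hprim
  have hD2 := hprim.2.1
  obtain ⟨hI, hconn⟩ := H95.irred_of_primitive hD' hprim hw
  obtain ⟨h4, -, h5⟩ := hI.KK_qs hD' hD2
  obtain ⟨a, ha, -⟩ := id hD2
  refine ⟨⟨H95.KK D, H95.KK_normal hD', H44.qs_iff.1 h4, H95.index_le_two_of_cconn hD' hconn, h5⟩,
    (H95.connected_iff ⟨a, ha⟩).2 hconn, fun d hd => ⟨fun h => ?_, fun H hH hle => ?_⟩⟩
  · obtain ⟨c, hc, h1⟩ := H95.exists_not_commute hD' hD2 hd
    exact h1 (H95.commute_of_mem_closure_Perp (D := D) (h ▸ Subgroup.mem_top c)).symm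
  · by_cases h : ∀ x ∈ D, x ∈ H → Commute d x
    · left
      refine le_antisymm ?_ hle
      rw [← hH]
      exact Subgroup.closure_mono fun x hx => ⟨hx.1, h x hx.1 hx.2⟩
    · right
      push Not at h
      obtain ⟨x, hx, hxH, hdx⟩ := h
      rw [eq_top_iff, ← hD.2.2, Subgroup.closure_le]
      intro y hy
      by_cases hdy : Commute d y
      · exact hle (Subgroup.subset_closure ⟨hy, hdy⟩)
      · obtain ⟨g, hg, rfl⟩ := hI.exists_conj_Ad hD' hconn hd hx hy hdx hdy
        exact H95.cj_mem (hle hg) hxH

end Cfsg.Agent.S5354
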