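import Cfsg.Statements.S5355
import Cfsg.Agent.H95.FS2

set_option autoImplicit false
open Cfsg

namespace Cfsg.Agent.S5355

/-- Let D be a conjugacy class of 3-transpositions generating the finite group G, with at least two members, and d a member of D. Suppose that every member of D commuting with d commutes with exactly the same members of D as d does, and that exactly one member of D other than d commutes with d. Then G is isomorphic to the symmetric group of degree 4. -/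
theorem result {G : Type*} [Group G] [Finite G] {D : Set G} (hD : Cfsg.IsThreeTranspositionClass D) (hD2 : ∃ a ∈ D, ∃ b ∈ D, a ≠ b) {d : G} (hd : d ∈ D) (hV : {y : G | y ∈ D ∧ Commute d y} = {v : G | v ∈ D ∧ ∀ e ∈ D, Commute v e ↔ Commute d e}) (hm : {y : G | y ∈ D ∧ Commute d y}.ncard = 2) : Nonempty (G ≃* Equiv.Perm (Fin 4)) := by
  open H95 Equiv in
  have hS : Sp D := ⟨hD.1, fun a _ b hb => conj_mem_of_class hD a hb⟩
  have hc := (group_of_class hD).2.1
  have hV' : ∀ x ∈ D, ∀ y ∈ D, Commute x y → VRel D x y := by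
    intro x hx y hy hxy
    obtain ⟨g, rfl⟩ := exists_conj_of_class hD hd hx
    have h1 : cj g⁻¹ y ∈ {y : G | y ∈ D ∧ Commute d y} :=
      ⟨hc _ _ hy, (commute_cj_left g).1 hxy⟩
    rw [hV] at h1
    have := (VRel.symm h1.2).conj hc g
    rwa [← cj_def g (cj _ _), cj_cj_inv] at this
  have h1 : (Dd D d).ncard = 1 := by
    have : {y : G | y ∈ D ∧ Commute d y} = insert d (Dd D d) := by
      ext y
      by_cases h : y = d
      · simp [h, hd]
      · simp [h, Dd]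
    rw [this, Set.ncard_insert_of_notMem (fun h => h.2.1 rfl)] at hm
    omega
  have hU : ∀ x ∈ D, ∀ y ∈ Dd D x, ∀ z ∈ Dd D x, y = z := fun x hx y hy z hz =>
    (Set.ncard_le_one_iff (Set.toFinite _)).1 ((ncard_Dd hD hx hd).trans h1).le hy hz
  obtain ⟨d', hd'⟩ := Set.nonempty_of_ncard_ne_zero (s := Dd D d) (by omega)
  obtain ⟨c, hcD, hdc⟩ := exists_not_commute hD hD2 hd
  have hd'c : ¬ Commute d' c := fun h => hdc ((hV' d hd d' hd'.1 hd'.2.2 c hcD).2 h)
  obtain ⟨φ, e1, e2, e3⟩ := exists_hom_perm4 (hS.sq hd) (hS.sq hcD) (hS.sq hd'.1)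
    (TT.braid hD.1 hd hcD hdc) (TT.braid hD.1 hcD hd'.1 (ncs hd'c)) hd'.2.2
  have hinj := perm4_injective φ (by rw [e1, e3]; exact hd'.2.1.symm)
  have key : ∀ a ∈ D, ∀ b ∈ Dd D a, ∀ x ∈ D, ¬ Commute a x → cj (a * b) x ∈ Dd D x := by
    intro a ha b hb x hx hax
    have hbx : ¬ Commute b x := fun h => hax ((hV' a ha b hb.1 hb.2.2 x hx).2 h)
    rw [cj_mul]
    exact ⟨hS.cl _ ha _ (hS.cl _ hb.1 _ hx), hS.s4ne ha hb.1 hx hax hbx hb.2.1.symm,
      hS.s4 ha hb.1 hx hax hbx hb.2.2⟩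
  have hc' : cj d (cj d' c) ∈ Dd D c := by rw [← cj_mul]; exact key d hd d' hd' c hcD hdc
  have hf' : cj d' c ∈ Dd D (cj d c) :=
    ⟨hS.cl _ hd'.1 _ hcD, fun h => hd'.2.1 (hS.canc hd'.1 hd hcD hd'c hdc h),
      (TT.commute_cj_cj_iff hD.1 hd hd'.1 hcD hdc hd'c).2 hd'.2.2⟩
  have hdr : d ∈ φ.range := ⟨_, e1⟩
  have hcr : c ∈ φ.range := ⟨_, e2⟩
  have hd'r : d' ∈ φ.range := ⟨_, e3⟩
  have hsub : D ⊆ φ.range := by
    intro x hx
    by_contra hn
    have h2 : ∀ a ∈ D, ∀ b ∈ Dd D a, a ∈ φ.range → b ∈ φ.range → ¬ Commute a x := by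
      intro a ha b hb h3 h4 h5
      by_cases h6 : x = a
      · exact hn (h6 ▸ h3)
      · exact hn (hU a ha b hb x ⟨hx, h6, h5⟩ ▸ h4)
    have k1 := key d hd d' hd' x hx (h2 d hd d' hd' hdr hd'r)
    have k2 := key c hcD _ hc' x hx (h2 c hcD _ hc' hcr (cj_mem hdr (cj_mem hd'r hcr)))
    have k3 := key _ (hS.cl _ hd _ hcD) _ hf' x hx
      (h2 _ (hS.cl _ hd _ hcD) _ hf' (cj_mem hdr hcr) (cj_mem hd'r hcr))
    rw [hS.klein hd hd'.1 hcD hd'.2.2 hdc hd'c, cj_mul, hU x hx _ k2 _ k1, cj_mul, cj_mul,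
      cj_comm hd'.2.2.symm, hS.cc hd, hS.cc hd'.1] at k3
    exact k3.2.1 rfl
  refine ⟨(MulEquiv.ofBijective φ ⟨hinj, ?_⟩).symm⟩
  rw [← MonoidHom.range_eq_top, eq_top_iff, ← hD.2.2, Subgroup.closure_le]
  exact hsub

end Cfsg.Agent.S5355
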