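import Cfsg.Statements.S5356
import Cfsg.Agent.H95.FS2

set_option autoImplicit false
open Cfsg

namespace Cfsg.Agent.S5356

open H95 Subgroup

universe u

theorem moufang_quot {G : Type*} [Group G] [Finite G] {D : Set G} (hD : IsThreeTranspositionClass D)
    (hV : ∀ a ∈ D, ∀ b ∈ D, Commute a b → VRel D a b) :
    IsMoufangSet (QuotientGroup.mk' (pCore 2 G) '' D) := by
  have hc := (group_of_class hD).2.1
  refine ⟨?_, ?_, ?_⟩
  · rintro _ ⟨a, ha, rfl⟩; rw [← map_mul, TT.mul_self hD.1 ha, map_one]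
  · rintro _ ⟨a, ha, rfl⟩ _ ⟨b, hb, rfl⟩
    exact ⟨_, conj_mem_self hD.1 hc ha hb, by simp⟩
  · rintro _ ⟨a, ha, rfl⟩ _ ⟨b, hb, rfl⟩
    rw [← map_mul]
    by_cases h : Commute a b
    · rw [QuotientGroup.mk'_apply, (QuotientGroup.eq_one_iff _).2
        (mem_pCore_two_of_vrel hD.1 hc ha hb (hV a ha b hb h)), one_pow]
    · rw [← map_pow, TT.cube hD.1 ha hb h, map_one]

theorem normal_prod {G : Type*} [Group G] {D : Set G} (hc : ∀ g : G, ∀ d ∈ D, g * d * g⁻¹ ∈ D) :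
    (closure (prodSet D)).Normal := by
  refine ⟨fun n hn g => ?_⟩
  have : (closure (prodSet D)).map (MulAut.conj g).toMonoidHom ≤ closure (prodSet D) := by
    rw [MonoidHom.map_closure]
    refine closure_mono ?_
    rintro _ ⟨_, ⟨a, ha, b, hb, rfl⟩, rfl⟩
    exact ⟨_, hc g a ha, _, hc g b hb, by simp [mul_assoc]⟩
  exact this ⟨n, hn, rfl⟩

theorem exists_z {G : Type*} [Group G] [Finite G] {D : Set G} (hD : IsThreeTranspositionClass D)
    (hV : ∀ a ∈ D, ∀ b ∈ D, Commute a b → VRel D a b) {d c : G} (hd : d ∈ D) (hcD : c ∈ D)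
    (hdc : ¬ Commute d c) : ∃ z : G, z ^ 3 = 1 ∧ z ∉ pCore 2 G ∧ (cj d z = z ∨ cj d z = z⁻¹) ∧
      (zpowers (QuotientGroup.mk' (pCore 2 G) z)).Normal := by
  have : Fact (Nat.Prime 3) := ⟨Nat.prime_three⟩
  have hc := (group_of_class hD).2.1
  set π := QuotientGroup.mk' (pCore 2 G)
  have hπ : ∀ x, π x = 1 ↔ x ∈ pCore 2 G := fun x => QuotientGroup.eq_one_iff x
  have hs : Function.Surjective π := QuotientGroup.mk'_surjective _
  have hM := moufang_quot hD hV
  have h3 := moufang_isPGroup _ _ hM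
  set N := closure (prodSet (π '' D))
  have hc' : ∀ g, ∀ x ∈ π '' D, g * x * g⁻¹ ∈ π '' D := by
    rintro g _ ⟨x, hx, rfl⟩
    obtain ⟨g, rfl⟩ := hs g
    exact ⟨_, hc g x hx, by simp⟩
  have hN : N.Normal := normal_prod hc'
  have hgen : closure (π '' D) = ⊤ := by
    rw [← MonoidHom.map_closure, hD.2.2, map_top_of_surjective _ hs]
  have hmem : ∀ a ∈ D, ∀ b ∈ D, π a * π b ∈ N := fun a ha b hb =>
    subset_closure ⟨_, ⟨a, ha, rfl⟩, _, ⟨b, hb, rfl⟩, rfl⟩
  have hnt : Nontrivial N := by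
    refine (nontrivial_iff_ne_bot _).2 fun h => hdc ?_
    have := hmem d hd c hcD
    rw [h, mem_bot, ← map_mul, hπ] at this
    exact (vrel_of_mul_mem hD.1 H44.pCore_isPGroup hd hcD this).commute hcD
  have hZ := h3.center_nontrivial
  obtain ⟨z0, hz0⟩ : ∃ z0 : center N, orderOf z0 = 3 := by
    obtain ⟨k, hk, h4⟩ := (h3.to_subgroup (center N)).nontrivial_iff_card.1 hZ
    exact exists_prime_orderOf_dvd_card' 3 (by rw [h4]; exact dvd_pow_self 3 hk.ne')
  obtain ⟨y, hy⟩ := hs (z0 : N)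
  have hyN : π y ∈ N := hy ▸ (z0 : N).2
  have hyc : ∀ n ∈ N, Commute (π y) n := fun n hn => by
    rw [hy]; exact (congrArg Subtype.val (mem_center_iff.1 z0.2 ⟨n, hn⟩)).symm
  have hyo : orderOf (π y) = 3 := by rw [hy, orderOf_coe, orderOf_coe, hz0]
  have hd2 : π d * π d = 1 := by rw [← map_mul, TT.mul_self hD.1 hd, map_one]
  have hnorm : ∀ t, (∀ n ∈ N, Commute t n) → (cj (π d) t = t ∨ cj (π d) t = t⁻¹) →
      (zpowers t).Normal := by
    intro t h1 h2
    refine zpowers_normal_of_inverted hgen ?_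
    rintro _ ⟨e, he, rfl⟩
    have : cj (π e) t = cj (π d) t := by
      rw [← mul_self_cancel_left hd2 (π e), cj_mul, cj_of_commute (h1 _ (hmem d hd e he)).symm]
    rwa [← cj_def, this]
  have hcn : ∀ g t, (∀ n ∈ N, Commute t n) → ∀ n ∈ N, Commute (cj g t) n := fun g t h n hn =>
    (commute_cj_left g).2 (h _ (hN.conj_mem n hn g⁻¹))
  by_cases hinv : cj (π d) (π y) = (π y)⁻¹
  · have e1 : π (d * cj y d) = π y := by
      have h4 : (π y)⁻¹ * (π y)⁻¹ = π y := by
        rw [← mul_inv_rev, inv_eq_iff_mul_eq_one, ← pow_two, ← pow_succ]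
        have := pow_orderOf_eq_one (π y)
        rwa [hyo] at this
      simp only [cj, inv_eq_of_mul_self hd2] at hinv
      simp only [map_mul, cj, map_inv]
      rw [← mul_assoc, ← mul_assoc, hinv, h4]
    have hne : d * cj y d ∉ pCore 2 G := by
      rw [← hπ, e1]; intro h; simp [h] at hyo
    have hnc : ¬ Commute d (cj y d) := fun h =>
      hne (mem_pCore_two_of_vrel hD.1 hc hd (hc y d hd) (hV _ hd _ (hc y d hd) h))
    refine ⟨d * cj y d, TT.cube hD.1 hd (hc y d hd) hnc, hne, Or.inr ?_, ?_⟩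
    · rw [mul_inv_rev, TT.inv_eq hD.1 hd, TT.inv_eq hD.1 (d := cj y d) (hc y d hd),
        TT.cj_eq hD.1 hd, ← mul_assoc, TT.mul_self hD.1 hd, one_mul]
    · rw [e1]; exact hnorm _ hyc (Or.inr hinv)
  · have hw : π y * cj (π d) (π y) ≠ 1 := fun h => hinv (eq_inv_of_mul_eq_one_right h)
    have hcom : Commute (π y) (cj (π d) (π y)) := hyc _ (hN.conj_mem _ hyN _)
    have hw3 : (π y * cj (π d) (π y)) ^ 3 = 1 := by
      rw [hcom.mul_pow, cj, conj_pow, ← hyo, pow_orderOf_eq_one]; simp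
    have hwd : cj (π d) (π y * cj (π d) (π y)) = π y * cj (π d) (π y) := by
      rw [cj_mul_cj, ← cj_mul, hd2, cj_one, hcom.eq]
    have hwc : ∀ n ∈ N, Commute (π y * cj (π d) (π y)) n := fun n hn =>
      (hyc n hn).mul_left (hcn _ _ hyc n hn)
    obtain ⟨w, hw'⟩ := hs (π y * cj (π d) (π y))
    rw [← hw'] at hw hw3 hwd hwc
    obtain ⟨k, hk⟩ := H44.pCore_isPGroup (p := 2) (G := G) ⟨w ^ 3, (hπ _).1 (by rwa [map_pow])⟩
    have hk' : (w ^ 2 ^ k) ^ 3 = 1 := by
      rw [← pow_mul, mul_comm, pow_mul]; exact congrArg Subtype.val hk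
    have hwo : orderOf (π w) = 3 := orderOf_eq_prime hw3 hw
    have hz1 : π (w ^ 2 ^ k) ≠ 1 := by
      rw [map_pow, Ne, ← orderOf_dvd_iff_pow_eq_one, hwo]
      exact fun h => absurd (Nat.prime_three.dvd_of_dvd_pow h) (by decide)
    have hz2 : Commute (π d) (π (w ^ 2 ^ k)) := by
      rw [map_pow]; exact (cj_eq_self_iff.1 hwd).pow_right _
    have hz3 : ∀ n ∈ N, Commute (π (w ^ 2 ^ k)) n := fun n hn => by
      rw [map_pow]; exact (hwc n hn).pow_left _
    generalize w ^ 2 ^ k = z at hk' hz1 hz2 hz3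
    let T : Set G := {v | ∃ q ∈ pCore 2 G, v = q * d * q⁻¹}
    have hTD : ∀ v ∈ T, v ∈ D := by rintro _ ⟨q, -, rfl⟩; exact hc q d hd
    have hT : ∀ v ∈ T, cj z v ∈ T := by
      rintro v hv
      refine exists_conj_pCore_two_of_vrel hD ⟨d, hd, c, hcD, ne_of_nc hdc⟩ hd
        (hc _ _ (hTD v hv)) (vrel_of_mul_mem hD.1 H44.pCore_isPGroup hd (hc _ _ (hTD v hv)) ?_)
      obtain ⟨q, hq, rfl⟩ := hv
      rw [← hπ, map_mul, map_cj]
      simp only [map_mul, map_inv, (hπ q).2 hq, one_mul, inv_one, mul_one]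
      rw [cj_of_commute hz2.symm, hd2]
    have hcard : ¬ 3 ∣ T.ncard := by
      intro h
      let _ := cjAction (pCore 2 G) T (by
        rintro u hu _ ⟨q, hq, rfl⟩
        exact ⟨u * q, mul_mem hu hq, by simp [cj, mul_assoc]⟩)
      have h5 : MulAction.orbit (pCore 2 G) (⟨d, 1, one_mem _, by simp⟩ : T) = Set.univ := by
        refine Set.eq_univ_of_forall ?_
        rintro ⟨_, q, hq, rfl⟩
        exact ⟨⟨q, hq⟩, rfl⟩
      obtain ⟨m, hm⟩ := (H44.pCore_isPGroup (p := 2) (G := G)).card_orbit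
        (⟨d, 1, one_mem _, by simp⟩ : T)
      rw [h5, Nat.card_univ] at hm
      rw [← Nat.card_coe_set_eq, hm] at h
      exact absurd (Nat.prime_three.dvd_of_dvd_pow h) (by decide)
    obtain ⟨_, ⟨q, hq, rfl⟩, h5⟩ := exists_fixed_of_pow (p := 3) hk' hT hcard
    have e1 : π (cj q⁻¹ z) = π z := by
      rw [map_cj, (hπ q⁻¹).2 (inv_mem hq), cj_one]
    refine ⟨cj q⁻¹ z, by rw [cj, conj_pow, hk']; simp, by rwa [← hπ, e1], Or.inl ?_, ?_⟩
    · exact cj_of_commute ((commute_cj_left q).1 (cj_eq_self_iff.1 h5).symm)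
    · rw [e1]; exact hnorm _ hz3 (Or.inl (cj_of_commute hz2))

theorem frattini {G : Type*} [Group G] [Finite G] {Q : Subgroup G} [Q.Normal] (hQ : IsPGroup 2 Q)
    {z : G} (hz : z ^ 3 = 1) (hn : (zpowers (QuotientGroup.mk' Q z)).Normal) :
    normalizer (zpowers z : Set G) ⊔ Q = ⊤ := by
  have : Fact (Nat.Prime 3) := ⟨Nat.prime_three⟩
  let Y := (zpowers (QuotientGroup.mk' Q z)).comap (QuotientGroup.mk' Q)
  have hzY : z ∈ Y := mem_zpowers _
  have hY : ∀ x ∈ Y, ∃ k : ℤ, (z ^ k)⁻¹ * x ∈ Q := by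
    rintro x ⟨k, hk⟩
    exact ⟨k, QuotientGroup.eq.1 (by simpa using hk)⟩
  obtain ⟨P, hP⟩ := (isPGroup_zpowers_of_pow (p := 3) (t := (⟨z, hzY⟩ : Y))
    (Subtype.ext hz)).exists_le_sylow
  have hzP : z ∈ (P : Subgroup Y).map Y.subtype := ⟨_, hP (mem_zpowers _), rfl⟩
  have h1 : (P : Subgroup Y).map Y.subtype = zpowers z := by
    refine le_antisymm (fun x hx => ?_) (zpowers_le_of_mem hzP)
    obtain ⟨k, hk⟩ := hY x (map_subtype_le _ hx)
    have h2 := disjoint_def.1 (IsPGroup.disjoint_of_ne 3 2 (by decide) _ _ (P.2.map Y.subtype) hQ)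
      (mul_mem (inv_mem (zpow_mem hzP k)) hx) hk
    exact ⟨k, inv_mul_eq_one.1 h2⟩
  have h2 := P.normalizer_sup_eq_top
  rw [h1] at h2
  rw [eq_top_iff, ← h2, sup_le_iff]
  refine ⟨le_sup_left, fun x hx => ?_⟩
  obtain ⟨k, hk⟩ := hY x hx
  rw [← mul_inv_cancel_left (z ^ k) x]
  exact mul_mem_sup (le_normalizer (zpow_mem (mem_zpowers z) k)) hk

theorem main (G : Type u) [Group G] [Finite G] : ∀ D : Set G, IsThreeTranspositionClass D →
    (∀ a ∈ D, ∀ b ∈ D, Commute a b → VRel D a b) → ∀ d ∈ D,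
      ∃ P : Sylow 3 G, d ∈ normalizer (P : Set G) := by
  refine H2.card_induction (P := fun G _ _ => ∀ D : Set G, IsThreeTranspositionClass D →
    (∀ a ∈ D, ∀ b ∈ D, Commute a b → VRel D a b) → ∀ d ∈ D,
      ∃ P : Sylow 3 G, d ∈ normalizer (P : Set G)) G ?_
  intro G _ _ ih D hD hV d hd
  have : Fact (Nat.Prime 3) := ⟨Nat.prime_three⟩
  have hc := (group_of_class hD).2.1
  by_cases h0 : ∃ c ∈ D, ¬ Commute d c
  swap
  · push Not at h0
    obtain ⟨P⟩ : Nonempty (Sylow 3 G) := inferInstance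
    exact ⟨P, center_le_normalizer _ (mem_center_of_commute hD.2.2 h0)⟩
  obtain ⟨c, hcD, hdc⟩ := h0
  obtain ⟨z, hz3, hzQ, hdz, hn⟩ := exists_z hD hV hd hcD hdc
  have hQ := H44.pCore_isPGroup (p := 2) (G := G)
  have hz1 : z ≠ 1 := fun h => hzQ (h ▸ one_mem _)
  have hZ3 := isPGroup_zpowers_of_pow hz3
  by_cases hN : (zpowers z).Normal
  · set π := QuotientGroup.mk' (zpowers z)
    have hs : Function.Surjective π := QuotientGroup.mk'_surjective _
    have hπ : ∀ x, π x = 1 ↔ x ∈ zpowers z := fun x => QuotientGroup.eq_one_iff x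
    have hG' : IsThreeTranspositionGroup (π '' D) := by
      refine ⟨TT.image hD.1 π fun e he h => ?_, ?_, ?_⟩
      · obtain ⟨k, hk⟩ := hZ3 ⟨e, (hπ e).1 h⟩
        have h1 := orderOf_dvd_of_pow_eq_one (show e ^ 3 ^ k = 1 from congrArg Subtype.val hk)
        rw [hD.1.1 e he] at h1
        exact absurd (Nat.prime_two.dvd_of_dvd_pow h1) (by decide)
      · rintro g _ ⟨x, hx, rfl⟩
        obtain ⟨g, rfl⟩ := hs g
        exact ⟨_, hc g x hx, by simp⟩
      · rw [← MonoidHom.map_closure, hD.2.2, map_top_of_surjective _ hs]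
    have hD' : IsThreeTranspositionClass (π '' D) := class_of_group hG' ⟨_, d, hd, rfl⟩ (by
      rintro _ ⟨a, ha, rfl⟩ _ ⟨b, hb, rfl⟩
      obtain ⟨g, rfl⟩ := exists_conj_of_class hD ha hb
      exact ⟨π g, by simp⟩)
    obtain ⟨P, hP⟩ := ih _ (H2.card_quotient_lt (zpowers z) (by simpa using hz1)) _ hD' (by
      rintro _ ⟨a, ha, rfl⟩ _ ⟨b, hb, rfl⟩ hab
      by_cases h : Commute a b
      · have := (inferInstance : (pCore 2 G).Normal).map π hs
        refine vrel_of_mul_mem hD'.1 (hQ.map π) ⟨a, ha, rfl⟩ ⟨b, hb, rfl⟩ ?_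
        rw [← map_mul]
        exact mem_map_of_mem π (mem_pCore_two_of_vrel hD.1 hc ha hb (hV a ha b hb h))
      · rw [TT.eq_of_commute_of_cube hD'.1 ⟨a, ha, rfl⟩ ⟨b, hb, rfl⟩ hab
          (by rw [← map_mul, ← map_pow, TT.cube hD.1 ha hb h, map_one])]
        exact VRel.refl _) _ ⟨d, hd, rfl⟩
    refine ⟨P.comapOfKerIsPGroup π (by rwa [QuotientGroup.ker_mk']) (by
      rw [MonoidHom.range_eq_top.2 hs]; exact le_top), ?_⟩
    exact le_normalizer_comap π hP
  · let K := normalizer (zpowers z : Set G)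
    have hdK : d ∈ K := by
      have h1 : ∀ x ∈ zpowers z, cj d x ∈ zpowers z := by
        rintro _ ⟨k, rfl⟩
        simp only [cj, ← conj_zpow]
        refine zpow_mem ?_ k
        rcases hdz with h | h <;> rw [← cj_def, h]
        exacts [mem_zpowers z, inv_mem (mem_zpowers z)]
      intro x
      exact ⟨h1 x, fun h => by simpa [TT.cj_cj_self hD.1 hd] using h1 _ (show cj d x ∈ _ from h)⟩
    have hKQ : ∀ e ∈ D, ∃ q ∈ pCore 2 G, ∃ e' ∈ D ∩ K, e = cj q e' := by
      intro e he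
      obtain ⟨g, rfl⟩ := exists_conj_of_class hD hd he
      have : g ∈ pCore 2 G ⊔ K := by rw [sup_comm, frattini hQ hz3 hn]; trivial
      obtain ⟨q, hq, n, hn, rfl⟩ := mem_sup_of_normal_left.1 this
      exact ⟨q, hq, cj n d, ⟨hc n d hd, cj_mem hn hdK⟩, cj_mul q n d⟩
    have hcl : ∀ a ∈ D ∩ K, ∀ b ∈ D ∩ K, cj a b ∈ D ∩ K :=
      fun a ha b hb => ⟨hc a b hb.1, cj_mem ha.2 hb.2⟩
    obtain ⟨q, hq, c', hc', rfl⟩ := hKQ c hcD
    have hdc' : ¬ Commute d c' := fun h => hdc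
      ((vrel_of_mul_mem hD.1 hQ hc'.1 hcD (mul_conj_mem hD.1 hc'.1 hq) d hd).1 h.symm).symm
    have hconn : ∀ a ∈ D ∩ K, Conn (D ∩ K) d a := fun a ha => by
      by_cases h : Commute d a
      · exact (Conn.single hc' hdc').tail ha fun h1 =>
          hdc' ((hV d hd a ha.1 h c' hc'.1).2 h1.symm)
      · exact Conn.single ha h
    have hD' := class_inCl hD.1 Set.inter_subset_left hcl ⟨d, show d ∈ D ∩ K from ⟨hd, hdK⟩⟩
      fun a ha b hb => ((hconn a ha).symm (show d ∈ D ∩ K from ⟨hd, hdK⟩)).trans (hconn b hb)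
    set H := closure (D ∩ K)
    have hH : H ≠ ⊤ := fun h => hN (normalizer_eq_top_iff.1 (top_unique
      (h ▸ (closure_le _).2 Set.inter_subset_right)))
    obtain ⟨P, hP⟩ := ih H (H2.card_lt_of_ne_top hH) _ hD' (fun a ha b hb hab =>
      vrel_inCl_iff.2 fun e he => hV a ha.1 b hb.1 (commute_coe_iff.2 hab) e he.1)
      ⟨d, mem_cl (S := D ∩ K) ⟨hd, hdK⟩⟩ (show d ∈ D ∩ K from ⟨hd, hdK⟩)
    have hHQ : H ⊔ pCore 2 G = ⊤ := by
      rw [eq_top_iff, ← hD.2.2, closure_le]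
      intro e he
      obtain ⟨q, hq, e', he', rfl⟩ := hKQ e he
      exact cj_mem (mem_sup_right hq) (mem_sup_left (mem_cl he'))
    have hidx : ¬ 3 ∣ H.index := by
      intro h
      have h1 := card_mul_index H
      have h2 := card_mul_index (pCore 2 G)
      have h3 : (pCore 2 G).index ∣ Nat.card H := by
        rw [← relIndex_top_right, ← hHQ, relIndex_sup_right]
        exact relIndex_dvd_card _ _
      obtain ⟨m, hm⟩ := h3
      obtain ⟨k, hk⟩ := IsPGroup.iff_card.1 hQ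
      rw [hm, ← h2, mul_comm (Nat.card _), mul_assoc] at h1
      have h4 := Nat.eq_of_mul_eq_mul_left (Nat.pos_of_ne_zero index_ne_zero_of_finite) h1
      have h5 : 3 ∣ 2 ^ k := by rw [← hk, ← h4]; exact h.mul_left _
      exact absurd (Nat.prime_three.dvd_of_dvd_pow h5) (by decide)
    refine ⟨(P.2.map H.subtype).toSylow ?_, le_normalizer_map H.subtype ⟨_, hP, rfl⟩⟩
    rw [index_map_subtype]
    exact fun h => (Nat.prime_three.dvd_mul.1 h).elim P.not_dvd_index hidx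

/-- Let D be a conjugacy class of 3-transpositions generating the finite group G, with at least two members, and d a member of D such that every member of D commuting with d commutes with exactly the same members of D as d. Then there is a Sylow 3-subgroup P of G normalized by d such that G is generated by d, P and the largest normal 2-subgroup of G. -/
theorem result {G : Type*} [Group G] [Finite G] {D : Set G} (hD : Cfsg.IsThreeTranspositionClass D) (hD2 : ∃ a ∈ D, ∃ b ∈ D, a ≠ b) {d : G} (hd : d ∈ D) (hV : {y : G | y ∈ D ∧ Commute d y} = {v : G | v ∈ D ∧ ∀ e ∈ D, Commute v e ↔ Commute d e}) : ∃ P : Sylow 3 G, d ∈ Subgroup.normalizer (P : Set G) ∧ Subgroup.zpowers d ⊔ (P : Subgroup G) ⊔ Cfsg.pCore 2 G = ⊤ := by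
  have : Fact (Nat.Prime 3) := ⟨Nat.prime_three⟩
  have hc := (group_of_class hD).2.1
  have hV' : ∀ x ∈ D, ∀ y ∈ D, Commute x y → VRel D x y := by
    intro x hx y hy hxy
    obtain ⟨g, rfl⟩ := exists_conj_of_class hD hd hx
    have h1 : cj g⁻¹ y ∈ {y : G | y ∈ D ∧ Commute d y} :=
      ⟨hc _ _ hy, (commute_cj_left g).1 hxy⟩
    rw [hV] at h1
    have := (VRel.symm h1.2).conj hc g
    rwa [← cj_def g (cj _ _), cj_cj_inv] at this
  obtain ⟨P, hP⟩ := main G D hD hV' d hd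
  refine ⟨P, hP, ?_⟩
  set π := QuotientGroup.mk' (pCore 2 G)
  have hs : Function.Surjective π := QuotientGroup.mk'_surjective _
  have hN : (closure (prodSet (π '' D))).Normal := normal_prod (by
    rintro g _ ⟨x, hx, rfl⟩
    obtain ⟨g, rfl⟩ := hs g
    exact ⟨_, hc g x hx, by simp⟩)
  have h1 := (moufang_isPGroup _ _ (moufang_quot hD hV')).le_sylow_of_normal (P.mapSurjective hs)
  rw [eq_top_iff, ← hD.2.2, closure_le]
  intro e he
  have h2 : π (d * e) ∈ (P : Subgroup G).map π :=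
    h1 (subset_closure ⟨_, ⟨d, hd, rfl⟩, _, ⟨e, he, rfl⟩, map_mul _ _ _⟩)
  rw [← mem_comap, comap_map_eq, QuotientGroup.ker_mk'] at h2
  rw [← TT.cancel hD.1 hd e, sup_assoc]
  exact mul_mem_sup (mem_zpowers d) h2

end Cfsg.Agent.S5356
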