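import Cfsg.Statements.S5361
import Cfsg.Agent.H95.Simple

set_option autoImplicit false
open Cfsg

namespace Cfsg.Agent.S5361

/-- Let D be a conjugacy class of 3-transpositions generating the finite group G, and suppose the centre of G is trivial and some two different members of D commute. Then the following are equivalent: (1) the commutator subgroup of G is simple (possibly of prime order); (2) G acts primitively on D by conjugation; (3) the largest normal 2-subgroup and the largest normal 3-subgroup of G are trivial and the commuting graph of D is connected. -/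
theorem result {G : Type*} [Group G] [Finite G] {D : Set G} (hD : Cfsg.IsThreeTranspositionClass D) (hZ : Subgroup.center G = ⊥) (hw : ∃ a ∈ D, ∃ b ∈ D, a ≠ b ∧ Commute a b) : (IsSimpleGroup (commutator G) ↔ Cfsg.IsPrimitiveUnderConj D) ∧ (Cfsg.IsPrimitiveUnderConj D ↔ (Cfsg.pCore 2 G = ⊥ ∧ Cfsg.pCore 3 G = ⊥ ∧ (Cfsg.commutingGraph D).Connected)) := by
  obtain ⟨x, hx, y, hy, hxy, -⟩ := id hw
  have hD2 : ∃ a ∈ D, ∃ b ∈ D, a ≠ b := ⟨x, hx, y, hy, hxy⟩
  refine ⟨⟨fun h => ?_, fun h => ?_⟩, ⟨fun h => ?_, fun h => ?_⟩⟩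
  · obtain ⟨hI, hconn⟩ := H95.irred_of_simple hD h hw
    exact hI.primitive hD hD2 hconn
  · obtain ⟨hI, hconn⟩ := H95.irred_of_primitive hD h hw
    rw [← H95.KK_eq_commutator hD hconn]
    exact hI.simple_KK hD hD2 hZ
  · obtain ⟨hI, hconn⟩ := H95.irred_of_primitive hD h hw
    obtain ⟨h2, h3⟩ := (H95.irred_iff hD hD2).1 hI
    rw [hZ, le_bot_iff] at h2 h3
    exact ⟨h2, h3, (H95.connected_iff ⟨x, hx⟩).2 hconn⟩
  · exact ((H95.irred_iff hD hD2).2 ⟨h.1 ▸ bot_le, h.2.1 ▸ bot_le⟩).primitive hD hD2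
      ((H95.connected_iff ⟨x, hx⟩).1 h.2.2)

end Cfsg.Agent.S5361
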