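import Cfsg.Statements.S5365
import Cfsg.Agent.H95.FS2

set_option autoImplicit false
open Cfsg

namespace Cfsg.Agent.S5365

open H95 Subgroup Equiv

set_option synthInstance.maxSize 2000 in
theorem local_line {G : Type*} [Group G] {S : Set G} (hS : Sp S)
    (h : Nonempty (closure S ≃* Perm (Fin 3))) : (∃ p ∈ S, ∃ q ∈ S, p ≠ q) ∧
    (∀ p ∈ S, ∀ q ∈ S, Commute p q → p = q) ∧
    ∀ p ∈ S, ∀ q ∈ S, p ≠ q → ∀ z ∈ S, z = p ∨ z = q ∨ z = cj p q := by
  obtain ⟨ψ⟩ := h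
  have h1 : ∀ (p : G) (hp : p ∈ S), ψ ⟨p, mem_cl hp⟩ * ψ ⟨p, mem_cl hp⟩ = 1 ∧
      ψ ⟨p, mem_cl hp⟩ ≠ 1 := fun p hp =>
    ⟨by rw [← map_mul, ← map_one ψ]; exact congrArg ψ (Subtype.ext (hS.sq hp)),
      fun h => TT.ne_one hS.tt hp (congrArg Subtype.val ((map_eq_one_iff ψ ψ.injective).1 h))⟩
  have h2 : ∀ (p : G) (hp : p ∈ S) (q : G) (hq : q ∈ S),
      ψ ⟨p, mem_cl hp⟩ = ψ ⟨q, mem_cl hq⟩ ↔ p = q := fun p hp q hq => by
    rw [ψ.injective.eq_iff, Subtype.ext_iff]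
  refine ⟨?_, fun p hp q hq hpq => ?_, fun p hp q hq hpq z hz => ?_⟩
  · by_contra hn
    push Not at hn
    have h3 : center (closure S) = ⊤ := by
      rw [eq_top_iff, ← closure_inCl S, closure_le]
      exact fun p hp => mem_center_of_commute (closure_inCl S) fun q hq =>
        commute_coe_iff.1 (hn _ hp _ hq ▸ Commute.refl _)
    have h4 := congrArg ψ (mem_center_iff.1 (h3 ▸ mem_top (ψ.symm (swap 0 1))) (ψ.symm (swap 1 2)))
    simp only [map_mul, MulEquiv.apply_symm_apply] at h4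
    exact absurd h4 (by decide)
  · have h3 : ∀ σ τ : Perm (Fin 3), (σ * σ = 1 ∧ σ ≠ 1) → (τ * τ = 1 ∧ τ ≠ 1) → σ * τ = τ * σ →
        σ = τ := by decide
    refine (h2 p hp q hq).1 (h3 _ _ (h1 p hp) (h1 q hq) ?_)
    rw [← map_mul, ← map_mul]; exact congrArg ψ (Subtype.ext hpq)
  · have h3 : ∀ σ τ ρ : Perm (Fin 3), (σ * σ = 1 ∧ σ ≠ 1) → (τ * τ = 1 ∧ τ ≠ 1) →
        (ρ * ρ = 1 ∧ ρ ≠ 1) → σ ≠ τ → ρ = σ ∨ ρ = τ ∨ ρ = σ * τ * σ⁻¹ := by decide
    have h4 := h3 _ _ _ (h1 p hp) (h1 q hq) (h1 z hz) (by rwa [Ne, h2 p hp q hq])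
    rw [h2 z hz p hp, h2 z hz q hq, ← map_inv, ← map_mul, ← map_mul, ψ.injective.eq_iff, Subtype.ext_iff] at h4
    exact h4

/-- Let D be a non-empty conjugation-invariant set of involutions of a finite group G satisfying the 3-transposition order conditions, and suppose that for every d in D the members of D other than d commuting with d generate a subgroup isomorphic to the symmetric group of degree 3, and the largest normal 3-subgroup of the centralizer of d has order 3. Then the subgroup generated by D is isomorphic to the symmetric group of degree 5 or to the direct product of two symmetric groups of degree 3. -/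
theorem result {G : Type*} [Group G] [Finite G] {D : Set G} (hD : Cfsg.IsThreeTranspositionSet D) (hconj : ∀ g : G, ∀ d ∈ D, g * d * g⁻¹ ∈ D) (hne : D.Nonempty) (hloc : ∀ d ∈ D, Nonempty (↥(Subgroup.closure {y : G | y ∈ D ∧ y ≠ d ∧ Commute d y}) ≃* Equiv.Perm (Fin 3)) ∧ Nat.card (Cfsg.pCore 3 ↥(Subgroup.centralizer ({d} : Set G))) = 3) : Nonempty (↥(Subgroup.closure D) ≃* Equiv.Perm (Fin 5)) ∨ Nonempty (↥(Subgroup.closure D) ≃* Equiv.Perm (Fin 3) × Equiv.Perm (Fin 3)) := by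
  have : Fact (Nat.Prime 3) := ⟨Nat.prime_three⟩
  have hS : Sp D := ⟨hD, fun a _ b hb => hconj a b hb⟩
  have L := fun d hd => local_line (hS.sDd d) (hloc d hd).1
  have hW : ∀ x ∈ D, ∀ y ∈ D, ∀ p ∈ Dd D x, ∀ q ∈ Dd D x, p ≠ q → p ∈ Dd D y → q ∈ Dd D y →
      WRel D x y := by
    intro x hx y hy p hp q hq hpq hp' hq'
    refine wrel_iff.1 (Set.Subset.antisymm (fun z hz => ?_) fun z hz => ?_)
    · rcases (L x hx).2.2 p hp q hq hpq z hz with rfl | rfl | rfl
      exacts [hp', hq', (hS.sDd y).cl _ hp' _ hq']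
    · rcases (L y hy).2.2 p hp' q hq' hpq z hz with rfl | rfl | rfl
      exacts [hp, hq, (hS.sDd x).cl _ hp _ hq]
  have hne' : ∀ x ∈ D, ∀ p, ∃ q ∈ Dd D x, q ≠ p := by
    intro x hx p
    obtain ⟨a, ha, b, hb, hab⟩ := (L x hx).1
    by_cases h : a = p
    · exact ⟨b, hb, fun h1 => hab (h.trans h1.symm)⟩
    · exact ⟨a, ha, h⟩
  by_cases hw : ∀ a ∈ D, ∀ b ∈ D, WRel D a b → a = b
  · left
    have hC : CSp D := by
      refine ⟨hS, fun x hx y hy => ?_⟩
      by_contra hn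
      have h1 : ∀ u v, Conn D x u → Conn D y v → v ∈ Dd D u := fun u v hu hv => by
        have h2 : ¬ Conn D u v := fun h => hn ((hu.trans h).trans (hv.symm hy))
        refine ⟨hv.mem hy, fun h => h2 (h ▸ Conn.refl _ _), ?_⟩
        by_contra h
        exact h2 (Conn.single (hv.mem hy) h)
      have hyx := h1 x y (Conn.refl _ _) (Conn.refl _ _)
      obtain ⟨x', hx', h2⟩ := hne' y hy x
      obtain ⟨y', hy', h3⟩ := hne' x hx y
      have h4 : Conn D x x' := Conn.single hx'.1 fun h =>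
        h2 ((L y hy).2.1 _ (mem_Dd_symm hx hyx) _ hx' h).symm
      have h5 : Conn D y y' := Conn.single hy'.1 fun h => h3 ((L x hx).2.1 _ hyx _ hy' h).symm
      exact h2 (hw x hx x' hx'.1 (hW x hx x' hx'.1 y hyx y' hy' h3.symm
        (h1 _ _ h4 (Conn.refl _ _)) (h1 _ _ h4 h5))).symm
    obtain ⟨d, hd⟩ := hne
    obtain ⟨e, he, e', he', hee⟩ := (L d hd).1
    have hI : Irr D := by
      refine ⟨hC, ⟨e, he.1, e', he'.1, hee⟩, fun a ha b hb h => ?_, hw⟩
      by_contra hab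
      have h1 : b ∈ Dd D a := ⟨hb, Ne.symm hab, h.commute hb⟩
      obtain ⟨c, hc, hcb⟩ := hne' a ha b
      exact hcb ((L a ha).2.1 _ h1 _ hc ((h c hc.1).1 hc.2.2)).symm
    have hcc : CC D := by
      refine cc_of_Comp_eq hd (Set.Subset.antisymm (Comp_sub hd) fun x hx => ?_)
      by_contra hn
      have h1 : ∀ z ∈ D, z ∉ Comp D d → cj d (cj e z) ∈ Dd D z := by
        intro z hz h
        have h2 : ¬ Commute d z := fun h2 => h (CConn.single hz h2)
        have h3 : ¬ Commute e z := fun h3 => h ((CConn.single he.1 he.2.2).tail hz h3)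
        exact ⟨hS.cl _ hd _ (hS.cl _ he.1 _ hz), hS.s4ne hd he.1 hz h2 h3 he.2.1.symm,
          hS.s4 hd he.1 hz h2 h3 he.2.2⟩
      obtain ⟨q, hq, hqp⟩ := hne' x hx (cj d (cj e x))
      have h2 := h1 q hq.1 fun h => hn (mem_Comp_of_commute h hx hq.2.2.symm)
      have h3 : cj d (cj e q) ∈ Dd D (cj d (cj e x)) := hS.cjD (mem_cl hd) (hS.cjD (mem_cl he.1) hq)
      have h4 := hw x hx _ h2.1 (hW x hx _ h2.1 q hq _ (h1 x hx hn) hqp (mem_Dd_symm hq.1 h2)
        (mem_Dd_symm (h1 x hx hn).1 h3))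
      refine hqp ?_
      rw [h4, cj_comm he.2.2.symm, hS.cc hd, hS.cc he.1]
    have hWW : WW (inCl D) ⟨d, mem_cl hd⟩ ⟨e, mem_cl he.1⟩ ⟨e', mem_cl he'.1⟩ := by
      refine ⟨hd, mem_Dd_inCl.2 he, mem_Dd_inCl.2 he', fun h => hee (congrArg Subtype.val h).symm,
        fun z hz => ⟨fun h => ?_, fun h => ?_⟩⟩
      · exact (h.1 (Subtype.ext ((L d hd).2.1 _ he _ (mem_Dd_inCl.1 hz)
          (commute_coe_iff.2 h.2)).symm)).elim
      · exact (h.1 (Subtype.ext ((L d hd).2.1 _ he' _ (mem_Dd_inCl.1 hz)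
          (commute_coe_iff.2 h.2)).symm)).elim
    obtain ⟨φ, -⟩ := hI.irred'.perm5_of_WW hI.cls' (cc_inCl hcc) hWW
    exact ⟨φ.symm⟩
  right
  push Not at hw
  obtain ⟨d, hd, e, he, hde, hne⟩ := hw
  obtain ⟨a, ha, b, hb, hab⟩ := (L d hd).1
  have hDe : Dd D d = Dd D e := wrel_iff.2 hde
  have hda := mem_Dd_symm hd ha
  have hea := mem_Dd_symm he (hDe ▸ ha)
  have hWab : WRel D a b := hW a ha.1 b hb.1 d hda e hea hne (mem_Dd_symm hd hb)
    (mem_Dd_symm he (hDe ▸ hb))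
  have nab : ¬ Commute a b := fun h => hab ((L d hd).2.1 _ ha _ hb h)
  have nde : ¬ Commute d e := fun h => hne ((L a ha.1).2.1 _ hda _ hea h)
  have hab3 := mem_pCore_three_of_wrel hD hconj ha.1 hb.1 hWab
  have hde3 := mem_pCore_three_of_wrel hD hconj hd he hde
  have hQ := H44.pCore_isPGroup (p := 3) (G := G)
  have hcen : ∀ v ∈ pCore 3 G, Commute d v → v ∈ zpowers (a * b) := by
    intro v hv hdv
    have h1 : (pCore 3 G).subgroupOf (centralizer {d}) ≤ pCore 3 (centralizer ({d} : Set G)) :=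
      H44.le_pCore inferInstance (hQ.comap_of_injective _ (subtype_injective _))
    have h2 : a * b ∈ centralizer ({d} : Set G) :=
      mem_centralizer_singleton_iff.2 (ha.2.2.mul_right hb.2.2).symm.eq
    have h3 : zpowers (⟨a * b, h2⟩ : centralizer ({d} : Set G)) = pCore 3 _ := by
      refine eq_of_le_of_card_ge (zpowers_le_of_mem (h1 hab3)) ?_
      rw [(hloc d hd).2, Nat.card_zpowers, ← orderOf_coe, TT.orderOf_mul hD ha.1 hb.1 nab]
    obtain ⟨k, hk⟩ : (⟨v, mem_centralizer_singleton_iff.2 hdv.symm.eq⟩ :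
      centralizer ({d} : Set G)) ∈ zpowers ⟨a * b, h2⟩ := h3 ▸ h1 hv
    exact ⟨k, congrArg Subtype.val hk⟩
  have hcomm : Commute (d * e) (a * b) :=
    (ha.2.2.mul_right hb.2.2).mul_left ((hDe ▸ ha).2.2.mul_right (hDe ▸ hb).2.2)
  have hinv : ∀ u ∈ pCore 3 G, cj (d * a) u = u⁻¹ := by
    intro u hu
    have h1 : ∃ w ∈ zpowers (d * e), cj w d = cj u d := by
      have h2 : WRel D d (cj u d) :=
        wrel_of_mul_mem hD hQ hd (hconj u d hd) (mul_conj_mem hD hd hu)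
      have h3 : cj u d ∈ Dd D a := mem_Dd_symm (hconj u d hd) ((show Dd D d = Dd D (cj u d) from wrel_iff.2 h2) ▸ ha)
      rcases (L a ha.1).2.2 d hda e hea hne _ h3 with h | h | h <;> rw [h]
      · exact ⟨1, one_mem _, cj_one _⟩
      · exact ⟨_, mem_zpowers _, by rw [cj_mul, hS.c3b he hd (ncs nde)]⟩
      · refine ⟨_, inv_mem (mem_zpowers _), ?_⟩
        rw [mul_inv_rev, TT.inv_eq hD hd, TT.inv_eq hD he, cj_mul, cj_self, hS.sw hd he nde]
    obtain ⟨_, ⟨j, rfl⟩, h2⟩ := h1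
    obtain ⟨k, hk⟩ := hcen (((d * e) ^ j)⁻¹ * u) (mul_mem (inv_mem (zpow_mem hde3 j)) hu)
      (cj_eq_self_iff.1 (by rw [cj_mul, ← h2, cj_inv_cj])).symm
    simp only at hk
    have h3 : cj (d * a) (d * e) = (d * e)⁻¹ := by
      rw [cj_mul, cj_of_commute (hda.2.2.mul_right hea.2.2), TT.cj_eq hD hd, mul_inv_rev,
        TT.inv_eq hD hd, TT.inv_eq hD he, ← mul_assoc, hS.sq hd, one_mul]
    have h4 : cj (d * a) (a * b) = (a * b)⁻¹ := by
      rw [ha.2.2.eq, cj_mul, cj_of_commute (ha.2.2.mul_right hb.2.2), TT.cj_eq hD ha.1,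
        mul_inv_rev, TT.inv_eq hD ha.1, TT.inv_eq hD hb.1, ← mul_assoc, hS.sq ha.1, one_mul]
    rw [← mul_inv_cancel_left ((d * e) ^ j) u, ← hk, cj_mul_cj, cj, cj, ← conj_zpow, ← conj_zpow,
      ← cj_def, ← cj_def, h3, h4, inv_zpow, inv_zpow, (hcomm.zpow_zpow j k).eq, mul_inv_rev]
  have hinv' : ∀ g t, (∀ u ∈ pCore 3 G, cj t u = u⁻¹) → ∀ u ∈ pCore 3 G, cj (cj g t) u = u⁻¹ := by
    intro g t h u hu
    rw [cj_cj, h (cj g⁻¹ u) ((inferInstance : (pCore 3 G).Normal).conj_mem u hu g⁻¹)]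
    simp [cj, mul_assoc]
  have hall : ∀ x ∈ D, x ∈ Dd D a ∨ x ∈ Dd D d := by
    intro x hx
    by_contra hn
    have h1 : ¬ Commute d x := fun h => by
      by_cases h2 : x = d
      · exact hn (Or.inl (h2 ▸ hda))
      · exact hn (Or.inr ⟨hx, h2, h⟩)
    have h2 : ¬ Commute a x := fun h => by
      by_cases h2 : x = a
      · exact hn (Or.inr (h2 ▸ ha))
      · exact hn (Or.inl ⟨hx, h2, h⟩)
    have h3 := hinv' x _ hinv
    rw [cj_mul_cj, ← hS.sw hd hx h1, ← hS.sw ha.1 hx h2] at h3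
    have h4 := hinv' d _ h3
    rw [cj_mul_cj, hS.cc hd] at h4
    have h5 := h3 _ hab3
    rw [hS.klein hd ha.1 hx ha.2.2 h1 h2, cj_mul, h4 _ hab3, hinv _ (inv_mem hab3), inv_inv,
      eq_inv_iff_mul_eq_one, ← pow_two] at h5
    exact nab (TT.commute_of_pow hD ha.1 hb.1 (by decide) h5)
  have hcc : ∀ x ∈ Dd D a, ∀ y ∈ Dd D d, Commute x y := by
    intro x hx y hy
    have h1 := (hDe ▸ hy).2.2
    rcases (L a ha.1).2.2 d hda e hea hne x hx with rfl | rfl | rfl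
    exacts [hy.2.2, h1, (commute_cj_of hy.2.2.symm h1.symm).symm]
  have hcc' : ∀ (x : closure (Dd D a)) (y : closure (Dd D d)),
      Commute ((closure (Dd D a)).subtype x) ((closure (Dd D d)).subtype y) := by
    rintro ⟨x, hx⟩ ⟨y, hy⟩
    have h1 : closure (Dd D a) ≤ centralizer (closure (Dd D d) : Set G) := by
      rw [closure_le]
      intro x hx
      rw [SetLike.mem_coe, centralizer_closure]
      exact fun y hy => (hcc x hx y hy).symm.eq
    exact (h1 hx y hy).symm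
  obtain ⟨ψ₁⟩ := (hloc a ha.1).1
  obtain ⟨ψ₂⟩ := (hloc d hd).1
  have hinj : Function.Injective (MonoidHom.noncommCoprod _ _ hcc') := by
    refine (MonoidHom.noncommCoprod_injective _ _ _).2 ⟨subtype_injective _, subtype_injective _, ?_⟩
    rw [range_subtype, range_subtype, disjoint_def]
    intro x h1 h2
    have h3 : ∀ σ : Perm (Fin 3), (∀ τ, τ * σ = σ * τ) → σ = 1 := by decide
    have h4 := h3 (ψ₁ ⟨x, h1⟩) fun τ => by
      rw [← ψ₁.apply_symm_apply τ, ← map_mul, ← map_mul]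
      exact congrArg ψ₁ (Subtype.ext (hcc' (ψ₁.symm τ) ⟨x, h2⟩))
    exact congrArg Subtype.val ((map_eq_one_iff ψ₁ ψ₁.injective).1 h4)
  have hr : (MonoidHom.noncommCoprod _ _ hcc').range = closure D := by
    rw [MonoidHom.noncommCoprod_range, range_subtype, range_subtype, ← Subgroup.closure_union]
    congr 1
    exact Set.Subset.antisymm (Set.union_subset (Dd_sub _ _) (Dd_sub _ _)) hall
  exact ⟨(MulEquiv.subgroupCongr hr.symm).trans ((MonoidHom.ofInjective hinj).symm.trans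
    (ψ₁.prodCongr ψ₂))⟩

end Cfsg.Agent.S5365
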