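import Cfsg.Statements.S5366
import Cfsg.Agent.H95.Plane

set_option autoImplicit false
open Cfsg

namespace Cfsg.Agent.S5366

open H95 LineSystem

variable {X : Type*} {L : Set (Set X)}

/-- `z` is the third point of a line through `x` and `y` -/
def Th (L : Set (Set X)) (x y z : X) : Prop := z ≠ x ∧ z ≠ y ∧ x ≠ y ∧ ({x, y, z} : Set X) ∈ L

theorem Th.unique (hL : IsFischerSpace L) {x y z z' : X} (h : Th L x y z) (h' : Th L x y z') :
    z = z' := by
  have h1 := hL.1 _ h.2.2.2 _ h'.2.2.2 x y h.2.2.1 (by simp) (by simp) (by simp) (by simp)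
  have : z ∈ ({x, y, z'} : Set X) := h1 ▸ by simp
  simpa [h.1, h.2.1] using this

theorem lineMap_of_th (hL : IsFischerSpace L) {x y z : X} (h : Th L x y z) : lineMap L x y = z := by
  have h1 : ∃ z, Th L x y z := ⟨z, h⟩
  exact (dif_pos h1).trans (Th.unique hL h1.choose_spec h)

theorem lineMap_of_not {x y : X} (h : ¬ ∃ z, Th L x y z) : lineMap L x y = y := dif_neg h

theorem exists_th (hL : IsFischerSpace L) {l : Set X} (hl : l ∈ L) {x y : X} (hxy : x ≠ y)
    (hx : x ∈ l) (hy : y ∈ l) : ∃ z, Th L x y z ∧ l = {x, y, z} := by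
  obtain ⟨a, b, c, hab, hac, hbc, rfl⟩ := Set.ncard_eq_three.1 (hL.2.1 l hl)
  have key : ∀ z, z ≠ x → z ≠ y → ({a, b, c} : Set X) = {x, y, z} →
      ∃ z, Th L x y z ∧ ({a, b, c} : Set X) = {x, y, z} :=
    fun z h1 h2 h3 => ⟨z, ⟨h1, h2, hxy, h3 ▸ hl⟩, h3⟩
  rcases hx with rfl | rfl | rfl <;> rcases hy with rfl | rfl | rfl
  · exact absurd rfl hxy
  · exact key c hac.symm hbc.symm rfl
  · exact key b hab.symm hbc (by ext; simp only [Set.mem_insert_iff, Set.mem_singleton_iff]; tauto)
  · exact key c hbc.symm hac.symm (by ext; simp only [Set.mem_insert_iff, Set.mem_singleton_iff]; tauto)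
  · exact absurd rfl hxy
  · exact key a hab hac (by ext; simp only [Set.mem_insert_iff, Set.mem_singleton_iff]; tauto)
  · exact key b hbc hab.symm (by ext; simp only [Set.mem_insert_iff, Set.mem_singleton_iff]; tauto)
  · exact key a hac hab (by ext; simp only [Set.mem_insert_iff, Set.mem_singleton_iff]; tauto)
  · exact absurd rfl hxy

theorem Th.swap23 {x y z : X} (h : Th L x y z) : Th L x z y :=
  ⟨h.2.2.1.symm, h.2.1.symm, h.1.symm, by rw [Set.pair_comm z y]; exact h.2.2.2⟩

theorem Th.swap12 {x y z : X} (h : Th L x y z) : Th L y x z :=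
  ⟨h.2.1, h.1, h.2.2.1.symm, by rw [Set.insert_comm]; exact h.2.2.2⟩

theorem invol (hL : IsFischerSpace L) (x y : X) : lineMap L x (lineMap L x y) = y := by
  by_cases h : ∃ z, Th L x y z
  · obtain ⟨z, hz⟩ := h
    rw [lineMap_of_th hL hz, lineMap_of_th hL hz.swap23]
  · rw [lineMap_of_not h, lineMap_of_not h]

theorem isSubspace_span (T : Set X) : IsSubspace L (span L T) :=
  fun l hl x hx y hy hxy h1 h2 _ hz U hU => hU.2 l hl x (hx U hU) y (hy U hU) hxy h1 h2 hz

theorem subset_span (T : Set X) : T ⊆ span L T := fun _ hx _ hU => hU.1 hx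

theorem image_mem_of_model (hL : IsFischerSpace L) {Y : Type} {op : Y → Y → Y} {M : Set (Set Y)}
    (hM : Model op M) {S : Set X} (hS : IsSubspace L S) (h : Isomorphic (restrict L S) M) {x : X}
    (hx : x ∈ S) {l : Set X} (hl : l ∈ L) (hlS : l ⊆ S) : lineMap L x '' l ∈ L := by
  obtain ⟨e, he⟩ := h
  have h1 : ∀ u v, op u v ≠ v → ({(e.symm u : X), (e.symm v : X), (e.symm (op v u) : X)} : Set X) ∈ L := by
    intro u v huv
    have h2 : e '' (e.symm '' {z | z = u ∨ z = v ∨ z = op v u}) ∈ M := by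
      rw [← Set.image_comp, e.self_comp_symm, Set.image_id]
      exact (hM.mem _).2 ⟨u, v, huv, rfl⟩
    obtain ⟨m, hm, hmS, h3⟩ := (he _).2 h2
    convert hm using 1
    ext w
    constructor
    · rintro (rfl | rfl | rfl)
      · exact (Set.ext_iff.1 h3 _).1 ⟨u, Or.inl rfl, rfl⟩
      · exact (Set.ext_iff.1 h3 _).1 ⟨v, Or.inr (Or.inl rfl), rfl⟩
      · exact (Set.ext_iff.1 h3 _).1 ⟨_, Or.inr (Or.inr rfl), rfl⟩
    · intro hw
      obtain ⟨z, hz, h4⟩ := (Set.ext_iff.1 h3 ⟨w, hmS hw⟩).2 hw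
      have h5 : w = e.symm z := (congrArg Subtype.val h4).symm
      rcases hz with rfl | rfl | rfl <;> simp [h5]
  have h2 : ∀ m ∈ L, m ⊆ S → ∃ u v, op u v ≠ v ∧
      ∀ w : S, (w : X) ∈ m ↔ (e w = u ∨ e w = v ∨ e w = op v u) := by
    intro m hm hmS
    obtain ⟨u, v, huv, h3⟩ := (hM.mem _).1 ((he _).1 ⟨m, hm, hmS, rfl⟩)
    refine ⟨u, v, huv, fun w => ?_⟩
    have := Set.ext_iff.1 h3 (e w)
    rwa [e.injective.mem_set_image] at this
  have hinj : ∀ u v, (e.symm u : X) = e.symm v ↔ u = v := fun u v => by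
    rw [← Subtype.ext_iff, e.symm.injective.eq_iff]
  have h3 : ∀ u v, lineMap L (e.symm u) (e.symm v) = e.symm (op u v) := by
    intro u v
    by_cases huv : op u v = v
    · rw [huv]
      refine lineMap_of_not ?_
      rintro ⟨z, hz⟩
      obtain ⟨a, b, hab, h4⟩ := h2 _ hz.2.2.2
        (hS _ hz.2.2.2 _ (e.symm u).2 _ (e.symm v).2 hz.2.2.1 (by simp) (by simp))
      refine hM.col a b hab u v ?_ ?_ (fun h5 => hz.2.2.1 (by rw [h5])) huv
      · simpa using (h4 (e.symm u)).1 (by simp)
      · simpa using (h4 (e.symm v)).1 (by simp)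
    · refine lineMap_of_th hL ⟨?_, ?_, ?_, ?_⟩
      · rw [Ne, hinj]; exact hM.ne u v huv
      · rw [Ne, hinj]; exact huv
      · rw [Ne, hinj]; rintro rfl; exact huv (hM.self u)
      · rw [hM.comm u v huv]; exact h1 u v huv
  obtain ⟨u, v, huv, h4⟩ := h2 l hl hlS
  have h5 : l = {(e.symm u : X), (e.symm v : X), (e.symm (op v u) : X)} := by
    ext w
    constructor
    · intro hw
      rcases (h4 ⟨w, hlS hw⟩).1 hw with h | h | h <;> simp [← h]
    · rintro (rfl | rfl | rfl) <;> exact (h4 _).2 (by simp)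
  have h6 : x = e.symm (e ⟨x, hx⟩) := by simp
  rw [h5, h6]
  simp only [Set.image_insert_eq, Set.image_singleton, h3]
  rw [hM.dist]
  refine h1 _ _ fun h7 => huv ?_
  rw [← hM.dist] at h7
  rw [← hM.invol (e ⟨x, hx⟩) (op u v), h7, hM.invol]

theorem image_mem (hL : IsFischerSpace L) (x : X) {l : Set X} (hl : l ∈ L) :
    lineMap L x '' l ∈ L := by
  by_cases h : ∃ y ∈ l, ∃ z, Th L x y z
  · obtain ⟨y, hy, z, hz⟩ := h
    by_cases h1 : l = {x, y, z}
    · have h0 : lineMap L x x = x := lineMap_of_not fun ⟨_, h⟩ => h.2.2.1 rfl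
      rw [h1]
      simp only [Set.image_insert_eq, Set.image_singleton, h0, lineMap_of_th hL hz,
        lineMap_of_th hL hz.swap23]
      exact hz.swap23.2.2.2
    · have h2 : x ∈ span L (l ∪ {x, y, z}) := subset_span _ (by simp)
      have h3 : l ⊆ span L (l ∪ {x, y, z}) := Set.subset_union_left.trans (subset_span _)
      rcases hL.2.2 l hl _ hz.2.2.2 h1 ⟨y, hy, by simp⟩ with h4 | h4
      · exact image_mem_of_model hL model_dual (isSubspace_span _) h4 h2 hl h3
      · exact image_mem_of_model hL model_aff (isSubspace_span _) h4 h2 hl h3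
  · have : lineMap L x '' l = id '' l :=
      Set.image_congr fun y hy => lineMap_of_not fun h1 => h ⟨y, hy, h1⟩
    rwa [this, Set.image_id]

noncomputable def tt (hL : IsFischerSpace L) (x : X) : Equiv.Perm X :=
  Function.Involutive.toPerm (lineMap L x) (invol hL x)

theorem tt_sq (hL : IsFischerSpace L) (x : X) : tt hL x * tt hL x = 1 :=
  Equiv.ext (invol hL x)

theorem tt_iso (hL : IsFischerSpace L) (x : X) : IsIso L L (tt hL x) := fun l =>
  ⟨image_mem hL x, fun h => by
    have := image_mem hL x h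
    rwa [← Set.image_comp, show lineMap L x ∘ tt hL x = id from funext (invol hL x),
      Set.image_id] at this⟩

theorem tt_conj (hL : IsFischerSpace L) (x y : X) :
    tt hL x * tt hL y * tt hL x = tt hL (lineMap L x y) := by
  have key : ∀ a b c, Th L a b c → Th L (tt hL x a) (tt hL x b) (tt hL x c) := fun a b c h =>
    ⟨(tt hL x).injective.ne h.1, (tt hL x).injective.ne h.2.1, (tt hL x).injective.ne h.2.2.1, by
      simpa [Set.image_insert_eq] using (tt_iso hL x _).1 h.2.2.2⟩
  have e1 : ∀ a, tt hL x (tt hL x a) = a := invol hL x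
  ext w
  change tt hL x (lineMap L y (tt hL x w)) = lineMap L (tt hL x y) w
  by_cases h : ∃ z, Th L y (tt hL x w) z
  · obtain ⟨z, hz⟩ := h
    have := key _ _ _ hz
    rw [e1] at this
    rw [lineMap_of_th hL hz, lineMap_of_th hL this]
  · rw [lineMap_of_not h, e1, lineMap_of_not]
    rintro ⟨z, hz⟩
    have := key _ _ _ hz
    rw [e1] at this
    exact h ⟨_, this⟩

theorem tt_order (hL : IsFischerSpace L) (hnd : IsNondegenerate L) (x : X) :
    orderOf (tt hL x) = 2 := by
  refine orderOf_eq_two_of (tt_sq hL x) fun h => ?_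
  obtain ⟨l, hl, hx⟩ := hnd x
  obtain ⟨y, hy, hyx⟩ := Set.exists_ne_of_one_lt_ncard (s := l) (by rw [hL.2.1 l hl]; decide) x
  obtain ⟨z, hz, -⟩ := exists_th hL hl hyx.symm hx hy
  exact hz.2.1 ((lineMap_of_th hL hz).symm.trans (Equiv.ext_iff.1 h y))

/-- Let L be a nondegenerate Fischer space on the point type X (every point on a line). Then for every point x the map t(x) — sending a point collinear with x to the third point of their common line and fixing every other point — is a permutation of X of order 2 and an automorphism of the line system; and the set of all t(x) satisfies the 3-transposition order conditions in the permutation group of X (any two have product of order at most 3). -/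
theorem result {X : Type*} (L : Set (Set X)) (hL : Cfsg.IsFischerSpace L) (hnd : Cfsg.LineSystem.IsNondegenerate L) : (∀ x : X, ∃ σ : Equiv.Perm X, ⇑σ = Cfsg.LineSystem.lineMap L x ∧ orderOf σ = 2 ∧ Cfsg.LineSystem.IsIso L L σ) ∧ Cfsg.IsThreeTranspositionSet {σ : Equiv.Perm X | ∃ x : X, ⇑σ = Cfsg.LineSystem.lineMap L x} := by
  refine ⟨fun x => ⟨tt hL x, rfl, tt_order hL hnd x, tt_iso hL x⟩, ?_, ?_⟩
  · rintro σ ⟨x, hx⟩
    rw [show σ = tt hL x from DFunLike.coe_injective hx]
    exact tt_order hL hnd x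
  · rintro σ ⟨x, hx⟩ τ ⟨y, hy⟩
    rw [show σ = tt hL x from DFunLike.coe_injective hx,
      show τ = tt hL y from DFunLike.coe_injective hy]
    by_cases h : ∃ z, Th L x y z
    · obtain ⟨z, hz⟩ := h
      refine Or.inr (cube_of_braid (tt_sq hL x) (tt_sq hL y) ?_)
      rw [tt_conj, tt_conj, lineMap_of_th hL hz, lineMap_of_th hL hz.swap12]
    · left
      have := tt_conj hL x y
      rw [lineMap_of_not h] at this
      rw [pow_two, ← mul_assoc, this, tt_sq]

end Cfsg.Agent.S5366
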