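import Cfsg.Statements.S5367
import Cfsg.Agent.H95.Plane

set_option autoImplicit false
open Cfsg

namespace Cfsg.Agent.S5367

open H95 LineSystem Equiv

variable {G : Type*} [Group G] {D : Set G}

theorem mem_lines {l : Set D} : l ∈ threeTranspositionLines D ↔
    ∃ x y : D, ¬ Commute (x : G) y ∧ l = {z : D | (z : G) = x ∨ (z : G) = y ∨ (z : G) = cj (y : G) x} :=
  Iff.rfl

/-- a line is determined by any two of its points -/
theorem line_eq (hS : Sp D) {l : Set D} (hl : l ∈ threeTranspositionLines D) {x y : D}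
    (hxy : x ≠ y) (hx : x ∈ l) (hy : y ∈ l) : ¬ Commute (x : G) y ∧
      l = {z : D | (z : G) = x ∨ (z : G) = y ∨ (z : G) = cj (y : G) x} := by
  obtain ⟨a, b, hab, rfl⟩ := mem_lines.1 hl
  have h1 := hS.sw a.2 b.2 hab
  have h2 := hS.c3l a.2 b.2 hab
  have h3 := hS.c3r a.2 b.2 hab
  have h4 := hS.ncl a.2 hab
  have h5 := hS.ncr a.2 b.2 hab
  have h6 := hS.cc a.2 b
  have h7 := hS.cc b.2 a
  have hne : (x : G) ≠ y := fun h => hxy (Subtype.ext h)
  simp only [Set.mem_ofPred_eq, ← h1] at hx hy h7 ⊢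
  rcases hx with hx | hx | hx <;> rcases hy with hy | hy | hy <;>
    simp only [hx, hy, ne_eq, not_true_eq_false] at hne ⊢
  · exact ⟨hab, by rw [h1]⟩
  · exact ⟨h4, by rw [h2]; ext; simp only [Set.mem_ofPred_eq]; tauto⟩
  · exact ⟨ncs hab, by ext; simp only [Set.mem_ofPred_eq]; tauto⟩
  · exact ⟨h5, by rw [h3]; ext; simp only [Set.mem_ofPred_eq]; tauto⟩
  · exact ⟨ncs h4, by rw [h6]; ext; simp only [Set.mem_ofPred_eq]; tauto⟩
  · exact ⟨ncs h5, by rw [h7]; ext; simp only [Set.mem_ofPred_eq]; tauto⟩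

theorem iso_of_model (hS : Sp D) {Y : Type} {op : Y → Y → Y} {M : Set (Set Y)} (hM : Model op M)
    (p : Y → G) (hpD : ∀ u, p u ∈ D) (hinj : Function.Injective p)
    (hp : ∀ u v, cj (p u) (p v) = p (op u v)) {T : Set D} (hT : ∀ x ∈ T, ∃ u, p u = x)
    (hgen : ∀ u, ∃ v w, (⟨p v, hpD v⟩ : D) ∈ T ∧ (⟨p w, hpD w⟩ : D) ∈ T ∧ u = op v w) :
    Isomorphic (restrict (threeTranspositionLines D) (span (threeTranspositionLines D) T)) M := by
  have hcom : ∀ u v, Commute (p u) (p v) ↔ op u v = v := fun u v => by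
    rw [← cj_eq_self_iff, hp, hinj.eq_iff]
  have hsp : span (threeTranspositionLines D) T = {x : D | ∃ u, p u = x} := by
    refine Set.Subset.antisymm (Set.sInter_subset_of_mem ⟨hT, ?_⟩) ?_
    · rintro l hl x ⟨u, hu⟩ y ⟨v, hv⟩ hxy hx hy z hz
      rw [(line_eq hS hl hxy hx hy).2] at hz
      rcases hz with hz | hz | hz
      · exact ⟨u, hu.trans hz.symm⟩
      · exact ⟨v, hv.trans hz.symm⟩
      · exact ⟨op v u, by rw [hz, ← hp, hu, hv]⟩
    · rintro x ⟨u, hu⟩ U ⟨hTU, hU⟩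
      obtain ⟨v, w, hv, hw, rfl⟩ := hgen u
      by_cases h : Commute (p v) (p w)
      · have : x = ⟨p w, hpD w⟩ := Subtype.ext (by rw [← hu, (hcom v w).1 h])
        exact this ▸ hTU hw
      · refine hU _ (mem_lines.2 ⟨⟨p w, hpD w⟩, ⟨p v, hpD v⟩, ncs h, rfl⟩) _ (hTU hw) _ (hTU hv)
          (fun h1 => ne_of_nc (ncs h) (congrArg Subtype.val h1)) (Or.inl rfl) (Or.inr (Or.inl rfl))
          (Or.inr (Or.inr ?_))
        rw [← hu, ← hp]
  rw [hsp]
  let q : Y → {x : D | ∃ u, p u = x} := fun u => ⟨⟨p u, hpD u⟩, u, rfl⟩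
  have hq : Function.Bijective q :=
    ⟨fun u v h => hinj (congrArg Subtype.val (congrArg Subtype.val h)), by
      rintro ⟨x, u, hu⟩; exact ⟨u, Subtype.ext (Subtype.ext hu)⟩⟩
  refine ⟨(Equiv.ofBijective q hq).symm, fun l => ?_⟩
  rw [hM.mem, Equiv.image_symm_eq_preimage]
  have key : ∀ u v, (Equiv.ofBijective q hq) ⁻¹' {x : {x : D | ∃ u, p u = x} | (x : D) ∈
      {z : D | (z : G) = p u ∨ (z : G) = p v ∨ (z : G) = cj (p v) (p u)}} =
      {z | z = u ∨ z = v ∨ z = op v u} := fun u v => by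
    ext z
    simp only [hp, Set.preimage_ofPred_eq, Set.mem_ofPred_eq, Equiv.ofBijective_apply, q,
      hinj.eq_iff]
  constructor
  · rintro ⟨l, hl, hsub, rfl⟩
    obtain ⟨x, y, hxy, rfl⟩ := mem_lines.1 hl
    obtain ⟨u, hu⟩ := hsub (show x ∈ _ from Or.inl rfl)
    obtain ⟨v, hv⟩ := hsub (show y ∈ _ from Or.inr (Or.inl rfl))
    rw [← hu, ← hv] at hxy ⊢
    exact ⟨u, v, fun h => hxy ((hcom u v).2 h), key u v⟩
  · rintro ⟨u, v, h, hl⟩
    refine ⟨_, mem_lines.2 ⟨⟨p u, hpD u⟩, ⟨p v, hpD v⟩, fun h1 => h ((hcom u v).1 h1), rfl⟩, ?_, ?_⟩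
    · rintro z (hz | hz | hz)
      · exact ⟨u, hz.symm⟩
      · exact ⟨v, hz.symm⟩
      · exact ⟨op v u, by rw [hz, hp]⟩
    · exact (Set.preimage_injective.2 (Equiv.ofBijective q hq).surjective) (hl.trans (key u v).symm)

set_option synthInstance.maxSize 2000 in
set_option synthInstance.maxHeartbeats 200000 in
theorem dual_case (hS : Sp D) {x y z : D} (hxy : ¬ Commute (x : G) y) (hxz : ¬ Commute (x : G) z)
    (hyz : Commute (y : G) z) (hne : (y : G) ≠ z) :
    Isomorphic (restrict (threeTranspositionLines D) (span (threeTranspositionLines D)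
      ({w : D | (w : G) = x ∨ (w : G) = y ∨ (w : G) = cj (y : G) x} ∪
        {w : D | (w : G) = x ∨ (w : G) = z ∨ (w : G) = cj (z : G) x}))) dualAffinePlaneTwo := by
  obtain ⟨φ, h1, h2, h3⟩ := exists_hom_perm4 (hS.sq y.2) (hS.sq x.2) (hS.sq z.2)
    (TT.braid hS.tt y.2 x.2 (ncs hxy)) (TT.braid hS.tt x.2 z.2 hxz) hyz
  have hφ := perm4_injective φ (by rwa [h1, h3])
  have hmem : ∀ s, φ (dswap s) ∈ D := fun s => by
    have : dswap s = swap 0 1 ∨ dswap s = swap 1 2 ∨ dswap s = swap 2 3 ∨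
        dswap s = cj (swap 0 1) (swap 1 2) ∨ dswap s = cj (swap 2 3) (swap 1 2) ∨
        dswap s = cj (swap 0 1) (cj (swap 2 3) (swap 1 2)) := by
      revert s; unfold cj; decide +kernel
    rcases this with h | h | h | h | h | h <;> simp only [h, map_cj, h1, h2, h3]
    exacts [y.2, x.2, z.2, hS.cl _ y.2 _ x.2, hS.cl _ z.2 _ x.2,
      hS.cl _ y.2 _ (hS.cl _ z.2 _ x.2)]
  refine iso_of_model hS model_dual (fun s => φ (dswap s)) hmem (hφ.comp dswap_injective)
    (fun u v => by rw [← map_cj, cj_dswap]) ?_ ?_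
  · intro w hw
    simp only [Set.mem_union, Set.mem_ofPred_eq, ← h1, ← h2, ← h3, ← map_cj] at hw
    have : ∀ σ : Perm (Fin 4), ((σ = swap 1 2 ∨ σ = swap 0 1 ∨ σ = cj (swap 0 1) (swap 1 2)) ∨
      σ = swap 1 2 ∨ σ = swap 2 3 ∨ σ = cj (swap 2 3) (swap 1 2)) → ∃ s, dswap s = σ := by
      unfold cj; decide +kernel
    rcases hw with (h | h | h) | h | h | h <;> rw [h] <;>
      exact (this _ (by simp)).imp fun s hs => congrArg φ hs
  · intro u
    simp only [Set.mem_union, Set.mem_ofPred_eq, ← h1, ← h2, ← h3, ← map_cj, hφ.eq_iff]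
    revert u; unfold cj; decide +kernel

set_option synthInstance.maxSize 2000 in
set_option synthInstance.maxHeartbeats 200000 in
theorem aff_case (hS : Sp D) {x y z : D} (h : Aff (x : G) y z) :
    Isomorphic (restrict (threeTranspositionLines D) (span (threeTranspositionLines D)
      ({w : D | (w : G) = x ∨ (w : G) = y ∨ (w : G) = cj (y : G) x} ∪
        {w : D | (w : G) = x ∨ (w : G) = z ∨ (w : G) = cj (z : G) x}))) affinePlaneThree := by
  obtain ⟨p, hp, hinj, hop, h1, h2, h3⟩ := h.exists_plane hS x.2 y.2 z.2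
  refine iso_of_model hS model_aff p hp hinj hop ?_ ?_
  · intro w hw
    simp only [Set.mem_union, Set.mem_ofPred_eq, ← h1, ← h2, ← h3, hop] at hw
    rcases hw with (h | h | h) | h | h | h <;> exact ⟨_, h.symm⟩
  · intro u
    simp only [Set.mem_union, Set.mem_ofPred_eq, ← h1, ← h2, ← h3, hop, hinj.eq_iff]
    revert u; decide +kernel

/-- Let D be a conjugation-invariant generating set of 3-transpositions of a finite group G. Then the line system on D whose lines are the triples {x, y, y x y⁻¹} for non-commuting members x, y of D is a Fischer space: two points lie on at most one line, lines have three points, and two different meeting lines generate a subspace isomorphic to the dual affine plane of order two or to the affine plane of order three. -/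
theorem result {G : Type*} [Group G] [Finite G] {D : Set G} (hD : Cfsg.IsThreeTranspositionGroup D) : Cfsg.IsFischerSpace (Cfsg.threeTranspositionLines D) := by
  have hS : Sp D := ⟨hD.1, fun a _ b hb => hD.2.1 a b hb⟩
  have h3 : ∀ l ∈ threeTranspositionLines D, l.ncard = 3 := by
    intro l hl
    obtain ⟨x, y, hxy, rfl⟩ := mem_lines.1 hl
    refine Set.ncard_eq_three.2 ⟨x, y, ⟨_, hS.cl _ y.2 _ x.2⟩, ?_, ?_, ?_, ?_⟩
    · exact fun h => ne_of_nc hxy (congrArg Subtype.val h)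
    · exact fun h => ne_of_nc (hS.ncr y.2 x.2 (ncs hxy)) (congrArg Subtype.val h)
    · exact fun h => ne_of_nc (hS.ncl y.2 (ncs hxy)) (congrArg Subtype.val h)
    · ext z; simp [Subtype.ext_iff]
  refine ⟨fun l hl m hm x y hxy h1 h2 h3 h4 =>
    (line_eq hS hl hxy h1 h2).2.trans (line_eq hS hm hxy h3 h4).2.symm, h3, ?_⟩
  rintro l hl m hm hlm ⟨x, hxl, hxm⟩
  obtain ⟨y, hy, hyx⟩ := Set.exists_ne_of_one_lt_ncard (s := l) (by rw [h3 l hl]; decide) x
  obtain ⟨z, hz, hzx⟩ := Set.exists_ne_of_one_lt_ncard (s := m) (by rw [h3 m hm]; decide) x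
  obtain ⟨hxy, hl'⟩ := line_eq hS hl hyx.symm hxl hy
  obtain ⟨hxz, hm'⟩ := line_eq hS hm hzx.symm hxm hz
  have hnot : ∀ w ∈ l, w ≠ x → (w : G) ≠ z := fun w hw hwx h => hlm (by
    rw [(line_eq hS hl hwx.symm hxl hw).2, hm', h])
  by_cases hyz : Commute (y : G) z
  · rw [hl', hm']
    exact Or.inl (dual_case hS hxy hxz hyz (hnot y hy hyx))
  let y' : D := ⟨cj x y, hS.cl _ x.2 _ y.2⟩
  have hy' : y' ∈ l := by rw [hl']; exact Or.inr (Or.inr (hS.sw x.2 y.2 hxy))
  have hy'x : y' ≠ x := fun h => ne_of_nc (hS.ncl x.2 hxy) (congrArg Subtype.val h).symm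
  by_cases h : Commute (y' : G) z
  · obtain ⟨hxy', hl''⟩ := line_eq hS hl hy'x.symm hxl hy'
    rw [hl'', hm']
    exact Or.inl (dual_case hS hxy' hxz h (hnot y' hy' hy'x))
  · rw [hl', hm']
    exact Or.inr (aff_case hS ⟨hxy, hxz, hyz, h, hnot y' hy' hy'x⟩)

end Cfsg.Agent.S5367
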