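import Cfsg.Statements.S5368
import Cfsg.Agent.H95.Pack3

set_option autoImplicit false
open scoped MatrixGroups
open Cfsg

namespace Cfsg.Agent.S5368

open H95 Subgroup Equiv in
theorem width_one {G : Type*} [Group G] [Finite G] {D : Set G} (hD : IsThreeTranspositionClass D)
    (hZ : center G = ⊥) (hs : IsSimpleGroup (commutator G))
    (hw : ∀ a ∈ D, ∀ b ∈ D, Commute a b → a = b) :
    ∃ e : G ≃* Perm (Fin 3), e '' D = {σ | σ.IsSwap} := by
  obtain ⟨a, ha, hc⟩ := hD.2.1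
  obtain ⟨b, hb, hab⟩ : ∃ b ∈ D, ¬ Commute a b := by
    by_contra h
    push Not at h
    exact TT.ne_one hD.1 ha (mem_bot.1 (hZ ▸ mem_center_of_commute hD.2.2 h))
  have : Fact (Nat.Prime 3) := ⟨Nat.prime_three⟩
  have h1 : Group.IsSolvable (commutator G) := by
    have := isSolvable_pCore (G := G) 3
    exact Group.isSolvable_of_isSolvable_injective (inclusion_injective
      (commutator_le_pCore_three (group_of_class hD) hw))
  have h2 := IsSimpleGroup.comm_iff_isSolvable.2 h1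
  have h3 : zpowers (⟨a * b, mul_mem_commutator hD ha hb⟩ : commutator G) = ⊤ :=
    (Subgroup.Normal.eq_bot_or_eq_top ⟨fun n hn g => by rwa [h2 g n, mul_inv_cancel_right]⟩).resolve_left
      fun h => ne_of_nc hab (eq_of_mul_eq_one' (TT.mul_self hD.1 hb)
        (congrArg Subtype.val (zpowers_eq_bot.1 h)))
  obtain ⟨e, he⟩ := exists_perm3 (TT.mul_self hD.1 ha) (TT.mul_self hD.1 hb) (TT.braid hD.1 ha hb hab)
    (ne_of_nc hab) (eq_top_iff.2 (hD.2.2 ▸ (closure_le _).2 fun c hc => by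
      obtain ⟨k, hk⟩ := mem_zpowers_iff.1 (h3 ▸ mem_top (⟨a * c, mul_mem_commutator hD ha hc⟩ :
        commutator G))
      have m1 : a ∈ closure {a, b} := subset_closure (.inl rfl)
      have m2 : b ∈ closure {a, b} := subset_closure (.inr rfl)
      rw [← TT.cancel hD.1 ha c, ← show (a * b) ^ k = a * c from congrArg Subtype.val hk]
      exact mul_mem m1 (zpow_mem (mul_mem m1 m2) k)))
  refine ⟨e.symm, ?_⟩
  rw [hc, ← he]
  ext σ
  have h4 : ∀ σ : Perm (Fin 3), σ.IsSwap ↔ ∃ g, g * swap 0 1 * g⁻¹ = σ := by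
    unfold Perm.IsSwap; decide +kernel
  rw [Set.mem_ofPred_eq, h4]
  constructor
  · rintro ⟨x, hx, rfl⟩
    obtain ⟨g, rfl⟩ := isConj_iff.1 hx
    exact ⟨e.symm g, by simp⟩
  · rintro ⟨g, rfl⟩
    exact ⟨_, isConj_iff.2 ⟨e g, rfl⟩, by simp⟩

/-- Fischer's Theorem on 3-transposition groups. Let D be a conjugacy class of 3-transpositions generating the finite group G, and suppose the centre of G is trivial and the commutator subgroup of G is simple (possibly of prime order). Then one of the following holds: (1) G is isomorphic to a symmetric group with D going to the transpositions; (2) G is isomorphic to a symplectic group over the field with two elements with D going to the transvections (elements g with g − 1 of rank one); (3) G is isomorphic to a projective special unitary group over the field with four elements with D going to the images of the unitary transvections; (4) G is isomorphic to the full isometry group of a hyperbolic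 or elliptic quadratic form over the field with two elements with D going to the orthogonal transvections; (5) G is isomorphic to the subgroup of the isometry group of a non-degenerate quadratic form over the field with three elements generated by the reflections in vectors of a fixed non-zero norm, taken modulo its centre, with D going to the images of those reflections; (6) G with D is of type M(22), M(23) or M(24). -/
theorem result {G : Type*} [Group G] [Finite G] {D : Set G} (hD : Cfsg.IsThreeTranspositionClass D) (hZ : Subgroup.center G = ⊥) (hsimple : IsSimpleGroup (commutator G)) : (∃ n : ℕ, ∃ e : G ≃* Equiv.Perm (Fin n), e '' D = {σ : Equiv.Perm (Fin n) | σ.IsSwap}) ∨ (∃ m : ℕ, ∃ e : G ≃* Matrix.symplecticGroup (Fin m) (ZMod 2), e '' D = {g : Matrix.symplecticGroup (Fin m) (ZMod 2) | ((g : Matrix (Fin m ⊕ Fin m) (Fin m ⊕ Fin m) (ZMod 2)) - 1).rank = 1}) ∨ (∃ (n : ℕ) (F : Type) (_ : Field F) (_ : Fintype F), Fintype.card F =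 4 ∧ ∃ e : G ≃* Cfsg.PSU n F 2, e '' D = (QuotientGroup.mk : ↥(Cfsg.SU n F 2) → Cfsg.PSU n F 2) '' {g : ↥(Cfsg.SU n F 2) | (((g : Matrix.SpecialLinearGroup (Fin n) F) : Matrix (Fin n) (Fin n) F) - 1).rank = 1}) ∨ ((∃ m : ℕ, ∃ e : G ≃* ↥(Cfsg.isometryGroup (ZMod 2) (Cfsg.quadFormPlus m (ZMod 2))), e '' D = {g : ↥(Cfsg.isometryGroup (ZMod 2) (Cfsg.quadFormPlus m (ZMod 2))) | (((g : GL (Fin m ⊕ Fin m) (ZMod 2)) : Matrix (Fin m ⊕ Fin m) (Fin m ⊕ Fin m) (ZMod 2)) - 1).rank = 1}) ∨ (∃ m : ℕ, ∃ e : G ≃* ↥(Cfsg.isometryGroup (ZMod 2) (Cfsg.quadFormMinus m (ZMod 2) 1 1)), e '' D = {g : ↥(Cfsg.isometryGroup (ZMod 2) (Cfsg.quadFormMinus m (ZMod 2) 1 1)) | (((g : GL ((Fin m ⊕ Fin m) ⊕ Fin 2) (ZMod 2)) : Matrix ((Fin m ⊕ Fin m) ⊕ Fin 2) ((Fin m ⊕ Fin m) ⊕ Fin 2) (ZMod 2)) - 1).rank = 1})) ∨ (∃ n : ℕ, ∃ Q : QuadraticForm (ZMod 3) (Fin n → ZMod 3), (QuadraticMap.polarBilin Q).Nondegenerate ∧ ∃ c : ZMod 3, c ≠ 0 ∧ ∃ e : G ≃* ↥(Cfsg.reflectionSubgroup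 (⇑Q) c) ⧸ Subgroup.center ↥(Cfsg.reflectionSubgroup (⇑Q) c), e '' D = (QuotientGroup.mk : ↥(Cfsg.reflectionSubgroup (⇑Q) c) → _) '' {g : ↥(Cfsg.reflectionSubgroup (⇑Q) c) | (g : ↥(Cfsg.isometryGroup (ZMod 3) (⇑Q))) ∈ Cfsg.reflectionsOfNorm (⇑Q) c}) ∨ (Cfsg.IsOfTypeM22 G D ∨ Cfsg.IsOfTypeM23 G D ∨ Cfsg.IsOfTypeM24 G D) := by
  by_cases hw : ∀ a ∈ D, ∀ b ∈ D, Commute a b → a = b
  · exact .inl ⟨3, width_one hD hZ hsimple hw⟩
  push Not at hw
  obtain ⟨a, ha, b, hb, h1, h2⟩ := hw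
  obtain ⟨h3, hc⟩ := H95.irred_of_simple hD hsimple ⟨a, ha, b, hb, h2, h1⟩
  have hI := H95.irr_of_class hD ⟨a, ha, b, hb, h2⟩ h3
  rcases hI.classify hc with h | h | ⟨n, f, v, q, E, hq, h⟩ | ⟨n, h, f, v, E, hf⟩ | h | h | h
  · rcases hI.polar_cases hc h with ⟨n, h4⟩ | ⟨n, h4⟩
    · obtain ⟨m, -, h5, β, h6⟩ := h4.chart_sp hI
      exact .inr (.inl ⟨m, h6.top' hI.toSp hD.2.2 hZ h5⟩)
    · obtain ⟨β, h6⟩ := h4.chart_u hI
      exact .inr (.inr (.inl ⟨n, H29.F4, inferInstance, inferInstance, rfl,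
        h6.top hI.toSp hD.2.2 hZ⟩))
  · obtain ⟨n, β, h7⟩ := hI.chart_perm h.1 h.2
    refine .inl ⟨n, h7.top' hI.toSp hD.2.2 hZ (H95.center_perm fun i j => ?_)⟩
    by_contra h9
    push Not at h9
    have k : ∀ σ : Equiv.Perm (Fin n), σ.IsSwap → σ = Equiv.swap i j := by
      rintro _ ⟨k, l, h, rfl⟩
      by_cases r1 : k = i
      · rw [r1, h9 l (r1 ▸ h.symm)]
      · rw [h9 k r1, (em (l = i)).resolve_right fun r2 => h ((h9 k r1).trans (h9 l r2).symm),
          Equiv.swap_comm]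
    exact h2 (h7.bij.injOn ha hb ((k _ (h7.bij.mapsTo ha)).trans (k _ (h7.bij.mapsTo hb)).symm))
  · rcases hq.chart_pm E hI (by simp; omega) with ⟨m, -, h8, β, h9⟩ | ⟨m, -, h8, β, h9⟩
    · exact .inr (.inr (.inr (.inl (.inl ⟨m, h9.top' hI.toSp hD.2.2 hZ h8⟩))))
    · exact .inr (.inr (.inr (.inl (.inr ⟨m, h9.top' hI.toSp hD.2.2 hZ h8⟩))))
  · obtain ⟨β, h7⟩ := E.chart_o3 hf hI
    exact .inr (.inr (.inr (.inr (.inl ⟨n, _, E.nd.q3, -1, by decide, h7.top hI.toSp hD.2.2 hZ⟩))))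
  · exact .inr (.inr (.inr (.inr (.inr (.inl (h.type hZ))))))
  · exact .inr (.inr (.inr (.inr (.inr (.inr (.inl (h.type hZ)))))))
  · exact .inr (.inr (.inr (.inr (.inr (.inr (.inr (h.type hZ)))))))

end Cfsg.Agent.S5368
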