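import Cfsg.Statements.S5369
import Cfsg.Agent.H95.Pack3

set_option autoImplicit false
open scoped MatrixGroups
open Cfsg

namespace Cfsg.Agent.S5369

theorem swap_disj {α : Type*} [DecidableEq α] {i j k l : α} (h1 : i ≠ j) (h2 : k ≠ l)
    (h3 : Commute (Equiv.swap i j) (Equiv.swap k l)) (h4 : Equiv.swap k l ≠ Equiv.swap i j) :
    i ≠ k ∧ i ≠ l ∧ j ≠ k ∧ j ≠ l := by
  have key : ∀ i j l : α, i ≠ j → i ≠ l → Commute (Equiv.swap i j) (Equiv.swap i l) → l = j :=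
    fun i j l h1 h2 h3 => by_contra fun h4 => h4 (by
      simpa [Equiv.swap_apply_of_ne_of_ne h2.symm h4, Equiv.swap_apply_of_ne_of_ne h1.symm (Ne.symm h4)]
        using congrArg (fun σ : Equiv.Perm α => σ i) h3)
  refine ⟨?_, ?_, ?_, ?_⟩ <;> rintro rfl <;> apply h4
  · rw [key _ _ _ h1 h2 h3]
  · rw [key _ _ _ h1 h2.symm (Equiv.swap_comm k i ▸ h3), Equiv.swap_comm]
  · rw [key _ _ _ h1.symm h2 (Equiv.swap_comm i j ▸ h3), Equiv.swap_comm]
  · rw [key _ _ _ h1.symm h2.symm (Equiv.swap_comm i j ▸ Equiv.swap_comm k j ▸ h3)]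

open H95 in
theorem seven {G : Type*} [Group G] [Finite G] {S : Set G} {n : ℕ} {β : G → Equiv.Perm (Fin n)}
    (h : Chart S {σ | σ.IsSwap} β) (hS : Sp S) {d : G} (hd : d ∈ S) (hI : Irr (Dd S d)) : 7 ≤ n := by
  obtain ⟨b, hb, -⟩ := hI.two
  obtain ⟨e, he⟩ := hI.exists_Dd hb
  obtain ⟨x, hx, h1⟩ := hI.sep hb he.1 he.2.1.symm
  have k : ∀ {a c}, a ∈ S → c ∈ Dd S a → Commute (β a) (β c) ∧ β c ≠ β a := fun ha hc =>
    ⟨(h.com hS ha hc.1).2 hc.2.2, fun h2 => hc.2.1 (h.bij.injOn hc.1 ha h2)⟩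
  have k1 := k hd hb
  have k2 := k hd he.1
  have k3 := k hd hx.1
  have k4 := k hb.1 ⟨he.1.1, he.2⟩
  have k5 := k hb.1 ⟨hx.1.1, hx.2⟩
  have k6 := (h.com hS he.1.1 hx.1.1).not.2 h1
  obtain ⟨i1, i2, n1, e1⟩ := h.bij.mapsTo hd
  obtain ⟨j1, j2, n2, e2⟩ := h.bij.mapsTo hb.1
  obtain ⟨l1, l2, n3, e3⟩ := h.bij.mapsTo he.1.1
  obtain ⟨m1, m2, n4, e4⟩ := h.bij.mapsTo hx.1.1
  simp only [e1, e2, e3, e4] at k1 k2 k3 k4 k5 k6
  have p1 := swap_disj n1 n2 k1.1 k1.2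
  have p2 := swap_disj n1 n3 k2.1 k2.2
  have p3 := swap_disj n1 n4 k3.1 k3.2
  have p4 := swap_disj n2 n3 k4.1 k4.2
  have p5 := swap_disj n2 n4 k5.1 k5.2
  obtain ⟨m, hm, q1, q2⟩ : ∃ m, (m = m1 ∨ m = m2) ∧ l1 ≠ m ∧ l2 ≠ m := by
    by_contra hn
    push Not at hn
    by_cases r1 : l1 = m1
    · exact k6 (r1 ▸ hn m2 (.inr rfl) (r1 ▸ n4) ▸ Commute.refl _)
    · by_cases r2 : l1 = m2
      · exact k6 (by rw [r2, hn m1 (.inl rfl) r1, Equiv.swap_comm]; exact Commute.refl _)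
      · exact n4 ((hn m1 (.inl rfl) r1).symm.trans (hn m2 (.inr rfl) r2))
  simpa using (show [i1, i2, j1, j2, l1, l2, m].Nodup by
    rcases hm with rfl | rfl <;> simp [*]).length_le_card

/-- Let D be a conjugation-invariant generating set of 3-transpositions of the finite group G on which G acts primitively by conjugation, with trivial centre; let d be a member of D commuting with some other member of D (width at least 2), and let H be the subgroup generated by the members of D other than d commuting with d; suppose the largest normal 3-subgroup and the largest normal 2-subgroup of H are central in H. Then one of the following holds: G is isomorphic to a symmetric group of degree at least 7 with D going to the transpositions; G is isomorphic to the full isometry group of a hyperbolic or elliptic quadratic form in dimension at least 6 over the field with two elements with D going to the orthogonal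 transvections; G is isomorphic to the reflection group of a non-degenerate quadratic form in dimension at least 5 over the field with three elements for one non-zero norm, modulo its centre, with D going to the images of those reflections; or G with D is of type M(22), M(23) or M(24). -/
theorem result {G : Type*} [Group G] [Finite G] {D : Set G} (hD : Cfsg.IsThreeTranspositionGroup D) (hprim : Cfsg.IsPrimitiveUnderConj D) (hZ : Subgroup.center G = ⊥) (d : G) (hd : d ∈ D) (hw : ∃ b ∈ D, b ≠ d ∧ Commute d b) (h3 : Cfsg.pCore 3 ↥(Subgroup.closure {y : G | y ∈ D ∧ y ≠ d ∧ Commute d y}) ≤ Subgroup.center ↥(Subgroup.closure {y : G | y ∈ D ∧ y ≠ d ∧ Commute d y})) (h2 : Cfsg.pCore 2 ↥(Subgroup.closure {y : G | y ∈ D ∧ y ≠ d ∧ Commute d y}) ≤ Subgroup.center ↥(Subgroup.closure {y : G | y ∈ D ∧ y ≠ d ∧ Commute d y})) : (∃ n : ℕ, 7 ≤ n ∧ ∃ e : G ≃* Equiv.Perm (Fin n), e '' D = {σ : Equiv.Perm (Fin n) | σ.IsSwap})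 ∨ ((∃ m : ℕ, 3 ≤ m ∧ ∃ e : G ≃* ↥(Cfsg.isometryGroup (ZMod 2) (Cfsg.quadFormPlus m (ZMod 2))), e '' D = {g : ↥(Cfsg.isometryGroup (ZMod 2) (Cfsg.quadFormPlus m (ZMod 2))) | (((g : GL (Fin m ⊕ Fin m) (ZMod 2)) : Matrix (Fin m ⊕ Fin m) (Fin m ⊕ Fin m) (ZMod 2)) - 1).rank = 1}) ∨ (∃ m : ℕ, 2 ≤ m ∧ ∃ e : G ≃* ↥(Cfsg.isometryGroup (ZMod 2) (Cfsg.quadFormMinus m (ZMod 2) 1 1)), e '' D = {g : ↥(Cfsg.isometryGroup (ZMod 2) (Cfsg.quadFormMinus m (ZMod 2) 1 1)) | (((g : GL ((Fin m ⊕ Fin m) ⊕ Fin 2) (ZMod 2)) : Matrix ((Fin m ⊕ Fin m) ⊕ Fin 2) ((Fin m ⊕ Fin m) ⊕ Fin 2) (ZMod 2)) - 1).rank = 1})) ∨ (∃ n : ℕ, 5 ≤ n ∧ ∃ Q : QuadraticForm (ZMod 3) (Fin n → ZMod 3), (QuadraticMap.polarBilin Q).Nondegenerate ∧ ∃ c : ZMod 3, c ≠ 0 ∧ ∃ e : G ≃* ↥(Cfsg.reflectionSubgroup (⇑Q) c) ⧸ Subgroup.center ↥(Cfsg.reflectionSubgroup (⇑Q) c), e '' D = (QuotientGroup.mk : ↥(Cfsg.reflectionSubgroup (⇑Q) c) → _) '' {g : ↥(Cfsg.reflectionSubgroup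 (⇑Q) c) | (g : ↥(Cfsg.isometryGroup (ZMod 3) (⇑Q))) ∈ Cfsg.reflectionsOfNorm (⇑Q) c}) ∨ (Cfsg.IsOfTypeM22 G D ∨ Cfsg.IsOfTypeM23 G D ∨ Cfsg.IsOfTypeM24 G D) := by
  have hC := H95.class_of_primitive hD hprim
  obtain ⟨b, hb, h4, h5⟩ := hw
  obtain ⟨h6, hc⟩ := H95.irred_of_primitive hC hprim ⟨d, hd, b, hb, h4.symm, h5⟩
  have hI := H95.irr_of_class hC hprim.2.1 h6
  have hH : H95.Irr (H95.Dd D d) := by
    obtain ⟨x, hx, y, hy, hxy⟩ := hI.two_Dd hd
    have := (H95.irred_iff ((hI.cDd hd).cls hx) ⟨⟨x, H95.mem_cl hx⟩, hx, ⟨y, H95.mem_cl hy⟩, hy,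
      fun h => hxy (congrArg Subtype.val h)⟩).2 ⟨h2, h3⟩
    exact ⟨hI.cDd hd, hI.two_Dd hd, fun a ha b hb h => congrArg Subtype.val (this.v ⟨a, H95.mem_cl ha⟩
      ha ⟨b, H95.mem_cl hb⟩ hb (H95.vrel_inCl_iff.2 h)), fun a ha b hb h => congrArg Subtype.val
      (this.w ⟨a, H95.mem_cl ha⟩ ha ⟨b, H95.mem_cl hb⟩ hb (H95.wrel_inCl_iff.2 h))⟩
  rcases hI.classify hc with h | h | ⟨n, f, v, q, E, hq, h⟩ | ⟨n, h, f, v, E, hf⟩ | h | h | h
  · exact (H95.not_pol_of_irr (fun e he => (hI.iso_Dd hd he).elim fun _ h => h.irr hH) h).elim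
  · obtain ⟨n, β, h7⟩ := hI.chart_perm h.1 h.2
    have h8 := seven h7 hI.toSp hd hH
    refine .inl ⟨n, h8, h7.top' hI.toSp hD.2.2 hZ (H95.center_perm fun i j => ?_)⟩
    by_contra h9
    push Not at h9
    have := Finset.card_le_card (show Finset.univ ⊆ {i, j} from fun k _ => by
      simpa using (em (k = i)).imp_right (h9 k))
    have := Finset.card_le_two (a := i) (b := j)
    simp only [Finset.card_univ, Fintype.card_fin] at *
    omega
  · rcases hq.chart_pm E hI (by simp; omega) with ⟨m, h7, h8, β, h9⟩ | ⟨m, h7, h8, β, h9⟩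
    · exact .inr (.inl (.inl ⟨m, h7, h9.top' hI.toSp hD.2.2 hZ h8⟩))
    · exact .inr (.inl (.inr ⟨m, h7, h9.top' hI.toSp hD.2.2 hZ h8⟩))
  · obtain ⟨β, h7⟩ := E.chart_o3 hf hI
    exact .inr (.inr (.inl ⟨n, by omega, _, E.nd.q3, -1, by decide, h7.top hI.toSp hD.2.2 hZ⟩))
  · exact .inr (.inr (.inr (.inl (h.type hZ))))
  · exact .inr (.inr (.inr (.inr (.inl (h.type hZ)))))
  · exact .inr (.inr (.inr (.inr (.inr (h.type hZ)))))

end Cfsg.Agent.S5369
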