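import Cfsg.Statements.S5378
import Cfsg.Agent.CO1.Co1Hom
import Cfsg.Agent.CO1.Co1Top
import Cfsg.Agent.H26.CoInv3

set_option autoImplicit false
open Cfsg

namespace Cfsg.Agent.S5378

/-- Let G be a finite group of Conway type: it has an involution z whose centralizer C has generalized Fitting subgroup Q extraspecial of order 2^9 with C/Q isomorphic to the commutator subgroup of the isometry group of the hyperbolic quadratic form in dimension 8 over the field with two elements, and some conjugate of z other than z lies in Q. Then G has exactly three conjugacy classes of involutions. -/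
theorem result {G : Type*} [Group G] [Finite G] (z : G) (hz : orderOf z = 2) (Q : Subgroup (Subgroup.centralizer ({z} : Set G))) [Q.Normal] (hF : Cfsg.generalizedFittingSubgroup (Subgroup.centralizer ({z} : Set G)) = Q) (hQ : Cfsg.IsExtraspecial 2 Q) (hcard : Nat.card Q = 2 ^ 9) (e : (Subgroup.centralizer ({z} : Set G)) ⧸ Q ≃* Cfsg.Omega (ZMod 2) (Cfsg.quadFormPlus 4 (ZMod 2))) (hnwc : ∃ g : G, (∃ hq : g * z * g⁻¹ ∈ Subgroup.centralizer ({z} : Set G), (⟨g * z * g⁻¹, hq⟩ : Subgroup.centralizer ({z} : Set G)) ∈ Q) ∧ g * z * g⁻¹ ≠ z) : ∃ a b c : G, orderOf a = 2 ∧ orderOf b = 2 ∧ orderOf c = 2 ∧ ¬ IsConj a b ∧ ¬ IsConj a c ∧ ¬ IsConj b c ∧ ∀ x : G, orderOf x = 2 → IsConj x a ∨ IsConj x b ∨ IsConj x c := by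
  obtain ⟨ψ, h1, o, ho, h8, h2, h3⟩ :=
    CO1.exists_hom_co1 (z := z) ⟨Q, ‹_›, ⟨hz, hF, hQ, hcard, hnwc⟩, ⟨e⟩⟩
  have h5 := MonoidHom.range_eq_top.1 (CO1.range_eq_top_co1 ψ h1 ho h8 (h2 ▸ h3))
  exact H26.CoInv.three_classes (θ := ψ.comp CO1.pr) (h5.comp (QuotientGroup.mk'_surjective _))
    fun k => (map_eq_one_iff ψ h1).trans (QuotientGroup.eq_one_iff k)

end Cfsg.Agent.S5378
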