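import Cfsg.Statements.S5382
import Cfsg.Agent.SGJ2.Cor
import Cfsg.Agent.NG.TLoc

set_option autoImplicit false
open Cfsg

namespace Cfsg.Agent.S5382

/-- Let G be a finite group of Hall–Janko type: it has more than one class of involutions and an involution z whose centralizer C has generalized Fitting subgroup Q extraspecial of order 32 with C/Q isomorphic to the commutator subgroup of the isometry group of the elliptic quadratic form in dimension 4 over the field with two elements (the alternating group of degree 5), with z not weakly closed in Q. Then for every involution t not conjugate to z, the centralizer of t is isomorphic to the direct product of an elementary abelian group of order 4 and the alternating group of degree 5, and the normalizer of the largest normal 2-subgroup of that centralizer is isomorphic to the direct product of the alternating groups of degrees 4 and 5. -/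
theorem result {G : Type*} [Group G] [Finite G] (z : G) (hz : orderOf z = 2) (Q : Subgroup (Subgroup.centralizer ({z} : Set G))) [Q.Normal] (hF : Cfsg.generalizedFittingSubgroup (Subgroup.centralizer ({z} : Set G)) = Q) (hQ : Cfsg.IsExtraspecial 2 Q) (hcard : Nat.card Q = 2 ^ 5) (e : (Subgroup.centralizer ({z} : Set G)) ⧸ Q ≃* Cfsg.Omega (ZMod 2) (Cfsg.quadFormMinus 1 (ZMod 2) 1 1)) (hnwc : ∃ g : G, (∃ hq : g * z * g⁻¹ ∈ Subgroup.centralizer ({z} : Set G), (⟨g * z * g⁻¹, hq⟩ : Subgroup.centralizer ({z} : Set G)) ∈ Q) ∧ g * z * g⁻¹ ≠ z) (hcl : ∃ x y : G, orderOf x = 2 ∧ orderOf y = 2 ∧ ¬ IsConj x y) (t : G) (ht : orderOf t = 2) (htz : ¬ IsConj t z) : Nonempty (↥(Subgroup.centralizer ({t} : Set G)) ≃* (Multiplicative (ZMod 2) × Multiplicative (ZMod 2)) × alternatingGroup (Fin 5)) ∧ Nonempty (↥(Subgroup.normalizer (((Cfsg.pCore 2 ↥(Subgroup.centralizer ({t} : Set G))).map (Subgroup.subtype (Subgroup.centralizer ({t} : Set G))) : Subgroup G) : Set G)) ≃* alternatingGroup (Fin 4) × alternatingGroup (Fin 5)) := by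
  have h := H88.JJ.red_setting hz Q hF hQ hcard e hnwc
  obtain ⟨-, r, t', c, q, s, x, b, y, h1, h2⟩ := H88.JJ.Hyp.iso2 h hcl
  obtain ⟨g, rfl⟩ := isConj_iff.1
    (((H88.JJ.finJ2 h1 h2 h.1.ne h.2.2.1).2.2.2 t ht).resolve_left htz).symm
  obtain ⟨⟨e1⟩, ⟨e2⟩⟩ := H88.JJ.finJ2_iso h1 h2 h.1.ne h.2.2.1
  have k1 : (Subgroup.centralizer ({t'} : Set G)).map (MulAut.conj g).toMonoidHom =
      Subgroup.centralizer {g * t' * g⁻¹} := (NG.T2.Cz_c g t').symm
  have k2 := H70.cj_normalizer g (Cfsg.pCoreOf 2 (Subgroup.centralizer ({t'} : Set G)))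
  rw [H70.cj_pCoreOf, show H70.cj g _ = _ from k1] at k2
  exact ⟨⟨((MulEquiv.subgroupCongr k1.symm).trans ((MulAut.conj g).subgroupMap _).symm).trans e1⟩,
    ⟨((MulEquiv.subgroupCongr k2.symm).trans ((MulAut.conj g).subgroupMap _).symm).trans e2⟩⟩

end Cfsg.Agent.S5382
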