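import Cfsg.Statements.S5398
import Cfsg.Agent.H52.Fi22Cls
-- import your own Cfsg.Agent.* helpers here

set_option autoImplicit false
open Cfsg

namespace Cfsg.Agent.S5398

/-- Let G be a finite group with trivial centre generated by a conjugation-invariant set D of 3-transpositions on which it acts primitively, such that for some d in D the subgroup generated by the members of D other than d commuting with d has central largest normal 2- and 3-subgroups, and suppose G with D is of type M(22). Then G has exactly 3 conjugacy classes of involutions: every involution is a product of m distinct pairwise commuting members of D for some m between 1 and 3; for each such m these products form one non-empty conjugacy class; and the value of m is determined by the involution. -/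
theorem result {G : Type*} [Group G] [Finite G] {D : Set G} (hD : Cfsg.IsThreeTranspositionGroup D) (hprim : Cfsg.IsPrimitiveUnderConj D) (d : G) (hd : d ∈ D) (h3 : Cfsg.pCore 3 ↥(Subgroup.closure {y : G | y ∈ D ∧ y ≠ d ∧ Commute d y}) ≤ Subgroup.center ↥(Subgroup.closure {y : G | y ∈ D ∧ y ≠ d ∧ Commute d y})) (h2 : Cfsg.pCore 2 ↥(Subgroup.closure {y : G | y ∈ D ∧ y ≠ d ∧ Commute d y}) ≤ Subgroup.center ↥(Subgroup.closure {y : G | y ∈ D ∧ y ≠ d ∧ Commute d y})) (ht : Cfsg.IsOfTypeM22 G D) : (∀ x : G, orderOf x = 2 → ∃ m : ℕ, 1 ≤ m ∧ m ≤ 3 ∧ (∃ l : List G, l.Nodup ∧ l.length = m ∧ (∀ a ∈ l, a ∈ D) ∧ (∀ a ∈ l, ∀ b ∈ l, Commute a b) ∧ l.prod = x)) ∧ (∀ m : ℕ, 1 ≤ m → m ≤ 3 → (∃ x : G, orderOf x = 2 ∧ (∃ l : List G, l.Nodup ∧ l.length = m ∧ (∀ a ∈ l, a ∈ D) ∧ (∀ a ∈ l, ∀ b ∈ l, Commute a b) ∧ l.prod = x)) ∧ ∀ x y : G, (∃ l : List G, l.Nodup ∧ l.length = m ∧ (∀ a ∈ l, a ∈ D) ∧ (∀ a ∈ l, ∀ b ∈ l, Commute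 a b) ∧ l.prod = x) → (∃ l : List G, l.Nodup ∧ l.length = m ∧ (∀ a ∈ l, a ∈ D) ∧ (∀ a ∈ l, ∀ b ∈ l, Commute a b) ∧ l.prod = y) → IsConj x y) ∧ ∀ (m m' : ℕ) (x : G), 1 ≤ m → m ≤ 3 → 1 ≤ m' → m' ≤ 3 → (∃ l : List G, l.Nodup ∧ l.length = m ∧ (∀ a ∈ l, a ∈ D) ∧ (∀ a ∈ l, ∀ b ∈ l, Commute a b) ∧ l.prod = x) → (∃ l : List G, l.Nodup ∧ l.length = m' ∧ (∀ a ∈ l, a ∈ D) ∧ (∀ a ∈ l, ∀ b ∈ l, Commute a b) ∧ l.prod = x) → m = m' := by
  obtain ⟨T, h⟩ := H52.Fi.exists_is22 hD ht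
  have ha := h.el_mem (y := 1) le_rfl (by decide)
  have k : ∀ {x y z g u : G}, H95.cj g x = z → H95.cj u y = z → IsConj x y := fun {x y z g u} e1 e2 =>
    isConj_iff.2 ⟨u⁻¹ * g, by rw [← H95.cj_def, H95.cj_mul, e1, ← e2, H95.cj_inv_cj]⟩
  refine ⟨fun x hx => ?_, fun m h1 h2 => ?_, fun m m' x h1 h2 h3 h4 h5 h6 => ?_⟩
  · rcases h.inv_cases hx with h1 | h1 | h1
    exacts [⟨1, by decide, by decide, H52.Fi.cp_one.2 h1⟩, ⟨2, by decide, by decide, h1⟩,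
      ⟨3, by decide, by decide, h1⟩]
  · interval_cases m
    · refine ⟨⟨_, hD.1.1 _ ha, H52.Fi.cp_one.2 ha⟩, fun x y hx hy => ?_⟩
      obtain ⟨g, e1⟩ := h.tr1 (H52.Fi.cp_one.1 hx)
      obtain ⟨u, e2⟩ := h.tr1 (H52.Fi.cp_one.1 hy)
      exact k e1 e2
    · refine ⟨⟨_, h.orderOf_cp2 h.cp2, h.cp2⟩, fun x y hx hy => ?_⟩
      obtain ⟨g, e1⟩ := h.conj2 hx
      obtain ⟨u, e2⟩ := h.conj2 hy
      exact k e1 e2
    · refine ⟨⟨_, h.orderOf_cp3 h.cp3, h.cp3⟩, fun x y hx hy => ?_⟩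
      obtain ⟨g, e1⟩ := h.conj3 hx
      obtain ⟨u, e2⟩ := h.conj3 hy
      exact k e1 e2
  · have key : ∀ n, 1 ≤ n → n ≤ 3 → H52.Fi.CP D n x →
        H52.Fi.fixc D x = if n = 1 then 694 else if n = 2 then 182 else 54 := by
      intro n a b c
      interval_cases n
      exacts [h.fixc1 (H52.Fi.cp_one.1 c), h.fixc2 c, h.fixc3 c]
    have := (key m h1 h2 h5).symm.trans (key m' h3 h4 h6)
    interval_cases m <;> interval_cases m' <;> simp_all

end Cfsg.Agent.S5398
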