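import Cfsg.Statements.S5458
import Cfsg.Agent.H22.F22Th
import Cfsg.Agent.H22.Main22

set_option autoImplicit false
open Cfsg

namespace Cfsg.Agent.S5458

/-- Let G be a finite group with trivial centre generated by a conjugation-invariant set D of 3-transpositions on which it acts primitively, of type M(22), and suppose G also has an involution whose centralizer is quasisimple with quotient by it the projective special unitary group of dimension 6 over the field with four elements and which is not weakly closed in that centralizer. Let T be a Sylow 2-subgroup of G. Then the subgroup generated by the members of D lying in T is the Thompson subgroup of T (generated by the elementary abelian subgroups of T of largest order). -/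
theorem result {G : Type*} [Group G] [Finite G] {D : Set G} (hD : Cfsg.IsThreeTranspositionGroup D) (hprim : Cfsg.IsPrimitiveUnderConj D) (h22 : Cfsg.IsOfTypeM22 G D) (hM : ∃ d : G, orderOf d = 2 ∧ Cfsg.IsQuasisimple ↥(Subgroup.centralizer ({d} : Set G)) ∧ (∃ (_ : ((Subgroup.zpowers d).subgroupOf (Subgroup.centralizer ({d} : Set G))).Normal) (K : Type) (_ : Field K) (_ : Fintype K), Fintype.card K = 4 ∧ Nonempty (↥(Subgroup.centralizer ({d} : Set G)) ⧸ (Subgroup.zpowers d).subgroupOf (Subgroup.centralizer ({d} : Set G)) ≃* Cfsg.PSU 6 K 2)) ∧ ∃ g : G, g * d * g⁻¹ ∈ Subgroup.centralizer ({d} : Set G) ∧ g * d * g⁻¹ ≠ d) (T : Sylow 2 G) : Subgroup.closure {x : G | x ∈ D ∧ x ∈ (T : Subgroup G)} = Cfsg.thompsonSubgroupOf 2 (T : Subgroup G) := by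
  obtain ⟨e, he⟩ := H96.ident22 hD h22
  have := H58.Fi22P.card_le.1
  obtain ⟨P, B, k1, k2, -, k3⟩ := H22.th22
  obtain ⟨k, hk⟩ := (H22.syl22 k1).exists_le e.toMonoidHom T.isPGroup'
  let f := e.trans (MulAut.conj k)
  have t := k2.comap f
  have e1 : P.comap f.toMonoidHom = T := T.is_maximal'
    ((H22.syl22 k1).pg.comap_of_injective _ f.injective) hk
  have e2 : f '' D = H96.D22 := by
    rw [← H96.image_cj_eq H96.conj22 k, ← he, Set.image_image]; rfl
  rw [← e1, t.thompson, ← k3, Subgroup.comap_equiv_eq_map_symm' f (Subgroup.closure _),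
    MonoidHom.map_closure, ← e2]
  congr 1
  ext x
  exact ⟨fun h => ⟨f x, ⟨⟨x, h.1, rfl⟩, h.2⟩, f.symm_apply_apply x⟩, by
    rintro ⟨_, ⟨⟨y, hy, rfl⟩, h⟩, rfl⟩
    exact (f.symm_apply_apply y).symm ▸ ⟨hy, h⟩⟩

end Cfsg.Agent.S5458
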