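import Cfsg.Statements.S5466
import Cfsg.Agent.H51.FiF
import Cfsg.Agent.H51.FiG
import Cfsg.Agent.S2603

set_option autoImplicit false
open Cfsg

namespace Cfsg.Agent.S5466

/-- Let G be a finite group with trivial centre generated by a conjugation-invariant set D of 3-transpositions on which it acts primitively, such that for some d in D the subgroup generated by the members of D other than d commuting with d has central largest normal 2- and 3-subgroups, and suppose G with D is of type M(24), and let L be the commutator subgroup of G. Let d₁, d₂, d₃ be distinct pairwise commuting members of D, j their product, E the subgroup generated by d₁ d₂ and d₁ d₃ (a four-group lying in L), CL the centralizer of j in L and K its generalized Fitting subgroup. Then K is quasisimple with centre E, K is the centralizer of E in L, K modulo E is isomorphic to the projective special unitary group of dimension 6 over the field with four elements, CL/K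 is isomorphic to the symmetric group of degree 3, and CL modulo E is isomorphic to the full automorphism group of that unitary group. -/
theorem result {G : Type*} [Group G] [Finite G] {D : Set G} (hD : Cfsg.IsThreeTranspositionGroup D) (hprim : Cfsg.IsPrimitiveUnderConj D) (d₀ : G) (hd₀ : d₀ ∈ D) (h3 : Cfsg.pCore 3 ↥(Subgroup.closure {y : G | y ∈ D ∧ y ≠ d₀ ∧ Commute d₀ y}) ≤ Subgroup.center ↥(Subgroup.closure {y : G | y ∈ D ∧ y ≠ d₀ ∧ Commute d₀ y})) (h2 : Cfsg.pCore 2 ↥(Subgroup.closure {y : G | y ∈ D ∧ y ≠ d₀ ∧ Commute d₀ y}) ≤ Subgroup.center ↥(Subgroup.closure {y : G | y ∈ D ∧ y ≠ d₀ ∧ Commute d₀ y})) (h24 : Cfsg.IsOfTypeM24 G D) (L : Subgroup G) (hL : L = commutator G) (d₁ d₂ d₃ : G) (h₁ : d₁ ∈ D) (h₂ : d₂ ∈ D) (h₃ : d₃ ∈ D) (h12 : d₁ ≠ d₂) (h13 : d₁ ≠ d₃) (h23 : d₂ ≠ d₃) (c12 : Commute d₁ d₂) (c13 : Commute d₁ d₃) (c23 : Commute d₂ d₃) (E CL K : Subgroup G) (hE : E = Subgroup.closure ({d₁ * d₂, d₁ * d₃} : Set G)) (hCL : CL = L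 ⊓ Subgroup.centralizer ({d₁ * d₂ * d₃} : Set G)) (hK : K = (Cfsg.generalizedFittingSubgroup ↥CL).map CL.subtype) : Cfsg.IsQuasisimple ↥K ∧ (Subgroup.center ↥K).map K.subtype = E ∧ K = L ⊓ Subgroup.centralizer (E : Set G) ∧ (∃ (_ : (E.subgroupOf K).Normal) (F : Type) (_ : Field F) (_ : Fintype F), Fintype.card F = 4 ∧ Nonempty (↥K ⧸ E.subgroupOf K ≃* Cfsg.PSU 6 F 2)) ∧ ∃ _ : (K.subgroupOf CL).Normal, Nonempty (↥CL ⧸ K.subgroupOf CL ≃* Equiv.Perm (Fin 3)) ∧ E ≤ CL ∧ ∃ (_ : (E.subgroupOf CL).Normal) (F : Type) (_ : Field F) (_ : Fintype F), Fintype.card F = 4 ∧ Nonempty (↥CL ⧸ E.subgroupOf CL ≃* MulAut (Cfsg.PSU 6 F 2)) := by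
  have H := H51.Fi.l24_of_type hD hprim h24
  have h := H.lev
  have hN := h.noRel24.mono (show 7 ≤ 8 by decide)
  have hl := H51.Fi.clq_three h₁ h₂ h₃ h12 h13 h23 c12 c13 c23
  have hC' : CL = L ⊓ Subgroup.normalizer {d₁, d₂, d₃} := by
    rw [← H51.Fi.set_three, ← H51.Fi.cent_prod h.tt h.cjm hN hl (by simp), hCL]; simp [mul_assoc]
  subst hL
  obtain ⟨D6, h6⟩ := H51.Fi.lev22
  obtain ⟨p, hp⟩ := h.sec3 H51.Fi.lev23 h6 h₁ ⟨h₂, h12.symm, c12⟩ ⟨h₃, h13.symm, c13⟩
    ⟨h₃, h23.symm, c23⟩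
  have := H51.Fi.simpleU6
  have s1 := H95.TT.mul_self h.tt h₁
  have s2 := H95.TT.mul_self h.tt h₂
  have s3 := H95.TT.mul_self h.tt h₃
  have r12 := h.rel24.mem_comm h.tt h.cjm (y := d₃) (l := [d₁, d₂]) (h.tr24 (by simp))
    (h.tr24 (by simp)) rfl (H51.Fi.clq_three h₃ h₁ h₂ h13.symm h23.symm h12 c13.symm c23.symm c12)
    (B := {d₁, d₂, d₃}) (by ext; simp; tauto)
  have r13 := h.rel24.mem_comm h.tt h.cjm (y := d₂) (l := [d₁, d₃]) (h.tr24 (by simp))
    (h.tr24 (by simp)) rfl (H51.Fi.clq_three h₂ h₁ h₃ h12.symm h23 h13 c12.symm c23 c13)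
    (B := {d₁, d₂, d₃}) (by ext; simp; tauto)
  simp only [List.prod_cons, List.prod_nil, mul_one] at r12 r13
  have r123 : d₁ * d₂ * d₃ ∈ Subgroup.closure (H51.Fi.nbs D {d₁, d₂, d₃}) := by
    obtain ⟨l, k1, k2⟩ := h.cfg24.exists_clq (show 4 ≤ 5 by decide)
    obtain ⟨y, l, rfl⟩ := List.exists_cons_of_length_eq_add_one k2
    obtain ⟨g, e⟩ := h.tr24 (show 3 ≤ 5 by decide) l _ (H51.Fi.clq_cons.1 k1).2.2 hl
      (by simpa using k2) rfl
    have k3 := k1.cj h.cjm g
    rw [List.map_cons, e] at k3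
    obtain ⟨xs, k4, -, k5⟩ := h.rel24.prod_eq h.tt h.cjm (h.tr24 (by simp)) (by simp) k3
    have : d₁ * d₂ * d₃ = xs.prod := by rw [← k5]; simp [mul_assoc]
    rw [this]
    exact list_prod_mem fun x hx => Subgroup.subset_closure
      ⟨(k4 x hx).1, fun b hb => (k4 x hx).2 b (by rcases hb with rfl | rfl | rfl <;> simp)⟩
  have hO : Nat.card (Cfsg.Out H51.Fi.U6) = 6 := by
    obtain ⟨φ, k1, -, k2⟩ := S2603.result (K := H29.F4) (p := 2) (f := 1) (q := 2) (n := 6) le_rfl
      rfl (by decide) (by decide) (by decide)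
    rw [← Subgroup.card_mul_index φ.ker, k2, Subgroup.index_ker, MonoidHom.range_eq_top.2 k1]
    simp
  have q := H51.Fi.perm_quot hl (h.tr24 (by simp)) (d := d₁) (by simp) (H.split h₁) (X := CL)
    (by rw [H51.Fi.set_three, hC']) rfl
  rw [H51.Fi.set_three] at q
  have m := H51.Fi.main_aut h.cjm hl (h.tr24 (by simp)) (d := d₁) (by simp) (H.split h₁)
    (H51.Fi.set_three d₁ d₂ d₃).symm hp H51.Fi.ncU6 ?_ (W := E) ?_ ?_ hO hC' rfl
  · rw [m.2.1] at hK
    rw [← hK] at m q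
    obtain ⟨m1, -, m2, m3, ⟨m4, m5⟩, m6, m7⟩ := m
    refine ⟨m1, m2, ?_, ⟨m4, H29.F4, inferInstance, inferInstance, by decide, m5⟩, q.2.2.2.1,
      q.2.2.2.2, m3.trans q.1, m6, H29.F4, inferInstance, inferInstance, by decide, m7⟩
    rw [hK, hE, Subgroup.centralizer_closure]
    congr 1
    ext g
    rw [H51.Fi.mem_cent_three, H51.Fi.mem_cent_two]
    refine ⟨fun k => ⟨k.1.mul_right k.2.1, k.1.mul_right k.2.2⟩, fun k => ?_⟩
    have a1 := H51.Fi.cent_prod h.tt h.cjm hN (H51.Fi.clq_two h₁ h₂ h12 c12) (by simp)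
    have a2 := H51.Fi.cent_prod h.tt h.cjm hN (H51.Fi.clq_two h₁ h₃ h13 c13) (by simp)
    simp only [List.prod_cons, List.prod_nil, mul_one, H51.Fi.set_two] at a1 a2
    have b1 := H51.Fi.cj_mem_norm (a1 ▸ H52.Fi.mem_cent.2 k.1) (Set.mem_insert d₁ _)
    have b2 := H51.Fi.cj_mem_norm (a2 ▸ H52.Fi.mem_cent.2 k.2) (Set.mem_insert d₁ _)
    have b3 : Commute g d₁ := by
      rw [← H95.cj_eq_self_iff]
      rcases b1 with e | e
      · exact e
      · rcases b2 with e' | e'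
        exacts [e', absurd (e.symm.trans e') h23]
    exact ⟨b3, H52.Fi.commute_of_mul k.1 b3, H52.Fi.commute_of_mul k.2 b3⟩
  · have k3 : d₃ ∈ Subgroup.closure (H51.Fi.nbs D {d₁, d₂, d₃}) :=
      (Subgroup.mul_mem_cancel_left _ r12.2).1 r123
    have k1 := (Subgroup.mul_mem_cancel_right _ k3).1 r13.2
    rintro x (rfl | rfl | rfl)
    exacts [k1, (Subgroup.mul_mem_cancel_left _ k1).1 r12.2, k3]
  · subst hE
    refine H51.Fi.inf_closure s1 (H.nmem _ h₁) ?_ ?_ ?_ ?_
    · rintro x (rfl | rfl | rfl)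
      exacts [Commute.refl _, c12, c13]
    · rintro x (rfl | rfl | rfl)
      · rw [s1]; exact one_mem _
      · rw [← c12.eq]; exact Subgroup.subset_closure (by simp)
      · rw [← c13.eq]; exact Subgroup.subset_closure (by simp)
    · rw [Subgroup.closure_le]
      rintro x (rfl | rfl)
      exacts [H95.mul_mem_commutator h.cls h₁ h₂, H95.mul_mem_commutator h.cls h₁ h₃]
    · rw [Subgroup.closure_le]
      rintro x (rfl | rfl) <;>
      exact mul_mem (Subgroup.subset_closure (by simp)) (Subgroup.subset_closure (by simp))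
  · rw [hE, Subgroup.closure_le]
    rintro x (rfl | rfl)
    exacts [r12.1, r13.1]
end Cfsg.Agent.S5466
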