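import Cfsg.Statements.S5468
import Cfsg.Agent.H51.FiE

set_option autoImplicit false
open Cfsg

namespace Cfsg.Agent.S5468

/-- Let G be a finite group with trivial centre generated by a conjugation-invariant set D of 3-transpositions on which it acts primitively, such that for some d in D the subgroup generated by the members of D other than d commuting with d has central largest normal 2- and 3-subgroups, and suppose G with D is of type M(23). Let d₁, d₂ be distinct commuting members of D, j = d₁ d₂, K the joint centralizer of d₁ and d₂ and C the centralizer of j. Then K has index 2 in C, the centre of K is the subgroup generated by d₁ and d₂, K is quasisimple with K modulo its centre isomorphic to the projective special unitary group of dimension 6 over the field with four elements, and C modulo the subgroup generated by d₁ and d₂ has trivial centre (so it is that unitary group extended by an outer involution). -/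
theorem result {G : Type*} [Group G] [Finite G] {D : Set G} (hD : Cfsg.IsThreeTranspositionGroup D) (hprim : Cfsg.IsPrimitiveUnderConj D) (d₀ : G) (hd₀ : d₀ ∈ D) (h3 : Cfsg.pCore 3 ↥(Subgroup.closure {y : G | y ∈ D ∧ y ≠ d₀ ∧ Commute d₀ y}) ≤ Subgroup.center ↥(Subgroup.closure {y : G | y ∈ D ∧ y ≠ d₀ ∧ Commute d₀ y})) (h2 : Cfsg.pCore 2 ↥(Subgroup.closure {y : G | y ∈ D ∧ y ≠ d₀ ∧ Commute d₀ y}) ≤ Subgroup.center ↥(Subgroup.closure {y : G | y ∈ D ∧ y ≠ d₀ ∧ Commute d₀ y})) (h23 : Cfsg.IsOfTypeM23 G D) (d₁ d₂ : G) (h₁ : d₁ ∈ D) (h₂ : d₂ ∈ D) (hne : d₁ ≠ d₂) (hc : Commute d₁ d₂) (K C V : Subgroup G) (hK : K = Subgroup.centralizer ({d₁, d₂} : Set G)) (hC : C = Subgroup.centralizer ({d₁ * d₂} : Set G)) (hV : V = Subgroup.closure ({d₁, d₂} : Set G)) [hn : (V.subgroupOf C).Normal] : K ≤ C ∧ (K.subgroupOf C).index = 2 ∧ (Subgroup.center ↥K).map K.subtype = V ∧ Cfsg.IsQuasisimple ↥K ∧ (∃ (F : Type) (_ : Field F) (_ : Fintype F), Fintype.card F = 4 ∧ Nonempty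 (↥K ⧸ Subgroup.center ↥K ≃* Cfsg.PSU 6 F 2)) ∧ Subgroup.center (↥C ⧸ V.subgroupOf C) = ⊥ := by
  obtain ⟨h, -⟩ := H51.Fi.lev_of_type23 hD h23
  have hl := H51.Fi.clq_two h₁ h₂ hne hc
  have hC' : C = Subgroup.normalizer {d₁, d₂} := by
    rw [← H51.Fi.set_two, ← H51.Fi.cent_prod h.tt h.cjm h.noRel23 hl (by simp), hC]; simp
  have q := H51.Fi.perm_quot hl (h.tr23 (by simp)) (L := ⊤) (d := d₁) (by simp)
    (fun x => Or.inl (Subgroup.mem_top x)) (X := C) (K := K)
    (by rw [top_inf_eq, H51.Fi.set_two, hC']) (by rw [top_inf_eq, H51.Fi.set_two, hK])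
  obtain ⟨D6, h6⟩ := H51.Fi.lev22
  obtain ⟨p, hp⟩ := h.sec2 h6 h₁ ⟨h₂, hne.symm, hc⟩
  have := H51.Fi.simpleU6
  have hZ := H51.Fi.center_eq_bot_of_simple H51.Fi.ncU6
  have r1 := h.rel23.mem_comm h.tt h.cjm (y := d₂) (l := [d₁]) (h.tr23 (by simp)) (h.tr23 (by simp))
    rfl (hl.perm (List.Perm.swap _ _ _)) (B := {d₁, d₂}) (by rw [H51.Fi.set_two, Set.pair_comm])
  have r2 := h.rel23.mem_comm h.tt h.cjm (y := d₁) (l := [d₂]) (h.tr23 (by simp)) (h.tr23 (by simp))
    rfl hl (B := {d₁, d₂}) (by rw [H51.Fi.set_two])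
  rw [List.prod_singleton] at r1 r2
  subst hK hV
  refine ⟨q.1, q.2.1, ?_, hp.quasisimple H51.Fi.ncU6 ?_ H51.Fi.closure_comm,
    ⟨H29.F4, inferInstance, inferInstance, by decide, hp.equiv_center hZ H51.Fi.closure_comm⟩, ?_⟩
  · rw [hp.center_eq hZ H51.Fi.closure_comm, Subgroup.subgroupOf_map_subtype, inf_of_le_left hp.le]
  · rw [Subgroup.closure_le]
    rintro x (rfl | rfl)
    exacts [r1.1, r2.1]
  · rw [eq_bot_iff]
    intro y hy
    obtain ⟨g, rfl⟩ := QuotientGroup.mk_surjective y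
    rw [Subgroup.mem_bot, QuotientGroup.eq_one_iff, Subgroup.mem_subgroupOf]
    have hg : (g : G) ∈ Subgroup.normalizer {d₁, d₂} := hC' ▸ g.2
    refine hp.mem_of_triv h.cjm hZ ?_ hg fun x hx => ?_
    · rintro x (rfl | rfl)
      exacts [r1.2, r2.2]
    · rw [hp.eq_iff (H51.Fi.cj_cent hg hx) hx]
      have e := Subgroup.mem_center_iff.1 hy (QuotientGroup.mk ⟨x, q.1 hx⟩)
      have e2 : (QuotientGroup.mk (g * ⟨x, q.1 hx⟩ * g⁻¹) :
          C ⧸ (Subgroup.closure {d₁, d₂}).subgroupOf C) = QuotientGroup.mk ⟨x, q.1 hx⟩ := by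
        rw [QuotientGroup.mk_mul, QuotientGroup.mk_mul, ← e, QuotientGroup.mk_inv,
          mul_inv_cancel_right]
      have e3 := QuotientGroup.eq.1 e2
      exact Subgroup.mem_subgroupOf.1 e3
end Cfsg.Agent.S5468
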