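import Cfsg.Statements.S5469
import Cfsg.Agent.H96.C2T
-- import your own Cfsg.Agent.* helpers here

set_option autoImplicit false
open Cfsg

namespace Cfsg.Agent.S5469

/-- Let G be a finite group with trivial centre generated by a conjugation-invariant set D of 3-transpositions on which it acts primitively, such that for some d in D the subgroup generated by the members of D other than d commuting with d has central largest normal 2- and 3-subgroups, and suppose G with D is of type M(22). Let d₁, d₂ be distinct commuting members of D, j = d₁ d₂, K the joint centralizer of d₁ and d₂, C the centralizer of j and V the subgroup generated by d₁ and d₂. Then K has index 2 in C, V is the centre of K, and C has a normal subgroup E containing V with E/V elementary abelian of order 2^8 and C/E isomorphic to the full automorphism group of the projective special unitary group of dimension 4 over the field with four elements. -/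
theorem result {G : Type*} [Group G] [Finite G] {D : Set G} (hD : Cfsg.IsThreeTranspositionGroup D) (hprim : Cfsg.IsPrimitiveUnderConj D) (d₀ : G) (hd₀ : d₀ ∈ D) (h3 : Cfsg.pCore 3 ↥(Subgroup.closure {y : G | y ∈ D ∧ y ≠ d₀ ∧ Commute d₀ y}) ≤ Subgroup.center ↥(Subgroup.closure {y : G | y ∈ D ∧ y ≠ d₀ ∧ Commute d₀ y})) (h2 : Cfsg.pCore 2 ↥(Subgroup.closure {y : G | y ∈ D ∧ y ≠ d₀ ∧ Commute d₀ y}) ≤ Subgroup.center ↥(Subgroup.closure {y : G | y ∈ D ∧ y ≠ d₀ ∧ Commute d₀ y})) (h22 : Cfsg.IsOfTypeM22 G D) (d₁ d₂ : G) (h₁ : d₁ ∈ D) (h₂ : d₂ ∈ D) (hne : d₁ ≠ d₂) (hc : Commute d₁ d₂) (K C V : Subgroup G) (hK : K = Subgroup.centralizer ({d₁, d₂} : Set G)) (hC : C = Subgroup.centralizer ({d₁ * d₂} : Set G)) (hV : V = Subgroup.closure ({d₁, d₂} : Set G)) : K ≤ C ∧ (K.subgroupOf C).index = 2 ∧ (Subgroup.center ↥K).map K.subtype = V ∧ ∃ E : Subgroup G, V ≤ E ∧ E ≤ C ∧ (∀ c ∈ C, ∀ x ∈ E, c * x * c⁻¹ ∈ E) ∧ Nat.card E = 2 ^ 10 ∧ (∀ x ∈ E, ∀ y ∈ E, x * y * x⁻¹ * y⁻¹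 ∈ V ∧ x ^ 2 ∈ V) ∧ ∃ (_ : (E.subgroupOf C).Normal) (F : Type) (_ : Field F) (_ : Fintype F), Fintype.card F = 4 ∧ Nonempty (↥C ⧸ E.subgroupOf C ≃* MulAut (Cfsg.PSU 4 F 2)) := by
  obtain ⟨T, h, rfl, rfl, -⟩ := H96.C2B.exists_is22_at hD h22 h₁ h₂ hne hc
  subst hK hC hV
  have k : Subgroup.centralizer ({T.el 1, T.el 3} : Set G) =
      Subgroup.centralizer {T.el 1} ⊓ Subgroup.centralizer {T.el 3} := by
    ext g; simp [Subgroup.mem_centralizer_iff]
  have h1 : Subgroup.centralizer ({T.el 1, T.el 3} : Set G) ≤ Subgroup.centralizer {T.el 1 * T.el 3} :=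
    k ▸ fun g hg => H52.Fi.mem_cent.2 ((H52.Fi.mem_cent.1 hg.1).mul_right (H52.Fi.mem_cent.1 hg.2))
  obtain ⟨ψ, h4, h5⟩ := H96.C2B.psiG h
  have hn : ((H96.C2B.E10 T).subgroupOf (Subgroup.centralizer {T.el 1 * T.el 3})).Normal :=
    h5 ▸ inferInstance
  have ha : T.el 1 ∈ H96.C2B.E10 T := Subgroup.mem_sup_right (Subgroup.subset_closure rfl)
  have hz := (H96.C2B.E10_c2 h).mem
  obtain ⟨e⟩ := H96.O6m_equiv
  refine ⟨h1, ?_, H96.C2B.center_K h, H96.C2B.E10 T, ?_, H96.C2B.E10_le h, fun c hc x hx =>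
    hn.conj_mem ⟨x, H96.C2B.E10_le h hx⟩ hx ⟨c, hc⟩, H96.C2B.card_E10 h,
    (H96.C2B.E10_c2 h).mod (mul_mem (Subgroup.subset_closure (by simp))
      (Subgroup.subset_closure (by simp))), hn, H29.F4, inferInstance, inferInstance, rfl,
    ⟨((QuotientGroup.quotientMulEquivOfEq h5.symm).trans
      (QuotientGroup.quotientKerEquivOfSurjective ψ h4)).trans e⟩⟩
  · have := Subgroup.card_mul_index ((Subgroup.centralizer ({T.el 1, T.el 3} : Set G)).subgroupOf
      (Subgroup.centralizer {T.el 1 * T.el 3}))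
    rw [Nat.card_congr (Subgroup.subgroupOfEquivOfLe h1).toEquiv, h.card_cent2 h.cp2] at this
    rw [k, h.card_c2, ← k] at this
    omega
  · rw [Subgroup.closure_le]
    rintro _ (rfl | rfl)
    · exact ha
    · simpa using mul_mem (inv_mem ha) hz

end Cfsg.Agent.S5469
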