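import Cfsg.Statements.S5517
import Cfsg.Agent.H56.Fi22O7
import Cfsg.Agent.H96.Ident22

set_option autoImplicit false
open Cfsg

namespace Cfsg.Agent.S5517



/-- Let G be a finite group with trivial centre generated by a conjugation-invariant set D of 3-transpositions on which it acts primitively, such that for some d in D the subgroup generated by the members of D other than d commuting with d has central largest normal 2- and 3-subgroups, and suppose G with D is of type M(22). Then G has a subgroup L generated by the members of D it contains and isomorphic to Ω(7, 3) (the commutator subgroup of the isometry group of a non-degenerate 7-dimensional quadratic form over the field with three elements, modulo its centre), and every Sylow 3-subgroup of L is a Sylow 3-subgroup of G. -/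
theorem result {G : Type*} [Group G] [Finite G] {D : Set G} (hD : Cfsg.IsThreeTranspositionGroup D) (hprim : Cfsg.IsPrimitiveUnderConj D) (d₀ : G) (hd₀ : d₀ ∈ D) (h3 : Cfsg.pCore 3 ↥(Subgroup.closure {y : G | y ∈ D ∧ y ≠ d₀ ∧ Commute d₀ y}) ≤ Subgroup.center ↥(Subgroup.closure {y : G | y ∈ D ∧ y ≠ d₀ ∧ Commute d₀ y})) (h2 : Cfsg.pCore 2 ↥(Subgroup.closure {y : G | y ∈ D ∧ y ≠ d₀ ∧ Commute d₀ y}) ≤ Subgroup.center ↥(Subgroup.closure {y : G | y ∈ D ∧ y ≠ d₀ ∧ Commute d₀ y})) (h22 : Cfsg.IsOfTypeM22 G D) : ∃ L : Subgroup G, Cfsg.IsDSubgroup D L ∧ Nonempty (↥L ≃* Cfsg.POmega (ZMod 3) (Cfsg.quadFormOdd 3 (ZMod 3))) ∧ ∀ P : Sylow 3 ↥L, ∃ P' : Sylow 3 G, (P : Subgroup ↥L).map L.subtype = (P' : Subgroup G) := by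
  obtain ⟨e, he⟩ := H96.ident22 hD h22
  obtain ⟨ε⟩ := H56.Fi22O7.K_equiv
  have : Fact (Nat.Prime 3) := ⟨by decide⟩
  let L := H58.Fi22P.K.map e.symm.toMonoidHom
  have hL : L = Subgroup.closure (e.symm '' H96.T22.st H56.Fi22O7.R) := by
    simp only [L]
    rw [← H56.Fi22O7.closure_eq, MonoidHom.map_closure]
    rfl
  have hi : L.index = 14080 :=
    (Subgroup.index_map_equiv _ e.symm).trans H58.Fi22P.index_K.1
  refine ⟨L, le_antisymm ((Subgroup.closure_le _).2 fun _ h => h.2) ?_,
    ⟨(e.symm.subgroupMap _).symm.trans ε⟩, fun P => ?_⟩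
  · refine hL.le.trans (Subgroup.closure_mono ?_)
    rintro _ ⟨x, hx, rfl⟩
    refine ⟨(H52.Fi.mem_of_image e he _).2 ?_, hL ▸ Subgroup.subset_closure ⟨x, hx, rfl⟩⟩
    rw [e.apply_symm_apply]
    exact H96.T22.st_subset _ hx
  · refine ⟨(P.2.map L.subtype).toSylow ?_, rfl⟩
    rw [Subgroup.index_map_subtype, hi]
    exact (Nat.Prime.not_dvd_mul (by decide) P.not_dvd_index (by decide))

end Cfsg.Agent.S5517
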