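import Cfsg.Statements.S5519
import Cfsg.Agent.H96.C2T
-- import your own Cfsg.Agent.* helpers here

set_option autoImplicit false
open Cfsg

namespace Cfsg.Agent.S5519

/-- Let G be a finite group with trivial centre generated by a conjugation-invariant set D of 3-transpositions on which it acts primitively, such that for some d in D the subgroup generated by the members of D other than d commuting with d has central largest normal 2- and 3-subgroups, and suppose G with D is of type M(22). Let d₁, d₂ be distinct commuting members of D and C the centralizer of their product. Then the generalized Fitting subgroup of C is the direct product of a group of order 2 and an extraspecial 2-group of order 2^9, and C modulo it is isomorphic to the full isometry group of the elliptic quadratic form in dimension 6 over the field with two elements. -/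
theorem result {G : Type*} [Group G] [Finite G] {D : Set G} (hD : Cfsg.IsThreeTranspositionGroup D) (hprim : Cfsg.IsPrimitiveUnderConj D) (d₀ : G) (hd₀ : d₀ ∈ D) (h3 : Cfsg.pCore 3 ↥(Subgroup.closure {y : G | y ∈ D ∧ y ≠ d₀ ∧ Commute d₀ y}) ≤ Subgroup.center ↥(Subgroup.closure {y : G | y ∈ D ∧ y ≠ d₀ ∧ Commute d₀ y})) (h2 : Cfsg.pCore 2 ↥(Subgroup.closure {y : G | y ∈ D ∧ y ≠ d₀ ∧ Commute d₀ y}) ≤ Subgroup.center ↥(Subgroup.closure {y : G | y ∈ D ∧ y ≠ d₀ ∧ Commute d₀ y})) (h22 : Cfsg.IsOfTypeM22 G D) (d₁ d₂ : G) (h₁ : d₁ ∈ D) (h₂ : d₂ ∈ D) (hne : d₁ ≠ d₂) (hc : Commute d₁ d₂) (C : Subgroup G) (hC : C = Subgroup.centralizer ({d₁ * d₂} : Set G)) [hn : (Cfsg.generalizedFittingSubgroup ↥C).Normal] : (∃ (E : Type) (_ : Group E) (_ : Finite E), Cfsg.IsExtraspecial 2 E ∧ Nat.card E = 2 ^ 9 ∧ Nonempty (↥(Cfsg.generalizedFittingSubgroup ↥C) ≃* Multiplicative (ZMod 2) × E)) ∧ Nonempty (↥C ⧸ Cfsg.generalizedFittingSubgroup ↥C ≃* Cfsg.isometryGroup (ZMod 2) (Cfsg.quadFormMinus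 2 (ZMod 2) 1 1)) := by
  obtain ⟨T, h, rfl, rfl, -⟩ := H96.C2B.exists_is22_at hD h22 h₁ h₂ hne hc
  subst hC
  have : Fact (Nat.Prime 2) := ⟨Nat.prime_two⟩
  obtain ⟨ψ, h4, h5⟩ := H96.C2B.psiG h
  have hF := H96.C2B.gfG h
  obtain ⟨q1, q2, q3⟩ := H96.C2B.Q9_ex h
  have e0 : Shrink.{0} (H96.C2B.Q9 T) ≃* H96.C2B.Q9 T := Shrink.mulEquiv
  refine ⟨⟨Shrink.{0} (H96.C2B.Q9 T), inferInstance, Finite.of_equiv _ e0.symm.toEquiv,
    H15.isExtraspecial_congr e0.symm ((q1.ex (H96.C2B.z_ne h) q3).isExtraspecial (by rw [q2]; decide)),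
    (Nat.card_congr e0.toEquiv).trans q2, ?_⟩, ⟨(QuotientGroup.quotientMulEquivOfEq
      (hF.trans h5.symm)).trans (QuotientGroup.quotientKerEquivOfSurjective ψ h4)⟩⟩
  obtain ⟨e1⟩ := H96.C2B.E10_equiv h
  exact ⟨(MulEquiv.subgroupCongr hF).trans ((Subgroup.subgroupOfEquivOfLe (H96.C2B.E10_le h)).trans
    (e1.trans ((MulEquiv.refl _).prodCongr e0.symm)))⟩

end Cfsg.Agent.S5519
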