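import Cfsg.Statements.S5521
import Cfsg.Agent.H14.M24

set_option autoImplicit false
open Cfsg

namespace Cfsg.Agent.S5521

open Cfsg.Agent.H14

theorem exists_fix (a : GolayPt) : ∃ h ∈ M24, h ≠ 1 ∧ h a = a ∧ ∀ i : Fin 5, h (pt (![23, 0, 1, 2, 3] i)) = pt (![23, 0, 1, 2, 3] i) := by
  have h5 := m24_chain.2.2.2.2.2.2.2.2.2.2
  set K := _ ⊓ MulAction.stabilizer (Equiv.Perm GolayPt) (GE.pt m24CertL4.b) with hK
  have hc : Nat.card K = 48 := by rw [Enc.IsChain.card (E := GE) (Ls := [m24CertL5, m24CertL6]) h5]; decide +kernel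
  have h2 := card_eq_orbit_mul K a
  have h3 : {b | ∃ g ∈ K, g • a = b}.ncard ≤ 24 := by
    rw [← card_golayPt, ← Nat.card_eq_fintype_card]; exact Set.ncard_le_card _
  have h4 : K ⊓ MulAction.stabilizer (Equiv.Perm GolayPt) a ≠ ⊥ := by
    intro h
    rw [h, Subgroup.card_bot] at h2
    omega
  obtain ⟨⟨h, hh⟩, hne⟩ := (Subgroup.ne_bot_iff_exists_ne_one.1 h4)
  refine ⟨h, hh.1.1.1.1.1.1, fun e => hne (Subtype.ext e), hh.2, fun i => ?_⟩
  fin_cases i
  exacts [hh.1.1.1.1.1.2, hh.1.1.1.1.2, hh.1.1.1.2, hh.1.1.2, hh.1.2]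


/-- The Mathieu group M₂₄ in its natural action on the 24 coordinate positions of the binary Golay code has minimal base size exactly 7: every set of at most 6 positions is fixed pointwise by some non-identity element of M₂₄, while some set of 7 positions is fixed pointwise only by the identity. -/
theorem result :
    (∀ B : Finset Cfsg.GolayPt, B.card ≤ 6 → ∃ g ∈ Cfsg.M24, g ≠ 1 ∧ ∀ b ∈ B, g b = b) ∧
    (∃ B : Finset Cfsg.GolayPt, B.card = 7 ∧ ∀ g ∈ Cfsg.M24, (∀ b ∈ B, g b = b) → g = 1) := by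
  refine ⟨fun B hB => ?_, bits 8388671, by rw [card_bits]; decide +kernel,
    fun g hg h => eq_one_of_fix_base hg h⟩
  obtain ⟨B', hBB', h6⟩ := Finset.exists_superset_card_eq hB (by rw [card_golayPt]; norm_num)
  let e := (Finset.equivFinOfCardEq h6).symm
  obtain ⟨g, hg, hge⟩ := m24_exists_apply_eq le_rfl (fun i : Fin 5 => (e i.castSucc : GolayPt))
    (fun i => pt (![23, 0, 1, 2, 3] i))
    (Subtype.val_injective.comp (e.injective.comp (Fin.castSucc_injective _))) (by decide)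
  obtain ⟨h, hh, hne, ha, hf⟩ := exists_fix (g (e (Fin.last 5)))
  refine ⟨g⁻¹ * h * g, M24.mul_mem (M24.mul_mem (M24.inv_mem hg) hh) hg, fun hc => hne ?_,
    fun b hb => ?_⟩
  · rw [← mul_left_cancel_iff (a := g⁻¹), ← mul_right_cancel_iff (a := g), hc]; simp
  · obtain ⟨i, hi⟩ := e.surjective ⟨b, hBB' hb⟩
    have hb' : b = e i := by rw [hi]
    rw [hb', Equiv.Perm.mul_apply, Equiv.Perm.mul_apply, Equiv.Perm.inv_eq_iff_eq]
    induction i using Fin.lastCases with
    | last => exact ha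
    | cast i => rw [hge i, hf i]

end Cfsg.Agent.S5521
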