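import Cfsg.Statements.S5529
import Cfsg.Agent.H14.Ree
import Cfsg.Agent.H14.MClasses
import Cfsg.Agent.H14.Local

set_option autoImplicit false
open Cfsg

namespace Cfsg.Agent.S5529

open H14

structure Tr where
  p : ℕ
  q : ℕ
  r : ℕ
  X : ℕ
  Y : ℕ
  u : List ℕ
  v : List ℕ

noncomputable def trOK (t : Tr) : Bool :=
  valid (nat_lit 5) (nat_lit 32) (nat_lit 24) t.X && valid (nat_lit 5) (nat_lit 32) (nat_lit 24) t.Y &&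
  sift (nat_lit 5) (nat_lit 32) (nat_lit 24) m24CertL.tail t.X &&
  sift (nat_lit 5) (nat_lit 32) (nat_lit 24) m24CertL.tail t.Y &&
  Nat.ble 1 t.p && Nat.ble 1 t.q && Nat.ble 1 t.r &&
  Nat.beq (ordN (nat_lit 5) (nat_lit 32) (nat_lit 24) t.X 24) t.p &&
  Nat.beq (ordN (nat_lit 5) (nat_lit 32) (nat_lit 24) t.Y 24) t.q &&
  Nat.beq (ordN (nat_lit 5) (nat_lit 32) (nat_lit 24) (comp (nat_lit 5) (nat_lit 32) (nat_lit 24) t.X t.Y) 24) t.r &&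
  allL m23Gens fun P => Nat.beq (evalWord (nat_lit 5) (nat_lit 32) (nat_lit 24) [t.X, t.Y] t.u) P ||
    Nat.beq (evalWord (nat_lit 5) (nat_lit 32) (nat_lit 24) [t.X, t.Y] t.v) P

def trs : List Tr := [
  ⟨2, 5, 11, nat_lit 0xb90b49b62b0ba488284c19ab63a5e0, nat_lit 0xbd8b26b86802a115a6813bcc223275, [0, 3, 3, 0, 3, 3, 0, 2, 0, 3, 3, 0, 3, 0, 2, 0, 2, 0, 3, 0, 2, 0, 2, 0, 2], [3, 0, 3, 3, 0, 3, 0, 2, 0, 3, 0, 2, 0, 3, 3, 0, 2, 2, 0, 2, 2, 0, 2, 0, 3, 0]⟩,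
  ⟨2, 5, 23, nat_lit 0xbce95b1d2e7c1ac5aa239004441426, nat_lit 0xb95463cab06890f24d898868372ec0, [0, 2, 0, 2, 2, 0, 3, 0, 3, 3, 0, 3, 3, 0, 2, 2, 0, 3, 3, 0], [3, 3, 0, 3, 3, 0, 3, 3, 0, 3, 3, 0, 3, 0, 3, 3, 0, 2, 0, 3, 0, 3, 3, 0, 2, 2]⟩,
  ⟨2, 7, 7, nat_lit 0xbbaa3998417d9ac4008b3c8a9a460a, nat_lit 0xbced06362502ea3220f4099e99384a, [3, 3, 0, 3, 3, 0, 3, 3, 0, 3, 0, 2, 0, 3, 3, 0, 3, 3], [2, 0, 2, 2, 2, 0, 3, 3, 3, 0, 3, 0, 2, 0, 3, 3, 0, 2, 2, 2, 0, 2, 2, 0]⟩,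
  ⟨2, 7, 11, nat_lit 0xbb9e39ca20ad8ec48564698a8a0950, nat_lit 0xbb10f54ec69346b496b13b8940c040, [3, 3, 3, 0, 3, 0, 2, 0, 2, 2, 2, 0, 2, 0, 2, 0, 3, 0, 2, 0, 2, 2, 2, 0], [0, 2, 0, 2, 0, 2, 2, 0, 3, 0, 3, 3, 0, 2, 0, 2, 2, 0, 2, 0, 2, 0]⟩,
  ⟨2, 7, 23, nat_lit 0xbd9899c9a809e352aa9071166189e0, nat_lit 0xb964a10d10a2ce06366f8a48e35436, [0, 3, 0, 3, 0, 3, 0, 3, 0, 3, 0, 2, 2, 0, 2, 0, 2, 0], [3, 0, 2, 2, 0, 2, 0, 3, 3, 0, 3, 3, 0, 2, 2, 0, 3, 0, 3, 3, 3]⟩,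
  ⟨2, 11, 11, nat_lit 0xb86347caac9b5d059127400aa18ac6, nat_lit 0xb882f5b46e8d0a40598791a154266a, [3, 0, 2, 2, 2, 0, 3, 0, 2, 2, 0, 2, 0, 3, 0, 2, 2, 2, 2, 2, 0, 2, 2, 0, 2], [0, 2, 2, 0, 3, 0, 3, 0, 3, 0, 3, 0, 2, 2, 2, 2, 2, 0, 3, 3, 0, 3, 0]⟩,
  ⟨2, 11, 23, nat_lit 0xbb1d43c8ab155b68012898e2433c2a, nat_lit 0xb8df668640a410774ccb8955560889, [0, 3, 0, 2, 0, 3, 3, 3, 0, 2, 2, 0, 2, 0, 2, 0, 3, 3, 0, 2], [0, 3, 3, 0, 3, 0, 3, 0, 2, 0, 3, 0, 3, 3, 3, 3, 0, 3, 0, 3]⟩,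
  ⟨2, 23, 23, nat_lit 0xba5ab018f013aaca16c88c9441bc33, nat_lit 0xb880c45a69899648055573da538e54, [0, 3, 0, 3, 3, 0, 2, 2, 2, 2, 2, 2, 0, 3, 0, 2, 2, 0, 2, 2, 2, 0], [2, 0, 2, 2, 0, 2, 0, 2, 2, 0, 2, 0, 3, 0, 2, 2, 2, 2]⟩,
  ⟨3, 3, 11, nat_lit 0xb8ec49ca34029ac4a0ee588d0a95e1, nat_lit 0xba2b0a09f3548075c5a4198b663829, [0, 2, 1, 3, 0, 2, 1, 3, 1, 2, 0, 3, 1, 2, 1, 2, 0, 3, 1, 2, 0, 3], [0, 3, 1, 2, 1, 2, 0, 2, 1, 2, 1, 2, 0, 2, 1, 3, 0, 3, 0, 3]⟩,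
  ⟨3, 3, 23, nat_lit 0xbc8e0405898b9af5d48251a901cec5, nat_lit 0xbd9d35ca2f08c87a280813526ab205, [0, 2, 1, 3, 0, 3, 1, 3, 0, 2, 1, 2, 1, 3, 1, 3, 1, 2, 1, 3, 0, 3, 1], [2, 0, 3, 1, 3, 1, 2, 0, 3, 1, 2, 0, 2, 1, 3, 1, 2, 1, 3, 0, 3, 0]⟩,
  ⟨3, 5, 5, nat_lit 0xbc2aa3222d78ed25a68c99dc428402, nat_lit 0xbb9e95c102081aaad0b2219961c667, [3, 0, 2, 2, 1, 3, 1, 2, 2, 1, 2, 2, 1, 2, 2, 0, 2, 2], [3, 1, 2, 2, 1, 2, 0, 3, 0, 3, 0, 3, 0, 2, 2, 1, 3, 1]⟩,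
  ⟨3, 5, 7, nat_lit 0xbc8ea2aea8039b0b09ec8ccc41d029, nat_lit 0xb913419630b04eb43046aaa6e035f2, [1, 2, 0, 2, 1, 3, 0, 2, 2, 0, 2, 0, 2, 1, 2, 1], [0, 3, 1, 2, 0, 3, 1, 2, 2, 0, 3, 3, 0, 3, 3, 0, 2, 2]⟩,
  ⟨3, 5, 11, nat_lit 0xbda93aa5642bdb23a9838a1c234020, nat_lit 0xba2a3708c40b6c75c65383ca04d14c, [2, 0, 2, 0, 2, 2, 0, 3, 3, 1, 3, 0, 3, 1, 2, 0, 3, 0, 3], [3, 3, 1, 3, 1, 2, 1, 2, 0, 2, 2, 1, 3, 1, 3, 0, 2, 0]⟩,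
  ⟨3, 5, 23, nat_lit 0xba6723468e6a16c7a8b0056c419c22, nat_lit 0xba5152c8f0882c125266629ae589e3, [1, 2, 0, 3, 1, 3, 0, 3, 1, 3, 1, 3, 1, 2, 0, 3, 1], [2, 2, 0, 2, 0, 2, 1, 2, 2, 0, 3, 1, 2, 2, 1, 2, 2]⟩,
  ⟨3, 7, 7, nat_lit 0xbacc462670a8a912b8283becd1aa40, nat_lit 0xb9df5b1a286854ea0a6c024a382c92, [1, 2, 2, 1, 3, 0, 2, 0, 2, 0, 2, 1, 3, 1, 3, 1], [1, 3, 3, 3, 0, 3, 3, 0, 2, 0, 2, 0, 2]⟩,
  ⟨3, 7, 11, nat_lit 0xbbeaa9c8a375971222140998d48807, nat_lit 0xbda2d628e44bd028140374e8692c35, [0, 3, 1, 2, 0, 2, 1, 2, 1, 2, 2, 0, 2, 2, 0, 2, 0], [3, 3, 3, 1, 3, 3, 1, 2, 2, 1, 3, 0, 3, 3, 3]⟩,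
  ⟨3, 7, 23, nat_lit 0xbda531142d7206c5a8cf392a985011, nat_lit 0xb8268b45ec215cb12646556071b434, [3, 0, 2, 0, 2, 1, 2, 1, 2, 0, 2, 1, 3, 0, 2], [0, 2, 0, 3, 3, 0, 3, 3, 0, 2, 2, 1, 2, 0, 2, 2]⟩,
  ⟨3, 11, 11, nat_lit 0xbd5cd10150a59e6622513acb319029, nat_lit 0xbcd8b14aa33154121c0d746d07a688, [0, 3, 3, 1, 3, 0, 2, 2, 0, 3, 3, 3, 1, 2, 1], [1, 2, 0, 2, 0, 2, 2, 0, 3, 1, 2, 1, 3, 1]⟩,
  ⟨3, 11, 23, nat_lit 0xbda0a648a80386259d35a44cf0cda4, nat_lit 0xb95cb9a586aa80d41de48087688654, [3, 1, 2, 1, 2, 1, 2, 2, 0, 3, 3, 0, 3, 3, 0, 2, 1, 2], [3, 0, 3, 0, 2, 1, 2, 2, 0, 2, 0, 3, 0, 2, 2]⟩,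
  ⟨3, 23, 23, nat_lit 0xb9ec354965a39b323048aa43179a00, nat_lit 0xba470b451503453238275524c2ade6, [2, 0, 2, 0, 3, 0, 2, 1, 3, 1, 3, 0, 3], [0, 2, 2, 0, 3, 0, 3, 0, 3, 3, 0, 2, 0, 2, 0, 2]⟩,
  ⟨5, 5, 5, nat_lit 0xbb52533e51385935d068859c225540, nat_lit 0xb96ab63843302d16ca703a2847a541, [2, 1, 3, 3, 0, 2, 1, 3, 0, 2, 2, 1, 2, 1, 3], [1, 3, 1, 3, 3, 0, 3, 3, 1, 3, 0]⟩,
  ⟨5, 5, 7, nat_lit 0xb9d23819f174c04ac9a8a30aa1582b, nat_lit 0xb8ab240e2e200c182a6db256763e85, [2, 2, 0, 2, 2, 0, 2, 1, 3, 3, 1, 2, 1, 2, 2, 1], [0, 3, 3, 1, 3, 1, 2, 1, 3, 3, 1, 2, 1, 2, 0, 0]⟩,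
  ⟨5, 5, 11, nat_lit 0xb89f18240d1b8e65b29345aa522832, nat_lit 0xb98259c595859a79392258d0f50094, [3, 0, 3, 0, 0, 3, 1, 3, 3, 1, 3, 1, 3, 0, 3], [1, 2, 1, 3, 3, 0, 3, 3, 0, 3, 3, 0, 2, 0]⟩,
  ⟨5, 5, 23, nat_lit 0xba4ac9c0d59588a3ac2ea35e388900, nat_lit 0xbc9940444a8392f254a76d90119a6b, [1, 3, 3, 0, 3, 1, 1, 3, 3, 1, 1, 2, 1, 1, 3], [0, 3, 1, 3, 0, 3, 0, 3, 0, 2, 0, 3, 0, 0, 3, 0, 3]⟩,
  ⟨5, 7, 7, nat_lit 0xbc8c8acc647b8490a9a56596081e91, nat_lit 0xbd9d0122ad2492763d530957434460, [3, 1, 3, 3, 0, 2, 0, 2, 2, 1, 1, 2, 1, 3, 1], [0, 2, 1, 3, 3, 3, 1, 2, 0, 3, 3, 1, 2, 0]⟩,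
  ⟨5, 7, 11, nat_lit 0xbd9467ca6480567750152a1316886c, nat_lit 0xb982e93096ac10559d349b4625022f, [2, 1, 3, 1, 3, 0, 3, 0, 2, 0, 3, 3], [0, 2, 1, 2, 2, 0, 2, 0, 3, 1, 2, 2, 0, 2, 1, 1]⟩,
  ⟨5, 7, 23, nat_lit 0xbc8a6552a07ce0910da8391760c5cc, nat_lit 0xbc46f99cd2022ae5d1446b2162a441, [3, 3, 1, 3, 0, 3, 1, 2, 2, 2, 0, 2, 1, 3], [2, 2, 0, 3, 3, 1, 2, 1, 1, 2, 0, 0, 3, 1, 2, 2]⟩,
  ⟨5, 11, 11, nat_lit 0xbc0a94496d6504a71a3579c7699020, nat_lit 0xbd514b05b1311239944a62e40839e7, [2, 1, 1, 2, 1, 1, 2, 0, 2, 0, 0, 3], [1, 3, 0, 2, 1, 3, 3, 3, 1, 1, 2, 1, 1]⟩,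
  ⟨5, 11, 23, nat_lit 0xbd8341a62b514ee022ad7927064846, nat_lit 0xb84969bd718264829da23541472983, [2, 2, 1, 3, 0, 0, 2, 2, 2, 0, 2, 1, 2, 1], [2, 0, 0, 2, 2, 0, 2, 1, 3, 0, 2, 1, 3, 0]⟩,
  ⟨5, 23, 23, nat_lit 0xb8e7542ac68502b8940e3a5a460a4f, nat_lit 0xbd4b14502eb24e682c8053e726b043, [2, 1, 1, 2, 0, 2, 1, 1, 3, 0, 2, 1, 2, 2, 2], [0, 3, 1, 1, 3, 3, 3, 1, 1, 3, 3, 3, 3, 1, 1]⟩,
  ⟨7, 7, 7, nat_lit 0xba1eb941c4504cc4b6753d814144a3, nat_lit 0xbc0256c924ab1e29d0f6419d15806a, [0, 0, 2, 0, 3, 3, 0, 0, 2, 0, 0, 2, 1, 2, 2], [0, 2, 0, 2, 1, 2, 2, 0, 2, 0, 2, 1, 1, 2, 1, 3]⟩,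
  ⟨7, 7, 11, nat_lit 0xbd2157c4603259612973248a141dcd, nat_lit 0xb95348bc156883059ccc71148b0e72, [2, 0, 3, 0, 0, 3, 1, 3, 1, 3, 3, 0, 3, 3], [1, 1, 2, 1, 1, 2, 1, 1, 3, 3, 0, 0, 0, 2]⟩,
  ⟨7, 7, 23, nat_lit 0xbd132989c52180785501559ab1c58f, nat_lit 0xbd25323aa1599e93aa28032d0134a3, [1, 2, 1, 2, 1, 3, 3, 1, 3, 3, 1, 2, 2, 0, 2], [0, 2, 2, 1, 2, 1, 1, 3, 0, 0, 2, 2, 0]⟩,
  ⟨7, 11, 11, nat_lit 0xbd08b849ae1d44553c203da6c32511, nat_lit 0xbaccf9a5cc92880a1cad80502ada23, [1, 1, 2, 2, 2, 0, 0, 2, 1, 3, 0, 2, 1, 2], [1, 3, 3, 1, 1, 3, 0, 0, 3, 3, 3, 3, 1, 3, 3]⟩,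
  ⟨7, 11, 23, nat_lit 0xb95868a56d854417489638df452260, nat_lit 0xb82698858e7b45422ca6ac868b2a07, [3, 3, 0, 3, 3, 1, 1, 2, 1, 3, 1, 3, 1, 1, 1], [0, 3, 0, 3, 0, 2, 2, 1, 1, 1, 3, 1, 3, 3, 0]⟩,
  ⟨7, 23, 23, nat_lit 0xb84e8ad8d481552231ab8ba621bd20, nat_lit 0xbc69679c6c52020912054b45532dd3, [0, 2, 1, 1, 1, 3, 1, 1, 3, 0, 2, 0, 0, 0, 2], [1, 3, 3, 1, 2, 2, 2, 1, 1, 2, 2, 0, 3, 3, 0, 2]⟩,
  ⟨11, 11, 11, nat_lit 0xbd9c87c44a0d18532e6091123ab4f0, nat_lit 0xbb66514956a9291081871adf04b906, [1, 1, 1, 3, 3, 3, 1, 3, 1, 1, 1, 2], [1, 2, 0, 3, 1, 1, 3, 0, 0, 0, 0, 3, 3, 3]⟩,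
  ⟨11, 11, 23, nat_lit 0xbc5cd0d982a112342a4533eb33820b, nat_lit 0xbaaa76449203436722857887382d26, [2, 0, 2, 2, 2, 1, 1, 1, 1, 2, 1, 3, 3, 0, 0], [2, 0, 2, 2, 1, 1, 1, 2, 0, 3, 3, 1, 1, 3]⟩,
  ⟨11, 23, 23, nat_lit 0xbc6a868e0e21cd414d92005f65152b, nat_lit 0xbd08502d871cd227c0d1a85166c9ca, [1, 2, 0, 0, 2, 1, 2, 1, 3, 3, 3, 0, 0, 0, 2], [0, 2, 1, 3, 1, 2, 2, 2, 2, 1, 2, 1, 1, 2, 1]⟩,
  ⟨23, 23, 23, nat_lit 0xbc8e5610690ce110514d7d85532d0e, nat_lit 0xb81d379e128a583b11546d4cb2a041, [1, 3, 1, 2, 1, 2, 2, 2, 0, 3, 1, 2], [3, 0, 3, 3, 3, 1, 2, 1, 3, 0, 0, 0, 3]⟩]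

theorem trs_ok : allL trs trOK = true := by decide +kernel

theorem of_trOK {t : Tr} (h : trOK t = true) :
    ∃ x y z : Cfsg.Spor.M23, orderOf x = t.p ∧ orderOf y = t.q ∧ orderOf z = t.r ∧ x * y * z = 1 ∧
      Subgroup.closure {x, y} = ⊤ := by
  simp only [trOK, Bool.and_eq_true, beq_iff, Nat.ble_eq] at h
  obtain ⟨⟨⟨⟨⟨⟨⟨⟨⟨⟨vx, vy⟩, sx⟩, sy⟩, p1⟩, q1⟩, r1⟩, ox⟩, oy⟩, oz⟩, hg⟩ := h
  obtain ⟨x, hx, ex⟩ := m23_chain.inG_of_sift vx sx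
  obtain ⟨y, hy, ey⟩ := m23_chain.inG_of_sift vy sy
  refine ⟨⟨x, hx⟩, ⟨y, hy⟩, (⟨x, hx⟩ * ⟨y, hy⟩)⁻¹, ?_, ?_, ?_, mul_inv_cancel _, ?_⟩
  · rw [Subgroup.orderOf_mk, GE.orderOf_eq_ordN x (fuel := 24) (by rw [ex, ox]; omega), ex, ox]
  · rw [Subgroup.orderOf_mk, GE.orderOf_eq_ordN y (fuel := 24) (by rw [ey, oy]; omega), ey, oy]
  · rw [orderOf_inv, ← Subgroup.orderOf_coe]
    show orderOf (x * y) = _
    rw [GE.orderOf_eq_ordN (x * y) (fuel := 24) (by rw [GE.pk_mul, ex, ey, oz]; omega), GE.pk_mul, ex, ey, oz]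
  · apply Subgroup.map_injective Spor.M23.subtype_injective
    rw [MonoidHom.map_closure, ← MonoidHom.range_eq_map, Subgroup.range_subtype]
    simp only [Set.image_insert_eq, Set.image_singleton, Subgroup.coe_subtype]
    refine le_antisymm ((Subgroup.closure_le _).2 ?_) ?_
    · rintro _ (rfl | rfl)
      exacts [hx, hy]
    · have hL : ∀ P ∈ [t.X, t.Y], GE.InG (Subgroup.closure {x, y}) P := by
        intro P hP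
        rcases List.mem_pair.1 hP with rfl | rfl
        · exact ⟨x, Subgroup.subset_closure (by simp), ex⟩
        · exact ⟨y, Subgroup.subset_closure (by simp), ey⟩
      rw [M23_eq_grp]
      refine Enc.grp_le fun P hP => ?_
      have := allL_iff.1 hg P hP
      rw [Bool.or_eq_true, beq_iff, beq_iff] at this
      rcases this with e | e <;> exact e ▸ Enc.inG_evalWord hL _

/-- `l` labels the points by the cycles of `X` -/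
noncomputable def labOK (X c l : ℕ) : Bool :=
  allN (nat_lit 24) (fun i => Nat.ble (Nat.succ (app (nat_lit 5) (nat_lit 32) l i)) c &&
    Nat.beq (app (nat_lit 5) (nat_lit 32) l (app (nat_lit 5) (nat_lit 32) X i)) (app (nat_lit 5) (nat_lit 32) l i)) &&
  allN c fun j => anyL (List.range 24) fun i => Nat.beq (app (nat_lit 5) (nat_lit 32) l i) j

theorem of_labOK {g : Equiv.Perm GolayPt} {c l : ℕ} (h : labOK (GE.pk g) c l = true) : HasCycles g c := by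
  simp only [labOK, Bool.and_eq_true, allN_iff, beq_iff, Nat.ble_eq, anyL_iff, List.mem_range] at h
  refine ⟨fun a => ⟨app (nat_lit 5) (nat_lit 32) l (GE.ix a), (h.1 _ (GE.ix_lt a)).1⟩, fun j => ?_, fun a => ?_⟩
  · obtain ⟨i, hi, e⟩ := h.2 j j.2
    exact ⟨GE.pt i, Fin.ext (by simp only [GE.ix_pt i hi, e])⟩
  · have := (h.1 _ (GE.ix_lt a)).2
    rw [GE.app_pk] at this
    exact Fin.ext this

theorem cyc_of {o c : ℕ} (l : List Cls) (hl : ∀ d ∈ m23Cl, ordN (nat_lit 5) (nat_lit 32) (nat_lit 24) d.X 24 ≠ 0 ∧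
      (ordN (nat_lit 5) (nat_lit 32) (nat_lit 24) d.X 24 = o → d.X ∈ l.map Cls.X))
    (h2 : ∀ d ∈ l, valid (nat_lit 5) (nat_lit 32) (nat_lit 24) d.X = true ∧ ∃ m, labOK d.X c m = true)
    {g : Spor.M23} (hg : orderOf g = o) : HasCycles (g : Equiv.Perm GolayPt) c := by
  obtain ⟨d, hd, a, -, e⟩ := m23_classes.conj_of_orderOf l hl g.2 (by rwa [Subgroup.orderOf_coe])
  obtain ⟨v, m, hm⟩ := h2 d hd
  rw [← e]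
  exact (of_labOK (l := m) (by rwa [GE.pk_perm v])).conj a

theorem cyc2 {g : Spor.M23} (hg : orderOf g = 2) : HasCycles (g : Equiv.Perm GolayPt) 16 :=
  cyc_of [m23_2A] (by decide +kernel) (by
    simp only [List.forall_mem_cons, List.not_mem_nil, false_imp_iff, implies_true, and_true]
    exact ⟨by decide +kernel, nat_lit 0x7a1ca639ac32d4941c862906208400, by decide +kernel⟩) hg
theorem cyc3 {g : Spor.M23} (hg : orderOf g = 3) : HasCycles (g : Equiv.Perm GolayPt) 12 :=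
  cyc_of [m23_3A] (by decide +kernel) (by
    simp only [List.forall_mem_cons, List.not_mem_nil, false_imp_iff, implies_true, and_true]
    exact ⟨by decide +kernel, nat_lit 0x5a94751127220c5314e62906208420, by decide +kernel⟩) hg
theorem cyc5 {g : Spor.M23} (hg : orderOf g = 5) : HasCycles (g : Equiv.Perm GolayPt) 8 :=
  cyc_of [m23_5A] (by decide +kernel) (by
    simp only [List.forall_mem_cons, List.not_mem_nil, false_imp_iff, implies_true, and_true]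
    exact ⟨by decide +kernel, nat_lit 0x3888410cc319462210821880100000, by decide +kernel⟩) hg
theorem cyc7 {g : Spor.M23} (hg : orderOf g = 7) : HasCycles (g : Equiv.Perm GolayPt) 6 :=
  cyc_of [m23_7A, m23_7B] (by decide +kernel) (by
    simp only [List.forall_mem_cons, List.not_mem_nil, false_imp_iff, implies_true, and_true]
    exact ⟨⟨by decide +kernel, nat_lit 0x284410042000841108831082100000, by decide +kernel⟩,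
      by decide +kernel, nat_lit 0x28800080211088210c221042100000, by decide +kernel⟩) hg
theorem cyc1 (g : Equiv.Perm GolayPt) : HasCycles g 1 :=
  ⟨fun _ => 0, fun j => ⟨pt 0, Subsingleton.elim _ _⟩, fun _ => rfl⟩

theorem ree23 {x y z : Spor.M23} (h : x * y * z = 1) (hc : Subgroup.closure {x, y} = ⊤) {a b c : ℕ}
    (ha : HasCycles (x : Equiv.Perm GolayPt) a) (hb : HasCycles (y : Equiv.Perm GolayPt) b)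
    (hz : HasCycles (z : Equiv.Perm GolayPt) c) : a + b + c ≤ 28 := by
  have e : Subgroup.closure {(x : Equiv.Perm GolayPt), (y : Equiv.Perm GolayPt)} = Spor.M23 := by
    have := congrArg (Subgroup.map Spor.M23.subtype) hc
    rw [MonoidHom.map_closure, ← MonoidHom.range_eq_map, Subgroup.range_subtype] at this
    simpa only [Set.image_insert_eq, Set.image_singleton, Subgroup.coe_subtype] using this
  have := ree (x := x) (y := y) (z := z) (congrArg Subtype.val h) ha hb hz {pt 0, pt 23} fun i => by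
    rw [e]
    by_cases hi : i = pt 23
    · exact ⟨1, Subgroup.one_mem _, by simp [hi]⟩
    · have h1 : ∀ i : GolayPt, i ≠ pt 23 → tb (nat_lit 0x7fffff) (GE.ix i) = true := by decide +kernel
      obtain ⟨u, hu, -, hx⟩ := m23_chain.1.2 _ (GE.ix_lt i) (h1 i hi)
      rw [GE.pt_ix] at hx
      exact ⟨u, hu, by rw [hx]; exact Finset.mem_insert_self _ _⟩
  have h2 : Fintype.card GolayPt = 24 := by rw [← Nat.card_eq_fintype_card]; exact GE.natCard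
  have h3 : ({pt 0, pt 23} : Finset GolayPt).card ≤ 2 := Finset.card_le_two
  omega

theorem prime_dvd {p : ℕ} (hp : p.Prime) (h : p ∣ 10200960) : p ∈ [2, 3, 5, 7, 11, 23] := by
  have : p ∈ Nat.primeFactors (2 ^ 7 * 3 ^ 2 * 5 * 7 * 11 * 23) := Nat.mem_primeFactors.2 ⟨hp, h, by norm_num⟩
  have h1 : p ≤ 23 := by
    have e : (10200960 : ℕ) = 2 ^ 7 * 3 ^ 2 * 5 * 7 * 11 * 23 := by norm_num
    rw [e] at h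
    simp only [hp.dvd_mul] at h
    rcases h with ((((h | h) | h) | h) | h) | h
    · exact (Nat.le_of_dvd (by norm_num) (hp.dvd_of_dvd_pow h)).trans (by norm_num)
    · exact (Nat.le_of_dvd (by norm_num) (hp.dvd_of_dvd_pow h)).trans (by norm_num)
    all_goals exact (Nat.le_of_dvd (by norm_num) h).trans (by norm_num)
  interval_cases p <;> first | decide | (exfalso; revert hp h; norm_num)

theorem cover : ∀ p ∈ [2, 3, 5, 7, 11, 23], ∀ q ∈ [2, 3, 5, 7, 11, 23], ∀ r ∈ [2, 3, 5, 7, 11, 23], p ≤ q → q ≤ r →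
    ¬ (p = 2 ∧ q = 2) →
    ¬ ((p = 2 ∧ q = 3) ∨ (p = 2 ∧ q = 5 ∧ r = 5) ∨ (p = 2 ∧ q = 5 ∧ r = 7) ∨ (p = 3 ∧ q = 3 ∧ r ≤ 7)) →
    ∃ t ∈ trs, t.p = p ∧ t.q = q ∧ t.r = r := by decide +kernel


/-- Generation of the Mathieu group M₂₃ (the stabiliser of a point in the Mathieu group M₂₄ acting on 24 points) by triples of prime orders. Let p ≤ q ≤ r be primes dividing |M₂₃| = 10200960 = 2⁷·3²·5·7·11·23, not both p and q equal to 2. Then M₂₃ contains elements x, y, z of orders p, q, r with xyz = 1 and ⟨x, y⟩ = M₂₃ if and only if (p, q, r) is none of: (2, 3, r) for any r, (2, 5, 5), (2, 5, 7), (3, 3, 3), (3, 3, 5), (3, 3, 7). -/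
theorem result (p q r : ℕ) (hp : p.Prime) (hq : q.Prime)
    (hr : r.Prime) (hpq : p ≤ q) (hqr : q ≤ r) (hp2 : ¬ (p = 2 ∧ q = 2))
    (hdvd : p ∣ 10200960 ∧ q ∣ 10200960 ∧ r ∣ 10200960) :
    (∃ x y z : Cfsg.Spor.M23, orderOf x = p ∧ orderOf y = q ∧ orderOf z = r ∧ x * y * z = 1 ∧
        Subgroup.closure {x, y} = ⊤) ↔
      ¬ ((p = 2 ∧ q = 3) ∨ (p = 2 ∧ q = 5 ∧ r = 5) ∨ (p = 2 ∧ q = 5 ∧ r = 7) ∨ (p = 3 ∧ q = 3 ∧ r ≤ 7)) := by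
  constructor
  · rintro ⟨x, y, z, hx, hy, hz, h, hc⟩ (⟨rfl, rfl⟩ | ⟨rfl, rfl, rfl⟩ | ⟨rfl, rfl, rfl⟩ | ⟨rfl, rfl, h7⟩)
    · have := ree23 h hc (cyc2 hx) (cyc3 hy) (cyc1 _); omega
    · have := ree23 h hc (cyc2 hx) (cyc5 hy) (cyc5 hz); omega
    · have := ree23 h hc (cyc2 hx) (cyc5 hy) (cyc7 hz); omega
    · have h1 := prime_dvd hr hdvd.2.2
      simp only [List.mem_cons, List.not_mem_nil, or_false] at h1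
      rcases h1 with rfl | rfl | rfl | rfl | rfl | rfl
      · omega
      · have := ree23 h hc (cyc3 hx) (cyc3 hy) (cyc3 hz); omega
      · have := ree23 h hc (cyc3 hx) (cyc3 hy) (cyc5 hz); omega
      · have := ree23 h hc (cyc3 hx) (cyc3 hy) (cyc7 hz); omega
      · omega
      · omega
  · intro h
    obtain ⟨t, ht, rfl, rfl, rfl⟩ := cover p (prime_dvd hp hdvd.1) q (prime_dvd hq hdvd.2.1) r
      (prime_dvd hr hdvd.2.2) hpq hqr hp2 h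
    exact of_trOK (H14.allL_iff.1 trs_ok t ht)

end Cfsg.Agent.S5529
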