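import Cfsg.Statements.S5562


set_option autoImplicit false
open Cfsg

namespace Cfsg.Agent.S5562

theorem eq_of_sq_eq {G : Type*} [Group G] {u v : G} (hu : Odd (orderOf u)) (hv : Odd (orderOf v))
    (h : u * u = v * v) : u = v := by
  obtain ⟨k, hk⟩ := hu.mul hv
  have h1 : u ^ (2 * k + 1) = 1 := by rw [← hk, pow_mul, pow_orderOf_eq_one, one_pow]
  have h2 : v ^ (2 * k + 1) = 1 := by rw [← hk, mul_comm, pow_mul, pow_orderOf_eq_one, one_pow]
  calc u = u ^ (2 * k + 1) * u := by rw [h1, one_mul]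
    _ = (u * u) ^ (k + 1) := by rw [← pow_two, ← pow_mul, ← pow_succ]; congr 1
    _ = v ^ (2 * k + 1) * v := by rw [h, ← pow_two, ← pow_mul, ← pow_succ]; congr 1
    _ = v := by rw [h2, one_mul]

/-- Let G be a finite group, d an involution of G whose conjugates pairwise have products of odd order, and x any involution of G. Then the conjugacy class of d is the disjoint union, over the conjugates a of d commuting with x, of the sets of conjugates of d commuting with ax: every conjugate of d commutes with ax for exactly one conjugate a of d that commutes with x. -/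
theorem result {G : Type*} [Group G] [Finite G] (d : G) (hd : orderOf d = 2)
    (hodd : ∀ a ∈ conjugatesOf d, ∀ b ∈ conjugatesOf d, Odd (orderOf (a * b)))
    (x : G) (hx : orderOf x = 2) :
    ∀ e ∈ conjugatesOf d,
      ∃! a : G, a ∈ conjugatesOf d ∧ Commute a x ∧ Commute e (a * x) := by
  intro e he
  have hsq : ∀ a ∈ conjugatesOf d, a * a = 1 := by
    intro a ha
    obtain ⟨c, rfl⟩ := isConj_iff.mp ha
    rw [conj_mul, ← pow_two, ← hd, pow_orderOf_eq_one]; simp
  have hconj : ∀ a ∈ conjugatesOf d, ∀ g : G, g * a * g⁻¹ ∈ conjugatesOf d := fun a ha g =>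
    IsConj.trans ha (isConj_iff.mpr ⟨g, rfl⟩)
  have hxx : x * x = 1 := by rw [← pow_two, ← hx, pow_orderOf_eq_one]
  have hxi : x⁻¹ = x := inv_eq_of_mul_eq_one_right hxx
  have hee := hsq e he
  have hei : e⁻¹ = e := inv_eq_of_mul_eq_one_right hee
  have key : ∀ a ∈ conjugatesOf d, Commute a x → Commute e (a * x) →
      (a * e) * (a * e) = x * e * x * e := by
    intro a ha h1 h2
    have haa := hsq a ha
    have e1 : e * (a * x) = a * x * e := h2
    have e2 : a * x = x * a := h1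
    calc a * e * (a * e) = a * (e * (a * x)) * x⁻¹ * e := by group
      _ = (a * a) * x * e * x⁻¹ * e := by rw [e1]; group
      _ = _ := by rw [haa, hxi, one_mul]
  refine existsUnique_of_exists_of_unique ?_ ?_
  · obtain ⟨k, hk⟩ := hodd e he _ (hconj e he x)
    set ρ := e * (x * e * x⁻¹) with hρ
    have hρk : ρ ^ (2 * k + 1) = 1 := by rw [← hk, pow_orderOf_eq_one]
    have h1 : e * ρ * e⁻¹ = ρ⁻¹ := by rw [hρ, mul_inv_rev, conj_inv, hei, ← mul_assoc, hee, one_mul]
    have h2 : x * ρ * x⁻¹ = ρ⁻¹ := by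
      rw [hρ, mul_inv_rev, conj_inv, hei]
      calc x * (e * (x * e * x⁻¹)) * x⁻¹ = x * e * x * e * (x * x)⁻¹ := by group
        _ = _ := by rw [hxx, hxi]; group
    have h1' : ∀ n : ℕ, e * ρ ^ n * e⁻¹ = (ρ ^ n)⁻¹ := fun n => by rw [← conj_pow, h1, inv_pow]
    have h2' : ∀ n : ℕ, x * ρ ^ n * x⁻¹ = (ρ ^ n)⁻¹ := fun n => by rw [← conj_pow, h2, inv_pow]
    have hxe : x * e * x⁻¹ = e * ρ := by rw [hρ, ← mul_assoc, hee, one_mul]
    have hpow : ρ ^ (k + 1) * ρ ^ (k + 1) = ρ := by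
      rw [← pow_add, show k + 1 + (k + 1) = 2 * k + 1 + 1 by ring, pow_succ, hρk, one_mul]
    set σ := ρ ^ (k + 1) with hσ
    have hσσ : σ = (σ ^ (k + 1)) * (σ ^ (k + 1)) := by
      rw [← Commute.mul_pow (Commute.refl σ), hpow]
    have h3 : e * σ * e⁻¹ = σ⁻¹ := h1' _
    have h4 : x * σ * x⁻¹ = σ⁻¹ := h2' _
    have h5 : e * σ ^ (k + 1) * e⁻¹ = (σ ^ (k + 1))⁻¹ := by rw [← conj_pow, h3, inv_pow]
    have hax : x * (e * σ) * x⁻¹ = e * σ := by
      calc x * (e * σ) * x⁻¹ = (x * e * x⁻¹) * (x * σ * x⁻¹) := by group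
        _ = e * σ := by rw [hxe, h4, ← hpow]; group
    refine ⟨e * σ, ?_, (mul_inv_eq_iff_eq_mul.mp hax).symm, ?_⟩
    · have := hconj e he (σ ^ (k + 1))⁻¹
      rwa [← h5, mul_inv_rev, mul_inv_rev, inv_inv, show e * σ ^ (k + 1) * e⁻¹ * e *
        (e * ((σ ^ (k + 1))⁻¹ * e⁻¹)) = e * σ ^ (k + 1) * (e * σ ^ (k + 1) * e⁻¹)⁻¹ by group,
        h5, inv_inv, mul_assoc, ← hσσ] at this
    · show e * (e * σ * x) = e * σ * x * e
      calc e * (e * σ * x) = (e * e) * σ * x := by group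
        _ = σ * x := by rw [hee, one_mul]
        _ = (e * σ * e⁻¹) * (σ * σ) * x := by rw [h3]; group
        _ = e * σ * (x * e * x⁻¹) * x := by rw [hpow, hxe, hei]; group
        _ = _ := by group
  · rintro a b ⟨ha, ha1, ha2⟩ ⟨hb, hb1, hb2⟩
    exact mul_right_cancel (eq_of_sq_eq (hodd a ha e he) (hodd b hb e he)
      ((key a ha ha1 ha2).trans (key b hb hb1 hb2).symm))

end Cfsg.Agent.S5562
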