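import Cfsg.Statements.S5596
import Cfsg.Agent.H97.LargeES

set_option autoImplicit false
open Cfsg

namespace Cfsg.Agent.S5596

/-- Setting: `z` is an involution of the finite group `G`; for each element `x`, `Q x` is the largest normal 2-subgroup of the centralizer of `x`; `Q z` is extraspecial and contains its own centralizer in `G`. A subgroup `U` is singular when it is elementary abelian, every non-identity element of `U` is conjugate to `z`, and any two non-identity elements `u`, `v` of `U` are orthogonal (`v ∈ Q u`). Write `QU` for the intersection of the `Q u` and `LU` for the join of the `Q u` over the non-identity `u` in `U`. If `U` is singular of order `2 ^ n` with `n ≥ 2`, then `U ≤ QU ≤ LU`, `LU` normalizes `U`, and `LU` induces on `U` its full automorphism group (the general linear group of dimension `n` over the field with two elements): every automorphism of `U` is conjugation by some element of `LU`. -/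
theorem result {G : Type*} [Group G] [Finite G]
    (Q : G → Subgroup G)
    (hQ : ∀ x : G, Q x = (Cfsg.pCore 2 ↥(Subgroup.centralizer ({x} : Set G))).map (Subgroup.centralizer ({x} : Set G)).subtype)
    (z : G) (hz : orderOf z = 2) (hE : Cfsg.IsExtraspecial 2 ↥(Q z))
    (hC : Subgroup.centralizer ((Q z : Subgroup G) : Set G) ≤ Q z)
    (U : Subgroup G) (hU2 : ∀ u ∈ U, u * u = 1)
    (hS : ∀ u ∈ U, u ≠ 1 → ∃ g : G, g * z * g⁻¹ = u)
    (hO : ∀ u ∈ U, ∀ v ∈ U, u ≠ 1 → v ≠ 1 → v ∈ Q u)
    (QU LU : Subgroup G) (hQU : QU = ⨅ u ∈ ((U : Set G) \ {1}), Q u) (hLU : LU = ⨆ u ∈ ((U : Set G) \ {1}), Q u)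
    (n : ℕ) (hn : 2 ≤ n) (hcard : Nat.card ↥U = 2 ^ n) :
    U ≤ QU ∧ QU ≤ LU ∧ LU ≤ Subgroup.normalizer (U : Set G) ∧
      ∀ φ : ↥U ≃* ↥U, ∃ g ∈ LU, ∀ u : ↥U, g * (u : G) * g⁻¹ = ((φ u : ↥U) : G) := by
  have hL : ∀ u ∈ U, u ≠ 1 → H97.LX (Q u) u := by
    intro u hu hu1
    obtain ⟨g, rfl⟩ := hS u hu hu1
    exact H97.lx_conj hQ hz hE hC g
  have hUQ : ∀ u ∈ U, u ≠ 1 → U ≤ Q u := by
    intro u hu hu1 v hv
    by_cases hv1 : v = 1
    · rw [hv1]; exact (Q u).one_mem
    · exact hO u hu v hv hu1 hv1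
  have hnorm : LU ≤ Subgroup.normalizer (U : Set G) := by
    rw [hLU]
    refine iSup₂_le ?_
    rintro u ⟨hu, hu1⟩ g hg
    apply Subgroup.mem_normalizer_fintype
    intro v hv
    rcases (hL u hu hu1).comm g hg v (hUQ u hu hu1 hv) with e | e
    · rw [e]; exact hv
    · rw [e]; exact U.mul_mem hu hv
  have hQL : ∀ u ∈ U, u ≠ 1 → Q u ≤ LU := by
    intro u hu hu1
    rw [hLU]
    exact le_iSup₂ (f := fun u (_ : u ∈ ((U : Set G) \ {1})) => Q u) u ⟨hu, hu1⟩
  have hQQ : ∀ u ∈ U, u ≠ 1 → QU ≤ Q u := by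
    intro u hu hu1
    rw [hQU]
    exact iInf₂_le (f := fun u (_ : u ∈ ((U : Set G) \ {1})) => Q u) u ⟨hu, hu1⟩
  have hinv : ∀ u ∈ U, u⁻¹ = u := fun u hu => inv_eq_of_mul_eq_one_right (hU2 u hu)
  have hcomm : ∀ u ∈ U, ∀ v ∈ U, u * v = v * u := by
    intro u hu v hv
    have := hinv _ (U.mul_mem hu hv)
    rw [mul_inv_rev, hinv u hu, hinv v hv] at this
    exact this.symm
  have hne : ∃ u ∈ U, u ≠ 1 := by
    by_contra h
    push Not at h
    have : U = ⊥ := (Subgroup.eq_bot_iff_forall U).mpr h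
    rw [this, Subgroup.card_bot] at hcard
    have := Nat.one_lt_two_pow (n := n) (by omega)
    omega
  obtain ⟨u0, hu0, hu01⟩ := hne
  refine ⟨?_, (hQQ u0 hu0 hu01).trans (hQL u0 hu0 hu01), hnorm, ?_⟩
  · rw [hQU]
    exact le_iInf₂ fun u hu => hUQ u hu.1 hu.2
  intro φ
  have hfin : Fintype U := Fintype.ofFinite U
  classical
  -- take `g` agreeing with `φ` on as many elements as possible
  obtain ⟨g, hg, hmax⟩ := Set.exists_max_image (LU : Set G)
    (fun g => (Finset.univ.filter fun u : U => g * (u : G) * g⁻¹ = φ u).card) (Set.toFinite _)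
    ⟨1, LU.one_mem⟩
  refine ⟨g, hg, ?_⟩
  by_contra hno
  push Not at hno
  obtain ⟨v, hv⟩ := hno
  -- `F` is the image of the agreement subgroup
  have hgU : ∀ u ∈ U, g * u * g⁻¹ ∈ U := fun u hu =>
    (Subgroup.mem_normalizer_iff.mp (hnorm hg) u).mp hu
  set a : G := g * v * g⁻¹ with ha
  set b : G := ((φ v : U) : G) with hb
  have haU : a ∈ U := hgU v v.2
  have hbU : b ∈ U := (φ v).2
  have hw1 : b * a ≠ 1 := by
    intro h
    apply hv
    rw [← hinv b hbU]
    exact (inv_eq_of_mul_eq_one_right h).symm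
  have hwU : b * a ∈ U := U.mul_mem hbU haU
  have hLw := hL _ hwU hw1
  let M : Subgroup G :=
    { carrier := {m | ∃ u : U, g * (u : G) * g⁻¹ = φ u ∧ (m = φ u ∨ m = b * a * φ u)}
      one_mem' := ⟨1, by simp, Or.inl (by simp)⟩
      mul_mem' := by
        rintro m m' ⟨u, hu, hm⟩ ⟨u', hu', hm'⟩
        refine ⟨u * u', by rw [map_mul, Subgroup.coe_mul, Subgroup.coe_mul, ← hu, ← hu']; group, ?_⟩
        rw [map_mul, Subgroup.coe_mul]
        have e := hcomm _ hwU _ (φ u).2
        rcases hm with rfl | rfl <;> rcases hm' with rfl | rfl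
        · exact Or.inl rfl
        · right; rw [← mul_assoc, ← e, mul_assoc]
        · right; rw [mul_assoc]
        · left
          rw [e, mul_assoc, ← mul_assoc (b * a), hLw.sq, one_mul]
      inv_mem' := by
        rintro m ⟨u, hu, hm⟩
        refine ⟨u, hu, ?_⟩
        rcases hm with rfl | rfl
        · left; exact hinv _ (φ u).2
        · right; exact hinv _ (U.mul_mem hwU (φ u).2) }
  have hMU : M ≤ U := by
    rintro m ⟨u, -, rfl | rfl⟩
    · exact (φ u).2
    · exact U.mul_mem hwU (φ u).2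
  have haM : a ∉ M := by
    rintro ⟨u, hu, e | e⟩
    · rw [← hu, ha] at e
      have : v = u := Subtype.ext (by simpa using e)
      exact hv (by rw [ha, hb, this, hu])
    · have e2 : b = φ u := by
        rw [hcomm b hbU a haU, mul_assoc] at e
        have := left_eq_mul.mp e
        rw [← hinv b hbU]
        exact inv_eq_of_mul_eq_one_right this
      have : v = u := φ.injective (Subtype.ext e2)
      exact hv (by rw [ha, hb, this, hu])
  obtain ⟨c, hc, hcM, hca⟩ := hLw.sep M (hMU.trans (hUQ _ hwU hw1))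
    ⟨1, by simp, Or.inr (by simp)⟩ a (hUQ _ hwU hw1 haU) haM
  have hlt := hmax (c * g) (LU.mul_mem (hQL _ hwU hw1 hc) hg)
  apply absurd hlt
  rw [not_le]
  apply Finset.card_lt_card
  refine ⟨fun u hu => ?_, fun hsub => ?_⟩
  · simp only [Finset.mem_filter, Finset.mem_univ, true_and] at hu ⊢
    have := hcM _ ⟨u, hu, Or.inl rfl⟩
    calc c * g * (u : G) * (c * g)⁻¹ = c * (g * (u : G) * g⁻¹) * c⁻¹ := by group
      _ = φ u := by rw [hu, this]; group
  · have : v ∈ Finset.univ.filter fun u : U => c * g * (u : G) * (c * g)⁻¹ = φ u := by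
      simp only [Finset.mem_filter, Finset.mem_univ, true_and]
      calc c * g * (v : G) * (c * g)⁻¹ = c * a * c⁻¹ := by rw [ha]; group
        _ = φ v := by rw [hca, mul_assoc, hU2 a haU, mul_one]
    have := hsub this
    simp only [Finset.mem_filter, Finset.mem_univ, true_and] at this
    exact hv this

end Cfsg.Agent.S5596
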