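import Cfsg.Statements.S5597
import Cfsg.Agent.H97.LargeES

set_option autoImplicit false
open Cfsg

namespace Cfsg.Agent.S5597

/-- Setting: `z` is an involution of the finite group `G`; for each element `x`, `Q x` is the largest normal 2-subgroup of the centralizer of `x`; `Q z` is extraspecial and contains its own centralizer in `G`. A subgroup `U` is singular when it is elementary abelian, every non-identity element of `U` is conjugate to `z`, and any two non-identity elements `u`, `v` of `U` are orthogonal (`v ∈ Q u`). Write `QU` for the intersection of the `Q u` and `LU` for the join of the `Q u` over the non-identity `u` in `U`. If `U` is a non-trivial singular subgroup, then `LU` acts trivially on `QU / U` (every commutator of an element of `LU` with an element of `QU` lies in `U`), and for every `x` in `QU` outside `U` the centralizer of `U` in `LU` permutes the coset `x U` transitively: each `x u` with `u ∈ U` is a conjugate of `x` by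 an element of `LU` centralizing `U`. -/
theorem result {G : Type*} [Group G] [Finite G]
    (Q : G → Subgroup G)
    (hQ : ∀ x : G, Q x = (Cfsg.pCore 2 ↥(Subgroup.centralizer ({x} : Set G))).map (Subgroup.centralizer ({x} : Set G)).subtype)
    (z : G) (hz : orderOf z = 2) (hE : Cfsg.IsExtraspecial 2 ↥(Q z))
    (hC : Subgroup.centralizer ((Q z : Subgroup G) : Set G) ≤ Q z)
    (U : Subgroup G) (hU2 : ∀ u ∈ U, u * u = 1)
    (hS : ∀ u ∈ U, u ≠ 1 → ∃ g : G, g * z * g⁻¹ = u)
    (hO : ∀ u ∈ U, ∀ v ∈ U, u ≠ 1 → v ≠ 1 → v ∈ Q u)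
    (QU LU : Subgroup G) (hQU : QU = ⨅ u ∈ ((U : Set G) \ {1}), Q u) (hLU : LU = ⨆ u ∈ ((U : Set G) \ {1}), Q u)
    (hU : U ≠ ⊥) :
    (∀ g ∈ LU, ∀ x ∈ QU, g * x * g⁻¹ * x⁻¹ ∈ U) ∧
      ∀ x ∈ QU, x ∉ U → ∀ u ∈ U, ∃ g ∈ LU ⊓ Subgroup.centralizer (U : Set G), g * x * g⁻¹ = x * u := by
  have hL : ∀ u ∈ U, u ≠ 1 → H97.LX (Q u) u := by
    intro u hu hu1
    obtain ⟨g, rfl⟩ := hS u hu hu1
    exact H97.lx_conj hQ hz hE hC g
  have hUQ : ∀ u ∈ U, u ≠ 1 → U ≤ Q u := by
    intro u hu hu1 v hv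
    by_cases hv1 : v = 1
    · rw [hv1]; exact (Q u).one_mem
    · exact hO u hu v hv hu1 hv1
  have hnorm : LU ≤ Subgroup.normalizer (U : Set G) := by
    rw [hLU]
    refine iSup₂_le ?_
    rintro u ⟨hu, hu1⟩ g hg
    apply Subgroup.mem_normalizer_fintype
    intro v hv
    rcases (hL u hu hu1).comm g hg v (hUQ u hu hu1 hv) with e | e
    · rw [e]; exact hv
    · rw [e]; exact U.mul_mem hu hv
  have hQL : ∀ u ∈ U, u ≠ 1 → Q u ≤ LU := by
    intro u hu hu1
    rw [hLU]
    exact le_iSup₂ (f := fun u (_ : u ∈ ((U : Set G) \ {1})) => Q u) u ⟨hu, hu1⟩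
  have hQQ : ∀ u ∈ U, u ≠ 1 → QU ≤ Q u := by
    intro u hu hu1
    rw [hQU]
    exact iInf₂_le (f := fun u (_ : u ∈ ((U : Set G) \ {1})) => Q u) u ⟨hu, hu1⟩
  constructor
  · let H : Subgroup G :=
      { carrier := {g | g ∈ Subgroup.normalizer (U : Set G) ∧ ∀ x ∈ QU, g * x * g⁻¹ * x⁻¹ ∈ U}
        one_mem' := ⟨Subgroup.one_mem _, fun x _ => by simp⟩
        mul_mem' := by
          rintro g h ⟨hg, hg'⟩ ⟨hh, hh'⟩
          refine ⟨Subgroup.mul_mem _ hg hh, fun x hx => ?_⟩
          have := U.mul_mem ((Subgroup.mem_normalizer_iff.mp hg _).mp (hh' x hx)) (hg' x hx)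
          rwa [show g * (h * x * h⁻¹ * x⁻¹) * g⁻¹ * (g * x * g⁻¹ * x⁻¹) =
            g * h * x * (g * h)⁻¹ * x⁻¹ by group] at this
        inv_mem' := by
          rintro g ⟨hg, hg'⟩
          refine ⟨Subgroup.inv_mem _ hg, fun x hx => ?_⟩
          have := (Subgroup.mem_normalizer_iff.mp (Subgroup.inv_mem _ hg) _).mp (U.inv_mem (hg' x hx))
          rwa [show g⁻¹ * (g * x * g⁻¹ * x⁻¹)⁻¹ * g⁻¹⁻¹ = g⁻¹ * x * g⁻¹⁻¹ * x⁻¹ by group] at this }
    have : LU ≤ H := by
      rw [hLU]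
      refine iSup₂_le ?_
      rintro u ⟨hu, hu1⟩ g hg
      refine ⟨hnorm (hQL u hu hu1 hg), fun x hx => ?_⟩
      rcases (hL u hu hu1).comm g hg x (hQQ u hu hu1 hx) with e | e
      · rw [e]; simp
      · rw [e]; simpa using hu
    exact fun g hg => (this hg).2
  · intro x hx hxU u hu
    by_cases hu1 : u = 1
    · exact ⟨1, Subgroup.one_mem _, by simp [hu1]⟩
    have hLu := hL u hu hu1
    obtain ⟨b, hb, hbM, hbx⟩ := hLu.sep U (hUQ u hu hu1) hu x (hQQ u hu hu1 hx) hxU
    exact ⟨b, ⟨hQL u hu hu1 hb, fun m hm => (hbM m hm).symm⟩,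
      by rw [hbx, hLu.cen x (hQQ u hu hu1 hx)]⟩

end Cfsg.Agent.S5597
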