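import Cfsg.Statements.S5598
import Cfsg.Agent.H97.LargeES

set_option autoImplicit false
open Cfsg

namespace Cfsg.Agent.S5598

/-- Setting: `z` is an involution of the finite group `G`; for each element `x`, `Q x` is the largest normal 2-subgroup of the centralizer of `x`; `Q z` is extraspecial and contains its own centralizer in `G`. A subgroup `U` is singular when it is elementary abelian, every non-identity element of `U` is conjugate to `z`, and any two non-identity elements `u`, `v` of `U` are orthogonal (`v ∈ Q u`). Write `QU` for the intersection of the `Q u` and `LU` for the join of the `Q u` over the non-identity `u` in `U`. If the singular subgroup `U` is generated by a set `T` of non-identity elements, then `QU` is already the intersection of the `Q t` over `t ∈ T`. -/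
theorem result {G : Type*} [Group G] [Finite G]
    (Q : G → Subgroup G)
    (hQ : ∀ x : G, Q x = (Cfsg.pCore 2 ↥(Subgroup.centralizer ({x} : Set G))).map (Subgroup.centralizer ({x} : Set G)).subtype)
    (z : G) (hz : orderOf z = 2) (hE : Cfsg.IsExtraspecial 2 ↥(Q z))
    (hC : Subgroup.centralizer ((Q z : Subgroup G) : Set G) ≤ Q z)
    (U : Subgroup G) (hU2 : ∀ u ∈ U, u * u = 1)
    (hS : ∀ u ∈ U, u ≠ 1 → ∃ g : G, g * z * g⁻¹ = u)
    (hO : ∀ u ∈ U, ∀ v ∈ U, u ≠ 1 → v ≠ 1 → v ∈ Q u)
    (QU LU : Subgroup G) (hQU : QU = ⨅ u ∈ ((U : Set G) \ {1}), Q u) (hLU : LU = ⨆ u ∈ ((U : Set G) \ {1}), Q u)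
    (T : Set G) (hT : Subgroup.closure T = U) (hT1 : (1 : G) ∉ T) :
    QU = ⨅ t ∈ T, Q t := by
  have hL : ∀ u ∈ U, u ≠ 1 → H97.LX (Q u) u := by
    intro u hu hu1
    obtain ⟨g, rfl⟩ := hS u hu hu1
    exact H97.lx_conj hQ hz hE hC g
  have hUQ : ∀ u ∈ U, u ≠ 1 → U ≤ Q u := by
    intro u hu hu1 v hv
    by_cases hv1 : v = 1
    · rw [hv1]; exact (Q u).one_mem
    · exact hO u hu v hv hu1 hv1
  have hTU : ∀ t ∈ T, t ∈ U := fun t ht => hT ▸ Subgroup.subset_closure ht
  rw [hQU]
  apply le_antisymm
  · refine le_iInf₂ fun t ht => ?_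
    exact iInf₂_le (f := fun u (_ : u ∈ ((U : Set G) \ {1})) => Q u) t
      ⟨hTU t ht, fun h => hT1 (h ▸ ht)⟩
  · intro x hx
    simp only [Subgroup.mem_iInf] at hx ⊢
    rintro u ⟨hu, hu1⟩
    have key : ∀ u ∈ Subgroup.closure T, u = 1 ∨ x ∈ Q u := by
      intro u hu
      induction hu using Subgroup.closure_induction with
      | mem t ht => exact Or.inr (hx t ht)
      | one => exact Or.inl rfl
      | mul a b ha hb iha ihb =>
        rw [hT] at ha hb
        by_cases ha1 : a = 1
        · rw [ha1, one_mul]; exact ihb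
        by_cases hb1 : b = 1
        · rw [hb1, mul_one]; exact iha
        by_cases hab : a * b = 1
        · exact Or.inl hab
        right
        have hxa := iha.resolve_left ha1
        have hxb := ihb.resolve_left hb1
        have hLa := hL a ha ha1
        obtain ⟨g, hg, hgb⟩ := hLa.exists_conj (hUQ a ha ha1 hb) hb1
          (by rintro rfl; exact hab hLa.sq)
        have h1 := H97.conj_mem_Q hQ g hxb
        rw [hgb] at h1
        rcases hLa.comm g hg x hxa with e | e
        · rwa [e] at h1
        · rw [e] at h1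
          have h2 := hUQ _ (U.mul_mem ha hb) hab ha
          simpa using (Q (a * b)).mul_mem ((Q (a * b)).inv_mem h2) h1
      | inv a ha iha =>
        rw [hT] at ha
        rwa [inv_eq_of_mul_eq_one_right (hU2 a ha)]
    exact (key u (hT ▸ hu)).resolve_left hu1

end Cfsg.Agent.S5598
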