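import Cfsg.Statements.S5604
import Cfsg.Agent.H97.M24Cls
import Cfsg.Agent.H97.M24Fam

set_option autoImplicit false
open scoped Pointwise
open Cfsg

namespace Cfsg.Agent.S5604

open Cfsg.Agent.H14 Cfsg.Agent.H97

/-- the facts needed about an element of order 7 -/
def P7 (x : Equiv.Perm GolayPt) : Prop :=
  (∃ n ∈ M24, n * x = x ^ 2 * n) ∧
    (∃ y ∈ M24, ∃ z ∈ M24, y * x = x * y ∧ z * x = x * z ∧ y * z ≠ z * y) ∧
    ∃ T ∈ trios, ∀ n ∈ M24, ∀ k < 7, n * x = x ^ k * n → (k = 1 ∨ k = 2 ∨ k = 4) ∧ n • T = T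

theorem P7_conj {a x : Equiv.Perm GolayPt} (ha : a ∈ M24) (h : P7 x) : P7 (a * x * a⁻¹) := by
  obtain ⟨⟨n, hn, e⟩, ⟨y, hy, z, hz, e1, e2, e3⟩, T, hT, h⟩ := h
  have key : ∀ (n : Equiv.Perm GolayPt) (k : ℕ),
      a * n * a⁻¹ * (a * x * a⁻¹) = (a * x * a⁻¹) ^ k * (a * n * a⁻¹) ↔ n * x = x ^ k * n := by
    intro n k
    rw [conj_pow, conj_mul, conj_mul, mul_left_inj, mul_right_inj]
  refine ⟨⟨_, (conj_mem_iff ha n).2 hn, (key n 2).2 e⟩,
    ⟨_, (conj_mem_iff ha y).2 hy, _, (conj_mem_iff ha z).2 hz, ?_, ?_, ?_⟩,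
    a • T, smul_mem_trios ha hT, fun n hn k hk e => ?_⟩
  · rw [conj_mul, conj_mul, e1]
  · rw [conj_mul, conj_mul, e2]
  · rw [conj_mul, conj_mul]
    simpa using e3
  · obtain ⟨m, rfl⟩ : ∃ m, n = a * m * a⁻¹ := ⟨a⁻¹ * n * a, by group⟩
    obtain ⟨h1, h2⟩ := h m ((conj_mem_iff ha m).1 hn) k hk ((key m k).1 e)
    exact ⟨h1, by rw [mul_smul, inv_smul_smul, mul_smul, h2]⟩

theorem P7_of_chk (X N Y Z : ℕ) (T : List ℕ)
    (hX : valid (nat_lit 5) (nat_lit 32) (nat_lit 24) X = true)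
    (hN : (valid (nat_lit 5) (nat_lit 32) (nat_lit 24) N && inM24 N) = true)
    (hY : (valid (nat_lit 5) (nat_lit 32) (nat_lit 24) Y && inM24 Y) = true)
    (hZ : (valid (nat_lit 5) (nat_lit 32) (nat_lit 24) Z && inM24 Z) = true)
    (h1 : comp (nat_lit 5) (nat_lit 32) (nat_lit 24) N X = comp (nat_lit 5) (nat_lit 32) (nat_lit 24)
      (powP (nat_lit 5) (nat_lit 32) (nat_lit 24) X 2) N)
    (h2 : comp (nat_lit 5) (nat_lit 32) (nat_lit 24) Y X = comp (nat_lit 5) (nat_lit 32) (nat_lit 24) X Y)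
    (h3 : comp (nat_lit 5) (nat_lit 32) (nat_lit 24) Z X = comp (nat_lit 5) (nat_lit 32) (nat_lit 24) X Z)
    (h4 : comp (nat_lit 5) (nat_lit 32) (nat_lit 24) Y Z ≠ comp (nat_lit 5) (nat_lit 32) (nat_lit 24) Z Y)
    (hT : fam T ∈ trios)
    (h5 : ∀ k < 7, allI (nat_lit 5) (nat_lit 32) (nat_lit 24) m24CertL 0
      [(X, powP (nat_lit 5) (nat_lit 32) (nat_lit 24) X k)] []
      (fun P => decide (k = 1 ∨ k = 2 ∨ k = 4) && famFix T P) = true) : P7 (GE.perm X) := by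
  obtain ⟨x, rfl⟩ := GE.exists_pk_of_valid hX
  obtain ⟨n, hn, rfl⟩ := exists_M24 N hN
  obtain ⟨y, hy, rfl⟩ := exists_M24 Y hY
  obtain ⟨z, hz, rfl⟩ := exists_M24 Z hZ
  simp only [← GE.pk_pow, ← GE.pk_mul, GE.pk_inj, ne_eq] at h1 h2 h3 h4 h5
  rw [GE.perm_pk]
  refine ⟨⟨n, hn, h1⟩, ⟨y, hy, z, hz, h2, h3, h4⟩, _, hT, fun m hm k hk e => ?_⟩
  have := m24_chain.forall_of_allI (GE.fixes_zero _) (h5 k hk) m hm
    ⟨by simpa [GE.perm_pk] using e, by simp⟩
  rw [Bool.and_eq_true, decide_eq_true_iff] at this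
  exact ⟨this.1, smul_fam this.2⟩

theorem P7A : P7 (GE.perm m24_7A.X) :=
  P7_of_chk _ 0x19b299e2b7b94c4d616a20640dca2 0xbd6cb22627638cfa224a834b318820
    0xb28758c0854cae00b84c6ae9379907 [2702848, 5538256, 8536111] (by decide +kernel)
    (by decide +kernel) (by decide +kernel) (by decide +kernel) (by decide +kernel)
    (by decide +kernel) (by decide +kernel) (by decide +kernel)
    (fam_mem_trios (by decide +kernel)) (by decide +kernel)

theorem P7B : P7 (GE.perm m24_7B.X) :=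
  P7_of_chk _ 0x3567b122650d337c10ca54b20ddc2 0xba1474922b3398d85676a3cb218820
    0xb21451124b3400d70677a0cf17a6ac [1584464, 6656640, 8536111] (by decide +kernel)
    (by decide +kernel) (by decide +kernel) (by decide +kernel) (by decide +kernel)
    (by decide +kernel) (by decide +kernel) (by decide +kernel)
    (fam_mem_trios (by decide +kernel)) (by decide +kernel)

theorem P7_of_order {g : Equiv.Perm GolayPt} (hg : g ∈ M24) (h : orderOf g = 7) :
    P7 g ∧ Nat.card ↥(M24 ⊓ Subgroup.centralizer {g}) = 42 := by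
  obtain ⟨c, hc, ⟨a, ha, e⟩, h2, -, h5⟩ := m24_rep hg
  obtain ⟨e1 | e1, e2⟩ := (by decide +kernel : ∀ c ∈ m24Cl,
    7 = ordN (nat_lit 5) (nat_lit 32) (nat_lit 24) c.X 24 →
    (c.X = m24_7A.X ∨ c.X = m24_7B.X) ∧ c.c = 42) c hc (h ▸ h2)
  · exact ⟨e ▸ P7_conj ha (e1 ▸ P7A), h5.trans e2⟩
  · exact ⟨e ▸ P7_conj ha (e1 ▸ P7B), h5.trans e2⟩

/-- For a subgroup S of order 7 of the group of the length-24 code (a Sylow 7-subgroup): the normaliser of S has order 126, the centraliser of S has order 42 and is non-abelian, and the whole normaliser leaves some trio invariant. (These are the orders of a Frobenius group of order 21 times a symmetric group of degree 3; the isomorphism type itself is not asserted here.) -/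
theorem result (S : Subgroup ↥Cfsg.M24) (hS : Nat.card S = 7) : Nat.card ↥(Subgroup.normalizer (S : Set ↥Cfsg.M24)) = 126 ∧ Nat.card ↥(Subgroup.centralizer (S : Set ↥Cfsg.M24)) = 42 ∧ (∃ x ∈ Subgroup.centralizer (S : Set ↥Cfsg.M24), ∃ y ∈ Subgroup.centralizer (S : Set ↥Cfsg.M24), x * y ≠ y * x) ∧ ∃ T ∈ Cfsg.trios, ∀ n ∈ Subgroup.normalizer (S : Set ↥Cfsg.M24), ((n : ↥Cfsg.M24) : Equiv.Perm Cfsg.GolayPt) • T = T := by
  obtain ⟨s, rfl, hs⟩ := exists_zpowers_of_prime (by norm_num) hS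
  obtain ⟨⟨⟨n, hn, e⟩, ⟨y, hy, z, hz, e1, e2, e3⟩, T, hT, h⟩, hC⟩ :=
    P7_of_order s.2 (by rw [Subgroup.orderOf_coe, hs])
  have hc : Subgroup.centralizer (Subgroup.zpowers s : Set M24) = Subgroup.centralizer {s} := by
    rw [Subgroup.zpowers_eq_closure, Subgroup.centralizer_closure]
  have hC' : Nat.card (Subgroup.centralizer {s}) = 42 := by rw [card_centralizer_subtype, hC]
  have hN : ∀ m ∈ Subgroup.normalizer (Subgroup.zpowers s : Set M24), ∃ k < 7,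
      m * s * m⁻¹ = s ^ k ∧ (k = 1 ∨ k = 2 ∨ k = 4) ∧ (m : Equiv.Perm GolayPt) • T = T := by
    intro m hm
    have h1 := (Subgroup.mem_normalizer_iff.1 hm s).1 (Subgroup.mem_zpowers s)
    rw [mem_zpowers_iff_mem_range_orderOf, hs] at h1
    obtain ⟨k, hk, e⟩ := Finset.mem_image.1 h1
    refine ⟨k, Finset.mem_range.1 hk, e.symm, h m m.2 k (Finset.mem_range.1 hk) ?_⟩
    have := congrArg Subtype.val (mul_inv_eq_iff_eq_mul.1 e.symm)
    simpa using this
  have en : (⟨n, hn⟩ : M24) * s * (⟨n, hn⟩ : M24)⁻¹ = s ^ 2 :=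
    mul_inv_eq_iff_eq_mul.2 (Subtype.ext (by simpa using e))
  have hnN : (⟨n, hn⟩ : M24) ∈ Subgroup.normalizer (Subgroup.zpowers s : Set M24) := by
    refine Subgroup.mem_normalizer_fintype ?_
    rintro _ ⟨k, rfl⟩
    rw [← conj_zpow, en]
    exact Subgroup.zpow_mem _ (Subgroup.pow_mem _ (Subgroup.mem_zpowers s) 2) k
  refine ⟨?_, hc ▸ hC', ⟨⟨y, hy⟩, ?_, ⟨z, hz⟩, ?_, fun e => e3 (congrArg Subtype.val e)⟩,
    T, hT, fun m hm => ?_⟩
  · rw [card_eq_cls_mul _ s, inf_eq_right.2 (hc ▸ Subgroup.centralizer_le_normalizer _), hC']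
    have : cls (Subgroup.normalizer (Subgroup.zpowers s : Set M24)) s = {s ^ 1, s ^ 2, s ^ 4} := by
      ext g
      constructor
      · rintro ⟨m, hm, rfl⟩
        obtain ⟨k, -, e, rfl | rfl | rfl, -⟩ := hN m hm <;> simp [e]
      · rintro (rfl | rfl | rfl)
        · exact ⟨1, Subgroup.one_mem _, by simp⟩
        · exact ⟨_, hnN, en⟩
        · refine ⟨_, Subgroup.mul_mem _ hnN hnN, ?_⟩
          rw [show s ^ 4 = (s ^ 2) ^ 2 by group]
          conv_rhs => rw [← en, conj_pow, ← en]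
          group
    have ne : ∀ i < 7, ∀ j < 7, i ≠ j → s ^ i ≠ s ^ j := fun i hi j hj hij e =>
      hij (pow_injOn_Iio_orderOf (by rw [hs]; exact hi) (by rw [hs]; exact hj) e)
    rw [this, Set.ncard_eq_three.2 ⟨_, _, _, ne 1 (by norm_num) 2 (by norm_num) (by norm_num),
      ne 1 (by norm_num) 4 (by norm_num) (by norm_num),
      ne 2 (by norm_num) 4 (by norm_num) (by norm_num), rfl⟩]
  · rw [hc, Subgroup.mem_centralizer_singleton_iff]
    exact Subtype.ext e1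
  · rw [hc, Subgroup.mem_centralizer_singleton_iff]
    exact Subtype.ext e2
  · obtain ⟨k, -, -, -, e⟩ := hN m hm
    exact e

end Cfsg.Agent.S5604
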