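import Cfsg.Statements.S5712
import Cfsg.Agent.H27.TwoTv4
import Cfsg.Agent.H27.SpGen
import Cfsg.Agent.S0247

set_option autoImplicit false
open Cfsg

namespace Cfsg.Agent.S5712

open Cfsg.Agent.H27 Cfsg.Agent.H27.TT Matrix

theorem exists_perp {F V : Type*} [Field F] [AddCommGroup V] [Module F V] [FiniteDimensional F V]
    (B : V →ₗ[F] V →ₗ[F] F) {k : ℕ} (hk : k < Module.finrank F V) (u : Fin k → V) :
    ∃ v, v ≠ 0 ∧ ∀ i, B v (u i) = 0 := by
  have := LinearMap.ker_ne_bot_of_finrank_lt (f := LinearMap.pi fun i => B.flip (u i))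
    (by simpa using hk)
  obtain ⟨v, hv, h0⟩ := Submodule.exists_mem_ne_zero_of_ne_bot this
  exact ⟨v, h0, fun i => congrFun hv i⟩

theorem c120 : Fintype.card {p : (Fin 2 ⊕ Fin 2 → ZMod 2) × (Fin 2 ⊕ Fin 2 → ZMod 2) //
    ∑ i : Fin 2, (p.2 (Sum.inr i) * p.1 (Sum.inl i) - p.2 (Sum.inl i) * p.1 (Sum.inr i)) = 1} =
      120 := by
  decide +kernel

/-- The embedding of the symplectic group in the general linear group. -/
noncomputable def emb (n : ℕ) (F : Type*) [Field F] :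
    Matrix.symplecticGroup (Fin n) F →* GL (Fin n ⊕ Fin n) F :=
  (Matrix.symplecticGroup (Fin n) F).subtype.toHomUnits

theorem emb_val {n : ℕ} {F : Type*} [Field F] (A : Matrix.symplecticGroup (Fin n) F) :
    (emb n F A : Matrix (Fin n ⊕ Fin n) (Fin n ⊕ Fin n) F) = A.1 := rfl

theorem emb_inj {n : ℕ} {F : Type*} [Field F] : Function.Injective (emb n F) := fun _ _ h =>
  Subtype.ext (congrArg Units.val h)

/-- Let F be a finite field of characteristic two, n ≥ 2, V = F^{2n} with the non-degenerate alternating form f(u, v) = Σ (u_i v_{n+i} + u_{n+i} v_i), and G the group of invertible matrices preserving f. Let a ≠ 0 be a vector, H its stabilizer in G, and X a subgroup of O₂(H) of order |F|^{2n−2} no element of which is a transvection (no element g has g − 1 of rank one). If L is a subgroup of G containing X that acts irreducibly on V (no proper non-zero L-invariant subspace), then L = G, or, for some quadratic form Q on V whose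 polar form is f, L is the isometry group of Q or its subgroup of the isometries g for which g − 1 has even rank, or |F| = 2, n = 2 and L is isomorphic to the alternating group of degree 6 or to the symmetric group of degree 5. -/
theorem result {F : Type*} [Field F] [Fintype F] [CharP F 2] {n : ℕ} (hn : 2 ≤ n) (a : (Fin n ⊕ Fin n → F)) (ha : a ≠ 0)
    (X : Subgroup (GL (Fin n ⊕ Fin n) F)) (hXG : X ≤ Cfsg.preserving (Units.coeHom (Matrix (Fin n ⊕ Fin n) (Fin n ⊕ Fin n) F)) (fun u v : (Fin n ⊕ Fin n → F) => ∑ i : Fin n, (u (Sum.inl i) * v (Sum.inr i) + u (Sum.inr i) * v (Sum.inl i))))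
    (hXO : ∀ H : Subgroup (GL (Fin n ⊕ Fin n) F),
      (∀ g : GL (Fin n ⊕ Fin n) F, g ∈ H ↔ (g ∈ Cfsg.preserving (Units.coeHom (Matrix (Fin n ⊕ Fin n) (Fin n ⊕ Fin n) F)) (fun u v : (Fin n ⊕ Fin n → F) => ∑ i : Fin n, (u (Sum.inl i) * v (Sum.inr i) + u (Sum.inr i) * v (Sum.inl i))) ∧ Matrix.mulVec (g : Matrix (Fin n ⊕ Fin n) (Fin n ⊕ Fin n) F) a = a)) →
      X ≤ (Cfsg.pCore 2 ↥H).map H.subtype)
    (hcard : Nat.card ↥X = Fintype.card F ^ (2 * n - 2))
    (hntv : ∀ x ∈ X, ((x : Matrix (Fin n ⊕ Fin n) (Fin n ⊕ Fin n) F) - 1).rank ≠ 1)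
    (L : Subgroup (GL (Fin n ⊕ Fin n) F)) (hXL : X ≤ L) (hLG : L ≤ Cfsg.preserving (Units.coeHom (Matrix (Fin n ⊕ Fin n) (Fin n ⊕ Fin n) F)) (fun u v : (Fin n ⊕ Fin n → F) => ∑ i : Fin n, (u (Sum.inl i) * v (Sum.inr i) + u (Sum.inr i) * v (Sum.inl i))))
    (hirr : ∀ W : Submodule F (Fin n ⊕ Fin n → F), (∀ g ∈ L, ∀ w ∈ W, Matrix.mulVec (g : Matrix (Fin n ⊕ Fin n) (Fin n ⊕ Fin n) F) w ∈ W) → W = ⊥ ∨ W = ⊤) :
    L = Cfsg.preserving (Units.coeHom (Matrix (Fin n ⊕ Fin n) (Fin n ⊕ Fin n) F)) (fun u v : (Fin n ⊕ Fin n → F) => ∑ i : Fin n, (u (Sum.inl i) * v (Sum.inr i) + u (Sum.inr i) * v (Sum.inl i))) ∨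
    (∃ Q : QuadraticForm F (Fin n ⊕ Fin n → F), (∀ u v, QuadraticMap.polar ⇑Q u v = (fun u v : (Fin n ⊕ Fin n → F) => ∑ i : Fin n, (u (Sum.inl i) * v (Sum.inr i) + u (Sum.inr i) * v (Sum.inl i))) u v) ∧
      (L = Cfsg.isometryGroup F ⇑Q ∨
        ∀ g : GL (Fin n ⊕ Fin n) F, g ∈ L ↔ (g ∈ Cfsg.isometryGroup F ⇑Q ∧ Even ((g : Matrix (Fin n ⊕ Fin n) (Fin n ⊕ Fin n) F) - 1).rank))) ∨
    (Fintype.card F = 2 ∧ n = 2 ∧ (Nonempty (↥L ≃* ↥(alternatingGroup (Fin 6))) ∨ Nonempty (↥L ≃* Equiv.Perm (Fin 5)))) := by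
  classical
  have h2 : (2 : F) = 0 := CharTwo.two_eq_zero
  have hf : (fun u v : (Fin n ⊕ Fin n → F) => ∑ i : Fin n, (u (Sum.inl i) * v (Sum.inr i) +
      u (Sum.inr i) * v (Sum.inl i))) = sympForm n F := by
    funext u v
    rw [sympForm_eq]
    exact Finset.sum_congr rfl fun i _ => by linear_combination (u (Sum.inl i) * v (Sum.inr i)) * h2
  rw [hf] at hXG hXO hLG ⊢
  set G := Cfsg.preserving (Units.coeHom (Matrix (Fin n ⊕ Fin n) (Fin n ⊕ Fin n) F)) (sympForm n F)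
  let B := sympBilin n F
  have hB : ∀ u v, B u v = sympForm n F u v := sympBilin_apply
  let ρ : GL (Fin n ⊕ Fin n) F →* Module.End F (Fin n ⊕ Fin n → F) :=
    (Matrix.toLinAlgEquiv' : Matrix (Fin n ⊕ Fin n) (Fin n ⊕ Fin n) F ≃ₐ[F] _).toMonoidHom.comp
      (Units.coeHom _)
  have hρ : ∀ g v, ρ g v = (g : Matrix _ _ F) *ᵥ v := fun g v => by
    simp [ρ, Matrix.toLinAlgEquiv'_apply]
  have hρi : Function.Injective ρ := fun g g' e =>
    Units.ext (Matrix.ext_iff_mulVec.2 fun v => by rw [← hρ, ← hρ, e])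
  have hG : ∀ g, g ∈ G ↔ ∀ u v, B (ρ g u) (ρ g v) = B u v := fun g => by
    simp only [hB, hρ]; rfl
  have hemb : ∀ g, g ∈ G ↔ ∃ A, emb n F A = g := fun g =>
    ⟨fun hg => ⟨⟨g, mem_sp_iff.2 hg⟩, Units.ext rfl⟩, by rintro ⟨A, rfl⟩; exact sp_sympForm A⟩
  have cx : ∀ M ≤ G, Cx B (ρ '' M) := fun M hM =>
    { two := h2
      alt := sympBilin_isAlt
      nd := fun v hv => eq_zero_of_sympForm_right fun w => by rw [← hB, hv]
      iso := by rintro _ ⟨g, hg, rfl⟩; exact (hG g).1 (hM hg)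
      mul := by rintro _ ⟨g, hg, rfl⟩ _ ⟨g', hg', rfl⟩; exact ⟨_, M.mul_mem hg hg', map_mul _ _ _⟩
      inv := by
        rintro _ ⟨g, hg, rfl⟩
        exact ⟨_, ⟨_, M.inv_mem hg, rfl⟩, fun v => by
          rw [← Module.End.mul_apply, ← map_mul, mul_inv_cancel, map_one, Module.End.one_apply]⟩
      one := ⟨1, M.one_mem, map_one _⟩ }
  have h := cx L hLG
  have hfr : Module.finrank F (Fin n ⊕ Fin n → F) = 2 * n := by simp [two_mul]
  have hd : ∀ x z, ∃ e, e ≠ 0 ∧ B e x = 0 ∧ B e z = 0 := fun x z => by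
    obtain ⟨v, h0, hv⟩ := exists_perp B (k := 2) (by omega) ![x, z]
    exact ⟨v, h0, hv 0, hv 1⟩
  have mem : ∀ {g : GL (Fin n ⊕ Fin n) F} {φ}, φ ∈ ρ '' L → (∀ v, φ v = ρ g v) → g ∈ L := by
    rintro g _ ⟨g', hg', rfl⟩ e
    rwa [← hρi (LinearMap.ext e)]
  -- the full group at `a`
  obtain ⟨z₀, hz₀⟩ := h.exists_one ha
  have full : ∀ b, B b a = 0 → ∃ c, U B (ρ '' L) a b c := by
    let H : Subgroup (GL (Fin n ⊕ Fin n) F) := G ⊓ MulAction.stabilizer _ a
    have hH : ∀ g, g ∈ H ↔ g ∈ G ∧ (g : Matrix _ _ F) *ᵥ a = a := fun g => Iff.rfl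
    obtain ⟨e, he0, he⟩ := hd a z₀
    let K : Subgroup H :=
      { carrier := {g | ∀ v, B v a = 0 → ∃ s : F, ρ g v = v + s • a}
        mul_mem' := fun {g g'} hg hg' v hv => by
          obtain ⟨s, e⟩ := hg v hv
          obtain ⟨t, e'⟩ := hg' v hv
          refine ⟨s + t, ?_⟩
          rw [Subgroup.coe_mul, map_mul, Module.End.mul_apply, e', map_add, map_smul, e, hρ g a,
            ((hH g).1 g.2).2]
          module
        one_mem' := fun v _ => ⟨0, by simp⟩
        inv_mem' := fun {g} hg v hv => by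
          obtain ⟨s, e⟩ := hg v hv
          have := congrArg (ρ (g⁻¹ : H)) e
          rw [map_add, map_smul, hρ _ a, ((hH _).1 g⁻¹.2).2, ← Module.End.mul_apply, ← map_mul,
            ← Subgroup.coe_mul, inv_mul_cancel] at this
          exact ⟨-s, by simp only [OneMemClass.coe_one, map_one, Module.End.one_apply] at this
                        linear_combination (norm := module) -this⟩ }
    have hK : pCore 2 H ≤ K := sSup_le fun N hN g hg v hv => by
      have := hN.1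
      exact h.normal_two (ρ.comp H.subtype) (fun g => (hG _).1 g.2.1)
        (fun g => (hρ _ _).trans ((hH _).1 g.2).2) hz₀ he he0 (fun w hw => by
          have e : ∀ v, ρ (emb n F (spT w 1)) v = v + B v w • w := fun v => by
            rw [hρ, emb_val, spT_mulVec, one_mul, hB]
          exact ⟨⟨emb n F (spT w 1), (hH _).2 ⟨(hemb _).2 ⟨_, rfl⟩, by
            rw [← hρ, e, h.symm, hw, zero_smul, add_zero]⟩⟩, e⟩) N hN.2 hg hv
    have hXK : ∀ g ∈ X, ∃ k ∈ K, (k : GL _ F) = g := fun g hg => by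
      obtain ⟨k, hk, e⟩ := hXO H hH hg
      exact ⟨k, hK hk, e⟩
    refine h.full_of_card ρ hρi X (fun g hg => ⟨g, hXL hg, rfl⟩) hz₀ (fun g hg => ?_)
      (fun g hg => ?_) ?_ fun g hg c e => ?_
    · obtain ⟨k, hk, rfl⟩ := hXK g hg
      exact hk
    · obtain ⟨k, -, rfl⟩ := hXK g hg
      exact (hρ _ _).trans ((hH _).1 k.2).2
    · have := h.card_Wc hz₀
      rw [Nat.card_fun, Nat.card_sum, Nat.card_fin, Nat.card_eq_fintype_card (α := F), mul_assoc,
        ← pow_two, show n + n = (2 * n - 2) + 2 by omega, pow_add] at this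
      rw [hcard]
      exact Nat.eq_of_mul_eq_mul_right (pow_pos Fintype.card_pos _) this
    · by_contra hc
      refine hntv g hg ?_
      have : LinearMap.range ((g : Matrix (Fin n ⊕ Fin n) (Fin n ⊕ Fin n) F) - 1).mulVecLin =
          Submodule.span F {a} := by
        have e' : ∀ v, ((g : Matrix (Fin n ⊕ Fin n) (Fin n ⊕ Fin n) F) - 1).mulVecLin v =
            (c * B v a) • a := fun v => by
          rw [mulVecLin_apply, sub_mulVec, ← hρ, e, one_mulVec, add_sub_cancel_left]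
        refine le_antisymm ?_ ?_
        · rintro _ ⟨v, rfl⟩
          rw [e']; exact Submodule.smul_mem _ _ (Submodule.mem_span_singleton_self a)
        · rw [Submodule.span_singleton_le_iff_mem]
          exact ⟨c⁻¹ • z₀, by rw [e']; simp [hz₀, hc]⟩
      rw [Matrix.rank, this, finrank_span_singleton ha]
  have hirr' : ∀ S : Submodule F (Fin n ⊕ Fin n → F), (∀ g ∈ ρ '' L, ∀ v ∈ S, g v ∈ S) →
      S = ⊥ ∨ S = ⊤ := fun S hS => hirr S fun g hg w hw => hρ g w ▸ hS _ ⟨g, hg, rfl⟩ w hw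
  let P : Set (Fin n ⊕ Fin n → F) := {x | ∃ t : F, t ≠ 0 ∧ ∃ g ∈ ρ '' L, x = t • g a}
  have Pinv : ∀ g ∈ ρ '' L, ∀ x ∈ P, g x ∈ P := by
    rintro g hg _ ⟨t, ht, g', hg', rfl⟩
    exact ⟨t, ht, g * g', h.mul _ hg _ hg', by simp⟩
  have Pa : a ∈ P := ⟨1, one_ne_zero, 1, h.one, by simp⟩
  have hP : Pts B (ρ '' L) P :=
    { ne := by
        rintro _ ⟨t, ht, g, hg, rfl⟩ e
        have := h.iso g hg z₀ a
        rw [(smul_eq_zero.1 e).resolve_left ht, hz₀, map_zero] at this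
        exact zero_ne_one this
      full := by
        rintro _ ⟨t, ht, g, hg, rfl⟩ b hb
        obtain ⟨g', hg', e⟩ := h.inv g hg
        obtain ⟨c, hc⟩ := full (g' (t • b)) (by
          rw [← h.iso g hg, e]; simpa using hb)
        have := h.U_conj hc hg
        rw [e] at this
        exact ⟨c / t ^ 2, Cx.U_smul' t (by rwa [mul_div_cancel₀ _ (pow_ne_zero 2 ht)])⟩
      inv := Pinv
      smul := by
        rintro _ ⟨t, ht, g, hg, rfl⟩ s hs
        exact ⟨s * t, mul_ne_zero hs ht, g, hg, smul_smul _ _ _⟩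
      span := fun S hS => by
        rcases hirr' (Submodule.span F P) (fun g hg v hv => by
          have : (Submodule.span F P).map g ≤ Submodule.span F P := by
            rw [Submodule.map_span_le]
            exact fun m hm => Submodule.subset_span (Pinv g hg m hm)
          exact this ⟨v, hv, rfl⟩) with e | e
        · exact absurd ((Submodule.eq_bot_iff _).1 e _ (Submodule.subset_span Pa)) ha
        · exact top_le_iff.1 (e ▸ Submodule.span_le.2 hS) }
  have top : L.comap (emb n F) = ⊤ → L = G := fun e => le_antisymm hLG fun g hg => by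
    obtain ⟨A, rfl⟩ := (hemb g).1 hg
    exact (e ▸ Subgroup.mem_top A : A ∈ L.comap (emb n F))
  by_cases hU : ∀ x ∈ P, ∀ t, U B (ρ '' L) x 0 t → t = 0
  swap
  · push Not at hU
    obtain ⟨x, hx, t, T, ht⟩ := hU
    refine Or.inl (top (sp_eq_top_of_spT_mem _ fun w c => ?_))
    obtain ⟨φ, hφ, e⟩ := h.caseA hP hirr' hd hx ht T w c
    exact mem hφ fun v => by rw [e, hρ, emb_val, spT_mulVec, hB]; simp
  by_cases hT : Two B P
  · obtain ⟨q, hq, k1, k2⟩ := h.quadric hP hT hd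
    let Q : QuadraticForm F (Fin n ⊕ Fin n → F) :=
      ⟨q, fun t v => by rw [hq.smul, pow_two, smul_eq_mul], B, hq.add⟩
    have hQ : ∀ u v, QuadraticMap.polar Q u v = B u v := fun u v => by
      change q (u + v) - q u - q v = _
      rw [hq.add]; ring
    refine Or.inr (Or.inl ⟨Q, fun u v => (hQ u v).trans (hB u v), eich_overgroup
      (fun x hx => h.nd x fun w => by rw [h.symm, ← hQ, hx]) (by simp; omega) h.exists_sq
      (fun g hg => H11.mem_isometryGroup.2 fun v => hρ g v ▸ k1 _ ⟨g, hg, rfl⟩ v)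
      fun u v hu huv => ?_⟩)
    obtain ⟨φ, hφ, e⟩ := k2 u v hu (by rw [h.symm, ← hQ, huv])
    refine mem hφ fun x => ?_
    rw [e, hρ, H11.toGL_mulVec, H11.ap_eich, hQ, hQ]
    change _ = x + B x u • v - B x v • u - (q v * B x u) • u
    linear_combination (norm := module) (h.aa (B x v + q v * B x u)) • u
  unfold Two at hT
  push Not at hT
  obtain ⟨x, hx, z, hz, hzx, t, hzt, ht⟩ := hT
  have k1 := hP.smul _ hz _ (inv_ne_zero hzx)
  have k2 : B ((B z x)⁻¹ • z) x = 1 := by simp [hzx]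
  have k3 := hP.smul _ hzt _ (inv_ne_zero hzx)
  rw [smul_add, smul_smul] at k3
  have k4 : (B z x)⁻¹ * t ≠ 0 := mul_ne_zero (inv_ne_zero hzx) ht
  by_cases hq : ∀ s : F, s ≠ 0 → s = 1
  swap
  · push Not at hq
    obtain ⟨s, hs0, hs1⟩ := hq
    obtain ⟨e, he, e1, e2⟩ := hd x ((B z x)⁻¹ • z)
    exact absurd (h.three_big hP hU hs0 hs1 hx k1 k2 e1 e2 he k3) k4
  rw [hq _ k4, one_smul] at k3
  rcases hn.eq_or_lt with rfl | hn
  swap
  · exact (h.three_two_big hP hU hq (fun a b c d => by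
      obtain ⟨v, h0, hv⟩ := exists_perp B (k := 4) (by omega) ![a, b, c, d]
      exact ⟨v, h0, hv 0, hv 1, hv 2, hv 3⟩) hx k1 k2 k3).elim
  have hF : Fintype.card F = 2 := by
    refine le_antisymm ?_ Fintype.one_lt_card
    have : (Finset.univ : Finset F) ⊆ {0, 1} := fun s _ => by
      by_cases hs : s = 0
      · simp [hs]
      · simp [hq s hs]
    exact (Finset.card_le_card this).trans Finset.card_le_two
  have tr := fun x' w (hw : B w x' = 1) => h.three_two_trans hP hU hq hd (by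
    rintro _ ⟨t, ht, g, hg, rfl⟩ _ ⟨t', ht', g', hg', rfl⟩
    obtain ⟨g1, hg1, e⟩ := h.inv g hg
    obtain ⟨g2, hg2, e2⟩ := h.inv g1 hg1
    refine ⟨g' * g1, h.mul _ hg' _ hg1, ?_⟩
    have : g1 (g a) = a := by rw [show g a = g2 a from (congrArg g (e2 a)).symm.trans (e _), e2]
    simp [hq t ht, hq t' ht', this]) hx k1 k2 k3 hw
  obtain ⟨φ⟩ := Cfsg.Agent.S0247.result hF
  let ε := ZMod.ringEquivOfPrime F Nat.prime_two hF
  have hcL : 120 ≤ Nat.card L := by
    rw [← c120, ← Nat.card_eq_fintype_card]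
    have : ∀ p : {p : (Fin 2 ⊕ Fin 2 → ZMod 2) × (Fin 2 ⊕ Fin 2 → ZMod 2) //
        ∑ i : Fin 2, (p.2 (Sum.inr i) * p.1 (Sum.inl i) - p.2 (Sum.inl i) * p.1 (Sum.inr i)) = 1},
        ∃ g : L, ρ g x = ε ∘ p.1.1 ∧ ρ g ((B z x)⁻¹ • z) = ε ∘ p.1.2 := fun p => by
      obtain ⟨_, ⟨g, hg, rfl⟩, e⟩ := tr (ε ∘ p.1.1) (ε ∘ p.1.2) (by
        have := congrArg ε p.2
        rw [map_one, map_sum] at this
        rw [hB, sympForm_eq, ← this]; simp)
      exact ⟨⟨g, hg⟩, e⟩
    choose γ h1 h2 using this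
    refine Nat.card_le_card_of_injective γ fun p p' e => Subtype.ext (Prod.ext ?_ ?_)
    · exact ε.injective.comp_left ((h1 p).symm.trans (e ▸ h1 p'))
    · exact ε.injective.comp_left ((h2 p).symm.trans (e ▸ h2 p'))
  have eL : (L.comap (emb 2 F)).map (emb 2 F) = L :=
    Subgroup.map_comap_eq_self fun g hg => (hemb g).1 (hLG hg)
  let ψ : L ≃* (L.comap (emb 2 F)).map φ.toMonoidHom :=
    ((MulEquiv.subgroupCongr eL.symm).trans ((L.comap (emb 2 F)).equivMapOfInjective _ emb_inj).symm).trans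
      (φ.subgroupMap _)
  rcases sub_perm_six _ (hcL.trans_eq (Nat.card_congr ψ.toEquiv)) with e | e | ⟨⟨e⟩⟩
  · refine Or.inl (top (eq_top_iff.2 fun A _ => ?_))
    obtain ⟨A', hA, e'⟩ : φ A ∈ (L.comap (emb 2 F)).map φ.toMonoidHom := e ▸ Subgroup.mem_top _
    exact φ.injective e' ▸ hA
  · exact Or.inr (Or.inr ⟨hF, rfl, Or.inl ⟨ψ.trans (MulEquiv.subgroupCongr e)⟩⟩)
  · exact Or.inr (Or.inr ⟨hF, rfl, Or.inr ⟨ψ.trans e⟩⟩)

end Cfsg.Agent.S5712
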