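import Cfsg.Statements.S5713
import Cfsg.Agent.H18.Babai2

set_option autoImplicit false
open Cfsg

namespace Cfsg.Agent.S5713

/-- A classification-free minimal-degree bound. Let G be a finite group acting faithfully and primitively on a finite set Ω with n elements, and suppose that the image of G in the symmetric group on Ω does not contain the alternating group on Ω. Then every non-identity element of G moves at least (√n − 1)/2 points of Ω, that is, it fixes at most n − (√n − 1)/2 points. -/
theorem result {G Ω : Type*} [Group G] [Finite G] [MulAction G Ω] [FaithfulSMul G Ω] [Fintype Ω] [DecidableEq Ω]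
    (hprim : MulAction.IsPreprimitive G Ω)
    (hA : ¬ alternatingGroup Ω ≤ (MulAction.toPermHom G Ω).range)
    (g : G) (hg : g ≠ 1) :
    (Real.sqrt (Fintype.card Ω) - 1) / 2 ≤ (Fintype.card Ω : ℝ) - Nat.card (MulAction.fixedBy Ω g) := by
  obtain ⟨a, ha⟩ : ∃ a : Ω, g • a ≠ a := by
    by_contra hc
    push Not at hc
    exact hg (FaithfulSMul.eq_of_smul_eq_smul (α := Ω) fun x => by rw [hc, one_smul])
  have h1 := H18.Babai.main hprim hA ha
  have h2 : (H18.Babai.supp Ω g).card + Nat.card (MulAction.fixedBy Ω g) = Fintype.card Ω := by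
    classical
    rw [Nat.card_eq_fintype_card, Fintype.card_subtype, add_comm, ← Finset.card_univ,
      ← Finset.card_filter_add_card_filter_not (s := Finset.univ) (fun x : Ω => g • x = x)]
    congr 2
  rw [← h2] 
  rw [← h2] at h1
  generalize (H18.Babai.supp Ω g).card = m at *
  generalize Nat.card (MulAction.fixedBy Ω g) = f at *
  have h3 : Real.sqrt ((m + f : ℕ) : ℝ) ≤ 2 * m + 1 := by
    rw [Real.sqrt_le_left (by positivity)]
    have : ((m + f : ℕ) : ℝ) ≤ ((4 * (m * m) + 1 : ℕ) : ℝ) := by exact_mod_cast h1
    have h0 : (0 : ℝ) ≤ m := by positivity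
    push_cast at this ⊢
    nlinarith
  push_cast at h3 ⊢
  linarith

end Cfsg.Agent.S5713
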