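import Cfsg.Statements.S5722
import Cfsg.Agent.H19.Factors

set_option autoImplicit false
open Cfsg

namespace Cfsg.Agent.S5722

open H19 H77 MulAction ArithmeticFunction

universe u

theorem two_pow_cardFactors_le {m : ℕ} (hm : m ≠ 0) : 2 ^ cardFactors m ≤ m := by
  rw [cardFactors_apply]
  conv_rhs => rw [← Nat.prod_primeFactorsList hm]
  exact List.pow_card_le_prod _ _ fun p hp => (Nat.prime_of_mem_primeFactorsList hp).two_le

theorem cardFactors_le_log {m k : ℕ} (hm : m ≠ 0) (h : m ≤ k) : cardFactors m ≤ Nat.log 2 k :=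
  Nat.le_log_of_pow_le one_lt_two ((two_pow_cardFactors_le hm).trans h)

theorem numeric {n : ℕ} (hn : 2 ≤ n) :
    3 * (cardFactors n * (1 + Nat.log 2 (n - 1))) + 4 ≤ 4 * n := by
  have h1 := two_pow_cardFactors_le (m := n) (by omega)
  have h2 := Nat.pow_log_le_self 2 (x := n - 1) (by omega)
  have h3 := Nat.lt_pow_succ_log_self one_lt_two (n - 1)
  by_cases h5 : n = 5
  · subst h5
    rw [cardFactors_apply_prime (by norm_num)]
    decide
  by_cases h9 : n = 9
  · subst h9
    rw [show (9 : ℕ) = 3 ^ 2 from rfl, cardFactors_apply_prime_pow (by norm_num)]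
    decide
  generalize cardFactors n = k at *
  generalize Nat.log 2 (n - 1) = L at *
  have h4 : k ≤ L + 1 := (Nat.pow_le_pow_iff_right one_lt_two).mp (by omega)
  by_cases hL : 5 ≤ L
  · have key : ∀ j, 3 * ((j + 5 + 1) * (j + 5 + 1)) ≤ 4 * 2 ^ (j + 5) := by
      intro j
      induction j with
      | zero => norm_num
      | succ j ih =>
        rw [show j + 1 + 5 = j + 5 + 1 by ring, pow_succ]
        nlinarith
    obtain ⟨j, rfl⟩ : ∃ j, L = j + 5 := ⟨L - 5, by omega⟩
    have := key j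
    have : k * (1 + (j + 5)) ≤ (j + 5 + 1) * (j + 5 + 1) := by nlinarith
    omega
  · have hk : k ≤ 5 := by omega
    have hL' : L ≤ 4 := by omega
    interval_cases L <;> interval_cases k <;> omega

/-- A group acting faithfully by conjugation on `N` has few prime factors in its order. -/
theorem cardFactors_le_of_faithful {G : Type*} [Group G] [Finite G] (N : Subgroup G) [hN : N.Normal]
    (M : Subgroup G) : M ≤ N → ∀ H : Subgroup G, (∀ h ∈ H, (∀ n ∈ N, h * n = n * h) → h = 1) →
    (∀ h ∈ H, ∀ m ∈ M, h * m = m * h) →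
    cardFactors (Nat.card H) + cardFactors (Nat.card M) * Nat.log 2 (Nat.card N - 1) ≤
      cardFactors (Nat.card N) * Nat.log 2 (Nat.card N - 1) := by
  induction M using WellFoundedGT.induction with
  | ind M ih =>
  intro hM H hf hc
  rcases hM.eq_or_lt with rfl | hlt
  · have : H = ⊥ := (Subgroup.eq_bot_iff_forall _).mpr fun h hh => hf h hh (hc h hh)
    simp [this]
  obtain ⟨x, hxN, hxM⟩ := SetLike.exists_of_lt hlt
  have hM' : M < M ⊔ Subgroup.zpowers x :=
    left_lt_sup.mpr fun h => hxM (h (Subgroup.mem_zpowers x))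
  have h1 := ih _ hM' (sup_le hM (by simpa using hxN)) (H ⊓ Subgroup.centralizer {x})
    (fun h hh => hf h hh.1) (by
      intro h hh m hm
      have : M ⊔ Subgroup.zpowers x ≤ Subgroup.centralizer {h} := by
        refine sup_le (fun m hm => Subgroup.mem_centralizer_singleton_iff.mpr
          (hc h hh.1 m hm).symm) ?_
        rw [Subgroup.zpowers_le, Subgroup.mem_centralizer_singleton_iff]
        exact (Subgroup.mem_centralizer_singleton_iff.mp hh.2).symm
      exact (Subgroup.mem_centralizer_singleton_iff.mp (this hm)).symm)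
  have h2 := cardFactors_card_lt hM'
  have h3 : (H ⊓ Subgroup.centralizer {x}).relIndex H ≤ Nat.card N - 1 := by
    letI : MulAction H G := MulAction.compHom G ((MulAut.conj : G →* MulAut G).comp H.subtype)
    have e : (H ⊓ Subgroup.centralizer {x}).subgroupOf H = stabilizer H x := by
      ext h
      rw [Subgroup.mem_subgroupOf, mem_stabilizer_iff, Subgroup.mem_inf,
        Subgroup.mem_centralizer_singleton_iff]
      change _ ↔ (h : G) * x * (h : G)⁻¹ = x
      rw [mul_inv_eq_iff_eq_mul]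
      simp
    rw [Subgroup.relIndex, e, index_stabilizer,
      show Nat.card N = (N : Set G).ncard from Nat.card_coe_set_eq (N : Set G),
      ← Set.ncard_sdiff_singleton_of_mem (N.one_mem : (1 : G) ∈ (N : Set G))]
    apply Set.ncard_le_ncard _ (Set.toFinite _)
    rintro _ ⟨h, rfl⟩
    refine ⟨hN.conj_mem x hxN h, fun h1 => hxM ?_⟩
    have h1' : (h : G) * x * (h : G)⁻¹ = 1 := h1
    rw [mul_inv_eq_one, mul_eq_left] at h1'
    exact h1' ▸ M.one_mem
  have h0 : (H ⊓ Subgroup.centralizer {x}).relIndex H ≠ 0 := Subgroup.index_ne_zero_of_finite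
  have h4 := cardFactors_le_log h0 h3
  rw [H23.card_eq_relIndex_mul (inf_le_left : H ⊓ Subgroup.centralizer {x} ≤ H),
    cardFactors_mul h0 Nat.card_pos.ne']
  have h5 := Nat.mul_le_mul_right (Nat.log 2 (Nat.card N - 1)) (Nat.succ_le_of_lt h2)
  rw [Nat.succ_mul] at h5
  omega

/-- The statement for faithful actions of degree `n`. -/
def Bound (n : ℕ) : Prop :=
  ∀ (G Ω ι : Type u) [Group G] [Finite G] [MulAction G Ω] [Finite Ω] (φ : Ω → ι),
    Nat.card Ω = n → (∀ g : G, (∀ x : Ω, g • x = x) → g = 1) →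
    (∀ (g : G) (x : Ω), φ (g • x) = φ x) →
    3 * cl (⊤ : Subgroup G) + 4 * (Set.range φ).ncard ≤ 4 * n

section
variable {G Ω ι : Type u} [Group G] [Finite G] [MulAction G Ω] [Finite Ω]

theorem bound_set (A : Subgroup G) (S : Set Ω) (ih : Bound.{u} S.ncard)
    (hS : ∀ a ∈ A, ∀ x ∈ S, a • x ∈ S) (φ : Ω → ι)
    (hφ : ∀ a ∈ A, ∀ x ∈ S, φ (a • x) = φ x) :
    3 * cl A + 4 * (φ '' S).ncard ≤ 4 * S.ncard + 3 * cl (A ⊓ fixingSubgroup G S) := by
  let X : SubMulAction A Ω := ⟨S, fun a _ hx => hS a a.2 _ hx⟩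
  let f := toPermHom A X
  have h1 := ih f.range X ι (fun x => φ x) (Nat.card_coe_set_eq S)
    (fun g hg => Subtype.ext (Equiv.ext hg)) (by
      rintro ⟨_, a, rfl⟩ x
      exact hφ a a.2 x x.2)
  have h2 : (Set.range fun x : X => φ x) = φ '' S := by
    ext y
    constructor
    · rintro ⟨x, rfl⟩
      exact ⟨x, x.2, rfl⟩
    · rintro ⟨x, hx, rfl⟩
      exact ⟨⟨x, hx⟩, rfl⟩
  have h3 : f.ker = (A ⊓ fixingSubgroup G S).subgroupOf A := by
    ext a
    rw [MonoidHom.mem_ker, Subgroup.mem_subgroupOf, Subgroup.mem_inf, mem_fixingSubgroup_iff]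
    constructor
    · intro h
      refine ⟨a.2, fun y hy => ?_⟩
      have h5 : a • (⟨y, hy⟩ : X) = ⟨y, hy⟩ := DFunLike.congr_fun h (⟨y, hy⟩ : X)
      exact congrArg Subtype.val h5
    · intro h
      exact Equiv.ext fun y => Subtype.ext (h.2 y y.2)
  have h4 := cl_top_eq_add f
  rw [h2, cl_top_subgroup] at h1
  rw [cl_top_subgroup, h3, cl_subgroupOf inf_le_left] at h4
  omega

theorem bound_intrans (ih : ∀ m < Nat.card Ω, Bound.{u} m)
    (hf : ∀ g : G, (∀ x : Ω, g • x = x) → g = 1) (φ : Ω → ι)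
    (hφ : ∀ (g : G) (x : Ω), φ (g • x) = φ x) {a b : Ω} (hab : φ a ≠ φ b) :
    3 * cl (⊤ : Subgroup G) + 4 * (Set.range φ).ncard ≤ 4 * Nat.card Ω := by
  let S : Set Ω := {x | φ x = φ a}
  have hS := Set.ncard_add_ncard_compl S
  have hS1 : 0 < S.ncard := (Set.ncard_pos (Set.toFinite _)).mpr ⟨a, rfl⟩
  have hS2 : 0 < Sᶜ.ncard := (Set.ncard_pos (Set.toFinite _)).mpr ⟨b, hab.symm⟩
  have h1 := bound_set ⊤ S (ih _ (by omega)) (fun g _ x hx => (hφ g x).trans hx) φ
    fun g _ x _ => hφ g x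
  have h2 := bound_set (⊤ ⊓ fixingSubgroup G S) Sᶜ (ih _ (by omega))
    (fun g _ x hx h => hx ((hφ g x).symm.trans h)) φ fun g _ x _ => hφ g x
  have h3 : ⊤ ⊓ fixingSubgroup G S ⊓ fixingSubgroup G Sᶜ = ⊥ := by
    rw [Subgroup.eq_bot_iff_forall]
    intro g hg
    apply hf
    intro x
    by_cases hx : x ∈ S
    · exact (mem_fixingSubgroup_iff G).mp hg.1.2 x hx
    · exact (mem_fixingSubgroup_iff G).mp hg.2 x hx
  have h4 : (Set.range φ).ncard ≤ (φ '' S).ncard + (φ '' Sᶜ).ncard := by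
    rw [← Set.image_univ, ← Set.union_compl_self S, Set.image_union]
    exact Set.ncard_union_le _ _
  rw [h3, cl_bot] at h2
  omega

theorem bound_imprim (ih : ∀ m < Nat.card Ω, Bound.{u} m)
    (hf : ∀ g : G, (∀ x : Ω, g • x = x) → g = 1) [IsPretransitive G Ω] (a : Ω) (M : Subgroup G)
    (h1 : stabilizer G a < M) (h2 : M ≠ ⊤) :
    3 * cl (⊤ : Subgroup G) + 4 ≤ 4 * Nat.card Ω := by
  choose r hr using exists_smul_eq G a
  let ψ : Ω → G ⧸ M := fun x => r x
  have hψ : ∀ (g : G) (x : Ω), ψ (g • x) = g • ψ x := by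
    intro g x
    change ((r (g • x) : G) : G ⧸ M) = ((g * r x : G) : G ⧸ M)
    rw [QuotientGroup.eq]
    apply h1.le
    rw [mem_stabilizer_iff, mul_smul, mul_smul, hr, inv_smul_eq_iff, hr]
  have hψs : Function.Surjective ψ := by
    intro y
    obtain ⟨g, rfl⟩ := exists_smul_eq G (ψ a) y
    exact ⟨g • a, hψ g a⟩
  have hlt : (Set.univ : Set (G ⧸ M)).ncard < Nat.card Ω := by
    rw [Set.ncard_univ, ← index_stabilizer_of_transitive G a]
    exact Subgroup.index_strictAnti h1
  have h3 := bound_set (ι := PUnit.{u + 1}) (⊤ : Subgroup G) (Set.univ : Set (G ⧸ M)) (ih _ hlt)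
    (fun _ _ _ _ => trivial) (fun _ => PUnit.unit) fun _ _ _ _ => rfl
  haveI : Nontrivial (G ⧸ M) := QuotientGroup.nontrivial_iff.mpr h2
  obtain ⟨y, z, hyz⟩ := exists_pair_ne (G ⧸ M)
  obtain ⟨y, rfl⟩ := hψs y
  obtain ⟨z, rfl⟩ := hψs z
  have h4 := bound_intrans (G := (⊤ ⊓ fixingSubgroup G (Set.univ : Set (G ⧸ M)) : Subgroup G)) ih
    (fun g hg => Subtype.ext (hf g hg)) ψ
    (fun g x => (hψ g x).trans ((mem_fixingSubgroup_iff G).mp g.2.2 _ trivial)) hyz
  rw [cl_top_subgroup, hψs.range_eq] at h4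
  have h5 : 0 < ((fun _ => PUnit.unit : G ⧸ M → PUnit.{u + 1}) '' Set.univ).ncard :=
    (Set.ncard_pos (Set.toFinite _)).mpr ⟨_, ψ a, trivial, rfl⟩
  omega

theorem bound_faithful {Ω' : Type u} [MulAction G Ω'] [Finite Ω'] (A : Subgroup G) (S : Set Ω')
    (ih : Bound.{u} S.ncard) (hS : ∀ a ∈ A, ∀ x ∈ S, a • x ∈ S) (hne : S.Nonempty)
    (hf : ∀ a ∈ A, (∀ x ∈ S, a • x = x) → a = 1) : 3 * cl A + 4 ≤ 4 * S.ncard := by
  have h3 := bound_set (ι := PUnit.{u + 1}) A S ih hS (fun _ => PUnit.unit) fun _ _ _ _ => rfl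
  have h4 : A ⊓ fixingSubgroup G S = ⊥ := (Subgroup.eq_bot_iff_forall _).mpr fun g hg =>
    hf g hg.1 ((mem_fixingSubgroup_iff G).mp hg.2)
  have h5 : 0 < ((fun _ => PUnit.unit : Ω' → PUnit.{u + 1}) '' S).ncard :=
    (Set.ncard_pos (Set.toFinite _)).mpr (hne.image _)
  rw [h4, cl_bot] at h3
  omega

theorem numeric2 {t k n d : ℕ} (ht : 4 ≤ t) (hk : 4 ≤ k) (h1 : n * d = t ^ k) (h2 : d ^ 2 ≤ t ^ k) :
    k * t ≤ n := by
  have h3 : t ^ k ≤ n ^ 2 := by
    have hd : 0 < d := Nat.pos_of_mul_pos_left (h1 ▸ pow_pos (by omega) _)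
    have : n * d * (n * d) = t ^ k * t ^ k := by rw [h1]
    by_contra h
    push Not at h
    have h4 : 0 < t ^ k := pow_pos (by omega) _
    nlinarith
  have h4 : ∀ j, (j + 4) ^ 2 ≤ t ^ (j + 2) := by
    intro j
    induction j with
    | zero => exact Nat.pow_le_pow_left ht 2
    | succ j ih =>
      rw [show j + 1 + 2 = j + 2 + 1 by ring, pow_succ t]
      refine le_trans ?_ (Nat.mul_le_mul ih ht)
      calc (j + 1 + 4) ^ 2 ≤ (2 * (j + 4)) ^ 2 := Nat.pow_le_pow_left (by omega) 2
        _ = _ := by ring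
  obtain ⟨j, rfl⟩ : ∃ j, k = j + 4 := ⟨k - 4, by omega⟩
  apply (Nat.pow_le_pow_iff_left two_ne_zero).mp
  refine le_trans ?_ h3
  rw [mul_pow, show j + 4 = j + 2 + 2 by ring, pow_add t (j + 2) 2]
  exact Nat.mul_le_mul_right _ (h4 j)

theorem bound_prim (ih : ∀ m < Nat.card Ω, Bound.{u} m)
    (hf : ∀ g : G, (∀ x : Ω, g • x = x) → g = 1) [IsPretransitive G Ω] [Nontrivial Ω] (a : Ω)
    (hmax : IsCoatom (stabilizer G a)) :
    3 * cl (⊤ : Subgroup G) + 4 ≤ 4 * Nat.card Ω := by
  haveI : FaithfulSMul G Ω := ⟨fun {g h} hgh => by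
    rw [← inv_mul_eq_one]
    exact hf _ fun x => by rw [mul_smul, ← hgh, inv_smul_smul]⟩
  have hprim : IsPreprimitive G Ω := (isCoatom_stabilizer_iff_preprimitive G a).mp hmax
  have hn2 : 2 ≤ Nat.card Ω := Finite.one_lt_card
  set H := stabilizer G a with hH
  have hidx : H.index = Nat.card Ω := index_stabilizer_of_transitive G a
  haveI : Nontrivial G := by
    obtain ⟨b, hb⟩ := exists_ne a
    obtain ⟨g, rfl⟩ := exists_smul_eq G a b
    exact ⟨g, 1, fun h => hb (by rw [h, one_smul])⟩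
  obtain ⟨N, ⟨hNn, hN1⟩, hNmin⟩ := (wellFounded_lt (α := Subgroup G)).has_min
    {M : Subgroup G | M.Normal ∧ M ≠ ⊥} ⟨⊤, inferInstance, top_ne_bot⟩
  have hN : MinNormal N := ⟨hNn, hN1, fun M hM hMN => by
    by_contra h
    push Not at h
    exact hNmin M ⟨hM, h.1⟩ (lt_of_le_of_ne hMN h.2)⟩
  have htr := exists_smul_eq_of_normal hprim hNn hN1 a
  have hsup : N ⊔ H = ⊤ := by
    rw [eq_top_iff]
    intro g _
    obtain ⟨n, hn, h⟩ := htr (g • a)
    have : n⁻¹ * g ∈ H := by rw [hH, mem_stabilizer_iff, mul_smul, ← h, inv_smul_smul]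
    simpa using Subgroup.mul_mem_sup hn this
  have hcl := cl_add_cl_inf N H
  rw [hsup] at hcl
  have hfaith : ∀ h ∈ H, (∀ n ∈ N, h * n = n * h) → h = 1 := fun h hh hc =>
    eq_one_of_comm_of_trans htr hc hh
  have hcard : Nat.card Ω * Nat.card (H ⊓ N : Subgroup G) = Nat.card N := by
    have h1 := H23.card_sup_mul_card_inf (H := H) (N := N) Subgroup.le_normalizer_of_normal
    rw [sup_comm, hsup, Subgroup.card_top, ← H.card_mul_index, hidx, mul_assoc] at h1
    exact Nat.eq_of_mul_eq_mul_left Nat.card_pos h1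
  -- the regular case
  by_cases hreg : H ⊓ N = ⊥
  · rw [hreg, Subgroup.card_bot, mul_one] at hcard
    have h1 := cardFactors_le_of_faithful N ⊥ bot_le H hfaith (by simp)
    have h2 := cl_le_cardFactors N
    have h3 := cl_le_cardFactors H
    have h4 := numeric hn2
    rw [← hcard] at h1 h2
    rw [mul_add, mul_one] at h4
    omega
  have hc : ¬ IsMulCommutative N := by
    intro hc
    apply hreg
    rw [Subgroup.eq_bot_iff_forall]
    intro x hx
    exact hfaith x hx.1 fun n hn => H23.comm_of_mem hc hx.2 hn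
  -- the bound for the point stabiliser
  have hstab : 3 * cl H + 4 + 4 ≤ 4 * Nat.card Ω := by
    have e : ({a}ᶜ : Set Ω).ncard + 1 = Nat.card Ω := by
      rw [← Set.ncard_add_ncard_compl {a}, Set.ncard_singleton, add_comm]
    have := bound_faithful H ({a}ᶜ : Set Ω) (ih _ (by omega))
      (fun h hh x hx h1 => hx (smul_left_cancel h (h1.trans hh.symm)))
      (exists_ne a) (fun h hh h1 => hf h fun x => by
        by_cases hx : x = a
        · rw [hx]; exact hh
        · exact h1 x hx)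
    omega
  by_cases hsmall : cl N ≤ cl (H ⊓ N) + 1
  · omega
  obtain ⟨T, hT⟩ := exists_factor hN1
  obtain ⟨hclN, hcardN⟩ := cl_le_and_card_eq hN hc hT
  set k := {U | Factor N U}.ncard with hk
  set t := Nat.card T with ht
  have hinf : ∀ U, Factor N U → H ⊓ N ⊓ U = ⊥ := by
    by_contra h
    push Not at h
    obtain ⟨U, hU, hne⟩ := h
    have := ncard_le_cl hN hc (D := H ⊓ N) inf_le_right (by
      intro V hV
      obtain ⟨g, rfl⟩ := exists_cj_eq hN hc hU hV
      obtain ⟨x, hx, hx1⟩ := exists_ne_one_mem hne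
      obtain ⟨n, hn, h⟩ := htr (g⁻¹ • a)
      have hh : g * n ∈ H := by rw [hH, mem_stabilizer_iff, mul_smul, h, smul_inv_smul]
      intro hb
      have : g * n * x * (g * n)⁻¹ ∈ H ⊓ N ⊓ cj g U := by
        refine ⟨⟨H.mul_mem (H.mul_mem hh hx.1.1) (H.inv_mem hh), hNn.conj_mem _ hx.1.2 _⟩, ?_⟩
        have := conj_mem_cj (g := g) (hU.norm n hn x hx.2)
        simpa [mul_assoc] using this
      rw [hb, Subgroup.mem_bot, mul_inv_eq_one, mul_eq_left] at this
      exact hx1 this)
    omega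
  have hsub : ∀ U, Factor N U → SubDir (H ⊓ N) U := by
    intro U hU
    rcases projStab_eq_or_le hprim hN hc hU a with h | h
    · right
      intro u hu
      rw [← h] at hu
      obtain ⟨hu, c, hcN, hc1, hc2⟩ := hu
      refine ⟨u * c, ⟨hc2, N.mul_mem (hU.le hu) hcN⟩, ?_⟩
      rw [inv_mul_cancel_left]
      exact fun s hs => (hc1 s hs).symm
    · left
      intro x hx
      obtain ⟨u, hu, c, hcN, hc1, rfl⟩ := hU.decomp hN hx.2
      have : u ∈ H ⊓ N ⊓ U := ⟨⟨h ⟨hu, c, hcN, hc1, hx.1⟩, hU.le hu⟩, hu⟩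
      rw [hinf U hU, Subgroup.mem_bot] at this
      rw [this, one_mul]
      exact fun s hs => (hc1 s hs).symm
  have ht4 : 4 ≤ t := by
    by_contra h
    have h1 : 1 < t := (Subgroup.one_lt_card_iff_ne_bot T).mpr hT.ne_bot
    have hp : t.Prime := by
      have : t = 2 ∨ t = 3 := by omega
      rcases this with h | h <;> rw [h] <;> norm_num
    haveI := Fact.mk hp
    haveI : IsCyclic T := isCyclic_of_prime_card ht.symm
    exact hT.not_comm hN hc inferInstance
  have hD1 := one_le_cl hreg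
  have hkt : k * t ≤ Nat.card Ω := by
    by_cases hk4 : 4 ≤ k
    · refine numeric2 ht4 hk4 (hcard.trans hcardN) ((card_sq_le_of_subDir hN hc hT _ inf_le_right
        hsub hinf).trans (Nat.pow_le_pow_right (by omega) ?_))
      exact Set.ncard_le_ncard (fun U hU => hU.1)
    have hk3 : k = 3 := by omega
    have hD : cl (H ⊓ N) = 1 := by omega
    obtain ⟨U, hU, hDU⟩ : ∃ U, Factor N U ∧ ¬ H ⊓ N ≤ Subgroup.centralizer (U : Set G) := by
      by_contra h
      push Not at h
      exact hreg ((Subgroup.eq_bot_iff_forall _).mpr fun x hx =>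
        eq_one_of_cent_factors hN hc hx.2 fun U hU => h U hU hx)
    have h1 : H ⊓ N ⊓ Subgroup.centralizer (U : Set G) = ⊥ := by
      by_contra h
      have h2 := one_le_cl h
      have h3 := cl_lt_of_lt (inf_lt_left.mpr hDU) (le_normalizer_iff_conj.mpr fun d hd x hx =>
        ⟨Subgroup.mul_mem _ (Subgroup.mul_mem _ hd hx.1) (Subgroup.inv_mem _ hd),
          factor_conj_cent hU hd.2 hx.2⟩)
      omega
    have h2 := card_le_mul_card_inf_cent hN hU (inf_le_right : H ⊓ N ≤ N)
    rw [h1, Subgroup.card_bot, mul_one, card_factor_eq hN hc hT hU, ← ht] at h2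
    rw [hcardN, hk3] at hcard
    have h3 : t * (t * t) ≤ t * Nat.card Ω := by nlinarith
    have h4 := Nat.le_of_mul_le_mul_left h3 (by omega)
    rw [hk3]
    nlinarith
  -- the action of the stabiliser on the non-identity elements of the factors
  letI : MulAction G G := MulAction.compHom G (MulAut.conj : G →* MulAut G)
  let X : Set G := {x | x ≠ 1 ∧ ∃ U, Factor N U ∧ x ∈ U}
  have hX : X.ncard + k ≤ k * t := by
    have h1 : X ⊆ ⋃ U ∈ {U | Factor N U}, ((U : Set G) \ {1}) := by
      rintro x ⟨hx, U, hU, hxU⟩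
      exact Set.mem_biUnion hU ⟨hxU, hx⟩
    have h2 : (⋃ U ∈ {U | Factor N U}, ((U : Set G) \ {1})).ncard ≤ k * (t - 1) := by
      classical
      have e : (⋃ U ∈ {U | Factor N U}, ((U : Set G) \ {1})) =
          ((Set.toFinite {U | Factor N U}).toFinset.biUnion
            fun U => (Set.toFinite ((U : Set G) \ {1})).toFinset : Finset G) := by
        ext x
        simp
      rw [e, Set.ncard_coe_finset, hk, Set.ncard_eq_toFinset_card _ (Set.toFinite _)]
      apply Finset.card_biUnion_le_card_mul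
      intro U hU
      rw [← Set.ncard_eq_toFinset_card, Set.ncard_sdiff_singleton_of_mem U.one_mem,
        ← Nat.card_coe_set_eq, SetLike.coe_sort_coe,
        card_factor_eq hN hc hT ((Set.Finite.mem_toFinset _).mp hU)]
    have h3 := (Set.ncard_le_ncard h1).trans h2
    rw [Nat.mul_sub_one] at h3
    have : k ≤ k * t := Nat.le_mul_of_pos_right _ (by omega)
    omega
  have h1 := bound_faithful H X (ih _ (by omega)) (by
      rintro h - x ⟨hx, U, hU, hxU⟩
      refine ⟨fun h1 => hx ?_, _, hU.conj hNn h, conj_mem_cj hxU⟩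
      have h1' : h * x * h⁻¹ = 1 := h1
      rwa [mul_inv_eq_one, mul_eq_left] at h1') (by
      obtain ⟨x, hx, hx1⟩ := exists_ne_one_mem hT.ne_bot
      exact ⟨x, hx1, T, hT, hx⟩) (by
      intro h hh h1
      apply hfaith h hh
      have : N ≤ Subgroup.centralizer {h} := hT.le_of_conj hN _ fun g x hx => by
        rw [Subgroup.mem_centralizer_singleton_iff]
        by_cases h2 : g * x * g⁻¹ = 1
        · rw [h2, mul_one, one_mul]
        · have h3 : h * (g * x * g⁻¹) * h⁻¹ = g * x * g⁻¹ :=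
            h1 _ ⟨h2, _, hT.conj hNn g, conj_mem_cj hx⟩
          exact (mul_inv_eq_iff_eq_mul.mp h3).symm
      exact fun n hn => (Subgroup.mem_centralizer_singleton_iff.mp (this hn)).symm)
  omega

end

theorem bound (n : ℕ) : Bound.{u} n := by
  induction n using Nat.strong_induction_on with
  | _ n ih =>
  intro G Ω ι _ _ _ _ φ hn hf hφ
  subst hn
  by_cases h1 : ∃ a b, φ a ≠ φ b
  · obtain ⟨a, b, hab⟩ := h1
    exact bound_intrans ih hf φ hφ hab
  push Not at h1
  have hr : (Set.range φ).ncard ≤ 1 := by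
    rw [Set.ncard_le_one_iff_subsingleton]
    rintro _ ⟨a, rfl⟩ _ ⟨b, rfl⟩
    exact h1 a b
  rcases subsingleton_or_nontrivial Ω with hΩ | hΩ
  · have : (⊤ : Subgroup G) = ⊥ :=
      (Subgroup.eq_bot_iff_forall _).mpr fun g _ => hf g fun x => Subsingleton.elim _ _
    rw [this, cl_bot]
    have : (Set.range φ).ncard ≤ Nat.card Ω := by
      rw [← Set.image_univ, ← Set.ncard_univ]
      exact Set.ncard_image_le
    omega
  suffices 3 * cl (⊤ : Subgroup G) + 4 ≤ 4 * Nat.card Ω by omega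
  by_cases htr : IsPretransitive G Ω
  · obtain ⟨a, b, hab⟩ := exists_pair_ne Ω
    by_cases hmax : IsCoatom (stabilizer G a)
    · exact bound_prim ih hf a hmax
    · have hne : stabilizer G a ≠ ⊤ := by
        intro h
        obtain ⟨g, rfl⟩ := exists_smul_eq G a b
        have : g ∈ stabilizer G a := h ▸ Subgroup.mem_top g
        exact hab this.symm
      rw [IsCoatom, not_and] at hmax
      have := hmax hne
      push Not at this
      obtain ⟨M, h2, h3⟩ := this
      exact bound_imprim ih hf a M h2 h3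
  · obtain ⟨a, b, hab⟩ : ∃ a b : Ω, ¬ ∃ g : G, g • a = b := by
      by_contra h
      push Not at h
      exact htr ⟨h⟩
    have := bound_intrans ih hf (Quotient.mk (orbitRel G Ω))
      (fun g x => Quotient.sound ⟨g, rfl⟩) (a := b) (b := a) fun h => hab (Quotient.exact h)
    have h2 : 0 < (Set.range (Quotient.mk (orbitRel G Ω))).ncard :=
      (Set.ncard_pos (Set.toFinite _)).mpr ⟨_, a, rfl⟩
    omega

/-- If a finite group G acts faithfully on a finite set with n points and r orbits, then the composition length of G is at most 4(n − r)/3. Here the composition length is expressed through chains: the conclusion bounds the length l of every chain of subgroups 1 = H₀ < H₁ < ⋯ < H_l = G in which each term is normal in the next (the longest such chains are exactly the composition series). -/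
theorem result {G Ω : Type*} [Group G] [Finite G] [MulAction G Ω] [FaithfulSMul G Ω] [Fintype Ω]
    (l : ℕ) (H : Fin (l + 1) → Subgroup G) (h0 : H 0 = ⊥) (hl : H (Fin.last l) = ⊤)
    (hchain : ∀ i : Fin l, H i.castSucc < H i.succ ∧ ((H i.castSucc).subgroupOf (H i.succ)).Normal) :
    3 * l ≤ 4 * (Fintype.card Ω - Nat.card (Quotient (MulAction.orbitRel G Ω))) := by
  have h1 := (SC_of_chain l H h0 hchain).le_cl
  have h2 := bound _ (MulAction.toPermHom G Ω).range Ω _ (Quotient.mk (MulAction.orbitRel G Ω)) rfl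
    (fun g hg => Subtype.ext (Equiv.ext hg)) (by
      rintro ⟨_, g, rfl⟩ x
      exact Quotient.sound ⟨g, rfl⟩)
  rw [cl_top_subgroup, MonoidHom.range_eq_map,
    cl_map_of_injective _ MulAction.toPerm_injective, Quotient.mk_surjective.range_eq,
    Set.ncard_univ, Nat.card_eq_fintype_card (α := Ω)] at h2
  rw [hl] at h1
  omega

end Cfsg.Agent.S5722
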