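import Cfsg.Statements.S5729
import Cfsg.Agent.H77.Derange

set_option autoImplicit false
open Cfsg

namespace Cfsg.Agent.S5729

open MulAction Finset

/-- Let a finite group G act faithfully and transitively on a set with n ≥ 3 points. Then either G is a Frobenius permutation group (Frobenius as a permutation group: transitive, some non-identity element fixes a point, and no non-identity element fixes two points) of order n(n − 1) and exactly |G|/n of its elements are derangements (fix no point), or the number of derangements is greater than |G|/n. -/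
theorem result {G Ω : Type*} [Group G] [Finite G] [MulAction G Ω] [FaithfulSMul G Ω] [Fintype Ω] (htr : MulAction.IsPretransitive G Ω) (hn : 3 ≤ Fintype.card Ω) :
    ((MulAction.IsPretransitive G Ω ∧ (∃ g : G, g ≠ 1 ∧ ∃ ω : Ω, g • ω = ω) ∧ ∀ g : G, g ≠ 1 → Nat.card (MulAction.fixedBy Ω g) ≤ 1) ∧ Nat.card G = Fintype.card Ω * (Fintype.card Ω - 1) ∧ Fintype.card Ω * Nat.card {g : G // ∀ ω : Ω, g • ω ≠ ω} = Nat.card G) ∨
    Nat.card G < Fintype.card Ω * Nat.card {g : G // ∀ ω : Ω, g • ω ≠ ω} := by
  classical
  haveI := Fintype.ofFinite G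
  set n := Fintype.card Ω with hn'
  have hne : Nonempty Ω := Fintype.card_pos_iff.mp (by omega)
  let f : G → ℕ := fun g => #{ω : Ω | g • ω = ω}
  have hf : ∀ g, Nat.card (fixedBy Ω g) = f g := fun g => by
    rw [Nat.card_eq_fintype_card, Fintype.card_subtype]; rfl
  have hT1 : ∑ g, f g = Nat.card G := by
    have := H77.sum_card_fixedBy (G := G) (Ω := Ω)
    rw [H77.card_orbits_eq_one, one_mul] at this
    simpa only [hf] using this
  have hstab : ∀ a : Ω, Nat.card (stabilizer G a) * n = Nat.card G := fun a => by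
    rw [hn', ← Nat.card_eq_fintype_card, ← index_stabilizer_of_transitive G a,
      Subgroup.card_mul_index]
  -- two-point stabilisers are large
  have h2 : ∀ a b : Ω, a ≠ b → Nat.card G ≤ #{g : G | g • a = a ∧ g • b = b} * (n * (n - 1)) := by
    intro a b hab
    have h1 : Nat.card (stabilizer (stabilizer G a) b) = #{g : G | g • a = a ∧ g • b = b} := by
      rw [← Fintype.card_subtype, ← Nat.card_eq_fintype_card]
      exact Nat.card_congr ⟨fun x => ⟨x.1.1, x.1.2, x.2⟩, fun x => ⟨⟨x.1, x.2.1⟩, x.2.2⟩,
        fun _ => rfl, fun _ => rfl⟩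
    have h3 : (stabilizer (stabilizer G a) b).index ≤ n - 1 := by
      rw [index_stabilizer, hn', ← Nat.card_eq_fintype_card, ← Set.ncard_univ,
        ← Set.ncard_sdiff_singleton_of_mem (Set.mem_univ a)]
      apply Set.ncard_le_ncard _ (Set.toFinite _)
      rintro _ ⟨g, rfl⟩
      refine ⟨trivial, fun h => hab ?_⟩
      have h4 : (g : G) • b = (g : G) • a := h.trans g.2.symm
      exact (smul_left_cancel _ h4).symm
    rw [← hstab a, ← (stabilizer (stabilizer G a) b).card_mul_index, h1, mul_assoc, mul_comm _ n]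
    gcongr
  have hT2 : Nat.card G ≤ ∑ g, f g * (f g - 1) := by
    have e1 : ∀ g, f g * (f g - 1) =
        #{x ∈ (univ : Finset Ω).offDiag | g • x.1 = x.1 ∧ g • x.2 = x.2} := by
      intro g
      rw [Nat.mul_sub_one, ← offDiag_card]
      congr 1
      ext x
      simp only [mem_offDiag, mem_filter, mem_univ, true_and]
      tauto
    simp only [e1]
    have e2 := sum_card_bipartiteAbove_eq_sum_card_bipartiteBelow
      (r := fun (g : G) (x : Ω × Ω) => g • x.1 = x.1 ∧ g • x.2 = x.2) (s := univ)
      (t := (univ : Finset Ω).offDiag)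
    refine le_trans ?_ e2.ge
    have hpos : 0 < n * (n - 1) := Nat.mul_pos (by omega) (by omega)
    apply Nat.le_of_mul_le_mul_right _ hpos
    rw [sum_mul]
    refine le_trans (le_of_eq ?_) (card_nsmul_le_sum _ _ (Nat.card G) fun x hx =>
      h2 x.1 x.2 (mem_offDiag.mp hx).2.2)
    rw [offDiag_card, card_univ, smul_eq_mul, mul_comm, Nat.mul_sub_one]
  have hD : Nat.card {g : G // ∀ ω : Ω, g • ω ≠ ω} = #{g | f g = 0} := by
    rw [Nat.card_eq_fintype_card, Fintype.card_subtype]
    congr 1
    ext g
    simp [f]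
  have hfn : ∀ g, f g ≤ n := fun g => card_filter_le _ _
  have hf1 : ∀ g, f g = n → g = 1 := by
    intro g hg
    apply eq_of_smul_eq_smul (α := Ω)
    intro ω
    have : ({ω | g • ω = ω} : Finset Ω) = univ := (card_eq_iff_eq_univ _).mp hg
    have h1 : ω ∈ ({ω | g • ω = ω} : Finset Ω) := by rw [this]; exact mem_univ ω
    simpa using h1
  rw [hD]
  by_cases hlt : Nat.card G < n * #{g | f g = 0}
  · exact Or.inr hlt
  left
  push Not at hlt
  -- the basic identity
  let F : G → ℤ := fun g => if f g = 0 then 0 else ((f g : ℤ) - 1) * (n - f g)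
  have hF : ∀ g, 0 ≤ F g := by
    intro g
    have := hfn g
    simp only [F]
    split_ifs with h
    · exact le_rfl
    · exact mul_nonneg (by omega) (by omega)
  have hid : ∑ g, F g + (∑ g, f g * (f g - 1) : ℕ) = (n * #{g | f g = 0} : ℕ) := by
    have e1 : ∀ g, F g + (f g * (f g - 1) : ℕ) =
        (if f g = 0 then (n : ℤ) else 0) + n * f g - n := by
      intro g
      simp only [F]
      split_ifs with h
      · simp [h]
      · obtain ⟨k, hk⟩ := Nat.exists_eq_succ_of_ne_zero h
        rw [hk]
        simp only [Nat.succ_sub_one]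
        push_cast
        ring
    rw [Nat.cast_sum, ← sum_add_distrib]
    simp only [e1]
    rw [sum_sub_distrib, sum_add_distrib, ← mul_sum, ← Nat.cast_sum, hT1, ← sum_filter]
    simp [mul_comm]
  have hF0 : 0 ≤ ∑ g, F g := sum_nonneg fun g _ => hF g
  have hF1 : ∑ g, F g = 0 := by omega
  rw [sum_eq_zero_iff_of_nonneg fun g _ => hF g] at hF1
  have hle : ∀ g : G, g ≠ 1 → f g ≤ 1 := by
    intro g hg
    have h1 := hF1 g (mem_univ g)
    have h3 : f g ≠ n := fun h => hg (hf1 g h)
    simp only [F] at h1
    split_ifs at h1 with h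
    · omega
    · rcases mul_eq_zero.mp h1 with h | h <;> omega
  have hsum : ∑ g, f g * (f g - 1) = n * (n - 1) := by
    rw [sum_eq_single 1]
    · simp [f, hn']
    · intro g _ hg
      have := hle g hg
      rw [show f g - 1 = 0 by omega, mul_zero]
    · simp
  have hG : Nat.card G = n * (n - 1) := by omega
  refine ⟨⟨htr, ?_, fun g hg => hf g ▸ hle g hg⟩, hG, by omega⟩
  obtain ⟨a⟩ := hne
  have h1 : Nat.card (stabilizer G a) = n - 1 := by
    have := hstab a
    rw [hG, mul_comm] at this
    exact Nat.eq_of_mul_eq_mul_left (by omega) this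
  haveI : Nontrivial (stabilizer G a) := Finite.one_lt_card_iff_nontrivial.mp (by omega)
  obtain ⟨g, hg⟩ := exists_ne (1 : stabilizer G a)
  exact ⟨g, fun h => hg (Subtype.ext h), a, g.2⟩

end Cfsg.Agent.S5729
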