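import Cfsg.Statements.S5730
import Cfsg.Agent.H27.Der3

set_option autoImplicit false
open Cfsg

namespace Cfsg.Agent.S5730

open Cfsg.Agent.H27.Der Finset

/-- Let a finite group G act faithfully and transitively on a set with n ≥ 7 points. Then either G is a Frobenius permutation group (Frobenius as a permutation group: transitive, some non-identity element fixes a point, and no non-identity element fixes two points) of order n(n − 1)/a with a ∈ {1, 2}, in which case exactly a|G|/n of its elements are derangements, or the number of derangements is at least 2|G|/n. (Equality does occur: PSL₃(2) acting on the 7 points of the Fano plane has exactly 2|G|/7 derangements.) -/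
theorem result {G Ω : Type*} [Group G] [Finite G] [MulAction G Ω] [FaithfulSMul G Ω] [Fintype Ω] (htr : MulAction.IsPretransitive G Ω) (hn : 7 ≤ Fintype.card Ω) :
    (∃ a : ℕ, (a = 1 ∨ a = 2) ∧ (MulAction.IsPretransitive G Ω ∧ (∃ g : G, g ≠ 1 ∧ ∃ ω : Ω, g • ω = ω) ∧ ∀ g : G, g ≠ 1 → Nat.card (MulAction.fixedBy Ω g) ≤ 1) ∧ a * Nat.card G = Fintype.card Ω * (Fintype.card Ω - 1) ∧ Fintype.card Ω * Nat.card {g : G // ∀ ω : Ω, g • ω ≠ ω} = a * Nat.card G) ∨
    2 * Nat.card G ≤ Fintype.card Ω * Nat.card {g : G // ∀ ω : Ω, g • ω ≠ ω} := by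
  classical
  have := Fintype.ofFinite G
  have hD : Nat.card {g : G // ∀ ω : Ω, g • ω ≠ ω} = dn G Ω := by
    rw [dn, Nat.card_eq_fintype_card, Fintype.card_subtype]
    congr
  rw [hD, Nat.card_eq_fintype_card]
  obtain ⟨a, b, hab⟩ := Fintype.exists_pair_of_one_lt_card (α := Ω) (by omega)
  by_cases h : T2 G Ω
  swap
  · unfold T2 at h
    push Not at h
    obtain ⟨a, b, c, d, h1, h2, h3⟩ := h
    exact Or.inr (rank_three h1 h2 h3)
  by_cases hN : 2 ≤ Fintype.card (St G a b)
  · exact Or.inr (h.goal hn hab hN)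
  have hN1 : Fintype.card (St G a b) = 1 := by
    have := Fintype.card_pos (α := St G a b)
    omega
  have h1 := h.card_G hab
  have h2 := h.dn_eq hab
  have h3 : (univ : Finset (St G a b)) = {1} :=
    (eq_of_subset_of_card_le (subset_univ _) (by simp [hN1])).symm
  rw [h3, sum_singleton, OneMemClass.coe_one, fx_one] at h2
  rw [hN1, Nat.cast_one, mul_one] at h1
  have hn0 : (Fintype.card Ω : ℚ) ≠ 0 := by positivity
  refine Or.inl ⟨1, Or.inl rfl, ⟨htr, ?_, fun g hg => ?_⟩, ?_, ?_⟩
  · obtain ⟨c, hc⟩ : ∃ c, c ∉ ({a, b} : Finset Ω) := by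
      by_contra hc
      push Not at hc
      have := (card_le_card (fun x _ => hc x : univ ⊆ {a, b})).trans card_le_two
      rw [card_univ] at this
      omega
    simp only [mem_insert, mem_singleton, not_or] at hc
    obtain ⟨g, g1, g2⟩ := h a b a c hab (Ne.symm hc.1)
    exact ⟨g, by rintro rfl; exact hc.2 (by simpa using g2.symm), a, g1⟩
  · rw [Finite.card_le_one_iff_subsingleton]
    refine ⟨fun x y => Subtype.ext (by_contra fun hxy => hg ?_)⟩
    have := h.card_St hab hxy
    rw [hN1, Fintype.card_eq_one_iff] at this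
    obtain ⟨u, hu⟩ := this
    exact congrArg Subtype.val ((hu ⟨g, x.2, y.2⟩).trans (hu 1).symm)
  · have : ((1 * Fintype.card G : ℕ) : ℚ) = (Fintype.card Ω * (Fintype.card Ω - 1) : ℕ) := by
      push_cast [Nat.cast_sub (show 1 ≤ Fintype.card Ω by omega)]
      rw [h1, one_mul]
    exact_mod_cast this
  · have : ((Fintype.card Ω * dn G Ω : ℕ) : ℚ) = (1 * Fintype.card G : ℕ) := by
      push_cast
      rw [h1, h2]; field_simp
    exact_mod_cast this

end Cfsg.Agent.S5730
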