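import Cfsg.Statements.S5739
import Cfsg.Agent.H99.Singer

set_option autoImplicit false
open Cfsg

namespace Cfsg.Agent.S5739

/-- Let F ⊆ K be finite fields with |F| = q and [K : F] = n ≥ 2, and let M ≤ GL_F(K) be the Singer group of multiplications by non-zero elements of K. If g ∈ GL_F(K) does not normalise M, then the order of M ∩ gMg⁻¹ divides q^r − 1 for some proper divisor r of n. In particular, when n is prime, that order divides q − 1. -/
theorem result {F K : Type*} [Field F] [Fintype F] [Field K] [Fintype K] [Algebra F K] (n : ℕ) (hn : 2 ≤ n) (hdim : Module.finrank F K = n)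
    (g : (Module.End F K)ˣ) (hg : ((Units.map ((Algebra.lmul F K : K →ₐ[F] Module.End F K) : K →* Module.End F K)).range).map (MulAut.conj g).toMonoidHom ≠ (Units.map ((Algebra.lmul F K : K →ₐ[F] Module.End F K) : K →* Module.End F K)).range) :
    ∃ r : ℕ, 1 ≤ r ∧ r ∣ n ∧ r < n ∧ Nat.card ↥(((Units.map ((Algebra.lmul F K : K →ₐ[F] Module.End F K) : K →* Module.End F K)).range).map (MulAut.conj g).toMonoidHom ⊓ (Units.map ((Algebra.lmul F K : K →ₐ[F] Module.End F K) : K →* Module.End F K)).range) ∣ Fintype.card F ^ r - 1 := by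
  classical
  haveI : Finite (Module.End F K) := Finite.of_injective _ DFunLike.coe_injective
  have h3 : ∀ (g : (Module.End F K)ˣ) y, (g⁻¹).1 (g.1 y) = y := fun g =>
    LinearMap.congr_fun g.inv_mul
  let ψ : Module.End F K →ₐ[F] Module.End F K :=
    (LinearMap.GeneralLinearGroup.toLinearEquiv g).conjAlgEquiv F
  have hψ : ∀ T, ψ T = g.1 * T * (g⁻¹).1 := fun _ => rfl
  let A : Subalgebra F K := (ψ.comp (Algebra.lmul F K)).range.comap (Algebra.lmul F K)
  let L := A.toIntermediateField' (Subalgebra.isField_of_algebraic A)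
  have key : ∀ c : Kˣ, (c : K) ∈ L ↔ Units.map ((Algebra.lmul F K : K →ₐ[F] Module.End F K) :
      K →* Module.End F K) c ∈ (H99.SM F K).map (MulAut.conj g).toMonoidHom := fun c => by
    refine ⟨fun ⟨a, ha⟩ => ⟨Units.map _ (Units.mk0 a fun e => c.ne_zero ?_), ⟨_, rfl⟩, Units.ext ha⟩,
      fun ⟨_, ⟨a, rfl⟩, ha⟩ => ⟨a, congrArg Units.val ha⟩⟩
    simpa [e] using (LinearMap.congr_fun ha 1).symm
  have h1 : Nat.card ↥((H99.SM F K).map (MulAut.conj g).toMonoidHom ⊓ H99.SM F K) =
      Fintype.card F ^ Module.finrank F L - 1 := by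
    rw [← Nat.card_eq_fintype_card, ← Module.natCard_eq_pow_finrank, ← Nat.card_units]
    refine (Nat.card_eq_of_bijective (fun c : Lˣ => ⟨_, (key (Units.map (L.val : L →* K) c)).1 c.1.2,
      _, rfl⟩)
      ⟨fun c d e => Units.ext (Subtype.ext (by
        simpa using LinearMap.congr_fun (congrArg (·.1.1) e) 1)), fun ⟨_, h, c, hc⟩ =>
      ⟨Units.mk0 ⟨c, (key c).2 (hc ▸ h)⟩ fun e => c.ne_zero (congrArg Subtype.val e),
        Subtype.ext (Units.ext (congrArg Units.val hc :))⟩⟩).symm
  have h2 := hdim ▸ Module.finrank_mul_finrank F L K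
  refine ⟨_, Module.finrank_pos, Dvd.intro _ h2, lt_of_le_of_ne (Nat.le_of_dvd (by omega)
    (Dvd.intro _ h2)) fun e => hg ?_, h1.dvd⟩
  have h4 : L = ⊤ := IntermediateField.eq_of_le_of_finrank_eq le_top (by simp [e, hdim])
  refine (Subgroup.eq_of_le_of_card_ge ?_
    (Subgroup.card_map_of_injective (MulAut.conj g).injective).le).symm
  rintro _ ⟨c, rfl⟩
  exact (key c).1 (by simp [h4])

end Cfsg.Agent.S5739
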