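import Cfsg.Statements.S5747
import Mathlib.Data.Fin.Tuple.Sort

set_option autoImplicit false
open Cfsg

namespace Cfsg.Agent.S5747

section
variable (G : Type*) {Ω : Type*} [Group G] [MulAction G Ω]

/-- `S` is a base. -/
def IsBase (S : Finset Ω) : Prop := ∀ g : G, (∀ x ∈ S, g • x = x) → g = 1

/-- No point of `S` is redundant. -/
def IsIndep (S : Finset Ω) : Prop :=
  ∀ x ∈ S, ∃ g : G, (∀ y ∈ S, y ≠ x → g • y = y) ∧ g • x ≠ x

variable {G}

theorem injective_of_irr {t : ℕ} {f : Fin t → Ω}
    (h : ∀ i : Fin t, ∃ g : G, (∀ j : Fin t, j < i → g • f j = f j) ∧ g • f i ≠ f i) :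
    Function.Injective f := by
  intro i j hij
  by_contra hne
  rcases lt_or_gt_of_ne hne with h1 | h1
  · obtain ⟨g, hg, hg'⟩ := h j
    exact hg' (hij ▸ hg i h1)
  · obtain ⟨g, hg, hg'⟩ := h i
    exact hg' (hij ▸ hg j h1)

/-- Enumerate a finite set in an order compatible with a rank function. -/
theorem exists_enum (S : Finset Ω) (r : Ω → ℕ) :
    ∃ f : Fin S.card → Ω, Function.Injective f ∧ (∀ x, x ∈ S ↔ ∃ i, f i = x) ∧
      ∀ i j, i ≤ j → r (f i) ≤ r (f j) := by
  let e : Fin S.card → Ω := fun i => (S.equivFin.symm i : Ω)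
  refine ⟨e ∘ Tuple.sort (r ∘ e), ?_, fun x => ⟨fun hx => ?_, ?_⟩, fun i j hij => ?_⟩
  · exact (Subtype.val_injective.comp S.equivFin.symm.injective).comp (Equiv.injective _)
  · exact ⟨(Tuple.sort (r ∘ e)).symm (S.equivFin ⟨x, hx⟩), by simp [e]⟩
  · rintro ⟨i, rfl⟩
    exact (S.equivFin.symm _).2
  · exact Tuple.monotone_sort (r ∘ e) hij

theorem exists_indep_subset (S : Finset Ω) (hS : IsBase G S) :
    ∃ T ⊆ S, IsBase G T ∧ IsIndep G T := by
  classical
  obtain ⟨T, ⟨hT1, hT2⟩, hmin⟩ := (wellFounded_lt (α := Finset Ω)).has_min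
    {T | T ⊆ S ∧ IsBase G T} ⟨S, subset_rfl, hS⟩
  refine ⟨T, hT1, hT2, fun x hx => ?_⟩
  by_contra hc
  push Not at hc
  refine hmin (T.erase x) ⟨(Finset.erase_subset _ _).trans hT1, fun g hg => hT2 g fun y hy => ?_⟩
    (Finset.erase_ssubset hx)
  have h1 : ∀ y ∈ T, y ≠ x → g • y = y := fun y hy hyx => hg y (Finset.mem_erase.mpr ⟨hyx, hy⟩)
  by_cases h : y = x
  · rw [h]; exact hc g h1
  · exact h1 y hy h

theorem card_le_of_exchange [DecidableEq Ω]
    (H : ∀ (S : Finset Ω) (r : Ω → ℕ), IsBase G S →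
      (∀ x ∈ S, ∃ g : G, (∀ y ∈ S, y ≠ x → r y ≤ r x → g • y = y) ∧ g • x ≠ x) → IsIndep G S)
    (T : Finset Ω) (hT : IsBase G T) (n : ℕ) :
    ∀ S : Finset Ω, IsBase G S → IsIndep G S → (S \ T).card = n →
      S.card ≤ T.card := by
  induction n with
  | zero =>
    intro S _ _ h
    exact Finset.card_le_card (Finset.sdiff_eq_empty_iff_subset.mp (Finset.card_eq_zero.mp h))
  | succ n ih =>
    intro S hS hI h
    obtain ⟨x, hx⟩ : (S \ T).Nonempty := Finset.card_pos.mp (by rw [h]; omega)
    obtain ⟨hxS, hxT⟩ := Finset.mem_sdiff.mp hx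
    obtain ⟨g, hg, hgx⟩ := hI x hxS
    obtain ⟨y, hyT, hgy⟩ : ∃ y ∈ T, g • y ≠ y := by
      by_contra hc
      push Not at hc
      exact hgx (by rw [hT g hc, one_smul])
    have hyx : y ≠ x := fun h => hxT (h ▸ hyT)
    have hyS : y ∉ S := fun h => hgy (hg y h hyx)
    let r : Ω → ℕ := fun z => if z = x then 2 else if z = y then 1 else 0
    have hbase : IsBase G (insert y (S.erase x)) := by
      intro h hh
      by_contra h1
      have hhS : ∀ z ∈ S, z ≠ x → h • z = z := fun z hz hzx =>
        hh z (Finset.mem_insert_of_mem (Finset.mem_erase.mpr ⟨hzx, hz⟩))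
      have hhx : h • x ≠ x := fun h2 => h1 (hS h fun z hz => by
        by_cases h3 : z = x
        · rw [h3, h2]
        · exact hhS z hz h3)
      have := H (insert y S) r (fun k hk => hS k fun z hz => hk z (Finset.mem_insert_of_mem hz)) (by
        intro z hz
        rcases Finset.mem_insert.mp hz with rfl | hz
        · refine ⟨g, fun w hw hwz hr => hg w ((Finset.mem_insert.mp hw).resolve_left hwz) ?_, hgy⟩
          rintro rfl
          simp [r, hyx] at hr
        · by_cases hzx : z = x
          · subst hzx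
            refine ⟨h, fun w hw hwz _ => ?_, hhx⟩
            rcases Finset.mem_insert.mp hw with rfl | hw
            · exact hh w (Finset.mem_insert_self _ _)
            · exact hhS w hw hwz
          · obtain ⟨k, hk, hkz⟩ := hI z hz
            refine ⟨k, fun w hw hwz hr => hk w ((Finset.mem_insert.mp hw).resolve_left ?_) hwz, hkz⟩
            rintro rfl
            have : z ≠ w := hwz.symm
            simp [r, hzx, hyx, this] at hr)
      obtain ⟨k, hk, hky⟩ := this y (Finset.mem_insert_self _ _)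
      apply hky
      rw [hS k fun z hz => hk z (Finset.mem_insert_of_mem hz) (fun h => hyS (h ▸ hz)), one_smul]
    have hind : IsIndep G (insert y (S.erase x)) := by
      apply H _ r hbase
      intro z hz
      rcases Finset.mem_insert.mp hz with rfl | hz
      · refine ⟨g, fun w hw hwz _ => ?_, hgy⟩
        have := Finset.mem_erase.mp ((Finset.mem_insert.mp hw).resolve_left hwz)
        exact hg w this.2 this.1
      · obtain ⟨hzx, hz⟩ := Finset.mem_erase.mp hz
        obtain ⟨k, hk, hkz⟩ := hI z hz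
        refine ⟨k, fun w hw hwz hr => hk w
          (Finset.mem_of_mem_erase ((Finset.mem_insert.mp hw).resolve_left ?_)) hwz, hkz⟩
        rintro rfl
        have : z ≠ w := hwz.symm
        simp [r, hzx, hyx, this] at hr
    have := ih _ hbase hind (by
      have e : insert y (S.erase x) \ T = (S \ T).erase x := by
        ext z
        simp only [Finset.mem_sdiff, Finset.mem_insert, Finset.mem_erase]
        constructor
        · rintro ⟨rfl | h1, h2⟩
          · exact (h2 hyT).elim
          · exact ⟨h1.1, h1.2, h2⟩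
        · rintro ⟨h1, h2, h3⟩
          exact ⟨Or.inr ⟨h1, h2⟩, h3⟩
      rw [e, Finset.card_erase_of_mem hx, h]; rfl)
    rwa [Finset.card_insert_of_notMem (fun h => hyS (Finset.mem_of_mem_erase h)),
      Finset.card_erase_add_one hxS] at this

end

/-- Let a finite group G act on a finite set Ω. An irredundant base is a sequence of points ω₁, …, ω_t whose pointwise stabiliser is trivial and in which each ω_i is moved by some element fixing ω₁, …, ω_{i−1}. Then all irredundant bases have the same length if and only if every reordering of an irredundant base is again an irredundant base. -/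
theorem result {G Ω : Type*} [Group G] [Finite G] [MulAction G Ω] [Fintype Ω] :
    (∀ (t t' : ℕ) (f : Fin t → Ω) (f' : Fin t' → Ω), ((∀ g : G, (∀ i : Fin t, g • f i = f i) → g = 1) ∧ ∀ i : Fin t, ∃ g : G, (∀ j : Fin t, j < i → g • f j = f j) ∧ g • f i ≠ f i) → ((∀ g : G, (∀ i : Fin t', g • f' i = f' i) → g = 1) ∧ ∀ i : Fin t', ∃ g : G, (∀ j : Fin t', j < i → g • f' j = f' j) ∧ g • f' i ≠ f' i) → t = t') ↔
    (∀ (t : ℕ) (f : Fin t → Ω) (σ : Equiv.Perm (Fin t)), ((∀ g : G, (∀ i : Fin t, g • f i = f i) → g = 1) ∧ ∀ i : Fin t, ∃ g : G, (∀ j : Fin t, j < i → g • f j = f j) ∧ g • f i ≠ f i) → ((∀ g : G, (∀ i : Fin t, g • (f ∘ σ) i = (f ∘ σ) i) → g = 1) ∧ ∀ i : Fin t, ∃ g : G, (∀ j : Fin t, j < i → g • (f ∘ σ) j = (f ∘ σ) j) ∧ g • (f ∘ σ) i ≠ (f ∘ σ) i)) := by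
  classical
  constructor
  · intro H t f σ ⟨hb, hirr⟩
    have hb' : ∀ g : G, (∀ i : Fin t, g • (f ∘ σ) i = (f ∘ σ) i) → g = 1 := fun g hg =>
      hb g fun i => by simpa using hg (σ.symm i)
    refine ⟨hb', fun i => ?_⟩
    by_contra hc
    push Not at hc
    let S : Finset Ω := (Finset.univ.erase i).image (f ∘ σ)
    have hS : IsBase G S := by
      intro g hg
      have h1 : ∀ j, j ≠ i → g • (f ∘ σ) j = (f ∘ σ) j := fun j hj =>
        hg _ (Finset.mem_image_of_mem _ (Finset.mem_erase.mpr ⟨hj, Finset.mem_univ _⟩))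
      apply hb'
      intro j
      by_cases h : j = i
      · rw [h]; exact hc g fun j hj => h1 j hj.ne
      · exact h1 j h
    obtain ⟨T, hTS, hT, hI⟩ := exists_indep_subset S hS
    obtain ⟨e, he1, he2, -⟩ := exists_enum T (fun _ => 0)
    have := H t T.card f e ⟨hb, hirr⟩ ⟨fun g hg => hT g fun x hx => by
      obtain ⟨j, rfl⟩ := (he2 x).mp hx
      exact hg j, fun j => by
      obtain ⟨g, hg, hg'⟩ := hI (e j) ((he2 _).mpr ⟨j, rfl⟩)
      exact ⟨g, fun k hk => hg _ ((he2 _).mpr ⟨k, rfl⟩) (he1.ne hk.ne), hg'⟩⟩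
    have h2 : T.card ≤ t - 1 := by
      refine (Finset.card_le_card hTS).trans (Finset.card_image_le.trans ?_)
      rw [Finset.card_erase_of_mem (Finset.mem_univ _), Finset.card_univ, Fintype.card_fin]
    have := i.pos
    omega
  · intro H
    have H1 : ∀ (t : ℕ) (f : Fin t → Ω), (∀ g : G, (∀ i : Fin t, g • f i = f i) → g = 1) →
        (∀ i : Fin t, ∃ g : G, (∀ j : Fin t, j < i → g • f j = f j) ∧ g • f i ≠ f i) →
        IsIndep G (Finset.univ.image f) := by
      intro t f hb hirr x hx
      obtain ⟨i, -, rfl⟩ := Finset.mem_image.mp hx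
      obtain ⟨s, rfl⟩ : ∃ s, t = s + 1 := ⟨t - 1, by have := i.pos; omega⟩
      obtain ⟨g, hg, hg'⟩ := (H _ f (Equiv.swap i (Fin.last s)) ⟨hb, hirr⟩).2 (Fin.last s)
      refine ⟨g, fun y hy hyx => ?_, by simpa using hg'⟩
      obtain ⟨j, -, rfl⟩ := Finset.mem_image.mp hy
      have := hg (Equiv.swap i (Fin.last s) j) (Fin.lt_last_iff_ne_last.mpr fun h => hyx (by
        rw [Equiv.swap_apply_eq_iff, Equiv.swap_apply_right] at h
        rw [h]))
      simpa using this
    have H2 : ∀ (S : Finset Ω) (r : Ω → ℕ), IsBase G S →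
        (∀ x ∈ S, ∃ g : G, (∀ y ∈ S, y ≠ x → r y ≤ r x → g • y = y) ∧ g • x ≠ x) →
        IsIndep G S := by
      intro S r hS h
      obtain ⟨e, he1, he2, he3⟩ := exists_enum S r
      have : Finset.univ.image e = S := by
        ext x
        simp [he2]
      rw [← this]
      apply H1
      · intro g hg
        apply hS
        intro x hx
        obtain ⟨j, rfl⟩ := (he2 x).mp hx
        exact hg j
      · intro j
        obtain ⟨g, hg, hg'⟩ := h (e j) ((he2 _).mpr ⟨j, rfl⟩)
        exact ⟨g, fun k hk => hg _ ((he2 _).mpr ⟨k, rfl⟩) (he1.ne hk.ne) (he3 k j hk.le), hg'⟩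
    have H3 : ∀ (t t' : ℕ) (f : Fin t → Ω) (f' : Fin t' → Ω),
        ((∀ g : G, (∀ i : Fin t, g • f i = f i) → g = 1) ∧
          ∀ i : Fin t, ∃ g : G, (∀ j : Fin t, j < i → g • f j = f j) ∧ g • f i ≠ f i) →
        ((∀ g : G, (∀ i : Fin t', g • f' i = f' i) → g = 1) ∧
          ∀ i : Fin t', ∃ g : G, (∀ j : Fin t', j < i → g • f' j = f' j) ∧ g • f' i ≠ f' i) →
        t ≤ t' := by
      intro t t' f f' h h'
      have := card_le_of_exchange H2 (Finset.univ.image f')
        (fun g hg => h'.1 g fun i => hg _ (Finset.mem_image_of_mem _ (Finset.mem_univ _))) _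
        (Finset.univ.image f)
        (fun g hg => h.1 g fun i => hg _ (Finset.mem_image_of_mem _ (Finset.mem_univ _)))
        (H1 t f h.1 h.2) rfl
      rwa [Finset.card_image_of_injective _ (injective_of_irr h.2),
        Finset.card_image_of_injective _ (injective_of_irr h'.2), Finset.card_univ,
        Finset.card_univ, Fintype.card_fin, Fintype.card_fin] at this
    intro t t' f f' h h'
    exact le_antisymm (H3 t t' f f' h h') (H3 t' t f' f h' h)

end Cfsg.Agent.S5747
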