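import Cfsg.Statements.S5751
import Cfsg.Agent.H64.Cores
import Cfsg.Agent.H38.Sub

set_option autoImplicit false
open Cfsg

namespace Cfsg.Agent.S5751

open Cfsg.Agent.H37 Cfsg.Agent.H38

theorem chk : ∀ r < 240, E8.tab.vec r 3 ≤ 6 ∧ (1 < E8.tab.vec r 3 → E8.tab.car 3 r ≤ 1) ∧
    (E8.tab.vec r 3 = 1 → r = Lie.chevE8.simple 3 ∨ ∃ j < 8, j ≠ 3 ∧ 0 < E8.tab.car j r) := by
  decide +kernel


/-- An extremal example for iterated cores of conjugate maximal subgroups: there exist a finite group G and two distinct conjugate maximal subgroups M₁, M₂ of G, with M₁ having trivial core in G, such that, if we define two descending sequences of subgroups by A₀ = M₁, B₀ = M₂ and, for every i, A_{i+1} = the core in M₁ of A_i ∩ B_i and B_{i+1} = the core in M₂ of A_i ∩ B_i (the core in M of a subgroup Y ≤ M is the largest normal subgroup of M contained in Y), the subgroup A₆ is trivial while A₅ is not (so the index 6 cannot be lowered to 5). (One example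 is a maximal parabolic subgroup of the Chevalley group of type E₈ over a finite field and a suitable conjugate of it.) -/
theorem result :
    ∃ (G : Type) (_ : Group G) (_ : Finite G) (M₁ M₂ : Subgroup G) (g : G) (A B : ℕ → Subgroup G),
      IsCoatom M₁ ∧ M₂ = M₁.map (MulAut.conj g).toMonoidHom ∧ M₁ ≠ M₂ ∧ M₁.normalCore = ⊥ ∧ A 0 = M₁ ∧ B 0 = M₂ ∧
      (∀ i, A (i + 1) = ((A i ⊓ B i).subgroupOf M₁).normalCore.map M₁.subtype) ∧
      (∀ i, B (i + 1) = ((A i ⊓ B i).subgroupOf M₂).normalCore.map M₂.subtype) ∧ A 6 = ⊥ ∧ A 5 ≠ ⊥ := by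
  have hD : IsChev Lie.chevE8 := by simp
  let _ := E8.checked.chev
  let X := (mg hD (ZMod 2)).sub rfl
  have hX : X.Faithful := (mg_faithful hD _).sub rfl
  have hH : X.H = ⊥ := eq_bot_iff.2 ((Subgroup.closure_le _).2 (by
    rintro _ ⟨r, c, hc, rfl⟩
    rw [show c = 1 by revert c; decide, X.h_one]
    exact one_mem _))
  let a : Fin Lie.chevE8.rank := ⟨3, by decide⟩
  have hc := H64.isCoatom_PJ hX (RG.sub_grp _ _) a
  have h6 : H64.cores (X.PJ {a}ᶜ) (X.ns a) 6 = ⊥ := eq_bot_iff.2 ((H64.cores_le_lev hX hH a (rs_conn hD)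
    (fun r h1 h2 => Fin.ext (((chk r r.2).2.2 h1).resolve_right fun ⟨j, hj, h3, h4⟩ =>
      (h2 ⟨j, hj⟩ fun e => h3 (congrArg Fin.val e)).not_gt (by
        rwa [rs_A, ← E8.checked.agree.car_eq j hj r r.2]))) 5).trans
    (X.US_le.2 fun r hr => absurd (le_trans hr (chk r r.2).1) (by decide)))
  refine ⟨_, inferInstance, inferInstance, X.PJ {a}ᶜ, _, X.ns a, H64.cores (X.PJ {a}ᶜ) (X.ns a),
    fun i => (H64.cores (X.PJ {a}ᶜ) (X.ns a) i).map (MulAut.conj (X.ns a)).toMonoidHom, hc, rfl, fun e => ?_, ?_,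
    rfl, rfl, fun _ => rfl, fun _ => H64.map_core _ _ (H64.ns_sq hH a), h6, fun e => ?_⟩
  · exact one_ne_zero (H64.eq_zero_of_conj_mem_PJ hX (a := a) (L := {a}ᶜ) (by simp)
      ((H64.mem_map_conj (H64.ns_sq hH a)).1 (e.le (X.B_le_PJ _ (X.x_mem_B (RS.pos_sp _ a) 1)))))
  · rw [eq_bot_iff, ← h6]
    have h := (X.PJ {a}ᶜ).normalCore_normal
    induction 6 with
    | zero => exact Subgroup.normalCore_le _
    | succ i ih =>
      exact fun y hy => H64.mem_core.2 ⟨Subgroup.normalCore_le _ hy, fun m _ => ⟨ih (h.conj_mem _ hy m),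
        (H64.mem_map_conj (H64.ns_sq hH a)).2 (ih (h.conj_mem _ (h.conj_mem _ hy m) _))⟩⟩
  · refine one_ne_zero (hX.eq_zero_of_x_eq_one (r := ⟨239, by decide⟩) (e.le (H64.lev_le_cores hH a
      (fun r h => ?_) 5 (X.x_mem (by
        rw [Set.mem_ofPred_eq, rs_cf]; exact (by decide +kernel : ((5 : ℕ) : ℤ) + 1 ≤ E8.tab.vec 239 3)) 1))))
    rw [rs_A, ← E8.checked.agree.car_eq _ a.2 r r.2]
    exact (chk r r.2).2.1 h

end Cfsg.Agent.S5751
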