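import Cfsg.Statements.S5752
import Cfsg.Agent.H78.TW

set_option autoImplicit false
open Cfsg

namespace Cfsg.Agent.S5752

open Subgroup in
theorem aux {G : Type*} [Group G] [Finite G] {M A : Subgroup G} {p : ℕ} [Fact p.Prime]
    (h : H44.FSof M = pCoreOf p M) (hs : H44.SN M A) :
    generalizedFittingSubgroup A = pCore p A := by
  refine map_injective A.subtype_injective ?_
  have := H44.FSof_eq_inf_of_sn hs
  rw [h, ← (H70.subn_of_sn hs).pCoreOf_eq] at this
  exact this

/-- A form of the Thompson–Wielandt Theorem on primitive permutation groups. Let G be a finite group and M₁, M₂ two distinct conjugate maximal subgroups of G with trivial core in G; define two descending sequences of subgroups by A₀ = M₁, B₀ = M₂ and, for every i, A_{i+1} = the core in M₁ of A_i ∩ B_i and B_{i+1} = the core in M₂ of A_i ∩ B_i (the core in M of a subgroup Y ≤ M is the largest normal subgroup of M contained in Y). If A₂ and B₂ are both non-trivial, then for some prime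 p the subgroup generated by A₂ and B₂ is a p-group, and for each j the generalized Fitting subgroups of M_j and of its first core (A₁, resp. B₁) are their largest normal p-subgroups. -/
theorem result {G : Type*} [Group G] [Finite G] (M₁ M₂ : Subgroup G) (hmax : IsCoatom M₁) (g : G)
    (hconj : M₂ = M₁.map (MulAut.conj g).toMonoidHom) (hne : M₁ ≠ M₂) (hcore : M₁.normalCore = ⊥)
    (A B : ℕ → Subgroup G) (hA0 : A 0 = M₁) (hB0 : B 0 = M₂)
    (hA : ∀ i, A (i + 1) = ((A i ⊓ B i).subgroupOf M₁).normalCore.map M₁.subtype)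
    (hB : ∀ i, B (i + 1) = ((A i ⊓ B i).subgroupOf M₂).normalCore.map M₂.subtype) (hA2 : A 2 ≠ ⊥) (hB2 : B 2 ≠ ⊥) :
    ∃ p : ℕ, p.Prime ∧ IsPGroup p ↥(A 2 ⊔ B 2) ∧
      Cfsg.generalizedFittingSubgroup ↥M₁ = Cfsg.pCore p ↥M₁ ∧ Cfsg.generalizedFittingSubgroup ↥(A 1) = Cfsg.pCore p ↥(A 1) ∧
      Cfsg.generalizedFittingSubgroup ↥M₂ = Cfsg.pCore p ↥M₂ ∧ Cfsg.generalizedFittingSubgroup ↥(B 1) = Cfsg.pCore p ↥(B 1) := by
  have a1 : A 1 = H78.core M₁ M₂ := by
    rw [hA 0, hA0, hB0, Subgroup.inf_subgroupOf_left]; rfl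
  have b1 : B 1 = H78.core M₂ M₁ := by
    rw [hB 0, hA0, hB0, Subgroup.inf_subgroupOf_right]; rfl
  have a2 : A 2 = H78.core M₁ (A 1 ⊓ B 1) := hA 1
  have b2 : B 2 = H78.core M₂ (A 1 ⊓ B 1) := hB 1
  have n1 := a2 ▸ H78.le_norm_core M₁ (A 1 ⊓ B 1)
  obtain ⟨p, hp, h1, h2, h3, h4⟩ := H78.thompson_wielandt (H78.primSub_of_coatom hmax hcore) hconj
    hne hA2 n1 (a2 ▸ b1 ▸ (H78.core_le_right _ _).trans inf_le_right) hB2
    (b2 ▸ H78.le_norm_core M₂ _) (b2 ▸ a1 ▸ (H78.core_le_right _ _).trans inf_le_left)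
  have := Fact.mk hp
  refine ⟨p, hp, H70.isPGroup_sup_of_norm' h1 h2 (le_trans ?_ n1),
    aux h3 (H44.SN.of_le_normalizer le_rfl Subgroup.le_normalizer),
    aux h3 (a1 ▸ H44.SN.of_le_normalizer (H78.core_le_left _ _) (H78.le_norm_core _ _)),
    aux h4 (H44.SN.of_le_normalizer le_rfl Subgroup.le_normalizer),
    aux h4 (b1 ▸ H44.SN.of_le_normalizer (H78.core_le_left _ _) (H78.le_norm_core _ _))⟩
  rw [b2, a1]
  exact ((H78.core_le_right _ _).trans inf_le_left).trans (H78.core_le_left _ _)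

end Cfsg.Agent.S5752
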