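import Cfsg.Statements.S5754

set_option autoImplicit false
open Cfsg

namespace Cfsg.Agent.S5754

open QuadraticMap

/-- The reflection in a non-singular vector. -/
theorem exists_reflection {F V : Type*} [Field F] [AddCommGroup V] [Module F V]
    (Q : QuadraticForm F V) (w : V) (hw : Q w ≠ 0) :
    ∃ φ : Q.IsometryEquiv Q, ∀ v, φ v = v - (polar Q v w / Q w) • w := by
  let f : V →ₗ[F] V := LinearMap.id - ((Q w)⁻¹ • (polarBilin Q).flip w).smulRight w
  have hf : ∀ v, f v = v - (polar Q v w / Q w) • w := by
    intro v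
    simp [f, div_eq_inv_mul]
  have hinv : Function.Involutive f := by
    intro v
    rw [hf, hf, polar_sub_left, polar_smul_left, polar_self, sub_sub, ← add_smul]
    have : polar Q v w / Q w + (polar Q v w - (polar Q v w / Q w) • (2 • Q w)) / Q w = 0 := by
      simp only [smul_eq_mul, nsmul_eq_mul, Nat.cast_ofNat]
      field_simp
      ring
    rw [this, zero_smul, sub_zero]
  refine ⟨⟨LinearEquiv.ofInvolutive f hinv, fun v => ?_⟩, hf⟩
  change Q (f v) = Q v
  rw [hf, sub_eq_add_neg, ← neg_smul, QuadraticMap.map_add Q, polar_smul_right,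
    QuadraticMap.map_smul]
  simp only [smul_eq_mul]
  field_simp
  ring

theorem witt {F V : Type*} [Field F] [AddCommGroup V] [Module F V]
    (Q : QuadraticForm F V) (hQ : Q.Anisotropic) {ι : Type*} (v v' : ι → V)
    (h1 : ∀ i, Q (v i) = Q (v' i)) (h2 : ∀ i j, polar Q (v i) (v j) = polar Q (v' i) (v' j))
    (s : Finset ι) : ∃ φ : Q.IsometryEquiv Q, ∀ i ∈ s, φ (v i) = v' i := by
  classical
  induction s using Finset.induction_on with
  | empty => exact ⟨QuadraticMap.IsometryEquiv.refl Q, by simp⟩
  | insert i s hi ih =>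
    obtain ⟨φ, hφ⟩ := ih
    have hpol : ∀ x y, polar Q (φ x) (φ y) = polar Q x y := by
      intro x y
      simp only [polar, ← map_add, φ.map_app]
    by_cases h : φ (v i) = v' i
    · refine ⟨φ, fun j hj => ?_⟩
      rcases Finset.mem_insert.mp hj with rfl | hj
      · exact h
      · exact hφ j hj
    have hw : Q (φ (v i) - v' i) ≠ 0 := fun h0 => h (sub_eq_zero.mp (hQ _ h0))
    obtain ⟨ψ, hψ⟩ := exists_reflection Q _ hw
    refine ⟨φ.trans ψ, fun j hj => ?_⟩
    change ψ (φ (v j)) = v' j
    rcases Finset.mem_insert.mp hj with rfl | hj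
    · have : polar Q (φ (v j)) (φ (v j) - v' j) = Q (φ (v j) - v' j) := by
        rw [polar_sub_right, polar_self, sub_eq_add_neg (φ (v j)), QuadraticMap.map_add Q,
          polar_neg_right, QuadraticMap.map_neg, φ.map_app, h1, two_nsmul]
        ring
      rw [hψ, this, div_self hw, one_smul, sub_sub_cancel]
    · rw [hψ, polar_sub_right, hpol, h2, hφ j hj, sub_self, zero_div, zero_smul, sub_zero]

/-- Let V be a finite-dimensional vector space over a finite field F carrying an anisotropic quadratic form Q (Q(v) = 0 only for v = 0). Then the group of all maps v ↦ φ(v) + c, with φ an isometry of Q and c ∈ V, acts on V as a binary permutation group: given n ≥ 2 and two n-tuples u, u' of vectors such that every pair of corresponding entries of u is carried to that of u' by such a map, one such map carries u to u'. -/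
theorem result {F V : Type*} [Field F] [Finite F] [AddCommGroup V] [Module F V] [Module.Finite F V]
    (Q : QuadraticForm F V) (hQ : Q.Anisotropic) (n : ℕ) (hn : 2 ≤ n) (u u' : Fin n → V)
    (h2 : ∀ i j : Fin n, i ≠ j → ∃ (φ : Q.IsometryEquiv Q) (c : V), φ (u i) + c = u' i ∧ φ (u j) + c = u' j) :
    ∃ (φ : Q.IsometryEquiv Q) (c : V), ∀ i, φ (u i) + c = u' i := by
  have hQ' : ∀ i j, Q (u i - u j) = Q (u' i - u' j) := by
    intro i j
    by_cases hij : i = j
    · rw [hij, sub_self, sub_self]
    · obtain ⟨φ, c, h1, h2⟩ := h2 i j hij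
      rw [← h1, ← h2, add_sub_add_right_eq_sub, ← map_sub, φ.map_app]
  let z : Fin n := ⟨0, by omega⟩
  obtain ⟨φ, hφ⟩ := witt Q hQ (fun i => u i - u z) (fun i => u' i - u' z) (fun i => hQ' i z) (by
    intro i j
    have e : ∀ x y : V, polar Q x y = Q x + Q y - Q (x - y) := by
      intro x y
      rw [sub_eq_add_neg x, QuadraticMap.map_add Q, polar_neg_right, QuadraticMap.map_neg]
      ring
    simp only [e, sub_sub_sub_cancel_right, hQ']) Finset.univ
  refine ⟨φ, u' z - φ (u z), fun i => ?_⟩
  have := hφ i (Finset.mem_univ i)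
  rw [map_sub] at this
  rw [add_sub_left_comm, this]
  abel

end Cfsg.Agent.S5754
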