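import Cfsg.Statements.S5763
import Mathlib.GroupTheory.Sylow

set_option autoImplicit false
open Cfsg

namespace Cfsg.Agent.S5763

/-- The automorphism group of the binary tree on eight leaves. -/
def tree : Subgroup (Equiv.Perm (Fin 8)) where
  carrier := {σ | ∀ i j : Fin 8, ((σ i).val / 2 = (σ j).val / 2 ↔ i.val / 2 = j.val / 2) ∧
    ((σ i).val / 4 = (σ j).val / 4 ↔ i.val / 4 = j.val / 4)}
  one_mem' := fun _ _ => ⟨Iff.rfl, Iff.rfl⟩
  mul_mem' := fun {σ τ} hσ hτ i j =>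
    ⟨(hσ (τ i) (τ j)).1.trans (hτ i j).1, (hσ (τ i) (τ j)).2.trans (hτ i j).2⟩
  inv_mem' := fun {σ} hσ i j => by
    have := hσ (σ⁻¹ i) (σ⁻¹ j)
    simp only [Equiv.Perm.coe_inv, Equiv.apply_symm_apply] at this
    exact ⟨this.1.symm, this.2.symm⟩

theorem tree_isPGroup : IsPGroup 2 tree := by
  rintro ⟨σ, hσ⟩
  refine ⟨3, Subtype.ext ?_⟩
  have h1 : ∀ i, ((σ * σ) i).val / 4 = i.val / 4 := by
    intro i
    have := (hσ i (σ i)).2
    have h1 := i.2
    have h2 := (σ i).2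
    have h3 := (σ (σ i)).2
    rw [Equiv.Perm.mul_apply]
    omega
  have hτ := tree.mul_mem hσ hσ
  have e : σ ^ 2 ^ 3 = ((σ * σ) * (σ * σ)) * ((σ * σ) * (σ * σ)) := by
    rw [show 2 ^ 3 = 8 from rfl]
    simp only [pow_succ, pow_zero, one_mul, mul_assoc]
  change σ ^ 2 ^ 3 = 1
  rw [e]
  generalize σ * σ = τ at h1 hτ
  have h2 : ∀ i, ((τ * τ) i).val / 2 = i.val / 2 := by
    intro i
    have := (hτ i (τ i)).1
    have h3 := h1 i
    have h4 := h1 (τ i)
    rw [Equiv.Perm.mul_apply]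
    omega
  generalize τ * τ = ρ at h2
  ext i
  have h3 := h2 i
  have h4 := h2 (ρ i)
  have h5 : (ρ i).val = (ρ (ρ i)).val → i.val = (ρ i).val := fun h =>
    congrArg Fin.val (ρ.injective (Fin.ext h))
  have h6 : i.val = (ρ i).val → (ρ i).val = (ρ (ρ i)).val := fun h =>
    congrArg Fin.val (congrArg ρ (Fin.ext h))
  rw [Equiv.Perm.mul_apply, Equiv.Perm.one_apply]
  omega

def dg (H i : ℕ) : ℕ := Nat.mod (Nat.shiftRight H (Nat.mul 3 i)) 8

def qf (N i : ℕ) : ℕ := Nat.mod (Nat.shiftRight N (Nat.mul 2 i)) 4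

def all8 (f : ℕ → Bool) : Bool :=
  f 0 && (f 1 && (f 2 && (f 3 && (f 4 && (f 5 && (f 6 && f 7))))))

theorem all8_iff {f : ℕ → Bool} (h : all8 f = true) (i : Fin 8) : f i = true := by
  simp only [all8, Bool.and_eq_true] at h
  fin_cases i <;> simp [h]

def beq2 (a b : Bool) : Bool := cond a b (not b)

theorem beq2_iff {a b c d : ℕ} (h : beq2 (Nat.beq a b) (Nat.beq c d) = true) : a = b ↔ c = d := by
  rw [← Nat.beq_eq, ← Nat.beq_eq]
  revert h
  cases Nat.beq a b <;> cases Nat.beq c d <;> simp [beq2]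

def pres1 (a b c d : ℕ) : Bool :=
  beq2 (Nat.beq a b) (Nat.beq c d) &&
    beq2 (Nat.beq (Nat.div a 2) (Nat.div b 2)) (Nat.beq (Nat.div c 2) (Nat.div d 2))

def pres (H N : ℕ) : Bool := all8 fun i => all8 fun j =>
  pres1 (qf N (dg H i)) (qf N (dg H j)) (qf N i) (qf N j)

def invs : List ℕ := [14570689, 11789505, 9925825, 14599816, 16406152, 16434376, 16434817, 6852524,
  5017068, 6823845, 4988389, 2206526, 2177406, 371511, 342391]

def wt (N : ℕ) : ℕ := Nat.add (Nat.add (Nat.pow 16 (qf N 0)) (Nat.pow 16 (qf N 1)))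
  (Nat.add (Nat.pow 16 (qf N 2)) (Nat.pow 16 (qf N 3)))

theorem chk : ((List.range 256).all fun a => (List.range 256).all fun b =>
    not (Nat.beq (Nat.add (wt a) (wt b)) 8738) ||
      invs.any fun H => pres H (Nat.add (Nat.mul 256 a) b)) = true := by
  decide +kernel

theorem chk2 : ∀ H ∈ invs, (∀ i : Fin 8, dg H (dg H i) = i) ∧ (∃ i : Fin 8, dg H i ≠ i) ∧
    ∀ i j : Fin 8, (dg H i / 2 = dg H j / 2 ↔ i.val / 2 = j.val / 2) ∧
      (dg H i / 4 = dg H j / 4 ↔ i.val / 4 = j.val / 4) := by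
  decide +kernel

theorem qf_eq (N i : ℕ) : qf N i = N / 4 ^ i % 4 := by
  change N >>> (2 * i) % 4 = _
  rw [Nat.shiftRight_eq_div_pow, pow_mul]
  rfl

theorem key (x : Equiv.Perm (Fin 8)) : ∃ h ∈ tree, h ≠ 1 ∧ x * h * x⁻¹ ∈ tree := by
  let b := (x 0).val / 2 + 4 * ((x 1).val / 2) + 16 * ((x 2).val / 2) + 64 * ((x 3).val / 2)
  let a := (x 4).val / 2 + 4 * ((x 5).val / 2) + 16 * ((x 6).val / 2) + 64 * ((x 7).val / 2)
  have h0 := (x 0).2
  have h1 := (x 1).2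
  have h2 := (x 2).2
  have h3 := (x 3).2
  have h4 := (x 4).2
  have h5 := (x 5).2
  have h6 := (x 6).2
  have h7 := (x 7).2
  have hq : ∀ i : Fin 8, qf (256 * a + b) i = (x i).val / 2 := by
    intro i
    fin_cases i <;>
      simp only [qf_eq, a, b, Fin.zero_eta, Fin.mk_one, Fin.reduceFinMk, Fin.isValue] <;> omega
  have hw : wt a + wt b = 8738 := by
    have e := Equiv.sum_comp x (fun j : Fin 8 => 16 ^ (j.val / 2))
    rw [Fin.sum_univ_eight, Fin.sum_univ_eight] at e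
    have e0 : qf b 0 = (x 0).val / 2 := by simp only [qf_eq, b]; omega
    have e1 : qf b 1 = (x 1).val / 2 := by simp only [qf_eq, b]; omega
    have e2 : qf b 2 = (x 2).val / 2 := by simp only [qf_eq, b]; omega
    have e3 : qf b 3 = (x 3).val / 2 := by simp only [qf_eq, b]; omega
    have e4 : qf a 0 = (x 4).val / 2 := by simp only [qf_eq, a]; omega
    have e5 : qf a 1 = (x 5).val / 2 := by simp only [qf_eq, a]; omega
    have e6 : qf a 2 = (x 6).val / 2 := by simp only [qf_eq, a]; omega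
    have e7 : qf a 3 = (x 7).val / 2 := by simp only [qf_eq, a]; omega
    change (16 ^ qf a 0 + 16 ^ qf a 1) + (16 ^ qf a 2 + 16 ^ qf a 3) +
      ((16 ^ qf b 0 + 16 ^ qf b 1) + (16 ^ qf b 2 + 16 ^ qf b 3)) = 8738
    rw [e0, e1, e2, e3, e4, e5, e6, e7]
    norm_num at e
    omega
  have hc := chk
  simp only [List.all_eq_true, List.mem_range] at hc
  have hc' := hc a (by omega) b (by omega)
  simp only [Nat.add_eq, Nat.mul_eq, hw, Nat.beq_refl, Bool.not_true, Bool.false_or,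
    List.any_eq_true] at hc'
  obtain ⟨H, hH, hp⟩ := hc'
  obtain ⟨a1, ⟨i₀, a2⟩, a3⟩ := chk2 H hH
  let f : Fin 8 → Fin 8 := fun i => ⟨dg H i, Nat.mod_lt _ (by norm_num)⟩
  have hf : Function.Involutive f := fun i => Fin.ext (a1 i)
  refine ⟨hf.toPerm f, a3, fun h => a2 (congrArg Fin.val (DFunLike.congr_fun h i₀)), ?_⟩
  intro i j
  obtain ⟨i, rfl⟩ := x.surjective i
  obtain ⟨j, rfl⟩ := x.surjective j
  have := all8_iff (all8_iff hp i) j
  rw [hq i, hq j, show dg H i = (f i).val from rfl, show dg H j = (f j).val from rfl, hq, hq,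
    pres1, Bool.and_eq_true] at this
  simp only [Equiv.Perm.mul_apply, Equiv.Perm.coe_inv, Equiv.symm_apply_apply,
    Function.Involutive.coe_toPerm]
  refine ⟨beq2_iff this.1, ?_⟩
  have h8 : (x (f i)).val / 2 / 2 = (x (f j)).val / 2 / 2 ↔ (x i).val / 2 / 2 = (x j).val / 2 / 2 :=
    beq2_iff this.2
  simpa only [Nat.div_div_eq_div_mul] using h8

/-- In the symmetric group on 8 letters any two Sylow 2-subgroups have non-trivial intersection: for a Sylow 2-subgroup H and every element x, H ∩ xHx⁻¹ ≠ 1. -/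
theorem result (H : Sylow 2 (Equiv.Perm (Fin 8))) (x : Equiv.Perm (Fin 8)) :
    (H : Subgroup (Equiv.Perm (Fin 8))) ⊓ (H : Subgroup (Equiv.Perm (Fin 8))).map (MulAut.conj x).toMonoidHom ≠ ⊥ := by
  obtain ⟨P, hP⟩ := tree_isPGroup.exists_le_sylow
  obtain ⟨y, rfl⟩ := MulAction.exists_smul_eq (Equiv.Perm (Fin 8)) P H
  obtain ⟨h, h1, h2, h3⟩ := key (y⁻¹ * x * y)
  have hm : ∀ k ∈ tree, y * k * y⁻¹ ∈ ((y • P : Sylow 2 (Equiv.Perm (Fin 8))) :
      Subgroup (Equiv.Perm (Fin 8))) := fun k hk =>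
    Subgroup.smul_mem_pointwise_smul k (MulAut.conj y) _ (hP hk)
  intro hbot
  have : x * (y * h * y⁻¹) * x⁻¹ ∈ (⊥ : Subgroup (Equiv.Perm (Fin 8))) := by
    rw [← hbot]
    refine ⟨?_, _, hm h h1, rfl⟩
    have e : x * (y * h * y⁻¹) * x⁻¹ = y * (y⁻¹ * x * y * h * (y⁻¹ * x * y)⁻¹) * y⁻¹ := by group
    rw [e]
    exact hm _ h3
  apply h2
  simpa [mul_inv_eq_iff_eq_mul] using this

end Cfsg.Agent.S5763
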