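import Cfsg.Statements.S5885

set_option autoImplicit false
open Cfsg

namespace Cfsg.Agent.S5885

open Subgroup
open scoped Pointwise

/-- every even permutation of the cosets is induced by an element of `G` -/
theorem lift_even {G : Type*} [Group G] [Finite G] (n : ℕ)
    (hA : ∀ P : Subgroup (Equiv.Perm (Fin n)), MulAction.IsPreprimitive P (Fin n) → alternatingGroup (Fin n) ≤ P)
    (M : Subgroup G) (hM : IsCoatom M) (hn : M.index = n) [DecidableEq (G ⧸ M)]
    (x y z : G ⧸ M) :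
    ∃ g : G, ∀ ω : G ⧸ M, g • ω = (Equiv.swap y z * Equiv.swap x y : Equiv.Perm (G ⧸ M)) ω ∨ x = y ∨ y = z := by
  classical
  by_cases hxy : x = y
  · exact ⟨1, fun _ => Or.inr (Or.inl hxy)⟩
  by_cases hyz : y = z
  · exact ⟨1, fun _ => Or.inr (Or.inr hyz)⟩
  have e : (G ⧸ M) ≃ Fin n := Finite.equivFinOfCardEq (by rw [← hn]; rfl)
  let φ : G →* Equiv.Perm (Fin n) := (e.permCongrHom : _ →* _).comp (MulAction.toPermHom G (G ⧸ M))
  haveI : Nontrivial (G ⧸ M) := by
    rw [← not_subsingleton_iff_nontrivial]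
    intro h
    apply hM.1
    rw [← Subgroup.index_eq_one]
    exact Nat.card_unique
  have hprim : MulAction.IsPreprimitive G (G ⧸ M) := by
    rw [← MulAction.isCoatom_stabilizer_iff_preprimitive (G := G) ((1 : G) : G ⧸ M),
      MulAction.stabilizer_quotient]
    exact hM
  have hP : MulAction.IsPreprimitive φ.range (Fin n) := by
    let f : (G ⧸ M) →ₑ[φ.rangeRestrict] Fin n :=
      { toFun := e
        map_smul' := fun g ω => by
          show e (g • ω) = (φ g) (e ω)
          simp [φ] }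
    exact MulAction.IsPreprimitive.of_surjective (f := f) e.surjective
  have hmem : (Equiv.swap (e y) (e z) * Equiv.swap (e x) (e y)) ∈ alternatingGroup (Fin n) := by
    rw [Equiv.Perm.mem_alternatingGroup, Equiv.Perm.sign_mul,
      Equiv.Perm.sign_swap (fun h => hyz (e.injective h)),
      Equiv.Perm.sign_swap (fun h => hxy (e.injective h))]
    simp
  obtain ⟨g, hg⟩ := hA _ hP hmem
  refine ⟨g, fun ω => Or.inl ?_⟩
  apply e.injective
  have h1 : e (g • ω) = (φ g) (e ω) := by simp [φ]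
  rw [h1, hg]
  simp only [Equiv.Perm.coe_mul, Function.comp_apply]
  rw [← Function.Injective.swap_apply e.injective, ← Function.Injective.swap_apply e.injective]

theorem lift3 {G : Type*} [Group G] [Finite G] (n : ℕ)
    (hA : ∀ P : Subgroup (Equiv.Perm (Fin n)), MulAction.IsPreprimitive P (Fin n) → alternatingGroup (Fin n) ≤ P)
    (M : Subgroup G) (hM : IsCoatom M) (hn : M.index = n)
    (x y z : G ⧸ M) (hxy : x ≠ y) (hyz : y ≠ z) (hxz : x ≠ z) :
    ∃ g : G, g • x = z ∧ g • z = y ∧ ∀ ω : G ⧸ M, ω ≠ x → ω ≠ y → ω ≠ z → g • ω = ω := by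
  classical
  obtain ⟨g, hg⟩ := lift_even n hA M hM hn x y z
  have h : ∀ ω, g • ω = (Equiv.swap y z * Equiv.swap x y : Equiv.Perm (G ⧸ M)) ω := fun ω => by
    rcases hg ω with h | h | h
    · exact h
    · exact absurd h hxy
    · exact absurd h hyz
  refine ⟨g, ?_, ?_, fun ω h1 h2 h3 => ?_⟩
  · rw [h]; simp
  · rw [h]; simp [Equiv.swap_apply_of_ne_of_ne hxz.symm hyz.symm]
  · rw [h]; simp [Equiv.swap_apply_of_ne_of_ne h1 h2, Equiv.swap_apply_of_ne_of_ne h2 h3]


/-- Let n be an odd positive integer such that every primitive permutation group of degree n contains the alternating group (so the symmetric and alternating groups are the only primitive groups of degree n). Let G be a finite group, M a maximal subgroup of G of index n, and H a maximal subgroup of M. Then H is a second maximal subgroup of G: H is maximal in every maximal subgroup K of G containing H. -/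
theorem result {G : Type*} [Group G]
    [Finite G] (n : ℕ) (hodd : Odd n)
    (hA : ∀ P : Subgroup (Equiv.Perm (Fin n)), MulAction.IsPreprimitive P (Fin n) → alternatingGroup (Fin n) ≤ P)
    (M : Subgroup G) (hM : IsCoatom M) (hn : M.index = n) (H : Subgroup G) (hHM : H ≤ M)
    (hmax : IsCoatom (H.subgroupOf M)) (K : Subgroup G) (hK : IsCoatom K) (hHK : H ≤ K) :
    IsCoatom (H.subgroupOf K) := by
  classical
  by_cases hKM : K = M
  · subst hKM; exact hmax
  -- intermediate subgroups between `H` and `M`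
  have hmid : ∀ Y : Subgroup G, H ≤ Y → Y ≤ M → Y = H ∨ Y = M := by
    intro Y h1 h2
    by_cases h : Y.subgroupOf M = H.subgroupOf M
    · left
      have := congrArg (fun U => U.map M.subtype) h
      simpa [Subgroup.subgroupOf_map_subtype, inf_eq_left.2 h2, inf_eq_left.2 hHM] using this
    · right
      have := hmax.2 (Y.subgroupOf M) (lt_of_le_of_ne (fun u hu => h1 hu) (Ne.symm h))
      exact le_antisymm h2 (Subgroup.subgroupOf_eq_top.1 this)
  have hKM' : K ⊓ M = H := by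
    rcases hmid (K ⊓ M) (le_inf hHK hHM) inf_le_right with h | h
    · exact h
    · exfalso
      have hle : M ≤ K := by rw [← h]; exact inf_le_left
      rcases hle.lt_or_eq with h' | h'
      · exact hK.1 (hM.2 _ h')
      · exact hKM h'.symm
  let a : G ⧸ M := ((1 : G) : G ⧸ M)
  have hfix : ∀ g : G, g • a = a ↔ g ∈ M := fun g => by
    rw [← MulAction.mem_stabilizer_iff, MulAction.stabilizer_quotient]
  have hfixK : ∀ g ∈ K, g • a = a → g ∈ H := fun g hg h => by
    rw [← hKM']; exact ⟨hg, (hfix g).1 h⟩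
  refine ⟨fun h => ?_, fun X' hX' => ?_⟩
  · have hle : K ≤ M := (Subgroup.subgroupOf_eq_top.1 h).trans hHM
    rcases hle.lt_or_eq with h' | h'
    · exact hM.1 (hK.2 _ h')
    · exact hKM h'
  by_contra hXtop
  let X : Subgroup G := X'.map K.subtype
  have hXK : X ≤ K := Subgroup.map_subtype_le _
  have hHX : H ≤ X := fun u hu => ⟨⟨u, hHK hu⟩, hX'.le hu, rfl⟩
  obtain ⟨u₀, hu₀X, hu₀H⟩ : ∃ u, u ∈ X ∧ u ∉ H := by
    obtain ⟨u, hu1, hu2⟩ := SetLike.exists_of_lt hX'
    exact ⟨u, ⟨u, hu1, rfl⟩, hu2⟩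
  obtain ⟨k, hkK, hkX⟩ : ∃ k, k ∈ K ∧ k ∉ X := by
    by_contra hcon
    push Not at hcon
    apply hXtop
    rw [eq_top_iff]
    intro u _
    obtain ⟨v, hv, hvu⟩ := hcon u u.2
    rwa [← (Subtype.ext hvu : v = u)]
  let B : Set (G ⧸ M) := {ω | ∃ u ∈ X, u • a = ω}
  let B₁ : Set (G ⧸ M) := (fun ω => k • ω) '' B
  have hblock : ∀ k' ∈ K, ∀ u ∈ X, ∀ v ∈ X, k' • u • a = v • a → k' ∈ X := by
    intro k' hk' u hu v hv h
    have h1 : (v⁻¹ * k' * u) • a = a := by rw [mul_smul, mul_smul, h, inv_smul_smul]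
    have h2 : v⁻¹ * k' * u ∈ X :=
      hHX (hfixK _ (K.mul_mem (K.mul_mem (K.inv_mem (hXK hv)) hk') (hXK hu)) h1)
    have : k' = v * (v⁻¹ * k' * u) * u⁻¹ := by group
    rw [this]; exact X.mul_mem (X.mul_mem hv h2) (X.inv_mem hu)
  have hdisj : Disjoint B B₁ := by
    rw [Set.disjoint_left]
    rintro _ ⟨v, hv, rfl⟩ ⟨_, ⟨u, hu, rfl⟩, h⟩
    exact hkX (hblock k hkK u hu v hv h)
  have haB : a ∈ B := ⟨1, X.one_mem, one_smul _ _⟩
  have hcB : u₀ • a ∈ B := ⟨u₀, hu₀X, rfl⟩
  have hca : u₀ • a ≠ a := fun h => hu₀H (hfixK _ (hXK hu₀X) h)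
  have hx : k • a ∈ B₁ := ⟨a, haB, rfl⟩
  have hx' : k • u₀ • a ∈ B₁ := ⟨_, hcB, rfl⟩
  have hxx' : k • a ≠ k • u₀ • a := fun h => hca (smul_left_cancel k h).symm
  obtain ⟨y, hyB, hyB₁⟩ : ∃ y, y ∉ B ∧ y ∉ B₁ := by
    by_contra hcon
    push Not at hcon
    have hu : B ∪ B₁ = Set.univ := by
      rw [Set.eq_univ_iff_forall]
      intro y
      by_cases h : y ∈ B
      · exact Or.inl h
      · exact Or.inr (hcon y h)
    have h1 : (B ∪ B₁).ncard = B.ncard + B₁.ncard := Set.ncard_union_eq hdisj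
    have h2 : B₁.ncard = B.ncard := Set.ncard_image_of_injective _ (MulAction.injective k)
    rw [hu, Set.ncard_univ, h2] at h1
    have h3 : Nat.card (G ⧸ M) = n := hn
    rw [h3] at h1
    exact (Nat.not_even_iff_odd.2 hodd) ⟨_, h1⟩
  let Y : Subgroup G := M ⊓ MulAction.stabilizer G B
  have hHY : H ≤ Y := by
    intro h hh
    refine mem_inf.2 ⟨hHM hh, ?_⟩
    rw [MulAction.mem_stabilizer_set]
    intro b
    constructor
    · rintro ⟨u, hu, hub⟩
      refine ⟨h⁻¹ * u, X.mul_mem (X.inv_mem (hHX hh)) hu, ?_⟩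
      rw [mul_smul, hub, inv_smul_smul]
    · rintro ⟨u, hu, rfl⟩
      exact ⟨h * u, X.mul_mem (hHX hh) hu, mul_smul _ _ _⟩
  have hne : ∀ {b c : G ⧸ M}, b ∈ B → c ∈ B₁ → b ≠ c := fun hb hc h =>
    Set.disjoint_left.1 hdisj hb (h ▸ hc)
  rcases hmid Y hHY inf_le_left with hY | hY
  · -- the 3-cycle on `k u₀ a, y, k a`
    obtain ⟨g, hg1, hg2, hg3⟩ := lift3 n hA M hM hn (k • u₀ • a) y (k • a)
      (fun h => hyB₁ (h ▸ hx')) (fun h => hyB₁ (h ▸ hx)) hxx'.symm
    have hgB : ∀ b ∈ B, g • b = b := fun b hb =>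
      hg3 b (hne hb hx') (fun h => hyB (h ▸ hb)) (hne hb hx)
    have hgY : g ∈ Y := by
      refine mem_inf.2 ⟨(hfix g).1 (hgB a haB), ?_⟩
      rw [MulAction.mem_stabilizer_set]
      intro b
      constructor
      · intro hb
        have := hgB _ hb
        rw [smul_left_cancel_iff] at this
        rwa [this] at hb
      · intro hb; rwa [hgB b hb]
    have hgK : g ∈ K := hHK (hY ▸ hgY)
    have h1 : (k⁻¹ * g * k) • u₀ • a = (1 : G) • a := by
      rw [mul_smul, mul_smul, hg1, inv_smul_smul, one_smul]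
    have h2 := hblock _ (K.mul_mem (K.mul_mem (K.inv_mem hkK) hgK) hkK) u₀ hu₀X 1 X.one_mem h1
    apply hyB₁
    refine ⟨(k⁻¹ * g * k) • a, ⟨_, h2, rfl⟩, ?_⟩
    show k • (k⁻¹ * g * k) • a = y
    rw [mul_smul, mul_smul, smul_inv_smul, hg2]
  · obtain ⟨g, hg1, hg2, hg3⟩ := lift3 n hA M hM hn (u₀ • a) (k • u₀ • a) (k • a)
      (hne hcB hx') hxx'.symm (hne hcB hx)
    have hgM : g ∈ M := (hfix g).1 (hg3 a hca.symm (hne haB hx') (hne haB hx))
    have hgY : g ∈ Y := hY ▸ hgM
    have := (MulAction.mem_stabilizer_set.1 (mem_inf.1 hgY).2 (u₀ • a)).2 hcB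
    rw [hg1] at this
    exact hne this hx rfl

end Cfsg.Agent.S5885
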