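import Cfsg.Statements.S5887
import Cfsg.Agent.H99.Ix2

set_option autoImplicit false
open Cfsg

namespace Cfsg.Agent.S5887

open H99 H98 H67 H9


/-- Let F be a finite field, n a positive integer and r a composite number (r > 1, not prime) that divides n with r < n. Let K be a subalgebra of the algebra of n × n matrices over F which is a field of degree r over F (commutative, every non-zero element invertible, of dimension r over F). Then the normaliser N of K in GL_n(F) (a group of type ΓL_{n/r}(F_{q^r})) is not a maximal subgroup of GL_n(F), and N ∩ SL_n(F) is not a maximal subgroup of SL_n(F): both lie properly inside the normaliser of an intermediate subfield of prime degree over F. -/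
theorem result {F : Type*} [Field F]
    [Fintype F] (n r : ℕ) (hr1 : 1 < r) (hrp : ¬ r.Prime) (hrn : r ∣ n) (hlt : r < n)
    (K : Subalgebra F (Matrix (Fin n) (Fin n) F)) (hK : Cfsg.Geo.IsFieldSubalgebra r K) :
    ¬ IsCoatom (Cfsg.Geo.subalgebraNormalizer K) ∧
      ¬ Cfsg.Geo.IsMaximalIn (Cfsg.Geo.specialLinear (Fin n) F)
        (Cfsg.Geo.subalgebraNormalizer K ⊓ Cfsg.Geo.specialLinear (Fin n) F) := by
  classical
  haveI : Nonempty (Fin n) := ⟨⟨0, by omega⟩⟩
  have hs := Nat.minFac_prime hr1.ne'
  obtain ⟨c, hc⟩ := r.minFac_dvd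
  obtain ⟨L, hL, hm⟩ := exists_subfield_alg (r := r.minFac) hK.comm hK.inv
    (hK.finrank_eq ▸ r.minFac_dvd)
  generalize r.minFac = s at *
  have h2 : 2 * s ≤ r := by
    rcases c with _ | _ | c
    · omega
    · exact absurd (by simpa [hc]) hrp
    · nlinarith
  have hle := (nz_of_pow_char (nz_of_le_normalizer le_rfl) hm).le_normalizer
  have h3 := finrank_KF_mul hL
  rw [Fintype.card_fin] at h3
  obtain ⟨S, s1, s2⟩ := exists_sq_zero (F := KF hL) (V := Fin n → F) (a := 1) (by
    by_contra h
    nlinarith [hs.pos])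
  obtain ⟨y, y1, y2, y3⟩ := exists_norm_lin hL S (Module.End.isUnit_iff _ |>.1
    (by simpa using (IsNilpotent.isUnit_add_one ⟨2, s1⟩)) |>.1)
  have y4 : y ∈ Geo.specialLinear (Fin n) F := mem_specialLinear.2 (det_eq_one_of_unip (N := 2)
    (LinearMap.ext fun v => by simpa [sq, -Matrix.toLin'_apply, y2] using LinearMap.congr_fun s1 v))
  have y5 : y ∉ Geo.subalgebraNormalizer K := fun h => by
    have := CM.dvd_rk hK (μ := 1) ⟨y, h, Sim.refl _⟩ (by
      rw [rk_one, y3, s2, Fintype.card_fin]; omega)
    rw [rk_one, y3, s2] at this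
    have := Nat.le_of_dvd (by simpa using hs.pos) this
    have := hs.pos
    omega
  have h4 := not_sl_le_fieldNorm (by have := hs.two_le; simp; omega) hs.two_le hL
  refine ⟨fun h => h4 (h.2 _ (lt_of_le_of_ne hle fun e => y5 (e ▸ y1)) ▸ le_top), fun h => ?_⟩
  rcases h.2 _ (inf_le_inf_right _ hle) inf_le_right with e | e
  exacts [y5 (e.le ⟨y1, y4⟩).1, h4 (e.ge.trans inf_le_left)]

end Cfsg.Agent.S5887
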