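import Cfsg.Statements.S5895
import Cfsg.Agent.H99.Wreath

set_option autoImplicit false
open Cfsg

namespace Cfsg.Agent.S5895

/-- For every prime p and every d ≥ 2 there is a finite group G with a maximal subgroup M of index p^d and a maximal subgroup H of M that is not second maximal in G: some maximal subgroup K of G contains H without H being maximal in K. (One may take G the affine group V ⋊ GL(V) of V = 𝔽_p^d, M = GL(V), H the stabiliser in M of a line W of V, and K = V ⋊ H, with H < W ⋊ H < K.) So the prime-index hypothesis in the second-maximality criterion cannot be relaxed to prime-power index. -/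
theorem result (p d : ℕ) (hp : p.Prime)
    (hd : 2 ≤ d) :
    ∃ (G : Type) (_ : Group G) (_ : Finite G) (M H K : Subgroup G), IsCoatom M ∧ M.index = p ^ d ∧ H ≤ M ∧
      IsCoatom (H.subgroupOf M) ∧ IsCoatom K ∧ H ≤ K ∧ ¬ IsCoatom (H.subgroupOf K) := by
  have : Fact p.Prime := ⟨hp⟩
  let V := Fin d → ZMod p
  let A := V ≃ₗ[ZMod p] V
  let φ : A →* MulAut (Multiplicative V) :=
    { toFun := fun g => AddEquiv.toMultiplicative g.toAddEquiv
      map_one' := rfl
      map_mul' := fun _ _ => rfl }
  have : Finite A := Finite.of_injective (fun g : A => (g : V → V)) DFunLike.coe_injective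
  let G := Multiplicative V ⋊[φ] A
  have : Finite G := Finite.of_equiv _ SemidirectProduct.equivProd.symm
  let i0 : Fin d := ⟨0, by omega⟩
  let i1 : Fin d := ⟨1, by omega⟩
  have hi : i0 ≠ i1 := by simp [i0, i1]
  let v : V := Pi.single i0 1
  have hv : v ≠ 0 := by simp [v, V]
  have hw : (Pi.single i1 1 : V) ≠ 0 := by simp
  have hne : Projectivization.mk (ZMod p) v hv ≠ Projectivization.mk (ZMod p) (Pi.single i1 1 : V) hw := by
    rw [Ne, Projectivization.mk_eq_mk_iff']
    rintro ⟨a, ha⟩
    have := congrFun ha i0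
    simp [v, V, hi] at this
  have : Nontrivial (Projectivization (ZMod p) V) := ⟨_, _, hne⟩
  have h2 := Projectivization.linearEquiv_is_two_pretransitive (ZMod p) V
  have hprim : MulAction.IsPreprimitive A (Projectivization (ZMod p) V) :=
    MulAction.isPreprimitive_of_is_two_pretransitive h2
  let H0 : Subgroup A := MulAction.stabilizer A (Projectivization.mk (ZMod p) v hv)
  have hH0 : IsCoatom H0 := MulAction.IsPreprimitive.isCoatom_stabilizer_of_isPreprimitive _ _
  have htrans : ∀ x y : V, x ≠ 0 → y ≠ 0 → ∃ a : A, a x = y := by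
    intro x y hx hy
    obtain ⟨g, hg⟩ := MulAction.exists_smul_eq A (Projectivization.mk (ZMod p) x hx)
      (Projectivization.mk (ZMod p) y hy)
    rw [Projectivization.smul_mk, Projectivization.mk_eq_mk_iff] at hg
    obtain ⟨c, hc⟩ := hg
    refine ⟨g.trans (LinearEquiv.smulOfUnit c⁻¹), ?_⟩
    have h3 : g x = c • y := hc.symm
    show c⁻¹ • g x = y
    rw [h3, inv_smul_smul]
  let M : Subgroup G := (SemidirectProduct.inr : A →* G).range
  have hMmem : ∀ g : G, g ∈ M ↔ g.left = 1 := by
    intro g
    constructor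
    · rintro ⟨a, rfl⟩; rfl
    · intro h; exact ⟨g.right, SemidirectProduct.ext h.symm rfl⟩
  let K : Subgroup G := H0.comap SemidirectProduct.rightHom
  refine ⟨G, inferInstance, inferInstance, M, K ⊓ M, K, ⟨fun h => ?_, fun L hL => ?_⟩, ?_, inf_le_right,
    ?_, Subgroup.isCoatom_comap_of_surjective SemidirectProduct.rightHom_surjective hH0, inf_le_left, ?_⟩
  · have : SemidirectProduct.inl (Multiplicative.ofAdd v) ∈ M := by rw [h]; trivial
    exact hv ((hMmem _).1 this)
  · obtain ⟨g, hg, hgM⟩ := SetLike.exists_of_lt hL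
    rw [hMmem] at hgM
    have h1 : SemidirectProduct.inl g.left ∈ L := by
      have := L.mul_mem hg (L.inv_mem (hL.le ⟨g.right, rfl⟩))
      nth_rewrite 1 [← SemidirectProduct.inl_left_mul_inr_right g] at this
      rwa [mul_inv_cancel_right] at this
    have h3 : ∀ y : Multiplicative V, SemidirectProduct.inl y ∈ L := by
      intro y
      by_cases hy : y = 1
      · rw [hy, map_one]; exact L.one_mem
      · obtain ⟨a, ha⟩ := htrans g.left.toAdd y.toAdd hgM hy
        have : y = φ a g.left := ha.symm
        rw [this, SemidirectProduct.inl_aut]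
        exact L.mul_mem (L.mul_mem (hL.le ⟨a, rfl⟩) h1) (hL.le ⟨_, rfl⟩)
    rw [eq_top_iff]
    intro x _
    rw [← SemidirectProduct.inl_left_mul_inr_right x]
    exact L.mul_mem (h3 _) (hL.le ⟨_, rfl⟩)
  · have h1 := M.card_mul_index
    rw [← Nat.card_congr (MonoidHom.ofInjective SemidirectProduct.inr_injective).toEquiv,
      SemidirectProduct.card, mul_comm] at h1
    rw [Nat.eq_of_mul_eq_mul_right Nat.card_pos h1]
    simp [V]
  · have := Subgroup.isCoatom_comap_of_surjective
      (φ := (SemidirectProduct.rightHom : G →* A).comp M.subtype) (fun a => ⟨⟨_, a, rfl⟩, rfl⟩) hH0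
    rw [Subgroup.inf_subgroupOf_right]
    exact this
  · let L : Subgroup G :=
      { carrier := {g | g ∈ K ∧ g.left.toAdd ∈ Submodule.span (ZMod p) {v}}
        one_mem' := ⟨K.one_mem, Submodule.zero_mem _⟩
        mul_mem' := fun {a b} ha hb => ⟨K.mul_mem ha.1 hb.1, by
          refine Submodule.add_mem _ ha.2 ?_
          obtain ⟨c, hc⟩ := Submodule.mem_span_singleton.1 hb.2
          have h1 : a.right • Projectivization.mk (ZMod p) v hv = _ := ha.1
          rw [Projectivization.smul_mk, Projectivization.mk_eq_mk_iff'] at h1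
          obtain ⟨e, he⟩ := h1
          show a.right b.left.toAdd ∈ _
          rw [← hc, map_smul]
          exact Submodule.smul_mem _ _ (Submodule.mem_span_singleton.2 ⟨e, he⟩)⟩
        inv_mem' := fun {a} ha => ⟨K.inv_mem ha.1, by
          obtain ⟨c, hc⟩ := Submodule.mem_span_singleton.1 ha.2
          have h1 : a.right⁻¹ • Projectivization.mk (ZMod p) v hv = _ := K.inv_mem ha.1
          rw [Projectivization.smul_mk, Projectivization.mk_eq_mk_iff'] at h1
          obtain ⟨e, he⟩ := h1
          show (a.right⁻¹ : A) (-a.left.toAdd) ∈ _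
          rw [← hc, map_neg, map_smul]
          exact Submodule.neg_mem _ (Submodule.smul_mem _ _ (Submodule.mem_span_singleton.2 ⟨e, he⟩))⟩ }
    refine H99.not_isCoatom_subgroupOf_of L (fun g hg => ⟨hg.2, ?_⟩)
      ⟨SemidirectProduct.inl (Multiplicative.ofAdd v), ⟨H0.one_mem, Submodule.mem_span_singleton_self v⟩,
        H0.one_mem, fun h => hv ((hMmem _).1 h.2)⟩ fun h => ?_
    · rw [(hMmem _).1 hg.1.2]; exact Submodule.zero_mem _
    · have : SemidirectProduct.inl (Multiplicative.ofAdd (Pi.single i1 1 : V)) ∈ L := h H0.one_mem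
      obtain ⟨c, hc⟩ := Submodule.mem_span_singleton.1 this.2
      have := congrFun hc i1
      simp [v, V, hi.symm] at this

end Cfsg.Agent.S5895
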