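import Cfsg.Statements.S5896
import Cfsg.Agent.H99.SymAut
import Cfsg.Agent.H85.Swaps

set_option autoImplicit false
open Cfsg

namespace Cfsg.Agent.S5896

open RegularWreathProduct

theorem ne_bot_of_injective {A B : Type*} [Group A] [Group B] (f : A →* B) (hf : Function.Injective f)
    {d : ℕ} (h : derivedSeries A d ≠ ⊥) : derivedSeries B d ≠ ⊥ := by
  intro hB
  have := map_derivedSeries_le_derivedSeries f d
  rw [hB, le_bot_iff, Subgroup.map_eq_bot_iff_of_injective _ hf] at this
  exact h this

theorem key {D Q : Type*} [Group D] [Group Q] (N : Subgroup (D ≀ᵣ Q)) (w : D ≀ᵣ Q) (hw : w.right ≠ 1)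
    (hN : ∀ b : D ≀ᵣ Q, b * w * b⁻¹ * w⁻¹ ∈ N) {d : ℕ} (hd : derivedSeries D d ≠ ⊥) :
    derivedSeries ↥(N ⊓ (rightHom : D ≀ᵣ Q →* Q).ker) d ≠ ⊥ := by
  classical
  let π : ↥(N ⊓ (rightHom : D ≀ᵣ Q →* Q).ker) →* D :=
    { toFun := fun k => k.1.left 1
      map_one' := rfl
      map_mul' := fun a b => by
        have : a.1.right = 1 := a.2.2
        simp [this] }
  have hπ : Function.Surjective π := by
    intro x
    refine ⟨⟨_, hN ⟨Pi.mulSingle 1 x, 1⟩, by simp⟩, ?_⟩
    simp [π, Pi.mulSingle_eq_of_ne (inv_ne_one.2 hw)]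
  intro h
  apply hd
  rw [← map_derivedSeries_eq hπ, h, Subgroup.map_bot]

theorem ker_solvable {D Q : Type*} [Group D] [Group Q] [hD : Group.IsSolvable D] :
    Group.IsSolvable (rightHom : D ≀ᵣ Q →* Q).ker := by
  obtain ⟨n, hn⟩ := hD
  refine ⟨n, eq_bot_iff.2 fun k hk => ?_⟩
  rw [Subgroup.mem_bot]
  refine Subtype.ext (RegularWreathProduct.ext (funext fun q => ?_) k.2)
  let π : (rightHom : D ≀ᵣ Q →* Q).ker →* D :=
    { toFun := fun k => k.1.left q
      map_one' := rfl
      map_mul' := fun a b => by
        have : a.1.right = 1 := a.2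
        simp [this] }
  have := map_derivedSeries_le_derivedSeries π n ⟨k, hk, rfl⟩
  rw [hn, Subgroup.mem_bot] at this
  exact this

theorem map_subtype_le {W : Type*} [Group W] (d : ℕ) :
    (derivedSeries (commutator W) d).map (commutator W).subtype ≤ derivedSeries W (d + 1) := by
  induction d with
  | zero => exact Subgroup.map_subtype_le _
  | succ d ih =>
    rw [derivedSeries_succ, Subgroup.map_commutator, derivedSeries_succ W (d + 1)]
    exact Subgroup.commutator_mono ih ih

theorem exists_solvable (d : ℕ) : ∃ (X : Type) (_ : Group X) (_ : Finite X), Group.IsSolvable X ∧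
    derivedSeries X d ≠ ⊥ := by
  induction d with
  | zero => exact ⟨Multiplicative (ZMod 2), inferInstance, inferInstance, inferInstance, top_ne_bot⟩
  | succ d ih =>
    obtain ⟨X, _, _, hX, hd⟩ := ih
    let Q := Multiplicative (ZMod 2)
    refine ⟨X ≀ᵣ Q, inferInstance, inferInstance, ?_, ?_⟩
    · have := ker_solvable (D := X) (Q := Q)
      exact Group.isSolvable_of_ker_le_range (rightHom : X ≀ᵣ Q →* Q).ker.subtype rightHom (by simp)
    · obtain ⟨q, hq⟩ := exists_ne (1 : Q)
      have h1 := key (commutator (X ≀ᵣ Q)) (inl q) hq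
        (fun b => Subgroup.commutator_mem_commutator trivial trivial) hd
      have h2 := ne_bot_of_injective (Subgroup.inclusion inf_le_left) (Subgroup.inclusion_injective _) h1
      intro h
      have h3 := map_subtype_le (W := X ≀ᵣ Q) d
      rw [h, le_bot_iff, Subgroup.map_eq_bot_iff_of_injective _ (Subgroup.subtype_injective _)] at h3
      exact h2 h3

/-- Finite perfect groups have solvable maximal subgroups of unbounded derived length: for every d there is a finite perfect group G (equal to its commutator subgroup) with a solvable maximal subgroup H whose derived length exceeds d, i.e. the d-th term of the derived series of H is non-trivial. (Take the derived subgroup of a wreath product S ≀ A₅ with S solvable of large derived length, and H the preimage of a maximal subgroup of A₅.) -/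
theorem result (d : ℕ) :
    ∃ (G : Type) (_ : Group G) (_ : Finite G) (H : Subgroup G), commutator G = ⊤ ∧ IsCoatom H ∧ Group.IsSolvable H ∧
      derivedSeries H d ≠ ⊥ := by
  obtain ⟨X, _, _, hX, hXd⟩ := exists_solvable d
  let Q := alternatingGroup (Fin 5)
  have hQs : IsSimpleGroup Q := alternatingGroup.isSimpleGroup (by simp)
  have hQ : ∀ k, derivedSeries Q k = ⊤ := by
    intro k
    cases k with
    | zero => rfl
    | succ k =>
      rw [IsSimpleGroup.derivedSeries_succ]
      exact commutator_alternatingGroup_eq_top (by simp)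
  obtain ⟨k, hk⟩ := WellFoundedLT.antitone_chain_condition (derivedSeries_antitone (X ≀ᵣ Q))
  have hn := derivedSeries_normal (X ≀ᵣ Q) k
  set G := derivedSeries (X ≀ᵣ Q) k with hG
  have hsurj0 : Function.Surjective (rightHom : X ≀ᵣ Q →* Q) := fun q => ⟨inl q, fun_id q⟩
  have hsurj : Function.Surjective ((rightHom : X ≀ᵣ Q →* Q).comp G.subtype) := by
    intro q
    have : q ∈ (derivedSeries (X ≀ᵣ Q) k).map rightHom := by
      rw [map_derivedSeries_eq hsurj0, hQ]; trivial
    obtain ⟨g, hg, rfl⟩ := this
    exact ⟨⟨g, hg⟩, rfl⟩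
  let M := MulAction.stabilizer Q (0 : Fin 5)
  have hM : IsCoatom M := by
    have := alternatingGroup.isPreprimitive_of_three_le_card (Fin 5) (by simp)
    exact MulAction.IsPreprimitive.isCoatom_stabilizer_of_isPreprimitive _ _
  have hMs : Group.IsSolvable M := by
    obtain ⟨e⟩ := H99.stabilizer_equiv_perm (0 : Fin 5) (m := 4) (by simp)
    have := H85.isSolvable_perm_fin_four
    let f : M →* MulAction.stabilizer (Equiv.Perm (Fin 5)) (0 : Fin 5) :=
      (Q.subtype.comp M.subtype).codRestrict _ fun m => m.2
    have hf : Function.Injective f := fun a b h => Subtype.ext (Subtype.ext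
      (congrArg (fun x : MulAction.stabilizer (Equiv.Perm (Fin 5)) (0 : Fin 5) => x.1) h))
    exact Group.isSolvable_of_isSolvable_injective (f := e.toMonoidHom.comp f) (e.injective.comp hf)
  let H := M.comap ((rightHom : X ≀ᵣ Q →* Q).comp G.subtype)
  refine ⟨G, inferInstance, inferInstance, H, ?_, Subgroup.isCoatom_comap_of_surjective hsurj hM, ?_, ?_⟩
  · apply Subgroup.map_injective G.subtype_injective
    rw [Subgroup.map_subtype_commutator, ← MonoidHom.range_eq_map, Subgroup.range_subtype]
    exact (hk (k + 1) (by omega)).symm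
  · have := ker_solvable (D := X) (Q := Q)
    let f : H →* M := (((rightHom : X ≀ᵣ Q →* Q).comp G.subtype).comp H.subtype).codRestrict _ fun h => h.2
    have h2 : Group.IsSolvable f.ker := by
      let g : f.ker →* (rightHom : X ≀ᵣ Q →* Q).ker :=
        (G.subtype.comp (H.subtype.comp f.ker.subtype)).codRestrict _ fun h => congrArg Subtype.val h.2
      exact Group.isSolvable_of_isSolvable_injective (f := g)
        fun a b h => Subtype.ext (Subtype.ext (Subtype.ext
          (congrArg (fun x : (rightHom : X ≀ᵣ Q →* Q).ker => x.1) h)))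
    exact Group.isSolvable_of_ker_le_range f.ker.subtype f (by simp)
  · obtain ⟨q, hq⟩ := exists_ne (1 : Q)
    obtain ⟨w, rfl⟩ := hsurj q
    have h1 := key G w.1 hq (fun b => by
      exact G.mul_mem (hn.conj_mem _ w.2 b) (G.inv_mem w.2)) hXd
    let f : ↥(G ⊓ (rightHom : X ≀ᵣ Q →* Q).ker) →* H :=
      (Subgroup.inclusion inf_le_left).codRestrict _ fun g => by
        have : rightHom g.1 = 1 := g.2.2
        show rightHom g.1 ∈ M
        rw [this]; exact M.one_mem
    exact ne_bot_of_injective f
      (fun a b h => Subtype.ext (congrArg (fun x : H => x.1.1) h)) h1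

end Cfsg.Agent.S5896
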