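import Cfsg.Statements.S5902
import Cfsg.Agent.S5901

set_option autoImplicit false
open Cfsg

namespace Cfsg.Agent.S5902

/-- Let G be a finite group, X a subgroup whose own subgroup lattice is complemented, and suppose X lies in exactly one maximal subgroup M of G. Then every subgroup H of G not contained in the normal core of M has a complement in the subgroup lattice of G (some C with H ⊔ C = G and H ⊓ C = 1); in particular the subgroup lattice of G modulo the normal core of M is complemented. -/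
theorem result {G : Type*} [Group G] [Finite G] (X M : Subgroup G)
    (hK : ComplementedLattice (Subgroup X))
    (hM : IsCoatom M) (hXM : X ≤ M) (huniq : ∀ M' : Subgroup G, IsCoatom M' → X ≤ M' → M' = M) :
    (∀ H : Subgroup G, ¬ H ≤ M.normalCore → ∃ C : Subgroup G, H ⊔ C = ⊤ ∧ H ⊓ C = ⊥) ∧
    ComplementedLattice (Subgroup (G ⧸ M.normalCore)) := by
  have hXtop : X ≠ ⊤ := fun h => hM.1 (top_le_iff.1 (h ▸ hXM))
  have hint : ∀ Y : Subgroup G, ⊥ ≤ Y → Y ≤ X →
      ∃ C : Subgroup G, ⊥ ≤ C ∧ C ≤ X ∧ Y ⊔ C = X ∧ Y ⊓ C = ⊥ := by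
    intro Y _ hY
    obtain ⟨D, hD⟩ := exists_isCompl (Y.subgroupOf X)
    refine ⟨D.map X.subtype, bot_le, Subgroup.map_subtype_le D, ?_, ?_⟩
    · have h1 : Y = (Y.subgroupOf X).map X.subtype := by
        rw [Subgroup.subgroupOf_map_subtype, inf_eq_left.2 hY]
      conv_lhs => rw [h1]
      rw [← Subgroup.map_sup, hD.sup_eq_top, ← MonoidHom.range_eq_map, Subgroup.range_subtype]
    · have h1 : Y = (Y.subgroupOf X).map X.subtype := by
        rw [Subgroup.subgroupOf_map_subtype, inf_eq_left.2 hY]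
      conv_lhs => rw [h1]
      rw [← Subgroup.map_inf _ _ _ X.subtype_injective, hD.inf_eq_bot, Subgroup.map_bot]
  have h1 : ∀ H : Subgroup G, ¬ H ≤ M.normalCore → ∃ C : Subgroup G, H ⊔ C = ⊤ ∧ H ⊓ C = ⊥ := by
    intro H hH
    obtain ⟨h, hh, hhM⟩ := SetLike.not_le_iff_exists.1 hH
    have : ∃ g : G, g * h * g⁻¹ ∉ M := by
      by_contra hcon
      push Not at hcon
      exact hhM hcon
    obtain ⟨g, hg⟩ := this
    have hH' : ¬ H.map (MulAut.conj g).toMonoidHom ≤ M := fun hle => hg (hle ⟨h, hh, by simp⟩)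
    obtain ⟨C, hC1, hC2⟩ := Cfsg.Agent.S5901.result ⊥ X M bot_le hXtop hint hM hXM huniq _ hH' (by simp)
    refine ⟨C.comap (MulAut.conj g).toMonoidHom, ?_, ?_⟩
    · apply Subgroup.map_injective (f := (MulAut.conj g).toMonoidHom) (MulAut.conj g).injective
      rw [Subgroup.map_sup, Subgroup.map_comap_eq_self_of_surjective (MulAut.conj g).surjective, hC1,
        Subgroup.map_top_of_surjective _ (MulAut.conj g).surjective]
    · apply Subgroup.map_injective (f := (MulAut.conj g).toMonoidHom) (MulAut.conj g).injective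
      rw [Subgroup.map_inf _ _ _ (MulAut.conj g).injective,
        Subgroup.map_comap_eq_self_of_surjective (MulAut.conj g).surjective, hC2, Subgroup.map_bot]
  refine ⟨h1, ⟨fun K => ?_⟩⟩
  by_cases hK0 : K = ⊥
  · exact ⟨⊤, hK0 ▸ isCompl_bot_top⟩
  · have hs := QuotientGroup.mk'_surjective M.normalCore
    have : ¬ K.comap (QuotientGroup.mk' M.normalCore) ≤ M.normalCore := by
      intro hle
      apply hK0
      rw [eq_bot_iff]
      intro k hk
      obtain ⟨k, rfl⟩ := hs k
      exact (QuotientGroup.eq_one_iff k).2 (hle hk)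
    obtain ⟨C, hC1, hC2⟩ := h1 _ this
    refine ⟨C.map (QuotientGroup.mk' M.normalCore), ?_, ?_⟩
    · rw [disjoint_iff, eq_bot_iff]
      rintro x ⟨hx, c, hc, rfl⟩
      have : c ∈ K.comap (QuotientGroup.mk' M.normalCore) ⊓ C := ⟨hx, hc⟩
      rw [hC2, Subgroup.mem_bot] at this
      rw [this, map_one]; exact Subgroup.one_mem _
    · rw [codisjoint_iff, ← Subgroup.map_comap_eq_self_of_surjective hs K, ← Subgroup.map_sup, hC1,
        Subgroup.map_top_of_surjective _ hs]

end Cfsg.Agent.S5902
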