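import Cfsg.Statements.S5903
import Cfsg.Agent.S5901

set_option autoImplicit false
open Cfsg

namespace Cfsg.Agent.S5903

/-- Let G be a finite simple group, X a subgroup lying in exactly one maximal subgroup M of G, and N a subgroup of prime order with N ≤ X that is central in M. If the subgroup lattice of X/N is complemented, then the subgroup lattice of G is complemented. -/
theorem result {G : Type*} [Group G] [Finite G] [IsSimpleGroup G] (X M N : Subgroup G)
    (hM : IsCoatom M) (hXM : X ≤ M) (huniq : ∀ M' : Subgroup G, IsCoatom M' → X ≤ M' → M' = M)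
    (hNX : N ≤ X) (hN : (Nat.card N).Prime) (hcen : ∀ n ∈ N, ∀ m ∈ M, m * n = n * m)
    [(N.subgroupOf X).Normal] (hK : ComplementedLattice (Subgroup (X ⧸ N.subgroupOf X))) :
    ComplementedLattice (Subgroup G) := by
  have hXtop : X ≠ ⊤ := fun h => hM.1 (top_le_iff.1 (h ▸ hXM))
  have hs := QuotientGroup.mk'_surjective (N.subgroupOf X)
  have hint : ∀ Y : Subgroup G, N ≤ Y → Y ≤ X →
      ∃ C : Subgroup G, N ≤ C ∧ C ≤ X ∧ Y ⊔ C = X ∧ Y ⊓ C = N := by
    intro Y hNY hY
    obtain ⟨D, hD⟩ := exists_isCompl ((Y.subgroupOf X).map (QuotientGroup.mk' (N.subgroupOf X)))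
    have h1 : Y = (Y.subgroupOf X).map X.subtype := by
      rw [Subgroup.subgroupOf_map_subtype, inf_eq_left.2 hY]
    have h2 : ((Y.subgroupOf X).map (QuotientGroup.mk' (N.subgroupOf X))).comap
        (QuotientGroup.mk' (N.subgroupOf X)) = Y.subgroupOf X := by
      rw [Subgroup.comap_map_eq, QuotientGroup.ker_mk', sup_eq_left]
      exact Subgroup.subgroupOf_mono X hNY
    refine ⟨(D.comap (QuotientGroup.mk' (N.subgroupOf X))).map X.subtype, ?_,
      Subgroup.map_subtype_le _, ?_, ?_⟩
    · intro n hn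
      refine ⟨⟨n, hNX hn⟩, ?_, rfl⟩
      have : QuotientGroup.mk' (N.subgroupOf X) ⟨n, hNX hn⟩ = 1 := (QuotientGroup.eq_one_iff _).2 hn
      simp only [SetLike.mem_coe, Subgroup.mem_comap]
      rw [this]; exact D.one_mem
    · conv_lhs => rw [h1]
      rw [← Subgroup.map_sup, ← h2, Subgroup.comap_sup_eq _ _ _ hs, hD.sup_eq_top, Subgroup.comap_top,
        ← MonoidHom.range_eq_map, Subgroup.range_subtype]
    · conv_lhs => rw [h1]
      rw [← Subgroup.map_inf _ _ _ X.subtype_injective, ← h2, ← Subgroup.comap_inf, hD.inf_eq_bot,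
        MonoidHom.comap_bot, QuotientGroup.ker_mk', Subgroup.subgroupOf_map_subtype, inf_eq_left.2 hNX]
  refine ⟨fun H => ?_⟩
  by_cases hH0 : H = ⊥
  · exact ⟨⊤, hH0 ▸ isCompl_bot_top⟩
  by_cases hH1 : H = ⊤
  · exact ⟨⊥, hH1 ▸ isCompl_top_bot⟩
  have hN0 : N ≠ ⊥ := by
    intro h
    rw [h, Subgroup.card_bot] at hN
    exact Nat.not_prime_one hN
  by_cases hex : ∃ g : G, ¬ H.map (MulAut.conj g).toMonoidHom ≤ M ∧
      H.map (MulAut.conj g).toMonoidHom ⊓ N = ⊥
  · obtain ⟨g, hg1, hg2⟩ := hex
    obtain ⟨C, hC1, hC2⟩ := Cfsg.Agent.S5901.result N X M hNX hXtop hint hM hXM huniq _ hg1 hg2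
    refine ⟨C.comap (MulAut.conj g).toMonoidHom, ?_, ?_⟩
    · rw [disjoint_iff]
      apply Subgroup.map_injective (f := (MulAut.conj g).toMonoidHom) (MulAut.conj g).injective
      rw [Subgroup.map_inf _ _ _ (MulAut.conj g).injective,
        Subgroup.map_comap_eq_self_of_surjective (MulAut.conj g).surjective, hC2, Subgroup.map_bot]
    · rw [codisjoint_iff]
      apply Subgroup.map_injective (f := (MulAut.conj g).toMonoidHom) (MulAut.conj g).injective
      rw [Subgroup.map_sup, Subgroup.map_comap_eq_self_of_surjective (MulAut.conj g).surjective, hC1,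
        Subgroup.map_top_of_surjective _ (MulAut.conj g).surjective]
  · exfalso
    push Not at hex
    haveI : Fact (Nat.card N).Prime := ⟨hN⟩
    -- every conjugate of `N` lies in `H` or centralises `H`
    have dich : ∀ g : G, (∀ n ∈ N, g⁻¹ * n * g ∈ H) ∨
        (∀ n ∈ N, ∀ h ∈ H, h * (g⁻¹ * n * g) = (g⁻¹ * n * g) * h) := by
      intro g
      by_cases hle : H.map (MulAut.conj g).toMonoidHom ≤ M
      · right
        intro n hn h hh
        have := hcen n hn (g * h * g⁻¹) (hle ⟨h, hh, by simp⟩)
        calc h * (g⁻¹ * n * g) = g⁻¹ * (g * h * g⁻¹ * n) * g := by group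
          _ = g⁻¹ * (n * (g * h * g⁻¹)) * g := by rw [this]
          _ = _ := by group
      · left
        have h1 := hex g hle
        rcases ((H.map (MulAut.conj g).toMonoidHom).subgroupOf N).eq_bot_or_eq_top_of_prime_card with h | h
        · exfalso
          apply h1
          rw [eq_bot_iff]
          rintro x ⟨hx1, hx2⟩
          have : (⟨x, hx2⟩ : N) ∈ (H.map (MulAut.conj g).toMonoidHom).subgroupOf N := hx1
          rw [h, Subgroup.mem_bot] at this
          exact congrArg Subtype.val this
        · intro n hn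
          have : (⟨n, hn⟩ : N) ∈ (H.map (MulAut.conj g).toMonoidHom).subgroupOf N := by rw [h]; trivial
          obtain ⟨y, hy, hy2⟩ := this
          have hy3 : g * y * g⁻¹ = n := by simpa using hy2
          rw [← hy3]
          simpa [mul_assoc] using hy
    have hnc : Subgroup.normalClosure (N : Set G) = ⊤ := by
      rcases (inferInstance : (Subgroup.normalClosure (N : Set G)).Normal).eq_bot_or_eq_top with h | h
      · exact absurd (eq_bot_iff.2 (h ▸ Subgroup.le_normalClosure)) hN0
      · exact h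
    have hconj : ∀ x ∈ Group.conjugatesOfSet (N : Set G), ∃ g : G, ∃ n ∈ N, x = g⁻¹ * n * g := by
      intro x hx
      obtain ⟨n, hn, hc⟩ := Group.mem_conjugatesOfSet_iff.1 hx
      obtain ⟨g, hg⟩ := isConj_iff.1 hc
      exact ⟨g⁻¹, n, hn, by simp [hg]⟩
    let L : Subgroup G := Subgroup.closure (Group.conjugatesOfSet (N : Set G) ∩ H)
    have hLH : L ≤ H := (Subgroup.closure_le _).2 Set.inter_subset_right
    have hLn : L.Normal := by
      rw [← Subgroup.normalizer_eq_top_iff, eq_top_iff, ← hnc]
      refine (Subgroup.closure_le _).2 fun x hx => ?_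
      have : ∀ y ∈ L, x * y * x⁻¹ ∈ L := by
        intro y hy
        obtain ⟨g, n, hn, rfl⟩ := hconj x hx
        rcases dich g with h | h
        · have hxL : g⁻¹ * n * g ∈ L := Subgroup.subset_closure ⟨hx, h n hn⟩
          exact L.mul_mem (L.mul_mem hxL hy) (L.inv_mem hxL)
        · rw [← h n hn y (hLH hy)]
          rwa [mul_inv_cancel_right]
      exact Subgroup.mem_normalizer_fintype this
    have hL0 : L = ⊥ := by
      rcases hLn.eq_bot_or_eq_top with h | h
      · exact h
      · exact absurd (top_le_iff.1 (h ▸ hLH)) hH1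
    obtain ⟨n, hn, hn1⟩ := (Subgroup.bot_or_exists_ne_one N).resolve_left hN0
    have hcent : Subgroup.centralizer (H : Set G) = ⊤ := by
      rw [eq_top_iff, ← hnc]
      refine (Subgroup.closure_le _).2 fun x hx => ?_
      obtain ⟨g, m, hm, rfl⟩ := hconj x hx
      rcases dich g with h | h
      · exfalso
        have : g⁻¹ * n * g ∈ L := Subgroup.subset_closure
          ⟨Group.mem_conjugatesOfSet_iff.2 ⟨n, hn, isConj_iff.2 ⟨g⁻¹, by simp⟩⟩, h n hn⟩
        rw [hL0, Subgroup.mem_bot] at this
        apply hn1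
        calc n = g * (g⁻¹ * n * g) * g⁻¹ := by group
          _ = 1 := by rw [this]; simp
      · exact fun y hy => h m hm y hy
    have hHn : H.Normal := ⟨fun h hh g => by
      have : g ∈ Subgroup.centralizer (H : Set G) := by rw [hcent]; trivial
      rw [← this h hh]; simpa using hh⟩
    rcases hHn.eq_bot_or_eq_top with h | h
    · exact hH0 h
    · exact hH1 h

end Cfsg.Agent.S5903
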