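import Cfsg.Statements.S5904

set_option autoImplicit false
open scoped Pointwise
open Cfsg

namespace Cfsg.Agent.S5904

/-- Let Ω be a finite set with more than two elements and O ⊆ Ω a subset with exactly as many elements as its complement. Then the setwise stabilizer of O in the symmetric group on Ω is not a maximal subgroup (it is properly contained in the stabilizer of the partition {O, Ω ∖ O}, which is proper). -/
theorem result {Ω : Type*} [Fintype Ω] [DecidableEq Ω] (hΩ : 2 < Fintype.card Ω)
    (O : Set Ω) (hO : Nat.card O = Nat.card ↥Oᶜ) :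
    ¬ IsCoatom (MulAction.stabilizer (Equiv.Perm Ω) O) := by
  classical
  intro hco
  let K : Subgroup (Equiv.Perm Ω) :=
    { carrier := {g | (∀ x, g x ∈ O ↔ x ∈ O) ∨ (∀ x, g x ∈ O ↔ x ∉ O)}
      mul_mem' := by
        rintro a b (ha | ha) (hb | hb)
        · left; intro x; rw [Equiv.Perm.mul_apply, ha, hb]
        · right; intro x; rw [Equiv.Perm.mul_apply, ha, hb]
        · right; intro x; rw [Equiv.Perm.mul_apply, ha, hb]
        · left; intro x; rw [Equiv.Perm.mul_apply, ha, hb, not_not]
      one_mem' := Or.inl fun x => Iff.rfl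
      inv_mem' := by
        rintro a (ha | ha)
        · left; intro x; rw [← ha]; simp
        · right; intro x
          have := ha (a⁻¹ x)
          simp only [Equiv.Perm.coe_inv, Equiv.apply_symm_apply] at this
          simp only [Equiv.Perm.coe_inv]
          tauto }
  have hsum : Nat.card O + Nat.card ↥Oᶜ = Fintype.card Ω := by
    rw [Nat.card_coe_set_eq, Nat.card_coe_set_eq, Set.ncard_add_ncard_compl, Nat.card_eq_fintype_card]
  have h2 : 1 < Nat.card O := by omega
  have h2' : 0 < Nat.card ↥Oᶜ := by omega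
  obtain ⟨⟨a, ha⟩, ⟨b, hb⟩, hab⟩ := (Finite.one_lt_card_iff_nontrivial.1 h2).exists_pair_ne
  have hab' : a ≠ b := fun h => hab (Subtype.ext h)
  obtain ⟨⟨c, hc⟩⟩ := (Nat.card_pos_iff.1 h2').1
  obtain ⟨e⟩ := Finite.card_eq.1 hO
  have hle : MulAction.stabilizer (Equiv.Perm Ω) O ≤ K := by
    intro g hg
    left
    intro x
    have := MulAction.mem_stabilizer_set.1 hg x
    simpa using this
  let g : Equiv.Perm Ω := (Equiv.Set.sumCompl O).symm.trans
    ((Equiv.sumCongr e e.symm).trans ((Equiv.sumComm _ _).trans (Equiv.Set.sumCompl O)))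
  have hg : ∀ x, g x ∈ O ↔ x ∉ O := by
    intro x
    by_cases hx : x ∈ O
    · have : g x = e ⟨x, hx⟩ := by
        simp [g, Equiv.Set.sumCompl_symm_apply_of_mem hx]
      rw [this]
      have h3 : (e ⟨x, hx⟩ : Ω) ∉ O := (e ⟨x, hx⟩).2
      simp [hx, h3]
    · have : g x = e.symm ⟨x, hx⟩ := by
        simp [g, Equiv.Set.sumCompl_symm_apply_of_notMem hx]
      rw [this]
      simp [hx]
  have hlt : MulAction.stabilizer (Equiv.Perm Ω) O < K := by
    refine lt_of_le_of_ne hle fun h => ?_
    have : g ∈ MulAction.stabilizer (Equiv.Perm Ω) O := by rw [h]; exact Or.inr hg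
    have := MulAction.mem_stabilizer_set.1 this a
    simp only [Equiv.Perm.smul_def] at this
    rw [hg] at this
    tauto
  have htop := hco.2 K hlt
  have : Equiv.swap a c ∈ K := by rw [htop]; trivial
  rcases this with h | h
  · have := h a
    rw [Equiv.swap_apply_left] at this
    exact hc (this.2 ha)
  · have := h b
    rw [Equiv.swap_apply_of_ne_of_ne hab'.symm (fun h : b = c => hc (h ▸ hb))] at this
    tauto

end Cfsg.Agent.S5904
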