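import Cfsg.Statements.S5908
import Cfsg.Agent.S0827

set_option autoImplicit false
open Cfsg

namespace Cfsg.Agent.S5908

/-- The subgroup lattice of PSU₃(2) (the solvable group of order 72, realised over the field with 4 elements) is not complemented: some subgroup H has no subgroup X with H ⊔ X = ⊤ and H ⊓ X = ⊥. -/
theorem result {F : Type*} [Field F] [Fintype F] (hF : Fintype.card F = 4) :
    ¬ ComplementedLattice (Subgroup (Cfsg.PSU 3 F 2)) := by

  intro h
  obtain ⟨N, _, -, -, ⟨e⟩⟩ := S0827.result hF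
  let ψ : Cfsg.PSU 3 F 2 →* QuaternionGroup 2 := e.toMonoidHom.comp (QuotientGroup.mk' N)
  have hψ : Function.Surjective ψ := e.surjective.comp (QuotientGroup.mk'_surjective N)
  let Z : Subgroup (QuaternionGroup 2) := Subgroup.zpowers (QuaternionGroup.a 2)
  obtain ⟨X, hX⟩ := h.exists_isCompl (Z.comap ψ)
  have hz : ∀ y : QuaternionGroup 2, y * y = 1 ∨ y * y = QuaternionGroup.a 2 := by decide
  have hz2 : ∀ y : QuaternionGroup 2, y * y = 1 → y = 1 ∨ y = QuaternionGroup.a 2 := by decide
  have h1 : X ≤ Z.comap ψ := by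
    intro x hx
    have hxx : x * x ∈ Z.comap ψ := by
      rw [Subgroup.mem_comap, map_mul]
      rcases hz (ψ x) with h | h <;> rw [h]
      · exact Z.one_mem
      · exact Subgroup.mem_zpowers _
    have h0 : x * x = 1 := by
      have : x * x ∈ Z.comap ψ ⊓ X := ⟨hxx, X.mul_mem hx hx⟩
      rw [hX.inf_eq_bot] at this
      exact this
    rw [Subgroup.mem_comap]
    rcases hz2 (ψ x) (by rw [← map_mul, h0, map_one]) with h | h <;> rw [h]
    · exact Z.one_mem
    · exact Subgroup.mem_zpowers _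
  have h2 : Z.comap ψ = ⊤ := by
    rw [← hX.sup_eq_top, sup_eq_left.2 h1]
  obtain ⟨x, hx⟩ := hψ (QuaternionGroup.a 1)
  have h3 : x ∈ Z.comap ψ := h2 ▸ Subgroup.mem_top x
  rw [Subgroup.mem_comap, hx] at h3
  have h4 : ∀ y ∈ Z, y * y = 1 := by
    intro y hy
    obtain ⟨k, rfl⟩ := Subgroup.mem_zpowers_iff.1 hy
    rw [← (Commute.refl _).mul_zpow, show (QuaternionGroup.a 2 * QuaternionGroup.a 2 : QuaternionGroup 2) = 1 by decide, one_zpow]
  exact absurd (h4 _ h3) (by decide)

end Cfsg.Agent.S5908
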