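import Cfsg.Statements.S5909
import Cfsg.Agent.H99.Wreath

set_option autoImplicit false
open Cfsg

namespace Cfsg.Agent.S5909

open Equiv

theorem small2 : ∀ (i : Fin 3) (j : Fin 2),
    ((swap ((0 : Fin 3), (0 : Fin 2)) (1, 0)) ((swap ((0 : Fin 3), (1 : Fin 2)) (1, 1)) (i, j))).1 =
      (swap 0 1) i := by decide

set_option synthInstance.maxSize 2000 in
theorem small : ∀ g : Perm (Fin 2 × Fin 2), Perm.sign g = 1 →
    ¬ (∀ x y, x.1 = y.1 ↔ (g x).1 = (g y).1) → ∀ k : Perm (Fin 2 × Fin 2), Perm.sign k = 1 →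
    ∃ h : Perm (Fin 2 × Fin 2), Perm.sign h = 1 ∧ (∀ x y, x.1 = y.1 ↔ (h x).1 = (h y).1) ∧
      (k = h ∨ k = h * g ∨ k = h * g * g) := by
  decide +kernel

/-- Let Ω be a finite set whose size is not 8, and f : Ω → Fin b a labelling with b ≥ 2 whose fibres all have the same size a ≥ 2 (a partition into b blocks of size a). Then the even permutations preserving the partition — the intersection of the imprimitive wreath product S_a ≀ S_b with the alternating group — form a maximal subgroup of the alternating group on Ω. -/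
theorem result {Ω : Type*} [Fintype Ω] [DecidableEq Ω] (h8 : Fintype.card Ω ≠ 8) (a b : ℕ) (ha : 2 ≤ a) (hb : 2 ≤ b)
    (f : Ω → Fin b) (hf : ∀ i : Fin b, Nat.card {x : Ω // f x = i} = a) :
    IsCoatom ((Subgroup.closure {g : Equiv.Perm Ω | ∀ x y : Ω, f x = f y ↔ f (g x) = f (g y)} ⊓ alternatingGroup Ω).subgroupOf (alternatingGroup Ω)) := by
  rw [H99.closure_partStab]
  obtain ⟨e, he⟩ := H99.exists_equiv_prod f hf
  have hs : ∀ i j, f (e.symm (i, j)) = i := fun i j => by rw [← he]; simp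
  have hcard : Fintype.card Ω = b * a := by rw [Fintype.card_congr e]; simp
  let i0 : Fin b := ⟨0, by omega⟩
  let i1 : Fin b := ⟨1, by omega⟩
  let j0 : Fin a := ⟨0, by omega⟩
  let j1 : Fin a := ⟨1, by omega⟩
  have hi : i0 ≠ i1 := by simp [i0, i1]
  have hj : j0 ≠ j1 := by simp [j0, j1]
  have hev : ∀ {u v w z : Ω}, u ≠ v → w ≠ z → swap u v * swap w z ∈ alternatingGroup Ω :=
    fun h1 h2 => Perm.mul_mem_alternatingGroup_of_isSwap ⟨_, _, h1, rfl⟩ ⟨_, _, h2, rfl⟩
  apply H99.isCoatom_subgroupOf_of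
  · intro h
    have h1 : swap (e.symm (i0, j0)) (e.symm (i0, j1)) * swap (e.symm (i0, j0)) (e.symm (i1, j0)) ∈
      H99.partStab f := (h (hev (by simpa using hj) (by simp [hi]))).1
    have := (h1 (e.symm (i0, j0)) (e.symm (i0, j1))).1 (by rw [hs, hs])
    rw [Perm.mul_apply, Perm.mul_apply, swap_apply_left,
      swap_apply_of_ne_of_ne (x := e.symm (i1, j0)) (by simp [hi.symm]) (by simp [hi.symm]),
      swap_apply_of_ne_of_ne (x := e.symm (i0, j1)) (by simpa using hj.symm) (by simp [hi]),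
      swap_apply_right, hs, hs] at this
    exact hi this.symm
  intro L hL hLA g hg hgf
  rw [inf_assoc, inf_idem] at hL
  have hgf' : g ∉ H99.partStab f := fun h => hgf ⟨h, hLA hg⟩
  by_cases h4 : 3 ≤ a ∨ 3 ≤ b
  swap
  · obtain rfl : a = 2 := by omega
    obtain rfl : b = 2 := by omega
    intro k hk
    obtain ⟨h, h1, h2, h3⟩ := small (e.permCongr g) (by simpa using hLA hg) (by
      intro h
      apply hgf'
      intro x y
      have := h (e x) (e y)
      simpa [he] using this) (e.permCongr k) (by simpa using hk)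
    have hh : e.symm.permCongr h ∈ L := by
      refine hL ⟨fun x y => ?_, by simpa using h1⟩
      have := h2 (e x) (e y)
      rw [he, he] at this
      rw [this, ← he, ← he]
      simp
    have e1 : ∀ t : Perm Ω, e.symm.permCongr (e.permCongr t) = t := fun t => by ext; simp
    have e2 : ∀ s t : Perm (Fin 2 × Fin 2), e.symm.permCongr (s * t) =
      e.symm.permCongr s * e.symm.permCongr t := fun s t => by ext; simp
    rw [← e1 k]
    rcases h3 with h3 | h3 | h3 <;> rw [h3]
    · exact hh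
    · rw [e2, e1]; exact mul_mem hh hg
    · rw [e2, e2, e1]; exact mul_mem (mul_mem hh hg) hg
  have h2 := H99.two_trans_of_not_partStab (f := f) L (fun x y x' y' h1 h2 h3 => by
      obtain ⟨g, hg, h⟩ := H99.exists_partStab_pair_even e he ha hb h4 h1 h2 h3
      exact ⟨g, hL hg, h⟩) hg hgf'
  suffices ∃ c ∈ L, c.IsThreeCycle by
    obtain ⟨c, hc, hc3⟩ := this
    exact Perm.alternatingGroup_le_of_isPreprimitive_of_isThreeCycle_mem
      (H99.isPreprimitive_of_two_trans L h2) hc3 hc
  have hdbl : ∀ {u v w z : Ω}, u ≠ v → w ≠ z → f u = f v → f w = f z → swap u v * swap w z ∈ L :=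
    fun h1 h2 h3 h4 => hL ⟨mul_mem (H99.swap_mem_partStab h3) (H99.swap_mem_partStab h4), hev h1 h2⟩
  by_cases ha3 : 3 ≤ a
  · let j2 : Fin a := ⟨2, by omega⟩
    refine ⟨swap (e.symm (i0, j0)) (e.symm (i0, j1)) * swap (e.symm (i0, j0)) (e.symm (i0, j2)),
      hdbl (by simpa using hj) (by simp [j0, j2]) (by rw [hs, hs]) (by rw [hs, hs]),
      Perm.isThreeCycle_swap_mul_swap_same (by simpa using hj) (by simp [j0, j2]) (by simp [j1, j2])⟩
  obtain rfl : a = 2 := by omega
  have hb3 : 3 ≤ b := by omega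
  set u := e.symm (i0, j0) with hu
  set u' := e.symm (i0, j1) with hu'
  set v := e.symm (i1, j0) with hv
  set v' := e.symm (i1, j1) with hv'
  have huu' : u ≠ u' := by simpa [hu, hu'] using hj
  have huv : u ≠ v := by simp [hu, hv, hi]
  have hu'v : u' ≠ v := by simp [hu', hv, hi]
  have hu'v' : u' ≠ v' := by simp [hu', hv', hi]
  have huv' : u ≠ v' := by simp [hu, hv', hi]
  have hvv' : v ≠ v' := by simpa [hv, hv'] using hj
  obtain ⟨k, hk, hk1, hk2⟩ := h2 u u' u v huu' huv
  have hconj : ∀ i : Fin b, swap u v * swap (k (e.symm (i, j0))) (k (e.symm (i, j1))) ∈ L := by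
    intro i
    have := mul_mem (mul_mem hk (hdbl (w := e.symm (i, j0)) (z := e.symm (i, j1)) huu'
      (by simpa using hj) (by rw [hu, hu', hs, hs]) (by rw [hs, hs]))) (inv_mem hk)
    have e1 : k * (swap u u' * swap (e.symm (i, j0)) (e.symm (i, j1))) * k⁻¹ =
        (k * swap u u' * k⁻¹) * (k * swap (e.symm (i, j0)) (e.symm (i, j1)) * k⁻¹) := by group
    rwa [e1, ← swap_apply_apply, ← swap_apply_apply, hk1, hk2] at this
  have hblock : ∀ x : Ω, x = e.symm (f x, j0) ∨ x = e.symm (f x, j1) := by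
    intro x
    have : (e x).2 = j0 ∨ (e x).2 = j1 := by
      simp only [Fin.ext_iff, j0, j1]; omega
    rcases this with h | h
    · left; rw [← h, ← he]; simp
    · right; rw [← h, ← he]; simp
  have hcomm : ∀ {a b c d : Ω}, a ≠ c → a ≠ d → b ≠ c → b ≠ d →
      swap a b * swap c d = swap c d * swap a b := by
    intro a b c d h1 h2 h3 h4
    have := swap_apply_apply (swap a b) c d
    rw [swap_apply_of_ne_of_ne h1.symm h3.symm, swap_apply_of_ne_of_ne h2.symm h4.symm] at this
    conv_rhs => rw [this]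
    simp
  by_cases hb5 : 5 ≤ b
  · obtain ⟨j, hj1, hj2⟩ : ∃ j : Fin b, j ≠ i0 ∧ j ≠ f (k⁻¹ u') := by
      by_cases h : (f (k⁻¹ u') : ℕ) = 1
      · exact ⟨⟨2, by omega⟩, by simp [i0], by simp only [ne_eq, Fin.ext_iff]; omega⟩
      · exact ⟨i1, hi.symm, by simp only [ne_eq, Fin.ext_iff, i1]; omega⟩
    set w := k (e.symm (j, j0)) with hw
    set z := k (e.symm (j, j1)) with hz
    obtain ⟨m, hm0, hm1, hm2, hm3⟩ : ∃ m : Fin b, m ≠ i0 ∧ m ≠ i1 ∧ m ≠ f w ∧ m ≠ f z := by
      by_contra hcon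
      push Not at hcon
      have h2 := hcon ⟨2, by omega⟩ (by simp [i0]) (by simp [i1])
      have h3 := hcon ⟨3, by omega⟩ (by simp [i0]) (by simp [i1])
      have h4 := hcon ⟨4, by omega⟩ (by simp [i0]) (by simp [i1])
      simp only [Fin.ext_iff, ne_eq] at h2 h3 h4
      omega
    set y := e.symm (m, j0) with hy
    set y' := e.symm (m, j1) with hy'
    have hne : ∀ t : Fin 2, k (e.symm (j, t)) ≠ u ∧ k (e.symm (j, t)) ≠ u' := by
      intro t
      constructor
      · intro h
        rw [← hk1, k.injective.eq_iff, hu] at h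
        exact hj1 (by simpa using congrArg (fun x => (e x).1) h)
      · intro h
        apply hj2
        rw [← h]; simp [hs]
    have hney : ∀ (t : Fin 2) (x : Ω), m ≠ f x → e.symm (m, t) ≠ x := fun t x h1 h2 => h1 (by rw [← h2, hs])
    have hfu : f u = i0 := hs _ _
    have hfv : f v = i1 := hs _ _
    have hs1 := hconj j
    have ht := hdbl (w := y) (z := y') huu' (by simpa [hy, hy'] using hj) (by rw [hu, hu', hs, hs])
      (by rw [hy, hy', hs, hs])
    have := mul_mem (mul_mem (mul_mem hs1 ht) (inv_mem hs1)) (inv_mem ht)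
    have e1 : ∀ s : Perm Ω, s * (swap u u' * swap y y') * s⁻¹ = swap (s u) (s u') * swap (s y) (s y') := by
      intro s
      rw [swap_apply_apply, swap_apply_apply]; group
    rw [e1] at this
    simp only [Perm.mul_apply] at this
    rw [swap_apply_of_ne_of_ne (hne j0).1.symm (hne j1).1.symm, swap_apply_left,
      swap_apply_of_ne_of_ne (hne j0).2.symm (hne j1).2.symm,
      swap_apply_of_ne_of_ne huu'.symm hu'v,
      swap_apply_of_ne_of_ne (hney j0 _ hm2) (hney j0 _ hm3),
      swap_apply_of_ne_of_ne (hney j0 _ (hfu ▸ hm0)) (hney j0 _ (hfv ▸ hm1)),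
      swap_apply_of_ne_of_ne (hney j1 _ hm2) (hney j1 _ hm3),
      swap_apply_of_ne_of_ne (hney j1 _ (hfu ▸ hm0)) (hney j1 _ (hfv ▸ hm1))] at this
    refine ⟨_, this, ?_⟩
    have e2 : swap v u' * swap y y' * (swap u u' * swap y y')⁻¹ = swap u' v * swap u' u := by
      rw [swap_comm u' v, swap_comm u' u]
      simp [mul_assoc]
    rw [e2]
    exact Perm.isThreeCycle_swap_mul_swap_same hu'v huu'.symm huv.symm
  obtain rfl : b = 3 := by omega
  -- the partner of `u'` in the image matching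
  obtain ⟨w, hw1, hw2, hw3⟩ : ∃ w, u' ≠ w ∧ swap u v * swap u' w ∈ L ∧ f (k⁻¹ w) = f (k⁻¹ u') := by
    have h0 := hconj (f (k⁻¹ u'))
    rcases hblock (k⁻¹ u') with h | h
    · refine ⟨k (e.symm (f (k⁻¹ u'), j1)), ?_, ?_, by simp [hs]⟩
      · intro h3
        have : k⁻¹ u' = e.symm (f (k⁻¹ u'), j1) := by rw [Perm.inv_eq_iff_eq]; exact h3
        rw [h] at this
        simp [hs, hj] at this
      · rw [← h] at h0; simpa using h0
    · refine ⟨k (e.symm (f (k⁻¹ u'), j0)), ?_, ?_, by simp [hs]⟩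
      · intro h3
        have : k⁻¹ u' = e.symm (f (k⁻¹ u'), j0) := by rw [Perm.inv_eq_iff_eq]; exact h3
        rw [h] at this
        simp [hs, hj.symm] at this
      · rw [← h, swap_comm (k _)] at h0; simpa using h0
  by_cases hwv : w = v'
  · let i2 : Fin 3 := 2
    set y := e.symm (i2, j0) with hy
    set y' := e.symm (i2, j1) with hy'
    have hyy : y ≠ y' := by simpa [hy, hy'] using hj
    have hA : ∀ t : Fin 2, f (k⁻¹ (e.symm (i2, t))) ≠ i0 := by
      intro t h
      rcases hblock (k⁻¹ (e.symm (i2, t))) with h1 | h1 <;> rw [h, Perm.inv_eq_iff_eq] at h1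
      · rw [← hu, hk1, hu] at h1; simp [i2, i0] at h1
      · rw [← hu', hk2, hv] at h1; simp [i2, i1] at h1
    have hB0 : f (k⁻¹ u') ≠ i0 := by
      intro h
      rcases hblock (k⁻¹ u') with h1 | h1 <;> rw [h, Perm.inv_eq_iff_eq] at h1
      · rw [← hu, hk1] at h1; exact huu' h1.symm
      · rw [← hu', hk2] at h1; exact hu'v h1
    have hB : ∀ t : Fin 2, f (k⁻¹ (e.symm (i2, t))) ≠ f (k⁻¹ u') := by
      intro t h
      have h1 := hblock (k⁻¹ (e.symm (i2, t)))
      have h2 := hblock (k⁻¹ u')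
      have h3 := hblock (k⁻¹ w)
      rw [h] at h1
      rw [hw3] at h3
      have n1 : k⁻¹ (e.symm (i2, t)) ≠ k⁻¹ u' := by simp [hu', i2, i0]
      have n2 : k⁻¹ (e.symm (i2, t)) ≠ k⁻¹ w := by simp [hwv, hv', i2, i1]
      have n3 : k⁻¹ u' ≠ k⁻¹ w := by simpa using hw1
      grind
    have hC : f (k⁻¹ y) = f (k⁻¹ y') := by
      have a0 := hA j0
      have a1 := hA j1
      have b0 := hB j0
      have b1 := hB j1
      rw [hy, hy']
      simp only [ne_eq, Fin.ext_iff, i0] at a0 a1 b0 b1 hB0 ⊢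
      omega
    have h5 := mul_mem (mul_mem hk (hdbl (w := k⁻¹ y) (z := k⁻¹ y') huu'
      (by simpa using hyy) (by rw [hu, hu', hs, hs]) hC)) (inv_mem hk)
    have e1 : k * (swap u u' * swap (k⁻¹ y) (k⁻¹ y')) * k⁻¹ =
        (k * swap u u' * k⁻¹) * (k * swap (k⁻¹ y) (k⁻¹ y') * k⁻¹) := by group
    rw [e1, ← swap_apply_apply, ← swap_apply_apply, hk1, hk2] at h5
    simp only [Perm.coe_inv, apply_symm_apply] at h5
    have ht := hdbl (w := y) (z := y') huu' hyy (by rw [hu, hu', hs, hs]) (by rw [hy, hy', hs, hs])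
    refine ⟨_, mul_mem h5 (inv_mem ht), ?_⟩
    have e2 : swap u v * swap y y' * (swap u u' * swap y y')⁻¹ = swap u v * swap u u' := by
      simp [mul_assoc]
    rw [e2]
    exact Perm.isThreeCycle_swap_mul_swap_same huv huu' hu'v.symm
  · have hh : swap u v * swap u' v' ∈ L := by
      refine hL ⟨?_, hev huv hu'v'⟩
      have : ∀ x, f ((swap u v * swap u' v') x) = swap i0 i1 (f x) := by
        intro x
        obtain ⟨⟨i, j⟩, rfl⟩ := e.symm.surjective x
        rw [hu, hv, hu', hv', ← he, ← he]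
        have e3 : ∀ s t : Fin 3 × Fin 2, ∀ x, e (swap (e.symm s) (e.symm t) x) = swap s t (e x) := by
          intro s t x
          rw [Function.Injective.map_swap e.injective]; simp
        rw [Perm.mul_apply, e3, e3]
        simp only [apply_symm_apply]
        exact small2 i j
      intro x y
      rw [this, this, (swap i0 i1).injective.eq_iff]
    refine ⟨_, mul_mem (inv_mem hh) hw2, ?_⟩
    have e2 : (swap u v * swap u' v')⁻¹ * (swap u v * swap u' w) = swap u' v' * swap u' w := by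
      simp [mul_assoc]
    rw [e2]
    exact Perm.isThreeCycle_swap_mul_swap_same hu'v' hw1 (Ne.symm hwv)

end Cfsg.Agent.S5909
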