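import Cfsg.Statements.S5910
import Cfsg.Agent.H99.Wreath

set_option autoImplicit false
open Cfsg

namespace Cfsg.Agent.S5910

open Equiv

def T (x y z : Fin 4 × Fin 2) : Fin 4 × Fin 2 := (x.1 ^^^ y.1 ^^^ z.1, x.2 + y.2 + z.2)

def L0 : Subgroup (Perm (Fin 4 × Fin 2)) where
  carrier := {g | ∀ x y z, g (T x y z) = T (g x) (g y) (g z)}
  mul_mem' {a b} ha hb x y z := by
    simp only [Perm.mul_apply]
    rw [hb, ha]
  one_mem' _ _ _ := rfl
  inv_mem' {a} ha x y z := by
    rw [Perm.inv_eq_iff_eq, ha]; simp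

theorem left_mem : ∀ σ : Perm (Fin 4), ∀ x y z : Fin 4, σ (x ^^^ y ^^^ z) = σ x ^^^ σ y ^^^ σ z := by
  decide +kernel

theorem right_mem : ∀ τ : Fin 4 → Perm (Fin 2), ∏ k, Perm.sign (τ k) = 1 →
    ∀ x y z : Fin 4 × Fin 2, τ (x.1 ^^^ y.1 ^^^ z.1) (x.2 + y.2 + z.2) =
      τ x.1 x.2 + τ y.1 y.2 + τ z.1 z.2 := by
  decide +kernel

theorem mem_L0 (g : Perm (Fin 4 × Fin 2)) (h : ∀ x y, x.1 = y.1 ↔ (g x).1 = (g y).1)
    (hs : Perm.sign g = 1) : g ∈ L0 := by
  have h1 : Function.Injective (fun i : Fin 4 => (g (i, 0)).1) := fun i j hij => (h (i, 0) (j, 0)).2 hij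
  have h2 : ∀ i, Function.Injective (fun j : Fin 2 => (g (i, j)).2) := by
    intro i j k hjk
    have : g (i, j) = g (i, k) := Prod.ext ((h (i, j) (i, k)).1 rfl) hjk
    simpa using this
  let σ : Perm (Fin 4) := Equiv.ofBijective _ (Finite.injective_iff_bijective.1 h1)
  let τ : Fin 4 → Perm (Fin 2) := fun i => Equiv.ofBijective _ (Finite.injective_iff_bijective.1 (h2 i))
  have hg : ∀ x, g x = (σ x.1, τ x.1 x.2) := fun x => Prod.ext ((h x (x.1, 0)).1 rfl) rfl
  have hg' : g = (prodCongrLeft fun _ => σ : Perm (Fin 4 × Fin 2)) * (prodCongrRight τ : Perm (Fin 4 × Fin 2)) := by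
    ext1 x
    rw [hg]; rfl
  rw [hg', map_mul, Perm.sign_prodCongrLeft, Perm.sign_prodCongrRight] at hs
  have hs' : ∏ k, Perm.sign (τ k) = 1 := by
    simpa using hs
  intro x y z
  rw [hg, hg, hg, hg]
  exact Prod.ext (left_mem σ _ _ _) (right_mem τ hs' _ _ _)

/-- Let Ω be a set with 8 elements and f : Ω → Fin 4 a labelling whose four fibres all have size 2 (a partition of the 8 points into 4 pairs). Then the group of even permutations preserving this partition, (S₂ ≀ S₄) ∩ A₈, is not a maximal subgroup of the alternating group A₈ (it lies in a subgroup isomorphic to the affine group AGL₃(2)). -/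
theorem result {Ω : Type*} [Fintype Ω] [DecidableEq Ω] (h8 : Fintype.card Ω = 8)
    (f : Ω → Fin 4) (hf : ∀ i : Fin 4, Nat.card {x : Ω // f x = i} = 2) :
    ¬ IsCoatom ((Subgroup.closure {g : Equiv.Perm Ω | ∀ x y : Ω, f x = f y ↔ f (g x) = f (g y)} ⊓ alternatingGroup Ω).subgroupOf (alternatingGroup Ω)) := by
  rw [H99.closure_partStab]
  obtain ⟨e, he⟩ := H99.exists_equiv_prod f hf
  have e1 : ∀ t : Perm (Fin 4 × Fin 2), e.permCongrHom (e.symm.permCongr t) = t := fun t => by
    ext1; simp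
  refine H99.not_isCoatom_subgroupOf_of (L0.comap e.permCongrHom.toMonoidHom) ?_ ?_ ?_
  · rintro g ⟨⟨hg1, hg2⟩, -⟩
    refine mem_L0 _ (fun x y => ?_) (by simpa using hg2)
    have := hg1 (e.symm x) (e.symm y)
    rw [← he, ← he, ← he, ← he] at this
    simpa using this
  · refine ⟨e.symm.permCongr (swap (1, 0) (0, 1) * swap (3, 0) (2, 1)), ?_, ?_, ?_⟩
    · show e.permCongrHom _ ∈ L0
      rw [e1]
      show ∀ x y z, _
      decide +kernel
    · rw [Perm.mem_alternatingGroup, Perm.sign_permCongr]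
      decide
    · rintro ⟨h, -⟩
      have := h (e.symm (0, 0)) (e.symm (0, 1))
      rw [← he, ← he, ← he, ← he] at this
      simp only [Equiv.permCongr_apply, symm_symm, apply_symm_apply] at this
      revert this
      decide
  · intro h
    have h1 : e.symm.permCongr (swap (0, 0) (0, 1) * swap (0, 0) (1, 0)) ∈ alternatingGroup Ω := by
      rw [Perm.mem_alternatingGroup, Perm.sign_permCongr]
      decide
    have h2 : e.permCongrHom _ ∈ L0 := h h1
    rw [e1] at h2
    have := h2 (0, 0) (2, 0) (2, 1)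
    revert this
    decide

end Cfsg.Agent.S5910
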