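import Cfsg.Statements.S5911
import Cfsg.Agent.H99.SymAut

set_option autoImplicit false
open Cfsg

namespace Cfsg.Agent.S5911

open Equiv MulAction

/-- Let Ω be a finite set whose size n is not 6. Then every subgroup of the symmetric group on Ω of index n is the stabilizer of a point. -/
theorem result {Ω : Type*} [Fintype Ω] [DecidableEq Ω] (h6 : Fintype.card Ω ≠ 6)
    (H : Subgroup (Equiv.Perm Ω)) (hH : H.index = Fintype.card Ω) :
    ∃ x : Ω, H = MulAction.stabilizer (Equiv.Perm Ω) x := by
  classical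
  have h0 : H.index ≠ 0 := Subgroup.index_ne_zero_of_finite
  by_cases h5 : 5 ≤ Fintype.card Ω
  · obtain ⟨φ, hφ⟩ := H99.exists_coset_equiv h5 H hH
    have hc : Fintype.card (Perm Ω ⧸ H) = Fintype.card Ω := by
      rw [← Nat.card_eq_fintype_card, ← Subgroup.index_eq_card, hH]
    have hall : ∀ s : Perm (Perm Ω ⧸ H), s.IsSwap → (φ.symm s).IsSwap := by
      intro s hs
      refine (H99.equiv_swap_cases φ.symm hs).resolve_right fun h => ?_
      have : Fact (Nat.Prime 2) := ⟨Nat.prime_two⟩
      obtain ⟨a, ha⟩ := Perm.exists_fixed_point_of_prime (p := 2) (n := 1) (σ := φ.symm s)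
        (by have := h.2; omega) (by
          obtain ⟨c, d, -, rfl⟩ := hs
          rw [pow_one, sq, ← map_mul]; simp)
      exact h.1 a ha
    obtain ⟨x, hx⟩ := H99.map_stabilizer_of_isSwap φ.symm hall (by omega) hc.symm ((1 : Perm Ω) : _ ⧸ H)
    rw [H99.map_symm_stabilizer φ hφ, stabilizer_quotient] at hx
    exact ⟨x, hx⟩
  suffices ∃ x : Ω, H ≤ stabilizer (Perm Ω) x by
    obtain ⟨x, hx⟩ := this
    exact ⟨x, H99.eq_stabilizer_of_le hH hx⟩
  have hcard := H.card_mul_index
  rw [Nat.card_perm, Nat.card_eq_fintype_card (α := Ω), hH] at hcard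
  obtain ⟨x⟩ : Nonempty Ω := Fintype.card_pos_iff.1 (by omega)
  have hcases : Fintype.card Ω = 1 ∨ Fintype.card Ω = 2 ∨ Fintype.card Ω = 3 ∨ Fintype.card Ω = 4 := by
    omega
  rcases hcases with h | h | h | h <;> rw [h] at hcard <;> simp only [Nat.factorial] at hcard
  · exact ⟨x, by rw [Subgroup.card_eq_one.1 (by omega : Nat.card H = 1)]; exact bot_le⟩
  · exact ⟨x, by rw [Subgroup.card_eq_one.1 (by omega : Nat.card H = 1)]; exact bot_le⟩
  · have : Fact (Nat.Prime 2) := ⟨Nat.prime_two⟩
    have hp : IsPGroup 2 H := IsPGroup.of_card (n := 1) (by omega)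
    obtain ⟨y, hy⟩ := hp.nonempty_fixed_point_of_prime_not_dvd_card Ω
      (by rw [Nat.card_eq_fintype_card, h]; decide)
    exact ⟨y, fun g hg => hy ⟨g, hg⟩⟩
  · have : Fact (Nat.Prime 3) := ⟨Nat.prime_three⟩
    obtain ⟨c, hc⟩ := exists_prime_orderOf_dvd_card' (G := H) 3 (by rw [show Nat.card H = 6 by omega]; decide)
    have hn : (Subgroup.zpowers c).Normal := by
      apply Subgroup.normal_of_index_eq_two
      have := (Subgroup.zpowers c).card_mul_index
      rw [Nat.card_zpowers, hc] at this
      omega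
    have hc' : orderOf (c : Perm Ω) = 3 := by rw [Subgroup.orderOf_coe, hc]
    obtain ⟨y, hy⟩ := Perm.exists_fixed_point_of_prime (p := 3) (n := 1) (σ := (c : Perm Ω))
      (by rw [h]; decide) (by rw [pow_one, ← hc', pow_orderOf_eq_one])
    have huniq : ∀ z, (c : Perm Ω) z = z → z = y := by
      intro z hz
      by_contra hne
      have h1 : (c : Perm Ω).support ⊆ Finset.univ \ {z, y} := by
        intro w hw
        rw [Perm.mem_support] at hw
        simp only [Finset.mem_sdiff, Finset.mem_univ, Finset.mem_insert, Finset.mem_singleton, true_and]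
        rintro (rfl | rfl)
        · exact hw hz
        · exact hw hy
      have h2 := Finset.card_le_card h1
      rw [Finset.card_univ_sdiff, Finset.card_pair hne, h] at h2
      have h3 := Perm.cycleType_prime_order (σ := (c : Perm Ω)) (by rw [hc']; exact Nat.prime_three)
      obtain ⟨k, hk⟩ := h3
      have h4 := Perm.sum_cycleType (c : Perm Ω)
      rw [hk, Multiset.sum_replicate, hc', smul_eq_mul] at h4
      omega
    refine ⟨y, fun g hg => ?_⟩
    obtain ⟨k, hk⟩ := hn.conj_mem c (Subgroup.mem_zpowers c) (⟨g, hg⟩ : H)⁻¹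
    have h1 : ((c : Perm Ω) ^ k) y = y := Perm.zpow_apply_eq_self_of_apply_eq_self hy k
    have h2 : (c : Perm Ω) ^ k = g⁻¹ * c * g := by simpa using congrArg Subtype.val hk
    rw [h2, Perm.mul_apply, Perm.mul_apply, Perm.inv_eq_iff_eq] at h1
    exact huniq _ h1

end Cfsg.Agent.S5911
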