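import Cfsg.Statements.S5912
import Cfsg.Agent.H99.SymAut

set_option autoImplicit false
open Cfsg

namespace Cfsg.Agent.S5912

open Equiv MulAction

/-- The symmetric group on a 6-element set Ω has exactly two conjugacy classes of subgroups of index 6: there are two non-conjugate subgroups of index 6 (a point stabilizer and a transitive subgroup isomorphic to S₅), and every subgroup of index 6 is conjugate to one of them. -/
theorem result {Ω : Type*} [Fintype Ω] [DecidableEq Ω] (h6 : Fintype.card Ω = 6) :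
    ∃ H₁ H₂ : Subgroup (Equiv.Perm Ω), H₁.index = 6 ∧ H₂.index = 6 ∧
      (¬ ∃ g : Equiv.Perm Ω, Subgroup.map (MulAut.conj g).toMonoidHom H₁ = H₂) ∧
      ∀ H : Subgroup (Equiv.Perm Ω), H.index = 6 →
        ∃ g : Equiv.Perm Ω, Subgroup.map (MulAut.conj g).toMonoidHom H₁ = H ∨ Subgroup.map (MulAut.conj g).toMonoidHom H₂ = H := by
  obtain ⟨K, hK, hK'⟩ := H99.exists_index_six h6
  obtain ⟨x⟩ : Nonempty Ω := Fintype.card_pos_iff.1 (by omega)
  refine ⟨stabilizer (Perm Ω) x, K, ?_, hK, ?_, fun H hH => ?_⟩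
  · rw [index_stabilizer_of_transitive, Nat.card_eq_fintype_card, h6]
  · rintro ⟨g, hg⟩
    rw [← stabilizer_smul_eq_stabilizer_map_conj] at hg
    exact hK' _ hg.symm
  · by_cases h : ∃ a : Ω, H = stabilizer (Perm Ω) a
    · obtain ⟨a, rfl⟩ := h
      obtain ⟨g, rfl⟩ := exists_smul_eq (Perm Ω) x a
      exact ⟨g, Or.inl (stabilizer_smul_eq_stabilizer_map_conj g x).symm⟩
    · push Not at h
      obtain ⟨q, rfl⟩ := H99.index_six_cases h6 hK hK' hH h
      obtain ⟨g, rfl⟩ := exists_smul_eq (Perm Ω) ((1 : Perm Ω) : _ ⧸ K) q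
      exact ⟨g, Or.inr (by rw [stabilizer_smul_eq_stabilizer_map_conj, stabilizer_quotient])⟩

end Cfsg.Agent.S5912
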