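import Cfsg.Statements.S5913

set_option autoImplicit false
open Cfsg

namespace Cfsg.Agent.S5913

/-- Let S be a non-abelian simple group and n a natural number. Every normal subgroup N of the direct power S^n (functions Fin n → S) is a subproduct: there is a set T of coordinates such that N consists exactly of the elements whose coordinates outside T are trivial. In particular the minimal normal subgroups of S^n are its n factors. -/
theorem result {S : Type*} [Group S] [IsSimpleGroup S] (hS : ¬ IsMulCommutative S) (n : ℕ)
    (N : Subgroup (Fin n → S)) [N.Normal] :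
    ∃ T : Finset (Fin n), ∀ x : Fin n → S, x ∈ N ↔ ∀ i, i ∉ T → x i = 1 := by
  classical
  refine ⟨Finset.univ.filter (fun i => ∃ x ∈ N, x i ≠ 1), fun x => ⟨fun hx i hi => ?_, fun hx => ?_⟩⟩
  · by_contra h
    exact hi (Finset.mem_filter.2 ⟨Finset.mem_univ _, x, hx, h⟩)
  · have key : ∀ i, (∃ y ∈ N, y i ≠ 1) → ∀ s : S, Pi.mulSingle i s ∈ N := by
      rintro i ⟨y, hy, hyi⟩ s
      let K : Subgroup S := N.comap (MonoidHom.mulSingle (fun _ : Fin n => S) i)
      have hKn : K.Normal := Subgroup.Normal.comap inferInstance _
      have hcen : Subgroup.center S = ⊥ := by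
        rcases (inferInstance : (Subgroup.center S).Normal).eq_bot_or_eq_top with h | h
        · exact h
        · exfalso
          apply hS
          refine ⟨⟨fun a b => ?_⟩⟩
          have : b ∈ Subgroup.center S := by rw [h]; trivial
          exact Subgroup.mem_center_iff.1 this a
      rcases hKn.eq_bot_or_eq_top with h | h
      · exfalso
        apply hyi
        have : y i ∈ Subgroup.center S := by
          rw [Subgroup.mem_center_iff]
          intro g
          have h1 : (Pi.mulSingle i g : Fin n → S) * y * (Pi.mulSingle i g)⁻¹ * y⁻¹ ∈ N :=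
            N.mul_mem (Subgroup.Normal.conj_mem inferInstance y hy _) (N.inv_mem hy)
          have h2 : (Pi.mulSingle i g : Fin n → S) * y * (Pi.mulSingle i g)⁻¹ * y⁻¹
              = Pi.mulSingle i (g * y i * g⁻¹ * (y i)⁻¹) := by
            funext j
            by_cases hj : j = i
            · subst hj; simp
            · simp [Pi.mulSingle_eq_of_ne hj]
          rw [h2] at h1
          have h3 : g * y i * g⁻¹ * (y i)⁻¹ ∈ K := h1
          rw [h, Subgroup.mem_bot] at h3
          calc g * y i = (g * y i * g⁻¹ * (y i)⁻¹) * (y i * g) := by group
            _ = y i * g := by rw [h3, one_mul]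
        rwa [hcen, Subgroup.mem_bot] at this
      · have : s ∈ K := by rw [h]; trivial
        exact this
    have : ∀ i, Pi.mulSingle i (x i) ∈ N := by
      intro i
      by_cases hi : ∃ y ∈ N, y i ≠ 1
      · exact key i hi _
      · have : x i = 1 := hx i (by simpa using hi)
        rw [this, Pi.mulSingle_one]; exact N.one_mem
    exact Subgroup.pi_mem_of_mulSingle_mem x this

end Cfsg.Agent.S5913
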