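import Cfsg.Statements.S5914
import Cfsg.Agent.S0721
import Cfsg.Agent.S5913

set_option autoImplicit false
open Cfsg

namespace Cfsg.Agent.S5914

/-- A non-trivial finite group G is characteristically simple (its only characteristic subgroups are 1 and G) if and only if G is isomorphic to a direct power S^n (n ≥ 1) of some simple group S (possibly cyclic of prime order). -/
theorem result {G : Type*} [Group G] [Finite G] [Nontrivial G] :
    (∀ H : Subgroup G, H.Characteristic → H = ⊥ ∨ H = ⊤) ↔
    ∃ (S : Type) (_ : Group S) (_ : IsSimpleGroup S) (n : ℕ), 1 ≤ n ∧ Nonempty (G ≃* (Fin n → S)) := by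
  classical
  constructor
  · intro h
    let H := G ⋊[MonoidHom.id (MulAut G)] MulAut G
    have : Finite H := Finite.of_equiv _ SemidirectProduct.equivProd.symm
    let N : Subgroup H := (SemidirectProduct.inl : G →* H).range
    have : N.Normal := by
      simp only [N, H]
      rw [SemidirectProduct.range_inl_eq_ker_rightHom]; infer_instance
    have hinj : Function.Injective (SemidirectProduct.inl : G →* H) := SemidirectProduct.inl_injective
    obtain ⟨T, _, m, hT, hm, ⟨e⟩⟩ := Cfsg.Agent.S0721.result N (by
      intro hN
      obtain ⟨g, hg⟩ := exists_ne (1 : G)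
      have : SemidirectProduct.inl g ∈ N := ⟨g, rfl⟩
      rw [hN, Subgroup.mem_bot] at this
      exact hg (hinj (this.trans (map_one _).symm))) (by
      intro M hM hMN
      have hc : (M.comap (SemidirectProduct.inl : G →* H)).Characteristic := by
        rw [Subgroup.characteristic_iff_le_comap]
        intro φ g hg
        have := hM.conj_mem _ hg (SemidirectProduct.inr φ)
        rw [← map_inv, ← SemidirectProduct.inl_aut] at this
        exact this
      have hM' : M = (M.comap (SemidirectProduct.inl : G →* H)).map SemidirectProduct.inl :=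
        (Subgroup.map_comap_eq_self hMN).symm
      rcases h _ hc with h1 | h1
      · left; rw [hM', h1, Subgroup.map_bot]
      · right; rw [hM', h1, ← MonoidHom.range_eq_map])
    exact ⟨T, inferInstance, hT, m, hm, ⟨(MonoidHom.ofInjective hinj).trans e⟩⟩
  · rintro ⟨S, _, _, n, hn, ⟨e⟩⟩ H hH
    suffices ∀ K : Subgroup (Fin n → S), (∀ φ : MulAut (Fin n → S), ∀ x ∈ K, φ x ∈ K) → K = ⊥ ∨ K = ⊤ by
      rcases this (H.map e.toMonoidHom) (by
        rintro φ _ ⟨x, hx, rfl⟩
        refine ⟨e.symm (φ (e x)), ?_, by simp⟩
        exact Subgroup.characteristic_iff_le_comap.1 hH (e.trans (φ.trans e.symm)) hx) with h | h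
      · left; exact (Subgroup.map_eq_bot_iff_of_injective _ e.injective).1 h
      · right
        apply Subgroup.map_injective (f := e.toMonoidHom) e.injective
        rw [h, Subgroup.map_top_of_surjective _ e.surjective]
    intro K hK
    rcases K.bot_or_exists_ne_one with h | ⟨x, hx, hx1⟩
    · exact Or.inl h
    right
    obtain ⟨i, hi⟩ : ∃ i, x i ≠ 1 := Function.ne_iff.1 hx1
    have hperm : ∀ (j k : Fin n) (s : S), Pi.mulSingle j s ∈ K → Pi.mulSingle k s ∈ K := by
      intro j k s hs
      have := hK (MulEquiv.arrowCongr (Equiv.swap j k) (MulEquiv.refl S)) _ hs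
      convert this using 1
      funext l
      simp only [MulEquiv.arrowCongr_apply, Equiv.symm_swap, MulEquiv.refl_apply, Pi.mulSingle_apply,
        Equiv.swap_apply_eq_iff, Equiv.swap_apply_left]
    suffices ∃ j, ∀ s : S, Pi.mulSingle j s ∈ K by
      obtain ⟨j, hj⟩ := this
      rw [eq_top_iff]
      intro y _
      exact Subgroup.pi_mem_of_mulSingle_mem y fun k => hperm j k _ (hj _)
    by_cases hS : IsMulCommutative S
    · have hgen : Subgroup.zpowers (x i) = ⊤ :=
        ((inferInstance : (Subgroup.zpowers (x i)).Normal).eq_bot_or_eq_top).resolve_left (by simpa using hi)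
      suffices ∃ j, Pi.mulSingle j (x i) ∈ K by
        obtain ⟨j, hj⟩ := this
        refine ⟨j, fun s => ?_⟩
        obtain ⟨k, rfl⟩ : s ∈ Subgroup.zpowers (x i) := by rw [hgen]; trivial
        rw [Pi.mulSingle_zpow]
        exact K.zpow_mem hj k
      by_cases hj : ∃ j, j ≠ i
      · obtain ⟨j, hj⟩ := hj
        let φ : MulAut (Fin n → S) :=
          { toFun := fun z => z * Pi.mulSingle j (z i)
            invFun := fun z => z * (Pi.mulSingle j (z i))⁻¹
            left_inv := fun z => by simp [Pi.mulSingle_eq_of_ne hj.symm]
            right_inv := fun z => by simp [Pi.mulSingle_eq_of_ne hj.symm]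
            map_mul' := fun y z => by
              rw [Pi.mul_apply, Pi.mulSingle_mul]
              funext l
              simp only [Pi.mul_apply]
              rw [mul_assoc, mul_assoc, ← mul_assoc (z l), hS.is_comm.comm (z l), mul_assoc] }
        exact ⟨j, (K.mul_mem_cancel_left hx).1 (hK φ x hx)⟩
      · push Not at hj
        refine ⟨i, ?_⟩
        convert hx using 1
        funext l
        rw [hj l]; simp
    · have : K.Normal := ⟨fun y hy g => hK (MulAut.conj g) y hy⟩
      obtain ⟨T, hT⟩ := Cfsg.Agent.S5913.result hS n K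
      refine ⟨i, fun s => (hT _).2 fun l hl => Pi.mulSingle_eq_of_ne (fun h => hi ?_) _⟩
      exact (hT x).1 hx i (h ▸ hl)

end Cfsg.Agent.S5914
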