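import Cfsg.Statements.S5938
import Cfsg.Agent.H93.L2Max

set_option autoImplicit false
open Cfsg

namespace Cfsg.Agent.S5938

open Cfsg.Agent.H28 Cfsg.Agent.H93.L2

/-- Let p be a prime with p ≡ ±1 (mod 8) and F a field with p elements. Then PSL_2(F) has a maximal subgroup isomorphic to the symmetric group S_4. -/
theorem result {F : Type*} [Field F] [Fintype F] (p : ℕ) [Fact p.Prime] (hF : Fintype.card F = p) (hp : p % 8 = 1 ∨ p % 8 = 7) : ∃ H : Subgroup (Matrix.ProjectiveSpecialLinearGroup (Fin 2) F), IsCoatom H ∧ Nonempty (H ≃* Equiv.Perm (Fin 4)) := by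
  classical
  rw [← Nat.card_eq_fintype_card] at hF
  have hc : CharP F p := charP_of_card_eq_prime (Nat.card_eq_fintype_card (α := F) ▸ hF)
  have h1 := Finite.one_lt_card (α := F)
  have h2 : (2 : F) ≠ 0 := two_ne_zero_of (by omega)
  obtain ⟨φ, hφ, e⟩ := exists_sym4 h2
  obtain ⟨e'⟩ := equiv_comap_range pslInc_injective hφ
    ((e.2 ((isSquare_two_iff (two_ne_zero_iff.1 h2)).2 (hF ▸ hp))).trans range_pslInc.ge)
  exact ⟨_, coatom_s4 pslInc_injective p range_pslInc hF (by omega) e', ⟨e'⟩⟩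

end Cfsg.Agent.S5938
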