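import Cfsg.Statements.S5941
import Cfsg.Agent.H93.L2Max

set_option autoImplicit false
open Cfsg

namespace Cfsg.Agent.S5941

open Cfsg.Agent.H28 Cfsg.Agent.H93.L2

/-- Let K and F be finite fields of odd characteristic with #F = (#K)². Then PSL_2(F) has a maximal subgroup isomorphic to PGL_2(K). -/
theorem result {F K : Type*} [Field F] [Fintype F] [Field K] [Fintype K] (q : ℕ) (hK : Fintype.card K = q) (hF : Fintype.card F = q ^ 2) (hq : Odd q) : ∃ H : Subgroup (Matrix.ProjectiveSpecialLinearGroup (Fin 2) F), IsCoatom H ∧ Nonempty (H ≃* Matrix.ProjGenLinGroup (Fin 2) K) := by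
  classical
  rw [← Nat.card_eq_fintype_card] at hF hK
  subst hK
  obtain ⟨K', ⟨e⟩⟩ := exists_subfield_equiv K hF
  have hc := Nat.card_congr e.toEquiv
  rw [hc] at hF hq
  have hle : subPGL K' ≤ (pslInc F).range :=
    (subPGL_le_pslIn fun y hy => isSquare_of_even hF even_two hy).trans range_pslInc.ge
  refine ⟨_, coatom_subPGL pslInc_injective range_pslInc hF hq (t := 1)
    ((Subgroup.map_comap_eq_self hle).trans (cj_one _).symm),
    ⟨(equiv_comap pslInc_injective hle).some.trans
      ((pglMapEquiv e).trans (subPGLEquiv K')).symm⟩⟩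

end Cfsg.Agent.S5941
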