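import Cfsg.Statements.S5942
import Cfsg.Agent.H93.L2Max

set_option autoImplicit false
open Cfsg

namespace Cfsg.Agent.S5942

open Cfsg.Agent.H28 Cfsg.Agent.H93.L2

/-- Let K and F be finite fields of odd characteristic with #F = (#K)^r for an odd prime r. Then PSL_2(F) has a maximal subgroup isomorphic to PSL_2(K). -/
theorem result {F K : Type*} [Field F] [Fintype F] [Field K] [Fintype K] (q r : ℕ) (hK : Fintype.card K = q) (hF : Fintype.card F = q ^ r) (hq : Odd q) (hr : r.Prime) (hr2 : r ≠ 2) : ∃ H : Subgroup (Matrix.ProjectiveSpecialLinearGroup (Fin 2) F), IsCoatom H ∧ Nonempty (H ≃* Matrix.ProjectiveSpecialLinearGroup (Fin 2) K) := by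
  classical
  rw [← Nat.card_eq_fintype_card] at hF hK
  subst hK
  obtain ⟨K', ⟨e⟩⟩ := exists_subfield_equiv K hF
  have hc := Nat.card_congr e.toEquiv
  rw [hc] at hF hq
  have hle : subPSL K' ≤ (pslInc F).range := (subPSL_le_pslIn K').trans range_pslInc.ge
  refine ⟨_, coatom_subPSL pslInc_injective range_pslInc hr hF
    (fun h => by rw [h] at hq; exact absurd hq (by decide)) (fun _ => hr2) (t := 1)
    ((Subgroup.map_comap_eq_self hle).trans (cj_one _).symm),
    ⟨(equiv_comap pslInc_injective hle).some.trans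
      ((H9.pslMapEquiv e).trans (subPSLEquiv K')).symm⟩⟩

end Cfsg.Agent.S5942
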