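import Cfsg.Statements.S5946
import Cfsg.Agent.H99.Singer

set_option autoImplicit false
open Cfsg

namespace Cfsg.Agent.S5946

/-- Let F ⊆ K be finite fields with [K : F] = n ≥ 2 and regard K as an n-dimensional F-vector space. The Singer group M ≤ GL_F(K) of multiplications by the non-zero elements of K is self-centralizing: every F-linear automorphism of K commuting with all of M lies in M. -/
theorem result {F K : Type*} [Field F] [Fintype F] [Field K] [Fintype K] [Algebra F K] (n : ℕ) (hn : 2 ≤ n) (hdim : Module.finrank F K = n) :
    Subgroup.centralizer (((Units.map ((Algebra.lmul F K : K →ₐ[F] Module.End F K) : K →* Module.End F K)).range : Subgroup (Module.End F K)ˣ) : Set (Module.End F K)ˣ) = (Units.map ((Algebra.lmul F K : K →ₐ[F] Module.End F K) : K →* Module.End F K)).range := by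
  refine le_antisymm (fun g hg => H99.mem_SM_of_comm fun c x => ?_) fun g hg => ?_
  · rcases eq_or_ne c 0 with rfl | hc
    · simp
    exact (LinearMap.congr_fun (congrArg Units.val (hg _ ⟨Units.mk0 c hc, rfl⟩)) x).symm
  · rintro _ ⟨c, rfl⟩
    obtain ⟨d, rfl⟩ := hg
    rw [← map_mul, mul_comm, map_mul]

end Cfsg.Agent.S5946
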