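import Cfsg.Statements.S5997
import Cfsg.Agent.H93.L2Conj

set_option autoImplicit false
open scoped MatrixGroups
open Cfsg

namespace Cfsg.Agent.S5997

open Cfsg.Agent.H28 Cfsg.Agent.H93.L2 Cfsg.Agent.H23.Pgl

section

open Matrix Matrix.ProjGenLinGroup QuaternionGroup
open scoped MatrixGroups

theorem q8 : ∃ a b : QuaternionGroup 2, b * b = a * a ∧ a * a * (a * a) = 1 ∧ a * a ≠ 1 ∧
    a * b ≠ b * a ∧ b * a = a * a * (a * b) ∧ a * a * b = b * (a * a) ∧
    ∀ g, ∃ v, (v = 1 ∨ v = a ∨ v = b ∨ v = a * b) ∧ (g = v ∨ g = a * a * v) :=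
  ⟨a 1, xa 0, by decide +kernel⟩

variable {F : Type*} [Field F]

theorem not_dvd_small' {p a : ℕ} (hp : p.Prime) (h2 : p ≠ 2) (h3 : p ≠ 3) : ¬ p ∣ 2 ^ a * 3 :=
  fun h => by
    rcases hp.dvd_mul.1 h with h | h
    · exact h2 ((Nat.prime_dvd_prime_iff_eq hp Nat.prime_two).1 (hp.dvd_of_dvd_pow h))
    · exact h3 ((Nat.prime_dvd_prime_iff_eq hp Nat.prime_three).1 h)

theorem mem_sl {x : GL (Fin 2) F} : x ∈ Cfsg.Geo.specialLinear (Fin 2) F ↔ gdet x = 1 := by
  rw [gdet_eq, Cfsg.Geo.specialLinear, MonoidHom.mem_ker, Units.ext_iff]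
  rfl

theorem mk_eq_one {x : GL (Fin 2) F} : ProjGenLinGroup.mk x = 1 ↔
    ∃ z : F, (x : Matrix (Fin 2) (Fin 2) F) = z • (1 : Matrix (Fin 2) (Fin 2) F) := by
  rw [← map_one ProjGenLinGroup.mk, eq_comm, mk_eq_iff]
  rfl

theorem exists_pair_q8 [Finite F] (h2 : (2 : F) ≠ 0) {R : Subgroup (GL (Fin 2) F)}
    (e : R ≃* QuaternionGroup 2) : ∃ s t, IsPair s t ∧
      ∀ x, x ∈ R ↔ ProjGenLinGroup.mk x ∈ vier s t ∧ gdet x = 1 := by
  obtain ⟨a, b, r1, r2, r3, r4, r5, r6, r7⟩ := q8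
  let f : QuaternionGroup 2 →* GL (Fin 2) F := R.subtype.comp e.symm.toMonoidHom
  have hf : Function.Injective f := Subtype.val_injective.comp e.symm.injective
  have nc : (f a : Matrix (Fin 2) (Fin 2) F) * f b ≠ f b * f a := fun h =>
    r4 (hf (by rw [map_mul, map_mul]; exact Units.ext h))
  have hz : ProjGenLinGroup.mk (f (a * a)) = 1 := by
    by_contra h
    refine nc (H66.commute_of_commute_nonSc (mk_ne_one_iff.1 h) ?_ ?_)
    · rw [← Units.val_mul, ← Units.val_mul, ← map_mul, ← map_mul, mul_assoc]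
    · rw [← Units.val_mul, ← Units.val_mul, ← map_mul, ← map_mul, r6]
  have hz' : (f (a * a) : Matrix (Fin 2) (Fin 2) F) = -1 := by
    obtain ⟨c, hc⟩ := mk_eq_one.1 hz
    have h1 : (f (a * a) : Matrix (Fin 2) (Fin 2) F) * f (a * a) = 1 := by
      rw [← Units.val_mul, ← map_mul, r2, map_one, Units.val_one]
    rw [hc] at h1
    have h3 : c * c = 1 := by simpa using congrFun (congrFun h1 0) 0
    rcases mul_self_eq_one_iff.1 h3 with rfl | rfl
    · exact absurd (hf (Units.ext (by rw [hc]; simp))) r3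
    · rw [hc]; simp
  have n1 : ∀ x y : GL (Fin 2) F, (x : Matrix (Fin 2) (Fin 2) F) * y ≠ y * x →
      ProjGenLinGroup.mk x ≠ 1 := fun x y h e => by
    obtain ⟨c, hc⟩ := mk_eq_one.1 e
    exact h (by rw [hc]; simp)
  have d1 : ∀ x, x * x = a * a → ProjGenLinGroup.mk (f x) ≠ 1 →
      ProjGenLinGroup.mk (f x) * ProjGenLinGroup.mk (f x) = 1 ∧ gdet (f x) = 1 := fun x h h1 => by
    have h3 : ProjGenLinGroup.mk (f x) * ProjGenLinGroup.mk (f x) = 1 := by
      rw [← map_mul, ← map_mul, h, hz]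
    have h4 := sq_of_tr (X := f x)
    rw [gtr_of_mul_self h3 h1, ← Units.val_mul, ← map_mul, h, hz'] at h4
    exact ⟨h3, by simpa [eq_comm] using congrFun (congrFun h4 0) 0⟩
  obtain ⟨a1, a2⟩ := d1 a rfl (n1 _ _ nc)
  obtain ⟨b1, b2⟩ := d1 b r1 (n1 _ _ nc.symm)
  have hp : IsPair (ProjGenLinGroup.mk (f a)) (ProjGenLinGroup.mk (f b)) :=
    ⟨mem_pslIn_iff.2 (by simp [a2]), mem_pslIn_iff.2 (by simp [b2]), a1, b1, n1 _ _ nc,
      n1 _ _ nc.symm, fun e => by
        obtain ⟨c, hc⟩ := mk_eq_iff.1 e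
        exact nc (by rw [hc]; simp),
      by rw [← map_mul, ← map_mul f, r5, map_mul f, map_mul, hz, one_mul, map_mul f, map_mul]⟩
  have key : ∀ v, (v = 1 ∨ v = a ∨ v = b ∨ v = a * b) →
      ProjGenLinGroup.mk (f v) ∈ vier (ProjGenLinGroup.mk (f a)) (ProjGenLinGroup.mk (f b)) ∧
        gdet (f v) = 1 := by
    rintro _ (rfl | rfl | rfl | rfl) <;> rw [hp.mem_vier h2]
    · simp [gdet]
    · simp [a2]
    · simp [b2]
    · simp [a2, b2, gdet_mul]
  refine ⟨_, _, hp, fun x => ⟨fun hx => ?_, fun ⟨h1, h3⟩ => ?_⟩⟩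
  · obtain ⟨v, hv, h⟩ := r7 (e ⟨x, hx⟩)
    have e1 : x = f (e ⟨x, hx⟩) := by simp [f]
    rw [e1]
    rcases h with h | h <;> rw [h]
    · exact key v hv
    · rw [map_mul f (a * a), map_mul, hz, one_mul, gdet_mul, map_mul f, gdet_mul, a2]
      simpa using key v hv
  · obtain ⟨v, hv, h⟩ : ∃ v, (v = 1 ∨ v = a ∨ v = b ∨ v = a * b) ∧
        ProjGenLinGroup.mk (f v) = ProjGenLinGroup.mk x := by
      rcases (hp.mem_vier h2).1 h1 with h | h | h | h <;> rw [h]
      exacts [⟨1, by simp, by simp⟩, ⟨a, by simp, rfl⟩, ⟨b, by simp, rfl⟩, ⟨a * b, by simp, by simp⟩]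
    obtain ⟨c, hc⟩ := mk_eq_iff.1 h
    have h4 : c * c = 1 := by
      rw [gdet_eq, hc, det_smul, ← gdet_eq, (key v hv).2] at h3
      simpa [pow_two] using h3
    rcases mul_self_eq_one_iff.1 h4 with rfl | rfl
    · rw [show x = f v from Units.ext (by simpa using hc)]
      exact Subtype.prop _
    · rw [show x = f (a * a * v) from Units.ext (by
        rw [map_mul f (a * a), Units.val_mul, hz', hc]; simp)]
      exact Subtype.prop _

end

/-- Elements of prime order of PSL_2(p) and the normalizer of a quaternion subgroup. Here `T = PSL_2(F)` for the field `F` with `p` elements, `p ≥ 5` prime; `R` is a subgroup of GL_2(F) isomorphic to the quaternion group of order 8 (an absolutely irreducible 2-group of symplectic type), and `H` is the subgroup of matrices of determinant 1 normalizing `R` — a subgroup of type 2^{1+2}.O₂⁻(2), isomorphic modulo scalars to A₄ or S₄ (maximality is not assumed). Ω is the set of cosets of `H` in `T`, so an element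 of `T` of prime order `r` (a matrix `x` of determinant 1 with `x^r` scalar, `x` not scalar) fixes a point of Ω exactly when some conjugate of `x` by a matrix of determinant 1 normalizes `R`. Let `r` be a prime dividing the index of `H`. Then every element of `T` of order `r` fixes a point of Ω if and only if `r = 2` or `r = 3`. -/
theorem result {F : Type*} [Field F] [Fintype F] {p : ℕ} [Fact p.Prime] [CharP F p] (hF : Fintype.card F = p) (hp : 5 ≤ p)
    (R : Subgroup (GL (Fin 2) F)) (hR : Nonempty (↥R ≃* QuaternionGroup 2))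
    (r : ℕ) [Fact r.Prime]
    (hΩ : r ∣ (Cfsg.Geo.subgroupNormalizer R).relIndex (Cfsg.Geo.specialLinear (Fin 2) F)) :
    (∀ x ∈ Cfsg.Geo.specialLinear (Fin 2) F, (∃ z : F, ((x ^ r : GL (Fin 2) F) : Matrix (Fin 2) (Fin 2) F) = z • (1 : Matrix (Fin 2) (Fin 2) F)) →
      (∀ z : F, (x : Matrix (Fin 2) (Fin 2) F) ≠ z • (1 : Matrix (Fin 2) (Fin 2) F)) →
      ∃ g ∈ Cfsg.Geo.specialLinear (Fin 2) F, g⁻¹ * x * g ∈ Cfsg.Geo.subgroupNormalizer R) ↔ (r = 2 ∨ r = 3) := by
  classical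
  have hr : r.Prime := Fact.out
  have hpp : p.Prime := Fact.out
  rw [← Nat.card_eq_fintype_card] at hF
  have h2 : (2 : F) ≠ 0 := two_ne_zero_of ((odd_card_iff p).2 (by omega))
  obtain ⟨s, t, hp', hm⟩ := exists_pair_q8 h2 hR.some
  have hN : ∀ g, g ∈ Cfsg.Geo.subgroupNormalizer R ↔ Matrix.ProjGenLinGroup.mk g ∈
      Subgroup.normalizer (vier s t : Set (Matrix.ProjGenLinGroup (Fin 2) F)) := fun g => by
    constructor
    · intro hg
      refine Subgroup.mem_normalizer_fintype fun y hy => ?_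
      obtain ⟨Y, rfl, hY⟩ := exists_lift (hp'.vier_le h2 hp'.ms hp'.mt hy)
      simpa using ((hm _).1 ((Subgroup.mem_normalizer_iff.1 hg Y).1 ((hm Y).2 ⟨hy, hY⟩))).1
    · intro hg
      refine Subgroup.mem_normalizer_iff.2 fun x => ?_
      rw [hm, hm, gdet_conj, map_mul, map_mul, map_inv, ← Subgroup.mem_normalizer_iff.1 hg]
  obtain ⟨φ, hφ, e, -⟩ := hp'.exists_sym4 h2
  constructor
  · intro h
    by_cases h2' : r = 2
    · exact Or.inl h2'
    obtain ⟨⟨x, hx⟩, ho⟩ := exists_prime_orderOf_dvd_card' r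
      (hΩ.trans (Subgroup.relIndex_dvd_card _ _))
    rw [← Subgroup.orderOf_coe] at ho
    have hxr : x ^ r = 1 := ho ▸ pow_orderOf_eq_one x
    have hx1 : Matrix.ProjGenLinGroup.mk x ≠ 1 := fun e => by
      obtain ⟨c, hc⟩ := mk_eq_one.1 e
      have h3 := mem_sl.1 hx
      rw [gdet_eq, hc] at h3
      have : x ^ 2 = 1 := Units.ext (by
        rw [pow_two, Units.val_mul, hc]
        simp only [Matrix.det_smul, Fintype.card_fin, Matrix.det_one, mul_one] at h3
        rw [Matrix.smul_mul, Matrix.mul_smul, smul_smul, ← pow_two, h3]; simp)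
      rw [← orderOf_dvd_iff_pow_eq_one, ho] at this
      exact h2' ((Nat.prime_dvd_prime_iff_eq hr Nat.prime_two).1 this)
    obtain ⟨g, -, hg⟩ := h x hx ⟨1, by simp [hxr]⟩ fun z hz => hx1 (mk_eq_one.2 ⟨z, hz⟩)
    rw [hN, e] at hg
    have h4 := Subgroup.orderOf_dvd_natCard _ hg
    rw [card_range_of_injective hφ, card_sym4, orderOf_eq_prime (p := r) (by
      rw [← map_pow, ← inv_inv g, inv_inv g⁻¹, conj_pow, hxr]; simp) (fun e => hx1 (by
        rw [map_mul, map_mul, map_inv, mul_assoc, inv_mul_eq_one, eq_comm, mul_eq_right] at e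
        exact e))] at h4
    by_contra hh
    push Not at hh
    exact not_dvd_small' (a := 3) hr hh.1 hh.2 h4
  · intro h x hx hxr hx1
    have a1 : Matrix.ProjGenLinGroup.mk x ∈ pslIn F := mem_pslIn_iff.2 (by simp [mem_sl.1 hx])
    have a2 : Matrix.ProjGenLinGroup.mk x ^ r = 1 := by rw [← map_pow]; exact mk_eq_one.2 hxr
    have a3 : Matrix.ProjGenLinGroup.mk x ≠ 1 := fun e => (mk_eq_one.1 e).elim hx1
    obtain ⟨y, hy, g, hg, e'⟩ : ∃ y ∈ φ.range, ∃ g ∈ pslIn F,
        g * y * g⁻¹ = Matrix.ProjGenLinGroup.mk x := by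
      rcases h with rfl | rfl
      · exact ⟨s, e ▸ Subgroup.le_normalizer ((hp'.mem_vier h2).2 (by simp)),
          exists_conj_of_pow_two h2 hp'.ms a1 (by rw [pow_two, hp'.ss]) a2 hp'.s1 a3⟩
      · obtain ⟨c, -, c3, c1, -⟩ := s4_three
        have : φ c = φ (c * c) * φ (c * c) := by
          rw [← map_mul, ← mul_one c, ← c3]; simp [pow_succ, mul_assoc, ← pow_three, c3]
        refine ⟨φ c, ⟨c, rfl⟩, exists_conj_of_pow_three ?_ (this ▸ sq_mem_pslIn _) a1
          (by rw [← map_pow, c3, map_one]) a2 ((map_ne_one_iff φ hφ).2 c1) a3⟩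
        intro e3
        have := (CharP.cast_eq_zero_iff F p 3).1 (by exact_mod_cast e3)
        have := Nat.le_of_dvd (by omega) this
        omega
    obtain ⟨g, rfl, hg'⟩ := exists_lift hg
    refine ⟨g, mem_sl.2 hg', ?_⟩
    rw [hN, e, map_mul, map_mul, map_inv, ← e']
    simpa [mul_assoc] using hy

end Cfsg.Agent.S5997
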